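import Cfsg.Statements.S0941
import Cfsg.Agent.Blocks.Covering
import Cfsg.Agent.Clifford.RepBasic


set_option autoImplicit false
open Cfsg

namespace Cfsg.Agent.S0941

open CfsgLib.Blocks CfsgLib.CharBasics

/-- Let P be a normal p-subgroup of the finite group G such that the index of C_G(P) is a power of p, and fix a maximal ideal M of the algebraic integers containing p. Then (i) two irreducible characters of G ⧸ P lie in the same block if and only if their inflations to G do, and (ii) every block of G contains the inflation of some irreducible character of G ⧸ P; so inflation induces a bijection between the blocks of G ⧸ P and the blocks of G. -/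
theorem result {G : Type*} [Group G] [Finite G] (p : ℕ) [Fact p.Prime] (M : Ideal Cfsg.AlgInt) (hM : Cfsg.IsPModular p M) (P : Subgroup G) [P.Normal] (hP : IsPGroup p P) (hC : ∃ k : ℕ, (Subgroup.centralizer (P : Set G)).index = p ^ k) : (∀ χ ψ : Cfsg.IrrCharacter (G ⧸ P), Cfsg.SameBlock M (χ : G ⧸ P → ℂ) (ψ : G ⧸ P → ℂ) ↔ Cfsg.SameBlock M ((χ : G ⧸ P → ℂ) ∘ QuotientGroup.mk) ((ψ : G ⧸ P → ℂ) ∘ QuotientGroup.mk)) ∧ ∀ B : Set (Cfsg.IrrCharacter G), Cfsg.IsPBlock M B → ∃ χ : Cfsg.IrrCharacter (G ⧸ P), ∃ θ ∈ B, (θ : G → ℂ) = (χ : G ⧸ P → ℂ) ∘ QuotientGroup.mk := by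
  classical
  haveI := Fintype.ofFinite G
  haveI : Fintype (G ⧸ P) := Fintype.ofFinite _
  haveI : Fintype (ConjClasses (G ⧸ P)) := Fintype.ofFinite _
  have hp : p.Prime := hM.1
  have hcop : ∀ {A : Type _} [Group A] (a : A) (n : ℕ), a ^ p ^ n = 1 → ¬ p ∣ orderOf a → a = 1 := by
    intro A _ a n ha hna
    obtain ⟨j, -, hj⟩ := (Nat.dvd_prime_pow hp).1 (orderOf_dvd_of_pow_eq_one ha)
    cases j with
    | zero => exact orderOf_eq_one_iff.1 (by rw [hj, pow_zero])
    | succ j => exact absurd (hj ▸ dvd_pow_self p (Nat.succ_ne_zero j)) hna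
  have hregC : ∀ g : G, ¬ p ∣ orderOf g → g ∈ Subgroup.centralizer (P : Set G) := by
    intro g hg
    obtain ⟨k, hk⟩ := hC
    rw [← QuotientGroup.eq_one_iff]
    refine hcop _ k ?_ fun h => hg (h.trans (orderOf_map_dvd (QuotientGroup.mk' _) g))
    rw [← hk, Subgroup.index_eq_card]
    exact pow_card_eq_one'
  have huniq : ∀ g u : G, ¬ p ∣ orderOf g → u ∈ P → ¬ p ∣ orderOf (g * u) → u = 1 := by
    intro g u hg hu hgu
    have hc : Commute g u := (Subgroup.mem_centralizer_iff.1 (hregC g hg) u hu).symm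
    have hn : (g * u) ^ (orderOf g * orderOf (g * u)) = 1 := by
      rw [mul_comm, pow_mul, pow_orderOf_eq_one, one_pow]
    rw [hc.mul_pow, pow_mul g, pow_orderOf_eq_one, one_pow, one_mul] at hn
    obtain ⟨k, hk⟩ := hP ⟨u, hu⟩
    refine hcop u k (congrArg Subtype.val hk) fun h => ?_
    exact (hp.dvd_mul.1 (h.trans (orderOf_dvd_of_pow_eq_one hn))).elim hg hgu
  have hcc : ∀ (φ : G ⧸ P → ℂ) (g : G), ¬ p ∣ orderOf g →
      centralChar (φ ∘ QuotientGroup.mk) g = centralChar φ (g : G ⧸ P) := by
    intro φ g hg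
    have e : (Subgroup.centralizer ({g} : Set G)).index =
        (Subgroup.centralizer ({(g : G ⧸ P)} : Set (G ⧸ P))).index := by
      rw [← Subgroup.index_comap_of_surjective _ (QuotientGroup.mk'_surjective P)]
      congr 1
      ext x
      rw [Subgroup.mem_comap, Subgroup.mem_centralizer_singleton_iff, Subgroup.mem_centralizer_singleton_iff]
      refine ⟨fun h => congrArg (QuotientGroup.mk' P) h, fun h => ?_⟩
      have hu : g⁻¹ * (x * g * x⁻¹) ∈ P := by
        rw [← QuotientGroup.eq]
        change (g : G ⧸ P) = QuotientGroup.mk' P (x * g * x⁻¹)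
        rw [map_mul, map_mul, map_inv]
        exact eq_mul_inv_of_mul_eq h.symm
      have hord : orderOf (x * g * x⁻¹) = orderOf g :=
        orderOf_injective (MulAut.conj x).toMonoidHom (MulAut.conj x).injective g
      have h1 := huniq g _ hg hu (by rw [mul_inv_cancel_left, hord]; exact hg)
      have h2 : x * g * x⁻¹ = g := (inv_mul_eq_one.1 h1).symm
      exact mul_inv_eq_iff_eq_mul.1 h2
    simp only [centralChar, Function.comp_apply, e, QuotientGroup.mk_one]
  have hlift : ∀ q : G ⧸ P, ¬ p ∣ orderOf q → ∃ g : G, (g : G ⧸ P) = q ∧ ¬ p ∣ orderOf g := by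
    intro q hq
    obtain ⟨g, rfl⟩ := QuotientGroup.mk_surjective q
    obtain ⟨x, y, hxy, hcm, ⟨k, hx⟩, hy, -, -⟩ := CfsgLib.ZStar.exists_pPart hp g
    refine ⟨y, ?_, hy⟩
    have hx1 : ((x : G) : G ⧸ P) = 1 := by
      refine hcop _ k ?_ fun h => hq ?_
      · rw [← QuotientGroup.mk_pow, ← hx, pow_orderOf_eq_one]; rfl
      have hcm' : Commute (x : G ⧸ P) (y : G ⧸ P) := hcm.map (QuotientGroup.mk' P)
      have hcop' : Nat.Coprime (orderOf (x : G ⧸ P)) (orderOf (y : G ⧸ P)) := by
        refine Nat.Coprime.of_dvd (orderOf_map_dvd (QuotientGroup.mk' P) x) (orderOf_map_dvd (QuotientGroup.mk' P) y) ?_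
        rw [hx]; exact (hp.coprime_iff_not_dvd.2 hy).pow_left k
      rw [← hxy, QuotientGroup.mk_mul, hcm'.orderOf_mul_eq_mul_orderOf_of_coprime hcop']
      exact h.mul_right _
    rw [← hxy, QuotientGroup.mk_mul, hx1, one_mul]
  refine ⟨fun χ ψ => ⟨sameBlock_inflate hM, fun h => ?_⟩, fun B hB => ?_⟩
  · have hBb := isPBlock_blockOf M χ
    have hdiff : MemLocalIdeal M (omega (χ : G ⧸ P → ℂ) (blockElt (blockOf M (χ : G ⧸ P → ℂ))) -
        omega (ψ : G ⧸ P → ℂ) (blockElt (blockOf M (χ : G ⧸ P → ℂ)))) := by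
      rw [omega_eq_sum_classes χ (isClassElt_blockElt _), omega_eq_sum_classes ψ (isClassElt_blockElt _),
        ← Finset.sum_sub_distrib]
      refine memLocalIdeal_sum hM _ fun C _ => ?_
      rw [← mul_sub, coeff_blockElt]
      by_cases hq : p ∣ orderOf C.out
      · rw [blockCoeff_eq_zero hM hBb hq, zero_mul]; exact memLocalIdeal_zero hM
      obtain ⟨g, hg, hgr⟩ := hlift _ hq
      refine memLocalIdeal_mul_left hM (memLocalRing_blockCoeff hM hBb _) ?_
      rw [← hg, ← hcc _ g hgr, ← hcc _ g hgr]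
      exact h g
    rw [omega_blockElt, omega_blockElt, if_pos (mem_blockOf_self hM χ)] at hdiff
    by_contra hne
    rw [if_neg (show ψ ∉ blockOf M (χ : G ⧸ P → ℂ) from hne), sub_zero] at hdiff
    exact not_memLocalIdeal_one hM hdiff
  · obtain ⟨χ₀, hχ₀⟩ := IsPBlock.nonempty hM hB
    by_contra hcon
    push Not at hcon
    let w : G ⧸ P → ℂ := fun q => ∑ g : G, if (g : G ⧸ P) = q then blockCoeff B g else 0
    have hwc : IsClassElt (ofFun w) := by
      intro q r
      obtain ⟨y, rfl⟩ := QuotientGroup.mk_surjective r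
      simp only [coeff_ofFun, w]
      refine Fintype.sum_equiv (MulAut.conj y⁻¹).toEquiv _ _ fun g => ?_
      have hcl := isClassElt_blockElt B g y⁻¹
      simp only [coeff_blockElt] at hcl
      simp only [MulEquiv.toEquiv_eq_coe, EquivLike.coe_coe, MulAut.conj_apply, inv_inv] at hcl ⊢
      refine if_congr ?_ hcl.symm rfl
      rw [QuotientGroup.mk_mul, QuotientGroup.mk_mul, QuotientGroup.mk_inv]
      constructor
      · intro h; rw [h]; group
      · intro h; rw [← h]; group
    have hw : ofFun w = 0 := by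
      refine eq_of_omega_eq hwc (fun _ _ => rfl) fun φ => ?_
      have hirr := CfsgLib.Clifford.isIrrCharacter_comp φ.2 (QuotientGroup.mk' P) (QuotientGroup.mk'_surjective P)
      let θ : IrrCharacter G := ⟨_, hirr⟩
      have h0 : omega (θ : G → ℂ) (blockElt B) = 0 := by
        rw [omega_blockElt, if_neg]
        exact fun hθ => hcon φ θ hθ rfl
      have e : omega (φ : G ⧸ P → ℂ) (ofFun w) = omega (θ : G → ℂ) (blockElt B) := by
        simp only [omega, coeff_ofFun, w, coeff_blockElt, Finset.sum_mul]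
        rw [Finset.sum_comm]
        congr 1
        · refine Finset.sum_congr rfl fun g _ => ?_
          rw [Finset.sum_eq_single (g : G ⧸ P) (fun q _ hq => by rw [if_neg (Ne.symm hq), zero_mul]) (by simp), if_pos rfl]
          rfl
      rw [e, h0, omega]
      simp
    have hzero : blockElt B = 0 := by
      ext g
      rw [coeff_blockElt, MonoidAlgebra.coeff_zero, Finsupp.zero_apply]
      by_cases hg : p ∣ orderOf g
      · exact blockCoeff_eq_zero hM hB hg
      have h1 : (ofFun w).coeff (g : G ⧸ P) = 0 := by rw [hw]; simp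
      rw [coeff_ofFun] at h1
      rw [← h1]; simp only [w]; rw [Finset.sum_eq_single g]
      · rw [if_pos rfl]
      · intro h _ hne
        split_ifs with he
        · by_cases hh : p ∣ orderOf h
          · exact blockCoeff_eq_zero hM hB hh
          · refine absurd ?_ hne
            have h2 := huniq g (g⁻¹ * h) hg (QuotientGroup.eq.1 he.symm) (by rwa [mul_inv_cancel_left])
            exact (inv_mul_eq_one.1 h2).symm
        · rfl
      · simp
    have h1 : omega (χ₀ : G → ℂ) (blockElt B) = 1 := by rw [omega_blockElt, if_pos hχ₀]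
    rw [hzero, omega] at h1
    simp at h1

end Cfsg.Agent.S0941
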