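import Cfsg.Statements.S4539
import Cfsg.Agent.Blocks.Major
import Cfsg.Agent.Blocks.Forms
-- import your own Cfsg.Agent.* helpers here

set_option autoImplicit false
set_option linter.style.haveILetI false
open Cfsg CfsgLib CfsgLib.Blocks CfsgLib.CharBasics Polynomial
open scoped ComplexConjugate

namespace Cfsg.Agent.S4539

/-- Let B be a p-block of the finite group G (relative to a maximal ideal M of the algebraic integers containing p) of defect d with defect group D. Let z be an element of D commuting with every element of D, and let b be a block of the centralizer C of z with defect group D that induces B (a major subsection (z, b)). If b has p-regular rank at most two, then B contains at most p ^ d irreducible characters. -/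
theorem result {G : Type*} [Group G] [Finite G] (p : ℕ) [Fact p.Prime] (M : Ideal Cfsg.AlgInt) (hM : Cfsg.IsPModular p M) (B : Set (Cfsg.IrrCharacter G)) (hB : Cfsg.IsPBlock M B) (D : Subgroup G) (hD : Cfsg.IsDefectGroup p M B D) (z : G) (hzD : z ∈ D) (hzc : ∀ d ∈ D, d * z = z * d) (b : Set (Cfsg.IrrCharacter ↥(Subgroup.centralizer ({z} : Set G)))) (hb : Cfsg.IsInducedBlock M (Subgroup.centralizer ({z} : Set G)) b B) (hbD : Cfsg.IsDefectGroup p M b (D.subgroupOf (Subgroup.centralizer ({z} : Set G)))) (hl : Cfsg.blockRank p b ≤ 2) : Nat.card B ≤ p ^ Cfsg.blockDefect p B := by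
  classical
  haveI : Fintype G := Fintype.ofFinite G
  haveI : Fintype (IrrCharacter G) := @Fintype.ofFinite _ finite_irrCharacter
  haveI : Fintype (Subgroup.centralizer ({z} : Set G)) := Fintype.ofFinite _
  haveI : Fintype (IrrCharacter (Subgroup.centralizer ({z} : Set G))) := @Fintype.ofFinite _ finite_irrCharacter
  have hx : ∃ k : ℕ, orderOf z = p ^ k := by
    obtain ⟨k, -, hk⟩ := (Nat.dvd_prime_pow hM.1).1 (show orderOf z ∣ p ^ blockDefect p B by
      rw [← card_defectGroup hM hB hD]; exact Subgroup.orderOf_dvd_natCard D hzD)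
    exact ⟨k, hk⟩
  have hle : D ≤ Subgroup.centralizer ({z} : Set G) := fun d hd =>
    Subgroup.mem_centralizer_singleton_iff.2 (hzc d hd)
  have hdefb : blockDefect p b = blockDefect p B := by
    have h1 := card_defectGroup hM hb.1 hbD
    rw [Nat.card_congr (Subgroup.subgroupOfEquivOfLe hle).toEquiv, card_defectGroup hM hB hD] at h1
    exact (Nat.pow_right_injective hM.1.two_le h1).symm
  obtain ⟨ξ₀, h₀, hmin₀, he₀⟩ := exists_min_degExp hM hb.1
  obtain ⟨χ₁, hχ₁, hmin₁, he₁⟩ := exists_min_degExp hM hb.2.1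
  have hh1 : blockHeight p B (χ₁ : G → ℂ) = 0 := by rw [blockHeight_eq he₁, Nat.sub_self]
  have hdef' : blockDefect p B =
      (Nat.card (Subgroup.centralizer ({z} : Set G))).factorization p - degExp p ξ₀ := by
    rw [← hdefb, blockDefect_eq he₀]
  obtain ⟨k, hk⟩ := hx
  have hx : ∃ k : ℕ, orderOf z = p ^ k := ⟨k, hk⟩
  have hN : p ^ (k + 1) ≠ 0 := pow_ne_zero _ hM.1.ne_zero
  have hdvd : orderOf z ∣ p ^ (k + 1) := hk ▸ pow_dvd_pow _ (Nat.le_succ k)
  set d := blockDefect p B with hd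
  set ζ := zetaRoot (p ^ (k + 1)) with hζ
  have hz : ∀ j : ℕ, (ζ ^ j) ^ p ^ (k + 1) = 1 := fun j => by
    rw [← pow_mul, mul_comm, pow_mul, (zetaRoot_prim hN).pow_eq_one, one_pow]
  set m := fun (χ ψ : IrrCharacter G) => contribPoly p (p ^ (k + 1)) z b (degExp p ξ₀) χ ψ with hm
  set s := memFinset b with hs
  set W := fun ξ η : IrrCharacter (Subgroup.centralizer ({z} : Set G)) =>
    regInt p (ξ : Subgroup.centralizer ({z} : Set G) → ℂ) (η : Subgroup.centralizer ({z} : Set G) → ℂ) /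
      (p : ℤ) ^ degExp p ξ₀ with hWdef
  set A := fun (χ : IrrCharacter G) (ξ : IrrCharacter (Subgroup.centralizer ({z} : Set G))) =>
    (shiftPoly z χ ξ).comp (X ^ (p ^ (k + 1) / orderOf z)) with hA
  have hsym : ∀ a b, W a b = W b a := fun a b => by simp only [hWdef]; rw [regInt_comm hM.1]
  have hform : ∀ (w : ℂ), w ^ p ^ (k + 1) = 1 → ∀ χ ψ, aeval w (m χ ψ) =
      ∑ a ∈ s, ∑ b ∈ s, (W a b : ℂ) * aeval w (A χ a) * conj (aeval w (A ψ b)) := by
    intro w hw χ ψ
    simp only [hm, hA, hWdef, hs, aeval_contrib_eq, aeval_comp, map_pow, aeval_X]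
    refine Finset.sum_congr rfl fun a _ => Finset.sum_congr rfl fun b _ => ?_
    rw [conj_aeval, conj_eq_pow hN (by rw [← pow_mul, mul_comm, pow_mul, hw, one_pow])]
  -- semidefiniteness
  have hpsd : ∀ v, 0 ≤ intForm s W v v := by
    intro v
    set f : Subgroup.centralizer ({z} : Set G) → ℂ := fun y => ∑ a ∈ s, (v a : ℂ) * (a : _ → ℂ) y with hf
    set mH := Nat.card (Subgroup.centralizer ({z} : Set G)) /
      p ^ (Nat.card (Subgroup.centralizer ({z} : Set G))).factorization p with hmH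
    have h1 : ((intForm s W v v * (p : ℤ) ^ degExp p ξ₀ * (mH : ℤ) : ℤ) : ℂ) =
        ((∑ y : Subgroup.centralizer ({z} : Set G), (if p ∣ orderOf y then 0 else ‖f y‖ ^ 2) : ℝ) : ℂ) := by
      rw [Complex.ofReal_sum]
      simp only [apply_ite (f := Complex.ofReal), Complex.ofReal_zero, Complex.ofReal_pow, ← Complex.mul_conj']
      have h2 : ∀ y : Subgroup.centralizer ({z} : Set G), (if p ∣ orderOf y then 0 else f y * conj (f y)) =
          ∑ a ∈ s, ∑ b ∈ s, (v a : ℂ) * (v b : ℂ) *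
            (if p ∣ orderOf y then 0 else (a : _ → ℂ) y * conj ((b : _ → ℂ) y)) := by
        intro y
        split_ifs
        · simp
        · simp only [hf, map_sum, map_mul, map_intCast, Finset.sum_mul_sum]
          exact Finset.sum_congr rfl fun a _ => Finset.sum_congr rfl fun b _ => by ring
      rw [Finset.sum_congr rfl fun y _ => h2 y, Finset.sum_comm, intForm, Finset.sum_mul, Finset.sum_mul,
        Int.cast_sum]
      refine Finset.sum_congr rfl fun a ha => ?_
      rw [Finset.sum_comm, Finset.sum_mul, Finset.sum_mul, Int.cast_sum]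
      refine Finset.sum_congr rfl fun b _ => ?_
      rw [← Finset.mul_sum, ← regSum, regSum_eq_regInt hM.1 (isCharacter_of_irr a.2) (isCharacter_of_irr b.2)]
      obtain ⟨q, hq⟩ : (p : ℤ) ^ degExp p ξ₀ ∣
          regInt p (a : Subgroup.centralizer ({z} : Set G) → ℂ) (b : Subgroup.centralizer ({z} : Set G) → ℂ) :=
        (pow_dvd_pow _ (hmin₀ a (mem_memFinset.1 ha))).trans (pow_dvd_regInt hM a b)
      simp only [hWdef]
      rw [hq, Int.mul_ediv_cancel_left _ (pow_ne_zero _ (Int.natCast_ne_zero.2 hM.1.ne_zero))]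
      push_cast
      rw [← hmH]
      ring
    have h2 : 0 ≤ intForm s W v v * (p : ℤ) ^ degExp p ξ₀ * (mH : ℤ) := by
      have h3 := congrArg Complex.re h1
      rw [Complex.intCast_re, Complex.ofReal_re] at h3
      have : (0 : ℝ) ≤ ((intForm s W v v * (p : ℤ) ^ degExp p ξ₀ * (mH : ℤ) : ℤ) : ℝ) :=
        h3 ▸ Finset.sum_nonneg fun y _ => by split_ifs <;> positivity
      exact_mod_cast this
    have hm0 : (0 : ℤ) < (mH : ℤ) := by exact_mod_cast Nat.ordCompl_pos p Nat.card_pos.ne'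
    exact nonneg_of_mul_nonneg_left (nonneg_of_mul_nonneg_left h2 hm0) (pow_pos (by exact_mod_cast hM.1.pos) _)
  -- rank one modulo `M`
  obtain ⟨c₀, c₀', -, hξ1, hcc, hc₀'⟩ := exists_degree_eq hM.1 ξ₀
  set r := fun ξ : IrrCharacter (Subgroup.centralizer ({z} : Set G)) =>
    (ξ : Subgroup.centralizer ({z} : Set G) → ℂ) 1 / (ξ₀ : Subgroup.centralizer ({z} : Set G) → ℂ) 1 with hr
  set W₀ := omega (ξ₀ : Subgroup.centralizer ({z} : Set G) → ℂ)
    (regElt p (ξ₀ : Subgroup.centralizer ({z} : Set G) → ℂ)) with hW₀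
  have hW₀R : MemLocalRing M W₀ := memLocalRing_omega hM ξ₀ (isClassElt_regElt (isCharacter_of_irr ξ₀.2))
    (isIntegralElt_regElt hM (isCharacter_of_irr ξ₀.2))
  have hW₀n : ¬ MemLocalIdeal M W₀ := by
    rw [hW₀, omega_regElt_mem_iff hM]
    exact regInt_self_not_dvd hM hb.1 h₀ hmin₀
  set R := fun u : IrrCharacter (Subgroup.centralizer ({z} : Set G)) → ℤ => ∑ a ∈ s, (u a : ℂ) * r a with hR
  have hRloc : ∀ u, MemLocalRing M (R u) := fun u => memLocalRing_sum hM _ fun a ha =>
    memLocalRing_mul hM (memLocalRing_intCast hM _) (memLocalRing_degree_ratio hM hmin₀ (mem_memFinset.1 ha))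
  have hrank : ∀ u v, MemLocalIdeal M ((c₀' : ℂ) * (intForm s W u v : ℂ) - W₀ * (R u * R v)) := by
    intro u v
    simp only [intForm, hR]
    rw [Finset.sum_mul_sum, Int.cast_sum, Finset.mul_sum, Finset.mul_sum, ← Finset.sum_sub_distrib]
    refine memLocalIdeal_sum hM _ fun a ha => ?_
    rw [Int.cast_sum, Finset.mul_sum, Finset.mul_sum, ← Finset.sum_sub_distrib]
    refine memLocalIdeal_sum hM _ fun b' hb' => ?_
    have h2 := memLocalIdeal_mul_left hM (memLocalRing_mul hM (memLocalRing_intCast hM (u a)) (memLocalRing_intCast hM (v b')))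
      (regSum_congr hM hb.1 h₀ hmin₀ (mem_memFinset.1 ha) (mem_memFinset.1 hb'))
    convert h2 using 1
    obtain ⟨q, hq⟩ : (p : ℤ) ^ degExp p ξ₀ ∣
        regInt p (a : Subgroup.centralizer ({z} : Set G) → ℂ) (b' : Subgroup.centralizer ({z} : Set G) → ℂ) :=
      (pow_dvd_pow _ (hmin₀ a (mem_memFinset.1 ha))).trans (pow_dvd_regInt hM a b')
    simp only [hWdef, hr]
    rw [regSum_eq_regInt hM.1 (isCharacter_of_irr a.2) (isCharacter_of_irr b'.2), hq,
      Int.mul_ediv_cancel_left _ (pow_ne_zero _ (Int.natCast_ne_zero.2 hM.1.ne_zero)), hcc]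
    rw [← hW₀, hξ1]
    have hc0 : (c₀ : ℂ) ≠ 0 := by
      intro h0
      have h3 := ordCompl_ne_zero_cast (G := Subgroup.centralizer ({z} : Set G)) p
      rw [hcc, Nat.cast_mul, h0, zero_mul] at h3
      exact h3 rfl
    have hp0 : (p : ℂ) ≠ 0 := Nat.cast_ne_zero.2 hM.1.ne_zero
    push_cast
    field_simp
  have hc₀n : ¬ MemLocalIdeal M (c₀' : ℂ) := fun h => hc₀' ((memLocalIdeal_natCast_iff hM _).1 h)
  -- a form value is a unit exactly when both degree sums are
  have hunit : ∀ u v, MemLocalIdeal M ((intForm s W u v : ℤ) : ℂ) → MemLocalIdeal M (R u) ∨ MemLocalIdeal M (R v) := by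
    intro u v h
    have h1 := memLocalIdeal_sub hM (memLocalIdeal_mul_left hM (memLocalRing_natCast hM c₀') h) (hrank u v)
    rw [sub_sub_cancel] at h1
    rcases memLocalIdeal_of_mul hM hW₀R (memLocalRing_mul hM (hRloc u) (hRloc v)) h1 with h2 | h2
    · exact absurd h2 hW₀n
    · exact memLocalIdeal_of_mul hM (hRloc u) (hRloc v) h2
  have hnorm1 : ∀ u, intForm s W u u = 1 → ¬ MemLocalIdeal M (R u) := by
    intro u hu h
    have h1 := memLocalIdeal_add hM (hrank u u) (memLocalIdeal_mul_left hM hW₀R (memLocalIdeal_mul_left hM (hRloc u) h))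
    rw [sub_add_cancel, hu, Int.cast_one, mul_one] at h1
    exact hc₀n h1
  -- coefficient vectors
  set V := fun (χ : IrrCharacter G) (t i : ℕ) => fun a => cosetCoeff p k (A χ a) t i with hV
  set Tot := fun χ => ∑ t ∈ Finset.range (p ^ k), ∑ i ∈ Finset.range p, ∑ i' ∈ Finset.range p,
    intForm s W (V χ t i - V χ t i') (V χ t i - V χ t i') with hTot
  have htrace : ∀ χ, 2 * ∑ j ∈ coprimeResidues (p ^ (k + 1)), aeval (ζ ^ j) (m χ χ) =
      (p : ℂ) ^ k * (Tot χ : ℂ) := by
    intro χ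
    rw [Finset.sum_congr rfl fun j _ => hform _ (hz j) χ χ]
    exact sum_form_conjugates hM.1 hsym (A χ)
  have hφ : (coprimeResidues (p ^ (k + 1))).card = p ^ k * (p - 1) := by
    have : coprimeResidues (p ^ (k + 1)) = (Finset.range (p ^ (k + 1))).filter (p ^ (k + 1)).Coprime :=
      Finset.filter_congr fun j _ => Nat.coprime_comm
    rw [this, ← Nat.totient_eq_card_coprime, Nat.totient_prime_pow hM.1 (Nat.succ_pos k)]
    simp
  set S := Finset.univ.filter (fun χ : IrrCharacter G => χ ∈ B) with hS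
  have hcard : Nat.card B = S.card := by
    rw [Nat.card_eq_fintype_card (α := B), hS, ← Fintype.card_subtype]
  have htot : ∑ χ ∈ S, Tot χ = 2 * ((p : ℤ) - 1) * (p : ℤ) ^ d * blockRank p b := by
    have hout : ∀ χ ∉ B, Tot χ = 0 := by
      intro χ hχ
      have h0 : aeval ζ (m χ χ) = 0 := by
        rw [hm, hζ, aeval_contribPoly hM hN hdvd hmin₀]
        have : ∀ y, secVal p z b (χ : G → ℂ) y = 0 := fun y => by
          refine secVal_eq_zero hM hx hb.1 (isPBlock_blockOf M χ) (mem_blockOf_self hM χ) (fun h => hχ ?_) y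
          obtain ⟨ξ, hξ⟩ := IsPBlock.nonempty hM hb.1
          rw [IsPBlock.eq_blockOf hM hB hχ₁]
          intro g
          simpa using memLocalIdeal_sub hM (h.2.2 ξ hξ χ (mem_blockOf_self hM χ) g) (hb.2.2 ξ hξ χ₁ hχ₁ g)
        simp [this]
      have h1 := htrace χ
      rw [Finset.sum_eq_zero (s := coprimeResidues (p ^ (k + 1))) fun j hj =>
        aeval_conjugate_eq_zero hN h0 (Finset.mem_filter.1 hj).2, mul_zero] at h1
      exact_mod_cast (mul_eq_zero.1 h1.symm).resolve_left (pow_ne_zero k (Nat.cast_ne_zero.2 hM.1.ne_zero))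
    rw [Finset.sum_subset (Finset.subset_univ _) fun χ _ h => hout χ (by simpa [hS] using h)]
    have h : ∑ χ : IrrCharacter G, (2 * ∑ j ∈ coprimeResidues (p ^ (k + 1)), aeval (ζ ^ j) (m χ χ)) =
        (p : ℂ) ^ k * (2 * ((p : ℂ) - 1) * (p : ℂ) ^ d * blockRank p b) := by
      rw [← Finset.mul_sum, Finset.sum_comm, Finset.sum_congr rfl (s₂ := coprimeResidues (p ^ (k + 1)))
        (g := fun _ => (p : ℂ) ^ d * (blockRank p b : ℂ)) fun j hj => by
          rw [hdef']; exact sum_contrib_diag hM hx hb.1 hN hdvd hmin₀ (Finset.mem_filter.1 hj).2,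
        Finset.sum_const, hφ, nsmul_eq_mul, Nat.cast_mul, Nat.cast_sub hM.1.one_le]
      push_cast
      ring
    rw [Finset.sum_congr rfl fun χ _ => htrace χ, ← Finset.mul_sum] at h
    exact_mod_cast mul_left_cancel₀ (pow_ne_zero k (Nat.cast_ne_zero.2 hM.1.ne_zero)) h
  have hp1 : (1 : ℤ) ≤ (p : ℤ) - 1 := by have := hM.1.two_le; omega
  -- every member meets some member of height zero
  have hmeet : ∀ χ ∈ B, ∀ ψ ∈ B, blockHeight p B (ψ : G → ℂ) = 0 → aeval ζ (m χ ψ) ≠ 0 := by
    intro χ hχ ψ hψ hψ0 h0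
    refine major_not_mem hM hx hb (K := k + 1) hdvd h₀ hmin₀ hdef' hχ hψ hψ0 ?_
    rw [show aeval (zetaRoot (p ^ (k + 1))) (contribPoly p (p ^ (k + 1)) z b (degExp p ξ₀) χ ψ) = 0 from h0, zero_div]
    exact memLocalIdeal_zero hM
  have hrowj : ∀ χ, ∀ j ∈ coprimeResidues (p ^ (k + 1)),
      ∑ ψ : IrrCharacter G, ‖aeval (ζ ^ j) (m χ ψ)‖ ^ 2 = (p : ℝ) ^ d * (aeval (ζ ^ j) (m χ χ)).re := fun χ j hj => by
    rw [hdef']; exact sum_normSq_contrib hM hx hb.1 hN hdvd hmin₀ (Finset.mem_filter.1 hj).2 χ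
  have hnonconst : ∀ χ ∈ B, ∃ t < p ^ k, ∃ i < p, ∃ i' < p,
      intForm s W (V χ t i - V χ t i') (V χ t i - V χ t i') ≠ 0 := by
    intro χ hχ
    by_contra hcon
    push Not at hcon
    have h0 : Tot χ = 0 := Finset.sum_eq_zero fun t ht => Finset.sum_eq_zero fun i hi => Finset.sum_eq_zero
      fun i' hi' => hcon t (Finset.mem_range.1 ht) i (Finset.mem_range.1 hi) i' (Finset.mem_range.1 hi')
    have h1 := congrArg Complex.re (htrace χ)
    rw [h0, Int.cast_zero, mul_zero, Complex.zero_re, ← Nat.cast_ofNat, Complex.mul_re, Complex.natCast_re,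
      Complex.natCast_im, zero_mul, sub_zero, Complex.re_sum] at h1
    have h2 : 0 < ∑ j ∈ coprimeResidues (p ^ (k + 1)), (p : ℝ) ^ d * (aeval (ζ ^ j) (m χ χ)).re := by
      refine Finset.sum_pos (fun j hj => ?_) (Finset.card_pos.1 (coprimeResidues_card_pos hN))
      rw [← hrowj χ j hj]
      refine lt_of_lt_of_le ?_ (Finset.single_le_sum (fun _ _ => by positivity) (Finset.mem_univ χ₁))
      exact pow_pos (norm_pos_iff.2
        (aeval_conjugate_ne_zero hN _ (Finset.mem_filter.1 hj).2 (hmeet χ hχ χ₁ hχ₁ hh1))) 2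
    rw [← Finset.mul_sum] at h2
    have h3 := pos_of_mul_pos_right h2 (by positivity)
    norm_num at h1
    linarith
  -- splitting pairs
  have hrel : ∀ (u : ℕ → IrrCharacter (Subgroup.centralizer ({z} : Set G)) → ℤ) (i j l : ℕ),
      intForm s W (u l - u i) (u l - u i) = 0 → intForm s W (u l - u j) (u l - u j) = 0 →
        intForm s W (u i - u j) (u i - u j) = 0 := by
    intro u i j l h1 h2
    rw [show u i - u j = (u l - u j) - (u l - u i) by abel]
    generalize u l - u i = P₁ at *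
    generalize u l - u j = P₂ at *
    rw [intForm_sub_left, intForm_sub_right, intForm_sub_right,
      h1, h2, intForm_eq_zero_of_isotropic hsym hpsd h1, intForm_eq_zero_of_isotropic hsym hpsd h2]
    ring
  have hsymf : ∀ (u : ℕ → IrrCharacter (Subgroup.centralizer ({z} : Set G)) → ℤ) (i j : ℕ),
      intForm s W (u i - u j) (u i - u j) = intForm s W (u j - u i) (u j - u i) := by
    intro u i j
    simp only [intForm_sub_left, intForm_sub_right]
    ring
  have hlow : ∀ (u : ℕ → IrrCharacter (Subgroup.centralizer ({z} : Set G)) → ℤ),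
      (∀ i j, intForm s W (u i - u j) (u i - u j) ≠ 0 → 2 ≤ intForm s W (u i - u j) (u i - u j)) →
      (∃ i < p, ∃ j < p, intForm s W (u i - u j) (u i - u j) ≠ 0) →
      4 * ((p : ℤ) - 1) ≤ ∑ i ∈ Finset.range p, ∑ j ∈ Finset.range p, intForm s W (u i - u j) (u i - u j) := by
    intro u hu hex
    obtain ⟨i, hi, j, hj, hne⟩ := hex
    have h := pair_sum_bound (fun i j => intForm s W (u i - u j) (u i - u j)) (fun _ _ => hpsd _)
      (hsymf u) (m := 2) hi hj (fun h => hne (by subst h; simp [intForm])) (fun l _ => by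
        by_cases h1 : intForm s W (u l - u i) (u l - u i) = 0
        · have h2 : intForm s W (u l - u j) (u l - u j) ≠ 0 := fun h2 => hne (hrel u i j l h1 h2)
          have := hu l j h2
          have := hpsd (u l - u i)
          linarith
        · have := hu l i h1
          have := hpsd (u l - u j)
          linarith)
    linarith
  have hblock : ∀ χ, ∀ t < p ^ k, ∑ i ∈ Finset.range p, ∑ i' ∈ Finset.range p,
      intForm s W (V χ t i - V χ t i') (V χ t i - V χ t i') ≤ Tot χ := fun χ t ht =>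
    Finset.single_le_sum (f := fun t => ∑ i ∈ Finset.range p, ∑ i' ∈ Finset.range p,
      intForm s W (V χ t i - V χ t i') (V χ t i - V χ t i'))
      (fun _ _ => Finset.sum_nonneg fun _ _ => Finset.sum_nonneg fun _ _ => hpsd _) (Finset.mem_range.2 ht)
  suffices hgoal : (∃ χ₂ ∈ B, blockHeight p B (χ₂ : G → ℂ) = 0 ∧ ∃ Q : IrrCharacter G → ℤ[X],
      ∀ ψ : IrrCharacter G, aeval ζ (m χ₂ ψ) = aeval ζ (Q χ₂) * conj (aeval ζ (Q ψ))) ∨
      ∀ χ ∈ B, 4 * ((p : ℤ) - 1) ≤ Tot χ by
    rcases hgoal with ⟨χ₂, hχ₂, h20, Q, hQ⟩ | hall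
    · -- one rank one row
      have hQj : ∀ j ∈ coprimeResidues (p ^ (k + 1)), ∀ ψ : IrrCharacter G,
          aeval (ζ ^ j) (m χ₂ ψ) = aeval (ζ ^ j) (Q χ₂) * conj (aeval (ζ ^ j) (Q ψ)) := by
        intro j hj ψ
        have hconj : ∀ w : ℂ, w ^ p ^ (k + 1) = 1 →
            conj (aeval w (Q ψ)) = aeval w ((Q ψ).comp (X ^ (p ^ (k + 1) - 1))) := fun w hw => by
          rw [conj_aeval, conj_eq_pow hN hw, aeval_comp, map_pow, aeval_X]
        have h1 := aeval_conjugate_eq_zero hN
          (Q := m χ₂ ψ - Q χ₂ * (Q ψ).comp (X ^ (p ^ (k + 1) - 1))) (by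
            rw [map_sub, map_mul, ← hconj _ (zetaRoot_prim hN).pow_eq_one, sub_eq_zero]; exact hQ ψ)
          (Finset.mem_filter.1 hj).2
        rw [map_sub, map_mul, sub_eq_zero] at h1
        rwa [hconj _ (hz j)]
      have hone : ∀ j ∈ coprimeResidues (p ^ (k + 1)), ∑ ψ : IrrCharacter G, ‖aeval (ζ ^ j) (Q ψ)‖ ^ 2 = (p : ℝ) ^ d := by
        intro j hj
        have h := hrowj χ₂ j hj
        simp only [hQj j hj, norm_mul, Complex.norm_conj, mul_pow, ← Finset.mul_sum, Complex.mul_conj',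
          ← Complex.ofReal_pow, Complex.ofReal_re] at h
        have hne : ‖aeval (ζ ^ j) (Q χ₂)‖ ^ 2 ≠ 0 := by
          refine pow_ne_zero _ (norm_ne_zero_iff.2 fun h0 => ?_)
          refine aeval_conjugate_ne_zero hN _ (Finset.mem_filter.1 hj).2 (hmeet χ₂ hχ₂ χ₂ hχ₂ h20) ?_
          rw [hQj j hj, h0, zero_mul]
        exact mul_left_cancel₀ hne (h.trans (mul_comm _ _))
      have h1 : (S.card : ℝ) * (coprimeResidues (p ^ (k + 1))).card ≤
          (coprimeResidues (p ^ (k + 1))).card * (p : ℝ) ^ d := by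
        calc (S.card : ℝ) * (coprimeResidues (p ^ (k + 1))).card
            = ∑ ψ ∈ S, ((coprimeResidues (p ^ (k + 1))).card : ℝ) := by rw [Finset.sum_const, nsmul_eq_mul]
          _ ≤ ∑ ψ ∈ S, ∑ j ∈ coprimeResidues (p ^ (k + 1)), ‖aeval (ζ ^ j) (Q ψ)‖ ^ 2 := by
              refine Finset.sum_le_sum fun ψ hψ => card_le_sum_conjugates hN _ fun j hj h0 => ?_
              have hψB : ψ ∈ B := (Finset.mem_filter.1 hψ).2
              refine aeval_conjugate_ne_zero hN _ (Finset.mem_filter.1 hj).2 (hmeet ψ hψB χ₂ hχ₂ h20) ?_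
              rw [← conj_contrib hM.1 hN b _ χ₂ ψ (hz j)]
              show conj (aeval (ζ ^ j) (m χ₂ ψ)) = 0
              rw [hQj j hj, h0, map_zero, mul_zero, map_zero]
          _ ≤ ∑ ψ : IrrCharacter G, ∑ j ∈ coprimeResidues (p ^ (k + 1)), ‖aeval (ζ ^ j) (Q ψ)‖ ^ 2 :=
              Finset.sum_le_sum_of_subset_of_nonneg (Finset.subset_univ _)
                fun _ _ _ => Finset.sum_nonneg fun _ _ => by positivity
          _ = _ := by rw [Finset.sum_comm, Finset.sum_congr rfl hone, Finset.sum_const, nsmul_eq_mul]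
      rw [mul_comm (S.card : ℝ)] at h1
      have h2 := le_of_mul_le_mul_left h1 (Nat.cast_pos.2 (coprimeResidues_card_pos hN))
      rw [hcard]
      exact_mod_cast h2
    · have h1 : (S.card : ℤ) * (4 * ((p : ℤ) - 1)) ≤ (p : ℤ) ^ d * (4 * ((p : ℤ) - 1)) := by
        calc (S.card : ℤ) * (4 * ((p : ℤ) - 1)) = ∑ χ ∈ S, 4 * ((p : ℤ) - 1) := by
              rw [Finset.sum_const, nsmul_eq_mul]
          _ ≤ ∑ χ ∈ S, Tot χ := Finset.sum_le_sum fun χ hχ => hall χ (Finset.mem_filter.1 hχ).2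
          _ ≤ _ := by
            rw [htot]
            have h2 : (blockRank p b : ℤ) ≤ 2 := by exact_mod_cast hl
            have h3 := mul_le_mul_of_nonneg_left h2
              (mul_nonneg (mul_nonneg (by norm_num : (0 : ℤ) ≤ 2) (by linarith : (0 : ℤ) ≤ (p : ℤ) - 1))
                (pow_nonneg (Int.natCast_nonneg p) d))
            linarith
      rw [hcard]
      exact_mod_cast le_of_mul_le_mul_right h1 (by linarith)
  by_cases hv : ∃ v, intForm s W v v = 1
  swap
  · push Not at hv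
    refine Or.inr fun χ hχ => ?_
    obtain ⟨t, ht, hex⟩ := hnonconst χ hχ
    refine (hlow (V χ t) (fun i j h => ?_) hex).trans (hblock χ t ht)
    have := hpsd (V χ t i - V χ t j)
    have := hv (V χ t i - V χ t j)
    omega
  obtain ⟨v, hv⟩ := hv
  set c := fun x => intForm s W v x with hc
  set U := fun x => x - intForm s W v x • v with hU
  have hUlin : ∀ x y, U (x - y) = U x - U y := fun x y => by
    simp only [hU, intForm_sub_right, sub_smul]; abel
  have hq : ∀ x, intForm s W x x = c x ^ 2 + intForm s W (U x) (U x) := fun x => by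
    rw [intForm_split hsym hv x x, pow_two]
  have hperp2 : ∀ x, intForm s W (U x) (U x) ≠ 1 := by
    intro x h
    rcases hunit v (U x) (by rw [intForm_perp hv x, Int.cast_zero]; exact memLocalIdeal_zero hM) with h1 | h1
    · exact hnorm1 v hv h1
    · exact hnorm1 _ h h1
  -- degenerate rows
  set Q := fun χ : IrrCharacter G => ∑ a ∈ s, ∑ b ∈ s, C (W a b * v a) * A χ b with hQdef
  have hQval : ∀ χ (w : ℂ), w ^ p ^ (k + 1) = 1 → aeval w (Q χ) =
      ∑ t ∈ Finset.range (p ^ k), ∑ i ∈ Finset.range p, (c (V χ t i) : ℂ) * w ^ (t + p ^ k * i) := by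
    intro χ w hw
    simp only [hQdef]
    rw [map_sum, Finset.sum_congr rfl (g := fun x => ∑ y ∈ s, (W x y : ℂ) * (v x : ℂ) * aeval w (A χ y)) fun x _ => by
      rw [map_sum]; exact Finset.sum_congr rfl fun y _ => by rw [map_mul, aeval_C, eq_intCast, Int.cast_mul]]
    simp only [aeval_eq_cosetCoeff hM.1 _ hw, hc, hV, intForm, Int.cast_sum, Int.cast_mul,
      Finset.mul_sum, Finset.sum_mul]
    simp only [Finset.sum_comm (s := s) (t := Finset.range (p ^ k))]
    refine Finset.sum_congr rfl fun t _ => ?_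
    simp only [Finset.sum_comm (s := s) (t := Finset.range p)]
    exact Finset.sum_congr rfl fun i _ => Finset.sum_congr rfl fun a _ => Finset.sum_congr rfl fun b _ => by
      ring
  have hdeg : ∀ χ, (∀ t < p ^ k, ∀ i < p, ∀ i' < p, intForm s W (U (V χ t i - V χ t i')) (U (V χ t i - V χ t i')) = 0) →
      ∀ ψ, aeval ζ (m χ ψ) = aeval ζ (Q χ) * conj (aeval ζ (Q ψ)) := by
    intro χ hU0 ψ
    have hζN : ζ ^ p ^ (k + 1) = 1 := (zetaRoot_prim hN).pow_eq_one
    have h1 : ∀ y, ∑ t ∈ Finset.range (p ^ k), ∑ i ∈ Finset.range p,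
        (intForm s W (V χ t i) y : ℂ) * ζ ^ (t + p ^ k * i) = aeval ζ (Q χ) * (c y : ℂ) := by
      intro y
      rw [hQval χ ζ hζN, Finset.sum_mul, ← sub_eq_zero, ← Finset.sum_sub_distrib]
      rw [Finset.sum_congr rfl (g := fun t => ∑ i ∈ Finset.range p,
        (intForm s W (U (V χ t i)) (U y) : ℂ) * ζ ^ (t + p ^ k * i)) fun t _ => ?_]
      · refine sum_coset_const hM.1 _ fun t ht i hi => ?_
        have h2 := intForm_eq_zero_of_isotropic hsym hpsd (hU0 t ht i hi 0 hM.1.pos) (U y)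
        rw [hUlin, intForm_sub_left, sub_eq_zero] at h2
        rw [h2]
      · rw [Finset.sum_mul, ← Finset.sum_sub_distrib]
        refine Finset.sum_congr rfl fun i _ => ?_
        rw [intForm_split hsym hv (V χ t i) y]
        simp only [hc, hU]
        push_cast
        ring
    have hexp : ∑ a ∈ s, ∑ b ∈ s, (W a b : ℂ) * aeval ζ (A χ a) * conj (aeval ζ (A ψ b)) =
        ∑ t' ∈ Finset.range (p ^ k), ∑ i' ∈ Finset.range p, (∑ t ∈ Finset.range (p ^ k), ∑ i ∈ Finset.range p,
          (intForm s W (V χ t i) (V ψ t' i') : ℂ) * ζ ^ (t + p ^ k * i)) * conj (ζ ^ (t' + p ^ k * i')) := by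
      simp only [← Finset.sum_product' (s := Finset.range (p ^ k)) (t := Finset.range p),
        aeval_eq_cosetCoeff hM.1 _ hζN, map_sum, map_mul, map_intCast, intForm, Int.cast_sum, Int.cast_mul,
        Finset.sum_mul, Finset.mul_sum, hV]
      rw [Finset.sum_congr rfl (fun a _ => Finset.sum_comm), Finset.sum_comm,
        Finset.sum_congr rfl (fun y _ => Finset.sum_congr rfl (fun a _ => Finset.sum_comm)),
        Finset.sum_congr rfl (fun y _ => Finset.sum_comm)]
      refine Finset.sum_congr rfl fun y _ => Finset.sum_congr rfl fun x _ => ?_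
      exact Finset.sum_congr rfl fun a _ => Finset.sum_congr rfl fun b _ => by ring
    rw [hform ζ hζN χ ψ, hexp, hQval ψ ζ hζN]
    generalize aeval ζ (Q χ) = Xv at h1 ⊢
    rw [map_sum, Finset.mul_sum]
    refine Finset.sum_congr rfl fun t' _ => ?_
    rw [map_sum, Finset.mul_sum]
    refine Finset.sum_congr rfl fun i' _ => ?_
    rw [h1, map_mul, map_intCast, mul_assoc]
  by_cases hex : ∃ χ₂ ∈ B, blockHeight p B (χ₂ : G → ℂ) = 0 ∧
      ∀ t < p ^ k, ∀ i < p, ∀ i' < p, intForm s W (U (V χ₂ t i - V χ₂ t i')) (U (V χ₂ t i - V χ₂ t i')) = 0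
  · obtain ⟨χ₂, h2, h20, hU0⟩ := hex
    exact Or.inl ⟨χ₂, h2, h20, Q, hdeg χ₂ hU0⟩
  refine Or.inr fun χ hχ => ?_
  by_cases hU0 : ∀ t < p ^ k, ∀ i < p, ∀ i' < p, intForm s W (U (V χ t i - V χ t i')) (U (V χ t i - V χ t i')) = 0
  · have hχ0 : blockHeight p B (χ : G → ℂ) ≠ 0 := fun h => hex ⟨χ, hχ, h, hU0⟩
    have hTc : Tot χ = ∑ t ∈ Finset.range (p ^ k), ∑ i ∈ Finset.range p, ∑ i' ∈ Finset.range p,
        (c (V χ t i) - c (V χ t i')) ^ 2 := by
      refine Finset.sum_congr rfl fun t ht => Finset.sum_congr rfl fun i hi => Finset.sum_congr rfl fun i' hi' => ?_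
      rw [hq, hU0 t (Finset.mem_range.1 ht) i (Finset.mem_range.1 hi) i' (Finset.mem_range.1 hi'), add_zero]
      simp only [hc, intForm_sub_right]
    rw [hTc]
    refine spread_bound hM.1 _ ?_ ?_
    · have hQ1 : ∀ φ : IrrCharacter G,
          (Q φ).eval 1 = ∑ t ∈ Finset.range (p ^ k), ∑ i ∈ Finset.range p, c (V φ t i) := by
        intro φ
        have h := hQval φ 1 (one_pow _)
        rw [← map_one (algebraMap ℤ ℂ), aeval_algebraMap_apply] at h
        simp only [map_one, one_pow, mul_one] at h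
        have h2 : (((Q φ).eval 1 : ℤ) : ℂ) =
            ((∑ t ∈ Finset.range (p ^ k), ∑ i ∈ Finset.range p, c (V φ t i) : ℤ) : ℂ) := by
          push_cast; simpa using h
        exact_mod_cast h2
      rw [← hQ1, ← aeval_mem_iff hM (zetaRoot_prim hN).pow_eq_one]
      obtain ⟨T, hT⟩ := exists_eq_pow_mul hM k _ _
        (major_local hM hx hb.1 hB hN hdvd hmin₀ hdef' χ₁ hχ)
      have hmem : MemLocalIdeal M (aeval ζ (m χ χ₁)) := by
        rw [show aeval ζ (m χ χ₁) = (p : ℂ) ^ blockHeight p B (χ : G → ℂ) * aeval ζ T from hT]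
        refine memLocalIdeal_mul_right hM ?_ (memLocalRing_aeval hM hN (zetaRoot_prim hN).pow_eq_one T)
        rw [← Nat.cast_pow, memLocalIdeal_natCast_iff hM]
        exact dvd_pow_self p hχ0
      rw [hdeg χ hU0 χ₁] at hmem
      have hconjN : (conj ζ) ^ p ^ (k + 1) = 1 := by rw [← map_pow, (zetaRoot_prim hN).pow_eq_one, map_one]
      rw [conj_aeval] at hmem
      rcases memLocalIdeal_of_mul hM (memLocalRing_aeval hM hN (zetaRoot_prim hN).pow_eq_one _)
        (memLocalRing_aeval hM hN hconjN _) hmem with h1 | h1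
      · exact h1
      exfalso
      rw [aeval_mem_iff hM hconjN, ← memLocalIdeal_intCast_iff hM] at h1
      set T1 := fun a => ∑ t ∈ Finset.range (p ^ k), ∑ i ∈ Finset.range p, V χ₁ t i a with hT1
      have e : (Q χ₁).eval 1 = intForm s W v T1 := by
        simp only [hQdef, eval_finsetSum, eval_mul, eval_C, intForm, hT1, hV, ← eval_one_eq_cosetCoeff hM.1]
      rw [e] at h1
      rcases hunit v T1 h1 with h2 | h2
      · exact hnorm1 v hv h2
      · refine sum_mult_not_mem hM hb hχ₁ hmin₁ h₀ hmin₀ ?_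
        have e2 : R T1 = ∑ η ∈ Finset.univ.filter (· ∈ b),
            (((shiftPoly z χ₁ η).eval 1 : ℤ) : ℂ) * r η := by
          simp only [hR, hs, memFinset_eq, hT1, hV, ← eval_one_eq_cosetCoeff hM.1, hA, eval_comp, eval_pow,
            eval_X, one_pow]
        rw [e2] at h2
        exact h2
    · obtain ⟨t, ht, i, hi, i', hi', hne⟩ := hnonconst χ hχ
      refine ⟨t, ht, i, hi, i', hi', fun h => hne ?_⟩
      rw [hq, hU0 t ht i hi i' hi']
      simp only [hc, intForm_sub_right] at h ⊢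
      rw [h]; ring
  · push Not at hU0
    obtain ⟨t, ht, i, hi, i', hi', hne⟩ := hU0
    refine le_trans ?_ (hblock χ t ht)
    refine le_trans (hlow (fun l => U (V χ t l)) (fun a b h => ?_) ⟨i, hi, i', hi', by rwa [← hUlin]⟩) ?_
    · have := hpsd (U (V χ t a) - U (V χ t b))
      have h2 := hperp2 (V χ t a - V χ t b)
      rw [hUlin] at h2
      omega
    · refine Finset.sum_le_sum fun a _ => Finset.sum_le_sum fun b _ => ?_
      rw [← hUlin]
      have := hq (V χ t a - V χ t b)
      have := sq_nonneg (c (V χ t a - V χ t b))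
      linarith

end Cfsg.Agent.S4539
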