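import Cfsg.Statements.S4541
import Cfsg.Agent.Blocks.ContribMatrix
-- import your own Cfsg.Agent.* helpers here

set_option autoImplicit false
set_option linter.style.haveILetI false
open Cfsg CfsgLib CfsgLib.Blocks CfsgLib.CharBasics Polynomial

namespace Cfsg.Agent.S4541

/-- The sum over the conjugates of a real element of a cyclotomic ring of `2`-power level. -/
theorem sum_conjugates_real (k : ℕ) (R : ℤ[X])
    (hreal : aeval (zetaRoot (2 ^ (k + 1)) ^ (2 ^ (k + 1) - 1)) R = aeval (zetaRoot (2 ^ (k + 1))) R) :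
    ∃ a : ℤ, (∑ j ∈ coprimeResidues (2 ^ (k + 1)), aeval (zetaRoot (2 ^ (k + 1)) ^ j) R) = (2 : ℂ) ^ k * a ∧
      (2 : ℤ) ∣ a - R.eval 1 := by
  classical
  set m := 2 ^ k with hm
  have hm0 : 0 < m := by positivity
  have hNm : 2 ^ (k + 1) = 2 * m := by rw [pow_succ]; ring
  have hN : 2 ^ (k + 1) ≠ 0 := by positivity
  set ζ := zetaRoot (2 ^ (k + 1)) with hζ
  have hprim : IsPrimitiveRoot ζ (2 ^ (k + 1)) := zetaRoot_prim hN
  have hneg : ζ ^ m = -1 := by
    have h := hprim.pow (Nat.pos_of_ne_zero hN) (show 2 ^ (k + 1) = m * 2 by rw [hNm, mul_comm])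
    exact h.eq_neg_one_of_two_right
  set Q := R %ₘ (X ^ m + 1) with hQ
  have hmon : (X ^ m + 1 : ℤ[X]).Monic := monic_X_pow_add_C (1 : ℤ) hm0.ne'
  have hdeg : Q.natDegree < m := by
    have h := natDegree_modByMonic_lt R hmon (fun h => by
      have := congrArg natDegree h
      rw [natDegree_one, show (X ^ m + 1 : ℤ[X]) = X ^ m + C 1 by rw [C_1], natDegree_X_pow_add_C] at this
      omega)
    rwa [show (X ^ m + 1 : ℤ[X]) = X ^ m + C 1 by rw [C_1], natDegree_X_pow_add_C] at h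
  have hval : ∀ z : ℂ, z ^ m = -1 → aeval z R = ∑ i ∈ Finset.range m, (Q.coeff i : ℂ) * z ^ i := by
    intro z hz
    conv_lhs => rw [← modByMonic_add_div R (X ^ m + 1)]
    rw [← hQ, map_add, map_mul]
    simp only [map_add, map_pow, aeval_X, map_one, hz, neg_add_cancel, zero_mul, add_zero]
    rw [aeval_eq_sum_range' hdeg]
    exact Finset.sum_congr rfl fun i _ => by rw [zsmul_eq_mul]
  have hodd : ∀ j, Odd j → (ζ ^ j) ^ m = -1 := fun j hj => by
    rw [← pow_mul, mul_comm, pow_mul, hneg, hj.neg_one_pow]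
  -- reflection of the coefficients
  have hrefl : ∀ i ∈ Finset.Ico 1 m, Q.coeff i + Q.coeff (m - i) = 0 := by
    have h1 : Odd (2 ^ (k + 1) - 1) := ⟨m - 1, by omega⟩
    rw [hval _ (hodd _ h1), hval _ hneg] at hreal
    set D : ℤ[X] := ∑ i ∈ Finset.Ico 1 m, C (Q.coeff i + Q.coeff (m - i)) * X ^ i with hD
    have hrange : Finset.range m = insert 0 (Finset.Ico 1 m) := by
      ext i; simp; omega
    have h0 : 0 ∉ Finset.Ico 1 m := by simp
    rw [hrange, Finset.sum_insert h0, Finset.sum_insert h0, pow_zero, pow_zero, add_right_inj] at hreal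
    have hsum : ∑ i ∈ Finset.Ico 1 m, (Q.coeff i : ℂ) * (ζ ^ (2 ^ (k + 1) - 1)) ^ i =
        - ∑ i ∈ Finset.Ico 1 m, (Q.coeff (m - i) : ℂ) * ζ ^ i := by
      rw [← Finset.sum_neg_distrib]
      refine Finset.sum_bij' (fun i _ => m - i) (fun i _ => m - i) (fun i hi => ?_) (fun i hi => ?_)
        (fun i hi => ?_) (fun i hi => ?_) (fun i hi => ?_)
      any_goals simp only [Finset.mem_Ico] at hi ⊢
      any_goals omega
      rw [Nat.sub_sub_self hi.2.le, ← mul_neg]
      congr 1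
      have h2 : (ζ ^ (2 ^ (k + 1) - 1)) ^ i * ζ ^ i = 1 := by
        rw [← mul_pow, ← pow_succ, Nat.sub_add_cancel (Nat.pos_of_ne_zero hN), hprim.pow_eq_one, one_pow]
      have h3 : -(ζ ^ (m - i)) * ζ ^ i = 1 := by
        rw [neg_mul, ← pow_add, Nat.sub_add_cancel hi.2.le, hneg, neg_neg]
      exact mul_right_cancel₀ (pow_ne_zero _ (hprim.ne_zero hN)) (h2.trans h3.symm)
    rw [hsum] at hreal
    have hD0 : aeval ζ D = 0 := by
      rw [hD, map_sum, Finset.sum_congr rfl (g := fun i => (Q.coeff i : ℂ) * ζ ^ i + (Q.coeff (m - i) : ℂ) * ζ ^ i)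
        (fun i _ => by rw [map_mul, aeval_C, map_pow, aeval_X, eq_intCast, Int.cast_add, add_mul]),
        Finset.sum_add_distrib]
      linear_combination -hreal
    have hdvd : cyclotomic (2 ^ (k + 1)) ℤ ∣ D := by
      rw [cyclotomic_eq_minpoly hprim (Nat.pos_of_ne_zero hN)]
      exact minpoly.isIntegrallyClosed_dvd (hprim.isIntegral (Nat.pos_of_ne_zero hN)) hD0
    have hDz : D = 0 := by
      by_contra hne
      have h2 := natDegree_le_of_dvd hdvd hne
      rw [natDegree_cyclotomic, Nat.totient_prime_pow Nat.prime_two (Nat.succ_pos k)] at h2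
      have h3 : D.natDegree ≤ m - 1 := natDegree_sum_le_of_forall_le _ _ fun i hi =>
        (natDegree_C_mul_X_pow_le _ _).trans (by simp only [Finset.mem_Ico] at hi; omega)
      simp only [Nat.succ_eq_add_one, add_tsub_cancel_right, Nat.add_one_sub_one, mul_one] at h2
      omega
    intro i hi
    have h4 := congrArg (fun f => f.coeff i) hDz
    simp only [hD, finsetSum_coeff, coeff_C_mul_X_pow, coeff_zero] at h4
    rwa [Finset.sum_ite_eq, if_pos hi] at h4
  have hzero : ∑ i ∈ Finset.Ico 1 m, Q.coeff i = 0 := by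
    have h1 : ∑ i ∈ Finset.Ico 1 m, Q.coeff i = ∑ i ∈ Finset.Ico 1 m, Q.coeff (m - i) := by
      refine Finset.sum_bij' (fun i _ => m - i) (fun i _ => m - i) (fun i hi => ?_) (fun i hi => ?_)
        (fun i hi => ?_) (fun i hi => ?_) (fun i hi => ?_)
      any_goals simp only [Finset.mem_Ico] at hi ⊢
      any_goals omega
      rw [Nat.sub_sub_self hi.2.le]
    have h2 := Finset.sum_eq_zero hrefl
    rw [Finset.sum_add_distrib, ← h1] at h2
    omega
  have hQ1 : Q.eval 1 = Q.coeff 0 := by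
    rw [eval_eq_sum_range' hdeg, show Finset.range m = insert 0 (Finset.Ico 1 m) by ext i; simp; omega,
      Finset.sum_insert (by simp)]
    simp [hzero]
  refine ⟨Q.coeff 0, ?_, ?_⟩
  · have himg : coprimeResidues (2 ^ (k + 1)) = (Finset.range m).image fun t => 2 * t + 1 := by
      ext j
      simp only [coprimeResidues, Finset.mem_filter, Finset.mem_range, Finset.mem_image,
        Nat.coprime_pow_right_iff (Nat.succ_pos k), Nat.coprime_two_right]
      constructor
      · rintro ⟨hj, t, rfl⟩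
        exact ⟨t, by omega, rfl⟩
      · rintro ⟨t, ht, rfl⟩
        exact ⟨by omega, t, rfl⟩
    rw [himg, Finset.sum_image (fun a _ b _ h => by simpa using h),
      Finset.sum_congr rfl (fun t _ => hval _ (hodd _ ⟨t, rfl⟩)), Finset.sum_comm, Finset.sum_eq_single 0]
    · simp [hm]
    · intro i hi hi0
      rw [← Finset.mul_sum]
      refine mul_eq_zero_of_right _ ?_
      have h1 : ∀ t, (ζ ^ (2 * t + 1)) ^ i = ζ ^ i * ((ζ ^ (2 * i)) ^ t) := fun t => by
        rw [← pow_mul, ← pow_mul, ← pow_add]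
        congr 1
        ring
      rw [Finset.sum_congr rfl (fun t _ => h1 t), ← Finset.mul_sum]
      refine mul_eq_zero_of_right _ ?_
      have hne : ζ ^ (2 * i) ≠ 1 := hprim.pow_ne_one_of_pos_of_lt (by omega)
        (by have := Finset.mem_range.1 hi; omega)
      rw [geom_sum_eq hne, ← pow_mul, show 2 * i * m = 2 ^ (k + 1) * i by rw [hNm]; ring, pow_mul,
        hprim.pow_eq_one, one_pow, sub_self, zero_div]
    · intro h
      exact absurd (Finset.mem_range.2 hm0) h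
  · have h := congrArg (Polynomial.eval 1) (modByMonic_add_div R (X ^ m + 1))
    rw [eval_add, eval_mul, ← hQ, hQ1] at h
    refine ⟨-(R /ₘ (X ^ m + 1)).eval 1, ?_⟩
    simp only [eval_add, eval_pow, eval_X, eval_one, one_pow] at h
    omega

/-- Let B be a 2-block of the finite group G (relative to a maximal ideal M of the algebraic integers containing 2), u a 2-element, and b a block of the centralizer of u inducing B (a subsection (u, b)), of defect q and 2-regular rank l; write s for the integer square root of l and k₀(B) for the number of members of B of height zero. If s is odd then k₀(B) ≤ s·2 ^ q, and otherwise (s + 1)·k₀(B) ≤ l·2 ^ q; in particular k₀(B) ≤ 2 ^ q when l ≤ 3. -/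
theorem result {G : Type*} [Group G] [Finite G] (M : Ideal Cfsg.AlgInt) (hM : Cfsg.IsPModular 2 M) (B : Set (Cfsg.IrrCharacter G)) (hB : Cfsg.IsPBlock M B) (u : G) (hu : ∃ j : ℕ, orderOf u = 2 ^ j) (b : Set (Cfsg.IrrCharacter ↥(Subgroup.centralizer ({u} : Set G)))) (hb : Cfsg.IsInducedBlock M (Subgroup.centralizer ({u} : Set G)) b B) : (Odd (Nat.sqrt (Cfsg.blockRank 2 b)) → Nat.card {χ : Cfsg.IrrCharacter G // χ ∈ B ∧ Cfsg.blockHeight 2 B (χ : G → ℂ) = 0} ≤ Nat.sqrt (Cfsg.blockRank 2 b) * 2 ^ Cfsg.blockDefect 2 b) ∧ (¬ Odd (Nat.sqrt (Cfsg.blockRank 2 b)) → (Nat.sqrt (Cfsg.blockRank 2 b) + 1) * Nat.card {χ : Cfsg.IrrCharacter G // χ ∈ B ∧ Cfsg.blockHeight 2 B (χ : G → ℂ) = 0} ≤ Cfsg.blockRank 2 b * 2 ^ Cfsg.blockDefect 2 b) ∧ (Cfsg.blockRank 2 b ≤ 3 → Nat.card {χ : Cfsg.IrrCharacter G // χ ∈ B ∧ Cfsg.blockHeight 2 B (χ : G → ℂ) = 0} ≤ 2 ^ Cfsg.blockDefect 2 b) := by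
  classical
  haveI : Fintype G := Fintype.ofFinite G
  haveI : Fintype (IrrCharacter G) := @Fintype.ofFinite _ finite_irrCharacter
  haveI : Fintype (Subgroup.centralizer ({u} : Set G)) := Fintype.ofFinite _
  obtain ⟨ξ₀, h₀, hmin₀, he₀⟩ := exists_min_degExp hM hb.1
  obtain ⟨χ₁, hχ₁, hmin₁, he₁⟩ := exists_min_degExp hM hB
  obtain ⟨k, hk⟩ := hu
  set S := Finset.univ.filter (fun χ : IrrCharacter G => χ ∈ B ∧ blockHeight 2 B (χ : G → ℂ) = 0) with hS
  have hcard : Nat.card {χ : IrrCharacter G // χ ∈ B ∧ blockHeight 2 B (χ : G → ℂ) = 0} = S.card := by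
    rw [Nat.card_eq_fintype_card, hS, Fintype.card_subtype]
  have hS' : ∀ ρ ∈ S, ρ ∈ B ∧ ∀ τ ∈ B, degExp 2 ρ ≤ degExp 2 τ := by
    intro ρ hρ
    obtain ⟨hρB, h⟩ := (Finset.mem_filter.1 hρ).2
    refine ⟨hρB, fun τ hτ => ?_⟩
    rw [blockHeight_eq he₁] at h
    have := hmin₁ τ hτ
    omega
  set q := blockDefect 2 b with hq
  have hq' : (Nat.card (Subgroup.centralizer ({u} : Set G))).factorization 2 - degExp 2 ξ₀ = q := by
    rw [hq, ← blockDefect_eq he₀]
  have hN : 2 ^ (k + 1) ≠ 0 := by positivity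
  have hdvd : orderOf u ∣ 2 ^ (k + 1) := hk ▸ pow_dvd_pow _ (Nat.le_succ k)
  set P := fun χ : IrrCharacter G => contribPoly 2 (2 ^ (k + 1)) u b (degExp 2 ξ₀) χ χ with hP
  have hreal : ∀ χ, aeval (zetaRoot (2 ^ (k + 1)) ^ (2 ^ (k + 1) - 1)) (P χ) = aeval (zetaRoot (2 ^ (k + 1))) (P χ) := by
    intro χ
    rw [← conj_eq_pow hN (zetaRoot_prim hN).pow_eq_one, ← conj_aeval]
    exact conj_contrib hM.1 hN b _ χ χ (zetaRoot_prim hN).pow_eq_one
  choose a ha1 ha2 using fun χ => sum_conjugates_real k (P χ) (hreal χ)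
  have hsum : ∀ χ, ∑ j ∈ coprimeResidues (2 ^ (k + 1)), (aeval (zetaRoot (2 ^ (k + 1)) ^ j) (P χ)).re =
      (2 : ℝ) ^ k * a χ := fun χ => by
    rw [← Complex.re_sum, ha1, show ((2 : ℂ) ^ k * (a χ : ℂ)) = (((2 : ℝ) ^ k * a χ : ℝ) : ℂ) by push_cast; rfl,
      Complex.ofReal_re]
  have hφ : (coprimeResidues (2 ^ (k + 1))).card = 2 ^ k := by
    have : coprimeResidues (2 ^ (k + 1)) = (Finset.range (2 ^ (k + 1))).filter (2 ^ (k + 1)).Coprime :=
      Finset.filter_congr fun j _ => Nat.coprime_comm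
    rw [this, ← Nat.totient_eq_card_coprime, Nat.totient_prime_pow Nat.prime_two (Nat.succ_pos k)]
    simp
  have hge : ∀ χ ∈ S, (S.card : ℤ) ≤ 2 ^ q * a χ := by
    intro χ hχ
    have h := card_mul_le_sum_re hM ⟨k, hk⟩ hb h₀ hmin₀ (K := k + 1) hdvd S hS' hχ
    rw [hq', hsum, hφ, Nat.cast_pow, Nat.cast_ofNat, mul_left_comm] at h
    have h' := le_of_mul_le_mul_left h (by positivity : (0 : ℝ) < 2 ^ k)
    exact_mod_cast h'
  have htot : ∑ χ ∈ S, a χ ≤ 2 ^ q * (blockRank 2 b : ℤ) := by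
    have hpos : ∀ j ∈ coprimeResidues (2 ^ (k + 1)), ∀ χ, 0 ≤ (aeval (zetaRoot (2 ^ (k + 1)) ^ j) (P χ)).re := by
      intro j hj χ
      have h := sum_normSq_contrib hM ⟨k, hk⟩ hb.1 hN hdvd hmin₀ (Finset.mem_filter.1 hj).2 χ
      exact nonneg_of_mul_nonneg_right (h ▸ Finset.sum_nonneg fun _ _ => by positivity)
        (pow_pos (Nat.cast_pos.2 hM.1.pos) _)
    have h : ∑ χ : IrrCharacter G, ∑ j ∈ coprimeResidues (2 ^ (k + 1)),
        (aeval (zetaRoot (2 ^ (k + 1)) ^ j) (P χ)).re = (2 : ℝ) ^ k * ((2 : ℝ) ^ q * blockRank 2 b) := by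
      rw [Finset.sum_comm, Finset.sum_congr rfl (g := fun _ => (2 : ℝ) ^ q * blockRank 2 b) fun j hj => ?_]
      · rw [Finset.sum_const, hφ, nsmul_eq_mul]; push_cast; rfl
      · have h := congrArg Complex.re
          (sum_contrib_diag hM ⟨k, hk⟩ hb.1 hN hdvd hmin₀ (Finset.mem_filter.1 hj).2)
        rw [hq', Complex.re_sum] at h
        rw [h, show (((2 : ℕ) : ℂ) ^ q * (blockRank 2 b : ℕ)) = (((2 : ℝ) ^ q * blockRank 2 b : ℝ) : ℂ) by
          push_cast; rfl, Complex.ofReal_re]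
    have h2 : (2 : ℝ) ^ k * ∑ χ ∈ S, (a χ : ℝ) ≤ (2 : ℝ) ^ k * ((2 : ℝ) ^ q * blockRank 2 b) := by
      rw [← h, Finset.mul_sum, Finset.sum_congr rfl fun χ _ => (hsum χ).symm]
      exact Finset.sum_le_sum_of_subset_of_nonneg (Finset.subset_univ _)
        fun χ _ _ => Finset.sum_nonneg fun j hj => hpos j hj χ
    have h3 := le_of_mul_le_mul_left h2 (by positivity : (0 : ℝ) < 2 ^ k)
    exact_mod_cast h3
  have hodd : ∀ χ ∈ S, Odd (a χ) := by
    intro χ hχ
    have h := contrib_not_mem hM hb (hS' χ hχ).1 (hS' χ hχ).2 (hS' χ hχ).1 (hS' χ hχ).2 h₀ hmin₀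
      (K := k + 1) (z := 1) (one_pow _)
    rw [show aeval (1 : ℂ) (contribPoly 2 (2 ^ (k + 1)) u b (degExp 2 ξ₀) χ χ) =
      (((P χ).eval 1 : ℤ) : ℂ) by
        rw [← map_one (algebraMap ℤ ℂ), aeval_algebraMap_apply]; simp [hP]] at h
    rw [memLocalIdeal_intCast_iff hM] at h
    have h2 := ha2 χ
    simp only [Nat.cast_ofNat] at h
    rw [Int.odd_iff]
    omega
  rw [hcard]
  set s := Nat.sqrt (blockRank 2 b) with hs
  have hs1 := Nat.sqrt_le' (blockRank 2 b)
  have hs2 := Nat.lt_succ_sqrt' (blockRank 2 b)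
  rw [← hs] at hs1 hs2
  have hmain : (Odd s → S.card ≤ s * 2 ^ q) ∧ (¬ Odd s → (s + 1) * S.card ≤ blockRank 2 b * 2 ^ q) := by
    have hn : (0 : ℤ) < 2 ^ q := by positivity
    constructor
    · intro hso
      by_cases hall : ∀ χ ∈ S, (s : ℤ) + 2 ≤ a χ
      · have h1 : (S.card : ℤ) * ((s : ℤ) + 2) ≤ 2 ^ q * blockRank 2 b := by
          refine le_trans ?_ htot
          rw [← smul_eq_mul, Nat.cast_smul_eq_nsmul, ← Finset.sum_const]
          exact Finset.sum_le_sum hall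
        have h2 : (blockRank 2 b : ℤ) ≤ (s : ℤ) * ((s : ℤ) + 2) := by
          have h2' : (blockRank 2 b : ℤ) < ((s : ℤ) + 1) ^ 2 := by exact_mod_cast hs2
          linarith
        have h3 : (S.card : ℤ) ≤ (s : ℤ) * 2 ^ q :=
          le_of_mul_le_mul_right (by nlinarith) (by positivity : (0 : ℤ) < (s : ℤ) + 2)
        exact_mod_cast h3
      · push Not at hall
        obtain ⟨χ, hχ, hlt⟩ := hall
        obtain ⟨r, hr⟩ := hodd χ hχ
        obtain ⟨r', hr'⟩ := hso
        have h1 : a χ ≤ (s : ℤ) := by omega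
        have h3 : (S.card : ℤ) ≤ (s : ℤ) * 2 ^ q :=
          (hge χ hχ).trans (by rw [mul_comm]; exact mul_le_mul_of_nonneg_right h1 hn.le)
        exact_mod_cast h3
    · intro hse
      rw [Nat.not_odd_iff_even] at hse
      suffices h3 : ((s : ℤ) + 1) * S.card ≤ (blockRank 2 b : ℤ) * 2 ^ q by exact_mod_cast h3
      by_cases hall : ∀ χ ∈ S, (s : ℤ) + 1 ≤ a χ
      · rw [mul_comm, mul_comm (blockRank 2 b : ℤ)]
        refine le_trans ?_ htot
        rw [← smul_eq_mul, Nat.cast_smul_eq_nsmul, ← Finset.sum_const]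
        exact Finset.sum_le_sum hall
      · push Not at hall
        obtain ⟨χ, hχ, hlt⟩ := hall
        obtain ⟨r, hr⟩ := hodd χ hχ
        obtain ⟨r', hr'⟩ := hse
        have h1 : a χ ≤ (s : ℤ) - 1 := by omega
        have h2 : ((s : ℤ)) ^ 2 ≤ blockRank 2 b := by exact_mod_cast hs1
        have h4 := hge χ hχ
        have h5 : ((s : ℤ) + 1) * S.card ≤ ((s : ℤ) + 1) * (2 ^ q * ((s : ℤ) - 1)) :=
          mul_le_mul_of_nonneg_left (h4.trans (mul_le_mul_of_nonneg_left h1 hn.le)) (by positivity)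
        nlinarith [mul_le_mul_of_nonneg_left h2 hn.le]
  refine ⟨hmain.1, hmain.2, fun hl => ?_⟩
  rcases Nat.eq_zero_or_pos s with h | h
  · have := hmain.2 (by simp [h])
    have hl0 : blockRank 2 b = 0 := by rw [h] at hs2; simpa using hs2
    rw [h, hl0] at this
    simp only [zero_add, one_mul, zero_mul, Nat.le_zero] at this
    simp [this]
  · have hs1' : s = 1 := by nlinarith
    have := hmain.1 (by rw [hs1']; exact odd_one)
    rwa [hs1', one_mul] at this

end Cfsg.Agent.S4541
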