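import Cfsg.Statements.S0161
import Cfsg.Agent.S0160

set_option autoImplicit false
open Cfsg

namespace Cfsg.Agent.S0161

/-- In a finite group of odd order, a real-valued irreducible complex character is the trivial character. -/
theorem result {G : Type*} [Group G] [Finite G] (hodd : Odd (Nat.card G)) (χ : Cfsg.IrrCharacter G) (hreal : ∀ g : G, ((χ : G → ℂ) g).im = 0) : (χ : G → ℂ) = fun _ => 1 := by
  classical
  have hcount := Cfsg.Agent.S0160.result (G := G)
  have h1 : Nat.card {C : ConjClasses G // ∀ g : G, ConjClasses.mk g = C → IsConj g g⁻¹} = 1 := by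
    refine Nat.card_eq_one_iff_unique.mpr ⟨⟨fun C D => ?_⟩, ⟨⟨ConjClasses.mk 1, fun g hg => by
      rw [ConjClasses.mk_eq_mk_iff_isConj] at hg
      rw [isConj_one_left.mp hg, inv_one]⟩⟩⟩
    suffices h : ∀ C : {C : ConjClasses G // ∀ g : G, ConjClasses.mk g = C → IsConj g g⁻¹}, C.1 = ConjClasses.mk 1 from
      Subtype.ext ((h C).trans (h D).symm)
    rintro ⟨C, hC⟩
    obtain ⟨g, rfl⟩ := ConjClasses.exists_rep C
    obtain ⟨x, hx⟩ := isConj_iff.mp (hC g rfl)
    have hxx : Commute (x ^ 2) g := by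
      show x ^ 2 * g = g * x ^ 2
      have h2 : x * g⁻¹ * x⁻¹ = g := by
        rw [show x * g⁻¹ * x⁻¹ = (x * g * x⁻¹)⁻¹ by group, hx, inv_inv]
      calc x ^ 2 * g = x * (x * g * x⁻¹) * x⁻¹ * x ^ 2 := by
            simp only [sq]; group
        _ = g * x ^ 2 := by rw [hx, h2]
    obtain ⟨m, hm⟩ := hodd
    have hxg : Commute x g := by
      have hp : (x ^ 2) ^ (m + 1) = x := by
        rw [← pow_mul, show 2 * (m + 1) = Nat.card G + 1 by omega, pow_succ, pow_card_eq_one', one_mul]
      exact hp ▸ hxx.pow_left (m + 1)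
    have hg2 : g ^ 2 = 1 := by
      have h3 : g = g⁻¹ := by
        rw [← hx, hxg.eq, mul_inv_cancel_right]
      rw [sq]
      nth_rewrite 1 [h3]
      exact inv_mul_cancel g
    have hg1 : g = 1 := by
      have h4 : g ^ (2 * m + 1) = 1 := hm ▸ pow_card_eq_one'
      rwa [pow_succ, pow_mul, hg2, one_pow, one_mul] at h4
    exact congrArg ConjClasses.mk hg1
  rw [h1] at hcount
  obtain ⟨hsub, -⟩ := Nat.card_eq_one_iff_unique.mp hcount
  have h5 := @Subsingleton.elim _ hsub ⟨χ, hreal⟩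
    ⟨⟨fun _ => 1, CfsgLib.CharBasics.isIrrCharacter_one⟩, fun g => Complex.one_im⟩
  exact congrArg (fun z => z.1.1) h5

end Cfsg.Agent.S0161
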