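import Cfsg.Agent.RankOneP.Basic
import Mathlib.GroupTheory.SpecificGroups.Quaternion
import Mathlib.GroupTheory.Sylow

/-!
p-groups in which subgroups of equal order are isomorphic.
-/

set_option autoImplicit false

namespace CfsgLib.ConjPSub

variable {S : Type*} [Group S] [Finite S] {p : ℕ} [Fact p.Prime]

omit [Finite S] in
theorem card_sup_zpowers [Finite S] (T : Subgroup S) {a : S} (ha : a ^ p = 1) (hn : a ∈ Subgroup.normalizer (T : Set S))
    (haT : a ∉ T) : Nat.card ↥(T ⊔ Subgroup.zpowers a) = Nat.card T * p := by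
  set W := T ⊔ Subgroup.zpowers a with hW
  have hTW : T ≤ W := le_sup_left
  have haW : a ∈ W := Subgroup.mem_sup_right (Subgroup.mem_zpowers a)
  have hle : W ≤ Subgroup.normalizer (T : Set S) := sup_le Subgroup.le_normalizer (Subgroup.zpowers_le.2 hn)
  haveI : (T.subgroupOf W).Normal := (Subgroup.normal_subgroupOf_iff_le_normalizer hTW).2 hle
  let π := QuotientGroup.mk' (T.subgroupOf W)
  have hgen : ∀ q, q ∈ Subgroup.zpowers (π ⟨a, haW⟩) := by
    intro q
    obtain ⟨w, rfl⟩ := QuotientGroup.mk'_surjective _ q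
    have hle2 : W ≤ ((Subgroup.zpowers (π ⟨a, haW⟩)).comap π).map W.subtype := by
      refine sup_le (fun t ht => ⟨⟨t, hTW ht⟩, ?_, rfl⟩) (Subgroup.zpowers_le.2 ⟨⟨a, haW⟩, Subgroup.mem_zpowers _, rfl⟩)
      have h1 : π ⟨t, hTW ht⟩ = 1 :=
        (QuotientGroup.eq_one_iff (N := T.subgroupOf W) ⟨t, hTW ht⟩).2 (Subgroup.mem_subgroupOf.2 ht)
      simp only [SetLike.mem_coe, Subgroup.mem_comap, h1, one_mem]
    obtain ⟨w', hw', he⟩ := hle2 w.2
    rw [← Subtype.ext (a1 := w') (a2 := w) he]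
    exact hw'
  have ho : orderOf (π ⟨a, haW⟩) = p := by
    refine orderOf_eq_prime ?_ ?_
    · rw [← map_pow, show (⟨a, haW⟩ : W) ^ p = 1 from Subtype.ext ha, map_one]
    · exact fun h => haT (Subgroup.mem_subgroupOf.1 ((QuotientGroup.eq_one_iff (N := T.subgroupOf W) (⟨a, haW⟩ : W)).1 h))
  rw [← (T.subgroupOf W).card_mul_index, Nat.card_congr (Subgroup.subgroupOfEquivOfLe hTW).toEquiv,
    Subgroup.index_eq_card, ← orderOf_eq_card_of_forall_mem_zpowers hgen, ho]

theorem quaternion_no {k : ℕ} (hk : 2 ≤ k) (e : S ≃* QuaternionGroup (2 ^ k))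
    (hiso : ∀ H K : Subgroup S, Nat.card H = Nat.card K → Nonempty (H ≃* K)) : False := by
  haveI : NeZero (2 ^ k) := ⟨by positivity⟩
  let N := 2 ^ k
  have heven : Even (2 ^ k) := Nat.even_pow.2 ⟨even_two, by omega⟩
  have hd : 2 ∣ 2 * 2 ^ k := dvd_mul_right 2 _
  let c : ZMod (2 * 2 ^ k) →+* ZMod 2 := ZMod.castHom hd _
  have hcn : c (2 ^ k : ℕ) = 0 := by
    rw [map_natCast]
    exact (ZMod.natCast_eq_zero_iff _ _).2 heven.two_dvd
  let par : QuaternionGroup (2 ^ k) → ZMod 2 := fun q => match q with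
    | .a i => c i
    | .xa i => c i
  have hpar : ∀ u v, par (u * v) = par u + par v := by
    rintro (i | i) (j | j)
    · simp only [QuaternionGroup.a_mul_a, par, map_add]
    · simp only [QuaternionGroup.a_mul_xa, par, map_sub]
      rw [CharTwo.sub_eq_add, add_comm]
    · simp only [QuaternionGroup.xa_mul_a, par, map_add]
    · simp only [QuaternionGroup.xa_mul_xa, par, map_sub, map_add, hcn, zero_add]
      rw [CharTwo.sub_eq_add, add_comm]
  let f : QuaternionGroup (2 ^ k) →* Multiplicative (ZMod 2) :=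
    MonoidHom.mk' (fun q => Multiplicative.ofAdd (par q)) (fun u v => by rw [hpar, ofAdd_add])
  let F := f.comp e.toMonoidHom
  have hF : Function.Surjective F := by
    intro b
    refine ⟨e.symm (QuaternionGroup.a (b.toAdd.val : ℕ)), ?_⟩
    show Multiplicative.ofAdd (par (e (e.symm _))) = b
    rw [MulEquiv.apply_symm_apply]
    show Multiplicative.ofAdd (c (b.toAdd.val : ℕ)) = b
    rw [map_natCast, ZMod.natCast_zmod_val, ofAdd_toAdd]
  have hT : Nat.card F.ker = 2 * 2 ^ k := by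
    have h1 := F.ker.card_mul_index
    have h2 : F.ker.index = 2 := by
      rw [Subgroup.index_ker, MonoidHom.range_eq_top.2 hF, Subgroup.card_top]
      simp
    rw [h2, Nat.card_congr e.toEquiv, Nat.card_eq_fintype_card (α := QuaternionGroup _), QuaternionGroup.card] at h1
    omega
  let g : S := e.symm (QuaternionGroup.a 1)
  have hC : Nat.card (Subgroup.zpowers g) = 2 * 2 ^ k := by
    rw [Nat.card_zpowers, e.symm.orderOf_eq, QuaternionGroup.orderOf_a_one]
  obtain ⟨ψ⟩ := hiso F.ker (Subgroup.zpowers g) (hT.trans hC.symm)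
  have hm1 : e.symm (QuaternionGroup.a 2) ∈ F.ker := by
    show Multiplicative.ofAdd (par (e (e.symm _))) = 1
    rw [MulEquiv.apply_symm_apply]
    show Multiplicative.ofAdd (c 2) = 1
    rw [map_ofNat]; rfl
  have hm2 : e.symm (QuaternionGroup.xa 0) ∈ F.ker := by
    show Multiplicative.ofAdd (par (e (e.symm _))) = 1
    rw [MulEquiv.apply_symm_apply]
    show Multiplicative.ofAdd (c 0) = 1
    rw [map_zero]; rfl
  have h := congrArg Subtype.val (ψ.injective (show ψ (⟨_, hm1⟩ * ⟨_, hm2⟩) = ψ (⟨_, hm2⟩ * ⟨_, hm1⟩) by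
    rw [map_mul, map_mul]
    obtain ⟨i, hi⟩ := Subgroup.mem_zpowers_iff.1 (ψ ⟨_, hm1⟩).2
    obtain ⟨j, hj⟩ := Subgroup.mem_zpowers_iff.1 (ψ ⟨_, hm2⟩).2
    apply Subtype.ext
    rw [Subgroup.coe_mul, Subgroup.coe_mul, ← hi, ← hj]
    exact (Commute.zpow_zpow_self g i j).eq))
  simp only [Subgroup.coe_mul] at h
  rw [← map_mul, ← map_mul] at h
  have h' := e.symm.injective h
  rw [QuaternionGroup.a_mul_xa, QuaternionGroup.xa_mul_a, QuaternionGroup.xa.injEq, zero_sub, zero_add] at h'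
  have h4 : ((4 : ℕ) : ZMod (2 * 2 ^ k)) = 0 := by
    push_cast
    linear_combination -h'
  rw [ZMod.natCast_eq_zero_iff] at h4
  have h5 : 2 ^ 2 ≤ 2 ^ k := Nat.pow_le_pow_right (by norm_num) hk
  have h6 := Nat.le_of_dvd (by norm_num) h4
  omega

theorem main (hS : IsPGroup p S)
    (hiso : ∀ H K : Subgroup S, Nat.card H = Nat.card K → Nonempty (H ≃* K)) :
    IsCyclic S ∨ (IsMulCommutative S ∧ ∀ s : S, s ^ p = 1) ∨
      (p = 2 ∧ Nonempty (S ≃* QuaternionGroup 2)) ∨
      (p ≠ 2 ∧ ¬ IsMulCommutative S ∧ Nat.card S = p ^ 3 ∧ Monoid.exponent S = p) := by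
  classical
  have hp := (Fact.out : p.Prime)
  by_cases hu : CfsgLib.RankOneP.UniqueOrderP p S
  · rcases CfsgLib.RankOneP.isCyclic_or_quaternion hS hu with h | ⟨hp2, k, hk, ⟨e⟩⟩
    · exact Or.inl h
    rcases eq_or_lt_of_le hk with rfl | hk2
    · exact Or.inr (Or.inr (Or.inl ⟨hp2, ⟨e.trans (by rw [pow_one])⟩⟩))
    · exact absurd (quaternion_no hk2 e hiso) (fun h => h)
  right
  simp only [CfsgLib.RankOneP.UniqueOrderP, not_forall, exists_prop] at hu
  obtain ⟨x, y, hx, hy, hx1, hyx⟩ := hu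
  haveI : Nontrivial S := ⟨⟨x, 1, hx1⟩⟩
  haveI := hS.center_nontrivial
  obtain ⟨k, hk⟩ := IsPGroup.iff_card.1 (hS.to_subgroup (Subgroup.center S))
  have hk0 : k ≠ 0 := by
    intro h0
    rw [h0, pow_zero] at hk
    exact absurd hk (Finite.one_lt_card_iff_nontrivial.2 inferInstance).ne'
  obtain ⟨⟨z, hzc⟩, hzo⟩ := exists_prime_orderOf_dvd_card' (G := Subgroup.center S) p (hk ▸ dvd_pow_self p hk0)
  rw [Subgroup.orderOf_mk] at hzo
  obtain ⟨a, ha, haz⟩ : ∃ a, a ^ p = 1 ∧ a ∉ Subgroup.zpowers z := by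
    by_contra hcon
    push Not at hcon
    apply hyx
    have h1 : Nat.card (Subgroup.zpowers x) = Nat.card (Subgroup.zpowers z) := by
      rw [Nat.card_zpowers, Nat.card_zpowers, hzo, orderOf_eq_prime hx hx1]
    have h2 : Subgroup.zpowers x = Subgroup.zpowers z :=
      Subgroup.eq_of_le_of_card_ge (Subgroup.zpowers_le.2 (hcon x hx)) h1.ge
    rw [h2]
    exact hcon y hy
  have hzcomm : ∀ g, Commute g z := fun g => Subgroup.mem_center_iff.1 hzc g
  set V := Subgroup.zpowers z ⊔ Subgroup.zpowers a with hV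
  have hVn : a ∈ Subgroup.normalizer ((Subgroup.zpowers z : Subgroup S) : Set S) := by
    refine Subgroup.centralizer_le_normalizer _ (Subgroup.mem_centralizer_iff.2 fun b hb => ?_)
    obtain ⟨i, rfl⟩ := Subgroup.mem_zpowers_iff.1 hb
    exact ((hzcomm a).zpow_right i).eq.symm
  have hVc : Nat.card V = p * p := by rw [hV, card_sup_zpowers _ ha hVn haz, Nat.card_zpowers, hzo]
  have hVe : ∀ v ∈ V, v ^ p = 1 := by
    intro v hv
    haveI : (Subgroup.zpowers z).Normal := ⟨fun b hb g => by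
      obtain ⟨i, rfl⟩ := Subgroup.mem_zpowers_iff.1 hb
      rw [((hzcomm g).zpow_right i).eq, mul_inv_cancel_right]
      exact hb⟩
    obtain ⟨b, hb, d, hd, rfl⟩ := Subgroup.mem_sup_of_normal_left.1 hv
    obtain ⟨i, rfl⟩ := Subgroup.mem_zpowers_iff.1 hb
    obtain ⟨j, rfl⟩ := Subgroup.mem_zpowers_iff.1 hd
    rw [((hzcomm (a ^ j)).zpow_right i).symm.mul_pow, ← zpow_natCast, ← zpow_natCast (a ^ j), ← zpow_mul,
      ← zpow_mul, mul_comm i, mul_comm j, zpow_mul, zpow_mul, zpow_natCast, zpow_natCast, ha]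
    rw [← hzo, pow_orderOf_eq_one]; simp
  -- exponent `p`
  have hexp : ∀ g : S, g ^ p = 1 := by
    intro g
    by_contra hg
    obtain ⟨m, hm⟩ := IsPGroup.iff_orderOf.1 hS g
    have hm2 : 2 ≤ m := by
      by_contra h
      apply hg
      rw [← orderOf_dvd_iff_pow_eq_one, hm]
      exact (pow_dvd_pow p (show m ≤ 1 by omega)).trans (by rw [pow_one])
    have ho : orderOf (g ^ p ^ (m - 2)) = p * p := by
      rw [orderOf_pow' _ (pow_ne_zero _ hp.ne_zero), hm, Nat.gcd_eq_right (pow_dvd_pow p (by omega)),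
        Nat.pow_div (by omega) hp.pos, show m - (m - 2) = 2 by omega, pow_two]
    obtain ⟨ψ⟩ := hiso (Subgroup.zpowers (g ^ p ^ (m - 2))) V (by rw [Nat.card_zpowers, ho, hVc])
    have h1 : (⟨_, Subgroup.mem_zpowers (g ^ p ^ (m - 2))⟩ : Subgroup.zpowers (g ^ p ^ (m - 2))) ^ p = 1 := by
      apply ψ.injective
      rw [map_pow, map_one]
      exact Subtype.ext (hVe _ (ψ _).2)
    have h2 : (g ^ p ^ (m - 2)) ^ p = 1 := congrArg Subtype.val h1
    have h3 := Nat.le_of_dvd hp.pos (ho ▸ orderOf_dvd_of_pow_eq_one h2)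
    exact absurd h3 (not_le.2 (lt_mul_self hp.one_lt))
  by_cases hcomm : IsMulCommutative S
  · exact Or.inl ⟨hcomm, hexp⟩
  refine Or.inr (Or.inr ⟨?_, hcomm, ?_, ?_⟩)
  · rintro rfl
    apply hcomm
    refine ⟨⟨fun u v => ?_⟩⟩
    have hu : u⁻¹ = u := inv_eq_of_mul_eq_one_left (by rw [← pow_two]; exact hexp u)
    have hv : v⁻¹ = v := inv_eq_of_mul_eq_one_left (by rw [← pow_two]; exact hexp v)
    have huv : (u * v)⁻¹ = u * v := inv_eq_of_mul_eq_one_left (by rw [← pow_two]; exact hexp (u * v))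
    rw [← huv, mul_inv_rev, hu, hv]
  · obtain ⟨n, hn⟩ := IsPGroup.iff_card.1 hS
    -- a nonabelian subgroup of order `p ^ 3`
    have hc' : Subgroup.center S ≠ ⊤ := fun h => hcomm ⟨⟨fun u v =>
      (Subgroup.mem_center_iff.1 (show v ∈ Subgroup.center S by rw [h]; trivial) u)⟩⟩
    haveI : Nontrivial (S ⧸ Subgroup.center S) := QuotientGroup.nontrivial_iff.2 hc'
    haveI := (hS.to_quotient (Subgroup.center S)).center_nontrivial
    obtain ⟨⟨qb, hqb⟩, hqb1⟩ := exists_ne (1 : Subgroup.center (S ⧸ Subgroup.center S))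
    obtain ⟨b, rfl⟩ := QuotientGroup.mk_surjective qb
    have hbc : b ∉ Subgroup.center S := fun h => hqb1 (Subtype.ext ((QuotientGroup.eq_one_iff b).2 h))
    rw [Subgroup.mem_center_iff] at hbc
    push Not at hbc
    obtain ⟨u, hu⟩ := hbc
    set c := u * b * u⁻¹ * b⁻¹ with hc
    have hcc : c ∈ Subgroup.center S := by
      rw [← QuotientGroup.eq_one_iff, hc]
      simp only [QuotientGroup.mk_mul, QuotientGroup.mk_inv]
      rw [Subgroup.mem_center_iff.1 hqb (u : S ⧸ Subgroup.center S)]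
      group
    have hc1 : c ≠ 1 := fun h => hu (mul_inv_eq_iff_eq_mul.1 (mul_inv_eq_one.1 (hc ▸ h)))
    have hcz : ∀ g, Commute g c := fun g => Subgroup.mem_center_iff.1 hcc g
    have hbC : b ∉ Subgroup.zpowers c := fun h => by
      obtain ⟨i, hi⟩ := Subgroup.mem_zpowers_iff.1 h
      exact hu (by rw [← hi]; exact ((hcz u).zpow_right i).eq)
    set T := Subgroup.zpowers c ⊔ Subgroup.zpowers b with hT
    have hbn : b ∈ Subgroup.normalizer ((Subgroup.zpowers c : Subgroup S) : Set S) := by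
      refine Subgroup.centralizer_le_normalizer _ (Subgroup.mem_centralizer_iff.2 fun d hd => ?_)
      obtain ⟨i, rfl⟩ := Subgroup.mem_zpowers_iff.1 hd
      exact ((hcz b).zpow_right i).eq.symm
    have hTc : Nat.card T = p * p := by
      rw [hT, card_sup_zpowers _ (hexp b) hbn hbC, Nat.card_zpowers, orderOf_eq_prime (hexp c) hc1]
    have hTb : T ≤ Subgroup.centralizer ({b} : Set S) :=
      sup_le (Subgroup.zpowers_le.2 (Subgroup.mem_centralizer_singleton_iff.2 (hcz b).symm.eq))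
        (Subgroup.zpowers_le.2 (Subgroup.mem_centralizer_singleton_iff.2 rfl))
    have hun : u ∈ Subgroup.normalizer (T : Set S) := by
      refine Subgroup.mem_normalizer_fintype fun t ht => ?_
      have hle : T ≤ T.comap (MulAut.conj u).toMonoidHom := by
        refine sup_le (Subgroup.zpowers_le.2 ?_) (Subgroup.zpowers_le.2 ?_)
        · show u * c * u⁻¹ ∈ T
          rw [(hcz u).eq, mul_inv_cancel_right]
          exact Subgroup.mem_sup_left (Subgroup.mem_zpowers c)
        · show u * b * u⁻¹ ∈ T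
          rw [show u * b * u⁻¹ = c * b by rw [hc]; group]
          exact Subgroup.mul_mem_sup (Subgroup.mem_zpowers c) (Subgroup.mem_zpowers b)
      exact hle ht
    have huT : u ∉ T := fun h => hu (Subgroup.mem_centralizer_singleton_iff.1 (hTb h))
    have hHc : Nat.card ↥(T ⊔ Subgroup.zpowers u) = p ^ 3 := by
      rw [card_sup_zpowers _ (hexp u) hun huT, hTc]; ring
    have hHnc : ¬ IsMulCommutative ↥(T ⊔ Subgroup.zpowers u) := fun h => hu
      (congrArg Subtype.val (h.is_comm.comm ⟨u, Subgroup.mem_sup_right (Subgroup.mem_zpowers u)⟩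
        ⟨b, Subgroup.mem_sup_left (Subgroup.mem_sup_right (Subgroup.mem_zpowers b))⟩))
    have hn3 : 3 ≤ n := by
      have h1 := Subgroup.card_le_card_group (T ⊔ Subgroup.zpowers u)
      rw [hHc, hn] at h1
      exact (Nat.pow_le_pow_iff_right hp.one_lt).1 h1
    have hnoab : ∀ A : Subgroup S, IsMulCommutative A → Nat.card A < p ^ 3 := by
      intro A hA
      by_contra hge
      push Not at hge
      obtain ⟨m, hm⟩ := IsPGroup.iff_card.1 (hS.to_subgroup A)
      have hm3 : 3 ≤ m := (Nat.pow_le_pow_iff_right hp.one_lt).1 (hm ▸ hge)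
      obtain ⟨B, hB⟩ := Sylow.exists_subgroup_card_pow_prime (G := A) p (n := 3) (hm ▸ pow_dvd_pow p hm3)
      obtain ⟨ψ⟩ := hiso (T ⊔ Subgroup.zpowers u) (B.map A.subtype)
        (by rw [Subgroup.card_map_of_injective A.subtype_injective, hB, hHc])
      apply hHnc
      refine ⟨⟨fun v w => ψ.injective ?_⟩⟩
      rw [map_mul, map_mul]
      obtain ⟨v', hv', hv''⟩ := (ψ v).2
      obtain ⟨w', hw', hw''⟩ := (ψ w).2
      apply Subtype.ext
      rw [Subgroup.coe_mul, Subgroup.coe_mul, ← hv'', ← hw'', ← map_mul, ← map_mul, hA.is_comm.comm]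
    obtain ⟨A, ⟨hAn, hAab⟩, hAmax⟩ := Set.Finite.exists_maximal
      (s := {A : Subgroup S | A.Normal ∧ IsMulCommutative A}) (Set.toFinite _)
      ⟨⊥, inferInstance, inferInstance⟩
    have hCA : Subgroup.centralizer (A : Set S) = A :=
      CfsgLib.RankOneP.centralizer_eq_of_maximal hS hAn hAab
        (fun B hB1 hB2 hAB => le_antisymm (hAmax ⟨hB1, hB2⟩ hAB) hAB)
    have hzA : z ∈ A := by
      rw [← hCA]
      exact Subgroup.mem_centralizer_iff.2 fun d _ => (hzcomm d).eq
    have hAz : ¬ A ≤ Subgroup.zpowers z := by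
      intro hle
      apply hHnc
      have h1 : Subgroup.centralizer (A : Set S) = ⊤ := by
        rw [eq_top_iff]
        intro g _
        rw [Subgroup.mem_centralizer_iff]
        intro d hd
        obtain ⟨i, rfl⟩ := Subgroup.mem_zpowers_iff.1 (hle hd)
        exact ((hzcomm g).zpow_right i).eq.symm
      have h2 : A = ⊤ := hCA ▸ h1
      refine ⟨⟨fun v w => Subtype.ext ?_⟩⟩
      have h3 : ((⟨(v : S), h2 ▸ Subgroup.mem_top _⟩ : A) * ⟨(w : S), h2 ▸ Subgroup.mem_top _⟩ : A).1 =
          ((⟨(w : S), h2 ▸ Subgroup.mem_top _⟩ : A) * ⟨(v : S), h2 ▸ Subgroup.mem_top _⟩ : A).1 :=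
        congrArg Subtype.val (hAab.is_comm.comm _ _)
      exact h3
    obtain ⟨d, hdA, hdz⟩ := Set.not_subset.1 hAz
    have hAc : Nat.card A = p * p := by
      have hdn : d ∈ Subgroup.normalizer ((Subgroup.zpowers z : Subgroup S) : Set S) := by
        refine Subgroup.centralizer_le_normalizer _ (Subgroup.mem_centralizer_iff.2 fun e he => ?_)
        obtain ⟨i, rfl⟩ := Subgroup.mem_zpowers_iff.1 he
        exact ((hzcomm d).zpow_right i).eq.symm
      have h1 := card_sup_zpowers _ (hexp d) hdn hdz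
      rw [Nat.card_zpowers, hzo] at h1
      have h2 : Nat.card A ≥ p * p := h1 ▸ Subgroup.card_le_of_le (sup_le (Subgroup.zpowers_le.2 hzA) (Subgroup.zpowers_le.2 hdA))
      obtain ⟨m, hm⟩ := IsPGroup.iff_card.1 (hS.to_subgroup A)
      have h3 := hnoab A hAab
      rw [hm] at h2 h3 ⊢
      rw [← pow_two] at h2 ⊢
      have := (Nat.pow_lt_pow_iff_right hp.one_lt).1 h3
      have := (Nat.pow_le_pow_iff_right hp.one_lt).1 h2
      congr 1
      omega
    have hVd : Subgroup.zpowers z ⊔ Subgroup.zpowers d = A := by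
      refine Subgroup.eq_of_le_of_card_ge (sup_le (Subgroup.zpowers_le.2 hzA) (Subgroup.zpowers_le.2 hdA)) ?_
      rw [hAc, card_sup_zpowers _ (hexp d) ?_ hdz, Nat.card_zpowers, hzo]
      refine Subgroup.centralizer_le_normalizer _ (Subgroup.mem_centralizer_iff.2 fun e he => ?_)
      obtain ⟨i, rfl⟩ := Subgroup.mem_zpowers_iff.1 he
      exact ((hzcomm d).zpow_right i).eq.symm
    have hCd : Subgroup.centralizer ({d} : Set S) ≤ A := by
      intro g hg
      rw [← hCA, Subgroup.mem_centralizer_iff]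
      intro e he
      have h1 : A ≤ Subgroup.centralizer ({g} : Set S) := by
        rw [← hVd]
        exact sup_le (Subgroup.zpowers_le.2 (Subgroup.mem_centralizer_singleton_iff.2 (hzcomm g).symm.eq))
          (Subgroup.zpowers_le.2 (Subgroup.mem_centralizer_singleton_iff.2
            (Subgroup.mem_centralizer_singleton_iff.1 hg).symm))
      exact Subgroup.mem_centralizer_singleton_iff.1 (h1 he)
    -- the class of `d` lies in `A ∖ ⟨z⟩`
    let φ : S ⧸ Subgroup.centralizer ({d} : Set S) → {e : A // (e : S) ∉ Subgroup.zpowers z} :=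
      Quotient.lift (fun g : S => (⟨⟨g * d * g⁻¹, hAn.conj_mem d hdA g⟩, fun h => hdz (by
        obtain ⟨i, hi⟩ := Subgroup.mem_zpowers_iff.1 h
        refine Subgroup.mem_zpowers_iff.2 ⟨i, ?_⟩
        calc z ^ i = g⁻¹ * (g * z ^ i) := by group
          _ = g⁻¹ * (z ^ i * g) := by rw [((hzcomm g).zpow_right i).eq]
          _ = d := by rw [hi]; group)⟩ : {e : A // (e : S) ∉ Subgroup.zpowers z}))
        (fun g h hgh => by
          have h1 := Subgroup.mem_centralizer_singleton_iff.1 (QuotientGroup.leftRel_apply.1 hgh)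
          refine Subtype.ext (Subtype.ext ?_)
          show g * d * g⁻¹ = h * d * h⁻¹
          calc g * d * g⁻¹ = g * (d * (g⁻¹ * h)) * h⁻¹ := by group
            _ = g * (g⁻¹ * h * d) * h⁻¹ := by rw [h1]
            _ = h * d * h⁻¹ := by group)
    have hφ : Function.Injective φ := by
      intro q r
      induction q using QuotientGroup.induction_on with | H g => ?_
      induction r using QuotientGroup.induction_on with | H h => ?_
      intro heq
      have h1 : g * d * g⁻¹ = h * d * h⁻¹ := congrArg (fun e => ((e.1 : A) : S)) heq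
      rw [QuotientGroup.eq, Subgroup.mem_centralizer_singleton_iff]
      calc g⁻¹ * h * d = g⁻¹ * (h * d * h⁻¹) * h := by group
        _ = g⁻¹ * (g * d * g⁻¹) * h := by rw [h1]
        _ = d * (g⁻¹ * h) := by group
    have hcardlt : (Subgroup.centralizer ({d} : Set S)).index < p * p := by
      rw [Subgroup.index_eq_card]
      refine lt_of_le_of_lt (Nat.card_le_card_of_injective φ hφ) ?_
      rw [← hAc]
      exact Finite.card_subtype_lt (x := (1 : A)) (fun h => h (one_mem _))
    obtain ⟨m, hm⟩ := (Nat.dvd_prime_pow hp).1 (hn ▸ (Subgroup.centralizer ({d} : Set S)).index_dvd_card)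
    rw [hm.2] at hcardlt
    rw [← pow_two] at hcardlt
    have hm1 : m ≤ 1 := Nat.lt_succ_iff.1 ((Nat.pow_lt_pow_iff_right hp.one_lt).1 hcardlt)
    have hle : Nat.card S ≤ p ^ 3 := by
      rw [← (Subgroup.centralizer ({d} : Set S)).card_mul_index, hm.2]
      calc Nat.card ↥(Subgroup.centralizer ({d} : Set S)) * p ^ m ≤ Nat.card A * p ^ 1 :=
            Nat.mul_le_mul (Subgroup.card_le_of_le hCd) (Nat.pow_le_pow_right hp.pos hm1)
        _ = p ^ 3 := by rw [hAc]; ring
    rw [hn] at hle ⊢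
    have := (Nat.pow_le_pow_iff_right hp.one_lt).1 hle
    congr 1
    omega
  · rcases (Nat.dvd_prime hp).1 (Monoid.exponent_dvd_of_forall_pow_eq_one hexp) with h | h
    · exact absurd (Monoid.exp_eq_one_iff.1 h) (not_subsingleton S)
    · exact h

end CfsgLib.ConjPSub
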