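import Cfsg.Statements.S2286
import Cfsg.Agent.SL2Pres.NineRels

set_option autoImplicit false
open Cfsg

namespace Cfsg.Agent.S2286

open CfsgLib.SL2Pres.Short

/-- For every finite field F, SL_2(F) and PSL_2(F) have presentations with 3 generators and at most 9 relations; when F has characteristic 2, PSL_2(F) has a presentation with 3 generators and at most 5 relations. -/
theorem result {F : Type*} [Field F] [Fintype F] :
    (∃ rels : Finset (FreeGroup (Fin 3)), rels.card ≤ 9 ∧ Nonempty (PresentedGroup (↑rels : Set (FreeGroup (Fin 3))) ≃* Matrix.SpecialLinearGroup (Fin 2) F)) ∧ (∃ rels : Finset (FreeGroup (Fin 3)), rels.card ≤ 9 ∧ Nonempty (PresentedGroup (↑rels : Set (FreeGroup (Fin 3))) ≃* Matrix.ProjectiveSpecialLinearGroup (Fin 2) F)) ∧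
    (CharP F 2 → ∃ rels : Finset (FreeGroup (Fin 3)), rels.card ≤ 5 ∧ Nonempty (PresentedGroup (↑rels : Set (FreeGroup (Fin 3))) ≃* Matrix.ProjectiveSpecialLinearGroup (Fin 2) F)) := by
  classical
  obtain ⟨ω, hω⟩ := exists_primitive (F := F)
  set p := ringChar F with hp
  have : Fact p.Prime := ⟨CharP.char_is_prime F p⟩
  suffices h : ∃ l : ℕ, Subring.closure ({((ω : F) ^ 2) ^ l} : Set F) = ⊤ ∧
      ∀ n, 3 ≤ n → p ^ n ≤ Fintype.card F → ∃ k : ℕ, ((ω : F) ^ 2) ^ k = ((ω : F) ^ 2) ^ l + 1 by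
    obtain ⟨l, hl, hk⟩ := h
    obtain ⟨n, hn, hcard, hspan⟩ := exists_span p _ hl
    obtain ⟨h1, h2⟩ := nine p ω hω l n hn hcard hspan (fun h3 => hk n h3 hcard)
    exact ⟨h1, h2, fun h => haveI := h; five⟩
  rcases (Fact.out : p.Prime).eq_two_or_odd' with h2 | hodd
  · have : CharP F 2 := h2 ▸ (inferInstance : CharP F p)
    have hsq : ∀ z : F, ∃ y : F, y ^ 2 = z := fun z => by
      obtain ⟨y, hy⟩ := (PerfectRing.bijective_frobenius (R := F) (p := 2)).2 z
      exact ⟨y, hy⟩
    have hlog : ∀ z : F, z ≠ 0 → ∃ j : ℕ, ((ω : F) ^ 2) ^ j = z := fun z hz => by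
      obtain ⟨y, hy⟩ := hsq z
      have hy0 : y ≠ 0 := fun e => hz (by rw [← hy, e]; simp)
      obtain ⟨j, hj⟩ := mem_zpowers_iff_mem_range_orderOf.mp (hω (Units.mk0 y hy0)) |> Finset.mem_image.mp
      exact ⟨j, by rw [← pow_mul, mul_comm, pow_mul, ← Units.val_pow_eq_pow_val, hj.2, ← hy]; rfl⟩
    refine ⟨1, eq_top_iff.mpr fun z _ => ?_, fun n hn hcard => hlog _ fun h0 => ?_⟩
    · rcases eq_or_ne z 0 with rfl | hz
      · exact zero_mem _
      · obtain ⟨j, rfl⟩ := hlog z hz
        exact pow_mem (Subring.subset_closure (by simp)) j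
    · rw [pow_one, CharTwo.add_eq_zero] at h0
      have hall : ∀ z : F, z = 0 ∨ z = 1 := fun z => by
        rcases eq_or_ne z 0 with hz | hz
        · exact Or.inl hz
        · obtain ⟨j, rfl⟩ := hlog z hz
          exact Or.inr (by rw [h0, one_pow])
      have hsub : (Finset.univ : Finset F) ⊆ {0, 1} := fun z _ => by simpa using hall z
      have h4 := (hcard.trans ((Finset.card_le_card hsub).trans Finset.card_le_two))
      rw [h2] at h4
      have := (Nat.pow_le_pow_right two_pos hn).trans h4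
      norm_num at this
  · have hqodd : Odd (Fintype.card F) := by
      obtain ⟨f, -, hf⟩ := FiniteField.card F p
      rw [hf]; exact hodd.pow
    obtain ⟨l, hl, hk⟩ := exists_square_generator p hqodd ω hω
    refine ⟨l, hl, fun n hn hcard => hk (lt_of_lt_of_le ?_ hcard)⟩
    have hp3 : 3 ≤ p := by rcases hodd with ⟨r, hr⟩; have := (Fact.out : p.Prime).two_le; omega
    calc 9 < 3 ^ 3 := by norm_num
      _ ≤ p ^ n := (Nat.pow_le_pow_left hp3 3).trans (Nat.pow_le_pow_right (by omega) hn)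

end Cfsg.Agent.S2286
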