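import Cfsg.Statements.S5099
import Cfsg.Agent.Fusion.KNormalizer

set_option autoImplicit false
open Cfsg

namespace Cfsg.Agent.S5099

open CfsgLib.Fusion Cfsg.FusionSystem in
lemma isKSystem_bot {Ω : Type*} [Group Ω] {S : Subgroup Ω} (F : Cfsg.FusionSystem S) (Q : Subgroup Ω) (E : Cfsg.FusionSystem (Cfsg.FusionSystem.centralizerIn S Q)) (hE : F.IsCentralizerSystem Q E) : IsKSystem F (⊥ : Subgroup (MulAut Q)) E := by
  intro P φ
  rw [hE P]
  constructor
  · rintro ⟨-, hP, hN, ψ, hψ, hext, hQ⟩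
    exact ⟨hP, hN, ψ, hψ, hext, 1, Subgroup.one_mem _, hQ⟩
  · rintro ⟨hP, hN, ψ, hψ, hext, κ, hκ1, hκ⟩
    obtain rfl := Subgroup.mem_bot.1 hκ1
    exact ⟨restrict_of_eq hψ le_sup_left (fun x => (hext x).symm), hP, hN, ψ, hψ, hext, hκ⟩

/-- If F is a saturated fusion system over a finite p-group S and Q is fully centralized in F, then the centralizer system C_F(Q) is a saturated fusion system over C_S(Q). -/
theorem result {Ω : Type*} [Group Ω] {S : Subgroup Ω} [Finite S] (p : ℕ) [Fact p.Prime] (hS : IsPGroup p S) (F : Cfsg.FusionSystem S) (hF : F.IsSaturated p) (Q : Subgroup Ω) (hQ : F.IsFullyCentralized Q) (E : Cfsg.FusionSystem (Cfsg.FusionSystem.centralizerIn S Q)) (hE : F.IsCentralizerSystem Q E) : E.IsSaturated p := by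
  open CfsgLib.Fusion Cfsg.FusionSystem in
  have hK : FullK p F (⊥ : Subgroup (MulAut Q)) := by
    refine ⟨receptive_of_fullyCentralized hS hF hQ, ?_⟩
    rw [inf_bot_eq, inf_bot_eq]
    simp
  open CfsgLib.Fusion in
  refine isSaturated_of_isKSystem p hS hF hK ?_ E (isKSystem_bot F Q E hE)
  ext g
  constructor
  · exact fun hg => CfsgLib.Fusion.centralizerIn_le_NK _ hg
  · intro hg
    obtain ⟨hgS, κ, hκ1, hκ⟩ := CfsgLib.Fusion.mem_NK.1 hg
    obtain rfl := Subgroup.mem_bot.1 hκ1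
    refine ⟨hgS, Subgroup.mem_centralizer_iff.2 fun x hx => ?_⟩
    have h := hκ ⟨x, hx⟩
    simp only [MulAut.one_apply] at h
    conv_lhs => rw [h]
    group

end Cfsg.Agent.S5099
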