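import Cfsg.Statements.S2587
import Cfsg.Agent.FormConj.Unitary

set_option autoImplicit false
open Cfsg

namespace Cfsg.Agent.S2587

/-- Conjugacy in the finite general unitary group is controlled by the general linear group: two elements of GU_n(q) (the invertible matrices over the field with q² elements preserving the Hermitian form Σ u_i v_i^q) are conjugate in GU_n(q) if and only if they are conjugate in GL_n(q²). -/
theorem result {K : Type*} [Field K] [Fintype K] {q n : ℕ} (hK : Fintype.card K = q ^ 2) (A B : ↥(Cfsg.GU n K q)) : IsConj A B ↔ IsConj (A : GL (Fin n) K) (B : GL (Fin n) K) := by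
  obtain ⟨θ, hq, hθ, hne, -⟩ := CfsgLib.Unitary.exists_conj q hK
  refine ⟨fun h => (Cfsg.GU n K q).subtype.map_isConj h, fun h => ?_⟩
  obtain ⟨P, hP⟩ := isConj_iff.1 h
  have hP' : (P : Matrix (Fin n) (Fin n) K) * (A : GL (Fin n) K).1 = (B : GL (Fin n) K).1 * P.1 := by
    rw [← Units.val_mul, ← Units.val_mul, ← hP, inv_mul_cancel_right]
  obtain ⟨g, hg, hgA⟩ := CfsgLib.FormConj.exists_unitary_conj hθ hne
    ((CfsgLib.FormConj.mem_GU_dag q hq hθ _).1 A.2) ((CfsgLib.FormConj.mem_GU_dag q hq hθ _).1 B.2)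
    (Matrix.isUnits_det_units P) hP'
  have hgu : IsUnit g.det := Matrix.isUnit_det_of_left_inverse hg
  refine isConj_iff.2 ⟨⟨Matrix.GeneralLinearGroup.mk'' g hgu,
    (CfsgLib.FormConj.mem_GU_dag q hq hθ _).2 hg⟩, mul_inv_eq_iff_eq_mul.2 (Subtype.ext (Units.ext hgA))⟩

end Cfsg.Agent.S2587
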