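import Cfsg.Statements.S0539
import Cfsg.Agent.Subnormal.Basic
import Mathlib

set_option autoImplicit false
open Pointwise
open Cfsg

namespace Cfsg.Agent.S0539

/-- Let S be a family of subnormal subgroups of a finite group that is closed under conjugation, and S₀ a proper subfamily. Then some member of S not in S₀ normalizes the join of S₀. -/
theorem result {G : Type*} [Group G] [Finite G] (S S₀ : Set (Subgroup G)) (hS : ∀ U ∈ S, U.IsSubnormal) (hconj : ∀ U ∈ S, ∀ g : G, MulAut.conj g • U ∈ S) (h₀ : S₀ ⊂ S) : ∃ X ∈ S, X ∉ S₀ ∧ X ≤ Subgroup.normalizer ((sSup S₀ : Subgroup G) : Set G) := by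
  induction hc : Nat.card G using Nat.strong_induction_on generalizing G with
  | _ c ih =>
  subst hc
  obtain ⟨X, hX, hX0⟩ := Set.exists_of_ssubset h₀
  set U : Subgroup G := sSup S₀ with hU
  have hUs : U.IsSubnormal := CfsgLib.Subnormal.isSubnormal_sSup _ fun H hH => hS H (h₀.subset hH)
  rcases hUs.lt_normal with e | ⟨N, hN, hUN, hlt⟩
  · refine ⟨X, hX, hX0, ?_⟩
    rw [e]
    exact le_trans le_top Subgroup.le_normalizer
  let SN : Set (Subgroup N) := {V | V.map N.subtype ∈ S}
  let SN0 : Set (Subgroup N) := {V | V.map N.subtype ∈ S₀}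
  by_cases heq : ∀ V ∈ SN, V ∈ SN0
  · have hinv : ∀ g : G, ∀ V ∈ S₀, MulAut.conj g • V ∈ S₀ := by
      intro g V hV
      have h1 := hconj V (h₀.subset hV) g
      have h2 : MulAut.conj g • V ≤ N := by
        rintro _ ⟨v, hv, rfl⟩
        exact hN.conj_mem v (hUN ((le_sSup hV : V ≤ U) hv)) g
      have h3 := heq ((MulAut.conj g • V).subgroupOf N)
        (by change _ ∈ S; rw [Subgroup.map_subgroupOf_eq_of_le h2]; exact h1)
      change _ ∈ S₀ at h3
      rwa [Subgroup.map_subgroupOf_eq_of_le h2] at h3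
    refine ⟨X, hX, hX0, fun g _ => CfsgLib.Subnormal.conj_eq_self_iff.1 ?_⟩
    have hle : ∀ g : G, U.map (MulAut.conj g).toMonoidHom ≤ U := by
      intro g
      rw [Subgroup.map_le_iff_le_comap]
      refine sSup_le fun V hV => ?_
      rw [← Subgroup.map_le_iff_le_comap]
      exact le_sSup (hinv g V hV)
    refine le_antisymm (hle g) ?_
    rw [CfsgLib.Subnormal.le_conj_iff]
    exact hle _
  push Not at heq
  obtain ⟨V, hV, hV0⟩ := heq
  have hNlt : Nat.card N < Nat.card G :=
    lt_of_le_of_ne (Subgroup.card_le_card_group N) fun e => hlt.ne (Subgroup.eq_top_of_card_eq N e)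
  obtain ⟨Y, hY, hY0, hYn⟩ := ih _ hNlt SN SN0
    (fun W hW => by
      have := (hS _ hW).subgroupOf (K := N)
      rwa [Subgroup.subgroupOf, Subgroup.comap_map_eq_self_of_injective N.subtype_injective] at this)
    (fun W hW g => by
      change Subgroup.map N.subtype (W.map (MulAut.conj g).toMonoidHom) ∈ S
      have e : (W.map (MulAut.conj g).toMonoidHom).map N.subtype = MulAut.conj (g : G) • W.map N.subtype := by
        change _ = (W.map N.subtype).map (MulAut.conj (g : G)).toMonoidHom
        rw [Subgroup.map_map, Subgroup.map_map]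
        congr 1
      rw [e]
      exact hconj _ hW _)
    (ssubset_iff_subset_ne.2 ⟨fun W hW => h₀.subset hW, fun e => hV0 (e ▸ hV)⟩) rfl
  refine ⟨Y.map N.subtype, hY, hY0, ?_⟩
  have e : (sSup SN0 : Subgroup N).map N.subtype = U := by
    apply le_antisymm
    · rw [Subgroup.map_le_iff_le_comap]
      exact sSup_le fun W hW => Subgroup.map_le_iff_le_comap.1 (le_sSup hW)
    · refine sSup_le fun W hW => ?_
      have hWN : W ≤ N := (le_sSup hW : W ≤ U).trans hUN
      rw [← Subgroup.map_subgroupOf_eq_of_le hWN]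
      exact Subgroup.map_mono (le_sSup (show W.subgroupOf N ∈ SN0 by
        change _ ∈ S₀; rw [Subgroup.map_subgroupOf_eq_of_le hWN]; exact hW))
  rw [← e]
  exact (Subgroup.map_mono hYn).trans (Subgroup.le_normalizer_map _)

end Cfsg.Agent.S0539
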