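import Cfsg.Statements.S3707
import Mathlib
import Cfsg.Agent.Marggraf.Basic

set_option autoImplicit false
open Cfsg

namespace Cfsg.Agent.S3707

/-- Let G be a finite primitive permutation group on Ω of degree n and Γ ⊂ Ω a subset with 1 < #Γ ≤ n/2 such that the pointwise stabilizer of Ω ∖ Γ is transitive on Γ. Then G is 3-transitive on Ω. -/
theorem result {G Ω : Type*} [Group G] [Finite G] [MulAction G Ω] [FaithfulSMul G Ω] [Finite Ω] (hprim : MulAction.IsPreprimitive G Ω) (Γ : Set Ω) (h1 : 1 < Γ.ncard) (h2 : 2 * Γ.ncard ≤ Nat.card Ω) (htr : ∀ x ∈ Γ, ∀ y ∈ Γ, ∃ g : G, (∀ z ∉ Γ, g • z = z) ∧ g • x = y) : MulAction.IsMultiplyPretransitive G Ω 3 := by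
  classical
  haveI : Finite G := Finite.of_injective (MulAction.toPerm : G → Equiv.Perm Ω) MulAction.toPerm_injective
  have hn : 4 ≤ Nat.card Ω := by omega
  have hpw : MulAction.IsPretransitive (fixingSubgroup G Γᶜ) (SubMulAction.ofFixingSubgroup G Γᶜ) := by
    refine ⟨fun u v => ?_⟩
    have hu : (u : Ω) ∈ Γ := Set.not_notMem.1 u.2
    have hv : (v : Ω) ∈ Γ := Set.not_notMem.1 v.2
    obtain ⟨g, hg, hgu⟩ := htr _ hu _ hv
    exact ⟨⟨g, (mem_fixingSubgroup_iff G).2 fun z hz => hg z hz⟩, Subtype.ext hgu⟩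
  have hcompl : Γᶜ.ncard + Γ.ncard = Nat.card Ω := by rw [add_comm]; exact Γ.ncard_add_ncard_compl
  obtain ⟨k, hk⟩ : ∃ k, Γᶜ.ncard = k + 2 := ⟨Γᶜ.ncard - 2, by omega⟩
  have h2t : MulAction.IsMultiplyPretransitive G Ω 2 :=
    hprim.is_two_pretransitive (s := Γᶜ) (n := k + 1) hk (by omega) hpw
  haveI := hprim.toIsPretransitive
  obtain ⟨a, ha⟩ : Γᶜ.Nonempty := Set.nonempty_of_ncard_ne_zero (by omega)
  rw [SubMulAction.ofStabilizer.isMultiplyPretransitive (a := a)]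
  have hP := CfsgLib.Marggraf.stabilizer_preprimitive h2t h1 h2 htr a
  set s : Set (SubMulAction.ofStabilizer G a) := {u | (u : Ω) ∉ Γ} with hs
  have hcard : s.ncard = k + 1 := by
    have e : Subtype.val '' s = Γᶜ \ {a} := by
      ext w
      constructor
      · rintro ⟨u, hu, rfl⟩; exact ⟨hu, u.2⟩
      · rintro ⟨hw, hwa⟩; exact ⟨⟨w, hwa⟩, hw, rfl⟩
    rw [← Set.ncard_image_of_injective s Subtype.val_injective, e, Set.ncard_sdiff_singleton_of_mem ha, hk]
    omega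
  refine hP.is_two_pretransitive (s := s) (n := k) hcard ?_ ⟨fun u v => ?_⟩
  · have := SubMulAction.nat_card_ofStabilizer_eq G a
    rw [this]; omega
  · have hu : ((u : SubMulAction.ofStabilizer G a) : Ω) ∈ Γ := not_not.1 u.2
    have hv : ((v : SubMulAction.ofStabilizer G a) : Ω) ∈ Γ := not_not.1 v.2
    obtain ⟨g, hg, hgu⟩ := htr _ hu _ hv
    refine ⟨⟨⟨g, hg a ha⟩, (mem_fixingSubgroup_iff _).2 fun z hz => Subtype.ext (hg _ hz)⟩, ?_⟩
    exact Subtype.ext (Subtype.ext hgu)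


end Cfsg.Agent.S3707
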