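import Cfsg.Statements.S0100
import Cfsg.Agent.PLocalBasics.NormalElemAbelian

set_option autoImplicit false
open Cfsg

namespace Cfsg.Agent.S0100

/-- For odd p, a p-group without normal elementary abelian subgroups of order p^3 has p-rank at most 2. -/
theorem result {P : Type*} [Group P] [Finite P] {p : ℕ} [Fact p.Prime] (hp : p ≠ 2) (hP : IsPGroup p P) (h : ∀ A : Subgroup P, A.Normal → IsMulCommutative A → (∀ a ∈ A, a ^ p = 1) → Nat.card A ≠ p ^ 3) (E : Subgroup P) (hE : IsMulCommutative E) (hEe : ∀ e ∈ E, e ^ p = 1) : Nat.card E ≤ p ^ 2 := by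
  obtain ⟨A, hAn, hA, hΩ⟩ := CfsgLib.PLocalBasics.exists_max_normal_el hP hp
  haveI := hAn
  haveI := hA.1
  refine CfsgLib.PLocalBasics.rank_le_two hP hA hΩ ?_ ⟨hE, hEe⟩
  by_contra hgt
  obtain ⟨a, ha⟩ := IsPGroup.iff_card.1 (hP.to_subgroup A)
  rw [ha, Nat.pow_le_pow_iff_right (Fact.out : p.Prime).one_lt] at hgt
  obtain ⟨M, hM, hMA, hMc⟩ := CfsgLib.PLocalBasics.exists_normal_card hP hAn 3
    (ha ▸ Nat.pow_le_pow_right (Fact.out : p.Prime).pos (by omega))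
  exact h M hM ⟨⟨fun x y => Subtype.ext (setLike_mul_comm (hMA x.2) (hMA y.2))⟩⟩ (fun x hx => hA.2 x (hMA hx)) hMc

end Cfsg.Agent.S0100
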