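import Cfsg.Statements.S3986
import Mathlib


set_option autoImplicit false
open Cfsg

namespace Cfsg.Agent.S3986

/-- A subgroup containing a Sylow subgroup for every prime is the whole group. -/
theorem eq_top_of_sylows {G : Type*} [Group G] [Finite G] (X : Subgroup G)
    (h : ∀ q : ℕ, q.Prime → ∃ Q : Sylow q G, (Q : Subgroup G) ≤ X) : X = ⊤ := by
  rw [← Subgroup.index_eq_one]
  by_contra hne
  obtain ⟨q, hq, hqd⟩ := Nat.exists_prime_and_dvd hne
  haveI := Fact.mk hq
  obtain ⟨Q, hQ⟩ := h q hq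
  exact Q.not_dvd_index (hqd.trans (Subgroup.index_dvd_of_le hQ))


/-- Let p be a prime and G a finite group. Then some Sylow p-subgroup of G is a direct factor of G (it is normal and has a normal complement) if and only if every element of p-power order commutes with every element whose order is a power of a prime other than p. -/
theorem result {G : Type*} [Group G] [Finite G] (p : ℕ) [Fact p.Prime] : (∃ (P : Sylow p G) (K : Subgroup G), (P : Subgroup G).Normal ∧ K.Normal ∧ (P : Subgroup G) ⊓ K = ⊥ ∧ (P : Subgroup G) ⊔ K = ⊤) ↔ ∀ x y : G, (∃ a : ℕ, orderOf x = p ^ a) → (∃ q b : ℕ, q.Prime ∧ q ≠ p ∧ orderOf y = q ^ b) → x * y = y * x := by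
  constructor
  · rintro ⟨P, K, hP, hK, hd, hs⟩ x y ⟨a, ha⟩ ⟨q, b, hq, hqp, hb⟩
    haveI := hP
    haveI := hK
    have hcomm : ∀ u ∈ (P : Subgroup G), ∀ v ∈ K, Commute u v := fun u hu v hv =>
      Subgroup.commute_of_normal_of_disjoint _ _ hP hK (disjoint_iff.2 hd) u v hu hv
    have hxP : x ∈ (P : Subgroup G) := by
      obtain ⟨Q, hQ⟩ := (IsPGroup.of_card (p := p) (n := a) (by rw [Nat.card_zpowers, ha]) :
        IsPGroup p (Subgroup.zpowers x)).exists_le_sylow
      haveI : Unique (Sylow p G) := Sylow.unique_of_normal P hP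
      rw [Subsingleton.elim P Q]
      exact hQ (Subgroup.mem_zpowers x)
    have hy : y ∈ ((P : Subgroup G) ⊔ K : Subgroup G) := hs ▸ Subgroup.mem_top y
    obtain ⟨u, hu, v, hv, rfl⟩ := Subgroup.mem_sup_of_normal_right.1 hy
    have hpow : u ^ (q ^ b) = 1 := by
      have h1 : (u * v) ^ (q ^ b) = 1 := by rw [← hb, pow_orderOf_eq_one]
      rw [(hcomm u hu v hv).mul_pow] at h1
      have : u ^ (q ^ b) ∈ (P : Subgroup G) ⊓ K :=
        ⟨Subgroup.pow_mem _ hu _, eq_inv_of_mul_eq_one_left h1 ▸ K.inv_mem (K.pow_mem hv _)⟩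
      rwa [hd, Subgroup.mem_bot] at this
    have hu1 : u = 1 := by
      obtain ⟨k, hk⟩ := IsPGroup.iff_orderOf.1 P.2 ⟨u, hu⟩
      rw [← orderOf_eq_one_iff]
      refine Nat.eq_one_of_dvd_coprimes ?_ (show orderOf u ∣ p ^ k by rw [← hk, Subgroup.orderOf_mk])
        (orderOf_dvd_of_pow_eq_one hpow)
      exact Nat.Coprime.pow _ _ ((Nat.coprime_primes (Fact.out : p.Prime) hq).2 (Ne.symm hqp))
    rw [hu1, one_mul]
    exact (hcomm x hxP v hv).eq
  · intro h
    obtain ⟨P⟩ : Nonempty (Sylow p G) := inferInstance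
    have hPx : ∀ x ∈ (P : Subgroup G), ∃ a : ℕ, orderOf x = p ^ a := fun x hx => by
      obtain ⟨k, hk⟩ := IsPGroup.iff_orderOf.1 P.2 ⟨x, hx⟩
      exact ⟨k, by rw [← hk, Subgroup.orderOf_mk]⟩
    have hcent : ∀ {q : ℕ} [Fact q.Prime] (S : Subgroup G), IsPGroup q S → q ≠ p →
        S ≤ Subgroup.centralizer ((P : Subgroup G) : Set G) := by
      intro q hq S hS hqp y hy
      rw [Subgroup.mem_centralizer_iff]
      intro x hx
      obtain ⟨k, hk⟩ := IsPGroup.iff_orderOf.1 hS ⟨y, hy⟩
      exact h x y (hPx x hx) ⟨q, k, hq.out, hqp, by rw [← hk, Subgroup.orderOf_mk]⟩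
    haveI hPn : (P : Subgroup G).Normal := by
      rw [← Subgroup.normalizer_eq_top_iff]
      refine eq_top_of_sylows _ fun q hq => ?_
      haveI := Fact.mk hq
      by_cases hqp : q = p
      · subst hqp; exact ⟨P, Subgroup.le_normalizer⟩
      · obtain ⟨Q⟩ : Nonempty (Sylow q G) := inferInstance
        exact ⟨Q, (hcent _ Q.2 hqp).trans (Subgroup.centralizer_le_normalizer _)⟩
    obtain ⟨K, hK⟩ := Subgroup.exists_right_complement'_of_coprime (N := (P : Subgroup G)) P.card_coprime_index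
    have hKc : K ≤ Subgroup.centralizer ((P : Subgroup G) : Set G) := by
      have htop := eq_top_of_sylows ((Subgroup.centralizer ((P : Subgroup G) : Set G)).subgroupOf K) fun q hq => by
        haveI := Fact.mk hq
        obtain ⟨Q⟩ : Nonempty (Sylow q K) := inferInstance
        refine ⟨Q, fun x hx => ?_⟩
        by_cases hqp : q = p
        · subst hqp
          have hbot : (Q : Subgroup K) = ⊥ := by
            refine Subgroup.card_eq_one.1 ?_
            rw [Q.card_eq_multiplicity, Nat.factorization_eq_zero_of_not_dvd, pow_zero]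
            rw [← hK.symm.index_eq_card]
            exact P.not_dvd_index
          rw [hbot, Subgroup.mem_bot] at hx
          rw [hx]
          exact Subgroup.one_mem _
        · exact hcent _ (Q.2.map K.subtype) hqp ⟨x, hx, rfl⟩
      exact Subgroup.subgroupOf_eq_top.1 htop
    refine ⟨P, K, hPn, ?_, disjoint_iff.1 hK.disjoint, hK.sup_eq_top⟩
    refine ⟨fun k hk g => ?_⟩
    obtain ⟨x, hx, l, hl, rfl⟩ := Subgroup.mem_sup_of_normal_left.1
      (hK.sup_eq_top ▸ Subgroup.mem_top g : g ∈ (P : Subgroup G) ⊔ K)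
    have hlk : l * k * l⁻¹ ∈ K := K.mul_mem (K.mul_mem hl hk) (K.inv_mem hl)
    rw [show x * l * k * (x * l)⁻¹ = x * (l * k * l⁻¹) * x⁻¹ by group,
      Subgroup.mem_centralizer_iff.1 (hKc hlk) x hx, mul_inv_cancel_right]
    exact hlk

end Cfsg.Agent.S3986
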