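import Cfsg.Statements.S1459
import Mathlib
import Cfsg.Agent.S3986
import Cfsg.Agent.CoprimeAction.Basic

set_option autoImplicit false
open Cfsg
open scoped commutatorElement

namespace Cfsg.Agent.S1459

/-- Let G be a finite solvable group. (a) If H is a normal subgroup of order coprime to its index, K is a complement to H, and H ≤ G', then H = [H, K] and H ∩ C_G(K) ≤ [H, H]. (b) If G' is nilpotent and has prime index in G, then the order of G' is coprime to its index and G' = [G, K] (the subgroup generated by commutators of elements of G with elements of K) for every complement K of G'. -/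
theorem result {G : Type*} [Group G] [Finite G] [Group.IsSolvable G] :
    (∀ (H K : Subgroup G), H.Normal → (Nat.card H).Coprime H.index → Subgroup.IsComplement' H K → H ≤ commutator G →
        H = ⁅H, K⁆ ∧ H ⊓ Subgroup.centralizer (K : Set G) ≤ ⁅H, H⁆) ∧
      (Group.IsNilpotent ↥(commutator G) → (commutator G).index.Prime →
        (Nat.card ↥(commutator G)).Coprime (commutator G).index ∧
        ∀ K : Subgroup G, Subgroup.IsComplement' (commutator G) K → commutator G = ⁅(⊤ : Subgroup G), K⁆) := by
  classical
  have main : ∀ (H K : Subgroup G), H.Normal → (Nat.card H).Coprime H.index → Subgroup.IsComplement' H K →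
      H ≤ commutator G → H = ⁅H, K⁆ ∧ H ⊓ Subgroup.centralizer (K : Set G) ≤ ⁅H, H⁆ := by
    intro H K hH hcop hK hle
    haveI := hH
    have hsup := hK.sup_eq_top
    haveI hn : (⁅H, K⁆).Normal := by
      rw [← Subgroup.normalizer_eq_top_iff, eq_top_iff, ← hsup]
      exact sup_le CfsgLib.CoprimeAction.self_le_normalizer_commutator
        (CfsgLib.CoprimeAction.le_normalizer_commutator (by rw [Subgroup.normalizer_eq_top]; exact le_top))
    have hHK : H = ⁅H, K⁆ := by
      refine le_antisymm ?_ (Subgroup.commutator_le_left H K)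
      let π := QuotientGroup.mk' ⁅H, K⁆
      have hker : ∀ X : Subgroup G, X ≤ ⁅H, K⁆ → X.map π = ⊥ := fun X hX => by
        rw [Subgroup.map_eq_bot_iff, QuotientGroup.ker_mk']; exact hX
      have h1 : ⁅H.map π, K.map π⁆ = ⊥ := by rw [← Subgroup.map_commutator]; exact hker _ le_rfl
      have htop : H.map π ⊔ K.map π = ⊤ := by
        rw [← Subgroup.map_sup, hsup, Subgroup.map_top_of_surjective _ (QuotientGroup.mk'_surjective _)]
      have hcardK : (Nat.card (H.map π)).Coprime (Nat.card (K.map π)) := by
        refine Nat.Coprime.coprime_dvd_left (Subgroup.card_map_dvd H π) (Nat.Coprime.coprime_dvd_right (Subgroup.card_map_dvd K π) ?_)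
        rw [← hK.symm.index_eq_card]
        exact hcop
      -- the derived subgroup of the quotient
      have hcen : ∀ h ∈ H.map π, ∀ k ∈ K.map π, h * k = k * h := fun h hh k hk => by
        have : ⁅h, k⁆ ∈ (⊥ : Subgroup (G ⧸ ⁅H, K⁆)) := h1 ▸ Subgroup.commutator_mem_commutator hh hk
        exact commutatorElement_eq_one_iff_mul_comm.1 (Subgroup.mem_bot.1 this)
      have hder : commutator (G ⧸ ⁅H, K⁆) ≤ ⁅H.map π, H.map π⁆ ⊔ ⁅K.map π, K.map π⁆ := by
        rw [commutator_def, Subgroup.commutator_le]
        intro x _ y _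
        have hsupmem : ∀ z : G ⧸ ⁅H, K⁆, ∃ h ∈ H.map π, ∃ k ∈ K.map π, h * k = z := fun z =>
          Subgroup.mem_sup_of_normal_left.1 (htop ▸ Subgroup.mem_top z)
        obtain ⟨a, ha, b, hb, rfl⟩ := hsupmem x
        obtain ⟨c, hc, d, hd, rfl⟩ := hsupmem y
        have e : ⁅a * b, c * d⁆ = ⁅a, c⁆ * ⁅b, d⁆ := by
          simp only [commutatorElement_def]
          calc a * b * (c * d) * (a * b)⁻¹ * (c * d)⁻¹ = a * (b * c) * d * b⁻¹ * a⁻¹ * d⁻¹ * c⁻¹ := by group
            _ = a * c * ((b * d * b⁻¹) * a⁻¹) * (d⁻¹ * c⁻¹) := by rw [← hcen c hc b hb]; group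
            _ = a * c * (a⁻¹ * (b * d * b⁻¹)) * (d⁻¹ * c⁻¹) := by
              rw [← hcen a⁻¹ (inv_mem ha) _ (mul_mem (mul_mem hb hd) (inv_mem hb))]
            _ = a * c * a⁻¹ * ((b * d * b⁻¹ * d⁻¹) * c⁻¹) := by group
            _ = a * c * a⁻¹ * (c⁻¹ * (b * d * b⁻¹ * d⁻¹)) := by
              rw [← hcen c⁻¹ (inv_mem hc) _ (mul_mem (mul_mem (mul_mem hb hd) (inv_mem hb)) (inv_mem hd))]
            _ = _ := by group
        rw [e]
        exact Subgroup.mul_mem_sup (Subgroup.commutator_mem_commutator ha hc) (Subgroup.commutator_mem_commutator hb hd)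
      have hperf : H.map π ≤ ⁅H.map π, H.map π⁆ := by
        intro x hx
        have h2 : H.map π ≤ commutator (G ⧸ ⁅H, K⁆) := by
          refine (Subgroup.map_mono hle).trans ?_
          rw [commutator_def, Subgroup.map_commutator]
          exact Subgroup.commutator_mono le_top le_top
        obtain ⟨a, ha, b, hb, rfl⟩ := Subgroup.mem_sup_of_normal_left.1 (hder (h2 hx))
        have hb1 : b ∈ H.map π ⊓ K.map π := by
          refine ⟨?_, Subgroup.commutator_le_self _ hb⟩
          have := (H.map π).mul_mem ((H.map π).inv_mem (Subgroup.commutator_le_self _ ha)) hx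
          rwa [inv_mul_cancel_left] at this
        rw [Subgroup.inf_eq_bot_of_coprime hcardK, Subgroup.mem_bot] at hb1
        rwa [hb1, mul_one]
      obtain ⟨n, hn'⟩ := (inferInstance : Group.IsSolvable (G ⧸ ⁅H, K⁆)).solvable
      have hall : ∀ i, H.map π ≤ derivedSeries (G ⧸ ⁅H, K⁆) i := by
        intro i
        induction i with
        | zero => exact le_top
        | succ i ihi => rw [derivedSeries_succ]; exact hperf.trans (Subgroup.commutator_mono ihi ihi)
      have := (hall n).trans hn'.le
      rw [le_bot_iff, Subgroup.map_eq_bot_iff, QuotientGroup.ker_mk'] at this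
      exact this
    refine ⟨hHK, ?_⟩
    intro c hc
    have := Fintype.ofFinite K
    let φ : H →* Abelianization H :=
      { toFun := fun h => ∏ k : K, Abelianization.of (⟨(k : G) * h * (k : G)⁻¹, hH.conj_mem _ h.2 _⟩ : H)
        map_one' := Finset.prod_eq_one fun k _ => by
          rw [show (⟨(k : G) * ((1 : H) : G) * (k : G)⁻¹, hH.conj_mem _ (1 : H).2 _⟩ : H) = 1 from
            Subtype.ext (by simp), map_one]
        map_mul' := fun a b => by
          rw [← Finset.prod_mul_distrib]
          refine Finset.prod_congr rfl fun k _ => ?_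
          rw [← map_mul]
          exact congrArg _ (Subtype.ext (by simp [mul_assoc])) }
    have hφ : ∀ (k : K) (h : H), φ ⟨(k : G) * h * (k : G)⁻¹, hH.conj_mem _ h.2 _⟩ = φ h := fun k h => by
      refine Fintype.prod_equiv (Equiv.mulRight k) _ _ fun j => congrArg _ (Subtype.ext ?_)
      show (j : G) * ((k : G) * h * (k : G)⁻¹) * (j : G)⁻¹ = ((j * k : K) : G) * h * ((j * k : K) : G)⁻¹
      push_cast
      group
    have hkill : ∀ h : H, φ h = 1 := by
      intro h
      have hle' : H ≤ φ.ker.map H.subtype := by
        conv_lhs => rw [hHK]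
        rw [Subgroup.commutator_le]
        intro a ha k hk
        refine ⟨⟨a, ha⟩ * (⟨k * a * k⁻¹, hH.conj_mem _ ha _⟩ : H)⁻¹, ?_, ?_⟩
        · rw [SetLike.mem_coe, MonoidHom.mem_ker, map_mul, map_inv, hφ ⟨k, hk⟩ ⟨a, ha⟩, mul_inv_cancel]
        · show a * (k * a * k⁻¹)⁻¹ = _
          rw [commutatorElement_def]
          group
      obtain ⟨g, hg, hge⟩ := hle' h.2
      have : g = h := Subtype.ext hge
      exact this ▸ MonoidHom.mem_ker.1 hg
    have hval : φ ⟨c, hc.1⟩ = Abelianization.of (⟨c, hc.1⟩ : H) ^ Nat.card K := by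
      rw [Nat.card_eq_fintype_card, ← Finset.card_univ, ← Finset.prod_const]
      refine Finset.prod_congr rfl fun k _ => congrArg _ (Subtype.ext ?_)
      show (k : G) * c * (k : G)⁻¹ = c
      rw [Subgroup.mem_centralizer_iff.1 hc.2 k k.2, mul_inv_cancel_right]
    rw [hkill] at hval
    have h1 : orderOf (Abelianization.of (⟨c, hc.1⟩ : H)) = 1 := by
      refine Nat.eq_one_of_dvd_coprimes hcop ((orderOf_map_dvd _ _).trans (orderOf_dvd_natCard _)) ?_
      rw [hK.symm.index_eq_card]
      exact orderOf_dvd_of_pow_eq_one hval.symm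
    rw [orderOf_eq_one_iff, ← MonoidHom.mem_ker, Abelianization.ker_of] at h1
    rw [← Subgroup.map_subtype_commutator]
    exact ⟨_, h1, rfl⟩
  refine ⟨main, fun hnil hprime => ?_⟩
  set p := (commutator G).index
  haveI := Fact.mk hprime
  have hcop : (Nat.card ↥(commutator G)).Coprime p := by
    rw [Nat.coprime_comm, hprime.coprime_iff_not_dvd]
    intro hdvd
    obtain ⟨Q, K, hQn, hKn, hd, hs⟩ := (Cfsg.Agent.S3986.result (G := ↥(commutator G)) p).2 fun x y ⟨a, ha⟩ ⟨q, b, hq, hqp, hb⟩ => by
      haveI := hnil
      haveI := Fact.mk hq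
      obtain ⟨Q, hQ⟩ := (IsPGroup.of_card (p := p) (n := a) (by rw [Nat.card_zpowers, ha]) :
        IsPGroup p (Subgroup.zpowers x)).exists_le_sylow
      obtain ⟨R, hR⟩ := (IsPGroup.of_card (p := q) (n := b) (by rw [Nat.card_zpowers, hb]) :
        IsPGroup q (Subgroup.zpowers y)).exists_le_sylow
      exact (Subgroup.commute_of_normal_of_disjoint _ _ (inferInstance : (Q : Subgroup _).Normal) inferInstance
        (IsPGroup.disjoint_of_ne p q (Ne.symm hqp) _ _ Q.2 R.2) x y (hQ (Subgroup.mem_zpowers x))
        (hR (Subgroup.mem_zpowers y))).eq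
    haveI := hQn
    haveI := hKn
    have hKidx : K.index = Nat.card Q :=
      (Subgroup.isComplement'_of_disjoint_and_mul_eq_univ (disjoint_iff.2 hd)
        (by rw [← Subgroup.mul_normal, hs]; rfl)).index_eq_card
    have hchar : ∀ x : ↥(commutator G), x ∈ K ↔ ¬ p ∣ orderOf x := by
      intro x
      constructor
      · intro hx hp
        refine Q.not_dvd_index ?_
        rw [(Subgroup.isComplement'_of_disjoint_and_mul_eq_univ (disjoint_iff.2 hd)
          (by rw [← Subgroup.mul_normal, hs]; rfl)).symm.index_eq_card]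
        exact hp.trans (by simpa using orderOf_dvd_natCard (⟨x, hx⟩ : K))
      · intro hp
        obtain ⟨k, hk⟩ := Q.2.exists_card_eq
        have hmem : x ^ (p ^ k) ∈ K := hk ▸ hKidx ▸ K.pow_index_mem x
        obtain ⟨m, hm⟩ := exists_pow_eq_self_of_coprime
          (Nat.Coprime.pow_left k (hprime.coprime_iff_not_dvd.2 hp) : (p ^ k).Coprime (orderOf x))
        rw [← hm]
        exact K.pow_mem hmem m
    let K' := K.map (commutator G).subtype
    haveI : K'.Normal := by
      refine ⟨?_⟩
      rintro _ ⟨x, hx, rfl⟩ g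
      have hcn : (commutator G).Normal := inferInstance
      refine ⟨⟨g * x * g⁻¹, hcn.conj_mem _ x.2 g⟩, ?_, rfl⟩
      rw [SetLike.mem_coe, hchar, Subgroup.orderOf_mk, ← MulAut.conj_apply, MulEquiv.orderOf_eq, Subgroup.orderOf_coe]
      exact (hchar x).1 hx
    obtain ⟨k, hk⟩ := Q.2.exists_card_eq
    let M := G ⧸ K'
    have hM : IsPGroup p M := IsPGroup.of_card (n := k + 1) (by
      show K'.index = _
      rw [Subgroup.index_map_subtype, hKidx, hk, pow_succ])
    let π := QuotientGroup.mk' K'
    have hcomm : commutator M = (commutator G).map π := by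
      rw [commutator_def, commutator_def, Subgroup.map_commutator,
        Subgroup.map_top_of_surjective _ (QuotientGroup.mk'_surjective _)]
    have hMidx : (commutator M).index = p := by
      rw [hcomm]
      exact Subgroup.index_map_eq _ (QuotientGroup.mk'_surjective _) (by
        rw [QuotientGroup.ker_mk']; exact Subgroup.map_subtype_le K)
    haveI := hM.isNilpotent
    have hbot : commutator M = ⊥ := by
      obtain ⟨x, -, hx⟩ := SetLike.exists_of_lt (lt_top_iff_ne_top.2 fun e : commutator M = ⊤ => by
        rw [e, Subgroup.index_top] at hMidx; exact hprime.ne_one hMidx.symm)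
      have hgen : Subgroup.zpowers x = ⊤ := by
        by_contra hne
        obtain ⟨W, hW, hxW⟩ := (eq_top_or_exists_le_coatom (Subgroup.zpowers x)).resolve_left hne
        haveI := Subgroup.NormalizerCondition.normal_of_coatom W (normalizerCondition_of_isNilpotent (G := M)) hW
        have hWle : commutator M ≤ W := by
          haveI : Group.IsNilpotent (M ⧸ W) := inferInstance
          haveI : Nontrivial (M ⧸ W) := by
            obtain ⟨y, -, hy⟩ := SetLike.exists_of_lt (lt_top_iff_ne_top.2 hW.1)
            exact nontrivial_of_ne (y : M ⧸ W) 1 fun h => hy ((QuotientGroup.eq_one_iff y).1 h)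
          have hlt : W < (Subgroup.center (M ⧸ W)).comap (QuotientGroup.mk' W) := by
            obtain ⟨z, hzc, hz1⟩ := (Subgroup.bot_or_exists_ne_one (Subgroup.center (M ⧸ W))).resolve_left
              (Group.IsNilpotent.center_ne_bot _)
            obtain ⟨y, rfl⟩ := QuotientGroup.mk'_surjective W z
            refine SetLike.lt_iff_le_and_exists.2 ⟨fun w hw => ?_, y, hzc, fun h => hz1 ((QuotientGroup.eq_one_iff y).2 h)⟩
            rw [Subgroup.mem_comap, show QuotientGroup.mk' W w = 1 from (QuotientGroup.eq_one_iff w).2 hw]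
            exact Subgroup.one_mem _
          have htop := hW.2 _ hlt
          rw [commutator_def, Subgroup.commutator_le]
          intro u _ v _
          rw [← QuotientGroup.eq_one_iff]
          show (QuotientGroup.mk' W) ⁅u, v⁆ = 1
          rw [map_commutatorElement, commutatorElement_eq_one_iff_mul_comm]
          exact (Subgroup.mem_center_iff.1 (show (QuotientGroup.mk' W) u ∈ Subgroup.center (M ⧸ W) from
            (htop.ge (Subgroup.mem_top u))) _).symm
        have hWp : W.index = p := ((Nat.dvd_prime hprime).1 (hMidx ▸ Subgroup.index_dvd_of_le hWle)).resolve_left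
          fun h => hW.1 (Subgroup.index_eq_one.1 h)
        have hcl := Subgroup.relIndex_mul_index hWle
        rw [hWp, hMidx] at hcl
        have hrel : (commutator M).relIndex W = 1 :=
          Nat.eq_of_mul_eq_mul_right hprime.pos (hcl.trans (one_mul p).symm)
        exact hx (Subgroup.relIndex_eq_one.1 hrel (hxW (Subgroup.mem_zpowers x)))
      haveI : IsCyclic M := ⟨⟨x, fun y => (hgen.ge (Subgroup.mem_top y) : y ∈ Subgroup.zpowers x)⟩⟩
      rw [commutator_def, Subgroup.commutator_eq_bot_iff_le_centralizer]
      intro u _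
      rw [Subgroup.mem_centralizer_iff]
      intro v _
      exact mul_comm' v u
    rw [hbot, Subgroup.index_bot] at hMidx
    change K'.index = p at hMidx
    rw [Subgroup.index_map_subtype, hKidx] at hMidx
    have hQ1 : Nat.card Q = 1 := Nat.eq_of_mul_eq_mul_right hprime.pos (hMidx.trans (one_mul p).symm)
    refine Q.not_dvd_index ?_
    rwa [show (Q : Subgroup ↥(commutator G)) = ⊥ from Subgroup.card_eq_one.1 hQ1, Subgroup.index_bot]
  refine ⟨hcop, fun K hK => ?_⟩
  obtain ⟨h1, -⟩ := main (commutator G) K inferInstance hcop hK le_rfl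
  refine le_antisymm ?_ (by rw [commutator_def]; exact Subgroup.commutator_mono le_rfl le_top)
  conv_lhs => rw [h1]
  exact Subgroup.commutator_mono le_top le_rfl

end Cfsg.Agent.S1459
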