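import Cfsg.Statements.S0799
import Cfsg.Agent.H29.Dickson.Borel

set_option autoImplicit false
open Cfsg

namespace Cfsg.Agent.S0799

/-- Dickson's classification of the subgroups of PSL_2(q), q a power of the prime p, d = gcd(2, q − 1): every subgroup H is (a) cyclic or dihedral with k dividing (q+1)/d or (q−1)/d (cyclic of order k, or dihedral of order 2k), (b) isomorphic to a subgroup of the normaliser of a Sylow p-subgroup, (c) isomorphic to A_4, S_4 or A_5, or (d) isomorphic to PSL_2(K) or PGL_2(K) for a finite field K with |K|^m = q. -/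
theorem result {F : Type*} [Field F] [Fintype F] {q : ℕ} (hF : Fintype.card F = q) (p : ℕ) [Fact p.Prime] [CharP F p] (H : Subgroup (Matrix.ProjectiveSpecialLinearGroup (Fin 2) F)) : (∃ k : ℕ, (k ∣ (q + 1) / Nat.gcd 2 (q - 1) ∨ k ∣ (q - 1) / Nat.gcd 2 (q - 1)) ∧ ((IsCyclic H ∧ Nat.card H = k) ∨ Nonempty (H ≃* DihedralGroup k))) ∨ (∃ (P : Sylow p (Matrix.ProjectiveSpecialLinearGroup (Fin 2) F)) (K : Subgroup (Matrix.ProjectiveSpecialLinearGroup (Fin 2) F)), K ≤ Subgroup.normalizer ((P : Subgroup (Matrix.ProjectiveSpecialLinearGroup (Fin 2) F)) : Set (Matrix.ProjectiveSpecialLinearGroup (Fin 2) F)) ∧ Nonempty (H ≃* K)) ∨ Nonempty (H ≃* alternatingGroup (Fin 4)) ∨ Nonempty (H ≃* Equiv.Perm (Fin 4)) ∨ Nonempty (H ≃* alternatingGroup (Fin 5)) ∨ (∃ (K : Type) (_ : Field K) (_ : Fintype K) (m : ℕ), Fintype.card K ^ m = q ∧ (Nonempty (H ≃* Matrix.ProjectiveSpecialLinearGroup (Fin 2) K) ∨ Nonempty (H ≃* Matrix.ProjGenLinGroup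 (Fin 2) K))) := by
  classical
  subst hF
  have hinj := Matrix.ProjectiveSpecialLinearGroup.toPGL_injective (n := Fin 2) (R := F)
  have := CfsgLib.H29.Dickson.finite_P2 (F := F)
  set N := H.map Matrix.ProjectiveSpecialLinearGroup.toPGL with hNdef
  have e : H ≃* N := H.equivMapOfInjective _ hinj
  have hNW : N ≤ CfsgLib.H29.Dickson.W F := by
    rw [CfsgLib.H29.Dickson.W_eq_map]; exact Subgroup.map_mono le_top
  have hd0 : 0 < Nat.gcd 2 (Fintype.card F - 1) := Nat.gcd_pos_of_pos_left _ two_pos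
  have key : ∀ (a b : OnePoint (CfsgLib.H29.Dickson.KK F)) (c : CfsgLib.H29.Dickson.P2 F) (k : ℕ),
      c ≠ 1 → a ≠ b → c ∈ CfsgLib.H29.Dickson.T1 a b →
      k ∣ Nat.card ↥(CfsgLib.H29.Dickson.T1 a b ⊓ CfsgLib.H29.Dickson.W F) →
      k ∣ (Fintype.card F + 1) / Nat.gcd 2 (Fintype.card F - 1) ∨
        k ∣ (Fintype.card F - 1) / Nat.gcd 2 (Fintype.card F - 1) := by
    intro a b c k hc hab hcT hk
    obtain ⟨ha, hb⟩ := hcT
    rcases CfsgLib.H29.Dickson.torus_of_fixed hc hab ha hb with D | D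
    · exact Or.inr (by rw [Nat.dvd_div_iff_mul_dvd ((Dvd.intro _ D.special.1))]
                       exact (Nat.mul_dvd_mul_left _ hk).trans (dvd_of_eq D.special.1))
    · exact Or.inl (by rw [Nat.dvd_div_iff_mul_dvd ((Dvd.intro _ D.special.1))]
                       exact (Nat.mul_dvd_mul_left _ hk).trans (dvd_of_eq D.special.1))
  rcases CfsgLib.H29.Dickson.subKind p N with ⟨x, hx⟩ | ⟨a, b, c, hc, hc1, hab, hle, -⟩ |
    ⟨a, b, c, hc, hc1, hab, hcab, -, m, -, hord, -, ⟨eD⟩⟩ | ⟨-, -, ⟨e'⟩⟩ | ⟨-, -, ⟨e'⟩⟩ | ⟨-, -, ⟨e'⟩⟩ |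
    ⟨γ, L, hL⟩ | ⟨γ, L, hL⟩
  · obtain ⟨P, hP⟩ := CfsgLib.H29.Dickson.exists_sylow_of_fix p H x hx
    exact Or.inr (Or.inl ⟨P, H, hP, ⟨MulEquiv.refl _⟩⟩)
  · refine Or.inl ⟨Nat.card N, key a b c _ hc1 hab (hle hc) ?_, Or.inl ⟨?_, Nat.card_congr e.toEquiv⟩⟩
    · exact Subgroup.card_dvd_of_le (le_inf hle hNW)
    · have := CfsgLib.H29.Dickson.isCyclic_T1 (F := F) hab
      have : IsCyclic N := Subgroup.isCyclic_of_le hle
      exact e.isCyclic.mpr this
  · exact Or.inl ⟨m, key a b c m hc1 hab hcab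
      (hord ▸ Subgroup.orderOf_dvd_natCard _ ⟨hcab, hNW hc⟩), Or.inr ⟨e.trans eD⟩⟩
  · exact Or.inr (Or.inr (Or.inl ⟨e.trans e'⟩))
  · exact Or.inr (Or.inr (Or.inr (Or.inl ⟨e.trans e'⟩)))
  · exact Or.inr (Or.inr (Or.inr (Or.inr (Or.inl ⟨e.trans e'⟩))))
  all_goals
    obtain ⟨a, m, ha, hm, hLc, hq, -⟩ := CfsgLib.H29.Dickson.subfield_card p L
    obtain ⟨K, _, _, hK⟩ := CfsgLib.H29.Dickson.exists_field_type p ha
    obtain ⟨e1⟩ := CfsgLib.H29.Dickson.iso_of_conj γ hL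
    refine Or.inr (Or.inr (Or.inr (Or.inr (Or.inr ⟨K, inferInstance, inferInstance, m,
      by rw [hK]; exact hq.symm, ?_⟩))))
    first
      | exact Or.inr ((CfsgLib.H29.Dickson.iso_PL L (K := K) (by rw [hLc, hK])).map
          fun e2 => e.trans (e1.trans e2))
      | exact Or.inl ((CfsgLib.H29.Dickson.iso_PS L (K := K) (by rw [hLc, hK])).map
          fun e2 => e.trans (e1.trans e2))

end Cfsg.Agent.S0799
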