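import Cfsg.Statements.S0031
import Cfsg.Agent.CoprimeAction.Conjugacy
import Mathlib.GroupTheory.FixedPointFree

set_option autoImplicit false
open Cfsg

open scoped Pointwise

namespace Cfsg.Agent.S0031

/-- A fixed-point-free automorphism of a finite group maps some Sylow p-subgroup to itself. -/
theorem result {G : Type*} [Group G] [Finite G] (φ : G ≃* G)
    (hφ : MonoidHom.FixedPointFree (φ : G →* G)) (p : ℕ) [Fact p.Prime] :
    ∃ P : Sylow p G, (P : Subgroup G).map (φ : G →* G) = P := by
  obtain ⟨P⟩ := (inferInstance : Nonempty (Sylow p G))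
  have hcard : Nat.card ((P : Subgroup G).map (φ : G →* G)) =
      p ^ (Nat.card G).factorization p := by
    rw [Subgroup.card_map_of_injective φ.injective]; exact P.card_eq_multiplicity
  obtain ⟨g, hg⟩ := MulAction.exists_smul_eq G P (Sylow.ofCard _ hcard)
  obtain ⟨u, hu⟩ := hφ.commutatorMap_surjective g⁻¹
  rw [MonoidHom.commutatorMap_apply, div_eq_mul_inv] at hu
  refine ⟨u⁻¹ • P, ?_⟩
  have hg' : (MulAut.conj g • (P : Subgroup G)) = (P : Subgroup G).map (φ : G →* G) := by
    have := congrArg (fun S : Sylow p G => (S : Subgroup G)) hg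
    simp only [Sylow.coe_subgroup_smul, Sylow.coe_ofCard] at this
    exact this
  rw [Sylow.coe_subgroup_smul]
  show (MulAut.conj u⁻¹ • (P : Subgroup G)).map (φ : G →* G) = MulAut.conj u⁻¹ • (P : Subgroup G)
  rw [CfsgLib.CoprimeAction.map_conj_smul, ← hg', ← mul_smul, ← map_mul]
  congr 2
  calc (φ : G →* G) u⁻¹ * g = u⁻¹ * (u * ((φ : G →* G) u)⁻¹) * g := by rw [map_inv]; group
    _ = u⁻¹ := by rw [hu]; group

end Cfsg.Agent.S0031
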