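import Cfsg.Statements.S0073
import Cfsg.Agent.Transfer.SmallSylow

set_option autoImplicit false
open Cfsg
open scoped commutatorElement IsMulCommutative Pointwise

namespace Cfsg.Agent.S0073

/-- For a finite non-abelian simple group, either the cube of the least prime divisor of the order divides the order, or 12 does. -/
theorem result {G : Type*} [Group G] [Finite G] [IsSimpleGroup G] (hG : ∃ x y : G, x * y ≠ y * x) : (Nat.card G).minFac ^ 3 ∣ Nat.card G ∨ 12 ∣ Nat.card G := by
  have hne : Nat.card G ≠ 1 := fun h => by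
    obtain ⟨x, y, hxy⟩ := hG
    have := (Nat.card_eq_one_iff_unique.1 h).1
    exact hxy (Subsingleton.elim _ _)
  set p := (Nat.card G).minFac with hp
  have : Fact p.Prime := ⟨Nat.minFac_prime hne⟩
  obtain ⟨P⟩ : Nonempty (Sylow p G) := inferInstance
  by_contra hcon
  push Not at hcon
  refine CfsgLib.Transfer.not_hasNormalPComplement_of_simple hG (p := p) (Nat.minFac_dvd _)
    (CfsgLib.Transfer.hasNormalPComplement_of_no_aut P fun q hq hqp hqd i k hik hk hdvd => ?_)
  have hpp : p.Prime := Fact.out
  have hlt : p < q := lt_of_le_of_ne (Nat.minFac_le_of_dvd hq.two_le hqd) (Ne.symm hqp)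
  have hkG : p ^ k ∣ Nat.card G := hk.trans (Subgroup.card_subgroup_dvd_card _)
  have hk2 : k ≤ 2 := by
    by_contra h
    exact hcon.1 ((pow_dvd_pow p (show 3 ≤ k by omega)).trans hkG)
  have h2 := hpp.two_le
  have hfac : ∀ {a : ℕ}, 0 < a → a < q → ¬ q ∣ a := fun ha hlt hd => absurd (Nat.le_of_dvd ha hd) (not_le.2 hlt)
  interval_cases k <;> interval_cases i
  · rw [pow_one, pow_zero] at hdvd
    exact hfac (by omega) (by omega) hdvd
  · rw [pow_zero, show p ^ 2 - 1 = (p + 1) * (p - 1) by simpa using Nat.sq_sub_sq p 1] at hdvd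
    rcases hq.dvd_mul.1 hdvd with h | h
    · have hq1 : q = p + 1 := le_antisymm (Nat.le_of_dvd (by omega) h) hlt
      have hp2 : p = 2 := by
        rcases hpp.eq_two_or_odd' with h' | h'
        · exact h'
        · exfalso
          have : Even q := hq1 ▸ h'.add_one
          rcases hq.eq_two_or_odd' with h'' | h''
          · omega
          · exact Nat.not_even_iff_odd.2 h'' this
      have hq3 : q = 3 := by omega
      apply hcon.2
      rw [hp2] at hkG
      exact Nat.Coprime.mul_dvd_of_dvd_of_dvd (by norm_num : Nat.Coprime 4 3) hkG (hq3 ▸ hqd)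
    · exact hfac (by omega) (by omega) h
  · rw [pow_one, show p ^ 2 - p = p * (p - 1) by rw [Nat.mul_sub_one, pow_two]] at hdvd
    rcases hq.dvd_mul.1 hdvd with h | h
    · exact hfac hpp.pos hlt h
    · exact hfac (by omega) (by omega) h

end Cfsg.Agent.S0073
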