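import Cfsg.Statements.S0101
import Cfsg.Agent.Transfer.FrattiniP

set_option autoImplicit false
open Cfsg
open scoped commutatorElement IsMulCommutative Pointwise

namespace Cfsg.Agent.S0101

/-- In a perfect central extension, the kernel meets each Sylow p-subgroup P inside the Frattini subgroup of P. -/
theorem result {H : Type*} {G : Type*} [Group H] [Group G] [Finite H] (σ : H →* G) (hσ : Function.Surjective σ) (hc : σ.ker ≤ Subgroup.center H) (hH : commutator H = ⊤) {p : ℕ} [Fact p.Prime] (P : Sylow p H) : σ.ker ⊓ (P : Subgroup H) ≤ (frattini P).map (P : Subgroup H).subtype := by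
  rintro x ⟨hx, hxP⟩
  by_contra hne
  obtain ⟨M, hMP, hPM, hMc, -, hxM⟩ := CfsgLib.Transfer.exists_index_prime P.isPGroup' hxP hne
  set M' := M.subgroupOf (P : Subgroup H) with hM'
  have hM'n : M'.Normal := Subgroup.normal_subgroupOf_of_le_normalizer hPM
  have hM'c : Nat.card M' * p = Nat.card (P : Subgroup H) := by
    rw [Nat.card_congr (Subgroup.subgroupOfEquivOfLe hMP).toEquiv, hMc]
  have : IsMulCommutative ((P : Subgroup H) ⧸ M') := ⟨⟨fun a b => by
    obtain ⟨a, rfl⟩ := QuotientGroup.mk'_surjective M' a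
    obtain ⟨b, rfl⟩ := QuotientGroup.mk'_surjective M' b
    exact (CfsgLib.Transfer.pow_mem_and_commutator_mem hM'c a b).2⟩⟩
  let lam := QuotientGroup.mk' M'
  let τ : H →* (P : Subgroup H) ⧸ M' := MonoidHom.transfer lam
  have h1 : τ x = 1 := MonoidHom.mem_ker.1 (Abelianization.commutator_subset_ker τ (hH ▸ Subgroup.mem_top x))
  have hxc := hc hx
  have h2 := MonoidHom.transfer_eq_pow lam x fun k g _ => by
    rw [mul_assoc, ← Subgroup.mem_center_iff.1 (pow_mem hxc k) g, inv_mul_cancel_left]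
  rw [show τ x = _ from h2] at h1
  have h3 : ((⟨x, hxP⟩ : (P : Subgroup H)) : (P : Subgroup H) ⧸ M') ^ (P : Subgroup H).index = 1 := by
    rw [← h1]; rfl
  have h4 := (CfsgLib.Transfer.pow_mem_and_commutator_mem hM'c (⟨x, hxP⟩ : (P : Subgroup H)) 1).1
  refine hxM (show (⟨x, hxP⟩ : (P : Subgroup H)) ∈ M' from (QuotientGroup.eq_one_iff _).1
    (orderOf_eq_one_iff.1 (Nat.eq_one_of_dvd_coprimes ((Fact.out : p.Prime).coprime_iff_not_dvd.2 P.not_dvd_index)
      (orderOf_dvd_of_pow_eq_one h4) (orderOf_dvd_of_pow_eq_one h3))))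

end Cfsg.Agent.S0101
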