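import Cfsg.Statements.S0157
import Cfsg.Agent.CharBasics.Induced
import Cfsg.Agent.S0190

set_option autoImplicit false
open Cfsg CfsgLib.CharBasics
open scoped ComplexConjugate

namespace Cfsg.Agent.S0157

/-- For a transitive action of a finite group on a finite set with at least two points: the action is 2-transitive if and only if the function sending g to (number of fixed points of g) − 1 is an irreducible character. -/
theorem result {G : Type*} [Group G] [Finite G] (X : Type*) [MulAction G X] [Finite X] [MulAction.IsPretransitive G X] (hX : 2 ≤ Nat.card X) : Cfsg.IsIrrCharacter G (fun g => (Nat.card (MulAction.fixedBy X g) : ℂ) - 1) ↔ MulAction.IsMultiplyPretransitive G X 2 := by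
  classical
  haveI := Fintype.ofFinite G
  haveI := Fintype.ofFinite X
  haveI : Nontrivial X := Finite.one_lt_card_iff_nontrivial.1 (by omega)
  obtain ⟨x, y₀, hxy₀⟩ := exists_pair_ne X
  set H := MulAction.stabilizer G x with hH
  haveI := Fintype.ofFinite H
  set π : G → ℂ := fun g => (Nat.card (MulAction.fixedBy X g) : ℂ) with hπ
  have hπe : π = indFun H (fun _ => 1) := Cfsg.Agent.S0190.result X x
  have h1H : classInner (fun _ : H => (1 : ℂ)) (fun _ : H => (1 : ℂ)) = 1 := classInner_self isIrrCharacter_one
  have hπc : IsCharacter G π := hπe ▸ isCharacter_indFun H (isCharacter_of_irr isIrrCharacter_one)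
  have hπ1 : classInner π (fun _ => 1) = 1 := by
    rw [hπe, classInner_indFun H _ (isClassFunction (isCharacter_of_irr isIrrCharacter_one)), h1H]
  set Ω := MulAction.orbitRel.Quotient H X with hΩ
  haveI := Fintype.ofFinite Ω
  have hππ : classInner π π = (Nat.card Ω : ℂ) := by
    have h2 := classInner_indFun H (fun _ => (1 : ℂ)) (isClassFunction hπc)
    rw [← hπe] at h2
    rw [h2, classInner_eq]
    have hB := MulAction.sum_card_fixedBy_eq_card_orbits_mul_card_group H X
    have hconj : ∀ h : H, (1 : ℂ) * conj (π h) = ((Fintype.card (MulAction.fixedBy X h) : ℕ) : ℂ) := fun h => by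
      rw [one_mul, hπ, Complex.conj_natCast, ← Nat.card_eq_fintype_card]
      rfl
    rw [Finset.sum_congr rfl (fun h _ => hconj h), ← Nat.cast_sum, hB, Nat.cast_mul, ← Nat.card_eq_fintype_card,
      ← Nat.card_eq_fintype_card, mul_comm (Nat.card Ω : ℂ),
      inv_mul_cancel_left₀ (Nat.cast_ne_zero.mpr Nat.card_pos.ne')]
  set f : G → ℂ := fun g => π g - 1 with hf
  have hfe : f = π + (-1 : ℂ) • (fun _ => (1 : ℂ)) := by funext g; simp [hf, sub_eq_add_neg]
  have hfc : IsCharacter G f := by
    refine isCharacter_of_inner_nat (fun g k => ?_) fun χ => ?_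
    · simp [hf, isClassFunction hπc g k]
    obtain ⟨m, hm⟩ := classInner_character_nat hπc χ
    rw [hfe, classInner_add_left, classInner_smul_left, hm]
    by_cases e : (χ : G → ℂ) = fun _ => 1
    · rw [e, classInner_self isIrrCharacter_one]
      rw [e, hπ1] at hm
      exact ⟨0, by rw [← hm]; norm_num⟩
    · rw [classInner_ne isIrrCharacter_one χ.2 (Ne.symm e)]
      exact ⟨m, by simp⟩
  have hnorm : classInner f f = (Nat.card Ω : ℂ) - 1 := by
    have e1 : ∀ ψ, classInner f ψ = classInner π ψ - classInner (fun _ => (1 : ℂ)) ψ := fun ψ => by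
      rw [hfe, classInner_add_left, classInner_smul_left]; ring
    have e2 : classInner π f = (Nat.card Ω : ℂ) - 1 := by
      rw [classInner_comm f π, e1, map_sub, ← classInner_comm, ← classInner_comm, hππ, hπ1]
    have e3 : classInner (fun _ => (1 : ℂ)) f = 0 := by
      rw [classInner_comm f (fun _ => (1 : ℂ)), e1, hπ1, classInner_self isIrrCharacter_one, sub_self, map_zero]
    rw [e1, e2, e3, sub_zero]
  have hiff : IsIrrCharacter G f ↔ Nat.card Ω = 2 := by
    constructor
    · intro h
      have := classInner_self h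
      rw [hnorm, sub_eq_iff_eq_add] at this
      norm_num at this
      rw [Nat.card_eq_fintype_card]
      exact_mod_cast this
    · intro h
      exact isIrr_of_norm_one hfc (by rw [hnorm, h]; norm_num)
  have hbase : ∀ z : X, (Quotient.mk'' z : Ω) = Quotient.mk'' x → z = x := fun z hz => by
    obtain ⟨h, hh⟩ := Quotient.exact' hz
    rw [← hh]
    exact h.2
  refine hiff.trans ?_
  rw [
    Nat.card_eq_two_iff' (Quotient.mk'' x : Ω), MulAction.is_two_pretransitive_iff]
  constructor
  · rintro ⟨ω, -, huniq⟩ a b c d hab hcd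
    obtain ⟨s, hs⟩ := MulAction.exists_smul_eq G a x
    obtain ⟨t, ht⟩ := MulAction.exists_smul_eq G c x
    have hb : s • b ≠ x := fun h => hab (MulAction.injective s (hs.trans h.symm))
    have hd : t • d ≠ x := fun h => hcd (MulAction.injective t (ht.trans h.symm))
    have hbd : (Quotient.mk'' (t • d) : Ω) = Quotient.mk'' (s • b) :=
      (huniq _ fun h => hd (hbase _ h)).trans (huniq _ fun h => hb (hbase _ h)).symm
    obtain ⟨h, hh⟩ := Quotient.exact' hbd
    have hh' : (h : G) • s • b = t • d := hh
    refine ⟨t⁻¹ * h * s, ?_, ?_⟩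
    · rw [mul_smul, mul_smul, hs, show (h : G) • x = x from h.2, inv_smul_eq_iff, ht]
    · rw [mul_smul, mul_smul, hh', inv_smul_smul]
  · intro h2
    refine ⟨Quotient.mk'' y₀, fun h => hxy₀ (hbase _ h).symm, fun ω hω => ?_⟩
    induction ω using Quotient.inductionOn' with | _ z =>
    have hz : x ≠ z := fun h => hω (by rw [h])
    obtain ⟨g, hg1, hg2⟩ := h2 hxy₀ hz
    exact Quotient.sound' ⟨⟨g, hg1⟩, hg2⟩

end Cfsg.Agent.S0157
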