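import Cfsg.Statements.S0167
import Cfsg.Agent.S4856

set_option autoImplicit false
open Cfsg

namespace Cfsg.Agent.S0167

/-- An element g of a finite group is a commutator if and only if the sum over the irreducible characters χ of χ g / χ 1 is nonzero. -/
theorem result {G : Type*} [Group G] [Finite G] (g : G) : (∃ a b : G, g = a * b * a⁻¹ * b⁻¹) ↔ ∑ᶠ χ : Cfsg.IrrCharacter G, (χ : G → ℂ) g / (χ : G → ℂ) 1 ≠ 0 := by
  haveI : Fintype G := Fintype.ofFinite G
  have h := Cfsg.Agent.S4856.result g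
  constructor
  · rintro ⟨a, b, rfl⟩ h0
    rw [h0, mul_zero, Nat.cast_eq_zero] at h
    haveI : Nonempty {xy : G × G // xy.1 * xy.2 * xy.1⁻¹ * xy.2⁻¹ = a * b * a⁻¹ * b⁻¹} := ⟨⟨(a, b), rfl⟩⟩
    exact Nat.card_pos.ne' h
  · intro h0
    by_contra hne
    push Not at hne
    haveI : IsEmpty {xy : G × G // xy.1 * xy.2 * xy.1⁻¹ * xy.2⁻¹ = g} := ⟨fun x => hne x.1.1 x.1.2 x.2.symm⟩
    rw [Nat.card_of_isEmpty, Nat.cast_zero, eq_comm, mul_eq_zero, Nat.cast_eq_zero] at h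
    exact h0 (h.resolve_left Nat.card_pos.ne')

end Cfsg.Agent.S0167
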