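import Cfsg.Statements.S0188
import Cfsg.Agent.CharBasics.Ortho

set_option autoImplicit false
open Cfsg CfsgLib.CharBasics
open scoped ComplexConjugate

namespace Cfsg.Agent.S0188

/-- The irreducible complex characters of G × H are precisely the functions (g, h) ↦ φ g * ψ h with φ, ψ irreducible characters of G and H. -/
theorem result {G : Type*} [Group G] [Finite G] {H : Type*} [Group H] [Finite H] (θ : G × H → ℂ) : Cfsg.IsIrrCharacter (G × H) θ ↔ ∃ (φ : G → ℂ) (ψ : H → ℂ), Cfsg.IsIrrCharacter G φ ∧ Cfsg.IsIrrCharacter H ψ ∧ θ = fun x => φ x.1 * ψ x.2 := by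
  classical
  haveI := Fintype.ofFinite G
  haveI := Fintype.ofFinite H
  have hprod : ∀ (φ : G → ℂ) (ψ : H → ℂ), IsIrrCharacter G φ → IsIrrCharacter H ψ →
      IsIrrCharacter (G × H) (fun x => φ x.1 * ψ x.2) := by
    intro φ ψ hφ hψ
    refine isIrr_of_norm_one (isCharacter_mul (isCharacter_comp (isCharacter_of_irr hφ) (MonoidHom.fst G H))
      (isCharacter_comp (isCharacter_of_irr hψ) (MonoidHom.snd G H))) ?_
    have h1 := classInner_self hφ
    have h2 := classInner_self hψ
    rw [classInner_eq] at h1 h2 ⊢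
    rw [Nat.card_prod, Nat.cast_mul, mul_inv, Fintype.sum_prod_type]
    simp only [Pi.mul_apply, MonoidHom.coe_fst, MonoidHom.coe_snd, map_mul]
    calc _ = ((Nat.card G : ℂ)⁻¹ * ∑ g, φ g * conj (φ g)) * ((Nat.card H : ℂ)⁻¹ * ∑ h, ψ h * conj (ψ h)) := by
          rw [mul_mul_mul_comm, Finset.sum_mul_sum]
          congr 1
          exact Finset.sum_congr rfl fun g _ => Finset.sum_congr rfl fun h _ => by ring
      _ = 1 := by rw [h1, h2, mul_one]
  refine ⟨fun hθ => ?_, fun ⟨φ, ψ, hφ, hψ, e⟩ => e ▸ hprod φ ψ hφ hψ⟩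
  let P : IrrCharacter G × IrrCharacter H → IrrCharacter (G × H) :=
    fun q => ⟨_, hprod q.1 q.2 q.1.2 q.2.2⟩
  haveI := Fintype.ofFinite (IrrCharacter G)
  haveI := Fintype.ofFinite (IrrCharacter H)
  haveI := Fintype.ofFinite (IrrCharacter (G × H))
  have hinj : Function.Injective P := by
    rintro ⟨φ, ψ⟩ ⟨φ', ψ'⟩ h
    have hf : ∀ g k, (φ : G → ℂ) g * (ψ : H → ℂ) k = (φ' : G → ℂ) g * (ψ' : H → ℂ) k := fun g k =>
      congrFun (congrArg Subtype.val h) (g, k)
    have hs : (φ : G → ℂ) = ((ψ' : H → ℂ) 1 / (ψ : H → ℂ) 1) • (φ' : G → ℂ) := by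
      funext g
      have := hf g 1
      have := apply_one_ne_zero ψ.2
      simp only [Pi.smul_apply, smul_eq_mul]
      field_simp
      linear_combination hf g 1
    have hφ : φ = φ' := by
      by_contra hne
      have h1 := classInner_self φ.2
      nth_rewrite 1 [hs] at h1
      rw [classInner_smul_left, classInner_ne φ'.2 φ.2 (fun e => hne (Subtype.ext e.symm)), mul_zero] at h1
      exact zero_ne_one h1
    subst hφ
    exact Prod.ext rfl (Subtype.ext (funext fun k => mul_left_cancel₀ (apply_one_ne_zero φ.2) (hf 1 k)))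
  have hcard : Nat.card (IrrCharacter G × IrrCharacter H) = Nat.card (IrrCharacter (G × H)) := by
    rw [Nat.card_prod, card_irr, card_irr, card_irr, ← Nat.card_prod]
    let F : ConjClasses (G × H) → ConjClasses G × ConjClasses H :=
      fun c => (ConjClasses.map (MonoidHom.fst G H) c, ConjClasses.map (MonoidHom.snd G H) c)
    refine (Nat.card_eq_of_bijective F ⟨?_, ?_⟩).symm
    · intro a b
      induction a using Quotient.inductionOn with | _ a =>
      induction b using Quotient.inductionOn with | _ b =>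
      intro hab
      obtain ⟨c, hc⟩ := isConj_iff.1 (ConjClasses.mk_eq_mk_iff_isConj.1 (congrArg Prod.fst hab))
      obtain ⟨d, hd⟩ := isConj_iff.1 (ConjClasses.mk_eq_mk_iff_isConj.1 (congrArg Prod.snd hab))
      exact ConjClasses.mk_eq_mk_iff_isConj.2 (isConj_iff.2 ⟨(c, d), Prod.ext hc hd⟩)
    · rintro ⟨a, b⟩
      induction a using Quotient.inductionOn with | _ a =>
      induction b using Quotient.inductionOn with | _ b =>
      exact ⟨ConjClasses.mk (a, b), rfl⟩
  obtain ⟨⟨φ, ψ⟩, hq⟩ := ((Nat.bijective_iff_injective_and_card P).2 ⟨hinj, hcard⟩).2 ⟨θ, hθ⟩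
  exact ⟨φ, ψ, φ.2, ψ.2, (congrArg Subtype.val hq).symm⟩

end Cfsg.Agent.S0188
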