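import Cfsg.Statements.S0201
import Cfsg.Agent.ZStar.Main
-- import your own Cfsg.Agent.* helpers here

set_option autoImplicit false
open Cfsg

namespace Cfsg.Agent.S0201

/-- Brauer–Suzuki Theorem: if a Sylow 2-subgroup of a finite group is generalized quaternion (of order at least 8) and the group has no nontrivial normal subgroup of odd order, then its centre has order 2. -/
theorem result {G : Type*} [Group G] [Finite G] (S : Sylow 2 G) (n : ℕ) (e : (S : Subgroup G) ≃* QuaternionGroup (2 ^ (n + 1))) (hO : ∀ N : Subgroup G, N.Normal → Odd (Nat.card N) → N = ⊥) : Nat.card (Subgroup.center G) = 2 := by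
  haveI := Fact.mk Nat.prime_two
  haveI : NeZero (2 ^ (n + 1)) := ⟨by positivity⟩
  have hn : 2 ≤ 2 ^ (n + 1) := Nat.le_self_pow (Nat.succ_ne_zero n) 2
  set q₀ : QuaternionGroup (2 ^ (n + 1)) := QuaternionGroup.a ((2 ^ (n + 1) : ℕ) : ZMod (2 * 2 ^ (n + 1))) with hq₀
  set u : G := ((e.symm q₀ : (S : Subgroup G)) : G) with hu
  have huniq : ∀ t ∈ S, orderOf t = 2 → t = u := fun t ht h2 => by
    have h3 : orderOf (e ⟨t, ht⟩) = 2 := by rw [MulEquiv.orderOf_eq, Subgroup.orderOf_mk]; exact h2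
    rw [hu, hq₀, ← CfsgLib.ZStar.eq_a_n_of_orderOf_two h3, MulEquiv.symm_apply_apply]
  have hu2 : orderOf u = 2 := by
    rw [hu, Subgroup.orderOf_coe, MulEquiv.orderOf_eq]
    refine orderOf_eq_prime ?_ (CfsgLib.ZStar.a_ne_one CfsgLib.ZStar.n_ne_zero)
    rw [pow_two, CfsgLib.ZStar.a_sq, CfsgLib.ZStar.two_n_eq_zero]
    rfl
  have hiso := CfsgLib.ZStar.isolated_of_sylow S hu2 (e.symm q₀).2 fun g hg => huniq _ hg (by
    rw [← MulAut.conj_apply, MulEquiv.orderOf_eq]; exact hu2)
  have hcore : pPrimeCore 2 G = ⊥ :=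
    hO _ (Cfsg.pPrimeCore_normal 2 G) (Nat.coprime_two_right.1 (CfsgLib.PCore.pPrimeCore_coprime 2 G))
  have hcen : u ∈ Subgroup.center G := by
    rw [Subgroup.mem_center_iff]
    intro g
    have h := CfsgLib.ZStar.zstar hiso g
    rw [hcore, Subgroup.mem_bot, mul_inv_eq_one, mul_inv_eq_iff_eq_mul] at h
    exact h.symm
  have hall : ∀ z ∈ Subgroup.center G, z = 1 ∨ z = u := by
    intro z hz
    obtain ⟨hab, -, ⟨k, hk⟩, hreg, -, hrm⟩ := CfsgLib.ZStar.part_spec (p := 2) z
    have hrz : CfsgLib.ZStar.prest 2 z = 1 := by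
      have hmem : CfsgLib.ZStar.prest 2 z ∈ Subgroup.center G :=
        (Subgroup.zpowers_le.2 hz) hrm
      haveI hN : (Subgroup.zpowers (CfsgLib.ZStar.prest 2 z)).Normal := ⟨fun x hx g => by
        rw [Subgroup.mem_center_iff.1 (Subgroup.zpowers_le.2 hmem hx) g, mul_inv_cancel_right]; exact hx⟩
      have := hO _ hN (by
        rw [Nat.card_zpowers, Nat.odd_iff]
        omega)
      exact Subgroup.zpowers_eq_bot.1 this
    rw [hrz, mul_one] at hab
    rw [hab] at hk
    have hzS : z ∈ S := by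
      obtain ⟨Q, hQ⟩ := (IsPGroup.of_card (n := k) (by rw [Nat.card_zpowers, hk]) :
        IsPGroup 2 (Subgroup.zpowers z)).exists_le_sylow
      obtain ⟨c, hc⟩ := MulAction.exists_smul_eq G Q S
      rw [← hc, show z = c * z * c⁻¹ by rw [Subgroup.mem_center_iff.1 hz c, mul_inv_cancel_right]]
      exact Subgroup.smul_mem_pointwise_smul _ _ _ (hQ (Subgroup.mem_zpowers _))
    rcases CfsgLib.ZStar.eq_of_central (q := e ⟨z, hzS⟩) hn (fun r => by
      have : Commute (⟨z, hzS⟩ : (S : Subgroup G)) (e.symm r) :=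
        Subtype.ext (Subgroup.mem_center_iff.1 hz (e.symm r : G)).symm
      simpa using this.map e.toMonoidHom) with h | h
    · exact Or.inl (congrArg Subtype.val (e.map_eq_one_iff.1 h))
    · exact Or.inr (by rw [hu, hq₀, ← h, MulEquiv.symm_apply_apply])
  have hu1 : u ≠ 1 := fun e' => by rw [e', orderOf_one] at hu2; omega
  rw [show Nat.card (Subgroup.center G) = Set.ncard (Subgroup.center G : Set G) from Nat.card_coe_set_eq _,
    show (Subgroup.center G : Set G) = {1, u} from ?_, Set.ncard_pair hu1.symm]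
  ext x
  simp only [SetLike.mem_coe, Set.mem_insert_iff, Set.mem_singleton_iff]
  exact ⟨hall x, by rintro (rfl | rfl); exacts [one_mem _, hcen]⟩

end Cfsg.Agent.S0201
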