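import Cfsg.Statements.S0219
import Mathlib.GroupTheory.Transfer
import Mathlib.GroupTheory.SpecificGroups.Cyclic

set_option autoImplicit false
open Cfsg

namespace Cfsg.Agent.S0219

/-- If a finite group has even order and a cyclic Sylow 2-subgroup, then it has a subgroup of index 2 (consider the parity of permutations in the regular representation). -/
theorem result {G : Type*} [Group G] [Finite G] (heven : Even (Nat.card G)) (T : Sylow 2 G) (hT : IsCyclic (T : Subgroup G)) : ∃ H : Subgroup G, H.index = 2 := by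
  have : Fact (Nat.Prime 2) := ⟨Nat.prime_two⟩
  have hmin : (Nat.card G).minFac = 2 := (Nat.minFac_eq_two_iff _).2 (even_iff_two_dvd.1 heven)
  have hc := IsCyclic.isComplement' hmin hT
  set N := (MonoidHom.transferSylow T (IsCyclic.normalizer_le_centralizer hmin hT)).ker
  have hTne : (T : Subgroup G) ≠ ⊥ := T.ne_bot_of_dvd_card (even_iff_two_dvd.1 heven)
  obtain ⟨g, hg⟩ := hT.exists_generator
  obtain ⟨n, hn⟩ := T.isPGroup'.exists_card_eq
  rcases n with _ | n
  · exact absurd (Subgroup.eq_bot_of_card_eq _ (by simpa using hn)) hTne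
  set M := N ⊔ (Subgroup.zpowers ((g : G) ^ 2)) with hM
  have hidxN : N.index = 2 ^ (n + 1) := by rw [← hn]; exact hc.symm.index_eq_card
  refine ⟨M, ?_⟩
  have h1 : N.relIndex M = 2 ^ n := by
    rw [hM, Subgroup.relIndex_sup_left]
    rw [← Subgroup.inf_relIndex_right]
    have hb : N ⊓ Subgroup.zpowers ((g : G) ^ 2) = ⊥ := eq_bot_iff.2
      (le_trans (inf_le_inf_left N (Subgroup.zpowers_le.2 (pow_mem g.2 2))) hc.disjoint.le_bot)
    rw [hb, Subgroup.relIndex_bot_left, Nat.card_zpowers]
    have hord : orderOf (g : G) = 2 ^ (n + 1) := by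
      rw [Subgroup.orderOf_coe, orderOf_eq_card_of_forall_mem_zpowers hg, hn]
    rw [orderOf_pow_of_dvd two_ne_zero (by rw [hord]; exact dvd_pow_self 2 (by omega)), hord,
      pow_succ, Nat.mul_div_cancel _ (by norm_num)]
  have h2 := Subgroup.relIndex_mul_index (le_sup_left : N ≤ M)
  rw [h1, hidxN] at h2
  exact Nat.eq_of_mul_eq_mul_left (Nat.two_pow_pos n) (h2.trans (pow_succ 2 n))

end Cfsg.Agent.S0219
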