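import Cfsg.Statements.S0246
import Cfsg.Agent.SpGeom.Simple
import Cfsg.Agent.SL2.PSL
-- import your own Cfsg.Agent.* helpers here

set_option autoImplicit false
open Cfsg

namespace Cfsg.Agent.S0246

/-- The centre of Sp_{2m}(q), m at least 1, is {1, -1}: it has order gcd(2, q-1). -/
theorem result {F : Type*} [Field F] [Fintype F] {q : ℕ} (hF : Fintype.card F = q) (m : ℕ) (hm : 1 ≤ m) : Nat.card (Subgroup.center (Matrix.symplecticGroup (Fin m) F)) = Nat.gcd 2 (q - 1) := by
  subst hF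
  rw [← CfsgLib.SL2.card_center_eq_gcd F, CfsgLib.SL2.card_center]
  refine Nat.card_congr (Equiv.symm ?_)
  have hne : Nonempty (Fin m) := ⟨⟨0, hm⟩⟩
  have hr : ∀ w : {w : F // w ^ 2 = 1}, w.1 • (1 : Matrix (Fin m ⊕ Fin m) (Fin m ⊕ Fin m) F) ∈
      Matrix.symplecticGroup (Fin m) F := fun w => by
    rcases sq_eq_one_iff.1 w.2 with h | h <;> rw [h]
    · rw [one_smul]; exact one_mem _
    · rw [neg_one_smul]; exact SymplecticGroup.neg_mem (one_mem _)
  refine Equiv.ofBijective (fun w => ⟨⟨_, hr w⟩, ?_⟩) ⟨fun a b h => ?_, fun z => ?_⟩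
  · rw [CfsgLib.Symp.mem_center_iff hm]
    rcases sq_eq_one_iff.1 w.2 with h | h
    · left; simp [h]
    · right; simp [h]
  · have := congrArg (fun z : ↥(Subgroup.center (Matrix.symplecticGroup (Fin m) F)) =>
      z.1.1 (Sum.inl (Classical.arbitrary _)) (Sum.inl (Classical.arbitrary _))) h
    exact Subtype.ext (by simpa using this)
  · rcases (CfsgLib.Symp.mem_center_iff hm z.1).1 z.2 with h | h
    · exact ⟨⟨1, one_pow _⟩, Subtype.ext (Subtype.ext (by simp [h]))⟩
    · exact ⟨⟨-1, by ring⟩, Subtype.ext (Subtype.ext (by simp [h]))⟩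

end Cfsg.Agent.S0246
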