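import Cfsg.Statements.S0255
import Cfsg.Agent.BSW.Recog
import Cfsg.Agent.BSW.Order168
import Cfsg.Agent.SLn.Simple
import Cfsg.Agent.SLn.Card

set_option autoImplicit false
open Cfsg

namespace Cfsg.Agent.S0255

/-- PSL_2(7) is isomorphic to PSL_3(2). -/
theorem result {F K : Type*} [Field F] [Fintype F] [Field K] [Fintype K] (hF : Fintype.card F = 7) (hK : Fintype.card K = 2) : Nonempty (Matrix.ProjectiveSpecialLinearGroup (Fin 2) F ≃* Matrix.ProjectiveSpecialLinearGroup (Fin 3) K) := by
  classical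
  have hc : Nat.card (Matrix.ProjectiveSpecialLinearGroup (Fin 3) K) = 168 := by
    have h := CfsgLib.SLn.card_PSL_eq K 3 (by norm_num)
    rw [hK, Fin.prod_univ_three] at h
    norm_num at h
    rw [Nat.card_eq_fintype_card]; exact h
  haveI := CfsgLib.SLn.isSimpleGroup_PSL (ι := Fin 3) (F := K) (Or.inl (by simp))
  obtain ⟨e⟩ := (CfsgLib.BSW.structured_of_card_168 hc).nonempty_iso (F := F) (by rw [hc, hF])
  exact ⟨e.symm⟩

end Cfsg.Agent.S0255
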