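import Cfsg.Statements.S0301
import Cfsg.Agent.AutPSp.Unique
import Cfsg.Agent.SpGeom.Simple
import Cfsg.Agent.SpGeom.Order
import Cfsg.Agent.OrthOrder.Orders
import Cfsg.Agent.OrthOrder.Center
import Cfsg.Agent.Forms.OrthBasics

set_option autoImplicit false
open Cfsg Matrix
open scoped commutatorElement

namespace Cfsg.Agent.S0301

/-- PΩ_5(q) is isomorphic to PSp_4(q) for q odd. -/
theorem result {F : Type*} [Field F] [Fintype F] (hodd : Odd (Fintype.card F)) : Nonempty (Cfsg.POmega F (Cfsg.quadFormOdd 2 F) ≃* Cfsg.PSp 2 F) := by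
  classical
  have h2 : (2 : F) ≠ 0 := CfsgLib.OrthOrder.two_ne_zero_of_odd hodd
  obtain ⟨M, hM⟩ : ∃ M : (Unit ⊕ (Fin 2 ⊕ Fin 2) → F) →ₗ[F] Matrix (Fin 2 ⊕ Fin 2) (Fin 2 ⊕ Fin 2) F, ∀ v, M v =
      Matrix.fromBlocks !![0, v (.inr (.inl 0)); -v (.inr (.inl 0)), 0]
        !![v (.inl ()), v (.inr (.inl 1)); v (.inr (.inr 1)), -v (.inl ())]
        !![-v (.inl ()), -v (.inr (.inr 1)); -v (.inr (.inl 1)), v (.inl ())]
        !![0, v (.inr (.inr 0)); -v (.inr (.inr 0)), 0] := by
    refine ⟨{ toFun := fun v => Matrix.fromBlocks !![0, v (.inr (.inl 0)); -v (.inr (.inl 0)), 0]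
                !![v (.inl ()), v (.inr (.inl 1)); v (.inr (.inr 1)), -v (.inl ())]
                !![-v (.inl ()), -v (.inr (.inr 1)); -v (.inr (.inl 1)), v (.inl ())]
                !![0, v (.inr (.inr 0)); -v (.inr (.inr 0)), 0],
              map_add' := fun u v => ?_, map_smul' := fun r v => ?_ }, fun v => rfl⟩
    · ext (i | i) (j | j) <;> fin_cases i <;> fin_cases j <;> simp <;> ring
    · ext (i | i) (j | j) <;> fin_cases i <;> fin_cases j <;> simp
  obtain ⟨N, hN⟩ : ∃ N : Matrix (Fin 2 ⊕ Fin 2) (Fin 2 ⊕ Fin 2) F →ₗ[F] (Unit ⊕ (Fin 2 ⊕ Fin 2) → F),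
      ∀ X, N X = Sum.elim (fun _ => X (.inl 0) (.inr 0))
        (Sum.elim ![X (.inl 0) (.inl 1), X (.inl 0) (.inr 1)] ![X (.inr 0) (.inr 1), X (.inl 1) (.inr 0)]) := by
    refine ⟨{ toFun := fun X => Sum.elim (fun _ => X (.inl 0) (.inr 0))
                (Sum.elim ![X (.inl 0) (.inl 1), X (.inl 0) (.inr 1)] ![X (.inr 0) (.inr 1), X (.inl 1) (.inr 0)]),
              map_add' := fun u v => ?_, map_smul' := fun r v => ?_ }, fun v => rfl⟩
    · funext k; rcases k with k | k | k <;> fin_cases k <;> simp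
    · funext k; rcases k with k | k | k <;> fin_cases k <;> simp
  have hNM : ∀ v, N (M v) = v := fun v => by
    funext k; rcases k with k | k | k <;> fin_cases k <;> simp [hN, hM]
  have hMinj : Function.Injective M := fun u v h => by rw [← hNM u, h, hNM]
  have hMt : ∀ v, (M v).transpose = -M v := fun v => by
    ext (i | i) (j | j) <;> fin_cases i <;> fin_cases j <;> simp [hM]
  have hJt : ∀ X : Matrix (Fin 2 ⊕ Fin 2) (Fin 2 ⊕ Fin 2) F, (Matrix.J (Fin 2) F * X).trace =
      X (.inl 0) (.inr 0) + X (.inl 1) (.inr 1) - (X (.inr 0) (.inl 0) + X (.inr 1) (.inl 1)) := fun X => by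
    simp [Matrix.trace, Matrix.mul_apply, Matrix.J, Fintype.sum_sum_type, Fin.sum_univ_two, Matrix.one_apply]
    ring
  have hMN : ∀ (g : Matrix.symplecticGroup (Fin 2) F) v, M (N (g.1 * M v * g.1.transpose)) = g.1 * M v * g.1.transpose := fun g v => by
    set X := g.1 * M v * g.1.transpose with hX
    have ha : ∀ i j, X j i = -X i j := fun i j => by
      have : X.transpose = -X := by
        rw [hX, Matrix.transpose_mul, Matrix.transpose_mul, Matrix.transpose_transpose, hMt]
        simp [mul_assoc]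
      simpa using congrFun (congrFun this i) j
    have hd : ∀ i, X i i = 0 := fun i => mul_left_cancel₀ h2 (by linear_combination ha i i)
    have htr : X (.inl 1) (.inr 1) = -X (.inl 0) (.inr 0) := by
      have e : (Matrix.J (Fin 2) F * X).trace = (Matrix.J (Fin 2) F * M v).trace := by
        conv_rhs => rw [← SymplecticGroup.mem_iff'.1 g.2]
        rw [Matrix.trace_mul_comm _ X, hX, Matrix.mul_assoc, Matrix.mul_assoc, Matrix.trace_mul_comm]
        rw [Matrix.trace_mul_comm (_ * _ * g.1) (M v)]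
        simp only [Matrix.mul_assoc]
      rw [hJt, hJt, ha (.inl 0) (.inr 0), ha (.inl 1) (.inr 1)] at e
      simp [hM] at e
      exact mul_left_cancel₀ h2 (by linear_combination e)
    rw [hM, hN]
    ext (i | i) (j | j) <;> fin_cases i <;> fin_cases j <;>
      simp [hd, htr, ha (.inl 0) (.inl 1), ha (.inr 0) (.inr 1), ha (.inl 0) (.inr 0), ha (.inl 0) (.inr 1),
        ha (.inl 1) (.inr 0), ha (.inl 1) (.inr 1)]
  let Lm : Matrix (Fin 2 ⊕ Fin 2) (Fin 2 ⊕ Fin 2) F → ((Unit ⊕ (Fin 2 ⊕ Fin 2) → F) →ₗ[F] (Unit ⊕ (Fin 2 ⊕ Fin 2) → F)) := fun g =>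
    N.comp ((LinearMap.mulLeft F g).comp ((LinearMap.mulRight F g.transpose).comp M))
  have hL : ∀ (g : Matrix.symplecticGroup (Fin 2) F) v, M (Lm g.1 v) = g.1 * M v * g.1.transpose := fun g v => by
    simp only [Lm, LinearMap.comp_apply, LinearMap.mulLeft_apply, LinearMap.mulRight_apply]
    rw [← mul_assoc]
    exact hMN g v
  let T₀ : Matrix.symplecticGroup (Fin 2) F →* Matrix (Unit ⊕ (Fin 2 ⊕ Fin 2)) (Unit ⊕ (Fin 2 ⊕ Fin 2)) F :=
    { toFun := fun g => LinearMap.toMatrix' (Lm g.1)
      map_one' := Matrix.ext_of_mulVec_single fun i => by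
        rw [LinearMap.toMatrix'_mulVec, Matrix.one_mulVec]
        exact hMinj (by rw [hL]; simp)
      map_mul' := fun g h => Matrix.ext_of_mulVec_single fun i => by
        rw [LinearMap.toMatrix'_mulVec, ← Matrix.mulVec_mulVec, LinearMap.toMatrix'_mulVec, LinearMap.toMatrix'_mulVec]
        exact hMinj (by rw [hL, hL, hL]; simp [mul_assoc, Matrix.transpose_mul]) }
  let T : Matrix.symplecticGroup (Fin 2) F →* Matrix.GeneralLinearGroup (Unit ⊕ (Fin 2 ⊕ Fin 2)) F := T₀.toHomUnits
  have hTv : ∀ g v, M ((T g).1 *ᵥ v) = g.1 * M v * g.1.transpose := fun g v =>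
    (congrArg M (LinearMap.toMatrix'_mulVec _ _)).trans (hL _ _)
  have hH : (Cfsg.isometryGroup F (Cfsg.quadFormOdd 2 F)).comap T = ⊤ := by
    refine CfsgLib.SpGeom.eq_top_of_tv _ fun w c => ?_
    intro u v
    show Cfsg.quadFormOdd 2 F ((T _).1 *ᵥ u) = Cfsg.quadFormOdd 2 F u
    rw [← hNM ((T _).1 *ᵥ u), hTv, show (CfsgLib.SpGeom.tv w c).1 = Cfsg.sympTransvection 2 w c from rfl]
    simp [Cfsg.quadFormOdd, hN, hM, Cfsg.sympTransvection, Matrix.mul_apply, Matrix.vecMul, Matrix.mulVec, dotProduct,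
      Fintype.sum_sum_type, Fin.sum_univ_two, Matrix.J, Matrix.one_apply, Matrix.vecMulVec_apply]
    ring
  let Ψ : Matrix.symplecticGroup (Fin 2) F →* ↥(Cfsg.isometryGroup F (Cfsg.quadFormOdd 2 F)) :=
    T.codRestrict _ fun g => (SetLike.ext_iff.1 hH g).2 trivial
  have hΩ : ∀ g, Ψ g ∈ Cfsg.Omega F (Cfsg.quadFormOdd 2 F) := fun g => by
    have hg : g ∈ commutator (Matrix.symplecticGroup (Fin 2) F) := by
      rw [CfsgLib.SpGeom.commutator_eq_top (Or.inr (Or.inl ⟨le_rfl, h2⟩))]; trivial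
    have := Subgroup.mem_map_of_mem Ψ hg
    rw [commutator_def, Subgroup.map_commutator] at this
    exact Subgroup.commutator_mono le_top le_top this
  let ρ : Matrix.symplecticGroup (Fin 2) F →* Cfsg.POmega F (Cfsg.quadFormOdd 2 F) :=
    (QuotientGroup.mk' _).comp (Ψ.codRestrict _ hΩ)
  have hkerΨ : ∀ g, Ψ g = 1 → ∃ d : F, d * d = 1 ∧ g.1 = d • (1 : Matrix (Fin 2 ⊕ Fin 2) (Fin 2 ⊕ Fin 2) F) := by
    intro g hg
    have h : ∀ v, g.1 * M v * g.1.transpose = M v := fun v => by
      rw [← hTv, show T g = 1 from congrArg Subtype.val hg]; simp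
    have hskew : ∀ X : Matrix (Fin 2 ⊕ Fin 2) (Fin 2 ⊕ Fin 2) F, X.transpose = -X → g.1 * X * g.1.transpose = X := by
      intro X hX
      have ha : ∀ i j, X j i = -X i j := fun i j => by simpa using congrFun (congrFun hX i) j
      have hd : ∀ i, X i i = 0 := fun i => mul_left_cancel₀ h2 (by linear_combination ha i i)
      obtain ⟨t, ht⟩ : ∃ t : F, t = -(X (.inl 0) (.inr 0) + X (.inl 1) (.inr 1)) / 2 := ⟨_, rfl⟩
      obtain ⟨v, hv⟩ : ∃ v, M v + t • Matrix.J (Fin 2) F = X := by
        refine ⟨N (X - t • Matrix.J (Fin 2) F), ?_⟩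
        rw [hM, hN]
        ext (i | i) (j | j) <;> fin_cases i <;> fin_cases j <;>
          simp [Matrix.J, Matrix.one_apply, ht, hd, ha (.inl 0) (.inl 1), ha (.inr 0) (.inr 1), ha (.inl 0) (.inr 0),
            ha (.inl 0) (.inr 1), ha (.inl 1) (.inr 0), ha (.inl 1) (.inr 1)] <;>
          field_simp <;> ring
      rw [← hv, Matrix.mul_add, Matrix.add_mul, h, Matrix.mul_smul, Matrix.smul_mul, SymplecticGroup.mem_iff.1 g.2]
    have hminor : ∀ a b i j : Fin 2 ⊕ Fin 2, a ≠ b → g.1 i a * g.1 j b - g.1 i b * g.1 j a =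
        (if i = a ∧ j = b then 1 else 0) - (if i = b ∧ j = a then 1 else 0) := by
      intro a b i j hab
      have e := congrFun (congrFun (hskew (Matrix.single a b 1 - Matrix.single b a 1) (by
        rw [Matrix.transpose_sub, Matrix.transpose_single, Matrix.transpose_single, neg_sub])) i) j
      rw [Matrix.sub_apply, Matrix.single_apply, Matrix.single_apply] at e
      simp only [Matrix.mul_apply, Matrix.transpose_apply, Matrix.sub_apply, Matrix.single_apply, mul_sub, sub_mul,
        Finset.sum_sub_distrib] at e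
      simp only [mul_ite, mul_one, mul_zero, ite_mul, zero_mul, ite_and, Finset.sum_ite_eq, Finset.mem_univ, if_true] at e
      exact e.trans (by simp only [@eq_comm _ a, @eq_comm _ b, ← ite_and])
    have hoff : ∀ i a : Fin 2 ⊕ Fin 2, i ≠ a → g.1 i a = 0 := by
      intro i a hia
      obtain ⟨b, hba, hbi⟩ : ∃ b : Fin 2 ⊕ Fin 2, b ≠ a ∧ b ≠ i := by revert i a; decide
      have e1 := hminor a b i a hba.symm
      have e2 := hminor a b i b hba.symm
      have e3 := hminor a b a b hba.symm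
      simp [hia, hbi.symm, hba, hba.symm] at e1 e2 e3
      linear_combination g.1 a a * e2 - g.1 b a * e1 - g.1 i a * e3
    have hd : ∀ a b : Fin 2 ⊕ Fin 2, a ≠ b → g.1 a a * g.1 b b = 1 := fun a b hab => by
      have e := hminor a b a b hab
      simpa [hoff a b hab, hab, hab.symm] using e
    have heq : ∀ a, g.1 a a = g.1 (.inl 0) (.inl 0) := fun a => by
      obtain ⟨c, hca, hc0⟩ : ∃ c : Fin 2 ⊕ Fin 2, c ≠ a ∧ c ≠ .inl 0 := by revert a; decide
      exact mul_right_cancel₀ (right_ne_zero_of_mul_eq_one (hd a c hca.symm)) ((hd a c hca.symm).trans (hd _ c hc0.symm).symm)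
    refine ⟨g.1 (.inl 0) (.inl 0), ?_, Matrix.ext fun i j => ?_⟩
    · have := hd (.inl 0) (.inl 1) (by decide)
      rwa [heq (.inl 1)] at this
    · rcases eq_or_ne i j with rfl | hij
      · simp [heq i]
      · simp [hoff i j hij, hij]
  have hker : ρ.ker = Subgroup.center (Matrix.symplecticGroup (Fin 2) F) := by
    ext s
    constructor
    · intro hs
      have hz := Subgroup.mem_center_iff.1 ((QuotientGroup.eq_one_iff _).1 hs)
      have hcent : Subgroup.centralizer {s} = ⊤ := by
        refine CfsgLib.SpGeom.eq_top_of_tv _ fun w c => ?_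
        set t := CfsgLib.SpGeom.tv w c with htdef
        have e := congrArg Subtype.val (hz ((Ψ.codRestrict _ hΩ) t))
        change Ψ t * Ψ s = Ψ s * Ψ t at e
        obtain ⟨d, hdd, hd⟩ := hkerΨ (s * t * (t * s)⁻¹) (by rw [map_mul, map_inv, map_mul, map_mul, e, mul_inv_cancel])
        have hc' : (s * t).1 = d • (t * s).1 := by
          rw [show s * t = s * t * (t * s)⁻¹ * (t * s) by group, CfsgLib.SpGeom.coe_mul', hd]
          simp
        have hd1 : d = 1 := by
          have h1 : s.1 * t.1 * (s⁻¹).1 = d • t.1 := by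
            rw [← CfsgLib.SpGeom.coe_mul', hc', CfsgLib.SpGeom.coe_mul', Matrix.smul_mul, mul_assoc,
              ← CfsgLib.SpGeom.coe_mul', mul_inv_cancel, CfsgLib.SpGeom.coe_one', mul_one]
          have h2' := congrArg Matrix.trace h1
          rw [Matrix.trace_mul_cycle, ← CfsgLib.SpGeom.coe_mul', inv_mul_cancel,
            CfsgLib.SpGeom.coe_one', one_mul, Matrix.trace_smul, smul_eq_mul,
            show t.1.trace = 4 by
              show (Cfsg.sympTransvection 2 w c).trace = 4
              simp [Cfsg.sympTransvection, Matrix.trace, Matrix.mulVec, dotProduct, Matrix.J, Fintype.sum_sum_type,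
                Fin.sum_univ_two, Matrix.one_apply, Matrix.vecMulVec_apply]
              ring] at h2'
          rcases mul_self_eq_one_iff.1 hdd with e | e
          · exact e
          · subst e
            have h4 : (4 : F) ≠ 0 := by
              rw [show (4 : F) = 2 * 2 by norm_num]; exact mul_ne_zero h2 h2
            exact mul_right_cancel₀ h4 (by linear_combination -h2')
        rw [Subgroup.mem_centralizer_singleton_iff]
        exact (Subtype.ext (by rw [hc', hd1, one_smul]) : s * t = t * s).symm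
      rw [Subgroup.mem_center_iff]
      intro t
      exact (Subgroup.mem_centralizer_singleton_iff.1 (show t ∈ Subgroup.centralizer {s} by rw [hcent]; trivial))
    · intro hs
      have hs1 : Ψ s = 1 := Subtype.ext (Units.ext (Matrix.ext_of_mulVec_single fun i => hMinj (by
        show M ((T s).1 *ᵥ _) = _
        rw [hTv]
        rcases (CfsgLib.Symp.mem_center_iff (by norm_num) s).1 hs with e | e <;> simp [e] <;> congr 1 <;> funext j <;>
          simp [Matrix.col, Matrix.one_apply, Pi.single_apply])))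
      refine (QuotientGroup.eq_one_iff _).2 ?_
      rw [show (Ψ.codRestrict _ hΩ) s = 1 from Subtype.ext hs1]
      exact one_mem _
  have hcard : Nat.card (Cfsg.PSp 2 F) = Nat.card (Cfsg.POmega F (Cfsg.quadFormOdd 2 F)) := by
    have hQ := CfsgLib.Forms.nondegenerate_quadOdd 2 h2
    have hn : 5 ≤ Fintype.card (Unit ⊕ (Fin 2 ⊕ Fin 2)) := by simp
    have key := CfsgLib.OrthOrder.card_POmega_mul (CfsgLib.Forms.quadOdd F 2)
    rw [CfsgLib.Forms.index_Omega _ h2 hQ (by omega),
      CfsgLib.OrthOrder.card_center_eq_one hQ hn (CfsgLib.OrthOrder.neg_one_notMem_of_odd h2 (by simp; decide)),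
      CfsgLib.OrthOrder.natCard_isometryGroup _ rfl, CfsgLib.OrthOrder.card_isom_odd h2] at key
    rw [← CfsgLib.Forms.coe_quadOdd]
    have hP := Subgroup.card_eq_card_quotient_mul_card_subgroup (Subgroup.center (Matrix.symplecticGroup (Fin 2) F))
    rw [CfsgLib.AutPSp.card_center_Sp (by norm_num), if_neg h2, CfsgLib.SpGeom.card_Sp] at hP
    linarith
  let ρ' : Cfsg.PSp 2 F →* Cfsg.POmega F (Cfsg.quadFormOdd 2 F) := QuotientGroup.lift _ ρ hker.ge
  have hinj : Function.Injective ρ' := by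
    rw [injective_iff_map_eq_one]
    intro x hx
    obtain ⟨s, rfl⟩ := QuotientGroup.mk_surjective x
    exact (QuotientGroup.eq_one_iff s).2 (hker ▸ hx)
  exact ⟨(MulEquiv.ofBijective ρ' ((Nat.bijective_iff_injective_and_card _).2 ⟨hinj, hcard⟩)).symm⟩

end Cfsg.Agent.S0301
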