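import Cfsg.Statements.S0303
import Cfsg.Agent.Klein.Unitary
import Cfsg.Agent.OrthOrder.Orders
import Cfsg.Agent.OrthOrder.Center
import Cfsg.Agent.Forms.OrthBasics
import Cfsg.Agent.Forms.SimilitudeStd
import Cfsg.Agent.UGeom.Center

set_option autoImplicit false
open Cfsg Matrix CfsgLib.Klein
open scoped commutatorElement

namespace Cfsg.Agent.S0303

/-- PΩ^-_6(q) is isomorphic to PSU_4(q). -/
theorem result {F K : Type*} [Field F] [Fintype F] [Field K] [Fintype K] {q : ℕ} (hF : Fintype.card F = q) (hK : Fintype.card K = q ^ 2) (a b : F) (hab : ∀ z₁ z₂ : F, z₁ ^ 2 + a * z₁ * z₂ + b * z₂ ^ 2 = 0 → z₁ = 0 ∧ z₂ = 0) : Nonempty (Cfsg.POmega F (Cfsg.quadFormMinus 2 F a b) ≃* Cfsg.PSU 4 K q) := by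
  classical
  obtain ⟨φ₀⟩ := CfsgLib.Forms.Unitary.exists_algebra hK hF
  letI : Algebra F K := φ₀.toAlgebra
  have hKF : Fintype.card K = Fintype.card F ^ 2 := by rw [hK, hF]
  subst hF
  obtain ⟨C⟩ := CfsgLib.UGeom.nonempty_conj hK
  have hσ : ∀ x, CfsgLib.Forms.Unitary.frob F K x = C.σ x := fun x => by rw [CfsgLib.Forms.Unitary.frob_apply, C.pow]
  have hσa : ∀ r : F, C.σ (algebraMap F K r) = algebraMap F K r := fun r => by rw [← hσ, AlgHom.commutes]
  obtain ⟨M, hM⟩ : ∃ M : (Fin 3 → K) →ₗ[F] Matrix (Fin 4) (Fin 4) K, ∀ v, M v =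
      alt (v 0) (v 1) (v 2) (C.σ (v 2)) (-C.σ (v 1)) (C.σ (v 0)) := by
    refine ⟨{ toFun := fun v => alt (v 0) (v 1) (v 2) (C.σ (v 2)) (-C.σ (v 1)) (C.σ (v 0)),
              map_add' := fun u v => ?_, map_smul' := fun r v => ?_ }, fun v => rfl⟩
    · ext i j; fin_cases i <;> fin_cases j <;> simp [alt] <;> ring
    · ext i j; fin_cases i <;> fin_cases j <;> simp [alt, Matrix.smul_apply, Algebra.smul_def, hσa]
  obtain ⟨N, hN⟩ : ∃ N : Matrix (Fin 4) (Fin 4) K →ₗ[F] (Fin 3 → K), ∀ X, N X = ![X 0 1, X 0 2, X 0 3] := by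
    refine ⟨{ toFun := fun X => ![X 0 1, X 0 2, X 0 3],
              map_add' := fun u v => ?_, map_smul' := fun r v => ?_ }, fun v => rfl⟩
    · funext k; fin_cases k <;> simp
    · funext k; fin_cases k <;> simp
  have hNM : ∀ v, N (M v) = v := fun v => by
    funext k; fin_cases k <;> simp [hN, hM, alt]
  have hMinj : Function.Injective M := fun u v h => by rw [← hNM u, h, hNM]
  have hdual : ∀ v, dual (M v) = (M v).map C.σ := fun v => by
    ext i j; fin_cases i <;> fin_cases j <;> simp [hM, dual, alt, C.invol]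
  have hunit : ∀ g : Cfsg.SU 4 K (Fintype.card F), (g.1.1).transpose * (g.1.1).map C.σ = 1 := fun g => by
    ext i j
    have h := CfsgLib.UGeom.SU_form g (Pi.single i 1) (Pi.single j 1)
    rw [CfsgLib.UGeom.form_single_right C, CfsgLib.UGeom.form_eq C] at h
    simp only [Matrix.mulVec_single_one, Matrix.col_apply] at h
    simp only [Matrix.mul_apply, Matrix.transpose_apply, Matrix.map_apply]
    rw [h, Matrix.one_apply, Pi.single_apply]
    simp [eq_comm]
  have hskewM : ∀ (g : Matrix (Fin 4) (Fin 4) K) v, (g * M v * g.transpose).transpose = -(g * M v * g.transpose) := fun g v => by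
    have : (M v).transpose = -M v := by
      ext i j; fin_cases i <;> fin_cases j <;> simp [hM, alt]
    rw [Matrix.transpose_mul, Matrix.transpose_mul, Matrix.transpose_transpose, this]
    simp [mul_assoc]
  have hMN : ∀ (g : Cfsg.SU 4 K (Fintype.card F)) v, M (N (g.1.1 * M v * g.1.1.transpose)) = g.1.1 * M v * g.1.1.transpose := fun g v => by
    obtain ⟨X, hX⟩ : ∃ X, g.1.1 * M v * g.1.1.transpose = X := ⟨_, rfl⟩
    have hD : dual X = X.map C.σ := by
      have hu' : (g.1.1).map C.σ * (g.1.1).transpose = 1 := mul_eq_one_comm.1 (hunit g)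
      have hu2 : g.1.1 * ((g.1.1).map C.σ).transpose = 1 := by
        have := congrArg Matrix.transpose hu'
        rwa [Matrix.transpose_mul, Matrix.transpose_transpose, Matrix.transpose_one] at this
      have h := dual_congr g.1.1 (v 0) (v 1) (v 2) (C.σ (v 2)) (-C.σ (v 1)) (C.σ (v 0))
      rw [← hM, g.1.2, one_smul, hX, hdual] at h
      calc dual X = (g.1.1).map C.σ * (g.1.1).transpose * dual X * (g.1.1 * ((g.1.1).map C.σ).transpose) := by
            rw [hu', hu2, one_mul, mul_one]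
        _ = (g.1.1).map C.σ * ((g.1.1).transpose * dual X * g.1.1) * ((g.1.1).map C.σ).transpose := by
            simp only [mul_assoc]
        _ = _ := by rw [h, ← hX, Matrix.map_mul, Matrix.map_mul, Matrix.transpose_map]
    have hskew : X.transpose = -X := hX ▸ hskewM g.1.1 v
    have ha : ∀ i j, X j i = -X i j := fun i j => by simpa using congrFun (congrFun hskew i) j
    have hd0 : ∀ i, X i i = 0 := fun i => by
      rw [← hX]
      fin_cases i <;> simp [hM, alt, Matrix.mul_apply, Matrix.vecMul, dotProduct, Fin.sum_univ_four] <;> ring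
    have d1 := congrFun (congrFun hD 0) 1
    have d2 := congrFun (congrFun hD 0) 2
    have d3 := congrFun (congrFun hD 0) 3
    simp [dual] at d1 d2 d3
    rw [hX, hM, hN]
    ext i j
    fin_cases i <;> fin_cases j <;>
      simp [alt, hd0, ha 0 1, ha 0 2, ha 0 3, ha 1 2, ha 1 3, ha 2 3, d1, d3, ← d2]
  obtain ⟨Q, hQdef⟩ : ∃ Q, CfsgLib.Forms.Unitary.normForm hKF (ι := Fin 3) = Q := ⟨_, rfl⟩
  have hQval : ∀ v, algebraMap F K (Q v) = pf (M v) := fun v => by
    rw [← hQdef, CfsgLib.Forms.Unitary.algebraMap_normForm, Fin.sum_univ_three, hσ, hσ, hσ]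
    simp [hM, pf, alt]
  obtain ⟨ψ, hψ⟩ : ∃ ψ : (Fin 3 → K) ≃ₗ[F] ((Fin 2 ⊕ Fin 2) ⊕ Fin 2 → F), ∀ v, Cfsg.quadFormMinus 2 F a b (ψ v) = Q v := by
    subst hQdef
    let e : (Fin 1 ⊕ Fin 1) ⊕ Fin 1 ≃ Fin 3 := Fintype.equivFinOfCardEq (by simp)
    let L : (Fin 3 → K) ≃ₗ[F] ((Fin 1 ⊕ Fin 1) ⊕ Fin 1 → K) := LinearEquiv.funCongrLeft F K e
    have hdim : Module.finrank F (Fin 3 → K) = 2 * 3 := by
      rw [Module.finrank_pi_fintype]; simp [CfsgLib.Forms.Unitary.finrank_eq hKF]
    obtain ⟨t, ht⟩ := CfsgLib.Forms.Unitary.exists_norm_eq (F := F) hKF (y := (-1 : K)) (by rw [map_neg, map_one]) (neg_ne_zero.2 one_ne_zero)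
    refine CfsgLib.Forms.exists_isometry_minus (m := 3) (by norm_num) hdim (CfsgLib.Forms.Unitary.nondegenerate hKF) ?_ hab
    rintro ⟨S, hS, hSd⟩
    refine CfsgLib.Forms.Unitary.no_singular_half (F := F) (k := 1) (t := t) hKF ht ⟨S.map (L : (Fin 3 → K) →ₗ[F] _), ?_, ?_⟩
    · rintro _ ⟨s, hs, rfl⟩
      exact (CfsgLib.Forms.Unitary.normForm_reindex hKF e s).trans (hS s hs)
    · rw [LinearEquiv.finrank_map_eq]; omega
  let Lm : Matrix (Fin 4) (Fin 4) K → (((Fin 2 ⊕ Fin 2) ⊕ Fin 2 → F) →ₗ[F] ((Fin 2 ⊕ Fin 2) ⊕ Fin 2 → F)) := fun g =>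
    (ψ : (Fin 3 → K) →ₗ[F] _).comp (N.comp ((LinearMap.mulLeft F g).comp ((LinearMap.mulRight F g.transpose).comp (M.comp
      (ψ.symm : _ →ₗ[F] (Fin 3 → K))))))
  have hL : ∀ (g : Cfsg.SU 4 K (Fintype.card F)) v, M (ψ.symm (Lm g.1.1 v)) = g.1.1 * M (ψ.symm v) * g.1.1.transpose := fun g v => by
    simp only [Lm, LinearMap.comp_apply, LinearMap.mulLeft_apply, LinearMap.mulRight_apply, LinearEquiv.coe_coe,
      LinearEquiv.symm_apply_apply]
    rw [← mul_assoc]
    exact hMN g _
  have hMinj' : Function.Injective fun v => M (ψ.symm v) := hMinj.comp ψ.symm.injective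
  let T₀ : Cfsg.SU 4 K (Fintype.card F) →* Matrix ((Fin 2 ⊕ Fin 2) ⊕ Fin 2) ((Fin 2 ⊕ Fin 2) ⊕ Fin 2) F :=
    { toFun := fun g => LinearMap.toMatrix' (Lm g.1.1)
      map_one' := Matrix.ext_of_mulVec_single fun i => by
        rw [LinearMap.toMatrix'_mulVec, Matrix.one_mulVec]
        exact hMinj' (by simp only [hL]; simp)
      map_mul' := fun g h => Matrix.ext_of_mulVec_single fun i => by
        rw [LinearMap.toMatrix'_mulVec, ← Matrix.mulVec_mulVec, LinearMap.toMatrix'_mulVec, LinearMap.toMatrix'_mulVec]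
        exact hMinj' (by simp only [hL]; simp [mul_assoc, Matrix.transpose_mul]) }
  let T : Cfsg.SU 4 K (Fintype.card F) →* Matrix.GeneralLinearGroup ((Fin 2 ⊕ Fin 2) ⊕ Fin 2) F := T₀.toHomUnits
  have hTv : ∀ g v, M (ψ.symm ((T g).1 *ᵥ v)) = g.1.1 * M (ψ.symm v) * g.1.1.transpose := fun g v =>
    (congrArg (fun w => M (ψ.symm w)) (LinearMap.toMatrix'_mulVec _ _)).trans (hL _ _)
  have hH : ∀ g, T g ∈ Cfsg.isometryGroup F (Cfsg.quadFormMinus 2 F a b) := fun g u v => by
    show Cfsg.quadFormMinus 2 F a b ((T g).1 *ᵥ u) = Cfsg.quadFormMinus 2 F a b u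
    rw [← ψ.apply_symm_apply ((T g).1 *ᵥ u), ← ψ.apply_symm_apply u, hψ, hψ, ψ.apply_symm_apply]
    refine (algebraMap F K).injective ?_
    rw [hQval, hQval, hTv, hM, pf_congr, g.1.2, one_mul]
  let Ψ : Cfsg.SU 4 K (Fintype.card F) →* ↥(Cfsg.isometryGroup F (Cfsg.quadFormMinus 2 F a b)) := T.codRestrict _ hH
  have hΩ : ∀ g, Ψ g ∈ Cfsg.Omega F (Cfsg.quadFormMinus 2 F a b) := fun g => by
    have hg : g ∈ commutator (Cfsg.SU 4 K (Fintype.card F)) := by
      rw [CfsgLib.UGeom.commutator_eq_top C (by norm_num) (by simp)]; trivial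
    have := Subgroup.mem_map_of_mem Ψ hg
    rw [commutator_def, Subgroup.map_commutator] at this
    exact Subgroup.commutator_mono le_top le_top this
  let ρ : Cfsg.SU 4 K (Fintype.card F) →* Cfsg.POmega F (Cfsg.quadFormMinus 2 F a b) :=
    (QuotientGroup.mk' _).comp (Ψ.codRestrict _ hΩ)
  have hkerΨ : ∀ g, Ψ g = 1 → ∃ d : K, d * d = 1 ∧ g.1.1 = d • (1 : Matrix (Fin 4) (Fin 4) K) := by
    intro g hg
    have h : ∀ v, g.1.1 * M v * g.1.1.transpose = M v := fun v => by
      have := hTv g (ψ v)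
      rw [show T g = 1 from congrArg Subtype.val hg, Units.val_one, Matrix.one_mulVec, ψ.symm_apply_apply] at this
      exact this.symm
    obtain ⟨c, hc⟩ : ∃ c : K, C.σ c ≠ c := by
      obtain ⟨x, hx⟩ := CfsgLib.Forms.Unitary.exists_frob_ne (F := F) hKF
      exact ⟨x, by rwa [← hσ]⟩
    have hskew : ∀ A B D E' G H : K, g.1.1 * alt A B D E' G H * g.1.1.transpose = alt A B D E' G H := by
      intro A B D E' G H
      have hc0 : C.σ c - c ≠ 0 := sub_ne_zero.2 hc
      have hsol : ∀ X Y : K, ∃ u w : K, u + c * w = X ∧ C.σ u + c * C.σ w = Y := fun X Y => by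
        refine ⟨X - c * C.σ ((Y - C.σ X) / (c - C.σ c)), C.σ ((Y - C.σ X) / (c - C.σ c)), by ring, ?_⟩
        have hc1 : c - C.σ c ≠ 0 := sub_ne_zero.2 (Ne.symm hc)
        rw [map_sub, map_mul, C.invol]
        field_simp
        ring
      obtain ⟨u0, w0, h01, h02⟩ := hsol A H
      obtain ⟨u1, w1, h11, h12⟩ := hsol B (-G)
      obtain ⟨u2, w2, h21, h22⟩ := hsol D E'
      have e : alt A B D E' G H = M ![u0, u1, u2] + c • M ![w0, w1, w2] := by
        have hG : G = -(C.σ u1 + c * C.σ w1) := by rw [h12, neg_neg]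
        rw [hG, ← h01, ← h02, ← h11, ← h21, ← h22]
        ext i j; fin_cases i <;> fin_cases j <;> simp [hM, alt] <;> ring
      rw [e, Matrix.mul_add, Matrix.add_mul, h, Matrix.mul_smul, Matrix.smul_mul, h]
    have hminor : ∀ a b i j : Fin 4, a ≠ b → g.1.1 i a * g.1.1 j b - g.1.1 i b * g.1.1 j a =
        (if i = a ∧ j = b then 1 else 0) - (if i = b ∧ j = a then 1 else 0) := by
      intro a b i j hab
      obtain ⟨v, hv⟩ : ∃ X, X = Matrix.single a b (1 : K) - Matrix.single b a 1 := ⟨_, rfl⟩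
      have e := hskew (v 0 1) (v 0 2) (v 0 3) (v 1 2) (v 1 3) (v 2 3)
      rw [show alt (v 0 1) (v 0 2) (v 0 3) (v 1 2) (v 1 3) (v 2 3) = v by
        subst hv
        ext i j; fin_cases a <;> fin_cases b <;> first
          | exact absurd rfl hab
          | (fin_cases i <;> fin_cases j <;> simp [alt, Matrix.single_apply])] at e
      have e := congrFun (congrFun e i) j
      rw [hv, Matrix.sub_apply, Matrix.single_apply, Matrix.single_apply] at e
      simp only [Matrix.mul_apply, Matrix.transpose_apply, Matrix.sub_apply, Matrix.single_apply, mul_sub, sub_mul,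
        Finset.sum_sub_distrib] at e
      simp only [mul_ite, mul_one, mul_zero, ite_mul, zero_mul, ite_and, Finset.sum_ite_eq, Finset.mem_univ, if_true] at e
      exact e.trans (by simp only [@eq_comm _ a, @eq_comm _ b, ← ite_and])
    have hoff : ∀ i a : Fin 4, i ≠ a → g.1.1 i a = 0 := by
      intro i a hia
      obtain ⟨b, hba, hbi⟩ : ∃ b : Fin 4, b ≠ a ∧ b ≠ i := by revert i a; decide
      have e1 := hminor a b i a hba.symm
      have e2 := hminor a b i b hba.symm
      have e3 := hminor a b a b hba.symm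
      simp [hia, hbi.symm, hba, hba.symm] at e1 e2 e3
      linear_combination g.1.1 a a * e2 - g.1.1 b a * e1 - g.1.1 i a * e3
    have hd : ∀ a b : Fin 4, a ≠ b → g.1.1 a a * g.1.1 b b = 1 := fun a b hab => by
      have e := hminor a b a b hab
      simpa [hoff a b hab, hab, hab.symm] using e
    have heq : ∀ a, g.1.1 a a = g.1.1 0 0 := fun a => by
      obtain ⟨e, hea, he0⟩ : ∃ e : Fin 4, e ≠ a ∧ e ≠ 0 := by revert a; decide
      exact mul_right_cancel₀ (right_ne_zero_of_mul_eq_one (hd a e hea.symm)) ((hd a e hea.symm).trans (hd 0 e he0.symm).symm)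
    refine ⟨g.1.1 0 0, ?_, Matrix.ext fun i j => ?_⟩
    · have := hd 0 1 (by decide)
      rwa [heq 1] at this
    · rcases eq_or_ne i j with rfl | hij
      · simp [heq i]
      · simp [hoff i j hij, hij]
  have hker : ρ.ker ≤ Subgroup.center (Cfsg.SU 4 K (Fintype.card F)) := by
    intro s hs
    have hz := Subgroup.mem_center_iff.1 ((QuotientGroup.eq_one_iff _).1 hs)
    have hcent : Subgroup.centralizer {s} = ⊤ := by
      refine CfsgLib.UGeom.eq_top_of_utv C (by norm_num) (by simp) _ fun w k hw hk => ?_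
      obtain ⟨t, htdef⟩ : ∃ t, CfsgLib.UGeom.utv C w k hw hk = t := ⟨_, rfl⟩
      rw [htdef]
      have e := congrArg Subtype.val (hz ((Ψ.codRestrict _ hΩ) t))
      change Ψ t * Ψ s = Ψ s * Ψ t at e
      obtain ⟨d, hdd, hd⟩ := hkerΨ (s * t * (t * s)⁻¹) (by rw [map_mul, map_inv, map_mul, map_mul, e, mul_inv_cancel])
      have hc' : (s * t).1.1 = d • (t * s).1.1 := by
        rw [show s * t = s * t * (t * s)⁻¹ * (t * s) by group, CfsgLib.UGeom.SU_coe_mul, hd]
        simp
      have hd1 : d = 1 := by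
        have h1 : s.1.1 * t.1.1 * (s⁻¹).1.1 = d • t.1.1 := by
          rw [← CfsgLib.UGeom.SU_coe_mul, hc', CfsgLib.UGeom.SU_coe_mul, Matrix.smul_mul, mul_assoc,
            ← CfsgLib.UGeom.SU_coe_mul, mul_inv_cancel, OneMemClass.coe_one, Matrix.SpecialLinearGroup.coe_one, mul_one]
        have h2' := congrArg Matrix.trace h1
        rw [Matrix.trace_mul_cycle, ← CfsgLib.UGeom.SU_coe_mul, inv_mul_cancel, OneMemClass.coe_one,
          Matrix.SpecialLinearGroup.coe_one, one_mul, Matrix.trace_smul, smul_eq_mul,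
          show t.1.1.trace = 4 by
            rw [← htdef]
            show (Cfsg.unitaryTransvection 4 (Fintype.card F) w k).trace = 4
            simp only [Cfsg.hermForm] at hw
            simp [Cfsg.unitaryTransvection, Matrix.trace, Fin.sum_univ_four, Matrix.one_apply, Matrix.vecMulVec_apply] at hw ⊢
            linear_combination k * hw] at h2'
        rcases mul_self_eq_one_iff.1 hdd with e | e
        · exact e
        · subst e
          by_cases h2 : (2 : K) = 0
          · linear_combination -h2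
          · have h4 : (4 : K) ≠ 0 := by
              rw [show (4 : K) = 2 * 2 by norm_num]; exact mul_ne_zero h2 h2
            exact mul_right_cancel₀ h4 (by linear_combination -h2')
      rw [Subgroup.mem_centralizer_singleton_iff]
      exact (Subtype.ext (Subtype.ext (by rw [hc', hd1, one_smul])) : s * t = t * s).symm
    rw [Subgroup.mem_center_iff]
    intro t
    exact (Subgroup.mem_centralizer_singleton_iff.1 (show t ∈ Subgroup.centralizer {s} by rw [hcent]; trivial))
  have hcard : Nat.card (Cfsg.PSU 4 K (Fintype.card F)) = Nat.card (Cfsg.POmega F (Cfsg.quadFormMinus 2 F a b)) := by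
    have hP := CfsgLib.UGeom.card_PSU C (n := 4) (by norm_num)
    have hQ := CfsgLib.Forms.nondegenerate_quadMinus 2 hab
    have hn : 5 ≤ Fintype.card ((Fin 2 ⊕ Fin 2) ⊕ Fin 2) := by simp
    have key := CfsgLib.OrthOrder.card_POmega_mul (CfsgLib.Forms.quadMinus F 2 a b)
    rw [CfsgLib.OrthOrder.natCard_isometryGroup _ rfl, CfsgLib.OrthOrder.card_isom_minus hab 2] at key
    rw [← CfsgLib.Forms.coe_quadMinus]
    set X := Nat.card (Cfsg.PSU 4 K (Fintype.card F))
    set Y := Nat.card (Cfsg.POmega F ⇑(CfsgLib.Forms.quadMinus F 2 a b))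
    have hq : 2 ≤ Fintype.card F := Fintype.one_lt_card
    simp [Finset.prod_range_succ, Nat.even_iff] at hP key
    set q := Fintype.card F with hqdef
    have hX : Nat.gcd 4 (q + 1) * X = q ^ 6 * (q ^ 3 + 1) * ((q ^ 2 - 1) * (q ^ 4 - 1)) := by
      refine Nat.eq_of_mul_eq_mul_left (show 0 < q + 1 by omega) ?_
      linear_combination hP
    rcases em ((2 : F) = 0) with h2 | h2
    · rw [CfsgLib.Forms.index_Omega_two h2 hQ (Or.inr (by simp)) (by simp),
        CfsgLib.OrthOrder.card_center_char_two h2 hQ hn] at key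
      have hev := FiniteField.even_card_of_char_two (F := F)
        (ringChar.eq_iff.2 (CharTwo.of_one_ne_zero_of_two_eq_zero one_ne_zero h2))
      rw [show Nat.gcd 4 (q + 1) = 1 from
        (Nat.Coprime.pow_left 2 (Nat.coprime_two_left.2 (Nat.odd_iff.2 (by omega))) : Nat.Coprime (2 ^ 2) _)] at hX
      linarith
    · have hodd := CfsgLib.OrthOrder.odd_of_two_ne_zero h2
      rw [CfsgLib.Forms.index_Omega _ h2 hQ (by simp)] at key
      have hiff := CfsgLib.Forms.Simil.negOne_minus (m := 2) hodd hab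
      rcases em (q % 4 = 3) with h4 | h4
      · rw [CfsgLib.OrthOrder.card_center_eq_two h2 hQ hn ⟨_, hiff.2 ⟨by decide, h4⟩, by simp [CfsgLib.Forms.Simil.negOne]⟩] at key
        rw [Nat.gcd_eq_left (Nat.dvd_of_mod_eq_zero (by omega) : 4 ∣ q + 1)] at hX
        linarith
      · rw [CfsgLib.OrthOrder.card_center_eq_one hQ hn (fun ⟨g, hg, he⟩ => h4 (hiff.1 (by
          convert hg using 1
          exact Subtype.ext (Units.ext (by simp [CfsgLib.Forms.Simil.negOne, he])))).2)] at key
        have h1 : q % 4 = 1 := by have := Nat.odd_iff.1 hodd; omega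
        rw [show Nat.gcd 4 (q + 1) = 2 by
          obtain ⟨k, hk⟩ : ∃ k, q + 1 = 4 * k + 2 := ⟨q / 4, by omega⟩
          rw [hk, Nat.gcd_mul_left_add_right]; rfl] at hX
        linarith
  have hidx : ρ.range.index = 1 ∧ ρ.ker = Subgroup.center (Cfsg.SU 4 K (Fintype.card F)) := by
    have h1 : (Subgroup.center (Cfsg.SU 4 K (Fintype.card F))).index = Nat.card (Cfsg.PSU 4 K (Fintype.card F)) := rfl
    have h2 : ρ.ker.index = Nat.card ρ.range := Subgroup.index_ker ρ
    have h3 := Subgroup.relIndex_mul_index hker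
    have h4 := Subgroup.card_mul_index ρ.range
    rw [h1, hcard, h2, ← h4, ← mul_assoc, mul_comm _ (Nat.card ρ.range), mul_assoc] at h3
    have hne : Nat.card ρ.range ≠ 0 := Nat.card_pos.ne'
    have h5 : ρ.ker.relIndex (Subgroup.center (Cfsg.SU 4 K (Fintype.card F))) * ρ.range.index = 1 :=
      mul_left_cancel₀ hne (h3.trans (mul_one _).symm)
    exact ⟨Nat.eq_one_of_mul_eq_one_left h5, le_antisymm hker (Subgroup.relIndex_eq_one.1 (Nat.eq_one_of_mul_eq_one_right h5))⟩
  exact ⟨((QuotientGroup.quotientMulEquivOfEq hidx.2.symm).trans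
    (QuotientGroup.quotientKerEquivOfSurjective ρ (MonoidHom.range_eq_top.1 (Subgroup.index_eq_one.1 hidx.1)))).symm⟩

end Cfsg.Agent.S0303
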