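import Cfsg.Statements.S0323
-- import your own Cfsg.Agent.* helpers here

set_option autoImplicit false
open scoped Pointwise
open Cfsg

namespace Cfsg.Agent.S0323

/-- A doubly transitive action on a set with at least three points yields a (B,N)-pair of rank one:
`B` is the stabiliser of a point `x`, `N` the setwise stabiliser of a pair `{x, y}`. -/
theorem result {G Ω : Type*} [Group G] [MulAction G Ω]
    (h2 : MulAction.IsMultiplyPretransitive G Ω 2) {x y z : Ω} (hxy : x ≠ y) (hyz : y ≠ z) (hxz : x ≠ z) :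
    ∃ P : Cfsg.BNPair G, P.B = MulAction.stabilizer G x ∧
      P.N = MulAction.stabilizer G ({x, y} : Set Ω) ∧ P.rank = 1 := by
  open Pointwise in
  have key : ∀ {a b c d : Ω}, a ≠ b → c ≠ d → ∃ g : G, g • a = c ∧ g • b = d := fun h h' =>
    MulAction.is_two_pretransitive_iff.1 h2 h h'
  obtain ⟨s, hsx, hsy⟩ := key hxy (Ne.symm hxy)
  set B := MulAction.stabilizer G x with hB
  set N := MulAction.stabilizer G ({x, y} : Set Ω) with hN
  have hBmem : ∀ g, g ∈ B ↔ g • x = x := fun g => MulAction.mem_stabilizer_iff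
  have hNmem : ∀ g, g ∈ N ↔ g • ({x, y} : Set Ω) = {x, y} := fun g => MulAction.mem_stabilizer_iff
  have hNel : ∀ g ∈ N, (g • x = x ∧ g • y = y) ∨ (g • x = y ∧ g • y = x) := by
    intro g hg
    have h0 := (hNmem g).1 hg
    have h1 : g • x ∈ ({x, y} : Set Ω) := h0 ▸ Set.smul_mem_smul_set (Set.mem_insert _ _)
    have h3 : g • y ∈ ({x, y} : Set Ω) := h0 ▸ Set.smul_mem_smul_set (Set.mem_insert_of_mem _ rfl)
    simp only [Set.mem_insert_iff, Set.mem_singleton_iff] at h1 h3
    have hne : g • x ≠ g • y := fun h => hxy (MulAction.injective g h)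
    rcases h1 with h1 | h1 <;> rcases h3 with h3 | h3
    · exact absurd (h1.trans h3.symm) hne
    · exact Or.inl ⟨h1, h3⟩
    · exact Or.inr ⟨h1, h3⟩
    · exact absurd (h1.trans h3.symm) hne
  have hsN : s ∈ N := by
    rw [hNmem, Set.smul_set_insert, Set.smul_set_singleton, hsx, hsy, Set.pair_comm]
  have hsB : s ∉ B := fun h => hxy (((hBmem s).1 h).symm.trans hsx)
  have hcov : ∀ g : G, g ∉ B → ∃ a ∈ B, ∃ b ∈ B, g = a * s * b := by
    intro g hg
    obtain ⟨a, hax, hay⟩ := key hxy (Ne.symm ((hBmem g).not.1 hg))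
    refine ⟨a, (hBmem a).2 hax, (a * s)⁻¹ * g, (hBmem _).2 ?_, by group⟩
    rw [mul_smul, inv_smul_eq_iff, mul_smul, hsx, hay]
  have hs2 : s * s ∈ B := by rw [hBmem, mul_smul, hsx, hsy]
  have hdich : ∀ n ∈ N, n ∈ B ∨ s⁻¹ * n ∈ B := by
    intro n hn
    rcases hNel n hn with h | h
    · exact Or.inl ((hBmem n).2 h.1)
    · exact Or.inr ((hBmem _).2 (by rw [mul_smul, inv_smul_eq_iff, hsx, h.1]))
  refine ⟨{
    B := B
    N := N
    S := {s}
    sup_eq_top := ?_
    conj_mem := ?_
    subset := Set.singleton_subset_iff.2 hsN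
    sq_mem := fun t ht => by rw [Set.mem_singleton_iff.1 ht]; exact hs2
    inj := fun t ht t' ht' _ => ht.trans ht'.symm
    closure_sup := ?_
    mul_mem_union := ?_
    conj_ne := ?_ }, rfl, rfl, ?_⟩
  · rw [eq_top_iff]
    intro g _
    by_cases hg : g ∈ B
    · exact Subgroup.mem_sup_left hg
    · obtain ⟨a, ha, b, hb, rfl⟩ := hcov g hg
      exact mul_mem (mul_mem (Subgroup.mem_sup_left ha) (Subgroup.mem_sup_right hsN)) (Subgroup.mem_sup_left hb)
  · intro n hn t ht
    rw [Subgroup.mem_inf] at ht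
    have htx := (hBmem t).1 ht.1
    have hty : t • y = y := by
      rcases hNel t ht.2 with h | h
      · exact h.2
      · exact absurd (htx.symm.trans h.1) hxy
    rw [hBmem, mul_smul, mul_smul, smul_eq_iff_eq_inv_smul]
    rcases hNel n⁻¹ (inv_mem hn) with h | h <;> rw [h.1]
    · exact htx
    · exact hty
  · refine le_antisymm (sup_le ((Subgroup.closure_le _).2 (Set.singleton_subset_iff.2 hsN)) inf_le_right) ?_
    intro n hn
    rcases hdich n hn with h | h
    · exact Subgroup.mem_sup_right ⟨h, hn⟩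
    · rw [← mul_inv_cancel_left s n]
      exact mul_mem (Subgroup.mem_sup_left (Subgroup.subset_closure rfl))
        (Subgroup.mem_sup_right (Subgroup.mem_inf.2 ⟨h, mul_mem (inv_mem hsN) hn⟩))
  · intro t ht n hn b hb
    obtain rfl := Set.mem_singleton_iff.1 ht
    simp only [Set.mem_union, DoubleCoset.mem_doubleCoset]
    rcases hdich n hn with h | h
    · exact Or.inl ⟨1, one_mem _, (t * n)⁻¹ * (t * (b * n)), by
        rw [show (t * n)⁻¹ * (t * (b * n)) = n⁻¹ * b * n from by group]
        exact mul_mem (mul_mem (inv_mem h) hb) h, by group⟩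
    · by_cases hg : t * b * n ∈ B
      · refine Or.inl ⟨t * b * n * (t * n)⁻¹, mul_mem hg (inv_mem ?_), 1, one_mem _, by group⟩
        rw [show t * n = t * t * (t⁻¹ * n) from by group]
        exact mul_mem hs2 h
      · obtain ⟨a, ha, c, hc, he⟩ := hcov _ hg
        refine Or.inr ⟨a, ha, (t⁻¹ * n)⁻¹ * c, mul_mem (inv_mem h) hc, ?_⟩
        rw [he]; group
  · intro t ht heq
    obtain rfl := Set.mem_singleton_iff.1 ht
    obtain ⟨b, hbx, hby⟩ := key hxy hxz
    have : t * b * t ∈ B := by
      rw [← SetLike.mem_coe, ← heq]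
      exact ⟨b, (hBmem b).2 hbx, rfl⟩
    rw [hBmem, mul_smul, mul_smul, hsx, hby] at this
    exact hyz (MulAction.injective t (hsy.trans this.symm))
  · show Nat.card ({s} : Set G) = 1
    simp

end Cfsg.Agent.S0323
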