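import Cfsg.Statements.S0436
import Cfsg.Agent.ThreeTrans.Basic

set_option autoImplicit false
open Cfsg

namespace Cfsg.Agent.S0436

/-- For distinct commuting members a, b of a set of 3-transpositions E, a member e of E centralises the product a * b if and only if it centralises both a and b. -/
theorem result {G : Type*} [Group G] {E : Set G} (hE : Cfsg.IsThreeTranspositionSet E) {a b e : G} (ha : a ∈ E) (hb : b ∈ E) (he : e ∈ E) (hab : a ≠ b) (hcomm : Commute a b) : Commute e (a * b) ↔ (Commute e a ∧ Commute e b) := by
  refine ⟨fun h => ?_, fun h => h.1.mul_right h.2⟩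
  have key : ∀ a b : G, a ∈ E → b ∈ E → Commute a b → a ≠ b → Commute e (a * b) → Commute e a := by
    intro a b ha hb hc hne hab'
    by_contra hea
    have he2 := CfsgLib.ThreeTrans.mul_self hE he
    have hprod : (e * a * e) * (e * b * e) = a * b := by
      calc (e * a * e) * (e * b * e) = e * a * (e * e) * b * e := by group
        _ = (e * (a * b)) * e := by rw [he2]; group
        _ = a * b := by rw [hab'.eq, mul_assoc, he2, mul_one]
    by_cases heb : Commute e b
    · have h1 : e * b * e = b := by rw [heb.eq, mul_assoc, he2, mul_one]
      rw [h1] at hprod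
      have h2 : e * a * e = a := mul_right_cancel hprod
      exact hea (show e * a = a * e by
        calc e * a = (e * a * e) * e := by rw [mul_assoc _ e e, he2, mul_one]
          _ = a * e := by rw [h2])
    · rw [CfsgLib.ThreeTrans.braid hE he ha hea, CfsgLib.ThreeTrans.braid hE he hb heb] at hprod
      have hb2 := CfsgLib.ThreeTrans.mul_self hE hb
      have h1 : a * (e * (a * b) * e) * b = a * b := by
        conv_rhs => rw [← hprod]
        group
      rw [hab'.eq, mul_assoc (a * b), he2, mul_one] at h1
      have h2 : a * b = 1 := by
        have h3 : a * (a * b) * b = a * b := h1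
        rw [← mul_assoc a a, CfsgLib.ThreeTrans.mul_self hE ha, one_mul, hb2] at h3
        exact h3.symm
      exact hne (by rw [mul_eq_one_iff_eq_inv, CfsgLib.ThreeTrans.inv_eq hE hb] at h2; exact h2)
  exact ⟨key a b ha hb hcomm hab h, key b a hb ha hcomm.symm (Ne.symm hab) (hcomm.eq ▸ h)⟩


end Cfsg.Agent.S0436
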