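import Cfsg.Statements.S0437
import Cfsg.Agent.S0436
import Cfsg.Agent.ThreeTrans.Basic

set_option autoImplicit false
open Cfsg

namespace Cfsg.Agent.S0437

/-- For three distinct, pairwise commuting members a, b, c of a set of 3-transpositions E, a member e of E centralises a * b * c if and only if it centralises each of a, b and c. -/
theorem result {G : Type*} [Group G] {E : Set G} (hE : Cfsg.IsThreeTranspositionSet E) {a b c e : G} (ha : a ∈ E) (hb : b ∈ E) (hc : c ∈ E) (he : e ∈ E) (hab : a ≠ b) (hac : a ≠ c) (hbc : b ≠ c) (h₁ : Commute a b) (h₂ : Commute a c) (h₃ : Commute b c) : Commute e (a * b * c) ↔ (Commute e a ∧ Commute e b ∧ Commute e c) := by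
  refine ⟨fun h => ?_, fun h => (h.1.mul_right h.2.1).mul_right h.2.2⟩
  have he2 := CfsgLib.ThreeTrans.mul_self hE he
  have hconj : ∀ x y : G, e * (x * y) * e = (e * x * e) * (e * y * e) := fun x y => by
    calc e * (x * y) * e = e * x * (1 * y) * e := by group
      _ = e * x * ((e * e) * y) * e := by rw [he2]
      _ = _ := by group
  have hfix : ∀ x : G, Commute e x ↔ e * x * e = x := fun x => by
    constructor
    · intro hx; rw [hx.eq, mul_assoc, he2, mul_one]
    · intro hx
      show e * x = x * e
      calc e * x = (e * x * e) * e := by rw [mul_assoc _ e e, he2, mul_one]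
        _ = x * e := by rw [hx]
  have h' : (e * a * e) * (e * b * e) * (e * c * e) = a * b * c := by
    rw [← hconj, ← hconj]; exact (hfix _).1 h
  have two : ∀ x y : G, x ∈ E → y ∈ E → x ≠ y → Commute x y → (e * x * e) * (e * y * e) = x * y →
      Commute e x ∧ Commute e y := fun x y hx hy hne hxy hh =>
    (Cfsg.Agent.S0436.result hE hx hy he hne hxy).1 ((hfix _).2 (by rw [hconj]; exact hh))
  by_cases hea : Commute e a
  · rw [(hfix a).1 hea, mul_assoc, mul_assoc a] at h'
    exact ⟨hea, two b c hb hc hbc h₃ (mul_left_cancel h')⟩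
  by_cases hec : Commute e c
  · rw [(hfix c).1 hec] at h'
    obtain ⟨h1, h2⟩ := two a b ha hb hab h₁ (mul_right_cancel h')
    exact ⟨h1, h2, hec⟩
  by_cases heb : Commute e b
  · rw [(hfix b).1 heb] at h'
    have hbz : Commute b (e * c * e) := by
      have h1 : e * b * e = b := (hfix b).1 heb
      show b * (e * c * e) = e * c * e * b
      calc b * (e * c * e) = (e * b * e) * (e * c * e) := by rw [h1]
        _ = e * (c * b) * e := by rw [← hconj, h₃.eq]
        _ = e * c * e * b := by rw [hconj, h1]
    rw [mul_assoc, hbz.eq, ← mul_assoc, mul_assoc a b c, h₃.eq, ← mul_assoc a c b] at h'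
    obtain ⟨h1, h2⟩ := two a c ha hc hac h₂ (mul_right_cancel h')
    exact ⟨h1, heb, h2⟩
  exfalso
  rw [CfsgLib.ThreeTrans.braid hE he ha hea, CfsgLib.ThreeTrans.braid hE he hb heb,
    CfsgLib.ThreeTrans.braid hE he hc hec] at h'
  have ha2 := CfsgLib.ThreeTrans.mul_self hE ha
  have hb2 := CfsgLib.ThreeTrans.mul_self hE hb
  have hc2 := CfsgLib.ThreeTrans.mul_self hE hc
  have hbeb := CfsgLib.ThreeTrans.braid hE he hb heb
  -- e (a b) e (b c) e = b
  have h1 : e * a * b * e * b * c * e = b := by
    have h0 : a * (e * a * b * e * b * c * e) * c = a * b * c := by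
      conv_rhs => rw [← h']
      group
    exact mul_left_cancel (mul_right_cancel h0)
  have h2 : a * b * e * b * c = b * e * b := by
    rw [← hbeb]
    calc a * b * e * b * c = (e * e) * (a * b * e * b * c) * (e * e) := by rw [he2]; group
      _ = e * (e * a * b * e * b * c * e) * e := by group
      _ = e * b * e := by rw [h1]
  have h3 : c = (b * a) * e * (b * a)⁻¹ := by
    have hba : b * a * b = a := by rw [← h₁.eq, mul_assoc, hb2, mul_one]
    calc c = (b * e * b * a) * (a * b * e * b * c) := by
          symm
          calc (b * e * b * a) * (a * b * e * b * c) = b * e * b * (a * a) * b * e * b * c := by group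
            _ = b * e * (b * b) * e * b * c := by rw [ha2]; group
            _ = b * (e * e) * b * c := by rw [hb2]; group
            _ = (b * b) * c := by rw [he2]; group
            _ = c := by rw [hb2, one_mul]
      _ = b * e * (b * a * b) * e * b := by rw [h2]; group
      _ = b * (e * a * e) * b := by rw [hba]; group
      _ = b * (a * e * a) * b := by rw [CfsgLib.ThreeTrans.braid hE he ha hea]
      _ = (b * a) * e * (b * a)⁻¹ := by
        rw [mul_inv_rev, CfsgLib.ThreeTrans.inv_eq hE ha, CfsgLib.ThreeTrans.inv_eq hE hb]; group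
  have hc4 : Commute c (b * a) := h₃.symm.mul_right h₂.symm
  have h5 : e = c := by
    have h6 : (b * a)⁻¹ * c * (b * a) = e := by rw [h3]; group
    rw [mul_assoc, hc4.eq, inv_mul_cancel_left] at h6
    exact h6.symm
  exact hea (h5 ▸ h₂.symm)


end Cfsg.Agent.S0437
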