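import Mathlib
-- Copy to Cfsg/Agent/S0891.lean and replace the sorry. The statement below is byte-identical to the frozen
-- statement Cfsg.CfsgFrozen.S0891 (Cfsg/Statements/S0891.lean; the theorem Cfsg.alternating_group_double_cover_exists);
-- the grader kernel-checks Cfsg.Agent.S0891.result against that frozen type. Keep the theorem IN THIS FILE
-- (a `result` declared elsewhere and merely imported here is not credited); helpers may live anywhere
-- under Cfsg/Agent/.
import Cfsg.Statements.S0891
-- import your own Cfsg.Agent.* helpers here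

set_option autoImplicit false
open Cfsg
open scoped commutatorElement

namespace Cfsg.Agent.S0891


abbrev M (n : ℕ) := Matrix (Finset (Fin n)) (Finset (Fin n)) (ZMod 3)

def sgn {n : ℕ} (p : Fin n → Prop) [DecidablePred p] (S : Finset (Fin n)) : ZMod 3 := (-1) ^ (S.filter p).card

theorem sgn_sq {n : ℕ} (p : Fin n → Prop) [DecidablePred p] (S : Finset (Fin n)) : sgn p S * sgn p S = 1 := by
  rw [sgn, ← mul_pow]; simp

theorem eq_zero_of_eq_neg : ∀ a : ZMod 3, a = -a → a = 0 := by decide

theorem sgn_flip {n : ℕ} (p : Fin n → Prop) [DecidablePred p] (S : Finset (Fin n)) (j : Fin n) :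
    sgn p (symmDiff S {j}) = if p j then -sgn p S else sgn p S := by
  by_cases hp : p j
  · rw [if_pos hp]
    by_cases hj : j ∈ S
    · have h1 : (symmDiff S {j}).filter p = (S.filter p).erase j := by
        ext x; by_cases hx : x = j
        · subst hx; simp [Finset.mem_symmDiff, hj, hp]
        · simp [Finset.mem_symmDiff, hx]
      have h2 := Finset.card_erase_add_one (Finset.mem_filter.2 ⟨hj, hp⟩ : j ∈ S.filter p)
      rw [sgn, sgn, h1, ← h2, pow_succ]; ring
    · have h1 : (symmDiff S {j}).filter p = insert j (S.filter p) := by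
        ext x; by_cases hx : x = j
        · subst hx; simp [Finset.mem_symmDiff, hj, hp]
        · simp [Finset.mem_symmDiff, hx]
      rw [sgn, sgn, h1, Finset.card_insert_of_notMem (by simp [hj]), pow_succ]; ring
  · rw [if_neg hp]
    have h1 : (symmDiff S {j}).filter p = S.filter p := by
      ext x; by_cases hx : x = j
      · subst hx; simp [hp]
      · simp [Finset.mem_symmDiff, hx]
    rw [sgn, sgn, h1]

def op {n : ℕ} (f : Finset (Fin n) → ZMod 3) (i : Fin n) : M n :=
  Matrix.of fun S T => if T = symmDiff S {i} then f S else 0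

def el {n : ℕ} (i : Fin n) : M n := op (sgn (· < i)) i
def er {n : ℕ} (i : Fin n) : M n := op (sgn (i < ·)) i
def par (n : ℕ) : M n := Matrix.diagonal (sgn fun _ => True)

theorem op_mul {n : ℕ} (f : Finset (Fin n) → ZMod 3) (i : Fin n) (N : M n) (S T : Finset (Fin n)) :
    (op f i * N) S T = f S * N (symmDiff S {i}) T := by
  simp [op, Matrix.mul_apply]

theorem symm_flip_comm {n : ℕ} (S : Finset (Fin n)) (i j : Fin n) :
    symmDiff (symmDiff S {i}) {j} = symmDiff (symmDiff S {j}) {i} := by
  rw [symmDiff_right_comm]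

theorem el_sq {n : ℕ} (i : Fin n) : el i * el i = 1 := by
  ext S T
  rw [el, op_mul]
  simp only [op, Matrix.of_apply, symmDiff_symmDiff_cancel_right, sgn_flip, lt_irrefl, if_false]
  by_cases h : S = T
  · subst h; simp [sgn_sq]
  · simp [h, Ne.symm h]

theorem el_anti {n : ℕ} {i j : Fin n} (h : i ≠ j) : el i * el j = -(el j * el i) := by
  ext S T
  rw [Matrix.neg_apply, el, el, op_mul, op_mul]
  simp only [op, Matrix.of_apply, sgn_flip, symm_flip_comm S i j]
  rcases lt_or_gt_of_ne h with h' | h' <;> simp [h', not_lt_of_gt h'] <;> split_ifs <;> ring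

theorem el_er {n : ℕ} (i j : Fin n) : el i * er j = er j * el i := by
  ext S T
  rw [el, er, op_mul, op_mul]
  simp only [op, Matrix.of_apply, sgn_flip, symm_flip_comm S i j]
  by_cases h' : j < i <;> simp [h'] <;> split_ifs <;> ring

theorem el_par {n : ℕ} (i : Fin n) : el i * par n = -(par n * el i) := by
  ext S T
  rw [el, op_mul, Matrix.neg_apply, par, Matrix.diagonal_mul, Matrix.diagonal_apply]
  simp only [op, Matrix.of_apply]
  by_cases h : T = symmDiff S {i}
  · subst h; simp [sgn_flip]; ring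
  · simp [h, Ne.symm h]

theorem el_injective {n : ℕ} : Function.Injective (el (n := n)) := by
  intro i j h
  have h' := congrFun (congrFun h ∅) {i}
  simp only [el, op, Matrix.of_apply, symmDiff_def, Finset.sup_eq_union] at h'
  by_contra hij
  simp [sgn, hij] at h'

theorem sgn_prod {n : ℕ} (i : Fin n) (S : Finset (Fin n)) :
    sgn (fun _ => True) S * (sgn (· < i) S * sgn (i < ·) S) = if i ∈ S then -1 else 1 := by
  induction S using Finset.induction with
  | empty => simp [sgn]
  | insert a S ha ih =>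
    have hi : insert a S = symmDiff S {a} := by
      ext x; by_cases hx : x = a
      · subst hx; simp [Finset.mem_symmDiff, ha]
      · simp [Finset.mem_symmDiff, hx]
    rw [hi, sgn_flip, sgn_flip, sgn_flip, ← hi]
    rcases lt_trichotomy a i with h | h | h
    · simp [h, not_lt_of_gt h, h.ne'] ; split_ifs at ih ⊢ <;> linear_combination ih
    · subst h; simp [ha] at ih ⊢; linear_combination ih
    · simp [h, not_lt_of_gt h, h.ne]; split_ifs at ih ⊢ <;> linear_combination ih

theorem scalar_of_commute {n : ℕ} (x : M n) (hP : x * par n = par n * x) (hE' : ∀ j, x * er j = er j * x)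
    (hE : ∀ j, x * el j = el j * x) : x = x ∅ ∅ • (1 : M n) := by
  have hD : ∀ i : Fin n, par n * el i * er i = Matrix.diagonal fun S => if i ∈ S then -1 else 1 := fun i => by
    ext S T
    rw [Matrix.mul_assoc, par, Matrix.diagonal_mul, el, op_mul, er]
    simp only [op, Matrix.of_apply, sgn_flip, lt_irrefl, if_false, symmDiff_symmDiff_cancel_right]
    by_cases h : S = T
    · subst h; simpa using sgn_prod i S
    · simp [h, Ne.symm h]
  have hoff : ∀ S T, S ≠ T → x S T = 0 := by
    intro S T hST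
    obtain ⟨i, hi⟩ : ∃ i, ¬(i ∈ S ↔ i ∈ T) := by
      by_contra hc; push_neg at hc; exact hST (Finset.ext hc)
    have e : x * (par n * el i * er i) = (par n * el i * er i) * x := by
      rw [← mul_assoc, ← mul_assoc, hP, mul_assoc (par n) x, hE, ← mul_assoc, mul_assoc (par n * el i) x, hE', ← mul_assoc]
    rw [hD] at e
    have e' := congrFun (congrFun e S) T
    rw [Matrix.mul_diagonal, Matrix.diagonal_mul] at e'
    by_cases h1 : i ∈ S <;> by_cases h2 : i ∈ T <;> simp [h1, h2] at hi e'
    · exact eq_zero_of_eq_neg _ e'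
    · exact eq_zero_of_eq_neg _ e'.symm
  have hdiag : ∀ S, x S S = x ∅ ∅ := by
    intro S
    induction S using Finset.induction with
    | empty => rfl
    | insert a S ha ih =>
      have hi : insert a S = symmDiff S {a} := by
        ext x; by_cases hx : x = a
        · subst hx; simp [Finset.mem_symmDiff, ha]
        · simp [Finset.mem_symmDiff, hx]
      have e := congrFun (congrFun (hE a) S) (symmDiff S {a})
      rw [show (el a * x) S (symmDiff S {a}) = sgn (· < a) S * x (symmDiff S {a}) (symmDiff S {a}) from op_mul _ _ _ _ _,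
        Matrix.mul_apply, Finset.sum_eq_single S (fun b _ hb => by rw [hoff S b (Ne.symm hb), zero_mul]) (by simp)] at e
      simp only [el, op, Matrix.of_apply, if_true] at e
      rw [hi, ← ih]
      linear_combination (-sgn (· < a) S) * e - (x (symmDiff S {a}) (symmDiff S {a}) - x S S) * sgn_sq (· < a) S
  ext S T
  by_cases h : S = T
  · subst h; simp [hdiag]
  · simp [h, hoff S T h]

/-- signed transpositions -/
def rt {n : ℕ} (i j : Fin n) : M n := el i - el j

theorem rt_sq {n : ℕ} {i j : Fin n} (h : i ≠ j) : rt i j * -rt i j = 1 := by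
  simp only [rt, neg_sub, mul_sub, sub_mul, el_sq, el_anti h]
  ext S T
  simp only [Matrix.sub_apply, Matrix.neg_apply, Matrix.one_apply]
  split_ifs
  · generalize (el j * el i) S T = a; revert a; decide
  · ring

theorem rt_par {n : ℕ} (i j : Fin n) : rt i j * par n = -(par n * rt i j) := by
  simp only [rt, sub_mul, mul_sub, el_par]; abel

theorem rt_er {n : ℕ} (i j k : Fin n) : rt i j * er k = er k * rt i j := by
  simp only [rt, sub_mul, mul_sub, el_er]

theorem rt_el {n : ℕ} {i j : Fin n} (h : i ≠ j) (k : Fin n) :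
    rt i j * el k = -(el (Equiv.swap i j k) * rt i j) := by
  by_cases hi : k = i
  · subst hi; simp only [rt, Equiv.swap_apply_left, sub_mul, mul_sub, el_sq]; abel
  by_cases hj : k = j
  · subst hj; simp only [rt, Equiv.swap_apply_right, sub_mul, mul_sub, el_sq]; abel
  simp only [rt, Equiv.swap_apply_of_ne_of_ne hi hj, sub_mul, mul_sub, el_anti (Ne.symm hi), el_anti (Ne.symm hj)]; abel

/-- elements of the cover -/
def cov (n : ℕ) : Subgroup (M n)ˣ where
  carrier := {x | Commute x.1 (par n) ∧ (∀ j, Commute x.1 (er j)) ∧ ∃ σ : Equiv.Perm (Fin n), ∀ i, x.1 * el i = el (σ i) * x.1}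
  one_mem' := ⟨Commute.one_left _, fun _ => Commute.one_left _, 1, fun i => by simp⟩
  mul_mem' := by
    rintro x y ⟨h1, h2, s, h3⟩ ⟨k1, k2, t, k3⟩
    refine ⟨h1.mul_left k1, fun j => (h2 j).mul_left (k2 j), s * t, fun i => ?_⟩
    rw [Units.val_mul, mul_assoc, k3, ← mul_assoc, h3, mul_assoc]; rfl
  inv_mem' := by
    rintro x ⟨h1, h2, s, h3⟩
    refine ⟨h1.units_inv_left, fun j => (h2 j).units_inv_left, s⁻¹, fun i => ?_⟩
    have := h3 (s⁻¹ i)
    rw [show s (s⁻¹ i) = i from s.apply_symm_apply i] at this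
    rw [Units.inv_mul_eq_iff_eq_mul, ← mul_assoc, this, mul_assoc, Units.mul_inv, mul_one]

theorem cov_unique {n : ℕ} {x : (M n)ˣ} {s t : Equiv.Perm (Fin n)} (hs : ∀ i, x.1 * el i = el (s i) * x.1)
    (ht : ∀ i, x.1 * el i = el (t i) * x.1) : s = t :=
  Equiv.ext fun i => el_injective ((Units.mul_left_inj x).1 ((hs i).symm.trans (ht i)))

noncomputable def proj (n : ℕ) : cov n →* Equiv.Perm (Fin n) :=
  MonoidHom.mk' (fun x => x.2.2.2.choose) fun x y => by
    refine cov_unique (x := (x * y).1) ((x * y).2.2.2.choose_spec) fun i => ?_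
    rw [Subgroup.coe_mul, Units.val_mul, mul_assoc, y.2.2.2.choose_spec, ← mul_assoc, x.2.2.2.choose_spec, mul_assoc]
    rfl

theorem proj_eq {n : ℕ} (x : cov n) {s : Equiv.Perm (Fin n)} (hs : ∀ i, x.1.1 * el i = el (s i) * x.1.1) :
    proj n x = s :=
  cov_unique x.2.2.2.choose_spec hs

theorem proj_spec {n : ℕ} (x : cov n) (i : Fin n) : x.1.1 * el i = el (proj n x i) * x.1.1 :=
  x.2.2.2.choose_spec i

theorem exists_pair {n : ℕ} {a b c d : Fin n} (h : a ≠ b) (h' : c ≠ d) :
    ∃ x : cov n, x.1.1 = rt a b * rt c d ∧ proj n x = Equiv.swap a b * Equiv.swap c d := by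
  have k : ∀ i j : Fin n, i ≠ j → -rt i j * rt i j = 1 := fun i j hij => by rw [neg_mul, ← mul_neg, rt_sq hij]
  let u : (M n)ˣ := (⟨_, _, rt_sq h, k a b h⟩ : (M n)ˣ) * ⟨_, _, rt_sq h', k c d h'⟩
  have hu : u.1 = rt a b * rt c d := rfl
  have he : ∀ i, u.1 * el i = el ((Equiv.swap a b * Equiv.swap c d) i) * u.1 := fun i => by
    rw [hu, mul_assoc, rt_el h', mul_neg, ← mul_assoc, rt_el h, neg_mul, neg_neg, mul_assoc]; rfl
  have hP : Commute u.1 (par n) := by
    show u.1 * par n = par n * u.1
    rw [hu, mul_assoc, rt_par, mul_neg, ← mul_assoc, rt_par, neg_mul, neg_neg, mul_assoc]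
  have hR : ∀ j, Commute u.1 (er j) := fun j => (show Commute (rt a b) (er j) from rt_er a b j).mul_left (rt_er c d j)
  exact ⟨⟨u, hP, hR, _, he⟩, hu, proj_eq _ he⟩

/-- For every n ≥ 4 there are a finite group Γ and a central element z of Γ of order 2 lying in the commutator subgroup of Γ such that the quotient of Γ by the (normal) subgroup generated by z is isomorphic to the alternating group on n letters. -/
theorem result (n : ℕ) (hn : 4 ≤ n) : ∃ (Γ : Type) (_ : Group Γ) (_ : Finite Γ) (z : Γ) (hz : z ∈ Subgroup.center Γ), orderOf z = 2 ∧ z ∈ commutator Γ ∧ ∃ _ : (Subgroup.zpowers z).Normal, Nonempty (Γ ⧸ Subgroup.zpowers z ≃* alternatingGroup (Fin n)) := by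
  have hneg : ∀ i : Fin n, (-1 : (M n)ˣ).1 * el i = el ((1 : Equiv.Perm (Fin n)) i) * (-1 : (M n)ˣ).1 := fun i => by simp
  let z₀ : cov n := ⟨-1, by
    refine ⟨?_, fun j => ?_, 1, hneg⟩ <;> simp⟩
  have hz₀ : proj n z₀ = 1 := proj_eq _ hneg
  let Γ : Subgroup (cov n) := (alternatingGroup (Fin n)).comap (proj n)
  let ψ : Γ →* alternatingGroup (Fin n) := ((proj n).comp Γ.subtype).codRestrict _ fun x => x.2
  let z : Γ := ⟨z₀, show proj n z₀ ∈ alternatingGroup (Fin n) by rw [hz₀]; exact one_mem _⟩
  have hzv : z.1.1.1 = -1 := rfl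
  have hext : ∀ {x y : Γ}, x.1.1.1 = y.1.1.1 → x = y := fun h => Subtype.ext (Subtype.ext (Units.ext h))
  have hzc : ∀ g : Γ, g * z = z * g := fun g => hext (by
    show g.1.1.1 * z.1.1.1 = z.1.1.1 * g.1.1.1
    rw [hzv]; simp)
  have hz : z ∈ Subgroup.center Γ := Subgroup.mem_center_iff.2 hzc
  have hz1 : z ≠ 1 := fun h => by
    have := congrFun (congrFun (congrArg (fun x : Γ => x.1.1.1) h) ∅) ∅
    simp [hzv] at this
    exact absurd this (by decide)
  have hz2 : z ^ 2 = 1 := hext (by
    rw [pow_two]; show z.1.1.1 * z.1.1.1 = 1; rw [hzv]; simp)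
  have hsurj : Function.Surjective ψ := by
    have key : ∀ g : Equiv.Perm (Fin n), (Equiv.Perm.sign g = 1 → g ∈ (proj n).range) ∧
        (Equiv.Perm.sign g = -1 → ∀ a b, a ≠ b → Equiv.swap a b * g ∈ (proj n).range) := by
      intro g
      induction g using Equiv.Perm.swap_induction_on with
      | one => exact ⟨fun _ => one_mem _, fun h => absurd h (by simp)⟩
      | swap_mul g x y hxy ih =>
        rw [map_mul, Equiv.Perm.sign_swap hxy]
        constructor
        · intro h; exact ih.2 (by simpa [neg_eq_iff_eq_neg] using h) x y hxy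
        · intro h a b hab
          obtain ⟨u, -, hu⟩ := exists_pair hab hxy
          rw [← mul_assoc]
          exact mul_mem ⟨u, hu⟩ (ih.1 (by simpa using h))
    intro g
    obtain ⟨x, hx⟩ := (key g.1).1 (Equiv.Perm.mem_alternatingGroup.1 g.2)
    exact ⟨⟨x, show proj n x ∈ alternatingGroup (Fin n) by rw [hx]; exact g.2⟩, Subtype.ext hx⟩
  have hker : ψ.ker = Subgroup.zpowers z := by
    apply le_antisymm
    · intro x hx
      have hp : proj n x.1 = 1 := congrArg Subtype.val (MonoidHom.mem_ker.1 hx)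
      have e := scalar_of_commute x.1.1.1 x.1.2.1 (fun j => x.1.2.2.1 j) (fun j => by simpa [hp] using proj_spec x.1 j)
      obtain ⟨c, hc⟩ : ∃ c, x.1.1.1 ∅ ∅ = c := ⟨_, rfl⟩
      rw [hc] at e
      rcases ((show ∀ c : ZMod 3, c = 0 ∨ c = 1 ∨ c = -1 by decide) c) with rfl | rfl | rfl
      · rw [zero_smul] at e
        have := congrFun (congrFun (x.1.1.mul_inv) ∅) ∅
        simp [e] at this
      · rw [show x = 1 from hext (by rw [e, one_smul]; rfl)]; exact one_mem _
      · rw [show x = z from hext (by rw [e, hzv, neg_one_smul])]; exact Subgroup.mem_zpowers z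
    · rw [Subgroup.zpowers_le]
      exact Subtype.ext hz₀
  have hcomm : z ∈ commutator Γ := by
    obtain ⟨i, hi⟩ : ∃ i : Fin 4 → Fin n, Function.Injective i := ⟨Fin.castLE hn, Fin.castLE_injective hn⟩
    have hne : ∀ {p q}, p ≠ q → i p ≠ i q := fun h => hi.ne h
    obtain ⟨a, ha, ha'⟩ := exists_pair (hne (show (0 : Fin 4) ≠ 1 by decide)) (hne (show (2 : Fin 4) ≠ 3 by decide))
    obtain ⟨b, hb, hb'⟩ := exists_pair (hne (show (0 : Fin 4) ≠ 2 by decide)) (hne (show (1 : Fin 4) ≠ 3 by decide))
    have memA : ∀ {p q r s}, p ≠ q → r ≠ s → Equiv.swap (i p) (i q) * Equiv.swap (i r) (i s) ∈ alternatingGroup (Fin n) :=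
      fun h h' => by
        rw [Equiv.Perm.mem_alternatingGroup, map_mul, Equiv.Perm.sign_swap (hne h), Equiv.Perm.sign_swap (hne h')]; simp
    let A : Γ := ⟨a, show proj n a ∈ _ by rw [ha']; exact memA (by decide) (by decide)⟩
    let B : Γ := ⟨b, show proj n b ∈ _ by rw [hb']; exact memA (by decide) (by decide)⟩
    have hab : a.1.1 * b.1.1 = -(b.1.1 * a.1.1) := by
      have e : ∀ k, a.1.1 * el k = el ((Equiv.swap (i 0) (i 1) * Equiv.swap (i 2) (i 3)) k) * a.1.1 := fun k => by
        rw [← ha']; exact proj_spec a k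
      have e0 := e (i 0); have e1 := e (i 1); have e2 := e (i 2); have e3 := e (i 3)
      have w : ∀ {p q}, p ≠ q → el (i p) * el (i q) = -(el (i q) * el (i p)) := fun h => el_anti (hne h)
      simp [Equiv.Perm.mul_apply, Equiv.swap_apply_def, hi.eq_iff] at e0 e1 e2 e3
      have f1 : a.1.1 * rt (i 0) (i 2) = rt (i 1) (i 3) * a.1.1 := by simp [rt, mul_sub, sub_mul, e0, e2]
      have f2 : a.1.1 * rt (i 1) (i 3) = rt (i 0) (i 2) * a.1.1 := by simp [rt, mul_sub, sub_mul, e1, e3]
      have f3 : rt (i 1) (i 3) * rt (i 0) (i 2) = -(rt (i 0) (i 2) * rt (i 1) (i 3)) := by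
        simp only [rt, mul_sub, sub_mul, w (show (1 : Fin 4) ≠ 0 by decide), w (show (1 : Fin 4) ≠ 2 by decide),
          w (show (3 : Fin 4) ≠ 0 by decide), w (show (3 : Fin 4) ≠ 2 by decide)]
        abel
      rw [hb, ← mul_assoc, f1, mul_assoc, f2, ← mul_assoc, f3, neg_mul]
    have : z = ⁅A, B⁆ := by
      rw [commutatorElement_def, eq_mul_inv_iff_mul_eq, eq_mul_inv_iff_mul_eq]
      refine hext ?_
      show z.1.1.1 * b.1.1 * a.1.1 = a.1.1 * b.1.1
      rw [hzv, hab]; simp
    rw [this, commutator_def]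
    exact Subgroup.commutator_mem_commutator (Subgroup.mem_top _) (Subgroup.mem_top _)
  have hN : (Subgroup.zpowers z).Normal := hker ▸ ψ.normal_ker
  refine ⟨Γ, inferInstance, inferInstance, z, hz, orderOf_eq_prime hz2 hz1, hcomm, hN, ⟨?_⟩⟩
  exact (QuotientGroup.quotientMulEquivOfEq hker.symm).trans (QuotientGroup.quotientKerEquivOfSurjective ψ hsurj)

end Cfsg.Agent.S0891
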