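import Cfsg.Statements.S0447
import Cfsg.Agent.S0891
import Cfsg.Agent.Invol.Dihedral
-- import your own Cfsg.Agent.* helpers here

set_option autoImplicit false
open Cfsg

namespace Cfsg.Agent.S0447

open scoped commutatorElement
open Cfsg.Agent.S0891

theorem index_two_closure_pair {K : Type*} [Group K] {a b : K} (ha : a * a = 1) (hb : b * b = 1)
    (hna : a ∉ Subgroup.zpowers (a * b)) :
    Nat.card (Subgroup.closure ({a, b} : Set K)) = 2 * orderOf (a * b) := by
  set D := Subgroup.closure ({a, b} : Set K) with hD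
  have hc : a * b ∈ D := mul_mem (Subgroup.subset_closure (by simp)) (Subgroup.subset_closure (by simp))
  have h2 : ((Subgroup.zpowers (a * b)).subgroupOf D).index = 2 := by
    rw [Subgroup.index_eq_two_iff]
    refine ⟨⟨a, Subgroup.subset_closure (by simp)⟩, fun d => ?_⟩
    simp only [Subgroup.mem_subgroupOf, Subgroup.coe_mul]
    obtain ⟨k, hk | hk⟩ := CfsgLib.Invol.mem_closure_pair ha hb d.2
    · refine Or.inr ⟨hk ▸ Subgroup.zpow_mem_zpowers _ k, fun h => hna ?_⟩
      rw [hk] at h
      exact (Subgroup.mul_mem_cancel_left _ (Subgroup.zpow_mem_zpowers _ k)).1 h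
    · refine Or.inl ⟨?_, fun h => hna ?_⟩
      · rw [hk, mul_assoc, ha, mul_one]; exact Subgroup.zpow_mem_zpowers _ k
      · rw [hk] at h
        exact (Subgroup.mul_mem_cancel_left _ (Subgroup.zpow_mem_zpowers _ k)).1 h
  have := ((Subgroup.zpowers (a * b)).subgroupOf D).card_mul_index
  rw [h2, Nat.card_congr (Subgroup.subgroupOfEquivOfLe (Subgroup.zpowers_le.2 hc)).toEquiv,
    Nat.card_zpowers] at this
  rw [← this, mul_comm]

/-- A double cover in which the lifts of all involutions are involutions splits. -/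
theorem exists_complement {H K : Type*} [Group H] [Finite H] [Group K] (ρ : H →* K)
    (hs : Function.Surjective ρ) (hker : ρ.ker = Subgroup.center H) (hZ : Nat.card (Subgroup.center H) = 2)
    (hinv : ∀ h : H, orderOf (ρ h) = 2 → h * h = 1) (a b : K) (ha : orderOf a = 2) (hb : orderOf b = 2)
    (m : ℕ) (hm : orderOf (a * b) = 2 * m) (hna : a ∉ Subgroup.zpowers (a * b))
    (hodd : Odd (Subgroup.closure ({a, b} : Set K)).index) :
    ∃ L : Subgroup H, (Subgroup.center H).IsComplement' L := by
  classical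
  obtain ⟨u, hu⟩ := hs a
  obtain ⟨v, hv⟩ := hs b
  have hu2 : u * u = 1 := hinv u (hu ▸ ha)
  have hv2 : v * v = 1 := hinv v (hv ▸ hb)
  have hd : (u * v) ^ (2 * m) = 1 := by
    rw [two_mul, pow_add]
    apply hinv
    rw [map_pow, map_mul, hu, hv, orderOf_pow' _ (by
      rintro rfl; rw [mul_zero] at hm
      haveI : Finite K := Finite.of_surjective ρ hs
      exact (orderOf_pos (a * b)).ne' hm), hm, Nat.gcd_mul_left_left,
      Nat.mul_div_cancel _ (Nat.pos_of_ne_zero (by
        rintro rfl; rw [mul_zero] at hm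
        haveI : Finite K := Finite.of_surjective ρ hs
        exact (orderOf_pos (a * b)).ne' hm))]
  set L := Subgroup.closure ({u, v} : Set H) with hL
  set P := (Subgroup.closure ({a, b} : Set K)).comap ρ with hP
  have hLmap : L.map ρ = Subgroup.closure ({a, b} : Set K) := by
    rw [hL, MonoidHom.map_closure, Set.image_pair, hu, hv]
  have hLZ : ∀ l ∈ L, l ∈ Subgroup.center H → l = 1 := by
    intro l hl hlZ
    rw [← hker, MonoidHom.mem_ker] at hlZ
    obtain ⟨k, rfl | rfl⟩ := CfsgLib.Invol.mem_closure_pair hu2 hv2 hl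
    · rw [map_zpow, map_mul, hu, hv] at hlZ
      have := orderOf_dvd_iff_zpow_eq_one.2 hlZ
      rw [hm] at this
      obtain ⟨j, rfl⟩ := this
      rw [zpow_mul, zpow_natCast, hd, one_zpow]
    · exfalso
      rw [map_mul, map_zpow, map_mul, hu, hv] at hlZ
      have e := eq_inv_of_mul_eq_one_right hlZ
      exact hna (Subgroup.mem_zpowers_iff.2 ⟨-k, by rw [zpow_neg]; exact e.symm⟩)
  have hLP : L ≤ P := fun l hl => by
    show ρ l ∈ Subgroup.closure ({a, b} : Set K)
    rw [← hLmap]; exact Subgroup.mem_map_of_mem ρ hl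
  have hZP : Subgroup.center H ≤ P := fun z hz => by
    show ρ z ∈ Subgroup.closure ({a, b} : Set K)
    rw [MonoidHom.mem_ker.1 (hker.symm ▸ hz : z ∈ ρ.ker)]; exact one_mem _
  let f : Subgroup.center H × L →* P :=
    { toFun := fun p => ⟨(p.1 : H) * p.2, mul_mem (hZP p.1.2) (hLP p.2.2)⟩
      map_one' := Subtype.ext (by simp)
      map_mul' := fun p q => Subtype.ext (by
        show ((p.1 : H) * q.1) * ((p.2 : H) * q.2) = (p.1 * p.2) * (q.1 * q.2)
        have := Subgroup.mem_center_iff.1 q.1.2 (p.2 : H)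
        rw [mul_assoc (p.1 : H), ← mul_assoc (q.1 : H), ← this]
        simp [mul_assoc]) }
  have hf : Function.Bijective f := by
    constructor
    · rw [injective_iff_map_eq_one]
      intro p hp
      have e : (p.1 : H) * p.2 = 1 := congrArg Subtype.val hp
      have e2 : (p.2 : H) = 1 := hLZ _ p.2.2 (by
        rw [eq_inv_of_mul_eq_one_right e]; exact inv_mem p.1.2)
      rw [e2, mul_one] at e
      exact Prod.ext (Subtype.ext e) (Subtype.ext e2)
    · intro p
      have : ρ p ∈ L.map ρ := hLmap ▸ p.2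
      obtain ⟨l, hl, hlp⟩ := this
      have hz : (p : H) * l⁻¹ ∈ Subgroup.center H := by
        rw [← hker, MonoidHom.mem_ker, map_mul, map_inv, ← hlp, mul_inv_cancel]
      exact ⟨(⟨_, hz⟩, ⟨l, hl⟩), Subtype.ext (inv_mul_cancel_right _ _)⟩
  letI : CommGroup (Subgroup.center H) :=
    { (inferInstance : Group (Subgroup.center H)) with
      mul_comm := fun p q => Subtype.ext (Subgroup.mem_center_iff.1 q.2 (p : H)) }
  let φ : P →* Subgroup.center H :=
    (MonoidHom.fst _ _).comp (MulEquiv.ofBijective f hf).symm.toMonoidHom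
  have hφ : ∀ z : Subgroup.center H, φ ⟨z, hZP z.2⟩ = z := by
    intro z
    have : (MulEquiv.ofBijective f hf).symm ⟨z, hZP z.2⟩ = (z, 1) := by
      rw [MulEquiv.symm_apply_eq]
      exact Subtype.ext (mul_one _).symm
    show ((MulEquiv.ofBijective f hf).symm ⟨z, hZP z.2⟩).1 = z
    rw [this]
  let τ : H →* Subgroup.center H := MonoidHom.transfer φ
  have hidx : Odd P.index := by rw [hP, Subgroup.index_comap_of_surjective _ hs]; exact hodd
  have hτ : ∀ z : Subgroup.center H, τ z = z := by
    intro z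
    have key : ∀ (k : ℕ) (g₀ : H), g₀⁻¹ * (z : H) ^ k * g₀ ∈ P → g₀⁻¹ * (z : H) ^ k * g₀ = (z : H) ^ k := by
      intro k g₀ _
      rw [mul_assoc, ← Subgroup.mem_center_iff.1 (pow_mem z.2 k) g₀, inv_mul_cancel_left]
    show MonoidHom.transfer φ (z : H) = z
    rw [MonoidHom.transfer_eq_pow φ (z : H) key]
    have hz2 : z ^ 2 = 1 := by
      have := pow_card_eq_one' (x := z)
      rwa [hZ] at this
    obtain ⟨j, hj⟩ := hidx
    have e : z ^ P.index = z := by rw [hj, pow_succ, pow_mul, hz2, one_pow, one_mul]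
    refine Eq.trans ?_ (hφ z)
    congr 1
    exact Subtype.ext ((SubmonoidClass.coe_pow z P.index).symm.trans (congrArg Subtype.val e))
  refine ⟨τ.ker, Subgroup.isComplement'_of_disjoint_and_mul_eq_univ ?_ ?_⟩
  · rw [Subgroup.disjoint_def]
    intro x hxZ hxk
    have := hτ ⟨x, hxZ⟩
    rw [MonoidHom.mem_ker.1 hxk] at this
    exact congrArg Subtype.val this.symm
  · rw [Set.eq_univ_iff_forall]
    intro h
    refine ⟨τ h, (τ h).2, (τ h : H)⁻¹ * h, ?_, mul_inv_cancel_left _ _⟩
    show τ _ = 1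
    rw [map_mul, map_inv, hτ, inv_mul_cancel]

theorem cycleType_of_involution {n : ℕ} (hn : n ≤ 7) {s : Equiv.Perm (Fin n)} (hs : orderOf s = 2)
    (hsgn : Equiv.Perm.sign s = 1) : s.cycleType = Multiset.replicate 2 2 := by
  haveI : Fact (Nat.Prime 2) := ⟨Nat.prime_two⟩
  obtain ⟨j, hj⟩ := Equiv.Perm.cycleType_prime_order (hs.symm ▸ Nat.prime_two)
  rw [hs] at hj
  have hsum := Equiv.Perm.sum_cycleType s
  have hcard : s.support.card ≤ n := by
    simpa using Finset.card_le_univ s.support
  rw [hj, Multiset.sum_replicate, smul_eq_mul] at hsum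
  rw [Equiv.Perm.sign_of_cycleType, hj, Multiset.sum_replicate, Multiset.card_replicate, smul_eq_mul] at hsgn
  have hj3 : j ≤ 2 := by omega
  interval_cases h : j <;> first
    | exact hj
    | (exfalso; revert hsgn; decide)

theorem involutions_conj {n : ℕ} (hn : n ≤ 7) {a b : alternatingGroup (Fin n)} (ha : orderOf a = 2)
    (hb : orderOf b = 2) : ∃ g : alternatingGroup (Fin n), g * a * g⁻¹ = b := by
  have ca := cycleType_of_involution hn ((Subgroup.orderOf_coe a).trans ha) a.2
  have cb := cycleType_of_involution hn ((Subgroup.orderOf_coe b).trans hb) b.2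
  obtain ⟨c, hc⟩ := isConj_iff.1 (Equiv.Perm.isConj_iff_cycleType_eq.2 (ca.trans cb.symm))
  rcases Int.units_eq_one_or (Equiv.Perm.sign c) with h | h
  · exact ⟨⟨c, h⟩, Subtype.ext hc⟩
  · obtain ⟨x, hx⟩ : ∃ x, (a : Equiv.Perm (Fin n)) x ≠ x := by
      by_contra hall
      push Not at hall
      have : a = 1 := Subtype.ext (Equiv.ext hall)
      rw [this, orderOf_one] at ha
      exact absurd ha (by norm_num)
    set s := (a : Equiv.Perm (Fin n)) with hsdef
    have hss : s (s x) = x := by
      have := pow_orderOf_eq_one s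
      rw [show orderOf s = 2 from (Subgroup.orderOf_coe a).trans ha, sq] at this
      exact Equiv.ext_iff.1 this x
    have hsw : s * Equiv.swap x (s x) * s⁻¹ = Equiv.swap x (s x) := by
      rw [← Equiv.swap_apply_apply, hss, Equiv.swap_comm]
    refine ⟨⟨c * Equiv.swap x (s x), ?_⟩, Subtype.ext ?_⟩
    · rw [Equiv.Perm.mem_alternatingGroup, map_mul, h, Equiv.Perm.sign_swap (Ne.symm hx)]
      rfl
    · show c * Equiv.swap x (s x) * s * (c * Equiv.swap x (s x))⁻¹ = b
      have hcomm : Equiv.swap x (s x) * s = s * Equiv.swap x (s x) := by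
        conv_lhs => rw [← hsw]
        group
      rw [mul_assoc c, hcomm, mul_inv_rev, ← hc]
      group

theorem unique_involution (n : ℕ) (H : Type) [Group H] [Finite H] (hn : n ≤ 7)
    (h : Cfsg.IsNonsplitDoubleCover H (alternatingGroup (Fin n))) (x y : H) (hx : orderOf x = 2)
    (hy : orderOf y = 2) : x = y := by
  obtain ⟨hZ, ⟨e⟩, hns⟩ := h
  let ρ : H →* alternatingGroup (Fin n) := e.toMonoidHom.comp (QuotientGroup.mk' (Subgroup.center H))
  have hs : Function.Surjective ρ := e.surjective.comp (QuotientGroup.mk'_surjective _)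
  have hker : ρ.ker = Subgroup.center H := by
    ext g
    simp only [ρ, MonoidHom.mem_ker, MonoidHom.comp_apply, MulEquiv.coe_toMonoidHom,
      EmbeddingLike.map_eq_one_iff, QuotientGroup.mk'_apply, QuotientGroup.eq_one_iff]
  rcases Nat.lt_or_ge n 4 with hn4 | hn4
  · exfalso
    rcases Nat.lt_or_ge n 3 with hn3 | hn3
    swap
    · obtain rfl : n = 3 := by omega
      have hq : IsCyclic (alternatingGroup (Fin 3)) :=
        isCyclic_of_prime_card (p := 3) (hp := ⟨Nat.prime_three⟩)
          (by rw [Nat.card_eq_fintype_card]; decide)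
      have hcomm := commutative_of_cyclic_center_quotient ρ hker.le
      have htop : Subgroup.center H = ⊤ := eq_top_iff.2 fun g _ => Subgroup.mem_center_iff.2 fun k => hcomm k g
      have : (1 : alternatingGroup (Fin 3)) = ⟨Equiv.swap 0 1 * Equiv.swap 1 2, (Equiv.Perm.mem_alternatingGroup).2 (by decide)⟩ := by
        obtain ⟨g, hg⟩ := hs ⟨Equiv.swap 0 1 * Equiv.swap 1 2, (Equiv.Perm.mem_alternatingGroup).2 (by decide)⟩
        rw [← hg]
        exact (MonoidHom.mem_ker.1 (show g ∈ ρ.ker by rw [hker, htop]; trivial)).symm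
      exact absurd this (by decide)
    · have hsub : Subsingleton (alternatingGroup (Fin n)) := by
        refine ⟨?_⟩
        interval_cases n <;> decide
      apply hns ⊥
      have htop : Subgroup.center H = ⊤ := by
        rw [← hker]; exact eq_top_iff.2 fun g _ => MonoidHom.mem_ker.2 (hsub.elim _ _)
      rw [htop]
      exact Subgroup.isComplement'_top_bot
  have key : ∀ w : H, orderOf w = 2 → w ∈ Subgroup.center H := by
    intro w hw
    by_contra hwZ
    have hρw : orderOf (ρ w) = 2 := by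
      refine orderOf_eq_prime ?_ fun h1 => hwZ (by rw [← hker]; exact h1)
      rw [← map_pow, ← hw, pow_orderOf_eq_one, map_one]
    have hw2 : w * w = 1 := by rw [← sq, ← hw, pow_orderOf_eq_one]
    have hinv : ∀ k : H, orderOf (ρ k) = 2 → k * k = 1 := by
      intro k hk
      obtain ⟨g, hg⟩ := involutions_conj hn hρw hk
      obtain ⟨g', rfl⟩ := hs g
      set z := (g' * w * g'⁻¹)⁻¹ * k with hz
      have hzZ : z ∈ Subgroup.center H := by
        rw [← hker, MonoidHom.mem_ker, hz, map_mul, map_inv, map_mul, map_mul, map_inv, hg,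
          inv_mul_cancel]
      have hz2 : z * z = 1 := by
        have := pow_card_eq_one' (x := (⟨z, hzZ⟩ : Subgroup.center H))
        rw [hZ, sq] at this
        exact congrArg Subtype.val this
      have hkz : k = (g' * w * g'⁻¹) * z := by rw [hz, mul_inv_cancel_left]
      have hc := Subgroup.mem_center_iff.1 hzZ (g' * w * g'⁻¹)
      calc k * k = (g' * w * g'⁻¹ * (g' * w * g'⁻¹)) * (z * z) := by
            rw [hkz, mul_assoc, ← mul_assoc z, ← hc]; group
        _ = 1 := by rw [hz2]; simp [mul_assoc, ← mul_assoc w w, hw2]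
    have hfin : ∀ a b : alternatingGroup (Fin n), a * a = 1 → a ≠ 1 → b * b = 1 → b ≠ 1 →
        ∀ m : ℕ, orderOf (a * b) = 2 * m → a ∉ Subgroup.zpowers (a * b) →
        (∀ i : ℕ, i * (2 * (2 * m)) = Nat.card (alternatingGroup (Fin n)) → Odd i) → False := by
      intro a b ha ha1 hb hb1 m hm hna hidx
      have hcard := index_two_closure_pair ha hb hna
      have hprod := (Subgroup.closure ({a, b} : Set (alternatingGroup (Fin n)))).card_mul_index
      rw [hcard, hm, mul_comm] at hprod
      obtain ⟨L, hL⟩ := exists_complement ρ hs hker hZ hinv a b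
        (orderOf_eq_prime (by rw [sq, ha]) ha1) (orderOf_eq_prime (by rw [sq, hb]) hb1) m hm hna
        (hidx _ hprod)
      exact hns L hL
    have hcardA : 2 * Nat.card (alternatingGroup (Fin n)) = n.factorial := by
      haveI : Nontrivial (Fin n) := Fin.nontrivial_iff_two_le.2 (by omega)
      rw [Nat.card_eq_fintype_card, two_mul_card_alternatingGroup, Fintype.card_perm, Fintype.card_fin]
    have nmem : ∀ (a c : alternatingGroup (Fin n)) (N : ℕ), c ^ N = 1 → 0 < N →
        (∀ k : Fin N, a ≠ c ^ (k : ℕ)) → a ∉ Subgroup.zpowers c := by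
      intro a c N hc hN hk hmem
      obtain ⟨j, hj⟩ := Subgroup.mem_zpowers_iff.1 hmem
      have h0 : (0 : ℤ) ≤ j % N := Int.emod_nonneg _ (by omega)
      have h1 : j % N < N := Int.emod_lt_of_pos _ (by omega)
      apply hk ⟨(j % N).toNat, by omega⟩
      show a = c ^ (j % N).toNat
      rw [← hj, ← zpow_natCast c (j % N).toNat, Int.toNat_of_nonneg h0]
      conv_lhs => rw [← Int.emod_add_mul_ediv j N, zpow_add, zpow_mul, zpow_natCast, hc, one_zpow, mul_one]
    have hord : ∀ (c : alternatingGroup (Fin n)) (N : ℕ), 0 < N → c ^ N = 1 →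
        (∀ k : Fin N, 0 < (k : ℕ) → c ^ (k : ℕ) ≠ 1) → orderOf c = N := fun c N hN hc hk =>
      (orderOf_eq_iff hN).2 ⟨hc, fun k hkN hk0 => hk ⟨k, hkN⟩ hk0⟩
    interval_cases n
    · refine hfin ⟨Equiv.swap 0 1 * Equiv.swap 2 3, (Equiv.Perm.mem_alternatingGroup).2 (by decide)⟩ ⟨Equiv.swap 0 2 * Equiv.swap 1 3, (Equiv.Perm.mem_alternatingGroup).2 (by decide)⟩
        (by decide) (by decide) (by decide) (by decide) 1 (hord _ 2 (by norm_num) (by decide) (by decide))
        (nmem _ _ 2 (by decide) (by norm_num) (by decide)) ?_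
      intro i hi; rw [show Nat.factorial 4 = 24 from rfl] at hcardA; exact Nat.odd_iff.2 (by omega)
    · refine hfin ⟨Equiv.swap 0 1 * Equiv.swap 2 3, (Equiv.Perm.mem_alternatingGroup).2 (by decide)⟩ ⟨Equiv.swap 0 2 * Equiv.swap 1 3, (Equiv.Perm.mem_alternatingGroup).2 (by decide)⟩
        (by decide) (by decide) (by decide) (by decide) 1 (hord _ 2 (by norm_num) (by decide) (by decide))
        (nmem _ _ 2 (by decide) (by norm_num) (by decide)) ?_
      intro i hi; rw [show Nat.factorial 5 = 120 from rfl] at hcardA; exact Nat.odd_iff.2 (by omega)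
    · refine hfin ⟨Equiv.swap 0 2 * Equiv.swap 4 5, (Equiv.Perm.mem_alternatingGroup).2 (by decide)⟩ ⟨Equiv.swap 0 1 * Equiv.swap 2 3, (Equiv.Perm.mem_alternatingGroup).2 (by decide)⟩
        (by decide) (by decide) (by decide) (by decide) 2 (hord _ 4 (by norm_num) (by decide) (by decide))
        (nmem _ _ 4 (by decide) (by norm_num) (by decide)) ?_
      intro i hi; rw [show Nat.factorial 6 = 720 from rfl] at hcardA; exact Nat.odd_iff.2 (by omega)
    · refine hfin ⟨Equiv.swap 0 2 * Equiv.swap 4 5, (Equiv.Perm.mem_alternatingGroup).2 (by decide)⟩ ⟨Equiv.swap 0 1 * Equiv.swap 2 3, (Equiv.Perm.mem_alternatingGroup).2 (by decide)⟩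
        (by decide) (by decide) (by decide) (by decide) 2 (hord _ 4 (by norm_num) (by decide) (by decide))
        (nmem _ _ 4 (by decide) (by norm_num) (by decide)) ?_
      intro i hi; rw [show Nat.factorial 7 = 5040 from rfl] at hcardA; exact Nat.odd_iff.2 (by omega)
  have hx1 : x ≠ 1 := fun h1 => by rw [h1, orderOf_one] at hx; exact absurd hx (by norm_num)
  have hy1 : y ≠ 1 := fun h1 => by rw [h1, orderOf_one] at hy; exact absurd hy (by norm_num)
  obtain ⟨w, hw, huniq⟩ := (Nat.card_eq_two_iff' (1 : Subgroup.center H)).1 hZ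
  have := (huniq ⟨x, key x hx⟩ (fun e => hx1 (congrArg Subtype.val e))).trans
    (huniq ⟨y, key y hy⟩ (fun e => hy1 (congrArg Subtype.val e))).symm
  exact congrArg Subtype.val this

theorem commutator_of_center {G : Type*} [Group G] {c d x y : G} (hc : c ∈ Subgroup.center G)
    (hd : d ∈ Subgroup.center G) : ⁅c * x, d * y⁆ = ⁅x, y⁆ := by
  have hc' := Subgroup.mem_center_iff.1 hc
  have hd' := Subgroup.mem_center_iff.1 hd
  simp only [commutatorElement_def, mul_inv_rev]
  have e1 : c * x * (d * y) = x * y * (c * d) := by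
    rw [← hd' y, ← hc' x]
    simp only [mul_assoc]
    congr 1
    rw [← mul_assoc c y, ← hc' y, mul_assoc]
  have e2 : x⁻¹ * c⁻¹ * (y⁻¹ * d⁻¹) = c⁻¹ * d⁻¹ * (x⁻¹ * y⁻¹) := by
    rw [Subgroup.mem_center_iff.1 (inv_mem hc) x⁻¹, Subgroup.mem_center_iff.1 (inv_mem hd) y⁻¹,
      mul_assoc, ← mul_assoc x⁻¹, Subgroup.mem_center_iff.1 (inv_mem hd) x⁻¹]
    simp only [mul_assoc]
  calc c * x * (d * y) * (x⁻¹ * c⁻¹) * (y⁻¹ * d⁻¹)
      = c * x * (d * y) * (x⁻¹ * c⁻¹ * (y⁻¹ * d⁻¹)) := by simp only [mul_assoc]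
    _ = x * y * ((c * d) * (c⁻¹ * d⁻¹)) * (x⁻¹ * y⁻¹) := by rw [e1, e2]; simp only [mul_assoc]
    _ = x * y * x⁻¹ * y⁻¹ := by
        rw [show c * d * (c⁻¹ * d⁻¹) = 1 by rw [hd' c]; group, mul_one]
        simp only [mul_assoc]

theorem rt_anti {n : ℕ} {a b c d : Fin n} (hab : a ≠ b) (hac : a ≠ c) (had : a ≠ d) (hbc : b ≠ c)
    (hbd : b ≠ d) : rt a b * rt c d = -(rt c d * rt a b) := by
  have e1 := rt_el hab c
  have e2 := rt_el hab d
  rw [Equiv.swap_apply_of_ne_of_ne hac.symm hbc.symm] at e1
  rw [Equiv.swap_apply_of_ne_of_ne had.symm hbd.symm] at e2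
  show rt a b * (el c - el d) = -((el c - el d) * rt a b)
  rw [mul_sub, sub_mul, e1, e2]
  abel

set_option maxRecDepth 4000 in
/-- Involutions in double covers of alternating groups: for n ≤ 7, a finite non-split double cover of the alternating group of degree n has exactly one element of order 2 (the central one); for degree 8 there is a non-split double cover with two distinct involutions. -/
theorem result : (∀ (n : ℕ) (H : Type) (_ : Group H) (_ : Finite H), n ≤ 7 → Cfsg.IsNonsplitDoubleCover H (alternatingGroup (Fin n)) → ∀ x y : H, orderOf x = 2 → orderOf y = 2 → x = y) ∧ ∃ (H : Type) (_ : Group H) (_ : Finite H), Cfsg.IsNonsplitDoubleCover H (alternatingGroup (Fin 8)) ∧ ∃ x y : H, x ≠ y ∧ orderOf x = 2 ∧ orderOf y = 2 := by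
  refine ⟨fun n H _ _ hn h x y hx hy => unique_involution n H hn h x y hx hy, ?_⟩
  have hneg : ∀ i : Fin 8, (-1 : (M 8)ˣ).1 * el i = el ((1 : Equiv.Perm (Fin 8)) i) * (-1 : (M 8)ˣ).1 := fun i => by simp
  let z₀ : cov 8 := ⟨-1, by
    refine ⟨?_, fun j => ?_, 1, hneg⟩ <;> simp⟩
  have hz₀ : proj 8 z₀ = 1 := proj_eq _ hneg
  let Γ : Subgroup (cov 8) := (alternatingGroup (Fin 8)).comap (proj 8)
  let ψ : Γ →* alternatingGroup (Fin 8) := ((proj 8).comp Γ.subtype).codRestrict _ fun x => x.2
  let z : Γ := ⟨z₀, show proj 8 z₀ ∈ alternatingGroup (Fin 8) by rw [hz₀]; exact one_mem _⟩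
  have hzv : z.1.1.1 = -1 := rfl
  have hext : ∀ {x y : Γ}, x.1.1.1 = y.1.1.1 → x = y := fun h => Subtype.ext (Subtype.ext (Units.ext h))
  have hzc : ∀ g : Γ, g * z = z * g := fun g => hext (by
    show g.1.1.1 * z.1.1.1 = z.1.1.1 * g.1.1.1
    rw [hzv]; simp)
  have hz : z ∈ Subgroup.center Γ := Subgroup.mem_center_iff.2 hzc
  have hz1 : z ≠ 1 := fun h => by
    have := congrFun (congrFun (congrArg (fun x : Γ => x.1.1.1) h) ∅) ∅
    simp [hzv] at this
    exact absurd this (by decide)
  have hz2 : z ^ 2 = 1 := hext (by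
    rw [pow_two]; show z.1.1.1 * z.1.1.1 = 1; rw [hzv]; simp)
  have hsurj : Function.Surjective ψ := by
    have key : ∀ g : Equiv.Perm (Fin 8), (Equiv.Perm.sign g = 1 → g ∈ (proj 8).range) ∧
        (Equiv.Perm.sign g = -1 → ∀ a b, a ≠ b → Equiv.swap a b * g ∈ (proj 8).range) := by
      intro g
      induction g using Equiv.Perm.swap_induction_on with
      | one => exact ⟨fun _ => one_mem _, fun h => absurd h (by simp)⟩
      | swap_mul g x y hxy ih =>
        rw [map_mul, Equiv.Perm.sign_swap hxy]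
        constructor
        · intro h; exact ih.2 (by simpa [neg_eq_iff_eq_neg] using h) x y hxy
        · intro h a b hab
          obtain ⟨u, -, hu⟩ := exists_pair hab hxy
          rw [← mul_assoc]
          exact mul_mem ⟨u, hu⟩ (ih.1 (by simpa using h))
    intro g
    obtain ⟨x, hx⟩ := (key g.1).1 (Equiv.Perm.mem_alternatingGroup.1 g.2)
    exact ⟨⟨x, show proj 8 x ∈ alternatingGroup (Fin 8) by rw [hx]; exact g.2⟩, Subtype.ext hx⟩
  have hker : ψ.ker = Subgroup.zpowers z := by
    apply le_antisymm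
    · intro x hx
      have hp : proj 8 x.1 = 1 := congrArg Subtype.val (MonoidHom.mem_ker.1 hx)
      have e := scalar_of_commute x.1.1.1 x.1.2.1 (fun j => x.1.2.2.1 j) (fun j => by simpa [hp] using proj_spec x.1 j)
      obtain ⟨c, hc⟩ : ∃ c, x.1.1.1 ∅ ∅ = c := ⟨_, rfl⟩
      rw [hc] at e
      rcases ((show ∀ c : ZMod 3, c = 0 ∨ c = 1 ∨ c = -1 by decide) c) with rfl | rfl | rfl
      · rw [zero_smul] at e
        have := congrFun (congrFun (x.1.1.mul_inv) ∅) ∅
        simp [e] at this
      · rw [show x = 1 from hext (by rw [e, one_smul]; rfl)]; exact one_mem _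
      · rw [show x = z from hext (by rw [e, hzv, neg_one_smul])]; exact Subgroup.mem_zpowers z
    · rw [Subgroup.zpowers_le]
      exact Subtype.ext hz₀
  have hcomm : z ∈ commutator Γ := by
    obtain ⟨i, hi⟩ : ∃ i : Fin 4 → Fin 8, Function.Injective i := ⟨Fin.castLE (show 4 ≤ 8 by norm_num), Fin.castLE_injective (show 4 ≤ 8 by norm_num)⟩
    have hne : ∀ {p q}, p ≠ q → i p ≠ i q := fun h => hi.ne h
    obtain ⟨a, ha, ha'⟩ := exists_pair (hne (show (0 : Fin 4) ≠ 1 by decide)) (hne (show (2 : Fin 4) ≠ 3 by decide))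
    obtain ⟨b, hb, hb'⟩ := exists_pair (hne (show (0 : Fin 4) ≠ 2 by decide)) (hne (show (1 : Fin 4) ≠ 3 by decide))
    have memA : ∀ {p q r s}, p ≠ q → r ≠ s → Equiv.swap (i p) (i q) * Equiv.swap (i r) (i s) ∈ alternatingGroup (Fin 8) :=
      fun h h' => by
        rw [Equiv.Perm.mem_alternatingGroup, map_mul, Equiv.Perm.sign_swap (hne h), Equiv.Perm.sign_swap (hne h')]; simp
    let A : Γ := ⟨a, show proj 8 a ∈ _ by rw [ha']; exact memA (by decide) (by decide)⟩
    let B : Γ := ⟨b, show proj 8 b ∈ _ by rw [hb']; exact memA (by decide) (by decide)⟩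
    have hab : a.1.1 * b.1.1 = -(b.1.1 * a.1.1) := by
      have e : ∀ k, a.1.1 * el k = el ((Equiv.swap (i 0) (i 1) * Equiv.swap (i 2) (i 3)) k) * a.1.1 := fun k => by
        rw [← ha']; exact proj_spec a k
      have e0 := e (i 0); have e1 := e (i 1); have e2 := e (i 2); have e3 := e (i 3)
      have w : ∀ {p q}, p ≠ q → el (i p) * el (i q) = -(el (i q) * el (i p)) := fun h => el_anti (hne h)
      simp [Equiv.Perm.mul_apply, Equiv.swap_apply_def, hi.eq_iff] at e0 e1 e2 e3
      have f1 : a.1.1 * rt (i 0) (i 2) = rt (i 1) (i 3) * a.1.1 := by simp [rt, mul_sub, sub_mul, e0, e2]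
      have f2 : a.1.1 * rt (i 1) (i 3) = rt (i 0) (i 2) * a.1.1 := by simp [rt, mul_sub, sub_mul, e1, e3]
      have f3 : rt (i 1) (i 3) * rt (i 0) (i 2) = -(rt (i 0) (i 2) * rt (i 1) (i 3)) := by
        simp only [rt, mul_sub, sub_mul, w (show (1 : Fin 4) ≠ 0 by decide), w (show (1 : Fin 4) ≠ 2 by decide),
          w (show (3 : Fin 4) ≠ 0 by decide), w (show (3 : Fin 4) ≠ 2 by decide)]
        abel
      rw [hb, ← mul_assoc, f1, mul_assoc, f2, ← mul_assoc, f3, neg_mul]
    have : z = ⁅A, B⁆ := by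
      rw [commutatorElement_def, eq_mul_inv_iff_mul_eq, eq_mul_inv_iff_mul_eq]
      refine hext ?_
      show z.1.1.1 * b.1.1 * a.1.1 = a.1.1 * b.1.1
      rw [hzv, hab]; simp
    rw [this, commutator_def]
    exact Subgroup.commutator_mem_commutator (Subgroup.mem_top _) (Subgroup.mem_top _)
  have hsimple : Subgroup.center (alternatingGroup (Fin 8)) = ⊥ :=
    alternatingGroup.center_eq_bot (by simp)
  have hcenter : Subgroup.center Γ = ψ.ker := by
    apply le_antisymm
    · intro g hg
      rw [MonoidHom.mem_ker, ← Subgroup.mem_bot, ← hsimple, Subgroup.mem_center_iff]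
      intro k
      obtain ⟨k', rfl⟩ := hsurj k
      rw [← map_mul, ← map_mul, Subgroup.mem_center_iff.1 hg k']
    · rw [hker, Subgroup.zpowers_le]; exact hz
  obtain ⟨u, hu, hu'⟩ := exists_pair (show (0 : Fin 8) ≠ 1 by decide) (show (2 : Fin 8) ≠ 3 by decide)
  obtain ⟨v, hv, hv'⟩ := exists_pair (show (4 : Fin 8) ≠ 5 by decide) (show (6 : Fin 8) ≠ 7 by decide)
  let t : Γ := ⟨u * v, show proj 8 (u * v) ∈ alternatingGroup (Fin 8) by
    rw [map_mul, hu', hv', Equiv.Perm.mem_alternatingGroup]
    simp [Equiv.Perm.sign_swap (show (0 : Fin 8) ≠ 1 by decide), Equiv.Perm.sign_swap (show (2 : Fin 8) ≠ 3 by decide),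
      Equiv.Perm.sign_swap (show (4 : Fin 8) ≠ 5 by decide), Equiv.Perm.sign_swap (show (6 : Fin 8) ≠ 7 by decide)]⟩
  have ht2 : t ^ 2 = 1 := hext (by
    rw [pow_two]
    show u.1.1 * v.1.1 * (u.1.1 * v.1.1) = 1
    rw [hu, hv]
    set A := rt (0 : Fin 8) 1 with hA
    set B := rt (2 : Fin 8) 3 with hB
    set C := rt (4 : Fin 8) 5 with hC
    set D := rt (6 : Fin 8) 7 with hD
    have sq' : ∀ {p q : Fin 8}, p ≠ q → rt p q * rt p q = -1 := fun h => by
      have := rt_sq h
      rw [mul_neg] at this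
      exact neg_eq_iff_eq_neg.1 this
    have qA : A * A = -1 := sq' (by decide)
    have qB : B * B = -1 := sq' (by decide)
    have qC : C * C = -1 := sq' (by decide)
    have qD : D * D = -1 := sq' (by decide)
    have ab : B * A = -(A * B) := rt_anti (by decide) (by decide) (by decide) (by decide) (by decide)
    have ac : C * A = -(A * C) := rt_anti (by decide) (by decide) (by decide) (by decide) (by decide)
    have ad : D * A = -(A * D) := rt_anti (by decide) (by decide) (by decide) (by decide) (by decide)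
    have bc : C * B = -(B * C) := rt_anti (by decide) (by decide) (by decide) (by decide) (by decide)
    have bd : D * B = -(B * D) := rt_anti (by decide) (by decide) (by decide) (by decide) (by decide)
    have cd : D * C = -(C * D) := rt_anti (by decide) (by decide) (by decide) (by decide) (by decide)
    have hABC : C * D * (A * B) = A * B * (C * D) := by
      calc C * D * (A * B) = C * (D * A) * B := by simp only [mul_assoc]
        _ = -(C * A) * (D * B) := by rw [ad]; simp only [mul_assoc, mul_neg, neg_mul]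
        _ = (A * C) * -(B * D) := by rw [ac, bd, neg_neg]
        _ = -(A * (C * B) * D) := by simp only [mul_assoc, mul_neg]
        _ = A * B * (C * D) := by rw [bc]; simp only [mul_assoc, mul_neg, neg_mul, neg_neg]
    have sAB : A * B * (A * B) = -1 := by
      calc A * B * (A * B) = A * (B * A) * B := by simp only [mul_assoc]
        _ = -((A * A) * (B * B)) := by rw [ab]; simp only [mul_assoc, mul_neg, neg_mul]
        _ = -1 := by rw [qA, qB]; simp
    have sCD : C * D * (C * D) = -1 := by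
      calc C * D * (C * D) = C * (D * C) * D := by simp only [mul_assoc]
        _ = -((C * C) * (D * D)) := by rw [cd]; simp only [mul_assoc, mul_neg, neg_mul]
        _ = -1 := by rw [qC, qD]; simp
    calc A * B * (C * D) * (A * B * (C * D)) = A * B * (C * D * (A * B)) * (C * D) := by simp only [mul_assoc]
      _ = A * B * (A * B) * (C * D * (C * D)) := by rw [hABC]; simp only [mul_assoc]
      _ = 1 := by rw [sAB, sCD]; simp)
  have htne : t ∉ ψ.ker := fun h => by
    have := congrArg Subtype.val (MonoidHom.mem_ker.1 h)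
    change proj 8 (u * v) = 1 at this
    rw [map_mul, hu', hv'] at this
    exact absurd this (by decide)
  haveI : Fact (Nat.Prime 2) := ⟨Nat.prime_two⟩
  refine ⟨Γ, inferInstance, inferInstance, ⟨?_, ?_, ?_⟩, z, t, ?_, orderOf_eq_prime hz2 hz1,
    orderOf_eq_prime ht2 fun h => htne (h ▸ one_mem _)⟩
  · rw [hcenter, hker, Nat.card_zpowers, orderOf_eq_prime hz2 hz1]
  · exact ⟨(QuotientGroup.quotientMulEquivOfEq hcenter).trans
      (QuotientGroup.quotientKerEquivOfSurjective ψ hsurj)⟩
  · intro L hL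
    have hle : commutator Γ ≤ L := by
      rw [commutator_def, Subgroup.commutator_le]
      intro g _ k _
      obtain ⟨⟨g₁, g₂⟩, rfl, -⟩ := hL.existsUnique g
      obtain ⟨⟨k₁, k₂⟩, rfl, -⟩ := hL.existsUnique k
      rw [commutator_of_center g₁.2 k₁.2, commutatorElement_def]
      exact mul_mem (mul_mem (mul_mem g₂.2 k₂.2) (inv_mem g₂.2)) (inv_mem k₂.2)
    have := hL.disjoint
    exact hz1 (Subgroup.disjoint_def.1 this hz (hle hcomm))
  · exact fun h => htne (h ▸ hker ▸ Subgroup.mem_zpowers z)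

end Cfsg.Agent.S0447
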