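import Cfsg.Statements.S0493
import Cfsg.Agent.S0144
import Cfsg.Agent.S0073

set_option autoImplicit false
open Cfsg

namespace Cfsg.Agent.S0493

/-- A finite simple group of order at most 100 that is not cyclic has order 60. -/
theorem result {G : Type*} [Group G] [Finite G] [IsSimpleGroup G]
    (hG : ¬ IsCyclic G) (h : Nat.card G ≤ 100) : Nat.card G = 60 := by
  classical
  have hna : ∃ x y : G, x * y ≠ y * x := by
    by_contra hcon
    push Not at hcon
    letI : CommGroup G := { (inferInstance : Group G) with mul_comm := hcon }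
    haveI : IsSimpleGroup G := inferInstance
    exact hG IsSimpleGroup.isCyclic
  have hns : ¬ Group.IsSolvable G := fun hs => by
    obtain ⟨x, y, hxy⟩ := hna
    exact hxy (IsSimpleGroup.comm_iff_isSolvable.2 hs x y)
  have hpq : ∀ p q a b : ℕ, p.Prime → q.Prime → Nat.card G ≠ p ^ a * q ^ b :=
    fun p q a b hp hq hc => hns (Cfsg.Agent.S0144.result p q a b hp hq hc)
  have h7 : Nat.card G ≠ 84 := by
    intro h84
    haveI : Fact (Nat.Prime 7) := ⟨by norm_num⟩
    obtain ⟨P⟩ : Nonempty (Sylow 7 G) := inferInstance
    have h1 := card_sylow_modEq_one 7 G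
    have h2 : Nat.card (Sylow 7 G) ∣ (P : Subgroup G).index := Sylow.card_dvd_index P
    have h3 : Nat.card (P : Subgroup G) = 7 := by
      rw [Sylow.card_eq_multiplicity, h84]
      have : (84 : ℕ).factorization 7 = 1 := by
        rw [show (84 : ℕ) = 12 * 7 from rfl, Nat.factorization_mul (by norm_num) (by norm_num)]
        simp [Nat.Prime.factorization_self (show Nat.Prime 7 by norm_num),
          Nat.factorization_eq_zero_of_not_dvd (show ¬ 7 ∣ 12 by norm_num)]
      rw [this, pow_one]
    have h4 : (P : Subgroup G).index = 12 := by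
      have := Subgroup.card_mul_index (P : Subgroup G)
      rw [h3, h84] at this
      omega
    rw [h4] at h2
    have hle := Nat.le_of_dvd (by norm_num) h2
    rw [Nat.ModEq] at h1
    have : Nat.card (Sylow 7 G) = 1 := by
      interval_cases h : Nat.card (Sylow 7 G) <;> omega
    haveI : Subsingleton (Sylow 7 G) := (Nat.card_eq_one_iff_unique.1 this).1
    rcases IsSimpleGroup.eq_bot_or_eq_top_of_normal (P : Subgroup G) P.normal_of_subsingleton with h | h
    · rw [h, Subgroup.card_bot] at h3; omega
    · rw [h, Subgroup.card_top, h84] at h3; omega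
  have hn1 : Nat.card G ≠ 1 := fun h => hpq 2 2 0 0 Nat.prime_two Nat.prime_two (by simpa using h)
  have hm := Nat.minFac_prime hn1
  have hpos : 0 < Nat.card G := Nat.card_pos
  obtain hd | hd := Cfsg.Agent.S0073.result hna
  · have hle := (Nat.le_of_dvd hpos hd).trans h
    have hm5 : (Nat.card G).minFac < 5 := by
      by_contra hc
      have := Nat.pow_le_pow_left (not_lt.1 hc) 3
      omega
    have hm2 := hm.two_le
    interval_cases hmm : (Nat.card G).minFac
    · obtain ⟨k, hk⟩ := hd
      have : k ≤ 12 := by omega
      interval_cases k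
      all_goals first
        | omega
        | exact absurd hk (hpq 2 3 3 0 Nat.prime_two Nat.prime_three)
        | exact absurd hk (hpq 2 3 4 0 Nat.prime_two Nat.prime_three)
        | exact absurd hk (hpq 2 3 3 1 Nat.prime_two Nat.prime_three)
        | exact absurd hk (hpq 2 3 5 0 Nat.prime_two Nat.prime_three)
        | exact absurd hk (hpq 2 5 3 1 Nat.prime_two Nat.prime_five)
        | exact absurd hk (hpq 2 3 4 1 Nat.prime_two Nat.prime_three)
        | exact absurd hk (hpq 2 7 3 1 Nat.prime_two (by norm_num))
        | exact absurd hk (hpq 2 3 6 0 Nat.prime_two Nat.prime_three)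
        | exact absurd hk (hpq 2 3 3 2 Nat.prime_two Nat.prime_three)
        | exact absurd hk (hpq 2 5 4 1 Nat.prime_two Nat.prime_five)
        | exact absurd hk (hpq 2 11 3 1 Nat.prime_two (by norm_num))
        | exact absurd hk (hpq 2 3 5 1 Nat.prime_two Nat.prime_three)
    · obtain ⟨k, hk⟩ := hd
      have : k ≤ 3 := by omega
      interval_cases k
      all_goals first
        | omega
        | exact absurd hk (hpq 3 2 3 0 Nat.prime_three Nat.prime_two)
        | exact absurd hk (hpq 3 2 3 1 Nat.prime_three Nat.prime_two)
        | exact absurd hk (hpq 3 2 4 0 Nat.prime_three Nat.prime_two)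
    · exact absurd hm (by norm_num)
  · obtain ⟨k, hk⟩ := hd
    have : k ≤ 8 := by omega
    interval_cases k
    all_goals first
      | omega
      | exact absurd hk (hpq 2 3 2 1 Nat.prime_two Nat.prime_three)
      | exact absurd hk (hpq 2 3 3 1 Nat.prime_two Nat.prime_three)
      | exact absurd hk (hpq 2 3 2 2 Nat.prime_two Nat.prime_three)
      | exact absurd hk (hpq 2 3 4 1 Nat.prime_two Nat.prime_three)
      | exact absurd hk (hpq 2 3 3 2 Nat.prime_two Nat.prime_three)
      | exact absurd hk (hpq 2 3 5 1 Nat.prime_two Nat.prime_three)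


end Cfsg.Agent.S0493
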