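import Cfsg.Statements.S0514
import Cfsg.Agent.BSW.DihedralCz

set_option autoImplicit false
open Cfsg

namespace Cfsg.Agent.S0514

/-- In a finite group whose Sylow 2-subgroups are dihedral of order at least 4, the centralizer of any involution has a
normal subgroup of odd order whose index in the centralizer is a power of 2. -/
theorem result {X : Type*} [Group X] [Finite X]
    (S : Sylow 2 X) (n : ℕ) (hn : 2 ≤ n) (hS : Nonempty ((S : Subgroup X) ≃* DihedralGroup n)) (t : X)
    (ht : orderOf t = 2) :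
    ∃ N : Subgroup (Subgroup.centralizer ({t} : Set X)), N.Normal ∧ Odd (Nat.card N) ∧ ∃ k : ℕ, N.index = 2 ^ k := by
  haveI : Fact (Nat.Prime 2) := ⟨Nat.prime_two⟩
  obtain ⟨P, N, hN, hNP⟩ := CfsgLib.BSW.centralizer_hasNormalPComplement S (by omega) hS ht
  obtain ⟨k, hk⟩ := IsPGroup.iff_card.1 P.isPGroup'
  refine ⟨N, hN, ?_, k, by rw [hNP.symm.index_eq_card, hk]⟩
  have h := P.not_dvd_index
  rw [hNP.index_eq_card] at h
  rw [Nat.odd_iff]; omega

end Cfsg.Agent.S0514
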