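import Cfsg.Statements.S0629
import Mathlib.Tactic
import Cfsg.Agent.PCore.Descent

set_option autoImplicit false
open Cfsg
open scoped commutatorElement

namespace Cfsg.Agent.S0629

/-- A group in which the centralizer of a Sylow p-subgroup of O_{p',p}(G) is p-solvable is p-constrained. -/
theorem result {G : Type*} [Group G] [Finite G] {p : ℕ} [Fact p.Prime] (P : Sylow p ↥(Cfsg.pPrimePCore p G)) (hsol : Cfsg.IsPSolvable p ↥(Subgroup.centralizer (((P : Subgroup ↥(Cfsg.pPrimePCore p G)).map (Cfsg.pPrimePCore p G).subtype : Subgroup G) : Set G))) : Cfsg.IsPConstrained p G := by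
  rw [CfsgLib.PCore.isPConstrained_iff]
  refine CfsgLib.PCore.hall_higman' ?_ CfsgLib.PCore.pPrimeCore_quotient
  set π := QuotientGroup.mk' (Cfsg.pPrimeCore p G)
  have e : (Subgroup.centralizer (((P : Subgroup ↥(Cfsg.pPrimePCore p G)).map (Cfsg.pPrimePCore p G).subtype : Subgroup G) : Set G)).map π =
      Subgroup.centralizer ((Cfsg.pCore p (G ⧸ Cfsg.pPrimeCore p G) : Subgroup _) : Set (G ⧸ Cfsg.pPrimeCore p G)) := by
    rw [← CfsgLib.PCore.sylow_map_eq_pCore P,
      CfsgLib.PCore.centralizer_map_eq _ (CfsgLib.PCore.pPrimeCore_coprime p G) _ (P.2.map _)]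
  rw [← e]
  exact CfsgLib.PCore.isPSolvable_map hsol (π.subgroupMap _) (MonoidHom.subgroupMap_surjective _ _)

end Cfsg.Agent.S0629
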