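import Cfsg.Statements.S0719
import Cfsg.Agent.PermChar.Basic

set_option autoImplicit false
open Cfsg

namespace Cfsg.Agent.S0719

open scoped Matrix
open CfsgLib.CharBasics CfsgLib.PermChar

/-- The arithmetic of a rank three graph with multiplicities `m - 1` and `m`. -/
theorem arith {k r s m : ℤ} (hk : 2 ≤ k) (hk2 : k + 2 ≤ 2 * m - 1) (h1 : k + (m - 1) * r + m * s = 0)
    (h2 : k ^ 2 + (m - 1) * r ^ 2 + m * s ^ 2 = 2 * m * k) :
    ∃ a : ℤ, 0 < a ∧ m = 2 * a ^ 2 + 2 * a + 1 ∧ (k = a * (2 * a + 1) ∨ k = (a + 1) * (2 * a + 1)) := by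
  have key : ∀ k r s : ℤ, 2 ≤ k → k + 2 ≤ 2 * m - 1 → k + (m - 1) * r + m * s = 0 →
      k ^ 2 + (m - 1) * r ^ 2 + m * s ^ 2 = 2 * m * k → 0 ≤ r →
      0 < r ∧ m = 2 * r ^ 2 + 2 * r + 1 ∧ k = (r + 1) * (2 * r + 1) := by
    intro k r s hk hk2 h1 h2 hr
    obtain ⟨j, rfl⟩ : ∃ j, s = -r - j := ⟨-r - s, by ring⟩
    have hkj : k = r + j * m := by linear_combination h1
    subst hkj
    have he : m * (2 * r ^ 2 + 4 * r * j - 2 * r + j ^ 2 + m * (j ^ 2 - 2 * j)) = 0 := by
      linear_combination h2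
    have hm : 3 ≤ m := by omega
    have he2 := (mul_eq_zero.1 he).resolve_left (by omega)
    have hj : j = 1 := by
      rcases lt_trichotomy j 0 with hj | hj | hj
      · exfalso
        have hb : j * m ≤ -m := by nlinarith
        have hr' : m ≤ r := by omega
        nlinarith [mul_le_mul hr' hr' (by omega) hr, mul_nonneg (show (0:ℤ) ≤ m - 2 by omega) (sq_nonneg r),
          mul_nonneg (show (0:ℤ) ≤ m by omega) (sq_nonneg (r + j)), sq_nonneg (r + j * m)]
      · exfalso
        subst hj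
        have : r * (r - 1) = 0 := by linarith [show 2 * (r * (r - 1)) = 0 by linear_combination he2]
        rcases mul_eq_zero.1 this with h | h <;> omega
      · by_contra hne
        have hj2 : 2 ≤ j := by omega
        have : 0 ≤ m * (j ^ 2 - 2 * j) := mul_nonneg (by omega) (by nlinarith)
        have : 0 ≤ r * (4 * j - 2) := mul_nonneg hr (by omega)
        nlinarith [sq_nonneg r]
    subst hj
    have hmr : m = 2 * r ^ 2 + 2 * r + 1 := by linear_combination -he2
    refine ⟨?_, hmr, by rw [hmr]; ring⟩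
    rcases lt_or_eq_of_le hr with h | h
    · exact h
    · subst h; omega
  rcases le_or_gt 0 r with hr | hr
  · obtain ⟨h3, h4, h5⟩ := key k r s hk hk2 h1 h2 hr
    exact ⟨r, h3, h4, Or.inr h5⟩
  · obtain ⟨h3, h4, h5⟩ := key (2 * m - 1 - k) (-1 - r) (-1 - s) (by omega) (by omega)
      (by linear_combination -h1) (by linear_combination h2 + 2 * h1) (by omega)
    refine ⟨-1 - r, h3, h4, Or.inl ?_⟩
    linear_combination 2 * h4 - h5

variable {G : Type*} [Group G] [Fintype G] {Ω : Type*} [Fintype Ω] [MulAction G Ω]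

/-- An invariant matrix gives an operator commuting with the permutation representation. -/
theorem comm_of_inv [DecidableEq Ω] (N : Matrix Ω Ω ℂ) (hN : ∀ (g : G) x y, N (g • x) (g • y) = N x y) (g : G) :
    Commute (Matrix.toLin' N) (Cfsg.permRep ℂ G Ω g) := by
  refine LinearMap.ext fun v => funext fun x => ?_
  rw [Module.End.mul_apply, Module.End.mul_apply, permRep_apply]
  simp only [Matrix.toLin'_apply, Matrix.mulVec, dotProduct]
  refine (Fintype.sum_equiv (MulAction.toPerm g) _ _ fun y => ?_).symm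
  show N (g⁻¹ • x) y * v y = N x (g • y) * Cfsg.permRep ℂ G Ω g v (g • y)
  rw [permRep_apply, inv_smul_smul, ← hN g (g⁻¹ • x) y, smul_inv_smul]

/-- The character carried by an invariant idempotent. -/
theorem isCharacter_of_idem (T : Module.End ℂ (Ω → ℂ)) (hT : T * T = T)
    (hc : ∀ g : G, Commute T (Cfsg.permRep ℂ G Ω g)) :
    Cfsg.IsCharacter G (fun g => LinearMap.trace ℂ (Ω → ℂ) (Cfsg.permRep ℂ G Ω g * T)) ∧
      (LinearMap.trace ℂ (Ω → ℂ) T = 0 → T = 0) := by
  classical
  let W : Submodule ℂ (Ω → ℂ) := LinearMap.range T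
  let U : Subrepresentation (Cfsg.permRep ℂ G Ω) := ⟨W, fun g v hv => by
    obtain ⟨w, rfl⟩ := hv
    exact ⟨Cfsg.permRep ℂ G Ω g w, LinearMap.congr_fun (hc g).eq w⟩⟩
  let e : (Ω → ℂ) →ₗ[ℂ] W := T.rangeRestrict
  have he : ∀ w : W, e (w : Ω → ℂ) = w := by
    rintro ⟨_, v, rfl⟩
    exact Subtype.ext (LinearMap.congr_fun hT v)
  have heq : (fun g => LinearMap.trace ℂ (Ω → ℂ) (Cfsg.permRep ℂ G Ω g * T)) = U.toRepresentation.character := by
    funext g
    have : Cfsg.permRep ℂ G Ω g * T = W.subtype ∘ₗ ((U.toRepresentation g : W →ₗ[ℂ] W) ∘ₗ e) :=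
      LinearMap.ext fun v => rfl
    rw [this, LinearMap.trace_comp_comm']
    refine congrArg (LinearMap.trace ℂ W) (LinearMap.ext fun w => ?_)
    show U.toRepresentation g (e (w : Ω → ℂ)) = U.toRepresentation g w
    rw [he]
  refine ⟨?_, fun h0 => ?_⟩
  · rw [heq, ← repConj_character (e := (Module.finBasis ℂ W).equivFun)]
    exact isCharacter_rep _
  · have : LinearMap.trace ℂ W (e ∘ₗ W.subtype) = 0 := by
      rw [← LinearMap.trace_comp_comm']
      exact h0
    rw [show e ∘ₗ W.subtype = LinearMap.id from LinearMap.ext he, LinearMap.trace_id, Nat.cast_eq_zero] at this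
    exact LinearMap.range_eq_bot.1 (Submodule.finrank_eq_zero.1 this)

/-- The common constituents. -/
theorem degrees (χ₁ χ₂ ψ φ : G → ℂ) (hχ₁ : Cfsg.IsIrrCharacter G χ₁) (hχ₂ : Cfsg.IsIrrCharacter G χ₂)
    (hψ : Cfsg.IsCharacter G ψ) (hφ : Cfsg.IsCharacter G φ) (hψ0 : ψ 1 ≠ 0) (hφ0 : φ 1 ≠ 0)
    (hπ : (fun g => 1 + χ₁ g + χ₂ g) = (fun g => 1 + ψ g + φ g))
    (h3 : Cfsg.classInner (fun g => 1 + ψ g + φ g) (fun g => 1 + ψ g + φ g) = 3) :
    ψ 1 = χ₁ 1 ∨ ψ 1 = χ₂ 1 := by
  classical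
  have hpos : ∀ {η : G → ℂ}, Cfsg.IsCharacter G η → η 1 ≠ 0 → ∃ n : ℕ, 0 < n ∧ Cfsg.classInner η η = n := by
    intro η hη h0
    obtain ⟨n, hn⟩ := classInner_characters_nat hη hη
    refine ⟨n, Nat.pos_of_ne_zero fun hn0 => ?_, hn⟩
    rw [hn0, Nat.cast_zero, classInner_eq, mul_eq_zero] at hn
    rcases hn with hn | hn
    · simp [Nat.card_pos.ne'] at hn
    · simp only [Complex.mul_conj, ← Complex.ofReal_sum, Complex.ofReal_eq_zero] at hn
      exact h0 (Complex.normSq_eq_zero.1 ((Finset.sum_eq_zero_iff_of_nonneg fun g _ => Complex.normSq_nonneg _).1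
        hn 1 (Finset.mem_univ _)))
  have hone := isCharacter_of_irr (isIrrCharacter_one (G := G))
  obtain ⟨a, ha0, ha⟩ := hpos hψ hψ0
  obtain ⟨b, hb0, hb⟩ := hpos hφ hφ0
  obtain ⟨c1, hc1⟩ := classInner_characters_nat hone hψ
  obtain ⟨c1', hc1'⟩ := classInner_characters_nat hψ hone
  obtain ⟨c2, hc2⟩ := classInner_characters_nat hone hφ
  obtain ⟨c2', hc2'⟩ := classInner_characters_nat hφ hone
  obtain ⟨c3, hc3⟩ := classInner_characters_nat hψ hφ
  obtain ⟨c3', hc3'⟩ := classInner_characters_nat hφ hψ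
  have hsum : (fun g => 1 + ψ g + φ g) = (fun _ => (1 : ℂ)) + ψ + φ := rfl
  have hright : ∀ x y z w : G → ℂ, Cfsg.classInner x (y + z + w) =
      Cfsg.classInner x y + Cfsg.classInner x z + Cfsg.classInner x w := by
    intro x y z w
    simp only [classInner_eq, Pi.add_apply, map_add, mul_add, Finset.sum_add_distrib]
  have h11 : Cfsg.classInner (fun _ : G => (1 : ℂ)) (fun _ => 1) = 1 := classInner_self isIrrCharacter_one
  rw [hsum, classInner_add_left, classInner_add_left, hright, hright, hright, h11, hc1, hc2, hc1', ha,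
    hc3, hc2', hc3', hb] at h3
  have h3' : 1 + c1 + c2 + (c1' + a + c3) + (c2' + c3' + b) = 3 := by exact_mod_cast h3
  have ha1 : a = 1 := by omega
  have hirr : Cfsg.IsIrrCharacter G ψ := isIrr_of_norm_one hψ (by rw [ha, ha1, Nat.cast_one])
  have hψ1 : ψ ≠ fun _ => (1 : ℂ) := by
    intro h
    rw [h, h11] at hc1
    have : c1 = 1 := by exact_mod_cast hc1.symm
    omega
  by_contra hne
  push Not at hne
  have e1 : Cfsg.classInner ((fun _ => (1 : ℂ)) + χ₁ + χ₂) ψ = Cfsg.classInner ((fun _ => (1 : ℂ)) + ψ + φ) ψ :=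
    congrArg (fun f => Cfsg.classInner f ψ) hπ
  rw [classInner_add_left, classInner_add_left, classInner_add_left, classInner_add_left,
    classInner_ne isIrrCharacter_one hirr hψ1.symm,
    classInner_ne hχ₁ hirr (fun h => hne.1 (by rw [h])), classInner_ne hχ₂ hirr (fun h => hne.2 (by rw [h])),
    ha, hc3', ha1] at e1
  have : (0 : ℕ) = 0 + 1 + c3' := by exact_mod_cast e1
  omega

set_option maxHeartbeats 1600000 in
theorem main [DecidableEq Ω] (hprim : MulAction.IsPreprimitive G Ω) {m : ℕ} (hm : Fintype.card Ω = 2 * m) (a₀ : Ω)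
    (hrank : Nat.card (MulAction.orbitRel.Quotient (MulAction.stabilizer G a₀) Ω) = 3) (χ₁ χ₂ : G → ℂ)
    (h₁ : Cfsg.IsIrrCharacter G χ₁) (h₂ : Cfsg.IsIrrCharacter G χ₂)
    (hπ : piChar G Ω = fun g => 1 + χ₁ g + χ₂ g) (hd₁ : χ₁ 1 = (m : ℂ) - 1) (hd₂ : χ₂ 1 = m) :
    ∃ a : ℕ, 0 < a ∧ m = 2 * a ^ 2 + 2 * a + 1 ∧ ∀ b : Ω, b ≠ a₀ →
      Nat.card (MulAction.orbit (MulAction.stabilizer G a₀) b) = a * (2 * a + 1) ∨
      Nat.card (MulAction.orbit (MulAction.stabilizer G a₀) b) = (a + 1) * (2 * a + 1) := by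
  classical
  haveI := hprim.toIsPretransitive
  let S := MulAction.stabilizer G a₀
  haveI : Fintype (MulAction.orbitRel.Quotient S Ω) := Fintype.ofFinite _
  let q : Ω → MulAction.orbitRel.Quotient S Ω := Quotient.mk''
  have hq : ∀ x y, q x = q y ↔ x ∈ MulAction.orbit S y := fun x y => Quotient.eq''.trans Iff.rfl
  have hsingle : ∀ x, q x = q a₀ → x = a₀ := by
    intro x hx
    obtain ⟨⟨g, hg⟩, rfl⟩ := (hq x a₀).1 hx
    exact hg
  rw [Nat.card_eq_fintype_card] at hrank
  -- two further orbits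
  obtain ⟨u, v, hu, hv, huv, hall⟩ : ∃ u v, u ≠ q a₀ ∧ v ≠ q a₀ ∧ u ≠ v ∧ ∀ w, w = q a₀ ∨ w = u ∨ w = v := by
    obtain ⟨x, y, z, hxy, hxz, hyz, hun⟩ := Finset.card_eq_three.1 (hrank ▸ Finset.card_univ)
    have hmem : ∀ w, w = x ∨ w = y ∨ w = z := fun w => by simpa [hun] using Finset.mem_univ w
    rcases hmem (q a₀) with h | h | h <;> rw [h]
    · exact ⟨y, z, hxy.symm, hxz.symm, hyz, hmem⟩
    · exact ⟨x, z, hxy, hyz.symm, hxz, fun w => by rcases hmem w with e | e | e <;> simp [e]⟩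
    · exact ⟨x, y, hxz, hyz, hxy, fun w => by rcases hmem w with e | e | e <;> simp [e]⟩
  obtain ⟨b, rfl⟩ : ∃ b, q b = u := Quotient.exists_rep u
  obtain ⟨c, rfl⟩ : ∃ c, q c = v := Quotient.exists_rep v
  set k := Nat.card (MulAction.orbit S b) with hkdef
  set l := Nat.card (MulAction.orbit S c) with hldef
  have hcount : 1 + k + l = 2 * m := by
    have hp : ∀ x, x = a₀ ∨ x ∈ MulAction.orbit S b ∨ x ∈ MulAction.orbit S c := fun x => by
      rcases hall (q x) with h | h | h
      · exact Or.inl (hsingle x h)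
      · exact Or.inr (Or.inl ((hq x b).1 h))
      · exact Or.inr (Or.inr ((hq x c).1 h))
    have h1 : (Finset.univ : Finset Ω) = {a₀} ∪ ((MulAction.orbit S b).toFinset ∪ (MulAction.orbit S c).toFinset) := by
      ext x; simpa using hp x
    rw [← hm, ← Finset.card_univ, h1, Finset.card_union_of_disjoint, Finset.card_union_of_disjoint,
      Finset.card_singleton, Set.toFinset_card, Set.toFinset_card, hkdef, hldef, Nat.card_eq_fintype_card,
      Nat.card_eq_fintype_card]
    · ring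
    · simp only [Finset.disjoint_left, Set.mem_toFinset]
      intro x hx hx'
      exact huv (((hq x b).2 hx).symm.trans ((hq x c).2 hx'))
    · simp only [Finset.disjoint_left, Finset.mem_singleton, Finset.mem_union, Set.mem_toFinset]
      rintro x rfl (hx | hx)
      · exact hu ((hq _ b).2 hx).symm
      · exact hv ((hq _ c).2 hx).symm
  have hab : b ≠ a₀ := fun h => hu (by rw [h])
  have hac : c ≠ a₀ := fun h => hv (by rw [h])
  have hbig : ∀ y, y ≠ a₀ → 2 ≤ Nat.card (MulAction.orbit S y) := by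
    intro y hy
    by_contra hlt
    haveI : Subsingleton (MulAction.orbit S y) := (Finite.card_le_one_iff_subsingleton).1 (by omega)
    have hle : MulAction.stabilizer G a₀ ≤ MulAction.stabilizer G y := fun g hg =>
      congrArg Subtype.val (Subsingleton.elim (⟨g • y, ⟨⟨g, hg⟩, rfl⟩⟩ : MulAction.orbit S y)
        ⟨y, MulAction.mem_orbit_self y⟩)
    haveI : Nontrivial Ω := ⟨⟨y, a₀, hy⟩⟩
    have hco := MulAction.IsPreprimitive.isCoatom_stabilizer_of_isPreprimitive (G := G) a₀
    have hne : MulAction.stabilizer G y ≠ ⊤ := by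
      intro htop
      obtain ⟨g, hg⟩ := MulAction.exists_smul_eq G y a₀
      have : g ∈ MulAction.stabilizer G y := htop ▸ Subgroup.mem_top g
      exact hy (MulAction.mem_stabilizer_iff.1 this ▸ hg)
    have heq : MulAction.stabilizer G a₀ = MulAction.stabilizer G y :=
      hle.eq_or_lt.resolve_right fun h => hne (hco.2 _ h)
    let B : Set Ω := {x | MulAction.stabilizer G x = MulAction.stabilizer G a₀}
    have hB : MulAction.IsBlock G B := by
      rw [MulAction.isBlock_iff_smul_eq_of_nonempty]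
      rintro g ⟨x, ⟨z, hz, rfl⟩, hgz⟩
      ext w
      have e : ∀ t : Ω, MulAction.stabilizer G (g • t) = (MulAction.stabilizer G t).map (MulAut.conj g).toMonoidHom :=
        fun t => MulAction.stabilizer_smul_eq_stabilizer_map_conj g t
      have hgz' : MulAction.stabilizer G (g • z) = MulAction.stabilizer G a₀ := hgz
      rw [e, (hz : MulAction.stabilizer G z = MulAction.stabilizer G a₀)] at hgz'
      constructor
      · rintro ⟨t, ht, rfl⟩
        show _ = _
        rw [e, (ht : MulAction.stabilizer G t = MulAction.stabilizer G a₀), hgz']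
      · intro hw
        refine ⟨g⁻¹ • w, ?_, smul_inv_smul g w⟩
        apply Subgroup.map_injective (f := (MulAut.conj g).toMonoidHom) (MulAut.conj g).injective
        rw [← e, smul_inv_smul, hgz']
        exact hw
    have hall' : ∀ x : Ω, MulAction.stabilizer G x = MulAction.stabilizer G a₀ := by
      rcases hprim.isTrivialBlock_of_isBlock hB with hs | hu'
      · exact absurd (hs heq.symm rfl) hy
      · exact fun x => (hu'.symm ▸ Set.mem_univ x : x ∈ B)
    have hfix : ∀ x : Ω, ∀ z ∈ MulAction.orbit S x, z = x := by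
      rintro x _ ⟨⟨g, hg⟩, rfl⟩
      have hg' : g ∈ MulAction.stabilizer G x := (hall' x).symm ▸ hg
      exact MulAction.mem_stabilizer_iff.1 hg'
    have e1 : k = 1 := by
      haveI : Subsingleton (MulAction.orbit S b) :=
        ⟨fun x z => Subtype.ext ((hfix b x x.2).trans (hfix b z z.2).symm)⟩
      exact Nat.card_of_subsingleton ⟨b, MulAction.mem_orbit_self b⟩
    have e2 : l = 1 := by
      haveI : Subsingleton (MulAction.orbit S c) :=
        ⟨fun x z => Subtype.ext ((hfix c x x.2).trans (hfix c z z.2).symm)⟩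
      exact Nat.card_of_subsingleton ⟨c, MulAction.mem_orbit_self c⟩
    omega
  have hk2 := hbig b hab
  have hl2 := hbig c hac
  -- the orbital graph
  let R : Ω → Ω → Prop := fun x y => ∃ g : G, g • a₀ = x ∧ g • b = y
  have hRg : ∀ (g : G) x y, R (g • x) (g • y) ↔ R x y := by
    intro g x y
    constructor
    · rintro ⟨h, e1, e2⟩
      exact ⟨g⁻¹ * h, by rw [mul_smul, e1, inv_smul_smul], by rw [mul_smul, e2, inv_smul_smul]⟩
    · rintro ⟨h, rfl, rfl⟩
      exact ⟨g * h, mul_smul .., mul_smul ..⟩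
  have hRa : ∀ y, R a₀ y ↔ y ∈ MulAction.orbit S b := by
    intro y
    constructor
    · rintro ⟨g, e1, e2⟩
      exact ⟨⟨g, e1⟩, e2⟩
    · rintro ⟨⟨g, e1⟩, e2⟩
      exact ⟨g, e1, e2⟩
  have hdeg : ∀ x, (Finset.univ.filter fun y => R x y).card = k := by
    intro x
    obtain ⟨g, rfl⟩ := MulAction.exists_smul_eq G a₀ x
    rw [← Finset.card_map (MulAction.toPerm g⁻¹).toEmbedding, hkdef, Nat.card_eq_fintype_card, ← Set.toFinset_card]
    congr 1
    ext y
    simp only [Finset.mem_map, Finset.mem_filter, Finset.mem_univ, true_and, Equiv.coe_toEmbedding,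
      MulAction.toPerm_apply, Set.mem_toFinset, ← hRa]
    constructor
    · rintro ⟨z, hz, rfl⟩
      rwa [← hRg g, smul_inv_smul]
    · intro hy
      exact ⟨g • y, (hRg g a₀ y).2 hy, inv_smul_smul g y⟩
  have hirr : ∀ x, ¬ R x x := fun x ⟨g, e1, e2⟩ => hab (MulAction.injective g (e2.trans e1.symm))
  have hnb : ∀ y, y ≠ a₀ → ¬ R a₀ y → y ∈ MulAction.orbit S c := fun y hy hy' => by
    rcases hall (q y) with h | h | h
    · exact absurd (hsingle y h) hy
    · exact absurd ((hRa y).2 ((hq y b).1 h)) hy'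
    · exact (hq y c).1 h
  have hsym : ∀ x y, R x y → R y x := by
    have hb : R b a₀ := by
      by_contra hnot
      have hcol : (Finset.univ.filter fun x => R x a₀).card = k := by
        have hc : ∀ z, (Finset.univ.filter fun x => R x z).card = (Finset.univ.filter fun x => R x a₀).card := by
          intro z
          obtain ⟨g, rfl⟩ := MulAction.exists_smul_eq G a₀ z
          rw [← Finset.card_map (MulAction.toPerm g).toEmbedding (s := Finset.univ.filter fun x => R x a₀)]
          congr 1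
          ext y
          simp only [Finset.mem_map, Finset.mem_filter, Finset.mem_univ, true_and, Equiv.coe_toEmbedding,
            MulAction.toPerm_apply]
          constructor
          · intro hy
            exact ⟨g⁻¹ • y, by rwa [← hRg g, smul_inv_smul], smul_inv_smul g y⟩
          · rintro ⟨z, hz, rfl⟩
            exact (hRg g z a₀).2 hz
        have := Finset.sum_card_bipartiteAbove_eq_sum_card_bipartiteBelow (s := Finset.univ) (t := Finset.univ) R
        simp only [Finset.bipartiteAbove, Finset.bipartiteBelow, hdeg, hc, Finset.sum_const, Finset.card_univ,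
          smul_eq_mul, hm] at this
        exact (Nat.eq_of_mul_eq_mul_left (by omega) this).symm
      have hsub : (Finset.univ.filter fun x => R x a₀) ⊆ (MulAction.orbit S c).toFinset := by
        intro x hx
        simp only [Finset.mem_filter, Finset.mem_univ, true_and] at hx
        rw [Set.mem_toFinset]
        refine hnb x (fun e => hirr a₀ (e ▸ hx)) fun h => hnot ?_
        obtain ⟨⟨g, hg⟩, rfl⟩ := (hRa x).1 h
        have : R (g • b) (g • a₀) := by rw [MulAction.mem_stabilizer_iff.1 hg]; exact hx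
        exact (hRg g b a₀).1 this
      have hne : (Finset.univ.filter fun x => R x a₀).Nonempty := Finset.card_pos.1 (by omega)
      obtain ⟨x, hx⟩ := hne
      have hsup : (MulAction.orbit S c).toFinset ⊆ (Finset.univ.filter fun x => R x a₀) := by
        intro y hy
        rw [Set.mem_toFinset] at hy
        have hxo := Set.mem_toFinset.1 (hsub hx)
        rw [← (MulAction.orbit_eq_iff.2 hxo)] at hy
        obtain ⟨⟨g, hg⟩, rfl⟩ := hy
        simp only [Finset.mem_filter, Finset.mem_univ, true_and] at hx ⊢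
        have := (hRg g x a₀).2 hx
        rwa [MulAction.mem_stabilizer_iff.1 hg] at this
      have heq : k = l := by
        rw [← hcol, Finset.Subset.antisymm hsub hsup, Set.toFinset_card, hldef, Nat.card_eq_fintype_card]
      omega
    rintro x y ⟨g, rfl, rfl⟩
    exact (hRg g b a₀).2 hb
  -- the matrices
  let M : Matrix Ω Ω ℂ := Matrix.of fun x y => if R x y then 1 else 0
  let J : Matrix Ω Ω ℂ := Matrix.of fun _ _ => 1
  let N : Ω → Ω → ℕ := fun x y => (Finset.univ.filter fun z => R x z ∧ R z y).card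
  have hNg : ∀ (g : G) x y, N (g • x) (g • y) = N x y := by
    intro g x y
    show (Finset.univ.filter _).card = (Finset.univ.filter _).card
    rw [← Finset.card_map (MulAction.toPerm g).toEmbedding (s := Finset.univ.filter fun z => R x z ∧ R z y)]
    congr 1
    ext z
    simp only [Finset.mem_map, Finset.mem_filter, Finset.mem_univ, true_and, Equiv.coe_toEmbedding,
      MulAction.toPerm_apply]
    constructor
    · intro hz
      refine ⟨g⁻¹ • z, ?_, smul_inv_smul g z⟩
      rwa [← hRg g x, ← hRg g (g⁻¹ • z), smul_inv_smul]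
    · rintro ⟨z, hz, rfl⟩
      exact ⟨(hRg g x z).2 hz.1, (hRg g z y).2 hz.2⟩
  set la := N a₀ b with hla
  set mu := N a₀ c with hmu
  have hMM : M * M = (k : ℂ) • 1 + (la : ℂ) • M + (mu : ℂ) • (J - 1 - M) := by
    ext x y
    have hN : (M * M) x y = (N x y : ℂ) := by
      simp only [Matrix.mul_apply, M, Matrix.of_apply, N]
      rw [← Finset.sum_boole]
      refine Finset.sum_congr rfl fun z _ => ?_
      by_cases h1 : R x z <;> by_cases h2 : R z y <;> simp [h1, h2]
    rw [hN]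
    simp only [Matrix.add_apply, Matrix.sub_apply, Matrix.smul_apply, Matrix.one_apply, M, J, Matrix.of_apply,
      smul_eq_mul]
    obtain ⟨g, rfl⟩ := MulAction.exists_smul_eq G a₀ x
    obtain ⟨y, rfl⟩ : ∃ z, g • z = y := ⟨g⁻¹ • y, smul_inv_smul g y⟩
    simp only [hNg, hRg, smul_left_cancel_iff]
    by_cases h0 : a₀ = y
    · subst h0
      have : N a₀ a₀ = k := by
        rw [← hdeg a₀]
        exact congrArg Finset.card (Finset.filter_congr fun z _ => ⟨fun h => h.1, fun h => ⟨h, hsym _ _ h⟩⟩)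
      simp [hirr, this]
    · by_cases h1 : R a₀ y
      · obtain ⟨⟨s, hs⟩, rfl⟩ := (hRa y).1 h1
        have : N a₀ (s • b) = la := by
          conv_lhs => rw [← MulAction.mem_stabilizer_iff.1 hs]
          exact hNg s a₀ b
        have h1' : R a₀ (s • b) := h1
        have h0' : ¬ a₀ = s • b := h0
        simp [Subgroup.smul_def, h0', h1', this]
      · obtain ⟨⟨s, hs⟩, rfl⟩ := hnb y (Ne.symm h0) h1
        have : N a₀ (s • c) = mu := by
          conv_lhs => rw [← MulAction.mem_stabilizer_iff.1 hs]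
          exact hNg s a₀ c
        have h1' : ¬ R a₀ (s • c) := h1
        have h0' : ¬ a₀ = s • c := h0
        simp [Subgroup.smul_def, h0', h1', this]
  have hMJ : M * J = (k : ℂ) • J := by
    ext x y
    simp only [Matrix.mul_apply, M, J, Matrix.of_apply, mul_one, Matrix.smul_apply, smul_eq_mul]
    rw [Finset.sum_boole, hdeg]
  have hJM : J * M = (k : ℂ) • J := by
    ext x y
    simp only [Matrix.mul_apply, M, J, Matrix.of_apply, one_mul, mul_one, Matrix.smul_apply,
      smul_eq_mul]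
    rw [Finset.sum_boole, ← hdeg y]
    exact congrArg (fun s : Finset Ω => (s.card : ℂ)) (Finset.filter_congr fun z _ => ⟨hsym _ _, hsym _ _⟩)
  have hJJ : J * J = ((2 * m : ℕ) : ℂ) • J := by
    ext x y
    simp [Matrix.mul_apply, J, hm]
  have hrel : (k : ℂ) * k = k + la * k + mu * ((2 * m : ℕ) - 1 - k) := by
    have h : M * M * J = ((k : ℂ) • 1 + (la : ℂ) • M + (mu : ℂ) • (J - 1 - M)) * J := by rw [hMM]
    simp only [mul_assoc, hMJ, Matrix.mul_smul, smul_smul, add_mul, sub_mul, one_mul, Matrix.smul_mul, hJJ] at h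
    replace h := congrFun (congrFun h a₀) a₀
    simp only [Matrix.add_apply, Matrix.sub_apply, Matrix.smul_apply, J, Matrix.of_apply, smul_eq_mul, mul_one] at h
    linear_combination h
  have hkmu : mu ≤ k := by
    rw [← hdeg a₀]
    exact Finset.card_le_card fun z hz => by simp only [Finset.mem_filter] at hz ⊢; exact ⟨hz.1, hz.2.1⟩
  have hlak : la < k := by
    rw [← hdeg a₀]
    refine Finset.card_lt_card ⟨fun z hz => by simp only [Finset.mem_filter] at hz ⊢; exact ⟨hz.1, hz.2.1⟩,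
      fun h => ?_⟩
    have hb := @h b (by simp [(hRa b).2 (MulAction.mem_orbit_self b)])
    simp only [Finset.mem_filter] at hb
    exact hirr b hb.2.2
  -- the eigenvalues
  set Dd : ℝ := ((la : ℝ) - mu) ^ 2 + 4 * ((k : ℝ) - mu) with hDd
  have hDpos : 0 < Dd := by
    rcases hkmu.eq_or_lt with h | h
    · have h1 : ((la : ℝ) - mu) < 0 := by
        have : (la : ℝ) < mu := by exact_mod_cast h ▸ hlak
        linarith
      have h2 : ((k : ℝ) - mu) = 0 := by rw [h]; ring
      rw [hDd, h2]; nlinarith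
    · have : (mu : ℝ) < k := by exact_mod_cast h
      rw [hDd]; nlinarith [sq_nonneg ((la : ℝ) - mu)]
  set σ : ℂ := ((Real.sqrt Dd : ℝ) : ℂ) with hσ
  have hσ0 : σ ≠ 0 := by
    rw [hσ, Complex.ofReal_ne_zero]
    exact (Real.sqrt_pos.2 hDpos).ne'
  have hσ2 : σ ^ 2 = ((la : ℂ) - mu) ^ 2 + 4 * ((k : ℂ) - mu) := by
    rw [hσ, ← Complex.ofReal_pow, Real.sq_sqrt hDpos.le, hDd]
    push_cast; ring
  set r : ℂ := (((la : ℂ) - mu) + σ) / 2 with hr
  set s : ℂ := (((la : ℂ) - mu) - σ) / 2 with hs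
  have hrs : r + s = (la : ℂ) - mu := by rw [hr, hs]; ring
  have hrs2 : r * s = (mu : ℂ) - k := by rw [hr, hs]; linear_combination (-(1 : ℂ) / 4) * hσ2
  have hrs3 : r - s = σ := by rw [hr, hs]; ring
  have hn0 : ((2 * m : ℕ) : ℂ) ≠ 0 := Nat.cast_ne_zero.2 (by omega)
  let Q : Matrix Ω Ω ℂ := ((2 * m : ℕ) : ℂ)⁻¹ • J
  let E : Matrix Ω Ω ℂ := σ⁻¹ • (M - (k : ℂ) • Q - s • (1 - Q))
  let F : Matrix Ω Ω ℂ := 1 - Q - E
  have hQQ : Q * Q = Q := by
    simp only [Q, Matrix.smul_mul, Matrix.mul_smul, hJJ, smul_smul]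
    congr 1
    field_simp
  have hMQ : M * Q = (k : ℂ) • Q := by simp only [Q, Matrix.mul_smul, hMJ, smul_smul, mul_comm]
  have hQM : Q * M = (k : ℂ) • Q := by simp only [Q, Matrix.smul_mul, hJM, smul_smul, mul_comm]
  have hMM' : M * M = ((la : ℂ) - mu) • M + ((k : ℂ) - mu) • 1 + ((mu : ℂ) * (2 * m : ℕ)) • Q := by
    rw [hMM]
    simp only [Q, smul_smul, mul_assoc, mul_inv_cancel₀ hn0]
    module
  have hEE : E * E = E := by
    have hgen : ∀ Q' : Matrix Ω Ω ℂ, Q' * Q' = Q' → M * Q' = (k : ℂ) • Q' → Q' * M = (k : ℂ) • Q' →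
        M * M = ((la : ℂ) - mu) • M + ((k : ℂ) - mu) • 1 + ((mu : ℂ) * (2 * m : ℕ)) • Q' →
        (σ⁻¹ • (M - (k : ℂ) • Q' - s • (1 - Q'))) * (σ⁻¹ • (M - (k : ℂ) • Q' - s • (1 - Q'))) =
          σ⁻¹ • (M - (k : ℂ) • Q' - s • (1 - Q')) := by
      intro Q' q1 q2 q3 q4
      simp only [Matrix.smul_mul, Matrix.mul_smul, smul_smul, sub_mul, mul_sub, one_mul, mul_one, q1, q2, q3,
        q4, smul_sub]
      match_scalars <;> field_simp
      · linear_combination -hrs - hrs3
      · linear_combination hrs2 - s * hrs3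
      · push_cast at hrel ⊢
        linear_combination -hrel + k * hrs + k * hrs3 - hrs2 + s * hrs3
    exact hgen Q hQQ hMQ hQM hMM'
  have hEQ : E * Q = 0 := by
    simp only [E, Matrix.smul_mul, sub_mul, one_mul, hQQ, hMQ]
    module
  have hQE : Q * E = 0 := by
    simp only [E, Matrix.mul_smul, mul_sub, mul_one, hQQ, hQM]
    module
  have hFF : F * F = F := by
    simp only [F, sub_mul, mul_sub, one_mul, mul_one, hEE, hQQ, hEQ, hQE]
    abel
  have hQinv : ∀ (g : G) x y, Q (g • x) (g • y) = Q x y := fun g x y => by simp [Q, J]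
  have hMinv : ∀ (g : G) x y, M (g • x) (g • y) = M x y := fun g x y => by simp [M, hRg]
  have hEinv : ∀ (g : G) x y, E (g • x) (g • y) = E x y := fun g x y => by
    simp only [E, Matrix.smul_apply, Matrix.sub_apply, Matrix.one_apply, hQinv, hMinv, smul_left_cancel_iff]
  have hFinv : ∀ (g : G) x y, F (g • x) (g • y) = F x y := fun g x y => by
    simp only [F, Matrix.sub_apply, Matrix.one_apply, hQinv, hEinv, smul_left_cancel_iff]
  let P := Cfsg.permRep ℂ G Ω
  obtain ⟨hψ, hψz⟩ := isCharacter_of_idem (G := G) (Matrix.toLin' E)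
    (by rw [Module.End.mul_eq_comp, ← Matrix.toLin'_mul, hEE]) (comm_of_inv E hEinv)
  obtain ⟨hφ, hφz⟩ := isCharacter_of_idem (G := G) (Matrix.toLin' F)
    (by rw [Module.End.mul_eq_comp, ← Matrix.toLin'_mul, hFF]) (comm_of_inv F hFinv)
  set ψ : G → ℂ := fun g => LinearMap.trace ℂ _ (P g * Matrix.toLin' E) with hψdef
  set φ : G → ℂ := fun g => LinearMap.trace ℂ _ (P g * Matrix.toLin' F) with hφdef
  have htrQ : Q.trace = 1 := by
    have : (m : ℂ) ≠ 0 := Nat.cast_ne_zero.2 (by omega)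
    simp [Q, J, Matrix.trace, hm]
    field_simp
  have hQP : ∀ g : G, LinearMap.trace ℂ _ (P g * Matrix.toLin' Q) = 1 := by
    intro g
    rw [LinearMap.trace_mul_comm]
    have : Matrix.toLin' Q * P g = Matrix.toLin' Q := by
      refine LinearMap.ext fun v => funext fun x => ?_
      simp only [Module.End.mul_apply, Matrix.toLin'_apply, Matrix.mulVec, dotProduct, Q, J, Matrix.smul_apply,
        Matrix.of_apply, P, permRep_apply]
      exact Fintype.sum_equiv (MulAction.toPerm g⁻¹) _ _ fun y => rfl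
    rw [this, Matrix.trace_toLin'_eq, htrQ]
  have hdec : piChar G Ω = fun g => 1 + ψ g + φ g := by
    funext g
    rw [← character_permRep]
    show LinearMap.trace ℂ _ (P g) = _
    rw [hψdef, hφdef, ← hQP g]
    simp only [← map_add, ← mul_add]
    rw [show Q + E + F = (1 : Matrix Ω Ω ℂ) by simp only [F]; abel, Matrix.toLin'_one, ← Module.End.one_eq_id, mul_one]
  have hψ1 : ψ 1 = E.trace := by
    simp only [hψdef, P, map_one, one_mul, Matrix.trace_toLin'_eq]
  have hφ1 : φ 1 = F.trace := by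
    simp only [hφdef, P, map_one, one_mul, Matrix.trace_toLin'_eq]
  have hMab : M a₀ b = 1 := if_pos ((hRa b).2 (MulAction.mem_orbit_self b))
  have hMac : M a₀ c = 0 := if_neg fun h => huv (((hq c b).2 ((hRa c).1 h))).symm
  have h1ab : (1 : Matrix Ω Ω ℂ) a₀ b = 0 := Matrix.one_apply_ne hab.symm
  have h1ac : (1 : Matrix Ω Ω ℂ) a₀ c = 0 := Matrix.one_apply_ne hac.symm
  have hψ0 : ψ 1 ≠ 0 := by
    intro h0
    rw [hψ1, ← Matrix.trace_toLin'_eq] at h0
    have hE0 : E = 0 := Matrix.toLin'.injective ((hψz h0).trans (map_zero _).symm)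
    have e1 := congrFun (congrFun hE0 a₀) b
    have e2 := congrFun (congrFun hE0 a₀) c
    simp only [E, Q, J, Matrix.smul_apply, Matrix.sub_apply, Matrix.of_apply, Matrix.zero_apply, smul_eq_mul,
      mul_eq_zero, inv_eq_zero, hσ0, false_or, hMab, hMac, h1ab, h1ac] at e1 e2
    exact one_ne_zero (α := ℂ) (by linear_combination e1 - e2)
  have hφ0 : φ 1 ≠ 0 := by
    intro h0
    rw [hφ1, ← Matrix.trace_toLin'_eq] at h0
    have hE0 : F = 0 := Matrix.toLin'.injective ((hφz h0).trans (map_zero _).symm)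
    have e1 := congrFun (congrFun hE0 a₀) b
    have e2 := congrFun (congrFun hE0 a₀) c
    simp only [F, E, Q, J, Matrix.smul_apply, Matrix.sub_apply, Matrix.of_apply, Matrix.zero_apply, smul_eq_mul,
      hMab, hMac, h1ab, h1ac] at e1 e2
    exact inv_ne_zero hσ0 (by linear_combination e2 - e1)
  have hdeg' := degrees χ₁ χ₂ ψ φ h₁ h₂ hψ hφ hψ0 hφ0 (hπ.symm.trans hdec) (by
    rw [← hdec, inner_self_eq_rank a₀, Nat.card_eq_fintype_card, hrank]; norm_num)
  have hsumdeg : ψ 1 + φ 1 = 2 * (m : ℂ) - 1 := by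
    have := congrFun (hπ.symm.trans hdec) 1
    rw [hd₁, hd₂] at this
    linear_combination -this
  have hlin : (k : ℂ) + r * ψ 1 + s * φ 1 = 0 := by
    rw [hψ1, hφ1]
    have : M.trace = 0 := by
      simp only [Matrix.trace, Matrix.diag_apply, M, Matrix.of_apply, if_neg (hirr _), Finset.sum_const_zero]
    simp only [F, E, Matrix.trace_sub, Matrix.trace_smul, htrQ, this, Matrix.trace_one, hm, smul_eq_mul]
    field_simp
    linear_combination (s * ((2 * m : ℕ) - 1) - (-(k : ℂ))) * hrs3 - (k : ℂ) * 0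
  obtain ⟨f, hf, hψf⟩ : ∃ f : ℤ, (f = (m : ℤ) - 1 ∨ f = m) ∧ ψ 1 = f := by
    rcases hdeg' with h | h
    · exact ⟨_, Or.inl rfl, by rw [h, hd₁]; push_cast; ring⟩
    · exact ⟨_, Or.inr rfl, by rw [h, hd₂]; push_cast; ring⟩
  have hφf : φ 1 = ((2 * m - 1 - f : ℤ) : ℂ) := by
    push_cast; linear_combination hsumdeg - hψf
  rw [hψf, hφf] at hlin
  push_cast at hlin
  -- integrality
  have he : (2 * f - 2 * m + 1) * (2 * f - 2 * m + 1) = (1 : ℤ) := by rcases hf with rfl | rfl <;> ring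
  have heC : (2 * (f : ℂ) - 2 * m + 1) * (2 * f - 2 * m + 1) = 1 := by exact_mod_cast he
  set T : ℤ := -(2 * f - 2 * m + 1) * (2 * (k : ℤ) + (2 * m - 1) * ((la : ℤ) - mu)) with hT
  have hσT : σ = (T : ℂ) := by
    rw [hT]; push_cast
    linear_combination (-σ) * heC - (2 * (f : ℂ) - 2 * m + 1) * (2 * m - 1) * hrs
      + (2 * (f : ℂ) - 2 * m + 1) * 2 * hlin - (2 * (f : ℂ) - 2 * m + 1) * (2 * f - 2 * m + 1) * hrs3
  have hT2 : T ^ 2 = ((la : ℤ) - mu) ^ 2 + 4 * ((k : ℤ) - mu) := by
    have : (T : ℂ) ^ 2 = ((la : ℂ) - mu) ^ 2 + 4 * ((k : ℂ) - mu) := by rw [← hσT]; exact hσ2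
    exact_mod_cast this
  obtain ⟨w, hw⟩ : Even ((la : ℤ) - mu + T) := by
    have h4 : Even (T ^ 2 - ((la : ℤ) - mu) ^ 2) := ⟨2 * ((k : ℤ) - mu), by rw [hT2]; ring⟩
    rw [Int.even_sub, Int.even_pow' two_ne_zero, Int.even_pow' two_ne_zero] at h4
    rw [Int.even_add]
    exact h4.symm
  have hrw : r = (w : ℂ) := by
    have : ((la : ℂ) - mu) + T = w + w := by exact_mod_cast hw
    rw [hr, hσT, this]; ring
  have hsw : s = (((la : ℤ) - mu - w : ℤ) : ℂ) := by
    push_cast; linear_combination hrs - hrw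
  obtain ⟨w', hw'⟩ : ∃ w', w' = (la : ℤ) - mu - w := ⟨_, rfl⟩
  rw [← hw'] at hsw
  rw [hrw, hsw] at hlin hrs hrs2
  have e1 : (k : ℤ) + w * f + w' * (2 * m - 1 - f) = 0 := by exact_mod_cast hlin
  have e2 : w + w' = (la : ℤ) - mu := by exact_mod_cast hrs
  have e3 : w * w' = (mu : ℤ) - k := by exact_mod_cast hrs2
  have e4 : (k : ℤ) * k = k + la * k + mu * (2 * m - 1 - k) := by exact_mod_cast hrel
  obtain ⟨R1, S1, h1, h2⟩ : ∃ R1 S1 : ℤ, (k : ℤ) + ((m : ℤ) - 1) * R1 + m * S1 = 0 ∧
      (k : ℤ) ^ 2 + ((m : ℤ) - 1) * R1 ^ 2 + m * S1 ^ 2 = 2 * m * k := by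
    rcases hf with rfl | rfl
    · refine ⟨w, w', by linear_combination e1, ?_⟩
      linear_combination e4 + (w + w') * e1 - (k : ℤ) * e2 - (2 * (m : ℤ) - 1) * e3
    · refine ⟨w', w, by linear_combination e1, ?_⟩
      linear_combination e4 + (w + w') * e1 - (k : ℤ) * e2 - (2 * (m : ℤ) - 1) * e3
  obtain ⟨A, hA0, hmA, hkA⟩ := arith (by omega) (by omega) h1 h2
  obtain ⟨a, rfl⟩ := Int.eq_ofNat_of_zero_le hA0.le
  have hmA' : m = 2 * a ^ 2 + 2 * a + 1 := by exact_mod_cast hmA
  refine ⟨a, by omega, hmA', fun y hy => ?_⟩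
  rcases hall (q y) with h | h | h
  · exact absurd (hsingle y h) hy
  · rw [MulAction.orbit_eq_iff.2 ((hq y b).1 h), ← hkdef]
    rcases hkA with h' | h'
    · exact Or.inl (by exact_mod_cast h')
    · exact Or.inr (by exact_mod_cast h')
  · rw [MulAction.orbit_eq_iff.2 ((hq y c).1 h), ← hldef]
    rcases hkA with h' | h'
    · have : k = a * (2 * a + 1) := by exact_mod_cast h'
      right; linarith
    · have : k = (a + 1) * (2 * a + 1) := by exact_mod_cast h'
      left; linarith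

/-- Groups of Wielandt type: if a primitive group of degree `2m` has rank 3 and permutation character `1 + χ₁ + χ₂` with irreducible `χ₁, χ₂` of degrees `m - 1` and `m`, then `m = 2a² + 2a + 1` for some positive integer `a` and the two non-trivial subdegrees are `a(2a+1)` and `(a+1)(2a+1)`. -/
theorem result {G : Type*} [Group G] [Fintype G] {Ω : Type*} [Fintype Ω] [MulAction G Ω] (hprim : MulAction.IsPreprimitive G Ω) {m : ℕ} (hm : Fintype.card Ω = 2 * m) (a₀ : Ω) (hrank : Nat.card (MulAction.orbitRel.Quotient (MulAction.stabilizer G a₀) Ω) = 3) (χ₁ χ₂ : G → ℂ) (h₁ : Cfsg.IsIrrCharacter G χ₁) (h₂ : Cfsg.IsIrrCharacter G χ₂) (hπ : (fun g : G => (Nat.card (MulAction.fixedBy Ω g) : ℂ)) = fun g => 1 + χ₁ g + χ₂ g) (hd₁ : χ₁ 1 = (m : ℂ) - 1) (hd₂ : χ₂ 1 = m) : ∃ a : ℕ, 0 < a ∧ m = 2 * a ^ 2 + 2 * a + 1 ∧ ∀ b : Ω, b ≠ a₀ → Nat.card (MulAction.orbit (MulAction.stabilizer G a₀) b) = a * (2 * a + 1) ∨ Nat.card (MulAction.orbit (MulAction.stabilizer G a₀) b) = (a + 1) *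 (2 * a + 1) := by
  classical
  exact main hprim hm a₀ hrank χ₁ χ₂ h₁ h₂ hπ hd₁ hd₂

end Cfsg.Agent.S0719
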