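import Cfsg.Statements.S0822
import Cfsg.Agent.S0301
import Cfsg.Agent.S0303
import Cfsg.Agent.Forms.OrthBasics
import Cfsg.Agent.Forms.TwoTransp
-- import your own Cfsg.Agent.* helpers here

set_option autoImplicit false
open Cfsg Matrix

namespace Cfsg.Agent.S0822

abbrev W6 := (Fin 2 ⊕ Fin 2) ⊕ Fin 2 → ZMod 2

abbrev W5 := Unit ⊕ (Fin 2 ⊕ Fin 2) → ZMod 3

/-- The nonsingular vectors of `O6-(2)`. -/
def pts : Fin 36 → W6 := ![
  Sum.elim (Sum.elim ![0, 0] ![0, 0]) ![0, 1],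
  Sum.elim (Sum.elim ![0, 0] ![0, 0]) ![1, 0],
  Sum.elim (Sum.elim ![0, 0] ![0, 0]) ![1, 1],
  Sum.elim (Sum.elim ![0, 0] ![0, 1]) ![0, 1],
  Sum.elim (Sum.elim ![0, 0] ![0, 1]) ![1, 0],
  Sum.elim (Sum.elim ![0, 0] ![0, 1]) ![1, 1],
  Sum.elim (Sum.elim ![0, 0] ![1, 0]) ![0, 1],
  Sum.elim (Sum.elim ![0, 0] ![1, 0]) ![1, 0],
  Sum.elim (Sum.elim ![0, 0] ![1, 0]) ![1, 1],
  Sum.elim (Sum.elim ![0, 0] ![1, 1]) ![0, 1],
  Sum.elim (Sum.elim ![0, 0] ![1, 1]) ![1, 0],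
  Sum.elim (Sum.elim ![0, 0] ![1, 1]) ![1, 1],
  Sum.elim (Sum.elim ![0, 1] ![0, 0]) ![0, 1],
  Sum.elim (Sum.elim ![0, 1] ![0, 0]) ![1, 0],
  Sum.elim (Sum.elim ![0, 1] ![0, 0]) ![1, 1],
  Sum.elim (Sum.elim ![0, 1] ![0, 1]) ![0, 0],
  Sum.elim (Sum.elim ![0, 1] ![1, 0]) ![0, 1],
  Sum.elim (Sum.elim ![0, 1] ![1, 0]) ![1, 0],
  Sum.elim (Sum.elim ![0, 1] ![1, 0]) ![1, 1],
  Sum.elim (Sum.elim ![0, 1] ![1, 1]) ![0, 0],
  Sum.elim (Sum.elim ![1, 0] ![0, 0]) ![0, 1],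
  Sum.elim (Sum.elim ![1, 0] ![0, 0]) ![1, 0],
  Sum.elim (Sum.elim ![1, 0] ![0, 0]) ![1, 1],
  Sum.elim (Sum.elim ![1, 0] ![0, 1]) ![0, 1],
  Sum.elim (Sum.elim ![1, 0] ![0, 1]) ![1, 0],
  Sum.elim (Sum.elim ![1, 0] ![0, 1]) ![1, 1],
  Sum.elim (Sum.elim ![1, 0] ![1, 0]) ![0, 0],
  Sum.elim (Sum.elim ![1, 0] ![1, 1]) ![0, 0],
  Sum.elim (Sum.elim ![1, 1] ![0, 0]) ![0, 1],
  Sum.elim (Sum.elim ![1, 1] ![0, 0]) ![1, 0],
  Sum.elim (Sum.elim ![1, 1] ![0, 0]) ![1, 1],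
  Sum.elim (Sum.elim ![1, 1] ![0, 1]) ![0, 0],
  Sum.elim (Sum.elim ![1, 1] ![1, 0]) ![0, 0],
  Sum.elim (Sum.elim ![1, 1] ![1, 1]) ![0, 1],
  Sum.elim (Sum.elim ![1, 1] ![1, 1]) ![1, 0],
  Sum.elim (Sum.elim ![1, 1] ![1, 1]) ![1, 1]]

/-- The corresponding lines of `O5(3)`. -/
def lns : Fin 36 → W5 := ![
  Sum.elim (fun _ => 0) (Sum.elim ![0, 1] ![0, 2]),
  Sum.elim (fun _ => 0) (Sum.elim ![1, 0] ![2, 1]),
  Sum.elim (fun _ => 0) (Sum.elim ![1, 1] ![2, 0]),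
  Sum.elim (fun _ => 0) (Sum.elim ![1, 0] ![2, 0]),
  Sum.elim (fun _ => 0) (Sum.elim ![1, 2] ![2, 0]),
  Sum.elim (fun _ => 0) (Sum.elim ![1, 0] ![2, 2]),
  Sum.elim (fun _ => 0) (Sum.elim ![1, 1] ![1, 1]),
  Sum.elim (fun _ => 0) (Sum.elim ![1, 1] ![0, 2]),
  Sum.elim (fun _ => 0) (Sum.elim ![1, 2] ![0, 1]),
  Sum.elim (fun _ => 0) (Sum.elim ![1, 2] ![1, 2]),
  Sum.elim (fun _ => 0) (Sum.elim ![0, 1] ![2, 2]),
  Sum.elim (fun _ => 0) (Sum.elim ![0, 1] ![1, 2]),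
  Sum.elim (fun _ => 1) (Sum.elim ![0, 1] ![1, 1]),
  Sum.elim (fun _ => 1) (Sum.elim ![2, 0] ![2, 1]),
  Sum.elim (fun _ => 1) (Sum.elim ![2, 1] ![2, 0]),
  Sum.elim (fun _ => 1) (Sum.elim ![1, 1] ![0, 1]),
  Sum.elim (fun _ => 1) (Sum.elim ![0, 2] ![2, 2]),
  Sum.elim (fun _ => 1) (Sum.elim ![1, 0] ![1, 2]),
  Sum.elim (fun _ => 1) (Sum.elim ![1, 2] ![1, 0]),
  Sum.elim (fun _ => 1) (Sum.elim ![2, 2] ![0, 2]),
  Sum.elim (fun _ => 1) (Sum.elim ![0, 2] ![0, 2]),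
  Sum.elim (fun _ => 1) (Sum.elim ![2, 1] ![1, 2]),
  Sum.elim (fun _ => 1) (Sum.elim ![2, 2] ![1, 1]),
  Sum.elim (fun _ => 1) (Sum.elim ![0, 1] ![0, 1]),
  Sum.elim (fun _ => 1) (Sum.elim ![1, 2] ![2, 1]),
  Sum.elim (fun _ => 1) (Sum.elim ![1, 1] ![2, 2]),
  Sum.elim (fun _ => 1) (Sum.elim ![1, 0] ![1, 0]),
  Sum.elim (fun _ => 1) (Sum.elim ![2, 0] ![2, 0]),
  Sum.elim (fun _ => 1) (Sum.elim ![2, 1] ![0, 1]),
  Sum.elim (fun _ => 1) (Sum.elim ![1, 0] ![1, 1]),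
  Sum.elim (fun _ => 1) (Sum.elim ![1, 1] ![1, 0]),
  Sum.elim (fun _ => 1) (Sum.elim ![0, 1] ![2, 1]),
  Sum.elim (fun _ => 1) (Sum.elim ![0, 2] ![1, 2]),
  Sum.elim (fun _ => 1) (Sum.elim ![1, 2] ![0, 2]),
  Sum.elim (fun _ => 1) (Sum.elim ![2, 0] ![2, 2]),
  Sum.elim (fun _ => 1) (Sum.elim ![2, 2] ![2, 0])]

/-- polar form over two elements -/
def f6 (v w : W6) : ZMod 2 :=
  Cfsg.quadFormMinus 2 (ZMod 2) 1 1 (v + w) - Cfsg.quadFormMinus 2 (ZMod 2) 1 1 v - Cfsg.quadFormMinus 2 (ZMod 2) 1 1 w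

/-- polar form over three elements -/
def f5 (v w : W5) : ZMod 3 :=
  Cfsg.quadFormOdd 2 (ZMod 3) (v + w) - Cfsg.quadFormOdd 2 (ZMod 3) v - Cfsg.quadFormOdd 2 (ZMod 3) w

theorem pts_inj : ∀ i j, pts i = pts j → i = j := by decide +kernel

theorem pts_val : ∀ i, Cfsg.quadFormMinus 2 (ZMod 2) 1 1 (pts i) = 1 := by decide +kernel

theorem pts_cover : ∀ v : W6, Cfsg.quadFormMinus 2 (ZMod 2) 1 1 v = 1 → ∃ i, pts i = v := by decide +kernel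

theorem pts_span : ∀ k, ∃ a, (Pi.single k 1 : W6) = pts a ∨ ∃ b, (Pi.single k 1 : W6) = pts a + pts b := by decide +kernel

theorem lns_val : ∀ i, Cfsg.quadFormOdd 2 (ZMod 3) (lns i) = 2 := by decide +kernel

theorem lns_inj : ∀ i j, lns i = lns j ∨ lns i = -lns j → i = j := by decide +kernel

theorem lns_cover : ∀ v : W5, Cfsg.quadFormOdd 2 (ZMod 3) v = 2 → ∃ i, v = lns i ∨ v = -lns i := by decide +kernel

theorem table : ∀ i j, ∃ k, pts k = pts j + f6 (pts j) (pts i) • pts i ∧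
    (lns j - (2 * f5 (lns j) (lns i)) • lns i = lns k ∨ lns j - (2 * f5 (lns j) (lns i)) • lns i = -lns k) := by
  decide +kernel

theorem anis : ∀ z₁ z₂ : ZMod 2, z₁ ^ 2 + 1 * z₁ * z₂ + 1 * z₂ ^ 2 = 0 → z₁ = 0 ∧ z₂ = 0 := by decide

/-- PSU_4(2) ≅ PSp_4(3): with |F| = 4 and |K| = 3, the projective special unitary group of the standard Hermitian form on F^4 is isomorphic to PSp_4(K). -/
theorem result {F K : Type*} [Field F] [Fintype F] [Field K] [Fintype K] (hF : Fintype.card F = 4) (hK : Fintype.card K = 3) : Nonempty (Cfsg.PSU 4 F 2 ≃* Cfsg.PSp 2 K) := by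
  classical
  haveI : Fact (Nat.Prime 2) := ⟨Nat.prime_two⟩
  haveI : Fact (Nat.Prime 3) := ⟨Nat.prime_three⟩
  obtain ⟨e₆⟩ := Cfsg.Agent.S0303.result (F := ZMod 2) (K := F) (q := 2) (ZMod.card 2) (by rw [hF]; rfl) 1 1 anis
  have hodd : Odd (Fintype.card K) := by rw [hK]; decide
  obtain ⟨e₅⟩ := Cfsg.Agent.S0301.result (F := K) hodd
  have h2K : (2 : K) ≠ 0 := CfsgLib.OrthOrder.two_ne_zero_of_odd hodd
  have hQ6 := CfsgLib.Forms.nondegenerate_quadMinus 2 anis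
  have hQ5 := CfsgLib.Forms.nondegenerate_quadOdd 2 h2K
  obtain ⟨Q6, hQ6d⟩ : ∃ Q, CfsgLib.Forms.quadMinus (ZMod 2) 2 1 1 = Q := ⟨_, rfl⟩
  obtain ⟨Q5, hQ5d⟩ : ∃ Q, CfsgLib.Forms.quadOdd K 2 = Q := ⟨_, rfl⟩
  have h6c : ⇑Q6 = Cfsg.quadFormMinus 2 (ZMod 2) 1 1 := by rw [← hQ6d, CfsgLib.Forms.coe_quadMinus]
  have h5c : ⇑Q5 = Cfsg.quadFormOdd 2 K := by rw [← hQ5d, CfsgLib.Forms.coe_quadOdd]
  rw [hQ6d] at hQ6
  rw [hQ5d] at hQ5
  rw [← h6c] at e₆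
  rw [← h5c] at e₅
  let σ : ZMod 3 ≃+* K := ZMod.ringEquivOfPrime K Nat.prime_three hK
  let ℓ : Fin 36 → (Unit ⊕ (Fin 2 ⊕ Fin 2) → K) := fun i => σ ∘ lns i
  have hσQ : ∀ v : W5, Q5 (σ ∘ v) = σ (Cfsg.quadFormOdd 2 (ZMod 3) v) := fun v => by
    simp [h5c, Cfsg.quadFormOdd]
  have hσn : ∀ v : W5, (σ ∘ (-v) : Unit ⊕ (Fin 2 ⊕ Fin 2) → K) = -(σ ∘ v) := fun v => funext fun _ => map_neg σ _
  have hsurj : ∀ v : Unit ⊕ (Fin 2 ⊕ Fin 2) → K, ∃ w : W5, σ ∘ w = v := fun v =>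
    ⟨σ.symm ∘ v, funext fun _ => σ.apply_symm_apply _⟩
  have hlinj : ∀ {i j}, ℓ i = ℓ j ∨ ℓ i = -ℓ j → i = j := fun {i j} h => lns_inj i j (by
    rw [← hσn] at h
    exact h.imp (fun h => σ.injective.comp_left h) fun h => σ.injective.comp_left h)
  have hlcov : ∀ v, Q5 v = 2 → ∃ i, v = ℓ i ∨ v = -ℓ i := fun v hv => by
    obtain ⟨w, rfl⟩ := hsurj v
    rw [hσQ, ← map_ofNat σ 2] at hv
    obtain ⟨i, hi⟩ := lns_cover w (σ.injective hv)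
    exact ⟨i, hi.imp (fun h => by rw [h]) fun h => by rw [h, hσn]⟩
  have hlval : ∀ i, Q5 (ℓ i) = 2 := fun i => by rw [hσQ, lns_val, map_ofNat]
  -- the two actions
  have h6ex : ∀ (g : Cfsg.isometryGroup (ZMod 2) ⇑Q6) i, ∃ j, pts j = (g.1.1 : Matrix _ _ (ZMod 2)) *ᵥ pts i := fun g i =>
    pts_cover _ (by rw [← h6c, CfsgLib.Forms.mem_isometryGroup.1 g.2, h6c, pts_val])
  choose a6 ha6 using h6ex
  have h5ex : ∀ (g : Cfsg.isometryGroup K ⇑Q5) i, ∃ j, (g.1.1 : Matrix _ _ K) *ᵥ ℓ i = ℓ j ∨ (g.1.1 : Matrix _ _ K) *ᵥ ℓ i = -ℓ j := fun g i =>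
    hlcov _ (by rw [CfsgLib.Forms.mem_isometryGroup.1 g.2, hlval])
  choose a5 ha5 using h5ex
  have hu6 : ∀ g i j, pts j = (g : Cfsg.isometryGroup (ZMod 2) ⇑Q6).1.1 *ᵥ pts i → a6 g i = j := fun g i j h =>
    pts_inj _ _ ((ha6 g i).trans h.symm)
  have hu5 : ∀ g i j, ((g : Cfsg.isometryGroup K ⇑Q5).1.1 *ᵥ ℓ i = ℓ j ∨ g.1.1 *ᵥ ℓ i = -ℓ j) → a5 g i = j := fun g i j h =>
    hlinj (by rcases ha5 g i with e | e <;> rcases h with h | h <;> rw [e] at h <;> first | exact Or.inl h | exact Or.inl (neg_injective h) | exact Or.inr h | exact Or.inr (neg_eq_iff_eq_neg.1 h))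
  letI act6 : MulAction (Cfsg.isometryGroup (ZMod 2) ⇑Q6) (Fin 36) :=
    { smul := a6
      one_smul := fun i => hu6 1 i i (Matrix.one_mulVec _).symm
      mul_smul := fun g h i => hu6 (g * h) i _ (show pts (a6 g (a6 h i)) = _ by
        rw [ha6, ha6, Matrix.mulVec_mulVec]; rfl) }
  letI act5 : MulAction (Cfsg.isometryGroup K ⇑Q5) (Fin 36) :=
    { smul := a5
      one_smul := fun i => hu5 1 i i (Or.inl (Matrix.one_mulVec _))
      mul_smul := fun g h i => hu5 (g * h) i _ (show _ = ℓ (a5 g (a5 h i)) ∨ _ = -ℓ (a5 g (a5 h i)) by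
        rw [Subgroup.coe_mul, Units.val_mul, ← Matrix.mulVec_mulVec]
        rcases ha5 h i with e | e <;> rw [e] <;> rcases ha5 g (a5 h i) with e' | e' <;>
          simp [Matrix.mulVec_neg, e']) }
  let π := MulAction.toPermHom (Cfsg.isometryGroup (ZMod 2) ⇑Q6) (Fin 36)
  let α := MulAction.toPermHom (Cfsg.isometryGroup K ⇑Q5) (Fin 36)
  have hπinj : Function.Injective π := by
    rw [injective_iff_map_eq_one]
    intro g hg
    have hf : ∀ i, g.1.1 *ᵥ pts i = pts i := fun i => by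
      rw [← ha6 g i, show a6 g i = i from DFunLike.congr_fun hg i]
    refine Subtype.ext (Units.ext (Matrix.ext_of_mulVec_single fun k => ?_))
    rw [OneMemClass.coe_one, Units.val_one, Matrix.one_mulVec]
    obtain ⟨a, e | ⟨b, e⟩⟩ := pts_span k <;> rw [e]
    · exact hf a
    · rw [Matrix.mulVec_add, hf, hf]
  have hle : π.range ≤ α.range := by
    rw [MonoidHom.range_eq_map, ← CfsgLib.Forms.closure_reflGL Q6 hQ6 (Or.inr (by simp)), MonoidHom.map_closure,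
      Subgroup.closure_le]
    rintro _ ⟨g, ⟨u, hu, hg⟩, rfl⟩
    have hu1 : Q6 u = 1 := (CfsgLib.Forms.TwoTransp.z2 _).resolve_left hu
    obtain ⟨i, rfl⟩ := pts_cover u (by rw [← h6c, hu1])
    have hu' : Q5 (ℓ i) ≠ 0 := by rw [hlval]; exact h2K
    refine ⟨CfsgLib.Forms.reflGL Q5 (ℓ i) hu', Equiv.ext fun j => ?_⟩
    show a5 (CfsgLib.Forms.reflGL Q5 (ℓ i) hu') j = a6 g j
    obtain ⟨k, hk6, hk5⟩ := table i j
    rw [hu6 g j k (by
      rw [hg, CfsgLib.Forms.reflectionMatrix_mulVec, hu1, inv_one, one_mul, hk6, sub_eq_add_neg, ← neg_smul,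
        CfsgLib.Forms.TwoTransp.z2_neg, f6, QuadraticMap.polar, h6c])]
    refine hu5 _ j k ?_
    rw [CfsgLib.Forms.coe_reflGL, CfsgLib.Forms.reflectionMatrix_mulVec, hlval]
    have e : ℓ j - ((2 : K)⁻¹ * QuadraticMap.polar Q5 (ℓ j) (ℓ i)) • ℓ i = σ ∘ (lns j - (2 * f5 (lns j) (lns i)) • lns i) := by
      have h3 : (2 : K)⁻¹ = σ 2 := by
        rw [map_ofNat, inv_eq_of_mul_eq_one_right]
        rw [← map_ofNat σ 2, ← map_mul, show (2 : ZMod 3) * 2 = 1 from rfl, map_one]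
      have hp : QuadraticMap.polar Q5 (ℓ j) (ℓ i) = σ (f5 (lns j) (lns i)) := by
        rw [f5, map_sub, map_sub, ← hσQ, ← hσQ, ← hσQ, QuadraticMap.polar]
        congr 3
        exact funext fun _ => (map_add σ _ _).symm
      funext x
      simp [hp, h3, ℓ, Function.comp]
    rcases hk5 with h | h <;> rw [e, h]
    · exact Or.inl rfl
    · exact Or.inr (hσn _)
  let Ω6 := Cfsg.Omega (ZMod 2) ⇑Q6
  let Ω5 := Cfsg.Omega K ⇑Q5
  have hsub : (commutator (Cfsg.isometryGroup (ZMod 2) ⇑Q6)).map π ≤ (commutator (Cfsg.isometryGroup K ⇑Q5)).map α := by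
    rw [commutator_def, commutator_def, Subgroup.map_commutator, Subgroup.map_commutator, ← MonoidHom.range_eq_map,
      ← MonoidHom.range_eq_map]
    exact Subgroup.commutator_mono hle hle
  have hc6 : Nat.card (Subgroup.center Ω6) = 1 := CfsgLib.OrthOrder.card_center_char_two rfl hQ6 (by simp)
  have hc5 : Nat.card (Subgroup.center Ω5) = 1 :=
    CfsgLib.OrthOrder.card_center_eq_one hQ5 (by simp) (CfsgLib.OrthOrder.neg_one_notMem_of_odd h2K (by simp; decide))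
  have h6 : Nat.card Ω6 = 25920 := by
    have h := Subgroup.card_mul_index Ω6
    rw [CfsgLib.Forms.index_Omega_two rfl hQ6 (Or.inr (by simp)) (by simp), CfsgLib.OrthOrder.natCard_isometryGroup Q6 rfl,
      show Nat.card (CfsgLib.Forms.isom Q6) = _ from hQ6d ▸ CfsgLib.OrthOrder.card_isom_minus anis 2, ZMod.card] at h
    simp [Ω6, Finset.prod_range_succ] at h ⊢
    omega
  have h5 : Nat.card Ω5 = 25920 := by
    have h := Subgroup.card_mul_index Ω5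
    rw [CfsgLib.Forms.index_Omega _ h2K hQ5 (by simp), CfsgLib.OrthOrder.natCard_isometryGroup Q5 rfl,
      show Nat.card (CfsgLib.Forms.isom Q5) = _ from hQ5d ▸ CfsgLib.OrthOrder.card_isom_odd h2K 2, hK] at h
    simp [Ω5, Finset.prod_range_succ] at h ⊢
    omega
  let φ : Ω6 →* Equiv.Perm (Fin 36) := π.comp Ω6.subtype
  let β : Ω5 →* Equiv.Perm (Fin 36) := α.comp Ω5.subtype
  have hφ : Function.Injective φ := hπinj.comp Subtype.val_injective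
  have hφr : Nat.card φ.range = 25920 := (Nat.card_congr (MonoidHom.ofInjective hφ).toEquiv).symm.trans h6
  have hrange : φ.range ≤ β.range := by
    rw [MonoidHom.range_comp, MonoidHom.range_comp, Subgroup.range_subtype, Subgroup.range_subtype]
    exact hsub
  have hle' : Nat.card β.range ≤ Nat.card Ω5 :=
    Nat.card_le_card_of_surjective β.rangeRestrict β.rangeRestrict_surjective
  have heq : φ.range = β.range := Subgroup.eq_of_le_of_card_ge hrange (by omega)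
  have hβ : Function.Injective β.rangeRestrict :=
    ((Nat.bijective_iff_surjective_and_card _).2 ⟨β.rangeRestrict_surjective, by rw [← heq]; omega⟩).1
  have hb6 : Subgroup.center Ω6 = ⊥ := Subgroup.card_eq_one.1 hc6
  have hb5 : Subgroup.center Ω5 = ⊥ := Subgroup.card_eq_one.1 hc5
  let i6 : Cfsg.POmega (ZMod 2) ⇑Q6 ≃* Ω6 := (QuotientGroup.quotientMulEquivOfEq hb6).trans QuotientGroup.quotientBot
  let i5 : Cfsg.POmega K ⇑Q5 ≃* Ω5 := (QuotientGroup.quotientMulEquivOfEq hb5).trans QuotientGroup.quotientBot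
  exact ⟨e₆.symm.trans (i6.trans ((MonoidHom.ofInjective hφ).trans ((MulEquiv.subgroupCongr heq).trans
    ((MulEquiv.ofBijective β.rangeRestrict ⟨hβ, β.rangeRestrict_surjective⟩).symm.trans (i5.symm.trans e₅)))))⟩

end Cfsg.Agent.S0822
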