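import Cfsg.Statements.S0848
import Cfsg.Agent.BSW.Main
import Cfsg.Agent.S0107

set_option autoImplicit false
open Cfsg

namespace Cfsg.Agent.S0848

/-- If a finite group equals its own commutator subgroup and contains an involution whose centralizer is isomorphic to the dihedral group of order 8, then the group has order 168 or 360. -/
theorem result {G : Type*} [Group G] [Finite G] (hperf : commutator G = ⊤) (t : G) (ht : orderOf t = 2) (e : Subgroup.centralizer ({t} : Set G) ≃* DihedralGroup 4) : Nat.card G = 168 ∨ Nat.card G = 360 := by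
  classical
  haveI : Fact (Nat.Prime 2) := ⟨Nat.prime_two⟩
  let C : Subgroup G := Subgroup.centralizer ({t} : Set G)
  have htC : t ∈ C := CfsgLib.BSW.mem_cz.2 rfl
  have hcen : ∀ u : DihedralGroup 4, u ≠ 1 → (∀ v, u * v = v * u) → u = DihedralGroup.r 2 := by decide
  have het : e ⟨t, htC⟩ = DihedralGroup.r 2 := by
    refine hcen _ (fun h => ?_) fun v => ?_
    · have h2 : (⟨t, htC⟩ : C) = 1 := e.injective (h.trans (map_one e).symm)
      rw [show t = 1 from congrArg Subtype.val h2, orderOf_one] at ht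
      norm_num at ht
    · obtain ⟨w, rfl⟩ := e.surjective v
      rw [← map_mul, ← map_mul]
      exact congrArg e (Subtype.ext (CfsgLib.BSW.mem_cz.1 w.2).symm)
  have hcard : Nat.card C = 2 ^ 3 := by rw [Nat.card_congr e.toEquiv, DihedralGroup.nat_card]; norm_num
  obtain ⟨P, hP⟩ := (IsPGroup.of_card hcard).exists_le_sylow
  have hPC : (P : Subgroup G) = C := by
    refine le_antisymm ?_ hP
    have htP : t ∈ (P : Subgroup G) := hP htC
    obtain ⟨z, hz, hz1, hPz⟩ := CfsgLib.BSW.exists_central P.isPGroup' (fun h => by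
      rw [h, Subgroup.mem_bot] at htP
      rw [htP, orderOf_one] at ht
      norm_num at ht)
    have hzC : z ∈ C := CfsgLib.BSW.mem_cz_comm.1 (hPz htP)
    have hzt : z = t := by
      have h2 : e ⟨z, hzC⟩ = e ⟨t, htC⟩ := by
        rw [het]
        refine hcen _ (fun h => hz1 ?_) fun v => ?_
        · exact congrArg Subtype.val (e.injective (h.trans (map_one e).symm) : (⟨z, hzC⟩ : C) = 1)
        · obtain ⟨w, rfl⟩ := e.surjective v
          rw [← map_mul, ← map_mul]
          exact congrArg e (Subtype.ext (CfsgLib.BSW.mem_cz.1 (hPz (hP w.2))).symm)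
      exact congrArg Subtype.val (e.injective h2)
    intro x hx
    have h6 := hPz hx
    rw [hzt] at h6
    exact h6
  set a : C := e.symm (DihedralGroup.r 1) with ha
  set b : C := e.symm (DihedralGroup.sr 0) with hb
  have hea : ∀ j : ℤ, e (a ^ j) = DihedralGroup.r (j : ZMod 4) := fun j => by
    rw [map_zpow, ha, MulEquiv.apply_symm_apply, DihedralGroup.r_one_zpow]
  have hK : ∀ x : G, x ∈ Subgroup.zpowers (a : G) → ∃ j : ℤ, x = ((a ^ j : C) : G) := fun x hx => by
    obtain ⟨j, rfl⟩ := Subgroup.mem_zpowers_iff.1 hx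
    exact ⟨j, (SubgroupClass.coe_zpow a j).symm⟩
  have hKmem : ∀ j : ℤ, ((a ^ j : C) : G) ∈ Subgroup.zpowers (a : G) := fun j =>
    ⟨j, (SubgroupClass.coe_zpow a j).symm⟩
  have hsq : ∀ x : G, x ∈ Subgroup.zpowers (a : G) → x ≠ 1 → x = t ∨ x * x = t := by
    intro x hx hx1
    obtain ⟨j, rfl⟩ := hK x hx
    have key : ∀ i : ZMod 4, i ≠ 0 → i = 2 ∨ i + i = 2 := by decide
    rcases key (j : ZMod 4) (fun h => hx1 (by
      have h2 : a ^ j = 1 := e.injective (by rw [hea, h, map_one]; rfl)
      rw [h2]; rfl)) with h | h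
    · left
      exact congrArg Subtype.val (e.injective (by rw [hea, h, het]) : a ^ j = ⟨t, htC⟩)
    · right
      exact congrArg Subtype.val (e.injective (by rw [map_mul, hea, DihedralGroup.r_mul_r, h, het]) :
        a ^ j * a ^ j = ⟨t, htC⟩)
  have htK : t ∈ Subgroup.zpowers (a : G) := by
    have h2 : a ^ (2 : ℤ) = ⟨t, htC⟩ := e.injective (by rw [hea, het]; rfl)
    have := hKmem 2
    rwa [h2] at this
  have D : CfsgLib.BSW.Hyp t (b : G) (Subgroup.zpowers (a : G)) := by
    refine ⟨ht, ?_, ?_, htK, ?_, b.2, ?_, ?_, ?_, ?_, ?_, ?_⟩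
    · rintro x ⟨i, rfl⟩ y ⟨j, rfl⟩
      exact (Commute.zpow_zpow_self (a : G) i j).eq
    · exact Subgroup.zpowers_le.2 a.2
    · rw [Subgroup.orderOf_coe, hb, MulEquiv.orderOf_eq, DihedralGroup.orderOf_sr]
    · intro h
      obtain ⟨j, hj⟩ := hK _ h
      have h2 := congrArg e (Subtype.ext hj : b = a ^ j)
      rw [hb, MulEquiv.apply_symm_apply, hea] at h2
      cases h2
    · refine le_antisymm (sup_le (Subgroup.zpowers_le.2 a.2) (Subgroup.zpowers_le.2 b.2)) fun x hx => ?_
      rcases hc : e ⟨x, hx⟩ with i | i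
      · refine Subgroup.mem_sup_left ?_
        have h2 : (⟨x, hx⟩ : C) = a ^ (i.val : ℤ) := e.injective (by rw [hc, hea, Int.cast_natCast, ZMod.natCast_zmod_val])
        have := hKmem (i.val : ℤ)
        rwa [← h2] at this
      · have h2 : (⟨x, hx⟩ : C) = b * a ^ (i.val : ℤ) := e.injective (by
          rw [hc, map_mul, hea, hb, MulEquiv.apply_symm_apply, Int.cast_natCast, ZMod.natCast_zmod_val,
            DihedralGroup.sr_mul_r, zero_add])
        rw [show x = ((b * a ^ (i.val : ℤ) : C) : G) from congrArg Subtype.val h2, Subgroup.coe_mul]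
        exact mul_mem (Subgroup.mem_sup_right (Subgroup.mem_zpowers _)) (Subgroup.mem_sup_left (hKmem _))
    · refine le_antisymm ?_ (Subgroup.zpowers_le.2 (Subgroup.mem_inf.2 ⟨htK, CfsgLib.BSW.mem_cz.2
        (CfsgLib.BSW.mem_cz.1 b.2).symm⟩))
      intro x hx
      obtain ⟨hxK, hxb⟩ := Subgroup.mem_inf.1 hx
      obtain ⟨j, rfl⟩ := hK x hxK
      have h2 := congrArg e (Subtype.ext (CfsgLib.BSW.mem_cz.1 hxb) : a ^ j * b = b * a ^ j)
      rw [map_mul, map_mul, hea, hb, MulEquiv.apply_symm_apply, DihedralGroup.r_mul_sr, DihedralGroup.sr_mul_r] at h2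
      injection h2 with h3
      have key : ∀ i : ZMod 4, 0 - i = 0 + i → i = 0 ∨ i = 2 := by decide
      rcases key _ h3 with h | h
      · have h4 : a ^ j = 1 := e.injective (by rw [hea, h, map_one]; rfl)
        rw [h4]; exact one_mem _
      · have h4 : a ^ j = ⟨t, htC⟩ := e.injective (by rw [hea, h, het])
        rw [h4]; exact Subgroup.mem_zpowers t
    · intro x hx
      obtain ⟨j, rfl⟩ := hK x hx
      have h2 : b * a ^ j * b⁻¹ = (a ^ j)⁻¹ := e.injective (by
        rw [map_mul, map_mul, map_inv, map_inv, hea, hb, MulEquiv.apply_symm_apply, DihedralGroup.inv_sr,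
          DihedralGroup.inv_r, DihedralGroup.sr_mul_r, DihedralGroup.sr_mul_sr]
        congr 1
        ring)
      simpa using congrArg Subtype.val h2
    · intro g hg
      rw [Subgroup.eq_bot_iff_forall]
      intro x hx
      obtain ⟨hxK, y, hyK, hyx⟩ := Subgroup.mem_inf.1 hx
      by_contra hx1
      have hy : g * y * g⁻¹ = x := hyx
      refine hg (CfsgLib.BSW.mem_cz.2 ?_)
      have hy1 : y ≠ 1 := fun h => hx1 (by rw [← hy, h]; group)
      have fin : ∀ u v : G, u ∈ Subgroup.zpowers (a : G) → v ∈ Subgroup.zpowers (a : G) → u = t → g * v * g⁻¹ = u →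
          v ≠ 1 → g * t = t * g := by
        intro u v _ hv hut hvu hv1
        have hvv : v * v = 1 := conj_eq_one_iff.1 (show g * (v * v) * g⁻¹ = 1 by
          rw [show g * (v * v) * g⁻¹ = (g * v * g⁻¹) * (g * v * g⁻¹) by group, hvu, hut]
          rw [← pow_two, ← ht, pow_orderOf_eq_one])
        rcases hsq v hv hv1 with h | h
        · rw [h, hut] at hvu; exact mul_inv_eq_iff_eq_mul.1 hvu
        · exfalso
          rw [hvv] at h
          rw [← h, orderOf_one] at ht
          norm_num at ht
      rcases hsq x hxK hx1 with h | h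
      · exact fin x y hxK hyK h hy hy1
      · refine fin (x * x) (y * y) (mul_mem hxK hxK) (mul_mem hyK hyK) h (by rw [← hy]; group) fun hy2 => ?_
        have h5 : x * x = 1 := by rw [← hy, show g * y * g⁻¹ * (g * y * g⁻¹) = g * (y * y) * g⁻¹ by group, hy2]; group
        rw [h5] at h
        rw [← h, orderOf_one] at ht
        norm_num at ht
    · intro x y hx hy
      exact isConj_iff.2 (Cfsg.Agent.S0107.result P 2 le_rfl
        ⟨(MulEquiv.subgroupCongr hPC).trans (e.trans (MulEquiv.refl _))⟩
        ((CfsgLib.Transfer.pResidual_eq_top_iff P).2 (by rw [hperf]; exact le_top)) x y hx hy)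
  have hKc : Nat.card (Subgroup.zpowers (a : G)) = 4 := by
    rw [Nat.card_zpowers, Subgroup.orderOf_coe, ha, MulEquiv.orderOf_eq, DihedralGroup.orderOf_r_one]
  haveI := Fintype.ofFinite G
  rcases D.order_cases with h | h <;> rw [hKc] at h
  · exact Or.inr h
  · exact Or.inl h

end Cfsg.Agent.S0848
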