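import Cfsg.Statements.S0859
import Cfsg.Agent.Clifford.Monomial
import Cfsg.Agent.Clifford.Correspondence
import Cfsg.Agent.BrauerInd.IndAlgebra
import Cfsg.Agent.CharBasics.Extra
import Cfsg.Agent.IndFun.Basic

set_option autoImplicit false
open Cfsg CfsgLib CfsgLib.CharBasics
open scoped commutatorElement

namespace Cfsg.Agent.S0859

universe u

/-- Every `p`-subgroup of `M` is abelian. -/
def AbSyl (M : Type*) [Group M] : Prop :=
  ∀ (p : ℕ) [Fact p.Prime] (Q : Subgroup M), IsPGroup p Q → ∀ a ∈ Q, ∀ b ∈ Q, a * b = b * a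

theorem absyl_of_injective {M K : Type*} [Group M] [Group K] (hM : AbSyl M) (f : K →* M)
    (hf : Function.Injective f) : AbSyl K := by
  intro p _ Q hQ a ha b hb
  refine hf ?_
  rw [map_mul, map_mul]
  exact hM p (Q.map f) (hQ.map f) _ (Subgroup.mem_map_of_mem f ha) _ (Subgroup.mem_map_of_mem f hb)

/-- A class two image of a group with abelian Sylow subgroups is abelian. -/
theorem comm_image {A M : Type*} [Group A] [Finite A] [Group M] (hA : AbSyl A) (f : A →* M)
    (hc : ∀ a b x : A, f (a * b * a⁻¹ * b⁻¹) * f x = f x * f (a * b * a⁻¹ * b⁻¹)) (a b : A) :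
    f (a * b) = f (b * a) := by
  have hsurj : Function.Surjective f.rangeRestrict := f.rangeRestrict_surjective
  have : Finite f.range := Finite.of_surjective _ hsurj
  have : Group.IsNilpotent f.range := by
    refine Subgroup.isNilpotent_of_ker_le_center (Abelianization.of : f.range →* Abelianization f.range) ?_
    rw [Abelianization.ker_of, commutator_def, Subgroup.commutator_le]
    rintro ⟨_, a', rfl⟩ - ⟨_, b', rfl⟩ -
    rw [Subgroup.mem_center_iff]
    rintro ⟨_, x, rfl⟩
    refine Subtype.ext ?_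
    simp only [commutatorElement_def, Subgroup.coe_mul, Subgroup.coe_inv, ← map_inv, ← map_mul]
    rw [map_mul f x, map_mul f _ x, hc]
  have hSyl : ∀ (p : ℕ) [Fact p.Prime] (Q : Sylow p f.range) (x y : Q), x * y = y * x := by
    intro p _ Q x y
    obtain ⟨P, rfl⟩ := Sylow.mapSurjective_surjective hsurj p Q
    obtain ⟨x', hx', hx⟩ := x.2
    obtain ⟨y', hy', hy⟩ := y.2
    refine Subtype.ext ?_
    rw [Subgroup.coe_mul, Subgroup.coe_mul, ← hx, ← hy, ← map_mul, ← map_mul, hA p P.1 P.2 x' hx' y' hy']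
  let e := Sylow.directProductOfNormal (G := f.range) (fun {p} [Fact p.Prime] P => inferInstance)
  obtain ⟨u, hu⟩ := e.surjective (f.rangeRestrict a)
  obtain ⟨v, hv⟩ := e.surjective (f.rangeRestrict b)
  have huv : u * v = v * u := by
    funext p P
    have := Fact.mk (Nat.prime_of_mem_primeFactors p.2)
    exact hSyl _ P _ _
  have := congrArg e huv
  rw [map_mul, map_mul, hu, hv, ← map_mul, ← map_mul] at this
  exact congrArg Subtype.val this

theorem degree_one_of_ker_comm {A : Type u} [Group A] [Finite A] {φ : A → ℂ} (hφ : IsIrrCharacter A φ)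
    (hker : ∀ a b : A, φ (a * b * a⁻¹ * b⁻¹) = φ 1) : φ 1 = 1 := by
  obtain ⟨k, σ, hσ, rfl⟩ := hφ
  have hcomm : ∀ a b : A, σ (a * b) = σ (b * a) := by
    intro a b
    have h2 := eq_id_of_character_eq σ (a * b * a⁻¹ * b⁻¹) (hker a b)
    rw [show a * b = a * b * a⁻¹ * b⁻¹ * (b * a) by group, map_mul, h2]
    rfl
  have hdvd := Clifford.finrank_dvd_index_of_scalar hσ (⊤ : Subgroup A) fun z _ =>
    Clifford.schur_scalar hσ (σ z) fun g => by
      rw [← map_mul, ← map_mul]
      exact hcomm z g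
  rw [Subgroup.index_top, Nat.dvd_one] at hdvd
  rw [Representation.char_one, hdvd, Nat.cast_one]

/-- A character whose induced character is irreducible is irreducible. -/
theorem irr_of_ind_irr {G : Type u} [Group G] [Fintype G] (S : Subgroup G) [Fintype S] {f : S → ℂ}
    (hf : IsCharacter S f) (hi : IsIrrCharacter G (indFun S f)) : IsIrrCharacter S f := by
  classical
  have hf1 : f 1 ≠ 0 := fun h0 => apply_one_ne_zero hi (by rw [indFun_apply_one, h0, mul_zero])
  obtain ⟨μ, k, hk, hkeq⟩ := exists_constituent hf hf1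
  obtain ⟨R, hR, hsum⟩ := Clifford.exists_eq_add_of_constituent hf μ.2
    (by rw [hkeq]; exact Nat.cast_ne_zero.mpr hk.ne')
  by_cases hR1 : R 1 = 0
  · rw [hsum, Clifford.eq_zero_of_apply_one hR hR1, add_zero]
    exact μ.2
  exfalso
  have hone : ∀ {X Y : S → ℂ}, IsCharacter S X → IsCharacter S Y → X 1 ≠ 0 → X + Y = f →
      ∃ n : ℕ, 0 < n ∧ classInner (indFun S X) (indFun S f) = (n : ℂ) := by
    intro X Y hX hY hX1 hXY
    obtain ⟨χ, n, hn, hχ⟩ := exists_constituent (isCharacter_indFun S hX)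
      (by rw [indFun_apply_one]; exact mul_ne_zero (Nat.cast_ne_zero.mpr Subgroup.index_ne_zero_of_finite) hX1)
    have hne : classInner (indFun S f) (χ : G → ℂ) ≠ 0 := by
      rw [← hXY, BrauerInd.indFun_add]
      exact Clifford.classInner_add_ne_zero_left (isCharacter_indFun S hX) (isCharacter_indFun S hY)
        (isCharacter_of_irr χ.2) (by rw [hχ]; exact Nat.cast_ne_zero.mpr hn.ne')
    have he : (χ : G → ℂ) = indFun S f := by
      by_contra h
      exact hne (classInner_ne hi χ.2 (Ne.symm h))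
    exact ⟨n, hn, he ▸ hχ⟩
  obtain ⟨n, hn, h1⟩ := hone (isCharacter_of_irr μ.2) hR (apply_one_ne_zero μ.2) hsum.symm
  obtain ⟨n', hn', h2⟩ := hone hR (isCharacter_of_irr μ.2) hR1 (by rw [hsum, add_comm])
  have h3 := classInner_self hi
  nth_rewrite 1 [hsum] at h3
  rw [BrauerInd.indFun_add, classInner_add_left, h1, h2] at h3
  have : n + n' = 1 := by exact_mod_cast h3
  omega

theorem sum_of_transitive {H : Type u} [Group H] [Fintype H] (N T : Subgroup H) [Fintype N]
    (hNT : ∀ g : H, ∃ n ∈ N, n⁻¹ * g ∈ T) (F : H → ℂ) (hF : ∀ (g : H) (t : T), F (g * t) = F g) :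
    (Nat.card N : ℂ) * ∑ x : H, F x = (Nat.card H : ℂ) * ∑ m : N, F m := by
  have h1 : ∀ x : H, ∑ m : N, F (m * x) = ∑ m : N, F m := by
    intro x
    obtain ⟨n, hn, ht⟩ := hNT x
    refine Eq.trans ?_ (Equiv.sum_comp (Equiv.mulRight (⟨n, hn⟩ : N)) (fun m : N => F m))
    refine Finset.sum_congr rfl fun m _ => ?_
    have := hF ((m : H) * n) ⟨n⁻¹ * x, ht⟩
    rw [show (m : H) * n * (n⁻¹ * x) = (m : H) * x by group] at this
    exact this
  have h2 : ∀ m : N, ∑ x : H, F (m * x) = ∑ x : H, F x := fun m =>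
    Equiv.sum_comp (Equiv.mulLeft (m : H)) F
  calc (Nat.card N : ℂ) * ∑ x : H, F x = ∑ m : N, ∑ x : H, F (m * x) := by
        rw [Finset.sum_congr rfl (fun m _ => h2 m), Finset.sum_const, Finset.card_univ, nsmul_eq_mul,
          Nat.card_eq_fintype_card]
    _ = ∑ x : H, ∑ m : N, F (m * x) := Finset.sum_comm
    _ = (Nat.card H : ℂ) * ∑ m : N, F m := by
        rw [Finset.sum_congr rfl (fun x _ => h1 x), Finset.sum_const, Finset.card_univ, nsmul_eq_mul,
          Nat.card_eq_fintype_card]

theorem lift_ind {H : Type u} [Group H] [Fintype H] (T : Subgroup H) [Fintype T] (φ : T → ℂ) (ψ : H → ℂ)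
    (hind : indFun T φ = ψ) (U : Subgroup T) (mu : U → ℂ) (hmu : IsCharacter U mu) (hmu1 : mu 1 = 1)
    (hUind : indFun U mu = φ) :
    ∃ (V : Subgroup H) (lam : V → ℂ), IsCharacter V lam ∧ lam 1 = 1 ∧ indFun V lam = ψ := by
  refine ⟨U.map T.subtype, BrauerInd.mapFun U mu, ?_, ?_, ?_⟩
  · exact CfsgLib.CharBasics.isCharacter_comp hmu
      (U.equivMapOfInjective T.subtype T.subtype_injective).symm.toMonoidHom
  · show mu _ = 1
    rw [map_one, hmu1]
  · rw [← BrauerInd.indFun_trans, hUind, hind]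

theorem apply_class {K : Type*} [Group K] {T : Subgroup K} {φ : T → ℂ} (hφ : IsClassFunction T φ) (t : T)
    (y : T) (hy' : (t : K)⁻¹ * (y : K) * t ∈ T) : φ ⟨_, hy'⟩ = φ y := by
  refine Eq.trans ?_ (hφ y t⁻¹)
  congr 1
  exact Subtype.ext (by simp)

/-- Restriction of an induced class function to a normal subgroup supplementing `T`. -/
theorem indFun_restrict_supplement {H : Type u} [Group H] [Fintype H] (N T : Subgroup H) [N.Normal]
    [Fintype N] (hNT : ∀ g : H, ∃ n ∈ N, n⁻¹ * g ∈ T) {φ : T → ℂ} (hφ : IsClassFunction T φ) :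
    indFun (T.subgroupOf N) (fun s : T.subgroupOf N => φ ⟨((s : N) : H), s.2⟩) =
      fun n : N => indFun T φ n := by
  classical
  funext n
  let F : H → ℂ := fun x => extendByZero T φ (x⁻¹ * (n : H) * x)
  have hF : ∀ (g : H) (t : T), F (g * t) = F g := by
    intro g t
    show extendByZero T φ _ = extendByZero T φ _
    rw [show (g * (t : H))⁻¹ * n * (g * t) = (t : H)⁻¹ * (g⁻¹ * n * g) * t by group]
    by_cases hy : g⁻¹ * (n : H) * g ∈ T
    · have hy' : (t : H)⁻¹ * (g⁻¹ * n * g) * t ∈ T := T.mul_mem (T.mul_mem (T.inv_mem t.2) hy) t.2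
      rw [IndFun.extendByZero_mem φ hy', IndFun.extendByZero_mem φ hy]
      exact apply_class hφ t ⟨_, hy⟩ hy'
    · have hy' : (t : H)⁻¹ * (g⁻¹ * n * g) * t ∉ T := fun h => hy (by
        have := T.mul_mem (T.mul_mem t.2 h) (T.inv_mem t.2)
        rwa [show (t : H) * ((t : H)⁻¹ * (g⁻¹ * n * g) * t) * (t : H)⁻¹ = g⁻¹ * n * g by group] at this)
      rw [IndFun.extendByZero_not_mem φ hy', IndFun.extendByZero_not_mem φ hy]
  have key := sum_of_transitive N T hNT F hF
  have key1 := sum_of_transitive N T hNT (fun x => if x ∈ T then (1 : ℂ) else 0) fun g t => by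
    simp [T.mul_mem_cancel_right t.2]
  have hcard : (Nat.card N : ℂ) * Nat.card T = (Nat.card H : ℂ) * Nat.card (T.subgroupOf N) := by
    rw [Finset.sum_boole, Finset.sum_boole] at key1
    rw [Nat.card_eq_fintype_card (α := T), Nat.card_eq_fintype_card (α := T.subgroupOf N),
      Fintype.card_subtype, Fintype.card_subtype]
    exact key1
  have hterm : ∀ m : N, extendByZero (T.subgroupOf N) (fun s => φ ⟨((s : N) : H), s.2⟩) (m⁻¹ * n * m) = F m := by
    intro m
    show _ = extendByZero T φ _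
    by_cases hm : m⁻¹ * n * m ∈ T.subgroupOf N
    · rw [IndFun.extendByZero_mem _ hm, IndFun.extendByZero_mem φ (show (m : H)⁻¹ * n * m ∈ T from hm)]
      rfl
    · rw [IndFun.extendByZero_not_mem _ hm, IndFun.extendByZero_not_mem φ (show (m : H)⁻¹ * n * m ∉ T from hm)]
  show (Nat.card (T.subgroupOf N) : ℂ)⁻¹ * _ = (Nat.card T : ℂ)⁻¹ * ∑ x : H, F x
  rw [Finset.sum_congr rfl (fun m _ => hterm m)]
  have hT0 : (Nat.card T : ℂ) ≠ 0 := Nat.cast_ne_zero.mpr Nat.card_pos.ne'
  have hS0 : (Nat.card (T.subgroupOf N) : ℂ) ≠ 0 := Nat.cast_ne_zero.mpr Nat.card_pos.ne'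
  have hN0 : (Nat.card N : ℂ) ≠ 0 := Nat.cast_ne_zero.mpr Nat.card_pos.ne'
  rw [inv_mul_eq_iff_eq_mul₀ hS0]
  refine mul_left_cancel₀ (mul_ne_zero hN0 hT0) ?_
  have hx : (Nat.card T : ℂ) * ((Nat.card T : ℂ)⁻¹ * ∑ x : H, F x) = ∑ x : H, F x := mul_inv_cancel_left₀ hT0 _
  linear_combination (∑ m : N, F m) * hcard - (Nat.card (T.subgroupOf N) : ℂ) * key - (Nat.card N : ℂ) * (Nat.card (T.subgroupOf N) : ℂ) * hx
theorem main : ∀ (k : ℕ) (H : Type u) [Group H] [Fintype H], Nat.card H = k → Group.IsSolvable H →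
    ∀ (N : Subgroup H) [N.Normal], AbSyl N → ∀ ψ : H → ℂ, IsIrrCharacter H ψ →
    IsIrrCharacter N (fun n : N => ψ n) →
    ∃ (U : Subgroup H) (lam : U → ℂ), IsCharacter U lam ∧ lam 1 = 1 ∧ indFun U lam = ψ := by
  intro k
  induction k using Nat.strong_induction_on with
  | _ k ih =>
  intro H _ _ hk hsolv N hN hab ψ hψ hψN
  classical
  by_cases h1 : ψ 1 = 1
  · exact ⟨⊤, fun h => ψ h, isCharacter_restrict (isCharacter_of_irr hψ) ⊤, by simpa using h1,
      BrauerInd.indFun_top ψ (isClassFunction (isCharacter_of_irr hψ))⟩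
  obtain ⟨d, ρ, hρ, hρψ⟩ := hψ
  have hψ : IsIrrCharacter H ψ := ⟨d, ρ, hρ, hρψ⟩
  have := Clifford.scalarSubgroup_normal ρ
  let C := N ⊓ Clifford.scalarSubgroup ρ
  have hsc : ∀ a b : H, a ∈ Clifford.scalarSubgroup ρ → ρ (a * b * a⁻¹ * b⁻¹) = 1 := by
    intro a b ha
    rw [map_mul, map_mul, ha b, ← map_mul, ← map_mul,
      show b * a * a⁻¹ * b⁻¹ = 1 by group, map_one]
  have hker : ∀ g : H, ρ g = 1 → ψ g = ψ 1 := by
    intro g hg
    rw [← hρψ]
    simp [Representation.character, hg]
  have hCN : C < N := by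
    refine lt_of_le_of_ne inf_le_left fun e => h1 ?_
    have hle : N ≤ Clifford.scalarSubgroup ρ := e ▸ inf_le_right
    have := degree_one_of_ker_comm hψN fun a b => hker _ (hsc _ _ (hle a.2))
    simpa using this
  obtain ⟨A, ⟨hAn, hCA, hAN⟩, hAmin⟩ := (Set.toFinite {A : Subgroup H | A.Normal ∧ C < A ∧ A ≤ N}).exists_minimal
    ⟨N, hN, hCN, le_rfl⟩
  have := hAn
  -- `A` is abelian modulo `C`
  have hAC : ∀ a ∈ A, ∀ b ∈ A, a * b * a⁻¹ * b⁻¹ ∈ C := by
    by_cases h : ⁅A, A⁆ ⊔ C = A
    · exfalso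
      obtain ⟨n, hn⟩ := hsolv.solvable
      let π := QuotientGroup.mk' C
      have hperf : ⁅A.map π, A.map π⁆ = A.map π := by
        conv_rhs => rw [← h, Subgroup.map_sup, (Subgroup.map_eq_bot_iff C).2 (QuotientGroup.ker_mk' C).ge, sup_bot_eq]
        rw [Subgroup.map_commutator]
      have hser : ∀ i, A.map π ≤ derivedSeries (H ⧸ C) i := by
        intro i
        induction i with
        | zero => exact le_top
        | succ i ihi => rw [derivedSeries_succ, ← hperf]; exact Subgroup.commutator_mono ihi ihi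
      have h0 : derivedSeries (H ⧸ C) n ≤ ⊥ := by
        refine (derivedSeries_le_map_derivedSeries (QuotientGroup.mk'_surjective C) n).trans ?_
        rw [hn, Subgroup.map_bot]
      have hb := (Subgroup.map_eq_bot_iff A).1 (le_bot_iff.1 ((hser n).trans h0))
      rw [QuotientGroup.ker_mk'] at hb
      exact absurd hb (not_le_of_gt hCA)
    · intro a ha b hb
      have hlt : ¬ C < ⁅A, A⁆ ⊔ C := fun hlt => h (le_antisymm (sup_le (Subgroup.commutator_le_right _ _) hCA.le)
        (hAmin ⟨inferInstance, hlt, (sup_le (Subgroup.commutator_le_right _ _) hCA.le).trans hAN⟩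
          (sup_le (Subgroup.commutator_le_right _ _) hCA.le)))
      have heq : C = ⁅A, A⁆ ⊔ C := by
        by_contra hne
        exact hlt (lt_of_le_of_ne le_sup_right hne)
      rw [heq]
      exact Subgroup.mem_sup_left (Subgroup.commutator_mem_commutator ha hb)
  have hAabs : AbSyl A := absyl_of_injective hab (Subgroup.inclusion hAN) (Subgroup.inclusion_injective hAN)
  have hAcomm : ∀ a b : A, ρ ((a * b : A) : H) = ρ ((b * a : A) : H) := by
    intro a b
    let f : A →* (Module.End ℂ (Fin d → ℂ))ˣ := (MonoidHom.toHomUnits ρ).comp A.subtype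
    refine congrArg Units.val (comm_image hAabs f (fun x y z => Units.ext ?_) a b)
    show ρ _ * ρ (z : H) = ρ (z : H) * ρ _
    rw [← map_mul, ← map_mul]
    exact (Subgroup.mem_inf.1 (hAC x x.2 y y.2)).2 z
  obtain ⟨lam, hlam⟩ := exists_restrict_constituent A ⟨ψ, hψ⟩
  have hne : classInner (fun a : A => ψ a) (lam : A → ℂ) ≠ 0 := by
    rw [classInner_comm, Ne, map_eq_zero]; exact hlam
  by_cases hT : Clifford.inertia (lam : A → ℂ) = ⊤
  · exfalso
    have hres := Clifford.restrict_eq_smul_of_invariant hψ lam.2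
      (fun g => Clifford.mem_inertia.1 (hT ▸ Subgroup.mem_top g)) hne
    have hl1 : (lam : A → ℂ) 1 = 1 := by
      refine degree_one_of_ker_comm lam.2 fun a b => ?_
      have e1 := congrFun hres (a * b * a⁻¹ * b⁻¹)
      have e2 := congrFun hres 1
      have e3 : ψ ((a * b * a⁻¹ * b⁻¹ : A) : H) = ψ 1 := hker _ (by
        rw [Subgroup.coe_mul, map_mul, Subgroup.coe_mul, map_mul ρ _ ((a⁻¹ : A) : H), hAcomm a b, ← map_mul,
          ← map_mul, ← map_one ρ]
        congr 1
        push_cast
        group)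
      simp only [Pi.smul_apply, smul_eq_mul, Subgroup.coe_one] at e1 e2
      rw [e3, e2] at e1
      exact (mul_left_cancel₀ hne e1).symm
    obtain ⟨l, hl⟩ := Clifford.exists_hom_of_linear (isCharacter_of_irr lam.2) hl1
    have hscal : ∀ a : A, ρ (a : H) = l a • 1 := by
      intro a
      let τ : Representation ℂ A (Fin d → ℂ) :=
        { toFun := fun x => l x⁻¹ • ρ (x : H)
          map_one' := by simp
          map_mul' := fun x y => by
            rw [Subgroup.coe_mul, map_mul, smul_mul_assoc, mul_smul_comm, smul_smul, mul_inv_rev, map_mul,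
              mul_comm (l y⁻¹)] }
      have hch : ∀ x : A, τ.character x = ψ 1 := by
        intro x
        have e1 := congrFun hres x
        have e2 := congrFun hres 1
        simp only [Pi.smul_apply, smul_eq_mul, Subgroup.coe_one, hl] at e1 e2
        show LinearMap.trace ℂ _ (l x⁻¹ • ρ (x : H)) = _
        rw [map_smul, smul_eq_mul, e2, map_one,
          show LinearMap.trace ℂ _ (ρ (x : H)) = ψ x from congrFun hρψ x, e1, mul_left_comm, ← map_mul,
          inv_mul_cancel, map_one]
      have := eq_id_of_character_eq τ a (by rw [hch, hch])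
      have e : l a • (l a⁻¹ • ρ (a : H)) = l a • (1 : Module.End ℂ (Fin d → ℂ)) := congrArg (l a • ·) this
      rwa [smul_smul, ← map_mul, mul_inv_cancel, map_one, one_smul] at e
    refine absurd (le_inf hAN fun a ha => ?_) (not_le_of_gt hCA)
    intro x
    rw [map_mul, map_mul, hscal ⟨a, ha⟩, smul_one_mul, mul_smul_one]
  · let T := Clifford.inertia (lam : A → ℂ)
    have hAT : A ≤ T := Clifford.le_inertia (isClassFunction (isCharacter_of_irr lam.2))
    obtain ⟨φ, hφ, hind, -, -⟩ := Clifford.exists_inertia_correspondent hψ lam.2 hne T rfl hAT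
    -- `N` is transitive on the conjugates of `lam`
    have htrans : ∀ g : H, ∃ n ∈ N, n⁻¹ * g ∈ T := by
      intro g
      let e : A.subgroupOf N ≃* A := Subgroup.subgroupOfEquivOfLe hAN
      have hg : classInner (fun a : A => ψ a) (Clifford.conjFun g⁻¹ (lam : A → ℂ)) ≠ 0 := by
        have := Clifford.classInner_conjFun g⁻¹ (fun a : A => ψ a) (lam : A → ℂ)
        rw [Clifford.conjFun_restrict (isClassFunction (isCharacter_of_irr hψ)) g⁻¹] at this
        rw [this]
        exact hne
      obtain ⟨n, hn⟩ := Clifford.constituent_conj (N := A.subgroupOf N) hψN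
        (Clifford.isIrrCharacter_comp lam.2 e.toMonoidHom e.surjective)
        (Clifford.isIrrCharacter_comp (Clifford.isIrrCharacter_conjFun g⁻¹ lam.2) e.toMonoidHom e.surjective)
        (by
          have := Clifford.classInner_comp_equiv e (fun a : A => ψ a) (lam : A → ℂ)
          exact fun h0 => hne (this.symm.trans h0))
        (by
          have := Clifford.classInner_comp_equiv e (fun a : A => ψ a) (Clifford.conjFun g⁻¹ (lam : A → ℂ))
          exact fun h0 => hg (this.symm.trans h0))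
      refine ⟨(n : H)⁻¹, N.inv_mem n.2, ?_⟩
      have heq : Clifford.conjFun g⁻¹ (lam : A → ℂ) = Clifford.conjFun (n : H) (lam : A → ℂ) := by
        funext a
        have h2 := congrFun hn (e.symm a)
        simp only [MulEquiv.coe_toMonoidHom, MulEquiv.apply_symm_apply] at h2
        rw [h2]
        rfl
      rw [inv_inv, ← inv_inv ((n : H) * g)]
      refine T.inv_mem ?_
      rw [mul_inv_rev]
      show Clifford.conjFun (g⁻¹ * (n : H)⁻¹) (lam : A → ℂ) = lam
      rw [← Clifford.conjFun_mul, heq, Clifford.conjFun_inv_cancel]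
    have hres : IsIrrCharacter (T.subgroupOf N) (fun s : T.subgroupOf N => φ ⟨((s : N) : H), s.2⟩) := by
      let j : T.subgroupOf N →* T :=
        { toFun := fun s => ⟨((s : N) : H), s.2⟩, map_one' := rfl, map_mul' := fun _ _ => rfl }
      refine irr_of_ind_irr _ (CfsgLib.CharBasics.isCharacter_comp (isCharacter_of_irr hφ) j) ?_
      show IsIrrCharacter N (indFun (T.subgroupOf N) (fun s : T.subgroupOf N => φ ⟨((s : N) : H), s.2⟩))
      rw [indFun_restrict_supplement N T htrans (isClassFunction (isCharacter_of_irr hφ)), hind]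
      exact hψN
    let sw : N.subgroupOf T →* T.subgroupOf N :=
      { toFun := fun s => ⟨⟨((s : T) : H), s.2⟩, (s : T).2⟩, map_one' := rfl, map_mul' := fun _ _ => rfl }
    have hres' : IsIrrCharacter (N.subgroupOf T) (fun s : N.subgroupOf T => φ s) :=
      Clifford.isIrrCharacter_comp hres sw fun s => ⟨⟨⟨((s : N) : H), s.2⟩, (s : N).2⟩, rfl⟩
    have hlt : Nat.card T < k := by
      rw [← hk]
      exact lt_of_le_of_ne (Subgroup.card_le_card_group T) fun h => hT (Subgroup.eq_top_of_card_eq _ h)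
    have habT : AbSyl (N.subgroupOf T) :=
      absyl_of_injective hab
        { toFun := fun s => (⟨((s : T) : H), s.2⟩ : N), map_one' := rfl, map_mul' := fun _ _ => rfl }
        (fun s s' h => Subtype.ext (Subtype.ext (congrArg (Subtype.val : N → H) h)))
    obtain ⟨U, mu, hmu, hmu1, hUind⟩ := ih _ hlt T rfl inferInstance (N.subgroupOf T) habT φ hφ hres'
    exact lift_ind T φ ψ hind U mu hmu hmu1 hUind


/-- Let G be a finite solvable group and N a normal subgroup such that for every prime p every Sylow p-subgroup of N is abelian. Suppose every irreducible character of G is induced from an irreducible character of some subgroup containing N whose restriction to N is irreducible. Then every irreducible character of G is induced from a character of degree 1 of some subgroup. -/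
theorem result {G : Type*} [Group G] [Fintype G] [Group.IsSolvable G] (N : Subgroup G) [N.Normal] (hab : ∀ (p : ℕ) [Fact p.Prime] (P : Sylow p N), ∀ a ∈ P, ∀ b ∈ P, a * b = b * a) (hrel : ∀ χ : G → ℂ, Cfsg.IsIrrCharacter G χ → ∃ (H : Subgroup G) (hNH : N ≤ H) (ψ : H → ℂ), Cfsg.IsIrrCharacter H ψ ∧ Cfsg.indFun H ψ = χ ∧ Cfsg.IsIrrCharacter N (fun n : N => ψ ⟨(n : G), hNH n.2⟩)) (χ : G → ℂ) (hχ : Cfsg.IsIrrCharacter G χ) : ∃ (U : Subgroup G) (lam : U → ℂ), Cfsg.IsCharacter U lam ∧ lam 1 = 1 ∧ Cfsg.indFun U lam = χ := by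
  classical
  obtain ⟨H, hNH, ψ, hψ, hind, hψN⟩ := hrel χ hχ
  have habN : AbSyl N := by
    intro p _ Q hQ a ha b hb
    obtain ⟨P, hP⟩ := hQ.exists_le_sylow
    exact hab p P a (hP ha) b (hP hb)
  let e : N.subgroupOf H ≃* N := Subgroup.subgroupOfEquivOfLe hNH
  have hres : IsIrrCharacter (N.subgroupOf H) (fun s : N.subgroupOf H => ψ s) :=
    Clifford.isIrrCharacter_comp hψN e.toMonoidHom e.surjective
  obtain ⟨U, mu, hmu, hmu1, hUind⟩ := main _ H rfl inferInstance (N.subgroupOf H)
    (absyl_of_injective habN e.toMonoidHom e.injective) ψ hψ hres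
  exact lift_ind H ψ χ hind U mu hmu hmu1 hUind

end Cfsg.Agent.S0859
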