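import Cfsg.Statements.S0889
import Cfsg.Agent.Berger.Step
import Cfsg.Agent.Berger.Chars
import Cfsg.Agent.S4261
import Cfsg.Agent.PReduced.Hom

set_option autoImplicit false
open CfsgLib CfsgLib.Berger
open Cfsg

namespace Cfsg.Agent.S0889

/-- No system of imprimitivity exists, by induction on the index of the core. -/
theorem no_imp {G : Type*} [Group G] [Finite G] [Group.IsSolvable G] {n : ℕ} [Nontrivial (Fin n → ℂ)]
    (ρ : Representation ℂ G (Fin n → ℂ)) (hρ : ρ.IsIrreducible)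
    (hcent : ∀ N : Subgroup G, N.Normal → ∀ z ∈ cent ρ (N : Set G),
      (∀ b ∈ cent ρ (N : Set G), z * b = b * z) → ∃ c : ℂ, z = c • 1)
    (c : ℕ) : ∀ (K₀ : Subgroup G), K₀.normalCore.index = c → K₀ ≠ ⊤ →
      ∀ P₀ : G ⧸ K₀ → Module.End ℂ (Fin n → ℂ), Imp ρ K₀ P₀ → False := by
  classical
  induction c using Nat.strong_induction_on with
  | _ c ih =>
  intro K₀ hc hK₀ P₀ hP₀
  obtain ⟨K, hmax, hK₀K⟩ := (eq_top_or_exists_le_coatom K₀).resolve_left hK₀
  obtain ⟨P, hP⟩ := hP₀.coarsen hK₀K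
  set N := K.normalCore with hN
  have hNle : N ≤ K := K.normalCore_le
  have hKc : N.index ≤ c := by
    have h1 : K₀.normalCore ≤ N := Subgroup.normalCore_mono hK₀K
    exact hc ▸ Nat.le_of_dvd (Nat.pos_of_ne_zero K₀.normalCore.index_ne_zero_of_finite) (Subgroup.index_dvd_of_le h1)
  obtain ⟨g₀, hg₀⟩ : ∃ g, g ∉ K := by
    by_contra hne
    push Not at hne
    exact hmax.1 (eq_top_iff.2 fun y _ => hne y)
  haveI : Nontrivial (G ⧸ N) := ⟨⟨(g₀ : G ⧸ N), 1, fun h => hg₀ (hNle ((QuotientGroup.eq_one_iff g₀).1 h))⟩⟩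
  haveI : Group.IsSolvable (G ⧸ N) :=
    solvable_of_surjective (f := QuotientGroup.mk' N) (QuotientGroup.mk'_surjective N)
  obtain ⟨A, p, hp, hAn, hAb, hAp, hAc⟩ := Cfsg.Agent.S4261.exists_minimal_normal_pGroup (Q := G ⧸ N) inferInstance
  haveI := hAn
  haveI := Fact.mk hp
  set M := A.comap (QuotientGroup.mk' N) with hM
  have hNM : N ≤ M := fun x hx => by
    show (x : G ⧸ N) ∈ A
    rw [(QuotientGroup.eq_one_iff x).2 hx]; exact A.one_mem
  haveI hMn : M.Normal := hAn.comap _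
  have hsupl : ∀ M' : Subgroup G, M'.Normal → ¬ M' ≤ K → ∀ g : G, ∃ m ∈ M', ∃ k ∈ K, m * k = g := by
    intro M' hM' hnle g
    have h1 : M' ⊔ K = ⊤ := hmax.2 _ (lt_of_le_of_ne le_sup_right fun h => hnle (h ▸ le_sup_left))
    exact Subgroup.mem_sup_of_normal_left.1 (h1 ▸ Subgroup.mem_top g)
  have hnotle : ∀ A' : Subgroup (G ⧸ N), A'.Normal → A' ≠ ⊥ → ¬ A'.comap (QuotientGroup.mk' N) ≤ K := by
    intro A' hA' hne h
    haveI := hA'.comap (QuotientGroup.mk' N)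
    refine hne (eq_bot_iff.2 fun y hy => ?_)
    obtain ⟨x, rfl⟩ := QuotientGroup.mk'_surjective N y
    exact Subgroup.mem_bot.2 ((QuotientGroup.eq_one_iff x).2 (Subgroup.normal_le_normalCore.2 h hy))
  have hMK : ¬ M ≤ K := hnotle A hAn hAb
  have hcoset : ∀ k ∈ K, ((k : G) : G ⧸ K) = ((1 : G) : G ⧸ K) := fun k hk => by
    rw [QuotientGroup.eq, mul_one]; exact K.inv_mem hk
  have hmk : ∀ a : G, a • ((1 : G) : G ⧸ K) = ((a : G) : G ⧸ K) := fun a => by
    rw [MulAction.Quotient.smul_coe, smul_eq_mul, mul_one]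
  have hcomm : ∀ a ∈ M, ∀ b ∈ M, a * b * a⁻¹ * b⁻¹ ∈ N := by
    intro a ha b hb
    rw [← QuotientGroup.eq_one_iff]
    simp only [QuotientGroup.mk_mul, QuotientGroup.mk_inv]
    rw [show (a : G ⧸ N) * b = b * a from hAc _ ha _ hb]; group
  have hset : Setup ρ K P M := by
    refine ⟨hP, hMn, fun x => ?_, fun a ha b hb x => ?_, hNM, hcent M hMn, hcent N inferInstance⟩
    · induction x using QuotientGroup.induction_on with
      | H g =>
        obtain ⟨m, hm, k, hk, rfl⟩ := hsupl M hMn hMK g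
        refine ⟨m, hm, ?_⟩
        rw [hmk, QuotientGroup.eq]
        simpa using hk
    · rw [← mul_smul, ← mul_smul, show a * b = a * b * a⁻¹ * b⁻¹ * (b * a) by group, mul_smul,
        normalCore_smul (hcomm a ha b hb)]
  have hp' : ∀ m ∈ M, ∃ a : ℕ, m ^ p ^ a ∈ N := by
    intro m hm
    obtain ⟨a, ha⟩ := hAp ⟨(m : G ⧸ N), hm⟩
    exact ⟨a, (QuotientGroup.eq_one_iff _).1 (by simpa using congrArg Subtype.val ha)⟩
  have hschur : ∀ a ∈ cent ρ (Set.univ : Set G), ∃ c : ℂ, a = c • 1 := fun a ha => scalar_of_irreducible ρ hρ ha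
  by_cases hMtop : M = ⊤
  · -- a shift would be a scalar
    obtain ⟨r, hr, r', -, hrd, -, hrr, -⟩ := hset.exists_shift (g := g₀) (hMtop ▸ Subgroup.mem_top g₀)
    obtain ⟨s, hs⟩ := hschur r (by
      have := (mem_Rf.1 hr).1
      rwa [hMtop, Subgroup.coe_top] at this)
    have h1 : Deg P r 1 := deg_one.2 fun x => by rw [hs, mul_smul_comm, mul_one, smul_mul_assoc, one_mul]
    have h2 := hrd.eq_of_inv hP h1 hrr ((1 : G) : G ⧸ K)
    rw [one_smul, hmk, QuotientGroup.eq, mul_one, inv_mem_iff] at h2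
    exact hg₀ h2
  -- a second chief factor
  haveI : Nontrivial ((G ⧸ N) ⧸ A) := by
    obtain ⟨y, hy⟩ : ∃ y, y ∉ A := by
      by_contra hne
      push Not at hne
      exact hMtop (eq_top_iff.2 fun y _ => hne _)
    exact ⟨⟨QuotientGroup.mk y, 1, fun h => hy ((QuotientGroup.eq_one_iff y).1 h)⟩⟩
  obtain ⟨B, q, hq, hBn, hBb, hBq, hBc⟩ :=
    Cfsg.Agent.S4261.exists_minimal_normal_pGroup (Q := (G ⧸ N) ⧸ A) inferInstance
  haveI := hBn
  haveI := Fact.mk hq
  set C := B.comap (QuotientGroup.mk' A) with hC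
  haveI : C.Normal := hBn.comap _
  set L := C.comap (QuotientGroup.mk' N) with hL
  haveI hLn : L.Normal := (inferInstance : C.Normal).comap _
  have hAC : A ≤ C := fun a ha => by
    show QuotientGroup.mk' A a ∈ B
    rw [show QuotientGroup.mk' A a = 1 from (QuotientGroup.eq_one_iff a).2 ha]; exact B.one_mem
  have hML : M ≤ L := Subgroup.comap_mono hAC
  have hMKN : ∀ x ∈ M, x ∈ K → x ∈ N := fun x hx hxK => hset.mem_core hx (by rw [hmk, hcoset x hxK])
  obtain ⟨y₀, hy₀, hy₀'⟩ : ∃ y ∈ L ⊓ K, y ∉ N := by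
    by_contra hne
    push Not at hne
    refine hBb (eq_bot_iff.2 fun v hv => ?_)
    obtain ⟨u, rfl⟩ := QuotientGroup.mk'_surjective A v
    obtain ⟨g, rfl⟩ := QuotientGroup.mk'_surjective N u
    have hg : g ∈ L := hv
    obtain ⟨m, hm, k, hk, rfl⟩ := hsupl M hMn hMK g
    have hkL : k ∈ L := by simpa using L.mul_mem (L.inv_mem (hML hm)) hg
    exact Subgroup.mem_bot.2 ((QuotientGroup.eq_one_iff _).2 (M.mul_mem hm (hNM (hne k ⟨hkL, hk⟩))))
  have hqp : p ≠ q := by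
    rintro rfl
    have hCp : IsPGroup p C := hBq.comap_of_ker_isPGroup _ (by rw [QuotientGroup.ker_mk']; exact hAp)
    have hAb' : A.subgroupOf C ≠ ⊥ := fun h => hAb (by
      rw [Subgroup.subgroupOf_eq_bot] at h
      exact h.eq_bot_of_le hAC)
    haveI : (A.subgroupOf C).Normal := hAn.subgroupOf C
    obtain ⟨⟨z, hz⟩, hzne⟩ := Subgroup.ne_bot_iff_exists_ne_one.1 (PReduced.inf_center_ne_bot hCp hAb')
    set A' := A ⊓ Subgroup.centralizer (C : Set (G ⧸ N)) with hA'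
    have hA'n : A'.Normal := inferInstance
    have hzA' : (z : G ⧸ N) ∈ A' := ⟨hz.1, Subgroup.mem_centralizer_iff.2 fun c hc =>
      congrArg Subtype.val (Subgroup.mem_center_iff.1 hz.2 ⟨c, hc⟩)⟩
    have hA'b : A' ≠ ⊥ := fun h => by
      rw [h, Subgroup.mem_bot] at hzA'
      exact hzne (Subtype.ext (Subtype.ext hzA'))
    apply hy₀'
    refine mem_normalCore_of_smul fun x => ?_
    induction x using QuotientGroup.induction_on with
    | H g =>
      obtain ⟨a, ha, k, hk, rfl⟩ := hsupl _ (hA'n.comap (QuotientGroup.mk' N)) (hnotle A' hA'n hA'b) g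
      have hcom : y₀ * a * y₀⁻¹ * a⁻¹ ∈ N := by
        rw [← QuotientGroup.eq_one_iff]
        simp only [QuotientGroup.mk_mul, QuotientGroup.mk_inv]
        rw [show (y₀ : G ⧸ N) * a = a * y₀ from Subgroup.mem_centralizer_iff.1 ha.2 _ hy₀.1]; group
      have hak : ((a * k : G) : G ⧸ K) = a • ((1 : G) : G ⧸ K) := by
        rw [hmk, QuotientGroup.eq]; simpa using hk
      rw [hak, ← mul_smul, show y₀ * a = y₀ * a * y₀⁻¹ * a⁻¹ * (a * y₀) by group, mul_smul,
        normalCore_smul hcom, mul_smul, hmk y₀, hcoset y₀ hy₀.2]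
  have hq' : ∀ y ∈ L ⊓ K, ∃ b : ℕ, y ^ q ^ b ∈ N := by
    intro y hy
    obtain ⟨b, hb⟩ := hBq ⟨_, hy.1⟩
    refine ⟨b, hMKN _ ?_ (K.pow_mem hy.2 _)⟩
    show QuotientGroup.mk' N (y ^ q ^ b) ∈ A
    rw [← QuotientGroup.eq_one_iff, map_pow, QuotientGroup.mk_pow]
    exact congrArg Subtype.val hb
  have hQ : ∀ x ∈ L ⊓ K, ∀ y ∈ L ⊓ K, x * y * x⁻¹ * y⁻¹ ∈ N := by
    intro x hx y hy
    refine hMKN _ ?_ (K.mul_mem (K.mul_mem (K.mul_mem hx.2 hy.2) (K.inv_mem hx.2)) (K.inv_mem hy.2))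
    show QuotientGroup.mk' N (x * y * x⁻¹ * y⁻¹) ∈ A
    rw [← QuotientGroup.eq_one_iff]
    show QuotientGroup.mk' A (QuotientGroup.mk' N (x * y * x⁻¹ * y⁻¹)) = 1
    simp only [map_mul, map_inv]
    rw [hBc _ hx.1 _ hy.1]; group
  obtain ⟨J, P', hJ, hLJ, hP'⟩ :=
    hset.exists_bigger ((Nat.coprime_primes hp hq).2 hqp) hp' hschur L hML hq' hQ hy₀ hy₀'
  have h1 : L ≤ J.normalCore := Subgroup.normal_le_normalCore.2 hLJ
  have hlt : J.normalCore.index < c :=
    lt_of_lt_of_le (Subgroup.index_strictAnti (lt_of_le_of_ne ((hNM.trans hML).trans h1)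
      fun e => hy₀' (e ▸ h1 hy₀.1))) hKc
  exact ih _ hlt J rfl hJ P' hP'

/-- Let G be a finite solvable group and χ an irreducible character of G such that for every normal subgroup N the restriction of χ to N is a natural-number multiple of one irreducible character of N. Then χ is not induced from a character of any proper subgroup. -/
theorem result {G : Type*} [Group G] [Fintype G] [Group.IsSolvable G] (χ : G → ℂ) (hχ : Cfsg.IsIrrCharacter G χ) (hqp : ∀ (N : Subgroup G), N.Normal → ∃ (ϑ : N → ℂ) (e : ℕ), Cfsg.IsIrrCharacter N ϑ ∧ (fun n : N => χ n) = (e : ℂ) • ϑ) (K : Subgroup G) (hK : K ≠ ⊤) (ψ : K → ℂ) (hψ : Cfsg.IsCharacter K ψ) : Cfsg.indFun K ψ ≠ χ := by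
  classical
  obtain ⟨n, ρ, hρ, rfl⟩ := hχ
  intro heq
  have hχ' : Cfsg.IsIrrCharacter G ρ.character := ⟨n, ρ, hρ, rfl⟩
  haveI : Nonempty (Fin n) := ⟨⟨0, Nat.pos_of_ne_zero fun h0 => by
    subst h0
    have := CfsgLib.CharBasics.apply_one_ne_zero hχ'
    simp [Representation.char_one] at this⟩⟩
  haveI : Nontrivial (Fin n → ℂ) := Function.nontrivial
  obtain ⟨P, hP⟩ := exists_imp ρ hρ hχ' K hψ heq
  refine no_imp ρ hρ (fun N hN z hz hzc => ?_) _ K rfl hK P hP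
  obtain ⟨ϑ, e, hϑ, he⟩ := hqp N hN
  letI := Fintype.ofFinite N
  exact center_cent_of_homogeneous ρ N hϑ (fun x => congrFun he x) hz hzc

end Cfsg.Agent.S0889
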