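import Cfsg.Statements.S0890
import Cfsg.Agent.S0859
import Cfsg.Agent.S4261
import Cfsg.Agent.Clifford.Ito
import Cfsg.Agent.PReduced.Hom

set_option autoImplicit false
open Cfsg CfsgLib CfsgLib.CharBasics
open scoped ComplexConjugate

namespace Cfsg.Agent.S0890

universe u

variable {G : Type u} [Group G]

theorem irr_of_comp [Finite G] {B : Type u} [Group B] {f : G → ℂ} (hf : IsCharacter G f) (φ : B →* G)
    (h : IsIrrCharacter B fun x => f (φ x)) [Finite B] : IsIrrCharacter G f := by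
  classical
  letI := Fintype.ofFinite G
  letI := Fintype.ofFinite B
  have hf1 : f 1 ≠ 0 := fun h0 => apply_one_ne_zero h (by simpa using h0)
  obtain ⟨μ, k, hk, hμ⟩ := exists_constituent hf hf1
  obtain ⟨R, hR, hsum⟩ := Clifford.exists_eq_add_of_constituent hf μ.2
    (by rw [hμ]; exact Nat.cast_ne_zero.2 hk.ne')
  by_cases hR1 : R 1 = 0
  · rw [hsum, Clifford.eq_zero_of_apply_one hR hR1, add_zero]
    exact μ.2
  exfalso
  have h1 := classInner_self h
  obtain ⟨a, m, hm, ha⟩ := exists_constituent (CharBasics.isCharacter_comp (isCharacter_of_irr μ.2) φ)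
    (by simpa using apply_one_ne_zero μ.2)
  obtain ⟨b, n, hn, hb⟩ := exists_constituent (CharBasics.isCharacter_comp hR φ) (by simpa using hR1)
  have hadd : (fun x => f (φ x)) = (fun x => (μ : G → ℂ) (φ x)) + fun x => R (φ x) := by
    funext x; simp [hsum]
  have hin : ∀ c : IrrCharacter B, classInner (fun x => (μ : G → ℂ) (φ x)) (c : B → ℂ) ≠ 0 ∨
      classInner (fun x => R (φ x)) (c : B → ℂ) ≠ 0 → (fun x => f (φ x)) = (c : B → ℂ) := by
    intro c hc
    by_contra hne
    refine absurd (classInner_ne h c.2 hne) ?_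
    rw [hadd]
    rcases hc with hc | hc
    · exact Clifford.classInner_add_ne_zero_left (CharBasics.isCharacter_comp (isCharacter_of_irr μ.2) φ)
        (CharBasics.isCharacter_comp hR φ) (isCharacter_of_irr c.2) hc
    · rw [add_comm]
      exact Clifford.classInner_add_ne_zero_left (CharBasics.isCharacter_comp hR φ)
        (CharBasics.isCharacter_comp (isCharacter_of_irr μ.2) φ) (isCharacter_of_irr c.2) hc
  have ea := hin a (Or.inl (by rw [ha]; exact Nat.cast_ne_zero.2 hm.ne'))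
  have eb := hin b (Or.inr (by rw [hb]; exact Nat.cast_ne_zero.2 hn.ne'))
  nth_rewrite 1 [hadd] at h1
  rw [classInner_add_left] at h1
  nth_rewrite 1 [ea] at h1
  rw [eb, ha, hb] at h1
  have : m + n = 1 := by exact_mod_cast h1
  omega

theorem eq_smul_of_inner [Fintype G] {f : G → ℂ} (hf : IsIrrCharacter G f) :
    ∀ (n : ℕ) {F : G → ℂ}, IsCharacter G F → F 1 = (n : ℂ) * f 1 → classInner F f = n →
      ∀ x, F x = (n : ℂ) * f x
  | 0, F, hF, h1, _, x => by
    rw [Clifford.eq_zero_of_apply_one hF (by simpa using h1)]; simp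
  | n + 1, F, hF, h1, hi, x => by
    obtain ⟨R, hR, hsum⟩ := Clifford.exists_eq_add_of_constituent hF hf
      (by rw [hi]; exact Nat.cast_ne_zero.2 n.succ_ne_zero)
    have hR1 : R 1 = (n : ℂ) * f 1 := by
      rw [hsum, Pi.add_apply, Nat.cast_succ] at h1
      linear_combination h1
    have hRi : classInner R f = n := by
      rw [hsum, classInner_add_left, classInner_self hf, Nat.cast_succ] at hi
      linear_combination hi
    rw [hsum, Pi.add_apply, eq_smul_of_inner hf n hR hR1 hRi x, Nat.cast_succ]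
    ring

theorem vanish [Fintype G] (J : Subgroup G) [Fintype J] {η : G → ℂ} (hη : IsIrrCharacter G η) {f : J → ℂ}
    (hf : IsIrrCharacter J f) (c : ℕ) (hc : c ^ 2 = J.index) (h : ∀ x : J, η x = (c : ℂ) * f x) :
    ∀ g, g ∉ J → η g = 0 := by
  classical
  have hG := classInner_self hη
  have hJ := classInner_self hf
  rw [classInner_eq, inv_mul_eq_iff_eq_mul₀ (Nat.cast_ne_zero.2 Nat.card_pos.ne'), mul_one] at hG hJ
  rw [← Finset.sum_filter_add_sum_filter_not Finset.univ (fun g : G => g ∈ J)] at hG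
  have hsub : ∑ g ∈ Finset.univ.filter (fun g : G => g ∈ J), η g * conj (η g) = (Nat.card G : ℂ) := by
    rw [Finset.sum_subtype _ (p := fun g => g ∈ J) (by simp) (fun g => η g * conj (η g))]
    rw [← J.index_mul_card, ← hc, Nat.cast_mul, Nat.cast_pow, ← hJ, Finset.mul_sum]
    refine Finset.sum_congr rfl fun x _ => ?_
    rw [h x, map_mul, map_natCast]; ring
  rw [hsub, add_eq_left] at hG
  intro g hg
  simp only [Complex.mul_conj, ← Complex.ofReal_sum] at hG
  exact Complex.normSq_eq_zero.1 ((Finset.sum_eq_zero_iff_of_nonneg (fun g _ => Complex.normSq_nonneg (η g))).mp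
    (Complex.ofReal_eq_zero.mp hG) g (Finset.mem_filter.mpr ⟨Finset.mem_univ _, hg⟩))

/-- Facts about a homogeneous restriction to a normal supplement of `H`. -/
theorem key [Fintype G] (A H : Subgroup G) [A.Normal] (hsup : A ⊔ H = ⊤) {ϑ : H → ℂ}
    (hϑ : IsCharacter H ϑ) (hϑ0 : ϑ 1 ≠ 0) (hf : IsIrrCharacter (H.subgroupOf A) fun s : H.subgroupOf A => ϑ ⟨((s : A) : G), s.2⟩)
    {ψ : A → ℂ} (hψ : IsIrrCharacter A ψ) (e : ℕ) (he : ∀ a : A, indFun H ϑ a = (e : ℂ) * ψ a) :
    (H.subgroupOf A).index = H.index ∧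
      ∀ [Fintype (H.subgroupOf A)], classInner (fun s : H.subgroupOf A => ψ (s : A))
        (fun s : H.subgroupOf A => ϑ ⟨((s : A) : G), s.2⟩) = e := by
  classical
  letI : Fintype A := Fintype.ofFinite _
  have hAT : ∀ g : G, ∃ n ∈ A, n⁻¹ * g ∈ H := fun g => by
    have hg : g ∈ A ⊔ H := hsup ▸ Subgroup.mem_top g
    rw [Subgroup.mem_sup_of_normal_left] at hg
    obtain ⟨n, hn, y, hy, rfl⟩ := hg
    exact ⟨n, hn, by rwa [inv_mul_cancel_left]⟩
  have h1 := Cfsg.Agent.S0859.indFun_restrict_supplement A H hAT (isClassFunction hϑ)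
  refine ⟨?_, fun {_} => ?_⟩
  · have h3 : ((H.subgroupOf A).index : ℂ) * ϑ 1 = (H.index : ℂ) * ϑ 1 :=
      ((indFun_apply_one (H.subgroupOf A) fun s : H.subgroupOf A => ϑ ⟨((s : A) : G), s.2⟩).symm.trans
        (congrFun h1 1)).trans (indFun_apply_one H ϑ)
    exact Nat.cast_injective (mul_right_cancel₀ hϑ0 h3)
  · have h2 : classInner (indFun (H.subgroupOf A) fun s : H.subgroupOf A => ϑ ⟨((s : A) : G), s.2⟩) ψ = (e : ℂ) := by
      rw [h1, show (fun n : A => indFun H ϑ n) = (e : ℂ) • ψ from funext he, classInner_smul_left,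
        classInner_self hψ, mul_one]
    rw [classInner_indFun _ _ (isClassFunction (isCharacter_of_irr hψ))] at h2
    rw [classInner_comm, h2, map_natCast]

/-- Let L ≤ H < G with L normal in G, H a maximal subgroup and G / L solvable. Let ϑ be an irreducible character of H whose restriction to L is irreducible and whose induction χ to G is irreducible. Then there is a normal subgroup M of G containing L such that the restriction of χ to M is not a natural-number multiple of a single irreducible character of M. -/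
theorem result {G : Type*} [Group G] [Fintype G] (L H : Subgroup G) [L.Normal] (hLH : L ≤ H) (hmax : IsCoatom H) (hsolv : Group.IsSolvable (G ⧸ L)) (ϑ : H → ℂ) (hϑ : Cfsg.IsIrrCharacter H ϑ) (hϑL : Cfsg.IsIrrCharacter L (fun x : L => ϑ ⟨(x : G), hLH x.2⟩)) (hind : Cfsg.IsIrrCharacter G (Cfsg.indFun H ϑ)) : ∃ M : Subgroup G, M.Normal ∧ L ≤ M ∧ ¬ ∃ (φ : M → ℂ) (e : ℕ), Cfsg.IsIrrCharacter M φ ∧ (fun m : M => Cfsg.indFun H ϑ m) = (e : ℂ) • φ := by
  classical
  by_contra hcon
  push Not at hcon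
  have hχc : IsCharacter G (indFun H ϑ) := isCharacter_of_irr hind
  have hϑc := isCharacter_of_irr hϑ
  have hϑ0 : ϑ 1 ≠ 0 := apply_one_ne_zero hϑ
  have hom : ∀ M : Subgroup G, M.Normal → L ≤ M →
      ∃ (ψ : M → ℂ) (e : ℕ), IsIrrCharacter M ψ ∧ (∀ m : M, indFun H ϑ m = (e : ℂ) * ψ m) ∧ e ≠ 0 := by
    intro M hM hLM
    obtain ⟨φ, e, hφ, he⟩ := hcon M hM hLM
    refine ⟨φ, e, hφ, fun m => congrFun he m, fun h0 => apply_one_ne_zero hind ?_⟩
    have := congrFun he 1
    simpa [h0] using this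
  have hirr : ∀ (A : Subgroup G) (hLA : L ≤ A),
      IsIrrCharacter (H.subgroupOf A) fun s : H.subgroupOf A => ϑ ⟨((s : A) : G), s.2⟩ := by
    intro A hLA
    let i : H.subgroupOf A →* H :=
      { toFun := fun s => ⟨((s : A) : G), s.2⟩
        map_one' := rfl
        map_mul' := fun _ _ => rfl }
    let j : L →* H.subgroupOf A :=
      { toFun := fun l => ⟨⟨(l : G), hLA l.2⟩, hLH l.2⟩
        map_one' := rfl
        map_mul' := fun _ _ => rfl }
    exact irr_of_comp (CharBasics.isCharacter_comp hϑc i) j hϑL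
  -- the core
  set K := H.normalCore with hKdef
  have hKH : K ≤ H := Subgroup.normalCore_le H
  have hLK : L ≤ K := Subgroup.normal_le_normalCore.2 hLH
  letI : Fintype H := Fintype.ofFinite _
  obtain ⟨R, hR, hRsum⟩ := Clifford.exists_eq_add_of_constituent (CharBasics.isCharacter_restrict hχc H) hϑ (by
    rw [classInner_comm, ← classInner_indFun H ϑ (isClassFunction hχc), classInner_self hind]
    simp)
  obtain ⟨k, hk⟩ : ∃ k : ℕ, ∀ (x : G) (hx : x ∈ K), indFun H ϑ x = (k : ℂ) * ϑ ⟨x, hKH hx⟩ := by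
    obtain ⟨ψ, k, hψ, hk, hk0⟩ := hom K inferInstance hLK
    letI : Fintype K := Fintype.ofFinite _
    have hθK : IsIrrCharacter K fun x : K => ϑ ⟨(x : G), hKH x.2⟩ :=
      irr_of_comp (CharBasics.isCharacter_comp hϑc (Subgroup.inclusion hKH)) (Subgroup.inclusion hLK) hϑL
    have h1 : classInner (fun x : K => indFun H ϑ x) (fun x : K => ϑ ⟨(x : G), hKH x.2⟩) ≠ 0 := by
      rw [show (fun x : K => indFun H ϑ x) = (fun x : K => ϑ ⟨(x : G), hKH x.2⟩) + fun x : K => R ⟨(x : G), hKH x.2⟩ from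
        funext fun x => congrFun hRsum ⟨(x : G), hKH x.2⟩]
      exact Clifford.classInner_add_ne_zero_left (isCharacter_of_irr hθK)
        (CharBasics.isCharacter_comp hR (Subgroup.inclusion hKH)) (isCharacter_of_irr hθK)
        (by rw [classInner_self hθK]; exact one_ne_zero)
    rw [show (fun x : K => indFun H ϑ x) = (k : ℂ) • ψ from funext hk, classInner_smul_left] at h1
    have he : ψ = fun x : K => ϑ ⟨(x : G), hKH x.2⟩ := by
      by_contra hne
      exact h1 (by rw [classInner_ne hψ hθK hne, mul_zero])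
    exact ⟨k, fun x hx => (hk ⟨x, hx⟩).trans (by rw [he])⟩
  have hkH : k = H.index := by
    have := hk 1 K.one_mem
    rw [indFun_apply_one] at this
    exact (Nat.cast_injective (mul_right_cancel₀ hϑ0 this)).symm
  -- the quotient by the core
  obtain ⟨π, hπdef⟩ : ∃ π : G →* G ⧸ K, π = QuotientGroup.mk' K := ⟨_, rfl⟩
  have hπ : Function.Surjective π := hπdef ▸ QuotientGroup.mk'_surjective K
  have hπK : ∀ x, π x = 1 ↔ x ∈ K := fun x => by rw [hπdef]; exact QuotientGroup.eq_one_iff x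
  have hπker : π.ker = K := Subgroup.ext fun x => by rw [MonoidHom.mem_ker, hπK]
  obtain ⟨Hb, hHbdef⟩ : ∃ Hb : Subgroup (G ⧸ K), Hb = H.map π := ⟨_, rfl⟩
  have hHcomap : Hb.comap π = H := by
    rw [hHbdef, Subgroup.comap_map_eq, hπker, sup_eq_left.2 hKH]
  have hcore : ∀ S : Subgroup (G ⧸ K), S.Normal → S ≤ Hb → S = ⊥ := by
    intro S hS hSH
    have h1 : S.comap π ≤ K := (@Subgroup.normal_le_normalCore _ _ H _ (hS.comap π)).2
      ((Subgroup.comap_mono hSH).trans hHcomap.le)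
    refine eq_bot_iff.2 fun y hy => ?_
    obtain ⟨x, rfl⟩ := hπ y
    exact Subgroup.mem_bot.2 ((hπK x).2 (h1 hy))
  have hsol : Group.IsSolvable (G ⧸ K) := by
    have := hsolv
    exact solvable_of_surjective (f := QuotientGroup.map L K (MonoidHom.id G) hLK)
      fun y => by obtain ⟨x, rfl⟩ := QuotientGroup.mk_surjective y; exact ⟨x, rfl⟩
  haveI : Nontrivial (G ⧸ K) := by
    obtain ⟨x, hx⟩ : ∃ x, x ∉ K := by
      by_contra hne
      push Not at hne
      exact hmax.1 (eq_top_iff.2 fun y _ => hKH (hne y))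
    exact ⟨π x, 1, fun h => hx ((hπK x).1 h)⟩
  obtain ⟨A, p, hp, hAn, hAb, hAp, hAc⟩ := Cfsg.Agent.S4261.exists_minimal_normal_pGroup hsol
  haveI := hAn
  haveI := Fact.mk hp
  set M := A.comap π with hMdef
  haveI hMn : M.Normal := hAn.comap π
  have hKM : K ≤ M := fun x hx => by
    show π x ∈ A
    rw [(hπK x).2 hx]; exact A.one_mem
  have hHbA : Hb ⊔ A = ⊤ := by
    have hne : ¬ M ≤ H := fun h => hAb (hcore A hAn (by
      intro y hy
      obtain ⟨x, rfl⟩ := hπ y
      rw [← Subgroup.mem_comap, hHcomap]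
      exact h hy))
    have h1 : M ⊔ H = ⊤ := hmax.2 _ (lt_of_le_of_ne le_sup_right fun h => hne (h ▸ le_sup_left))
    rw [sup_comm, ← Subgroup.map_comap_eq_self_of_surjective hπ A, hHbdef, ← Subgroup.map_sup, h1,
      Subgroup.map_top_of_surjective π hπ]
  have hMH : M ⊔ H = ⊤ := by
    have h1 := congrArg (Subgroup.comap π) hHbA
    rwa [Subgroup.comap_top, ← Subgroup.comap_sup_eq π Hb A hπ, hHcomap, sup_comm] at h1
  have hnormal : ∀ S : Subgroup (G ⧸ K), S ≤ Hb → (∀ h ∈ Hb, ∀ s ∈ S, h * s * h⁻¹ ∈ S) →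
      (∀ a ∈ A, ∀ s ∈ S, a * s * a⁻¹ ∈ S) → S = ⊥ := by
    intro S hS h1 h2
    refine hcore S ?_ hS
    rw [← Subgroup.normalizer_eq_top_iff, eq_top_iff, ← hHbA, sup_le_iff]
    exact ⟨fun h hh => Subgroup.mem_normalizer_fintype fun s hs => h1 h hh s hs,
      fun a ha => Subgroup.mem_normalizer_fintype fun s hs => h2 a ha s hs⟩
  have hinf : Hb ⊓ A = ⊥ := hnormal _ inf_le_left
    (fun h hh s hs => ⟨Hb.mul_mem (Hb.mul_mem hh hs.1) (Hb.inv_mem hh), hAn.conj_mem s hs.2 h⟩)
    (fun a ha s hs => by rw [hAc a ha s hs.2, mul_inv_cancel_right]; exact hs)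
  have hMHK : H ⊓ M ≤ K := fun x hx => (hπK x).1 (by
    have : π x ∈ Hb ⊓ A := ⟨(hHcomap.ge hx.1 : x ∈ Hb.comap π), hx.2⟩
    rwa [hinf, Subgroup.mem_bot] at this)
  -- the restriction to `M`
  letI : Fintype M := Fintype.ofFinite _
  letI : Fintype (H.subgroupOf M) := Fintype.ofFinite _
  obtain ⟨ψ, e, hψ, he, he0⟩ := hom M hMn (hLK.trans hKM)
  obtain ⟨hiM, hinM'⟩ := key M H hMH hϑc hϑ0 (hirr M (hLK.trans hKM)) hψ e he
  have hinM := @hinM' _
  have heC : (e : ℂ) ≠ 0 := Nat.cast_ne_zero.2 he0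
  have hke : k = e ^ 2 := by
    have hfun : (fun s : H.subgroupOf M => ψ (s : M)) =
        ((k : ℂ) / e) • fun s : H.subgroupOf M => ϑ ⟨((s : M) : G), s.2⟩ := by
      funext s
      have h1 := hk ((s : M) : G) (hMHK ⟨s.2, (s : M).2⟩)
      rw [he] at h1
      rw [Pi.smul_apply, smul_eq_mul, div_mul_eq_mul_div, eq_div_iff heC, mul_comm]
      exact h1
    rw [hfun, classInner_smul_left, classInner_self (hirr M (hLK.trans hKM)), mul_one, div_eq_iff heC] at hinM
    have : (k : ℂ) = ((e ^ 2 : ℕ) : ℂ) := by rw [hinM]; push_cast; ring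
    exact Nat.cast_injective this
  have hψ1 : ψ 1 = (e : ℂ) * ϑ 1 := by
    have h1 := he 1
    rw [Subgroup.coe_one, indFun_apply_one, ← hkH, hke] at h1
    push_cast at h1
    exact mul_left_cancel₀ heC (by linear_combination -h1)
  obtain ⟨j, hj⟩ := IsPGroup.iff_card.1 hAp
  have heA : e ^ 2 = p ^ j := by
    rw [← hj, ← hke, hkH, ← hiM]
    show H.relIndex M = _
    rw [← Subgroup.inf_relIndex_right H M, show H ⊓ M = K from le_antisymm hMHK (le_inf hKH hKM),
      show K.relIndex M = π.ker.relIndex M from congrArg (fun S => Subgroup.relIndex S M) hπker.symm,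
      ← MonoidHom.comap_bot π, Subgroup.relIndex_comap,
      Subgroup.map_comap_eq_self_of_surjective hπ, Subgroup.relIndex_bot_left]
  obtain ⟨i, -, hei⟩ := (Nat.dvd_prime_pow hp).1 (heA ▸ dvd_pow_self e (two_ne_zero) : e ∣ p ^ j)
  by_cases hMtop : M = ⊤
  · have h1 : (e : ℂ) * e = 1 := by
      have h2 := classInner_self hind
      have hkey : ∀ g : G, indFun H ϑ g = (e : ℂ) * ψ ⟨g, hMtop ▸ Subgroup.mem_top g⟩ := fun g => he ⟨g, _⟩
      have h3 := classInner_self hψ
      rw [classInner_eq, inv_mul_eq_iff_eq_mul₀ (Nat.cast_ne_zero.2 Nat.card_pos.ne'), mul_one] at h2 h3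
      have h4 : ∑ g : G, indFun H ϑ g * conj (indFun H ϑ g) = (e : ℂ) * e * ∑ m : M, ψ m * conj (ψ m) := by
        rw [Finset.mul_sum]
        refine Fintype.sum_equiv ((MulEquiv.subgroupCongr hMtop).trans Subgroup.topEquiv).toEquiv.symm _ _ fun g => ?_
        rw [hkey g, map_mul, map_natCast]
        show _ = (e : ℂ) * e * (ψ ⟨g, _⟩ * conj (ψ ⟨g, _⟩))
        ring
      rw [h2, h3, show Nat.card M = Nat.card G by rw [hMtop, Subgroup.card_top]] at h4
      exact mul_right_cancel₀ (Nat.cast_ne_zero.2 Nat.card_pos.ne') (by rw [one_mul]; exact h4.symm)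
    have h2 : e ^ 2 = 1 := by rw [pow_two]; exact_mod_cast h1
    refine hAb (Subgroup.card_eq_one.1 ?_)
    rw [hj, ← heA, h2]
  -- a second chief factor
  have hAtop : A ≠ ⊤ := fun h => hMtop (by rw [hMdef, h, Subgroup.comap_top])
  haveI : Nontrivial ((G ⧸ K) ⧸ A) := by
    obtain ⟨y, hy⟩ : ∃ y, y ∉ A := by
      by_contra hne
      push Not at hne
      exact hAtop (eq_top_iff.2 fun y _ => hne y)
    exact ⟨QuotientGroup.mk y, 1, fun h => hy ((QuotientGroup.eq_one_iff y).1 h)⟩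
  haveI := hsol
  obtain ⟨B, q, hq, hBn, hBb, hBq, -⟩ :=
    Cfsg.Agent.S4261.exists_minimal_normal_pGroup (Q := (G ⧸ K) ⧸ A) inferInstance
  haveI := hBn
  haveI := Fact.mk hq
  set C := B.comap (QuotientGroup.mk' A) with hCdef
  haveI hCn : C.Normal := hBn.comap _
  have hAC : A ≤ C := fun a ha => by
    show QuotientGroup.mk' A a ∈ B
    rw [show QuotientGroup.mk' A a = 1 from (QuotientGroup.eq_one_iff a).2 ha]; exact B.one_mem
  have hCA : ¬ C ≤ A := fun h => hBb (eq_bot_iff.2 fun y hy => by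
    obtain ⟨x, rfl⟩ := QuotientGroup.mk'_surjective A y
    exact Subgroup.mem_bot.2 ((QuotientGroup.eq_one_iff x).2 (h hy)))
  have hqp : q ≠ p := by
    rintro rfl
    have hCp : IsPGroup q C := hBq.comap_of_ker_isPGroup _ (by rw [QuotientGroup.ker_mk']; exact hAp)
    haveI : (A.subgroupOf C).Normal := hAn.subgroupOf C
    have hAb' : A.subgroupOf C ≠ ⊥ := fun h => hAb (by
      rw [Subgroup.subgroupOf_eq_bot] at h
      exact h.eq_bot_of_le hAC)
    obtain ⟨⟨z, hz⟩, hzne⟩ := Subgroup.ne_bot_iff_exists_ne_one.1 (PReduced.inf_center_ne_bot hCp hAb')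
    have hz1 : z ≠ 1 := fun h => hzne (Subtype.ext h)
    obtain ⟨A', hA'def⟩ : ∃ A' : Subgroup (G ⧸ K), A' = A ⊓ Subgroup.centralizer (C : Set (G ⧸ K)) := ⟨_, rfl⟩
    haveI hA'n : A'.Normal := hA'def ▸ inferInstance
    have hA'A : A' = A := by
      refine le_antisymm (hA'def ▸ inf_le_left) fun a ha => ?_
      have hA'H : ¬ A' ≤ Hb := fun h => hz1 (Subtype.ext (Subgroup.mem_bot.1 (hcore A' hA'n h ▸
        (hA'def ▸ ⟨hz.1, Subgroup.mem_centralizer_iff.2 fun c hc => congrArg Subtype.val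
          (Subgroup.mem_center_iff.1 hz.2 ⟨c, hc⟩)⟩ : (z : G ⧸ K) ∈ A'))))
      have htop : A' ⊔ Hb = ⊤ := by
        have h1 : (A'.comap π) ⊔ H = ⊤ := hmax.2 _ (lt_of_le_of_ne le_sup_right fun h => hA'H (by
          intro y hy
          obtain ⟨x, rfl⟩ := hπ y
          rw [← Subgroup.mem_comap, hHcomap, h]
          exact Subgroup.mem_sup_left hy))
        rw [← Subgroup.map_comap_eq_self_of_surjective hπ A', hHbdef, ← Subgroup.map_sup, h1,
          Subgroup.map_top_of_surjective π hπ]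
      have ha' : a ∈ A' ⊔ Hb := htop ▸ Subgroup.mem_top a
      rw [Subgroup.mem_sup_of_normal_left] at ha'
      obtain ⟨a', ha'', y, hy, rfl⟩ := ha'
      have : y ∈ Hb ⊓ A := ⟨hy, by
        have := A.mul_mem (A.inv_mem ((hA'def ▸ ha'' : a' ∈ A ⊓ _).1)) ha
        rwa [inv_mul_cancel_left] at this⟩
      rw [hinf, Subgroup.mem_bot] at this
      rw [this, mul_one]; exact ha''
    refine hCA fun c hc => ?_
    have hcs : c ∈ A ⊔ Hb := by rw [sup_comm, hHbA]; trivial
    rw [Subgroup.mem_sup_of_normal_left] at hcs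
    obtain ⟨a, ha, y, hy, rfl⟩ := hcs
    have hyC : y ∈ C := by simpa using C.mul_mem (C.inv_mem (hAC ha)) hc
    have hCH : C ⊓ Hb = ⊥ := hnormal _ inf_le_right
      (fun h hh s hs => ⟨hCn.conj_mem s hs.1 h, Hb.mul_mem (Hb.mul_mem hh hs.2) (Hb.inv_mem hh)⟩)
      (fun b hb s hs => by
        have h1 : b ∈ A' := hA'A.symm ▸ hb
        rw [hA'def] at h1
        rw [← Subgroup.mem_centralizer_iff.1 h1.2 s hs.1, mul_inv_cancel_right]
        exact hs)
    have : y ∈ C ⊓ Hb := ⟨hyC, hy⟩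
    rw [hCH, Subgroup.mem_bot] at this
    rw [this, mul_one]; exact ha
  set N := C.comap π with hNdef
  haveI hNn : N.Normal := hCn.comap π
  have hMN : M ≤ N := Subgroup.comap_mono hAC
  letI : Fintype N := Fintype.ofFinite _
  letI : Fintype (H.subgroupOf N) := Fintype.ofFinite _
  have hNH : N ⊔ H = ⊤ := eq_top_iff.2 (hMH ▸ sup_le_sup_right hMN H)
  obtain ⟨η, a, hη, ha, ha0⟩ := hom N hNn ((hLK.trans hKM).trans hMN)
  obtain ⟨hiN, hinN'⟩ := key N H hNH hϑc hϑ0 (hirr N ((hLK.trans hKM).trans hMN)) hη a ha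
  have hinN := @hinN' _
  -- `η` restricts irreducibly to `M`
  have haC : (a : ℂ) ≠ 0 := Nat.cast_ne_zero.2 ha0
  have hψc : IsCharacter M fun m : M => η ⟨(m : G), hMN m.2⟩ :=
    CharBasics.isCharacter_comp (isCharacter_of_irr hη) (Subgroup.inclusion hMN)
  obtain ⟨b, hb⟩ := classInner_characters_nat hψc (isCharacter_of_irr hψ)
  have hηM : ∀ m : M, η ⟨(m : G), hMN m.2⟩ = ((e : ℂ) / a) * ψ m := fun m => by
    have h1 : indFun H ϑ (m : G) = (a : ℂ) * η ⟨(m : G), hMN m.2⟩ := ha ⟨(m : G), hMN m.2⟩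
    rw [he] at h1
    rw [div_mul_eq_mul_div, eq_div_iff haC, mul_comm]
    exact h1.symm
  rw [show (fun m : M => η ⟨(m : G), hMN m.2⟩) = ((e : ℂ) / a) • ψ from funext hηM, classInner_smul_left,
    classInner_self hψ, mul_one] at hb
  have hab : a * b = e := by
    rw [div_eq_iff haC] at hb
    have : ((a * b : ℕ) : ℂ) = (e : ℂ) := by push_cast; rw [hb]; ring
    exact Nat.cast_injective this
  let E : M.subgroupOf N ≃* M := Subgroup.subgroupOfEquivOfLe hMN
  haveI : (M.subgroupOf N).Normal := hMn.subgroupOf N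
  have hbdvd : b ∣ (M.subgroupOf N).index := by
    refine Clifford.charMult_dvd_index hη (Clifford.isIrrCharacter_comp hψ E.toMonoidHom E.surjective)
      (fun g => funext fun m => ?_) b fun m => ?_
    · rw [Clifford.conjFun_apply]
      refine mul_left_cancel₀ heC ?_
      show (e : ℂ) * ψ (E _) = (e : ℂ) * ψ (E m)
      rw [← he, ← he]
      exact isClassFunction hχc (((m : N) : G)) (g : G)
    · rw [← hb]; exact hηM (E m)
  obtain ⟨l, hl⟩ := IsPGroup.iff_card.1 hBq
  have hidx : (M.subgroupOf N).index = q ^ l := by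
    show M.relIndex N = _
    rw [hMdef, Subgroup.relIndex_comap, hNdef, Subgroup.map_comap_eq_self_of_surjective hπ,
      show A.relIndex C = (QuotientGroup.mk' A).ker.relIndex C from
        congrArg (fun S => Subgroup.relIndex S C) (QuotientGroup.ker_mk' A).symm,
      ← MonoidHom.comap_bot (QuotientGroup.mk' A), Subgroup.relIndex_comap, hCdef, Subgroup.map_comap_eq_self_of_surjective (QuotientGroup.mk'_surjective A),
      Subgroup.relIndex_bot_left, hl]
  have hb1 : b = 1 := Nat.eq_one_of_dvd_coprimes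
    (((Nat.coprime_primes hq hp).2 hqp).pow l i) (hidx ▸ hbdvd) (hei ▸ hab ▸ dvd_mul_left b a)
  rw [hb1, mul_one] at hab
  subst hab
  have hη1 : η 1 = (a : ℂ) * ϑ 1 := by
    have h1 := hηM 1
    rw [div_self haC, one_mul, hψ1] at h1
    exact h1
  have hηJ : ∀ s : H.subgroupOf N, η (s : N) = (a : ℂ) * ϑ ⟨((s : N) : G), s.2⟩ :=
    eq_smul_of_inner (hirr N ((hLK.trans hKM).trans hMN)) a
      (CharBasics.isCharacter_restrict (isCharacter_of_irr hη) _) hη1 hinN
  have hvan := vanish (H.subgroupOf N) hη (hirr N ((hLK.trans hKM).trans hMN)) a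
    (by rw [hiN, ← hkH, hke]) hηJ
  have hzero : ∀ (x : G) (hxH : x ∈ H), x ∈ N → x ∉ K → ϑ ⟨x, hxH⟩ = 0 := by
    intro x hxH hxN hxK
    by_contra hne
    have hηx : η ⟨x, hxN⟩ ≠ 0 := by
      rw [hηJ ⟨⟨x, hxN⟩, hxH⟩]
      exact mul_ne_zero haC hne
    have hcomm : ∀ m ∈ M, m * x * m⁻¹ * x⁻¹ ∈ K := by
      intro m hm
      have hmx : m * x * m⁻¹ ∈ H := by
        by_contra hmem
        refine hηx ?_
        rw [← hvan (⟨m, hMN hm⟩ * ⟨x, hxN⟩ * ⟨m, hMN hm⟩⁻¹) hmem]
        exact (isClassFunction (isCharacter_of_irr hη) ⟨x, hxN⟩ ⟨m, hMN hm⟩).symm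
      refine hMHK ⟨H.mul_mem hmx (H.inv_mem hxH), ?_⟩
      have := M.mul_mem hm (hMn.conj_mem _ (M.inv_mem hm) x)
      simpa [mul_assoc] using this
    refine hxK ((hπK x).1 (Subgroup.mem_bot.1 ?_))
    rw [← hnormal (Hb ⊓ Subgroup.centralizer (A : Set (G ⧸ K))) inf_le_left
      (fun h hh s hs => ⟨Hb.mul_mem (Hb.mul_mem hh hs.1) (Hb.inv_mem hh),
        (inferInstance : (Subgroup.centralizer (A : Set (G ⧸ K))).Normal).conj_mem s hs.2 h⟩)
      (fun b hb s hs => by rw [Subgroup.mem_centralizer_iff.1 hs.2 b hb, mul_inv_cancel_right]; exact hs)]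
    refine ⟨(hHcomap.ge hxH : x ∈ Hb.comap π), Subgroup.mem_centralizer_iff.2 fun b hb => ?_⟩
    obtain ⟨m, rfl⟩ := hπ b
    have h1 := (hπK _).2 (hcomm m hb)
    simp only [map_mul, map_inv] at h1
    exact mul_inv_eq_iff_eq_mul.1 (mul_inv_eq_one.1 h1)
  obtain ⟨c, hcC, hcA⟩ := SetLike.not_le_iff_exists.1 hCA
  obtain ⟨n, rfl⟩ := hπ c
  have hnH : n ∈ M ⊔ H := hMH ▸ Subgroup.mem_top n
  rw [Subgroup.mem_sup_of_normal_left] at hnH
  obtain ⟨m, hm, y, hy, rfl⟩ := hnH
  have hyN : y ∈ N := by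
    have := N.mul_mem (N.inv_mem (hMN hm)) (hcC : m * y ∈ N)
    rwa [inv_mul_cancel_left] at this
  have hyK : y ∉ K := fun h => hcA (M.mul_mem hm (hKM h))
  -- compare the norms on `N ⊓ H` and `K`
  letI : Fintype K := Fintype.ofFinite _
  have hθK : IsIrrCharacter K fun x : K => ϑ ⟨(x : G), hKH x.2⟩ :=
    irr_of_comp (CharBasics.isCharacter_comp hϑc (Subgroup.inclusion hKH)) (Subgroup.inclusion hLK) hϑL
  have hJ := classInner_self (hirr N ((hLK.trans hKM).trans hMN))
  have hK := classInner_self hθK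
  rw [classInner_eq, inv_mul_eq_iff_eq_mul₀ (Nat.cast_ne_zero.2 Nat.card_pos.ne'), mul_one] at hJ hK
  let ι : K → H.subgroupOf N := fun x => ⟨⟨(x : G), hMN (hKM x.2)⟩, hKH x.2⟩
  have hι : Function.Injective ι := fun x x' h => Subtype.ext (congrArg (fun s : H.subgroupOf N => ((s : N) : G)) h)
  rw [← Fintype.sum_of_injective ι hι _ _ (fun s hs => by
      rw [hzero ((s : N) : G) s.2 (s : N).2 fun hK' => hs ⟨⟨_, hK'⟩, rfl⟩, zero_mul])
      (fun x => rfl : ∀ x : K, ϑ ⟨(x : G), hKH x.2⟩ * conj (ϑ ⟨(x : G), hKH x.2⟩) = _), hK,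
    Nat.cast_inj, Nat.card_eq_fintype_card, Nat.card_eq_fintype_card] at hJ
  exact hyK (by
    obtain ⟨x, hx⟩ := ((Fintype.bijective_iff_injective_and_card ι).2 ⟨hι, hJ⟩).2 ⟨⟨y, hyN⟩, hy⟩
    have h1 : (x : G) = y := congrArg (fun s : H.subgroupOf N => ((s : N) : G)) hx
    exact h1 ▸ x.2)

end Cfsg.Agent.S0890
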