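import Cfsg.Statements.S0939
import Cfsg.Agent.ZStar.Second
import Cfsg.Agent.ZStar.Principal
-- import your own Cfsg.Agent.* helpers here

set_option autoImplicit false
open Cfsg

namespace Cfsg.Agent.S0939

/-- Let G be a finite group with a normal p-complement (the largest normal subgroup O_p'(G) of order prime to p has p-power index). Then, relative to any maximal ideal M of the algebraic integers containing p, the principal block of G is the set of irreducible characters χ with χ n = χ 1 for every n ∈ O_p'(G). -/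
theorem result {G : Type*} [Group G] [Finite G] (p : ℕ) [Fact p.Prime] (M : Ideal Cfsg.AlgInt) (hM : Cfsg.IsPModular p M) (hnc : ∃ k : ℕ, (Cfsg.pPrimeCore p G).index = p ^ k) : Cfsg.principalBlock M G = {χ : Cfsg.IrrCharacter G | ∀ n ∈ Cfsg.pPrimeCore p G, (χ : G → ℂ) n = (χ : G → ℂ) 1} := by
  classical
  haveI : Fintype G := Fintype.ofFinite G
  have hKn : (Cfsg.pPrimeCore p G).Normal := by
    haveI := CfsgLib.PCore.pPrimeCore_characteristic p G
    infer_instance
  have hcop := CfsgLib.PCore.not_dvd_card_pPrimeCore p G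
  have hmem : ∀ g : G, g ∈ Cfsg.pPrimeCore p G ↔ ¬ p ∣ orderOf g := by
    intro g
    constructor
    · intro hg hd
      refine hcop (hd.trans ?_)
      rw [← Subgroup.orderOf_mk g hg]
      exact orderOf_dvd_natCard _
    · intro hg
      obtain ⟨k, hk⟩ := hnc
      haveI := hKn
      have h1 : orderOf (QuotientGroup.mk' (Cfsg.pPrimeCore p G) g) ∣ p ^ k := by
        rw [← hk]
        exact orderOf_dvd_natCard _
      have h2 := orderOf_map_dvd (QuotientGroup.mk' (Cfsg.pPrimeCore p G)) g
      have h3 : (p ^ k).Coprime (orderOf g) := ((Fact.out : p.Prime).coprime_iff_not_dvd.2 hg).pow_left k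
      exact (QuotientGroup.eq_one_iff g).1 (orderOf_eq_one_iff.1 (Nat.eq_one_of_dvd_coprimes h3 h1 h2))
  ext χ
  constructor
  · intro hχ n hn
    have hv : n ∈ Cfsg.centralizerPPrimeCore p (1 : G) := by
      haveI := hKn
      refine ⟨⟨n, Subgroup.mem_centralizer_singleton_iff.2 (by simp)⟩, ?_, rfl⟩
      refine (CfsgLib.PCore.le_pPrimeCore_of_not_dvd (N := (Cfsg.pPrimeCore p G).subgroupOf _) inferInstance ?_) hn
      exact fun h => hcop (h.trans (CfsgLib.PCore.card_subgroupOf_dvd _ _))
    have h := CfsgLib.ZStar.principal_apply_mul_core hM (u := (1 : G)) ⟨0, by simp⟩ hχ hv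
    rwa [one_mul] at h
  · intro hχ
    by_contra hno
    have h := CfsgLib.ZStar.sum_regular_eq_zero hM hno
    rw [Finset.sum_congr rfl (g := fun g : G => if p ∣ orderOf g then 0 else (χ : G → ℂ) 1) (fun g _ => by
      split_ifs with hd; rfl; exact hχ g ((hmem g).2 hd)), Finset.sum_ite, Finset.sum_const_zero, zero_add,
      Finset.sum_const, nsmul_eq_mul] at h
    refine mul_ne_zero (Nat.cast_ne_zero.2 ?_) (CfsgLib.CharBasics.apply_one_ne_zero χ.2) h
    exact (Finset.card_pos.2 ⟨1, by simp [(Fact.out : p.Prime).ne_one]⟩).ne'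

end Cfsg.Agent.S0939
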