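import Cfsg.Statements.S0948
import Cfsg.Agent.ZStar.KleinBlock
-- import your own Cfsg.Agent.* helpers here

set_option autoImplicit false
open Cfsg

namespace Cfsg.Agent.S0948

/-- Let the finite group G have a Sylow 2-subgroup P that is a Klein four-group, suppose all involutions of G are conjugate, and fix a maximal ideal M of the algebraic integers containing 2. Then the principal block consists of exactly four irreducible characters, the principal character and ζ₂, ζ₃, ζ₄, and there is a sign ε such that for every involution z: ζ₂ z = 1, ζ₃ z = ε, ζ₄ z = -1; moreover ζ₂ 1 ≡ 1, ζ₃ 1 ≡ ε, ζ₄ 1 ≡ -1 (mod 4), and 1 + ζ₂ y + ε ζ₃ y - ζ₄ y = 0 for every y of odd order. -/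
theorem result {G : Type*} [Group G] [Finite G] (M : Ideal Cfsg.AlgInt) (hM : Cfsg.IsPModular 2 M) (P : Sylow 2 G) (hP : IsKleinFour (P : Subgroup G)) (hone : ∀ s t : G, orderOf s = 2 → orderOf t = 2 → IsConj s t) : ∃ ζ₂ ζ₃ ζ₄ : Cfsg.IrrCharacter G, ∃ ε : ℤ, (ε = 1 ∨ ε = -1) ∧ (ζ₂ : G → ℂ) ≠ (fun _ => 1) ∧ (ζ₃ : G → ℂ) ≠ (fun _ => 1) ∧ ζ₂ ≠ ζ₃ ∧ ζ₂ ≠ ζ₄ ∧ ζ₃ ≠ ζ₄ ∧ Cfsg.principalBlock M G = {χ : Cfsg.IrrCharacter G | (χ : G → ℂ) = (fun _ => 1) ∨ χ = ζ₂ ∨ χ = ζ₃ ∨ χ = ζ₄} ∧ (∀ z : G, orderOf z = 2 → (ζ₂ : G → ℂ) z = 1 ∧ (ζ₃ : G → ℂ) z = (ε : ℂ) ∧ (ζ₄ : G → ℂ) z = -1) ∧ (4 : ℤ) ∣ (Cfsg.charDegree (ζ₂ : G → ℂ) : ℤ) - 1 ∧ (4 : ℤ) ∣ (Cfsg.charDegree (ζ₃ : G → ℂ) : ℤ) - ε ∧ (4 : ℤ) ∣ (Cfsg.charDegree (ζ₄ : G → ℂ) : ℤ) + 1 ∧ ∀ y : G, Odd (orderOf y) → 1 + (ζ₂ : G → ℂ) y + (ε : ℂ) * (ζ₃ : G → ℂ) y - (ζ₄ : G → ℂ) y = 0 := by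
  classical
  haveI := Fact.mk Nat.prime_two
  haveI : Fintype G := Fintype.ofFinite G
  obtain ⟨T, a, hT, hT1, hpm, hB, hval, hdvd, hrel⟩ := CfsgLib.ZStar.klein_main P hP hone hM
  have h1 := hrel 1 (by rw [orderOf_one]; norm_num)
  have hdeg : ∀ χ : Cfsg.IrrCharacter G, (χ : G → ℂ) 1 = (Cfsg.charDegree (χ : G → ℂ) : ℂ) := fun χ =>
    CfsgLib.CharBasics.apply_one (CfsgLib.CharBasics.isCharacter_of_irr χ.2)
  have hpos : ∀ χ : Cfsg.IrrCharacter G, 0 < Cfsg.charDegree (χ : G → ℂ) := fun χ =>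
    CfsgLib.CharBasics.charDegree_pos χ.2
  have h1' : (1 : ℤ) + ∑ χ ∈ T, a χ * (Cfsg.charDegree (χ : G → ℂ) : ℤ) = 0 := by
    have : (((1 : ℤ) + ∑ χ ∈ T, a χ * (Cfsg.charDegree (χ : G → ℂ) : ℤ) : ℤ) : ℂ) = ((0 : ℤ) : ℂ) := by
      push_cast
      rw [← h1]
      simp only [hdeg]
    exact_mod_cast this
  obtain ⟨p, hp, hap⟩ : ∃ χ ∈ T, a χ = 1 := by
    by_contra hno
    push Not at hno
    rw [Finset.sum_congr rfl (g := fun χ : Cfsg.IrrCharacter G => -(Cfsg.charDegree (χ : G → ℂ) : ℤ))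
      (fun χ hχ => by rw [(hpm χ hχ).resolve_left (hno χ hχ)]; ring), Finset.sum_neg_distrib] at h1'
    have := Finset.card_nsmul_le_sum T (fun χ : Cfsg.IrrCharacter G => (Cfsg.charDegree (χ : G → ℂ) : ℤ)) 1
      (fun χ _ => by have := hpos χ; omega)
    rw [hT] at this
    simp at this
    omega
  obtain ⟨q, hq, haq⟩ : ∃ χ ∈ T, a χ = -1 := by
    by_contra hno
    push Not at hno
    have : 0 ≤ ∑ χ ∈ T, a χ * (Cfsg.charDegree (χ : G → ℂ) : ℤ) := Finset.sum_nonneg fun χ hχ => by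
      rw [(hpm χ hχ).resolve_right (hno χ hχ), one_mul]; exact Int.natCast_nonneg _
    omega
  have hpq : p ≠ q := fun e => by rw [e, haq] at hap; omega
  have hq' : q ∈ T.erase p := Finset.mem_erase.2 ⟨hpq.symm, hq⟩
  obtain ⟨r, hr⟩ := Finset.card_eq_one.1 (show ((T.erase p).erase q).card = 1 by
    rw [Finset.card_erase_of_mem hq', Finset.card_erase_of_mem hp, hT])
  have hrmem : r ∈ (T.erase p).erase q := hr ▸ Finset.mem_singleton_self r
  obtain ⟨hrq, hrmem'⟩ := Finset.mem_erase.1 hrmem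
  obtain ⟨hrp, hrT⟩ := Finset.mem_erase.1 hrmem'
  have hTset : T = {p, r, q} := by
    rw [← Finset.insert_erase hp, ← Finset.insert_erase hq', hr, Finset.pair_comm]
  have hne1 : ∀ χ ∈ T, (χ : G → ℂ) ≠ fun _ => 1 := fun χ hχ e =>
    hT1 ((Subtype.ext (e.trans (funext fun g => (CfsgLib.CharBasics.oneChar_apply g).symm)) : χ = CfsgLib.CharBasics.oneChar) ▸ hχ)
  refine ⟨p, r, q, a r, hpm r hrT, hne1 p hp, hne1 r hrT, hrp.symm, hpq, hrq, ?_, fun z hz => ?_, ?_, hdvd r hrT, ?_,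
    fun y hy => ?_⟩
  · rw [hB, hTset]
    ext χ
    simp only [Set.mem_insert_iff, Finset.coe_insert, Finset.coe_singleton, Set.mem_singleton_iff, Set.mem_setOf_eq]
    constructor
    · rintro (rfl | h | h | h)
      · exact Or.inl (funext fun g => CfsgLib.CharBasics.oneChar_apply g)
      · exact Or.inr (Or.inl h)
      · exact Or.inr (Or.inr (Or.inl h))
      · exact Or.inr (Or.inr (Or.inr h))
    · rintro (h | h | h | h)
      · exact Or.inl (Subtype.ext (h.trans (funext fun g => (CfsgLib.CharBasics.oneChar_apply g).symm)))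
      · exact Or.inr (Or.inl h)
      · exact Or.inr (Or.inr (Or.inl h))
      · exact Or.inr (Or.inr (Or.inr h))
  · refine ⟨?_, hval r hrT z hz, ?_⟩
    · rw [hval p hp z hz, hap, Int.cast_one]
    · rw [hval q hq z hz, haq, Int.cast_neg, Int.cast_one]
  · have := hdvd p hp; rwa [hap] at this
  · have := hdvd q hq; rwa [haq, sub_neg_eq_add] at this
  · have h := hrel y (fun hd => Nat.not_even_iff_odd.2 hy (even_iff_two_dvd.2 hd))
    rw [← Finset.add_sum_erase _ _ hp, ← Finset.add_sum_erase _ _ hq', hr, Finset.sum_singleton, hap, haq] at h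
    push_cast at h
    linear_combination h

end Cfsg.Agent.S0948
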