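import Cfsg.Statements.S0955
import Cfsg.Agent.Blocks.Covering
import Cfsg.Agent.PCore.Basic


set_option autoImplicit false
open Cfsg

namespace Cfsg.Agent.S0955

open CfsgLib.Blocks CfsgLib.CharBasics

/-- Let D be a defect group of a block of the finite group G relative to a maximal ideal M of the algebraic integers containing the prime p. Then D is the largest normal p-subgroup of its own normalizer: O_p(N_G(D)) = D. -/
theorem result {G : Type*} [Group G] [Finite G] (p : ℕ) [Fact p.Prime] (M : Ideal Cfsg.AlgInt) (hM : Cfsg.IsPModular p M) (B : Set (Cfsg.IrrCharacter G)) (hB : Cfsg.IsPBlock M B) (D : Subgroup G) (hD : Cfsg.IsDefectGroup p M B D) : (Cfsg.pCore p (Subgroup.normalizer (D : Set G))).map (Subgroup.normalizer (D : Set G)).subtype = D := by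
  classical
  haveI := Fintype.ofFinite G
  have hDcard := card_defectGroup hM hB hD
  obtain ⟨y, hy, S, rfl⟩ := hD
  set D := (S : Subgroup (Subgroup.centralizer ({y} : Set G))).map (Subgroup.centralizer ({y} : Set G)).subtype with hDdef
  set H := Subgroup.normalizer (D : Set G)
  haveI := Fintype.ofFinite H
  have hDp : IsPGroup p D := S.2.map _
  have hDH : D ≤ H := Subgroup.le_normalizer
  have hyC : y ∈ Subgroup.centralizer (D : Set G) := Subgroup.mem_centralizer_iff.2 fun q hq =>
    Subgroup.mem_centralizer_singleton_iff.1 (Subgroup.map_subtype_le _ hq)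
  obtain ⟨ξ, hξ⟩ := exists_not_small hM hB hDp hDH (Subgroup.centralizer_le_normalizer _) le_rfl hyC hy.2.1
  haveI : (pCore p H).Normal := Cfsg.pCore_normal p H
  haveI : (D.subgroupOf H).Normal := (Subgroup.normal_subgroupOf_iff_le_normalizer hDH).2 le_rfl
  have hle1 : D.subgroupOf H ≤ pCore p H :=
    le_sSup ⟨inferInstance, hDp.of_equiv (Subgroup.subgroupOfEquivOfLe hDH).symm⟩
  obtain ⟨E, hE, hle⟩ := le_defectGroup_of_not_small hM hB (pCore p H) (CfsgLib.PCore.isPGroup_pCore p H) ξ hξ
  have hD' : D ≤ (pCore p H).map H.subtype := fun d hd => ⟨⟨d, hDH hd⟩, hle1 hd, rfl⟩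
  symm
  refine Subgroup.eq_of_le_of_card_ge hD' ?_
  rw [hDcard, ← card_defectGroup hM hB hE]
  exact Subgroup.card_le_of_le hle

end Cfsg.Agent.S0955
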