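import Cfsg.Statements.S0985
-- import your own Cfsg.Agent.* helpers here

set_option autoImplicit false
open Cfsg

namespace Cfsg.Agent.S0985

/-- If the number of Sylow p-subgroups of a finite group is not congruent to 1 modulo p^k, then there are two distinct Sylow p-subgroups P and R such that the index of P ∩ R in P is at most p^(k-1). -/
theorem result {G : Type*} [Group G] [Finite G] (p k : ℕ) [Fact p.Prime] (h : ¬ Nat.card (Sylow p G) ≡ 1 [MOD p ^ k]) : ∃ P R : Sylow p G, P ≠ R ∧ ((R : Subgroup G).subgroupOf (P : Subgroup G)).index ≤ p ^ (k - 1) := by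
  classical
  by_contra hcon
  push Not at hcon
  apply h
  obtain ⟨P⟩ : Nonempty (Sylow p G) := inferInstance
  have hstab : ∀ R : Sylow p G, MulAction.stabilizer ↥(P : Subgroup G) R = (R : Subgroup G).subgroupOf (P : Subgroup G) := by
    intro R
    ext g
    constructor
    · intro hg
      have h1 : (g : G) ∈ (P : Subgroup G) ⊓ Subgroup.normalizer ((R : Subgroup G) : Set G) :=
        ⟨g.2, Sylow.smul_eq_iff_mem_normalizer.mp hg⟩
      exact ((IsPGroup.inf_normalizer_sylow P.2 R).le h1).2
    · intro hg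
      exact Sylow.smul_eq_iff_mem_normalizer.mpr (Subgroup.le_normalizer hg)
  have := Fintype.ofFinite (Sylow p G)
  have hsum : Nat.card (Sylow p G) = ∑ᶠ ω : MulAction.orbitRel.Quotient ↥(P : Subgroup G) (Sylow p G),
      Nat.card ↥ω.orbit := by
    rw [Nat.card_congr (MulAction.selfEquivSigmaOrbits' ↥(P : Subgroup G) (Sylow p G)), Nat.card_sigma,
      finsum_eq_sum_of_fintype]
  have hterm : ∀ ω : MulAction.orbitRel.Quotient ↥(P : Subgroup G) (Sylow p G),
      ω ≠ Quotient.mk'' P → p ^ k ∣ Nat.card ↥ω.orbit := by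
    intro ω hω
    obtain ⟨R, rfl⟩ := Quotient.mk''_surjective ω
    rw [MulAction.orbitRel.Quotient.orbit_mk, Nat.card_coe_set_eq, ← MulAction.index_stabilizer, hstab]
    have hne : P ≠ R := fun e => hω (e ▸ rfl)
    obtain ⟨j, hj⟩ := P.2.index ((R : Subgroup G).subgroupOf (P : Subgroup G))
    have hlt := hcon P R hne
    rw [hj] at hlt ⊢
    refine pow_dvd_pow p ?_
    have := (Nat.pow_lt_pow_iff_right (Fact.out : p.Prime).one_lt).mp hlt
    omega
  rw [hsum, finsum_eq_sum_of_fintype]
  rw [← Finset.sum_erase_add _ _ (Finset.mem_univ (Quotient.mk'' P))]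
  have hone : Nat.card ↥(MulAction.orbitRel.Quotient.orbit
      (Quotient.mk'' P : MulAction.orbitRel.Quotient ↥(P : Subgroup G) (Sylow p G))) = 1 := by
    rw [MulAction.orbitRel.Quotient.orbit_mk, Nat.card_coe_set_eq, ← MulAction.index_stabilizer, hstab]
    simp
  rw [hone]
  have hd : p ^ k ∣ ∑ ω ∈ Finset.univ.erase (Quotient.mk'' P : MulAction.orbitRel.Quotient ↥(P : Subgroup G) (Sylow p G)),
      Nat.card ↥(MulAction.orbitRel.Quotient.orbit ω) := Finset.dvd_sum fun ω hω => hterm ω (Finset.ne_of_mem_erase hω)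
  simpa using (Nat.modEq_zero_iff_dvd.mpr hd).add_right 1

end Cfsg.Agent.S0985
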