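import Cfsg.Statements.S1153
import Cfsg.Agent.Chev.Ree.Cosets
-- import your own Cfsg.Agent.* helpers here

set_option autoImplicit false
set_option linter.style.haveILetI false
set_option linter.unusedSectionVars false
open Cfsg

namespace Cfsg.Agent.S1153

/-- In the small Ree group ²G₂(q), q = 3^(2m+1), realised as G¹ inside the Chevalley group G₂ over the field with q elements, with `B¹ = G¹ ∩ B`: in the action of `G¹` on the cosets of `B¹`, the joint stabiliser of any three distinct cosets has order at most 2, and for some three distinct cosets it has order exactly 2. -/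
theorem result {K : Type*} [Field K] [Fintype K] {m : ℕ} (hK : Fintype.card K = 3 ^ (2 * m + 1)) :
    (∀ x y z : ↥(Cfsg.Lie.twistedG2 K (3 ^ m)) ⧸ ((Cfsg.Lie.chevG2.borelSubgroup K ⊓ Cfsg.Lie.twistedG2 K (3 ^ m))).subgroupOf (Cfsg.Lie.twistedG2 K (3 ^ m)), x ≠ y → x ≠ z → y ≠ z →
        Nat.card ↥(MulAction.stabilizer ↥(Cfsg.Lie.twistedG2 K (3 ^ m)) x ⊓ MulAction.stabilizer ↥(Cfsg.Lie.twistedG2 K (3 ^ m)) y ⊓ MulAction.stabilizer ↥(Cfsg.Lie.twistedG2 K (3 ^ m)) z) ≤ 2) ∧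
      ∃ x y z : ↥(Cfsg.Lie.twistedG2 K (3 ^ m)) ⧸ ((Cfsg.Lie.chevG2.borelSubgroup K ⊓ Cfsg.Lie.twistedG2 K (3 ^ m))).subgroupOf (Cfsg.Lie.twistedG2 K (3 ^ m)), x ≠ y ∧ x ≠ z ∧ y ≠ z ∧
        Nat.card ↥(MulAction.stabilizer ↥(Cfsg.Lie.twistedG2 K (3 ^ m)) x ⊓ MulAction.stabilizer ↥(Cfsg.Lie.twistedG2 K (3 ^ m)) y ⊓ MulAction.stabilizer ↥(Cfsg.Lie.twistedG2 K (3 ^ m)) z) = 2 := by
  haveI := CfsgLib.Chev.Ree.charP_three hK
  have hK' : Nat.card K = 3 ^ (2 * m + 1) := by rw [Nat.card_eq_fintype_card, hK]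
  set G := Cfsg.Lie.twistedG2 K (3 ^ m) with hG
  set B := (Cfsg.Lie.chevG2.borelSubgroup K ⊓ G).subgroupOf G with hB
  have hmemB : ∀ g : ↥G, g ∈ B ↔ (g : GL Cfsg.Lie.chevG2.Idx K) ∈ Cfsg.Lie.chevG2.borelSubgroup K := fun g => by
    rw [hB, Subgroup.mem_subgroupOf, Subgroup.mem_inf]
    exact ⟨fun h => h.1, fun h => ⟨h, g.2⟩⟩
  obtain ⟨n, hn⟩ : ∃ n : ↥G, (n : GL Cfsg.Lie.chevG2.Idx K) = CfsgLib.Chev.Ree.nJ K :=
    ⟨⟨_, CfsgLib.Chev.Ree.nJ_mem m⟩, rfl⟩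
  -- every coset other than the trivial one
  have hrep : ∀ q : ↥G ⧸ B, q ≠ ((1 : ↥G) : ↥G ⧸ B) →
      ∃ u : ↥G, (u : GL Cfsg.Lie.chevG2.Idx K) ∈ Cfsg.Lie.chevG2.posUnipotent K ∧ q = ((u * n : ↥G) : ↥G ⧸ B) := by
    intro q hq
    induction q using QuotientGroup.induction_on with
    | H g =>
      have hgB : (g : GL Cfsg.Lie.chevG2.Idx K) ∉ Cfsg.Lie.chevG2.borelSubgroup K := fun h => hq (by
        rw [QuotientGroup.eq, mul_one, inv_mem_iff, hmemB]; exact h)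
      obtain ⟨u, hu, b, hb, e⟩ := CfsgLib.Chev.Ree.exists_unb m hK' g.2 hgB
      refine ⟨⟨u, (Subgroup.mem_inf.1 hu).2⟩, (Subgroup.mem_inf.1 hu).1, ?_⟩
      rw [QuotientGroup.eq, hmemB]
      simp only [Subgroup.coe_mul, Subgroup.coe_inv]
      rw [hn, e, show (u * CfsgLib.Chev.Ree.nJ K * b)⁻¹ * (u * CfsgLib.Chev.Ree.nJ K) = b⁻¹ by group]
      exact inv_mem (Subgroup.mem_inf.1 hb).1
  -- stabilisers
  have hst0 : ∀ g : ↥G, g ∈ MulAction.stabilizer ↥G ((1 : ↥G) : ↥G ⧸ B) ↔ g ∈ B := fun g => by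
    rw [MulAction.mem_stabilizer_iff, MulAction.Quotient.smul_coe, smul_eq_mul, mul_one, QuotientGroup.eq,
      mul_one, inv_mem_iff]
  have hstab : ∀ g u : ↥G, g ∈ MulAction.stabilizer ↥G ((u * n : ↥G) : ↥G ⧸ B) ↔
      (CfsgLib.Chev.Ree.nJ K)⁻¹ * ((u : GL Cfsg.Lie.chevG2.Idx K)⁻¹ * g * u) * CfsgLib.Chev.Ree.nJ K ∈
        Cfsg.Lie.chevG2.borelSubgroup K := fun g u => by
    rw [MulAction.mem_stabilizer_iff, MulAction.Quotient.smul_coe, smul_eq_mul, QuotientGroup.eq, hmemB,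
      ← inv_mem_iff (H := Cfsg.Lie.chevG2.borelSubgroup K)]
    simp only [Subgroup.coe_mul, Subgroup.coe_inv, hn, _root_.mul_inv_rev, inv_inv, mul_assoc]
  -- two points: the torus
  have htwo : ∀ g : ↥G, g ∈ B → g ∈ MulAction.stabilizer ↥G ((n : ↥G) : ↥G ⧸ B) →
      (g : GL Cfsg.Lie.chevG2.Idx K) ∈ CfsgLib.Chev.Ree.H1 K m := by
    intro g h0 h1
    rw [← one_mul n, hstab] at h1
    simp only [Subgroup.coe_one, inv_one, one_mul, mul_one] at h1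
    have h0' : (g : GL Cfsg.Lie.chevG2.Idx K) ∈ (CfsgLib.Chev.Ree.gdata K m hK').B1 := by
      rw [← CfsgLib.Chev.Ree.borel_inf_eq m hK', ← Subgroup.mem_subgroupOf]; exact h0
    obtain ⟨v, hv, h, hh, e⟩ := h0'
    have hv1 : v = 1 := by
      refine CfsgLib.Chev.Ree.eq_one_of_conj_borel m hK' (Subgroup.mem_inf.1 hv).1 ?_
      have hh' := CfsgLib.Chev.Ree.SG.mono_conj_diag (inv_mem CfsgLib.Chev.Ree.nJ_mono)
        (inv_mem ((CfsgLib.Chev.Ree.gdata K m hK').H1_diag hh))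
      rw [inv_inv] at hh'
      have := mul_mem h1 (Subgroup.mem_sup_right (S := Cfsg.Lie.chevG2.posUnipotent K) hh')
      rwa [e, show (CfsgLib.Chev.Ree.nJ K)⁻¹ * (v * h) * CfsgLib.Chev.Ree.nJ K *
        ((CfsgLib.Chev.Ree.nJ K)⁻¹ * h⁻¹ * CfsgLib.Chev.Ree.nJ K) =
        (CfsgLib.Chev.Ree.nJ K)⁻¹ * v * CfsgLib.Chev.Ree.nJ K by group] at this
    rw [e, hv1, one_mul]; exact hh
  -- the third point
  have hthree : ∀ g u : ↥G, (g : GL Cfsg.Lie.chevG2.Idx K) ∈ CfsgLib.Chev.Ree.H1 K m →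
      (u : GL Cfsg.Lie.chevG2.Idx K) ∈ Cfsg.Lie.chevG2.posUnipotent K →
      (g ∈ MulAction.stabilizer ↥G ((u * n : ↥G) : ↥G ⧸ B) ↔
        (g : GL Cfsg.Lie.chevG2.Idx K) * u * (g : GL Cfsg.Lie.chevG2.Idx K)⁻¹ = u) := by
    intro g u hg hu
    have hgd := (CfsgLib.Chev.Ree.gdata K m hK').H1_diag hg
    have hg' := CfsgLib.Chev.Ree.SG.mono_conj_diag (inv_mem CfsgLib.Chev.Ree.nJ_mono) hgd
    rw [inv_inv] at hg'
    rw [hstab]
    constructor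
    · intro h
      have h2 : (u : GL Cfsg.Lie.chevG2.Idx K)⁻¹ * ((g : GL Cfsg.Lie.chevG2.Idx K) * u * (g : GL Cfsg.Lie.chevG2.Idx K)⁻¹) = 1 := by
        refine CfsgLib.Chev.Ree.eq_one_of_conj_borel m hK'
          (mul_mem (inv_mem hu) (CfsgLib.Chev.Ree.SG.diag_conj_pos hgd hu)) ?_
        have := mul_mem h (inv_mem (Subgroup.mem_sup_right (S := Cfsg.Lie.chevG2.posUnipotent K) hg'))
        rwa [show (CfsgLib.Chev.Ree.nJ K)⁻¹ * ((u : GL Cfsg.Lie.chevG2.Idx K)⁻¹ * g * u) * CfsgLib.Chev.Ree.nJ K *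
          ((CfsgLib.Chev.Ree.nJ K)⁻¹ * g * CfsgLib.Chev.Ree.nJ K)⁻¹ = (CfsgLib.Chev.Ree.nJ K)⁻¹ *
          ((u : GL Cfsg.Lie.chevG2.Idx K)⁻¹ * (g * u * (g : GL Cfsg.Lie.chevG2.Idx K)⁻¹)) *
          CfsgLib.Chev.Ree.nJ K by group] at this
      exact (inv_mul_eq_one.1 h2).symm
    · intro h
      rw [mul_inv_eq_iff_eq_mul] at h
      rw [mul_assoc (u : GL Cfsg.Lie.chevG2.Idx K)⁻¹, h, inv_mul_cancel_left]
      exact Subgroup.mem_sup_right hg'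
  have hle : ∀ x y z : ↥G ⧸ B, x ≠ y → x ≠ z → y ≠ z → Nat.card ↥(MulAction.stabilizer ↥G x ⊓
      MulAction.stabilizer ↥G y ⊓ MulAction.stabilizer ↥G z) ≤ 2 := by
    intro x y z hxy hxz hyz
    have hconj : ∀ (c : ↥G) (x y z : ↥G ⧸ B), Nat.card ↥(MulAction.stabilizer ↥G x ⊓ MulAction.stabilizer ↥G y ⊓
        MulAction.stabilizer ↥G z) = Nat.card ↥(MulAction.stabilizer ↥G (c • x) ⊓ MulAction.stabilizer ↥G (c • y) ⊓
        MulAction.stabilizer ↥G (c • z)) := by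
      intro c x y z
      simp only [MulAction.stabilizer_smul_eq_stabilizer_map_conj]
      rw [← Subgroup.map_inf _ _ _ (MulEquiv.injective _), ← Subgroup.map_inf _ _ _ (MulEquiv.injective _)]
      exact Nat.card_congr (Subgroup.equivMapOfInjective _ _ (MulEquiv.injective _)).toEquiv
    obtain ⟨a, rfl⟩ := QuotientGroup.mk_surjective x
    have hy' : a⁻¹ • y ≠ ((1 : ↥G) : ↥G ⧸ B) := fun h => hxy (by
      rw [inv_smul_eq_iff, MulAction.Quotient.smul_coe, smul_eq_mul, mul_one] at h; exact h.symm)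
    obtain ⟨u, hu, he⟩ := hrep _ hy'
    have hx2 : (u⁻¹ * a⁻¹) • ((a : ↥G) : ↥G ⧸ B) = ((1 : ↥G) : ↥G ⧸ B) := by
      rw [MulAction.Quotient.smul_coe, smul_eq_mul, inv_mul_cancel_right, QuotientGroup.eq, mul_one, inv_inv, hmemB]
      exact Subgroup.mem_sup_left hu
    have hy2 : (u⁻¹ * a⁻¹) • y = ((n : ↥G) : ↥G ⧸ B) := by
      rw [mul_smul, he, MulAction.Quotient.smul_coe, smul_eq_mul, inv_mul_cancel_left]
    have hz1 : (u⁻¹ * a⁻¹) • z ≠ ((1 : ↥G) : ↥G ⧸ B) := fun h => hxz (MulAction.injective _ (hx2.trans h.symm))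
    have hz2 : (u⁻¹ * a⁻¹) • z ≠ ((n : ↥G) : ↥G ⧸ B) := fun h => hyz (MulAction.injective _ (hy2.trans h.symm))
    obtain ⟨v, hv, hve⟩ := hrep _ hz1
    have hv1 : (v : GL Cfsg.Lie.chevG2.Idx K) ≠ 1 := fun h => hz2 (by
      rw [hve, show v = 1 from Subtype.ext h, one_mul])
    rw [hconj (u⁻¹ * a⁻¹), hx2, hy2, hve]
    -- the torus coordinates
    have hH : ∀ g : ↥(MulAction.stabilizer ↥G ((1 : ↥G) : ↥G ⧸ B) ⊓ MulAction.stabilizer ↥G ((n : ↥G) : ↥G ⧸ B) ⊓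
        MulAction.stabilizer ↥G ((v * n : ↥G) : ↥G ⧸ B)), ∃ c : Kˣ, c ^ 2 = 1 ∧
          ((g : ↥G) : GL Cfsg.Lie.chevG2.Idx K) = (CfsgLib.Chev.Ree.torus K m hK' c : GL Cfsg.Lie.chevG2.Idx K) := by
      intro g
      obtain ⟨⟨g0, g1⟩, g2⟩ := g.2
      have hgH := htwo _ ((hst0 _).1 g0) g1
      obtain ⟨c, hc⟩ := (CfsgLib.Chev.Ree.torus K m hK').surjective ⟨_, hgH⟩
      refine ⟨c, ?_, (congrArg Subtype.val hc).symm⟩
      have hfix := (hthree _ v hgH hv).1 g2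
      obtain ⟨z, hz⟩ := CfsgLib.Chev.Ree.SG.exists_dg ((CfsgLib.Chev.Ree.gdata K m hK').H1_diag hgH)
      have hc' : ((g : ↥G) : GL Cfsg.Lie.chevG2.Idx K) = (CfsgLib.Chev.Ree.torus K m hK' c : GL Cfsg.Lie.chevG2.Idx K) :=
        (congrArg Subtype.val hc).symm
      obtain ⟨z', hz0, hzH, -⟩ := CfsgLib.Chev.Ree.exists_coord m hK' c
      have hez : ((g : ↥G) : GL Cfsg.Lie.chevG2.Idx K) = CfsgLib.Chev.Ree.SG.dg z' := hc'.trans
        (CfsgLib.Chev.Ree.dg_eq_of_coord m hK' (CfsgLib.Chev.Ree.exists_coord m hK' c).choose_spec.2.1 hzH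
          ((CfsgLib.Chev.Ree.exists_coord m hK' c).choose_spec.1.trans hz0.symm))
      obtain ⟨t, w, s, hvw⟩ := (CfsgLib.Chev.Ree.mem_pos_inf m hK').1 (Subgroup.mem_inf.2 ⟨hv, v.2⟩)
      rw [hez, hvw, CfsgLib.Chev.Ree.torus_conj_WR m hK' hzH] at hfix
      obtain ⟨e1, e2, e3⟩ := CfsgLib.Chev.Ree.WR_inj m hfix
      by_contra hc2
      have hz1' : z' 1 = c ^ (3 * 3 ^ m) := Units.ext (by
        rw [CfsgLib.Chev.Ree.coord_eq m hK' hzH, hz0, Units.val_pow_eq_pow_val])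
      have hq : c ^ (3 * 3 ^ m * 3 ^ m) = c := by
        rw [show 3 * 3 ^ m * 3 ^ m = 3 ^ (2 * m + 1) by ring, ← hK']
        exact Units.ext (by rw [Units.val_pow_eq_pow_val, Nat.card_eq_fintype_card, FiniteField.pow_card])
      set P := c ^ (3 * 3 ^ m) with hP
      have hPθ : P ^ (3 ^ m) = c := by rw [hP, ← pow_mul]; exact hq
      have h3 : (c ^ 3) ^ (3 ^ m) = P := by rw [hP, ← pow_mul]
      have hne : c ≠ 1 := fun h => hc2 (by rw [h, one_pow])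
      have key : ∀ (a : Kˣ) (x : K), a ≠ 1 → (a : K) * x = x → x = 0 := fun a x ha hx => by
        by_contra hx0
        exact ha (Units.ext (mul_eq_right₀ hx0 |>.1 hx))
      rw [CfsgLib.Chev.Ree.chi6, hz1'] at e1
      rw [CfsgLib.Chev.Ree.chi10, hz1', hz0] at e2
      rw [CfsgLib.Chev.Ree.chi11, hz1', hz0] at e3
      have t0 := key _ t (fun h => hne (by rw [← hPθ, h, one_pow])) e1
      have w0 := key _ w (fun h => hc2 (by
        have h2 : P * c = 1 := by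
          have h6 := congrArg (fun x => x ^ (3 ^ m)) h
          simp only [mul_pow, one_pow] at h6
          rwa [h3, hPθ] at h6
        rw [pow_succ, mul_assoc, mul_comm c P, h2, mul_one] at h
        exact h)) e2
      have s0 := key _ s (fun h => hne (by
        have h2 : P * c ^ 2 = 1 := by
          have h6 := congrArg (fun x => x ^ (3 ^ m)) h
          simp only [mul_pow, one_pow] at h6
          rwa [h3, pow_right_comm, hPθ] at h6
        have h4 : P = (c ^ 2)⁻¹ := eq_inv_of_mul_eq_one_left h2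
        rw [h4] at h
        have h5 : c ^ 3 * ((c ^ 2)⁻¹) ^ 2 = c⁻¹ := by group
        rwa [h5, inv_eq_one] at h)) e3
      exact hv1 (by rw [hvw, t0, w0, s0, CfsgLib.Chev.Ree.WR_zero])
    choose f hf1 hf2 using hH
    have hf : Function.Injective fun g => (⟨(f g : K), by
        simpa using sq_eq_one_iff.1 (show (f g : K) ^ 2 = 1 by rw [← Units.val_pow_eq_pow_val, hf1, Units.val_one])⟩ :
        ({1, -1} : Set K)) := fun g g' h => by
      have := Units.ext (congrArg Subtype.val h)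
      exact Subtype.ext (Subtype.ext (by rw [hf2 g, hf2 g', this]))
    refine (Nat.card_le_card_of_injective _ hf).trans ?_
    rw [Nat.card_coe_set_eq]
    exact (Set.ncard_insert_le _ _).trans (by rw [Set.ncard_singleton])
  refine ⟨hle, ?_⟩
  · -- a triple with stabiliser of order two
    obtain ⟨v, hv⟩ : ∃ v : ↥G, (v : GL Cfsg.Lie.chevG2.Idx K) = CfsgLib.Chev.Ree.WR m 0 1 0 :=
      ⟨⟨_, CfsgLib.Chev.Ree.WR_mem m _ _ _⟩, rfl⟩
    have hvU : (v : GL Cfsg.Lie.chevG2.Idx K) ∈ Cfsg.Lie.chevG2.posUnipotent K := by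
      rw [hv]; exact (Subgroup.mem_inf.1 ((CfsgLib.Chev.Ree.mem_pos_inf m hK').2 ⟨_, _, _, rfl⟩)).1
    have hnJ : ∀ u : ↥G, (u : GL Cfsg.Lie.chevG2.Idx K) ∈ Cfsg.Lie.chevG2.posUnipotent K →
        ((1 : ↥G) : ↥G ⧸ B) ≠ ((u * n : ↥G) : ↥G ⧸ B) := fun u hu h => by
      rw [QuotientGroup.eq, inv_one, one_mul, hmemB, Subgroup.coe_mul, hn] at h
      have hnB : CfsgLib.Chev.Ree.nJ K ∈ Cfsg.Lie.chevG2.borelSubgroup K := by
        have := mul_mem (inv_mem (Subgroup.mem_sup_left hu)) h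
        rwa [inv_mul_cancel_left] at this
      have hwb : CfsgLib.Chev.Ree.WR m (0 : K) 1 0 = 1 :=
        CfsgLib.Chev.Ree.eq_one_of_conj_borel m hK' (hv ▸ hvU)
          (mul_mem (mul_mem (inv_mem hnB) (Subgroup.mem_sup_left (hv ▸ hvU))) hnB)
      exact one_ne_zero (CfsgLib.Chev.Ree.WR_inj m (hwb.trans (CfsgLib.Chev.Ree.WR_zero m).symm)).2.1
    have hd1 : ((1 : ↥G) : ↥G ⧸ B) ≠ ((n : ↥G) : ↥G ⧸ B) := by
      rw [← one_mul n]; exact hnJ 1 (one_mem _)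
    have hd2 := hnJ v hvU
    have hd3 : ((n : ↥G) : ↥G ⧸ B) ≠ ((v * n : ↥G) : ↥G ⧸ B) := by
      intro h
      rw [QuotientGroup.eq, hmemB] at h
      simp only [Subgroup.coe_mul, Subgroup.coe_inv, hn, ← mul_assoc] at h
      have := CfsgLib.Chev.Ree.eq_one_of_conj_borel m hK' hvU h
      rw [hv] at this
      exact one_ne_zero (CfsgLib.Chev.Ree.WR_inj m (this.trans (CfsgLib.Chev.Ree.WR_zero m).symm)).2.1
    refine ⟨_, _, _, hd1, hd2, hd3, le_antisymm (hle _ _ _ hd1 hd2 hd3) ?_⟩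
    -- the involution of the torus
    obtain ⟨z, hz0, hzH, hzG⟩ := CfsgLib.Chev.Ree.exists_coord m hK' (-1 : Kˣ)
    have hz1 : z 1 = -1 := Units.ext (by
      rw [CfsgLib.Chev.Ree.coord_eq m hK' hzH, hz0]; simp [CfsgLib.Chev.Ree.neg_one_pow_theta3])
    have hfix : CfsgLib.Chev.Ree.SG.dg z * CfsgLib.Chev.Ree.WR m (0 : K) 1 0 * (CfsgLib.Chev.Ree.SG.dg z)⁻¹ =
        CfsgLib.Chev.Ree.WR m (0 : K) 1 0 := by
      rw [CfsgLib.Chev.Ree.torus_conj_WR m hK' hzH, CfsgLib.Chev.Ree.chi10, hz0, hz1]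
      simp [pow_succ]
    have hzne : (⟨CfsgLib.Chev.Ree.SG.dg z, hzG⟩ : ↥G) ≠ 1 := fun h => by
      have h1 : CfsgLib.Chev.Ree.SG.dg z = 1 := congrArg Subtype.val h
      have h2 := CfsgLib.Chev.Ree.torus_conj_WR m hK' hzH 1 0 0
      rw [h1, one_mul, inv_one, mul_one, CfsgLib.Chev.Ree.chi6, hz1] at h2
      have h3 := (CfsgLib.Chev.Ree.WR_inj m h2).1
      have h4 : (3 : K) = 0 := by exact_mod_cast CharP.cast_eq_zero K 3
      refine one_ne_zero (α := K) ?_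
      simp at h3
      linear_combination -h3 + h4
    obtain ⟨g, hg⟩ : ∃ g : ↥G, g = ⟨CfsgLib.Chev.Ree.SG.dg z, hzG⟩ := ⟨_, rfl⟩
    have hgH : (g : GL Cfsg.Lie.chevG2.Idx K) ∈ CfsgLib.Chev.Ree.H1 K m := by rw [hg]; exact hzH
    have hgd := (CfsgLib.Chev.Ree.gdata K m hK').H1_diag hgH
    have hgB : g ∈ B := (hmemB g).2 (Subgroup.mem_sup_right hgd)
    have hg1 : g ∈ MulAction.stabilizer ↥G ((n : ↥G) : ↥G ⧸ B) := by
      have := (hthree g 1 hgH (one_mem _)).2 (by simp)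
      rwa [one_mul] at this
    have hg2 := (hthree g v hgH hvU).2 (by rw [hg, hv]; exact hfix)
    have hbot : Nontrivial ↥(MulAction.stabilizer ↥G ((1 : ↥G) : ↥G ⧸ B) ⊓
        MulAction.stabilizer ↥G ((n : ↥G) : ↥G ⧸ B) ⊓ MulAction.stabilizer ↥G ((v * n : ↥G) : ↥G ⧸ B)) :=
      (Subgroup.nontrivial_iff_exists_ne_one _).2 ⟨g, Subgroup.mem_inf.2 ⟨Subgroup.mem_inf.2 ⟨(hst0 g).2 hgB, hg1⟩, hg2⟩,
        hg ▸ hzne⟩
    exact Finite.one_lt_card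

end Cfsg.Agent.S1153
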