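import Cfsg.Statements.S1248
import Cfsg.Agent.S1141
import Cfsg.Agent.SuzukiTwo.Higman

set_option autoImplicit false
open Cfsg

namespace Cfsg.Agent.S1248

/-- Let F be a field with 16 elements and S a Sylow 2-subgroup of PSU(3) over F (the unitary group U₃(4)). Then |S| = 64; the centre Z(S) is a Klein four-group and coincides with the subgroup generated by the involutions of S and with the derived subgroup; and every element of S ⧸ Z(S) squares to the identity, S ⧸ Z(S) having order 16. -/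
theorem result {F : Type*} [Field F] [Fintype F] (hF : Fintype.card F = 16) (S : Sylow 2 (Cfsg.PSU 3 F 4)) : Nat.card S = 64 ∧ IsKleinFour (Subgroup.center (S : Subgroup (Cfsg.PSU 3 F 4))) ∧ Subgroup.center (S : Subgroup (Cfsg.PSU 3 F 4)) = Subgroup.closure {x : (S : Subgroup (Cfsg.PSU 3 F 4)) | orderOf x = 2} ∧ Subgroup.center (S : Subgroup (Cfsg.PSU 3 F 4)) = commutator (S : Subgroup (Cfsg.PSU 3 F 4)) ∧ Nat.card ((S : Subgroup (Cfsg.PSU 3 F 4)) ⧸ Subgroup.center (S : Subgroup (Cfsg.PSU 3 F 4))) = 16 ∧ ∀ x : (S : Subgroup (Cfsg.PSU 3 F 4)) ⧸ Subgroup.center (S : Subgroup (Cfsg.PSU 3 F 4)), x ^ 2 = 1 := by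
  classical
  obtain ⟨hc, hz, hs⟩ : Nat.card S = (2 ^ 2) ^ 3 ∧
      Nat.card (Subgroup.center ↥(S : Subgroup (Cfsg.PSU 3 F 4))) = 2 ^ 2 ∧
      Cfsg.IsSuzukiTwoGroup ↥(S : Subgroup (Cfsg.PSU 3 F 4)) :=
    Cfsg.Agent.S1141.result (n := 2) le_rfl (by rw [hF]; norm_num) S
  obtain ⟨D⟩ := CfsgLib.SuzukiTwo.exists_sdata hs
  haveI := D.fin
  haveI : Fact (Nat.Prime 2) := ⟨Nat.prime_two⟩
  have hz4 : Nat.card (Subgroup.center ↥(S : Subgroup (Cfsg.PSU 3 F 4))) = 4 := hz
  have hsq : ∀ z : Subgroup.center ↥(S : Subgroup (Cfsg.PSU 3 F 4)), z ^ 2 = 1 := fun z => Subtype.ext (D.center_sq z.2)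
  refine ⟨by rw [hc]; norm_num, ?_, ?_, ?_, ?_, ?_⟩
  · refine ⟨hz4, ?_⟩
    have hdvd := Monoid.exponent_dvd_of_forall_pow_eq_one hsq
    rcases (Nat.dvd_prime Nat.prime_two).mp hdvd with h | h
    · exfalso
      have hsub := Monoid.exp_eq_one_iff.mp h
      have := Nat.card_of_subsingleton (1 : Subgroup.center ↥(S : Subgroup (Cfsg.PSU 3 F 4)))
      omega
    · exact h
  · refine le_antisymm (fun z hz' => ?_) ((Subgroup.closure_le _).mpr fun x hx => D.mem_center_of_sq ?_)
    · rcases eq_or_ne z 1 with rfl | hne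
      · exact one_mem _
      exact Subgroup.subset_closure (orderOf_eq_prime (D.center_sq hz') hne)
    · have h2 := pow_orderOf_eq_one x
      rw [show orderOf x = 2 from hx] at h2
      exact h2
  · refine le_antisymm ?_ ?_
    · rw [← D.omega_eq_center]
      refine D.omega_le (fun k _ x hx => ?_) ?_
      · have h := (inferInstance : (commutator ↥(S : Subgroup (Cfsg.PSU 3 F 4))).Characteristic).fixed k
        exact (SetLike.ext_iff.mp h x).mpr hx
      · intro h
        obtain ⟨x, y, hxy⟩ := D.nonabelian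
        refine hxy (commutatorElement_eq_one_iff_mul_comm.mp (Subgroup.mem_bot.mp (h ▸ ?_)))
        exact Subgroup.commutator_mem_commutator (Subgroup.mem_top x) (Subgroup.mem_top y)
    · rw [commutator_def, Subgroup.commutator_le]
      exact fun x _ y _ => D.commutator_mem_center x y
  · have h := Subgroup.card_eq_card_quotient_mul_card_subgroup (Subgroup.center ↥(S : Subgroup (Cfsg.PSU 3 F 4)))
    rw [hc, hz4] at h
    omega
  · intro x
    obtain ⟨g, rfl⟩ := QuotientGroup.mk'_surjective _ x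
    rw [← map_pow, QuotientGroup.mk'_apply, QuotientGroup.eq_one_iff]
    exact D.sq_mem_center g

end Cfsg.Agent.S1248
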