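import Cfsg.Statements.S1313
import Mathlib.Tactic
import Cfsg.Agent.Components.Basic

set_option autoImplicit false
open Cfsg
open scoped commutatorElement

namespace Cfsg.Agent.S1313

/-- For a finite group H, |H| ≤ |F*(H)|!. -/
theorem result {H : Type*} [Group H] [Finite H] : Nat.card H ≤ Nat.factorial (Nat.card ↥(Cfsg.generalizedFittingSubgroup H)) := by
  classical
  set F := Cfsg.generalizedFittingSubgroup H with hF
  haveI hFn : F.Normal := CfsgLib.Components.generalizedFittingSubgroup_normal
  let φ : H →* MulAut ↥F := MulAut.conjNormal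
  have hker : φ.ker ≤ Subgroup.centralizer (F : Set H) := by
    intro h hh
    rw [Subgroup.mem_centralizer_iff]
    intro f hf
    have h1 := congrArg Subtype.val (DFunLike.congr_fun (MonoidHom.mem_ker.mp hh) ⟨f, hf⟩)
    have h2 : h * f * h⁻¹ = f := h1
    exact (mul_inv_eq_iff_eq_mul.mp h2).symm
  have h1 : Nat.card H ≤ Nat.card ↥F * Nat.card (MulAut ↥F) := by
    rw [φ.ker.card_eq_card_quotient_mul_card_subgroup, Nat.mul_comm]
    refine Nat.mul_le_mul (Subgroup.card_le_of_le
      (hker.trans CfsgLib.Components.centralizer_generalizedFittingSubgroup_le)) ?_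
    rw [Nat.card_congr (QuotientGroup.quotientKerEquivRange φ).toEquiv]
    exact Subgroup.card_le_card_group _
  refine h1.trans ?_
  rw [← Nat.card_prod, ← Nat.card_perm]
  refine Nat.card_le_card_of_injective (fun z : ↥F × MulAut ↥F => (z.2.toEquiv.trans (Equiv.mulLeft z.1))) ?_
  rintro ⟨a, f⟩ ⟨b, g⟩ heq
  have hab : a = b := by
    have := Equiv.congr_fun heq 1
    simpa using this
  subst hab
  refine Prod.ext rfl (MulEquiv.ext fun u => ?_)
  have := Equiv.congr_fun heq u
  simpa using this

end Cfsg.Agent.S1313
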