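import Cfsg.Statements.S1415
import Cfsg.Agent.Sigma.Complement
import Cfsg.Agent.Sigma.RankTwoElem

set_option autoImplicit false
open Cfsg

namespace Cfsg.Agent.S1415

open scoped commutatorElement
open CfsgLib.Uniq CfsgLib.BenderUnique CfsgLib.SigmaGroups

/-- Let G be a minimal simple group of odd order, M a maximal subgroup and E a complement to M_σ in M. Then the derived subgroup E' is nilpotent; every Hall τ₁(M)-subgroup of E is cyclic; and every Hall τ₃(M)-subgroup E₃ of E is cyclic, contained in E' and normal in E. -/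
theorem result {G : Type*} [Group G] [Finite G] (hG : Cfsg.IsMinSimpleOddOrder G)
    (M : Subgroup G) (hM : IsCoatom M) (E : Subgroup G) (hE : Cfsg.IsComplIn E (Cfsg.sigmaCore M) M) :
    Group.IsNilpotent ↥⁅E, E⁆ ∧
      (∀ E₁ : Subgroup G, Cfsg.IsPiHallOf (Cfsg.tau1 M) E₁ E → IsCyclic E₁) ∧
      ∀ E₃ : Subgroup G, Cfsg.IsPiHallOf (Cfsg.tau3 M) E₃ E → IsCyclic E₃ ∧ E₃ ≤ ⁅E, E⁆ ∧ E ≤ Subgroup.normalizer (E₃ : Set G) := by
  have hnil := CfsgLib.SigmaGroups.derived_nilpotent_complement hG hM hE
  refine ⟨hnil, fun E₁ h1 => ?_, fun E₃ h3 => ?_⟩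
  · haveI : IsZGroup ↥E₁ := ⟨fun t ht S => by
      haveI := Fact.mk ht
      by_cases hd : t ∣ Nat.card E₁
      · haveI := CfsgLib.SigmaGroups.isCyclic_of_prank_one hG (h1.2.1 t ht hd).2.2.2.2
          ((Subgroup.map_subtype_le _).trans (h1.1.trans hE.1)) (S.isPGroup'.map E₁.subtype)
        exact isCyclic_of_surjective _
          (Subgroup.equivMapOfInjective (S : Subgroup E₁) _ E₁.subtype_injective).symm.surjective
      · haveI : Subsingleton (S : Subgroup E₁) := by
          rw [Subgroup.eq_bot_iff_card (H := (S : Subgroup E₁)) |>.2 ?_]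
          · infer_instance
          · obtain ⟨k, hk⟩ := S.isPGroup'.exists_card_eq
            rcases k with _ | k
            · rw [hk, pow_zero]
            · exact absurd ((hk ▸ dvd_pow_self t k.succ_ne_zero).trans (Subgroup.card_subgroup_dvd_card _)) hd
        exact isCyclic_of_subsingleton⟩
    have hbot : E₁ ⊓ ⁅M, M⁆ = ⊥ := by
      by_contra hne
      obtain ⟨t, ht, hd⟩ := Nat.exists_prime_and_dvd (fun e => hne (Subgroup.card_eq_one.1 e))
      exact (h1.2.1 t ht (hd.trans (Subgroup.card_dvd_of_le inf_le_left))).2.2.2.1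
        (hd.trans (Subgroup.card_dvd_of_le inf_le_right))
    haveI : IsMulCommutative ↥E₁ := ⟨⟨fun a b => Subtype.ext (by
      have h : ⁅(a : G), (b : G)⁆ ∈ E₁ ⊓ ⁅M, M⁆ :=
        ⟨(⁅a, b⁆ : ↥E₁).2, Subgroup.commutator_mem_commutator (hE.1 (h1.1 a.2)) (hE.1 (h1.1 b.2))⟩
      rw [hbot, Subgroup.mem_bot] at h
      exact commutatorElement_eq_one_iff_mul_comm.1 h)⟩⟩
    haveI : Group.IsNilpotent ↥E₁ := by
      letI : CommGroup ↥E₁ := { (inferInstance : Group ↥E₁) with mul_comm := fun a b => mul_comm' a b }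
      exact CommGroup.isNilpotent
    infer_instance
  · haveI := hnil
    have hle : E₃ ≤ ⁅E, E⁆ := by
      refine CfsgLib.SigmaGroups.le_of_prime_subgroups fun t ht T hT hTE => ?_
      haveI := Fact.mk ht
      by_cases hT1 : T = ⊥
      · exact hT1 ▸ bot_le
      have h := h3.2.1 t ht ((dvd_card_of_ne_bot hT hT1).trans (Subgroup.card_dvd_of_le hTE))
      exact CfsgLib.SigmaGroups.le_commutator_of_cyclic hG h.2.2.2 hE.1
        (CfsgLib.SigmaGroups.dvd_card_derived_complement hE ht h.2.1 h.2.2.1) hT (hTE.trans h3.1)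
    haveI : IsZGroup ↥E₃ := ⟨fun t ht S => by
      haveI := Fact.mk ht
      by_cases hd : t ∣ Nat.card E₃
      · haveI := CfsgLib.SigmaGroups.isCyclic_of_prank_one hG (h3.2.1 t ht hd).2.2.2
          ((Subgroup.map_subtype_le _).trans (h3.1.trans hE.1)) (S.isPGroup'.map E₃.subtype)
        exact isCyclic_of_surjective _
          (Subgroup.equivMapOfInjective (S : Subgroup E₃) _ E₃.subtype_injective).symm.surjective
      · haveI : Subsingleton (S : Subgroup E₃) := by
          rw [Subgroup.eq_bot_iff_card (H := (S : Subgroup E₃)) |>.2 ?_]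
          · infer_instance
          · obtain ⟨k, hk⟩ := S.isPGroup'.exists_card_eq
            rcases k with _ | k
            · rw [hk, pow_zero]
            · exact absurd ((hk ▸ dvd_pow_self t k.succ_ne_zero).trans (Subgroup.card_subgroup_dvd_card _)) hd
        exact isCyclic_of_subsingleton⟩
    haveI : Group.IsNilpotent ↥E₃ := haveI := hnil
      Group.nilpotent_of_surjective (Subgroup.subgroupOfEquivOfLe hle).toMonoidHom
        (Subgroup.subgroupOfEquivOfLe hle).surjective
    refine ⟨inferInstance, hle, fun g hg => mem_normalizer_of_map_le ?_⟩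
    refine CfsgLib.SigmaGroups.le_of_prime_subgroups fun t ht T hT hTE => ?_
    haveI := Fact.mk ht
    by_cases hT1 : T = ⊥
    · exact hT1 ▸ bot_le
    have hd := (dvd_card_of_ne_bot hT hT1).trans (Subgroup.card_dvd_of_le hTE)
    rw [CfsgLib.SigmaGroups.card_map_conj] at hd
    refine CfsgLib.SigmaGroups.le_of_not_dvd_relIndex hnil (fun hi => ?_) hT (hTE.trans ?_)
    · refine h3.2.2 t ht (h3.2.1 t ht hd) (hi.trans ?_)
      exact ⟨_, (Subgroup.relIndex_mul_relIndex _ _ _ hle (Subgroup.commutator_le_self E)).symm⟩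
    · rintro _ ⟨x, hx, rfl⟩
      have h := mul_mem (Subgroup.commutator_mem_commutator hg (Subgroup.commutator_le_self E (hle hx))) (hle hx)
      show g * x * g⁻¹ ∈ ⁅E, E⁆
      convert h using 1
      rw [commutatorElement_def]; group


end Cfsg.Agent.S1415
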