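import Cfsg.Statements.S1476
import Cfsg.Agent.CN.Solvable
import Cfsg.Agent.PCore.Basic
import Cfsg.Agent.CoprimeAction.Basic
import Cfsg.Agent.CoprimeAction.Factorization
import Mathlib.Tactic

set_option autoImplicit false
open Cfsg
open scoped commutatorElement

namespace Cfsg.Agent.S1476

/-- Let G be a finite solvable group in which every non-identity element has nilpotent centralizer. Then either G is nilpotent; or G has a normal subgroup K with a Frobenius complement E (K E = G, K ∩ E = 1, E meets its conjugates by outside elements trivially) such that E is cyclic or E is generated by two elementwise-commuting subgroups, one cyclic of odd order and one isomorphic to a generalized quaternion group; or G is a three-step group with respect to some prime p. -/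
theorem result {G : Type*} [Group G] [Finite G] [Group.IsSolvable G] (hCN : Cfsg.IsCNGroup G) :
    Group.IsNilpotent G ∨
      (∃ K E : Subgroup G, K.Normal ∧ Subgroup.IsComplement' K E ∧ Cfsg.IsFrobeniusComplement E ∧
        (IsCyclic E ∨ ∃ C Q : Subgroup G, C ⊔ Q = E ∧ (∀ a ∈ C, ∀ b ∈ Q, a * b = b * a) ∧ IsCyclic C ∧ Odd (Nat.card C) ∧
          ∃ n : ℕ, Nonempty (↥Q ≃* QuaternionGroup (2 ^ n)))) ∨
      ∃ p : ℕ, p.Prime ∧ Cfsg.IsThreeStepGroup p G := by
  by_cases hnn : Group.IsNilpotent G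
  · exact Or.inl hnn
  right
  set F := Cfsg.fittingSubgroup G with hF
  haveI hFn : F.Normal := CfsgLib.Components.fittingSubgroup_normal
  haveI hFnil : Group.IsNilpotent ↥F := CfsgLib.Components.fittingSubgroup_isNilpotent
  have hFt : F ≠ ⊤ := fun e => hnn (by
    haveI : Group.IsNilpotent ↥(⊤ : Subgroup G) := e ▸ hFnil
    exact Group.nilpotent_of_mulEquiv Subgroup.topEquiv)
  have hFb : F ≠ ⊥ := fun e => hFt (top_le_iff.1 (le_trans
    (fun y _ => Subgroup.mem_centralizer_iff.2 fun a ha => by change a ∈ F at ha; rw [e, Subgroup.mem_bot] at ha; rw [ha, one_mul, mul_one])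
    CfsgLib.Hall.centralizer_fitting_le))
  by_cases hcop : (Nat.card F).Coprime F.index
  · left
    obtain ⟨E, hE⟩ := Subgroup.exists_right_complement'_of_coprime hcop
    have hdis : F ⊓ E = ⊥ := disjoint_iff.1 hE.disjoint
    have hEne : E ≠ ⊥ := fun h => hFt (by have := hE.sup_eq_top; rwa [h, sup_bot_eq] at this)
    have hfix : ∀ e ∈ E, e ≠ 1 → F ⊓ Subgroup.centralizer ({e} : Set G) = ⊥ := by
      intro e he he1
      by_contra hne
      obtain ⟨p, hp, hpd, hall⟩ := CfsgLib.CN.exists_prime_of_not_fix hCN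
        (fun h => he1 (Subgroup.mem_bot.1 (hdis ▸ ⟨h, he⟩))) hne
      obtain ⟨r, hr, hrd⟩ := Nat.exists_prime_and_dvd (show Nat.card F ≠ 1 from fun e => hFb (Subgroup.eq_bot_of_card_eq _ e))
      haveI := Fact.mk hr
      obtain ⟨y, hy⟩ := exists_prime_orderOf_dvd_card' (G := ↥F) r hrd
      rw [← Subgroup.orderOf_coe] at hy
      have hrp : r = p := hall r hr fun e => by
        have h1 := CfsgLib.CN.mem_pCore_of_mem y.2 (hy.trans (pow_one r).symm)
        rw [e, Subgroup.mem_bot] at h1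
        rw [h1, orderOf_one] at hy
        exact hr.ne_one hy.symm
      subst hrp
      refine hr.ne_one (Nat.eq_one_of_dvd_coprimes hcop hrd ?_)
      rw [hE.symm.index_eq_card]
      exact hpd.trans ((Subgroup.orderOf_mk e he) ▸ orderOf_dvd_natCard (⟨e, he⟩ : E))
    have hEF := CfsgLib.CN.isFrobeniusComplement_of_fix hE hFb hEne hfix
    have hlat := CfsgLib.Frob.latFpf_of_complement hEF
    haveI := CfsgLib.CN.isNilpotent_of_fix hCN hlat
    exact ⟨F, E, inferInstance, hE, hEF, CfsgLib.CN.structure_of_latFpf hlat⟩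
  right
  obtain ⟨p, hp, hpF, hpi⟩ := Nat.Prime.not_coprime_iff_dvd.1 hcop
  haveI := Fact.mk hp
  set P := Cfsg.pCore p G with hP
  haveI hPn : P.Normal := Cfsg.pCore_normal p G
  have hPp : IsPGroup p ↥P := CfsgLib.Components.pCore_isPGroup p
  have hPF : P ≤ F := CfsgLib.Components.pCore_le_fittingSubgroup p
  obtain ⟨y₀, hy₀⟩ := exists_prime_orderOf_dvd_card' (G := ↥F) p hpF
  rw [← Subgroup.orderOf_coe] at hy₀
  have hPne : P ≠ ⊥ := fun e => by
    have h1 : (y₀ : G) ∈ P := CfsgLib.CN.mem_pCore_of_mem y₀.2 (hy₀.trans (pow_one p).symm)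
    rw [e, Subgroup.mem_bot] at h1
    rw [h1, orderOf_one] at hy₀
    exact hp.ne_one hy₀.symm
  -- `F` is a `p`-group
  obtain ⟨S⟩ : Nonempty (Sylow p G) := inferInstance
  obtain ⟨x, hxS, hxF⟩ := SetLike.not_le_iff_exists.1
    (fun h : (S : Subgroup G) ≤ F => S.not_dvd_index (hpi.trans (Subgroup.index_dvd_of_le h)))
  have hPS : P ≤ (S : Subgroup G) := CfsgLib.PCore.pCore_le_sylow S
  have hPS0 : P.subgroupOf (S : Subgroup G) ≠ ⊥ := fun e => hPne (by
    rw [Subgroup.subgroupOf_eq_bot, disjoint_iff, inf_eq_left.2 hPS] at e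
    exact e)
  obtain ⟨⟨h, hh, hhc⟩, hh1⟩ := Subgroup.ne_bot_iff_exists_ne_one.1 (CfsgLib.PReduced.inf_center_ne_bot S.isPGroup' hPS0)
  have hh1' : (h : G) ≠ 1 := fun e => hh1 (Subtype.ext (Subtype.ext e))
  obtain ⟨j, hj⟩ := IsPGroup.iff_orderOf.1 S.isPGroup' ⟨x, hxS⟩
  rw [← Subgroup.orderOf_coe] at hj
  obtain ⟨-, hall⟩ := CfsgLib.CN.eq_of_commute hCN hp hxF hj (show (h : G) ∈ P from hh) hh1'
    (congrArg Subtype.val (Subgroup.mem_center_iff.1 hhc ⟨x, hxS⟩)).symm
  have hFP : F = P := by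
    refine le_antisymm (CfsgLib.CN.le_of_sylow_le fun r hr R y hy => ?_) hPF
    haveI := Fact.mk hr
    obtain ⟨i, hi⟩ := IsPGroup.iff_orderOf.1 R.isPGroup' ⟨y, hy⟩
    rw [← Subgroup.orderOf_coe, ← Subgroup.orderOf_coe] at hi
    by_cases hy1 : (y : G) = 1
    · rw [hy1]; exact one_mem _
    have h1 := CfsgLib.CN.mem_pCore_of_mem y.2 hi
    rw [hall r hr fun e => hy1 (Subgroup.mem_bot.1 (e ▸ h1))] at h1
    exact h1
  -- fixed points of elements of order prime to `p`
  have hfix : ∀ a : G, (orderOf a).Coprime p → a ≠ 1 → P ⊓ Subgroup.centralizer ({a} : Set G) = ⊥ := by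
    intro a hap ha1
    by_contra hne
    obtain ⟨r, hr, hrd, hall'⟩ := CfsgLib.CN.exists_prime_of_not_fix hCN (x := a) (fun h => ha1 (by
        change a ∈ F at h
        rw [hFP] at h
        obtain ⟨i, hi⟩ := IsPGroup.iff_orderOf.1 hPp ⟨a, h⟩
        rw [← Subgroup.orderOf_coe] at hi
        exact orderOf_eq_one_iff.1 (Nat.eq_one_of_dvd_coprimes (hap.pow_right i) dvd_rfl hi.dvd)))
      (fun e => hne (le_bot_iff.1 ((inf_le_inf_right _ hPF).trans e.le)))
    exact hr.ne_one (Nat.eq_one_of_dvd_coprimes hap hrd ((hall' p hp hPne).symm ▸ dvd_rfl))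
  -- the quotient
  set π := QuotientGroup.mk' P with hπ
  have hπs : Function.Surjective π := QuotientGroup.mk'_surjective P
  set Fb := Cfsg.fittingSubgroup (G ⧸ P) with hFb'
  haveI : Fb.Normal := CfsgLib.Components.fittingSubgroup_normal
  haveI hFbnil : Group.IsNilpotent ↥Fb := CfsgLib.Components.fittingSubgroup_isNilpotent
  haveI : Group.IsSolvable (G ⧸ P) := Group.isSolvable_of_surjective hπs
  have hFbp : ¬ p ∣ Nat.card Fb := fun hd => by
    obtain ⟨y, hy⟩ := exists_prime_orderOf_dvd_card' (G := ↥Fb) p hd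
    rw [← Subgroup.orderOf_coe] at hy
    have h1 := CfsgLib.CN.mem_pCore_of_mem y.2 (hy.trans (pow_one p).symm)
    rw [CfsgLib.PCore.pCore_quotient, Subgroup.mem_bot] at h1
    rw [h1, orderOf_one] at hy
    exact hp.ne_one hy.symm
  set M := Fb.comap π with hM
  have hPM : P ≤ M := fun y hy => by
    show π y ∈ Fb
    rw [show π y = 1 from (QuotientGroup.eq_one_iff y).2 hy]
    exact one_mem _
  have hidxM : (P.subgroupOf M).index = Nat.card Fb := by
    show P.relIndex M = _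
    have hPc : (⊥ : Subgroup (G ⧸ P)).comap π = P := (MonoidHom.comap_bot π).trans (QuotientGroup.ker_mk' P)
    calc P.relIndex M = ((⊥ : Subgroup (G ⧸ P)).comap π).relIndex M := by rw [hPc]
      _ = Nat.card Fb := by rw [hM, Subgroup.relIndex_comap, Subgroup.map_comap_eq_self_of_surjective hπs, Subgroup.relIndex_bot_left]
  have hPMc : (Nat.card (P.subgroupOf M)).Coprime (P.subgroupOf M).index := by
    rw [hidxM, Nat.card_congr (Subgroup.subgroupOfEquivOfLe hPM).toEquiv]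
    obtain ⟨i, hi⟩ := hPp.exists_card_eq
    rw [hi]
    exact ((Nat.Prime.coprime_iff_not_dvd hp).2 hFbp).pow_left i
  obtain ⟨A₀, hA₀⟩ := Subgroup.exists_right_complement'_of_coprime hPMc
  set A := A₀.map M.subtype with hA
  have hAM : A ≤ M := Subgroup.map_subtype_le _
  have hPA : P ⊔ A = M := by
    rw [show P = (P.subgroupOf M).map M.subtype by rw [Subgroup.subgroupOf_map_subtype, inf_eq_left.2 hPM], hA,
      ← Subgroup.map_sup, hA₀.sup_eq_top, ← MonoidHom.range_eq_map, Subgroup.range_subtype]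
  have hPAd : P ⊓ A = ⊥ := by
    rw [eq_bot_iff]
    rintro y ⟨hy, w, hw, rfl⟩
    exact Subgroup.mem_bot.2 (congrArg Subtype.val (Subgroup.disjoint_def.1 hA₀.disjoint
      (Subgroup.mem_subgroupOf.2 hy) hw))
  have hcardA : Nat.card A = Nat.card Fb := by
    rw [hA, Subgroup.card_map_of_injective M.subtype_injective, ← hA₀.symm.index_eq_card, hidxM]
  have hAp : ∀ a ∈ A, (orderOf a).Coprime p := fun a ha => (((Nat.Prime.coprime_iff_not_dvd hp).2 hFbp).symm).coprime_dvd_left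
    (hcardA ▸ (Subgroup.orderOf_mk a ha) ▸ orderOf_dvd_natCard (⟨a, ha⟩ : A))
  have hAfix : ∀ a ∈ A, a ≠ 1 → P ⊓ Subgroup.centralizer ({a} : Set G) = ⊥ := fun a ha => hfix a (hAp a ha)
  have hGP : P ≠ ⊤ := fun e => hFt (top_le_iff.1 (e ▸ hPF))
  have hAne : A ≠ ⊥ := by
    intro e
    rw [e, Subgroup.card_bot] at hcardA
    have h1 : Fb = ⊥ := Subgroup.eq_bot_of_card_eq _ hcardA.symm
    have h2 := CfsgLib.Hall.centralizer_fitting_le (G := G ⧸ P)
    rw [← hFb', h1] at h2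
    refine hGP (eq_top_iff.2 fun y _ => (QuotientGroup.eq_one_iff y).1 (Subgroup.mem_bot.1 (h2 (Subgroup.mem_centralizer_iff.2 fun a ha => ?_))))
    rw [SetLike.mem_coe, Subgroup.mem_bot] at ha
    rw [ha, one_mul, mul_one]
  -- Frattini
  set N := Subgroup.normalizer (A : Set G) with hN
  haveI : M.Normal := Subgroup.Normal.comap inferInstance π
  have hfr : ∀ g : G, ∃ u ∈ P, ∃ n ∈ N, g = u * n := by
    intro g
    set B := A.map (MulAut.conj g).toMonoidHom with hB
    have hBM : B ≤ M := by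
      rintro _ ⟨a, ha, rfl⟩
      exact (inferInstance : M.Normal).conj_mem a (hAM ha) g
    have hcB : Nat.card B = Nat.card A := Subgroup.card_map_of_injective (MulEquiv.injective _)
    obtain ⟨_, ⟨u, hu, rfl⟩, hfixu⟩ := CfsgLib.CoprimeAction.exists_fixed (A := B) (K := P) Subgroup.le_normalizer_of_normal
      (by
        rw [hcB, hcardA]
        obtain ⟨i, hi⟩ := hPp.exists_card_eq
        rw [hi]
        exact (((Nat.Prime.coprime_iff_not_dvd hp).2 hFbp).pow_left i).symm)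
      (Or.inl inferInstance) ((fun n : G => (QuotientGroup.mk n : G ⧸ A)) '' (P : Set G)) ⟨_, 1, P.one_mem, rfl⟩
      (by rintro a ha _ ⟨n, hn, rfl⟩; exact ⟨a * n, P.mul_mem ha hn, rfl⟩)
      (by
        rintro b hb _ ⟨n, hn, rfl⟩
        obtain ⟨u', hu', a', ha', hb'⟩ := Subgroup.mem_sup_of_normal_left.1 (hPA.ge (hBM hb))
        refine ⟨u' * (a' * n * a'⁻¹), P.mul_mem hu' (hPn.conj_mem n hn a'), ?_⟩
        show (QuotientGroup.mk _ : G ⧸ A) = QuotientGroup.mk _
        rw [QuotientGroup.eq, ← hb']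
        simpa [mul_assoc] using ha')
      (by
        rintro _ ⟨a, ha, rfl⟩ _ ⟨b, hb, rfl⟩
        exact ⟨b * a⁻¹, P.mul_mem hb (P.inv_mem ha), by show (QuotientGroup.mk _ : G ⧸ A) = _; simp⟩)
    refine ⟨u, hu, u⁻¹ * g, Subgroup.mem_normalizer_fintype fun a ha => ?_, by group⟩
    have h1 : (g * a * g⁻¹) • (QuotientGroup.mk u : G ⧸ A) = QuotientGroup.mk u := hfixu _ ⟨a, ha, by simp⟩
    rw [MulAction.Quotient.smul_mk, QuotientGroup.eq] at h1
    show u⁻¹ * g * a * (u⁻¹ * g)⁻¹ ∈ A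
    simpa [mul_assoc] using A.inv_mem h1
  have hAN : A ≤ N := Subgroup.le_normalizer
  have hAne' : ∃ a ∈ A, a ≠ 1 := by
    obtain ⟨⟨a, ha⟩, ha1⟩ := Subgroup.ne_bot_iff_exists_ne_one.1 hAne
    exact ⟨a, ha, fun e => ha1 (Subtype.ext e)⟩
  have hNP : ∀ y ∈ N, y ∈ P → y = 1 := by
    intro y hyN hyP
    obtain ⟨a, ha, ha1⟩ := hAne'
    have h1 : y * a * y⁻¹ * a⁻¹ ∈ P ⊓ A := by
      refine ⟨?_, A.mul_mem ((Subgroup.mem_normalizer_iff.1 hyN a).1 ha) (A.inv_mem ha)⟩
      rw [show y * a * y⁻¹ * a⁻¹ = y * (a * y⁻¹ * a⁻¹) by group]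
      exact P.mul_mem hyP (hPn.conj_mem _ (P.inv_mem hyP) a)
    rw [hPAd, Subgroup.mem_bot, mul_inv_eq_one, mul_inv_eq_iff_eq_mul] at h1
    exact Subgroup.mem_bot.1 (hAfix a ha ha1 ▸ ⟨hyP, Subgroup.mem_centralizer_singleton_iff.2 h1⟩)
  have hMN : ∀ y ∈ N, y ∈ M → y ∈ A := by
    intro y hyN hyM
    obtain ⟨u, hu, a, ha, rfl⟩ := Subgroup.mem_sup_of_normal_left.1 (hPA.ge hyM)
    have hu1 : u = 1 := hNP u (by simpa using N.mul_mem hyN (N.inv_mem (hAN ha))) hu
    rwa [hu1, one_mul]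
  -- `p`-elements of `N` act without fixed points on `A`
  have hpfix : ∀ y ∈ N, ∀ i, orderOf y = p ^ i → y ≠ 1 → ∀ a ∈ A, a ≠ 1 → ¬ Commute a y := by
    intro y hyN i hi hy1 a ha ha1 hay
    set T := P ⊔ Subgroup.zpowers y with hT
    have hTp : IsPGroup p ↥T :=
      hPp.to_sup_of_normal_left (IsPGroup.of_card (n := i) (by rw [Nat.card_zpowers, hi]))
    have hT0 : P.subgroupOf T ≠ ⊥ := fun e => hPne (by
      rw [Subgroup.subgroupOf_eq_bot, disjoint_iff, inf_eq_left.2 (le_sup_left : P ≤ T)] at e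
      exact e)
    obtain ⟨⟨w, hw, hwc⟩, hw1⟩ := Subgroup.ne_bot_iff_exists_ne_one.1 (CfsgLib.PReduced.inf_center_ne_bot hTp hT0)
    have hwy : Commute y (w : G) := congrArg Subtype.val
      (Subgroup.mem_center_iff.1 hwc ⟨y, Subgroup.mem_sup_right (Subgroup.mem_zpowers y)⟩)
    obtain ⟨k, hk⟩ := IsPGroup.iff_orderOf.1 hPp ⟨w, hw⟩
    rw [← Subgroup.orderOf_coe] at hk
    have hwa : Commute a (w : G) := CfsgLib.CN.commute_of_mem (hCN y hy1)
      (Subgroup.mem_centralizer_singleton_iff.2 hay.eq) (Subgroup.mem_centralizer_singleton_iff.2 hwy.symm.eq)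
      (by rw [hk]; exact (hAp a ha).pow_right k)
    exact hw1 (Subtype.ext (Subtype.ext (Subgroup.mem_bot.1 (hAfix a ha ha1 ▸
      ⟨hw, Subgroup.mem_centralizer_singleton_iff.2 hwa.symm.eq⟩))))
  have hlatA := CfsgLib.CN.latFpf_of_fix hPne hAne hPAd hAfix
  haveI hAnil : Group.IsNilpotent ↥A := CfsgLib.CN.isNilpotent_of_fix hCN hlatA
  have hpN : p ∣ Nat.card N := by
    have h1 : P.index ∣ Nat.card N := by
      rw [Subgroup.index_eq_card]
      exact Subgroup.card_dvd_of_surjective (π.comp N.subtype) fun z => by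
        obtain ⟨g, rfl⟩ := hπs z
        obtain ⟨u, hu, n, hn, rfl⟩ := hfr g
        refine ⟨⟨n, hn⟩, ?_⟩
        show π n = π (u * n)
        rw [map_mul, show π u = 1 from (QuotientGroup.eq_one_iff u).2 hu, one_mul]
    refine dvd_trans ?_ h1
    rw [← hFP]
    exact hpi
  have hodd : Odd (Nat.card A) := by
    rw [← Nat.not_even_iff_odd]
    intro hev
    haveI : Fact (Nat.Prime 2) := ⟨Nat.prime_two⟩
    obtain ⟨t, ht⟩ := exists_prime_orderOf_dvd_card' (G := ↥A) 2 hev.two_dvd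
    obtain ⟨y, hy⟩ := exists_prime_orderOf_dvd_card' (G := ↥N) p hpN
    rw [← Subgroup.orderOf_coe] at hy
    have ht1 : (t : G) ≠ 1 := fun e => by
      rw [← Subgroup.orderOf_coe, e, orderOf_one] at ht
      exact absurd ht (by omega)
    have ht2 : t ^ 2 = 1 := ht ▸ pow_orderOf_eq_one t
    let t' : A := ⟨(y : G) * t * (y : G)⁻¹, (Subgroup.mem_normalizer_iff.1 y.2 t).1 t.2⟩
    have ht'2 : t' ^ 2 = 1 := Subtype.ext (by
      show ((y : G) * t * (y : G)⁻¹) ^ 2 = 1
      rw [conj_pow, ← Subgroup.coe_pow, ht2]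
      simp)
    obtain ⟨R⟩ : Nonempty (Sylow 2 A) := inferInstance
    have hmemR : ∀ s : A, s ^ 2 = 1 → s ∈ (R : Subgroup A) := by
      intro s hs
      have hs' : IsPGroup 2 (Subgroup.zpowers s) := by
        obtain ⟨i, -, hi⟩ := (Nat.dvd_prime_pow Nat.prime_two).1 (show orderOf s ∣ 2 ^ 1 by
          rw [pow_one]; exact orderOf_dvd_of_pow_eq_one hs)
        exact IsPGroup.of_card (n := i) (by rw [Nat.card_zpowers, hi])
      obtain ⟨R', hR'⟩ := hs'.exists_le_sylow
      haveI := Sylow.unique_of_normal R inferInstance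
      rw [Subsingleton.elim R' R] at hR'
      exact hR' (Subgroup.mem_zpowers s)
    obtain ⟨l, hl⟩ := hlatA.uniqueOrderP R.isPGroup' ⟨t, hmemR t ht2⟩ ⟨t', hmemR t' ht'2⟩ (Subtype.ext ht2) (Subtype.ext ht'2)
      (fun e => ht1 (congrArg (fun w : ↥(R : Subgroup A) => ((w : A) : G)) e))
    have hl' : (t : G) ^ l = (y : G) * t * (y : G)⁻¹ := congrArg (fun w : ↥(R : Subgroup A) => ((w : A) : G)) hl
    have hcomm : (y : G) * t * (y : G)⁻¹ = t := by
      rcases Int.even_or_odd l with ⟨m, hm⟩ | ⟨m, hm⟩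
      · exfalso
        have ht2' : (t : G) ^ (2 : ℤ) = 1 := by
          rw [zpow_two, ← pow_two, ← Subgroup.coe_pow, ht2, Subgroup.coe_one]
        rw [hm, ← two_mul, zpow_mul, ht2', one_zpow] at hl'
        exact ht1 (by
          calc (t : G) = (y : G)⁻¹ * ((y : G) * t * (y : G)⁻¹) * y := by group
            _ = 1 := by rw [← hl']; group)
      · have ht2' : (t : G) ^ (2 : ℤ) = 1 := by
          rw [zpow_two, ← pow_two, ← Subgroup.coe_pow, ht2, Subgroup.coe_one]
        rw [hm, zpow_add, zpow_mul, ht2', one_zpow, one_mul, zpow_one] at hl'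
        exact hl'.symm
    exact hpfix y y.2 1 (hy.trans (pow_one p).symm) (fun e => by rw [e, orderOf_one] at hy; exact hp.ne_one hy.symm)
      t t.2 ht1 (mul_inv_eq_iff_eq_mul.1 hcomm).symm
  haveI hAc : IsCyclic A := CfsgLib.CN.isCyclic_of_odd hlatA hodd
  -- `C_N(A) = A` and `N' ≤ A`
  have hCA : ∀ c ∈ N, (∀ a ∈ A, c * a * c⁻¹ = a) → c ∈ A := by
    intro c hcN hc
    refine hMN c hcN (CfsgLib.Hall.centralizer_fitting_le (G := G ⧸ P) (Subgroup.mem_centralizer_iff.2 fun z hz => ?_))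
    obtain ⟨g, rfl⟩ := hπs z
    obtain ⟨u, hu, a, ha, rfl⟩ := Subgroup.mem_sup_of_normal_left.1 (hPA.ge (show g ∈ M from hz))
    rw [map_mul, show π u = 1 from (QuotientGroup.eq_one_iff u).2 hu, one_mul, ← map_mul, ← map_mul,
      mul_inv_eq_iff_eq_mul.1 (hc a ha)]
  have hder : ∀ m ∈ N, ∀ n ∈ N, m * n * m⁻¹ * n⁻¹ ∈ A := by
    intro m hm n hn
    obtain ⟨a₀, ha₀⟩ := IsCyclic.exists_generator (α := ↥A)
    have hexp : ∀ m ∈ N, ∃ i : ℤ, ∀ a ∈ A, m * a * m⁻¹ = a ^ i := by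
      intro m hm
      obtain ⟨i, hi⟩ := Subgroup.mem_zpowers_iff.1 (ha₀ ⟨m * a₀ * m⁻¹, (Subgroup.mem_normalizer_iff.1 hm a₀).1 a₀.2⟩)
      have hi' : ((a₀ : G)) ^ i = m * a₀ * m⁻¹ := congrArg Subtype.val hi
      refine ⟨i, fun a ha => ?_⟩
      obtain ⟨k, hk⟩ := Subgroup.mem_zpowers_iff.1 (ha₀ ⟨a, ha⟩)
      have hk' : ((a₀ : G)) ^ k = a := congrArg Subtype.val hk
      rw [← hk', ← conj_zpow, ← hi', ← zpow_mul, ← zpow_mul, mul_comm]
    obtain ⟨i, hi⟩ := hexp m hm
    obtain ⟨j, hj⟩ := hexp n hn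
    refine hCA _ (N.mul_mem (N.mul_mem (N.mul_mem hm hn) (N.inv_mem hm)) (N.inv_mem hn)) fun a ha => ?_
    have hinv : ∀ {m : G}, m ∈ N → m⁻¹ * a * m ∈ A := fun {m} hm => by
      have := (Subgroup.mem_normalizer_iff.1 (N.inv_mem hm) a).1 ha
      simpa using this
    set b := n⁻¹ * a * n with hb
    have hbA : b ∈ A := hinv hn
    set c := m⁻¹ * b * m with hc
    have hcA : c ∈ A := by
      have := (Subgroup.mem_normalizer_iff.1 (N.inv_mem hm) b).1 hbA
      simpa using this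
    have e1 : a = n * b * n⁻¹ := by rw [hb]; group
    have e2 : b = m * c * m⁻¹ := by rw [hc]; group
    calc m * n * m⁻¹ * n⁻¹ * a * (m * n * m⁻¹ * n⁻¹)⁻¹ = m * (n * c * n⁻¹) * m⁻¹ := by rw [e1, e2]; group
      _ = c ^ (j * i) := by rw [hj c hcA, hi _ (A.zpow_mem hcA j), ← zpow_mul]
      _ = n * (m * c * m⁻¹) * n⁻¹ := by rw [hi c hcA, hj _ (A.zpow_mem hcA i), ← zpow_mul, mul_comm]
      _ = a := by rw [← e2, ← e1]
  -- prime power elements of `N` of order prime to `p` lie in `A`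
  have hqA : ∀ y ∈ N, (orderOf y).Coprime p → y ∈ A := by
    intro y hyN hyp
    by_contra hyA
    set L := A ⊔ Subgroup.zpowers y with hL
    have hLN : L ≤ N := sup_le hAN (Subgroup.zpowers_le.2 hyN)
    have hLc : (Nat.card L).Coprime p := by
      have h1 : Nat.card L ∣ Nat.card A * orderOf y := by
        refine ⟨Nat.card ↥(A ⊓ Subgroup.zpowers y), ?_⟩
        rw [← Nat.card_zpowers, ← CfsgLib.Factorization.card_mul_set A (Subgroup.zpowers y),
          ← Subgroup.coe_mul_of_right_le_normalizer_left A (Subgroup.zpowers y) (Subgroup.zpowers_le.2 hyN),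
          ← Nat.card_coe_set_eq]
        rfl
      exact ((((Nat.Prime.coprime_iff_not_dvd hp).2 (hcardA ▸ hFbp)).symm).mul_left hyp).coprime_dvd_left h1
    have hLfix : ∀ e ∈ L, e ≠ 1 → P ⊓ Subgroup.centralizer ({e} : Set G) = ⊥ := fun e he =>
      hfix e (hLc.coprime_dvd_left ((Subgroup.orderOf_mk e he) ▸ orderOf_dvd_natCard (⟨e, he⟩ : L)))
    have hLd : P ⊓ L = ⊥ := eq_bot_iff.2 fun z hz => Subgroup.mem_bot.2 (hNP z (hLN hz.2) hz.1)
    haveI hLnil := CfsgLib.CN.isNilpotent_of_fix hCN (CfsgLib.CN.latFpf_of_fix hPne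
      (fun e => hAne (le_bot_iff.1 (e ▸ le_sup_left))) hLd hLfix)
    have hLn : (L.map π).Normal := by
      refine ⟨fun z hz w => ?_⟩
      obtain ⟨l, hl, rfl⟩ := hz
      obtain ⟨g, rfl⟩ := hπs w
      obtain ⟨u, hu, n, hn, rfl⟩ := hfr g
      refine ⟨n * l * n⁻¹, ?_, ?_⟩
      · rw [show n * l * n⁻¹ = n * l * n⁻¹ * l⁻¹ * l by group]
        exact L.mul_mem (Subgroup.mem_sup_left (hder n hn l (hLN hl))) hl
      · rw [map_mul π u n, show π u = 1 from (QuotientGroup.eq_one_iff u).2 hu, one_mul, map_mul, map_mul, map_inv]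
    have hLm : Group.IsNilpotent ↥(L.map π) :=
      Group.nilpotent_of_surjective (π.subgroupMap L) (π.subgroupMap_surjective L)
    exact hyA (hMN y hyN (CfsgLib.Components.le_fittingSubgroup hLn hLm ⟨y, Subgroup.mem_sup_right (Subgroup.mem_zpowers y), rfl⟩))
  -- every element of `N` has a `p`-power in `A`
  have hpow : ∀ n ∈ N, ∃ k : ℕ, n ^ p ^ k ∈ A := fun n hn => by
    refine ⟨(orderOf n).factorization p, hqA _ (N.pow_mem hn _) ?_⟩
    rw [orderOf_pow, Nat.gcd_eq_right (Nat.ordProj_dvd (orderOf n) p)]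
    exact ((Nat.Prime.coprime_iff_not_dvd hp).2 (Nat.not_dvd_ordCompl hp (orderOf_pos n).ne')).symm
  have hMnorm : (P ⊔ A).Normal := by rw [hPA]; infer_instance
  have hquot : IsPGroup p (G ⧸ (P ⊔ A)) := by
    intro z
    obtain ⟨g, rfl⟩ := QuotientGroup.mk'_surjective (P ⊔ A) z
    obtain ⟨u, hu, n, hn, rfl⟩ := hfr g
    obtain ⟨k, hk⟩ := hpow n hn
    refine ⟨k, ?_⟩
    rw [map_mul, show QuotientGroup.mk' (P ⊔ A) u = 1 from (QuotientGroup.eq_one_iff u).2 (Subgroup.mem_sup_left hu),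
      one_mul, ← map_pow]
    exact (QuotientGroup.eq_one_iff _).2 (Subgroup.mem_sup_right hk)
  refine ⟨p, hp, hPne, A, hAne, hAc, hodd, ((Nat.Prime.coprime_iff_not_dvd hp).2 (hcardA ▸ hFbp)).symm, hMnorm, ?_, ?_,
    hAfix, ?_⟩
  · intro e
    obtain ⟨y, hy⟩ := exists_prime_orderOf_dvd_card' (G := ↥N) p hpN
    rw [← Subgroup.orderOf_coe] at hy
    have h1 : (y : G) ∈ A := hMN y y.2 (hPA.le (e.ge (Subgroup.mem_top _)))
    have h2 := hAp _ h1
    rw [hy] at h2
    exact hp.ne_one ((Nat.coprime_self p).1 h2)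
  · obtain ⟨r, hr⟩ := hquot.exists_card_eq
    exact ⟨r, by rw [Subgroup.index_eq_card, hr]⟩
  · intro g hg a ha ha1 hcom
    obtain ⟨u, hu, n, hn, rfl⟩ := hfr g
    have hnA : n ∉ A := fun h => hg (Subgroup.mul_mem _ (Subgroup.mem_sup_left hu) (Subgroup.mem_sup_right h))
    have hna : n * a * n⁻¹ ∈ A := (Subgroup.mem_normalizer_iff.1 hn a).1 ha
    have h1 : n * a * n⁻¹ * a⁻¹ ∈ P ⊓ A := by
      refine ⟨?_, A.mul_mem hna (A.inv_mem ha)⟩
      have h2 : π (u * n * a * (u * n)⁻¹ * a⁻¹) = 1 := (QuotientGroup.eq_one_iff _).2 hcom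
      refine (QuotientGroup.eq_one_iff _).1 ?_
      show π (n * a * n⁻¹ * a⁻¹) = 1
      rw [← h2]
      simp only [map_mul, map_inv, mul_inv_rev, show π u = 1 from (QuotientGroup.eq_one_iff u).2 hu, one_mul, mul_one, inv_one]
    rw [hPAd, Subgroup.mem_bot, mul_inv_eq_one, mul_inv_eq_iff_eq_mul] at h1
    -- the `p`-part of `n`
    set m := orderOf n / p ^ (orderOf n).factorization p with hm
    have hmo : orderOf (n ^ m) = p ^ (orderOf n).factorization p := by
      rw [orderOf_pow, Nat.gcd_eq_right (Nat.ordCompl_dvd (orderOf n) p)]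
      exact Nat.div_eq_of_eq_mul_left (Nat.ordCompl_pos p (orderOf_pos n).ne') (Nat.ordProj_mul_ordCompl_eq_self (orderOf n) p).symm
    have hm1 : n ^ m ≠ 1 := fun e => by
      rw [e, orderOf_one] at hmo
      refine hnA (hqA n hn ?_)
      have h3 := Nat.ordProj_mul_ordCompl_eq_self (orderOf n) p
      rw [← hmo, one_mul] at h3
      have h4 := ((Nat.Prime.coprime_iff_not_dvd hp).2 (Nat.not_dvd_ordCompl hp (orderOf_pos n).ne')).symm
      rw [← hmo] at h4
      rwa [h3] at h4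
    exact hpfix _ (N.pow_mem hn m) _ hmo hm1 a ha ha1 ((show Commute n a from h1).symm.pow_right m)

end Cfsg.Agent.S1476
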