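import Cfsg.Statements.S1477
import Cfsg.Agent.CN.Basic
import Mathlib.Tactic

set_option autoImplicit false
open Cfsg
open scoped commutatorElement

namespace Cfsg.Agent.S1477

/-- Let G be a finite group in which every non-identity element has nilpotent centralizer, and H a nilpotent subgroup not properly contained in any nilpotent subgroup. Then the order of H is coprime to its index; if the order of H is not a prime power then H ∩ gHg⁻¹ = 1 whenever gHg⁻¹ ≠ H; and if H ∩ gHg⁻¹ = 1 whenever gHg⁻¹ ≠ H, then C_G(x) ≤ H for every non-identity x ∈ H. -/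
theorem result {G : Type*} [Group G] [Finite G] (hCN : Cfsg.IsCNGroup G) (H : Subgroup G) (hH : Group.IsNilpotent H)
    (hmax : ∀ L : Subgroup G, Group.IsNilpotent L → H ≤ L → L = H) :
    (Nat.card H).Coprime H.index ∧
      (¬ IsPrimePow (Nat.card H) → Nat.card H ≠ 1 → ∀ g : G, H.map (MulAut.conj g).toMonoidHom ≠ H → H ⊓ H.map (MulAut.conj g).toMonoidHom = ⊥) ∧
      ((∀ g : G, H.map (MulAut.conj g).toMonoidHom ≠ H → H ⊓ H.map (MulAut.conj g).toMonoidHom = ⊥) → ∀ x ∈ H, x ≠ 1 → Subgroup.centralizer ({x} : Set G) ≤ H) := by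
  have hmaxc : ∀ g : G, ∀ L : Subgroup G, Group.IsNilpotent L → H.map (MulAut.conj g).toMonoidHom ≤ L → L = H.map (MulAut.conj g).toMonoidHom := by
    intro g L hL hle
    haveI := hL
    have h1 := hmax (L.map (MulAut.conj g⁻¹).toMonoidHom)
      (Group.nilpotent_of_mulEquiv (L.equivMapOfInjective _ (MulEquiv.injective _)))
      (fun a ha => ⟨g * a * g⁻¹, hle ⟨a, ha, by simp⟩, by simp [mul_assoc]⟩)
    rw [← h1, Subgroup.map_map]
    symm
    convert L.map_id using 2
    ext y
    simp [mul_assoc]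
  have hnil : ∀ g : G, Group.IsNilpotent ↥(H.map (MulAut.conj g).toMonoidHom) := fun g => by
    haveI := hH
    exact Group.nilpotent_of_mulEquiv (H.equivMapOfInjective _ (MulEquiv.injective _))
  refine ⟨?_, fun hpp h1 g hg => ?_, fun hti x hx hx1 => ?_⟩
  · refine Nat.coprime_of_dvd fun p hp hpH hpi => ?_
    haveI := Fact.mk hp
    obtain ⟨P⟩ : Nonempty (Sylow p H) := inferInstance
    exact CfsgLib.CN.not_dvd_index hCN hH hmax P hpH
      (hpi.trans (Subgroup.index_dvd_of_le (Subgroup.map_subtype_le _)))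
  · exact CfsgLib.CN.inf_eq_bot_of_ne hCN hH (hnil g) hmax (hmaxc g)
      (Subgroup.card_map_of_injective (MulEquiv.injective _)) hpp h1 hg
  · have hnorm : ∀ c ∈ Subgroup.centralizer ({x} : Set G), c ∈ Subgroup.normalizer (H : Set G) := by
      intro c hc
      refine Subgroup.mem_normalizer_iff_map_conj_eq.2 ?_
      by_contra hne
      refine hx1 (Subgroup.mem_bot.1 ((hti c hne).le ⟨hx, x, hx, ?_⟩))
      simp [Subgroup.mem_centralizer_singleton_iff.1 hc]
    refine CfsgLib.CN.le_of_sylow_le fun r hr R c hcR => ?_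
    haveI := Fact.mk hr
    haveI := hH
    by_cases hrH : r ∣ Nat.card H
    · obtain ⟨P⟩ : Nonempty (Sylow r H) := inferInstance
      have hidx := CfsgLib.CN.not_dvd_index hCN hH hmax P hrH
      set P₀ := (P : Subgroup H).map H.subtype with hP₀
      have hcN : Subgroup.zpowers (c : G) ≤ Subgroup.normalizer (P₀ : Set G) := by
        refine Subgroup.zpowers_le.2 (Subgroup.mem_normalizer_fintype ?_)
        rintro _ ⟨a, ha, rfl⟩
        haveI := Sylow.unique_of_normal P inferInstance
        have hmem : (c : G) * (a : G) * (c : G)⁻¹ ∈ H := (Subgroup.mem_normalizer_iff.1 (hnorm _ c.2) a).1 a.2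
        obtain ⟨i, hi⟩ := IsPGroup.iff_orderOf.1 P.isPGroup' ⟨a, ha⟩
        rw [← Subgroup.orderOf_coe] at hi
        have hp' : IsPGroup r (Subgroup.zpowers (⟨(c : G) * (a : G) * (c : G)⁻¹, hmem⟩ : H)) := by
          refine IsPGroup.of_card (n := i) ?_
          rw [Nat.card_zpowers, Subgroup.orderOf_mk, show (c : G) * (a : G) * (c : G)⁻¹ = MulAut.conj (c : G) a by simp,
            MulEquiv.orderOf_eq, Subgroup.orderOf_coe]
          exact hi
        obtain ⟨P', hP'⟩ := hp'.exists_le_sylow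
        rw [Subsingleton.elim P' P] at hP'
        exact ⟨_, hP' (Subgroup.mem_zpowers _), rfl⟩
      have hc' : IsPGroup r (Subgroup.zpowers (c : G)) := by
        obtain ⟨i, hi⟩ := IsPGroup.iff_orderOf.1 R.isPGroup' ⟨c, hcR⟩
        rw [← Subgroup.orderOf_coe, ← Subgroup.orderOf_coe] at hi
        exact IsPGroup.of_card (n := i) (by rw [Nat.card_zpowers]; exact hi)
      let S : Sylow r G := (P.isPGroup'.map H.subtype).toSylow hidx
      have hj : IsPGroup r ↥(Subgroup.zpowers (c : G) ⊔ P₀) := hc'.to_sup_of_normal_right' (P.isPGroup'.map _) hcN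
      have hle := S.3 hj le_sup_right
      exact Subgroup.map_subtype_le (P : Subgroup H) (hle.le (Subgroup.mem_sup_left (Subgroup.mem_zpowers _)))
    · obtain ⟨p, hp, hpH⟩ := Nat.exists_prime_and_dvd (show Nat.card H ≠ 1 from fun e => hx1 (Subgroup.mem_bot.1
        ((Subgroup.eq_bot_of_card_eq H e).le hx)))
      haveI := Fact.mk hp
      obtain ⟨P⟩ : Nonempty (Sylow p H) := inferInstance
      obtain ⟨w, hwP, hw1, hwc⟩ := CfsgLib.CN.exists_central hH P hpH
      rw [← CfsgLib.CN.centralizer_eq hCN hmax hw1 hwc, Subgroup.mem_centralizer_singleton_iff]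
      obtain ⟨i, hi⟩ := IsPGroup.iff_orderOf.1 R.isPGroup' ⟨c, hcR⟩
      obtain ⟨j, hj⟩ := IsPGroup.iff_orderOf.1 P.isPGroup' ⟨w, hwP⟩
      rw [← Subgroup.orderOf_coe, ← Subgroup.orderOf_coe] at hi hj
      have hwx : (w : G) ∈ Subgroup.centralizer ({x} : Set G) :=
        Subgroup.mem_centralizer_singleton_iff.2 (Subgroup.mem_centralizer_singleton_iff.1 (hwc hx)).symm
      exact (CfsgLib.CN.commute_of_mem (hCN x hx1) c.2 hwx
        (CfsgLib.CN.coprime_of_pow hr hp (fun e => hrH (e ▸ hpH)) hi hj)).eq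

end Cfsg.Agent.S1477
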