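import Cfsg.Statements.S1527
-- import your own Cfsg.Agent.* helpers here

set_option autoImplicit false
open Cfsg

namespace Cfsg.Agent.S1527

/-- Let G be a finite group and H i (i in a finite index type) subgroups of pairwise coprime orders, each of whose underlying sets is a TI-subset of G, such that every non-identity element of G is conjugate to an element of some H i. Then Nat.card G − 1 = Σ_i [G : N_G(H i)] · (Nat.card (H i) − 1). -/
theorem result {G : Type*} [Group G] [Finite G] {ι : Type*} [Fintype ι] (H : ι → Subgroup G) (hcop : ∀ i j, i ≠ j → Nat.Coprime (Nat.card (H i)) (Nat.card (H j))) (hTI : ∀ i, Cfsg.IsTISubset (H i : Set G)) (hcover : ∀ g : G, g ≠ 1 → ∃ i, ∃ x : G, x * g * x⁻¹ ∈ H i) : Nat.card G - 1 = ∑ i, (Subgroup.normalizer (H i : Set G)).index * (Nat.card (H i) - 1) := by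
  classical
  have key : Function.Bijective (fun z : Σ i, (G ⧸ Subgroup.normalizer (H i : Set G)) × {h : H i // h ≠ 1} =>
      (⟨z.2.1.out * ((z.2.2.1 : H z.1) : G) * z.2.1.out⁻¹, fun e => z.2.2.2 (Subtype.ext
        (by simpa using conj_eq_one_iff.1 e))⟩ : {g : G // g ≠ 1})) := by
    refine ⟨?_, ?_⟩
    · rintro ⟨i, q, h, hh⟩ ⟨j, q', h', hh'⟩ e
      have e' : q.out * (h : G) * q.out⁻¹ = q'.out * (h' : G) * q'.out⁻¹ := congrArg Subtype.val e
      have hij : i = j := by
        by_contra hij
        refine hh (orderOf_eq_one_iff.1 (Nat.eq_one_of_dvd_coprimes (hcop i j hij) (orderOf_dvd_natCard h) ?_))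
        have h1 : orderOf (h : G) = orderOf (h' : G) := by
          have h2 := congrArg orderOf e'
          rwa [← MulAut.conj_apply, ← MulAut.conj_apply, MulEquiv.orderOf_eq, MulEquiv.orderOf_eq] at h2
        rw [← Subgroup.orderOf_coe, h1, Subgroup.orderOf_coe]
        exact orderOf_dvd_natCard h'
      subst hij
      have hg : (q'.out⁻¹ * q.out) * (h : G) * (q'.out⁻¹ * q.out)⁻¹ = (h' : G) := by
        rw [mul_inv_rev, inv_inv]
        calc q'.out⁻¹ * q.out * (h : G) * (q.out⁻¹ * q'.out)
            = q'.out⁻¹ * (q.out * (h : G) * q.out⁻¹) * q'.out := by simp only [mul_assoc]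
          _ = (h' : G) := by rw [e']; group
      have hN : q'.out⁻¹ * q.out ∈ Subgroup.normalizer (H i : Set G) := by
        by_contra hN
        exact hh (Subtype.ext (hTI i _ hN _ h.2 (by rw [hg]; exact h'.2)))
      have hq : q' = q := by
        rw [← QuotientGroup.out_eq' q', ← QuotientGroup.out_eq' q]
        exact QuotientGroup.eq.2 hN
      subst hq
      obtain rfl : h = h' := Subtype.ext (by simpa using e')
      rfl
    · rintro ⟨g, hg⟩
      obtain ⟨i, x, hx⟩ := hcover g hg
      obtain ⟨n, hn⟩ := QuotientGroup.mk_out_eq_mul (Subgroup.normalizer (H i : Set G)) x⁻¹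
      have hmem : (n : G)⁻¹ * (x * g * x⁻¹) * (n : G)⁻¹⁻¹ ∈ H i :=
        (Subgroup.mem_normalizer_iff.1 (inv_mem n.2) _).1 hx
      refine ⟨⟨i, ((x⁻¹ : G) : G ⧸ Subgroup.normalizer (H i : Set G)), ⟨⟨_, hmem⟩, fun e => hg ?_⟩⟩, Subtype.ext ?_⟩
      · have e' : (n : G)⁻¹ * (x * g * x⁻¹) * (n : G)⁻¹⁻¹ = 1 := congrArg Subtype.val e
        simpa using conj_eq_one_iff.1 (conj_eq_one_iff.1 e')
      · simp only [hn]
        group
  haveI := Fintype.ofFinite G
  have h0 := Nat.card_congr (Equiv.ofBijective _ key)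
  rw [Nat.card_sigma] at h0
  simp only [Nat.card_prod] at h0
  have hne : ∀ (X : Type _) [Group X] [Finite X], Nat.card {h : X // h ≠ 1} = Nat.card X - 1 := by
    intro X _ _
    haveI := Fintype.ofFinite X
    rw [Nat.card_eq_fintype_card, Nat.card_eq_fintype_card, Fintype.card_subtype_compl, Fintype.card_subtype_eq]
  have hi : ∀ i, Nat.card {h : H i // h ≠ 1} = Nat.card (H i) - 1 := fun i => hne _
  simp only [hi] at h0
  rw [← hne G, ← h0]
  rfl

end Cfsg.Agent.S1527
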