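import Cfsg.Statements.S1526
import Cfsg.Agent.Exceptional.TICoverFam
import Cfsg.Agent.S1527

set_option autoImplicit false
open Cfsg

namespace Cfsg.Agent.S1526

/-- Let G be a finite group of odd order and (L i, H i), i in a finite index type with at least two elements, pairs of subgroups with H i a nontrivial proper normal subgroup of L i such that every non-identity element of H i has its centraliser within L i contained in H i (L i is a Frobenius group with kernel H i), the orders of the H i pairwise coprime, and the underlying set of each H i a TI-subset of G with normaliser L i. If every non-identity element of G is conjugate to an element of some H i, we reach a contradiction. -/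
theorem result {G : Type*} [Group G] [Finite G] (hodd : Odd (Nat.card G)) {ι : Type*} [Fintype ι] (hι : 2 ≤ Fintype.card ι) (L H : ι → Subgroup G) (hHL : ∀ i, H i < L i) (hH1 : ∀ i, H i ≠ ⊥) (hHn : ∀ i, ∀ x ∈ L i, ∀ h ∈ H i, x * h * x⁻¹ ∈ H i) (hfrob : ∀ i, ∀ h ∈ H i, h ≠ 1 → L i ⊓ Subgroup.centralizer ({h} : Set G) ≤ H i) (hcop : ∀ i j, i ≠ j → Nat.Coprime (Nat.card (H i)) (Nat.card (H j))) (hTI : ∀ i, Cfsg.IsTISubset (H i : Set G) ∧ Subgroup.normalizer (H i : Set G) = L i) (hcover : ∀ g : G, g ≠ 1 → ∃ i, ∃ x : G, x * g * x⁻¹ ∈ H i) : False := by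
  classical
  haveI := Fintype.ofFinite G
  haveI : Nontrivial ι := Fintype.one_lt_card_iff_nontrivial.1 hι
  choose F he hf hsupp hcard hdvd hprime using fun i =>
    CfsgLib.Exceptional.exists_fam hodd (L i) (H i) (hHL i) (hH1 i) (hHn i) (hfrob i) (hTI i).1 (hTI i).2
  have hord : ∀ i, ∀ x g : G, x * g * x⁻¹ ∈ H i → orderOf g ∣ Nat.card (H i) := fun i x g h => by
    rw [show orderOf g = orderOf (x * g * x⁻¹) by rw [← MulAut.conj_apply, MulEquiv.orderOf_eq]]
    exact (Subgroup.orderOf_coe ⟨_, h⟩).symm ▸ orderOf_dvd_natCard (⟨_, h⟩ : H i)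
  have hdisj : ∀ i k, i ≠ k → ∀ g, g ∈ (F i).supp → g ∉ (F k).supp := by
    intro i k hik g hgi hgk
    rw [hsupp] at hgi hgk
    obtain ⟨x, hx, hg⟩ := hgi
    obtain ⟨y, hy, -⟩ := hgk
    exact hg (orderOf_eq_one_iff.1 (Nat.eq_one_of_dvd_coprimes (hcop i k hik) (hord i x g hx) (hord k y g hy)))
  refine CfsgLib.Exceptional.false_of_fams F hdisj hodd he hf (fun i => Nat.card (H i)) (fun i => Nat.card_pos)
    hprime ?_ ?_
  · intro i k hik
    by_contra hne
    simp only at hik
    have h1 := Nat.eq_one_of_dvd_coprimes (hcop i k hne) (hdvd i) (hik ▸ hdvd k)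
    have h2 : (F i).e * (F i).f = 0 := by omega
    rcases mul_eq_zero.1 h2 with h | h
    · have := (he i).2; omega
    · have := (hf i).2; omega
  · have h1 := Cfsg.Agent.S1527.result H hcop (fun i => (hTI i).1) hcover
    have hG : (Nat.card G : ℝ) ≠ 0 := Nat.cast_ne_zero.2 Nat.card_pos.ne'
    have h2 : ∀ i, ((Nat.card (H i) : ℝ) - 1) / ((F i).e * (Nat.card (H i) : ℝ))
        = (((Subgroup.normalizer (H i : Set G)).index * (Nat.card (H i) - 1) : ℕ) : ℝ) / Nat.card G := by
      intro i
      have h3 : ((F i).e : ℝ) * Nat.card (H i) * (Subgroup.normalizer (H i : Set G)).index = Nat.card G := by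
        rw [(hTI i).2]
        exact_mod_cast by rw [hcard i, Subgroup.card_mul_index]
      have hi : ((F i).e : ℝ) * Nat.card (H i) ≠ 0 := fun h0 => hG (by rw [← h3, h0, zero_mul])
      rw [Nat.cast_mul, Nat.cast_sub Nat.card_pos, Nat.cast_one, div_eq_div_iff hi hG, ← h3]
      ring
    rw [Finset.sum_congr rfl fun i _ => h2 i, ← Finset.sum_div, ← Nat.cast_sum, ← h1, Nat.cast_sub Nat.card_pos,
      Nat.cast_one]
    field_simp
    ring

end Cfsg.Agent.S1526
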