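import Cfsg.Statements.S1892
import Mathlib.Tactic
import Cfsg.Agent.PCore.Descent

set_option autoImplicit false
open Cfsg
open scoped commutatorElement

namespace Cfsg.Agent.S1892

/-- Let S be a finite p-solvable group with no nontrivial normal subgroup of order prime to p, A a p-subgroup of S, and Q a nontrivial A-invariant subgroup of order prime to p with [A, Q] = Q. Then the commutator [O_p(S), A, Q] is nontrivial. -/
theorem result {S : Type*} [Group S] [Finite S] {p : ℕ} [Fact p.Prime]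
    (hS : Cfsg.IsPSolvable p S) (hred : Cfsg.pPrimeCore p S = ⊥)
    (A Q : Subgroup S) (hA : IsPGroup p A) (hQ : ¬ p ∣ Nat.card Q) (hQ1 : Q ≠ ⊥)
    (hinv : ∀ a ∈ A, ∀ x ∈ Q, a * x * a⁻¹ ∈ Q) (hAQ : ⁅A, Q⁆ = Q) :
    ⁅⁅Cfsg.pCore p S, A⁆, Q⁆ ≠ ⊥ := by
  intro h0
  apply hQ1
  set K := Cfsg.pCore p S with hK
  set L := ⁅K, A⁆ with hL
  have hQL : Q ≤ Subgroup.centralizer (L : Set S) := by
    rw [← Subgroup.commutator_eq_bot_iff_le_centralizer, Subgroup.commutator_comm]; exact h0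
  have hLK : L ≤ K := CfsgLib.PCore.commutator_le_of_le_normalizer
    (le_top.trans_eq (Subgroup.normalizer_eq_top _).symm)
  have hLn : ∀ g ∈ A ⊔ Q, ∀ l ∈ L, g * l * g⁻¹ ∈ L := by
    have hle : A ⊔ Q ≤ Subgroup.normalizer (L : Set S) :=
      sup_le (CfsgLib.PCore.le_normalizer_commutator
          (le_top.trans_eq (Subgroup.normalizer_eq_top _).symm) Subgroup.le_normalizer)
        (hQL.trans (Subgroup.centralizer_le_normalizer _))
    exact fun g hg l hl => (Subgroup.mem_normalizer_iff.1 (hle hg) l).1 hl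
  have hcm : ∀ g, ∀ k ∈ K, g * k * g⁻¹ ∈ K := fun g k hk => (Cfsg.pCore_normal p S).conj_mem k hk g
  -- elements of `A ⊔ Q` acting trivially on `K / L`
  let T : Subgroup S :=
    { carrier := {g | g ∈ A ⊔ Q ∧ ∀ k ∈ K, g * k * g⁻¹ * k⁻¹ ∈ L}
      one_mem' := ⟨one_mem _, fun k _ => by simp⟩
      mul_mem' := by
        rintro g h ⟨hg, hg'⟩ ⟨hh, hh'⟩
        refine ⟨mul_mem hg hh, fun k hk => ?_⟩
        have : g * h * k * (g * h)⁻¹ * k⁻¹ = g * (h * k * h⁻¹ * k⁻¹) * g⁻¹ * (g * k * g⁻¹ * k⁻¹) := by group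
        rw [this]
        exact mul_mem (hLn g hg _ (hh' k hk)) (hg' k hk)
      inv_mem' := by
        rintro g ⟨hg, hg'⟩
        refine ⟨inv_mem hg, fun k hk => ?_⟩
        have : g⁻¹ * k * g⁻¹⁻¹ * k⁻¹ = g⁻¹ * ((g * k * g⁻¹ * k⁻¹)⁻¹) * g⁻¹⁻¹ := by group
        rw [this]
        exact hLn _ (inv_mem hg) _ (inv_mem (hg' k hk)) }
  have hQT : Q ≤ T := by
    rw [← hAQ, Subgroup.commutator_le]
    intro a ha b hb
    have haT : ∀ a ∈ A, a ∈ T := fun a ha => ⟨Subgroup.mem_sup_left ha, fun k hk => by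
      have : a * k * a⁻¹ * k⁻¹ = ⁅k, a⁆⁻¹ := by rw [commutatorElement_def]; group
      rw [this]
      exact inv_mem (Subgroup.commutator_mem_commutator hk ha)⟩
    rw [commutatorElement_def, mul_assoc, mul_assoc]
    refine mul_mem (haT a ha) ?_
    have hb' : b ∈ A ⊔ Q := Subgroup.mem_sup_right hb
    obtain ⟨hm, hm'⟩ := haT a⁻¹ (inv_mem ha)
    refine ⟨mul_mem hb' (mul_mem hm (inv_mem hb')), fun k hk => ?_⟩
    have : b * (a⁻¹ * b⁻¹) * k * (b * (a⁻¹ * b⁻¹))⁻¹ * k⁻¹ =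
        b * (a⁻¹ * (b⁻¹ * k * b⁻¹⁻¹) * a⁻¹⁻¹ * (b⁻¹ * k * b⁻¹⁻¹)⁻¹) * b⁻¹ := by group
    rw [this]
    exact hLn b hb' _ (hm' _ (hcm b⁻¹ k hk))
  have hcop : (Nat.card Q).Coprime (Nat.card K) := by
    obtain ⟨m, hm⟩ := IsPGroup.iff_card.1 (CfsgLib.PCore.isPGroup_pCore p S)
    rw [hK, hm]
    exact (CfsgLib.PCore.coprime_of_not_dvd hQ).pow_right m
  have hKQ : ⁅K, Q⁆ ≤ L := Subgroup.commutator_le.2 fun k hk b hb => by
    have : ⁅k, b⁆ = (b * k * b⁻¹ * k⁻¹)⁻¹ := by rw [commutatorElement_def]; group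
    rw [this]
    exact inv_mem ((hQT hb).2 k hk)
  have h1 : Q ≤ Subgroup.centralizer (K : Set S) :=
    CfsgLib.PCore.le_centralizer_of_stabilizes hcop (hKQ.trans hLK)
      (hKQ.trans fun x hx => Subgroup.mem_centralizer_iff.2 fun b hb =>
        (Subgroup.mem_centralizer_iff.1 (hQL hb) x hx).symm)
  have h2 : Q ≤ K := h1.trans (CfsgLib.PCore.hall_higman hS hred)
  rw [← inf_eq_right.2 h2]
  exact CfsgLib.PCore.inf_eq_bot_of_isPGroup_of_coprime (CfsgLib.PCore.isPGroup_pCore p S)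
    (CfsgLib.PCore.coprime_of_not_dvd hQ)

end Cfsg.Agent.S1892
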