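import Cfsg.Statements.S1894

set_option autoImplicit false
open Cfsg

namespace Cfsg.Agent.S1894

/-- Let P be a finite p-group, A a normal subgroup of P and B an abelian subgroup of A that is normal in P. Then some subgroup C of A containing B is normal in P and is self-centralizing and normal in A (C ∈ SCN(A)). -/
theorem result {P : Type*} [Group P] [Finite P] {p : ℕ} [Fact p.Prime] (hP : IsPGroup p P)
    (A : Subgroup P) [A.Normal] (B : Subgroup P) [B.Normal] (hBA : B ≤ A) (hB : IsMulCommutative B) :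
    ∃ C : Subgroup P, C.Normal ∧ B ≤ C ∧ Cfsg.IsSCN A C := by
  classical
  have : Finite (Subgroup P) := Finite.of_injective _ SetLike.coe_injective
  let S : Set (Subgroup P) := {C | C.Normal ∧ B ≤ C ∧ C ≤ A ∧ IsMulCommutative C}
  obtain ⟨C, ⟨hCn, hBC, hCA, hCc⟩, hCmax⟩ := Set.Finite.exists_maximal (Set.toFinite S) ⟨B, inferInstance, le_rfl, hBA, hB⟩
  refine ⟨C, hCn, hBC, hCA, Subgroup.normalizer_eq_top C ▸ le_top, ?_⟩
  set D := A ⊓ Subgroup.centralizer (C : Set P) with hD
  have hCD : C ≤ D := le_inf hCA (fun a ha => Subgroup.mem_centralizer_iff.mpr fun b hb =>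
    congrArg Subtype.val (hCc.is_comm.comm ⟨b, hb⟩ ⟨a, ha⟩))
  refine le_antisymm ?_ hCD
  have := hP.to_quotient C
  have hnil : Group.IsNilpotent (P ⧸ C) := IsPGroup.isNilpotent (hP.to_quotient C)
  intro d hd
  let π := QuotientGroup.mk' C
  set E := D.map π with hE
  have hEn : E.Normal := (inferInstance : D.Normal).map π (QuotientGroup.mk'_surjective C)
  suffices hEb : E = ⊥ by
    have : π d ∈ E := Subgroup.mem_map_of_mem π hd
    rw [hEb, Subgroup.mem_bot] at this
    exact (QuotientGroup.eq_one_iff d).mp this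
  by_contra hne
  obtain ⟨m, hm⟩ := hnil.nilpotent
  have hex : ∃ k, E ⊓ Subgroup.upperCentralSeries (P ⧸ C) k ≠ ⊥ := ⟨m, by rwa [hm, inf_top_eq]⟩
  obtain ⟨j, hj⟩ : ∃ j, Nat.find hex = j + 1 := Nat.exists_eq_succ_of_ne_zero (fun h0 => by
    have := Nat.find_spec hex
    rw [h0] at this
    simp at this)
  have h1 := Nat.find_spec hex
  have h2 : E ⊓ Subgroup.upperCentralSeries (P ⧸ C) j = ⊥ := by
    by_contra h
    exact Nat.find_min hex (by omega) h
  rw [hj] at h1
  obtain ⟨y, ⟨hyE, hyZ⟩, hy1⟩ := (Subgroup.bot_or_exists_ne_one _).resolve_left h1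
  have hyc : ∀ w, y * w = w * y := by
    intro w
    have h := Subgroup.mem_upperCentralSeries_succ_iff.mp hyZ w
    have hin : y * w * y⁻¹ * w⁻¹ ∈ E := by
      rw [show y * w * y⁻¹ * w⁻¹ = y * (w * y⁻¹ * w⁻¹) by group]
      exact mul_mem hyE (hEn.conj_mem _ (inv_mem hyE) w)
    have : y * w * y⁻¹ * w⁻¹ ∈ E ⊓ Subgroup.upperCentralSeries (P ⧸ C) j := ⟨hin, h⟩
    rw [h2, Subgroup.mem_bot] at this
    calc y * w = (y * w * y⁻¹ * w⁻¹) * (w * y) := by group
      _ = w * y := by rw [this, one_mul]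
  obtain ⟨x, hx, rfl⟩ := Subgroup.mem_map.mp hyE
  have hC' : (C ⊔ Subgroup.zpowers x).Normal := by
    refine ⟨fun u hu g => ?_⟩
    have hsub : π u ∈ (Subgroup.zpowers x).map π := by
      have := Subgroup.mem_map_of_mem π hu
      rw [Subgroup.map_sup] at this
      have h0 : C.map π ≤ (Subgroup.zpowers x).map π := by
        rintro _ ⟨v, hv, rfl⟩
        rw [show π v = 1 from (QuotientGroup.eq_one_iff v).mpr hv]; exact one_mem _
      exact (sup_le h0 le_rfl) this
    obtain ⟨v, hv, hvu⟩ := hsub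
    obtain ⟨i, rfl⟩ := Subgroup.mem_zpowers_iff.mp hv
    have he : π (g * u * g⁻¹) = π (x ^ i) := by
      have hcm : Commute (π x) (π g) := hyc (π g)
      rw [map_mul, map_mul, ← hvu, map_inv, map_zpow, ← (hcm.zpow_left i).eq, mul_inv_cancel_right]
    have hmem : (x ^ i)⁻¹ * (g * u * g⁻¹) ∈ C := QuotientGroup.eq.mp he.symm
    have := mul_mem (Subgroup.mem_sup_right hv : x ^ i ∈ C ⊔ Subgroup.zpowers x)
      (Subgroup.mem_sup_left hmem : (x ^ i)⁻¹ * (g * u * g⁻¹) ∈ C ⊔ Subgroup.zpowers x)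
    rwa [mul_inv_cancel_left] at this
  have hcc : IsMulCommutative ↥(C ⊔ Subgroup.zpowers x) := by
    have : IsMulCommutative ↥(Subgroup.zpowers x) := inferInstance
    have hle : ∀ K L : Subgroup P, K ≤ Subgroup.centralizer (L : Set P) → L ≤ Subgroup.centralizer (K : Set P) :=
      fun K L h => Subgroup.le_centralizer_iff.mp h
    have hxC : Subgroup.zpowers x ≤ Subgroup.centralizer (C : Set P) := Subgroup.zpowers_le.mpr hx.2
    have hCC : C ≤ Subgroup.centralizer (C : Set P) := hCD.trans inf_le_right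
    have hxx : Subgroup.zpowers x ≤ Subgroup.centralizer (Subgroup.zpowers x : Set P) := Subgroup.le_centralizer _
    have h1 : C ⊔ Subgroup.zpowers x ≤ Subgroup.centralizer (C : Set P) := sup_le hCC hxC
    have h2 : C ⊔ Subgroup.zpowers x ≤ Subgroup.centralizer (Subgroup.zpowers x : Set P) := sup_le (hle _ _ hxC) hxx
    have h3 := sup_le (hle _ _ h1) (hle _ _ h2)
    exact ⟨⟨fun a b => Subtype.ext (Subgroup.mem_centralizer_iff.mp (h3 b.2) a a.2)⟩⟩
  have := hCmax ⟨hC', hBC.trans le_sup_left, sup_le hCA (Subgroup.zpowers_le.mpr hx.1), hcc⟩ le_sup_left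
  exact hy1 ((QuotientGroup.eq_one_iff x).mpr (this (Subgroup.mem_sup_right (Subgroup.mem_zpowers x))))

end Cfsg.Agent.S1894
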