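import Cfsg.Statements.S1895
import Cfsg.Agent.RankTwoChief.Main
-- import your own Cfsg.Agent.* helpers here

set_option autoImplicit false
open Cfsg

namespace Cfsg.Agent.S1895

/-- Let p be an odd prime and G a finite p-solvable group with no elementary abelian subgroup of order p³. Then every chief factor H/K of G (H, K normal in G with no normal subgroup of G strictly between them) whose order is a power of p has order p or p². -/
theorem result {G : Type*} [Group G] [Finite G] {p : ℕ} [Fact p.Prime] (hp : p ≠ 2)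
    (hG : Cfsg.IsPSolvable p G) (hr : Cfsg.PRankLE p 2 G)
    (H K : Subgroup G) [H.Normal] [K.Normal] (hKH : K < H) (hpow : ∃ n : ℕ, K.relIndex H = p ^ n)
    (hchief : ∀ L : Subgroup G, L.Normal → K ≤ L → L ≤ H → L = K ∨ L = H) :
    K.relIndex H = p ∨ K.relIndex H = p ^ 2 := by
  have hp' : p.Prime := Fact.out
  obtain ⟨n, hn⟩ := hpow
  set N := Cfsg.pPrimeCore p G with hN
  haveI hNn : N.Normal := Subgroup.sSup_normal _ fun _ h => h.1
  have hn0 : n ≠ 0 := fun h => hKH.not_ge (Subgroup.relIndex_eq_one.1 (by rw [hn, h, pow_zero]))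
  have hHN : H ⊓ N ≤ K := by
    rcases hchief (K ⊔ (H ⊓ N)) inferInstance le_sup_left (sup_le hKH.le inf_le_left) with h | h
    · exact le_sup_right.trans h.le
    · exfalso
      have h1 : K.relIndex H ∣ Nat.card N := by
        have h2 : K.relIndex (H ⊓ N) = K.relIndex H := by
          conv_rhs => rw [← h, sup_comm, Subgroup.relIndex_sup_right]
        rw [← h2]
        exact (Subgroup.index_dvd_card _).trans (Subgroup.card_dvd_of_le inf_le_right)
      rw [hn] at h1
      have h3 := Nat.Coprime.coprime_dvd_left h1 (CfsgLib.PCore.pPrimeCore_coprime p G)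
      exact hp'.ne_one (Nat.Coprime.eq_one_of_dvd h3.symm (dvd_pow_self p hn0))
  set φ := QuotientGroup.mk' N with hφ
  have hφs : Function.Surjective φ := QuotientGroup.mk'_surjective N
  haveI : (H.map φ).Normal := Subgroup.Normal.map inferInstance φ hφs
  haveI : (K.map φ).Normal := Subgroup.Normal.map inferInstance φ hφs
  have hcard : (K.map φ).relIndex (H.map φ) = p ^ n := by
    rw [Subgroup.relIndex_map_map, QuotientGroup.ker_mk', CfsgLib.RankTwoChief.relIndex_eq_of_inf_le hKH.le hHN, hn]
  have h := CfsgLib.RankTwoChief.relIndex_chief_reduced hp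
    (CfsgLib.PCore.hall_higman (CfsgLib.PCore.isPSolvable_quotient hG N) CfsgLib.PCore.pPrimeCore_quotient)
    (CfsgLib.RankTwoChief.rank_quotient_pPrimeCore hr) (H.map φ) (K.map φ) (Subgroup.map_mono hKH.le) n hcard
    fun L hL hKL hLH => by
      haveI := hL
      rcases hchief (L.comap φ ⊓ H) inferInstance (le_inf (Subgroup.map_le_iff_le_comap.1 hKL) hKH.le) inf_le_right with h | h
      · refine Or.inl (le_antisymm (fun l hl => ?_) hKL)
        obtain ⟨x, hx, rfl⟩ := hLH hl
        exact Subgroup.mem_map_of_mem φ (h.le ⟨hl, hx⟩)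
      · exact Or.inr (le_antisymm hLH (Subgroup.map_le_iff_le_comap.2 (h.ge.trans inf_le_left)))
  interval_cases n
  · exact absurd rfl hn0
  · exact Or.inl (hn.trans (pow_one p))
  · exact Or.inr hn

end Cfsg.Agent.S1895
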