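import Cfsg.Statements.S1897
import Cfsg.Agent.H29.UThreeThree.Main
import Cfsg.Agent.H29.PSLEleven.Basic

set_option autoImplicit false
open Cfsg

namespace Cfsg.Agent.S1897

/-- The projective special unitary group PSU₃(3) (realised over the field with 9 elements) has a subgroup isomorphic to PSL₂(7). -/
theorem result {F : Type*} [Field F] [Fintype F] (hF : Fintype.card F = 9)
    {K : Type*} [Field K] [Fintype K] (hK : Fintype.card K = 7) :
    ∃ H : Subgroup (Cfsg.PSU 3 F 3), Nonempty (H ≃* Matrix.ProjectiveSpecialLinearGroup (Fin 2) K) := by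
  have : Fact (Nat.Prime 3) := ⟨Nat.prime_three⟩
  have : Fact (Nat.Prime 7) := ⟨by norm_num⟩
  have hchar : CharP F 3 := by
    obtain ⟨p, hc⟩ := CharP.exists F
    obtain ⟨n, hp, hn⟩ := FiniteField.card F p
    have h3 : p ∣ 3 ^ 2 := by
      have : (3 : ℕ) ^ 2 = p ^ (n : ℕ) := by rw [← hn, hF]; norm_num
      rw [this]; exact dvd_pow_self p n.pos.ne'
    obtain rfl := (Nat.prime_dvd_prime_iff_eq hp Nat.prime_three).mp (hp.dvd_of_dvd_pow h3)
    exact hc
  obtain ⟨i0, hi⟩ : IsSquare (-1 : F) := FiniteField.isSquare_neg_one_iff.mpr (by rw [hF]; norm_num)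
  obtain ⟨H, ⟨e⟩⟩ := CfsgLib.H29.UThreeThree.exists_subgroup i0 hi.symm
  exact ⟨H, ⟨e.trans (CfsgLib.H29.PSLEleven.pslEquivOfRingEquiv
    (ZMod.ringEquivOfPrime K (by norm_num) hK))⟩⟩

end Cfsg.Agent.S1897
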