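import Cfsg.Statements.S1898

set_option autoImplicit false
open Cfsg
open scoped commutatorElement

namespace Cfsg.Agent.S1898

/-- Let X be a finite 2-group whose derived subgroup is elementary abelian and central. Then the subgroup generated by the elements of order dividing 4 has exponent dividing 4, and every automorphism of X fixing each element of order dividing 4 has 2-power order. -/
theorem result {X : Type*} [Group X] [Finite X] (hX : IsPGroup 2 X)
    (hel : Cfsg.IsElementaryAbelian 2 (commutator X)) (hcen : commutator X ≤ Subgroup.center X) :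
    (∀ x ∈ Subgroup.closure {g : X | g ^ 4 = 1}, x ^ 4 = 1) ∧
      ∀ φ : MulAut X, (∀ g : X, g ^ 4 = 1 → φ g = g) → ∃ k : ℕ, φ ^ (2 ^ k) = 1 := by
  have hsq : ∀ c ∈ commutator X, c * c = 1 := fun c hc => by simpa [pow_two] using hel.2 c hc
  have hcomm : ∀ a b : X, ⁅a, b⁆ ∈ commutator X := fun a b =>
    Subgroup.commutator_mem_commutator (Subgroup.mem_top a) (Subgroup.mem_top b)
  have hsqc : ∀ x y : X, Commute (x * x) y := by
    intro x y
    have hc := Subgroup.mem_center_iff.mp (hcen (hcomm x y))
    have hxy : x * y = ⁅x, y⁆ * (y * x) := by rw [commutatorElement_def]; group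
    calc x * x * y = x * (x * y) := by group
      _ = x * (⁅x, y⁆ * (y * x)) := by rw [← hxy]
      _ = (x * ⁅x, y⁆) * (y * x) := by group
      _ = (⁅x, y⁆ * x) * (y * x) := by rw [hc x]
      _ = ⁅x, y⁆ * ((x * y) * x) := by group
      _ = ⁅x, y⁆ * ((⁅x, y⁆ * (y * x)) * x) := by rw [← hxy]
      _ = (⁅x, y⁆ * ⁅x, y⁆) * (y * (x * x)) := by group
      _ = y * (x * x) := by rw [hsq _ (hcomm x y), one_mul]
  have hmul : ∀ x y : X, (x * y) ^ 4 = x ^ 4 * y ^ 4 := by
    intro x y
    have hc := Subgroup.mem_center_iff.mp (hcen (hcomm y x))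
    have hd : Commute ⁅y, x⁆ ((x * x) * (y * y)) := (hc _).symm
    have hyx : y * x = ⁅y, x⁆ * (x * y) := by rw [commutatorElement_def]; group
    have h2 : (x * y) * (x * y) = ⁅y, x⁆ * ((x * x) * (y * y)) := by
      calc (x * y) * (x * y) = x * (y * x) * y := by group
        _ = x * (⁅y, x⁆ * (x * y)) * y := by rw [← hyx]
        _ = (x * ⁅y, x⁆) * (x * y * y) := by group
        _ = (⁅y, x⁆ * x) * (x * y * y) := by rw [hc x]
        _ = ⁅y, x⁆ * ((x * x) * (y * y)) := by group
    have e : ∀ u : X, u ^ 4 = (u * u) ^ 2 := fun u => by rw [← pow_two, ← pow_mul]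
    rw [e, h2, hd.mul_pow, Commute.mul_pow (hsqc x (y * y)), pow_two ⁅y, x⁆, hsq _ (hcomm y x), one_mul,
      ← e, ← e]
  refine ⟨fun x hx => ?_, fun φ hφ => ?_⟩
  · induction hx using Subgroup.closure_induction with
    | mem g hg => exact hg
    | one => simp
    | mul a b _ _ ha hb => rw [hmul, ha, hb, one_mul]
    | inv a _ ha => rw [inv_pow, ha, inv_one]
  · have key : ∀ j : ℕ, ∀ x : X, x ^ (2 ^ (j + 2)) = 1 → (φ ^ (4 ^ j)) x = x := by
      intro j
      induction j with
      | zero => intro x hx; simpa using hφ x (by simpa using hx)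
      | succ j ih =>
        intro x hx
        set ψ := φ ^ (4 ^ j) with hψ
        have hx2 : ψ (x * x) = x * x :=
          ih _ (by rw [← pow_two, ← pow_mul, ← pow_succ']; exact hx)
        set a := x⁻¹ * ψ x with ha
        have hψx : ψ x = x * a := by rw [ha]; group
        rw [map_mul, hψx] at hx2
        have h1 : a * (x * a) = x := by
          have : x * (a * (x * a)) = x * x := by rw [← hx2]; group
          exact mul_left_cancel this
        have hax : a * x = x * a⁻¹ := by
          calc a * x = (a * (x * a)) * a⁻¹ := by group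
            _ = x * a⁻¹ := by rw [h1]
        have ha2 : ⁅a, x⁆ = (a * a)⁻¹ := by
          rw [commutatorElement_def, hax]
          calc x * a⁻¹ * a⁻¹ * x⁻¹ = x * (a⁻¹ * a⁻¹) * x⁻¹ := by group
            _ = (a⁻¹ * a⁻¹) * x * x⁻¹ := by rw [(hsqc a⁻¹ x).eq]
            _ = (a * a)⁻¹ := by group
        have ha4 : a ^ 4 = 1 := by
          have := hsq _ (hcomm a x)
          rw [ha2, ← mul_inv_rev, inv_eq_one] at this
          rw [← this, show (4 : ℕ) = ((1 + 1) + 1) + 1 from rfl, pow_succ, pow_succ, pow_succ, pow_one]; group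
        have hψa : ψ a = a := ih a (by rw [pow_add, pow_mul', show (2:ℕ) ^ 2 = 4 from rfl, ha4]; simp)
        have hiter : ∀ m : ℕ, (ψ ^ m) x = x * a ^ m := by
          intro m
          induction m with
          | zero => simp
          | succ m ihm =>
            rw [pow_succ' ψ, MulAut.mul_apply, ihm, map_mul, map_pow, hψa, hψx, mul_assoc, ← pow_succ']
        rw [pow_succ, pow_mul, ← hψ, hiter, ha4, mul_one]
    obtain ⟨n, hn⟩ := IsPGroup.iff_card.mp hX
    refine ⟨2 * n, MulEquiv.ext fun x => ?_⟩
    rw [pow_mul]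
    exact key n x (by rw [pow_add, ← hn, pow_mul, pow_card_eq_one', one_pow])

end Cfsg.Agent.S1898
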