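import Cfsg.Statements.S1899

set_option autoImplicit false
open Cfsg

namespace Cfsg.Agent.S1899

/-- Let a dihedral group of order 2n, n odd and n > 1, act on a finite abelian 2-group A through automorphisms d and t with d^n = 1, t² = 1 and t d t⁻¹ = d⁻¹, and suppose that d fixes only the identity. Then A is the internal direct product of C_A(t) and its image under d. -/
theorem result {A : Type*} [CommGroup A] [Finite A] (hA : IsPGroup 2 A)
    {n : ℕ} (hn : Odd n) (hn1 : 1 < n) (d t : MulAut A) (hd : d ^ n = 1) (ht : t ^ 2 = 1) (hdt : t * d * t⁻¹ = d⁻¹)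
    (hfix : ∀ a : A, d a = a → a = 1) :
    (MulEquiv.toMonoidHom t).eqLocus (MonoidHom.id A) ⊓ ((MulEquiv.toMonoidHom t).eqLocus (MonoidHom.id A)).map d.toMonoidHom = ⊥ ∧
      (MulEquiv.toMonoidHom t).eqLocus (MonoidHom.id A) ⊔ ((MulEquiv.toMonoidHom t).eqLocus (MonoidHom.id A)).map d.toMonoidHom = ⊤ := by
  set f := (MulEquiv.toMonoidHom t) with hf
  set C := f.eqLocus (MonoidHom.id A) with hC
  have hmC : ∀ x, x ∈ C ↔ t x = x := fun x => Iff.rfl
  have hdd : ∀ x, d (d x) = x → x = 1 := by
    intro x hx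
    have h2 : (d ^ 2) x = x := by rw [pow_two]; exact hx
    have hev : ∀ m : ℕ, ((d ^ 2) ^ m) x = x := by
      intro m
      induction m with
      | zero => simp
      | succ m ih => rw [pow_succ, MulAut.mul_apply, h2, ih]
    obtain ⟨m, rfl⟩ := hn
    refine hfix x ?_
    have := hev (m + 1)
    rw [← pow_mul, show 2 * (m + 1) = (2 * m + 1) + 1 by ring, pow_succ, hd, one_mul] at this
    exact this
  have htd : ∀ x, t (d x) = d⁻¹ (t x) := by
    intro x
    have := DFunLike.congr_fun hdt (t x)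
    simpa [MulAut.mul_apply] using this
  have hdinv : ∀ x y, d⁻¹ x = y → x = d y := fun x y h => by
    rw [← h]; simp
  have hdisj : C ⊓ C.map d.toMonoidHom = ⊥ := by
    refine (Subgroup.eq_bot_iff_forall _).mpr fun y ⟨hy, hy'⟩ => ?_
    obtain ⟨x, hx, rfl⟩ := Subgroup.mem_map.mp hy'
    have hx' : t x = x := hx
    have hy1 : t (d x) = d x := hy
    rw [htd, hx'] at hy1
    have := hdd x (hdinv _ _ hy1).symm
    subst this; simp
  let φ : A →* A :=
    { toFun := fun a => a * t a
      map_one' := by simp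
      map_mul' := fun a b => by rw [map_mul]; exact mul_mul_mul_comm _ _ _ _ }
  set I := φ.ker with hI
  have hmI : ∀ x, x ∈ I ↔ t x = x⁻¹ := fun x => by
    change x * t x = 1 ↔ _
    constructor
    · exact fun h => eq_inv_of_mul_eq_one_right h
    · intro h; rw [h, mul_inv_cancel]
  have hdisjI : I ⊓ I.map d.toMonoidHom = ⊥ := by
    refine (Subgroup.eq_bot_iff_forall _).mpr fun y ⟨hy, hy'⟩ => ?_
    obtain ⟨x, hx, rfl⟩ := Subgroup.mem_map.mp hy'
    have hx' := (hmI x).mp hx
    have hy1 : t (d x) = (d x)⁻¹ := (hmI _).mp hy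
    rw [htd, hx', map_inv, inv_inj] at hy1
    have := hdd x (hdinv _ _ hy1).symm
    subst this; simp
  have hrange : φ.range ≤ C := by
    rintro _ ⟨a, rfl⟩
    refine (hmC _).mpr ?_
    change t (a * t a) = a * t a
    have htt : t (t a) = a := by
      have := DFunLike.congr_fun ht a
      rwa [pow_two] at this
    rw [map_mul, htt, mul_comm]
  have hinj : ∀ K L : Subgroup A, K ⊓ L = ⊥ → Nat.card K * Nat.card L ≤ Nat.card ↥(K ⊔ L) := by
    intro K L h
    rw [← Nat.card_prod]
    refine Nat.card_le_card_of_injective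
      (fun q : K × L => (⟨q.1 * q.2, Subgroup.mul_mem_sup q.1.2 q.2.2⟩ : ↥(K ⊔ L))) ?_
    intro a b hab
    exact Subgroup.mul_injective_of_disjoint (disjoint_iff.mpr h) (congrArg Subtype.val hab)
  have hcmap : ∀ K : Subgroup A, Nat.card ↥(K.map d.toMonoidHom) = Nat.card K := fun K =>
    Subgroup.card_map_of_injective d.injective
  refine ⟨hdisj, Subgroup.eq_top_of_le_card _ ?_⟩
  refine le_trans ?_ (hinj _ _ hdisj)
  rw [hcmap]
  have h1 : Nat.card A ≤ Nat.card C * Nat.card I := by
    rw [← I.card_mul_index, hI, Subgroup.index_ker, mul_comm]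
    exact Nat.mul_le_mul_right _ (Subgroup.card_le_of_le hrange)
  have h2 : Nat.card I * Nat.card I ≤ Nat.card A := by
    have := (hinj _ _ hdisjI).trans (Subgroup.card_le_card_group _)
    rwa [hcmap] at this
  have hpos : 0 < Nat.card A := Nat.card_pos
  refine Nat.le_of_mul_le_mul_right (le_trans ?_ (Nat.mul_le_mul_left (Nat.card C * Nat.card C) h2)) hpos
  calc Nat.card A * Nat.card A ≤ (Nat.card C * Nat.card I) * (Nat.card C * Nat.card I) := Nat.mul_le_mul h1 h1
    _ = _ := mul_mul_mul_comm _ _ _ _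

end Cfsg.Agent.S1899
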