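import Cfsg.Statements.S1900
import Cfsg.Agent.CoprimeAction.Hyperplane
import Cfsg.Agent.CoprimeAction.Factorization
import Mathlib.Tactic

set_option autoImplicit false
open Cfsg
open scoped commutatorElement

namespace Cfsg.Agent.S1900

/-- Let S = PQ be a finite group with P a normal Sylow p-subgroup and Q elementary abelian of order q², q a prime different from p. If exactly two subgroups X₁, X₂ of order q in Q have a nontrivial centralizer in P, then P is the internal direct product of C_P(X₁) and C_P(X₂): they commute elementwise, meet trivially and generate P. -/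
theorem result {S : Type*} [Group S] [Finite S] {p q : ℕ} [Fact p.Prime] [Fact q.Prime] (hpq : p ≠ q)
    (P : Sylow p S) [(P : Subgroup S).Normal] (Q : Subgroup S) (hQ : Cfsg.IsElementaryAbelian q Q) (hQc : Nat.card Q = q ^ 2)
    (hS : (P : Subgroup S) ⊔ Q = ⊤)
    (X₁ X₂ : Subgroup S) (h₁ : X₁ ≤ Q) (h₂ : X₂ ≤ Q) (h₁₂ : X₁ ≠ X₂) (hc₁ : Nat.card X₁ = q) (hc₂ : Nat.card X₂ = q)
    (hf₁ : (P : Subgroup S) ⊓ Subgroup.centralizer (X₁ : Set S) ≠ ⊥)
    (hf₂ : (P : Subgroup S) ⊓ Subgroup.centralizer (X₂ : Set S) ≠ ⊥)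
    (honly : ∀ X : Subgroup S, X ≤ Q → Nat.card X = q →
      (P : Subgroup S) ⊓ Subgroup.centralizer (X : Set S) ≠ ⊥ → X = X₁ ∨ X = X₂) :
    ⁅(P : Subgroup S) ⊓ Subgroup.centralizer (X₁ : Set S), (P : Subgroup S) ⊓ Subgroup.centralizer (X₂ : Set S)⁆ = ⊥ ∧
      ((P : Subgroup S) ⊓ Subgroup.centralizer (X₁ : Set S)) ⊓ ((P : Subgroup S) ⊓ Subgroup.centralizer (X₂ : Set S)) = ⊥ ∧
      ((P : Subgroup S) ⊓ Subgroup.centralizer (X₁ : Set S)) ⊔ ((P : Subgroup S) ⊓ Subgroup.centralizer (X₂ : Set S)) = P := by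
  haveI : IsMulCommutative ↥Q := hQ.1
  have hqp : q.Prime := Fact.out
  have hQexp : ∀ x ∈ Q, x ^ q = 1 := hQ.2
  have hQcop : (Nat.card Q).Coprime (Nat.card (P : Subgroup S)) := by
    obtain ⟨k, hk⟩ := P.isPGroup'.exists_card_eq
    rw [hQc, hk]
    exact Nat.coprime_pow_primes _ _ hqp Fact.out (Ne.symm hpq)
  have hQ1 : Q ≠ ⊥ := fun e => by
    rw [e, Subgroup.card_bot] at hQc
    nlinarith [hqp.two_le]
  have hXQ : ∀ {X : Subgroup S}, X ≤ Q → X ≤ Subgroup.centralizer (Q : Set S) := fun hX a ha =>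
    Subgroup.mem_centralizer_iff.2 fun b hb => congrArg Subtype.val (mul_comm' (⟨b, hb⟩ : Q) ⟨a, hX ha⟩)
  -- the fixed points of `Q`
  have hsup : X₁ ⊔ X₂ = Q := by
    refine le_antisymm (sup_le h₁ h₂) fun x hx => ?_
    have h3 : Nat.card ↥(X₁ ⊔ X₂) ∣ q ^ 2 := hQc ▸ Subgroup.card_dvd_of_le (sup_le h₁ h₂)
    obtain ⟨k, hk, hk'⟩ := (Nat.dvd_prime_pow hqp).1 h3
    have hk2 : 2 ≤ k := by
      by_contra hlt
      have h4 : Nat.card ↥(X₁ ⊔ X₂) ≤ q := hk'.trans_le ((Nat.pow_le_pow_right hqp.pos (by omega : k ≤ 1)).trans (pow_one q).le)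
      exact h₁₂ ((Subgroup.eq_of_le_of_card_ge le_sup_left (hc₁ ▸ h4)).trans
        (Subgroup.eq_of_le_of_card_ge le_sup_right (hc₂ ▸ h4)).symm)
    rw [Subgroup.eq_of_le_of_card_ge (sup_le h₁ h₂) (by rw [hk', hQc]; exact Nat.pow_le_pow_right hqp.pos hk2)]
    exact hx
  have hCQ : (P : Subgroup S) ⊓ Subgroup.centralizer (Q : Set S) = ⊥ := by
    -- a third subgroup of order `q`
    obtain ⟨a, ha, ha1, hane⟩ : ∃ a ∈ Q, a ∉ X₁ ∧ a ∉ X₂ := by
      by_contra hcon
      push Not at hcon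
      have : Q ≤ X₁ ∨ Q ≤ X₂ := by
        by_contra hor
        push Not at hor
        obtain ⟨a, ha, ha1⟩ := SetLike.not_le_iff_exists.1 hor.1
        obtain ⟨b, hb, hb2⟩ := SetLike.not_le_iff_exists.1 hor.2
        have ha2 := hcon a ha ha1
        have hb1 : b ∈ X₁ := by
          by_contra h
          exact hb2 (hcon b hb h)
        have hab1 : a * b ∉ X₁ := fun h => ha1 (by simpa using X₁.mul_mem h (X₁.inv_mem hb1))
        exact hb2 (by simpa using X₂.mul_mem (X₂.inv_mem ha2) (hcon _ (Q.mul_mem ha hb) hab1))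
      have hq2 := hqp.two_le
      rcases this with h | h
      · have := Subgroup.card_le_of_le h
        rw [hQc, hc₁] at this
        nlinarith
      · have := Subgroup.card_le_of_le h
        rw [hQc, hc₂] at this
        nlinarith
    have hcard : Nat.card (Subgroup.zpowers a) = q := by
      rw [Nat.card_zpowers]
      exact orderOf_eq_prime (hQexp a ha) fun h => ha1 (h ▸ X₁.one_mem)
    by_contra hne
    rcases honly _ (Subgroup.zpowers_le.2 ha) hcard (fun e => hne (le_bot_iff.1 (e ▸ le_inf inf_le_left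
        (inf_le_right.trans (Subgroup.centralizer_le (Subgroup.zpowers_le.2 ha)))))) with h | h
    · exact ha1 (h ▸ Subgroup.mem_zpowers a)
    · exact hane (h ▸ Subgroup.mem_zpowers a)
  set C₁ := (P : Subgroup S) ⊓ Subgroup.centralizer (X₁ : Set S) with hC₁
  set C₂ := (P : Subgroup S) ⊓ Subgroup.centralizer (X₂ : Set S) with hC₂
  have hC12 : C₁ ⊓ C₂ = ⊥ := by
    rw [eq_bot_iff, ← hCQ]
    rintro y ⟨⟨hyP, hy1⟩, -, hy2⟩
    refine ⟨hyP, Subgroup.mem_centralizer_iff.2 fun a ha => ?_⟩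
    have h : Q ≤ Subgroup.centralizer ({y} : Set S) := by
      rw [← hsup]
      exact sup_le (fun b hb => Subgroup.mem_centralizer_singleton_iff.2 (Subgroup.mem_centralizer_iff.1 hy1 b hb))
        fun b hb => Subgroup.mem_centralizer_singleton_iff.2 (Subgroup.mem_centralizer_iff.1 hy2 b hb)
    exact Subgroup.mem_centralizer_singleton_iff.1 (h ha)
  -- generation
  have hgen : ∀ N : Subgroup S, N.Normal → N ≤ (P : Subgroup S) → N ≤ (N ⊓ C₁) ⊔ (N ⊓ C₂) := by
    intro N hN hNP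
    refine CfsgLib.CoprimeAction.le_of_hyperplane_centralizers_le hQ1 hQexp (Subgroup.le_normalizer_of_normal)
      (hQcop.coprime_dvd_right (Subgroup.card_dvd_of_le hNP)) fun B hBQ hB => ?_
    have hBc : Nat.card B = q := by
      have h := Subgroup.relIndex_mul_relIndex ⊥ B Q bot_le hBQ
      rw [Subgroup.relIndex_bot_left, Subgroup.relIndex_bot_left, hB, hQc, pow_two] at h
      exact Nat.eq_of_mul_eq_mul_right hqp.pos h
    by_cases hne : (P : Subgroup S) ⊓ Subgroup.centralizer (B : Set S) = ⊥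
    · exact ((le_inf (inf_le_left.trans hNP) inf_le_right).trans hne.le).trans bot_le
    rcases honly B hBQ hBc hne with rfl | rfl
    · exact le_sup_of_le_left (le_inf inf_le_left (inf_le_inf_right _ hNP))
    · exact le_sup_of_le_right (le_inf inf_le_left (inf_le_inf_right _ hNP))
  haveI : Group.IsNilpotent ↥(P : Subgroup S) := P.isPGroup'.isNilpotent
  have hcomm : ∀ i, ⁅C₁, C₂⁆ ≤ CfsgLib.Factorization.lcs (P : Subgroup S) i := by
    intro i
    induction i with
    | zero => exact Subgroup.commutator_le.2 fun a ha b hb => mul_mem (mul_mem (mul_mem ha.1 hb.1) (inv_mem ha.1)) (inv_mem hb.1)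
    | succ i ih =>
      set N := CfsgLib.Factorization.lcs (P : Subgroup S) i with hN
      set M := CfsgLib.Factorization.lcs (P : Subgroup S) (i + 1) with hM
      haveI hNn : N.Normal := Subgroup.normalizer_eq_top_iff.1 (top_le_iff.1
        (CfsgLib.Factorization.le_normalizer_lcs Subgroup.le_normalizer_of_normal i))
      haveI hMn : M.Normal := Subgroup.normalizer_eq_top_iff.1 (top_le_iff.1
        (CfsgLib.Factorization.le_normalizer_lcs Subgroup.le_normalizer_of_normal (i + 1)))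
      have hNP : N ≤ (P : Subgroup S) := CfsgLib.Factorization.lcs_le _ i
      set π := QuotientGroup.mk' M with hπ
      have hcen : ∀ n ∈ N, ∀ g ∈ (P : Subgroup S), Commute (π n) (π g) := fun n hn g hg => by
        rw [← commutatorElement_eq_one_iff_commute, ← map_commutatorElement]
        exact (QuotientGroup.eq_one_iff _).2 (Subgroup.commutator_mem_commutator hn hg)
      -- the two half-steps
      have key : ∀ (X : Subgroup S) (A B : Subgroup S), X ≤ Q → A ≤ (P : Subgroup S) ⊓ Subgroup.centralizer (X : Set S) →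
          B ≤ (P : Subgroup S) → Q ≤ Subgroup.normalizer (B : Set S) → B ⊓ Subgroup.centralizer (X : Set S) = ⊥ →
          (∀ a ∈ A, ∀ b ∈ B, ⁅a, b⁆ ∈ N) → ∀ (D E : Subgroup S), D ≤ Subgroup.centralizer (X : Set S) →
          E ≤ N → D ≤ N → Q ≤ Subgroup.normalizer (E : Set S) → N ≤ D ⊔ E →
          ∀ a ∈ A, ∀ b ∈ B, π ⁅a, b⁆ ∈ E.map π := by
        intro X A B hXQ' hA hB hQB hBX hAB D E hD hEN hDN hQE hgenN a ha b hb
        have hBgen : ⁅B, X⁆ = B := by
          have h := CfsgLib.CoprimeAction.commutator_sup_centralizer (hXQ'.trans hQB)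
            ((hQcop.coprime_dvd_left (Subgroup.card_dvd_of_le hXQ')).coprime_dvd_right (Subgroup.card_dvd_of_le hB))
            (Or.inl (Group.isSolvable_of_comm fun x y => Subtype.ext ((Subtype.ext_iff).1 (mul_comm' (⟨x, hXQ' x.2⟩ : Q) ⟨y, hXQ' y.2⟩) : (x : S) * y = y * x)))
          rwa [hBX, sup_bot_eq] at h
        -- `n ↦ [x, n]`
        have hx : ∀ x ∈ X, ∀ n ∈ N, π ⁅x, n⁆ ∈ E.map π := by
          intro x hx n hn
          have h1 := hgenN hn
          rw [← Subgroup.closure_eq D, ← Subgroup.closure_eq E, ← Subgroup.closure_union] at h1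
          refine And.right (a := n ∈ N) (Subgroup.closure_induction (p := fun n _ => n ∈ N ∧ π ⁅x, n⁆ ∈ E.map π)
            ?_ ?_ ?_ ?_ h1)
          · rintro y (hy | hy)
            · refine ⟨hDN hy, ?_⟩
              rw [commutatorElement_eq_one_iff_commute.2 (Subgroup.mem_centralizer_iff.1 (hD hy) x hx), map_one]
              exact one_mem _
            · refine ⟨hEN hy, ⟨⁅x, y⁆, mul_mem ?_ (inv_mem hy), rfl⟩⟩
              exact (Subgroup.mem_normalizer_iff.1 (hQE (hXQ' hx)) y).1 hy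
          · exact ⟨N.one_mem, by simp⟩
          · intro y z _ _ hy hz
            refine ⟨N.mul_mem hy.1 hz.1, ?_⟩
            have h2 : ⁅x, z⁆ ∈ N := Subgroup.mul_mem _ (hNn.conj_mem z hz.1 x) (N.inv_mem hz.1)
            have h3 : π ⁅x, y * z⁆ = π ⁅x, y⁆ * π ⁅x, z⁆ := by
              rw [show ⁅x, y * z⁆ = ⁅x, y⁆ * (y * ⁅x, z⁆ * y⁻¹) by simp only [commutatorElement_def]; group]
              simp only [map_mul, map_inv]
              rw [← (hcen _ h2 y (hNP hy.1)).eq, mul_inv_cancel_right]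
            rw [h3]
            exact mul_mem hy.2 hz.2
          · intro y _ hy
            refine ⟨N.inv_mem hy.1, ?_⟩
            have h2 : ⁅x, y⁆ ∈ N := Subgroup.mul_mem _ (hNn.conj_mem y hy.1 x) (N.inv_mem hy.1)
            rw [show ⁅x, y⁻¹⁆ = y⁻¹ * ⁅x, y⁆⁻¹ * y by simp only [commutatorElement_def]; group]
            simp only [map_mul, map_inv]
            rw [mul_assoc, ((hcen _ h2 y (hNP hy.1)).inv_left).eq, inv_mul_cancel_left]
            exact inv_mem hy.2
        have h1 : b ∈ ⁅B, X⁆ := hBgen.ge hb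
        rw [Subgroup.commutator_def] at h1
        refine And.right (a := b ∈ B) (Subgroup.closure_induction (p := fun b _ => b ∈ B ∧ π ⁅a, b⁆ ∈ E.map π)
          ?_ ?_ ?_ ?_ h1)
        · rintro _ ⟨b, hb, x, hx', rfl⟩
          have hb' : x * b⁻¹ * x⁻¹ ∈ B := (Subgroup.mem_normalizer_iff.1 (hQB (hXQ' hx')) b⁻¹).1 (B.inv_mem hb)
          refine ⟨by rw [commutatorElement_def, show b * x * b⁻¹ * x⁻¹ = b * (x * b⁻¹ * x⁻¹) by group]; exact B.mul_mem hb hb', ?_⟩
          have hax : x * a * x⁻¹ = a := mul_inv_eq_iff_eq_mul.2 (Subgroup.mem_centralizer_iff.1 (hA ha).2 x hx')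
          have e1 : ⁅a, ⁅b, x⁆⁆ = ⁅a, b⁆ * (b * (x * ⁅a, b⁻¹⁆ * x⁻¹) * b⁻¹) := by
            calc ⁅a, ⁅b, x⁆⁆ = ⁅a, b * (x * b⁻¹ * x⁻¹)⁆ := by simp only [commutatorElement_def]; group
              _ = ⁅a, b⁆ * (b * ⁅a, x * b⁻¹ * x⁻¹⁆ * b⁻¹) := by simp only [commutatorElement_def]; group
              _ = ⁅a, b⁆ * (b * ⁅x * a * x⁻¹, x * b⁻¹ * x⁻¹⁆ * b⁻¹) := by rw [hax]
              _ = _ := by simp only [commutatorElement_def]; group
          have hn : ⁅a, b⁻¹⁆ ∈ N := hAB a ha _ (B.inv_mem hb)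
          have hxn : x * ⁅a, b⁻¹⁆ * x⁻¹ ∈ N := hNn.conj_mem _ hn x
          have h0 : π ⁅a, b⁆ * π ⁅a, b⁻¹⁆ = 1 := by
            have h4 : π (b * ⁅a, b⁻¹⁆ * b⁻¹) = π ⁅a, b⁻¹⁆ := by
              simp only [map_mul, map_inv]
              rw [← (hcen _ hn b (hB hb)).eq, mul_inv_cancel_right]
            rw [← h4, ← map_mul, show ⁅a, b⁆ * (b * ⁅a, b⁻¹⁆ * b⁻¹) = 1 by simp only [commutatorElement_def]; group,
              map_one]
          rw [e1, map_mul, show π (b * (x * ⁅a, b⁻¹⁆ * x⁻¹) * b⁻¹) = π (x * ⁅a, b⁻¹⁆ * x⁻¹) by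
            simp only [map_mul, map_inv]
            rw [← map_inv π x, ← map_mul, ← map_mul, ← (hcen _ hxn b (hB hb)).eq, mul_inv_cancel_right]]
          rw [eq_inv_of_mul_eq_one_left h0, ← map_inv, ← map_mul]
          have h5 : π (⁅a, b⁻¹⁆⁻¹ * (x * ⁅a, b⁻¹⁆ * x⁻¹)) = π ⁅x, ⁅a, b⁻¹⁆⁆ := by
            rw [show ⁅x, ⁅a, b⁻¹⁆⁆ = x * ⁅a, b⁻¹⁆ * x⁻¹ * ⁅a, b⁻¹⁆⁻¹ from commutatorElement_def _ _, map_mul, map_mul]
            exact ((hcen _ (N.inv_mem hn) _ (hNP hxn))).eq
          rw [h5]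
          exact hx x hx' _ hn
        · exact ⟨B.one_mem, by simp⟩
        · intro y z _ _ hy hz
          refine ⟨B.mul_mem hy.1 hz.1, ?_⟩
          rw [show ⁅a, y * z⁆ = ⁅a, y⁆ * (y * ⁅a, z⁆ * y⁻¹) by simp only [commutatorElement_def]; group]
          simp only [map_mul, map_inv]
          rw [← (hcen _ (hAB a ha z hz.1) y (hB hy.1)).eq, mul_inv_cancel_right]
          exact mul_mem hy.2 hz.2
        · intro y _ hy
          refine ⟨B.inv_mem hy.1, ?_⟩
          rw [show ⁅a, y⁻¹⁆ = y⁻¹ * ⁅a, y⁆⁻¹ * y by simp only [commutatorElement_def]; group]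
          simp only [map_mul, map_inv]
          rw [mul_assoc, ((hcen _ (hAB a ha y hy.1) y (hB hy.1)).inv_left).eq, inv_mul_cancel_left]
          exact inv_mem hy.2
      have hQn : ∀ {X : Subgroup S}, X ≤ Q → Q ≤ Subgroup.normalizer ((P : Subgroup S) ⊓ Subgroup.centralizer (X : Set S) : Subgroup S) :=
        fun {X} hX a ha => Subgroup.mem_normalizer_fintype fun y hy => ⟨(inferInstance : (P : Subgroup S).Normal).conj_mem y hy.1 a,
          Subgroup.mem_centralizer_iff.2 fun x hx => by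
            have hxa : Commute x a := (Subgroup.mem_centralizer_iff.1 (hXQ hX hx) a ha).symm
            have hxy : Commute x y := Subgroup.mem_centralizer_iff.1 hy.2 x hx
            exact ((hxa.mul_right hxy).mul_right hxa.inv_right).eq⟩
      have hQn' : ∀ {X : Subgroup S}, X ≤ Q → Q ≤ Subgroup.normalizer (N ⊓ ((P : Subgroup S) ⊓ Subgroup.centralizer (X : Set S)) : Subgroup S) :=
        fun {X} hX a ha => Subgroup.mem_normalizer_fintype fun y hy =>
          ⟨hNn.conj_mem y hy.1 a, (Subgroup.mem_normalizer_iff.1 (hQn hX ha) y).1 hy.2⟩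
      have hgenN := hgen N hNn hNP
      rw [Subgroup.commutator_le]
      intro a ha b hb
      have hab : ∀ a ∈ C₁, ∀ b ∈ C₂, ⁅a, b⁆ ∈ N := fun a ha b hb => ih (Subgroup.commutator_mem_commutator ha hb)
      have hba : ∀ b ∈ C₂, ∀ a ∈ C₁, ⁅b, a⁆ ∈ N := fun b hb a ha => by
        rw [← commutatorElement_inv]
        exact N.inv_mem (hab a ha b hb)
      have hB2 : C₂ ⊓ Subgroup.centralizer (X₁ : Set S) = ⊥ := by
        rw [eq_bot_iff, ← hC12]
        exact fun y hy => ⟨⟨hy.1.1, hy.2⟩, hy.1⟩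
      have hB1 : C₁ ⊓ Subgroup.centralizer (X₂ : Set S) = ⊥ := by
        rw [eq_bot_iff, ← hC12]
        exact fun y hy => ⟨hy.1, hy.1.1, hy.2⟩
      obtain ⟨n₂, hn₂, e₂⟩ := key X₁ C₁ C₂ h₁ le_rfl inf_le_left (hQn h₂) hB2 hab (N ⊓ C₁) (N ⊓ C₂)
        (inf_le_right.trans inf_le_right) inf_le_left inf_le_left (hQn' h₂) hgenN a ha b hb
      obtain ⟨n₁, hn₁, e₁⟩ := key X₂ C₂ C₁ h₂ le_rfl inf_le_left (hQn h₁) hB1 hba (N ⊓ C₂) (N ⊓ C₁)
        (inf_le_right.trans inf_le_right) inf_le_left inf_le_left (hQn' h₁) (hgenN.trans (le_of_eq (sup_comm _ _))) b hb a ha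
      have e3 : π n₁⁻¹ = π n₂ := by rw [map_inv, e₁, e₂, ← map_inv, commutatorElement_inv]
      have hfix : ∀ g ∈ Q, g * n₂ * g⁻¹ * n₂⁻¹ ∈ M := by
        intro g hg
        rw [← hsup] at hg
        have h4 : Q ⊓ (X₁ ⊔ X₂) ≤ (Subgroup.centralizer ({π n₂} : Set (S ⧸ M))).comap π := inf_le_right.trans (sup_le (fun x hx => by
            refine Subgroup.mem_centralizer_singleton_iff.2 ?_
            rw [← e3, ← map_mul, ← map_mul, (Subgroup.mem_centralizer_iff.1 (inv_mem hn₁.2.2) x hx)])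
          fun x hx => by
            refine Subgroup.mem_centralizer_singleton_iff.2 ?_
            rw [← map_mul, ← map_mul, (Subgroup.mem_centralizer_iff.1 hn₂.2.2 x hx)])
        have h5 := Subgroup.mem_centralizer_singleton_iff.1 (h4 ⟨hsup.le hg, hg⟩)
        refine (QuotientGroup.eq_one_iff _).1 ?_
        show π _ = 1
        simp only [map_mul, map_inv]
        rw [h5]
        group
      obtain ⟨m, hm, hmc⟩ := CfsgLib.CoprimeAction.exists_mem_centralizer (Subgroup.le_normalizer_of_normal)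
        (hQcop.coprime_dvd_right (Subgroup.card_dvd_of_le (CfsgLib.Factorization.lcs_le _ (i + 1))))
        (Or.inl (Group.isSolvable_of_comm mul_comm')) hfix
      have h6 : m * n₂ = 1 := Subgroup.mem_bot.1 (hCQ ▸ ⟨mul_mem (CfsgLib.Factorization.lcs_le _ (i + 1) hm) hn₂.2.1, hmc⟩)
      refine (QuotientGroup.eq_one_iff _).1 ?_
      show π ⁅a, b⁆ = 1
      rw [← e₂, eq_inv_of_mul_eq_one_right h6]
      exact (QuotientGroup.eq_one_iff _).2 (M.inv_mem hm)
  obtain ⟨n, hn⟩ := CfsgLib.Factorization.exists_lcs_eq_bot (P : Subgroup S)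
  exact ⟨le_bot_iff.1 (hn ▸ hcomm n), hC12, le_antisymm (sup_le inf_le_left inf_le_left)
    ((hgen (P : Subgroup S) inferInstance le_rfl).trans (sup_le_sup inf_le_right inf_le_right))⟩

end Cfsg.Agent.S1900
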