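import Cfsg.Statements.S1901
import Cfsg.Agent.PCore.PSolvable
import Mathlib.Tactic

set_option autoImplicit false
open Cfsg
open scoped commutatorElement

namespace Cfsg.Agent.S1901

theorem aux.{u} {p : ℕ} [Fact p.Prime] : ∀ (n : ℕ) (G : Type u) [Group G] [Finite G], Nat.card G = n →
    Cfsg.IsPSolvable p G → ∀ (Q : Subgroup G), ¬ p ∣ Nat.card Q → ∀ (P : Sylow p G),
      Q ≤ Subgroup.normalizer ((P : Subgroup G) : Set G) → ∀ x ∈ Subgroup.normalizer (Q : Set G),
        ∀ k : ℕ, x ^ p ^ k = 1 → ∀ q ∈ Q, x * q * x⁻¹ = q := by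
  intro n
  induction n using Nat.strong_induction_on with
  | _ n ih =>
  intro G _ _ hn hG Q hQ P hQP x hx k hxk q hq
  rcases subsingleton_or_nontrivial G with hs | hs
  · exact Subsingleton.elim _ _
  set d := x * q * x⁻¹ * q⁻¹ with hd
  have hdQ : d ∈ Q := Q.mul_mem ((Subgroup.mem_normalizer_iff.1 hx q).1 hq) (Q.inv_mem hq)
  suffices h : d = 1 from mul_inv_eq_one.1 h
  have hquot : ∀ M : Subgroup G, M.Normal → M ≠ ⊥ → d ∈ M := by
    intro M _ hM
    have hlt : Nat.card (G ⧸ M) < n := by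
      rw [← hn, Subgroup.card_eq_card_quotient_mul_card_subgroup M]
      exact lt_mul_of_one_lt_right Nat.card_pos ((Subgroup.one_lt_card_iff_ne_bot M).2 hM)
    let π := QuotientGroup.mk' M
    have h1 := ih _ hlt (G ⧸ M) rfl (CfsgLib.PCore.isPSolvable_quotient hG M) (Q.map π)
      (fun h => hQ (h.trans (Q.card_map_dvd π)))
      (P.mapSurjective (QuotientGroup.mk'_surjective M))
      (by
        rintro _ ⟨a, ha, rfl⟩
        exact Subgroup.le_normalizer_map π ⟨a, hQP ha, rfl⟩)
      (π x) (Subgroup.le_normalizer_map π ⟨x, hx, rfl⟩) k (by rw [← map_pow, hxk, map_one]) (π q) ⟨q, hq, rfl⟩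
    rw [← QuotientGroup.eq_one_iff, hd]
    show π (x * q * x⁻¹ * q⁻¹) = 1
    rw [map_mul, map_mul, map_mul, map_inv, map_inv, h1, mul_inv_cancel]
  rcases (CfsgLib.PCore.cores_ne_bot hG).symm with hR | hO
  · haveI := Cfsg.pPrimeCore_normal p G
    have hdR := hquot _ inferInstance hR
    -- `x` centralizes `Q ⊓ R`
    set D := Q ⊓ Cfsg.pPrimeCore p G with hD
    have hPD : (P : Subgroup G) ≤ Subgroup.centralizer (D : Set G) := fun a ha =>
      Subgroup.mem_centralizer_iff.2 fun b hb => by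
        have h2 : b * a * b⁻¹ * a⁻¹ ∈ (P : Subgroup G) ⊓ Cfsg.pPrimeCore p G := by
          refine ⟨(P : Subgroup G).mul_mem ((Subgroup.mem_normalizer_iff.1 (hQP hb.1) a).1 ha)
            ((P : Subgroup G).inv_mem ha), ?_⟩
          rw [mul_assoc, mul_assoc, ← mul_assoc a]
          exact (Cfsg.pPrimeCore p G).mul_mem hb.2
            (Subgroup.Normal.conj_mem inferInstance _ ((Cfsg.pPrimeCore p G).inv_mem hb.2) a)
        rw [CfsgLib.PCore.inf_eq_bot_of_isPGroup_of_coprime P.isPGroup' (CfsgLib.PCore.pPrimeCore_coprime p G),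
          Subgroup.mem_bot, mul_inv_eq_one, mul_inv_eq_iff_eq_mul] at h2
        exact h2
    have hxD : x ∈ Subgroup.normalizer (D : Set G) := Subgroup.mem_normalizer_fintype fun b hb =>
      ⟨(Subgroup.mem_normalizer_iff.1 hx b).1 hb.1, Subgroup.Normal.conj_mem inferInstance b hb.2 x⟩
    have hxc : x ∈ Subgroup.centralizer (D : Set G) := by
      set N := Subgroup.normalizer (D : Set G) with hN
      set C := (Subgroup.centralizer (D : Set G)).subgroupOf N with hC
      haveI : C.Normal := by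
        refine ⟨fun z hz w => Subgroup.mem_subgroupOf.2 (Subgroup.mem_centralizer_iff.2 fun b hb => ?_)⟩
        have hb' : (w : G)⁻¹ * b * w ∈ D := by
          simpa using (Subgroup.mem_normalizer_iff.1 (inv_mem w.2) b).1 hb
        have h3 := Subgroup.mem_centralizer_iff.1 (Subgroup.mem_subgroupOf.1 hz) _ hb'
        show b * ((w : G) * z * (w : G)⁻¹) = (w : G) * z * (w : G)⁻¹ * b
        calc b * ((w : G) * z * (w : G)⁻¹) = w * ((w : G)⁻¹ * b * w * z) * (w : G)⁻¹ := by group
          _ = w * (z * ((w : G)⁻¹ * b * w)) * (w : G)⁻¹ := by rw [h3]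
          _ = (w : G) * z * (w : G)⁻¹ * b := by group
      have hco : ¬ p ∣ C.index := fun h => P.not_dvd_index (h.trans
        ((Subgroup.relIndex_dvd_of_le_left N hPD).trans
          (Subgroup.relIndex_dvd_index_of_le (hPD.trans (Subgroup.centralizer_le_normalizer _)))))
      have h4 : orderOf (QuotientGroup.mk ⟨x, hxD⟩ : ↥N ⧸ C) ∣ p ^ k := orderOf_dvd_of_pow_eq_one (by
        rw [← QuotientGroup.mk_pow, show (⟨x, hxD⟩ : ↥N) ^ p ^ k = 1 from Subtype.ext hxk]
        rfl)
      have h5 : orderOf (QuotientGroup.mk ⟨x, hxD⟩ : ↥N ⧸ C) ∣ C.index := orderOf_dvd_natCard _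
      have h6 := Nat.eq_one_of_dvd_coprimes
        (((Fact.out : p.Prime).coprime_iff_not_dvd.2 hco).pow_left k) h4 h5
      exact Subgroup.mem_subgroupOf.1 ((QuotientGroup.eq_one_iff _).1 (orderOf_eq_one_iff.1 h6))
    have hxd : x * d * x⁻¹ = d := by
      rw [← Subgroup.mem_centralizer_iff.1 hxc d ⟨hdQ, hdR⟩, mul_inv_cancel_right]
    have hj : ∀ j : ℕ, x ^ j * q * (x ^ j)⁻¹ = d ^ j * q := by
      intro j
      induction j with
      | zero => group
      | succ j ih =>
        have hc : Commute x d := mul_inv_eq_iff_eq_mul.1 hxd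
        calc x ^ (j + 1) * q * (x ^ (j + 1))⁻¹ = x * (x ^ j * q * (x ^ j)⁻¹) * x⁻¹ := by rw [pow_succ']; group
          _ = x * d ^ j * q * x⁻¹ := by rw [ih]; group
          _ = d ^ j * (x * q * x⁻¹) := by rw [(hc.pow_right j).eq]; group
          _ = d ^ (j + 1) * q := by rw [show x * q * x⁻¹ = d * q by rw [hd]; group, pow_succ]; group
    have h7 := hj (p ^ k)
    rw [hxk] at h7
    have h8 : d ^ p ^ k = 1 := by simpa using h7.symm
    have h9 : orderOf d ∣ Nat.card Q := by
      rw [← Subgroup.orderOf_mk d hdQ]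
      exact orderOf_dvd_natCard _
    exact orderOf_eq_one_iff.1 (Nat.eq_one_of_dvd_coprimes
      (((Fact.out : p.Prime).coprime_iff_not_dvd.2 hQ).pow_left k) (orderOf_dvd_of_pow_eq_one h8) h9)
  · haveI := Cfsg.pCore_normal p G
    have hdO := hquot _ inferInstance hO
    obtain ⟨j, hj⟩ := CfsgLib.PCore.isPGroup_pCore p G ⟨d, hdO⟩
    have h8 : d ^ p ^ j = 1 := congrArg Subtype.val hj
    have h9 : orderOf d ∣ Nat.card Q := by
      rw [← Subgroup.orderOf_mk d hdQ]
      exact orderOf_dvd_natCard _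
    exact orderOf_eq_one_iff.1 (Nat.eq_one_of_dvd_coprimes
      (((Fact.out : p.Prime).coprime_iff_not_dvd.2 hQ).pow_left j) (orderOf_dvd_of_pow_eq_one h8) h9)


/-- Let G be a finite p-solvable group and Q a subgroup of order prime to p such that p divides the index of C_G(Q) in N_G(Q). Then Q normalizes no Sylow p-subgroup of G. -/
theorem result {G : Type*} [Group G] [Finite G] {p : ℕ} [Fact p.Prime]
    (hG : Cfsg.IsPSolvable p G) (Q : Subgroup G) (hQ : ¬ p ∣ Nat.card Q)
    (hA : p ∣ (Subgroup.centralizer (Q : Set G)).relIndex (Subgroup.normalizer (Q : Set G)))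
    (P : Sylow p G) : ¬ Q ≤ Subgroup.normalizer ((P : Subgroup G) : Set G) := by
  intro hQP
  set C := Subgroup.centralizer (Q : Set G) with hC
  set N := Subgroup.normalizer (Q : Set G) with hN
  obtain ⟨R⟩ : Nonempty (Sylow p ↥N) := inferInstance
  refine R.not_dvd_index (hA.trans (Subgroup.index_dvd_of_le fun y hy => Subgroup.mem_subgroupOf.2 ?_))
  obtain ⟨k, hk⟩ := R.isPGroup' ⟨y, hy⟩
  have hk' : (y : G) ^ p ^ k = 1 := congrArg (fun z : ↥(R : Subgroup ↥N) => ((z : ↥N) : G)) hk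
  refine Subgroup.mem_centralizer_iff.2 fun q hq => ?_
  exact (mul_inv_eq_iff_eq_mul.1 (aux _ G rfl hG Q hQ P hQP y y.2 k hk' q hq)).symm

end Cfsg.Agent.S1901
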