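import Cfsg.Statements.S1902
import Mathlib
import Cfsg.Agent.S0629
import Cfsg.Agent.S1302
import Cfsg.Agent.PLocalBasics.SL2Section

set_option autoImplicit false
open Cfsg

namespace Cfsg.Agent.S1902

/-- Let p be an odd prime, G a finite p-solvable group, and B an elementary abelian subgroup of order p² such that B is the subgroup generated by the elements of order p of some Sylow p-subgroup of C_G(b₀), for some nontrivial b₀ ∈ B. Then every B-invariant subgroup of G of order prime to p lies in O_{p'}(G). -/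
theorem result {G : Type*} [Group G] [Finite G] {p : ℕ} [Fact p.Prime] (hp : p ≠ 2)
    (hG : Cfsg.IsPSolvable p G) (B : Subgroup G) (hB : Cfsg.IsElementaryAbelian p B) (hBc : Nat.card B = p ^ 2)
    (b₀ : G) (hb₀ : b₀ ∈ B) (hb₁ : b₀ ≠ 1) (P : Sylow p ↥(Subgroup.centralizer ({b₀} : Set G)))
    (hBP : B = Subgroup.closure {x : G | x ∈ ((P : Subgroup ↥(Subgroup.centralizer ({b₀} : Set G))).map
      (Subgroup.centralizer ({b₀} : Set G)).subtype : Subgroup G) ∧ orderOf x = p})
    (Q : Subgroup G) (hQ : ¬ p ∣ Nat.card Q) (hinv : ∀ b ∈ B, ∀ x ∈ Q, b * x * b⁻¹ ∈ Q) :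
    Q ≤ Cfsg.pPrimeCore p G := by
  classical
  obtain ⟨T⟩ : Nonempty (Sylow p ↥(Cfsg.pPrimePCore p G)) := inferInstance
  have hc : Cfsg.IsPConstrained p G :=
    Cfsg.Agent.S0629.result T (CfsgLib.PCore.isPSolvable_subgroup hG _)
  have hBe : IsPGroup p B := fun x => ⟨1, Subtype.ext (by simpa using hB.2 x x.2)⟩
  refine Cfsg.Agent.S1302.result p hp hc B hB.1 hBe ?_ Q hQ ?_
  · intro x hx hxp
    let C := Subgroup.centralizer ({b₀} : Set G)
    have hBC : B ≤ C := fun b hb => by
      rw [Subgroup.mem_centralizer_singleton_iff]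
      have := congrArg Subtype.val (hB.1.is_comm.comm (⟨b, hb⟩ : B) ⟨b₀, hb₀⟩)
      simpa using this
    have hxC : x ∈ C := by
      rw [Subgroup.mem_centralizer_singleton_iff]
      exact (Subgroup.mem_centralizer_iff.1 hx b₀ hb₀).symm
    set B' := B.subgroupOf (Subgroup.centralizer ({b₀} : Set G))
    set R := B' ⊔ Subgroup.zpowers (⟨x, hxC⟩ : C)
    have hRp : IsPGroup p R := by
      refine IsPGroup.to_sup_of_normal_left' (hBe.comap_of_injective C.subtype C.subtype_injective) ?_ ?_
      · refine IsPGroup.of_card (n := 1) ?_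
        rw [Nat.card_zpowers, Subgroup.orderOf_mk, hxp, pow_one]
      · rw [Subgroup.zpowers_le, Subgroup.mem_normalizer_iff]
        intro y
        have hxb : ∀ b ∈ B, x * b * x⁻¹ = b := fun b hb => by
          rw [← Subgroup.mem_centralizer_iff.1 hx b hb]; group
        simp only [B', Subgroup.mem_subgroupOf, Subgroup.coe_mul, Subgroup.coe_inv]
        constructor
        · intro hy; rw [hxb _ hy]; exact hy
        · intro hy
          have h1 := hxb _ hy
          have : x * (y : G) * x⁻¹ = (y : G) := mul_left_cancel (mul_right_cancel h1)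
          rwa [this] at hy
    obtain ⟨P', hP'⟩ := hRp.exists_le_sylow
    obtain ⟨g, hg⟩ := MulAction.exists_smul_eq C P P'
    let f : G → G := fun y => (g : G) * y * (g : G)⁻¹
    have hsub : ∀ y : C, y ∈ R → orderOf (y : G) = p → (y : G) ∈ f '' (B : Set G) := by
      intro y hy hyp
      have h1 : y ∈ (P' : Subgroup C) := hP' hy
      rw [← hg, Sylow.coe_subgroup_smul, Subgroup.mem_pointwise_smul_iff_inv_smul_mem] at h1
      refine ⟨(g : G)⁻¹ * y * g, ?_, by simp [f, mul_assoc]⟩
      rw [SetLike.mem_coe, hBP]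
      refine Subgroup.subset_closure ⟨Subgroup.mem_map.2 ⟨(MulAut.conj g)⁻¹ • y, h1, ?_⟩, ?_⟩
      · simp [MulAut.smul_def, mul_assoc]
      · rw [← hyp, show (g : G)⁻¹ * y * g = (MulAut.conj (g : G)⁻¹) y by simp]
        exact orderOf_injective (MulAut.conj (g : G)⁻¹).toMonoidHom (MulAut.conj (g : G)⁻¹).injective _
    have hBsub : (B : Set G) ⊆ f '' (B : Set G) := by
      intro b hb
      by_cases hb1 : b = 1
      · exact ⟨1, B.one_mem, by simp [f, hb1]⟩
      · exact hsub ⟨b, hBC hb⟩ (Subgroup.mem_sup_left hb) (orderOf_eq_prime (hB.2 b hb) hb1)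
    have heq : f '' (B : Set G) = (B : Set G) :=
      (Set.eq_of_subset_of_ncard_le hBsub (Set.ncard_image_le (Set.toFinite _)) (Set.toFinite _)).symm
    exact heq.le (hsub ⟨x, hxC⟩ (Subgroup.mem_sup_right (Subgroup.mem_zpowers _)) hxp)
  · intro b hb
    exact Subgroup.mem_normalizer_fintype fun n hn => hinv b hb n hn

end Cfsg.Agent.S1902
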