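import Cfsg.Statements.S1903
import Cfsg.Agent.Ext320.Basic
import Cfsg.Agent.S1248
import Cfsg.Agent.SUFusion.Structure
import Cfsg.Agent.SuzukiTwo.PSUModel
import Cfsg.Agent.Unitary.Basic

set_option autoImplicit false
open Cfsg
open scoped commutatorElement
open CfsgLib.SUFusion

namespace Cfsg.Agent.S1903

set_option maxHeartbeats 1000000 in
/-- A finite group of order 320 whose derived subgroup has order 64 and has centre a Klein four-group is isomorphic to the centralizer of an involution in PSU₃(4). -/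
theorem result {G : Type*} [Group G] [Finite G] (hG : Nat.card G = 320) (hD : Nat.card (commutator G) = 64)
    (hZ : IsKleinFour (Subgroup.center (commutator G)))
    {F : Type*} [Field F] [Fintype F] (hF : Fintype.card F = 16) :
    ∃ t : Cfsg.PSU 3 F 4, orderOf t = 2 ∧ Nonempty (G ≃* Subgroup.centralizer ({t} : Set (Cfsg.PSU 3 F 4))) := by
  classical
  haveI : Fact (Nat.Prime 2) := ⟨Nat.prime_two⟩
  haveI : CharP F 2 := charP_of_card_eq_prime_pow (f := 4) (by rw [hF]; norm_num)
  have h2 : (2 : F) = 0 := by exact_mod_cast CharP.cast_eq_zero F 2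
  have hF' : Fintype.card F = 4 ^ 2 := by rw [hF]; norm_num
  obtain ⟨σ, hσ, hσ2, hσne, -⟩ := CfsgLib.Unitary.exists_conj 4 hF'
  obtain ⟨f, hf, hker⟩ := exists_psu_hom 4 hF' 3 le_rfl σ hσ hσ2 hσne
  have h15 : ∀ x : F, x ≠ 0 → x ^ 15 = 1 := fun x hx => by
    have := FiniteField.pow_card_sub_one_eq_one x hx
    rwa [hF] at this
  have hinj : Function.Injective f := by
    rw [injective_iff_map_eq_one]
    intro g hg
    obtain ⟨c, hc⟩ := (hker g).1 hg
    have hstr := congrFun (congrFun (str_mat_mul g) 0) 0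
    have hdet := mat_det g
    simp only [hc, Matrix.mul_apply, str_apply, Fin.sum_univ_three, Matrix.smul_apply, Matrix.one_apply,
      smul_eq_mul] at hstr
    simp at hstr
    rw [hc, Matrix.det_smul, Matrix.det_one, mul_one, Fintype.card_fin] at hdet
    rw [hσ] at hstr
    have h5 : c ^ 5 = 1 := by linear_combination hstr
    have : c = 1 := by linear_combination (-(c : F)) * h5 + (c ^ 3 + 1) * hdet
    apply mat_ext
    rw [hc, this, one_smul, mat_one]
  -- the central involution
  have hone : (1 : F) + σ 1 + 0 * σ 0 = 0 := by rw [map_one, map_zero]; linear_combination h2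
  let T : iso σ 3 := u3 hσ2 0 1 hone
  have hmatT : mat T = !![1, 0, 1; 0, 1, -σ 0; 0, 0, 1] := rfl
  have hT1 : T ≠ 1 := fun e => one_ne_zero (α := F) (by
    have := congrArg (fun g : iso σ 3 => mat g 0 2) e
    simp [hmatT, mat_one] at this)
  have hT2 : T * T = 1 := by
    apply mat_ext
    rw [mat_mul, mat_one, hmatT]
    ext i j; fin_cases i <;> fin_cases j <;> simp [Matrix.mul_apply, Fin.sum_univ_three] <;> linear_combination h2
  refine ⟨f T, orderOf_eq_prime (by rw [pow_two, ← map_mul, hT2, map_one]) (fun e => hT1 (hinj (e.trans (map_one f).symm))), ?_⟩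
  set C := Subgroup.centralizer ({T} : Set (iso σ 3)) with hC
  have hmemC : ∀ g, g ∈ C ↔ mat g * mat T = mat T * mat g := by
    intro g
    rw [hC, Subgroup.mem_centralizer_singleton_iff, ← mat_mul, ← mat_mul]
    exact ⟨fun e => congrArg mat e, fun e => mat_ext e⟩
  -- shape of the centraliser
  have hshape : ∀ g ∈ C, mat g 1 0 = 0 ∧ mat g 2 0 = 0 ∧ mat g 2 1 = 0 ∧ mat g 2 2 = mat g 0 0 := by
    intro g hg
    rw [hmemC, hmatT] at hg
    have e12 := congrFun (congrFun hg 1) 2
    have e22 := congrFun (congrFun hg 2) 2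
    have e01 := congrFun (congrFun hg 0) 1
    have e02 := congrFun (congrFun hg 0) 2
    simp [Matrix.mul_apply, Fin.sum_univ_three] at e12 e22 e01 e02
    refine ⟨?_, ?_, ?_, ?_⟩
    · linear_combination e12
    · linear_combination e22
    · linear_combination e01
    · linear_combination -e02
  let χ₀ : C →* F :=
    { toFun := fun g => mat g.1 0 0
      map_one' := by simp [mat_one]
      map_mul' := fun g h => by
        simp only [Subgroup.coe_mul, mat_mul, Matrix.mul_apply, Fin.sum_univ_three]
        rw [(hshape h.1 h.2).1, (hshape h.1 h.2).2.1]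
        ring }
  let χ : C →* Fˣ := χ₀.toHomUnits
  have hχ : ∀ g : C, ((χ g : Fˣ) : F) = mat g.1 0 0 := fun g => rfl
  have hnorm : ∀ g : C, (χ g) ^ 5 = 1 := by
    intro g
    obtain ⟨e10, e20, e21, e22⟩ := hshape g.1 g.2
    have hstr := congrFun (congrFun (str_mat_mul g.1) 0) 0
    simp only [Matrix.mul_apply, str_apply, Fin.sum_univ_three] at hstr
    simp [e10, e20] at hstr
    rw [e22, hσ] at hstr
    refine Units.ext ?_
    rw [Units.val_pow_eq_pow_val, hχ, Units.val_one]
    linear_combination hstr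
  have hkermem : ∀ g : C, χ g = 1 ↔ (g : iso σ 3) ∈ uni σ 3 := by
    intro g
    obtain ⟨e10, e20, e21, e22⟩ := hshape g.1 g.2
    constructor
    · intro e
      have e00 : mat g.1 0 0 = 1 := by rw [← hχ, e, Units.val_one]
      have hdet := mat_det g.1
      simp [Matrix.det_fin_three, e10, e20, e21, e22, e00] at hdet
      intro i j hij
      fin_cases i <;> fin_cases j <;> simp [idG] at hij ⊢ <;> simp_all
    · intro e
      exact Units.ext ((hχ g).trans (e 0 0 le_rfl))
  have hule : uni σ 3 ≤ C := by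
    intro g hg
    have h00 := hg 0 0 le_rfl
    have h22 := hg 2 2 le_rfl
    have h10 := hg 1 0 (by simp [idG])
    have h20 := hg 2 0 (by simp [idG])
    have h21 := hg 2 1 (by simp [idG])
    simp at h00 h22 h10 h20 h21
    rw [hmemC, hmatT]
    ext i j
    fin_cases i <;> fin_cases j <;> simp [Matrix.mul_apply, Fin.sum_univ_three, h00, h22, h10, h20, h21] <;> ring
  obtain ⟨U, hU⟩ := exists_sylow_uni (n := 3) hσ2 hσne 2 le_rfl
  let e : iso σ 3 ≃* Cfsg.PSU 3 F 4 := MulEquiv.ofBijective f ⟨hinj, hf⟩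
  let S : Sylow 2 (Cfsg.PSU 3 F 4) := U.mapSurjective (f := e.toMonoidHom) e.surjective
  have hS : (S : Subgroup (Cfsg.PSU 3 F 4)) = (uni σ 3).map e.toMonoidHom := by rw [← hU]; rfl
  obtain ⟨hS64, hSklein, -, hScomm, -, -⟩ := Cfsg.Agent.S1248.result hF S
  let eU : uni σ 3 ≃* (S : Subgroup (Cfsg.PSU 3 F 4)) :=
    ((uni σ 3).equivMapOfInjective _ e.injective).trans (MulEquiv.subgroupCongr hS.symm)
  have hU64 : Nat.card (uni σ 3) = 64 := (Nat.card_congr eU.toEquiv).trans hS64
  let eK : χ.ker ≃* uni σ 3 :=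
    { toFun := fun g => ⟨g.1.1, (hkermem g.1).1 g.2⟩
      invFun := fun g => ⟨⟨g.1, hule g.2⟩, (hkermem ⟨g.1, hule g.2⟩).2 g.2⟩
      left_inv := fun g => rfl
      right_inv := fun g => rfl
      map_mul' := fun g h => rfl }
  have hrange : χ.range = (powMonoidHom 5 : Fˣ →* Fˣ).ker := by
    refine le_antisymm ?_ ?_
    · rintro _ ⟨g, rfl⟩
      exact hnorm g
    · intro u hu
      have hu5 : (u : F) ^ 5 = 1 := by
        have := congrArg Units.val (show u ^ 5 = 1 from hu)
        simpa using this
      have hu4 : σ (u : F) = (u : F)⁻¹ := by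
        rw [hσ]; exact eq_inv_of_mul_eq_one_left (by linear_combination hu5)
      refine ⟨⟨d3 hσ2 (u : F) u.ne_zero, ?_⟩, Units.ext ?_⟩
      · rw [hmemC, hmatT, show mat (d3 hσ2 (u : F) u.ne_zero) = !![(u : F), 0, 0; 0, σ u / u, 0; 0, 0, (σ u)⁻¹] from rfl]
        ext i j
        fin_cases i <;> fin_cases j <;> simp [Matrix.mul_apply, Fin.sum_univ_three, hu4]
      · rw [hχ]
        rfl
  have hrange5 : Nat.card χ.range = 5 := by
    rw [hrange, IsCyclic.card_powMonoidHom_ker, Nat.card_units, Nat.card_eq_fintype_card, hF]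
    norm_num
  have hK64 : Nat.card χ.ker = 64 := (Nat.card_congr eK.toEquiv).trans hU64
  have hC320 : Nat.card C = 320 := by
    have := χ.ker.card_mul_index
    rw [Subgroup.index_ker, hrange5, hK64] at this
    omega
  have hCcomm : commutator C = χ.ker := by
    refine le_antisymm (Abelianization.commutator_subset_ker χ) ?_
    intro g hg
    -- reduce the middle coordinate
    obtain ⟨u, hu, hu1⟩ : ∃ u : Fˣ, u ^ 5 = 1 ∧ u ≠ 1 := by
      haveI : Nontrivial χ.range := Finite.one_lt_card_iff_nontrivial.1 (by rw [hrange5]; norm_num)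
      obtain ⟨r, hr, hr1⟩ := Subgroup.exists_ne_one_of_nontrivial (χ.range)
      exact ⟨r, by rw [hrange] at hr; exact hr, hr1⟩
    have hu5 : (u : F) ^ 5 = 1 := by
      have := congrArg Units.val hu
      simpa using this
    have hu4 : σ (u : F) = (u : F)⁻¹ := by
      rw [hσ]; exact eq_inv_of_mul_eq_one_left (by linear_combination hu5)
    have hμ : (u : F) ^ 3 - 1 ≠ 0 := fun e => hu1 (Units.ext (by
      rw [Units.val_one]; linear_combination ((u : F) ^ 3 + 1) * e - (u : F) * hu5))
    obtain ⟨w, hw⟩ : ∃ w : F, w + σ w = 1 := by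
      obtain ⟨x, hx⟩ : ∃ x : F, x + σ x ≠ 0 := by
        by_contra hc
        push Not at hc
        exact hσne (RingHom.ext fun x => by
          rw [RingHom.id_apply]; linear_combination hc x - x * h2)
      refine ⟨x / (x + σ x), ?_⟩
      rw [map_div₀, map_add, hσ2, add_comm (σ x) x, ← add_div, div_self hx]
    have hg' := (hkermem g).1 hg
    set a := mat g.1 0 1 / ((u : F) ^ 3 - 1) with ha
    have hb : w * (a * σ a) + σ (w * (a * σ a)) + a * σ a = 0 := by
      rw [map_mul, map_mul, hσ2]
      linear_combination (a * σ a) * hw + (a * σ a) * h2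
    let v : C := ⟨u3 hσ2 a (w * (a * σ a)) hb, hule (by
      intro i j hij
      show !![1, a, w * (a * σ a); 0, 1, -σ a; 0, 0, 1] i j = _
      fin_cases i <;> fin_cases j <;> simp [idG] at hij ⊢)⟩
    let d : C := ⟨d3 hσ2 (u : F) u.ne_zero, by
      rw [hmemC, hmatT, show mat (d3 hσ2 (u : F) u.ne_zero) = !![(u : F), 0, 0; 0, σ u / u, 0; 0, 0, (σ u)⁻¹] from rfl]
      ext i j
      fin_cases i <;> fin_cases j <;> simp [Matrix.mul_apply, Fin.sum_univ_three, hu4]⟩
    have hdv : ⁅d, v⁆ ∈ commutator C := by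
      rw [commutator_eq_closure]; exact Subgroup.subset_closure (commutator_mem_commutatorSet _ _)
    set z : C := ⁅d, v⁆⁻¹ * g with hz
    have hzk : z ∈ χ.ker := χ.ker.mul_mem (χ.ker.inv_mem (Abelianization.commutator_subset_ker χ hdv)) hg
    have hzu := (hkermem z).1 hzk
    have hdvu := (hkermem ⁅d, v⁆).1 (Abelianization.commutator_subset_ker χ hdv)
    -- the middle coordinate of the commutator
    have hentry : mat (⁅d, v⁆ : C).1 0 1 = mat g.1 0 1 := by
      have e : mat ((⁅d, v⁆ * v * d : C)).1 0 1 = mat (d * v : C).1 0 1 := by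
        rw [show ⁅d, v⁆ * v * d = d * v by simp only [commutatorElement_def]; group]
      simp only [Subgroup.coe_mul, mat_mul, Matrix.mul_apply, Fin.sum_univ_three] at e
      have k00 := hdvu 0 0 le_rfl
      rw [Matrix.one_apply_eq] at k00
      rw [k00, show mat (d : iso σ 3) = !![(u : F), 0, 0; 0, σ u / u, 0; 0, 0, (σ u)⁻¹] from rfl,
        show mat (v : iso σ 3) = !![1, a, w * (a * σ a); 0, 1, -σ a; 0, 0, 1] from rfl] at e
      simp [hu4] at e
      have h3 : mat (⁅d, v⁆ : C).1 0 1 = a * ((u : F) ^ 3 - 1) := by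
        have hne := u.ne_zero
        field_simp at e
        linear_combination e
      rw [h3, ha, div_mul_cancel₀ _ hμ]
    have hz01 : mat z.1 0 1 = 0 := by
      have e : mat (⁅d, v⁆ * z : C).1 0 1 = mat g.1 0 1 := by rw [hz, mul_inv_cancel_left]
      simp only [Subgroup.coe_mul, mat_mul, Matrix.mul_apply, Fin.sum_univ_three] at e
      rw [hdvu 0 0 le_rfl, hzu 1 1 le_rfl, hzu 2 1 (by simp [idG])] at e
      simp at e
      linear_combination e - hentry
    -- hence central in the Sylow subgroup
    have hz12 : mat z.1 1 2 = 0 := by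
      have hstr := congrFun (congrFun (str_mat_mul z.1) 1) 2
      have k22 := hzu 2 2 le_rfl
      have k11 := hzu 1 1 le_rfl
      have k10 := hzu 1 0 (by simp [idG])
      have k21 := hzu 2 1 (by simp [idG])
      simp only [Matrix.mul_apply, str_apply, Fin.sum_univ_three] at hstr
      simp at k22 k11 k10 k21
      simp [Fin.rev, k22, k11, k10, k21, hz01] at hstr
      exact hstr
    have hzc : (⟨z.1, hzu⟩ : uni σ 3) ∈ Subgroup.center (uni σ 3) := by
      rw [Subgroup.mem_center_iff]
      intro y
      apply Subtype.ext; apply mat_ext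
      show mat ((y : iso σ 3) * z.1) = mat (z.1 * (y : iso σ 3))
      rw [mat_mul, mat_mul]
      have y00 := y.2 0 0 le_rfl
      have y11 := y.2 1 1 le_rfl
      have y22 := y.2 2 2 le_rfl
      have y10 := y.2 1 0 (by simp [idG])
      have y20 := y.2 2 0 (by simp [idG])
      have y21 := y.2 2 1 (by simp [idG])
      have k00 := hzu 0 0 le_rfl
      have k11 := hzu 1 1 le_rfl
      have k22 := hzu 2 2 le_rfl
      have k10 := hzu 1 0 (by simp [idG])
      have k20 := hzu 2 0 (by simp [idG])
      have k21 := hzu 2 1 (by simp [idG])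
      simp at y00 y11 y22 y10 y20 y21 k00 k11 k22 k10 k20 k21
      ext i j
      fin_cases i <;> fin_cases j <;>
        simp [Matrix.mul_apply, Fin.sum_univ_three, y00, y11, y22, y10, y20, y21, k00, k11, k22, k10, k20, k21, hz01, hz12] <;> ring
    have hzder : (⟨z.1, hzu⟩ : uni σ 3) ∈ commutator (uni σ 3) := by
      have h1 : eU ⟨z.1, hzu⟩ ∈ Subgroup.center _ := by
        rw [Subgroup.mem_center_iff] at hzc ⊢
        intro y
        obtain ⟨y, rfl⟩ := eU.surjective y
        rw [← map_mul, ← map_mul, hzc]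
      rw [hScomm] at h1
      have h2 : (commutator (uni σ 3)).map eU.toMonoidHom = commutator _ := by
        rw [commutator_def, Subgroup.map_commutator, Subgroup.map_top_of_surjective eU.toMonoidHom eU.surjective, ← commutator_def]
      obtain ⟨y, hy, hye⟩ := h2.ge h1
      exact (eU.injective hye) ▸ hy
    have hincl : commutator (uni σ 3) ≤ (commutator C).comap (Subgroup.inclusion hule) := by
      rw [← Subgroup.map_le_iff_le_comap, commutator_def, Subgroup.map_commutator]
      exact Subgroup.commutator_mono le_top le_top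
    have hzC : z ∈ commutator C := hincl hzder
    have := (commutator C).mul_mem hdv hzC
    rwa [hz, mul_inv_cancel_left] at this
  have hD' : Nat.card (commutator C) = 64 := by rw [hCcomm]; exact hK64
  have hZ' : IsKleinFour (Subgroup.center (commutator C)) := by
    let eD : commutator C ≃* (S : Subgroup (Cfsg.PSU 3 F 4)) :=
      (MulEquiv.subgroupCongr hCcomm).trans (eK.trans eU)
    let eZ := Subgroup.centerCongr eD
    exact ⟨(Nat.card_congr eZ.toEquiv).trans hSklein.card_four,
      (Monoid.exponent_eq_of_mulEquiv eZ).trans hSklein.exponent_two⟩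
  obtain ⟨a₀, a₁, a₂, a₃, z₁, z₂, c, hd, hgen⟩ := CfsgLib.Ext320.exists_data hG hD hZ
  obtain ⟨b₀, b₁, b₂, b₃, w₁, w₂, d, hd', hgen'⟩ := CfsgLib.Ext320.exists_data hC320 hD' hZ'
  obtain ⟨φ⟩ := CfsgLib.Ext320.nonempty_equiv hd hd' hgen hG hgen' hC320
  have hmap : C.map e.toMonoidHom = Subgroup.centralizer ({f T} : Set (Cfsg.PSU 3 F 4)) := by
    ext y
    rw [Subgroup.mem_centralizer_singleton_iff]
    constructor
    · rintro ⟨g, hg, rfl⟩
      show f g * f T = f T * f g
      rw [← map_mul, ← map_mul, Subgroup.mem_centralizer_singleton_iff.1 hg]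
    · intro hy
      obtain ⟨g, rfl⟩ := hf y
      exact ⟨g, Subgroup.mem_centralizer_singleton_iff.2 (hinj (by rw [map_mul, map_mul, hy])), rfl⟩
  exact ⟨φ.trans ((C.equivMapOfInjective _ e.injective).trans (MulEquiv.subgroupCongr hmap))⟩

end Cfsg.Agent.S1903
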