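import Cfsg.Statements.S1905
import Mathlib
import Cfsg.Agent.Invol.StronglyEmbedded
import Cfsg.Agent.S1225

set_option autoImplicit false
open Cfsg

namespace Cfsg.Agent.S1905

/-- Let M be a subgroup of even order of a finite group S such that M contains the centralizer in S of each of its involutions and the normal core of M in S has odd order. Then all involutions of S are conjugate. If moreover N_S(X) ≤ M for a Sylow 2-subgroup X of M and I is an involution in the centre of X, then all involutions of M are conjugate in M and M = M₀ C_M(I) for some subgroup M₀ of M of odd order. -/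
theorem result {S : Type*} [Group S] [Finite S] (M : Subgroup S) (hM : Even (Nat.card M))
    (hC : ∀ i ∈ M, orderOf i = 2 → Subgroup.centralizer ({i} : Set S) ≤ M) (hcore : Odd (Nat.card M.normalCore)) :
    (∀ x y : S, orderOf x = 2 → orderOf y = 2 → IsConj x y) ∧
      ∀ (X : Sylow 2 M) (I : M), I ∈ (Subgroup.center ↥(X : Subgroup ↥M)).map (X : Subgroup ↥M).subtype → orderOf I = 2 →
        Subgroup.normalizer (((X : Subgroup M).map M.subtype : Subgroup S) : Set S) ≤ M →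
        (∀ x y : M, orderOf x = 2 → orderOf y = 2 → IsConj x y) ∧
          ∃ M₀ : Subgroup M, Odd (Nat.card M₀) ∧
            ∀ m : M, ∃ a ∈ M₀, ∃ c ∈ Subgroup.centralizer ({I} : Set M), m = a * c := by
  classical
  haveI : Fact (Nat.Prime 2) := ⟨Nat.prime_two⟩
  obtain ⟨i₀, hi₀M, hi₀⟩ := CfsgLib.Invol.exists_involution_of_even hM
  obtain ⟨y₀, hy₀, hy₀M⟩ : ∃ y : S, orderOf y = 2 ∧ y ∉ M := by
    by_contra hcon
    push Not at hcon
    have h1 : i₀ ∈ M.normalCore := fun g => hcon _ (by rw [CfsgLib.Invol.orderOf_conj]; exact hi₀)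
    have h2 := Subgroup.orderOf_dvd_natCard _ h1
    rw [hi₀] at h2
    exact Nat.not_even_iff_odd.2 hcore (even_iff_two_dvd.2 h2)
  have hio : ∀ i ∈ M, orderOf i = 2 → ∀ y ∉ M, orderOf y = 2 → IsConj i y := by
    intro i hi hio y hy hyo
    have hi' := CfsgLib.Invol.mul_self_of_orderOf hio
    have hy' := CfsgLib.Invol.mul_self_of_orderOf hyo
    have hodd : Odd (orderOf (i * y)) := by
      rcases Nat.even_or_odd (orderOf (i * y)) with he | ho
      · exfalso
        obtain ⟨hz, hzi, hzy⟩ := CfsgLib.Invol.half_pow hi' hy' he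
        have hzM : (i * y) ^ (orderOf (i * y) / 2) ∈ M := hC i hi hio (Subgroup.mem_centralizer_singleton_iff.2 hzi.eq)
        exact hy (hC _ hzM hz (Subgroup.mem_centralizer_singleton_iff.2 hzy.symm.eq))
      · exact ho
    obtain ⟨d, -, hd⟩ := (CfsgLib.Invol.exists_conj_iff_odd hi' hy').2 hodd
    exact isConj_iff.2 ⟨d, hd⟩
  have hall : ∀ x y : S, orderOf x = 2 → orderOf y = 2 → IsConj x y := by
    intro x y hx hy
    have h1 : ∀ w : S, orderOf w = 2 → IsConj w y₀ := by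
      intro w hw
      by_cases hwM : w ∈ M
      · exact hio w hwM hw y₀ hy₀M hy₀
      · exact (hio i₀ hi₀M hi₀ w hwM hw).symm.trans (hio i₀ hi₀M hi₀ y₀ hy₀M hy₀)
    exact (h1 x hx).trans (h1 y hy).symm
  refine ⟨hall, fun X I hI hIo hNX => ?_⟩
  set XS : Subgroup S := (X : Subgroup M).map M.subtype with hXS
  have hXp : IsPGroup 2 XS := X.isPGroup'.map M.subtype
  obtain ⟨P₀, hP₀⟩ := hXp.exists_le_sylow
  -- a Sylow subgroup containing an involution of `M` lies in `M`
  have hin : ∀ (P : Sylow 2 S) (u : S), u ∈ (P : Subgroup S) → u ∈ M → orderOf u = 2 → (P : Subgroup S) ≤ M := by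
    intro P u huP huM huo
    haveI : Nontrivial (P : Subgroup S) := (Subgroup.nontrivial_iff_ne_bot _).2 fun e => by
      rw [e, Subgroup.mem_bot] at huP
      rw [huP, orderOf_one] at huo; omega
    haveI := P.isPGroup'.center_nontrivial
    obtain ⟨n, hn⟩ := IsPGroup.iff_card.1 (P.isPGroup'.to_subgroup (Subgroup.center (P : Subgroup S)))
    obtain ⟨z, hz⟩ := exists_prime_orderOf_dvd_card' (G := Subgroup.center (P : Subgroup S)) 2 (by
      have h1 : 1 < Nat.card (Subgroup.center (P : Subgroup S)) := Finite.one_lt_card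
      rw [hn] at h1 ⊢
      exact dvd_pow_self 2 fun h0 => by simp [h0] at h1)
    rw [← Subgroup.orderOf_coe, ← Subgroup.orderOf_coe] at hz
    have hzc : ∀ w ∈ (P : Subgroup S), w * ((z : (P : Subgroup S)) : S) = ((z : (P : Subgroup S)) : S) * w := fun w hw =>
      congrArg Subtype.val (Subgroup.mem_center_iff.1 z.2 ⟨w, hw⟩)
    have hzM : ((z : (P : Subgroup S)) : S) ∈ M :=
      hC u huM huo (Subgroup.mem_centralizer_singleton_iff.2 (hzc u huP).symm)
    exact fun w hw => hC _ hzM hz (Subgroup.mem_centralizer_singleton_iff.2 (hzc w hw))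
  have hXsyl : (P₀ : Subgroup S) = XS := by
    obtain ⟨n, hn⟩ := IsPGroup.iff_card.1 X.isPGroup'
    have hI' : (I : S) ∈ XS := by
      obtain ⟨w, -, rfl⟩ := hI
      exact ⟨w, w.2, rfl⟩
    have hle := hin P₀ I (hP₀ hI') I.2 (by rw [Subgroup.orderOf_coe]; exact hIo)
    have h1 : (P₀ : Subgroup S).subgroupOf M = (X : Subgroup M) := by
      refine X.is_maximal' ?_ ?_
      · exact P₀.isPGroup'.comap_of_injective M.subtype M.subtype_injective
      · intro w hw; exact hP₀ ⟨w, hw, rfl⟩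
    rw [hXS, ← h1, Subgroup.subgroupOf_map_subtype, inf_eq_left.2 hle]
  have hne : M ≠ ⊤ := fun e => hy₀M (e ▸ Subgroup.mem_top y₀)
  have hse : Cfsg.IsStronglyEmbedded M := by
    refine CfsgLib.Invol.stronglyEmbedded_of_forall hne hM fun u hu huo g hg => ?_
    -- a Sylow subgroup through `g u g⁻¹`
    obtain ⟨P, hP⟩ := (IsPGroup.of_card (n := 1) (by rw [Nat.card_zpowers, CfsgLib.Invol.orderOf_conj, huo, pow_one]) :
      IsPGroup 2 (Subgroup.zpowers (g * u * g⁻¹))).exists_le_sylow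
    have huP := hP (Subgroup.mem_zpowers (g * u * g⁻¹))
    have hPM := hin P _ huP hg (by rw [CfsgLib.Invol.orderOf_conj]; exact huo)
    obtain ⟨P', hP'⟩ : ∃ P' : Sylow 2 S, P' = g⁻¹ • P := ⟨_, rfl⟩
    have hmem : ∀ w, w ∈ (P' : Subgroup S) ↔ g * w * g⁻¹ ∈ (P : Subgroup S) := by
      intro w
      rw [hP', Sylow.coe_subgroup_smul, Subgroup.mem_pointwise_smul_iff_inv_smul_mem, ← map_inv, inv_inv]
      exact Iff.rfl
    have hP'M := hin P' u ((hmem u).2 huP) hu huo
    have hconj : ∀ Q : Sylow 2 S, (Q : Subgroup S) ≤ M → ∃ m ∈ M, m • P₀ = Q := by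
      intro Q hQ
      obtain ⟨m, hm⟩ := MulAction.exists_smul_eq M (P₀.subtype (hXsyl.le.trans (Subgroup.map_subtype_le _))) (Q.subtype hQ)
      refine ⟨m, m.2, ?_⟩
      apply Sylow.subtype_injective (P := m.1 • P₀) (Q := Q) (hP := Sylow.smul_le (hXsyl.le.trans (Subgroup.map_subtype_le _)) m) (hQ := hQ)
      rw [← hm]
      exact (Sylow.smul_subtype _ m).symm
    obtain ⟨m, hm, hmP⟩ := hconj P hPM
    obtain ⟨m', hm', hmP'⟩ := hconj P' hP'M
    have h1 : (m⁻¹ * g * m') • P₀ = P₀ := by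
      rw [mul_smul, mul_smul, hmP', hP', smul_inv_smul, ← hmP, inv_smul_smul]
    have h2 := Sylow.smul_eq_iff_mem_normalizer.1 h1
    have h3 : m⁻¹ * g * m' ∈ M := hNX (by rw [← hXsyl]; exact h2)
    simpa [mul_assoc] using M.mul_mem (M.mul_mem hm h3) (M.inv_mem hm')
  have htr := fun s t hs hsM ht htM => (Cfsg.Agent.S1225.result M hse y₀ hy₀ hy₀M s t hs hsM ht htM).1
  refine ⟨fun x y hx hy => ?_, ?_⟩
  · obtain ⟨d, hd, hdy⟩ := htr x y (by rw [Subgroup.orderOf_coe]; exact hx) x.2 (by rw [Subgroup.orderOf_coe]; exact hy) y.2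
    exact isConj_iff.2 ⟨⟨d, hd.1⟩, Subtype.ext hdy⟩
  · refine ⟨(M ⊓ M.map (MulAut.conj y₀).toMonoidHom).subgroupOf M, ?_, fun m => ?_⟩
    · rw [Nat.card_congr (Subgroup.subgroupOfEquivOfLe inf_le_left).toEquiv]
      exact hse.2.2 y₀ hy₀M
    · obtain ⟨d, hd, hdI⟩ := htr I (m * I * m⁻¹ : M) (by rw [Subgroup.orderOf_coe]; exact hIo) I.2
        (by rw [Subgroup.orderOf_coe, CfsgLib.Invol.orderOf_conj]; exact hIo) (m * I * m⁻¹ : M).2
      have hd' : (⟨d, hd.1⟩ : M) * I * (⟨d, hd.1⟩ : M)⁻¹ = m * I * m⁻¹ := Subtype.ext hdI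
      refine ⟨⟨d, hd.1⟩, hd, (⟨d, hd.1⟩ : M)⁻¹ * m, Subgroup.mem_centralizer_singleton_iff.2 ?_, (mul_inv_cancel_left _ _).symm⟩
      calc (⟨d, hd.1⟩ : M)⁻¹ * m * I = (⟨d, hd.1⟩ : M)⁻¹ * (m * I * m⁻¹) * m := by group
        _ = (⟨d, hd.1⟩ : M)⁻¹ * ((⟨d, hd.1⟩ : M) * I * (⟨d, hd.1⟩ : M)⁻¹) * m := by rw [hd']
        _ = I * ((⟨d, hd.1⟩ : M)⁻¹ * m) := by group


end Cfsg.Agent.S1905
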