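import Cfsg.Statements.S1906
import Mathlib
import Cfsg.Agent.CentralMinusOne.Basic
import Cfsg.Agent.PReduced.Hom

set_option autoImplicit false
open Cfsg

namespace Cfsg.Agent.S1906

/-- Let G be a finite group with no subgroup of index 2 whose Sylow 2-subgroup X embeds in GL₃(F) for a finite field F of odd order. If X contains an elementary abelian subgroup of order 8, then X is abelian. -/
theorem result {G : Type*} [Group G] [Finite G] (hG : ∀ H : Subgroup G, H.index ≠ 2) (X : Sylow 2 G)
    {F : Type*} [Field F] [Fintype F] (hF : Odd (Fintype.card F))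
    (f : ↥(X : Subgroup G) →* GL (Fin 3) F) (hf : Function.Injective f)
    (E : Subgroup G) (hE : E ≤ (X : Subgroup G)) (hEa : Cfsg.IsElementaryAbelian 2 E) (hE8 : Nat.card E = 8) :
    IsMulCommutative (X : Subgroup G) := by
  classical
  by_contra hna
  haveI : Fact (Nat.Prime 2) := ⟨Nat.prime_two⟩
  have h2 : (2 : F) ≠ 0 := fun h => by
    have : ringChar F = 2 := CharP.ringChar_of_prime_eq_zero Nat.prime_two (by simpa using h)
    exact (Nat.not_odd_iff_even.mpr (Nat.even_iff.mpr (FiniteField.even_card_of_char_two this))) hF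
  have hm1 : (-1 : F) ≠ 1 := fun h => h2 (by linear_combination -h)
  let L : ↥(X : Subgroup G) →* Module.End F (Fin 3 → F) :=
    { toFun := fun a => Matrix.toLinAlgEquiv' ((f a : GL (Fin 3) F) : Matrix (Fin 3) (Fin 3) F)
      map_one' := by simp
      map_mul' := fun a b => by simp }
  have hL : Function.Injective L := fun a b h =>
    hf (Units.ext (Matrix.toLinAlgEquiv'.injective h))
  let δ : ↥(X : Subgroup G) →* Fˣ := (Matrix.GeneralLinearGroup.det).comp f
  -- the element acting as minus one
  have hLE : ∀ e : ↥E, (e : G) ∈ (X : Subgroup G) := fun e => hE e.2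
  let ι : ↥E →* ↥(X : Subgroup G) := Subgroup.inclusion hE
  have hιc : ∀ i j : ↥E, L (ι i) * L (ι j) = L (ι j) * L (ι i) := fun i j => by
    rw [← map_mul, ← map_mul, ← map_mul, ← map_mul]
    congr 2
    exact hEa.1.1.comm i j
  have hιs : ∀ i : ↥E, L (ι i) * L (ι i) = 1 := fun i => by
    rw [← map_mul, ← map_mul]
    have : i * i = 1 := by
      rw [← pow_two]; exact Subtype.ext (by simpa using hEa.2 i i.2)
    rw [this, map_one, map_one]
  obtain ⟨b, hb⟩ := CfsgLib.CentralMinusOne.exists_signBasis h2 (by simp) (fun i : ↥E => L (ι i)) hιc hιs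
    (hL.comp (Subgroup.inclusion_injective hE)) hE8.ge
  obtain ⟨i0, hi0⟩ := hb (fun _ => false)
  set x : ↥(X : Subgroup G) := ι i0 with hxdef
  have hLx : L x = -1 := b.ext fun k => by simpa using hi0 k
  have hxc : ∀ a, a * x = x * a := fun a => hL (by rw [map_mul, map_mul, hLx]; exact LinearMap.ext fun v => by simp [Module.End.mul_apply])
  have hx2 : x * x = 1 := hL (by rw [map_mul, hLx, map_one]; exact LinearMap.ext fun v => by simp [Module.End.mul_apply])
  have hδx : δ x = -1 := by
    refine Units.ext ?_
    have : ((f x : GL (Fin 3) F) : Matrix (Fin 3) (Fin 3) F) = -1 := by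
      apply Matrix.toLinAlgEquiv'.injective
      rw [map_neg, map_one]
      exact hLx
    show ((f x : GL (Fin 3) F) : Matrix (Fin 3) (Fin 3) F).det = _
    rw [this, Matrix.det_neg]
    simp [Odd.neg_one_pow (show Odd 3 by decide)]
  have hδx1 : δ x ≠ 1 := by
    rw [hδx]; exact fun h => hm1 (by simpa using congrArg Units.val h)
  -- a central involution in the derived subgroup
  obtain ⟨c, hcK, hc1, hcc, hc2⟩ : ∃ c : ↥(X : Subgroup G), c ∈ commutator ↥(X : Subgroup G) ∧ c ≠ 1 ∧
      (∀ a, a * c = c * a) ∧ c * c = 1 := by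
    haveI : Nontrivial ↥(commutator ↥(X : Subgroup G)) := by
      rw [Subgroup.nontrivial_iff_ne_bot]
      intro h
      apply hna
      refine ⟨⟨fun a b => ?_⟩⟩
      have := Subgroup.commutator_mem_commutator (Subgroup.mem_top a) (Subgroup.mem_top b)
      rw [← commutator_def, h, Subgroup.mem_bot] at this
      exact commutatorElement_eq_one_iff_mul_comm.mp this
    obtain ⟨z, hzC, hzK, hz1⟩ : ∃ z : ↥(X : Subgroup G), (∀ a, a * z = z * a) ∧
        z ∈ commutator ↥(X : Subgroup G) ∧ z ≠ 1 := by
      have hnc := CfsgLib.PReduced.inf_center_ne_bot X.isPGroup' (N := commutator ↥(X : Subgroup G))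
        ((Subgroup.nontrivial_iff_ne_bot _).mp inferInstance)
      obtain ⟨⟨z, hz⟩, hz1⟩ := (Subgroup.ne_bot_iff_exists_ne_one).mp hnc
      exact ⟨z, Subgroup.mem_center_iff.mp hz.2, hz.1, fun h => hz1 (Subtype.ext h)⟩
    obtain ⟨k, hk⟩ := IsPGroup.iff_orderOf.mp X.isPGroup' z
    rcases k with _ | k
    · exact absurd (orderOf_eq_one_iff.mp (by simpa using hk)) hz1
    refine ⟨z ^ 2 ^ k, Subgroup.pow_mem _ hzK _, ?_, fun a => (Commute.pow_right (show Commute a z from hzC a) _).eq, ?_⟩
    · intro h
      have := Nat.le_of_dvd (by positivity) (hk ▸ orderOf_dvd_of_pow_eq_one h)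
      rw [pow_succ] at this
      have : 0 < 2 ^ k := by positivity
      omega
    · rw [← pow_add, ← two_mul, ← pow_succ', ← hk, pow_orderOf_eq_one]
  have hδK : ∀ a ∈ commutator ↥(X : Subgroup G), δ a = 1 := fun a ha =>
    Abelianization.commutator_subset_ker δ ha
  have hxK : x ∉ commutator ↥(X : Subgroup G) := fun h => hδx1 (hδK x h)
  have hcx : c ≠ x := fun h => hxK (h ▸ hcK)
  -- there are at most three central involutions
  have hZ : ∀ y : ↥(X : Subgroup G), (∀ a, a * y = y * a) → y * y = 1 → y = 1 ∨ y = x ∨ y = c ∨ y = x * c := by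
    intro y hyc hy2
    by_contra hy
    push Not at hy
    obtain ⟨hy1, hyx, hyc', hyxc⟩ := hy
    apply hna
    have hT : Subgroup.closure ({x, c, y} : Set ↥(X : Subgroup G)) ≤ Subgroup.center ↥(X : Subgroup G) := by
      rw [Subgroup.closure_le]
      rintro t (rfl | rfl | rfl) <;> rw [SetLike.mem_coe, Subgroup.mem_center_iff]
      exacts [hxc, hcc, hyc]
    set T := Subgroup.closure ({x, c, y} : Set ↥(X : Subgroup G)) with hTdef
    have hT2 : ∀ t ∈ T, t * t = 1 := by
      intro t ht
      induction ht using Subgroup.closure_induction with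
      | mem t ht => rcases ht with rfl | rfl | rfl <;> assumption
      | one => rw [one_mul]
      | mul u v hu hv h1 h2 =>
        have e := Subgroup.mem_center_iff.mp (hT hu) v
        calc u * v * (u * v) = u * (v * u) * v := by group
          _ = (u * u) * (v * v) := by rw [e]; group
          _ = 1 := by rw [h1, h2, one_mul]
      | inv u hu h1 => rw [← mul_inv_rev, h1, inv_one]
    have hmx : x ∈ T := Subgroup.subset_closure (by simp)
    have hmc : c ∈ T := Subgroup.subset_closure (by simp)
    have hmy : y ∈ T := Subgroup.subset_closure (by simp)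
    have hx1 : x ≠ 1 := fun h => hxK (h ▸ one_mem _)
    have hxc1 : x * c ≠ 1 := fun h => hcx (by
      have : x⁻¹ = c := inv_eq_of_mul_eq_one_right h
      rw [← this, inv_eq_of_mul_eq_one_right hx2])
    have h5 : (({1, x, c, x * c, y} : Finset ↥(X : Subgroup G)) : Set ↥(X : Subgroup G)) ⊆ (T : Set _) := by
      intro t ht
      simp only [Finset.coe_insert, Finset.coe_singleton, Set.mem_insert_iff, Set.mem_singleton_iff] at ht
      rcases ht with rfl | rfl | rfl | rfl | rfl
      exacts [one_mem _, hmx, hmc, mul_mem hmx hmc, hmy]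
    have hc5 : ({1, x, c, x * c, y} : Finset ↥(X : Subgroup G)).card = 5 := by
      rw [Finset.card_insert_of_notMem, Finset.card_insert_of_notMem, Finset.card_insert_of_notMem,
        Finset.card_insert_of_notMem, Finset.card_singleton]
      · simp only [Finset.mem_singleton]; exact hyxc.symm
      · simp only [Finset.mem_insert, Finset.mem_singleton, not_or]
        refine ⟨fun h => hx1 ?_, hyc'.symm⟩
        simpa using h.symm
      · simp only [Finset.mem_insert, Finset.mem_singleton, not_or]
        refine ⟨hcx.symm, fun h => hc1 ?_, hyx.symm⟩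
        simpa using h.symm
      · simp only [Finset.mem_insert, Finset.mem_singleton, not_or]
        exact ⟨hx1.symm, hc1.symm, hxc1.symm, hy1.symm⟩
    have hle5 : 5 ≤ Nat.card ↥T := by
      rw [← hc5, ← Set.ncard_coe_finset]
      exact (Set.ncard_le_ncard h5 (Set.toFinite _)).trans_eq (Nat.card_coe_set_eq _).symm
    obtain ⟨k, hk⟩ := IsPGroup.iff_card.mp (X.isPGroup'.to_subgroup T)
    have hk3 : 3 ≤ k := by
      by_contra h
      have : 2 ^ k ≤ 2 ^ 2 := Nat.pow_le_pow_right (by norm_num) (by omega)
      omega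
    have h8 : 8 ≤ Nat.card ↥T := by
      rw [hk]; exact (show 8 = 2 ^ 3 by norm_num) ▸ Nat.pow_le_pow_right (by norm_num) hk3
    obtain ⟨b', hb'⟩ := CfsgLib.CentralMinusOne.exists_signBasis h2 (by simp) (fun i : ↥T => L i)
      (fun i j => by rw [← map_mul, ← map_mul, Subgroup.mem_center_iff.mp (hT i.2) j])
      (fun i => by rw [← map_mul, hT2 i i.2, map_one]) (hL.comp Subtype.val_injective) h8
    have hdiag : ∀ (w : ↥(X : Subgroup G)) k, ∃ r : F, L w (b' k) = r • b' k := by
      intro w k
      obtain ⟨t, ht⟩ := hb' (fun j => decide (j = k))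
      refine ⟨b'.repr (L w (b' k)) k, b'.repr.injective (Finsupp.ext fun j => ?_)⟩
      rw [map_smul, b'.repr_self, Finsupp.smul_single, smul_eq_mul, mul_one, Finsupp.single_apply]
      by_cases hj : k = j
      · rw [if_pos hj, hj]
      rw [if_neg hj]
      have e : L t (L w (b' k)) = L w (b' k) := by
        rw [← Module.End.mul_apply, ← map_mul, ← Subgroup.mem_center_iff.mp (hT t.2) w, map_mul,
          Module.End.mul_apply, ht k]
        simp
      have hlin : ∀ v, b'.repr (L t v) j = - b'.repr v j := by
        intro v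
        have : (Finsupp.lapply j).comp (b'.repr.toLinearMap.comp (L t)) =
            - ((Finsupp.lapply j).comp b'.repr.toLinearMap) := b'.ext fun i => by
          by_cases hi : i = j
          · subst hi
            simp [ht i, Ne.symm hj]
          · simp only [LinearMap.comp_apply, LinearMap.neg_apply, LinearEquiv.coe_coe, Finsupp.lapply_apply, ht i]
            split_ifs <;> simp [Finsupp.single_eq_of_ne (Ne.symm hi)]
        exact LinearMap.congr_fun this v
      have h0 := hlin (L w (b' k))
      rw [e] at h0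
      exact (mul_eq_zero.mp (show (2 : F) * b'.repr (L w (b' k)) j = 0 by linear_combination h0)).resolve_left h2
    refine ⟨⟨fun u v => hL (b'.ext fun k => ?_)⟩⟩
    obtain ⟨r, hr⟩ := hdiag u k
    obtain ⟨r', hr'⟩ := hdiag v k
    simp only [map_mul, Module.End.mul_apply, hr, hr', map_smul, smul_smul, mul_comm r r']
  -- fusion
  have hfix : ∀ g ∈ Subgroup.normalizer ((X : Subgroup G) : Set G), g⁻¹ * (x : G) * g = x := by
    intro g hg
    have hconj : ∀ n ∈ Subgroup.normalizer ((X : Subgroup G) : Set G), n * (x : G) * n⁻¹ = x ∨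
        n * (x : G) * n⁻¹ = x * c := by
      intro n hn
      let φ : ↥(X : Subgroup G) →* ↥(X : Subgroup G) :=
        { toFun := fun a => ⟨n * a * n⁻¹, (Subgroup.mem_normalizer_iff.mp hn a).mp a.2⟩
          map_one' := Subtype.ext (by simp)
          map_mul' := fun a b => Subtype.ext (by simp [mul_assoc]) }
      have hφ : Function.Injective φ := fun a b h => by
        have := congrArg Subtype.val h
        exact Subtype.ext (mul_left_cancel (mul_right_cancel this))
      have hsurj := Finite.surjective_of_injective hφ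
      have hcen : ∀ z, (∀ a, a * z = z * a) → ∀ a, a * φ z = φ z * a := fun z hz a => by
        obtain ⟨a', rfl⟩ := hsurj a
        rw [← map_mul, ← map_mul, hz]
      have hφK : φ c ∈ commutator ↥(X : Subgroup G) := by
        have : (commutator ↥(X : Subgroup G)).map φ ≤ commutator ↥(X : Subgroup G) := by
          rw [commutator_def, Subgroup.map_commutator]
          exact Subgroup.commutator_mono le_top le_top
        exact this ⟨c, hcK, rfl⟩
      have hφc : φ c = c := by
        rcases hZ (φ c) (hcen c hcc) (by rw [← map_mul, hc2, map_one]) with h | h | h | h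
        · exact absurd ((injective_iff_map_eq_one φ).mp hφ c h) hc1
        · exact absurd (h ▸ hφK) hxK
        · exact h
        · have := hδK _ hφK
          rw [h, map_mul, hδK c hcK, mul_one] at this
          exact absurd this hδx1
      rcases hZ (φ x) (hcen x hxc) (by rw [← map_mul, hx2, map_one]) with h | h | h | h
      · exact absurd (h ▸ (rfl : φ x = φ x)) (fun _ => hδx1 (by
          rw [(injective_iff_map_eq_one φ).mp hφ x h, map_one]))
      · left; exact congrArg Subtype.val h
      · exact absurd (hφ (hφc.trans h.symm)).symm (fun h' => hcx h'.symm)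
      · right; exact congrArg Subtype.val h
    rw [← inv_inv g] at hg
    set n := g⁻¹ with hndef
    have hn : n ∈ Subgroup.normalizer ((X : Subgroup G) : Set G) := inv_mem_iff.mp hg
    rw [show g = n⁻¹ by rw [hndef, inv_inv]]
    rcases hconj n hn with h | h
    · exact h
    exfalso
    -- the odd part of `n` would also move `x`
    obtain ⟨a, m, hm, hord⟩ := Nat.exists_eq_two_pow_mul_odd (orderOf_pos n).ne'
    set u := n ^ m with hu
    have hum : u ∈ Subgroup.normalizer ((X : Subgroup G) : Set G) := Subgroup.pow_mem _ hn _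
    have huX : u ∈ (X : Subgroup G) := by
      have hp : IsPGroup 2 ↥(Subgroup.zpowers u) := by
        refine IsPGroup.of_card (n := a) ?_
        rw [Nat.card_zpowers, hu, orderOf_pow_of_dvd hm.pos.ne' ⟨2 ^ a, by rw [hord, mul_comm]⟩, hord,
          Nat.mul_div_cancel _ hm.pos]
      have hsup : IsPGroup 2 ↥(Subgroup.zpowers u ⊔ (X : Subgroup G)) :=
        hp.to_sup_of_normal_right' X.isPGroup' (Subgroup.zpowers_le.mpr hum)
      have := X.3 hsup le_sup_right
      rw [← this]
      exact Subgroup.mem_sup_left (Subgroup.mem_zpowers u)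
    have hn2 : n * (c : G) * n⁻¹ = c ∧ n ^ 2 * (x : G) * (n ^ 2)⁻¹ = x := by
      rcases hconj (n ^ 2) (Subgroup.pow_mem _ hn 2) with h' | h'
      · refine ⟨?_, h'⟩
        have e : n ^ 2 * (x : G) * (n ^ 2)⁻¹ = n * (x : G) * n⁻¹ * (n * (c : G) * n⁻¹) := by
          rw [← (show n * ((x : G) * c) * n⁻¹ = n * (x : G) * n⁻¹ * (n * (c : G) * n⁻¹) by group), ← h, pow_two]
          group
        rw [h', h, mul_assoc] at e
        have : (1 : G) = (c : G) * (n * (c : G) * n⁻¹) := mul_left_cancel ((mul_one _).trans e)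
        rw [← inv_eq_of_mul_eq_one_right this.symm]
        exact inv_eq_of_mul_eq_one_right (by simpa using congrArg Subtype.val hc2)
      · exfalso
        have e : n ^ 2 * (x : G) * (n ^ 2)⁻¹ = n * (n * (x : G) * n⁻¹) * n⁻¹ := by rw [pow_two]; group
        have e2 : n * (x : G) * n⁻¹ = n ^ 2 * (x : G) * (n ^ 2)⁻¹ := h.trans h'.symm
        rw [e] at e2
        have e3 : (x : G) = n * (x : G) * n⁻¹ := mul_left_cancel (mul_right_cancel e2)
        rw [h] at e3
        exact hc1 (Subtype.ext (mul_left_cancel (e3.symm.trans (mul_one (x : G)).symm)))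
    have hodd : ∀ k, n ^ (2 * k + 1) * (x : G) * (n ^ (2 * k + 1))⁻¹ = x * c := by
      intro k
      induction k with
      | zero => simpa using h
      | succ k ih =>
        have e : n ^ (2 * (k + 1) + 1) = n ^ (2 * k + 1) * n ^ 2 := by rw [← pow_add]; ring_nf
        rw [e, mul_inv_rev, show n ^ (2 * k + 1) * n ^ 2 * (x : G) * ((n ^ 2)⁻¹ * (n ^ (2 * k + 1))⁻¹)
          = n ^ (2 * k + 1) * (n ^ 2 * (x : G) * (n ^ 2)⁻¹) * (n ^ (2 * k + 1))⁻¹ by group, hn2.2, ih]
    obtain ⟨k, hk⟩ := hm
    have := hodd k
    rw [← hk, ← hu] at this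
    have e : u * (x : G) = x * u := congrArg Subtype.val (hxc ⟨u, huX⟩)
    rw [e, mul_inv_cancel_right] at this
    exact hc1 (Subtype.ext (mul_left_cancel (this.symm.trans (mul_one (x : G)).symm)))
  -- transfer
  have htr := CfsgLib.CentralMinusOne.transfer_eq_neg_one hm1 X δ x
    (by rw [pow_two]; exact congrArg Subtype.val hx2)
    (fun d hd => congrArg Subtype.val (hxc ⟨d, hd⟩))
    (fun g hg h => by
      rw [← hδx]; exact congrArg δ (Subtype.ext (hfix g hg)))
  set τ := MonoidHom.transfer δ with hτ
  have hr : τ.range ≤ δ.range := by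
    rintro _ ⟨g, rfl⟩
    haveI : Fintype (Quotient (MulAction.orbitRel (Subgroup.zpowers g) (G ⧸ (X : Subgroup G)))) := Fintype.ofFinite _
    rw [hτ, MonoidHom.transfer_eq_prod_quotient_orbitRel_zpowers_quot]
    exact Subgroup.prod_mem _ fun o _ => ⟨_, rfl⟩
  have hδ : IsPGroup 2 ↥δ.range := X.isPGroup'.of_surjective δ.rangeRestrict δ.rangeRestrict_surjective
  have hp : IsPGroup 2 ↥τ.range := hδ.to_le hr
  obtain ⟨k, hk⟩ := IsPGroup.iff_card.mp hp
  rcases k with _ | k
  · refine htr ?_
    have hb : τ.range = ⊥ := Subgroup.card_eq_one.mp (by simpa using hk)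
    exact Subgroup.mem_bot.mp (hb ▸ ⟨_, rfl⟩)
  · obtain ⟨N, hN⟩ := Sylow.exists_subgroup_card_pow_prime 2 (G := ↥τ.range) (n := k)
      (hk ▸ pow_dvd_pow 2 k.le_succ)
    refine hG (N.comap τ.rangeRestrict) ?_
    rw [Subgroup.index_comap_of_surjective _ τ.rangeRestrict_surjective]
    have := N.card_mul_index
    rw [hN, hk, pow_succ] at this
    exact Nat.eq_of_mul_eq_mul_left (by positivity) this

end Cfsg.Agent.S1906
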