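import Cfsg.Statements.S1939

set_option autoImplicit false
open Cfsg

namespace Cfsg.Agent.S1939

/-- Let S be a Sylow p-subgroup of the finite group G and a an element of S that is the only G-conjugate of a lying in S. Then every power of a has the same property: for every n, the only G-conjugate of a^n lying in S is a^n. -/
theorem result {G : Type*} [Group G] [Finite G] {p : ℕ} [Fact p.Prime] (S : Sylow p G) (a : G)
    (haS : a ∈ (S : Subgroup G)) (hwc : ∀ g : G, g * a * g⁻¹ ∈ (S : Subgroup G) → g * a * g⁻¹ = a) (n : ℕ) :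
    ∀ g : G, g * a ^ n * g⁻¹ ∈ (S : Subgroup G) → g * a ^ n * g⁻¹ = a ^ n := by
  intro g hg
  have hS : ∀ s ∈ (S : Subgroup G), s * a = a * s := fun s hs =>
    mul_inv_eq_iff_eq_mul.mp (hwc s (mul_mem (mul_mem hs haS) (inv_mem hs)))
  set b := g * a ^ n * g⁻¹ with hb
  set C := Subgroup.centralizer ({b} : Set G) with hC
  have hSb : ((g • S : Sylow p G) : Subgroup G) ≤ C := by
    intro x hx
    obtain ⟨s, hs, rfl⟩ := Subgroup.mem_map.mp hx
    rw [hC, Subgroup.mem_centralizer_singleton_iff]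
    change g * s * g⁻¹ * (g * a ^ n * g⁻¹) = g * a ^ n * g⁻¹ * (g * s * g⁻¹)
    have := (Commute.pow_right (hS s hs : Commute s a) n).eq
    rw [show g * s * g⁻¹ * (g * a ^ n * g⁻¹) = g * (s * a ^ n) * g⁻¹ by group, this]
    group
  have haC : a ∈ C := by
    rw [hC, Subgroup.mem_centralizer_singleton_iff]
    exact (hS b hg).symm
  obtain ⟨k, hk⟩ := S.isPGroup' ⟨a, haS⟩
  have hka : a ^ p ^ k = 1 := congrArg Subtype.val hk
  have hp : IsPGroup p (Subgroup.zpowers (⟨a, haC⟩ : C)) := IsPGroup.of_card (n := _) (by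
    rw [Nat.card_zpowers]
    exact ((Nat.dvd_prime_pow Fact.out).mp (orderOf_dvd_of_pow_eq_one (n := p ^ k)
      (Subtype.ext (by simpa using hka)))).choose_spec.2)
  obtain ⟨Q, hQ⟩ := hp.exists_le_sylow
  obtain ⟨c, hc⟩ := MulAction.exists_smul_eq C Q ((g • S : Sylow p G).subtype hSb)
  have hmem : (c : G) * a * (c : G)⁻¹ ∈ ((g • S : Sylow p G) : Subgroup G) := by
    have h1 : c * ⟨a, haC⟩ * c⁻¹ ∈ ((g • S : Sylow p G).subtype hSb : Subgroup C) := by
      rw [← hc]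
      exact Subgroup.mem_map.mpr ⟨_, hQ (Subgroup.mem_zpowers _), rfl⟩
    simpa [Subgroup.mem_subgroupOf] using h1
  obtain ⟨s, hs, hse⟩ := Subgroup.mem_map.mp hmem
  replace hse : g * s * g⁻¹ = (c : G) * a * (c : G)⁻¹ := hse
  have hse' : (g⁻¹ * c) * a * (g⁻¹ * c)⁻¹ = s := by
    rw [show (g⁻¹ * (c:G)) * a * (g⁻¹ * c)⁻¹ = g⁻¹ * (c * a * (c:G)⁻¹) * g by group, ← hse]; group
  have hfix := hwc _ (hse' ▸ hs)
  have hpow : (g⁻¹ * (c:G)) * a ^ n * (g⁻¹ * c)⁻¹ = a ^ n := by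
    rw [← conj_pow, hfix]
  have hcb : (c : G) * b = b * c := Subgroup.mem_centralizer_singleton_iff.mp (hC ▸ c.2)
  have h2 : (c : G) * a ^ n * (c : G)⁻¹ = b := by
    calc (c : G) * a ^ n * (c : G)⁻¹ = g * ((g⁻¹ * (c:G)) * a ^ n * (g⁻¹ * c)⁻¹) * g⁻¹ := by group
      _ = b := by rw [hpow]
  calc b = (c:G)⁻¹ * (b * c) := by rw [← hcb]; group
    _ = a ^ n := by rw [← h2]; group

end Cfsg.Agent.S1939
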