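import Cfsg.Statements.S1940

set_option autoImplicit false
open Cfsg

namespace Cfsg.Agent.S1940

/-- Let the finite group L act by automorphisms on the finite abelian group M, and let N be an L-invariant subgroup of M such that M/N is a p-group on which L acts trivially (every l • m lies in the coset mN). If every element of M is a product of an element of N and an element fixed by a Sylow p-subgroup T of L, then every element of M is a product of an element of N and an element fixed by all of L. -/
theorem result {L : Type*} [Group L] [Finite L] {M : Type*} [CommGroup M] [Finite M] [MulDistribMulAction L M]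
    {p : ℕ} [Fact p.Prime] (N : Subgroup M) (hN : ∀ (l : L) (m : M), m ∈ N → l • m ∈ N)
    (hquot : IsPGroup p (M ⧸ N)) (htriv : ∀ (l : L) (m : M), (l • m) * m⁻¹ ∈ N) (T : Sylow p L)
    (hT : ∀ m : M, ∃ n ∈ N, ∃ c : M, (∀ t ∈ (T : Subgroup L), t • c = c) ∧ m = n * c) :
    ∀ m : M, ∃ n ∈ N, ∃ c : M, (∀ l : L, l • c = c) ∧ m = n * c := by
  classical
  intro m
  obtain ⟨n, hn, c, hc, rfl⟩ := hT m
  have := Fintype.ofFinite (L ⧸ (T : Subgroup L))
  let F : L ⧸ (T : Subgroup L) → M := fun q => Quotient.liftOn' q (fun l => l • c) (fun a b hab => by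
    rw [QuotientGroup.leftRel_apply] at hab
    change a • c = b • c
    conv_lhs => rw [← hc _ hab]
    rw [← mul_smul, mul_inv_cancel_left])
  set D := ∏ q, F q with hD
  have hDfix : ∀ l : L, l • D = D := by
    intro l
    rw [hD, Finset.smul_prod']
    exact Fintype.prod_equiv (MulAction.toPerm l) _ _ (fun q => by
      induction q using Quotient.inductionOn' with
      | h a => exact (mul_smul l a c).symm)
  let π := QuotientGroup.mk' N
  have hFc : ∀ q, π (F q) = π c := fun q => by
    induction q using Quotient.inductionOn' with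
    | h a =>
      refine (QuotientGroup.eq_iff_div_mem (N := N)).mpr ?_
      rw [div_eq_mul_inv]
      exact htriv a c
  set k := Nat.card (L ⧸ (T : Subgroup L)) with hk
  have hπD : π D = π c ^ k := by
    rw [hD, map_prod, Finset.prod_congr rfl (fun q _ => hFc q), Finset.prod_const, Finset.card_univ,
      hk, Nat.card_eq_fintype_card]
  obtain ⟨e, he⟩ := hquot (π c)
  have hcop : k.Coprime (p ^ e) := by
    refine Nat.Coprime.pow_right _ ((Nat.Prime.coprime_iff_not_dvd Fact.out).mpr ?_).symm
    exact T.not_dvd_index
  obtain ⟨j, hj⟩ := exists_pow_eq_self_of_coprime (x := π c)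
    (hcop.coprime_dvd_right (orderOf_dvd_of_pow_eq_one he))
  refine ⟨n * (c * (D ^ j)⁻¹), mul_mem hn ?_, D ^ j, fun l => by rw [smul_pow', hDfix], by group⟩
  rw [← QuotientGroup.eq_one_iff]
  change π (c * (D ^ j)⁻¹) = 1
  rw [map_mul, map_inv, map_pow, hπD, hj, mul_inv_cancel]

end Cfsg.Agent.S1940
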