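import Cfsg.Statements.S1941
import Mathlib.Tactic
import Cfsg.Agent.Components.Balance

set_option autoImplicit false
open Cfsg
open scoped commutatorElement

namespace Cfsg.Agent.S1941

/-- Let G be a finite group with no nontrivial normal subgroup of order prime to p, T a Sylow p-subgroup of G and E(G) the layer of G (the subgroup generated by its components). An automorphism of G of p-power order that fixes T and E(G) elementwise is inner. -/
theorem result {G : Type*} [Group G] [Finite G] {p : ℕ} [Fact p.Prime] (hcore : Cfsg.pPrimeCore p G = ⊥)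
    (T : Sylow p G) (α : MulAut G) (hα : ∃ j : ℕ, orderOf α = p ^ j) (hfixT : ∀ x ∈ (T : Subgroup G), α x = x)
    (hfixE : ∀ x ∈ Cfsg.layer G, α x = x) : ∃ g : G, ∀ x : G, α x = g * x * g⁻¹ := by
  classical
  haveI := CfsgLib.Components.generalizedFittingSubgroup_normal (G := G)
  haveI := CfsgLib.Components.pCore_characteristic (G := G) p
  have hOT : Cfsg.pCore p G ≤ (T : Subgroup G) :=
    CfsgLib.Components.pCore_isPGroup (G := G) p |>.le_sylow_of_normal T
  have hFO := CfsgLib.Components.fitting_le_pCore (G := G) hcore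
  have hfixF : ∀ y ∈ Cfsg.generalizedFittingSubgroup G, α y = y := by
    intro y hy
    have hle : Cfsg.generalizedFittingSubgroup G ≤ MonoidHom.eqLocus α.toMonoidHom (MonoidHom.id G) :=
      sup_le (fun x hx => hfixE x hx) fun x hx => hfixT x (hOT (hFO hx))
    exact hle hy
  set F := Cfsg.generalizedFittingSubgroup G with hF
  set Z := Subgroup.centralizer (F : Set G) with hZ
  haveI : Z.Normal := Subgroup.normal_centralizer
  have hZF : Z ≤ F := CfsgLib.Components.centralizer_generalizedFittingSubgroup_le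
  have hZcomm : ∀ a b : ↥Z, a * b = b * a := fun a b =>
    Subtype.ext (Subgroup.mem_centralizer_iff.mp b.2 a (hZF a.2))
  letI : CommGroup ↥Z := { (inferInstance : Group ↥Z) with mul_comm := hZcomm }
  have hZnil : Group.IsNilpotent ↥Z := CommGroup.isNilpotent
  have hZT : Z ≤ (T : Subgroup G) :=
    ((CfsgLib.Components.le_fittingSubgroup inferInstance hZnil).trans hFO).trans hOT
  let z : G → G := fun g => g⁻¹ * α g
  have hz : ∀ g, z g ∈ Z := fun g => by
    rw [hZ, Subgroup.mem_centralizer_iff]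
    intro y hy
    have h := hfixF (g * y * g⁻¹) ((inferInstance : F.Normal).conj_mem y hy g)
    rw [map_mul, map_mul, map_inv, hfixF y hy] at h
    have h2 : α g * y = g * y * g⁻¹ * α g := by rw [← h]; group
    show y * (g⁻¹ * α g) = g⁻¹ * α g * y
    rw [mul_assoc g⁻¹, h2]
    group
  have hzt : ∀ t ∈ (T : Subgroup G), ∀ g, z (t * g) = z g := fun t ht g => by
    show (t * g)⁻¹ * α (t * g) = g⁻¹ * α g
    rw [map_mul, hfixT t ht]
    group
  have hzm : ∀ g h, z (g * h) = h⁻¹ * z g * h * z h := fun g h => by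
    show (g * h)⁻¹ * α (g * h) = h⁻¹ * (g⁻¹ * α g) * h * (h⁻¹ * α h)
    rw [map_mul]
    group
  let w : G ⧸ (T : Subgroup G) → ↥Z := fun x => Quotient.liftOn' x (fun g => (⟨z g⁻¹, hz _⟩ : ↥Z)) fun a b hab => by
    rw [QuotientGroup.leftRel_apply] at hab
    apply Subtype.ext
    show z a⁻¹ = z b⁻¹
    rw [← hzt _ hab b⁻¹]
    group
  letI : Fintype (G ⧸ (T : Subgroup G)) := Fintype.ofFinite _
  set P : ↥Z := ∏ x, w x with hP
  set n := Fintype.card (G ⧸ (T : Subgroup G)) with hn
  have hmain : ∀ g : G, P = MulAut.conjNormal g⁻¹ P * (⟨z g, hz g⟩ : ↥Z) ^ n := by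
    intro g
    conv_lhs => rw [hP, ← Equiv.prod_comp (MulAction.toPerm g⁻¹) w]
    have : ∀ x, w (MulAction.toPerm g⁻¹ x) = MulAut.conjNormal g⁻¹ (w x) * (⟨z g, hz g⟩ : ↥Z) := by
      intro x
      induction x using QuotientGroup.induction_on with
      | H a =>
        apply Subtype.ext
        show z (g⁻¹ * a)⁻¹ = g⁻¹ * z a⁻¹ * g⁻¹⁻¹ * z g
        rw [mul_inv_rev, inv_inv, hzm]
    simp only [this, Finset.prod_mul_distrib, Finset.prod_const, Finset.card_univ, ← map_prod]
    rfl
  have hco : (Nat.card ↥Z).Coprime n := by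
    obtain ⟨k, hk⟩ := IsPGroup.iff_card.mp (T.isPGroup'.to_le hZT)
    rw [hk, hn, ← Nat.card_eq_fintype_card]
    exact Nat.Coprime.pow_left _ ((Fact.out : p.Prime).coprime_iff_not_dvd.mpr T.not_dvd_index)
  obtain ⟨Q, hQ⟩ := (powCoprime hco).surjective P
  rw [powCoprime_apply] at hQ
  refine ⟨((Q⁻¹ : ↥Z) : G), fun g => ?_⟩
  have h := hmain g
  rw [← hQ, map_pow, ← mul_pow] at h
  have h2 : Q = MulAut.conjNormal g⁻¹ Q * (⟨z g, hz g⟩ : ↥Z) := (powCoprime hco).injective h
  have h3 : (Q : G) = g⁻¹ * (Q : G) * g⁻¹⁻¹ * (g⁻¹ * α g) := congrArg Subtype.val h2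
  show α g = (Q : G)⁻¹ * g * ((Q : G)⁻¹)⁻¹
  calc α g = g * (g⁻¹ * (Q : G) * g⁻¹⁻¹)⁻¹ * (g⁻¹ * (Q : G) * g⁻¹⁻¹ * (g⁻¹ * α g)) := by group
    _ = _ := by rw [← h3]; group

end Cfsg.Agent.S1941
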