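import Cfsg.Statements.S1947
import Cfsg.Agent.Transfer.SmallElements

set_option autoImplicit false
open Cfsg

namespace Cfsg.Agent.S1947

/-- Let G be a finite group and p a prime. If every element of G of order dividing p (dividing 4 when p = 2) lies in some fixed term Z_n(G) of the upper central series, then G has a normal p-complement. -/
theorem result {G : Type*} [Group G] [Finite G] {p : ℕ} [Fact p.Prime] (n : ℕ)
    (h : ∀ a : G, (a ^ p = 1 ∨ (p = 2 ∧ a ^ 4 = 1)) → a ∈ Subgroup.upperCentralSeries G n) : Cfsg.HasNormalPComplement p G := by
  exact CfsgLib.Transfer.hasNormalPComplement_of_fixes_small (default : Sylow p G) fun Q hQ m hm hmp =>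
    CfsgLib.Transfer.commute_of_small_upperCentral h (((default : Sylow p G)).isPGroup'.to_le hQ) hm hmp

end Cfsg.Agent.S1947
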