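import Cfsg.Statements.S1948
import Mathlib.Tactic
import Cfsg.Agent.PCore.PConstrained

set_option autoImplicit false
open Cfsg
open scoped commutatorElement

namespace Cfsg.Agent.S1948

/-- Let S be a Sylow p-subgroup of the finite group G. Then G = N_G(S)·O_{p'}(G) if and only if G is p-constrained and N_G(S) controls fusion in S, in the sense that whenever a subgroup Q of S has a conjugate g Q g⁻¹ inside S, the element g is a product n c with n normalizing S and c centralizing Q. -/
theorem result {G : Type*} [Group G] [Finite G] {p : ℕ} [Fact p.Prime] (S : Sylow p G) :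
    Subgroup.normalizer ((S : Subgroup G) : Set G) ⊔ Cfsg.pPrimeCore p G = ⊤ ↔
      (Cfsg.IsPConstrained p G ∧
        ∀ Q : Subgroup G, Q ≤ (S : Subgroup G) → ∀ g : G, Q.map (MulAut.conj g).toMonoidHom ≤ (S : Subgroup G) →
          ∃ n ∈ Subgroup.normalizer ((S : Subgroup G) : Set G), ∃ c ∈ Subgroup.centralizer (Q : Set G), g = n * c) := by
  haveI hK : (Cfsg.pPrimeCore p G).Normal := by haveI := CfsgLib.PCore.pPrimeCore_characteristic p G; infer_instance
  set K := Cfsg.pPrimeCore p G with hKdef
  constructor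
  · intro h
    refine ⟨CfsgLib.PCore.isPConstrained_of_isPSolvable ?_, fun Q hQ g hg => ?_⟩
    · refine CfsgLib.PCore.isPSolvable_of_normal K
        (CfsgLib.PCore.isPSolvable_of_coprime (CfsgLib.PCore.pPrimeCore_coprime p G)) ?_
      set π := QuotientGroup.mk' K with hπ
      set Sb := (S : Subgroup G).map π with hSb
      haveI : Sb.Normal := by
        refine Subgroup.normalizer_eq_top_iff.mp (eq_top_iff.mpr ?_)
        calc (⊤ : Subgroup (G ⧸ K)) = (Subgroup.normalizer ((S : Subgroup G) : Set G) ⊔ K).map π := by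
              rw [h, Subgroup.map_top_of_surjective _ (QuotientGroup.mk'_surjective K)]
          _ = (Subgroup.normalizer ((S : Subgroup G) : Set G)).map π := by
              rw [Subgroup.map_sup, hπ, QuotientGroup.map_mk'_self, sup_bot_eq]
          _ ≤ _ := Subgroup.le_normalizer_map _
      refine CfsgLib.PCore.isPSolvable_of_normal Sb (CfsgLib.PCore.isPSolvable_of_isPGroup (S.isPGroup'.map π))
        (CfsgLib.PCore.isPSolvable_of_coprime (CfsgLib.PCore.coprime_of_not_dvd ?_))
      rw [← Subgroup.index_eq_card, hSb]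
      exact fun hd => S.not_dvd_index (hd.trans (Subgroup.index_map_dvd _ (QuotientGroup.mk'_surjective K)))
    · have hgm : g ∈ ((Subgroup.normalizer ((S : Subgroup G) : Set G) ⊔ K : Subgroup G) : Set G) := by
        rw [h]; exact Subgroup.mem_top g
      rw [Subgroup.coe_mul_of_left_le_normalizer_right _ _
        (le_top.trans_eq (Subgroup.normalizer_eq_top_iff.mpr hK).symm)] at hgm
      obtain ⟨n, hn, k, hk, rfl⟩ := Set.mem_mul.mp hgm
      refine ⟨n, hn, k, Subgroup.mem_centralizer_iff.mpr fun q hq => ?_, rfl⟩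
      have h1 : n * k * q * (n * k)⁻¹ ∈ (S : Subgroup G) := hg ⟨q, hq, rfl⟩
      have h2 : k * q * k⁻¹ ∈ (S : Subgroup G) := by
        rw [SetLike.mem_coe, Subgroup.mem_normalizer_iff] at hn
        exact (hn _).mpr (by simpa [mul_assoc] using h1)
      have h3 : k * q * k⁻¹ * q⁻¹ ∈ (S : Subgroup G) ⊓ K := by
        refine ⟨(S : Subgroup G).mul_mem h2 ((S : Subgroup G).inv_mem (hQ hq)), ?_⟩
        rw [show k * q * k⁻¹ * q⁻¹ = k * (q * k⁻¹ * q⁻¹) by group]
        exact K.mul_mem hk (hK.conj_mem _ (K.inv_mem hk) q)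
      rw [CfsgLib.PCore.inf_eq_bot_of_isPGroup_of_coprime S.isPGroup' (CfsgLib.PCore.pPrimeCore_coprime p G),
        Subgroup.mem_bot, mul_inv_eq_one] at h3
      calc q * k = k * q * k⁻¹ * k := by rw [h3]
        _ = k * q := by group
  · rintro ⟨hc, hfus⟩
    haveI := CfsgLib.PCore.pPrimePCore_normal p G
    set M := Cfsg.pPrimePCore p G with hM
    obtain ⟨T⟩ : Nonempty (Sylow p ↥M) := inferInstance
    obtain ⟨U, hU⟩ := (T.isPGroup'.map M.subtype).exists_le_sylow
    obtain ⟨a, ha⟩ := MulAction.exists_smul_eq G U S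
    set T₀ := ((T : Subgroup ↥M).map M.subtype).map (MulAut.conj a).toMonoidHom with hT₀
    have hT₀S : T₀ ≤ (S : Subgroup G) := by
      rintro _ ⟨t, ht, rfl⟩
      rw [← ha, Sylow.coe_subgroup_smul]
      exact Subgroup.mem_map.2 ⟨t, hU ht, rfl⟩
    have hT₀M : T₀ ≤ M := by
      rintro _ ⟨_, ⟨t, -, rfl⟩, rfl⟩
      exact (inferInstance : M.Normal).conj_mem _ t.2 a
    have hcard : Nat.card ↥T₀ = Nat.card ↥(T : Subgroup ↥M) := by
      rw [hT₀, Subgroup.card_map_of_injective (MulEquiv.injective _), Subgroup.card_map_of_injective M.subtype_injective]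
    let T' : Sylow p ↥M := Sylow.ofCard (T₀.subgroupOf M) (by
      rw [Nat.card_congr (Subgroup.subgroupOfEquivOfLe hT₀M).toEquiv, hcard, Sylow.card_eq_multiplicity])
    have hT' : (T' : Subgroup ↥M).map M.subtype = T₀ := by
      show (T₀.subgroupOf M).map M.subtype = T₀
      rw [Subgroup.subgroupOf_map_subtype, inf_of_le_left hT₀M]
    have hsup := CfsgLib.PCore.sylow_pPrimePCore_sup T'
    rw [hT'] at hsup
    have hcent := hc T'
    rw [hT'] at hcent
    have hfr := Sylow.normalizer_sup_eq_top T'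
    rw [hT'] at hfr
    rw [eq_top_iff, ← hfr]
    have hSN : T₀ ≤ Subgroup.normalizer ((S : Subgroup G) : Set G) := hT₀S.trans Subgroup.le_normalizer
    have hMle : M ≤ Subgroup.normalizer ((S : Subgroup G) : Set G) ⊔ K := by
      exact hsup.ge.trans (sup_le le_sup_right (hSN.trans le_sup_left))
    refine sup_le (fun g hg => ?_) hMle
    obtain ⟨n, hn, c, hc', rfl⟩ := hfus T₀ hT₀S g (by
      rw [show T₀.map (MulAut.conj g).toMonoidHom = T₀ from Subgroup.mem_normalizer_iff_map_conj_eq.mp hg]
      exact hT₀S)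
    exact Subgroup.mul_mem _ (Subgroup.mem_sup_left hn) (hMle (hcent hc'))

end Cfsg.Agent.S1948
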