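import Cfsg.Statements.S1952
import Cfsg.Agent.Yoshida.Tower

set_option autoImplicit false
open Cfsg

namespace Cfsg.Agent.S1952

/-- Let P be a finite p-group with a normal elementary abelian subgroup A of index p, and let x ∈ A and y ∈ P with y outside A. If the product of the p conjugates y^(-i) x y^i (i = 0, …, p−1) is not the identity, then the wreath product Z_p ≀ Z_p, realised as a Sylow p-subgroup of the symmetric group of degree p², is a homomorphic image of P. -/
theorem result {P : Type*} [Group P] [Finite P] {p : ℕ} [Fact p.Prime] (hP : IsPGroup p P) (A : Subgroup P) [A.Normal]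
    (hA : Cfsg.IsElementaryAbelian p A) (hidx : A.index = p) (x y : P) (hx : x ∈ A) (hy : y ∉ A)
    (hprod : ((List.range p).map (fun i => (y ^ i)⁻¹ * x * y ^ i)).prod ≠ 1) :
    ∃ (Q : Sylow p (Equiv.Perm (Fin (p ^ 2)))) (f : P →* ↥(Q : Subgroup (Equiv.Perm (Fin (p ^ 2))))), Function.Surjective f := by
  classical
  haveI hcA : IsMulCommutative A := hA.1
  letI : CommGroup A := IsMulCommutative.instCommGroup
  have hc : commutator A ≤ (⊥ : Subgroup A) := by
    rw [commutator_def, Subgroup.commutator_le]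
    intro a _ b _
    exact Subgroup.mem_bot.2 (commutatorElement_eq_one_iff_mul_comm.2 (mul_comm a b))
  have hmem : ∀ i : ℕ, (y ^ i)⁻¹ * x * y ^ i ∈ A := fun i => by
    simpa using (inferInstance : A.Normal).conj_mem x hx (y ^ i)⁻¹
  have hN : (∏ i ∈ Finset.range p, (⟨_, hmem i⟩ : A)) ∉ (⊥ : Subgroup A) := by
    intro h
    refine hprod ?_
    have h1 := congrArg A.subtype (Subgroup.mem_bot.1 h)
    rw [map_one] at h1
    rw [← h1, show (∏ i ∈ Finset.range p, (⟨_, hmem i⟩ : A)) = ((List.range p).map fun i => (⟨_, hmem i⟩ : A)).prod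
      from rfl, map_list_prod, List.map_map]
    rfl
  obtain ⟨μ, -, hμ⟩ := CfsgLib.Yoshida.exists_hom_ne_one (hP.to_subgroup A) hc
    (fun a => Subgroup.mem_bot.2 (Subtype.ext (hA.2 a a.2))) hN
  rw [map_prod] at hμ
  exact CfsgLib.Yoshida.exists_wreath_quotient hP hidx μ hy ⟨x, hx⟩ hμ

end Cfsg.Agent.S1952
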