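import Cfsg.Statements.S1954
import Cfsg.Agent.ConjFunctor.FusionLift
import Cfsg.Agent.ConjFunctor.SectionFusion
import Mathlib.Tactic

set_option autoImplicit false
open Cfsg
open scoped commutatorElement

namespace Cfsg.Agent.S1954

/-- Let N be a normal subgroup of the finite group G, P a Sylow p-subgroup of G, and V a subgroup of P ∩ N normal in P ∩ N such that N_N(V) controls strong fusion in P ∩ N with respect to N (whenever a subgroup A of P ∩ N has n A n⁻¹ ≤ P ∩ N for some n in N, then n = h c with h in N_N(V) and c in C_N(A)). Let W be the subgroup generated by the conjugates of V under N_G(P ∩ N). Then N_G(W) controls strong fusion in P with respect to G. -/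
theorem result {G : Type*} [Group G] [Finite G] {p : ℕ} [Fact p.Prime] (N : Subgroup G) [N.Normal] (P : Sylow p G) (V : Subgroup G)
    (hV : V ≤ (P : Subgroup G) ⊓ N) (hVn : ∀ x ∈ (P : Subgroup G) ⊓ N, V.map (MulAut.conj x).toMonoidHom = V)
    (hctrl : ∀ A : Subgroup G, A ≤ (P : Subgroup G) ⊓ N → ∀ n ∈ N, A.map (MulAut.conj n).toMonoidHom ≤ (P : Subgroup G) ⊓ N →
      ∃ h ∈ N ⊓ Subgroup.normalizer (V : Set G), ∃ c ∈ N ⊓ Subgroup.centralizer (A : Set G), n = h * c)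
    (W : Subgroup G) (hW : W = Subgroup.closure (⋃ x ∈ Subgroup.normalizer (((P : Subgroup G) ⊓ N : Subgroup G) : Set G),
      ((V.map (MulAut.conj x).toMonoidHom : Subgroup G) : Set G))) :
    ∀ A : Subgroup G, A ≤ (P : Subgroup G) → ∀ g : G, A.map (MulAut.conj g).toMonoidHom ≤ (P : Subgroup G) →
        ∃ h ∈ Subgroup.normalizer (W : Set G), ∃ c ∈ Subgroup.centralizer (A : Set G), g = h * c := by
  classical
  set T := (P : Subgroup G) ⊓ N with hT
  have hTp : IsPGroup p T := P.isPGroup'.to_le inf_le_left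
  set X := Subgroup.normalizer (T : Set G) with hX
  have hPX : (P : Subgroup G) ≤ X := fun s hs => Subgroup.mem_normalizer_fintype fun z hz =>
    ⟨(P : Subgroup G).mul_mem ((P : Subgroup G).mul_mem hs hz.1) ((P : Subgroup G).inv_mem hs),
      Subgroup.Normal.conj_mem inferInstance z hz.2 s⟩
  -- the conjugates of `V`
  have hcx : ∀ x ∈ X, ∀ A : Subgroup G, A ≤ T → ∀ n ∈ N, (∀ a ∈ A, n * a * n⁻¹ ∈ T) →
      ∃ h ∈ N ⊓ Subgroup.normalizer ((V.map (MulAut.conj x).toMonoidHom : Subgroup G) : Set G),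
        ∃ c ∈ N ⊓ Subgroup.centralizer (A : Set G), n = h * c := by
    intro x hx A hA n hn hnA
    have hxT : ∀ a ∈ T, x⁻¹ * a * x ∈ T := fun a ha => by
      simpa using (Subgroup.mem_normalizer_iff.1 (inv_mem hx) a).1 ha
    obtain ⟨h, hh, c, hc, he⟩ := hctrl (A.map (MulAut.conj x⁻¹).toMonoidHom)
      (by rintro _ ⟨a, ha, rfl⟩; simpa using hxT a (hA ha)) (x⁻¹ * n * x)
      (by simpa using Subgroup.Normal.conj_mem (inferInstance : N.Normal) n hn x⁻¹)
      (by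
        rintro _ ⟨_, ⟨a, ha, rfl⟩, rfl⟩
        simpa [mul_assoc] using hxT _ (hnA a ha))
    refine ⟨x * h * x⁻¹, ⟨Subgroup.Normal.conj_mem inferInstance h hh.1 x, ?_⟩, x * c * x⁻¹,
      ⟨Subgroup.Normal.conj_mem inferInstance c hc.1 x, Subgroup.mem_centralizer_iff.2 fun a ha => ?_⟩, ?_⟩
    · exact Subgroup.le_normalizer_map _ ⟨h, hh.2, rfl⟩
    · have h2 := Subgroup.mem_centralizer_iff.1 hc.2 (x⁻¹ * a * x) ⟨a, ha, by simp⟩
      calc a * (x * c * x⁻¹) = x * (x⁻¹ * a * x * c) * x⁻¹ := by group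
        _ = x * (c * (x⁻¹ * a * x)) * x⁻¹ := by rw [h2]
        _ = x * c * x⁻¹ * a := by group
    · calc n = x * (x⁻¹ * n * x) * x⁻¹ := by group
        _ = _ := by rw [he]; group
  have hVT : ∀ x ∈ X, V.map (MulAut.conj x).toMonoidHom ≤ T := by
    rintro x hx _ ⟨v, hv, rfl⟩
    exact (Subgroup.mem_normalizer_iff.1 hx v).1 (hV hv)
  have hall : ∀ s : Finset G, (∀ x ∈ s, x ∈ X) → ∀ A : Subgroup G, A ≤ T → ∀ n ∈ N,
      (∀ a ∈ A, n * a * n⁻¹ ∈ T) → ∃ h ∈ N, (∀ x ∈ s,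
        h ∈ Subgroup.normalizer ((V.map (MulAut.conj x).toMonoidHom : Subgroup G) : Set G)) ∧
        ∃ c ∈ N ⊓ Subgroup.centralizer (A : Set G), n = h * c := by
    intro s
    induction s using Finset.induction with
    | empty => exact fun _ A _ n hn _ => ⟨n, hn, by simp, 1, Subgroup.one_mem _, by group⟩
    | @insert x s _ ih =>
      intro hs A hA n hn hnA
      obtain ⟨h, hhN, hh, c, hc, he⟩ := ih (fun y hy => hs y (Finset.mem_insert_of_mem hy)) A hA n hn hnA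
      have hBT : A ⊔ ⨆ y ∈ s, V.map (MulAut.conj y).toMonoidHom ≤ T ⊓ T.comap (MulAut.conj h).toMonoidHom := by
        refine sup_le (fun a ha => ⟨hA ha, ?_⟩) (iSup₂_le fun y hy => le_inf (hVT y (hs y (Finset.mem_insert_of_mem hy)))
          fun v hv => hVT y (hs y (Finset.mem_insert_of_mem hy)) ((Subgroup.mem_normalizer_iff.1 (hh y hy) v).1 hv))
        have h1 := hnA a ha
        rw [he, show h * c * a * (h * c)⁻¹ = h * (c * a) * c⁻¹ * h⁻¹ by group,
          ← Subgroup.mem_centralizer_iff.1 hc.2 a ha] at h1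
        show h * a * h⁻¹ ∈ T
        simpa [mul_assoc] using h1
      obtain ⟨h', hh', c', hc', he'⟩ := hcx x (hs x (Finset.mem_insert_self x s)) _ (fun a ha => (hBT ha).1) h hhN
        fun a ha => (hBT ha).2
      refine ⟨h', hh'.1, ?_, c' * c, ⟨N.mul_mem hc'.1 hc.1, Subgroup.mul_mem _
        (Subgroup.mem_centralizer_iff.2 fun a ha => Subgroup.mem_centralizer_iff.1 hc'.2 a (Subgroup.mem_sup_left ha))
        hc.2⟩, by rw [he, he', mul_assoc]⟩
      intro y hy
      rcases Finset.mem_insert.1 hy with rfl | hy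
      · exact hh'.2
      · have h2 : c' ∈ Subgroup.normalizer ((V.map (MulAut.conj y).toMonoidHom : Subgroup G) : Set G) :=
          Subgroup.centralizer_le_normalizer _ (Subgroup.centralizer_le
            (show V.map (MulAut.conj y).toMonoidHom ≤ A ⊔ ⨆ y ∈ s, V.map (MulAut.conj y).toMonoidHom from
              le_sup_of_le_right (le_iSup₂ (f := fun z (_ : z ∈ s) => V.map (MulAut.conj z).toMonoidHom) y hy)) hc'.2)
        rw [show h' = h * c'⁻¹ by rw [he']; group]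
        exact mul_mem (hh y hy) (inv_mem h2)
  -- `M = N_G(W)`
  have hMx : ∀ h : G, (∀ x ∈ X, h ∈ Subgroup.normalizer ((V.map (MulAut.conj x).toMonoidHom : Subgroup G) : Set G)) →
      h ∈ Subgroup.normalizer (W : Set G) := by
    intro h hh
    refine Subgroup.mem_normalizer_fintype fun w hw => ?_
    have h1 : W ≤ W.comap (MulAut.conj h).toMonoidHom := by
      conv_lhs => rw [hW]
      rw [Subgroup.closure_le]
      intro v hv
      obtain ⟨x, hx, hvx⟩ := Set.mem_iUnion₂.1 hv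
      show h * v * h⁻¹ ∈ W
      rw [hW]
      exact Subgroup.subset_closure (Set.mem_iUnion₂.2 ⟨x, hx, (Subgroup.mem_normalizer_iff.1 (hh x hx) v).1 hvx⟩)
    exact h1 hw
  set M := Subgroup.normalizer (W : Set G) with hM
  have hXM : X ≤ M := by
    intro g hg
    refine Subgroup.mem_normalizer_fintype fun w hw => ?_
    have h1 : W ≤ W.comap (MulAut.conj g).toMonoidHom := by
      conv_lhs => rw [hW]
      rw [Subgroup.closure_le]
      intro v hv
      obtain ⟨x, hx, v, hvV, rfl⟩ := Set.mem_iUnion₂.1 hv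
      show g * (x * v * x⁻¹) * g⁻¹ ∈ W
      rw [hW]
      exact Subgroup.subset_closure (Set.mem_iUnion₂.2 ⟨g * x, X.mul_mem hg hx, v, hvV, by simp [mul_assoc]⟩)
    exact h1 hw
  have hPM : (P : Subgroup G) ≤ M := hPX.trans hXM
  have hfr : N ⊔ X = ⊤ := by
    obtain ⟨R, hR⟩ := CfsgLib.Transfer.exists_sylow_map_eq_inf P N
    have h1 := Sylow.normalizer_sup_eq_top R
    rw [hR] at h1
    rw [sup_comm]
    exact h1
  have hTN : ¬ p ∣ T.relIndex N := by
    obtain ⟨R, hR⟩ := CfsgLib.Transfer.exists_sylow_map_eq_inf P N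
    have h1 : T.subgroupOf N = R := by
      rw [Subgroup.subgroupOf, hT, ← hR, Subgroup.comap_map_eq_self_of_injective N.subtype_injective]
    rw [Subgroup.relIndex, h1]
    exact R.not_dvd_index
  intro A hA g hg
  obtain ⟨x, hx, n, hn, rfl⟩ := Subgroup.mem_sup_of_normal_right.1 (show g ∈ X ⊔ N by rw [sup_comm, hfr]; trivial)
  set G' := N ⊔ (P : Subgroup G) with hG'
  haveI : (N.subgroupOf G').Normal := inferInstance
  have hG'p : ∀ y : ↥G', ∃ j : ℕ, y ^ p ^ j ∈ N.subgroupOf G' := by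
    have htop : N.subgroupOf G' ⊔ (P : Subgroup G).subgroupOf G' = ⊤ := by
      rw [← Subgroup.subgroupOf_sup le_sup_left le_sup_right, Subgroup.subgroupOf_self]
    intro y
    obtain ⟨c', hc', a, ha, rfl⟩ := Subgroup.mem_sup_of_normal_left.1 (htop.ge (Subgroup.mem_top y))
    obtain ⟨j, hj⟩ := (P.isPGroup'.of_equiv
      (Subgroup.subgroupOfEquivOfLe (le_sup_right : (P : Subgroup G) ≤ G')).symm) ⟨a, ha⟩
    refine ⟨j, (QuotientGroup.eq_one_iff _).1 ?_⟩
    rw [QuotientGroup.mk_pow, QuotientGroup.mk_mul, (QuotientGroup.eq_one_iff c').2 hc', one_mul,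
      ← QuotientGroup.mk_pow]
    exact (QuotientGroup.eq_one_iff _).2 (by
      rw [show a ^ p ^ j = 1 from congrArg Subtype.val hj]; exact Subgroup.one_mem _)
  let S' : Sylow p ↥G' := P.subtype le_sup_right
  have hS' : (S' : Subgroup ↥G') ≤ M.subgroupOf G' := fun y hy => hPM hy
  have hctl : CfsgLib.ConjFunctor.FusionLift.Ctrl p (M.subgroupOf G') (N.subgroupOf G') := by
    intro B hB hBp k hk hkB
    have hTMN : T ≤ M ⊓ N := le_inf (inf_le_left.trans hPM) inf_le_right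
    have hidx : ¬ p ∣ T.relIndex (M ⊓ N) := fun h =>
      hTN (h.trans ⟨(M ⊓ N).relIndex N, (Subgroup.relIndex_mul_relIndex T (M ⊓ N) N hTMN inf_le_right).symm⟩)
    set B₀ := B.map G'.subtype with hB₀
    have hB₀M : B₀ ≤ M ⊓ N := by rintro _ ⟨b, hb, rfl⟩; exact ⟨(hB hb).1, (hB hb).2⟩
    have hkB₀ : B₀.map (MulAut.conj (k : G)).toMonoidHom ≤ M ⊓ N := by
      rintro _ ⟨_, ⟨b, hb, rfl⟩, rfl⟩
      exact ⟨hkB b hb, Subgroup.Normal.conj_mem (inferInstance : N.Normal) _ (hB hb).2 _⟩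
    obtain ⟨m₁, hm₁, h1⟩ := CfsgLib.ConjFunctor.exists_conj_into hTMN hTp hidx hB₀M (hBp.map _)
    obtain ⟨m₂, hm₂, h2⟩ := CfsgLib.ConjFunctor.exists_conj_into hTMN hTp hidx hkB₀ ((hBp.map _).map _)
    obtain ⟨h, hh, hhX, c, hc, he⟩ := hall ((Set.toFinite (X : Set G)).toFinset) (fun y hy => by simpa using hy)
      (CfsgLib.GroupAlperin.cj B₀ m₁) h1 (m₂⁻¹ * (k : G) * m₁)
      (N.mul_mem (N.mul_mem (N.inv_mem hm₂.2) hk) hm₁.2) (fun a ha => by
        obtain ⟨b, hb, rfl⟩ := ha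
        have h3 := h2 (CfsgLib.GroupAlperin.mem_cj.2 (show m₂ * (m₂⁻¹ * ((k : G) * b * (k : G)⁻¹) * m₂) * m₂⁻¹ ∈
          B₀.map (MulAut.conj (k : G)).toMonoidHom from ⟨b, hb, by simp [mul_assoc]⟩))
        simpa [mul_assoc] using h3)
    have hhM : h ∈ M := hMx h fun y hy => hhX y (by simpa using hy)
    refine ⟨⟨m₂ * h * m₁⁻¹, Subgroup.mem_sup_left (N.mul_mem (N.mul_mem hm₂.2 hh) (N.inv_mem hm₁.2))⟩,
      ⟨M.mul_mem (M.mul_mem hm₂.1 hhM) (M.inv_mem hm₁.1), N.mul_mem (N.mul_mem hm₂.2 hh) (N.inv_mem hm₁.2)⟩,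
      ⟨m₁ * c * m₁⁻¹, Subgroup.mem_sup_left (N.mul_mem (N.mul_mem hm₁.2 hc.1) (N.inv_mem hm₁.2))⟩,
      ⟨N.mul_mem (N.mul_mem hm₁.2 hc.1) (N.inv_mem hm₁.2), Subgroup.mem_centralizer_iff.2 fun b hb =>
        Subtype.ext ?_⟩, Subtype.ext ?_⟩
    · have h5 := Subgroup.mem_centralizer_iff.1 hc.2 (m₁⁻¹ * (b : G) * m₁)
        (CfsgLib.GroupAlperin.mem_cj.2 (by
          rw [show m₁ * (m₁⁻¹ * (b : G) * m₁) * m₁⁻¹ = b by group]
          exact ⟨b, hb, rfl⟩))
      calc (b : G) * (m₁ * c * m₁⁻¹) = m₁ * (m₁⁻¹ * b * m₁ * c) * m₁⁻¹ := by group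
        _ = m₁ * (c * (m₁⁻¹ * b * m₁)) * m₁⁻¹ := by rw [h5]
        _ = m₁ * c * m₁⁻¹ * b := by group
    · show (k : G) = m₂ * h * m₁⁻¹ * (m₁ * c * m₁⁻¹)
      calc (k : G) = m₂ * (m₂⁻¹ * (k : G) * m₁) * m₁⁻¹ := by group
        _ = _ := by rw [he]; group
  obtain ⟨m, hm, c, hc, he⟩ := CfsgLib.ConjFunctor.FusionLift.exists_mul_of_ctrl (N.subgroupOf G') hG'p
    (M.subgroupOf G') S' hS' hctl (Q := A.subgroupOf G') (fun a ha => hPM (hA ha))
    ((P.isPGroup'.to_le hA).of_equiv (Subgroup.subgroupOfEquivOfLe (hA.trans le_sup_right)).symm)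
    (g := ⟨n, Subgroup.mem_sup_left hn⟩) (fun a ha => by
      have h1 := M.mul_mem (M.mul_mem (M.inv_mem (hXM hx)) (hPM (hg ⟨a, ha, rfl⟩))) (hXM hx)
      show n * (a : G) * n⁻¹ ∈ M
      simpa [mul_assoc] using h1)
  refine ⟨x * (m : G), M.mul_mem (hXM hx) hm, c, Subgroup.mem_centralizer_iff.2 fun a ha =>
    congrArg Subtype.val (Subgroup.mem_centralizer_iff.1 hc ⟨a, hA.trans le_sup_right ha⟩ ha), ?_⟩
  rw [mul_assoc, show n = (m : G) * c from congrArg Subtype.val he]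

end Cfsg.Agent.S1954
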