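import Cfsg.Statements.S1956

set_option autoImplicit false
open Cfsg

namespace Cfsg.Agent.S1956

/-- Let P be a Sylow p-subgroup of the finite group G such that every element of P of order dividing p (dividing 4 when p = 2) is central in P. Then the fusion of these elements is controlled by N_G(P): if such an element a of P has g a g⁻¹ in P, then g = n c with n normalizing P and c commuting with a. -/
theorem result {G : Type*} [Group G] [Finite G] {p : ℕ} [Fact p.Prime] (P : Sylow p G)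
    (hcen : ∀ a ∈ (P : Subgroup G), (a ^ p = 1 ∨ (p = 2 ∧ a ^ 4 = 1)) → ∀ y ∈ (P : Subgroup G), a * y = y * a) :
    ∀ a ∈ (P : Subgroup G), (a ^ p = 1 ∨ (p = 2 ∧ a ^ 4 = 1)) → ∀ g : G, g * a * g⁻¹ ∈ (P : Subgroup G) →
      ∃ n ∈ Subgroup.normalizer ((P : Subgroup G) : Set G), ∃ c : G, c * a = a * c ∧ g = n * c := by
  intro a ha hpa g hg
  set b := g * a * g⁻¹ with hb
  have hbp : b ^ p = 1 ∨ (p = 2 ∧ b ^ 4 = 1) := by
    rcases hpa with h | ⟨h1, h2⟩
    · left; rw [hb, conj_pow, h]; group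
    · right; refine ⟨h1, ?_⟩; rw [hb, conj_pow, h2]; group
  set C := Subgroup.centralizer ({b} : Set G) with hC
  have hP : (P : Subgroup G) ≤ C := fun y hy => by
    rw [hC, Subgroup.mem_centralizer_singleton_iff]
    exact (hcen b hg hbp y hy).symm
  have hgP : ((g • P : Sylow p G) : Subgroup G) ≤ C := by
    intro x hx
    obtain ⟨y, hy, rfl⟩ := Subgroup.mem_map.mp hx
    rw [hC, Subgroup.mem_centralizer_singleton_iff]
    change g * y * g⁻¹ * b = b * (g * y * g⁻¹)
    rw [hb, show g * y * g⁻¹ * (g * a * g⁻¹) = g * (y * a) * g⁻¹ by group, ← hcen a ha hpa y hy]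
    group
  obtain ⟨c, hc⟩ := MulAction.exists_smul_eq C ((g • P : Sylow p G).subtype hgP) (P.subtype hP)
  have hc' : ((c : G) * g) • P = P := by
    rw [mul_smul]
    rw [Sylow.smul_subtype] at hc
    exact Sylow.subtype_injective hc
  refine ⟨(c : G) * g, Sylow.smul_eq_iff_mem_normalizer.mp hc', ((c:G) * g)⁻¹ * g, ?_, by group⟩
  have hcb : (c : G) * b = b * c := Subgroup.mem_centralizer_singleton_iff.mp (hC ▸ c.2)
  have : (c : G)⁻¹ * b = b * (c : G)⁻¹ := by
    calc (c : G)⁻¹ * b = (c : G)⁻¹ * (b * c) * (c : G)⁻¹ := by group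
      _ = b * (c : G)⁻¹ := by rw [← hcb]; group
  calc ((c:G) * g)⁻¹ * g * a = g⁻¹ * ((c:G)⁻¹ * b) * g := by rw [hb]; group
    _ = a * (((c:G) * g)⁻¹ * g) := by rw [this, hb]; group

end Cfsg.Agent.S1956
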