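import Cfsg.Statements.S2001
import Cfsg.Agent.ConjFunctor.PairCases
-- import your own Cfsg.Agent.* helpers here

set_option autoImplicit false
open Cfsg

namespace Cfsg.Agent.S2001

/-- Let p be a prime dividing the order of the finite group G, P a Sylow p-subgroup, W a conjugacy functor for p on G with Z(H) ≤ W(H) for every nontrivial p-subgroup H, and V a central functor: a conjugacy functor with V(H) ≤ Z(H), and V(H) ≤ V(K) whenever Z(H) ≤ Z(K), for nontrivial p-subgroups H, K. Say that W with V controls transfer in a subgroup L when some Sylow p-subgroup Q of L satisfies Q ∩ L' = (Q ∩ (N_L(W(Q)))')·(Q ∩ (C_L(V(Q)))') as a product of two subgroups. If W with V controls transfer in N_G(H) for every subgroup H with Z(P) ≤ H ≤ P, then W with V controls transfer in G. -/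
theorem result {G : Type*} [Group G] [Finite G] {p : ℕ} [Fact p.Prime] (hdiv : p ∣ Nat.card G) (P : Sylow p G) (W V : Subgroup G → Subgroup G) (hW : Cfsg.IsConjugacyFunctor p W) (hV : Cfsg.IsConjugacyFunctor p V) (hWZ : ∀ H : Subgroup G, IsPGroup p ↥H → H ⊓ Subgroup.centralizer ((H : Subgroup G) : Set G) ≤ W H) (hVZ : ∀ H : Subgroup G, IsPGroup p ↥H → V H ≤ H ⊓ Subgroup.centralizer ((H : Subgroup G) : Set G)) (hVmono : ∀ H K : Subgroup G, IsPGroup p ↥H → IsPGroup p ↥K → H ≠ ⊥ → K ≠ ⊥ → H ⊓ Subgroup.centralizer ((H : Subgroup G) : Set G) ≤ K ⊓ Subgroup.centralizer ((K : Subgroup G) : Set G) → V H ≤ V K) (hloc : ∀ H : Subgroup G, (P : Subgroup G) ⊓ Subgroup.centralizer (((P : Subgroup G) : Subgroup G) : Set G) ≤ H → H ≤ (P : Subgroup G) → ∃ Q : Subgroup G, Q ≤ Subgroup.normalizer ((H : Subgroup G) : Set G) ∧ IsPGroup p ↥Q ∧ ¬ p ∣ (Q).relIndex (Subgroup.normalizer ((H : Subgroup G) : Set G)) ∧ ∀ x : G, x ∈ Q ⊓ ⁅Subgroup.normalizer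 ((H : Subgroup G) : Set G), Subgroup.normalizer ((H : Subgroup G) : Set G)⁆ ↔ ∃ a ∈ Q ⊓ ⁅Subgroup.normalizer ((H : Subgroup G) : Set G) ⊓ Subgroup.normalizer ((W Q : Subgroup G) : Set G), Subgroup.normalizer ((H : Subgroup G) : Set G) ⊓ Subgroup.normalizer ((W Q : Subgroup G) : Set G)⁆, ∃ b ∈ Q ⊓ ⁅Subgroup.normalizer ((H : Subgroup G) : Set G) ⊓ Subgroup.centralizer ((V Q : Subgroup G) : Set G), Subgroup.normalizer ((H : Subgroup G) : Set G) ⊓ Subgroup.centralizer ((V Q : Subgroup G) : Set G)⁆, x = a * b) : ∃ Q : Subgroup G, IsPGroup p ↥Q ∧ ¬ p ∣ Q.index ∧ ∀ x : G, x ∈ Q ⊓ commutator G ↔ ∃ a ∈ Q ⊓ ⁅Subgroup.normalizer ((W Q : Subgroup G) : Set G), Subgroup.normalizer ((W Q : Subgroup G) : Set G)⁆, ∃ b ∈ Q ⊓ ⁅Subgroup.centralizer ((V Q : Subgroup G) : Set G), Subgroup.centralizer ((V Q : Subgroup G) : Set G)⁆, x = a * b := by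
  have hPne : (P : Subgroup G) ≠ ⊥ := P.ne_bot_of_dvd_card hdiv
  set N₁ := Subgroup.normalizer ((W (P : Subgroup G) : Subgroup G) : Set G) with hN₁
  set N₂ := Subgroup.centralizer ((V (P : Subgroup G) : Subgroup G) : Set G) with hN₂
  have hP₁ : (P : Subgroup G) ≤ N₁ :=
    Subgroup.le_normalizer.trans (CfsgLib.ConjFunctor.normalizer_le_normalizer_functor hW P.isPGroup')
  have hP₂ : (P : Subgroup G) ≤ N₂ := fun g hg => Subgroup.mem_centralizer_iff.2 fun v hv =>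
    ((Subgroup.mem_centralizer_iff.1 (hVZ _ P.isPGroup' hv).2) g hg).symm
  set A := (P : Subgroup G) ⊓ ⁅N₁, N₁⁆ with hA
  set B := (P : Subgroup G) ⊓ ⁅N₂, N₂⁆ with hB
  have hnorm : ∀ N : Subgroup G, (P : Subgroup G) ≤ N →
      (P : Subgroup G) ≤ Subgroup.normalizer (((P : Subgroup G) ⊓ ⁅N, N⁆ : Subgroup G) : Set G) := by
    intro N hN g hg
    refine Subgroup.mem_normalizer_fintype fun x hx => ⟨(P : Subgroup G).mul_mem ((P : Subgroup G).mul_mem hg hx.1)
      ((P : Subgroup G).inv_mem hg), ?_⟩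
    exact (Subgroup.mem_normalizer_iff.1 (
      (show N ≤ Subgroup.normalizer ((⁅N, N⁆ : Subgroup G) : Set G) from fun y hy => by
        rw [Subgroup.mem_normalizer_iff_map_conj_eq, Subgroup.map_commutator,
          Subgroup.mem_normalizer_iff_map_conj_eq.1 (Subgroup.le_normalizer hy)]) (hN hg)) x).1 hx.2
  have hR := CfsgLib.ConjFunctor.PairEngine.good_transGood (G := G) (P : Subgroup G) (A ⊔ B)
  have hmoves : ∀ N : Subgroup G, (P : Subgroup G) ⊓ ⁅N, N⁆ ≤ A ⊔ B → (P : Subgroup G) ≤ N →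
      CfsgLib.ConjFunctor.PairEngine.MovesGood (CfsgLib.ConjFunctor.PairEngine.TransGood (A ⊔ B)) (P : Subgroup G) N := by
    intro N hle hN S m hm hS hmS a ha
    refine hle ⟨(P : Subgroup G).mul_mem ((P : Subgroup G).inv_mem (hS a ha)) (hmS a ha), ?_⟩
    have := CfsgLib.ConjFunctor.commutator_mem (hN (hS a ha)) (N.inv_mem hm)
    simpa using this
  have hall := CfsgLib.ConjFunctor.PairEngine.engine (W := W) (V := V) hW P hPne hWZ hVmono hR
    (hmoves N₁ le_sup_left hP₁) (hmoves N₂ le_sup_right hP₂) ?_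
  · have hfoc : (P : Subgroup G) ⊓ commutator G ≤ A ⊔ B := by
      rw [commutator_def]
      exact CfsgLib.ConjFunctor.PairEngine.inf_commutator_le_of_moves le_top P.isPGroup'
        (by rw [Subgroup.relIndex_top_right]; exact P.not_dvd_index) hall
    refine ⟨P, P.isPGroup', P.not_dvd_index, fun x => ⟨fun hx => ?_, ?_⟩⟩
    · have h : x ∈ ((A ⊔ B : Subgroup G) : Set G) := hfoc hx
      rw [Subgroup.coe_mul_of_left_le_normalizer_right A B (inf_le_left.trans (hnorm N₂ hP₂))] at h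
      obtain ⟨a, ha, b, hb, h⟩ := Set.mem_mul.1 h
      exact ⟨a, ha, b, hb, h.symm⟩
    · rintro ⟨a, ha, b, hb, rfl⟩
      refine ⟨(P : Subgroup G).mul_mem ha.1 hb.1, ?_⟩
      rw [commutator_def]
      exact Subgroup.mul_mem _ (Subgroup.commutator_mono le_top le_top ha.2) (Subgroup.commutator_mono le_top le_top hb.2)
  intro T hZT hT hext hWg hVg
  obtain ⟨Q, hQH, hQp, hQidx, hQ⟩ := hloc T hZT hT
  obtain ⟨k, hk, hkD⟩ := CfsgLib.ConjFunctor.exists_conj_eq inf_le_right (P.isPGroup'.to_le inf_le_left) hext hQH hQp hQidx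
  set H := Subgroup.normalizer ((T : Subgroup G) : Set G) with hH
  set D := (P : Subgroup G) ⊓ H with hD
  have hDp : IsPGroup p ↥D := P.isPGroup'.to_le inf_le_left
  have hHk : CfsgLib.GroupAlperin.cj H k = H := CfsgLib.GroupAlperin.cj_eq_self (Subgroup.le_normalizer hk)
  have hWD : CfsgLib.GroupAlperin.cj (Subgroup.normalizer ((W Q : Subgroup G) : Set G)) k =
      Subgroup.normalizer ((W D : Subgroup G) : Set G) := by
    rw [CfsgLib.GroupAlperin.cj_normalizer, ← CfsgLib.ConjFunctor.conj_functor_cj hW hQp, hkD]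
  have hVD : CfsgLib.GroupAlperin.cj (Subgroup.centralizer ((V Q : Subgroup G) : Set G)) k =
      Subgroup.centralizer ((V D : Subgroup G) : Set G) := by
    rw [CfsgLib.ConjFunctor.PairEngine.cj_centralizer, ← CfsgLib.ConjFunctor.conj_functor_cj hV hQp, hkD]
  have hDW : D ≤ H ⊓ Subgroup.normalizer ((W D : Subgroup G) : Set G) := le_inf inf_le_right
    (Subgroup.le_normalizer.trans (CfsgLib.ConjFunctor.normalizer_le_normalizer_functor hW hDp))
  have hDV : D ≤ H ⊓ Subgroup.centralizer ((V D : Subgroup G) : Set G) := le_inf inf_le_right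
    fun g hg => Subgroup.mem_centralizer_iff.2 fun v hv =>
      ((Subgroup.mem_centralizer_iff.1 (hVZ _ hDp hv).2) g hg).symm
  have hsub : ∀ L : Subgroup G, D ≤ L → L ≤ H →
      CfsgLib.ConjFunctor.PairEngine.MovesGood (CfsgLib.ConjFunctor.PairEngine.TransGood (A ⊔ B)) D L →
      D ⊓ ⁅L, L⁆ ≤ A ⊔ B := fun L hDL hLH h =>
    CfsgLib.ConjFunctor.PairEngine.inf_commutator_le_of_moves hDL hDp
      (fun hd => hext (hd.trans ⟨_, (Subgroup.relIndex_mul_relIndex D L H hDL hLH).symm⟩)) h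
  have h1 := hsub _ hDW inf_le_left hWg
  have h2 := hsub _ hDV inf_le_left hVg
  intro S m hm hS hmS a ha
  have hx : a⁻¹ * (m * a * m⁻¹) ∈ D ⊓ ⁅H, H⁆ := by
    refine ⟨D.mul_mem (D.inv_mem (hS a ha)) (hmS a ha), ?_⟩
    have := CfsgLib.ConjFunctor.commutator_mem (hS a ha).2 (H.inv_mem hm)
    simpa using this
  rw [← hkD, ← hHk, ← CfsgLib.ConjFunctor.cj_commutator, ← CfsgLib.GroupAlperin.cj_inf,
    CfsgLib.GroupAlperin.mem_cj] at hx
  obtain ⟨u, hu, v, hv, huv⟩ := (hQ _).1 hx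
  have hu' : k⁻¹ * u * k ∈ A ⊔ B := h1 (by
    have h3 := CfsgLib.ConjFunctor.conj_mem_cj (g := k) hu
    rwa [CfsgLib.GroupAlperin.cj_inf, CfsgLib.ConjFunctor.cj_commutator, CfsgLib.GroupAlperin.cj_inf,
      hkD, hWD, hHk] at h3)
  have hv' : k⁻¹ * v * k ∈ A ⊔ B := h2 (by
    have h3 := CfsgLib.ConjFunctor.conj_mem_cj (g := k) hv
    rwa [CfsgLib.GroupAlperin.cj_inf, CfsgLib.ConjFunctor.cj_commutator, CfsgLib.GroupAlperin.cj_inf,
      hkD, hVD, hHk] at h3)
  have h4 := (A ⊔ B).mul_mem hu' hv'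
  have e : a⁻¹ * (m * a * m⁻¹) = k⁻¹ * u * k * (k⁻¹ * v * k) := by
    calc a⁻¹ * (m * a * m⁻¹) = k⁻¹ * (k * (a⁻¹ * (m * a * m⁻¹)) * k⁻¹) * k := by group
      _ = k⁻¹ * (u * v) * k := by rw [huv]
      _ = k⁻¹ * u * k * (k⁻¹ * v * k) := by group
  rw [e]; exact h4

end Cfsg.Agent.S2001
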