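import Cfsg.Statements.S2002
import Cfsg.Agent.ConjFunctor.PairCases
-- import your own Cfsg.Agent.* helpers here

set_option autoImplicit false
open Cfsg

namespace Cfsg.Agent.S2002

/-- Let p be a prime dividing the order of the finite group G, P a Sylow p-subgroup, W a conjugacy functor for p on G with Z(H) ≤ W(H) for every nontrivial p-subgroup H, and V a central functor (a conjugacy functor with V(H) ≤ Z(H), and V(H) ≤ V(K) whenever Z(H) ≤ Z(K)). Say that W with V controls strong fusion in a subgroup L when some Sylow p-subgroup Q of L has the property: whenever X ⊆ Q and a ∈ L with a⁻¹Xa ⊆ Q, then a = c b with c ∈ C_L(X) and b = b₁ ⋯ bₙ a product of elements each in N_L(W(Q)) or in C_L(V(Q)) such that every partial conjugate (b₁ ⋯ bₖ)⁻¹ X (b₁ ⋯ bₖ) lies in Q. If W with V controls strong fusion in N_G(H) for every subgroup H with Z(P) ≤ H ≤ P, then W with V controls strong fusion in G. -/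
theorem result {G : Type*} [Group G] [Finite G] {p : ℕ} [Fact p.Prime] (hdiv : p ∣ Nat.card G) (P : Sylow p G) (W V : Subgroup G → Subgroup G) (hW : Cfsg.IsConjugacyFunctor p W) (hV : Cfsg.IsConjugacyFunctor p V) (hWZ : ∀ H : Subgroup G, IsPGroup p ↥H → H ⊓ Subgroup.centralizer ((H : Subgroup G) : Set G) ≤ W H) (hVZ : ∀ H : Subgroup G, IsPGroup p ↥H → V H ≤ H ⊓ Subgroup.centralizer ((H : Subgroup G) : Set G)) (hVmono : ∀ H K : Subgroup G, IsPGroup p ↥H → IsPGroup p ↥K → H ≠ ⊥ → K ≠ ⊥ → H ⊓ Subgroup.centralizer ((H : Subgroup G) : Set G) ≤ K ⊓ Subgroup.centralizer ((K : Subgroup G) : Set G) → V H ≤ V K) (hloc : ∀ H : Subgroup G, (P : Subgroup G) ⊓ Subgroup.centralizer (((P : Subgroup G) : Subgroup G) : Set G) ≤ H → H ≤ (P : Subgroup G) → ∃ Q : Subgroup G, Q ≤ Subgroup.normalizer ((H : Subgroup G) : Set G) ∧ IsPGroup p ↥Q ∧ ¬ p ∣ (Q).relIndex (Subgroup.normalizer ((H : Subgroup G) : Set G)) ∧ ∀ (X : Set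 G) (a : G), X ⊆ Q → a ∈ Subgroup.normalizer ((H : Subgroup G) : Set G) → (fun x => a⁻¹ * x * a) '' X ⊆ Q → ∃ c ∈ Subgroup.normalizer ((H : Subgroup G) : Set G) ⊓ Subgroup.centralizer X, ∃ (n : ℕ) (b : Fin n → G), (∀ i, b i ∈ Subgroup.normalizer ((H : Subgroup G) : Set G) ⊓ Subgroup.normalizer ((W Q : Subgroup G) : Set G) ∨ b i ∈ Subgroup.normalizer ((H : Subgroup G) : Set G) ⊓ Subgroup.centralizer ((V Q : Subgroup G) : Set G)) ∧ a = c * (List.ofFn b).prod ∧ ∀ k : ℕ, k ≤ n → (fun x => (((List.ofFn b).take k).prod)⁻¹ * x * ((List.ofFn b).take k).prod) '' ((fun x => c⁻¹ * x * c) '' X) ⊆ Q) : ∃ Q : Subgroup G, IsPGroup p ↥Q ∧ ¬ p ∣ Q.index ∧ ∀ (X : Set G) (a : G), X ⊆ Q → (fun x => a⁻¹ * x * a) '' X ⊆ Q → ∃ c ∈ Subgroup.centralizer X, ∃ (n : ℕ) (b : Fin n → G), (∀ i, b i ∈ ⊤ ⊓ Subgroup.normalizer ((W Q : Subgroup G) : Set G) ∨ b i ∈ ⊤ ⊓ Subgroup.centralizer ((V Q : Subgroup G) : Set G)) ∧ a = c * (List.ofFn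 b).prod ∧ ∀ k : ℕ, k ≤ n → (fun x => (((List.ofFn b).take k).prod)⁻¹ * x * ((List.ofFn b).take k).prod) '' ((fun x => c⁻¹ * x * c) '' X) ⊆ Q := by
  have hPne : (P : Subgroup G) ≠ ⊥ := P.ne_bot_of_dvd_card hdiv
  set N₁ := Subgroup.normalizer ((W (P : Subgroup G) : Subgroup G) : Set G) with hN₁
  set N₂ := Subgroup.centralizer ((V (P : Subgroup G) : Subgroup G) : Set G) with hN₂
  set M : Set G := {m | m ∈ N₁ ∨ m ∈ N₂} with hM
  have hR := CfsgLib.ConjFunctor.PairEngine.good_gLink (G := G) (P : Subgroup G) M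
  have hall := CfsgLib.ConjFunctor.PairEngine.engine (W := W) (V := V) hW P hPne hWZ hVmono hR
    (CfsgLib.ConjFunctor.PairEngine.movesGood_gLink le_rfl fun m hm => Or.inl hm)
    (CfsgLib.ConjFunctor.PairEngine.movesGood_gLink le_rfl fun m hm => Or.inr hm) ?_
  · refine ⟨P, P.isPGroup', P.not_dvd_index, fun X a hX haX => ?_⟩
    have haX' : ∀ x ∈ X, a⁻¹ * x * a⁻¹⁻¹ ∈ (P : Subgroup G) := fun x hx => by
      rw [inv_inv]; exact haX ⟨x, hx, rfl⟩
    obtain ⟨n, b, hb, hlast, hin⟩ :=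
      (hall X a⁻¹ (Subgroup.mem_top _) (fun x hx => hX hx) haX').exists_list
    set Pr := (List.ofFn b).prod with hPr
    have hfix : ∀ x ∈ X, (a * Pr⁻¹)⁻¹ * x * (a * Pr⁻¹) = x := fun x hx => by
      calc (a * Pr⁻¹)⁻¹ * x * (a * Pr⁻¹) = Pr * (a⁻¹ * x * a⁻¹⁻¹) * Pr⁻¹ := by group
        _ = Pr * (Pr⁻¹ * x * Pr) * Pr⁻¹ := by rw [hlast x hx]
        _ = x := by group
    refine ⟨a * Pr⁻¹, Subgroup.mem_centralizer_iff.2 fun x hx => ?_, n, b, fun i => ?_, (inv_mul_cancel_right a Pr).symm, fun k hk => ?_⟩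
    · calc x * (a * Pr⁻¹) = a * Pr⁻¹ * ((a * Pr⁻¹)⁻¹ * x * (a * Pr⁻¹)) := by group
        _ = a * Pr⁻¹ * x := by rw [hfix x hx]
    · rcases hb i with h | h
      · exact Or.inl ⟨Subgroup.mem_top _, N₁.inv_mem_iff.1 h⟩
      · exact Or.inr ⟨Subgroup.mem_top _, N₂.inv_mem_iff.1 h⟩
    · rintro _ ⟨_, ⟨x, hx, rfl⟩, rfl⟩
      simp only
      rw [hfix x hx]
      exact hin k hk ⟨x, hx, rfl⟩
  intro T hZT hT hext hWg hVg
  obtain ⟨Q, hQH, hQp, hQidx, hQ⟩ := hloc T hZT hT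
  obtain ⟨k, hk, hkD⟩ := CfsgLib.ConjFunctor.exists_conj_eq inf_le_right (P.isPGroup'.to_le inf_le_left) hext hQH hQp hQidx
  set H := Subgroup.normalizer ((T : Subgroup G) : Set G) with hH
  set D := (P : Subgroup G) ⊓ H with hD
  have hmem : ∀ {x : G}, x ∈ D ↔ k * x * k⁻¹ ∈ Q := fun {x} => by rw [← hkD, CfsgLib.GroupAlperin.mem_cj]
  have hWD : CfsgLib.GroupAlperin.cj (Subgroup.normalizer ((W Q : Subgroup G) : Set G)) k =
      Subgroup.normalizer ((W D : Subgroup G) : Set G) := by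
    rw [CfsgLib.GroupAlperin.cj_normalizer, ← CfsgLib.ConjFunctor.conj_functor_cj hW hQp, hkD]
  have hVD : CfsgLib.GroupAlperin.cj (Subgroup.centralizer ((V Q : Subgroup G) : Set G)) k =
      Subgroup.centralizer ((V D : Subgroup G) : Set G) := by
    rw [CfsgLib.ConjFunctor.PairEngine.cj_centralizer, ← CfsgLib.ConjFunctor.conj_functor_cj hV hQp, hkD]
  intro S m hm hS hmS
  obtain ⟨c, hc, n, b, hb, heq, hin⟩ := hQ ((fun x => k * x * k⁻¹) '' S) (k * m⁻¹ * k⁻¹)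
    (by rintro _ ⟨x, hx, rfl⟩; exact hmem.1 (hS x hx))
    (H.mul_mem (H.mul_mem hk (H.inv_mem hm)) (H.inv_mem hk))
    (by
      rintro _ ⟨_, ⟨x, hx, rfl⟩, rfl⟩
      have := hmem.1 (hmS x hx)
      simpa [mul_assoc] using this)
  have hcx : ∀ x ∈ S, c⁻¹ * (k * x * k⁻¹) * c = k * x * k⁻¹ := fun x hx => by
    rw [mul_assoc, Subgroup.mem_centralizer_iff.1 hc.2 (k * x * k⁻¹) ⟨x, hx, rfl⟩, inv_mul_cancel_left]
  let b' : Fin n → G := fun i => k⁻¹ * b i * k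
  have hpre : ∀ j : ℕ, ((List.ofFn b').take j).prod = k⁻¹ * ((List.ofFn b).take j).prod * k := by
    intro j
    have e : List.ofFn b' = (List.ofFn b).map (MulAut.conj k⁻¹) := by
      rw [List.map_ofFn]; congr 1; funext i; simp [b']
    rw [e, ← List.map_take, ← map_list_prod]
    simp
  have key := CfsgLib.ConjFunctor.PairEngine.good_prod hR (D := D) inf_le_left (B := S) b' (fun i C hC hbC => ?_)
    (fun j hj => ?_)
  · refine hR.congr _ _ m key fun x hx => ?_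
    have hp := hpre n
    rw [List.take_of_length_le (by simp), List.take_of_length_le (by simp)] at hp
    rw [hp]
    calc m * x * m⁻¹ = k⁻¹ * ((k * m⁻¹ * k⁻¹)⁻¹ * (k * x * k⁻¹) * (k * m⁻¹ * k⁻¹)) * k := by group
      _ = k⁻¹ * ((List.ofFn b).prod⁻¹ * (c⁻¹ * (k * x * k⁻¹) * c) * (List.ofFn b).prod) * k := by
        rw [heq]; group
      _ = _ := by rw [hcx x hx]; group
  · rcases hb i with h | h
    · refine hWg C _ (inv_mem ⟨?_, ?_⟩) hC fun x hx => by simpa using hbC x hx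
      · exact H.mul_mem (H.mul_mem (H.inv_mem hk) h.1) hk
      · rw [← hWD]; exact CfsgLib.ConjFunctor.conj_mem_cj h.2
    · refine hVg C _ (inv_mem ⟨?_, ?_⟩) hC fun x hx => by simpa using hbC x hx
      · exact H.mul_mem (H.mul_mem (H.inv_mem hk) h.1) hk
      · rw [← hVD]; exact CfsgLib.ConjFunctor.conj_mem_cj h.2
  · rintro _ ⟨x, hx, rfl⟩
    have h1 := hin j hj ⟨_, ⟨_, ⟨x, hx, rfl⟩, rfl⟩, rfl⟩
    simp only at h1
    rw [hcx x hx] at h1
    simp only [hpre]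
    rw [SetLike.mem_coe, hmem]
    simpa [mul_assoc] using h1

end Cfsg.Agent.S2002
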