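import Cfsg.Statements.S2010
import Cfsg.Agent.ZJ.ClassTwoFactor
import Cfsg.Agent.ConjFunctor.OmegaClosure
-- import your own Cfsg.Agent.* helpers here

set_option autoImplicit false
open Cfsg
open scoped commutatorElement

namespace Cfsg.Agent.S2010

/-- Let G be a finite solvable group with no section isomorphic to the symmetric group of degree 4, whose Sylow 2-subgroup S has nilpotency class at most 2. Then G = N_G(J_e(S)) · O_{2'}(G), where J_e(S) is the subgroup generated by the elementary abelian subgroups of S of largest order. -/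
theorem result {G : Type*} [Group G] [Finite G]
    [Group.IsSolvable G] (hS4 : ¬ Cfsg.Involves (Equiv.Perm (Fin 4)) G) (S : Sylow 2 G)
    (hcl : Subgroup.lowerCentralSeries (S : Subgroup G) 2 = ⊥) :
    Subgroup.normalizer ((Cfsg.thompsonSubgroupOf 2 (S : Subgroup G)) : Set G) ⊔ Cfsg.pPrimeCore 2 G = ⊤ := by
  haveI : Fact (Nat.Prime 2) := ⟨Nat.prime_two⟩
  set R := Cfsg.pPrimeCore 2 G with hR
  haveI hRn : R.Normal := Cfsg.pPrimeCore_normal 2 G
  set π := QuotientGroup.mk' R with hπ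
  have hcop : (Nat.card R).Coprime 2 := CfsgLib.PCore.pPrimeCore_coprime 2 G
  have hinj : ∀ x ∈ (S : Subgroup G), π x = 1 → x = 1 := fun x hx h1 => by
    have h2 : x ∈ (S : Subgroup G) ⊓ R := ⟨hx, (QuotientGroup.eq_one_iff x).1 h1⟩
    rwa [CfsgLib.PCore.inf_eq_bot_of_isPGroup_of_coprime S.isPGroup' hcop, Subgroup.mem_bot] at h2
  haveI : Group.IsSolvable (G ⧸ R) := Group.isSolvable_of_surjective (QuotientGroup.mk'_surjective R)
  let S' : Sylow 2 (G ⧸ R) := S.mapSurjective (QuotientGroup.mk'_surjective R)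
  have hO : Cfsg.pPrimeCore 2 (G ⧸ R) = ⊥ := CfsgLib.Components.pPrimeCore_quotient_eq_bot 2
  have hS4' : ¬ Cfsg.Involves (Equiv.Perm (Fin 4)) (G ⧸ R) := fun h => hS4 (CfsgLib.ZJ.involves_quotient R h)
  have hcomm : ∀ a ∈ (S : Subgroup G), ∀ b ∈ (S : Subgroup G), ∀ c ∈ (S : Subgroup G),
      c * ⁅a, b⁆ = ⁅a, b⁆ * c := by
    intro a ha b hb c hc
    have h1 : ⁅⁅a, b⁆, c⁆ ∈ Subgroup.lowerCentralSeries (S : Subgroup G) 2 :=
      Subgroup.commutator_mem_commutator (Subgroup.commutator_mem_commutator ha hb) hc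
    rw [hcl, Subgroup.mem_bot, commutatorElement_eq_one_iff_mul_comm] at h1
    exact h1.symm
  have hle := CfsgLib.ZJ.J_le_pCore_of_class_two hO hS4' S' (by
    rintro _ ⟨a, ha, rfl⟩ _ ⟨b, hb, rfl⟩ _ ⟨c, hc, rfl⟩
    rw [← map_commutatorElement, ← map_mul, ← map_mul, hcomm a ha b hb c hc])
  set J' := CfsgLib.ZJ.J 2 true (S' : Subgroup (G ⧸ R)) with hJ'
  have hQn : (Cfsg.pCore 2 (G ⧸ R)).Normal := Cfsg.pCore_normal 2 _
  have hJn : ∀ g : G ⧸ R, g ∈ Subgroup.normalizer (J' : Set (G ⧸ R)) := by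
    intro g
    have h1 : CfsgLib.ZJ.J 2 true (Cfsg.pCore 2 (G ⧸ R)) = J' :=
      CfsgLib.ZJ.J_eq_of_le hle (CfsgLib.PCore.pCore_le_sylow S')
    rw [← h1]
    exact CfsgLib.ZJ.normalizer_le_normalizer_J _ (by rw [Subgroup.normalizer_eq_top]; trivial)
  have hJmap : J' = (CfsgLib.ZJ.J 2 true (S : Subgroup G)).map π := CfsgLib.ZJ.J_map π hinj
  rw [CfsgLib.ZJ.thompsonSubgroupOf_eq, eq_top_iff]
  intro g _
  obtain ⟨n, hn, hng⟩ := CfsgLib.ConjFunctor.OmegaClosure.exists_lift_normalizer hcop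
    (S.isPGroup'.to_le (CfsgLib.ZJ.J_le _)) (β := π g) (hJmap ▸ hJn (π g))
  have hr : n⁻¹ * g ∈ R := QuotientGroup.eq.1 hng
  have h := Subgroup.mul_mem_sup hn hr
  rwa [mul_inv_cancel_left] at h

end Cfsg.Agent.S2010
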