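import Cfsg.Statements.S2015
import Mathlib.Tactic
import Cfsg.Agent.S1984
import Cfsg.Agent.ConjFunctor.KInf

set_option autoImplicit false
universe u
open Cfsg
open scoped commutatorElement

namespace Cfsg.Agent.S2015

/-- For p ≥ 5, every finite p-group P has a characteristic subgroup K containing Z(P), depending only on P, whose normalizer controls transfer wherever P is a Sylow subgroup: for every finite group G and every embedding ι of P onto a Sylow p-subgroup of G, the intersection of ι(P) with the derived subgroup of G equals its intersection with the derived subgroup of N_G(ι(K)). -/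
theorem result (p : ℕ) [Fact p.Prime] (hp : 5 ≤ p) (P : Type u) [Group P] [Finite P] (hP : IsPGroup p P) : ∃ K : Subgroup P, K.Characteristic ∧ Subgroup.center P ≤ K ∧ ∀ (G : Type u) [Group G] [Finite G] (ι : P →* G), Function.Injective ι → (∃ T : Sylow p G, (T : Subgroup G) = ι.range) → ι.range ⊓ commutator G = ι.range ⊓ (commutator ↥(Subgroup.normalizer ((K.map ι : Subgroup G) : Set G))).map (Subgroup.normalizer ((K.map ι : Subgroup G) : Set G)).subtype := by
  haveI := CfsgLib.KInfSeq.kInfLower_characteristic (P := P)
  refine ⟨Cfsg.kInfLower P, inferInstance, CfsgLib.KInf.center_le_kInf.1, fun G _ _ ι hι hT => ?_⟩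
  obtain ⟨T, hT⟩ := hT
  have hTp : IsPGroup p ↥ι.range := hT ▸ T.isPGroup'
  have h := CfsgLib.ConjFunctor.transfer_transport
    (CfsgLib.ConjFunctor.TransferSection.isConjugacyFunctor_induced CfsgLib.KInf.isCharPFunctor_kInfLower)
    (S1984.result (G := G) (p := p) hp) le_top hTp
    (by rw [Subgroup.relIndex_top_right, ← hT]; exact T.not_dvd_index)
  have e : Cfsg.inducedFunctor Cfsg.kInfLower ι.range = (Cfsg.kInfLower P).map ι := by
    have h1 : (ι.range).subtype.comp (MonoidHom.ofInjective hι).toMonoidHom = ι := rfl
    conv_rhs => rw [← h1, ← Subgroup.map_map, CfsgLib.KInfSeq.map_equiv_lower]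
    rfl
  rw [e] at h
  simp only [top_inf_eq] at h
  rw [← commutator_def] at h
  rw [h, Subgroup.map_subtype_commutator]

end Cfsg.Agent.S2015
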