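import Cfsg.Statements.S5422
import Cfsg.Agent.LargeEx.Conjugate
-- import your own Cfsg.Agent.* helpers here

set_option autoImplicit false
open Cfsg

namespace Cfsg.Agent.S5422

/-- Let Q be an extraspecial 2-subgroup of the finite group G whose centralizer in G is its centre Z and which is normal in the centralizer of Z; suppose Q has width at least 2 (order 2^(2w+1) with w ≥ 2) and g is an element of G not normalizing Z with g Z g⁻¹ inside Q. Then Z lies inside g Q g⁻¹; writing V for the subgroup generated by Z and g Z g⁻¹ (a four-group), the normalizer of V induces on V its full automorphism group, that is, the centralizer of V has index 6 in the normalizer of V; and Q is a large extraspecial 2-subgroup of G. -/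
theorem result {G : Type*} [Group G] [Finite G] (Q : Subgroup G) (hL1 : Cfsg.IsExtraspecial 2 ↥Q) (hL2 : Subgroup.centralizer (Q : Set G) = ((Subgroup.center ↥Q).map Q.subtype)) (hL3 : Subgroup.centralizer (((Subgroup.center ↥Q).map Q.subtype) : Set G) ≤ Subgroup.normalizer (Q : Set G)) (w : ℕ) (hw : 2 ≤ w) (hcard : Nat.card ↥Q = 2 ^ (2 * w + 1)) (g : G) (hg : g ∉ Subgroup.normalizer (((Subgroup.center ↥Q).map Q.subtype) : Set G)) (hZg : (((Subgroup.center ↥Q).map Q.subtype)).map (MulAut.conj g).toMonoidHom ≤ Q) : ((Subgroup.center ↥Q).map Q.subtype) ≤ (Q).map (MulAut.conj g).toMonoidHom ∧ (Subgroup.centralizer ((((Subgroup.center ↥Q).map Q.subtype) ⊔ (((Subgroup.center ↥Q).map Q.subtype)).map (MulAut.conj g).toMonoidHom : Subgroup G) : Set G)).relIndex (Subgroup.normalizer ((((Subgroup.center ↥Q).map Q.subtype) ⊔ (((Subgroup.center ↥Q).map Q.subtype)).map (MulAut.conj g).toMonoidHom : Subgroup G) : Set G)) = 6 ∧ Cfsg.IsLargeExtraspecial Q := by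
  obtain ⟨z, e⟩ := CfsgLib.LargeEx.exists_extraData hL1
  set s := g * z * g⁻¹ with hs
  have hzQ : z ∈ (Subgroup.center ↥Q).map Q.subtype := e.mem_center_iff.2 (Or.inr rfl)
  have hsQ : s ∈ Q := hZg ⟨z, hzQ, by simp [hs]⟩
  have hsz : s ≠ z := by
    intro h
    apply hg
    rw [e.center_eq, Subgroup.mem_normalizer_iff_map_conj_eq]
    show (Subgroup.zpowers z).map (MulAut.conj g).toMonoidHom = Subgroup.zpowers z
    rw [MonoidHom.map_zpowers]
    simp [← hs, h]
  have hs1 : s ≠ 1 := fun h => e.ne_one (conj_eq_one_iff.1 h)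
  have hs2 : s * s = 1 := by
    rw [hs]
    calc g * z * g⁻¹ * (g * z * g⁻¹) = g * (z * z) * g⁻¹ := by group
      _ = 1 := by rw [e.sq]; group
  have hC : Subgroup.centralizer (Q : Set G) ≤ Q := hL2 ▸ Subgroup.map_subtype_le _
  have hN : Subgroup.centralizer ({z} : Set G) ≤ Subgroup.normalizer (Q : Set G) :=
    fun c hc => hL3 <| Subgroup.mem_centralizer_iff.2 fun x hx => by
      rcases e.mem_center_iff.1 hx with rfl | rfl
      · simp
      · exact (Subgroup.mem_centralizer_singleton_iff.1 hc).symm
  have hcard' : 8 < Nat.card Q := by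
    rw [hcard]
    exact lt_of_lt_of_le (by norm_num) (Nat.pow_le_pow_right (by norm_num : 1 ≤ 2)
      (show 4 ≤ 2 * w + 1 by omega))
  have hzR := CfsgLib.LargeEx.mem_conj_of_conj_mem e hC hN hcard' g hsQ hsz
  have eR : CfsgLib.LargeEx.ExtraData (Q.map (MulAut.conj g).toMonoidHom) s := by
    have := e.map (MulAut.conj g).toMonoidHom (MulAut.conj g).injective
    have h2 : (MulAut.conj g).toMonoidHom z = s := by simp [hs]
    rw [h2] at this
    exact this
  refine ⟨?_, ?_, hL1, hL2, hL3, fun K hK hQK => ?_⟩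
  · intro x hx
    rcases e.mem_center_iff.1 hx with rfl | rfl
    · exact one_mem _
    · exact hzR
  · obtain ⟨q, hq, hqs⟩ := e.exists_conj_mul hsQ hs1 hsz
    obtain ⟨y, hy, hyz⟩ := eR.exists_conj_mul hzR e.ne_one (fun h => hsz h.symm)
    refine CfsgLib.LargeEx.relIndex_centralizer_fourGroup (y := y) (q := q) e.ne_one hs1 hsz e.sq hs2
      (e.comm s hsQ) hyz ?_ ?_ hqs _ ?_
    · rw [← eR.comm y hy]; group
    · rw [← e.comm q hq]; group
    · intro x
      constructor
      · intro hx
        let W : Subgroup G :=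
          { carrier := {x | x = 1 ∨ x = z ∨ x = s ∨ x = z * s}
            one_mem' := Or.inl rfl
            inv_mem' := by
              have h1 : z⁻¹ = z := e.inv_eq
              have h2 : s⁻¹ = s := inv_eq_of_mul_eq_one_right hs2
              rintro a (rfl | rfl | rfl | rfl) <;>
                simp [h1, h2, e.comm s hsQ]
            mul_mem' := by
              have h1 : z * (z * s) = s := by rw [← mul_assoc, e.sq, one_mul]
              have h3 : s * z = z * s := (e.comm s hsQ).symm
              have h4 : s * (z * s) = z := by rw [← mul_assoc, h3, mul_assoc, hs2, mul_one]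
              have h5 : z * s * z = s := by rw [mul_assoc, h3, h1]
              have h6 : z * s * s = z := by rw [mul_assoc, hs2, mul_one]
              have h7 : z * s * (z * s) = 1 := by rw [mul_assoc, h4, e.sq]
              rintro a b (rfl | rfl | rfl | rfl) (rfl | rfl | rfl | rfl) <;>
                simp [e.sq, hs2, h1, h3, h4, h5, h6, h7] }
        refine (sup_le (c := W) ?_ ?_ : _ ≤ W) hx
        · intro a ha
          rcases e.mem_center_iff.1 ha with rfl | rfl
          · exact one_mem _
          · exact Or.inr (Or.inl rfl)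
        · rintro _ ⟨a, ha, rfl⟩
          rcases e.mem_center_iff.1 ha with rfl | rfl
          · simp
          · exact Or.inr (Or.inr (Or.inl (by simp [hs])))
      · have hsV : s ∈ ((Subgroup.center ↥Q).map Q.subtype).map (MulAut.conj g).toMonoidHom :=
          ⟨z, hzQ, by simp [hs]⟩
        rintro (rfl | rfl | rfl | rfl)
        · exact one_mem _
        · exact Subgroup.mem_sup_left hzQ
        · exact Subgroup.mem_sup_right hsV
        · exact mul_mem (Subgroup.mem_sup_left hzQ) (Subgroup.mem_sup_right hsV)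
  · refine CfsgLib.LargeEx.odd_invariant_eq_bot e hL2 hL3 hsQ hs1 hsz hs2 ?_ hK hQK
    -- `z ∈ Q^g`, a normal 2-subgroup of `C(s)`
    have hle : Q.map (MulAut.conj g).toMonoidHom ≤ Subgroup.centralizer ({s} : Set G) :=
      fun x hx => Subgroup.mem_centralizer_singleton_iff.2 (eR.comm x hx).symm
    have hnorm : ((Q.map (MulAut.conj g).toMonoidHom).subgroupOf
        (Subgroup.centralizer ({s} : Set G))).Normal := by
      rw [Subgroup.normal_subgroupOf_iff hle]
      rintro x c ⟨a, ha, rfl⟩ hc
      have hcg : g⁻¹ * c * g ∈ Subgroup.centralizer ({z} : Set G) := by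
        rw [Subgroup.mem_centralizer_singleton_iff] at hc ⊢
        calc g⁻¹ * c * g * z = g⁻¹ * (c * s) * g := by rw [hs]; group
          _ = g⁻¹ * (s * c) * g := by rw [hc]
          _ = z * (g⁻¹ * c * g) := by rw [hs]; group
      have h := (Subgroup.mem_normalizer_iff.1 (hN hcg) a).1 ha
      refine ⟨_, h, ?_⟩
      show g * (g⁻¹ * c * g * a * (g⁻¹ * c * g)⁻¹) * g⁻¹ = c * (g * a * g⁻¹) * c⁻¹
      group
    have hp : IsPGroup 2 ↥((Q.map (MulAut.conj g).toMonoidHom).subgroupOf
        (Subgroup.centralizer ({s} : Set G))) :=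
      eR.isPGroup.of_equiv (Subgroup.subgroupOfEquivOfLe hle).symm
    show z ∈ (Cfsg.pCore 2 ↥(Subgroup.centralizer ({s} : Set G))).map
      (Subgroup.centralizer ({s} : Set G)).subtype
    refine ⟨⟨z, hle hzR⟩, ?_, rfl⟩
    exact Subgroup.mem_sSup_of_mem (S := {N | N.Normal ∧ IsPGroup 2 N}) (s := (Q.map (MulAut.conj g).toMonoidHom).subgroupOf
        (Subgroup.centralizer ({s} : Set G))) ⟨hnorm, hp⟩ hzR

end Cfsg.Agent.S5422
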