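import Cfsg.Statements.S5424
import Cfsg.Agent.Heisenberg.Transfer
import Cfsg.Agent.S5422

set_option autoImplicit false
open Cfsg

namespace Cfsg.Agent.S5424

open Matrix CfsgLib.Heisenberg

section
variable {n : ℕ}

lemma gl_det_one {m : ℕ} (A : GL (Fin m) (ZMod 2)) : (A : Matrix (Fin m) (Fin m) (ZMod 2)).det = 1 := by
  refine (zmod2_cases _).resolve_left ?_
  exact (Matrix.isUnit_iff_isUnit_det _).1 A.isUnit |>.ne_zero

lemma toGL_bijective (m : ℕ) :
    Function.Bijective (Matrix.SpecialLinearGroup.toGL : Matrix.SpecialLinearGroup (Fin m) (ZMod 2) →* GL (Fin m) (ZMod 2)) :=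
  ⟨Matrix.SpecialLinearGroup.toGL_injective, fun A => ⟨⟨A.1, gl_det_one A⟩, Units.ext rfl⟩⟩

/-- The swap of the coordinate `1` and the last one. -/
noncomputable def swapHom (n : ℕ) : GL (Fin (n + 2)) (ZMod 2) ≃* GL (Fin (n + 2)) (ZMod 2) :=
  Units.mapEquiv (Matrix.reindexAlgEquiv (ZMod 2) (ZMod 2) (Equiv.swap 1 (Fin.last n).succ)).toMulEquiv

lemma swapHom_z (hn : 1 ≤ n) (z : Matrix.SpecialLinearGroup (Fin (n + 2)) (ZMod 2))
    (hz : (z : Matrix (Fin (n + 2)) (Fin (n + 2)) (ZMod 2)) = Matrix.transvection 0 1 1) :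
    swapHom n (Matrix.SpecialLinearGroup.toGL z) = z0 n := by
  refine Units.ext ?_
  rw [z0_val]
  show Matrix.reindexAlgEquiv (ZMod 2) (ZMod 2) _ (z : Matrix (Fin (n + 2)) (Fin (n + 2)) (ZMod 2)) = _
  rw [hz, Matrix.transvection, map_add, map_one]
  congr 1
  ext i j
  rw [Matrix.reindexAlgEquiv_apply, Matrix.reindex_apply, Matrix.submatrix_apply, Equiv.symm_swap, Matrix.single_apply,
    vecMulVec_apply]
  have h0 : ∀ k : Fin (n + 2), (0 = Equiv.swap (1 : Fin (n + 2)) (Fin.last n).succ k) ↔ k = 0 := fun k => by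
    rw [eq_comm, Equiv.swap_apply_eq_iff, Equiv.swap_apply_of_ne_of_ne (by simp) (Fin.succ_ne_zero _).symm]
  have h1 : ∀ k : Fin (n + 2), (1 = Equiv.swap (1 : Fin (n + 2)) (Fin.last n).succ k) ↔ k = (Fin.last n).succ := fun k => by
    rw [eq_comm, Equiv.swap_apply_eq_iff, Equiv.swap_apply_left]
  simp only [h0, h1]
  revert j
  revert i
  refine cases3 ?_ (fun a => ?_) ?_ <;> refine cases3 ?_ (fun b => ?_) ?_ <;>
    simp [e0, eL, Fin.succ_ne_zero, last_ne_mid, mid_ne_last]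

/-- An involution conjugating the central involution into the Heisenberg group. -/
lemma exists_mover (j : Fin n) :
    ∃ x : GL (Fin (n + 2)) (ZMod 2), x * z0 n * x⁻¹ = unit (Pi.single j 1) 0 1 := by
  let X : Matrix (Fin (n + 2)) (Fin (n + 2)) (ZMod 2) := 1 + vecMulVec eL (mid (Pi.single j 1))
  have hd : ∀ m : Matrix (Fin (n + 2)) (Fin (n + 2)) (ZMod 2), m + m = 0 := fun m => by
    ext a b; simp [← two_mul, two_eq_zero₂]
  have hXX : X * X = 1 := by
    simp only [X, mul_add, add_mul, one_mul, mul_one, vecMulVec_mul_vecMulVec, mid_dot_eL, zero_smul, vecMulVec_zero,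
      add_zero]
    rw [add_assoc, hd, add_zero]
  refine ⟨⟨X, X, hXX, hXX⟩, Units.ext ?_⟩
  have hll : (eL : Fin (n + 2) → ZMod 2) ⬝ᵥ eL = 1 := by
    rw [dotProduct, Fin.sum_univ_succ, Fin.sum_univ_castSucc]; simp [eL]
  show X * ((z0 n : GL (Fin (n + 2)) (ZMod 2)) : Matrix (Fin (n + 2)) (Fin (n + 2)) (ZMod 2)) * X = mat _ _ _
  rw [z0_val, mat, mid_zero, zero_vecMulVec, add_zero, one_smul]
  simp only [X, mul_add, add_mul, one_mul, mul_one, vecMulVec_mul_vecMulVec, mid_dot_e0, mid_dot_eL, hll, zero_smul,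
    one_smul, vecMulVec_zero, add_zero]
  rw [show ∀ a b c : Matrix (Fin (n + 2)) (Fin (n + 2)) (ZMod 2), 1 + b + a + (b + c) = 1 + c + a + (b + b) from
    fun a b c => by abel, hd, add_zero]

end

/-- Let G be the special linear group of degree n + 2 over the field with two elements, n ≥ 2, let z be a transvection, and let Q be the largest normal 2-subgroup of the centralizer C of z. Then Q is extraspecial of order 2^(2n+1) with an elementary abelian subgroup of order 2^(n+1) (plus type), Q is a large extraspecial 2-subgroup of G, and C is the split extension of Q by the special linear group of degree n over the field with two elements. -/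
theorem result (n : ℕ) (hn : 2 ≤ n) (z : Matrix.SpecialLinearGroup (Fin (n + 2)) (ZMod 2)) (hz : (z : Matrix (Fin (n + 2)) (Fin (n + 2)) (ZMod 2)) = Matrix.transvection 0 1 1) (Q : Subgroup (Matrix.SpecialLinearGroup (Fin (n + 2)) (ZMod 2))) (hQ : Q = (Cfsg.pCore 2 ↥(Subgroup.centralizer ({z} : Set (Matrix.SpecialLinearGroup (Fin (n + 2)) (ZMod 2))))).map (Subgroup.centralizer ({z} : Set (Matrix.SpecialLinearGroup (Fin (n + 2)) (ZMod 2)))).subtype) : Cfsg.IsExtraspecial 2 ↥Q ∧ Nat.card ↥Q = 2 ^ (2 * n + 1) ∧ (∃ E : Subgroup (Matrix.SpecialLinearGroup (Fin (n + 2)) (ZMod 2)), E ≤ Q ∧ Cfsg.IsElementaryAbelian 2 E ∧ Nat.card ↥E = 2 ^ (n + 1)) ∧ Cfsg.IsLargeExtraspecial Q ∧ ∃ K : Subgroup (Matrix.SpecialLinearGroup (Fin (n + 2)) (ZMod 2)), K ≤ Subgroup.centralizer ({z} : Set (Matrix.SpecialLinearGroup (Fin (n + 2)) (ZMod 2))) ∧ Q ⊓ K = ⊥ ∧ Q ⊔ K = Subgroup.centralizer ({z} : Set (Matrix.SpecialLinearGroup (Fin (n + 2)) (ZMod 2))) ∧ Nonempty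 (↥K ≃* Matrix.SpecialLinearGroup (Fin n) (ZMod 2)) := by
  let f : Matrix.SpecialLinearGroup (Fin (n + 2)) (ZMod 2) →* GL (Fin (n + 2)) (ZMod 2) :=
    (swapHom n).toMonoidHom.comp Matrix.SpecialLinearGroup.toGL
  have hf : Function.Bijective f := (swapHom n).bijective.comp (toGL_bijective _)
  have hfz : f z = z0 n := swapHom_z (by omega) z hz
  obtain ⟨hQc, hEx, hcard, hEe, hCQ, hN, hcen, K, hKC, hQK, hQK', ⟨eK⟩⟩ :=
    transfer (by omega) f hf.1 (fun x _ => hf.2 x) hfz Q hQ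
  obtain ⟨x, hx⟩ := exists_mover (n := n) ⟨0, by omega⟩
  obtain ⟨g, rfl⟩ := hf.2 x
  have hgz : f (g * z * g⁻¹) = unit (Pi.single ⟨0, by omega⟩ 1) 0 1 := by
    rw [map_mul, map_mul, map_inv, hfz]; exact hx
  have hg : g ∉ Subgroup.normalizer (((Subgroup.center ↥Q).map Q.subtype) : Set _) := by
    intro hg
    rw [hcen] at hg
    have h1 := (Subgroup.mem_normalizer_iff.1 hg z).1 (Subgroup.mem_zpowers z)
    obtain ⟨k, hk⟩ := Subgroup.mem_zpowers_iff.1 h1
    have h2 : unit (Pi.single (⟨0, by omega⟩ : Fin n) (1 : ZMod 2)) 0 1 ∈ Subgroup.zpowers (z0 n) := by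
      rw [← hgz, ← hk, map_zpow, hfz]; exact Subgroup.zpow_mem_zpowers _ _
    rcases (extraData (n := n) (by omega)).mem_zpowers_iff.1 h2 with e | e
    · exact one_ne_zero (unit_injective (e.trans unit_zero.symm)).2.2
    · have := congrFun (unit_injective e).1 ⟨0, by omega⟩
      simp at this
  have hZg : (((Subgroup.center ↥Q).map Q.subtype)).map (MulAut.conj g).toMonoidHom ≤ Q := by
    rw [hcen, MonoidHom.map_zpowers, Subgroup.zpowers_le, hQc]
    show f (g * z * g⁻¹) ∈ group (ZMod 2) n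
    rw [hgz]; exact ⟨_, _, _, rfl⟩
  exact ⟨hEx, hcard, hEe, (Cfsg.Agent.S5422.result Q hEx hCQ hN n hn hcard g hg hZg).2.2, K, hKC, hQK, hQK',
    ⟨eK.trans (MulEquiv.ofBijective _ (toGL_bijective n)).symm⟩⟩

end Cfsg.Agent.S5424
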