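import Cfsg.Statements.S2133
import Cfsg.Agent.Golay.OctInvol
import Cfsg.Agent.Golay.Invol
import Cfsg.Agent.S5424

set_option autoImplicit false
open Cfsg

namespace Cfsg.Agent.S2133

/-- The Mathieu group M₂₄ (the automorphism group of the length-24 binary code) has an involution whose centraliser is isomorphic to the centraliser of a transvection in SL(5, 2) (a group of shape 2^{1+6}:GL(3, 2)). -/
theorem result (s : Matrix.SpecialLinearGroup (Fin 5) (ZMod 2)) (hs : (s : Matrix (Fin 5) (Fin 5) (ZMod 2)) = Matrix.transvection 0 1 1) : ∃ z : ↥Cfsg.M24, orderOf z = 2 ∧ Nonempty (↥(Subgroup.centralizer ({z} : Set ↥Cfsg.M24)) ≃* ↥(Subgroup.centralizer ({s} : Set (Matrix.SpecialLinearGroup (Fin 5) (ZMod 2))))) := by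
  have hs' := hs
  obtain ⟨z, hz, hfix⟩ : ∃ z : Cfsg.M24, orderOf z = 2 ∧
      (Finset.univ.filter fun p : Cfsg.GolayPt => (z : Equiv.Perm Cfsg.GolayPt) p = p) ∈ Cfsg.octads := by
    obtain ⟨hv, hmem, hsq, hne⟩ := CfsgLib.Golay.Invol.permOf_rep true
    refine ⟨⟨_, hmem⟩, orderOf_eq_prime ?_ (fun h => hne (congrArg Subtype.val h)), ?_⟩
    · exact Subtype.ext (by rw [pow_two]; exact hsq)
    · exact CfsgLib.Golay.mem_octads_iff.2 CfsgLib.Golay.Invol.rep8_fixed
  obtain ⟨G, zG, f, hzG, hf, hr, hfz, hCG⟩ := CfsgLib.Golay.OctInvol.exists_matrix_rep z hz hfix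
  refine ⟨z, hz, ?_⟩
  let φ := (Cfsg.Agent.S5424.swapHom 3).toMonoidHom.comp
    (Matrix.SpecialLinearGroup.toGL : Matrix.SpecialLinearGroup (Fin 5) (ZMod 2) →* GL (Fin 5) (ZMod 2))
  have hφ : Function.Bijective φ :=
    (Cfsg.Agent.S5424.swapHom 3).bijective.comp (Cfsg.Agent.S5424.toGL_bijective 5)
  have hφs : φ s = CfsgLib.Heisenberg.z0 3 := Cfsg.Agent.S5424.swapHom_z (n := 3) (by norm_num) s hs'
  have memM : ∀ x : G, (x : Cfsg.M24) ∈ Subgroup.centralizer ({z} : Set Cfsg.M24) ↔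
      f x ∈ CfsgLib.Heisenberg.stab 3 := by
    intro x
    rw [CfsgLib.Heisenberg.stab, Subgroup.mem_centralizer_singleton_iff, Subgroup.mem_centralizer_singleton_iff,
      ← hfz, ← map_mul, ← map_mul, hf.eq_iff, ← hzG, ← Subgroup.coe_mul, ← Subgroup.coe_mul, Subtype.coe_inj]
  have memS : ∀ x, x ∈ Subgroup.centralizer ({s} : Set (Matrix.SpecialLinearGroup (Fin 5) (ZMod 2))) ↔
      φ x ∈ CfsgLib.Heisenberg.stab 3 := by
    intro x
    rw [CfsgLib.Heisenberg.stab, Subgroup.mem_centralizer_singleton_iff, Subgroup.mem_centralizer_singleton_iff,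
      ← hφs, ← map_mul, ← map_mul, hφ.1.eq_iff]
  let a : ↥(Subgroup.centralizer ({z} : Set Cfsg.M24)) →* ↥(CfsgLib.Heisenberg.stab 3) :=
    (f.comp (Subgroup.inclusion hCG)).codRestrict _ fun x => (memM (Subgroup.inclusion hCG x)).1 x.2
  let b : ↥(Subgroup.centralizer ({s} : Set (Matrix.SpecialLinearGroup (Fin 5) (ZMod 2)))) →*
      ↥(CfsgLib.Heisenberg.stab 3) := (φ.comp (Subgroup.subtype _)).codRestrict _ fun x => (memS x.1).1 x.2
  have ha : Function.Bijective a := by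
    refine ⟨fun x y e => Subgroup.inclusion_injective hCG (hf (congrArg Subtype.val e)), fun y => ?_⟩
    obtain ⟨x, hx⟩ := hr y.2
    exact ⟨⟨x.1, (memM x).2 (hx ▸ y.2)⟩, Subtype.ext hx⟩
  have hb : Function.Bijective b := by
    refine ⟨fun x y e => Subtype.ext (hφ.1 (congrArg Subtype.val e)), fun y => ?_⟩
    obtain ⟨x, hx⟩ := hφ.2 y.1
    exact ⟨⟨x, (memS x).2 (hx ▸ y.2)⟩, Subtype.ext hx⟩
  exact ⟨(MulEquiv.ofBijective a ha).trans (MulEquiv.ofBijective b hb).symm⟩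

end Cfsg.Agent.S2133
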