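import Cfsg.Statements.S2162
import Mathlib

set_option autoImplicit false
open Cfsg

namespace Cfsg.Agent.S2162

/-- Conjugacy of involutions in the special linear group over a finite field of characteristic two, in dimension at least 3: two elements of order 2 of SL_n(F) are conjugate in SL_n(F) exactly when the matrices a − 1 and b − 1 have the same rank (the rank of a − 1 is the dimension of the commutator space [V, a]). -/
theorem result {F : Type*} [Field F] [Fintype F] [CharP F 2] {n : ℕ} (hn : 3 ≤ n) (a b : Matrix.SpecialLinearGroup (Fin n) F) (ha : orderOf a = 2) (hb : orderOf b = 2) :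
    IsConj a b ↔ ((a : Matrix (Fin n) (Fin n) F) - 1).rank = ((b : Matrix (Fin n) (Fin n) F) - 1).rank := by
  classical
  constructor
  · intro h
    obtain ⟨c, rfl⟩ := isConj_iff.mp h
    have hc : ((c * a * c⁻¹ : Matrix.SpecialLinearGroup (Fin n) F) : Matrix (Fin n) (Fin n) F) - 1 =
        (c : Matrix (Fin n) (Fin n) F) * ((a : Matrix (Fin n) (Fin n) F) - 1) *
          ((c⁻¹ : Matrix.SpecialLinearGroup (Fin n) F) : Matrix (Fin n) (Fin n) F) := by
      rw [mul_sub, sub_mul, mul_one, ← Matrix.SpecialLinearGroup.coe_mul,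
        ← Matrix.SpecialLinearGroup.coe_mul, ← Matrix.SpecialLinearGroup.coe_mul, mul_inv_cancel,
        Matrix.SpecialLinearGroup.coe_one]
    rw [hc, Matrix.rank_mul_eq_left_of_isUnit_det _ _ (by rw [(c⁻¹).2]; exact isUnit_one),
      Matrix.rank_mul_eq_right_of_isUnit_det _ _ (by rw [c.2]; exact isUnit_one)]
  intro hrank
  set r := ((a : Matrix (Fin n) (Fin n) F) - 1).rank with hr
  have h2 : (2 : F) = 0 := CharTwo.two_eq_zero
  have key : ∀ (x : Matrix.SpecialLinearGroup (Fin n) F), orderOf x = 2 →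
      ((x : Matrix (Fin n) (Fin n) F) - 1).rank = r →
      ∃ (e : (Fin r ⊕ (Fin r ⊕ Fin (n - 2 * r))) ≃ Fin n) (_ : 0 < r), ∀ e' : (Fin r ⊕ (Fin r ⊕ Fin (n - 2 * r))) ≃ Fin n,
      ∀ Mo : (Fin n → F) →ₗ[F] (Fin n → F), (∀ v k, Mo v k =
          match e'.symm k with | Sum.inr (Sum.inl i) => v (e' (Sum.inl i)) | _ => 0) →
      ∃ Q : Matrix.SpecialLinearGroup (Fin n) F,
        ((x : Matrix (Fin n) (Fin n) F) - 1) * (Q : Matrix (Fin n) (Fin n) F) =
          (Q : Matrix (Fin n) (Fin n) F) * LinearMap.toMatrix' Mo := by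
    intro x hx hrx
    set N := (x : Matrix (Fin n) (Fin n) F) - 1 with hN
    have hxx : (x : Matrix (Fin n) (Fin n) F) * x = 1 := by
      rw [← Matrix.SpecialLinearGroup.coe_mul, ← pow_two, ← hx, pow_orderOf_eq_one]; rfl
    have hNN : N * N = 0 := by
      rw [hN, sub_mul, mul_sub, hxx, one_mul, mul_one]
      ext i j
      simp only [Matrix.sub_apply, Matrix.zero_apply]
      linear_combination ((1 : Matrix (Fin n) (Fin n) F) i j - (x : Matrix (Fin n) (Fin n) F) i j) * h2
    set f := N.mulVecLin with hf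
    have hff : ∀ v, f (f v) = 0 := fun v => by simp [hf, hNN]
    have hrf : Module.finrank F (LinearMap.range f) = r := hrx
    have hker : Module.finrank F (LinearMap.ker f) = n - r := by
      have := LinearMap.finrank_range_add_finrank_ker f
      rw [Module.finrank_fin_fun] at this; omega
    have himk : LinearMap.range f ≤ LinearMap.ker f := by
      rintro _ ⟨v, rfl⟩; exact hff v
    have h2r : 2 * r ≤ n := by
      have := Submodule.finrank_mono himk
      have := Submodule.finrank_le (LinearMap.range f)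
      rw [Module.finrank_fin_fun] at this
      omega
    have hr0 : 0 < r := by
      by_contra h0
      have : LinearMap.range f = ⊥ := Submodule.finrank_eq_zero.mp (by omega)
      rw [LinearMap.range_eq_bot] at this
      have hN0 : N = 0 := Matrix.toLin'.injective (by rw [map_zero]; exact this)
      have : x = 1 := Subtype.ext (sub_eq_zero.mp hN0)
      rw [this, orderOf_one] at hx; omega
    refine ⟨Fintype.equivOfCardEq (by simp; omega), hr0, fun e Mo hMo => ?_⟩
    obtain ⟨C, hC⟩ := (LinearMap.ker f).exists_isCompl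
    obtain ⟨X, hX⟩ := (LinearMap.range f).exists_isCompl
    set W := X ⊓ LinearMap.ker f with hW
    have hsup : LinearMap.range f ⊔ W = LinearMap.ker f := by
      rw [hW, ← sup_inf_assoc_of_le X himk, hX.sup_eq_top, top_inf_eq]
    have hdisj : LinearMap.range f ⊓ W = ⊥ :=
      le_bot_iff.mp ((inf_le_inf_left _ inf_le_left).trans hX.inf_eq_bot.le)
    have hWr : Module.finrank F W = n - 2 * r := by
      have := Submodule.finrank_sup_add_finrank_inf_eq (LinearMap.range f) W
      rw [hsup, hdisj, finrank_bot, hker, hrf] at this; omega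
    have hCr : Module.finrank F C = r := by
      have := Submodule.finrank_add_eq_of_isCompl hC
      rw [hker, Module.finrank_fin_fun] at this; omega
    let bC := Module.finBasisOfFinrankEq F C hCr
    let bW := Module.finBasisOfFinrankEq F W hWr
    let cmap : (Fin r → F) →ₗ[F] (Fin n → F) := C.subtype ∘ₗ bC.equivFun.symm.toLinearMap
    let wmap : (Fin (n - 2 * r) → F) →ₗ[F] (Fin n → F) := W.subtype ∘ₗ bW.equivFun.symm.toLinearMap
    let Φ : (Fin n → F) →ₗ[F] (Fin n → F) :=
      cmap ∘ₗ LinearMap.funLeft F F (fun i => e (Sum.inl i)) +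
      f ∘ₗ cmap ∘ₗ LinearMap.funLeft F F (fun i => e (Sum.inr (Sum.inl i))) +
      wmap ∘ₗ LinearMap.funLeft F F (fun i => e (Sum.inr (Sum.inr i)))
    have hwk : ∀ z, f (wmap z) = 0 := fun z => (bW.equivFun.symm z).2.2
    have hΦ : ∀ v, f (Φ v) = f (cmap (fun i => v (e (Sum.inl i)))) := by
      intro v
      show f (_ + f _ + wmap _) = _
      rw [map_add, map_add, hff, hwk, add_zero, add_zero]
      rfl
    have hinj : Function.Injective Φ := by
      rw [← LinearMap.ker_eq_bot, LinearMap.ker_eq_bot']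
      intro v hv
      have cinj : ∀ u, f (cmap u) = 0 → u = 0 := by
        intro u hu
        have h1 : cmap u ∈ LinearMap.ker f ⊓ C := ⟨hu, (bC.equivFun.symm u).2⟩
        rw [hC.inf_eq_bot, Submodule.mem_bot] at h1
        apply bC.equivFun.symm.injective
        rw [map_zero]; exact Subtype.ext h1
      have hx0 : (fun i => v (e (Sum.inl i))) = 0 := cinj _ (by rw [← hΦ, hv, map_zero])
      have h3 : f (cmap fun i => v (e (Sum.inr (Sum.inl i)))) +
          wmap (fun i => v (e (Sum.inr (Sum.inr i)))) = 0 := by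
        have h4 : cmap (fun i => v (e (Sum.inl i))) + f (cmap fun i => v (e (Sum.inr (Sum.inl i)))) +
          wmap (fun i => v (e (Sum.inr (Sum.inr i)))) = 0 := hv
        rwa [hx0, map_zero, zero_add] at h4
      have hw0 : wmap (fun i => v (e (Sum.inr (Sum.inr i)))) = 0 := by
        have h4 : wmap (fun i => v (e (Sum.inr (Sum.inr i)))) ∈ LinearMap.range f ⊓ W := by
          refine ⟨?_, (bW.equivFun.symm _).2⟩
          rw [eq_neg_of_add_eq_zero_right h3]
          exact neg_mem ⟨_, rfl⟩
        rwa [hdisj, Submodule.mem_bot] at h4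
      rw [hw0, add_zero] at h3
      have hy0 := cinj _ h3
      have hz0 : (fun i => v (e (Sum.inr (Sum.inr i)))) = 0 := by
        apply bW.equivFun.symm.injective
        rw [map_zero]; exact Subtype.ext hw0
      funext k
      obtain ⟨s, rfl⟩ := e.surjective k
      rcases s with i | i | i
      · exact congrFun hx0 i
      · exact congrFun hy0 i
      · exact congrFun hz0 i
    have hint : ∀ v, f (Φ v) = Φ (Mo v) := by
      intro v
      rw [hΦ]
      show _ = cmap (fun i => Mo v (e (Sum.inl i))) + f (cmap fun i => Mo v (e (Sum.inr (Sum.inl i)))) +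
        wmap (fun i => Mo v (e (Sum.inr (Sum.inr i))))
      have e1 : (fun i => Mo v (e (Sum.inl i))) = 0 := by funext i; simp [hMo]
      have e2 : (fun i => Mo v (e (Sum.inr (Sum.inl i)))) = fun i => v (e (Sum.inl i)) := by
        funext i; simp [hMo]
      have e3 : (fun i => Mo v (e (Sum.inr (Sum.inr i)))) = 0 := by funext i; simp [hMo]
      rw [e1, e2, e3, map_zero, map_zero, zero_add, add_zero]
    set P := LinearMap.toMatrix' Φ with hP
    have hPinj : Function.Injective P.mulVec := fun u v h => hinj (by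
      rw [← LinearMap.toMatrix'_mulVec Φ u, ← LinearMap.toMatrix'_mulVec Φ v]; exact h)
    have hPd : P.det ≠ 0 :=
      ((Matrix.isUnit_iff_isUnit_det P).mp (Matrix.mulVec_injective_iff_isUnit.mp hPinj)).ne_zero
    obtain ⟨s, hs⟩ : ∃ s : F, s * s = P.det⁻¹ := by
      obtain ⟨s, hs⟩ := FiniteField.isSquare_of_char_two (F := F) (ringChar.eq F 2) P.det⁻¹
      exact ⟨s, hs.symm⟩
    let d : Fin n → F := fun k => match e.symm k with
      | Sum.inl i => if i = ⟨0, hr0⟩ then s else 1
      | Sum.inr (Sum.inl i) => if i = ⟨0, hr0⟩ then s else 1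
      | Sum.inr (Sum.inr _) => 1
    have hdprod : ∏ k, d k = s * s := by
      rw [← e.prod_comp, Fintype.prod_sum_type, Fintype.prod_sum_type]
      simp [d, Finset.prod_ite_eq']
    let Dl : (Fin n → F) →ₗ[F] (Fin n → F) :=
      { toFun := fun v k => d k * v k
        map_add' := fun u v => by funext k; simp [mul_add]
        map_smul' := fun c v => by funext k; simp [mul_left_comm] }
    have hcomm : Mo ∘ₗ Dl = Dl ∘ₗ Mo := by
      refine LinearMap.ext fun v => funext fun k => ?_
      show Mo (fun j => d j * v j) k = d k * Mo v k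
      rw [hMo, hMo]
      obtain ⟨t, rfl⟩ := e.surjective k
      rcases t with i | i | i <;> simp [d]
    have hD : LinearMap.toMatrix' Dl = Matrix.diagonal d := by
      ext i j
      by_cases hij : i = j
      · subst hij; simp [LinearMap.toMatrix'_apply, Dl]
      · simp [LinearMap.toMatrix'_apply, Dl, hij]
    refine ⟨⟨P * Matrix.diagonal d, by
      rw [Matrix.det_mul, Matrix.det_diagonal, hdprod, hs, mul_inv_cancel₀ hPd]⟩, ?_⟩
    show N * (P * Matrix.diagonal d) = P * Matrix.diagonal d * LinearMap.toMatrix' Mo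
    have hNP : N * P = P * LinearMap.toMatrix' Mo := by
      rw [hP, ← LinearMap.toMatrix'_comp, show Φ ∘ₗ Mo = f ∘ₗ Φ from LinearMap.ext fun v => (hint v).symm,
        LinearMap.toMatrix'_comp]
      congr 1
      exact (LinearMap.toMatrix'_toLin' N).symm
    rw [← Matrix.mul_assoc, hNP, Matrix.mul_assoc, Matrix.mul_assoc, ← hD,
      ← LinearMap.toMatrix'_comp, ← LinearMap.toMatrix'_comp, hcomm]
    rw [LinearMap.toMatrix'_comp, LinearMap.toMatrix'_comp, ← hP]
  obtain ⟨e, hr0, hA⟩ := key a ha rfl
  obtain ⟨-, -, hB⟩ := key b hb hrank.symm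
  let g : (Fin r ⊕ (Fin r ⊕ Fin (n - 2 * r))) → (Fin n → F) →ₗ[F] F := fun t =>
    match t with | Sum.inr (Sum.inl i) => LinearMap.proj (e (Sum.inl i)) | _ => 0
  let Mo : (Fin n → F) →ₗ[F] (Fin n → F) := LinearMap.pi fun k => g (e.symm k)
  have hMo : ∀ v k, Mo v k =
      match e.symm k with | Sum.inr (Sum.inl i) => v (e (Sum.inl i)) | _ => 0 := by
    intro v k
    show g (e.symm k) v = _
    rcases e.symm k with i | i | i <;> rfl
  obtain ⟨P, hP⟩ := hA e Mo hMo
  obtain ⟨Q, hQ⟩ := hB e Mo hMo
  refine isConj_iff.mpr ⟨Q * P⁻¹, ?_⟩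
  have hcore : ∀ (x R : Matrix.SpecialLinearGroup (Fin n) F),
      ((x : Matrix (Fin n) (Fin n) F) - 1) * (R : Matrix (Fin n) (Fin n) F) =
        (R : Matrix (Fin n) (Fin n) F) * LinearMap.toMatrix' Mo →
      ((R⁻¹ * x * R : Matrix.SpecialLinearGroup (Fin n) F) : Matrix (Fin n) (Fin n) F) =
        1 + LinearMap.toMatrix' Mo := by
    intro x R h
    rw [sub_mul, one_mul, sub_eq_iff_eq_add] at h
    rw [Matrix.SpecialLinearGroup.coe_mul, Matrix.SpecialLinearGroup.coe_mul, Matrix.mul_assoc, h,
      Matrix.mul_add, ← Matrix.mul_assoc, ← Matrix.SpecialLinearGroup.coe_mul, inv_mul_cancel,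
      Matrix.SpecialLinearGroup.coe_one, Matrix.one_mul, add_comm]
  have : P⁻¹ * a * P = Q⁻¹ * b * Q := Subtype.ext ((hcore a P hP).trans (hcore b Q hQ).symm)
  calc Q * P⁻¹ * a * (Q * P⁻¹)⁻¹ = Q * (P⁻¹ * a * P) * Q⁻¹ := by group
  _ = b := by rw [this]; group

end Cfsg.Agent.S2162
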