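import Cfsg.Statements.S2163
import Cfsg.Agent.BlockInvolution.Rank
-- import your own Cfsg.Agent.* helpers here

set_option autoImplicit false
open Cfsg

namespace Cfsg.Agent.S2163

/-- Over a finite field of characteristic two and for n ≥ 3: for every ℓ with 1 ≤ ℓ and 2ℓ ≤ n, the matrix j_ℓ that is the identity plus the entries 1 in positions (n − ℓ + i, i) for i < ℓ (an identity block of size ℓ in the lower left corner) lies in SL_n(F), has order 2, and j_ℓ − 1 has rank ℓ. Together with the conjugacy criterion by rank, these matrices represent the conjugacy classes of involutions of SL_n(F). -/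
theorem result {F : Type*} [Field F] [Fintype F] [CharP F 2] {n : ℕ} (hn : 3 ≤ n) (ℓ : ℕ) (h1 : 1 ≤ ℓ) (h2 : 2 * ℓ ≤ n) :
    ∃ a : Matrix.SpecialLinearGroup (Fin n) F, (a : Matrix (Fin n) (Fin n) F) = 1 + Matrix.of (fun i j : Fin n => if j.val < ℓ ∧ i.val = j.val + (n - ℓ) then (1 : F) else 0) ∧ orderOf a = 2 ∧ ((a : Matrix (Fin n) (Fin n) F) - 1).rank = ℓ := by
  classical
  set N : Matrix (Fin n) (Fin n) F := Matrix.of (fun i j : Fin n =>
    if j.val < ℓ ∧ i.val = j.val + (n - ℓ) then (1 : F) else 0) with hN
  have hN2 : N * N = 0 := by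
    ext i j
    rw [Matrix.mul_apply]
    refine Finset.sum_eq_zero fun k _ => ?_
    simp only [hN, Matrix.of_apply]
    split_ifs with h3 h4 <;> first
      | exact absurd h3.1 (by omega)
      | simp
  have hdet : (1 + N).det = 1 := by
    rw [Matrix.det_of_isLowerTriangular]
    · refine Finset.prod_eq_one fun i _ => ?_
      have : ¬ (i.val < ℓ ∧ i.val = i.val + (n - ℓ)) := by omega
      simp only [Matrix.add_apply, Matrix.one_apply_eq, hN, Matrix.of_apply, if_neg this, add_zero]
    · intro i j hij
      have hlt : i < j := hij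
      have : ¬ (j.val < ℓ ∧ i.val = j.val + (n - ℓ)) := by
        have : i.val < j.val := hlt
        omega
      simp [hN, this, hlt.ne]
  set A : Matrix (Fin n) (Fin ℓ) F := Matrix.of (fun i k => if i.val = k.val + (n - ℓ) then 1 else 0) with hA
  set B : Matrix (Fin ℓ) (Fin n) F := Matrix.of (fun k j => if j.val = k.val then 1 else 0) with hB
  have hAB : N = A * B := by
    ext i j
    rw [Matrix.mul_apply]
    by_cases hj : j.val < ℓ
    · rw [Finset.sum_eq_single (⟨j.val, hj⟩ : Fin ℓ)]
      · simp [hN, hA, hB, hj]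
      · intro k _ hk
        have : ¬ j.val = k.val := fun h => hk (Fin.ext h.symm)
        simp [hB, this]
      · simp
    · rw [Finset.sum_eq_zero]
      · simp [hN, hj]
      · intro k _
        have : ¬ j.val = k.val := fun h => hj (h ▸ k.2)
        simp [hB, this]
  have hrank : N.rank = ℓ := by
    rw [hAB]
    refine CfsgLib.BlockInvolution.rank_mul_eq_of_inverses A B A.transpose B.transpose ?_ ?_
    · ext k k'
      rw [Matrix.mul_apply, Finset.sum_eq_single (⟨k.val + (n - ℓ), by omega⟩ : Fin n)]
      · simp [hA, Matrix.one_apply, Fin.ext_iff]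
      · intro i _ hi
        have : ¬ i.val = k.val + (n - ℓ) := fun h => hi (Fin.ext h)
        simp [hA, this]
      · simp
    · ext k k'
      rw [Matrix.mul_apply, Finset.sum_eq_single (⟨k.val, by omega⟩ : Fin n)]
      · simp [hB, Matrix.one_apply, Fin.ext_iff]
      · intro i _ hi
        have : ¬ i.val = k.val := fun h => hi (Fin.ext h)
        simp [hB, this]
      · simp
  refine ⟨⟨1 + N, hdet⟩, rfl, orderOf_eq_prime ?_ ?_, ?_⟩
  · apply Subtype.ext
    change (1 + N) ^ 2 = 1
    have h2 : (1 + N) ^ 2 = 1 + (N + N) + N * N := by noncomm_ring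
    rw [h2, hN2, add_zero]
    ext i j
    simp [CharTwo.add_self_eq_zero]
  · intro h
    have h' : (1 + N) = 1 := congrArg Subtype.val h
    rw [add_eq_left] at h'
    rw [h', Matrix.rank_zero] at hrank
    omega
  · change (1 + N - 1).rank = ℓ
    rw [add_sub_cancel_left, hrank]

end Cfsg.Agent.S2163
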