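import Cfsg.Statements.S2164
import Cfsg.Agent.FormConj.SU
import Cfsg.Agent.S2162

set_option autoImplicit false
open Cfsg

namespace Cfsg.Agent.S2164

/-- Conjugacy of involutions in the special unitary group SU_n(q), q even, n ≥ 3, realised over the field F with q² elements as the matrices of determinant 1 preserving the form Σ u_i v_i^q: for two elements of order 2 of SU_n(q) the following are equivalent — they are conjugate in SU_n(q); they are conjugate in SL_n(F); the matrices a − 1 and b − 1 have the same rank. -/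
theorem result {F : Type*} [Field F] [Fintype F] [CharP F 2] {n q : ℕ} (hF : Fintype.card F = q ^ 2) (hn : 3 ≤ n) (a b : ↥(Cfsg.SU n F q)) (ha : orderOf a = 2) (hb : orderOf b = 2) :
    (IsConj a b ↔ IsConj (a : Matrix.SpecialLinearGroup (Fin n) F) (b : Matrix.SpecialLinearGroup (Fin n) F)) ∧
    (IsConj a b ↔ (((a : Matrix.SpecialLinearGroup (Fin n) F) : Matrix (Fin n) (Fin n) F) - 1).rank = (((b : Matrix.SpecialLinearGroup (Fin n) F) : Matrix (Fin n) (Fin n) F) - 1).rank) := by
  obtain ⟨θ, hq, hθ, hne, -⟩ := CfsgLib.Unitary.exists_conj q hF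
  set a' : Matrix.SpecialLinearGroup (Fin n) F := ↑a with ha'
  set b' : Matrix.SpecialLinearGroup (Fin n) F := ↑b with hb'
  have hao : orderOf a' = 2 := by rw [ha', Subgroup.orderOf_coe, ha]
  have hbo : orderOf b' = 2 := by rw [hb', Subgroup.orderOf_coe, hb]
  have h1 : IsConj a b → IsConj a' b' := fun h => (Cfsg.SU n F q).subtype.map_isConj h
  have h2 : IsConj a' b' ↔ ((a' : Matrix (Fin n) (Fin n) F) - 1).rank = ((b' : Matrix (Fin n) (Fin n) F) - 1).rank :=
    Cfsg.Agent.S2162.result hn a' b' hao hbo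
  have h3 : IsConj a' b' → IsConj a b := fun h => by
    obtain ⟨c, hc⟩ := isConj_iff.1 h
    have hPA : (c : Matrix (Fin n) (Fin n) F) * a' = (b' : Matrix (Fin n) (Fin n) F) * c := by
      rw [← Matrix.SpecialLinearGroup.coe_mul, ← Matrix.SpecialLinearGroup.coe_mul, ← hc, inv_mul_cancel_right]
    have ha2 : a' * a' = 1 := by rw [← pow_two, ← hao, pow_orderOf_eq_one]
    have ha1 : (a' : Matrix (Fin n) (Fin n) F) ≠ 1 := fun h' => by
      have : a' = 1 := Subtype.ext h'
      rw [this, orderOf_one] at hao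
      norm_num at hao
    obtain ⟨g, hg, hgd, hgA⟩ := CfsgLib.FormConj.exists_special_conj hθ hne
      ((CfsgLib.Unitary.mem_SU_iff θ q hq hθ a').1 a.2) ((CfsgLib.Unitary.mem_SU_iff θ q hq hθ b').1 b.2)
      (by rw [← Matrix.SpecialLinearGroup.coe_mul, ha2, Matrix.SpecialLinearGroup.coe_one]) ha1
      (by rw [c.2]; exact isUnit_one) hPA
    obtain ⟨g', hg'⟩ := CfsgLib.Unitary.exists_SU θ q hq hθ g hgd hg
    refine isConj_iff.2 ⟨g', mul_inv_eq_iff_eq_mul.2 (Subtype.ext (Subtype.ext ?_))⟩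
    show ((g' : Matrix.SpecialLinearGroup (Fin n) F) * a' : Matrix.SpecialLinearGroup (Fin n) F).1 =
      (b' * (g' : Matrix.SpecialLinearGroup (Fin n) F)).1
    rw [Matrix.SpecialLinearGroup.coe_mul, Matrix.SpecialLinearGroup.coe_mul, hg', hgA]
  exact ⟨⟨h1, h3⟩, ⟨fun h => h2.1 (h1 h), fun h => h3 (h2.2 h)⟩⟩

end Cfsg.Agent.S2164
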