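import Cfsg.Statements.S2165
import Cfsg.Agent.BlockInvolution.Rank
-- import your own Cfsg.Agent.* helpers here

set_option autoImplicit false
open Cfsg

namespace Cfsg.Agent.S2165

/-- In SU_n(q), q even, n ≥ 3 (matrices of determinant 1 over the field with q² elements preserving Σ u_i v_i^q): for every ℓ with 1 ≤ ℓ and 2ℓ ≤ n, the permutation matrix of the involution of {0, …, n−1} exchanging i and n − ℓ + i for each i < ℓ lies in SU_n(q), has order 2, and differs from the identity by a matrix of rank ℓ. So every rank between 1 and n/2 occurs for involutions of SU_n(q). -/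
theorem result {F : Type*} [Field F] [Fintype F] [CharP F 2] {n q : ℕ} (hF : Fintype.card F = q ^ 2) (hn : 3 ≤ n) (ℓ : ℕ) (h1 : 1 ≤ ℓ) (h2 : 2 * ℓ ≤ n) :
    ∃ a : ↥(Cfsg.SU n F q), (((a : Matrix.SpecialLinearGroup (Fin n) F) : Matrix (Fin n) (Fin n) F) = Matrix.of (fun i j : Fin n => if (j.val < ℓ ∧ i.val = j.val + (n - ℓ)) ∨ (i.val < ℓ ∧ j.val = i.val + (n - ℓ)) ∨ (i = j ∧ ℓ ≤ i.val ∧ i.val < n - ℓ) then (1 : F) else 0)) ∧ orderOf a = 2 ∧ ((((a : Matrix.SpecialLinearGroup (Fin n) F) : Matrix (Fin n) (Fin n) F)) - 1).rank = ℓ := by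
  classical
  let σf : Fin n → Fin n := fun i =>
    if h : i.val < ℓ then ⟨i.val + (n - ℓ), by omega⟩
    else if h' : n - ℓ ≤ i.val then ⟨i.val - (n - ℓ), by omega⟩ else i
  have hval : ∀ i : Fin n, (σf i).val =
      if i.val < ℓ then i.val + (n - ℓ) else if n - ℓ ≤ i.val then i.val - (n - ℓ) else i.val := by
    intro i
    simp only [σf]
    split_ifs <;> rfl
  have hinv : Function.Involutive σf := by
    intro i
    apply Fin.ext
    rw [hval, hval]
    split_ifs <;> omega
  let σ : Equiv.Perm (Fin n) := hinv.toPerm σf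
  have hσ : ∀ i, σ i = σf i := fun i => rfl
  set M : Matrix (Fin n) (Fin n) F := σ.toPEquiv.toMatrix with hM
  have hMdef : M = Matrix.of (fun i j : Fin n =>
      if (j.val < ℓ ∧ i.val = j.val + (n - ℓ)) ∨ (i.val < ℓ ∧ j.val = i.val + (n - ℓ)) ∨
        (i = j ∧ ℓ ≤ i.val ∧ i.val < n - ℓ) then (1 : F) else 0) := by
    ext i j
    have key : σ i = j ↔ ((j.val < ℓ ∧ i.val = j.val + (n - ℓ)) ∨ (i.val < ℓ ∧ j.val = i.val + (n - ℓ)) ∨
        (i = j ∧ ℓ ≤ i.val ∧ i.val < n - ℓ)) := by
      rw [hσ, Fin.ext_iff, hval]; simp only [Fin.ext_iff]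
      split_ifs <;> constructor <;> intro <;> omega
    simp only [hM, PEquiv.toMatrix_apply, Equiv.toPEquiv_apply, Option.mem_some_iff, Matrix.of_apply]
    exact if_congr key rfl rfl
  have hdet : M.det = 1 := by
    rw [hM, Matrix.det_permutation]
    rcases Int.units_eq_one_or (Equiv.Perm.sign σ) with h | h <;> simp [h, CharTwo.neg_eq]
  have hvec : ∀ u : Fin n → F, M.mulVec u = u ∘ σ := by
    intro u
    rw [hM, PEquiv.toMatrix_toPEquiv_mulVec]
  let a : Matrix.SpecialLinearGroup (Fin n) F := ⟨M, hdet⟩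
  have hmem : a ∈ Cfsg.SU n F q := by
    intro u v
    change Cfsg.hermForm n F q (M.mulVec u) (M.mulVec v) = Cfsg.hermForm n F q u v
    rw [hvec, hvec]
    exact Equiv.sum_comp σ (fun i => u i * v i ^ q)
  set W : Matrix (Fin n) (Fin ℓ) F := Matrix.of (fun i k =>
    if i.val = k.val ∨ i.val = k.val + (n - ℓ) then 1 else 0) with hW
  set L : Matrix (Fin ℓ) (Fin n) F := Matrix.of (fun k i => if i.val = k.val then 1 else 0) with hL
  have hMW : M - 1 = W * W.transpose := by
    ext i j
    rw [Matrix.mul_apply, hMdef]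
    simp only [Matrix.sub_apply, Matrix.of_apply, Matrix.one_apply, Matrix.transpose_apply, hW,
      CharTwo.sub_eq_add]
    rcases lt_or_ge i.val ℓ with hi | hi
    · rw [Finset.sum_eq_single (⟨i.val, hi⟩ : Fin ℓ)]
      · simp only [Fin.ext_iff]
        split_ifs <;> first | (exfalso; simp only [true_or, not_true] at * <;> omega) | (exfalso; omega) | simp
      · intro k _ hk
        have hk' : k.val ≠ i.val := fun h => hk (Fin.ext h)
        rw [if_neg (by omega)]
        simp
      · simp
    · rcases lt_or_ge i.val (n - ℓ) with hi' | hi'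
      · rw [Finset.sum_eq_zero]
        · simp only [Fin.ext_iff]
          split_ifs <;> first | (exfalso; simp only [true_or, not_true] at * <;> omega) | (exfalso; omega) | simp [CharTwo.add_self_eq_zero]
        · intro k _
          rw [if_neg (by omega)]
          simp
      · rw [Finset.sum_eq_single (⟨i.val - (n - ℓ), by omega⟩ : Fin ℓ)]
        · simp only [Fin.ext_iff]
          split_ifs <;> first | (exfalso; simp only [true_or, not_true] at * <;> omega) | (exfalso; omega) | simp
        · intro k _ hk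
          have hk' : k.val ≠ i.val - (n - ℓ) := fun h => hk (Fin.ext h)
          rw [if_neg (by omega)]
          simp
        · simp
  have hLW : L * W = 1 := by
    ext k k'
    rw [Matrix.mul_apply, Finset.sum_eq_single (⟨k.val, by omega⟩ : Fin n)]
    · simp only [hL, hW, Matrix.of_apply, Matrix.one_apply, Fin.ext_iff]
      split_ifs <;> first | (exfalso; simp only [true_or, not_true] at * <;> omega) | (exfalso; omega) | simp
    · intro i _ hi
      have : ¬ i.val = k.val := fun h => hi (Fin.ext h)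
      simp [hL, this]
    · simp
  have hrank : (M - 1).rank = ℓ := by
    rw [hMW]
    refine CfsgLib.BlockInvolution.rank_mul_eq_of_inverses W W.transpose L L.transpose hLW ?_
    rw [← Matrix.transpose_mul, hLW, Matrix.transpose_one]
  refine ⟨⟨a, hmem⟩, hMdef, orderOf_eq_prime ?_ ?_, hrank⟩
  · apply Subtype.ext
    apply Subtype.ext
    change M ^ 2 = 1
    rw [pow_two, hM, ← PEquiv.toMatrix_trans, ← Equiv.toPEquiv_trans]
    have : σ.trans σ = Equiv.refl (Fin n) := Equiv.ext hinv
    rw [this, Equiv.toPEquiv_refl, PEquiv.toMatrix_refl]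
  · intro h
    have h' : M = 1 := congrArg (fun x : ↥(Cfsg.SU n F q) => ((x : Matrix.SpecialLinearGroup (Fin n) F) : Matrix (Fin n) (Fin n) F)) h
    rw [h', sub_self, Matrix.rank_zero] at hrank
    omega

end Cfsg.Agent.S2165
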