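import Cfsg.Statements.S2166
import Cfsg.Agent.InvTwo.Symp

set_option autoImplicit false
open Cfsg

namespace Cfsg.Agent.S2166

/-- Conjugacy of involutions in the symplectic group Sp_{2m}(F), F a finite field of characteristic two, m ≥ 2 (Sp taken as the matrices A with A J Aᵀ = J, acting on column vectors, with the alternating form f(u, v) = u ⬝ (J v)). For an involution t write V(t) for the set of vectors v with f(v, t v) = 0 (a subspace). Two involutions a, b are conjugate in Sp_{2m}(F) exactly when a − 1 and b − 1 have the same rank and, in case that rank is even, V(a) and V(b) have the same number of elements. -/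
theorem result {F : Type*} [Field F] [Fintype F] [CharP F 2] {m : ℕ} (hm : 2 ≤ m) (a b : ↥(Matrix.symplecticGroup (Fin m) F)) (ha : orderOf a = 2) (hb : orderOf b = 2) :
    IsConj a b ↔ ((((a : ↥(Matrix.symplecticGroup (Fin m) F)) : Matrix (Fin m ⊕ Fin m) (Fin m ⊕ Fin m) F) - 1).rank = (((b : ↥(Matrix.symplecticGroup (Fin m) F)) : Matrix (Fin m ⊕ Fin m) (Fin m ⊕ Fin m) F) - 1).rank ∧
      (Even (((a : ↥(Matrix.symplecticGroup (Fin m) F)) : Matrix (Fin m ⊕ Fin m) (Fin m ⊕ Fin m) F) - 1).rank → Nat.card {v : Fin m ⊕ Fin m → F // Cfsg.sympForm m F v (Matrix.mulVec ((a : ↥(Matrix.symplecticGroup (Fin m) F)) : Matrix (Fin m ⊕ Fin m) (Fin m ⊕ Fin m) F) v) = 0} = Nat.card {v : Fin m ⊕ Fin m → F // Cfsg.sympForm m F v (Matrix.mulVec ((b : ↥(Matrix.symplecticGroup (Fin m) F)) : Matrix (Fin m ⊕ Fin m) (Fin m ⊕ Fin m) F) v) = 0})) := by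
  classical
  have h2 : (2 : F) = 0 := CharTwo.two_eq_zero
  have ha' := CfsgLib.InvTwo.mul_self_of_orderOf ha
  have hb' := CfsgLib.InvTwo.mul_self_of_orderOf hb
  simp only [CfsgLib.InvTwo.sympForm_mulVec_eq h2]
  rw [CfsgLib.InvTwo.isConj_sp_iff h2 ha' hb']
  constructor
  · rintro ⟨hr, hal⟩
    refine ⟨hr, fun _ => ?_⟩
    obtain ⟨g, hg⟩ := isConj_iff.1 ((CfsgLib.InvTwo.isConj_sp_iff h2 ha' hb').2 ⟨hr, hal⟩)
    have hu := CfsgLib.InvTwo.sp_isUnit h2 g
    let e : (Fin m ⊕ Fin m → F) ≃ (Fin m ⊕ Fin m → F) :=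
      { toFun := fun v => Matrix.mulVec g.1 v
        invFun := fun v => Matrix.mulVec g.1⁻¹ v
        left_inv := fun v => by beta_reduce; rw [Matrix.mulVec_mulVec, Matrix.nonsing_inv_mul _ hu, Matrix.one_mulVec]
        right_inv := fun v => by beta_reduce; rw [Matrix.mulVec_mulVec, Matrix.mul_nonsing_inv _ hu, Matrix.one_mulVec] }
    refine Nat.card_congr (e.subtypeEquiv fun v => Eq.congr_left ?_)
    have h : g * a = b * g := by rw [← hg, inv_mul_cancel_right]
    rw [← CfsgLib.InvTwo.sympForm_mulVec_eq h2, ← CfsgLib.InvTwo.sympForm_mulVec_eq h2,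
      CfsgLib.InvTwo.sympForm_eq h2, CfsgLib.InvTwo.sympForm_eq h2]
    show _ = _
    rw [show Matrix.mulVec b.1 (e v) = Matrix.mulVec g.1 (Matrix.mulVec a.1 v) by
      show Matrix.mulVec b.1 (Matrix.mulVec g.1 v) = _
      rw [Matrix.mulVec_mulVec, Matrix.mulVec_mulVec]
      exact congrArg (fun M => Matrix.mulVec M v) (congrArg Subtype.val h).symm]
    exact ((CfsgLib.InvTwo.mem_sp_iff h2 _).1 g.2 v _).symm
  · rintro ⟨hr, hc⟩
    refine ⟨hr, ?_⟩
    by_cases he : Even ((a : Matrix (Fin m ⊕ Fin m) (Fin m ⊕ Fin m) F) - 1).rank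
    · have key : ∀ φ : (Fin m ⊕ Fin m → F) → F,
          Nat.card {v // φ v = 0} = Nat.card (Fin m ⊕ Fin m → F) ↔ ∀ v, φ v = 0 := fun φ => by
        refine ⟨fun h v => ?_, fun h => Nat.card_congr (Equiv.subtypeUnivEquiv h)⟩
        by_contra hv
        rw [Nat.card_eq_fintype_card, Nat.card_eq_fintype_card] at h
        have := Fintype.card_subtype_lt (p := fun v => φ v = 0) hv
        omega
      have hc' := hc he
      rw [CfsgLib.InvTwo.IsAltN, CfsgLib.InvTwo.IsAltN, ← key, ← key, hc']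
    · refine iff_of_false (fun h => he ?_) (fun h => he ?_)
      · exact CfsgLib.InvTwo.even_of_alt (CfsgLib.InvTwo.selfAdj_sp h2 ha') h
      · rw [hr]; exact CfsgLib.InvTwo.even_of_alt (CfsgLib.InvTwo.selfAdj_sp h2 hb') h

end Cfsg.Agent.S2166
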