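import Cfsg.Statements.S2167
import Cfsg.Agent.Forms.AltRank
-- import your own Cfsg.Agent.* helpers here

set_option autoImplicit false
open Cfsg

namespace Cfsg.Agent.S2167

/-- For an involution t of the symplectic group Sp_{2m}(F), m ≥ 2, F a finite field of characteristic two (matrices A with A J Aᵀ = J acting on column vectors, alternating form f(u, v) = u ⬝ (J v)): the set V(t) of vectors v with f(v, t v) = 0 has either q^{2m} or q^{2m−1} elements, q the order of F (it is a subspace of codimension at most 1), and if it is the whole space then t − 1 has even rank. -/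
theorem result {F : Type*} [Field F] [Fintype F] [CharP F 2] {m : ℕ} (hm : 2 ≤ m) (a : ↥(Matrix.symplecticGroup (Fin m) F)) (ha : orderOf a = 2) :
    (Nat.card {v : Fin m ⊕ Fin m → F // Cfsg.sympForm m F v (Matrix.mulVec ((a : ↥(Matrix.symplecticGroup (Fin m) F)) : Matrix (Fin m ⊕ Fin m) (Fin m ⊕ Fin m) F) v) = 0} = Fintype.card F ^ (2 * m) ∨ Nat.card {v : Fin m ⊕ Fin m → F // Cfsg.sympForm m F v (Matrix.mulVec ((a : ↥(Matrix.symplecticGroup (Fin m) F)) : Matrix (Fin m ⊕ Fin m) (Fin m ⊕ Fin m) F) v) = 0} * Fintype.card F = Fintype.card F ^ (2 * m)) ∧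
    ((∀ v : Fin m ⊕ Fin m → F, Cfsg.sympForm m F v (Matrix.mulVec ((a : ↥(Matrix.symplecticGroup (Fin m) F)) : Matrix (Fin m ⊕ Fin m) (Fin m ⊕ Fin m) F) v) = 0) → Even (((a : ↥(Matrix.symplecticGroup (Fin m) F)) : Matrix (Fin m ⊕ Fin m) (Fin m ⊕ Fin m) F) - 1).rank) := by
  classical
  set A : Matrix (Fin m ⊕ Fin m) (Fin m ⊕ Fin m) F :=
    ((a : ↥(Matrix.symplecticGroup (Fin m) F)) : Matrix (Fin m ⊕ Fin m) (Fin m ⊕ Fin m) F) with hAdef
  set J := Matrix.J (Fin m) F with hJdef
  have hsq : A * A = 1 := by
    have h := pow_orderOf_eq_one a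
    rw [ha, sq] at h
    exact congrArg Subtype.val h
  have hmem : A.transpose * J * A = J :=
    SymplecticGroup.mem_iff'.mp a.2
  have hJT : J.transpose = J := by
    rw [hJdef, Matrix.J_transpose]
    ext i j
    exact CharTwo.neg_eq _
  have hJAT : (J * A).transpose = J * A := by
    rw [Matrix.transpose_mul, hJT]
    calc A.transpose * J = A.transpose * J * (A * A) := by rw [hsq, Matrix.mul_one]
      _ = A.transpose * J * A * A := by rw [Matrix.mul_assoc, Matrix.mul_assoc, Matrix.mul_assoc]
      _ = J * A := by rw [hmem]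
  set q : (Fin m ⊕ Fin m → F) → F := fun v => Cfsg.sympForm m F v (Matrix.mulVec A v) with hq
  have hq' : ∀ v, q v = dotProduct v (Matrix.mulVec (J * A) v) := fun v => by
    simp only [hq, Cfsg.sympForm, Matrix.mulVec_mulVec, hJdef]
  have hsym : ∀ u v, dotProduct u (Matrix.mulVec (J * A) v) = dotProduct v (Matrix.mulVec (J * A) u) := by
    intro u v
    rw [Matrix.dotProduct_mulVec, ← Matrix.mulVec_transpose, hJAT, dotProduct_comm]
  let Q : (Fin m ⊕ Fin m → F) →+ F :=
    { toFun := q
      map_zero' := by rw [hq']; simp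
      map_add' := fun u v => by
        rw [hq', hq', hq', Matrix.mulVec_add, dotProduct_add, add_dotProduct, add_dotProduct, hsym u v]
        have h2 : (2 : F) = 0 := CharTwo.two_eq_zero
        linear_combination dotProduct v (Matrix.mulVec (J * A) u) * h2 }
  have hQ : ∀ v, Q v = Cfsg.sympForm m F v (Matrix.mulVec A v) := fun v => rfl
  have hcard : Nat.card (Fin m ⊕ Fin m → F) = Fintype.card F ^ (2 * m) := by
    rw [Nat.card_eq_fintype_card, Fintype.card_fun, Fintype.card_sum, Fintype.card_fin, two_mul]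
  refine ⟨?_, fun hall => ?_⟩
  · by_cases h0 : ∀ v, Cfsg.sympForm m F v (Matrix.mulVec A v) = 0
    · left
      rw [Nat.card_congr (Equiv.subtypeUnivEquiv h0), hcard]
    · right
      push Not at h0
      obtain ⟨v, hv⟩ := h0
      have hsurj : Function.Surjective Q := by
        intro y
        obtain ⟨c, hc⟩ := (frobeniusEquiv F 2).surjective (y / Q v)
        refine ⟨c • v, ?_⟩
        change q (c • v) = y
        rw [hq', Matrix.mulVec_smul, smul_dotProduct, dotProduct_smul, smul_eq_mul, smul_eq_mul, ← mul_assoc,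
          ← hq', show c * c = y / Q v by rw [← hc, frobeniusEquiv_def, sq]]
        exact div_mul_cancel₀ y hv
      rw [← hcard, ← Nat.card_eq_fintype_card (α := F)]
      have h1 := AddSubgroup.card_eq_card_quotient_mul_card_addSubgroup Q.ker
      rw [Nat.card_congr (QuotientAddGroup.quotientKerEquivOfSurjective Q hsurj).toEquiv, mul_comm] at h1
      exact h1.symm
  · have hN : ∀ v, dotProduct v (Matrix.mulVec (J * (A - 1)) v) = 0 := by
      intro v
      have hJ0 : dotProduct v (Matrix.mulVec J v) = 0 := by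
        simp only [hJdef, Matrix.J, Matrix.fromBlocks_mulVec, dotProduct, Fintype.sum_sum_type, Sum.elim_inl,
          Sum.elim_inr, Pi.add_apply, Function.comp_apply]
        simp [Matrix.neg_mulVec, mul_comm]
      rw [Matrix.mul_sub, Matrix.mul_one, Matrix.sub_mulVec, dotProduct_sub, ← hq', hJ0, sub_zero]
      exact hall v
    have := CfsgLib.AltRank.even_rank _ hN
    rwa [Matrix.rank_mul_eq_right_of_isUnit_det _ _ (Matrix.isUnit_det_J (Fin m) F)] at this

end Cfsg.Agent.S2167
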