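import Cfsg.Statements.S2168
import Cfsg.Agent.InvTwo.Bridge

set_option autoImplicit false
open Cfsg

namespace Cfsg.Agent.S2168

/-- Involutions in the full isometry group O of the hyperbolic quadratic form Σ x_i y_i in dimension 2m over a finite field F of characteristic two, m ≥ 4 (plus type): two elements of order 2 of O are conjugate in O exactly when they are conjugate under the group of all invertible matrices preserving the polar bilinear form (u, v) ↦ Q(u + v) − Q(u) − Q(v) (the symplectic group of that form). -/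
theorem result {F : Type*} [Field F] [Fintype F] [CharP F 2] {m : ℕ} (hm : 4 ≤ m) (t s : ↥(Cfsg.isometryGroup F (Cfsg.quadFormPlus m F))) (ht : orderOf t = 2) (hs : orderOf s = 2) :
    IsConj t s ↔ ∃ g ∈ Cfsg.preserving (Units.coeHom (Matrix (Fin m ⊕ Fin m) (Fin m ⊕ Fin m) F)) (fun u v => Cfsg.quadFormPlus m F (u + v) - Cfsg.quadFormPlus m F u - Cfsg.quadFormPlus m F v), g * ((t : ↥(Cfsg.isometryGroup F (Cfsg.quadFormPlus m F))) : GL (Fin m ⊕ Fin m) F) * g⁻¹ = ((s : ↥(Cfsg.isometryGroup F (Cfsg.quadFormPlus m F))) : GL (Fin m ⊕ Fin m) F) := by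
  have key : ∀ (φ : (Fin m ⊕ Fin m → F) → F), φ = ⇑(CfsgLib.Forms.quadPlus F m) → ∀ t s : ↥(Cfsg.isometryGroup F φ),
      t * t = 1 → s * s = 1 →
      (IsConj t s ↔ ∃ g ∈ Cfsg.preserving (Units.coeHom (Matrix (Fin m ⊕ Fin m) (Fin m ⊕ Fin m) F)) (fun u v => φ (u + v) - φ u - φ v),
        g * (t : GL (Fin m ⊕ Fin m) F) * g⁻¹ = (s : GL (Fin m ⊕ Fin m) F)) := by
    rintro φ rfl t s ht hs
    exact CfsgLib.InvTwo.isConj_iff_polar_conj CharTwo.two_eq_zero (CfsgLib.Forms.nondegenerate_quadPlus m) ht hs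
  exact key _ (CfsgLib.Forms.coe_quadPlus (F := F) m).symm t s (CfsgLib.InvTwo.mul_self_of_orderOf ht) (CfsgLib.InvTwo.mul_self_of_orderOf hs)

end Cfsg.Agent.S2168
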