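import Cfsg.Statements.S2169
import Cfsg.Agent.Forms.RankParity

set_option autoImplicit false
open Cfsg

namespace Cfsg.Agent.S2169

/-- For the hyperbolic quadratic form Σ x_i y_i in dimension 2m over a finite field F of characteristic two, m ≥ 4 (plus type): an element of order 2 of the full isometry group O lies in the commutator subgroup Ω of O exactly when t − 1 has even rank. -/
theorem result {F : Type*} [Field F] [Fintype F] [CharP F 2] {m : ℕ} (hm : 4 ≤ m) (t : ↥(Cfsg.isometryGroup F (Cfsg.quadFormPlus m F))) (ht : orderOf t = 2) :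
    t ∈ Cfsg.Omega F (Cfsg.quadFormPlus m F) ↔ Even ((((t : ↥(Cfsg.isometryGroup F (Cfsg.quadFormPlus m F))) : GL (Fin m ⊕ Fin m) F) : Matrix (Fin m ⊕ Fin m) (Fin m ⊕ Fin m) F) - 1).rank := by
  have key : ∀ (φ : (Fin m ⊕ Fin m → F) → F), φ = ⇑(CfsgLib.Forms.quadPlus F m) → ∀ t : ↥(Cfsg.isometryGroup F φ),
      t ∈ Cfsg.Omega F φ ↔ Even ((t : GL (Fin m ⊕ Fin m) F).1 - 1).rank := by
    rintro φ rfl t
    exact CfsgLib.Forms.mem_Omega_iff_rank_even CharTwo.two_eq_zero (CfsgLib.Forms.nondegenerate_quadPlus m) (by simp; omega) (by simp [Nat.even_add]) t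
  exact key _ (CfsgLib.Forms.coe_quadPlus (F := F) m).symm t

end Cfsg.Agent.S2169
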