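import Cfsg.Statements.S2172
import Cfsg.Agent.InvTwo.Split

set_option autoImplicit false
open Cfsg

namespace Cfsg.Agent.S2172

/-- Splitting of involution classes from O to Ω for the hyperbolic quadratic form Q = Σ x_i y_i in dimension 2m over a finite field F of characteristic two, m ≥ 4. Let t, s be involutions of the commutator subgroup Ω that are conjugate in the full isometry group O. If it is not the case that t − 1 has rank m and Q(v + t v) = 0 for every vector v, then t and s are conjugate by an element of Ω. If t − 1 has rank m and Q(v + t v) = 0 for all v, then t and s are conjugate by an element of Ω exactly when the intersection of the images of t − 1 and s − 1 has even dimension (so the class of t in O meets at most two classes of Ω). -/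
theorem result {F : Type*} [Field F] [Fintype F] [CharP F 2] {m : ℕ} (hm : 4 ≤ m) (t s : ↥(Cfsg.isometryGroup F (Cfsg.quadFormPlus m F))) (ht : orderOf t = 2) (hs : orderOf s = 2) (htO : t ∈ Cfsg.Omega F (Cfsg.quadFormPlus m F)) (hsO : s ∈ Cfsg.Omega F (Cfsg.quadFormPlus m F)) (hconj : IsConj t s) :
    (¬ (((((t : ↥(Cfsg.isometryGroup F (Cfsg.quadFormPlus m F))) : GL (Fin m ⊕ Fin m) F) : Matrix (Fin m ⊕ Fin m) (Fin m ⊕ Fin m) F) - 1).rank = m ∧ ∀ v : Fin m ⊕ Fin m → F, Cfsg.quadFormPlus m F (v + Matrix.mulVec (((t : ↥(Cfsg.isometryGroup F (Cfsg.quadFormPlus m F))) : GL (Fin m ⊕ Fin m) F) : Matrix (Fin m ⊕ Fin m) (Fin m ⊕ Fin m) F) v) = 0) →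
      ∃ g ∈ Cfsg.Omega F (Cfsg.quadFormPlus m F), g * t * g⁻¹ = s) ∧
    ((((((t : ↥(Cfsg.isometryGroup F (Cfsg.quadFormPlus m F))) : GL (Fin m ⊕ Fin m) F) : Matrix (Fin m ⊕ Fin m) (Fin m ⊕ Fin m) F) - 1).rank = m ∧ ∀ v : Fin m ⊕ Fin m → F, Cfsg.quadFormPlus m F (v + Matrix.mulVec (((t : ↥(Cfsg.isometryGroup F (Cfsg.quadFormPlus m F))) : GL (Fin m ⊕ Fin m) F) : Matrix (Fin m ⊕ Fin m) (Fin m ⊕ Fin m) F) v) = 0) →
      ((∃ g ∈ Cfsg.Omega F (Cfsg.quadFormPlus m F), g * t * g⁻¹ = s) ↔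
        Even (Module.finrank F ↥(LinearMap.range (Matrix.toLin' ((((t : ↥(Cfsg.isometryGroup F (Cfsg.quadFormPlus m F))) : GL (Fin m ⊕ Fin m) F) : Matrix (Fin m ⊕ Fin m) (Fin m ⊕ Fin m) F) - 1)) ⊓ LinearMap.range (Matrix.toLin' ((((s : ↥(Cfsg.isometryGroup F (Cfsg.quadFormPlus m F))) : GL (Fin m ⊕ Fin m) F) : Matrix (Fin m ⊕ Fin m) (Fin m ⊕ Fin m) F) - 1)))))) := by
  have key : ∀ (φ : (Fin m ⊕ Fin m → F) → F), φ = ⇑(CfsgLib.Forms.quadPlus F m) → ∀ t s : ↥(Cfsg.isometryGroup F φ),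
      t * t = 1 → t ∈ Cfsg.Omega F φ → IsConj t s →
      (¬ (((t : GL (Fin m ⊕ Fin m) F).1 - 1).rank = m ∧ ∀ v, φ (v + Matrix.mulVec (t : GL (Fin m ⊕ Fin m) F).1 v) = 0) →
        ∃ g ∈ Cfsg.Omega F φ, g * t * g⁻¹ = s) ∧
      ((((t : GL (Fin m ⊕ Fin m) F).1 - 1).rank = m ∧ ∀ v, φ (v + Matrix.mulVec (t : GL (Fin m ⊕ Fin m) F).1 v) = 0) →
        ((∃ g ∈ Cfsg.Omega F φ, g * t * g⁻¹ = s) ↔
          Even (Module.finrank F ↥(LinearMap.range (Matrix.toLin' ((t : GL (Fin m ⊕ Fin m) F).1 - 1)) ⊓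
            LinearMap.range (Matrix.toLin' ((s : GL (Fin m ⊕ Fin m) F).1 - 1)))))) := by
    rintro φ rfl t s ht htO hconj
    have h2 : (2 : F) = 0 := CharTwo.two_eq_zero
    have hQ := CfsgLib.Forms.nondegenerate_quadPlus (F := F) m
    have hd : Nat.card F ≠ 2 ∨ Fintype.card (Fin m ⊕ Fin m) ≠ 4 := .inr (by simp; omega)
    refine ⟨fun hn => ?_, fun hh => ?_⟩
    · rcases CfsgLib.InvTwo.fixed_or_singular h2 hQ (t := t) with ⟨u, hu, hu0⟩ | h
      · exact CfsgLib.InvTwo.conj_in_Omega h2 hQ (CfsgLib.InvTwo.gen_of_hd hQ hd) hconj hu hu0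
      · obtain ⟨h1, h3⟩ := CfsgLib.InvTwo.of_singular h2 hQ t ht h
        refine absurd ⟨?_, h3⟩ hn
        rw [CfsgLib.InvTwo.rank_eq]
        simp at h1
        omega
    · have hW := CfsgLib.InvTwo.isMax_range h2 hQ t (by
        have := hh.1; rw [CfsgLib.InvTwo.rank_eq] at this; simp; omega) hh.2
      have hev := (CfsgLib.Forms.mem_Omega_iff_rank_even h2 hQ (by simp; omega) (by simp [Nat.even_add]) t).1 htO
      rw [CfsgLib.InvTwo.rank_eq] at hev
      exact CfsgLib.InvTwo.conj_in_Omega_iff h2 hQ (CfsgLib.InvTwo.gen_of_hd hQ hd) hconj hW hev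
  exact key _ (CfsgLib.Forms.coe_quadPlus (F := F) m).symm t s (by rw [← pow_two, ← ht, pow_orderOf_eq_one]) htO hconj

end Cfsg.Agent.S2172
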