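import Cfsg.Statements.S2173
import Cfsg.Agent.InvTwo.Split

set_option autoImplicit false
open Cfsg

namespace Cfsg.Agent.S2173

/-- For the quadratic form Σ x_i y_i + (z₁² + c z₁ z₂ + d z₂²) in dimension 2m with anisotropic binary part over a finite field F of characteristic two, m ≥ 4 (minus type): two involutions of the commutator subgroup Ω that are conjugate in the full isometry group O are conjugate by an element of Ω (no class of involutions of O inside Ω splits). -/
theorem result {F : Type*} [Field F] [Fintype F] [CharP F 2] {m : ℕ} (hm : 4 ≤ m) (c d : F) (hcd : ∀ z₁ z₂ : F, z₁ ^ 2 + c * z₁ * z₂ + d * z₂ ^ 2 = 0 → z₁ = 0 ∧ z₂ = 0) (t s : ↥(Cfsg.isometryGroup F (Cfsg.quadFormMinus (m - 1) F c d))) (ht : orderOf t = 2) (hs : orderOf s = 2) (htO : t ∈ Cfsg.Omega F (Cfsg.quadFormMinus (m - 1) F c d)) (hsO : s ∈ Cfsg.Omega F (Cfsg.quadFormMinus (m - 1) F c d)) (hconj : IsConj t s) :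
    ∃ g ∈ Cfsg.Omega F (Cfsg.quadFormMinus (m - 1) F c d), g * t * g⁻¹ = s := by
  have key : ∀ (φ : ((Fin (m - 1) ⊕ Fin (m - 1)) ⊕ Fin 2 → F) → F), φ = ⇑(CfsgLib.Forms.quadMinus F (m - 1) c d) → ∀ t s : ↥(Cfsg.isometryGroup F φ),
      t * t = 1 → IsConj t s → ∃ g ∈ Cfsg.Omega F φ, g * t * g⁻¹ = s := by
    rintro φ rfl t s ht hconj
    have h2 : (2 : F) = 0 := CharTwo.two_eq_zero
    have hQ := CfsgLib.Forms.nondegenerate_quadMinus (m - 1) hcd
    rcases CfsgLib.InvTwo.fixed_or_singular h2 hQ (t := t) with ⟨u, hu, hu0⟩ | h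
    · exact CfsgLib.InvTwo.conj_in_Omega h2 hQ (CfsgLib.InvTwo.gen_of_hd hQ (.inr (by simp; omega))) hconj hu hu0
    · have h1 := CfsgLib.InvTwo.finrank_ker_ge h2 hQ t ht
      have h3 := CfsgLib.Forms.finrank_le_of_singular_minus hcd (U := LinearMap.ker (CfsgLib.InvTwo.nil t)) (fun v hv => by
        simpa using h v hv)
      simp at h1
      omega
  refine key _ (CfsgLib.Forms.coe_quadMinus (F := F) (m - 1) c d).symm t s ?_ hconj
  have := pow_orderOf_eq_one t
  rwa [ht, pow_two] at this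

end Cfsg.Agent.S2173
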