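import Cfsg.Statements.S2177
import Cfsg.Agent.Chev.G2Even.Classes
-- import your own Cfsg.Agent.* helpers here

set_option autoImplicit false
open Cfsg

namespace Cfsg.Agent.S2177

/-- Conjugacy classes of involutions in the Chevalley group of type G₂ over a finite field F of characteristic two with at least four elements (the matrix group generated by the root elements x_r(t)). In this problem's root numbering for type G₂ (the Chevalley data module; p₁ = a short, p₂ = b long; roots indexed by coefficient vectors in increasing order) let 11 be the highest root 3a + 2b (long) and 9 the short root 2a + b; consider x_{3a+2b}(1) and x_{2a+b}(1). Then: each invertible matrix equal to one of these two products lies in the group and has order 2; every element of order 2 of the group is conjugate in the group to one of them; and no two of them are conjugate in the group (so, the two matrices being distinct, the group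 has exactly two conjugacy classes of involutions). -/
theorem result {F : Type*} [Field F] [Fintype F] [CharP F 2] (hF : 4 ≤ Fintype.card F) :
    (∀ y : GL Cfsg.Lie.chevG2.Idx F, ((y : GL Cfsg.Lie.chevG2.Idx F) : Matrix Cfsg.Lie.chevG2.Idx Cfsg.Lie.chevG2.Idx F) ∈ [Cfsg.Lie.chevG2.x F 11 1, Cfsg.Lie.chevG2.x F 9 1] → y ∈ Cfsg.Lie.chevG2.group F ∧ orderOf y = 2) ∧
    (∀ g ∈ Cfsg.Lie.chevG2.group F, orderOf g = 2 → ∃ y ∈ Cfsg.Lie.chevG2.group F, ((y : GL Cfsg.Lie.chevG2.Idx F) : Matrix Cfsg.Lie.chevG2.Idx Cfsg.Lie.chevG2.Idx F) ∈ [Cfsg.Lie.chevG2.x F 11 1, Cfsg.Lie.chevG2.x F 9 1] ∧ ∃ h ∈ Cfsg.Lie.chevG2.group F, h * g * h⁻¹ = y) ∧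
    (∀ y₁ ∈ Cfsg.Lie.chevG2.group F, ∀ y₂ ∈ Cfsg.Lie.chevG2.group F, ((y₁ : GL Cfsg.Lie.chevG2.Idx F) : Matrix Cfsg.Lie.chevG2.Idx Cfsg.Lie.chevG2.Idx F) ∈ [Cfsg.Lie.chevG2.x F 11 1, Cfsg.Lie.chevG2.x F 9 1] → ((y₂ : GL Cfsg.Lie.chevG2.Idx F) : Matrix Cfsg.Lie.chevG2.Idx Cfsg.Lie.chevG2.Idx F) ∈ [Cfsg.Lie.chevG2.x F 11 1, Cfsg.Lie.chevG2.x F 9 1] →
      (∃ h ∈ Cfsg.Lie.chevG2.group F, h * y₁ * h⁻¹ = y₂) → ((y₁ : GL Cfsg.Lie.chevG2.Idx F) : Matrix Cfsg.Lie.chevG2.Idx Cfsg.Lie.chevG2.Idx F) = ((y₂ : GL Cfsg.Lie.chevG2.Idx F) : Matrix Cfsg.Lie.chevG2.Idx Cfsg.Lie.chevG2.Idx F)) := by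
  open CfsgLib.Chev in
  have hcases : ∀ y : GL Cfsg.Lie.chevG2.Idx F, ((y : GL Cfsg.Lie.chevG2.Idx F) : Matrix Cfsg.Lie.chevG2.Idx Cfsg.Lie.chevG2.Idx F) ∈ [Cfsg.Lie.chevG2.x F 11 1, Cfsg.Lie.chevG2.x F 9 1] → y = G2Even.X 11 1 ∨ y = G2Even.X 9 1 := by
    intro y hy
    simp only [List.mem_cons, List.not_mem_nil, or_false] at hy
    exact hy.imp G2Even.SG.eq_xU G2Even.SG.eq_xU
  have hne : ∀ r < 12, CfsgLib.Chev.G2Even.X r (1 : F) ≠ 1 := fun r hr =>
    CfsgLib.Chev.G2Even.SG.xU_ne_one (show r < Cfsg.Lie.chevG2.nroots from hr) one_ne_zero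
  refine ⟨?_, ?_, ?_⟩
  · intro y hy
    rcases hcases y hy with rfl | rfl
    all_goals refine ⟨CfsgLib.Chev.G2Even.X_mem_group _ _, orderOf_eq_prime (by rw [pow_two]; exact CfsgLib.Chev.G2Even.X_sq _ _) (hne _ (by omega))⟩
  · intro g hg hg2
    have h1 : g ≠ 1 := fun e => by simp [e] at hg2
    have h2 : g * g = 1 := by rw [← pow_two, ← hg2]; exact pow_orderOf_eq_one g
    obtain ⟨h, hh, e | e⟩ := CfsgLib.Chev.G2Even.conjRep_of_sq hg h1 h2
    · exact ⟨_, CfsgLib.Chev.G2Even.X_mem_group 11 1, by simp, h, hh, e⟩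
    · exact ⟨_, CfsgLib.Chev.G2Even.X_mem_group 9 1, by simp, h, hh, e⟩
  · intro y₁ _ y₂ _ h₁ h₂ hconj
    obtain ⟨h, hh, e⟩ := hconj
    rcases hcases y₁ h₁ with rfl | rfl <;> rcases hcases y₂ h₂ with rfl | rfl
    · rfl
    · exact absurd e (CfsgLib.Chev.G2Even.not_conj hh)
    · exact absurd (show h⁻¹ * CfsgLib.Chev.G2Even.X 11 (1 : F) * (h⁻¹)⁻¹ = CfsgLib.Chev.G2Even.X 9 1 by rw [← e]; group) (CfsgLib.Chev.G2Even.not_conj (inv_mem hh))
    · rfl

end Cfsg.Agent.S2177
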