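import Cfsg.Statements.S2178
import Cfsg.Agent.Chev.Special.RootCentralizer

set_option autoImplicit false
open Cfsg

namespace Cfsg.Agent.S2178

open CfsgLib.Chev in
theorem aux.{v} {F : Type v} [Field F] [CharP F 2] (ρ k : ℕ) (a b c : ℕ) (P : List ℕ)
    (hρ : ρ < Cfsg.Lie.chevF4.nroots) (hk : k < Cfsg.Lie.chevF4.rank)
    (h1 : ρ ∈ P)
    (h2 : ∀ r ∈ P, r < Cfsg.Lie.chevF4.nroots ∧ r ≤ ρ ∧
      ∀ q < Cfsg.Lie.chevF4.rank, Cfsg.Lie.chevF4.reflectRoot q r ∈ P)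
    (hpos : ∀ r < Cfsg.Lie.chevF4.nroots, Cfsg.Lie.chevF4.nroots / 2 ≤ r → r ≠ ρ →
      ρ ≠ Cfsg.Lie.chevF4.neg r ∧ ∀ c ∈ Cfsg.Lie.chevF4.commTerms r ρ, c.2.1 % 2 = 0)
    (hneg : ∀ q < Cfsg.Lie.chevF4.rank, q ≠ k →
      Cfsg.Lie.chevF4.neg (Cfsg.Lie.chevF4.simple q) ≠ ρ ∧
      ρ ≠ Cfsg.Lie.chevF4.neg (Cfsg.Lie.chevF4.neg (Cfsg.Lie.chevF4.simple q)) ∧
      ∀ c ∈ Cfsg.Lie.chevF4.commTerms (Cfsg.Lie.chevF4.neg (Cfsg.Lie.chevF4.simple q)) ρ, c.2.1 % 2 = 0)
    (hJ : ∀ q < Cfsg.Lie.chevF4.rank, q ≠ k → Cfsg.Lie.chevF4.cartan q ρ = 0)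
    (hk1 : Cfsg.Lie.chevF4.cartan k ρ = 1)
    (ha : ∃ q < Cfsg.Lie.chevF4.rank, q ≠ k ∧ Cfsg.Lie.chevF4.neg (Cfsg.Lie.chevF4.simple q) = a)
    (hb : ∃ q < Cfsg.Lie.chevF4.rank, q ≠ k ∧ Cfsg.Lie.chevF4.neg (Cfsg.Lie.chevF4.simple q) = b)
    (hc : ∃ q < Cfsg.Lie.chevF4.rank, q ≠ k ∧ Cfsg.Lie.chevF4.neg (Cfsg.Lie.chevF4.simple q) = c)
    (hall : ∀ q < Cfsg.Lie.chevF4.rank, q ≠ k → Cfsg.Lie.chevF4.neg (Cfsg.Lie.chevF4.simple q) = a ∨
      Cfsg.Lie.chevF4.neg (Cfsg.Lie.chevF4.simple q) = b ∨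
      Cfsg.Lie.chevF4.neg (Cfsg.Lie.chevF4.simple q) = c)
    (t : GL Cfsg.Lie.chevF4.Idx F)
    (ht : (t : Matrix Cfsg.Lie.chevF4.Idx Cfsg.Lie.chevF4.Idx F) = Cfsg.Lie.chevF4.x F ρ 1) :
    Cfsg.Lie.chevF4.group F ⊓ Subgroup.centralizer {t} = Cfsg.Lie.chevF4.posUnipotent F ⊔
      Cfsg.Lie.chevF4.rootSubgroup F a ⊔ Cfsg.Lie.chevF4.rootSubgroup F b ⊔
      Cfsg.Lie.chevF4.rootSubgroup F c := by
  set S := sysF4.{v}
  rw [S.eq_xU ht, S.group_inf_centralizer_root hρ (S.le_of_orbit h1 h2) hk hJ hk1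
    (S.topK_le_centralizer_root hρ hpos hneg 1)]
  have hmem : ∀ {i}, (∃ q < Cfsg.Lie.chevF4.rank, q ≠ k ∧
      Cfsg.Lie.chevF4.neg (Cfsg.Lie.chevF4.simple q) = i) →
      Cfsg.Lie.chevF4.rootSubgroup F i ≤ S.topK k := by
    rintro i ⟨q, hq, hqk, rfl⟩
    rw [S.rootSubgroup_eq, Subgroup.closure_le]
    rintro _ ⟨x, rfl⟩
    exact Subgroup.mem_sup_right (Subgroup.subset_closure ⟨q, x, hq, hqk, rfl⟩)
  refine le_antisymm (sup_le (le_sup_left.trans (le_sup_left.trans le_sup_left))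
    ((Subgroup.closure_le _).2 ?_)) (sup_le (sup_le (sup_le le_sup_left (hmem ha)) (hmem hb)) (hmem hc))
  rintro _ ⟨q, x, hq, hqk, rfl⟩
  have hin : ∀ i, S.xU i x ∈ Cfsg.Lie.chevF4.rootSubgroup F i := fun i => by
    rw [S.rootSubgroup_eq]; exact Subgroup.subset_closure ⟨x, rfl⟩
  rcases hall q hq hqk with e | e | e <;> rw [e]
  · exact Subgroup.mem_sup_left (Subgroup.mem_sup_left (Subgroup.mem_sup_right (hin a)))
  · exact Subgroup.mem_sup_left (Subgroup.mem_sup_right (hin b))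
  · exact Subgroup.mem_sup_right (hin c)

/-- The orbit of a root under the fundamental reflections. -/
def orb (ρ : ℕ) : ℕ → List ℕ
  | 0 => [ρ]
  | n + 1 => (orb ρ n ++ (orb ρ n).flatMap fun r =>
      (List.range 4).map fun q => Cfsg.Lie.chevF4.reflectRoot q r).eraseDups

/-- Centralizers of the long and the short root involutions in the Chevalley group G of type F₄ over a finite field F of characteristic two (this problem's root numbering for type F₄, from the Chevalley data module: fundamental roots p₁, p₂ short, p₃, p₄ long, with indices 33, 27, 25, 24, their negatives 14, 20, 22, 23; highest root 47, highest short root 44; U the subgroup generated by the positive root subgroups). For an element t of G with matrix x_47(1): the centralizer of t in G is the subgroup generated by U and the root subgroups X_{−p₁}, X_{−p₂}, X_{−p₃} (the unipotent radical of the maximal parabolic subgroup whose Levi factor has fundamental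 roots p₁, p₂, p₃, together with that Levi factor's root subgroups; the Levi factor is of type C₃). For an element u of G with matrix x_44(1): the centralizer of u in G is generated by U and X_{−p₂}, X_{−p₃}, X_{−p₄} (the same construction for the Levi factor with fundamental roots p₂, p₃, p₄, of type B₃). -/
theorem result {F : Type*} [Field F] [Fintype F] [CharP F 2] (t u : GL Cfsg.Lie.chevF4.Idx F) (ht : (t : Matrix Cfsg.Lie.chevF4.Idx Cfsg.Lie.chevF4.Idx F) = Cfsg.Lie.chevF4.x F 47 1) (hu : (u : Matrix Cfsg.Lie.chevF4.Idx Cfsg.Lie.chevF4.Idx F) = Cfsg.Lie.chevF4.x F 44 1) :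
    Cfsg.Lie.chevF4.group F ⊓ Subgroup.centralizer {t} = Cfsg.Lie.chevF4.posUnipotent F ⊔ Cfsg.Lie.chevF4.rootSubgroup F 14 ⊔ Cfsg.Lie.chevF4.rootSubgroup F 20 ⊔ Cfsg.Lie.chevF4.rootSubgroup F 22 ∧
    Cfsg.Lie.chevF4.group F ⊓ Subgroup.centralizer {u} = Cfsg.Lie.chevF4.posUnipotent F ⊔ Cfsg.Lie.chevF4.rootSubgroup F 20 ⊔ Cfsg.Lie.chevF4.rootSubgroup F 22 ⊔ Cfsg.Lie.chevF4.rootSubgroup F 23 := by
  exact ⟨aux 47 3 14 20 22 (orb 47 24) (by decide +kernel) (by decide +kernel) (by decide +kernel) (by decide +kernel) (by decide +kernel) (by decide +kernel) (by decide +kernel) (by decide +kernel) (by decide +kernel) (by decide +kernel) (by decide +kernel) (by decide +kernel) t ht,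
    aux 44 0 20 22 23 (orb 44 24) (by decide +kernel) (by decide +kernel) (by decide +kernel) (by decide +kernel) (by decide +kernel) (by decide +kernel) (by decide +kernel) (by decide +kernel) (by decide +kernel) (by decide +kernel) (by decide +kernel) (by decide +kernel) u hu⟩

end Cfsg.Agent.S2178
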