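import Cfsg.Statements.S2181
import Cfsg.Agent.Chev.CharTwoInvol.ChecksE7

set_option autoImplicit false
open Cfsg

namespace Cfsg.Agent.S2181

/-- The Chevalley group of type E₇ over a finite field of characteristic two (the matrix group generated by the root elements) has exactly five conjugacy classes of elements of order 2. -/
theorem result {F : Type*} [Field F] [Fintype F] [CharP F 2] :
    (ConjClasses.mk '' {g : ↥(Cfsg.Lie.chevE7.group F) | orderOf g = 2}).ncard = 5 := by
  rw [CfsgLib.Chev.CharTwoInvol.classes_count CfsgLib.Chev.DataE7.valid CfsgLib.Chev.CharTwoInvol.TabE7.normal_ok CfsgLib.Chev.CharTwoInvol.TabE7.reduce_ok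
    CfsgLib.Chev.CharTwoInvol.TabE7.fins_ok]
  rfl

end Cfsg.Agent.S2181
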