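import Cfsg.Statements.S2185
import Cfsg.Agent.Chev.Ree4.TwoInvol

set_option autoImplicit false
open Cfsg

namespace Cfsg.Agent.S2185

/-- In the group ²F₄(2) (realised inside the Chevalley group of type F₄ over the field with two elements, θ the identity) every element of order 2 lies in the commutator subgroup (the Tits group, of index 2): there are no involutions outside it. -/
theorem result (g : ↥(Cfsg.Lie.twistedF4 (ZMod 2) 1)) (hg : orderOf g = 2) :
    g ∈ commutator ↥(Cfsg.Lie.twistedF4 (ZMod 2) 1) := by
  have h : (⟨(g : GL Cfsg.Lie.chevF4.Idx (ZMod 2)), g.2⟩ : ↥(Cfsg.Lie.twistedF4 (ZMod 2) (2 ^ 0))) *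
      ⟨(g : GL Cfsg.Lie.chevF4.Idx (ZMod 2)), g.2⟩ = 1 := by
    have h2 : g * g = 1 := by
      have h3 := pow_orderOf_eq_one g
      rw [hg, pow_two] at h3
      exact h3
    exact h2
  have := CfsgLib.Chev.Ree4.of_involution h
  rw [← Abelianization.ker_of, MonoidHom.mem_ker]
  exact this

end Cfsg.Agent.S2185
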