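import Cfsg.Statements.S2202
import Cfsg.Agent.CA.AbelianInv.Main
import Cfsg.Agent.S1230
import Cfsg.Agent.CA.PSLTwo
import Mathlib.Algebra.Group.Shrink

set_option autoImplicit false
open Cfsg

namespace Cfsg.Agent.S2202

/-- Finite groups in which the centralizer of every involution is abelian. Let G be a finite group of even order in which the centralizer of every element of order 2 is abelian. Then the Sylow 2-subgroups of G are cyclic, or a Sylow 2-subgroup of G is normal, or G is isomorphic to the direct product of SL₂(F) for a finite field F of characteristic two and an abelian group of odd order. -/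
theorem result {G : Type*} [Group G] [Finite G] (heven : Even (Nat.card G)) (h : ∀ t : G, orderOf t = 2 → IsMulCommutative ↥(Subgroup.centralizer ({t} : Set G))) :
    (∀ P : Sylow 2 G, IsCyclic ↥P) ∨ (∀ P : Sylow 2 G, (P : Subgroup G).Normal) ∨
    (∃ (F : Type) (_ : Field F) (_ : Fintype F) (A : Type) (_ : CommGroup A) (_ : Finite A), CharP F 2 ∧ Odd (Nat.card A) ∧ Nonempty (G ≃* Matrix.SpecialLinearGroup (Fin 2) F × A)) := by
  classical
  haveI : Fact (Nat.Prime 2) := ⟨Nat.prime_two⟩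
  let _ := heven
  obtain ⟨T⟩ : Nonempty (Sylow 2 G) := inferInstance
  by_cases hc : IsCyclic (T : Subgroup G)
  · refine Or.inl fun P => ?_
    haveI := hc
    exact (Sylow.equiv T P).isCyclic.1 inferInstance
  by_cases hn : (T : Subgroup G).Normal
  · refine Or.inr (Or.inl fun P => ?_)
    haveI := Sylow.unique_of_normal T hn
    rwa [Subsingleton.elim P T]
  refine Or.inr (Or.inr ?_)
  have hy : CfsgLib.AbInv.Hy T := ⟨fun t ht a ha b hb => by
    haveI := h t ht
    exact congrArg Subtype.val (mul_comm' (⟨a, ha⟩ : Subgroup.centralizer ({t} : Set G)) ⟨b, hb⟩), hc, hn⟩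
  obtain ⟨L, hinf, hsup, hel⟩ := CfsgLib.AbInv.split hy
  have hdec : ∀ x : G, ∃ l ∈ L, ∃ z ∈ Subgroup.center G, x = l * z := fun x => by
    obtain ⟨l, hl, z, hz, e⟩ := Subgroup.mem_sup_of_normal_right.1 (hsup.ge (Subgroup.mem_top x))
    exact ⟨l, hl, z, hz, e.symm⟩
  have hLZ : ∀ {x : G}, x ∈ L → x ∈ Subgroup.center G → x = 1 := fun {x} hl hz => by
    have : x ∈ L ⊓ Subgroup.center G := ⟨hl, hz⟩
    rwa [hinf, Subgroup.mem_bot] at this
  have hTL : (T : Subgroup G) ≤ L := fun t ht => by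
    obtain ⟨k, hk⟩ := T.isPGroup' ⟨t, ht⟩
    have h1 : t ^ 2 ^ k = 1 := congrArg Subtype.val hk
    obtain ⟨l, hl, z, hz, rfl⟩ := hdec t
    rw [((show Commute l z from Subgroup.mem_center_iff.1 hz l)).mul_pow] at h1
    have : z ^ 2 ^ k = 1 := hLZ (by rw [eq_inv_of_mul_eq_one_right h1]; exact inv_mem (pow_mem hl _)) (pow_mem hz _)
    rw [CfsgLib.AbInv.center_two_power hy hz this, mul_one]
    exact hl
  set S : Sylow 2 L := T.subtype hTL
  have hnc : ¬ IsCyclic (S : Subgroup L) := fun hS => hc (by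
    haveI : IsCyclic ((T : Subgroup G).subgroupOf L) := hS
    exact (Subgroup.subgroupOfEquivOfLe hTL).isCyclic.1 inferInstance)
  have hnn : ¬ (S : Subgroup L).Normal := fun hS => hn ⟨fun x hx g => by
    obtain ⟨l, hl, z, hz, rfl⟩ := hdec g
    have := hS.conj_mem ⟨x, hTL hx⟩ hx ⟨l, hl⟩
    rw [show l * z * x * (l * z)⁻¹ = l * (z * x * z⁻¹) * l⁻¹ by group,
      ← Subgroup.mem_center_iff.1 hz x, mul_inv_cancel_right]
    exact this⟩
  have hC : ∀ t : L, orderOf t = 2 → IsMulCommutative (Subgroup.centralizer ({t} : Set L)) ∧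
      ∀ c ∈ Subgroup.centralizer ({t} : Set L), c ^ 2 = 1 := fun t ht =>
    ⟨⟨⟨fun a b => Subtype.ext (hy.ai.subgroup L t ht a a.2 b b.2)⟩⟩, fun c hcc => Subtype.ext
      (hel t t.2 (by rw [Subgroup.orderOf_coe]; exact ht) c c.2
        (congrArg Subtype.val (Subgroup.mem_centralizer_singleton_iff.1 hcc)))⟩
  obtain ⟨F, hF, hFf, hcard, ⟨φ⟩⟩ := Cfsg.Agent.S1230.result S hnc hnn hC
  obtain ⟨k, hk⟩ := IsPGroup.iff_card.1 S.isPGroup'
  haveI : CharP F 2 := charP_of_card_eq_prime_pow (hcard.trans hk)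
  let ψ : Matrix.ProjectiveSpecialLinearGroup (Fin 2) F ≃* Matrix.SpecialLinearGroup (Fin 2) F :=
    (QuotientGroup.quotientMulEquivOfEq (CfsgLib.CA.sl_center_eq_bot (F := F))).trans QuotientGroup.quotientBot
  haveI : Small.{0} (Subgroup.center G) := inferInstance
  letI : CommGroup (Subgroup.center G) :=
    { (inferInstance : Group (Subgroup.center G)) with
      mul_comm := fun a b => Subtype.ext (Subgroup.mem_center_iff.1 b.2 a) }
  let e : Subgroup.center G ≃* Shrink.{0} (Subgroup.center G) := Shrink.mulEquiv.symm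
  let m : (L × Subgroup.center G) →* G := MonoidHom.mk' (fun x => x.1 * x.2) fun x y => by
    show ((x.1 : G) * y.1) * ((x.2 : G) * y.2) = x.1 * x.2 * (y.1 * y.2)
    calc ((x.1 : G) * y.1) * ((x.2 : G) * y.2) = (x.1 : G) * ((y.1 : G) * x.2) * y.2 := by group
      _ = (x.1 : G) * ((x.2 : G) * y.1) * y.2 := by rw [Subgroup.mem_center_iff.1 x.2.2 y.1]
      _ = _ := by group
  have hm : Function.Bijective m := by
    refine ⟨(injective_iff_map_eq_one m).2 fun x hx => ?_, fun g => ?_⟩
    · have hx' : (x.1 : G) * x.2 = 1 := hx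
      have h2 : (x.2 : G) = 1 := hLZ (by rw [eq_inv_of_mul_eq_one_right hx']; exact inv_mem x.1.2) x.2.2
      rw [h2, mul_one] at hx'
      exact Prod.ext (Subtype.ext hx') (Subtype.ext h2)
    · obtain ⟨l, hl, z, hz, rfl⟩ := hdec g
      exact ⟨(⟨l, hl⟩, ⟨z, hz⟩), rfl⟩
  refine ⟨F, hF, hFf, Shrink.{0} (Subgroup.center G), inferInstance, inferInstance, inferInstance, ?_,
    ⟨(MulEquiv.ofBijective m hm).symm.trans (MulEquiv.prodCongr (φ.trans ψ) e)⟩⟩
  rw [← Nat.card_congr e.toEquiv]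
  exact CfsgLib.AbInv.odd_card_center hy

end Cfsg.Agent.S2202
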