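import Cfsg.Statements.S2209
import Cfsg.Agent.Chev.Special.TopCentralizer

set_option autoImplicit false
open Cfsg

namespace Cfsg.Agent.S2209

open CfsgLib.Chev in
theorem aux.{v} {D : Cfsg.Lie.ChevalleyDatum} (S : Sys.{v} D) {F : Type v} [Field F] (k : ℕ) (Ls : List ℕ)
    (hn : 0 < D.nroots) (hkr : k < D.rank)
    (hJ : ∀ q < D.rank, q ≠ k → D.cartan q (D.nroots - 1) = 0)
    (hk : D.cartan k (D.nroots - 1) = 1)
    (hcomm : ∀ q < D.rank, q ≠ k → D.nroots - 1 ≠ D.neg (D.simple q) ∧
      D.nroots - 1 ≠ D.neg (D.neg (D.simple q)) ∧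
      D.commTerms (D.neg (D.simple q)) (D.nroots - 1) = [])
    (h1 : ∀ s ∈ Ls, ∃ q < D.rank, q ≠ k ∧ D.neg (D.simple q) = s)
    (h2 : ∀ q < D.rank, q ≠ k → D.neg (D.simple q) ∈ Ls)
    (t : GL D.Idx F) (ht : (t : Matrix D.Idx D.Idx F) = D.x F (D.nroots - 1) 1) :
    D.group F ⊓ Subgroup.centralizer {t} = D.posUnipotent F ⊔ Subgroup.closure {g : GL D.Idx F | ∃ s ∈ Ls, ∃ c : F, (g : Matrix D.Idx D.Idx F) = D.x F s c} := by
  rw [S.eq_xU ht, S.group_inf_centralizer_top hn hkr hJ hk hcomm]
  refine congrArg (fun K => D.posUnipotent F ⊔ Subgroup.closure K) (Set.ext fun g => ⟨?_, ?_⟩)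
  · rintro ⟨q, c, hq, hqk, rfl⟩
    exact ⟨_, h2 q hq hqk, c, S.coe_xU _ _⟩
  · rintro ⟨s, hs, c, hc⟩
    obtain ⟨q, hq, hqk, rfl⟩ := h1 s hs
    exact ⟨q, c, hq, hqk, S.eq_xU hc⟩

/-- Centralizer of a long root involution in the Chevalley groups of type E₆, E₇, E₈ over a finite field F of characteristic two. Let G be the group generated by the root elements, U the subgroup generated by the positive root subgroups, r the highest root (the last root index: 71, 125, 239 respectively), and t the element of G with matrix x_r(1). Then the centralizer of t in G is the subgroup generated by U together with the root subgroups X_{−p} for the fundamental roots p orthogonal to r — all fundamental roots except p₂ for E₆, except p₁ for E₇, except p₈ for E₈ (numbering with p₁–p₃–p₄–…–p_l the long chain and p₂ joined to p₄); the indices of these negative fundamental roots are 15, 29, 32, 34, 35 (E₆), 47, 52, 56, 59, 61, 62 (E₇), 77, 98, 104, 109, 113, 116, 118 (E₈). (This is the unipotent radical of the corresponding maximal parabolic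 subgroup extended by the root subgroups of its Levi factor, of type A₅, D₆, E₇ respectively.) -/
theorem result {F : Type*} [Field F] [Fintype F] [CharP F 2] (d : Cfsg.Lie.ChevalleyDatum × List ℕ)
    (hd : d ∈ [(Cfsg.Lie.chevE6, [15, 29, 32, 34, 35]), (Cfsg.Lie.chevE7, [47, 52, 56, 59, 61, 62]), (Cfsg.Lie.chevE8, [77, 98, 104, 109, 113, 116, 118])])
    (t : GL d.1.Idx F) (ht : (t : Matrix d.1.Idx d.1.Idx F) = d.1.x F (d.1.nroots - 1) 1) :
    d.1.group F ⊓ Subgroup.centralizer {t} = d.1.posUnipotent F ⊔ Subgroup.closure {g : GL d.1.Idx F | ∃ s ∈ d.2, ∃ c : F, (g : Matrix d.1.Idx d.1.Idx F) = d.1.x F s c} := by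
  simp only [List.mem_cons, List.not_mem_nil, or_false] at hd
  rcases hd with rfl | rfl | rfl
  · exact aux CfsgLib.Chev.sysE6 1 _ (by decide +kernel) (by decide +kernel) (by decide +kernel)
      (by decide +kernel) (by decide +kernel) (by decide +kernel) (by decide +kernel) t ht
  · exact aux CfsgLib.Chev.sysE7 0 _ (by decide +kernel) (by decide +kernel) (by decide +kernel)
      (by decide +kernel) (by decide +kernel) (by decide +kernel) (by decide +kernel) t ht
  · exact aux CfsgLib.Chev.sysE8 7 _ (by decide +kernel) (by decide +kernel) (by decide +kernel)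
      (by decide +kernel) (by decide +kernel) (by decide +kernel) (by decide +kernel) t ht

end Cfsg.Agent.S2209
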