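import Cfsg.Statements.S2214
import Cfsg.Agent.Chev.Subfield
import Cfsg.Agent.Chev.Inst
-- import your own Cfsg.Agent.* helpers here

set_option autoImplicit false
open Cfsg

namespace Cfsg.Agent.S2214

/-- Let k be an algebraically closed field of prime characteristic p, G the adjoint Chevalley group of type G₂, B₂, D₄, F₄, E₆, E₇ or E₈ over k (the matrix group generated by the root elements x_s(t), t ∈ k, acting on the Lie algebra), q = p^a with a ≥ 1, and K a subgroup of G containing every root element x_s(t) with t^q = t and consisting of matrices all of whose entries c satisfy c^q = c. Then the centralizer of K in G is trivial, and the normalizer of K in G is exactly the set of elements of G all of whose entries c satisfy c^q = c. -/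
theorem result {k : Type*} [Field k] [IsAlgClosed k] (p : ℕ) [Fact p.Prime] [CharP k p] (D : Cfsg.Lie.ChevalleyDatum) (hD : D ∈ [Cfsg.Lie.chevG2, Cfsg.Lie.chevB2, Cfsg.Lie.chevD4, Cfsg.Lie.chevF4, Cfsg.Lie.chevE6, Cfsg.Lie.chevE7, Cfsg.Lie.chevE8]) (a : ℕ) (ha : 1 ≤ a) (K : Subgroup (GL D.Idx k)) (hKG : K ≤ D.group k)
    (hLK : Subgroup.closure {g : GL D.Idx k | ∃ (s : ℕ) (t : k), t ^ (p ^ a) = t ∧ (g : Matrix D.Idx D.Idx k) = D.x k s t} ≤ K)
    (hKfix : ∀ g ∈ K, ∀ i j : D.Idx, ((g : Matrix D.Idx D.Idx k) i j) ^ (p ^ a) = (g : Matrix D.Idx D.Idx k) i j) :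
    D.group k ⊓ Subgroup.centralizer (K : Set (GL D.Idx k)) = ⊥ ∧
    ∀ g : GL D.Idx k, g ∈ D.group k → (g ∈ Subgroup.normalizer (K : Set (GL D.Idx k)) ↔ ∀ i j : D.Idx, ((g : Matrix D.Idx D.Idx k) i j) ^ (p ^ a) = (g : Matrix D.Idx D.Idx k) i j) := by
  classical
  obtain ⟨S⟩ := CfsgLib.Chev.exists_sys hD
  haveI : ExpChar k p := ExpChar.prime Fact.out
  let σ : k ≃+* k := iterateFrobeniusEquiv k p a
  have hσ : ∀ t, σ t = t ^ (p ^ a) := fun t => iterateFrobeniusEquiv_def k p a t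
  set T := CfsgLib.Chev.glMap D (σ : k →+* k) with hT
  have hfix : ∀ g : GL D.Idx k,
      T g = g ↔ ∀ i j : D.Idx, ((g : Matrix D.Idx D.Idx k) i j) ^ (p ^ a) =
        (g : Matrix D.Idx D.Idx k) i j := by
    intro g
    constructor
    · intro h i j
      have := congrArg (fun m : GL D.Idx k => (m : Matrix D.Idx D.Idx k) i j) h
      rw [← hσ]
      exact this
    · exact fun h => Units.ext (Matrix.ext fun i j => (hσ _).trans (h i j))
  have hroot : ∀ (r : ℕ) (t : k), σ t = t → r < D.nroots → S.xU r t ∈ K := fun r t ht hr =>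
    hLK (Subgroup.subset_closure ⟨r, t, by rw [← hσ, ht], S.coe_xU r t⟩)
  have hcent : ∀ g ∈ D.group k, (∀ x ∈ K, g * x = x * g) → g = 1 := fun g hg h =>
    S.eq_one_of_commute_roots hg fun r hr => h _ (hroot r 1 (map_one σ) hr)
  refine ⟨?_, fun g hg => ?_⟩
  · rw [eq_bot_iff]
    rintro g ⟨hg, hc⟩
    exact Subgroup.mem_bot.2 (hcent g hg fun x hx => (Subgroup.mem_centralizer_iff.1 hc x hx).symm)
  rw [← hfix]
  constructor
  · intro hn
    have hTg : T g ∈ D.group k := CfsgLib.Chev.map_group_le D _ ⟨g, hg, rfl⟩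
    have := hcent (g⁻¹ * T g) (mul_mem (inv_mem hg) hTg) fun x hx => by
      have h1 : T x = x := (hfix x).2 (hKfix x hx)
      have h2 := (hfix _).2 (hKfix _ ((Subgroup.mem_normalizer_iff.1 hn x).1 hx))
      rw [map_mul, map_mul, map_inv, h1] at h2
      calc g⁻¹ * T g * x = g⁻¹ * (T g * x * (T g)⁻¹) * T g := by group
        _ = g⁻¹ * (g * x * g⁻¹) * T g := by rw [h2]
        _ = x * (g⁻¹ * T g) := by group
    rw [inv_mul_eq_one] at this
    exact this.symm
  · intro hgσ
    have hc : ∀ g ∈ D.group k, T g = g → ∀ x ∈ K, g * x * g⁻¹ ∈ K := fun g hg hgσ x hx =>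
      S.fixed_conj_mem σ hKG hroot (fun x hx => (hfix x).2 (hKfix x hx)) hg hgσ hx
    refine Subgroup.mem_normalizer_iff.2 fun x => ⟨hc g hg hgσ x, fun h => ?_⟩
    have := hc g⁻¹ (inv_mem hg) (by rw [map_inv, hgσ]) _ h
    rwa [show g⁻¹ * (g * x * g⁻¹) * g⁻¹⁻¹ = x by group] at this

end Cfsg.Agent.S2214
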