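import Cfsg.Statements.S2222
import Cfsg.Agent.AltSylowTwo.Basic

set_option autoImplicit false
open Cfsg

namespace Cfsg.Agent.S2222

open scoped Pointwise

/-- In the alternating group of degree n ≥ 5 every subgroup H of odd index is pronormal: for every element g, the subgroups H and gHg⁻¹ are conjugate by an element of the subgroup they generate. -/
theorem result (n : ℕ) (hn : 5 ≤ n)
    (H : Subgroup (alternatingGroup (Fin n))) (hH : Odd H.index) : Cfsg.IsPronormal H := by
  intro g
  classical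
  obtain ⟨P⟩ : Nonempty (Sylow 2 H) := inferInstance
  set T₀ : Subgroup (alternatingGroup (Fin n)) := (P : Subgroup H).map H.subtype with hT₀
  have hH2 : ¬ 2 ∣ H.index := fun h => (Nat.not_even_iff_odd.2 hH) (even_iff_two_dvd.2 h)
  have hcard : Nat.card T₀ = 2 ^ (Nat.card (alternatingGroup (Fin n))).factorization 2 := by
    rw [hT₀, Subgroup.card_map_of_injective H.subtype_injective, P.card_eq_multiplicity, ← H.card_mul_index,
      Nat.factorization_mul Nat.card_pos.ne' H.index_ne_zero_of_finite, Finsupp.add_apply,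
      Nat.factorization_eq_zero_of_not_dvd hH2, add_zero]
  let T : Sylow 2 (alternatingGroup (Fin n)) := Sylow.ofCard T₀ hcard
  have hTH : (T : Subgroup _) ≤ H := Subgroup.map_subtype_le _
  set J := H ⊔ H.map (MulAut.conj g).toMonoidHom with hJ
  have h1 : (T : Subgroup _) ≤ J := hTH.trans le_sup_left
  have h2 : ((g • T : Sylow 2 (alternatingGroup (Fin n))) : Subgroup _) ≤ J := by
    rw [Sylow.coe_subgroup_smul]
    rintro _ ⟨y, hy, rfl⟩
    exact Subgroup.mem_sup_right ⟨y, hTH hy, rfl⟩
  obtain ⟨⟨j, hj⟩, hjT⟩ := MulAction.exists_smul_eq J (T.subtype h1) ((g • T).subtype h2)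
  have hjeq : j • T = g • T := by
    rw [Sylow.smul_subtype h1] at hjT
    exact Sylow.subtype_injective hjT
  have hm : j⁻¹ * g ∈ Subgroup.normalizer ((T : Subgroup (alternatingGroup (Fin n))) : Set (alternatingGroup (Fin n))) := by
    refine Sylow.smul_eq_iff_mem_normalizer.1 ?_
    rw [mul_smul, ← hjeq, inv_smul_smul]
  by_cases hn6 : 6 ≤ n
  · rw [CfsgLib.AltSylowTwo.normalizer_sylow_alt hn6] at hm
    refine ⟨g, ?_, rfl⟩
    rw [show g = j * (j⁻¹ * g) by group]
    exact mul_mem hj (h1 hm)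
  obtain rfl : n = 5 := by omega
  have h60 : Nat.card (alternatingGroup (Fin 5)) = 60 := by
    rw [Nat.card_eq_fintype_card]; decide
  have hT4 : Nat.card T₀ = 4 := by
    rw [hcard, h60, show (60 : ℕ) = 2 ^ 2 * 15 by norm_num,
      Nat.factorization_mul (by norm_num) (by norm_num), Finsupp.add_apply, Nat.factorization_pow_self Nat.prime_two,
      Nat.factorization_eq_zero_of_not_dvd (by norm_num : ¬ 2 ∣ 15)]
    norm_num
  by_cases hHT : H = T₀
  · refine ⟨j, hj, ?_⟩
    have := congrArg (fun R : Sylow 2 (alternatingGroup (Fin 5)) => (R : Subgroup (alternatingGroup (Fin 5)))) hjeq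
    simp only [Sylow.coe_subgroup_smul] at this
    rw [hHT]
    exact this.symm
  by_cases hJtop : J = ⊤
  · exact ⟨g, hJtop.ge (Subgroup.mem_top g), rfl⟩
  refine ⟨1, one_mem _, ?_⟩
  have hd4 : 4 ∣ Nat.card H := hT4 ▸ Subgroup.card_dvd_of_le hTH
  have hd60 : Nat.card J ∣ 60 := h60 ▸ Subgroup.card_subgroup_dvd_card J
  have hdJ : Nat.card H ∣ Nat.card J := Subgroup.card_dvd_of_le le_sup_left
  have hHne : Nat.card H ≠ 4 := fun e => hHT (Subgroup.eq_of_le_of_card_ge hTH (by rw [e]; exact hT4.ge)).symm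
  have hJne : Nat.card J ≠ 60 := fun e => hJtop (Subgroup.eq_top_of_card_eq J (e.trans h60.symm))
  obtain ⟨a, ha⟩ := hd4
  obtain ⟨b, hb⟩ := hdJ
  obtain ⟨c, hc⟩ := hd60
  have habc : a * (b * c) = 15 := by
    have e : 4 * (a * (b * c)) = 60 := by rw [hc, hb, ha]; ring
    omega
  have hb1 : b = 1 := by
    have : b * c ∣ 15 := ⟨a, by rw [← habc]; ring⟩
    have hbd : b ∣ 15 := dvd_trans (dvd_mul_right b c) this
    have hle : b ≤ 15 := Nat.le_of_dvd (by norm_num) hbd
    by_contra hb1
    have ha1 : a ∣ 15 := ⟨b * c, habc.symm⟩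
    have hale : a ≤ 15 := Nat.le_of_dvd (by norm_num) ha1
    have hc1 : c ≠ 1 := fun e => hJne (by rw [e, mul_one] at hc; exact hc.symm)
    have hcle : c ≤ 15 := Nat.le_of_dvd (by norm_num) ⟨a * b, by rw [← habc]; ring⟩
    have ha0 : a ≠ 1 := fun e => hHne (by rw [ha, e])
    interval_cases a <;> interval_cases b <;> omega
  have hJH : J = H := (Subgroup.eq_of_le_of_card_ge le_sup_left (by rw [hb, hb1, mul_one])).symm
  have hle : H.map (MulAut.conj g).toMonoidHom ≤ H := le_sup_right.trans hJH.le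
  rw [Subgroup.eq_of_le_of_card_ge hle (Subgroup.card_map_of_injective (MulEquiv.injective _)).ge, map_one]
  exact (Subgroup.map_id H).symm

end Cfsg.Agent.S2222
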