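import Cfsg.Statements.S2231
import Cfsg.Agent.SL2.SylowChar
import Cfsg.Agent.QdRank.Qd
-- import your own Cfsg.Agent.* helpers here

set_option autoImplicit false
open Cfsg

namespace Cfsg.Agent.S2231

/-- Let p be an odd prime and K a finite field of characteristic p. Then Qd(p) (the natural semidirect product of an elementary abelian group of order p² by SL₂(p)) is not involved in the projective special linear group PSL₂(K). -/
theorem result {p : ℕ} [Fact p.Prime] (hp : p ≠ 2) {K : Type*} [Field K] [Fintype K] [CharP K p] : ¬ Cfsg.Involves ↥(Cfsg.qd p) (Matrix.ProjectiveSpecialLinearGroup (Fin 2) K) := by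
  classical
  rintro ⟨L, R, hn, ⟨e⟩⟩
  haveI := hn
  let π : L →* ↥(Cfsg.qd p) := e.toMonoidHom.comp (QuotientGroup.mk' (R.subgroupOf L))
  have hπ : Function.Surjective π := e.surjective.comp (QuotientGroup.mk'_surjective _)
  have := Fact.out (p := p.Prime)
  obtain ⟨A, hA⟩ := CfsgLib.QdRank.blockHom_surjective (p := p) (CfsgLib.SL2.upperU 1)
  set V := (CfsgLib.QdRank.blockHom p).ker with hV
  have hVp : IsPGroup p V := fun v => ⟨1, by
    rw [pow_one]; exact Subtype.ext (by simpa using CfsgLib.QdRank.ker_pow v.1 v.2)⟩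
  have hAp : A ^ (p * p) = 1 := by
    rw [pow_mul]
    exact CfsgLib.QdRank.ker_pow _ (by
      rw [map_pow, hA, CfsgLib.SL2.upperU_nsmul, ZMod.natCast_self, zero_mul, CfsgLib.SL2.upperU_zero])
  have hap : IsPGroup p (Subgroup.zpowers A) := by
    have hd : orderOf A ∣ p ^ 2 := orderOf_dvd_of_pow_eq_one (by rw [sq]; exact hAp)
    obtain ⟨i, -, hi⟩ := (Nat.dvd_prime_pow Fact.out).mp hd
    exact IsPGroup.of_card (n := i) (by rw [Nat.card_zpowers, hi])
  have hT : IsPGroup p ↥(Subgroup.zpowers A ⊔ V) := hap.to_sup_of_normal_right hVp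
  obtain ⟨B, hB, hBA⟩ : ∃ B ∈ V, A * B ≠ B * A := by
    have hrow := CfsgLib.QdRank.qd_row (A : Matrix.SpecialLinearGroup (Fin 3) (ZMod p)) A.2
    let M : Matrix.SpecialLinearGroup (Fin 3) (ZMod p) :=
      ⟨!![1, 0, 0; 0, 1, 1; 0, 0, 1], by simp [Matrix.det_fin_three]⟩
    refine ⟨⟨M, Subgroup.subset_closure ⟨rfl, rfl, rfl⟩⟩, ?_, ?_⟩
    · rw [hV, MonoidHom.mem_ker]
      refine Subtype.ext ?_
      ext i j; fin_cases i <;> fin_cases j <;> simp [CfsgLib.QdRank.blockHom_coe, M]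
    · intro h
      have h02 := congrArg (fun X : ↥(Cfsg.qd p) => (X : Matrix.SpecialLinearGroup (Fin 3) (ZMod p)).1 0 2) h
      have h01 := congrArg (fun X : Matrix.SpecialLinearGroup (Fin 2) (ZMod p) => X.1 0 1) hA
      simp [CfsgLib.QdRank.blockHom_coe] at h01
      change ((A : Matrix.SpecialLinearGroup (Fin 3) (ZMod p)).1 * M.1) 0 2 = (M.1 * (A : Matrix.SpecialLinearGroup (Fin 3) (ZMod p)).1) 0 2 at h02
      simp [Matrix.mul_apply, Fin.sum_univ_three, M, h01] at h02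
  obtain ⟨T, hTle⟩ := hT.exists_le_sylow
  obtain ⟨S⟩ := (inferInstance : Nonempty (Sylow p L))
  obtain ⟨g, hg⟩ := MulAction.exists_smul_eq ↥(Cfsg.qd p) (S.mapSurjective hπ) T
  have hSp : IsPGroup p ((S : Subgroup L).map L.subtype) := S.2.map _
  have key : ∀ z ∈ Subgroup.zpowers A ⊔ V, ∃ s : L, s ∈ (S : Subgroup L) ∧ z = g * π s * g⁻¹ := by
    intro z hz
    have h1 := hTle hz
    rw [← hg, Sylow.coe_subgroup_smul, Subgroup.mem_smul_pointwise_iff_exists] at h1
    obtain ⟨w, hw, rfl⟩ := h1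
    obtain ⟨s, hs, rfl⟩ := hw
    exact ⟨s, hs, rfl⟩
  obtain ⟨a, ha, hA'⟩ := key A (Subgroup.mem_sup_left (Subgroup.mem_zpowers A))
  obtain ⟨b, hb, hB'⟩ := key B (Subgroup.mem_sup_right hB)
  have hc : a * b = b * a := Subtype.ext
    (CfsgLib.SL2.commute_of_isPGroup p hSp (Subgroup.mem_map_of_mem _ ha) (Subgroup.mem_map_of_mem _ hb))
  refine hBA ?_
  rw [hA', hB', show g * π a * g⁻¹ * (g * π b * g⁻¹) = g * (π a * π b) * g⁻¹ by group, ← map_mul, hc,
    map_mul]
  group

end Cfsg.Agent.S2231
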