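import Cfsg.Statements.S2232
import Mathlib
import Cfsg.Agent.SUThreeFix.Basic
import Cfsg.Agent.Fusion.QdInvolve
import Cfsg.Agent.PrimitiveModule.SL2Pair

set_option autoImplicit false
open Cfsg

namespace Cfsg.Agent.S2232

/-- Let p be an odd prime, q a power of p and K a finite field with q² elements. Then Qd(p) (the natural semidirect product of an elementary abelian group of order p² by SL₂(p)) is not involved in the projective special unitary group PSU₃(q) realised over K. -/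
theorem result {p : ℕ} [Fact p.Prime] (hp : p ≠ 2) {K : Type*} [Field K] [Fintype K] [CharP K p] (n : ℕ) (hn : 1 ≤ n) (hK : Fintype.card K = (p ^ n) ^ 2) : ¬ Cfsg.Involves ↥(Cfsg.qd p) (Cfsg.PSU 3 K (p ^ n)) := by
  intro h
  obtain ⟨C⟩ := CfsgLib.UGeom.nonempty_conj (q := p ^ n) hK
  obtain ⟨U, κ, hU, hκ, hκs, hA⟩ := CfsgLib.Fusion.QdSection.exists_action h
  set π := CfsgLib.AutPSU.proj (F := K) (n := 3) (q := p ^ n) with hπ
  set W := U.comap π with hW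
  obtain ⟨P⟩ : Nonempty (Sylow p ↥W) := inferInstance
  let ψ : ↥W →* ↥U := (π.comp W.subtype).codRestrict U fun w => w.2
  have hψ : Function.Surjective ψ := fun u => by
    obtain ⟨w, hw⟩ := CfsgLib.AutPSU.proj_surjective (u : Cfsg.PSU 3 K (p ^ n))
    exact ⟨⟨w, show π w ∈ U by rw [hπ, hw]; exact u.2⟩, Subtype.ext hw⟩
  have hPU : (P : Subgroup ↥W).map ψ = ⊤ :=
    ((P.mapSurjective hψ).3 (hU.of_equiv Subgroup.topEquiv.symm) le_top).symm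
  set P' := (P : Subgroup ↥W).map W.subtype with hP'
  obtain ⟨v, hv, hvv, hfix⟩ := CfsgLib.AutPSU.exists_fixed_iso C (by norm_num) (p := p) (P := P') (P.isPGroup'.map _)
  obtain ⟨u₀, hu₀⟩ := hκs ![1, 0]
  have hu₀ne : u₀ ≠ 1 := by
    intro he
    rw [he] at hu₀
    have := hκ 1 1
    rw [mul_one, hu₀, left_eq_add] at this
    simpa using congrFun this 0
  obtain ⟨w₀, hw₀P, hw₀⟩ := hPU.ge (Subgroup.mem_top u₀)
  have hw₀ne : (w₀ : Cfsg.SU 3 K (p ^ n)) ≠ 1 := fun he => hu₀ne (by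
    rw [← hw₀, show w₀ = 1 from Subtype.ext he, map_one])
  obtain ⟨i₀, hi₀⟩ := P.isPGroup' ⟨w₀, hw₀P⟩
  have hw₀p : (w₀ : Cfsg.SU 3 K (p ^ n)) ^ p ^ i₀ = 1 := by
    have := congrArg (fun z : (P : Subgroup ↥W) => ((z : ↥W) : Cfsg.SU 3 K (p ^ n))) hi₀
    simpa using this
  -- every lift of `U` fixes `v` up to a scalar
  have hWv : ∀ w : Cfsg.SU 3 K (p ^ n), π w ∈ U → ∃ c : K,
      ((w : Matrix.SpecialLinearGroup (Fin 3) K) : Matrix (Fin 3) (Fin 3) K).mulVec v = c • v := by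
    intro w hw
    obtain ⟨x, hx, hxw⟩ := hPU.ge (Subgroup.mem_top (⟨π w, hw⟩ : U))
    obtain ⟨c, -, hc⟩ := CfsgLib.AutPSU.exists_smul_of_proj_eq C.card le_rfl (x := (x : Cfsg.SU 3 K (p ^ n))) (y := w)
      (congrArg Subtype.val hxw)
    refine ⟨c, ?_⟩
    exact (hc v).trans (congrArg (c • ·) (hfix _ (Subgroup.mem_map_of_mem _ hx)))
  have hstab : ∀ x : Cfsg.SU 3 K (p ^ n), π x ∈ Subgroup.normalizer (U : Set (Cfsg.PSU 3 K (p ^ n))) →
      ∃ l : K, l ≠ 0 ∧ ((x : Matrix.SpecialLinearGroup (Fin 3) K) : Matrix (Fin 3) (Fin 3) K).mulVec v = l • v := by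
    intro x hx
    set z := CfsgLib.UGeom.SU_mulVec_ne_zero x⁻¹ hv
    have hmem : π (x * w₀ * x⁻¹) ∈ U := by
      rw [map_mul, map_mul, map_inv]
      exact ((Subgroup.mem_normalizer_iff.1 hx) _).1 w₀.2
    obtain ⟨c, hc⟩ := hWv _ hmem
    set y := ((x⁻¹ : Cfsg.SU 3 K (p ^ n)) : Matrix.SpecialLinearGroup (Fin 3) K).1.mulVec v with hy
    have h1 : ((w₀ : Cfsg.SU 3 K (p ^ n)) : Matrix.SpecialLinearGroup (Fin 3) K).1.mulVec y = c • y := by
      have := congrArg (fun t => ((x⁻¹ : Cfsg.SU 3 K (p ^ n)) : Matrix.SpecialLinearGroup (Fin 3) K).1.mulVec t) hc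
      simp only [CfsgLib.AutPSU.mul_mulVec', CfsgLib.UGeom.SU_inv_mulVec, Matrix.mulVec_smul] at this
      exact this
    rw [CfsgLib.SUThreeFix.eigen_one hw₀p z h1, one_smul] at h1
    obtain ⟨a, ha⟩ := CfsgLib.SUThreeFix.fixed_unique C hw₀p hw₀ne hv hvv
      (show Cfsg.hermForm 3 K (p ^ n) y y = 0 by rw [hy, CfsgLib.UGeom.SU_form x⁻¹, hvv])
      (hfix _ (Subgroup.mem_map_of_mem _ hw₀P)) h1
    have ha0 : a ≠ 0 := fun h0 => z (by rw [h0, zero_smul] at ha; exact ha.symm)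
    refine ⟨a⁻¹, inv_ne_zero ha0, ?_⟩
    have h2 := congrArg (fun t => ((x : Cfsg.SU 3 K (p ^ n)) : Matrix.SpecialLinearGroup (Fin 3) K).1.mulVec t) ha
    simp only [hy, CfsgLib.UGeom.SU_mulVec_inv, Matrix.mulVec_smul] at h2
    conv_rhs => rw [← h2, smul_smul, inv_mul_cancel₀ ha0, one_smul]
  obtain ⟨a, hax, hae⟩ := hA (CfsgLib.SL2.upperU 1)
  obtain ⟨b, hbx, hbe⟩ := hA (CfsgLib.SL2.lowerU 1)
  obtain ⟨a', ha'⟩ := CfsgLib.AutPSU.proj_surjective a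
  obtain ⟨b', hb'⟩ := CfsgLib.AutPSU.proj_surjective b
  obtain ⟨la, hla, hga⟩ := hstab a' (by rw [hπ, ha']; exact hax)
  obtain ⟨lb, hlb, hgb⟩ := hstab b' (by rw [hπ, hb']; exact hbx)
  have hc := CfsgLib.SUThreeFix.commutator_mem_Qsub C hv hvv hla hlb hga hgb
  obtain ⟨k, hk⟩ := CfsgLib.AutPSU.isPGroup_Qsub C le_rfl v (p := p) ⟨_, hc⟩
  have hk' : (a * b * a⁻¹ * b⁻¹) ^ p ^ k = 1 := by
    rw [← ha', ← hb', ← map_inv, ← map_mul, ← map_inv, ← map_mul, ← map_mul, ← map_pow]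
    have : (a' * b' * a'⁻¹ * b'⁻¹) ^ p ^ k = 1 := by simpa using congrArg Subtype.val hk
    rw [this, map_one]
  -- the action on `U`
  let Act : Cfsg.PSU 3 K (p ^ n) → Matrix.SpecialLinearGroup (Fin 2) (ZMod p) → Prop := fun x A =>
    ∃ hx : x ∈ Subgroup.normalizer (U : Set (Cfsg.PSU 3 K (p ^ n))), ∀ u : U,
      κ ⟨x * u * x⁻¹, (Subgroup.mem_normalizer_iff.1 hx u).1 u.2⟩ = A.1.mulVec (κ u)
  have hmul : ∀ x y A B, Act x A → Act y B → Act (x * y) (A * B) := by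
    rintro x y A B ⟨hx, hx'⟩ ⟨hy, hy'⟩
    refine ⟨mul_mem hx hy, fun u => ?_⟩
    rw [Matrix.SpecialLinearGroup.coe_mul, ← Matrix.mulVec_mulVec, ← hy' u, ← hx']
    congr 1
    exact Subtype.ext (by simp [mul_assoc])
  have hinv : ∀ x A, Act x A → Act x⁻¹ A⁻¹ := by
    rintro x A ⟨hx, hx'⟩
    refine ⟨inv_mem hx, fun u => ?_⟩
    have h1 := hx' ⟨x⁻¹ * u * x⁻¹⁻¹, (Subgroup.mem_normalizer_iff.1 (inv_mem hx) u).1 u.2⟩
    have h2 : (⟨x * (x⁻¹ * u * x⁻¹⁻¹) * x⁻¹, (Subgroup.mem_normalizer_iff.1 hx _).1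
        ((Subgroup.mem_normalizer_iff.1 (inv_mem hx) u).1 u.2)⟩ : U) = u := Subtype.ext (by group)
    rw [h2] at h1
    rw [h1, Matrix.mulVec_mulVec, ← Matrix.SpecialLinearGroup.coe_mul, inv_mul_cancel,
      Matrix.SpecialLinearGroup.coe_one, Matrix.one_mulVec]
  set D := CfsgLib.SL2.upperU (1 : ZMod p) * CfsgLib.SL2.lowerU 1 * (CfsgLib.SL2.upperU 1)⁻¹ * (CfsgLib.SL2.lowerU 1)⁻¹
    with hD
  have hAD : Act (a * b * a⁻¹ * b⁻¹) D :=
    hmul _ _ _ _ (hmul _ _ _ _ (hmul _ _ _ _ ⟨hax, hae⟩ ⟨hbx, hbe⟩) (hinv _ _ ⟨hax, hae⟩)) (hinv _ _ ⟨hbx, hbe⟩)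
  have hApow : ∀ j : ℕ, Act ((a * b * a⁻¹ * b⁻¹) ^ j) (D ^ j) := by
    intro j
    induction j with
    | zero =>
      refine ⟨by rw [pow_zero]; exact one_mem _, fun u => ?_⟩
      rw [show (D ^ 0).1 = 1 from rfl, Matrix.one_mulVec]
      congr 1
      exact Subtype.ext (by simp)
    | succ j ih => rw [pow_succ, pow_succ]; exact hmul _ _ _ _ ih hAD
  obtain ⟨hx1, hx1'⟩ := hApow (p ^ k)
  have hD1 : D ^ p ^ k = 1 := by
    apply Subtype.ext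
    refine Matrix.ext_iff_mulVec.2 fun t => ?_
    obtain ⟨u, rfl⟩ := hκs t
    rw [← hx1' u, Matrix.SpecialLinearGroup.coe_one, Matrix.one_mulVec]
    congr 1
    exact Subtype.ext (by simp [hk'])
  have htr := CfsgLib.PrimitiveModule.tr_two_of_pow_eq_one (p := p) hD1
  rw [hD] at htr
  simp [CfsgLib.SL2.tr, CfsgLib.SL2.mul00, CfsgLib.SL2.mul01, CfsgLib.SL2.mul10, CfsgLib.SL2.mul11,
    CfsgLib.SL2.inv00, CfsgLib.SL2.inv01, CfsgLib.SL2.inv10, CfsgLib.SL2.inv11] at htr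
  exact one_ne_zero (show (1 : ZMod p) = 0 by linear_combination htr)

end Cfsg.Agent.S2232
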