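import Cfsg.Statements.S2239
import Cfsg.Agent.Sz.Classify
-- import your own Cfsg.Agent.* helpers here

set_option autoImplicit false
open Cfsg

namespace Cfsg.Agent.S2239

/-- Subfield subgroups of the Suzuki group: let q = 2^(2m+1) and s = 2^(2k+1) with m, k ≥ 1 and 2k+1 dividing 2m+1 (so q is a power of s), both groups realised as stabilisers in SL₄ of the Suzuki–Tits ovoid. Then Sz(q) has a subgroup isomorphic to Sz(s), and any two subgroups of Sz(q) isomorphic to Sz(s) are conjugate. -/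
theorem result {F : Type*} [Field F] [Fintype F] {m : ℕ} (hm : 1 ≤ m) (hF : Fintype.card F = 2 ^ (2 * m + 1)) {K : Type*} [Field K] [Fintype K] {k : ℕ} (hk : 1 ≤ k) (hK : Fintype.card K = 2 ^ (2 * k + 1)) (hdiv : 2 * k + 1 ∣ 2 * m + 1) :
    (∃ S : Subgroup ↥(Cfsg.Sz F m), Nonempty (↥S ≃* ↥(Cfsg.Sz K k))) ∧
    ∀ S₁ S₂ : Subgroup ↥(Cfsg.Sz F m), Nonempty (↥S₁ ≃* ↥(Cfsg.Sz K k)) → Nonempty (↥S₂ ≃* ↥(Cfsg.Sz K k)) →
      ∃ g : ↥(Cfsg.Sz F m), S₂ = S₁.map (MulAut.conj g).toMonoidHom := by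
  classical
  have h : CfsgLib.Sz.Hyp F m := ⟨hm, hF⟩
  have hKh : CfsgLib.Sz.Hyp K k := ⟨hk, hK⟩
  have e := CfsgLib.Sz.equivModel h
  have eK := CfsgLib.Sz.equivModel hKh
  haveI : Fact (Nat.Prime 2) := ⟨Nat.prime_two⟩
  haveI := h.charP
  haveI := hKh.charP
  letI := ZMod.algebra F 2
  letI := ZMod.algebra K 2
  refine ⟨?_, fun S₁ S₂ h₁ h₂ => ?_⟩
  · have hfK : Module.finrank (ZMod 2) K = 2 * k + 1 := by
      have h0 := Module.card_eq_pow_finrank (K := ZMod 2) (V := K)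
      rw [hK, ZMod.card] at h0
      exact (Nat.pow_right_injective le_rfl h0).symm
    have hfF : Module.finrank (ZMod 2) F = 2 * m + 1 := by
      have h0 := Module.card_eq_pow_finrank (K := ZMod 2) (V := F)
      rw [hF, ZMod.card] at h0
      exact (Nat.pow_right_injective le_rfl h0).symm
    obtain ⟨f⟩ := (FiniteField.nonempty_algHom_iff_finrank_dvd (F := ZMod 2) (K := K) (L := F)).mpr
      (by rw [hfK, hfF]; exact hdiv)
    let φ : Cfsg.Sz K k →* Cfsg.Sz F m :=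
      (e.symm.toMonoidHom.comp (CfsgLib.Sz.mapG hKh h f.toRingHom)).comp eK.toMonoidHom
    have hφ : Function.Injective φ :=
      (e.symm.injective.comp (CfsgLib.Sz.mapG_injective hKh h _)).comp eK.injective
    exact ⟨φ.range, ⟨(MonoidHom.ofInjective hφ).symm⟩⟩
  · obtain ⟨f₁⟩ := h₁
    obtain ⟨f₂⟩ := h₂
    obtain ⟨g, hg⟩ := CfsgLib.Sz.subfield_conj h hKh (S₁.map e.toMonoidHom) (S₂.map e.toMonoidHom)
      ⟨(e.subgroupMap S₁).symm.trans (f₁.trans eK)⟩ ⟨(e.subgroupMap S₂).symm.trans (f₂.trans eK)⟩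
    refine ⟨e.symm g, Subgroup.map_injective (f := e.toMonoidHom) e.injective ?_⟩
    rw [hg, Subgroup.map_map, Subgroup.map_map]
    congr 1
    ext x
    simp

end Cfsg.Agent.S2239
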