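import Cfsg.Statements.S2240
-- import your own Cfsg.Agent.* helpers here
import Cfsg.Agent.Sz.Model

set_option autoImplicit false
open Cfsg

namespace Cfsg.Agent.S2240

/-- Elementary abelian TI-subgroups of the Suzuki group: let q = 2^(2m+1) with m ≥ 1, the group realised as the stabiliser in SL₄ of the Suzuki–Tits ovoid, and n ≥ 2. There is an elementary abelian 2-subgroup E of order 2^n that is a TI-subgroup (every conjugate of E meeting E nontrivially is E itself) if and only if n divides 2m + 1. -/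
theorem result {F : Type*} [Field F] [Fintype F] {m : ℕ} (hm : 1 ≤ m) (hF : Fintype.card F = 2 ^ (2 * m + 1)) (n : ℕ) (hn : 2 ≤ n) :
    (∃ E : Subgroup ↥(Cfsg.Sz F m), Cfsg.IsElementaryAbelian 2 E ∧ Nat.card ↥E = 2 ^ n ∧
      ∀ x : ↥(Cfsg.Sz F m), E ⊓ E.map (MulAut.conj x).toMonoidHom ≠ ⊥ → x ∈ Subgroup.normalizer (E : Set ↥(Cfsg.Sz F m))) ↔ n ∣ 2 * m + 1 := by
  have h := (⟨hm, hF⟩ : CfsgLib.Sz.Hyp F m)
  have hU : ∀ (A B : Type _) [Group A] [Group B] (e : A ≃* B) (E : Subgroup A),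
      (Cfsg.IsElementaryAbelian 2 E ∧ Nat.card ↥E = 2 ^ n ∧
        ∀ x : A, E ⊓ E.map (MulAut.conj x).toMonoidHom ≠ ⊥ → x ∈ Subgroup.normalizer (E : Set A)) →
      ∃ E' : Subgroup B, Cfsg.IsElementaryAbelian 2 E' ∧ Nat.card ↥E' = 2 ^ n ∧
        ∀ x : B, E' ⊓ E'.map (MulAut.conj x).toMonoidHom ≠ ⊥ → x ∈ Subgroup.normalizer (E' : Set B) := by
    intro A B _ _ e E ⟨⟨⟨⟨hc⟩⟩, h2⟩, hcard, hti⟩
    have hm' : ∀ y : B, y ∈ E.map e.toMonoidHom ↔ e.symm y ∈ E := fun y => Subgroup.mem_map_equiv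
    refine ⟨E.map e.toMonoidHom, ⟨⟨⟨?_⟩⟩, ?_⟩, ?_, ?_⟩
    · rintro ⟨a, ha⟩ ⟨b, hb⟩
      apply Subtype.ext
      show a * b = b * a
      apply e.symm.injective
      rw [map_mul, map_mul]
      exact congrArg Subtype.val (hc ⟨_, (hm' a).1 ha⟩ ⟨_, (hm' b).1 hb⟩)
    · intro a ha
      apply e.symm.injective
      rw [map_pow, map_one, h2 _ ((hm' a).1 ha)]
    · rw [← hcard]
      exact (Nat.card_congr (E.equivMapOfInjective e.toMonoidHom e.injective).toEquiv).symm
    · intro x hx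
      have hne : E ⊓ E.map (MulAut.conj (e.symm x)).toMonoidHom ≠ ⊥ := by
        intro hbot
        apply hx
        rw [eq_bot_iff]
        rintro y ⟨hy1, z, hz, hzy⟩
        have hy1' := (hm' y).1 hy1
        have hy2 : e.symm y ∈ E.map (MulAut.conj (e.symm x)).toMonoidHom := by
          refine ⟨e.symm z, (hm' z).1 hz, ?_⟩
          rw [← hzy]
          simp
        have : e.symm y ∈ E ⊓ E.map (MulAut.conj (e.symm x)).toMonoidHom := ⟨hy1', hy2⟩
        rw [hbot, Subgroup.mem_bot] at this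
        exact Subgroup.mem_bot.2 (e.symm.injective (this.trans (map_one e.symm).symm))
      have := hti _ hne
      rw [Subgroup.mem_normalizer_iff] at this ⊢
      intro y
      rw [hm', hm', this, map_mul, map_mul, map_inv]
  constructor
  · rintro ⟨E, hE⟩
    obtain ⟨E', h1, h2, h3⟩ := hU _ _ (CfsgLib.Sz.equivModel h) E hE
    exact CfsgLib.Sz.ti_elementary_forward h hn E' h1 h2 h3
  · intro hd
    obtain ⟨E, hE⟩ := CfsgLib.Sz.ti_elementary_backward h hn hd
    exact hU _ _ (CfsgLib.Sz.equivModel h).symm E hE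

end Cfsg.Agent.S2240
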