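import Cfsg.Statements.S2244
import Cfsg.Agent.Chev.WeaklyClosedCert

set_option autoImplicit false
open Cfsg

namespace Cfsg.Agent.S2244

/-- Weakly closed unipotent subgroups of Chevalley groups: let G be the Chevalley group of type G₂, B₂, D₄, F₄, E₆, E₇ or E₈ over a finite field F (the matrix group generated by the root elements), with |F| ≠ 2, and |F| ≠ 3 as well for the types G₂, B₂, D₄, F₄. Let U be the subgroup generated by the positive root subgroups. If X ≤ U is weakly closed in U with respect to G (every G-conjugate of X lying in U equals X), then X is the unipotent radical U_J of a standard parabolic subgroup for some set J of fundamental roots. -/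
theorem result {F : Type*} [Field F] [Fintype F] (D : Cfsg.Lie.ChevalleyDatum) (hD : D ∈ [Cfsg.Lie.chevG2, Cfsg.Lie.chevB2, Cfsg.Lie.chevD4, Cfsg.Lie.chevF4, Cfsg.Lie.chevE6, Cfsg.Lie.chevE7, Cfsg.Lie.chevE8])
    (h2 : Fintype.card F ≠ 2) (h3 : D ∈ [Cfsg.Lie.chevG2, Cfsg.Lie.chevB2, Cfsg.Lie.chevD4, Cfsg.Lie.chevF4] → Fintype.card F ≠ 3)
    (X : Subgroup (GL D.Idx F)) (hXU : X ≤ D.posUnipotent F)
    (hwc : ∀ g ∈ D.group F, X.map (MulAut.conj g).toMonoidHom ≤ D.posUnipotent F → X.map (MulAut.conj g).toMonoidHom = X) :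
    ∃ J : Set ℕ, (∀ j ∈ J, j < D.rank) ∧ X = D.unipotentRadical F J := by
  have hq : ∃ a : F, a ≠ 0 ∧ a ≠ 1 := by
    classical
    by_contra hc
    push Not at hc
    have h1 : (Finset.univ : Finset F) = {0, 1} := by
      ext a
      simp only [Finset.mem_univ, Finset.mem_insert, Finset.mem_singleton, true_iff]
      exact or_iff_not_imp_left.2 (hc a)
    apply h2
    rw [← Finset.card_univ, h1, Finset.card_pair zero_ne_one]
  have hbig : D ∈ [Cfsg.Lie.chevG2, Cfsg.Lie.chevB2, Cfsg.Lie.chevD4, Cfsg.Lie.chevF4] →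
      ∃ a b : F, a ≠ 0 ∧ a ≠ 1 ∧ b ≠ 0 ∧ b ≠ 1 ∧ a ≠ b := by
    classical
    intro hm
    obtain ⟨a, ha0, ha1⟩ := hq
    by_contra hc
    push Not at hc
    have h1 : (Finset.univ : Finset F) = {0, 1, a} := by
      ext b
      simp only [Finset.mem_univ, Finset.mem_insert, Finset.mem_singleton, true_iff]
      by_cases b0 : b = 0
      · exact Or.inl b0
      by_cases b1 : b = 1
      · exact Or.inr (Or.inl b1)
      exact Or.inr (Or.inr (hc a b ha0 ha1 b0 b1).symm)
    apply h3 hm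
    rw [← Finset.card_univ, h1, Finset.card_eq_three]
    exact ⟨0, 1, a, zero_ne_one, ha0.symm, ha1.symm, rfl⟩
  simp only [List.mem_cons, List.not_mem_nil, or_false] at hD
  rcases hD with rfl | rfl | rfl | rfl | rfl | rfl | rfl
  · exact CfsgLib.Chev.sysG2.weaklyClosed_eq_radical CfsgLib.Chev.geoG2 CfsgLib.Chev.wcOK_G2 hq
      (fun _ => hbig (by simp)) hXU hwc
  · exact CfsgLib.Chev.sysB2.weaklyClosed_eq_radical CfsgLib.Chev.geoB2 CfsgLib.Chev.wcOK_B2 hq
      (fun _ => hbig (by simp)) hXU hwc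
  · exact CfsgLib.Chev.sysD4.weaklyClosed_eq_radical CfsgLib.Chev.geoD4 CfsgLib.Chev.wcOK_D4 hq
      (fun _ => hbig (by simp)) hXU hwc
  · exact CfsgLib.Chev.sysF4.weaklyClosed_eq_radical CfsgLib.Chev.geoF4 CfsgLib.Chev.wcOK_F4 hq
      (fun _ => hbig (by simp)) hXU hwc
  · exact CfsgLib.Chev.sysE6.weaklyClosed_eq_radical CfsgLib.Chev.geoE6 CfsgLib.Chev.wcOK_E6 hq
      (fun h => absurd h Bool.false_ne_true) hXU hwc
  · exact CfsgLib.Chev.sysE7.weaklyClosed_eq_radical CfsgLib.Chev.geoE7 CfsgLib.Chev.wcOK_E7 hq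
      (fun h => absurd h Bool.false_ne_true) hXU hwc
  · exact CfsgLib.Chev.sysE8.weaklyClosed_eq_radical CfsgLib.Chev.geoE8 CfsgLib.Chev.wcOK_E8 hq
      (fun h => absurd h Bool.false_ne_true) hXU hwc

end Cfsg.Agent.S2244
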