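import Cfsg.Statements.S2251
import Cfsg.Agent.Sz.Classify
-- import your own Cfsg.Agent.* helpers here

set_option autoImplicit false
open Cfsg

namespace Cfsg.Agent.S2251

/-- The subgroups of the Suzuki group: with q = 2^(2m+1), m ≥ 1, r = 2^m and the group realised as the stabiliser in SL₄ of the Suzuki–Tits ovoid, every proper subgroup is contained in the normalizer of a Sylow 2-subgroup, or in the normalizer of a cyclic subgroup of order q − 1, q + 2r + 1 or q − 2r + 1, or in a subgroup isomorphic to a smaller Suzuki group Sz(s) with s = 2^(2k+1) ≥ 8 and 2k+1 a proper divisor of 2m+1. -/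
theorem result {F : Type*} [Field F] [Fintype F] {m : ℕ} (hm : 1 ≤ m) (hF : Fintype.card F = 2 ^ (2 * m + 1)) (M : Subgroup ↥(Cfsg.Sz F m)) (hM : M ≠ ⊤) :
    (∃ P : Sylow 2 ↥(Cfsg.Sz F m), M ≤ Subgroup.normalizer ((P : Subgroup ↥(Cfsg.Sz F m)) : Set ↥(Cfsg.Sz F m))) ∨
    (∃ U : Subgroup ↥(Cfsg.Sz F m), IsCyclic ↥U ∧ Nat.card ↥U ∈ ({2 ^ (2 * m + 1) - 1, 2 ^ (2 * m + 1) + 2 ^ (m + 1) + 1, 2 ^ (2 * m + 1) - 2 ^ (m + 1) + 1} : Set ℕ) ∧
      M ≤ Subgroup.normalizer (U : Set ↥(Cfsg.Sz F m))) ∨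
    (∃ (K : Type) (_ : Field K) (_ : Fintype K) (k : ℕ), 1 ≤ k ∧ k < m ∧ Fintype.card K = 2 ^ (2 * k + 1) ∧ 2 * k + 1 ∣ 2 * m + 1 ∧
      ∃ S : Subgroup ↥(Cfsg.Sz F m), Nonempty (↥S ≃* ↥(Cfsg.Sz K k)) ∧ M ≤ S) := by
  have h : CfsgLib.Sz.Hyp F m := ⟨hm, hF⟩
  classical
  by_cases hs : Group.IsSolvable M
  · obtain ⟨U, hU, hle⟩ := (CfsgLib.Sz.trich_model h).le_normalizer_part (CfsgLib.Sz.Ks_facts h).1
      (CfsgLib.Sz.Ks_facts h).2 M hs
    rcases hU with ⟨P, rfl⟩ | ⟨h1, h2⟩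
    · exact Or.inl ⟨P, hle⟩
    · exact Or.inr (Or.inl ⟨U, h1, h2, hle⟩)
  · have e := CfsgLib.Sz.equivModel h
    set M' := M.map e.toMonoidHom with hM'
    have hs' : ¬ Group.IsSolvable M' := fun hh =>
      hs (@Group.isSolvable_of_isSolvable_injective _ _ _ _ (e.subgroupMap M).toMonoidHom (MulEquiv.injective _) hh)
    have ht : M' ≠ ⊤ := fun h0 => hM (Subgroup.map_injective (f := e.toMonoidHom) e.injective
      (h0.trans (Subgroup.map_top_of_surjective _ e.surjective).symm))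
    obtain ⟨k, hk, hkm, hdvd, hiso⟩ := CfsgLib.Sz.proper_subfield h M' hs' ht
    haveI : Fact (Nat.Prime 2) := ⟨Nat.prime_two⟩
    letI : Fintype (GaloisField 2 (2 * k + 1)) := Fintype.ofFinite _
    have hL : Fintype.card (GaloisField 2 (2 * k + 1)) = 2 ^ (2 * k + 1) := by
      rw [← Nat.card_eq_fintype_card]; exact GaloisField.card 2 _ (by omega)
    obtain ⟨f⟩ := hiso (GaloisField 2 (2 * k + 1)) inferInstance inferInstance hL
    exact Or.inr (Or.inr ⟨GaloisField 2 (2 * k + 1), inferInstance, inferInstance, k, hk, hkm, hL, hdvd, M,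
      ⟨(e.subgroupMap M).trans (f.trans (CfsgLib.Sz.equivModel
        (⟨hk, hL⟩ : CfsgLib.Sz.Hyp (GaloisField 2 (2 * k + 1)) k)).symm)⟩, le_rfl⟩)

end Cfsg.Agent.S2251
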