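import Cfsg.Statements.S2254
import Cfsg.Agent.NilPerm.Classify
-- import your own Cfsg.Agent.* helpers here

set_option autoImplicit false
set_option linter.style.haveILetI false
open Cfsg CfsgLib.NilPerm

namespace Cfsg.Agent.S2254

/-- Let n ≡ 3 (mod 4). Then every nilpotent subgroup of the symmetric group on n letters has order at most 3 times the order of a Sylow 2-subgroup of the symmetric group on n − 3 letters; the bound is attained by a nilpotent subgroup isomorphic to the direct product of such a Sylow 2-subgroup with a cyclic group of order 3; and any two nilpotent subgroups attaining the bound are conjugate. -/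
theorem result  (n : ℕ) (hn : n % 4 = 3)
    (P : Sylow 2 (Equiv.Perm (Fin (n - 3)))) :
    (∀ N : Subgroup (Equiv.Perm (Fin n)), Group.IsNilpotent N → Nat.card N ≤ 3 * Nat.card P) ∧
    (∃ M : Subgroup (Equiv.Perm (Fin n)), Group.IsNilpotent M ∧ Nat.card M = 3 * Nat.card P ∧
      Nonempty (M ≃* (↥(P : Subgroup (Equiv.Perm (Fin (n - 3)))) × Multiplicative (ZMod 3)))) ∧
    (∀ N₁ N₂ : Subgroup (Equiv.Perm (Fin n)), Group.IsNilpotent N₁ → Group.IsNilpotent N₂ →
      Nat.card N₁ = 3 * Nat.card P → Nat.card N₂ = 3 * Nat.card P →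
      ∃ g : Equiv.Perm (Fin n), N₂ = N₁.map (MulAut.conj g).toMonoidHom) := by
  have hP := card_sylow_perm P
  refine ⟨fun N hN => ?_, ?_, fun N₁ N₂ hN₁ hN₂ h1 h2 => ?_⟩
  · have h := card_le_nilBound N hN
    rw [Fintype.card_fin, nilBound, if_pos hn] at h
    rwa [hP]
  · obtain ⟨ψ, hψ, -⟩ := exists_embedding (m := n - 3) (n := n) (by omega)
    set φ := ψ.comp (MonoidHom.prodMap (P : Subgroup (Equiv.Perm (Fin (n - 3)))).subtype
      (MonoidHom.id (Multiplicative (ZMod 3))))
    have hφ : Function.Injective φ :=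
      hψ.comp (Function.Injective.prodMap (Subgroup.subtype_injective _) (fun _ _ h => h))
    let eM := (MonoidHom.ofInjective hφ).symm
    haveI : Fact (Nat.Prime 2) := ⟨Nat.prime_two⟩
    haveI : Group.IsNilpotent (P : Subgroup (Equiv.Perm (Fin (n - 3)))) := P.isPGroup'.isNilpotent
    refine ⟨φ.range, ?_, ?_, ⟨eM⟩⟩
    · exact Group.nilpotent_of_mulEquiv eM.symm
    · rw [Nat.card_congr eM.toEquiv, Nat.card_prod, mul_comm]
      simp
  · exact conj_sym (by rwa [Fintype.card_fin]) N₁ N₂ hN₁ hN₂ (by rw [h1, hP, Fintype.card_fin])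
      (by rw [h2, hP, Fintype.card_fin])

end Cfsg.Agent.S2254
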