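import Cfsg.Statements.S2255
import Cfsg.Agent.NilPerm.Classify
-- import your own Cfsg.Agent.* helpers here

set_option autoImplicit false
open Cfsg CfsgLib.NilPerm

namespace Cfsg.Agent.S2255

/-- Let n be a natural number not congruent to 3 modulo 4, with n ∉ {5, 6, 9}. Then every nilpotent subgroup of the alternating group on n letters has order at most the order of a Sylow 2-subgroup of the alternating group (so the nilpotent subgroups of largest order are exactly the Sylow 2-subgroups). -/
theorem result  (n : ℕ) (hn : n % 4 ≠ 3)
    (h5 : n ≠ 5) (h6 : n ≠ 6) (h9 : n ≠ 9)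
    (N : Subgroup (alternatingGroup (Fin n))) (hN : Group.IsNilpotent N)
    (P : Sylow 2 (alternatingGroup (Fin n))) :
    Nat.card N ≤ Nat.card P := by
  set H := N.map (alternatingGroup (Fin n)).subtype
  have hc : Nat.card H = Nat.card N := Subgroup.card_map_of_injective (alternatingGroup (Fin n)).subtype_injective
  have hH : Group.IsNilpotent H :=
    Group.nilpotent_of_mulEquiv (N.equivMapOfInjective _ (alternatingGroup (Fin n)).subtype_injective)
  have h := card_le_altBound H hH (Subgroup.map_subtype_le _)
  rw [Fintype.card_fin, hc] at h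
  rcases Nat.lt_or_ge n 2 with h2 | h2
  · rw [altBound, if_pos (by omega)] at h
    exact h.trans Nat.card_pos
  have hx : ¬ Exceptional n := by unfold Exceptional; omega
  obtain ⟨v, hv, hP⟩ := card_sylow_alt h2 P
  rw [altBound_eq hx, nilBound, if_neg hn, twoPart, ← hv, pow_succ, Nat.mul_div_cancel _ two_pos] at h
  rwa [hP]

end Cfsg.Agent.S2255
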