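import Cfsg.Statements.S2256
import Cfsg.Agent.NilPerm.Classify
-- import your own Cfsg.Agent.* helpers here

set_option autoImplicit false
set_option linter.style.haveILetI false
open Cfsg CfsgLib.NilPerm

namespace Cfsg.Agent.S2256

/-- Let n ≡ 3 (mod 4) with n ≥ 7. Then every nilpotent subgroup of the alternating group on n letters has order at most 3 times the order of a Sylow 2-subgroup of the alternating group on n − 3 letters; the bound is attained by a nilpotent subgroup isomorphic to the direct product of such a Sylow 2-subgroup with a cyclic group of order 3; and any two nilpotent subgroups of the alternating group attaining the bound are conjugate in it. -/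
theorem result  (n : ℕ) (hn : n % 4 = 3) (h7 : 7 ≤ n)
    (P : Sylow 2 (alternatingGroup (Fin (n - 3)))) :
    (∀ N : Subgroup (alternatingGroup (Fin n)), Group.IsNilpotent N → Nat.card N ≤ 3 * Nat.card P) ∧
    (∃ M : Subgroup (alternatingGroup (Fin n)), Group.IsNilpotent M ∧ Nat.card M = 3 * Nat.card P ∧
      Nonempty (M ≃* (↥(P : Subgroup (alternatingGroup (Fin (n - 3)))) × Multiplicative (ZMod 3)))) ∧
    (∀ N₁ N₂ : Subgroup (alternatingGroup (Fin n)), Group.IsNilpotent N₁ → Group.IsNilpotent N₂ →
      Nat.card N₁ = 3 * Nat.card P → Nat.card N₂ = 3 * Nat.card P →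
      ∃ g : alternatingGroup (Fin n), N₂ = N₁.map (MulAut.conj g).toMonoidHom) := by
  obtain ⟨v, hv, hP⟩ := card_sylow_alt (by omega) P
  refine ⟨fun N hN => ?_, ?_, fun N₁ N₂ hN₁ hN₂ h1 h2 => ?_⟩
  · set H := N.map (alternatingGroup (Fin n)).subtype
    have hc : Nat.card H = Nat.card N := Subgroup.card_map_of_injective (alternatingGroup (Fin n)).subtype_injective
    have hH : Group.IsNilpotent H :=
      Group.nilpotent_of_mulEquiv (N.equivMapOfInjective _ (alternatingGroup (Fin n)).subtype_injective)
    have h := card_le_altBound H hH (Subgroup.map_subtype_le _)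
    have hx : ¬ Exceptional n := by unfold Exceptional; omega
    rw [Fintype.card_fin, hc, altBound_eq hx, nilBound, if_pos hn, twoPart, ← hv, pow_succ, ← mul_assoc,
      Nat.mul_div_cancel _ two_pos] at h
    rwa [hP]
  · obtain ⟨ψ, hψ, hsgn⟩ := exists_embedding (m := n - 3) (n := n) (by omega)
    set φ₀ := ψ.comp (MonoidHom.prodMap ((alternatingGroup (Fin (n - 3))).subtype.comp
      (P : Subgroup (alternatingGroup (Fin (n - 3)))).subtype) (MonoidHom.id (Multiplicative (ZMod 3))))
    let φ := φ₀.codRestrict (alternatingGroup (Fin n)) fun x => Equiv.Perm.mem_alternatingGroup.2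
      ((hsgn _ _).trans (Equiv.Perm.mem_alternatingGroup.1 ((x.1 : alternatingGroup (Fin (n - 3))).2)))
    have hφ : Function.Injective φ := fun a b h =>
      (hψ.comp (Function.Injective.prodMap ((Subgroup.subtype_injective _).comp (Subgroup.subtype_injective _))
        (fun _ _ h => h))) (congrArg Subtype.val h)
    let eM := (MonoidHom.ofInjective hφ).symm
    haveI : Fact (Nat.Prime 2) := ⟨Nat.prime_two⟩
    haveI : Group.IsNilpotent (P : Subgroup (alternatingGroup (Fin (n - 3)))) := P.isPGroup'.isNilpotent
    refine ⟨φ.range, ?_, ?_, ⟨eM⟩⟩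
    · exact Group.nilpotent_of_mulEquiv eM.symm
    · rw [Nat.card_congr eM.toEquiv, Nat.card_prod, mul_comm]
      simp
  · exact conj_alt (by rwa [Fintype.card_fin]) (by rwa [Fintype.card_fin]) N₁ N₂ hN₁ hN₂
      (v := v) (by rwa [Fintype.card_fin]) (by rw [h1, hP]) (by rw [h2, hP])

end Cfsg.Agent.S2256
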