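import Cfsg.Statements.S2257
import Cfsg.Agent.H29.Solubilizer.Even
import Cfsg.Agent.H29.Dickson.Exceptions

set_option autoImplicit false
open Cfsg

namespace Cfsg.Agent.S2257

/-- Let G = PSL_2(F) with F a field of order q = 2^p, p prime, and for x ∈ G call the solubilizer of x the set of y ∈ G such that x and y generate a solvable subgroup. Then the solubilizer of an involution has 3q(q − 1) elements; that of a non-identity element of order dividing q − 1 has 2q(q − 1) elements; and that of a non-identity element of order dividing q + 1 has 2(q + 1) elements. -/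
theorem result (p : ℕ) (hp : p.Prime) {F : Type*} [Field F] [Fintype F]
    (hF : Fintype.card F = 2 ^ p) (x : Matrix.ProjectiveSpecialLinearGroup (Fin 2) F) :
    (orderOf x = 2 → Nat.card {y : Matrix.ProjectiveSpecialLinearGroup (Fin 2) F // Group.IsSolvable ↥(Subgroup.closure ({x, y} : Set (Matrix.ProjectiveSpecialLinearGroup (Fin 2) F)))} = 3 * 2 ^ p * (2 ^ p - 1)) ∧
    (x ≠ 1 → orderOf x ∣ 2 ^ p - 1 → Nat.card {y : Matrix.ProjectiveSpecialLinearGroup (Fin 2) F // Group.IsSolvable ↥(Subgroup.closure ({x, y} : Set (Matrix.ProjectiveSpecialLinearGroup (Fin 2) F)))} = 2 * 2 ^ p * (2 ^ p - 1)) ∧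
    (x ≠ 1 → orderOf x ∣ 2 ^ p + 1 → Nat.card {y : Matrix.ProjectiveSpecialLinearGroup (Fin 2) F // Group.IsSolvable ↥(Subgroup.closure ({x, y} : Set (Matrix.ProjectiveSpecialLinearGroup (Fin 2) F)))} = 2 * (2 ^ p + 1)) := by
  classical
  haveI : Fact (Nat.Prime 2) := ⟨Nat.prime_two⟩
  haveI hchar : CharP F 2 := by
    obtain ⟨q, hq, hc, k, -, hk⟩ := CfsgLib.H29.Dickson.exists_p (F := F)
    have h2 : q = 2 := by
      have h : q ∣ 2 ^ p := by rw [← hF, hk]; exact dvd_pow_self q (by intro e; rw [e, pow_zero, hF] at hk; exact absurd hk (Nat.one_lt_two_pow hp.ne_zero).ne')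
      exact (Nat.prime_dvd_prime_iff_eq hq Nat.prime_two).mp (hq.dvd_of_dvd_pow h)
    exact h2 ▸ hc
  have hinj := Matrix.ProjectiveSpecialLinearGroup.toPGL_injective (n := Fin 2) (R := F)
  rw [CfsgLib.H29.Solubilizer.card_solSet_map hinj x, CfsgLib.H29.Dickson.range_toPGL]
  set y := Matrix.ProjectiveSpecialLinearGroup.toPGL x with hy
  have hyW : y ∈ CfsgLib.H29.Dickson.W F := by
    rw [← CfsgLib.H29.Dickson.range_toPGL]; exact ⟨x, rfl⟩
  have hord : orderOf y = orderOf x := orderOf_injective _ hinj x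
  have h4 : 4 ≤ Fintype.card F :=
    hF ▸ (show 4 = 2 ^ 2 by norm_num) ▸ Nat.pow_le_pow_right (by norm_num) hp.two_le
  have hcl := CfsgLib.H29.Solubilizer.classes_even hp hF y
  have hg : Nat.gcd 2 (Fintype.card F - 1) = 1 :=
    CfsgLib.H29.Dickson.gcd_eq_one CharTwo.two_eq_zero
  have h2 : ∀ k : ℕ, orderOf x ∣ k → ¬ 2 ∣ k → x ≠ 1 → y ^ 2 ≠ 1 := by
    intro k hk hodd hx1 hy2
    rcases (Nat.dvd_prime Nat.prime_two).mp (hord ▸ orderOf_dvd_of_pow_eq_one hy2) with h | h
    · exact hx1 (orderOf_eq_one_iff.mp h)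
    · exact hodd (h ▸ hk)
  have hev : 2 ∣ 2 ^ p := dvd_pow_self 2 hp.ne_zero
  have hpos : 1 ≤ 2 ^ p := Nat.one_le_two_pow
  refine ⟨fun h => ?_, fun hx1 hd => ?_, fun hx1 hd => ?_⟩
  · have := CfsgLib.H29.Solubilizer.involution_even hp hF (x := y)
      (fun e => by rw [e, orderOf_one] at hord; omega)
      (by rw [← pow_two]; exact orderOf_dvd_iff_pow_eq_one.mp (by rw [hord, h]))
    rw [this, hF]
  · have hy2 := h2 _ hd (by omega) hx1
    have := (CfsgLib.H29.Solubilizer.semisimple 2 h4 hyW hy2 (by rwa [← pow_two]) hcl).1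
      (by rw [hord, hF]; exact hd)
    rw [hg, mul_one, hF] at this
    exact this
  · have hy2 := h2 _ hd (by omega) hx1
    have := (CfsgLib.H29.Solubilizer.semisimple 2 h4 hyW hy2 (by rwa [← pow_two]) hcl).2
      (by rw [hord, hF]; exact hd)
    rw [hg, mul_one, hF] at this
    exact this

end Cfsg.Agent.S2257
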