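import Cfsg.Statements.S2258
import Cfsg.Agent.H29.Solubilizer.Torus
import Cfsg.Agent.H29.Solubilizer.ThreeInvol
import Cfsg.Agent.H29.Solubilizer.ThreeOrder
import Cfsg.Agent.H29.Dickson.Exceptions

set_option autoImplicit false
open Cfsg

namespace Cfsg.Agent.S2258

/-- Let G = PSL_2(F) with F a field of order q = 3^p, p an odd prime, and for x ∈ G call the solubilizer of x the set of y ∈ G such that x and y generate a solvable subgroup. Then the solubilizer of an involution has q(q + 1) elements; that of an element of order 3 has q(q + 5)/2 elements; that of an element of order neither 1 nor 2 dividing q − 1 has q(q − 1) elements; and that of an element of order neither 1 nor 2 dividing q + 1 has q + 1 elements. -/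
theorem result (p : ℕ) (hp : p.Prime) (hodd : Odd p) {F : Type*} [Field F] [Fintype F]
    (hF : Fintype.card F = 3 ^ p) (x : Matrix.ProjectiveSpecialLinearGroup (Fin 2) F) :
    (orderOf x = 2 → Nat.card {y : Matrix.ProjectiveSpecialLinearGroup (Fin 2) F // Group.IsSolvable ↥(Subgroup.closure ({x, y} : Set (Matrix.ProjectiveSpecialLinearGroup (Fin 2) F)))} = 3 ^ p * (3 ^ p + 1)) ∧
    (orderOf x = 3 → 2 * Nat.card {y : Matrix.ProjectiveSpecialLinearGroup (Fin 2) F // Group.IsSolvable ↥(Subgroup.closure ({x, y} : Set (Matrix.ProjectiveSpecialLinearGroup (Fin 2) F)))} = 3 ^ p * (3 ^ p + 5)) ∧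
    (x ≠ 1 → orderOf x ≠ 2 → orderOf x ∣ 3 ^ p - 1 → Nat.card {y : Matrix.ProjectiveSpecialLinearGroup (Fin 2) F // Group.IsSolvable ↥(Subgroup.closure ({x, y} : Set (Matrix.ProjectiveSpecialLinearGroup (Fin 2) F)))} = 3 ^ p * (3 ^ p - 1)) ∧
    (x ≠ 1 → orderOf x ≠ 2 → orderOf x ∣ 3 ^ p + 1 → Nat.card {y : Matrix.ProjectiveSpecialLinearGroup (Fin 2) F // Group.IsSolvable ↥(Subgroup.closure ({x, y} : Set (Matrix.ProjectiveSpecialLinearGroup (Fin 2) F)))} = 3 ^ p + 1) := by
  classical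
  haveI : Fact (Nat.Prime 3) := ⟨Nat.prime_three⟩
  haveI hchar : CharP F 3 := by
    obtain ⟨q, hq, hc, k, hk0, hk⟩ := CfsgLib.H29.Dickson.exists_p (F := F)
    have h : q ∣ 3 ^ p := by rw [← hF, hk]; exact dvd_pow_self q hk0.ne'
    exact (Nat.prime_dvd_prime_iff_eq hq Nat.prime_three).mp (hq.dvd_of_dvd_pow h) ▸ hc
  have h2F : (2 : F) ≠ 0 := fun h => by
    have := (CharP.cast_eq_zero_iff F 3 2).mp (by exact_mod_cast h)
    omega
  have hT : CfsgLib.H29.Solubilizer.Ternary F :=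
    ⟨by exact_mod_cast CharP.cast_eq_zero F 3, h2F,
      by rw [hF]; exact CfsgLib.H29.Solubilizer.pow_three_mod_sixteen hodd, p, hp, hF⟩
  have hinj := Matrix.ProjectiveSpecialLinearGroup.toPGL_injective (n := Fin 2) (R := F)
  rw [CfsgLib.H29.Solubilizer.card_solSet_map hinj x, CfsgLib.H29.Dickson.range_toPGL]
  set y := Matrix.ProjectiveSpecialLinearGroup.toPGL x with hy
  have hyW : y ∈ CfsgLib.H29.Dickson.W F := by
    rw [← CfsgLib.H29.Dickson.range_toPGL]; exact ⟨x, rfl⟩
  have hord : orderOf y = orderOf x := orderOf_injective _ hinj x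
  have hne : ∀ k : ℕ, orderOf x ∣ k → ¬ 3 ∣ k → x ≠ 1 → orderOf x ≠ 2 →
      y * y ≠ 1 ∧ y ^ 3 ≠ 1 := by
    intro k hk hk3 hx1 hx2
    constructor
    · intro h
      rcases (Nat.dvd_prime Nat.prime_two).mp
        (hord ▸ orderOf_dvd_of_pow_eq_one (by rw [pow_two]; exact h)) with h' | h'
      · exact hx1 (orderOf_eq_one_iff.mp h')
      · exact hx2 h'
    · intro h
      rcases (Nat.dvd_prime Nat.prime_three).mp (hord ▸ orderOf_dvd_of_pow_eq_one h) with h' | h'
      · exact hx1 (orderOf_eq_one_iff.mp h')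
      · exact hk3 (h' ▸ hk)
  have hd3 : 3 ∣ 3 ^ p := dvd_pow_self 3 hp.ne_zero
  have hpos : 1 ≤ 3 ^ p := Nat.one_le_pow _ _ (by norm_num)
  refine ⟨fun h => ?_, fun h => ?_, fun hx1 hx2 hd => ?_, fun hx1 hx2 hd => ?_⟩
  · have := CfsgLib.H29.Solubilizer.solSet_involution hT hyW
      (fun e => by rw [e, orderOf_one] at hord; omega)
      (by rw [← pow_two]; exact orderOf_dvd_iff_pow_eq_one.mp (by rw [hord, h]))
    rw [this, hF]
  · have := CfsgLib.H29.Solubilizer.solSet_order_three hT (x := y) (hord.trans h)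
    rw [hF] at this
    rw [mul_comm, this]
  · obtain ⟨hy2, hy3⟩ := hne _ hd (by omega) hx1 hx2
    have := (CfsgLib.H29.Solubilizer.semisimple 3 hT.four hyW hy3 hy2
      (CfsgLib.H29.Solubilizer.pairClass_three hT hy2 hy3)).1 (by rw [hord, hF]; exact hd)
    rw [hT.gcd, hF, mul_assoc 2, mul_comm 2 (3 ^ p * (3 ^ p - 1))] at this
    exact Nat.eq_of_mul_eq_mul_right two_pos this
  · obtain ⟨hy2, hy3⟩ := hne _ hd (by omega) hx1 hx2
    have := (CfsgLib.H29.Solubilizer.semisimple 3 hT.four hyW hy3 hy2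
      (CfsgLib.H29.Solubilizer.pairClass_three hT hy2 hy3)).2 (by rw [hord, hF]; exact hd)
    rw [hT.gcd, hF, mul_comm 2 (3 ^ p + 1)] at this
    exact Nat.eq_of_mul_eq_mul_right two_pos this

end Cfsg.Agent.S2258
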