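import Cfsg.Statements.S2268
import Cfsg.Agent.Automizer.Real
-- import your own Cfsg.Agent.* helpers here

set_option autoImplicit false
open Cfsg

namespace Cfsg.Agent.S2268

/-- Let G be a finite group with an abelian Sylow p-subgroup P and let Q ≤ P. Then N_G(Q) = (N_G(Q) ∩ N_G(P))·C_G(Q), so that N_G(Q)/C_G(Q) is a homomorphic image of the subgroup (N_G(Q) ∩ N_G(P))/C_G(P) of N_G(P)/C_G(P); in particular the order of N_G(Q)/C_G(Q) divides the order of N_G(P)/C_G(P). -/
theorem result {G : Type*} [Group G] [Finite G] {p : ℕ} [Fact p.Prime]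
    (P : Sylow p G) (hP : IsMulCommutative (P : Subgroup G)) (Q : Subgroup G) (hQ : Q ≤ (P : Subgroup G)) :
    Subgroup.normalizer (Q : Set G) =
      (Subgroup.normalizer (Q : Set G) ⊓ Subgroup.normalizer ((P : Subgroup G) : Set G)) ⊔ Subgroup.centralizer (Q : Set G) ∧
    ((Subgroup.centralizer (Q : Set G)).subgroupOf (Subgroup.normalizer (Q : Set G))).index ∣ ((Subgroup.centralizer ((P : Subgroup G) : Set G)).subgroupOf (Subgroup.normalizer ((P : Subgroup G) : Set G))).index := by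
  have : IsMulCommutative P := hP
  set NQ := Subgroup.normalizer (Q : Set G)
  set NP := Subgroup.normalizer ((P : Subgroup G) : Set G)
  set CQ := Subgroup.centralizer (Q : Set G)
  set CP := Subgroup.centralizer ((P : Subgroup G) : Set G)
  have hPCQ : (P : Subgroup G) ≤ CQ :=
    le_trans P.le_centralizer (Subgroup.centralizer_le (SetLike.coe_subset_coe.mpr hQ))
  have hnorm := CfsgLib.Automizer.centralizer_subgroupOf_normalizer_normal Q
  have hnormP := CfsgLib.Automizer.centralizer_subgroupOf_normalizer_normal (P : Subgroup G)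
  have hCN : CQ ≤ NQ := Subgroup.centralizer_le_normalizer _
  have heq : NQ = (NQ ⊓ NP) ⊔ CQ := by
    refine le_antisymm (fun g hg => ?_) (sup_le inf_le_left hCN)
    have hle : ((g • P : Sylow p G) : Subgroup G) ≤ CQ := by
      intro y hy
      rw [Sylow.coe_subgroup_smul] at hy
      obtain ⟨z, hz, rfl⟩ := hy
      exact hnorm.conj_mem ⟨z, hCN (hPCQ hz)⟩ (hPCQ hz) ⟨g, hg⟩
    obtain ⟨c, hc⟩ := MulAction.exists_smul_eq CQ ((g • P).subtype hle) (P.subtype hPCQ)
    simp_rw [Sylow.smul_subtype, Subgroup.smul_def, smul_smul] at hc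
    have h2 : (c : G) * g ∈ NP := Sylow.smul_eq_iff_mem_normalizer.mp (Sylow.subtype_injective hc)
    have h3 : (c : G) * g ∈ NQ := NQ.mul_mem (hCN c.2) hg
    have h4 : g = (c : G)⁻¹ * ((c : G) * g) := by group
    rw [h4, sup_comm]
    exact Subgroup.mul_mem_sup (CQ.inv_mem c.2) ⟨h3, h2⟩
  refine ⟨heq, ?_⟩
  change CQ.relIndex NQ ∣ CP.relIndex NP
  have h1 : CQ.relIndex NQ = CQ.relIndex (NQ ⊓ NP) := by
    rw [← Subgroup.relIndex_subgroupOf (le_refl NQ),
      ← Subgroup.relIndex_subgroupOf (inf_le_left : NQ ⊓ NP ≤ NQ)]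
    have h5 : NQ.subgroupOf NQ = (NQ ⊓ NP).subgroupOf NQ ⊔ CQ.subgroupOf NQ := by
      rw [← Subgroup.subgroupOf_sup inf_le_left hCN, ← heq]
    rw [h5]
    exact Subgroup.relIndex_sup_right _ _
  have h2 : CQ.relIndex (NQ ⊓ NP) ∣ CP.relIndex (NQ ⊓ NP) :=
    Subgroup.relIndex_dvd_of_le_left _ (Subgroup.centralizer_le (SetLike.coe_subset_coe.mpr hQ))
  have h3 : CP.relIndex (NQ ⊓ NP) ∣ CP.relIndex NP := by
    rw [← Subgroup.relIndex_subgroupOf (inf_le_right : NQ ⊓ NP ≤ NP)]
    exact Subgroup.relIndex_dvd_index_of_normal _ _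
  rw [h1]; exact h2.trans h3

end Cfsg.Agent.S2268
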