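import Cfsg.Statements.S2269
import Cfsg.Agent.Automizer.Real
-- import your own Cfsg.Agent.* helpers here

set_option autoImplicit false
open Cfsg

namespace Cfsg.Agent.S2269

/-- Let n ≥ 5 and let P be an abelian Sylow p-subgroup of the alternating group A_n. Then N(P)/C(P) (taken in A_n) has even order, or P is cyclic, except when n = 5 and p = 2, where P is a four-group and N(P)/C(P) has order 3. -/
theorem a5_centralizer : ∀ x : alternatingGroup (Fin 5), x ^ 2 = 1 → x ≠ 1 →
      (Finset.univ.filter fun y : alternatingGroup (Fin 5) => y * x = x * y).card = 4 := by decide +kernel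

theorem a5_exponent : ∀ x : alternatingGroup (Fin 5), x ^ 4 = 1 → x ^ 2 = 1 := by decide +kernel

theorem a5_conj : ∀ x : alternatingGroup (Fin 5), ∀ y : alternatingGroup (Fin 5),
      x ^ 2 = 1 → x ≠ 1 → y ^ 2 = 1 → y ≠ 1 →
      ∃ g : alternatingGroup (Fin 5), g * x = y * g := by decide +kernel

theorem six_real :
    ∃ a c : Equiv.Perm (Fin 6), Equiv.Perm.sign a = 1 ∧ Equiv.Perm.sign c = 1 ∧
      a * c * a⁻¹ = c⁻¹ ∧ c ^ 2 ≠ 1 ∧ c ^ 4 = 1 := by
  refine ⟨Equiv.swap 0 2 * Equiv.swap 4 5,
    Equiv.swap 0 2 * Equiv.swap 4 5 * (Equiv.swap 0 1 * Equiv.swap 2 3), ?_⟩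
  decide +kernel

theorem exists_real_two (n : ℕ) (hn : 6 ≤ n) :
    ∃ c : alternatingGroup (Fin n), c ^ 2 ≠ 1 ∧ c ^ 4 = 1 ∧ IsConj c c⁻¹ := by
  obtain ⟨a, c, ha, hc, hac, hc2, hc4⟩ := six_real
  let f : Fin 6 ≃ {i : Fin n // i.val < 6} :=
    { toFun := fun i => ⟨⟨i.val, by omega⟩, i.2⟩
      invFun := fun i => ⟨i.1.val, i.2⟩
      left_inv := fun i => rfl
      right_inv := fun i => rfl }
  let ι : Equiv.Perm (Fin 6) →* Equiv.Perm (Fin n) := Equiv.Perm.extendDomainHom f
  have hι : Function.Injective ι := Equiv.Perm.extendDomainHom_injective f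
  have hs : ∀ x, Equiv.Perm.sign (ι x) = Equiv.Perm.sign x := fun x => Equiv.Perm.sign_extendDomain x f
  let A : alternatingGroup (Fin n) := ⟨ι a, Equiv.Perm.mem_alternatingGroup.mpr ((hs a).trans ha)⟩
  let C : alternatingGroup (Fin n) := ⟨ι c, Equiv.Perm.mem_alternatingGroup.mpr ((hs c).trans hc)⟩
  refine ⟨C, fun h => hc2 (hι ?_), Subtype.ext ?_, isConj_iff.mpr ⟨A, Subtype.ext ?_⟩⟩
  · rw [map_pow, map_one]; exact congrArg Subtype.val h
  · change ι c ^ 4 = 1
    rw [← map_pow, hc4, map_one]
  · change ι a * ι c * (ι a)⁻¹ = (ι c)⁻¹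
    rw [← map_inv, ← map_mul, ← map_mul, hac, map_inv]

theorem exists_real_odd (n p : ℕ) (hp : p.Prime) (hp2 : p ≠ 2) (hn : p + 2 ≤ n) :
    ∃ c : alternatingGroup (Fin n), orderOf c = p ∧ IsConj c c⁻¹ := by
  obtain ⟨σ, hσ⟩ := (Equiv.Perm.exists_with_cycleType_iff (Fin n) (m := {p})).mpr
    ⟨by simp; omega, by simp [hp.two_le]⟩
  have hsign : Equiv.Perm.sign σ = 1 := by
    rw [Equiv.Perm.sign_of_cycleType, hσ]
    simp [((hp.odd_of_ne_two hp2).add_odd odd_one).neg_one_pow]
  let C : alternatingGroup (Fin n) := ⟨σ, Equiv.Perm.mem_alternatingGroup.mpr hsign⟩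
  refine ⟨C, ?_, alternatingGroup.isConj_of ?_ ?_⟩
  · rw [← Subgroup.orderOf_coe]
    change orderOf σ = p
    rw [← Equiv.Perm.lcm_cycleType, hσ, Multiset.lcm_singleton, normalize_eq]
  · change IsConj σ σ⁻¹
    rw [Equiv.Perm.isConj_iff_cycleType_eq, Equiv.Perm.cycleType_inv]
  · change σ.support.card + 2 ≤ _
    rw [← Equiv.Perm.sum_cycleType, hσ]
    simp
    omega

theorem real_in_sylow {G : Type*} [Group G] [Finite G] {p : ℕ} [Fact p.Prime] (P : Sylow p G)
    (c : G) (k : ℕ) (hc : orderOf c = p ^ k) (h2 : c⁻¹ ≠ c) (hr : IsConj c c⁻¹) :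
    ∃ x ∈ (P : Subgroup G), x⁻¹ ≠ x ∧ IsConj x x⁻¹ := by
  have hpg : IsPGroup p (Subgroup.zpowers c) := IsPGroup.of_card (n := k) (by rw [Nat.card_zpowers, hc])
  obtain ⟨Q, hQ⟩ := hpg.exists_le_sylow
  obtain ⟨g, hg⟩ := MulAction.exists_smul_eq G Q P
  have hinv : (g * c * g⁻¹)⁻¹ = g * c⁻¹ * g⁻¹ := by group
  refine ⟨g * c * g⁻¹, ?_, fun h => h2 ?_, ?_⟩
  · rw [← hg, Sylow.coe_subgroup_smul]
    exact ⟨c, hQ (Subgroup.mem_zpowers c), rfl⟩
  · rw [hinv] at h
    simpa using h
  · rw [hinv]
    exact (((isConj_iff.mpr ⟨g, rfl⟩ : IsConj c (g * c * g⁻¹)).symm).trans hr).trans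
      (isConj_iff.mpr ⟨g, rfl⟩)

theorem result (n : ℕ) (hn : 5 ≤ n) {p : ℕ} [Fact p.Prime]
    (P : Sylow p (alternatingGroup (Fin n))) (hP : IsMulCommutative (P : Subgroup (alternatingGroup (Fin n)))) :
    (¬ (n = 5 ∧ p = 2) → 2 ∣ ((Subgroup.centralizer ((P : Subgroup (alternatingGroup (Fin n))) : Set (alternatingGroup (Fin n)))).subgroupOf (Subgroup.normalizer ((P : Subgroup (alternatingGroup (Fin n))) : Set (alternatingGroup (Fin n))))).index ∨ IsCyclic (P : Subgroup (alternatingGroup (Fin n)))) ∧
    ((n = 5 ∧ p = 2) → ((Subgroup.centralizer ((P : Subgroup (alternatingGroup (Fin n))) : Set (alternatingGroup (Fin n)))).subgroupOf (Subgroup.normalizer ((P : Subgroup (alternatingGroup (Fin n))) : Set (alternatingGroup (Fin n))))).index = 3 ∧ IsKleinFour (P : Subgroup (alternatingGroup (Fin n)))) := by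
  classical
  have hp : p.Prime := Fact.out
  have : Nontrivial (Fin n) := Fin.nontrivial_iff_two_le.mpr (by omega)
  have hcardA : 2 * Nat.card (alternatingGroup (Fin n)) = n.factorial := by
    rw [Nat.card_eq_fintype_card, two_mul_card_alternatingGroup, Fintype.card_perm, Fintype.card_fin]
  constructor
  · intro hne
    by_cases hcyc : IsCyclic (P : Subgroup (alternatingGroup (Fin n)))
    · exact Or.inr hcyc
    left
    have hp2 : p ^ 2 ∣ Nat.card (alternatingGroup (Fin n)) := by
      obtain ⟨k, hk⟩ := P.2.exists_card_eq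
      rcases Nat.lt_or_ge k 2 with h | h
      · exfalso
        interval_cases k
        · have : Subsingleton (P : Subgroup (alternatingGroup (Fin n))) :=
            (Nat.card_eq_one_iff_unique.mp (by simpa using hk)).1
          exact hcyc inferInstance
        · exact hcyc (isCyclic_of_prime_card (by simpa using hk))
      · exact (pow_dvd_pow p h).trans (hk ▸ Subgroup.card_subgroup_dvd_card _)
    have hfac : p ^ 2 ∣ n.factorial := hcardA ▸ dvd_mul_of_dvd_right hp2 2
    rcases eq_or_ne p 2 with rfl | hodd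
    · have hn6 : 6 ≤ n := by
        by_contra h
        exact hne ⟨by omega, rfl⟩
      obtain ⟨c, hc2, hc4, hcr⟩ := exists_real_two n hn6
      have ho : orderOf c = 2 ^ 2 := orderOf_eq_prime_pow (n := 1) (by simpa using hc2) hc4
      obtain ⟨x, hx, hxne, hxr⟩ := real_in_sylow P c 2 ho
        (fun h => hc2 (by rw [pow_two]; nth_rewrite 1 [← h]; exact inv_mul_cancel c)) hcr
      exact CfsgLib.Automizer.even_index_of_real P hP x hx hxne hxr
    · have hpn : 2 * p ≤ n := by
        by_contra h
        have h1 : n.factorial.factorization p = n / p + ∑ i ∈ Finset.Ico 2 (Nat.log p n + 1), n / p ^ i := by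
          rcases Nat.eq_zero_or_pos (Nat.log p n) with h0 | h0
          · have hlt : n < p := by
              rcases Nat.log_eq_zero_iff.mp h0 with h' | h'
              · exact h'
              · have := hp.one_lt; omega
            rw [Nat.div_eq_of_lt hlt, h0]
            simp [Nat.factorization_eq_zero_of_not_dvd (fun hd => absurd ((hp.dvd_factorial).mp hd) (not_le.mpr hlt))]
          · rw [Nat.factorization_factorial hp (Nat.lt_succ_self _), Nat.succ_eq_add_one, Finset.sum_eq_sum_Ico_succ_bot (by omega : 1 < Nat.log p n + 1), pow_one]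
        have h2 : ∑ i ∈ Finset.Ico 2 (Nat.log p n + 1), n / p ^ i = 0 := by
          refine Finset.sum_eq_zero fun i hi => Nat.div_eq_of_lt ?_
          have hp3 : 2 * p ≤ p ^ 2 := by nlinarith [hp.two_le]
          calc n < p ^ 2 := by omega
            _ ≤ p ^ i := Nat.pow_le_pow_right hp.pos (Finset.mem_Ico.mp hi).1
        have h3 : n / p < 2 := by rw [Nat.div_lt_iff_lt_mul hp.pos]; omega
        have h4 := (Nat.Prime.pow_dvd_iff_le_factorization hp (Nat.factorial_ne_zero n)).mp hfac
        omega
      obtain ⟨c, hc, hcr⟩ := exists_real_odd n p hp hodd (by have := hp.two_le; omega)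
      obtain ⟨x, hx, hxne, hxr⟩ := real_in_sylow P c 1 (by rw [pow_one, hc]) (fun h => by
        have h2 : c ^ 2 = 1 := by rw [pow_two]; nth_rewrite 1 [← h]; exact inv_mul_cancel c
        have := orderOf_dvd_of_pow_eq_one h2
        rw [hc] at this
        exact hodd ((Nat.prime_dvd_prime_iff_eq hp Nat.prime_two).mp this)) hcr
      exact CfsgLib.Automizer.even_index_of_real P hP x hx hxne hxr
  · rintro ⟨rfl, rfl⟩
    have fC := a5_centralizer; have fE := a5_exponent; have fConj := a5_conj
    have hA : Nat.card (alternatingGroup (Fin 5)) = 60 := by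
      have h := hcardA; rw [show Nat.factorial 5 = 120 from rfl] at h; omega
    have hP4 : Nat.card (P : Subgroup (alternatingGroup (Fin 5))) = 4 := by
      have h60 : (60 : ℕ).factorization 2 = 2 := by
        rw [show (60 : ℕ) = 2 ^ 2 * 15 by norm_num, Nat.factorization_mul (by norm_num) (by norm_num)]
        simp only [Finsupp.add_apply, Nat.prime_two.factorization_pow, Finsupp.single_eq_same, Nat.factorization_eq_zero_of_not_dvd (show ¬ 2 ∣ 15 by norm_num), add_zero]
      rw [P.card_eq_multiplicity, hA, h60]; rfl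
    have hsq : ∀ x : (P : Subgroup (alternatingGroup (Fin 5))), x ^ 2 = 1 := by
      intro x
      apply Subtype.ext
      apply fE
      have h4 : x ^ Nat.card (P : Subgroup (alternatingGroup (Fin 5))) = 1 := pow_card_eq_one'
      rw [hP4] at h4
      exact congrArg Subtype.val h4
    have : Nontrivial (P : Subgroup (alternatingGroup (Fin 5))) :=
      Finite.one_lt_card_iff_nontrivial.mp (by omega)
    have hK : IsKleinFour (P : Subgroup (alternatingGroup (Fin 5))) :=
      ⟨hP4, Nat.dvd_antisymm (Monoid.exponent_dvd_of_forall_pow_eq_one hsq) (by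
        rcases (Nat.dvd_prime Nat.prime_two).mp (Monoid.exponent_dvd_of_forall_pow_eq_one hsq) with h | h
        · exact absurd (Monoid.exp_eq_one_iff.mp h) (not_subsingleton _)
        · rw [h])⟩
    refine ⟨?_, hK⟩
    set PP : Subgroup (alternatingGroup (Fin 5)) := (P : Subgroup (alternatingGroup (Fin 5))) with hPP
    set N := Subgroup.normalizer (PP : Set (alternatingGroup (Fin 5)))
    set C := Subgroup.centralizer (PP : Set (alternatingGroup (Fin 5)))
    have hPC : PP ≤ C := by have := hP; exact Subgroup.le_centralizer PP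
    obtain ⟨x, hxne⟩ := exists_ne (1 : PP)
    have hx2 : (x : alternatingGroup (Fin 5)) ^ 2 = 1 := congrArg Subtype.val (hsq x)
    have hxne' : (x : alternatingGroup (Fin 5)) ≠ 1 := fun h => hxne (Subtype.ext h)
    have hCP : C = PP := by
      have h : C ≤ Subgroup.centralizer {(x : alternatingGroup (Fin 5))} :=
        Subgroup.centralizer_le (Set.singleton_subset_iff.mpr x.2)
      have h4 : Nat.card (Subgroup.centralizer {(x : alternatingGroup (Fin 5))}) = 4 := by
        rw [Nat.card_eq_fintype_card, Fintype.card_subtype, ← fC _ hx2 hxne']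
        exact congrArg Finset.card (Finset.filter_congr fun y _ => Subgroup.mem_centralizer_singleton_iff)
      exact (Subgroup.eq_of_le_of_card_ge hPC (by rw [hP4, ← h4]; exact Subgroup.card_le_of_le h)).symm
    set k := (C.subgroupOf N).index with hk
    have hk15 : k ∣ 15 := by
      have h1 := (Subgroup.relIndex_mul_relIndex C N ⊤ (hCP ▸ Subgroup.le_normalizer) le_top)
      rw [Subgroup.relIndex_top_right, Subgroup.relIndex_top_right] at h1
      have h2 := Subgroup.card_mul_index C
      rw [hA, hCP, hP4] at h2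
      have h3 : C.index = 15 := by rw [hCP]; omega
      exact Dvd.intro _ (h1.trans h3)
    have hnorm := CfsgLib.Automizer.centralizer_subgroupOf_normalizer_normal PP
    have hk6 : k ∣ 6 := by
      have h1 : k = Nat.card PP.normalizerMonoidHom.range := by
        rw [hk, ← Subgroup.normalizerMonoidHom_ker, Subgroup.index_ker]
      rw [h1]
      let r : MulAut PP →* Equiv.Perm {y : PP // y ≠ 1} :=
        { toFun := fun f => Equiv.Perm.subtypePerm f.toEquiv (fun y => by simp)
          map_one' := by ext; rfl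
          map_mul' := fun f g => by ext; rfl }
      have hr : Function.Injective r := by
        intro f g h
        refine DFunLike.ext _ _ fun y => ?_
        rcases eq_or_ne y 1 with rfl | hy
        · simp
        · exact congrArg (fun e : Equiv.Perm {y : PP // y ≠ 1} => ((e ⟨y, hy⟩ : {y : PP // y ≠ 1}) : PP)) h
      have h3 : Nat.card (Equiv.Perm {y : PP // y ≠ 1}) = 6 := by
        rw [Nat.card_perm, Nat.card_eq_fintype_card, Fintype.card_subtype_compl, Fintype.card_subtype_eq,
          ← Nat.card_eq_fintype_card, hP4]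
        rfl
      exact h3 ▸ (Subgroup.card_subgroup_dvd_card _).trans (Subgroup.card_dvd_of_injective r hr)
    have hk1 : k ≠ 1 := by
      intro h1
      have hNC : N ≤ C := by
        intro g hg
        have : (⟨g, hg⟩ : N) ∈ C.subgroupOf N := by rw [Subgroup.index_eq_one.mp h1]; trivial
        exact this
      obtain ⟨y, hy⟩ : ∃ y : PP, y ≠ 1 ∧ y ≠ x := by
        by_contra h
        push Not at h
        have : Fintype.card PP ≤ ({1, x} : Finset PP).card := Finset.card_le_card (fun y _ => by
          rcases eq_or_ne y 1 with rfl | hy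
          · simp
          · simp [h y hy])
        rw [← Nat.card_eq_fintype_card, hP4] at this
        have := Finset.card_le_two (a := (1 : PP)) (b := x)
        omega
      have hy2 : (y : alternatingGroup (Fin 5)) ^ 2 = 1 := congrArg Subtype.val (hsq y)
      obtain ⟨g, hg⟩ := fConj x y hx2 hxne' hy2 (fun h => hy.1 (Subtype.ext h))
      have : IsMulCommutative P := hP
      obtain ⟨m, hm, hmy⟩ := P.conj_eq_normalizer_conj_of_mem (x : alternatingGroup (Fin 5)) g⁻¹ x.2
        (by rw [inv_inv, hg, mul_inv_cancel_right]; exact y.2)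
      rw [inv_inv, hg, mul_inv_cancel_right] at hmy
      have hcomm := Subgroup.mem_centralizer_iff.mp (hNC hm) x x.2
      exact hy.2 (Subtype.ext (by rw [hmy, mul_assoc, hcomm, inv_mul_cancel_left]))
    rcases (Nat.dvd_prime Nat.prime_three).mp ((Nat.dvd_gcd hk15 hk6).trans (by norm_num)) with h | h
    · exact absurd h hk1
    · exact h

end Cfsg.Agent.S2269
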