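import Cfsg.Statements.S2270
import Cfsg.Agent.Automizer.Real
-- import your own Cfsg.Agent.* helpers here

set_option autoImplicit false
open Cfsg

namespace Cfsg.Agent.S2270

/-- Let n ≥ 3, p an odd prime, and P an abelian Sylow p-subgroup of the symmetric group S_n (with p dividing n!, so that P ≠ 1). Then N(P)/C(P) has even order. -/
theorem result (n : ℕ) (hn : 3 ≤ n) {p : ℕ} [Fact p.Prime] (hp : p ≠ 2) (hpn : p ≤ n)
    (P : Sylow p (Equiv.Perm (Fin n))) (hP : IsMulCommutative (P : Subgroup (Equiv.Perm (Fin n)))) :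
    2 ∣ ((Subgroup.centralizer ((P : Subgroup (Equiv.Perm (Fin n))) : Set (Equiv.Perm (Fin n)))).subgroupOf (Subgroup.normalizer ((P : Subgroup (Equiv.Perm (Fin n))) : Set (Equiv.Perm (Fin n))))).index := by
  have hp' : p.Prime := Fact.out
  have hdvd : p ∣ Nat.card (Equiv.Perm (Fin n)) := by
    simp only [Nat.card_perm, Nat.card_fin]
    exact Nat.dvd_factorial hp'.pos hpn
  have hne : (P : Subgroup (Equiv.Perm (Fin n))) ≠ ⊥ := P.ne_bot_of_dvd_card hdvd
  obtain ⟨x, hx, hx1⟩ := (Subgroup.bot_or_exists_ne_one _).resolve_left hne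
  refine CfsgLib.Automizer.even_index_of_real P hP x hx ?_ ?_
  · intro h
    have h2 : x ^ 2 = 1 := by rw [pow_two]; exact inv_eq_iff_mul_eq_one.mp h
    obtain ⟨k, hk⟩ := P.2 ⟨x, hx⟩
    have hk' : x ^ p ^ k = 1 := congrArg Subtype.val hk
    have hco : Nat.Coprime 2 (p ^ k) :=
      ((Nat.coprime_primes Nat.prime_two hp').mpr (Ne.symm hp)).pow_right k
    have hd : orderOf x ∣ Nat.gcd 2 (p ^ k) :=
      Nat.dvd_gcd (orderOf_dvd_of_pow_eq_one h2) (orderOf_dvd_of_pow_eq_one hk')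
    rw [hco.gcd_eq_one, Nat.dvd_one, orderOf_eq_one_iff] at hd
    exact hx1 hd
  · exact Equiv.Perm.isConj_iff_cycleType_eq.mpr (Equiv.Perm.cycleType_inv x).symm

end Cfsg.Agent.S2270
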