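import Cfsg.Statements.S2290
import Cfsg.Agent.FewRels.SLnPres
import Cfsg.Agent.H10.SLGenTwo
import Cfsg.Agent.S2286

set_option autoImplicit false
open Cfsg

namespace Cfsg.Agent.S2290

open CfsgLib.FewRels

theorem exists_gen_pair {F : Type*} [Field F] [Fintype F] (n : ℕ) (hn : 1 ≤ n) :
    ∃ a b : Matrix.SpecialLinearGroup (Fin (n + 1)) F, Subgroup.closure {a, b} = ⊤ := by
  classical
  have h01 : (0 : Fin (n + 1)) ≠ 1 := by
    intro e
    have := congrArg Fin.val e
    simp at this
    omega
  let d : Fin (n + 1) → F := fun i => if i.val = n then (-1) ^ n else 1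
  have hdet : (Matrix.diagonal d * Equiv.Perm.permMatrix F (finRotate (n + 1))).det = 1 := by
    rw [Matrix.det_mul, Matrix.det_diagonal, Matrix.det_permutation, sign_finRotate]
    have : ∏ i, d i = (-1 : F) ^ n := by
      rw [Finset.prod_eq_single (Fin.last n)]
      · simp [d]
      · intro b _ hb
        simp only [d]
        rw [if_neg fun e : b.val = n => hb (Fin.ext e)]
      · simp
    rw [this]
    push_cast
    rw [← mul_pow]
    simp
  let w : Matrix.SpecialLinearGroup (Fin (n + 1)) F := ⟨_, hdet⟩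
  have hw : (w : Matrix (Fin (n + 1)) (Fin (n + 1)) F) =
      Matrix.of (fun i j => if j.val = i.val + 1 then 1 else if i.val = n ∧ j.val = 0 then (-1) ^ n else 0) := by
    ext i j
    show (Matrix.diagonal d * Equiv.Perm.permMatrix F (finRotate (n + 1))) i j = _
    rw [Matrix.diagonal_mul, Equiv.Perm.permMatrix, PEquiv.toMatrix_apply, Matrix.of_apply]
    simp only [Equiv.toPEquiv_apply, Option.mem_def, Option.some.injEq, finRotate_succ_apply]
    have hj : i + 1 = j ↔ j.val = if i.val = n then 0 else i.val + 1 := by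
      rw [Fin.ext_iff, Fin.val_add_one]
      simp only [Fin.ext_iff, Fin.val_last]
      exact eq_comm
    have := i.isLt
    have := j.isLt
    by_cases hi : i.val = n
    · simp only [d, hi, if_true, true_and] at hj ⊢
      simp only [hj]
      split_ifs <;> simp <;> omega
    · simp only [d, hi, if_false, false_and] at hj ⊢
      simp only [hj]
      split_ifs <;> simp
  let x : Matrix.SpecialLinearGroup (Fin (n + 1)) F := Matrix.SpecialLinearGroup.transvection h01 1
  have hx : (x : Matrix (Fin (n + 1)) (Fin (n + 1)) F) = Matrix.transvection (0 : Fin (n + 1)) 1 1 :=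
    Matrix.SpecialLinearGroup.transvection_coe h01 1
  by_cases hK : 3 < Fintype.card F
  · obtain ⟨k, hk⟩ := IsCyclic.exists_generator (α := Fˣ)
    let h := Matrix.SpecialLinearGroup.diag2n h01 (k : F) k.ne_zero
    refine ⟨h, x * w, CfsgLib.SLGenTwo.gen_large hK hn k hk h x w ?_ hx hw⟩
    rw [Matrix.SpecialLinearGroup.diag2n_coe]
    congr 1
    funext i
    have h1 : ((1 : Fin (n + 1)) : ℕ) = 1 := by
      rw [Fin.val_one']; exact Nat.mod_eq_of_lt (by omega)
    simp only [Fin.ext_iff, h1, Fin.val_zero, Units.val_inv_eq_inv_val]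
  · exact ⟨x, w, CfsgLib.SLGenTwo.gen_small (not_lt.mp hK) hn x w hx hw⟩

/-- For every finite field F with q elements and n ≥ 2, with q ≥ 4 when n = 2, the simple group PSL_n(F) has a presentation with 2 generators and at most 80 relations. -/
theorem result {F : Type*} [Field F] [Fintype F] (n : ℕ) (hn : 2 ≤ n) (h2 : n = 2 → 4 ≤ Fintype.card F) :
    ∃ rels : Finset (FreeGroup (Fin 2)), rels.card ≤ 80 ∧ Nonempty (PresentedGroup (↑rels : Set (FreeGroup (Fin 2))) ≃* Matrix.ProjectiveSpecialLinearGroup (Fin n) F) := by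
  classical
  have hS : HasPres (Matrix.SpecialLinearGroup (Fin n) F) 63 := by
    rcases Nat.lt_or_ge n 4 with h4 | h4
    · interval_cases n
      · obtain ⟨⟨rels, hc, ⟨e⟩⟩, -⟩ := Cfsg.Agent.S2286.result (F := F)
        exact (HasPres.ofPresented rels hc e).mono (by norm_num)
      · exact hasPres_three.mono (by norm_num)
    · obtain ⟨k, rfl⟩ : ∃ k, n = 3 + k := ⟨n - 3, by omega⟩
      exact hasPres_large k (by omega)
  haveI : Fact (Nonempty (Fin n)) := ⟨⟨⟨0, by omega⟩⟩⟩
  haveI : NeZero (Fintype.card (Fin n)) := ⟨by simp; omega⟩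
  have hcyc : IsCyclic (Subgroup.center (Matrix.SpecialLinearGroup (Fin n) F)) :=
    isCyclic_of_surjective _ (Matrix.SpecialLinearGroup.center_equiv_rootsOfUnity (n := Fin n) (R := F)).symm.surjective
  obtain ⟨z, hz⟩ := IsCyclic.exists_generator (α := Subgroup.center (Matrix.SpecialLinearGroup (Fin n) F))
  have hP : HasPres (Matrix.ProjectiveSpecialLinearGroup (Fin n) F) 64 := by
    refine hS.quot (QuotientGroup.mk' _) (QuotientGroup.mk'_surjective _) z.1 ?_ ?_
    · exact (QuotientGroup.eq_one_iff _).mpr z.2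
    · intro g hg
      rw [QuotientGroup.ker_mk'] at hg
      obtain ⟨j, hj⟩ := Subgroup.mem_zpowers_iff.mp (hz ⟨g, hg⟩)
      exact Subgroup.mem_zpowers_iff.mpr ⟨j, by simpa using congrArg Subtype.val hj⟩
  obtain ⟨m, rfl⟩ : ∃ m, n = m + 1 := ⟨n - 1, by omega⟩
  obtain ⟨a, b, hab⟩ := exists_gen_pair (F := F) m (by omega)
  obtain ⟨rels, hc, he⟩ := hP.twoGen (QuotientGroup.mk' _ a) (QuotientGroup.mk' _ b) (by
    rw [← Set.image_pair, ← MonoidHom.map_closure, hab, ← MonoidHom.range_eq_map, MonoidHom.range_eq_top]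
    exact QuotientGroup.mk'_surjective _)
  exact ⟨rels, hc.trans (by norm_num), he⟩

end Cfsg.Agent.S2290
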