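import Cfsg.Statements.S2332
import Cfsg.Agent.MinDegree.SLTwo
import Cfsg.Agent.MinDegree.SLPerm

set_option autoImplicit false
open Cfsg

namespace Cfsg.Agent.S2332

open CfsgLib.MinDegree

theorem card_proj {F : Type*} [Field F] [Fintype F] (n : ℕ) :
    Nat.card (Projectivization F (Fin n → F)) = (Fintype.card F ^ n - 1) / (Fintype.card F - 1) := by
  rw [Projectivization.card'', Nat.card_fun, Nat.card_eq_fintype_card, Nat.card_eq_fintype_card, Fintype.card_fin]

theorem geo_eq (q n : ℕ) (hq : 2 ≤ q) (hn : 1 ≤ n) : SLArith.geo q n = (q ^ n - q) / (q - 1) := by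
  rcases SLArith.geo_mul q n hn with h | h
  · rw [← h, Nat.add_sub_cancel, Nat.mul_div_cancel _ (by omega)]
  · omega

/-- Smallest degree of a non-linear irreducible complex representation of SL_n over a finite field with q elements, for n ≥ 3 and (n, q) not one of (3, 2), (3, 4), (4, 2), (4, 3): every irreducible complex representation of SL_n(F) of degree at least 2 has degree at least (q^n − q)/(q − 1), and there is an irreducible complex representation of exactly that degree. -/
theorem result {F : Type*} [Field F] [Fintype F] [DecidableEq F] (n : ℕ) (hn : 3 ≤ n)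
    (hex : (n, Fintype.card F) ≠ (3, 2) ∧ (n, Fintype.card F) ≠ (3, 4) ∧ (n, Fintype.card F) ≠ (4, 2) ∧ (n, Fintype.card F) ≠ (4, 3)) :
    (∀ (k : ℕ) (ρ : Representation ℂ (Matrix.SpecialLinearGroup (Fin n) F) (Fin k → ℂ)), ρ.IsIrreducible → 2 ≤ k → (Fintype.card F ^ n - Fintype.card F) / (Fintype.card F - 1) ≤ k) ∧
    (∃ ρ : Representation ℂ (Matrix.SpecialLinearGroup (Fin n) F) (Fin ((Fintype.card F ^ n - Fintype.card F) / (Fintype.card F - 1)) → ℂ), ρ.IsIrreducible) := by
  classical
  have hq : 2 ≤ Fintype.card F := Fintype.one_lt_card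
  rw [← geo_eq _ _ hq (by omega)]
  simp only [ne_eq, Prod.mk.injEq] at hex
  refine ⟨fun k ρ hρ hk => ?_, ?_⟩
  · have hk' : 2 ≤ Module.finrank ℂ (Fin k → ℂ) := by rwa [Module.finrank_fintype_fun_eq_card, Fintype.card_fin]
    have h : SLArith.geo (Fintype.card F) n ≤ Module.finrank ℂ (Fin k → ℂ) := by
      rcases Nat.lt_or_ge 2 (Fintype.card F) with h3 | h3
      · obtain ⟨m, rfl⟩ : ∃ m, n = m + 1 := ⟨n - 1, by omega⟩
        exact Mirabolic.sl_lower_three (by omega) h3 (by simp only [ne_eq, Prod.mk.injEq]; omega) ρ hρ hk'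
      · exact Mirabolic.sl_lower_two (le_antisymm h3 hq) n (by omega) ρ hρ hk'
    rwa [Module.finrank_fintype_fun_eq_card, Fintype.card_fin] at h
  · have : Fintype (Projectivization F (Fin n → F)) := Fintype.ofFinite _
    refine TwoTransPerm.exists_irreducible (G := Matrix.SpecialLinearGroup (Fin n) F)
      (X := Projectivization F (Fin n → F)) _ ?_ ?_
    · rw [← Nat.card_eq_fintype_card, card_proj]
      rcases SLArith.geo_mul (Fintype.card F) n (by omega) with h | h
      · obtain ⟨r, hr⟩ : ∃ r, Fintype.card F = r + 2 := ⟨Fintype.card F - 2, by omega⟩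
        rw [hr] at h ⊢
        rw [← h, show r + 2 - 1 = r + 1 by omega,
          show SLArith.geo (r + 2) n * (r + 1) + (r + 2) - 1 = (SLArith.geo (r + 2) n + 1) * (r + 1) by
            rw [add_mul]; omega, Nat.mul_div_cancel _ (by omega)]
      · omega
    · have := SLArith.geo_ge (Fintype.card F) n (by omega)
      have : 0 < Fintype.card F ^ (n - 1) := Nat.pow_pos (by omega)
      omega

end Cfsg.Agent.S2332
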