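import Cfsg.Statements.S2336
import Cfsg.Agent.PermSplit.Basic
import Cfsg.Agent.PermChar.Basic
import Cfsg.Agent.SLn.Basic

set_option autoImplicit false
open Cfsg

namespace Cfsg.Agent.S2336

/-- Let F be a finite field with q elements and n ≥ 3. The permutation character of SL_n(F) on the non-zero vectors of F^n (the function sending a matrix to the number of non-zero vectors it fixes) is the sum of the principal character and q − 1 pairwise distinct irreducible complex characters. -/
theorem result {F : Type*} [Field F] [Fintype F] [DecidableEq F] (n : ℕ) (hn : 3 ≤ n) :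
    ∃ χ : Fin (Fintype.card F - 1) → (Matrix.SpecialLinearGroup (Fin n) F → ℂ),
      (∀ i, Cfsg.IsIrrCharacter (Matrix.SpecialLinearGroup (Fin n) F) (χ i)) ∧ Function.Injective χ ∧
      ∀ g : Matrix.SpecialLinearGroup (Fin n) F,
        (Nat.card {v : Fin n → F // v ≠ 0 ∧ (g : Matrix (Fin n) (Fin n) F).mulVec v = v} : ℂ) = 1 + ∑ i, χ i g := by
  classical
  haveI : Fintype (Matrix.SpecialLinearGroup (Fin n) F) := Fintype.ofFinite _
  let e : Fin n → Fin n → F := fun i => Pi.single i 1
  set i0 : Fin n := ⟨0, by omega⟩ with hi0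
  set i1 : Fin n := ⟨1, by omega⟩ with hi1
  set i2 : Fin n := ⟨2, by omega⟩ with hi2
  have h01 : i0 ≠ i1 := by simp [hi0, hi1]
  have h02 : i0 ≠ i2 := by simp [hi0, hi2]
  have h12 : i1 ≠ i2 := by simp [hi1, hi2]
  haveI : Nontrivial (Fin n) := ⟨⟨i0, i1, h01⟩⟩
  have he0 : e i0 ≠ 0 := Pi.single_ne_zero_iff.2 one_ne_zero
  letI instΩ : MulAction (Matrix.SpecialLinearGroup (Fin n) F) {v : Fin n → F // v ≠ 0} :=
    { smul := fun g v => ⟨g • (v : Fin n → F), (smul_ne_zero_iff_ne g).2 v.2⟩
      one_smul := fun v => Subtype.ext (one_smul _ _)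
      mul_smul := fun g h v => Subtype.ext (mul_smul _ _ _) }
  have hsm : ∀ (g : Matrix.SpecialLinearGroup (Fin n) F) (v : {v : Fin n → F // v ≠ 0}),
      ((g • v : {v : Fin n → F // v ≠ 0}) : Fin n → F) = g • (v : Fin n → F) := fun g v => rfl
  haveI : MulAction.IsPretransitive (Matrix.SpecialLinearGroup (Fin n) F) {v : Fin n → F // v ≠ 0} :=
    ⟨fun v w => by
      obtain ⟨g, hg⟩ := CfsgLib.SLn.exists_smul_eq v.2 w.2
      exact ⟨g, Subtype.ext hg⟩⟩
  let a : {v : Fin n → F // v ≠ 0} := ⟨e i0, he0⟩
  let H : Subgroup (Matrix.SpecialLinearGroup (Fin n) F) :=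
    MulAction.stabilizer (Matrix.SpecialLinearGroup (Fin n) F) a
  have hHmem : ∀ g : Matrix.SpecialLinearGroup (Fin n) F, g ∈ H ↔ g • e i0 = e i0 := fun g => by
    simp only [H, MulAction.mem_stabilizer_iff, Subtype.ext_iff, hsm, a]
  have hscal : ∀ (g : Matrix.SpecialLinearGroup (Fin n) F) (c : F), g • e i0 = c • e i0 →
      (g • e i0) i0 = c := fun g c h => by rw [h]; simp [e]
  let L : Subgroup (Matrix.SpecialLinearGroup (Fin n) F) :=
    { carrier := {g | ∃ c : F, g • e i0 = c • e i0}
      one_mem' := ⟨1, by simp⟩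
      mul_mem' := by
        rintro g h ⟨c, hc⟩ ⟨d, hd⟩
        exact ⟨d * c, by rw [mul_smul g h (e i0), hd, smul_comm, hc, smul_smul]⟩
      inv_mem' := by
        rintro g ⟨c, hc⟩
        have hc0 : c ≠ 0 := by
          rintro rfl
          rw [zero_smul] at hc
          exact (smul_ne_zero_iff_ne g).2 he0 hc
        refine ⟨c⁻¹, ?_⟩
        rw [inv_smul_eq_iff, smul_comm, hc, smul_smul, inv_mul_cancel₀ hc0, one_smul] }
  have hLne : ∀ g : L, ((g : Matrix.SpecialLinearGroup (Fin n) F) • e i0) i0 ≠ 0 := fun g h => by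
    obtain ⟨c, hc⟩ := g.2
    rw [hscal _ c hc] at h
    rw [h, zero_smul] at hc
    exact (smul_ne_zero_iff_ne (g : Matrix.SpecialLinearGroup (Fin n) F)).2 he0 hc
  let lam : L →* Fˣ := MonoidHom.mk' (fun g => Units.mk0 _ (hLne g)) (fun g h => by
    ext
    obtain ⟨c, hc⟩ := g.2
    obtain ⟨d, hd⟩ := h.2
    have e1 : ((g * h : L) : Matrix.SpecialLinearGroup (Fin n) F) • e i0 = (c * d) • e i0 := by
      rw [Subgroup.coe_mul, mul_smul, hd, smul_comm, hc, smul_smul, mul_comm]
    simp only [Units.val_mk0, Units.val_mul]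
    rw [hscal _ _ e1, hscal _ _ hc, hscal _ _ hd])
  have hlamsurj : Function.Surjective lam := by
    intro c
    have hd : Matrix.SpecialLinearGroup.diag2n h01 (c : F) c.ne_zero • e i0 = (c : F) • e i0 := by
      funext k
      rw [CfsgLib.SLn.diag2n_smul_apply]
      by_cases hk : k = i0
      · subst hk; simp [e]
      · simp [e, Pi.single_eq_of_ne hk]
    exact ⟨⟨_, c, hd⟩, Units.ext (hscal _ _ hd)⟩
  have hLtop : L ≠ ⊤ := by
    intro h
    obtain ⟨g, hg⟩ := CfsgLib.SLn.exists_smul_eq he0 (w := e i1) (Pi.single_ne_zero_iff.2 one_ne_zero)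
    obtain ⟨c, hc⟩ := (show g ∈ L by rw [h]; exact Subgroup.mem_top g)
    have := congrFun (hg.symm.trans hc) i1
    simp [e, h01.symm] at this
  have hHker : H = lam.ker.map L.subtype := by
    ext g
    rw [hHmem, Subgroup.mem_map]
    constructor
    · intro hg
      exact ⟨⟨g, 1, by rw [one_smul]; exact hg⟩, Units.ext (hscal g 1 (by rw [one_smul]; exact hg)), rfl⟩
    · rintro ⟨⟨g', c, hc⟩, hk, rfl⟩
      have h1 : (g' • e i0) i0 = 1 := congrArg Units.val hk
      rw [hscal _ _ hc] at h1
      rw [Subgroup.coe_subtype]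
      rw [hc, h1, one_smul]
  -- orbits of the vector stabiliser
  have htoe : ∀ w : Fin n → F, (∃ k, k ≠ i0 ∧ w k ≠ 0) →
      ∃ g : Matrix.SpecialLinearGroup (Fin n) F, g • e i0 = e i0 ∧ g • w = e i1 := by
    have hfix : ∀ (i j : Fin n) (hij : i ≠ j) (c : F), j ≠ i0 →
        Matrix.SpecialLinearGroup.transvection hij c • e i0 = e i0 := by
      intro i j hij c hj
      funext k
      rw [CfsgLib.SLn.transvection_smul_apply]
      simp [e, Pi.single_eq_of_ne hj]
    -- a vector with coordinate one at `i1`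
    have step3 : ∀ w : Fin n → F, w i1 = 1 →
        ∃ g : Matrix.SpecialLinearGroup (Fin n) F, g • e i0 = e i0 ∧ g • w = e i1 := by
      intro w hw
      let u : Fin n → F := Function.update (fun k => - w k) i1 0
      have hdet : Matrix.det (1 + Matrix.replicateCol Unit u * Matrix.replicateRow Unit (e i1)) = 1 := by
        rw [Matrix.det_one_add_replicateCol_mul_replicateRow]
        simp [e, u]
      let g : Matrix.SpecialLinearGroup (Fin n) F :=
        ⟨1 + Matrix.replicateCol Unit u * Matrix.replicateRow Unit (e i1), hdet⟩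
      have hg : ∀ x : Fin n → F, g • x =
          (1 + Matrix.replicateCol Unit u * Matrix.replicateRow Unit (e i1)).mulVec x := fun x => rfl
      refine ⟨g, ?_, ?_⟩ <;> funext k <;>
        rw [hg, Matrix.add_mulVec, Matrix.one_mulVec, Pi.add_apply, ← Matrix.mulVec_mulVec]
      · simp [Matrix.mulVec, dotProduct, e, Pi.single_apply]
        exact fun h => absurd h h01
      · by_cases hk : k = i1
        · subst hk; simp [Matrix.mulVec, dotProduct, e, u, hw, Pi.single_apply]
        · simp [Matrix.mulVec, dotProduct, e, u, hw, hk, Pi.single_apply]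
    have step2 : ∀ w : Fin n → F, w i2 ≠ 0 →
        ∃ g : Matrix.SpecialLinearGroup (Fin n) F, g • e i0 = e i0 ∧ g • w = e i1 := by
      intro w hw
      obtain ⟨g, hg1, hg2⟩ := step3 (Matrix.SpecialLinearGroup.transvection h12 ((1 - w i1) / w i2) • w) (by
        rw [CfsgLib.SLn.transvection_smul_apply, if_pos rfl]; field_simp; ring)
      exact ⟨g * Matrix.SpecialLinearGroup.transvection h12 ((1 - w i1) / w i2),
        by rw [mul_smul, hfix i1 i2 h12 _ h02.symm, hg1], by rw [mul_smul, hg2]⟩
    intro w hw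
    by_cases hw2 : w i2 = 0
    · obtain ⟨k, hk0, hk⟩ := hw
      have hk2 : i2 ≠ k := fun h => hk (h ▸ hw2)
      obtain ⟨g, hg1, hg2⟩ := step2 (Matrix.SpecialLinearGroup.transvection hk2 (1 : F) • w) (by
        rw [CfsgLib.SLn.transvection_smul_apply, if_pos rfl, hw2]; simpa using hk)
      exact ⟨g * Matrix.SpecialLinearGroup.transvection hk2 (1 : F),
        by rw [mul_smul, hfix i2 k hk2 _ hk0, hg1], by rw [mul_smul, hg2]⟩
    · exact step2 w hw2
  have hcardΩ : Nat.card (MulAction.orbitRel.Quotient H {v : Fin n → F // v ≠ 0}) = Nat.card Fˣ + 1 := by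
    let f : {v : Fin n → F // v ≠ 0} → Option Fˣ := fun v =>
      if h : (v : Fin n → F) = (v : Fin n → F) i0 • e i0 then
        some (Units.mk0 ((v : Fin n → F) i0) (fun h0 => v.2 (by rw [h, h0, zero_smul]))) else none
    have hf1 : ∀ (g : H) (v : {v : Fin n → F // v ≠ 0}), f (g • v) = f v := by
      intro g v
      have hg := (hHmem g).1 g.2
      have hval : ((g • v : {v : Fin n → F // v ≠ 0}) : Fin n → F) =
          (g : Matrix.SpecialLinearGroup (Fin n) F) • (v : Fin n → F) := rfl
      by_cases h : (v : Fin n → F) = (v : Fin n → F) i0 • e i0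
      · have : (g • v : {v : Fin n → F // v ≠ 0}) = v := Subtype.ext (by
          rw [hval]; conv_lhs => rw [h, smul_comm, hg]
          exact h.symm)
        rw [this]
      · have h' : ¬ (((g • v : {v : Fin n → F // v ≠ 0}) : Fin n → F) =
            ((g • v : {v : Fin n → F // v ≠ 0}) : Fin n → F) i0 • e i0) := by
          intro hh
          rw [hval] at hh
          set c := ((g : Matrix.SpecialLinearGroup (Fin n) F) • (v : Fin n → F)) i0
          have h2 : (v : Fin n → F) = c • e i0 := by
            have := congrArg (fun x => (g : Matrix.SpecialLinearGroup (Fin n) F)⁻¹ • x) hh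
            simp only [inv_smul_smul] at this
            rwa [smul_comm, inv_smul_eq_iff.2 hg.symm] at this
          apply h
          conv_rhs => rw [h2]
          conv_lhs => rw [h2]
          simp [e]
        simp only [f]
        rw [dif_neg h', dif_neg h]
    have hf2 : ∀ v w : {v : Fin n → F // v ≠ 0}, f v = f w → ∃ g : H, g • w = v := by
      intro v w h
      by_cases hv : (v : Fin n → F) = (v : Fin n → F) i0 • e i0
      · by_cases hw : (w : Fin n → F) = (w : Fin n → F) i0 • e i0
        · simp only [f, dif_pos hv, dif_pos hw, Option.some.injEq, Units.ext_iff, Units.val_mk0] at h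
          exact ⟨1, by rw [one_smul]; exact Subtype.ext (by rw [hv, hw, h])⟩
        · simp [f, dif_pos hv, dif_neg hw] at h
      · by_cases hw : (w : Fin n → F) = (w : Fin n → F) i0 • e i0
        · simp [f, dif_neg hv, dif_pos hw] at h
        · have hne : ∀ x : Fin n → F, x ≠ x i0 • e i0 → ∃ k, k ≠ i0 ∧ x k ≠ 0 := by
            intro x hx
            by_contra hc
            push Not at hc
            apply hx
            funext k
            by_cases hk : k = i0
            · subst hk; simp [e]
            · simp [e, Pi.single_eq_of_ne hk, hc k hk]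
          obtain ⟨g, hg1, hg2⟩ := htoe _ (hne _ hv)
          obtain ⟨g', hg1', hg2'⟩ := htoe _ (hne _ hw)
          refine ⟨⟨g⁻¹ * g', (hHmem _).2 ?_⟩, Subtype.ext ?_⟩
          · rw [mul_smul, hg1', inv_smul_eq_iff, hg1]
          · show (g⁻¹ * g') • (w : Fin n → F) = v
            rw [mul_smul, hg2', inv_smul_eq_iff, hg2]
    have hf3 : Function.Surjective f := by
      rintro (_ | c)
      · have hne : e i1 ≠ (e i1) i0 • e i0 := fun h => by
          have := congrFun h i1
          simp [e, h01, h01.symm] at this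
        exact ⟨⟨e i1, Pi.single_ne_zero_iff.2 one_ne_zero⟩, dif_neg hne⟩
      · have hv : (c : F) • e i0 = ((c : F) • e i0) i0 • e i0 := by simp [e]
        refine ⟨⟨(c : F) • e i0, smul_ne_zero c.ne_zero he0⟩, ?_⟩
        simp only [f]
        rw [dif_pos hv, Option.some.injEq]
        ext; simp [e]
    let Φ : MulAction.orbitRel.Quotient H {v : Fin n → F // v ≠ 0} → Option Fˣ :=
      Quotient.lift f (fun v w hvw => by
        obtain ⟨g, rfl⟩ := hvw
        exact hf1 g w)
    have hΦ : Function.Bijective Φ := by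
      constructor
      · intro x y
        refine Quotient.inductionOn₂ x y fun v w h => ?_
        obtain ⟨g, hg⟩ := hf2 v w h
        exact Quotient.sound ⟨g, hg⟩
      · intro c
        obtain ⟨v, hv⟩ := hf3 c
        exact ⟨Quotient.mk _ v, hv⟩
    rw [Nat.card_eq_of_bijective Φ hΦ, Nat.card_eq_fintype_card, Fintype.card_option,
      ← Nat.card_eq_fintype_card]
  have hpi : CfsgLib.PermChar.piChar (Matrix.SpecialLinearGroup (Fin n) F) {v : Fin n → F // v ≠ 0} =
      Cfsg.indFun H (fun _ => (1 : ℂ)) := Cfsg.Agent.S0190.result _ a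
  have hnorm := CfsgLib.PermChar.inner_self_eq_rank (G := Matrix.SpecialLinearGroup (Fin n) F) a
  rw [hpi, show Nat.card (MulAction.orbitRel.Quotient (MulAction.stabilizer
    (Matrix.SpecialLinearGroup (Fin n) F) a) {v : Fin n → F // v ≠ 0}) = Nat.card Fˣ + 1 from hcardΩ,
    Nat.cast_add, Nat.cast_one] at hnorm
  obtain ⟨χ, hχ, hinj, hsum⟩ := CfsgLib.PermSplit.exists_irr_split L hLtop lam hlamsurj H hHker hnorm
  have hq : Nat.card Fˣ = Fintype.card F - 1 := by
    rw [Nat.card_units, Nat.card_eq_fintype_card]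
  refine ⟨fun i => χ (Fin.cast hq.symm i), fun i => hχ _, fun i j h => Fin.cast_injective _ (hinj h), fun g => ?_⟩
  rw [Fintype.sum_equiv (finCongr hq.symm) (fun i => χ (Fin.cast hq.symm i) g) (fun i => χ i g)
    (fun i => rfl), ← hsum g, ← hpi]
  simp only [CfsgLib.PermChar.piChar]
  congr 1
  refine Nat.card_congr
    { toFun := fun v => ⟨⟨v.1, v.2.1⟩, Subtype.ext v.2.2⟩
      invFun := fun v => ⟨v.1.1, v.1.2, congrArg Subtype.val v.2⟩
      left_inv := fun _ => rfl
      right_inv := fun _ => rfl }


end Cfsg.Agent.S2336
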