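import Cfsg.Statements.S2342
import Cfsg.Agent.Chev.D4Degree.Bound
import Cfsg.Agent.Chev.D4Degree.Concrete
import Cfsg.Agent.CharBasics.Abstract
-- import your own Cfsg.Agent.* helpers here

set_option autoImplicit false
open Cfsg

namespace Cfsg.Agent.S2342

/-- For the twisted group ³D₄(q), realised over the field with q³ elements (q a prime power), every irreducible complex representation of degree at least 2 has degree at least q(q⁴ − q² + 1). -/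
theorem result {K : Type*} [Field K] [Fintype K] (q : ℕ) (hq : IsPrimePow q) (hK : Fintype.card K = q ^ 3) :
    (∀ (k : ℕ) (ρ : Representation ℂ (Cfsg.Lie.twistedD4 K q) (Fin k → ℂ)), ρ.IsIrreducible → 2 ≤ k → q * (q ^ 4 - q ^ 2 + 1) ≤ k) := by
  classical
  intro k ρ hirr hk
  haveI := hirr
  haveI hs : IsSimpleGroup ↥(Cfsg.Lie.twistedD4 K q) := (CfsgLib.Chev.Twisted.D4.simple_group hq hK).1
  have hinj : Function.Injective ρ := by
    rcases IsSimpleGroup.eq_bot_or_eq_top_of_normal (MonoidHom.ker ρ) inferInstance with h | h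
    · exact (MonoidHom.ker_eq_bot_iff ρ).1 h
    · exfalso
      have h1 : ∀ g, ρ g = 1 := fun g => MonoidHom.mem_ker.1 (h ▸ Subgroup.mem_top g)
      let v : Fin k → ℂ := Pi.single ⟨0, by omega⟩ 1
      let W : Subrepresentation ρ := ⟨Submodule.span ℂ {v}, fun g x hx => by rw [h1]; simpa using hx⟩
      rcases IsSimpleOrder.eq_bot_or_eq_top W with hW | hW
      · have hv : v ∈ W := Submodule.mem_span_singleton_self v
        rw [hW] at hv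
        have hv0 : v = 0 := (Submodule.mem_bot ℂ).1 hv
        have := congrFun hv0 ⟨0, by omega⟩
        simp [v] at this
      · have hv : (Pi.single ⟨1, by omega⟩ 1 : Fin k → ℂ) ∈ W := by rw [hW]; exact Submodule.mem_top
        obtain ⟨c, hc⟩ := Submodule.mem_span_singleton.1 hv
        have := congrFun hc ⟨1, by omega⟩
        simp [v, Pi.single_apply] at this
  have hb := (CfsgLib.Chev.D4Degree.data hq hK).degree_bound ρ (CfsgLib.Chev.D4Degree.card_FF hq hK) hK hinj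
    (CfsgLib.Chev.D4Degree.data_z_one hq hK)
  have hdvd : Module.finrank ℂ (Fin k → ℂ) ∣ Nat.card ↥(Cfsg.Lie.twistedD4 K q) := by
    obtain ⟨χ, hχ⟩ := CfsgLib.CharBasics.exists_irr ρ
    rw [← CfsgLib.CharBasics.charDegree_rep ρ, ← hχ]
    exact CfsgLib.CharBasics.degree_dvd χ
  rw [Module.finrank_fin_fun] at hb hdvd
  rw [CfsgLib.Chev.Twisted.D4.card_group hq hK] at hdvd
  have hq2 := hq.two_le
  have hsq : q ^ 2 ≤ q ^ 4 := Nat.pow_le_pow_right hq.pos (by norm_num)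
  have h1 : 1 ≤ q ^ 2 := Nat.one_le_pow _ _ hq.pos
  have h6 : 1 ≤ q ^ 6 := Nat.one_le_pow _ _ hq.pos
  have hdvd' := Int.natCast_dvd_natCast.2 hdvd
  push_cast [Nat.cast_sub h1, Nat.cast_sub h6] at hdvd'
  zify [hsq] at hb ⊢
  by_contra hlt
  have hkval : (k : ℤ) = ((q : ℤ) - 1) * (q ^ 4 + q ^ 3 + 1) := by linarith
  rw [hkval] at hdvd'
  have hM : ((q : ℤ) ^ 4 + q ^ 3 + 1) ∣ ((q : ℤ) - 1) ^ 2 * (q ^ 2 + q + 1) ^ 2 *
      (q ^ 12 * (q + 1) ^ 2 * (q ^ 2 - q + 1) ^ 2 * (q ^ 4 - q ^ 2 + 1)) := by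
    refine ((Dvd.intro_left _ rfl).trans hdvd').trans (dvd_of_eq ?_)
    ring
  have cq : IsCoprime ((q : ℤ) ^ 4 + q ^ 3 + 1) (q : ℤ) := ⟨1, -(q ^ 3 + q ^ 2), by ring⟩
  have cB : IsCoprime ((q : ℤ) ^ 4 + q ^ 3 + 1) ((q : ℤ) + 1) := ⟨1, -q ^ 3, by ring⟩
  have cC : IsCoprime ((q : ℤ) ^ 4 + q ^ 3 + 1) ((q : ℤ) ^ 2 - q + 1) :=
    ⟨(q : ℤ) - 1, -(q ^ 3 + q ^ 2 - q - 2), by ring⟩
  have cD : IsCoprime ((q : ℤ) ^ 4 + q ^ 3 + 1) ((q : ℤ) ^ 4 - q ^ 2 + 1) := ⟨1 - (q : ℤ), q, by ring⟩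
  have hM2 := IsCoprime.dvd_of_dvd_mul_right
    (((cq.pow_right.mul_right cB.pow_right).mul_right cC.pow_right).mul_right cD) hM
  have h81 : ((q : ℤ) ^ 4 + q ^ 3 + 1) ∣ 81 := by
    have e1 : ((q : ℤ) ^ 4 + q ^ 3 + 1) ∣ 3 - -((q : ℤ) - 1) * (q ^ 3 + 2 * q ^ 2 + 2 * q + 2) := ⟨1, by ring⟩
    have e2 : ((q : ℤ) ^ 4 + q ^ 3 + 1) ∣
        3 - ((q : ℤ) ^ 2 + q + 1) * (1 + (q ^ 2 - 1) * (q - 1)) := ⟨-((q : ℤ) - 1), by ring⟩
    have e3 : ((q : ℤ) ^ 4 + q ^ 3 + 1) ∣ 3 * 3 - -((q : ℤ) - 1) * (q ^ 3 + 2 * q ^ 2 + 2 * q + 2) *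
        (((q : ℤ) ^ 2 + q + 1) * (1 + (q ^ 2 - 1) * (q - 1))) := by
      have := dvd_add (dvd_mul_of_dvd_left e1 3)
        (dvd_mul_of_dvd_right e2 (-((q : ℤ) - 1) * (q ^ 3 + 2 * q ^ 2 + 2 * q + 2)))
      exact this.trans (dvd_of_eq (by ring))
    set X := -((q : ℤ) - 1) * (q ^ 3 + 2 * q ^ 2 + 2 * q + 2) *
        (((q : ℤ) ^ 2 + q + 1) * (1 + (q ^ 2 - 1) * (q - 1))) with hX
    have e4 : ((q : ℤ) ^ 4 + q ^ 3 + 1) ∣ X * X := by
      refine hM2.trans ⟨(q ^ 3 + 2 * q ^ 2 + 2 * q + 2) ^ 2 * (1 + (q ^ 2 - 1) * (q - 1)) ^ 2, ?_⟩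
      rw [hX]; ring
    have := dvd_add (dvd_mul_of_dvd_left e3 (3 * 3 + X)) e4
    exact this.trans (dvd_of_eq (by rw [hX]; ring))
  have hle := Int.le_of_dvd (by norm_num) h81
  obtain rfl | h3 : q = 2 ∨ 3 ≤ q := by omega
  · norm_num at h81
  · have h4 : (81 : ℤ) ≤ (q : ℤ) ^ 4 := by
      have := pow_le_pow_left₀ (by norm_num : (0 : ℤ) ≤ 3) (by exact_mod_cast h3 : (3 : ℤ) ≤ q) 4
      norm_num at this
      exact this
    have : (0 : ℤ) ≤ (q : ℤ) ^ 3 := by positivity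
    linarith

end Cfsg.Agent.S2342
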