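import Cfsg.Statements.S2343
import Cfsg.Agent.Chev.ReeDegree.Main

set_option autoImplicit false
open Cfsg

namespace Cfsg.Agent.S2343

/-- For the Ree group ²G₂(q), q = 3^(2m+1) with m ≥ 1 (realised over the field with q elements), every irreducible complex representation of degree at least 2 has degree at least q² − q + 1. -/
theorem result {K : Type*} [Field K] [Fintype K] (m : ℕ) (hm : 1 ≤ m) (hK : Fintype.card K = 3 ^ (2 * m + 1)) :
    (∀ (k : ℕ) (ρ : Representation ℂ (Cfsg.Lie.twistedG2 K (3 ^ m)) (Fin k → ℂ)), ρ.IsIrreducible → 2 ≤ k → (3 ^ (2 * m + 1)) ^ 2 - 3 ^ (2 * m + 1) + 1 ≤ k) := by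
  intro k ρ hρ hk
  haveI : CharP K 3 := CfsgLib.Chev.Ree.charP_three hK
  have hK' : Nat.card K = 3 ^ (2 * m + 1) := by rw [Nat.card_eq_fintype_card, hK]
  haveI hsimp := (CfsgLib.Chev.Ree.simple m hK' hm).1
  have hfin : Module.finrank ℂ (Fin k → ℂ) = k := Module.finrank_fin_fun ℂ
  have hinj : Function.Injective ρ := by
    rcases hsimp.eq_bot_or_eq_top_of_normal (MonoidHom.ker ρ) (MonoidHom.normal_ker ρ) with h | h
    · exact (MonoidHom.ker_eq_bot_iff ρ).1 h
    · exfalso
      have htriv : ∀ g, ρ g = 1 := fun g => MonoidHom.mem_ker.1 (h ▸ Subgroup.mem_top g)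
      let v : Fin k → ℂ := fun _ => 1
      have hv : v ≠ 0 := fun h' => one_ne_zero (congrFun h' ⟨0, by omega⟩)
      let S : Subrepresentation ρ := ⟨Submodule.span ℂ {v}, fun g x hx => by rw [htriv]; exact hx⟩
      rcases hρ.eq_bot_or_eq_top S with h' | h'
      · have h2 : Submodule.span ℂ {v} = ⊥ := congrArg Subrepresentation.toSubmodule h'
        exact hv (Submodule.span_singleton_eq_bot.1 h2)
      · have h2 : Submodule.span ℂ {v} = ⊤ := congrArg Subrepresentation.toSubmodule h'
        have h3 := finrank_span_singleton (K := ℂ) hv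
        rw [h2, finrank_top, hfin] at h3
        omega
  have h := CfsgLib.Chev.ReeDegree.degree_lower_bound m hm hK' ρ hinj
  rwa [hfin] at h

end Cfsg.Agent.S2343
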