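import Cfsg.Statements.S2347
import Cfsg.Agent.MinDegree.SpLower
import Cfsg.Agent.MinDegree.Weil

set_option autoImplicit false
open Cfsg

namespace Cfsg.Agent.S2347

/-- Smallest degree of a non-linear irreducible complex representation of the symplectic group Sp_{2n} over a finite field of odd order q, n ≥ 2: every irreducible complex representation of degree at least 2 has degree at least (q^n − 1)/2, and there is an irreducible complex representation of exactly that degree (a Weil representation). -/
theorem result {F : Type*} [Field F] [Fintype F] [DecidableEq F] (n : ℕ) (hn : 2 ≤ n) (hodd : Odd (Fintype.card F)) :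
    (∀ (k : ℕ) (ρ : Representation ℂ (Matrix.symplecticGroup (Fin n) F) (Fin k → ℂ)), ρ.IsIrreducible → 2 ≤ k → (Fintype.card F ^ n - 1) / 2 ≤ k) ∧
    (∃ ρ : Representation ℂ (Matrix.symplecticGroup (Fin n) F) (Fin ((Fintype.card F ^ n - 1) / 2) → ℂ), ρ.IsIrreducible) := by
  refine ⟨fun k ρ hρ hk => ?_, ?_⟩
  · have h := CfsgLib.MinDegree.sp_lower hn hodd ρ hρ (by simpa using hk)
    simpa using h
  · have h2 : (2 : F) ≠ 0 := Ring.two_ne_zero fun h => by
      have := FiniteField.even_card_of_char_two h
      have := Nat.odd_iff.mp hodd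
      omega
    obtain ⟨θ, hθ⟩ : ∃ θ : AddChar F ℂ, θ ≠ 0 := by
      have : Nontrivial (AddChar F ℂ) := Fintype.one_lt_card_iff_nontrivial.mp
        (by rw [AddChar.card_eq]; exact Fintype.one_lt_card)
      exact exists_ne 0
    exact CfsgLib.MinDegree.Weil.weil_exists θ hθ (by omega) h2

end Cfsg.Agent.S2347
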