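import Cfsg.Statements.S2355
import Cfsg.Agent.WordLaw.Unitary
-- import your own Cfsg.Agent.* helpers here

set_option autoImplicit false
open Cfsg

namespace Cfsg.Agent.S2355

open CfsgLib.WordLaw in
theorem not_law_transfer {G H : Type*} [Group G] [Group H] (e : G ≃* H) {w : FreeGroup ℕ}
    (h : ∃ f : ℕ → H, FreeGroup.lift f w ≠ 1) : ¬ ∀ f : ℕ → G, FreeGroup.lift f w = 1 := by
  obtain ⟨f, hf⟩ := h
  intro hlaw
  refine hf ?_
  have h1 := congrArg e (hlaw fun i => e.symm (f i))
  rw [map_one] at h1
  rw [← h1, ← MulEquiv.coe_toMonoidHom, ← MonoidHom.comp_apply]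
  congr 1
  exact FreeGroup.ext_hom _ _ fun i => by simp

theorem card_matrices_le {F : Type*} [Field F] [Fintype F] {ι : Type} [Fintype ι] [DecidableEq ι]
    {X : Type*} (φ : X → Matrix ι ι F) (hφ : Function.Injective φ) (d Q : ℕ)
    (hd : Fintype.card ι ≤ d) (hQ : Fintype.card F ≤ Q) : Nat.card X ≤ Q ^ (d * d) := by
  refine (Nat.card_le_card_of_injective φ hφ).trans ?_
  show Nat.card (ι → ι → F) ≤ _
  rw [Nat.card_fun, Nat.card_fun, ← pow_mul, Nat.card_eq_fintype_card, Nat.card_eq_fintype_card]
  refine (Nat.pow_le_pow_left hQ _).trans (Nat.pow_le_pow_right ?_ (Nat.mul_le_mul hd hd))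
  exact (Fintype.card_pos).trans_le hQ

theorem card_quot_le {X : Type*} [Group X] [Finite X] (Y : Subgroup X) : Nat.card (X ⧸ Y) ≤ Nat.card X :=
  Nat.card_le_card_of_surjective _ (QuotientGroup.mk_surjective (s := Y))

/-- A non-trivial law is satisfied by only finitely many finite simple groups that are alternating or classical, up to isomorphism: for every non-trivial element w of the free group on countably many generators there is a bound N such that every alternating group of degree ≥ 5 and every simple classical group (linear, symplectic, unitary or orthogonal, in this problem's sense) in which w is a law has order at most N. -/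
theorem result (w : FreeGroup ℕ) (hw : w ≠ 1) :
    ∃ N : ℕ, ∀ (G : Type*) [Group G] [Finite G],
      (Cfsg.IsAlternating G ∨ Cfsg.IsPSL G ∨ Cfsg.IsPSp G ∨ Cfsg.IsPSU G ∨ Cfsg.IsPOmegaOdd G ∨
          Cfsg.IsPOmegaPlus G ∨ Cfsg.IsPOmegaMinus G) →
      (∀ f : ℕ → G, FreeGroup.lift f w = 1) → Nat.card G ≤ N := by
  classical
  obtain ⟨N, hN5, hN⟩ := CfsgLib.WordLaw.witness_alternating w hw
  set B := CfsgLib.WordLaw.budget w.toWord + 4 with hB
  refine ⟨N.factorial + (B * B) ^ ((2 * N + 3) * (2 * N + 3)), ?_⟩
  intro G _ _ hG hlaw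
  by_contra hbig
  push Not at hbig
  have hBQ : B ≤ B * B := Nat.le_mul_self B
  rcases hG with ⟨n, hn, ⟨e⟩⟩ | ⟨F, _, _, n, hn, -, ⟨e⟩⟩ | ⟨F, _, _, m, hm, -, ⟨e⟩⟩ |
    ⟨F, _, _, n, q, hF, hn, -, ⟨e⟩⟩ | ⟨F, _, _, m, hm, -, ⟨e⟩⟩ | ⟨F, _, _, m, hm, ⟨e⟩⟩ |
    ⟨F, _, _, m, a, b, hm, -, ⟨e⟩⟩
  · refine not_law_transfer e ?_ hlaw
    by_cases h : N ≤ n
    · obtain ⟨f, hf, y, hy, hxy⟩ := hN n h
      exact ⟨f, fun hf1 => hxy (by rw [hf1]; exact Commute.one_left y)⟩
    · exfalso
      have h1 : Nat.card G ≤ n.factorial := by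
        rw [Nat.card_congr e.toEquiv]
        refine (Nat.card_le_card_of_injective _ Subtype.val_injective).trans ?_
        rw [Nat.card_perm, Nat.card_fin]
      have h2 : n.factorial ≤ N.factorial := Nat.factorial_le (by omega)
      omega
  · refine not_law_transfer e ?_ hlaw
    refine (CfsgLib.WordLaw.witness_gl w hw hN n hn ?_).1.not_law
    by_contra h
    push Not at h
    have h1 : Nat.card G ≤ (B * B) ^ ((2 * N + 3) * (2 * N + 3)) := by
      rw [Nat.card_congr e.toEquiv]
      refine (card_quot_le _).trans (card_matrices_le Subtype.val Subtype.val_injective _ _ ?_ (by omega))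
      simp; omega
    omega
  · refine not_law_transfer e ?_ hlaw
    refine (CfsgLib.WordLaw.Witness.of_injective _ (CfsgLib.WordLaw.toSp_injective F m)
      (CfsgLib.WordLaw.witness_gl w hw hN m hm ?_).2).not_law
    by_contra h
    push Not at h
    have h1 : Nat.card G ≤ (B * B) ^ ((2 * N + 3) * (2 * N + 3)) := by
      rw [Nat.card_congr e.toEquiv]
      refine (card_quot_le _).trans (card_matrices_le Subtype.val Subtype.val_injective _ _ ?_ (by omega))
      simp; omega
    omega
  · refine not_law_transfer e ?_ hlaw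
    refine (CfsgLib.WordLaw.witness_su w hw hN n q hF (by omega) ?_).not_law
    by_contra h
    push Not at h
    have hq : Fintype.card F ≤ B * B := by
      rw [hF, sq]; exact Nat.mul_le_mul (by omega) (by omega)
    have h1 : Nat.card G ≤ (B * B) ^ ((2 * N + 3) * (2 * N + 3)) := by
      rw [Nat.card_congr e.toEquiv]
      refine (card_quot_le _).trans (card_matrices_le (fun g => (g.1.1 : Matrix (Fin n) (Fin n) F))
        (Subtype.val_injective.comp Subtype.val_injective) _ _ ?_ hq)
      simp; omega
    omega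
  · refine not_law_transfer e ?_ hlaw
    refine (CfsgLib.WordLaw.Witness.of_injective _ (CfsgLib.WordLaw.toOodd_injective F m)
      (CfsgLib.WordLaw.witness_gl w hw hN m (by omega) ?_).2).not_law_derived
    by_contra h
    push Not at h
    have h1 : Nat.card G ≤ (B * B) ^ ((2 * N + 3) * (2 * N + 3)) := by
      rw [Nat.card_congr e.toEquiv]
      refine (card_quot_le _).trans (card_matrices_le (fun g => Units.val g.1.1)
        (fun _ _ h => Subtype.ext (Subtype.ext (Units.ext h))) _ _ ?_ (by omega))
      simp; omega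
    omega
  · refine not_law_transfer e ?_ hlaw
    refine (CfsgLib.WordLaw.Witness.of_injective _ (CfsgLib.WordLaw.toOplus_injective F m)
      (CfsgLib.WordLaw.witness_gl w hw hN m (by omega) ?_).2).not_law_derived
    by_contra h
    push Not at h
    have h1 : Nat.card G ≤ (B * B) ^ ((2 * N + 3) * (2 * N + 3)) := by
      rw [Nat.card_congr e.toEquiv]
      refine (card_quot_le _).trans (card_matrices_le (fun g => Units.val g.1.1)
        (fun _ _ h => Subtype.ext (Subtype.ext (Units.ext h))) _ _ ?_ (by omega))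
      simp; omega
    omega
  · refine not_law_transfer e ?_ hlaw
    by_cases h : N + 1 ≤ m ∨ B ≤ Fintype.card F
    · refine (CfsgLib.WordLaw.Witness.of_injective _ (CfsgLib.WordLaw.toOminus_injective F (m - 1) a b)
        (CfsgLib.WordLaw.witness_gl w hw hN (m - 1) (by omega) (by omega)).2).not_law_derived
    · exfalso
      have h1 : Nat.card G ≤ (B * B) ^ ((2 * N + 3) * (2 * N + 3)) := by
        rw [Nat.card_congr e.toEquiv]
        refine (card_quot_le _).trans (card_matrices_le (fun g => Units.val g.1.1)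
          (fun _ _ h => Subtype.ext (Subtype.ext (Units.ext h))) _ _ ?_ (by omega))
        simp; omega
      omega

end Cfsg.Agent.S2355
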