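import Cfsg.Statements.S2356
import Cfsg.Agent.UGeom.InvolutionCount

set_option autoImplicit false
open Cfsg

namespace Cfsg.Agent.S2356

/-- Let q be odd, F the field with q² elements, S = SU_3(F) (determinant-one isometries of the standard Hermitian form) and t an involution of S. Then: exactly q(q−1) involutions other than t commute with t; exactly q(q−2)(q²−1) involutions do not commute with t but commute with some involution commuting with t; exactly (q+1)(q²−1) involutions x do not commute with t and admit no involution commuting with both t and x; and every involution can be reached from t in at most three steps, each step going to an involution that commutes with the previous one (the commuting involution graph is connected of diameter 3). -/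
theorem result {F : Type*} [Field F] [Fintype F] {q : ℕ} (hq : Odd q)
    (hF : Fintype.card F = q ^ 2) (t : ↥(Cfsg.SU 3 F q)) (ht : t ≠ 1) (ht2 : t * t = 1) :
    Nat.card {x : ↥(Cfsg.SU 3 F q) // x ≠ 1 ∧ x * x = 1 ∧ x ≠ t ∧ Commute t x} = q * (q - 1) ∧
    Nat.card {x : ↥(Cfsg.SU 3 F q) // x ≠ 1 ∧ x * x = 1 ∧ ¬ Commute t x ∧
        ∃ y : ↥(Cfsg.SU 3 F q), y ≠ 1 ∧ y * y = 1 ∧ Commute t y ∧ Commute y x} = q * (q - 2) * (q ^ 2 - 1) ∧
    Nat.card {x : ↥(Cfsg.SU 3 F q) // x ≠ 1 ∧ x * x = 1 ∧ ¬ Commute t x ∧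
        ∀ y : ↥(Cfsg.SU 3 F q), y ≠ 1 → y * y = 1 → ¬ (Commute t y ∧ Commute y x)} = (q + 1) * (q ^ 2 - 1) ∧
    ∀ x : ↥(Cfsg.SU 3 F q), x ≠ 1 → x * x = 1 →
      ∃ y z : ↥(Cfsg.SU 3 F q), y ≠ 1 ∧ y * y = 1 ∧ z ≠ 1 ∧ z * z = 1 ∧
        Commute t y ∧ Commute y z ∧ Commute z x := by
  obtain ⟨C⟩ := CfsgLib.UGeom.nonempty_conj hF
  have h2 := CfsgLib.UGeom.Invol.two_ne_zero' C hq
  have hq3 : 3 ≤ q := by
    have := C.two_le
    rcases hq with ⟨k, rfl⟩
    omega
  have htm : t ∈ CfsgLib.UGeom.Invol.invSet q F := ⟨ht, ht2⟩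
  refine ⟨?_, ?_, ?_, fun x hx1 hx2 => ?_⟩
  · exact (Nat.card_coe_set_eq (CfsgLib.UGeom.Invol.perpSet t)).trans
      (CfsgLib.UGeom.Invol.ncard_perp C h2 t htm)
  · refine ((Nat.card_coe_set_eq (CfsgLib.UGeom.Invol.farSet t)).trans
      (CfsgLib.UGeom.Invol.ncard_far C h2 t htm)).trans ?_
    obtain ⟨k, rfl⟩ : ∃ k, q = k + 3 := ⟨q - 3, by omega⟩
    have e2 : (k + 3) ^ 2 - 1 = k ^ 2 + 6 * k + 8 := Nat.sub_eq_of_eq_add (by ring)
    have e3 : (k + 3) * (k + 3 - 1) - 2 = k ^ 2 + 5 * k + 4 :=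
      Nat.sub_eq_of_eq_add (by rw [show k + 3 - 1 = k + 2 from rfl]; ring)
    rw [e2, e3, show k + 3 - 1 = k + 2 from rfl, show k + 3 - 2 = k + 1 from rfl]
    ring
  · exact (Nat.card_coe_set_eq (CfsgLib.UGeom.Invol.remoteSet t)).trans
      (CfsgLib.UGeom.Invol.ncard_remote C h2 hq3 t htm)
  · obtain ⟨y, z, hy, hz, h⟩ := CfsgLib.UGeom.Invol.exists_path C h2 htm ⟨hx1, hx2⟩
    exact ⟨y, z, hy.1, hy.2, hz.1, hz.2, h⟩

end Cfsg.Agent.S2356
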