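import Cfsg.Statements.S2359
import Cfsg.Agent.Chev.Ree.CentralizerElliptic
-- import your own Cfsg.Agent.* helpers here

set_option autoImplicit false
open Cfsg

namespace Cfsg.Agent.S2359

/-- Let R be the small Ree group over the field with q = 3^(2m+1) ≥ 27 elements. If H is a cyclic subgroup of R of order (q−1)/2, then the centralizer of H in R is cyclic of order q−1, and every non-trivial subgroup of H has the same centralizer as H. If H is a cyclic subgroup of order (q+1)/4, then the centralizer of H is abelian of order q+1 with no element of order 4 (so it is the direct product of H and a group of order 4 whose non-identity elements all have order 2), and every non-trivial subgroup of H has the same centralizer as H. -/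
theorem result {K : Type*} [Field K] [Fintype K] {m : ℕ} (hm : 1 ≤ m)
    (hK : Fintype.card K = 3 ^ (2 * m + 1)) (H : Subgroup ↥(Cfsg.Lie.twistedG2 K (3 ^ m))) (hH : IsCyclic H) :
    (Nat.card H = (3 ^ (2 * m + 1) - 1) / 2 →
      IsCyclic ↥(Subgroup.centralizer (H : Set ↥(Cfsg.Lie.twistedG2 K (3 ^ m)))) ∧
        Nat.card ↥(Subgroup.centralizer (H : Set ↥(Cfsg.Lie.twistedG2 K (3 ^ m)))) = 3 ^ (2 * m + 1) - 1 ∧
        ∀ A : Subgroup ↥(Cfsg.Lie.twistedG2 K (3 ^ m)), A ≤ H → A ≠ ⊥ →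
          Subgroup.centralizer (A : Set ↥(Cfsg.Lie.twistedG2 K (3 ^ m))) = Subgroup.centralizer (H : Set ↥(Cfsg.Lie.twistedG2 K (3 ^ m)))) ∧
    (Nat.card H = (3 ^ (2 * m + 1) + 1) / 4 →
      IsMulCommutative ↥(Subgroup.centralizer (H : Set ↥(Cfsg.Lie.twistedG2 K (3 ^ m)))) ∧
        Nat.card ↥(Subgroup.centralizer (H : Set ↥(Cfsg.Lie.twistedG2 K (3 ^ m)))) = 3 ^ (2 * m + 1) + 1 ∧
        (∀ x ∈ Subgroup.centralizer (H : Set ↥(Cfsg.Lie.twistedG2 K (3 ^ m))), orderOf x ≠ 4) ∧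
        ∀ A : Subgroup ↥(Cfsg.Lie.twistedG2 K (3 ^ m)), A ≤ H → A ≠ ⊥ →
          Subgroup.centralizer (A : Set ↥(Cfsg.Lie.twistedG2 K (3 ^ m))) = Subgroup.centralizer (H : Set ↥(Cfsg.Lie.twistedG2 K (3 ^ m)))) := by
  haveI := CfsgLib.Chev.Ree.charP_three hK
  have hK' : Nat.card K = 3 ^ (2 * m + 1) := by rw [Nat.card_eq_fintype_card, hK]
  haveI := hH
  have hinj : ∀ g : ↥(Cfsg.Lie.twistedG2 K (3 ^ m)),
      Function.Injective (MulAut.conj g).toMonoidHom := fun g => (MulAut.conj g).injective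
  constructor
  · intro hcard
    obtain ⟨g, hg⟩ := CfsgLib.Chev.Ree.cyclic_conj_A1 m hK' (H := H) (by rw [hcard])
    have e : ∀ A : Subgroup ↥(Cfsg.Lie.twistedG2 K (3 ^ m)), A ≤ H → A ≠ ⊥ →
        (Subgroup.centralizer (A : Set ↥(Cfsg.Lie.twistedG2 K (3 ^ m)))).map (MulAut.conj g).toMonoidHom =
          CfsgLib.Chev.Ree.TG K m := by
      intro A hA hA1
      rw [CfsgLib.Chev.Ree.GL0.map_conj_centralizer]
      exact CfsgLib.Chev.Ree.centralizer_A1 m hK' (A₀ := A.map (MulAut.conj g).toMonoidHom)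
        ((Subgroup.map_mono hA).trans hg) (fun h => hA1 ((Subgroup.map_eq_bot_iff_of_injective _ (hinj g)).1 h))
    have hH1 : H ≠ ⊥ := by
      intro h
      rw [h, Subgroup.card_bot] at hcard
      have : 3 ^ 3 ≤ 3 ^ (2 * m + 1) := Nat.pow_le_pow_right (by norm_num) (by omega)
      omega
    have eH := (Subgroup.equivMapOfInjective _ _ (hinj g)).trans (MulEquiv.subgroupCongr (e H le_rfl hH1))
    refine ⟨?_, ?_, fun A hA hA1 => Subgroup.map_injective (hinj g) ((e A hA hA1).trans (e H le_rfl hH1).symm)⟩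
    · haveI := CfsgLib.Chev.Ree.isCyclic_TG (K := K) m hK'
      exact eH.isCyclic.2 inferInstance
    · rw [Nat.card_congr eH.toEquiv, CfsgLib.Chev.Ree.card_TG m hK']
  · intro hcard
    obtain ⟨g, hg⟩ := CfsgLib.Chev.Ree.cyclic_conj_A2 m hK' (H := H) (by rw [hcard])
    have e : ∀ A : Subgroup ↥(Cfsg.Lie.twistedG2 K (3 ^ m)), A ≤ H → A ≠ ⊥ →
        (Subgroup.centralizer (A : Set ↥(Cfsg.Lie.twistedG2 K (3 ^ m)))).map (MulAut.conj g).toMonoidHom =
          CfsgLib.Chev.Ree.DQ K m hK' := by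
      intro A hA hA1
      rw [CfsgLib.Chev.Ree.GL0.map_conj_centralizer]
      exact CfsgLib.Chev.Ree.centralizer_A2 m hK' (A₀ := A.map (MulAut.conj g).toMonoidHom)
        ((Subgroup.map_mono hA).trans hg) (fun h => hA1 ((Subgroup.map_eq_bot_iff_of_injective _ (hinj g)).1 h))
    have hH1 : H ≠ ⊥ := by
      intro h
      rw [h, Subgroup.card_bot] at hcard
      have : 3 ^ 3 ≤ 3 ^ (2 * m + 1) := Nat.pow_le_pow_right (by norm_num) (by omega)
      omega
    have eH := (Subgroup.equivMapOfInjective _ _ (hinj g)).trans (MulEquiv.subgroupCongr (e H le_rfl hH1))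
    refine ⟨⟨⟨fun a b => ?_⟩⟩, ?_, ?_, fun A hA hA1 => Subgroup.map_injective (hinj g) ((e A hA hA1).trans (e H le_rfl hH1).symm)⟩
    · refine eH.injective ?_
      rw [map_mul, map_mul]
      exact Subtype.ext (CfsgLib.Chev.Ree.DQ_comm m hK' (eH a).2 (eH b).2)
    · rw [Nat.card_congr eH.toEquiv, CfsgLib.Chev.Ree.card_DQ m hK' hm]
    · intro x hx h4
      obtain ⟨v, hv, a, ha, hva⟩ := (CfsgLib.Chev.Ree.mem_DQ m hK').1 (eH ⟨x, hx⟩).2
      have ho : orderOf (v * a) = 4 := by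
        rw [← hva, Subgroup.orderOf_coe, MulEquiv.orderOf_eq, Subgroup.orderOf_mk, h4]
      have hc : Commute v a := CfsgLib.Chev.Ree.VA_comm m hK' hv ha
      have h2 : (v * a) ^ 2 = a ^ 2 := by
        rw [hc.mul_pow, pow_two v, CfsgLib.Chev.Ree.VG_sq m hK' hv, one_mul]
      have h1 := pow_orderOf_eq_one (v * a)
      rw [ho, show (4 : ℕ) = 2 * 2 from rfl, pow_mul, h2] at h1
      have hodd : Odd (Nat.card ↥(CfsgLib.Chev.Ree.A2 K m hK')) := by
        rw [CfsgLib.Chev.Ree.card_A2 m hK']; exact (CfsgLib.Chev.Ree.k2_facts (K := K) m hK').2.1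
      have ha2 : a ^ 2 = 1 := CfsgLib.Chev.Ree.GL0.eq_one_of_sq hodd (pow_mem ha 2) (by rw [← pow_two, h1])
      have := orderOf_dvd_of_pow_eq_one (h2.trans ha2)
      rw [ho] at this
      norm_num at this

end Cfsg.Agent.S2359
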