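import Cfsg.Statements.S2360
import Cfsg.Agent.UGeom.InvolutionCount

set_option autoImplicit false
open Cfsg

namespace Cfsg.Agent.S2360

/-- Let q be odd, F the field with q² elements and S = SU_3(F) (determinant-one isometries of the standard Hermitian form). Then all involutions of S are conjugate; there are exactly q²(q²−q+1) of them; the centralizer of an involution has order q(q+1)(q²−1), the order of the full unitary group of degree 2; and for two distinct commuting involutions t and x there is exactly one further involution commuting with both. -/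
theorem result {F : Type*} [Field F] [Fintype F] {q : ℕ} (hq : Odd q)
    (hF : Fintype.card F = q ^ 2) (t : ↥(Cfsg.SU 3 F q)) (ht : t ≠ 1) (ht2 : t * t = 1) :
    (∀ x : ↥(Cfsg.SU 3 F q), x ≠ 1 → x * x = 1 → ∃ g : ↥(Cfsg.SU 3 F q), g * t * g⁻¹ = x) ∧
    Nat.card {x : ↥(Cfsg.SU 3 F q) // x ≠ 1 ∧ x * x = 1} = q ^ 2 * (q ^ 2 - q + 1) ∧
    Nat.card ↥(Subgroup.centralizer ({t} : Set ↥(Cfsg.SU 3 F q))) = q * (q + 1) * (q ^ 2 - 1) ∧
    ∀ x : ↥(Cfsg.SU 3 F q), x ≠ 1 → x * x = 1 → x ≠ t → Commute t x →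
      Nat.card {y : ↥(Cfsg.SU 3 F q) // y ≠ 1 ∧ y * y = 1 ∧ y ≠ t ∧ y ≠ x ∧ Commute t y ∧ Commute x y} = 1 := by
  obtain ⟨C⟩ := CfsgLib.UGeom.nonempty_conj hF
  have h2 := CfsgLib.UGeom.Invol.two_ne_zero' C hq
  have htm : t ∈ CfsgLib.UGeom.Invol.invSet q F := ⟨ht, ht2⟩
  refine ⟨fun x hx1 hx2 => CfsgLib.UGeom.Invol.isConj_inv C h2 htm ⟨hx1, hx2⟩, ?_,
    CfsgLib.UGeom.Invol.card_centralizer C h2 htm, fun x hx1 hx2 hxt hc => ?_⟩
  · exact (Nat.card_coe_set_eq (CfsgLib.UGeom.Invol.invSet q F)).trans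
      (CfsgLib.UGeom.Invol.ncard_inv C h2)
  · obtain ⟨z, hz⟩ := CfsgLib.UGeom.Invol.exists_third C h2 htm ⟨hx1, hx2, hxt, hc⟩
    refine (Nat.card_coe_set_eq {y : ↥(Cfsg.SU 3 F q) | y ≠ 1 ∧ y * y = 1 ∧ y ≠ t ∧ y ≠ x ∧
      Commute t y ∧ Commute x y}).trans ?_
    rw [Set.ncard_eq_one]
    refine ⟨z, ?_⟩
    rw [← hz]
    ext y
    constructor
    · rintro ⟨h1, h3, h4, h5, h6, h7⟩
      exact ⟨⟨h1, h3, h4, h6⟩, h1, h3, h5, h7⟩
    · rintro ⟨⟨h1, h3, h4, h6⟩, -, -, h5, h7⟩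
      exact ⟨h1, h3, h4, h5, h6, h7⟩

end Cfsg.Agent.S2360
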