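import Cfsg.Statements.S2589
import Cfsg.Agent.FormConj.Semisimple
import Cfsg.Agent.SpGeom.Basic

set_option autoImplicit false
open Cfsg

namespace Cfsg.Agent.S2589

/-- Two semisimple elements of the finite symplectic group Sp_2m(F) (elements of order prime to the characteristic) are conjugate in Sp_2m(F) if and only if they are conjugate in GL_2m(F). -/
theorem result {F : Type*} [Field F] [Fintype F] {p : ℕ} [Fact p.Prime] [CharP F p] {m : ℕ} (A B : Matrix.symplecticGroup (Fin m) F) (hA : (orderOf A).Coprime p) : IsConj A B ↔ IsConj (A : Matrix (Fin m ⊕ Fin m) (Fin m ⊕ Fin m) F) (B : Matrix (Fin m ⊕ Fin m) (Fin m ⊕ Fin m) F) := by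
  refine ⟨fun h => (Matrix.symplecticGroup (Fin m) F).subtype.map_isConj h, fun ⟨c, hc⟩ => ?_⟩
  have hk : ((orderOf A : ℕ) : F) ≠ 0 := by
    rw [Ne, CharP.cast_eq_zero_iff F p]
    exact fun h => (Fact.out : p.Prime).ne_one (Nat.dvd_one.1 (hA ▸ Nat.dvd_gcd h dvd_rfl))
  obtain ⟨g, hg, hgA⟩ := CfsgLib.FormConj.exists_symp_conj (G := Matrix.J (Fin m) F) (A := A.1) (B := B.1) hk
    (by rw [← SubmonoidClass.coe_pow, pow_orderOf_eq_one, Submonoid.coe_one]) (Matrix.isUnit_det_J _ _)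
    (fun x => CfsgLib.SpGeom.form_self x) (SymplecticGroup.mem_iff'.1 A.2) (SymplecticGroup.mem_iff'.1 B.2)
    (Matrix.isUnits_det_units c) hc
  let g' : Matrix.symplecticGroup (Fin m) F := ⟨g, SymplecticGroup.mem_iff'.2 hg⟩
  exact isConj_iff.2 ⟨g', mul_inv_eq_iff_eq_mul.2 (Subtype.ext hgA)⟩

end Cfsg.Agent.S2589
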