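import Cfsg.Statements.S2389
import Cfsg.Agent.S2589
import Cfsg.Agent.H29.SemisimpleCount

set_option autoImplicit false
open Cfsg

namespace Cfsg.Agent.S2389

/-- In the symplectic group `Sp_{2n}(q)`, `q` a power of the prime `p`, two elements of order prime to `p` with the same characteristic polynomial are conjugate in `Sp_{2n}(q)`. -/
theorem result {F : Type*} [Field F] [Fintype F] (p : ℕ) [Fact p.Prime] [CharP F p] (n : ℕ)
    (g h : ↥(Matrix.symplecticGroup (Fin n) F)) (hg : (orderOf g).Coprime p) (hh : (orderOf h).Coprime p)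
    (hc : (g : Matrix (Fin n ⊕ Fin n) (Fin n ⊕ Fin n) F).charpoly = (h : Matrix (Fin n ⊕ Fin n) (Fin n ⊕ Fin n) F).charpoly) :
    IsConj g h := by
  classical
  refine (Cfsg.Agent.S2589.result g h hg).mpr ?_
  let e := Matrix.reindexAlgEquiv F F (finSumFinEquiv (m := n) (n := n))
  let φ : ↥(Matrix.symplecticGroup (Fin n) F) →* GL (Fin (n + n)) F :=
    MonoidHom.toHomUnits
      ((e : Matrix (Fin n ⊕ Fin n) (Fin n ⊕ Fin n) F →ₐ[F] Matrix (Fin (n + n)) (Fin (n + n)) F).toMonoidHom.comp
        (Matrix.symplecticGroup (Fin n) F).subtype)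
  have hφ : ∀ x, ((φ x : GL (Fin (n + n)) F) : Matrix (Fin (n + n)) (Fin (n + n)) F) = e x.1 := fun _ => rfl
  have hinj : Function.Injective φ := fun a b hab =>
    Subtype.ext (e.injective (by rw [← hφ a, ← hφ b, hab]))
  have hc' : IsConj (φ g) (φ h) :=
    Cfsg.Agent.H29.Semisimple.gl_conj_of_charpoly (p := p) (φ g) (φ h)
      (by rw [orderOf_injective φ hinj]; exact hg) (by rw [orderOf_injective φ hinj]; exact hh)
      (by rw [hφ, hφ, Matrix.reindexAlgEquiv_apply, Matrix.reindexAlgEquiv_apply, Matrix.charpoly_reindex,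
        Matrix.charpoly_reindex, hc])
  have h2 := (Units.coeHom (Matrix (Fin (n + n)) (Fin (n + n)) F)).map_isConj hc'
  simp only [Units.coeHom_apply, hφ] at h2
  have h3 := (e.symm : Matrix (Fin (n + n)) (Fin (n + n)) F →ₐ[F] Matrix (Fin n ⊕ Fin n) (Fin n ⊕ Fin n) F).toMonoidHom.map_isConj h2
  simpa using h3

end Cfsg.Agent.S2389
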