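import Cfsg.Statements.S2385
import Cfsg.Agent.SympSemiCount.Companion
import Cfsg.Agent.Symp.SelfReciprocal
import Cfsg.Agent.S2389

set_option autoImplicit false
open Cfsg

namespace Cfsg.Agent.S2385

/-- In the symplectic group `Sp_{2n}(q)`, `q` a power of the prime `p`, the number of conjugacy classes of elements of order prime to `p` is `q^n`. -/
theorem result {F : Type*} [Field F] [Fintype F] {q : ℕ} (hq : Fintype.card F = q) (p : ℕ) [Fact p.Prime] [CharP F p] (n : ℕ) :
    Nat.card {c : ConjClasses ↥(Matrix.symplecticGroup (Fin n) F) //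
      ∃ g : ↥(Matrix.symplecticGroup (Fin n) F), ConjClasses.mk g = c ∧ (orderOf g).Coprime p} = q ^ n := by
  classical
  subst hq
  have hpal : ∀ g : ↥(Matrix.symplecticGroup (Fin n) F),
      ∃ c : Fin (n + 1) → F, c (Fin.last n) = 1 ∧ CfsgLib.SympSemiCount.lift n c = g.1.charpoly := by
    intro g
    have hdeg : g.1.charpoly.natDegree = 2 * n := by
      rw [Matrix.charpoly_natDegree_eq_dim, Fintype.card_sum, Fintype.card_fin, two_mul]
    have hlc : g.1.charpoly.coeff (2 * n) = 1 := by
      rw [← hdeg]; exact (Matrix.charpoly_monic g.1).coeff_natDegree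
    have h0 : g.1.charpoly.coeff 0 = 1 := by
      have h := Matrix.det_eq_sign_charpoly_coeff g.1
      rw [SymplecticGroup.det_eq_one g.2, Fintype.card_sum, Fintype.card_fin, (Even.add_self n).neg_one_pow, one_mul] at h
      exact h.symm
    obtain ⟨u, hu⟩ := CfsgLib.Symp.associated_reverse_charpoly g.2
    obtain ⟨a, ha, hau⟩ := Polynomial.isUnit_iff.mp u.isUnit
    have e0 := congrArg (fun f : Polynomial F => f.coeff 0) hu
    simp only [← hau, Polynomial.coeff_mul_C, Polynomial.coeff_zero_reverse, (Matrix.charpoly_monic g.1).leadingCoeff,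
      h0, one_mul] at e0
    rw [← hau, e0, Polynomial.C_1, mul_one, Polynomial.reverse, hdeg] at hu
    obtain ⟨c, hc⟩ := CfsgLib.SympSemiCount.exists_lift_eq n hdeg.le hu
    exact ⟨c, by rw [← CfsgLib.SympSemiCount.coeff_lift_last n c, hc, hlc], hc⟩
  choose cf hcf1 hcf using hpal
  have hss : ∀ g : ↥(Matrix.symplecticGroup (Fin n) F),
      ∃ s : ↥(Matrix.symplecticGroup (Fin n) F), (orderOf s).Coprime p ∧ s.1.charpoly = g.1.charpoly := by
    intro g
    rcases isEmpty_or_nonempty (Fin n ⊕ Fin n) with he | he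
    · exact ⟨1, by simp, by rw [Subsingleton.elim (1 : ↥(Matrix.symplecticGroup (Fin n) F)).1 g.1]⟩
    obtain ⟨e, -, hF⟩ := FiniteField.card F p
    obtain ⟨a, m, hpm, hm⟩ := Nat.exists_eq_pow_mul_and_not_dvd (orderOf_pos g).ne' p (Fact.out : p.Prime).ne_one
    have hcop : Nat.Coprime p m := (Fact.out : p.Prime).coprime_iff_not_dvd.mpr hpm
    refine ⟨g ^ Fintype.card F ^ a, ?_, ?_⟩
    · have hdvd : orderOf (g ^ Fintype.card F ^ a) ∣ m := by
        refine orderOf_dvd_of_pow_eq_one ?_
        rw [← pow_mul]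
        refine orderOf_dvd_iff_pow_eq_one.mp ?_
        rw [hm, hF, ← pow_mul]
        exact Nat.mul_dvd_mul_right (Nat.pow_dvd_pow p (Nat.le_mul_of_pos_left a e.2)) m
      exact Nat.Coprime.coprime_dvd_left hdvd hcop.symm
    · have hpow : ∀ k : ℕ, ((g ^ Fintype.card F ^ k).1).charpoly = g.1.charpoly := fun k => by
        induction k with
        | zero => rw [pow_zero, pow_one]
        | succ k ih =>
          rw [pow_succ, pow_mul, SubmonoidClass.coe_pow, FiniteField.Matrix.charpoly_pow_card, ih]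
      exact hpow a
  let T := {c : Fin (n + 1) → F // c (Fin.last n) = 1}
  let Φ : {C : ConjClasses ↥(Matrix.symplecticGroup (Fin n) F) //
      ∃ g : ↥(Matrix.symplecticGroup (Fin n) F), ConjClasses.mk g = C ∧ (orderOf g).Coprime p} → T :=
    fun C => ⟨cf C.2.choose, hcf1 _⟩
  have hconj : ∀ g h : ↥(Matrix.symplecticGroup (Fin n) F), IsConj g h → g.1.charpoly = h.1.charpoly := by
    intro g h hgh
    obtain ⟨u, hu⟩ := isConj_iff.mp hgh
    rw [← hu]
    show _ = (u.1 * g.1 * (u⁻¹).1).charpoly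
    rw [Matrix.charpoly_mul_comm, ← Matrix.mul_assoc, show (u⁻¹).1 * u.1 = 1 from congrArg Subtype.val (inv_mul_cancel u),
      Matrix.one_mul]
  have hΦ : Function.Bijective Φ := by
    constructor
    · intro C D h
      refine Subtype.ext ?_
      rw [← C.2.choose_spec.1, ← D.2.choose_spec.1, ConjClasses.mk_eq_mk_iff_isConj]
      refine Cfsg.Agent.S2389.result p n _ _ C.2.choose_spec.2 D.2.choose_spec.2 ?_
      rw [← hcf, ← hcf, show cf C.2.choose = cf D.2.choose from congrArg Subtype.val h]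
    · rintro ⟨c, hc⟩
      obtain ⟨g, hg⟩ := CfsgLib.SympSemiCount.exists_symp_charpoly n c hc
      obtain ⟨s, hs, hsg⟩ := hss g
      refine ⟨⟨ConjClasses.mk s, s, rfl, hs⟩, Subtype.ext (CfsgLib.SympSemiCount.lift_injective n ?_)⟩
      show CfsgLib.SympSemiCount.lift n (cf _) = _
      rw [hcf, ← hg, ← hsg]
      have hex : ∃ g : ↥(Matrix.symplecticGroup (Fin n) F), ConjClasses.mk g = ConjClasses.mk s ∧ (orderOf g).Coprime p :=
        ⟨s, rfl, hs⟩
      exact hconj _ _ (ConjClasses.mk_eq_mk_iff_isConj.mp hex.choose_spec.1)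
  let eT : T ≃ (Fin n → F) :=
    { toFun := fun c => Fin.init c.1
      invFun := fun c => ⟨Fin.snoc c 1, Fin.snoc_last _ _⟩
      left_inv := fun c => Subtype.ext (by
        show Fin.snoc (Fin.init c.1) (1 : F) = c.1
        conv_rhs => rw [← Fin.snoc_init_self c.1, c.2])
      right_inv := fun c => Fin.init_snoc _ _ }
  rw [Nat.card_congr ((Equiv.ofBijective Φ hΦ).trans eT), Nat.card_fun, Nat.card_eq_fintype_card (α := F)]
  simp

end Cfsg.Agent.S2385
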