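import Cfsg.Statements.S2588
import Cfsg.Agent.FormConj.Unitary

set_option autoImplicit false
open Cfsg

namespace Cfsg.Agent.S2588

/-- An invertible matrix A over the field with q² elements is conjugate in GL_n(q²) to an element of the general unitary group GU_n(q) (isometries of the Hermitian form Σ u_i v_i^q) if and only if A is similar to the inverse transpose of its entrywise q-th power (A ~ A^(−qT), the image of A under the map sending a matrix to the inverse transpose of its entrywise q-th power — inverse transpose composed with the field automorphism — whose fixed points form GU_n(q)). -/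
theorem result {K : Type*} [Field K] [Fintype K] {q n : ℕ} (hK : Fintype.card K = q ^ 2) (A : GL (Fin n) K) : (∃ B : ↥(Cfsg.GU n K q), IsConj A (B : GL (Fin n) K)) ↔ IsConj (A : Matrix (Fin n) (Fin n) K) (((A : Matrix (Fin n) (Fin n) K).map (fun x : K => x ^ q)).transpose)⁻¹ := by
  obtain ⟨θ, hq, hθ, hne, -⟩ := CfsgLib.Unitary.exists_conj q hK
  have hdag : ((A : Matrix (Fin n) (Fin n) K).map fun x : K => x ^ q).transpose = CfsgLib.FormConj.dag θ A.1 := by
    rw [show (fun x : K => x ^ q) = ⇑θ from funext fun x => (hq x).symm]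
    rfl
  rw [hdag]
  constructor
  · rintro ⟨B, hB⟩
    obtain ⟨P, hP⟩ := isConj_iff.1 hB
    have hBu := (CfsgLib.FormConj.mem_GU_dag q hq hθ _).1 B.2
    have hP' : (B : GL (Fin n) K).1 * P.1 = P.1 * A.1 := by
      rw [← Units.val_mul, ← Units.val_mul, ← hP, inv_mul_cancel_right]
    have hG : IsUnit (CfsgLib.FormConj.dag θ P.1 * P.1) :=
      (Matrix.isUnit_iff_isUnit_det _).2 (by
        rw [Matrix.det_mul]
        exact (CfsgLib.FormConj.isUnit_det_dag θ (Matrix.isUnits_det_units P)).mul (Matrix.isUnits_det_units P))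
    refine ⟨hG.unit, ?_⟩
    show CfsgLib.FormConj.dag θ P.1 * P.1 * A.1 = _ * (CfsgLib.FormConj.dag θ P.1 * P.1)
    have key : CfsgLib.FormConj.dag θ A.1 * (CfsgLib.FormConj.dag θ P.1 * P.1 * A.1) =
        CfsgLib.FormConj.dag θ P.1 * P.1 := by
      calc CfsgLib.FormConj.dag θ A.1 * (CfsgLib.FormConj.dag θ P.1 * P.1 * A.1) =
            CfsgLib.FormConj.dag θ (P.1 * A.1) * (P.1 * A.1) := by
              rw [CfsgLib.FormConj.dag_mul]; simp only [Matrix.mul_assoc]
        _ = CfsgLib.FormConj.dag θ P.1 *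
            (CfsgLib.FormConj.dag θ (B : GL (Fin n) K).1 * (B : GL (Fin n) K).1) * P.1 := by
              rw [← hP', CfsgLib.FormConj.dag_mul]; simp only [Matrix.mul_assoc]
        _ = _ := by rw [hBu, Matrix.mul_one]
    conv_rhs => rw [← key]
    rw [Matrix.nonsing_inv_mul_cancel_left _ _ (CfsgLib.FormConj.isUnit_det_dag θ (Matrix.isUnits_det_units A))]
  · rintro ⟨c, hc⟩
    have hdA := CfsgLib.FormConj.isUnit_det_dag θ (Matrix.isUnits_det_units A)
    have hcA : CfsgLib.FormConj.dag θ A.1 * c.1 * A.1 = c.1 := by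
      rw [Matrix.mul_assoc, show c.1 * A.1 = _ from hc, Matrix.mul_nonsing_inv_cancel_left _ _ hdA]
    obtain ⟨C, hCu, hC⟩ := CfsgLib.FormConj.exists_unitary_similar hθ hne (Matrix.isUnits_det_units c) hcA
    let Cu : GL (Fin n) K := Matrix.GeneralLinearGroup.mk'' C hCu
    have hval : (Cu * A * Cu⁻¹).1 = C * A.1 * C⁻¹ := by
      rw [Units.val_mul, Units.val_mul, Matrix.coe_units_inv]; rfl
    exact ⟨⟨Cu * A * Cu⁻¹, (CfsgLib.FormConj.mem_GU_dag q hq hθ _).2 (by rw [hval]; exact hC)⟩,
      isConj_iff.2 ⟨Cu, rfl⟩⟩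

end Cfsg.Agent.S2588
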