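import Cfsg.Statements.S2386
import Cfsg.Agent.UnitarySemiCount.CentDet
import Cfsg.Agent.UnitarySemiCount.Fixed
import Cfsg.Agent.H29.SemisimpleCount
import Cfsg.Agent.Unitary.Basic
import Cfsg.Agent.S2587
import Cfsg.Agent.S2588

set_option autoImplicit false
open Cfsg

namespace Cfsg.Agent.S2386

open Polynomial

theorem coeff_inv_dag {K : Type*} [Field K] (θ : K →+* K) {n : ℕ} {A : Matrix (Fin n) (Fin n) K} (hA : A.det = 1)
    {i : ℕ} (hi : i ≤ n) :
    ((CfsgLib.FormConj.dag θ A)⁻¹).charpoly.coeff i = (-1) ^ n * θ (A.charpoly.coeff (n - i)) := by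
  have h1 : (A.map θ).transpose.det = 1 := by
    rw [Matrix.det_transpose]
    show (θ.mapMatrix A).det = 1
    rw [← RingHom.map_det, hA, map_one]
  show ((A.map θ).transpose)⁻¹.charpoly.coeff i = _
  rw [Matrix.charpoly_inv _ ((Matrix.isUnit_iff_isUnit_det _).mpr (by rw [h1]; exact isUnit_one)),
    Fintype.card_fin, h1, Ring.inverse_one, C_1, mul_one, ← Matrix.reverse_charpoly,
    Matrix.charpoly_transpose, Matrix.charpoly_map, ← C_1, ← C_neg, ← C_pow, coeff_C_mul, coeff_reverse,
    natDegree_map, Matrix.charpoly_natDegree_eq_dim, Fintype.card_fin, coeff_map, revAt_le hi]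

/-- In the special unitary group `SU_n(q)` (matrices of determinant one over the field with `q²` elements preserving the standard Hermitian form), `q` a power of the prime `p`, the number of conjugacy classes of elements of order prime to `p` is `q^(n-1)`. -/
theorem result {F : Type*} [Field F] [Fintype F] {q : ℕ} (hF : Fintype.card F = q ^ 2) (p : ℕ) [Fact p.Prime] [CharP F p] (n : ℕ) (hn : 1 ≤ n) :
    Nat.card {c : ConjClasses ↥(Cfsg.SU n F q) // ∃ g : ↥(Cfsg.SU n F q), ConjClasses.mk g = c ∧ (orderOf g).Coprime p} = q ^ (n - 1) := by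
  classical
  obtain ⟨m, rfl⟩ : ∃ m, n = m + 1 := ⟨n - 1, by omega⟩
  rw [Nat.add_sub_cancel]
  obtain ⟨θ, hθq, hθ, hne, -⟩ := CfsgLib.Unitary.exists_conj q hF
  let ι : ↥(Cfsg.SU (m + 1) F q) →* GL (Fin (m + 1)) F :=
    Matrix.SpecialLinearGroup.toGL.comp (Cfsg.SU (m + 1) F q).subtype
  have hι : Function.Injective ι := Matrix.SpecialLinearGroup.toGL_injective.comp Subtype.val_injective
  have hιGU : ∀ g, ι g ∈ Cfsg.GU (m + 1) F q := fun g => g.2
  have hord : ∀ g, orderOf (ι g) = orderOf g := orderOf_injective ι hι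
  have hdag : ∀ g, (CfsgLib.FormConj.dag θ (ι g).1)⁻¹ = (ι g).1 := fun g =>
    Matrix.inv_eq_right_inv ((CfsgLib.FormConj.mem_GU_dag q hθq hθ _).1 (hιGU g))
  have hdet : ∀ g, (ι g).1.det = 1 := fun g => g.1.2
  obtain ⟨P, hP⟩ : ∃ P : ↥(Cfsg.SU (m + 1) F q) → F[X], P = fun g => (ι g).1.charpoly := ⟨_, rfl⟩
  have hrel : ∀ g, ∀ i ≤ m + 1, (P g).coeff i = (-1) ^ (m + 1) * θ ((P g).coeff (m + 1 - i)) := fun g i hi => by
    simp only [hP]
    conv_lhs => rw [← hdag g]
    exact coeff_inv_dag θ (hdet g) hi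
  have htop : ∀ g, (P g).coeff (m + 1) = 1 := fun g => by
    have := (Matrix.charpoly_monic (ι g).1).coeff_natDegree
    rw [Matrix.charpoly_natDegree_eq_dim, Fintype.card_fin] at this
    rw [hP]; exact this
  let S := {f : Fin m → F // ∀ i, f i = (-1) ^ (m + 1) * θ (f (Fin.rev i))}
  let cf : ↥(Cfsg.SU (m + 1) F q) → S := fun g => ⟨fun i => (P g).coeff ((i : ℕ) + 1), fun i => by
    show (P g).coeff _ = _ * θ ((P g).coeff _)
    rw [hrel g _ (by omega), Fin.val_rev]
    congr 3
    omega⟩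
  have hcf : ∀ g h, cf g = cf h → P g = P h := fun g h e => by
    ext i
    rcases lt_trichotomy i (m + 1) with hi | rfl | hi
    · rcases i with _ | j
      · rw [hrel g 0 (Nat.zero_le _), hrel h 0 (Nat.zero_le _), Nat.sub_zero, htop, htop]
      · exact congrFun (congrArg Subtype.val e) ⟨j, by omega⟩
    · rw [htop, htop]
    · simp only [hP]
      rw [coeff_eq_zero_of_natDegree_lt (by rwa [Matrix.charpoly_natDegree_eq_dim, Fintype.card_fin]),
        coeff_eq_zero_of_natDegree_lt (by rwa [Matrix.charpoly_natDegree_eq_dim, Fintype.card_fin])]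
  have hPconj : ∀ g h, IsConj g h → P g = P h := fun g h hgh => by
    obtain ⟨u, hu⟩ := isConj_iff.mp (ι.map_isConj hgh)
    simp only [hP]
    rw [← hu, Units.val_mul, Units.val_mul, Matrix.coe_units_inv, Matrix.charpoly_units_conj]
  let H : CfsgLib.UnitarySemiCount.Herm θ (Fin (m + 1) → F) :=
    { form := Cfsg.hermForm (m + 1) F q
      add_left := fun u v w => by simp [Cfsg.hermForm, add_mul, Finset.sum_add_distrib]
      smul_left := fun a u w => by simp [Cfsg.hermForm, Finset.mul_sum, mul_assoc]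
      symm := fun u v => by
        simp only [Cfsg.hermForm, map_sum, map_mul, ← hθq, hθ]
        exact Finset.sum_congr rfl fun i _ => mul_comm _ _
      nondeg := fun u h => funext fun i => by
        have h1 := h (Pi.single i 1)
        simp only [Cfsg.hermForm, ← hθq, Pi.single_apply, apply_ite θ, map_one, map_zero, mul_ite, mul_one,
          mul_zero, Finset.sum_ite_eq', Finset.mem_univ, if_true] at h1
        exact h1 }
  have hinj : ∀ g h, (orderOf g).Coprime p → (orderOf h).Coprime p → P g = P h → IsConj g h := by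
    intro g h hg hh e
    have h1 : IsConj (ι g) (ι h) := Cfsg.Agent.H29.Semisimple.gl_conj_of_charpoly (p := p) _ _
      (by rw [hord]; exact hg) (by rw [hord]; exact hh) (by simpa only [hP] using e)
    obtain ⟨⟨u, hu⟩, hu'⟩ := isConj_iff.mp ((Cfsg.Agent.S2587.result hF ⟨ι g, hιGU g⟩ ⟨ι h, hιGU h⟩).2 h1)
    have hu'' : u.1 * (ι g).1 = (ι h).1 * u.1 := by
      have := congrArg Subtype.val (mul_inv_eq_iff_eq_mul.mp hu')
      exact congrArg Units.val this
    have hud : θ u.1.det * u.1.det = 1 := by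
      have h2 := congrArg Matrix.det ((CfsgLib.FormConj.mem_GU_dag q hθq hθ _).1 hu)
      rw [Matrix.det_mul, Matrix.det_one] at h2
      rw [RingHom.map_det, ← Matrix.det_transpose]
      exact h2
    have hunit : IsUnit (ι g).1 := (ι g).isUnit
    let s : (Fin (m + 1) → F) ≃ₗ[F] (Fin (m + 1) → F) := LinearEquiv.ofBijective (Matrix.toLin' (ι g).1)
      (Finite.injective_iff_bijective.mp (Matrix.mulVec_injective_iff_isUnit.mpr hunit))
    have hs0 : ∀ v, s v = Matrix.mulVec (ι g).1 v := fun v => rfl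
    obtain ⟨z, hz1, hz2, hz3⟩ := CfsgLib.UnitarySemiCount.exists_centraliser_det H hne hθ (s := s)
      (fun v w => hιGU g v w) (r := orderOf g) (fun e0 => by
        rw [CharP.cast_eq_zero_iff F p] at e0
        exact (Fact.out : p.Prime).ne_one ((Nat.coprime_comm.mp hg).eq_one_of_dvd e0))
      (fun v => by
        have e1 : (Matrix.toLin' (ι g).1) ^ orderOf g = 1 := by
          rw [← Matrix.toLin'_pow, ← Units.val_pow_eq_pow_val, ← map_pow, pow_orderOf_eq_one, map_one, Units.val_one,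
            Matrix.toLin'_one]
          rfl
        exact LinearMap.congr_fun e1 v) (d := (u.1.det)⁻¹) (by rw [map_inv₀, ← mul_inv, hud, inv_one])
    obtain ⟨Z, hZ⟩ : ∃ Z : Matrix (Fin (m + 1)) (Fin (m + 1)) F, Z = LinearMap.toMatrix' z := ⟨_, rfl⟩
    have hZv : ∀ v, Matrix.mulVec Z v = z v := fun v => by rw [hZ, LinearMap.toMatrix'_mulVec]
    have hW : (u.1 * Z).det = 1 := by
      rw [Matrix.det_mul, hZ, LinearMap.det_toMatrix', hz3, mul_inv_cancel₀ (Matrix.isUnits_det_units u).ne_zero]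
    have hWm : (⟨u.1 * Z, hW⟩ : Matrix.SpecialLinearGroup (Fin (m + 1)) F) ∈ Cfsg.SU (m + 1) F q := fun v w => by
      show Cfsg.hermForm _ F q (Matrix.mulVec (u.1 * Z) v) (Matrix.mulVec (u.1 * Z) w) = _
      rw [← Matrix.mulVec_mulVec, ← Matrix.mulVec_mulVec, hZv, hZv]
      exact (hu (z v) (z w)).trans (hz1 v w)
    have hZg : Z * (ι g).1 = (ι g).1 * Z := by
      refine Matrix.toLin'.injective (LinearMap.ext fun v => ?_)
      simp only [Matrix.toLin'_mul, LinearMap.comp_apply, Matrix.toLin'_apply, hZv]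
      exact hz2 v
    refine isConj_iff.mpr ⟨⟨_, hWm⟩, mul_inv_eq_iff_eq_mul.mpr (Subtype.ext (Subtype.ext ?_))⟩
    show u.1 * Z * (ι g).1 = (ι h).1 * (u.1 * Z)
    rw [Matrix.mul_assoc, hZg, ← Matrix.mul_assoc, hu'', Matrix.mul_assoc]
  have hsurj : ∀ f : S, ∃ g, (orderOf g).Coprime p ∧ cf g = f := by
    rintro ⟨f, hf⟩
    let Q : F[X] := X ^ (m + 1) + (C ((-1) ^ (m + 1)) + ∑ i : Fin m, C (f i) * X ^ ((i : ℕ) + 1))
    have hQdeg : (C ((-1 : F) ^ (m + 1)) + ∑ i : Fin m, C (f i) * X ^ ((i : ℕ) + 1)).degree < ((m + 1 : ℕ) : WithBot ℕ) := by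
      refine lt_of_le_of_lt (degree_add_le _ _) (max_lt (lt_of_le_of_lt degree_C_le (by exact_mod_cast Nat.succ_pos m)) ?_)
      refine lt_of_le_of_lt (degree_sum_le _ _) ((Finset.sup_lt_iff (WithBot.bot_lt_coe _)).mpr fun i _ => ?_)
      exact lt_of_le_of_lt (degree_C_mul_X_pow_le _ _) (by exact_mod_cast Nat.succ_lt_succ i.2)
    have hQm : Q.Monic := monic_X_pow_add hQdeg
    have hQd : Q.natDegree = m + 1 := natDegree_eq_of_degree_eq_some (by
      rw [degree_add_eq_left_of_degree_lt (by rwa [degree_X_pow]), degree_X_pow])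
    have hQ0 : Q.coeff 0 = (-1) ^ (m + 1) := by
      simp only [Q, coeff_add, coeff_X_pow, coeff_C_zero, finsetSum_coeff, coeff_C_mul]
      simp
    have hQ1 : ∀ i : Fin m, Q.coeff ((i : ℕ) + 1) = f i := fun i => by
      simp only [Q, coeff_add, coeff_X_pow, coeff_C, finsetSum_coeff, coeff_C_mul, Nat.succ_ne_zero, if_false]
      rw [if_neg (by omega), zero_add, zero_add, Finset.sum_eq_single i (fun b _ hb => by
        rw [if_neg (fun e => hb (Fin.ext (by omega))), mul_zero]) (fun hi => absurd (Finset.mem_univ i) hi)]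
      simp
    have hQtop : Q.coeff (m + 1) = 1 := by rw [← hQd]; exact hQm.coeff_natDegree
    have hQrel : ∀ i ≤ m + 1, Q.coeff i = (-1) ^ (m + 1) * θ (Q.coeff (m + 1 - i)) := fun i hi => by
      rcases eq_or_lt_of_le hi with rfl | hi
      · rw [hQtop, Nat.sub_self, hQ0, map_pow, map_neg, map_one, ← mul_pow, neg_mul_neg, one_mul, one_pow]
      rcases i with _ | j
      · rw [Nat.sub_zero, hQtop, hQ0, map_one, mul_one]
      · have hj : j < m := by omega
        have e1 := hQ1 ⟨j, hj⟩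
        have e2 := hQ1 (Fin.rev ⟨j, hj⟩)
        rw [Fin.val_rev, show m - (j + 1) + 1 = m + 1 - (j + 1) by omega] at e2
        exact (e1.trans (hf _)).trans (by rw [e2])
    obtain ⟨A, hA, hAc⟩ := Cfsg.Agent.H29.Semisimple.exists_matrix p Q hQm hQd (by
      rw [← coeff_zero_eq_eval_zero, hQ0]; exact pow_ne_zero _ (neg_ne_zero.mpr one_ne_zero))
    have hAd : A.1.det = 1 := by
      rw [Matrix.det_eq_sign_charpoly_coeff, hAc, hQ0, Fintype.card_fin, ← mul_pow, neg_mul_neg, one_mul, one_pow]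
    have hdd : IsUnit (CfsgLib.FormConj.dag θ A.1).det :=
      CfsgLib.FormConj.isUnit_det_dag θ (Matrix.isUnits_det_units A)
    let A' : GL (Fin (m + 1)) F := ((Matrix.isUnit_iff_isUnit_det _).mpr hdd).unit⁻¹
    have hA' : A'.1 = (CfsgLib.FormConj.dag θ A.1)⁻¹ := by simp [A', Matrix.coe_units_inv]
    have hA'o : (orderOf A').Coprime p := by
      refine Nat.Coprime.coprime_dvd_left (orderOf_dvd_of_pow_eq_one ?_) hA
      rw [inv_pow, inv_eq_one]
      refine Units.ext ?_
      rw [Units.val_pow_eq_pow_val, IsUnit.unit_spec]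
      show ((A.1.map θ).transpose) ^ orderOf A = 1
      rw [← Matrix.transpose_pow, show A.1.map θ = θ.mapMatrix A.1 from rfl, ← map_pow, ← Units.val_pow_eq_pow_val,
        pow_orderOf_eq_one, Units.val_one, map_one, Matrix.transpose_one]
    have hconj : IsConj A A' := Cfsg.Agent.H29.Semisimple.gl_conj_of_charpoly (p := p) A A' hA hA'o (by
      rw [hA']
      refine Polynomial.ext fun i => ?_
      by_cases hi : i ≤ m + 1
      · rw [coeff_inv_dag θ hAd hi, hAc]; exact hQrel i hi
      · rw [coeff_eq_zero_of_natDegree_lt (by rw [Matrix.charpoly_natDegree_eq_dim, Fintype.card_fin]; omega),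
          coeff_eq_zero_of_natDegree_lt (by rw [Matrix.charpoly_natDegree_eq_dim, Fintype.card_fin]; omega)])
    have hmc := (Units.coeHom (Matrix (Fin (m + 1)) (Fin (m + 1)) F)).map_isConj hconj
    rw [Units.coeHom_apply, Units.coeHom_apply, hA',
      show CfsgLib.FormConj.dag θ A.1 = (A.1.map fun x : F => x ^ q).transpose by
        rw [show (fun x : F => x ^ q) = ⇑θ from funext fun x => (hθq x).symm]; rfl] at hmc
    obtain ⟨⟨B, hB⟩, hAB⟩ := (Cfsg.Agent.S2588.result hF A).2 hmc
    obtain ⟨u, hu⟩ := isConj_iff.mp hAB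
    change u * A * u⁻¹ = B at hu
    have hBd : B.1.det = 1 := by
      rw [← hu, Units.val_mul, Units.val_mul, Matrix.det_units_conj, hAd]
    refine ⟨⟨⟨B.1, hBd⟩, hB⟩, ?_, ?_⟩
    · rw [← hord, show ι ⟨⟨B.1, hBd⟩, hB⟩ = B from Units.ext rfl, ← hu,
        show u * A * u⁻¹ = MulAut.conj u A from rfl, MulEquiv.orderOf_eq]
      exact hA
    · refine Subtype.ext (funext fun i => ?_)
      show (P _).coeff _ = f i
      simp only [hP]
      rw [show ι ⟨⟨B.1, hBd⟩, hB⟩ = B from Units.ext rfl, ← hu, Units.val_mul, Units.val_mul,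
        Matrix.coe_units_inv, Matrix.charpoly_units_conj, hAc, hQ1]
  let Φ : {c : ConjClasses ↥(Cfsg.SU (m + 1) F q) //
      ∃ g : ↥(Cfsg.SU (m + 1) F q), ConjClasses.mk g = c ∧ (orderOf g).Coprime p} → S := fun C => cf C.2.choose
  have hΦ : Function.Bijective Φ := by
    constructor
    · intro C D h
      refine Subtype.ext ?_
      rw [← C.2.choose_spec.1, ← D.2.choose_spec.1, ConjClasses.mk_eq_mk_iff_isConj]
      exact hinj _ _ C.2.choose_spec.2 D.2.choose_spec.2 (hcf _ _ h)
    · intro f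
      obtain ⟨g, hg, hgf⟩ := hsurj f
      have hex : ∃ g' : ↥(Cfsg.SU (m + 1) F q), ConjClasses.mk g' = ConjClasses.mk g ∧ (orderOf g').Coprime p :=
        ⟨g, rfl, hg⟩
      refine ⟨⟨ConjClasses.mk g, hex⟩, ?_⟩
      rw [← hgf]
      refine Subtype.ext (funext fun i => ?_)
      show (P hex.choose).coeff _ = (P g).coeff _
      rw [hPconj _ _ (ConjClasses.mk_eq_mk_iff_isConj.mp hex.choose_spec.1)]
  rw [Nat.card_congr (Equiv.ofBijective Φ hΦ),
    CfsgLib.UnitarySemiCount.card_twisted_fixed hF θ hθ hne Fin.rev Fin.rev_rev, Fintype.card_fin]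
  rw [map_pow, map_neg, map_one, ← mul_pow, neg_mul_neg, one_mul, one_pow]

end Cfsg.Agent.S2386
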