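import Cfsg.Statements.S2424
import Cfsg.Agent.GLFlag.Separate
import Cfsg.Agent.GLFlag.Order

set_option autoImplicit false
open scoped MatrixGroups
open Cfsg

namespace Cfsg.Agent.S2424

open Finset Polynomial

theorem sum_choose_two : ∀ n : ℕ, 6 * (∑ j ∈ range n, j.choose 2) = n * (n - 1) * (n - 2) := by
  intro n
  induction n with
  | zero => simp
  | succ n ih =>
    rw [sum_range_succ, mul_add, ih]
    have h : 2 * n.choose 2 = n * (n - 1) := by
      rw [Nat.choose_two_right]
      exact Nat.two_mul_div_two_of_even (Nat.even_mul_pred_self n)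
    rcases n with _ | _ | n
    · simp
    · rfl
    · simp only [Nat.add_sub_cancel, show n + 1 + 1 - 2 = n from rfl, show n + 1 + 1 + 1 - 2 = n + 1 from rfl] at *
      linear_combination 3 * h

section
variable (q : ℕ)

/-- The q-integer. -/
noncomputable def qint (r : ℕ) : ℂ := ((∑ l ∈ range r, q ^ l : ℕ) : ℂ)

/-- The q-factorial. -/
noncomputable def qfact (r : ℕ) : ℂ := ∏ j ∈ range r, qint q (j + 1)

theorem qint_add (t d : ℕ) : qint q (t + d) - qint q t = (q : ℂ) ^ t * qint q d := by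
  unfold qint
  push_cast
  rw [sum_range_add, add_sub_cancel_left, mul_sum]
  exact sum_congr rfl fun l _ => pow_add _ _ _

theorem falling (m : ℕ) : ∀ j ≤ m, (∏ t ∈ range j, (qint q m - qint q t)) * qfact q (m - j)
    = (q : ℂ) ^ j.choose 2 * qfact q m := by
  intro j
  induction j with
  | zero => simp
  | succ j ih =>
    intro hj
    have h1 := ih (by omega)
    have h2 : qfact q (m - j) = qfact q (m - (j + 1)) * qint q (m - j) := by
      unfold qfact
      rw [show m - j = (m - (j + 1)) + 1 by omega, prod_range_succ]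
    have h3 : qint q m - qint q j = (q : ℂ) ^ j * qint q (m - j) := by
      conv_lhs => rw [show m = j + (m - j) by omega]
      exact qint_add q j _
    rw [prod_range_succ, h3, show (j + 1).choose 2 = j.choose 2 + j by
      rw [Nat.choose_succ_succ', Nat.choose_one_right, add_comm], pow_add]
    rw [h2] at h1
    linear_combination ((q : ℂ) ^ j) * h1

end

/-- Degrees of the partition-indexed irreducible characters of `GL_n(q)`: for `ν` a partition of `n` with `n` non-decreasing parts `ν_0 ≤ ⋯ ≤ ν_{n−1}` (zeros allowed; positions counted from 0) and `λ_i = ν_i + i`, write `Q(r)` for the q-integer `1 + q + ⋯ + q^(r−1)` and `Q!(r)` for `Q(1)Q(2)⋯Q(r)`; then the degree `γ(ν)` of the character satisfies `γ(ν) · q^(n(n−1)(n−2)/6) · ∏_i Q!(λ_i) = Q!(n) · ∏_{i<j} (Q(λ_j) − Q(λ_i))`. For `ν = (1,…,1)` this gives the Steinberg degree `q^(n(n−1)/2)`, for `ν = (0,…,0,n)` degree 1. -/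
theorem result {F : Type*} [Field F] [Fintype F] {q : ℕ} (hq : Fintype.card F = q) {n : ℕ} (ν : Fin n → ℕ) (hmono : Monotone ν) (hsum : ∑ i, ν i = n) :
    Cfsg.unipotentCharacterGL n F ν 1 * (q : ℂ) ^ (n * (n - 1) * (n - 2) / 6) *
        ∏ i : Fin n, ∏ j ∈ Finset.range (ν i + i.val), ((∑ l ∈ Finset.range (j + 1), q ^ l : ℕ) : ℂ) =
      (∏ j ∈ Finset.range n, ((∑ l ∈ Finset.range (j + 1), q ^ l : ℕ) : ℂ)) *
        ∏ i : Fin n, ∏ j ∈ Finset.univ.filter (fun j : Fin n => i < j),
          (((∑ l ∈ Finset.range (ν j + j.val), q ^ l : ℕ) : ℂ) - ((∑ l ∈ Finset.range (ν i + i.val), q ^ l : ℕ) : ℂ)) := by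
  classical
  subst hq
  set q := Fintype.card F
  set lam : Fin n → ℕ := fun i => ν i + i.val with hlam
  show Cfsg.unipotentCharacterGL n F ν 1 * (q : ℂ) ^ (n * (n - 1) * (n - 2) / 6) *
      ∏ i, qfact q (lam i) = qfact q n * ∏ i : Fin n, ∏ j ∈ Finset.univ.filter (fun j : Fin n => i < j),
        (qint q (lam j) - qint q (lam i))
  have hT : n * (n - 1) * (n - 2) / 6 = ∑ i : Fin n, i.val.choose 2 := by
    rw [Fin.sum_univ_eq_sum_range (fun i => i.choose 2) n, ← sum_choose_two n]
    omega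
  let P : Fin n → ℂ[X] := fun j => ∏ t ∈ range j.val, (X - C (qint q t))
  have hdet := Matrix.det_eval_matrixOfPolynomials_eq_det_vandermonde (fun i => qint q (lam i)) P
    (fun i => by
      rw [natDegree_prod_of_monic _ _ (fun t _ => monic_X_sub_C _)]
      simp)
    (fun i => monic_prod_of_monic _ _ (fun t _ => monic_X_sub_C _))
  rw [Matrix.det_vandermonde, ← Matrix.det_transpose (Matrix.of _), Matrix.det_apply'] at hdet
  have hIoi : ∀ i : Fin n, Finset.univ.filter (fun j : Fin n => i < j) = Finset.Ioi i := fun i => by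
    ext j; simp
  simp only [hIoi]
  rw [hdet, mul_sum]
  unfold Cfsg.unipotentCharacterGL
  rw [sum_mul, sum_mul]
  refine sum_congr rfl fun κ _ => ?_
  have hterm : ∀ i, (Matrix.transpose (Matrix.of fun i j => (P j).eval (qint q (lam i)))) (κ i) i
      = ∏ t ∈ range (κ i).val, (qint q (lam i) - qint q t) := fun i => by
    simp [P, eval_prod]
  simp only [hterm]
  by_cases hv : ∀ i : Fin n, (κ i).val ≤ ν i + i.val
  · rw [if_pos hv]
    have hκ : κ ∈ CfsgLib.GLFlag.validPerms ν := mem_filter.2 ⟨mem_univ _, hv⟩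
    have hcard := CfsgLib.GLFlag.card_flags (F := F) (CfsgLib.GLFlag.comp ν κ)
      ((CfsgLib.GLFlag.sum_comp hκ).trans hsum)
    have hc' : (Nat.card (GL (Fin n) F ⧸ Cfsg.parabolicGL n F (fun i => ν i + i.val - (κ i).val)) : ℂ) *
        ∏ i, qfact q (lam i - (κ i).val) = qfact q n := by
      have := congrArg (fun x : ℕ => (x : ℂ)) hcard
      push_cast at this
      unfold qfact qint
      push_cast
      exact this
    have hfix : Cfsg.fixedPointCharacter (Cfsg.parabolicGL n F (fun i => ν i + i.val - (κ i).val)) 1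
        = (Nat.card (GL (Fin n) F ⧸ Cfsg.parabolicGL n F (fun i => ν i + i.val - (κ i).val)) : ℂ) := by
      show ((Nat.card _ : ℕ) : ℂ) = _
      congr 1
      exact Nat.card_congr (Equiv.subtypeUnivEquiv fun x => one_smul _ x)
    have hprod : (∏ i, ∏ t ∈ range (κ i).val, (qint q (lam i) - qint q t)) * ∏ i, qfact q (lam i - (κ i).val)
        = (q : ℂ) ^ (n * (n - 1) * (n - 2) / 6) * ∏ i, qfact q (lam i) := by
      rw [← prod_mul_distrib, prod_congr rfl (fun i _ => falling q (lam i) (κ i).val (hv i)),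
        prod_mul_distrib, prod_pow_eq_pow_sum, Equiv.sum_comp κ (fun i : Fin n => i.val.choose 2), ← hT]
    rw [hfix]
    generalize (Nat.card (GL (Fin n) F ⧸ Cfsg.parabolicGL n F (fun i => ν i + i.val - (κ i).val)) : ℂ) = N at hc'
    calc ((Equiv.Perm.sign κ : ℤ) : ℂ) * N * (q : ℂ) ^ (n * (n - 1) * (n - 2) / 6) * ∏ i, qfact q (lam i)
        = ((Equiv.Perm.sign κ : ℤ) : ℂ) * N * ((q : ℂ) ^ (n * (n - 1) * (n - 2) / 6) * ∏ i, qfact q (lam i)) := by ring
      _ = ((Equiv.Perm.sign κ : ℤ) : ℂ) * (N * ∏ i, qfact q (lam i - (κ i).val)) *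
          (∏ i, ∏ t ∈ range (κ i).val, (qint q (lam i) - qint q t)) := by rw [← hprod]; ring
      _ = _ := by rw [hc']; ring
  · rw [if_neg hv]
    push Not at hv
    obtain ⟨i, hi⟩ := hv
    have h0 : (∏ i, ∏ t ∈ range (κ i).val, (qint q (lam i) - qint q t)) = 0 :=
      prod_eq_zero (mem_univ i) (prod_eq_zero (i := lam i) (mem_range.2 hi) (sub_self _))
    rw [h0]
    ring
end Cfsg.Agent.S2424
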