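import Cfsg.Statements.S4538
import Cfsg.Agent.SLBlocks.Radical
import Cfsg.Agent.SLBlocks.Steinberg
import Cfsg.Agent.S0955
import Cfsg.Agent.S0914
import Cfsg.Agent.Blocks.DefectGroup

set_option autoImplicit false
open Cfsg

namespace Cfsg.Agent.S4538

/-- Let F be a finite field of characteristic p and n ≥ 2. Relative to a maximal ideal M of the algebraic integers containing p, the group SL(n, F) has exactly one p-block of defect zero, and every other p-block has full defect (its defect equals the exponent of p in the order of the group, so its defect groups are Sylow p-subgroups). -/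
theorem result {F : Type*} [Field F] [Fintype F] (n : ℕ) (hn : 2 ≤ n) (p : ℕ) [Fact p.Prime] [CharP F p] (M : Ideal Cfsg.AlgInt) (hM : Cfsg.IsPModular p M) : Nat.card {B : Set (Cfsg.IrrCharacter (Matrix.SpecialLinearGroup (Fin n) F)) // Cfsg.IsPBlock M B ∧ Cfsg.blockDefect p B = 0} = 1 ∧ ∀ B : Set (Cfsg.IrrCharacter (Matrix.SpecialLinearGroup (Fin n) F)), Cfsg.IsPBlock M B → Cfsg.blockDefect p B = 0 ∨ Cfsg.blockDefect p B = (Nat.card (Matrix.SpecialLinearGroup (Fin n) F)).factorization p := by
  classical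
  haveI : NeZero n := ⟨by omega⟩
  haveI := Fintype.ofFinite (Matrix.SpecialLinearGroup (Fin n) F)
  haveI := Fintype.ofFinite (CfsgLib.SLBlocks.borel F n)
  haveI := Fintype.ofFinite (CfsgLib.SLn.Unip.upperUni F n)
  haveI := Fintype.ofFinite (CfsgLib.SLBlocks.torus F n)
  have hp : p.Prime := Fact.out
  constructor
  · obtain ⟨χ, hχ⟩ := CfsgLib.SLBlocks.exists_vanish (F := F) (n := n) hn hM
    obtain ⟨m, -, hdeg, -⟩ := CfsgLib.SLBlocks.exists_degree χ hχ
    set G := Matrix.SpecialLinearGroup (Fin n) F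
    have hU : Nat.card (CfsgLib.SLn.Unip.upperUni F n) = p ^ (Nat.card G).factorization p := by
      obtain ⟨P, hP⟩ := CfsgLib.SLn.Unip.exists_sylow_eq_upperUni (K := F) (n := n) p
      rw [← hP, P.card_eq_multiplicity]
    have hle : (Nat.card G).factorization p ≤ (charDegree (χ : G → ℂ)).factorization p :=
      (hp.pow_dvd_iff_le_factorization (CfsgLib.CharBasics.charDegree_pos χ.2).ne').1 ⟨m, by rw [hdeg, hU, mul_comm]⟩
    have hnd : ¬ p ∣ Nat.card G / charDegree (χ : G → ℂ) := by
      intro hd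
      have hq0 : Nat.card G / charDegree (χ : G → ℂ) ≠ 0 :=
        (Nat.div_pos (Nat.le_of_dvd Nat.card_pos (CfsgLib.CharBasics.degree_dvd χ))
          (CfsgLib.CharBasics.charDegree_pos χ.2)).ne'
      have h1 := hp.factorization_pos_of_dvd hq0 hd
      rw [← Nat.mul_div_cancel' (CfsgLib.CharBasics.degree_dvd χ),
        Nat.factorization_mul (CfsgLib.CharBasics.charDegree_pos χ.2).ne' hq0, Finsupp.add_apply] at hle
      omega
    have hs := (Cfsg.Agent.S0914.result p M hM χ).1 hnd
    have h0 : blockDefect p (blockOf M (χ : G → ℂ)) = 0 := by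
      rw [blockDefect, hs, Set.image_singleton, csInf_singleton, Nat.sub_eq_zero_iff_le]
      exact hle
    rw [Nat.card_eq_one_iff_unique]
    refine ⟨⟨fun B B' => Subtype.ext ?_⟩, ⟨⟨_, CfsgLib.Blocks.isPBlock_blockOf M χ, h0⟩⟩⟩
    obtain ⟨a, ha⟩ := CfsgLib.Blocks.IsPBlock.nonempty hM B.2.1
    obtain ⟨b, hb⟩ := CfsgLib.Blocks.IsPBlock.nonempty hM B'.2.1
    have hab : a = b := CfsgLib.SLBlocks.eq_of_vanish (p := p) hn
      (fun g hg => CfsgLib.Blocks.apply_eq_zero_of_defect_zero hM B.2.1 B.2.2 ha hg)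
      (fun g hg => CfsgLib.Blocks.apply_eq_zero_of_defect_zero hM B'.2.1 B'.2.2 hb hg)
    exact CfsgLib.Blocks.IsPBlock.eq_of_mem hM B.2.1 B'.2.1 ha (hab ▸ hb)
  · intro B hB
    obtain ⟨g, hg⟩ := CfsgLib.Blocks.exists_defectClass hM hB
    obtain ⟨P⟩ : Nonempty (Sylow p (Subgroup.centralizer ({g} : Set (Matrix.SpecialLinearGroup (Fin n) F)))) :=
      inferInstance
    set C := Subgroup.centralizer ({g} : Set (Matrix.SpecialLinearGroup (Fin n) F)) with hC
    set D := (P : Subgroup C).map C.subtype with hD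
    have hDG : IsDefectGroup p M B D := ⟨g, hg, P, rfl⟩
    have hcard := CfsgLib.Blocks.card_defectGroup hM hB hDG
    by_cases hbot : D = ⊥
    · left
      rw [hbot, Subgroup.card_bot] at hcard
      by_contra h0
      exact (one_lt_pow₀ hp.one_lt h0).ne hcard
    right
    have hreg : ¬ p ∣ orderOf g := by
      intro h
      apply hg.2.1
      rw [CfsgLib.Blocks.blockCoeff_eq_zero hM hB h]
      exact CfsgLib.Blocks.memLocalIdeal_zero hM
    have hcomm : ∀ d ∈ D, d * g = g * d := by
      rintro d ⟨y, -, rfl⟩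
      exact Subgroup.mem_centralizer_singleton_iff.1 y.2
    have hcen := CfsgLib.SLBlocks.mem_center_of_radical D (P.2.map _) hbot
      (Cfsg.Agent.S0955.result p M hM B hB D hDG) hcomm hreg
    have htop : C = ⊤ := by
      rw [eq_top_iff]
      intro x _
      rw [hC, Subgroup.mem_centralizer_singleton_iff]
      exact Subgroup.mem_center_iff.1 hcen x
    have h2 : Nat.card D = p ^ (Nat.card (Matrix.SpecialLinearGroup (Fin n) F)).factorization p := by
      rw [hD, Subgroup.card_map_of_injective C.subtype_injective, P.card_eq_multiplicity, htop, Subgroup.card_top]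
    exact Nat.pow_right_injective hp.two_le (hcard.symm.trans h2)

end Cfsg.Agent.S4538
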