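import Cfsg.Statements.S2440
import Cfsg.Agent.S4538
import Cfsg.Agent.SLn.Card
import Cfsg.Agent.Blocks.SylowDefectCount
import Cfsg.Agent.Blocks.DefectConj
import Cfsg.Agent.Subnormal.BaerSuzuki
import Cfsg.Agent.PReduced.Basic

set_option autoImplicit false
open Cfsg

namespace Cfsg.Agent.S2440

/-- For a prime p and n ≥ 2, the group SL_n over the field with p elements has exactly gcd(n, p − 1) + 1 p-blocks relative to any maximal ideal of the algebraic integers containing p, that is, one more than the order of its centre (only this total is asserted; it arises as the defect-zero block of the Steinberg character plus as many blocks of maximal defect as the order of the centre). -/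
theorem result (p : ℕ) [Fact p.Prime] (n : ℕ) (hn : 2 ≤ n) (M : Ideal Cfsg.AlgInt) (hM : Cfsg.IsPModular p M) :
    Nat.card {B : Set (Cfsg.IrrCharacter (Matrix.SpecialLinearGroup (Fin n) (ZMod p))) // Cfsg.IsPBlock M B} =
      Nat.gcd n (p - 1) + 1 := by
  classical
  haveI : NeZero n := ⟨by omega⟩
  haveI := Fintype.ofFinite (Matrix.SpecialLinearGroup (Fin n) (ZMod p))
  have hp : p.Prime := Fact.out
  set G := Matrix.SpecialLinearGroup (Fin n) (ZMod p) with hG
  obtain ⟨h1, h2⟩ := Cfsg.Agent.S4538.result (F := ZMod p) n hn p M hM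
  obtain ⟨P, hPU⟩ := CfsgLib.SLn.Unip.exists_sylow_eq_upperUni (K := ZMod p) (n := n) p
  have hne : (P : Subgroup G) ≠ ⊥ := by
    rw [hPU]
    intro h
    have hab : (⟨0, by omega⟩ : Fin n) < ⟨1, by omega⟩ := by simp [Fin.lt_def]
    have hm := CfsgLib.SLn.Unip.transvection_mem (K := ZMod p) hab 1
    rw [h, Subgroup.mem_bot] at hm
    have := congrArg (fun g : G => g.1 ⟨0, by omega⟩ ⟨1, by omega⟩) hm
    simp [Matrix.SpecialLinearGroup.transvection_coe, Matrix.one_apply_ne (show (0 : Fin n) ≠ ⟨1, by omega⟩ by simp [Fin.ext_iff])] at this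
  have hpG : (Nat.card G).factorization p ≠ 0 := by
    intro h0
    exact hne (Subgroup.eq_bot_of_card_eq _ (by rw [P.card_eq_multiplicity, h0, pow_zero]))
  -- blocks of full defect are those with the Sylow defect group
  have hfull : ∀ B : Set (IrrCharacter G), IsPBlock M B →
      (blockDefect p B = (Nat.card G).factorization p ↔ IsDefectGroup p M B (P : Subgroup G)) := by
    intro B hB
    constructor
    · intro h
      obtain ⟨g, hg⟩ := CfsgLib.Blocks.exists_defectClass hM hB
      obtain ⟨S⟩ : Nonempty (Sylow p (Subgroup.centralizer ({g} : Set G))) := inferInstance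
      set D := (S : Subgroup (Subgroup.centralizer ({g} : Set G))).map (Subgroup.centralizer ({g} : Set G)).subtype with hD
      have hDG : IsDefectGroup p M B D := ⟨g, hg, S, rfl⟩
      obtain ⟨T, hT⟩ := (CfsgLib.Blocks.isPGroup_of_isDefectGroup hDG).exists_le_sylow
      have hDT : D = (T : Subgroup G) := Subgroup.eq_of_le_of_card_ge hT (by
        rw [CfsgLib.Blocks.card_defectGroup hM hB hDG, h, T.card_eq_multiplicity])
      obtain ⟨c, hc⟩ := MulAction.exists_smul_eq G T P
      have := CfsgLib.Blocks.isDefectGroup_map_conj hM hB hDG c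
      rwa [hDT, show (T : Subgroup G).map (MulAut.conj c).toMonoidHom = (P : Subgroup G) by
        rw [← hc, Sylow.coe_subgroup_smul]; rfl] at this
    · intro h
      have h' := CfsgLib.Blocks.card_defectGroup hM hB h
      rw [P.card_eq_multiplicity] at h'
      exact (Nat.pow_right_injective hp.two_le h').symm
  have hN := CfsgLib.Blocks.card_blocks_sylow_defect hM P
  have hZ : Nat.card (Subgroup.center G) = Nat.gcd n (p - 1) := by
    show Nat.card (Subgroup.center (Matrix.SpecialLinearGroup (Fin n) (ZMod p))) = _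
    rw [CfsgLib.SLn.card_center_SL (ZMod p) n (by omega), ZMod.card]
  have hreg : ∀ z ∈ Subgroup.center G, ¬ p ∣ orderOf z := by
    intro z hz hd
    have h' : p ∣ Nat.card (Subgroup.center G) :=
      hd.trans (by rw [← Subgroup.orderOf_mk (H := Subgroup.center G) z hz]; exact orderOf_dvd_natCard _)
    rw [hZ] at h'
    have := hp.two_le
    have := Nat.le_of_dvd (by omega) (h'.trans (Nat.gcd_dvd_right _ _))
    omega
  have hrad : (Cfsg.pCore p (Subgroup.normalizer ((P : Subgroup G) : Set G))).map
      (Subgroup.normalizer ((P : Subgroup G) : Set G)).subtype = (P : Subgroup G) := by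
    have hPN : (P : Subgroup G) ≤ Subgroup.normalizer ((P : Subgroup G) : Set G) := Subgroup.le_normalizer
    refine P.3 ((CfsgLib.PReduced.isPGroup_pCore p _).map _) ?_
    conv_lhs => rw [← Subgroup.map_subgroupOf_eq_of_le hPN]
    exact Subgroup.map_mono (CfsgLib.PReduced.le_pCore
      ((Subgroup.normal_subgroupOf_iff_le_normalizer hPN).2 le_rfl)
      (P.isPGroup'.of_equiv (Subgroup.subgroupOfEquivOfLe hPN).symm))
  have hcount : Nat.card {B : Set (IrrCharacter G) // IsPBlock M B ∧ IsDefectGroup p M B (P : Subgroup G)} =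
      Nat.gcd n (p - 1) := by
    rw [hN, ← hZ]
    set N := Subgroup.normalizer ((P : Subgroup G) : Set G) with hNdef
    have hzN : ∀ z : Subgroup.center G, (z : G) ∈ N := fun z => Subgroup.center_le_normalizer _ z.2
    symm
    refine Nat.card_eq_of_bijective (fun z => ⟨ConjClasses.mk ⟨(z : G), hzN z⟩, fun m hm => ?_⟩) ⟨?_, ?_⟩
    · obtain ⟨c, hc⟩ := isConj_iff.1 (ConjClasses.mk_eq_mk_iff_isConj.1 hm.symm)
      have e : (m : G) = (z : G) := by
        rw [← hc, Subgroup.coe_mul, Subgroup.coe_mul, Subgroup.coe_inv]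
        show (c : G) * (z : G) * (c : G)⁻¹ = z
        rw [Subgroup.mem_center_iff.1 z.2 c, mul_inv_cancel_right]
      refine ⟨by rw [← Subgroup.orderOf_coe, e]; exact hreg z z.2, ?_⟩
      rw [e]
      exact Subgroup.center_le_centralizer _ z.2
    · intro z z' h
      obtain ⟨c, hc⟩ := isConj_iff.1 (ConjClasses.mk_eq_mk_iff_isConj.1 (congrArg Subtype.val h))
      have h' := congrArg Subtype.val hc
      simp only [Subgroup.coe_mul, Subgroup.coe_inv] at h'
      rw [Subgroup.mem_center_iff.1 z.2 c, mul_inv_cancel_right] at h'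
      exact Subtype.ext h'
    · rintro ⟨C, hC⟩
      obtain ⟨m, hm⟩ := Quotient.exists_rep C
      obtain ⟨hm1, hm2⟩ := hC m hm
      have hz : (m : G) ∈ Subgroup.center G :=
        CfsgLib.SLBlocks.mem_center_of_radical (P : Subgroup G) P.isPGroup' hne hrad
          (fun d hd => Subgroup.mem_centralizer_iff.1 hm2 d hd) (by rwa [Subgroup.orderOf_coe])
      exact ⟨⟨(m : G), hz⟩, Subtype.ext hm⟩
  rw [← hcount, add_comm, ← h1]
  haveI : Fintype (IrrCharacter G) := @Fintype.ofFinite _ CfsgLib.CharBasics.finite_irrCharacter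
  let e1 : {B : Set (IrrCharacter G) // IsPBlock M B ∧ blockDefect p B = 0} ⊕
      {B : Set (IrrCharacter G) // IsPBlock M B ∧ IsDefectGroup p M B (P : Subgroup G)} →
      {B : Set (IrrCharacter G) // IsPBlock M B} :=
    Sum.elim (fun B => ⟨B.1, B.2.1⟩) (fun B => ⟨B.1, B.2.1⟩)
  rw [← Nat.card_sum]
  symm
  refine Nat.card_eq_of_bijective e1 ⟨?_, ?_⟩
  · rintro (a | a) (b | b) h <;> have h' := congrArg Subtype.val h <;> simp only [e1, Sum.elim_inl, Sum.elim_inr] at h'
    · exact congrArg Sum.inl (Subtype.ext h')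
    · exact absurd (((hfull _ b.2.1).2 b.2.2).symm.trans (h' ▸ a.2.2)) hpG
    · exact absurd (((hfull _ a.2.1).2 a.2.2).symm.trans (h'.symm ▸ b.2.2)) hpG
    · exact congrArg Sum.inr (Subtype.ext h')
  · rintro ⟨B, hB⟩
    rcases h2 B hB with h | h
    · exact ⟨Sum.inl ⟨B, hB, h⟩, rfl⟩
    · exact ⟨Sum.inr ⟨B, hB, (hfull B hB).1 h⟩, rfl⟩

end Cfsg.Agent.S2440
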