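import Cfsg.Statements.S2450
import Cfsg.Agent.SL2.ClassProducts
import Cfsg.Agent.SL2.PSLData
-- import your own Cfsg.Agent.* helpers here

set_option autoImplicit false
open Cfsg

namespace Cfsg.Agent.S2450

/-- The Arad–Herzog conjecture for PSL(2,q): let F be a finite field with q ≥ 4 elements. For any two non-identity elements a, b of PSL(2,F), the set of products of a conjugate of a with a conjugate of b is not a single conjugacy class. -/
theorem result {F : Type*} [Field F] [Fintype F] (h4 : 4 ≤ Fintype.card F)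
    (a b : Matrix.ProjectiveSpecialLinearGroup (Fin 2) F) (ha : a ≠ 1) (hb : b ≠ 1) (c : Matrix.ProjectiveSpecialLinearGroup (Fin 2) F) :
    {g : Matrix.ProjectiveSpecialLinearGroup (Fin 2) F | ∃ u v : Matrix.ProjectiveSpecialLinearGroup (Fin 2) F, g = (u * a * u⁻¹) * (v * b * v⁻¹)} ≠ {g | IsConj c g} := by
  intro heq
  obtain ⟨A, rfl⟩ := CfsgLib.SL2.proj_surjective a
  obtain ⟨B, rfl⟩ := CfsgLib.SL2.proj_surjective b
  obtain ⟨C, rfl⟩ := CfsgLib.SL2.proj_surjective c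
  obtain ⟨u, v, h1, h2⟩ := CfsgLib.SL2.exists_tr_mul_ne (CfsgLib.SL2.not_center_of_proj_ne_one ha)
    (CfsgLib.SL2.not_center_of_proj_ne_one hb) (by rw [Nat.card_eq_fintype_card]; exact h4) (CfsgLib.SL2.tr C)
  have hmem : CfsgLib.SL2.proj ((u * A * u⁻¹) * (v * B * v⁻¹)) ∈
      {g : Matrix.ProjectiveSpecialLinearGroup (Fin 2) F | IsConj (CfsgLib.SL2.proj C) g} := by
    rw [← heq]
    exact ⟨CfsgLib.SL2.proj u, CfsgLib.SL2.proj v, by simp⟩
  obtain ⟨w, hw⟩ := isConj_iff.mp (Set.mem_ofPred_eq ▸ hmem)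
  obtain ⟨W, rfl⟩ := CfsgLib.SL2.proj_surjective w
  rw [← map_inv, ← map_mul, ← map_mul] at hw
  have hC : CfsgLib.SL2.tr (W * C * W⁻¹) = CfsgLib.SL2.tr C :=
    (CfsgLib.SL2.tr_eq_of_isConj (isConj_iff.mpr ⟨W, rfl⟩)).symm
  rcases CfsgLib.SL2.proj_eq_iff.mp hw with h | h
  · exact h1 (by rw [← h, hC])
  · exact h2 (by rw [← hC, h, CfsgLib.SL2.tr_neg, neg_neg])

end Cfsg.Agent.S2450
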