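import Cfsg.Statements.S2455
import Cfsg.Agent.SL2.ClassProducts
import Cfsg.Agent.SL2.PSLData
-- import your own Cfsg.Agent.* helpers here

set_option autoImplicit false
open Cfsg

namespace Cfsg.Agent.S2455

/-- A strong covering result in the direction of Thompson's conjecture (non-identity elements) for PSL(2,q), q odd: let F be a finite field of odd characteristic p with at least 5 elements and let x ∈ PSL(2,F) have order greater than 2 and not divisible by p (so x is not unipotent). Then every non-identity element of PSL(2,F) is a product of two conjugates of x. -/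
theorem result {F : Type*} [Field F] [Fintype F] (p : ℕ) [Fact p.Prime] [CharP F p] (hp : p ≠ 2) (h5 : 5 ≤ Fintype.card F)
    (x : Matrix.ProjectiveSpecialLinearGroup (Fin 2) F) (hx2 : 2 < orderOf x) (hxp : ¬ p ∣ orderOf x) : ∀ g : Matrix.ProjectiveSpecialLinearGroup (Fin 2) F, g ≠ 1 → ∃ u v : Matrix.ProjectiveSpecialLinearGroup (Fin 2) F, g = (u * x * u⁻¹) * (v * x * v⁻¹) := by
  intro g hg
  have h2 : (2 : F) ≠ 0 := by
    intro h
    have hd : p ∣ 2 := by
      have := (CharP.cast_eq_zero_iff F p 2).mp (by exact_mod_cast h)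
      exact this
    exact hp ((Nat.prime_dvd_prime_iff_eq Fact.out Nat.prime_two).mp hd)
  obtain ⟨X, rfl⟩ := CfsgLib.SL2.proj_surjective x
  have hX : CfsgLib.SL2.tr X ^ 2 ≠ 4 := by
    intro h4
    have ht := sq_eq_sq_iff_eq_or_eq_neg.mp (h4.trans (by norm_num : (4 : F) = 2 ^ 2))
    have hd := orderOf_dvd_of_pow_eq_one (CfsgLib.SL2.proj_pow_char p ht)
    rcases (Nat.dvd_prime Fact.out).mp hd with h | h
    · omega
    · exact hxp (h ▸ dvd_rfl)
  have ht0 : CfsgLib.SL2.tr X ≠ 0 := by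
    intro h0
    have hsq := CfsgLib.SL2.sq_eq_neg_one_of_tr_zero h0
    have : CfsgLib.SL2.proj X ^ 2 = 1 := by
      rw [sq, ← map_mul, hsq]
      exact CfsgLib.SL2.proj_eq_one_iff.mpr (Or.inr rfl)
    have := Nat.le_of_dvd (by norm_num) (orderOf_dvd_of_pow_eq_one this)
    omega
  obtain ⟨G, hGg, hG2⟩ : ∃ G, CfsgLib.SL2.proj G = g ∧ CfsgLib.SL2.tr G ≠ 2 := by
    obtain ⟨G, rfl⟩ := CfsgLib.SL2.proj_surjective g
    by_cases h : CfsgLib.SL2.tr G = 2
    · refine ⟨-G, CfsgLib.SL2.proj_eq_iff.mpr (Or.inr rfl), ?_⟩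
      rw [CfsgLib.SL2.tr_neg, h]
      intro hh
      exact h2 (mul_self_eq_zero.mp (by linear_combination -hh))
    · exact ⟨G, rfl, h⟩
  subst hGg
  refine CfsgLib.SL2.proj_mul_of_trace hX (CfsgLib.SL2.not_center_of_proj_ne_one hg)
    (CfsgLib.SL2.exists_conic _ _ ?_)
  by_cases hs : CfsgLib.SL2.tr G ^ 2 = 4
  · refine Or.inr (Or.inl ⟨?_, ht0, h2⟩)
    exact (sq_eq_sq_iff_eq_or_eq_neg.mp (hs.trans (by norm_num : (4 : F) = 2 ^ 2))).resolve_left hG2
  · exact Or.inl hs

end Cfsg.Agent.S2455
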