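import Cfsg.Statements.S2456
import Cfsg.Agent.SL2.ClassProducts
import Cfsg.Agent.SL2.PSLData
-- import your own Cfsg.Agent.* helpers here

set_option autoImplicit false
open Cfsg

namespace Cfsg.Agent.S2456

/-- A strong covering result in the direction of Thompson's conjecture (non-identity elements) for PSL(2,q), q even: let F be a finite field of characteristic 2 with q ≥ 4 elements and let x ∈ PSL(2,F) have order greater than 2 and not dividing q + 1. Then every non-identity element of PSL(2,F) is a product of two conjugates of x. -/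
theorem result {F : Type*} [Field F] [Fintype F] [CharP F 2] (h4 : 4 ≤ Fintype.card F)
    (x : Matrix.ProjectiveSpecialLinearGroup (Fin 2) F) (hx2 : 2 < orderOf x) (hxq : ¬ orderOf x ∣ Fintype.card F + 1) : ∀ g : Matrix.ProjectiveSpecialLinearGroup (Fin 2) F, g ≠ 1 → ∃ u v : Matrix.ProjectiveSpecialLinearGroup (Fin 2) F, g = (u * x * u⁻¹) * (v * x * v⁻¹) := by
  intro g hg
  have h2 : (2 : F) = 0 := CharTwo.two_eq_zero
  haveI : Fact (Nat.Prime 2) := ⟨Nat.prime_two⟩
  obtain ⟨X, rfl⟩ := CfsgLib.SL2.proj_surjective x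
  obtain ⟨G, rfl⟩ := CfsgLib.SL2.proj_surjective g
  rcases CfsgLib.SL2.type_cases (g := X) with h | ⟨hX, hr⟩ | ⟨_, he⟩
  · have := Nat.le_of_dvd (by norm_num) (orderOf_dvd_of_pow_eq_one (CfsgLib.SL2.proj_pow_char 2 h))
    omega
  · exact CfsgLib.SL2.proj_mul_of_trace hX (CfsgLib.SL2.not_center_of_proj_ne_one hg)
      (CfsgLib.SL2.exists_conic _ _ (Or.inr (Or.inr ⟨h2, hr⟩)))
  · refine absurd (orderOf_dvd_of_pow_eq_one ?_) hxq
    rw [← map_pow, ← Nat.card_eq_fintype_card, CfsgLib.SL2.pow_elliptic he, map_one]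

end Cfsg.Agent.S2456
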