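import Cfsg.Statements.S2459
import Cfsg.Agent.SLThree.OrderThree
-- import your own Cfsg.Agent.* helpers here

set_option autoImplicit false
open Cfsg

namespace Cfsg.Agent.S2459

/-- A form of Thompson's conjecture for PSL(3,q), q > 2 (covering the non-identity elements), with a semisimple class: for F a finite field of characteristic p with more than 2 elements there is an element x of PSL(3,F) of order prime to p such that every non-identity element of PSL(3,F) is a product of two conjugates of x. -/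
theorem result {F : Type*} [Field F] [Fintype F] (p : ℕ) [Fact p.Prime] [CharP F p] (h3 : 3 ≤ Fintype.card F) :
    ∃ x : Matrix.ProjectiveSpecialLinearGroup (Fin 3) F, ¬ p ∣ orderOf x ∧ ∀ g : Matrix.ProjectiveSpecialLinearGroup (Fin 3) F, g ≠ 1 → ∃ u v : Matrix.ProjectiveSpecialLinearGroup (Fin 3) F, g = (u * x * u⁻¹) * (v * x * v⁻¹) := by
  classical
  have hpp : p.Prime := Fact.out
  obtain ⟨n, -, hn⟩ := FiniteField.card F p
  let proj : Matrix.SpecialLinearGroup (Fin 3) F →* Matrix.ProjectiveSpecialLinearGroup (Fin 3) F :=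
    QuotientGroup.mk' (Subgroup.center (Matrix.SpecialLinearGroup (Fin 3) F))
  have hsurj : Function.Surjective proj := QuotientGroup.mk'_surjective _
  have hns : ∀ G : Matrix.SpecialLinearGroup (Fin 3) F, proj G ≠ 1 →
      ∀ s : F, G.1 ≠ s • (1 : Matrix (Fin 3) (Fin 3) F) := by
    intro G hG s hs
    refine hG ((QuotientGroup.eq_one_iff G).mpr (Subgroup.mem_center_iff.mpr fun y => Subtype.ext ?_))
    change y.1 * G.1 = G.1 * y.1
    rw [hs, Matrix.mul_smul, Matrix.smul_mul, Matrix.mul_one, Matrix.one_mul]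
  suffices ∃ (X : Matrix.SpecialLinearGroup (Fin 3) F) (N : ℕ), X ^ N = 1 ∧ ¬ p ∣ N ∧
      ∀ G : Matrix.SpecialLinearGroup (Fin 3) F, (∀ s : F, G.1 ≠ s • (1 : Matrix (Fin 3) (Fin 3) F)) →
        ∃ u v : Matrix.SpecialLinearGroup (Fin 3) F, G = (u * X * u⁻¹) * (v * X * v⁻¹) by
    obtain ⟨X, N, hX, hN, hcov⟩ := this
    refine ⟨proj X, fun h => hN (h.trans ?_), fun g hg => ?_⟩
    · exact orderOf_dvd_of_pow_eq_one (by rw [← map_pow, hX, map_one])
    · obtain ⟨G, rfl⟩ := hsurj g
      obtain ⟨u, v, huv⟩ := hcov G (hns G hg)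
      exact ⟨proj u, proj v, by rw [huv]; simp only [map_mul, map_inv]⟩
  by_cases h : Fintype.card F = 3
  · obtain ⟨X, hX, hcov⟩ := CfsgLib.SLThree.eq_mul_conj_x8 h
    refine ⟨X, 8, hX, ?_, hcov⟩
    have h3 : p = 3 := by
      rw [h] at hn
      have : p ∣ 3 := hn ▸ dvd_pow_self p n.ne_zero
      exact (Nat.prime_dvd_prime_iff_eq hpp Nat.prime_three).mp this
    rw [h3]; norm_num
  · have h4 : 4 ≤ Fintype.card F := by omega
    obtain ⟨u, hu⟩ : ∃ u : F, u ∉ ({0, 1, -1} : Finset F) := by
      by_contra hcon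
      push Not at hcon
      have := (Finset.card_le_card (fun u _ => hcon u : (Finset.univ : Finset F) ⊆ {0, 1, -1})).trans Finset.card_le_three
      rw [Finset.card_univ] at this
      omega
    simp only [Finset.mem_insert, Finset.mem_singleton, not_or] at hu
    obtain ⟨hu0, hu1, hum⟩ := hu
    have hne : u ≠ u⁻¹ := by
      intro he
      have : u * u = 1 := by nth_rewrite 1 [he]; exact inv_mul_cancel₀ hu0
      rcases mul_self_eq_one_iff.mp this with h' | h'
      · exact hu1 h'
      · exact hum h'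
    refine ⟨CfsgLib.SLThree.diag3 1 u u⁻¹ (by rw [one_mul, mul_inv_cancel₀ hu0]), Fintype.card F - 1, ?_, ?_,
      fun G hG => CfsgLib.SLThree.eq_mul_conj_diag _ (Ne.symm hu1)
        (fun e => hu1 (inv_eq_one.mp e.symm)) hne G hG⟩
    · apply Subtype.ext
      rw [Matrix.SpecialLinearGroup.coe_pow]
      have hd : (CfsgLib.SLThree.diag3 (1 : F) u u⁻¹ (by rw [one_mul, mul_inv_cancel₀ hu0])).1 =
          Matrix.diagonal ![1, u, u⁻¹] := by
        ext i j
        fin_cases i <;> fin_cases j <;> simp [CfsgLib.SLThree.diag3]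
      rw [hd, Matrix.diagonal_pow]
      change Matrix.diagonal _ = (1 : Matrix (Fin 3) (Fin 3) F)
      rw [← Matrix.diagonal_one]
      congr 1
      funext i
      fin_cases i <;> simp [FiniteField.pow_card_sub_one_eq_one u hu0]
    · intro hd
      have hq : p ∣ Fintype.card F := hn ▸ dvd_pow_self p n.ne_zero
      have := Nat.dvd_sub hq hd
      rw [Nat.sub_sub_self (by omega), Nat.dvd_one] at this
      exact hpp.ne_one this

end Cfsg.Agent.S2459
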