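import Cfsg.Statements.S2466
import Mathlib

set_option autoImplicit false
open Cfsg

namespace Cfsg.Agent.S2466

/-- Adjacency of odd primes in the prime graph of the alternating groups: let r ≠ s be odd primes at most n. The alternating group of degree n has an element of order r·s if and only if r + s ≤ n. -/
theorem result (n r s : ℕ) (hr : r.Prime) (hs : s.Prime) (hr2 : r ≠ 2) (hs2 : s ≠ 2) (hrs : r ≠ s) (hrn : r ≤ n) (hsn : s ≤ n) :
    (r * s ∈ Set.range (orderOf : alternatingGroup (Fin n) → ℕ)) ↔ r + s ≤ n := by
  classical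
  constructor
  · rintro ⟨⟨σ, hσ⟩, ho⟩
    have ho' : orderOf σ = r * s := by rw [← ho, ← Subgroup.orderOf_coe]
    have hsum := σ.sum_cycleType_le
    rw [Fintype.card_fin] at hsum
    have hparts : ∀ c ∈ σ.cycleType, c = r ∨ c = s ∨ c = r * s := by
      intro c hc
      have h2 := Equiv.Perm.two_le_of_mem_cycleType hc
      have hd := Equiv.Perm.dvd_of_mem_cycleType hc
      rw [ho'] at hd
      obtain ⟨u, v, hu, hv, rfl⟩ := Nat.dvd_mul.1 hd
      rcases (Nat.dvd_prime hr).1 hu with h | h <;> rcases (Nat.dvd_prime hs).1 hv with h' | h' <;> subst h <;> subst h'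
      · omega
      · simp
      · simp
      · simp
    by_cases hb : r * s ∈ σ.cycleType
    · have h1 := (Multiset.le_sum_of_mem hb).trans hsum
      have := hr.two_le; have := hs.two_le
      nlinarith
    · have hin : ∀ q p : ℕ, q.Prime → p.Prime → q ≠ p → q ∣ r * s →
          (∀ c ∈ σ.cycleType, c = q ∨ c = p) → q ∈ σ.cycleType := by
        intro q p hq hp hqp hdvd hc
        by_contra hnot
        have hlcm : σ.cycleType.lcm ∣ p := Multiset.lcm_dvd.2 fun c hcm => by
          rcases hc c hcm with rfl | rfl
          · exact absurd hcm hnot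
          · exact dvd_rfl
        rw [Equiv.Perm.lcm_cycleType, ho'] at hlcm
        exact hqp ((Nat.prime_dvd_prime_iff_eq hq hp).1 (hdvd.trans hlcm))
      have hrm := hin r s hr hs hrs (dvd_mul_right r s) fun c hc => by
        rcases hparts c hc with h | h | h
        · exact Or.inl h
        · exact Or.inr h
        · exact absurd (h ▸ hc) hb
      have hsm := hin s r hs hr (Ne.symm hrs) (dvd_mul_left s r) fun c hc => by
        rcases hparts c hc with h | h | h
        · exact Or.inr h
        · exact Or.inl h
        · exact absurd (h ▸ hc) hb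
      obtain ⟨m, hm⟩ := Multiset.exists_cons_of_mem hrm
      rw [hm, Multiset.sum_cons] at hsum
      have hsm' : s ∈ m := by
        rw [hm, Multiset.mem_cons] at hsm
        exact hsm.resolve_left (Ne.symm hrs)
      have := Multiset.le_sum_of_mem hsm'
      omega
  · intro h
    obtain ⟨σ, hσ⟩ := (Equiv.Perm.exists_with_cycleType_iff (α := Fin n) (m := ({r, s} : Multiset ℕ))).2
      ⟨by simpa using h, by intro a ha; simp at ha; rcases ha with rfl | rfl; exacts [hr.two_le, hs.two_le]⟩
    have hsign : σ ∈ alternatingGroup (Fin n) := by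
      rw [Equiv.Perm.mem_alternatingGroup, Equiv.Perm.sign_of_cycleType, hσ]
      have h1 := hr.odd_of_ne_two hr2
      have h2 := hs.odd_of_ne_two hs2
      refine Even.neg_one_pow ?_
      have : ({r, s} : Multiset ℕ).sum + Multiset.card ({r, s} : Multiset ℕ) = r + s + 2 := by simp
      rw [this]
      exact (h1.add_odd h2).add even_two
    refine ⟨⟨σ, hsign⟩, ?_⟩
    rw [Subgroup.orderOf_mk, ← Equiv.Perm.lcm_cycleType, hσ]
    simp only [Multiset.insert_eq_cons, Multiset.lcm_cons, Multiset.lcm_singleton, normalize_eq]
    exact Nat.Coprime.lcm_eq_mul ((Nat.coprime_primes hr hs).2 hrs)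


end Cfsg.Agent.S2466
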