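import Cfsg.Statements.S2467
import Mathlib

set_option autoImplicit false
open Cfsg

namespace Cfsg.Agent.S2467

/-- Adjacency of 2 and an odd prime in the prime graph of the alternating groups: let r be an odd prime at most n, with n ≥ 4. The alternating group of degree n has an element of order 2r if and only if r + 4 ≤ n. -/
theorem result (n r : ℕ) (hn : 4 ≤ n) (hr : r.Prime) (hr2 : r ≠ 2) (hrn : r ≤ n) :
    (2 * r ∈ Set.range (orderOf : alternatingGroup (Fin n) → ℕ)) ↔ r + 4 ≤ n := by
  classical
  have hrodd := hr.odd_of_ne_two hr2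
  have hr3 : 3 ≤ r := by have := hr.two_le; omega
  constructor
  · rintro ⟨⟨σ, hσ⟩, ho⟩
    have ho' : orderOf σ = 2 * r := by rw [← ho, ← Subgroup.orderOf_coe]
    have hsum := σ.sum_cycleType_le
    rw [Fintype.card_fin] at hsum
    have hparts : ∀ c ∈ σ.cycleType, c = 2 ∨ c = r ∨ c = 2 * r := by
      intro c hc
      have h2 := Equiv.Perm.two_le_of_mem_cycleType hc
      have hd := Equiv.Perm.dvd_of_mem_cycleType hc
      rw [ho'] at hd
      obtain ⟨u, v, hu, hv, rfl⟩ := Nat.dvd_mul.1 hd
      rcases (Nat.dvd_prime Nat.prime_two).1 hu with h | h <;> rcases (Nat.dvd_prime hr).1 hv with h' | h' <;> subst h <;> subst h'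
      · omega
      · simp
      · simp
      · simp
    have hev : Even (σ.cycleType.sum + Multiset.card σ.cycleType) := by
      rw [Equiv.Perm.mem_alternatingGroup, Equiv.Perm.sign_of_cycleType] at hσ
      by_contra hodd
      rw [(Nat.not_even_iff_odd.1 hodd).neg_one_pow] at hσ
      exact absurd hσ (by decide)
    have key : ∀ m : Multiset ℕ, (∀ c ∈ m, c = 2 ∨ c = r ∨ c = 2 * r) →
        m.sum + Multiset.card m = 3 * m.count 2 + (r + 1) * m.count r + (2 * r + 1) * m.count (2 * r) ∧
        2 * m.count 2 + r * m.count r + 2 * r * m.count (2 * r) = m.sum := by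
      intro m hm
      induction m using Multiset.induction_on with
      | empty => simp
      | cons c m ih =>
        obtain ⟨i1, i2⟩ := ih fun d hd => hm d (Multiset.mem_cons_of_mem hd)
        rcases hm c (Multiset.mem_cons_self c m) with rfl | rfl | rfl <;>
          simp only [Multiset.sum_cons, Multiset.card_cons, Multiset.count_cons] <;>
          constructor <;> split_ifs <;> first | omega | (ring_nf; ring_nf at i1 i2; omega)
    obtain ⟨k1, k2⟩ := key _ hparts
    have hev2 : Even (σ.cycleType.count 2 + σ.cycleType.count (2 * r)) := by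
      rw [k1] at hev
      obtain ⟨j, hj⟩ := hev
      obtain ⟨i, hi⟩ := hrodd
      rw [Nat.even_iff]
      have : (3 * σ.cycleType.count 2 + (r + 1) * σ.cycleType.count r + (2 * r + 1) * σ.cycleType.count (2 * r)) % 2 = 0 := by omega
      simp [Nat.add_mod, Nat.mul_mod, hi] at this ⊢
      omega
    have hpos2 : σ.cycleType.count 2 + σ.cycleType.count (2 * r) ≠ 0 := by
      intro h0
      have hlcm : σ.cycleType.lcm ∣ r := Multiset.lcm_dvd.2 fun c hcm => by
        have := Multiset.count_pos.2 hcm
        rcases hparts c hcm with rfl | rfl | rfl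
        · omega
        · exact dvd_rfl
        · omega
      rw [Equiv.Perm.lcm_cycleType, ho'] at hlcm
      have := Nat.le_of_dvd hr.pos hlcm
      omega
    have hposr : σ.cycleType.count r + σ.cycleType.count (2 * r) ≠ 0 := by
      intro h0
      have hlcm : σ.cycleType.lcm ∣ 2 := Multiset.lcm_dvd.2 fun c hcm => by
        have := Multiset.count_pos.2 hcm
        rcases hparts c hcm with rfl | rfl | rfl
        · exact dvd_rfl
        · omega
        · omega
      rw [Equiv.Perm.lcm_cycleType, ho'] at hlcm
      have := Nat.le_of_dvd two_pos hlcm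
      omega
    obtain ⟨j, hj⟩ := hev2
    rcases Nat.eq_zero_or_pos (σ.cycleType.count (2 * r)) with h | h
    · rw [h] at k2 hj hpos2 hposr
      have h1 : r * 1 ≤ r * σ.cycleType.count r := Nat.mul_le_mul_left r (by omega)
      omega
    · have h1 : 2 * r * 1 ≤ 2 * r * σ.cycleType.count (2 * r) := Nat.mul_le_mul_left _ h
      rcases Nat.eq_zero_or_pos (σ.cycleType.count 2) with h' | h'
      · rw [h'] at k2 hj
        have h2 : 2 * r * 2 ≤ 2 * r * σ.cycleType.count (2 * r) := Nat.mul_le_mul_left _ (by omega)
        omega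
      · omega
  · intro h
    obtain ⟨σ, hσ⟩ := (Equiv.Perm.exists_with_cycleType_iff (α := Fin n) (m := ({2, 2, r} : Multiset ℕ))).2
      ⟨by simp; omega, by intro a ha; simp at ha; rcases ha with rfl | rfl <;> omega⟩
    have hsign : σ ∈ alternatingGroup (Fin n) := by
      rw [Equiv.Perm.mem_alternatingGroup, Equiv.Perm.sign_of_cycleType, hσ]
      refine Even.neg_one_pow ?_
      obtain ⟨i, hi⟩ := hrodd
      exact ⟨i + 4, by simp; omega⟩
    refine ⟨⟨σ, hsign⟩, ?_⟩
    rw [Subgroup.orderOf_mk, ← Equiv.Perm.lcm_cycleType, hσ]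
    simp only [Multiset.insert_eq_cons, Multiset.lcm_cons, Multiset.lcm_singleton, normalize_eq]
    show Nat.lcm 2 (Nat.lcm 2 r) = 2 * r
    rw [((Nat.coprime_primes Nat.prime_two hr).2 (Ne.symm hr2)).lcm_eq_mul, Nat.lcm_eq_right (dvd_mul_right 2 r)]


end Cfsg.Agent.S2467
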