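import Cfsg.Statements.S2471
import Cfsg.Agent.SL2.PSLData
-- import your own Cfsg.Agent.* helpers here

set_option autoImplicit false
open Cfsg

namespace Cfsg.Agent.S2471

/-- In PSL(2,q) with q odd, the characteristic p is isolated from 2 in the prime graph: for F a finite field of odd characteristic p with at least 5 elements, PSL(2,F) has no element of order 2p. -/
theorem result {F : Type*} [Field F] [Fintype F] (p : ℕ) [Fact p.Prime] [CharP F p] (hp : p ≠ 2) (h5 : 5 ≤ Fintype.card F) (g : Matrix.ProjectiveSpecialLinearGroup (Fin 2) F) :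
    orderOf g ≠ 2 * p := by
  intro hg
  have hmem : (2 * p) ∈ Set.range (orderOf : Matrix.ProjectiveSpecialLinearGroup (Fin 2) F → ℕ) := ⟨g, hg⟩
  rw [CfsgLib.SL2.range_orderOf_PSL p] at hmem
  have hp' : p.Prime := Fact.out
  obtain ⟨n, hcard⟩ : ∃ n : ℕ+, Fintype.card F = p ^ (n : ℕ) := by
    obtain ⟨n, -, hn⟩ := FiniteField.card F p
    exact ⟨n, hn⟩
  have hpq : p ∣ Fintype.card F := hcard ▸ dvd_pow_self p n.pos.ne'
  have hdiv : ∀ a : ℕ, Nat.gcd 2 (Fintype.card F - 1) ∣ a → 2 * p ∣ a / Nat.gcd 2 (Fintype.card F - 1) → p ∣ a :=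
    fun a h1 h2 => ((dvd_mul_left p 2).trans h2).trans (Nat.div_dvd_of_dvd h1)
  have hd := CfsgLib.SL2.dvd_of_center F
  rw [CfsgLib.SL2.card_center_eq_gcd] at hd
  rcases hmem with h | h | h
  · have := Nat.le_of_dvd hp'.pos h
    have := hp'.pos
    omega
  · have h1 := Nat.dvd_sub hpq (hdiv _ hd.1 h)
    rw [show Fintype.card F - (Fintype.card F - 1) = 1 by omega] at h1
    exact hp'.one_lt.ne' (Nat.dvd_one.mp h1)
  · have h1 := (Nat.dvd_add_right hpq).mp (hdiv _ hd.2 h)
    exact hp'.one_lt.ne' (Nat.dvd_one.mp h1)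

end Cfsg.Agent.S2471
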