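import Cfsg.Statements.S2474
import Cfsg.Agent.PrimeGraphBC.Build

set_option autoImplicit false
open Cfsg

namespace Cfsg.Agent.S2474

open CfsgLib.PrimeGraphBC in
theorem two_iff {F : Type*} [Field F] [Fintype F] (h2 : (2 : F) ≠ 0) {p : ℕ} [Fact p.Prime] [CharP F p] (hp : p ≠ 2)
    {n : ℕ} (hn : 3 ≤ n) {s : ℕ} (hs : s.Prime) (hs2 : s ≠ 2) :
    (2 * s ∈ Set.range (orderOf : Cfsg.POmega F (Cfsg.quadFormOdd n F) → ℕ)) ↔
      (2 * s ∈ Set.range (orderOf : Cfsg.PSp n F → ℕ)) := by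
  rw [mem_range_pomega_iff h2 (by omega)]
  by_cases hsp : s = p
  · subst hsp
    refine iff_of_true (omel_two_self h2 hp hn) (psp_two_of_el h2 (by omega) hs hs2 ?_)
    obtain ⟨u, hu⟩ := CfsgLib.Symp.exists_unipotent (F := F) s 1 1 le_rfl (by
      have := hs.two_le; rw [pow_one]; omega) (fun j hj => by rw [show j = 0 by omega]; norm_num)
    exact El.mono ⟨u, hu.trans (pow_one s)⟩ (by omega)
  have hso := hs.odd_of_ne_two hs2
  have hsF : (s : F) ≠ 0 := natCast_ne_zero_of_coprime (p := p)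
    fun h => hsp ((Nat.prime_dvd_prime_iff_eq (Fact.out : p.Prime) hs).1 h).symm
  constructor
  · intro h
    rcases omel_two_imp h2 (by omega) hs hs2 hsp h with h | h
    · exact psp_two_of_el h2 (by omega) hs hs2 h
    · exact psp_two_of_ws h2 (by omega) hs hs2 (ws_of_num h2 (by omega) hs hs2 h)
  · intro h
    rcases psp_two_imp h2 (by omega) hs hs2 hsp h with h | h
    · exact omel_two_of_el h2 (by omega) hs hs2 hsp h
    · rcases ws_imp h2 hso hsF (ws_of_num h2 (by omega) hs hs2 h) with h | h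
      · exact omel_two_of_el h2 (by omega) hs hs2 hsp h
      · exact omel_two_of_do h2 (by omega) hs hs2 h

open CfsgLib.PrimeGraphBC in
theorem char_iff {F : Type*} [Field F] [Fintype F] (h2 : (2 : F) ≠ 0) {p : ℕ} [Fact p.Prime] [CharP F p] (hp : p ≠ 2)
    {n : ℕ} (hn : 3 ≤ n) {s : ℕ} (hs : s.Prime) (hs2 : s ≠ 2) (hsp : s ≠ p) :
    (p * s ∈ Set.range (orderOf : Cfsg.POmega F (Cfsg.quadFormOdd n F) → ℕ)) ↔
      (p * s ∈ Set.range (orderOf : Cfsg.PSp n F → ℕ)) := by
  have hpp : p.Prime := Fact.out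
  have hso := hs.odd_of_ne_two hs2
  have hodd : Odd (p * s) := (hpp.odd_of_ne_two hp).mul hso
  rw [mem_range_pomega_iff h2 (by omega), mem_range_psp_of_odd (by omega) hodd]
  constructor
  · rintro ⟨ι, _, _, G, hc, hGs, hGu, g, -, hg⟩
    exact el_ps (by omega) hs hsp (el_pred_of_order_ps h2 hGu (Or.inl hGs) (by omega) hc.le g hs hso hsp hg)
  · rintro ⟨x, hx⟩
    obtain ⟨φ⟩ := sympl_equiv (F := F) n
    refine omel_ps h2 hp (by omega) hs hs2 hsp (el_pred_of_order_ps h2 (G := Matrix.J (Fin n) F)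
      (by rw [det_J]; exact isUnit_one) (Or.inr (Matrix.J_transpose _ _)) (by omega) (by simp) (φ x) hs hso hsp
      (by rw [MulEquiv.orderOf_eq, hx]))

/-- For q odd and n ≥ 3 the simple groups PΩ(2n+1,q) and PSp(2n,q) (which have the same order but different sets of element orders) have the same prime graph: for all distinct primes r, s, one of them has an element of order r·s if and only if the other does. -/
theorem result {F : Type*} [Field F] [Fintype F] (hodd : Odd (Fintype.card F)) (n : ℕ) (hn : 3 ≤ n) (r s : ℕ) (hr : r.Prime) (hs : s.Prime) (hrs : r ≠ s) :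
    (r * s ∈ Set.range (orderOf : Cfsg.POmega F (Cfsg.quadFormOdd n F) → ℕ)) ↔ (r * s ∈ Set.range (orderOf : Cfsg.PSp n F → ℕ)) := by
  obtain ⟨p, hp⟩ := CharP.exists F
  have : Fact p.Prime := ⟨CharP.char_is_prime F p⟩
  have h2 : (2 : F) ≠ 0 := CfsgLib.OrthOrder.two_ne_zero_of_odd hodd
  have hp2 : p ≠ 2 := fun e => h2 (by subst e; exact_mod_cast CharP.cast_eq_zero F 2)
  by_cases hr2 : r = 2
  · subst hr2; exact two_iff h2 hp2 hn hs (Ne.symm hrs)
  by_cases hs2 : s = 2
  · subst hs2; rw [Nat.mul_comm]; exact two_iff h2 hp2 hn hr hrs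
  by_cases hrp : r = p
  · subst hrp; exact char_iff h2 hp2 hn hs hs2 (Ne.symm hrs)
  by_cases hsp : s = p
  · subst hsp; rw [Nat.mul_comm]; exact char_iff h2 hp2 hn hr hr2 hrp
  have hodd' : Odd (r * s) := (hr.odd_of_ne_two hr2).mul (hs.odd_of_ne_two hs2)
  have hN : ((r * s : ℕ) : F) ≠ 0 := by
    refine CfsgLib.PrimeGraphBC.natCast_ne_zero_of_coprime (p := p) fun h => ?_
    rcases (Fact.out : p.Prime).dvd_mul.1 h with h | h
    · exact hrp ((Nat.prime_dvd_prime_iff_eq Fact.out hr).1 h).symm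
    · exact hsp ((Nat.prime_dvd_prime_iff_eq Fact.out hs).1 h).symm
  rw [CfsgLib.PrimeGraphBC.mem_range_pomega_iff h2 (by omega),
    CfsgLib.PrimeGraphBC.mem_range_psp_of_odd (by omega) hodd']
  exact ⟨CfsgLib.PrimeGraphBC.el_of_omel h2 hodd' hN, CfsgLib.PrimeGraphBC.omel_of_el h2 (by omega) hodd' hN⟩

end Cfsg.Agent.S2474
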