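import Cfsg.Statements.S2478
import Cfsg.Agent.GLClassCount.Classes
import Cfsg.Agent.H29.SemisimpleCount

set_option autoImplicit false
open Cfsg

namespace Cfsg.Agent.S2478

/-- The number of conjugacy classes of GL(n,q): for F a finite field with q elements and n ≥ 1, the number k of conjugacy classes of GL(n,F) satisfies q^n − q^(n−1) ≤ k ≤ q^n. -/
theorem result {F : Type*} [Field F] [Fintype F] (n : ℕ) (hn : 1 ≤ n) :
    Fintype.card F ^ n - Fintype.card F ^ (n - 1) ≤ Nat.card (ConjClasses (Matrix.GeneralLinearGroup (Fin n) F)) ∧ Nat.card (ConjClasses (Matrix.GeneralLinearGroup (Fin n) F)) ≤ Fintype.card F ^ n := by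
  classical
  refine ⟨?_, CfsgLib.GLClassCount.card_conjClasses_le F n⟩
  obtain ⟨p, hp⟩ := CharP.exists F
  have : Fact p.Prime := ⟨CharP.char_is_prime F p⟩
  obtain ⟨m, rfl⟩ : ∃ m, n = m + 1 := ⟨n - 1, by omega⟩
  rw [Nat.add_sub_cancel]
  let T := {f : Fin (m + 1) → F // f 0 ≠ 0}
  let Φ : ConjClasses (Matrix.GeneralLinearGroup (Fin (m + 1)) F) → T := fun C =>
    ⟨fun i => (Quotient.out C).1.charpoly.coeff i, fun h => by
      refine (Matrix.isUnits_det_units (Quotient.out C)).ne_zero ?_
      rw [Matrix.det_eq_sign_charpoly_coeff]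
      exact mul_eq_zero_of_right _ h⟩
  have hΦ : Function.Surjective Φ := by
    rintro ⟨f, hf⟩
    let P : Polynomial F := Polynomial.X ^ (m + 1) + ∑ i : Fin (m + 1), Polynomial.C (f i) * Polynomial.X ^ (i : ℕ)
    have hdeg : (∑ i : Fin (m + 1), Polynomial.C (f i) * Polynomial.X ^ (i : ℕ)).degree < ((m + 1 : ℕ) : WithBot ℕ) :=
      Polynomial.degree_sum_fin_lt f
    have hcoeff : ∀ i : Fin (m + 1), P.coeff i = f i := fun i => by
      simp only [P, Polynomial.coeff_add, Polynomial.coeff_X_pow, Polynomial.finsetSum_coeff, Polynomial.coeff_C_mul]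
      rw [if_neg (by omega), zero_add, Finset.sum_eq_single i (fun b _ hb => by
        rw [if_neg (fun e => hb (Fin.ext e.symm)), mul_zero]) (fun hi => absurd (Finset.mem_univ i) hi)]
      simp
    obtain ⟨x, -, hx⟩ := Cfsg.Agent.H29.Semisimple.exists_matrix p P (Polynomial.monic_X_pow_add hdeg)
      (Polynomial.natDegree_eq_of_degree_eq_some (by
        rw [Polynomial.degree_add_eq_left_of_degree_lt (by rwa [Polynomial.degree_X_pow]), Polynomial.degree_X_pow]))
      (by rw [← Polynomial.coeff_zero_eq_eval_zero, show (0 : ℕ) = ((0 : Fin (m + 1)) : ℕ) from rfl, hcoeff]; exact hf)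
    refine ⟨ConjClasses.mk x, Subtype.ext (funext fun i => ?_)⟩
    have hc : IsConj (Quotient.out (ConjClasses.mk x)) x :=
      ConjClasses.mk_eq_mk_iff_isConj.mp (Quotient.out_eq (ConjClasses.mk x))
    obtain ⟨u, hu⟩ := isConj_iff.mp hc.symm
    show (Quotient.out (ConjClasses.mk x)).1.charpoly.coeff i = f i
    rw [← hcoeff, ← hx, ← hu, Units.val_mul, Units.val_mul, Matrix.coe_units_inv, Matrix.charpoly_units_conj]
  refine le_trans (le_of_eq ?_) (Nat.card_le_card_of_surjective Φ hΦ)
  let eT : T ≃ {c : F // c ≠ 0} × (Fin m → F) :=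
    { toFun := fun f => (⟨f.1 0, f.2⟩, Fin.tail f.1)
      invFun := fun c => ⟨Fin.cons c.1.1 c.2, by rw [Fin.cons_zero]; exact c.1.2⟩
      left_inv := fun f => Subtype.ext (Fin.cons_self_tail _)
      right_inv := fun c => Prod.ext (Subtype.ext (by simp)) (funext fun i => by simp [Fin.tail]) }
  rw [Nat.card_congr eT, Nat.card_prod, Nat.card_fun, Nat.card_eq_fintype_card (α := {c : F // c ≠ 0}),
    Fintype.card_subtype_compl, Fintype.card_subtype_eq, Nat.card_eq_fintype_card (α := F),
    Nat.card_eq_fintype_card (α := Fin m), Fintype.card_fin, Nat.sub_mul, one_mul, pow_succ']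

end Cfsg.Agent.S2478
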