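import Cfsg.Statements.S2479
import Cfsg.Agent.GLClassCount.SLBounds
import Cfsg.Agent.GLClassCount.SmallVals
import Cfsg.Agent.H29.SemisimpleCount
import Mathlib.LinearAlgebra.Matrix.Transvection

set_option autoImplicit false
open Cfsg

namespace Cfsg.Agent.S2479

open CfsgLib.GLClassCount

theorem lower {F : Type*} [Field F] [Fintype F] (n : ℕ) (hn : 2 ≤ n) :
    Fintype.card F ^ (n - 1) < Nat.card (ConjClasses (Matrix.SpecialLinearGroup (Fin n) F)) := by
  classical
  obtain ⟨p, hp⟩ := CharP.exists F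
  have : Fact p.Prime := ⟨CharP.char_is_prime F p⟩
  obtain ⟨m, rfl⟩ : ∃ m, n = m + 2 := ⟨n - 2, by omega⟩
  let cf : Matrix.SpecialLinearGroup (Fin (m + 2)) F → (Fin (m + 1) → F) := fun g i => g.1.charpoly.coeff ((i : ℕ) + 1)
  have hinv : ∀ g h : Matrix.SpecialLinearGroup (Fin (m + 2)) F, IsConj g h → cf g = cf h := fun g h hgh => by
    obtain ⟨u, hu⟩ := isConj_iff.mp (Matrix.SpecialLinearGroup.toGL.map_isConj hgh)
    have hv : (Matrix.SpecialLinearGroup.toGL h).1 = u.1 * g.1 * (u⁻¹).1 := by rw [← hu]; rfl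
    funext i
    show g.1.charpoly.coeff _ = (Matrix.SpecialLinearGroup.toGL h).1.charpoly.coeff _
    rw [hv, Matrix.coe_units_inv, Matrix.charpoly_units_conj]
  let Φ : ConjClasses (Matrix.SpecialLinearGroup (Fin (m + 2)) F) → (Fin (m + 1) → F) := Quotient.lift cf hinv
  have hsurj : Function.Surjective Φ := fun f => by
    let P : Polynomial F := Polynomial.X ^ (m + 2) + ∑ i : Fin (m + 2),
      Polynomial.C ((Fin.cons ((-1) ^ (m + 2)) f : Fin (m + 2) → F) i) * Polynomial.X ^ (i : ℕ)
    have hdeg := Polynomial.degree_sum_fin_lt (Fin.cons ((-1) ^ (m + 2)) f : Fin (m + 2) → F)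
    have hcoeff : ∀ i : Fin (m + 2), P.coeff i = (Fin.cons ((-1) ^ (m + 2)) f : Fin (m + 2) → F) i := fun i => by
      simp only [P, Polynomial.coeff_add, Polynomial.coeff_X_pow, Polynomial.finsetSum_coeff, Polynomial.coeff_C_mul]
      rw [if_neg (by omega), zero_add, Finset.sum_eq_single i (fun b _ hb => by
        rw [if_neg (fun e => hb (Fin.ext e.symm)), mul_zero]) (fun hi => absurd (Finset.mem_univ i) hi)]
      simp
    have h0 : P.coeff 0 = (-1) ^ (m + 2) := by simpa using hcoeff 0
    obtain ⟨x, -, hx⟩ := Cfsg.Agent.H29.Semisimple.exists_matrix p P (Polynomial.monic_X_pow_add hdeg)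
      (Polynomial.natDegree_eq_of_degree_eq_some (by
        rw [Polynomial.degree_add_eq_left_of_degree_lt (by rwa [Polynomial.degree_X_pow]), Polynomial.degree_X_pow]))
      (by rw [← Polynomial.coeff_zero_eq_eval_zero, h0]; exact pow_ne_zero _ (neg_ne_zero.mpr one_ne_zero))
    have hd : x.1.det = 1 := by
      rw [Matrix.det_eq_sign_charpoly_coeff, hx, h0, Fintype.card_fin, ← mul_pow, neg_mul_neg, one_mul, one_pow]
    refine ⟨ConjClasses.mk ⟨x.1, hd⟩, funext fun i => ?_⟩
    show x.1.charpoly.coeff _ = f i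
    rw [hx]
    simpa using hcoeff i.succ
  have hni : ¬ Function.Injective Φ := fun hinj => by
    have h01 : (⟨0, by omega⟩ : Fin (m + 2)) ≠ ⟨1, by omega⟩ := by simp [Fin.ext_iff]
    obtain ⟨t, ht⟩ : ∃ t : Matrix.SpecialLinearGroup (Fin (m + 2)) F, t.1 = Matrix.transvection ⟨0, by omega⟩ ⟨1, by omega⟩ 1 :=
      ⟨⟨_, Matrix.det_transvection_of_ne _ _ h01 1⟩, rfl⟩
    have htri : (Matrix.transvection (⟨0, by omega⟩ : Fin (m + 2)) ⟨1, by omega⟩ (1 : F)).BlockTriangular id :=
      Matrix.blockTriangular_transvection (Nat.zero_le 1) 1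
    have e : cf t = cf 1 := funext fun i => by
      show t.1.charpoly.coeff _ = (1 : Matrix (Fin (m + 2)) (Fin (m + 2)) F).charpoly.coeff _
      rw [ht, Matrix.charpoly_of_upperTriangular _ htri, Matrix.charpoly_one]
      have hdiag : ∀ x : Fin (m + 2), (Matrix.transvection (⟨0, by omega⟩ : Fin (m + 2)) ⟨1, by omega⟩ (1 : F)) x x = 1 := fun x => by
        rw [Matrix.transvection, Matrix.add_apply, Matrix.one_apply_eq, Matrix.single_apply, if_neg (by simp [Fin.ext_iff]; omega), add_zero]
      simp only [hdiag]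
      simp
    have h2 : IsConj t 1 := ConjClasses.mk_eq_mk_iff_isConj.mp (hinj (show Φ (ConjClasses.mk t) = Φ (ConjClasses.mk 1) from e))
    rw [isConj_one_left] at h2
    have h3 := congrFun (congrFun (congrArg Subtype.val h2) ⟨0, by omega⟩) ⟨1, by omega⟩
    rw [ht] at h3
    simp [Matrix.transvection, Fin.ext_iff] at h3
  haveI : Fintype (ConjClasses (Matrix.SpecialLinearGroup (Fin (m + 2)) F)) := Fintype.ofFinite _
  have := Fintype.card_lt_of_surjective_not_injective Φ hsurj hni
  rw [Fintype.card_fun, Fintype.card_fin, ← Nat.card_eq_fintype_card (α := ConjClasses _)] at this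
  show Fintype.card F ^ (m + 1) < _
  exact this

theorem upper {F : Type*} [Field F] [Fintype F] (n : ℕ) (hn : 2 ≤ n) :
    (Fintype.card F = 2 → Nat.card (ConjClasses (Matrix.SpecialLinearGroup (Fin n) F)) ≤ 2 ^ n) ∧
    (3 ≤ Fintype.card F → (n = 2 → Nat.card (ConjClasses (Matrix.SpecialLinearGroup (Fin n) F)) ≤ Fintype.card F + 4) ∧
      (3 ≤ n → Nat.card (ConjClasses (Matrix.SpecialLinearGroup (Fin n) F)) ≤
        Fintype.card F ^ (n - 1) + 3 * Fintype.card F ^ (n - 2))) := by
  classical
  have : Finite (DetOne F n) := finite_detOne F n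
  letI : Fintype (DetOne F n) := Fintype.ofFinite _
  have hk := card_sl_classes_le (F := F) n
  have hfin := (card_tuples_le F n).1
  refine ⟨fun h2 => ?_, fun hq3 => ?_⟩
  · refine hk.trans ((Finset.sum_le_card_nsmul _ _ 1 fun h _ => (splitBound_le_card F _).trans (by omega)).trans ?_)
    rw [smul_eq_mul, mul_one, Finset.card_univ, ← Nat.card_eq_fintype_card, ← h2]
    exact (Nat.card_le_card_of_injective Subtype.val Subtype.val_injective).trans (card_tuples_le F n).2
  obtain ⟨q, hq⟩ : ∃ q : ℝ, q = (Fintype.card F : ℝ) := ⟨_, rfl⟩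
  have hq3' : (3 : ℝ) ≤ q := by rw [hq]; exact_mod_cast hq3
  have hk' : (Nat.card (ConjClasses (Matrix.SpecialLinearGroup (Fin n) F)) : ℝ) ≤
      q ^ (n - 1) * part q (n - 1) 1 n +
        ∑ h ∈ Finset.univ.filter (fun h : DetOne F n => h.1.1 ⟨0, by omega⟩ = 1), (splitBound h.1.1 : ℝ) := by
    rw [hq]
    refine le_trans ?_ (sum_split_le F n (by omega))
    exact_mod_cast hk
  have hT1 := trivial_part_le F n (by omega)
  rw [← hq] at hT1
  have hsingle : ∀ (j : Fin n) (d : ℕ) (P : DetOne F n → Prop) [DecidablePred P],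
      (∀ h, P h → (∀ k, k ≠ j → h.1.1 k = 1) ∧ (h.1.1 j).natDegree = d + 1) → ∀ M : ℕ,
      (∀ h : DetOne F n, splitBound h.1.1 ≤ M ∨ h.1.1 j = 1) →
      ∑ h ∈ Finset.univ.filter P, (splitBound h.1.1 : ℝ) ≤ ((j : ℕ) + 1 : ℕ) * q ^ d * M := by
    intro j d P _ hP M hM
    refine (Finset.sum_le_card_nsmul _ _ (M : ℝ) fun h hh => ?_).trans ?_
    · obtain ⟨-, h2⟩ := hP h (Finset.mem_filter.mp hh).2
      rcases hM h with h3 | h3
      · exact_mod_cast h3
      · rw [h3, Polynomial.natDegree_one] at h2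
        exact absurd h2 (Nat.succ_ne_zero d).symm
    rw [nsmul_eq_mul]
    refine mul_le_mul_of_nonneg_right ?_ (Nat.cast_nonneg M)
    rw [hq, ← Nat.cast_pow, ← Nat.cast_mul]
    refine Nat.cast_le.mpr (le_trans (Finset.card_le_card fun h hh => ?_) (single_count F j d))
    exact Finset.mem_filter.mpr ⟨Finset.mem_univ _, hP h (Finset.mem_filter.mp hh).2⟩
  have hwt : ∀ h : DetOne F n, ∑ j : Fin n, ((j : ℕ) + 1) * (h.1.1 j).natDegree = n := fun h => h.1.2.2.2
  have hzero : ∀ (h : DetOne F n) (j : Fin n), (h.1.1 j).natDegree = 0 → h.1.1 j = 1 := fun h j e =>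
    (h.1.2.1 j).1.natDegree_eq_zero.mp e
  refine ⟨fun hn2 => ?_, fun hn3 => ?_⟩
  · subst hn2
    have hT : ∑ h ∈ Finset.univ.filter (fun h : DetOne F 2 => h.1.1 ⟨0, by omega⟩ = 1), (splitBound h.1.1 : ℝ) ≤ 4 := by
      refine (hsingle 1 0 _ (fun h hh => ?_) 2 (fun h => ?_)).trans (by norm_num)
      · have e := hwt h
        change h.1.1 0 = 1 at hh
        rw [Fin.sum_univ_two, hh, Polynomial.natDegree_one] at e
        simp at e
        refine ⟨fun k hk => ?_, by omega⟩
        fin_cases k
        · exact hh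
        · exact absurd rfl hk
      · by_cases hj : h.1.1 1 = 1
        · exact Or.inr hj
        · exact Or.inl (splitBound_le_weight F _ 1 hj)
    have hU : q ^ (2 - 1) * part q (2 - 1) 1 2 = q := by
      obtain ⟨b0, b1, -⟩ := bnd_one_vals q 1
      rw [part]
      simp [Finset.sum_range_succ, b0, b1]
    rw [hU, hq] at hk'
    have : (Nat.card (ConjClasses (Matrix.SpecialLinearGroup (Fin 2) F)) : ℝ) ≤ ((Fintype.card F + 4 : ℕ) : ℝ) := by
      push_cast; linarith
    exact_mod_cast this
  have hgoal : (Nat.card (ConjClasses (Matrix.SpecialLinearGroup (Fin n) F)) : ℝ) ≤ q ^ (n - 1) + 3 * q ^ (n - 2) := by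
    rcases Nat.lt_or_ge n 7 with hlt | hge
    swap
    · linarith [large_bound hq3' n hge]
    interval_cases n
    · have hU : q ^ (3 - 1) * part q (3 - 1) 1 3 = q ^ 2 + q - 1 := by
        obtain ⟨b0, b1, b2, b3, b4, b5, -⟩ := bnd_one_vals q (3 - 1)
        rw [part]
        simp only [Finset.sum_range_succ, Finset.sum_range_zero, zero_add, Nat.reduceSub] at *
        simp (disch := omega) only [b0, b1, b2, b3, b4, b5]
        field_simp; ring
      rw [hU] at hk'
      have hT2 : (q - 1) * bnd q (3 - 1) 1 3 = (q - 1) ^ 2 := by rw [(bnd_one_vals q (3 - 1)).2.2.2.1 le_rfl]; ring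
      rw [hT2] at hT1
      rcases Nat.lt_or_ge (Fintype.card F) 4 with h4 | h4
      · obtain rfl : q = 3 := by rw [hq]; exact_mod_cast (by omega : Fintype.card F = 3)
        exact hk'.trans (le_trans (add_le_add le_rfl hT1) (by norm_num))
      · have hq4 : (4 : ℝ) ≤ q := by rw [hq]; exact_mod_cast h4
        have hT : ∑ h ∈ Finset.univ.filter (fun h : DetOne F 3 => h.1.1 ⟨0, by omega⟩ = 1), (splitBound h.1.1 : ℝ) ≤ 9 := by
          refine (hsingle 2 0 _ (fun h hh => ?_) 3 (fun h => ?_)).trans (by norm_num)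
          · have e := hwt h
            change h.1.1 0 = 1 at hh
            rw [Fin.sum_univ_three, hh, Polynomial.natDegree_one] at e
            simp at e
            refine ⟨fun k hk => ?_, by omega⟩
            fin_cases k
            · exact hh
            · exact hzero h 1 (by omega)
            · exact absurd rfl hk
          · by_cases hj : h.1.1 2 = 1
            · exact Or.inr hj
            · exact Or.inl (splitBound_le_weight F _ 2 hj)
        exact hk'.trans (le_trans (add_le_add le_rfl hT) (by norm_num; linarith))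
    · have hU : q ^ (4 - 1) * part q (4 - 1) 1 4 = q ^ 3 + q ^ 2 - 1 := by
        obtain ⟨b0, b1, b2, b3, b4, b5, -⟩ := bnd_one_vals q (4 - 1)
        rw [part]
        simp only [Finset.sum_range_succ, Finset.sum_range_zero, zero_add, Nat.reduceSub] at *
        simp (disch := omega) only [b0, b1, b2, b3, b4, b5]
        field_simp; ring
      rw [hU] at hk'
      have hsub : Finset.univ.filter (fun h : DetOne F 4 => h.1.1 ⟨0, by omega⟩ = 1) ⊆
          Finset.univ.filter (fun h : DetOne F 4 => (∀ k, k ≠ 1 → h.1.1 k = 1) ∧ (h.1.1 1).natDegree = 1 + 1) ∪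
          Finset.univ.filter (fun h : DetOne F 4 => (∀ k, k ≠ 3 → h.1.1 k = 1) ∧ (h.1.1 3).natDegree = 0 + 1) := by
        intro h hh
        have hh' : h.1.1 0 = 1 := (Finset.mem_filter.mp hh).2
        have e := hwt h
        rw [Fin.sum_univ_four, hh', Polynomial.natDegree_one] at e
        simp at e
        rcases Nat.eq_zero_or_pos (h.1.1 3).natDegree with h3 | h3
        · refine Finset.mem_union_left _ (Finset.mem_filter.mpr ⟨Finset.mem_univ _, fun k hk => ?_, by omega⟩)
          fin_cases k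
          · exact hh'
          · exact absurd rfl hk
          · exact hzero h 2 (by omega)
          · exact hzero h 3 h3
        · refine Finset.mem_union_right _ (Finset.mem_filter.mpr ⟨Finset.mem_univ _, fun k hk => ?_, by omega⟩)
          fin_cases k
          · exact hh'
          · exact hzero h 1 (by omega)
          · exact hzero h 2 (by omega)
          · exact absurd rfl hk
      have hT := fun (M : ℕ) (hM : ∀ h : DetOne F 4, splitBound h.1.1 ≤ M ∨ h.1.1 3 = 1) =>
        ((Finset.sum_le_sum_of_subset_of_nonneg (f := fun h : DetOne F 4 => (splitBound h.1.1 : ℝ)) hsub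
          (fun h _ _ => Nat.cast_nonneg _)).trans (le_of_le_of_eq (le_add_of_nonneg_right
            (Finset.sum_nonneg (f := fun h : DetOne F 4 => (splitBound h.1.1 : ℝ)) fun h _ => Nat.cast_nonneg _))
            Finset.sum_union_inter)).trans
          (add_le_add (hsingle 1 1 _ (fun h hh => hh) 2 fun h => (em (h.1.1 1 = 1)).symm.imp (splitBound_le_weight F _ 1) id)
            (hsingle 3 0 _ (fun h hh => hh) M hM))
      rcases Nat.lt_or_ge (Fintype.card F) 4 with h4 | h4
      · obtain rfl : q = 3 := by rw [hq]; exact_mod_cast (by omega : Fintype.card F = 3)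
        exact hk'.trans (le_trans (add_le_add le_rfl hT1) (by rw [(bnd_one_vals 3 (4 - 1)).2.2.2.2.1 le_rfl]; norm_num))
      rcases Nat.lt_or_ge (Fintype.card F) 5 with h5 | h5
      · obtain rfl : q = 4 := by rw [hq]; exact_mod_cast (by omega : Fintype.card F = 4)
        exact hk'.trans (le_trans (add_le_add le_rfl (hT 3 fun h => Or.inl ((splitBound_le_card F _).trans (by omega)))) (by norm_num))
      · have hq5 : (5 : ℝ) ≤ q := by rw [hq]; exact_mod_cast h5
        exact hk'.trans (le_trans (add_le_add le_rfl (hT 4 fun h => (em (h.1.1 3 = 1)).symm.imp (splitBound_le_weight F _ 3) id))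
          (by norm_num; nlinarith))
    · have hU : q ^ (5 - 1) * part q (5 - 1) 1 5 = q ^ 4 + q ^ 3 + q ^ 2 - q - 1 := by
        obtain ⟨b0, b1, b2, b3, b4, b5, -⟩ := bnd_one_vals q (5 - 1)
        rw [part]
        simp only [Finset.sum_range_succ, Finset.sum_range_zero, zero_add, Nat.reduceSub] at *
        simp (disch := omega) only [b0, b1, b2, b3, b4, b5]
        field_simp; ring
      rw [hU] at hk'
      have hT2 : (q - 1) * bnd q (5 - 1) 1 5 = q ^ 3 - 2 * q ^ 2 + q := by
        rw [(bnd_one_vals q (5 - 1)).2.2.2.2.2.1 le_rfl]; ring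
      rw [hT2] at hT1
      exact hk'.trans (le_trans (add_le_add le_rfl hT1) (by norm_num; nlinarith))
    · have hU : q ^ (6 - 1) * part q (6 - 1) 1 6 = q ^ 5 + q ^ 4 + q ^ 3 - 2 * q := by
        obtain ⟨b0, b1, b2, b3, b4, b5, -⟩ := bnd_one_vals q (6 - 1)
        rw [part]
        simp only [Finset.sum_range_succ, Finset.sum_range_zero, zero_add, Nat.reduceSub] at *
        simp (disch := omega) only [b0, b1, b2, b3, b4, b5]
        field_simp; ring
      rw [hU] at hk'
      have hT2 : (q - 1) * bnd q (6 - 1) 1 6 = q ^ 4 - 3 * q ^ 2 + 2 * q := by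
        rw [(bnd_one_vals q (6 - 1)).2.2.2.2.2.2 le_rfl]; ring
      rw [hT2] at hT1
      exact hk'.trans (le_trans (add_le_add le_rfl hT1) (by norm_num; nlinarith))
  rw [hq] at hgoal
  exact_mod_cast hgoal


/-- The number of conjugacy classes of SL(n,q): for F a finite field with q elements, the number k of conjugacy classes of SL(n,F) satisfies q^(n−1) < k and k ≤ (5/2)·q^(n−1) for n ≥ 2, and k ≤ q^(n−1) + 3q^(n−2) for n ≥ 3. -/
theorem result {F : Type*} [Field F] [Fintype F] (n : ℕ) (hn : 2 ≤ n) :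
    Fintype.card F ^ (n - 1) < Nat.card (ConjClasses (Matrix.SpecialLinearGroup (Fin n) F)) ∧ 2 * Nat.card (ConjClasses (Matrix.SpecialLinearGroup (Fin n) F)) ≤ 5 * Fintype.card F ^ (n - 1) ∧
      (3 ≤ n → Nat.card (ConjClasses (Matrix.SpecialLinearGroup (Fin n) F)) ≤ Fintype.card F ^ (n - 1) + 3 * Fintype.card F ^ (n - 2)) := by
  have hl := lower (F := F) n hn
  obtain ⟨h2, h3⟩ := upper (F := F) n hn
  have hq := Fintype.one_lt_card (α := F)
  refine ⟨hl, ?_, fun hn3 => ?_⟩
  · obtain ⟨m, rfl⟩ : ∃ m, n = m + 2 := ⟨n - 2, by omega⟩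
    simp only [show m + 2 - 1 = m + 1 from rfl, show m + 2 - 2 = m from rfl] at *
    rcases Nat.lt_or_ge (Fintype.card F) 3 with h | h
    · have e : Fintype.card F = 2 := by omega
      have := h2 e
      rw [e, pow_succ]
      have : 2 ^ (m + 2) = 2 ^ m * 4 := by ring
      omega
    · rcases Nat.eq_zero_or_pos m with rfl | hm
      · have := (h3 h).1 rfl
        rw [pow_one]; omega
      · have := (h3 h).2 (by omega)
        rw [pow_succ] at this ⊢
        have : Fintype.card F ^ m * 3 ≤ Fintype.card F ^ m * Fintype.card F := Nat.mul_le_mul_left _ h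
        omega
  · rcases Nat.lt_or_ge (Fintype.card F) 3 with h | h
    · have e : Fintype.card F = 2 := by omega
      have := h2 e
      rw [e]
      obtain ⟨m, rfl⟩ : ∃ m, n = m + 3 := ⟨n - 3, by omega⟩
      simp only [show m + 3 - 1 = m + 2 from rfl, show m + 3 - 2 = m + 1 from rfl, pow_succ] at *
      omega
    · exact (h3 h).2 hn3

end Cfsg.Agent.S2479
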