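import Cfsg.Statements.S2480
import Cfsg.Agent.GLClassCount.PSLClasses
import Cfsg.Agent.S2479

set_option autoImplicit false
open Cfsg

namespace Cfsg.Agent.S2480

open CfsgLib.GLClassCount in
theorem extra_bound {F : Type*} [Field F] [Fintype F] (n : ℕ) (hn : 2 ≤ n)
    (z : Subgroup.center (Matrix.SpecialLinearGroup (Fin n) F)) (hz : z ≠ 1) :
    ∃ (ζ : F) (o : ℕ), z.1.1 = Matrix.scalar (Fin n) ζ ∧ orderOf ζ = o ∧ 2 ≤ o ∧ o ∣ n ∧
      (Nat.card {C : ConjClasses (Matrix.SpecialLinearGroup (Fin n) F) // trans z C = C} ≤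
        Nat.gcd n (Fintype.card F - 1) * Fintype.card F ^ (n / o)) ∧
      (o = n → Nat.card {C : ConjClasses (Matrix.SpecialLinearGroup (Fin n) F) // trans z C = C} ≤ 1) ∧
      (n = 4 → o = 2 → Nat.card {C : ConjClasses (Matrix.SpecialLinearGroup (Fin n) F) // trans z C = C} ≤ Fintype.card F + 4) := by
  classical
  obtain ⟨ζ, hζn, hζ⟩ := Matrix.SpecialLinearGroup.mem_center_iff.mp z.2
  rw [Fintype.card_fin] at hζn
  have hζ1 : ζ ≠ 1 := fun h => hz (Subtype.ext (Subtype.ext (by rw [← hζ, h, map_one]; rfl)))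
  have hpos : 0 < orderOf ζ := orderOf_pos_iff.mpr (isOfFinOrder_iff_pow_eq_one.mpr ⟨n, by omega, hζn⟩)
  have h2 : 2 ≤ orderOf ζ := by
    have : orderOf ζ ≠ 1 := fun h => hζ1 (orderOf_eq_one_iff.mp h)
    omega
  have hon : orderOf ζ ∣ n := orderOf_dvd_of_pow_eq_one hζn
  have : Finite (DetOne F n) := finite_detOne F n
  letI : Fintype (DetOne F n) := Fintype.ofFinite _
  have hf := fix_le (by omega) z ζ hζ.symm
  refine ⟨ζ, _, hζ.symm, rfl, h2, hon, hf.trans (inv_sum_le ζ _ rfl hpos hon), fun h => hf.trans (inv_sum_le_one ζ h (by omega)),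
    fun h4 ho => ?_⟩
  subst h4
  exact hf.trans (inv_sum_four ζ ho)

/-- The number of conjugacy classes of PSL(n,q): for F a finite field with q elements, n ≥ 2 and d = gcd(n, q − 1), the number k of conjugacy classes of PSL(n,F) satisfies q^(n−1) ≤ d·k ≤ q^(n−1) + 5q^(n−2). -/
theorem result {F : Type*} [Field F] [Fintype F] (n : ℕ) (hn : 2 ≤ n) :
    Fintype.card F ^ (n - 1) ≤ Nat.gcd n (Fintype.card F - 1) * Nat.card (ConjClasses (Matrix.ProjectiveSpecialLinearGroup (Fin n) F)) ∧
      Nat.gcd n (Fintype.card F - 1) * Nat.card (ConjClasses (Matrix.ProjectiveSpecialLinearGroup (Fin n) F)) ≤ Fintype.card F ^ (n - 1) + 5 * Fintype.card F ^ (n - 2) := by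
  classical
  obtain ⟨q, hq⟩ : ∃ q, q = Fintype.card F := ⟨_, rfl⟩
  have hq2 : 2 ≤ q := hq ▸ Fintype.one_lt_card
  obtain ⟨d, hd⟩ : ∃ d, d = Nat.gcd n (Fintype.card F - 1) := ⟨_, rfl⟩
  haveI : Fintype (Subgroup.center (Matrix.SpecialLinearGroup (Fin n) F)) := Fintype.ofFinite _
  have hB := CfsgLib.GLClassCount.card_center_mul (G := Matrix.SpecialLinearGroup (Fin n) F)
  rw [CfsgLib.GLClassCount.card_center_sl (by omega), ← Finset.add_sum_erase _ _ (Finset.mem_univ 1)] at hB
  have h1 : Nat.card {C : ConjClasses (Matrix.SpecialLinearGroup (Fin n) F) // CfsgLib.GLClassCount.trans 1 C = C} =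
      Nat.card (ConjClasses (Matrix.SpecialLinearGroup (Fin n) F)) :=
    Nat.card_congr (Equiv.subtypeUnivEquiv fun C => by
      obtain ⟨g, rfl⟩ := ConjClasses.mk_surjective C
      rw [CfsgLib.GLClassCount.trans_mk]
      simp)
  rw [h1] at hB
  rw [hB]
  have hl := S2479.lower (F := F) n hn
  refine ⟨(hl.le).trans (Nat.le_add_right _ _), ?_⟩
  obtain ⟨E, hE⟩ : ∃ E : Finset (Subgroup.center (Matrix.SpecialLinearGroup (Fin n) F)), E = Finset.univ.erase 1 := ⟨_, rfl⟩
  have hEc : E.card = d - 1 := by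
    rw [hE, Finset.card_erase_of_mem (Finset.mem_univ _), Finset.card_univ, ← Nat.card_eq_fintype_card,
      CfsgLib.GLClassCount.card_center_sl (by omega), hd]
  have hex := fun z (hz : z ∈ E) => extra_bound (F := F) n hn z (by rw [hE] at hz; exact (Finset.mem_erase.mp hz).1)
  rw [← hE, ← hq]
  have hdn : d ≤ n := hd ▸ Nat.gcd_le_left _ (by omega)
  have hdq : d < q := by
    have := Nat.le_of_dvd (by omega) (Nat.gcd_dvd_right n (Fintype.card F - 1)); omega
  obtain ⟨hk2, hk3⟩ := S2479.upper (F := F) n hn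
  rw [← hq] at hk2 hk3
  rcases Nat.lt_or_ge q 3 with hq3 | hq3
  · have e : q = 2 := by omega
    have hE0 : E = ∅ := Finset.card_eq_zero.mp (by omega)
    have hk := hk2 e
    rw [hE0, Finset.sum_empty, e]
    obtain ⟨m, rfl⟩ : ∃ m, n = m + 2 := ⟨n - 2, by omega⟩
    simp only [show m + 2 - 1 = m + 1 from rfl, show m + 2 - 2 = m from rfl, pow_succ] at *
    omega
  rcases Nat.lt_or_ge n 3 with h3 | h3
  · obtain rfl : n = 2 := by omega
    have hk := (hk3 hq3).1 rfl
    have hs : ∑ z ∈ E, Nat.card {C : ConjClasses (Matrix.SpecialLinearGroup (Fin 2) F) // CfsgLib.GLClassCount.trans z C = C} ≤ 1 := by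
      refine (Finset.sum_le_card_nsmul _ _ 1 fun z hz => ?_).trans (by rw [smul_eq_mul, mul_one]; omega)
      obtain ⟨ζ, o, -, -, h2, hon, -, hone, -⟩ := hex z hz
      exact hone (le_antisymm (Nat.le_of_dvd (by omega) hon) h2)
    simp only [Nat.sub_self, pow_zero, show 2 - 1 = 1 from rfl, pow_one]
    omega
  have hk := (hk3 hq3).2 h3
  suffices hs : ∑ z ∈ E, Nat.card {C : ConjClasses (Matrix.SpecialLinearGroup (Fin n) F) // CfsgLib.GLClassCount.trans z C = C} ≤
      2 * q ^ (n - 2) by omega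
  rcases Nat.lt_or_ge n 6 with h6 | h6
  · have hq' : q ≤ q ^ (n - 2) := Nat.le_self_pow (by omega) q
    interval_cases n
    · refine (Finset.sum_le_card_nsmul _ _ 1 fun z hz => ?_).trans (by rw [smul_eq_mul, mul_one]; omega)
      obtain ⟨ζ, o, -, -, h2, hon, -, hone, -⟩ := hex z hz
      have := Nat.le_of_dvd (by omega) hon
      interval_cases o <;> first | exact hone rfl | norm_num at hon
    · refine (Finset.sum_le_card_nsmul _ _ (q + 4) fun z hz => ?_).trans ?_
      · obtain ⟨ζ, o, -, -, h2, hon, -, hone, h4⟩ := hex z hz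
        have := Nat.le_of_dvd (by omega) hon
        interval_cases o
        · rw [hq]; exact h4 rfl rfl
        · norm_num at hon
        · exact (hone rfl).trans (by omega)
      · rw [smul_eq_mul, hEc, show q ^ (4 - 2) = q * q by rw [show (4 : ℕ) - 2 = 2 from rfl, sq]]
        have : (d - 1) * (q + 4) ≤ (q - 2) * (q + 4) := Nat.mul_le_mul_right _ (by omega)
        obtain ⟨r, rfl⟩ : ∃ r, q = r + 2 := ⟨q - 2, by omega⟩
        rw [Nat.add_sub_cancel] at this
        nlinarith
    · refine (Finset.sum_le_card_nsmul _ _ 1 fun z hz => ?_).trans (by rw [smul_eq_mul, mul_one]; omega)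
      obtain ⟨ζ, o, -, -, h2, hon, -, hone, -⟩ := hex z hz
      have := Nat.le_of_dvd (by omega) hon
      interval_cases o <;> first | exact hone rfl | norm_num at hon
  rcases Nat.lt_or_ge n 7 with h7 | h7
  · obtain rfl : n = 6 := by omega
    choose! ζ o hζ ho h2 hon hg _ _ using hex
    refine (Finset.sum_le_sum (g := fun z => d * q ^ 2 + if ζ z = -1 then d * q ^ 3 else 0) fun z hz => ?_).trans ?_
    · have hgz := hg z hz
      rw [← hd, ← hq] at hgz
      refine hgz.trans ?_
      have h2' := h2 z hz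
      rcases Nat.lt_or_ge (o z) 3 with h | h
      · have e : o z = 2 := by omega
        have hsq : ζ z ^ 2 = 1 := by rw [← e, ← ho z hz]; exact pow_orderOf_eq_one _
        have hne : ζ z ≠ 1 := fun h1 => by
          have := ho z hz
          rw [h1, orderOf_one] at this; omega
        rw [if_pos (((sq_eq_one_iff).mp hsq).resolve_left hne), e]
        exact Nat.le_add_left _ _
      · refine le_trans (Nat.mul_le_mul_left d (Nat.pow_le_pow_right (by omega) ?_)) (Nat.le_add_right _ _)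
        exact (Nat.div_le_div_left h (by omega)).trans le_rfl
    · rw [Finset.sum_add_distrib, Finset.sum_const, ← Finset.sum_filter, Finset.sum_const, smul_eq_mul, smul_eq_mul, hEc]
      have hcard : (E.filter fun z => ζ z = -1).card ≤ 1 := Finset.card_le_one.mpr fun a ha b hb => by
        obtain ⟨ha, ha'⟩ := Finset.mem_filter.mp ha
        obtain ⟨hb, hb'⟩ := Finset.mem_filter.mp hb
        exact Subtype.ext (Subtype.ext (by rw [hζ a ha, hζ b hb, ha', hb']))
      have e1 : (E.filter fun z => ζ z = -1).card * (d * q ^ 3) ≤ q * q ^ 3 :=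
        (Nat.mul_le_mul_right _ hcard).trans (by rw [one_mul]; exact Nat.mul_le_mul_right _ hdq.le)
      have e2 : (d - 1) * (d * q ^ 2) ≤ q * (q * q ^ 2) := Nat.mul_le_mul (by omega) (Nat.mul_le_mul_right _ hdq.le)
      have e3 : q * q ^ 3 = q ^ (6 - 2) ∧ q * (q * q ^ 2) = q ^ (6 - 2) := by constructor <;> ring
      omega
  refine (Finset.sum_le_card_nsmul _ _ (d * q ^ (n / 2)) fun z hz => ?_).trans ?_
  · obtain ⟨ζ, o, -, -, h2, -, hg, -⟩ := hex z hz
    rw [← hd, ← hq] at hg
    exact hg.trans (Nat.mul_le_mul_left _ (Nat.pow_le_pow_right (by omega) (Nat.div_le_div_left h2 (by omega))))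
  · rw [smul_eq_mul, hEc]
    calc (d - 1) * (d * q ^ (n / 2)) ≤ q * (q * q ^ (n / 2)) := Nat.mul_le_mul (by omega) (Nat.mul_le_mul_right _ hdq.le)
      _ = q ^ (n / 2 + 2) := by ring
      _ ≤ q ^ (n - 2) := Nat.pow_le_pow_right (by omega) (by omega)
      _ ≤ 2 * q ^ (n - 2) := Nat.le_mul_of_pos_left _ two_pos

end Cfsg.Agent.S2480
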