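import Cfsg.Statements.S2481
import Cfsg.Agent.GUClassCount.Split
import Cfsg.Agent.S2386

set_option autoImplicit false
open Cfsg

namespace Cfsg.Agent.S2481

/-- The number of conjugacy classes of SU(n,q): for n ≥ 2, q a prime power and F the field with q² elements, the number k of conjugacy classes of SU(n,q) (the determinant-one isometries of the standard Hermitian form on F^n) satisfies q^(n−1) ≤ k ≤ 8.26·q^(n−1). -/
theorem result {F : Type*} [Field F] [Fintype F] (n q : ℕ) (hn : 2 ≤ n) (hF : Fintype.card F = q ^ 2) :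
    q ^ (n - 1) ≤ Nat.card (ConjClasses (Cfsg.SU n F q)) ∧ 100 * Nat.card (ConjClasses (Cfsg.SU n F q)) ≤ 826 * q ^ (n - 1) := by
  classical
  obtain ⟨θ, hθq, hθ, hne, hq⟩ := CfsgLib.Unitary.exists_conj q hF
  obtain ⟨p, hp⟩ := CharP.exists F
  have : Fact p.Prime := ⟨CharP.char_is_prime F p⟩
  refine ⟨?_, ?_⟩
  · rw [← Cfsg.Agent.S2386.result hF p n (by omega)]
    exact Nat.card_le_card_of_injective Subtype.val Subtype.val_injective
  · have : Finite (CfsgLib.GUClassCount.SDet θ n) := CfsgLib.GUClassCount.finite_sdet θ n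
    letI : Fintype (CfsgLib.GUClassCount.SDet θ n) := Fintype.ofFinite _
    exact (Nat.mul_le_mul_left _ ((CfsgLib.GUClassCount.card_su_classes_le hF hθq hθ hne).trans
      (CfsgLib.GUClassCount.sum_splitU_le θ hF hθq hθ hne (by omega)))).trans
      (CfsgLib.GUClassCount.total_bound q n hq hn)

end Cfsg.Agent.S2481
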