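import Cfsg.Statements.S2482
import Cfsg.Agent.SignedClasses.Key
import Cfsg.Agent.SignedClasses.Series
import Cfsg.Agent.S2385

set_option autoImplicit false
open Cfsg

namespace Cfsg.Agent.S2482

open CfsgLib.SignedClasses

theorem exists_equiv {F : Type*} [Field F] (n : ℕ) : ∃ G : Matrix (Fin (n + n)) (Fin (n + n)) F,
    IsUnit G.det ∧ G.transpose = (-1 : F) • G ∧
      Nonempty (↥(Matrix.symplecticGroup (Fin n) F) ≃* ↥(isoGroup G)) := by
  obtain ⟨Φ, hΦ⟩ : ∃ Φ : Matrix (Fin n ⊕ Fin n) (Fin n ⊕ Fin n) F ≃ₐ[F] Matrix (Fin (n + n)) (Fin (n + n)) F,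
      Φ = Matrix.reindexAlgEquiv F F finSumFinEquiv := ⟨_, rfl⟩
  have hΦt : ∀ A, Φ A.transpose = (Φ A).transpose := fun A => by rw [hΦ]; rfl
  refine ⟨Φ (Matrix.J (Fin n) F), ?_, ?_, ?_⟩
  · rw [hΦ, Matrix.reindexAlgEquiv_apply, Matrix.det_reindex_self]; exact Matrix.isUnit_det_J _ _
  · rw [← hΦt, Matrix.J_transpose, map_neg, neg_one_smul]
  have hgl : ∀ a : ↥(Matrix.symplecticGroup (Fin n) F),
      Φ a.1 * Φ (a⁻¹).1 = 1 ∧ Φ (a⁻¹).1 * Φ a.1 = 1 := fun a => by
    rw [← map_mul, ← map_mul, ← map_one Φ]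
    exact ⟨congrArg Φ (congrArg Subtype.val (mul_inv_cancel a)), congrArg Φ (congrArg Subtype.val (inv_mul_cancel a))⟩
  let f : ↥(Matrix.symplecticGroup (Fin n) F) →* ↥(isoGroup (Φ (Matrix.J (Fin n) F))) :=
    MonoidHom.mk' (fun a => ⟨⟨Φ a.1, Φ (a⁻¹).1, (hgl a).1, (hgl a).2⟩, by
        rw [mem_isoGroup]
        show (Φ a.1).transpose * _ * Φ a.1 = _
        rw [← hΦt, ← map_mul, ← map_mul, SymplecticGroup.mem_iff'.mp a.2]⟩)
      fun a b => Subtype.ext (Units.ext (map_mul Φ a.1 b.1))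
  refine ⟨MulEquiv.ofBijective f ⟨fun a b h => Subtype.ext (Φ.injective (congrArg (fun u => u.1.1) h :)), fun u => ?_⟩⟩
  have hu := mem_isoGroup.mp u.2
  refine ⟨⟨Φ.symm u.1.1, SymplecticGroup.mem_iff'.mpr (Φ.injective ?_)⟩, Subtype.ext (Units.ext (Φ.apply_symm_apply _))⟩
  rw [map_mul, map_mul, hΦt, Φ.apply_symm_apply, hu]

/-- The number of conjugacy classes of Sp(2n,q), q odd: for F a finite field of odd order q and n ≥ 1, the number k of conjugacy classes of Sp(2n,F) satisfies q^n ≤ k ≤ 10.8·q^n. -/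
theorem result {F : Type*} [Field F] [Fintype F] (hodd : Odd (Fintype.card F)) (n : ℕ) (hn : 1 ≤ n) :
    Fintype.card F ^ n ≤ Nat.card (ConjClasses (Matrix.symplecticGroup (Fin n) F)) ∧ 5 * Nat.card (ConjClasses (Matrix.symplecticGroup (Fin n) F)) ≤ 54 * Fintype.card F ^ n := by
  refine ⟨?_, ?_⟩
  · obtain ⟨p, hp⟩ := CharP.exists F
    haveI := hp
    haveI : Fact p.Prime := ⟨(CharP.char_is_prime_or_zero F p).resolve_right (CharP.char_ne_zero_of_finite F p)⟩
    rw [← Cfsg.Agent.S2385.result rfl p n]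
    exact Finite.card_subtype_le _
  · have h2 : (2 : F) ≠ 0 := by
      intro h
      obtain ⟨p, hp⟩ := CharP.exists F
      haveI := hp
      haveI := Fact.mk ((CharP.char_is_prime_or_zero F p).resolve_right (CharP.char_ne_zero_of_finite F p))
      have hp2 : p = 2 := (Nat.prime_dvd_prime_iff_eq Fact.out Nat.prime_two).mp
        ((CharP.cast_eq_zero_iff F p 2).mp (by exact_mod_cast h))
      obtain ⟨e, -, he⟩ := FiniteField.card F p
      exact Nat.not_even_iff_odd.mpr hodd (by rw [he, hp2]; exact Nat.even_pow.mpr ⟨even_two, e.ne_zero⟩)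
    have hq : 3 ≤ Fintype.card F := by
      have := Fintype.one_lt_card (α := F)
      obtain ⟨k, hk⟩ := hodd
      omega
    obtain ⟨G, hG, hGs, ⟨E⟩⟩ := exists_equiv (F := F) n
    have hσ : ∀ j : ℕ, (-1 : F) * (-1) ^ j = 1 ↔ sigmaSp j = true := fun j => by
      rcases Nat.even_or_odd j with h | h
      · rw [h.neg_one_pow, sigmaSp, mul_one]
        refine iff_of_false (fun e => h2 (by linear_combination -e)) ?_
        rw [Nat.even_iff] at h
        simp [h]
      · rw [h.neg_one_pow, sigmaSp, Nat.odd_iff.mp h]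
        simp
    have h1 : Nat.card (ConjClasses (Matrix.symplecticGroup (Fin n) F)) ≤ Nat.card (ConjClasses (isoGroup G)) :=
      Nat.card_le_card_of_surjective (ConjClasses.map E.symm.toMonoidHom)
        (ConjClasses.map_surjective E.symm.surjective)
    refine le_trans (Nat.mul_le_mul_left 5 (h1.trans (card_classes_le h2 G hG (by ring) hGs sigmaSp hσ))) ?_
    obtain ⟨k, hk⟩ : ∃ k, n + n = k + 1 := ⟨n + n - 1, by omega⟩
    have h3 := sp_bound (Fintype.card F) hq k n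
    rwa [← hk, two_mul] at h3

end Cfsg.Agent.S2482
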