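import Cfsg.Statements.S2485
import Mathlib
import Cfsg.Agent.PCore.Basic

set_option autoImplicit false
open scoped Pointwise
open Cfsg

namespace Cfsg.Agent.S2485

/-- Let q = 2^k − 1 ≥ 7 be a prime and let G = PGL(2,q), the general linear group of degree 2 over the field with q elements modulo its centre. Then any two Sylow 2-subgroups of G have a non-trivial intersection: for a Sylow 2-subgroup H and every x ∈ G, H ∩ H^x ≠ 1. -/
theorem result {q k : ℕ} [Fact q.Prime] (hk : q + 1 = 2 ^ k) (hq : 7 ≤ q)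
    (H : Sylow 2 (GL (Fin 2) (ZMod q) ⧸ Subgroup.center (GL (Fin 2) (ZMod q))))
    (x : GL (Fin 2) (ZMod q) ⧸ Subgroup.center (GL (Fin 2) (ZMod q))) :
    (H : Subgroup (GL (Fin 2) (ZMod q) ⧸ Subgroup.center (GL (Fin 2) (ZMod q)))) ⊓ MulAut.conj x • (H : Subgroup _) ≠ ⊥ := by
  classical
  have h3 : q ≠ 2 := by omega
  have h2 : (2 : ZMod q) ≠ 0 := by
    intro h
    rw [show (2 : ZMod q) = ((2 : ℕ) : ZMod q) by norm_num, ZMod.natCast_eq_zero_iff] at h
    exact absurd (Nat.le_of_dvd two_pos h) (by omega)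
  let π := QuotientGroup.mk' (Subgroup.center (GL (Fin 2) (ZMod q)))
  have hπ : Function.Surjective π := QuotientGroup.mk'_surjective _
  -- scalars
  have hscal : ∀ g : GL (Fin 2) (ZMod q), π g = 1 ↔ ∃ c : ZMod q, (g : Matrix (Fin 2) (Fin 2) (ZMod q)) = c • 1 := by
    intro g
    rw [QuotientGroup.mk'_apply, QuotientGroup.eq_one_iff, Matrix.GeneralLinearGroup.center_eq_range_scalar]
    constructor
    · rintro ⟨c, rfl⟩
      exact ⟨c, by simp [Matrix.GeneralLinearGroup.scalar, Matrix.smul_one_eq_diagonal]⟩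
    · rintro ⟨c, hc⟩
      have hd := (Matrix.isUnit_iff_isUnit_det _).mp g.isUnit
      rw [hc, Matrix.det_smul, Matrix.det_one, mul_one, Fintype.card_fin, isUnit_pow_iff two_ne_zero] at hd
      exact ⟨hd.unit, Units.ext (by simp [Matrix.GeneralLinearGroup.scalar, hc, Matrix.smul_one_eq_diagonal])⟩
  have hZ : Nat.card (Subgroup.center (GL (Fin 2) (ZMod q))) = q - 1 := by
    rw [Matrix.GeneralLinearGroup.center_eq_range_scalar,
      Nat.card_congr (MonoidHom.ofInjective (f := Matrix.GeneralLinearGroup.scalar (Fin 2)) ?_).symm.toEquiv,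
      Nat.card_units, Nat.card_zmod]
    intro a b h
    have := congrArg (fun g : GL (Fin 2) (ZMod q) => (g : Matrix (Fin 2) (Fin 2) (ZMod q)) 0 0) h
    exact Units.ext (by simpa [Matrix.GeneralLinearGroup.scalar] using this)
  have hG : Nat.card (GL (Fin 2) (ZMod q) ⧸ (Subgroup.center (GL (Fin 2) (ZMod q)))) = q * (q + 1) * (q - 1) := by
    have h := Subgroup.card_eq_card_quotient_mul_card_subgroup (Subgroup.center (GL (Fin 2) (ZMod q)))
    rw [hZ, Matrix.card_GL_field, ZMod.card, Fin.prod_univ_two] at h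
    simp only [Fin.val_zero, Fin.val_one, pow_zero, pow_one] at h
    have e1 : q ^ 2 - 1 = (q + 1) * (q - 1) := by simpa using Nat.sq_sub_sq q 1
    have e2 : q ^ 2 - q = q * (q - 1) := by rw [Nat.mul_sub, mul_one, pow_two]
    rw [e1, e2] at h
    exact Nat.eq_of_mul_eq_mul_right (by omega) (h.symm.trans (by ring))
  have hk3 : 3 ≤ k := by
    by_contra h
    have : (2 : ℕ) ^ k ≤ 2 ^ 2 := Nat.pow_le_pow_right two_pos (by omega)
    omega
  obtain ⟨m, hm⟩ := IsPGroup.iff_card.mp H.2
  have hodd : ∃ r, q - 1 = 2 * r ∧ Odd r := by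
    refine ⟨2 ^ (k - 1) - 1, ?_, ?_⟩
    · have : 2 ^ k = 2 * 2 ^ (k - 1) := by rw [← pow_succ', show k - 1 + 1 = k by omega]
      omega
    · exact Nat.Even.sub_odd Nat.one_le_two_pow ((Nat.even_pow' (by omega)).mpr even_two) odd_one
  obtain ⟨r, hr, hro⟩ := hodd
  have hqo : Odd q := (Fact.out : q.Prime).odd_of_ne_two h3
  have hHc : Nat.card (H : Subgroup (GL (Fin 2) (ZMod q) ⧸ (Subgroup.center (GL (Fin 2) (ZMod q))))) = 2 * (q + 1) := by
    rw [hk, ← pow_succ', hm]
    congr 1
    refine le_antisymm ?_ ?_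
    · by_contra hlt
      have h1 : 2 ^ (k + 2) ∣ q * (q + 1) * (q - 1) := hG ▸ (pow_dvd_pow 2 (by omega : k + 2 ≤ m)).trans
        (hm ▸ Subgroup.card_subgroup_dvd_card _)
      rw [hk, hr, show q * 2 ^ k * (2 * r) = 2 ^ (k + 1) * (q * r) by ring,
        show 2 ^ (k + 2) = 2 ^ (k + 1) * 2 by ring] at h1
      exact Nat.not_even_iff_odd.mpr (hqo.mul hro)
        (even_iff_two_dvd.mpr (Nat.dvd_of_mul_dvd_mul_left (by positivity) h1))
    · have h1 : 2 ^ (k + 1) ∣ Nat.card (H : Subgroup (GL (Fin 2) (ZMod q) ⧸ (Subgroup.center (GL (Fin 2) (ZMod q))))) := by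
        refine H.pow_dvd_card_of_pow_dvd_card ?_
        rw [hG, hk, hr]
        exact ⟨q * r, by ring⟩
      rw [hm] at h1
      exact (Nat.pow_dvd_pow_iff_le_right one_lt_two).mp h1
  -- a central involution of `H`
  haveI : Nontrivial (H : Subgroup (GL (Fin 2) (ZMod q) ⧸ (Subgroup.center (GL (Fin 2) (ZMod q))))) :=
    Finite.one_lt_card_iff_nontrivial.mp (by rw [hHc]; omega)
  haveI := H.2.center_nontrivial
  obtain ⟨e, he⟩ := IsPGroup.iff_card.mp (H.2.to_subgroup (Subgroup.center _))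
  have he0 : e ≠ 0 := fun h => by
    have h1 := Finite.one_lt_card_iff_nontrivial.mpr
      (inferInstance : Nontrivial (Subgroup.center (H : Subgroup (GL (Fin 2) (ZMod q) ⧸ (Subgroup.center (GL (Fin 2) (ZMod q)))))))
    rw [he, h, pow_zero] at h1
    omega
  obtain ⟨⟨⟨z, hzH⟩, hzc⟩, hzo⟩ := exists_prime_orderOf_dvd_card' 2
    (he ▸ dvd_pow_self 2 he0 : 2 ∣ Nat.card (Subgroup.center (H : Subgroup (GL (Fin 2) (ZMod q) ⧸ (Subgroup.center (GL (Fin 2) (ZMod q)))))))
  rw [← Subgroup.orderOf_coe, ← Subgroup.orderOf_coe] at hzo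
  change orderOf z = 2 at hzo
  have hHz : (H : Subgroup _) ≤ Subgroup.centralizer ({z} : Set _) := fun h hh =>
    Subgroup.mem_centralizer_singleton_iff.mpr
      (congrArg Subtype.val (Subgroup.mem_center_iff.mp hzc ⟨h, hh⟩))
  obtain ⟨g0, hg0⟩ := hπ z
  set A := (g0 : Matrix (Fin 2) (Fin 2) (ZMod q)) with hA
  have hz1 : z ≠ 1 := fun h => by rw [h, orderOf_one] at hzo; norm_num at hzo
  obtain ⟨a, ha⟩ : ∃ a : ZMod q, A * A = a • 1 := by
    obtain ⟨c, hc⟩ := (hscal (g0 * g0)).mp (by rw [map_mul, hg0, ← pow_two]; exact orderOf_dvd_iff_pow_eq_one.mp hzo.dvd)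
    exact ⟨c, by rw [← hc]; rfl⟩
  have hnsc : ∀ c : ZMod q, A ≠ c • 1 := fun c hc => hz1 (hg0 ▸ (hscal g0).mpr ⟨c, hc⟩)
  have e00 := congrArg (fun M : Matrix (Fin 2) (Fin 2) (ZMod q) => M 0 0) ha
  have e01 := congrArg (fun M : Matrix (Fin 2) (Fin 2) (ZMod q) => M 0 1) ha
  have e10 := congrArg (fun M : Matrix (Fin 2) (Fin 2) (ZMod q) => M 1 0) ha
  have e11 := congrArg (fun M : Matrix (Fin 2) (Fin 2) (ZMod q) => M 1 1) ha
  simp [Matrix.mul_apply, Fin.sum_univ_two] at e00 e01 e10 e11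
  have htr : A 1 1 = -A 0 0 := by
    by_contra h
    have hs : A 0 0 + A 1 1 ≠ 0 := fun h' => h (eq_neg_of_add_eq_zero_right h')
    have hb : A 0 1 = 0 := (mul_eq_zero.mp (by linear_combination e01 : A 0 1 * (A 0 0 + A 1 1) = 0)).resolve_right hs
    have hc : A 1 0 = 0 := (mul_eq_zero.mp (by linear_combination e10 : A 1 0 * (A 0 0 + A 1 1) = 0)).resolve_right hs
    have hd : A 0 0 = A 1 1 := sub_eq_zero.mp
      ((mul_eq_zero.mp (by linear_combination e00 - e11 : (A 0 0 - A 1 1) * (A 0 0 + A 1 1) = 0)).resolve_right hs)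
    refine hnsc (A 0 0) ?_
    ext i j
    fin_cases i <;> fin_cases j <;> simp [hb, hc, hd]
  have ha0 : a ≠ 0 := fun h => by
    have hd := (Matrix.isUnit_iff_isUnit_det _).mp (g0 * g0).isUnit
    rw [show ((g0 * g0 : GL (Fin 2) (ZMod q)) : Matrix (Fin 2) (Fin 2) (ZMod q)) = A * A from rfl, ha, h,
      zero_smul, Matrix.det_zero] at hd
    exact not_isUnit_zero hd
  -- the commutant
  have hspan : ∀ B : Matrix (Fin 2) (Fin 2) (ZMod q), B * A = A * B → ∃ x y : ZMod q, B = x • 1 + y • A := by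
    intro B hB
    have f00 := congrArg (fun M : Matrix (Fin 2) (Fin 2) (ZMod q) => M 0 0) hB
    have f01 := congrArg (fun M : Matrix (Fin 2) (Fin 2) (ZMod q) => M 0 1) hB
    have f10 := congrArg (fun M : Matrix (Fin 2) (Fin 2) (ZMod q) => M 1 0) hB
    simp [Matrix.mul_apply, Fin.sum_univ_two, htr] at f00 f01 f10
    by_cases hb : A 0 1 = 0
    · by_cases hc : A 1 0 = 0
      · have hal : A 0 0 ≠ 0 := fun h => hnsc 0 (by ext i j; fin_cases i <;> fin_cases j <;> simp [h, hb, hc, htr])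
        simp only [hb, hc, mul_zero, zero_mul, add_zero, zero_add] at f01 f10
        have g01 : B 0 1 = 0 := (mul_eq_zero.mp (by linear_combination (-1 : ZMod q) * f01 :
          B 0 1 * (2 * A 0 0) = 0)).resolve_right (mul_ne_zero h2 hal)
        have g10 : B 1 0 = 0 := (mul_eq_zero.mp (by linear_combination f10 :
          B 1 0 * (2 * A 0 0) = 0)).resolve_right (mul_ne_zero h2 hal)
        refine ⟨(B 0 0 + B 1 1) / 2, (B 0 0 - B 1 1) / (2 * A 0 0), ?_⟩
        ext i j
        fin_cases i <;> fin_cases j <;> simp [g01, g10, hb, hc, htr] <;> field_simp <;> ring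
      · refine ⟨B 0 0 - B 1 0 / A 1 0 * A 0 0, B 1 0 / A 1 0, ?_⟩
        ext i j
        fin_cases i <;> fin_cases j <;> simp [htr] <;> field_simp <;>
          first | ring1 | linear_combination f00 | linear_combination -f00 | linear_combination f10 |
            linear_combination -f10
    · refine ⟨B 0 0 - B 0 1 / A 0 1 * A 0 0, B 0 1 / A 0 1, ?_⟩
      ext i j
      fin_cases i <;> fin_cases j <;> simp [htr] <;> field_simp <;>
        first | ring1 | linear_combination f00 | linear_combination -f00 | linear_combination f01 |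
          linear_combination -f01
  let KA := {g : GL (Fin 2) (ZMod q) // (g : Matrix (Fin 2) (Fin 2) (ZMod q)) * A = A * g}
  choose cx cy hcxy using fun g : KA => hspan g.1 g.2
  have hcinj : Function.Injective (fun g : KA => (cx g, cy g)) := fun g g' e => by
    simp only [Prod.mk.injEq] at e
    exact Subtype.ext (Units.ext (by rw [hcxy g, hcxy g', e.1, e.2]))
  have hC : Nat.card (Subgroup.centralizer ({z} : Set (GL (Fin 2) (ZMod q) ⧸ (Subgroup.center (GL (Fin 2) (ZMod q)))))) * (q - 1) ≤ 2 * Nat.card KA := by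
    let KB := {g : GL (Fin 2) (ZMod q) // (g : Matrix (Fin 2) (Fin 2) (ZMod q)) * A = -(A * g)}
    have hKB : Nat.card KB ≤ Nat.card KA := by
      rcases isEmpty_or_nonempty KB with h | ⟨⟨w, hw⟩⟩
      · simp
      refine Nat.card_le_card_of_injective (fun g : KB => (⟨w⁻¹ * g.1, ?_⟩ : KA)) fun g g' e => ?_
      · have hw' : A * ((w⁻¹ : GL (Fin 2) (ZMod q)) : Matrix (Fin 2) (Fin 2) (ZMod q)) =
            -(((w⁻¹ : GL (Fin 2) (ZMod q)) : Matrix (Fin 2) (Fin 2) (ZMod q)) * A) := by
          calc A * ((w⁻¹ : GL (Fin 2) (ZMod q)) : Matrix (Fin 2) (Fin 2) (ZMod q))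
              = ((w⁻¹ * w : GL (Fin 2) (ZMod q)) : Matrix (Fin 2) (Fin 2) (ZMod q)) * A *
                ((w⁻¹ : GL (Fin 2) (ZMod q)) : Matrix (Fin 2) (Fin 2) (ZMod q)) := by rw [inv_mul_cancel]; simp
            _ = _ := by
              rw [Units.val_mul, mul_assoc _ (w : Matrix (Fin 2) (Fin 2) (ZMod q)) A, hw, mul_neg, neg_mul,
                mul_assoc, mul_assoc A, ← Units.val_mul, mul_inv_cancel, Units.val_one, mul_one]
        rw [Units.val_mul, ← mul_assoc A, hw', mul_assoc, g.2, mul_neg, neg_mul, mul_assoc]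
      · exact Subtype.ext (mul_left_cancel (congrArg Subtype.val e))
    have hcov : ∀ g ∈ (Subgroup.centralizer ({z} : Set (GL (Fin 2) (ZMod q) ⧸ (Subgroup.center (GL (Fin 2) (ZMod q)))))).comap π,
        (g : Matrix (Fin 2) (Fin 2) (ZMod q)) * A = A * g ∨
          (g : Matrix (Fin 2) (Fin 2) (ZMod q)) * A = -(A * g) := by
      intro g hg
      have hgc : π (g * g0 * (g0 * g)⁻¹) = 1 := by
        rw [map_mul, map_inv, map_mul, map_mul, hg0, mul_inv_eq_one]
        exact Subgroup.mem_centralizer_singleton_iff.mp hg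
      obtain ⟨c, hc⟩ := (hscal _).mp hgc
      have hgA : (g : Matrix (Fin 2) (Fin 2) (ZMod q)) * A = c • (A * g) := by
        calc (g : Matrix (Fin 2) (Fin 2) (ZMod q)) * A
            = ((g * g0 * (g0 * g)⁻¹ * (g0 * g) : GL (Fin 2) (ZMod q)) : Matrix (Fin 2) (Fin 2) (ZMod q)) := by
              rw [inv_mul_cancel_right]; rfl
          _ = _ := by rw [Units.val_mul, hc, smul_mul_assoc, one_mul]; rfl
      have hc2 : a • (g : Matrix (Fin 2) (Fin 2) (ZMod q)) = (c * c * a) • (g : Matrix (Fin 2) (Fin 2) (ZMod q)) := by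
        calc a • (g : Matrix (Fin 2) (Fin 2) (ZMod q)) = (g : Matrix (Fin 2) (Fin 2) (ZMod q)) * (A * A) := by
              rw [ha, mul_smul_comm, mul_one]
          _ = _ := by
              rw [← mul_assoc, hgA, smul_mul_assoc, mul_assoc A, hgA, mul_smul_comm, ← mul_assoc, ha,
                smul_mul_assoc, one_mul, smul_smul, smul_smul, mul_assoc]
      have hcc : c * c = 1 := by
        have hgn : (g : Matrix (Fin 2) (Fin 2) (ZMod q)) ≠ 0 := g.ne_zero
        have := smul_left_injective (ZMod q) hgn hc2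
        exact mul_right_cancel₀ ha0 (by linear_combination -this)
      rcases mul_self_eq_one_iff.mp hcc with rfl | rfl
      · exact Or.inl (by rw [hgA, one_smul])
      · exact Or.inr (by rw [hgA, neg_one_smul])
    have h1 := Nat.card_le_card_of_injective
      (fun g : (Subgroup.centralizer ({z} : Set (GL (Fin 2) (ZMod q) ⧸ (Subgroup.center (GL (Fin 2) (ZMod q)))))).comap π =>
        if h : ((g : GL (Fin 2) (ZMod q)) : Matrix (Fin 2) (Fin 2) (ZMod q)) * A = A * (g : GL (Fin 2) (ZMod q))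
          then (Sum.inl ⟨g, h⟩ : KA ⊕ KB) else Sum.inr ⟨g, (hcov g g.2).resolve_left h⟩)
      (fun g g' e => by
        dsimp only at e
        split_ifs at e <;> simp at e <;> exact Subtype.ext (Subtype.mk.inj e))
    rw [Nat.card_sum] at h1
    rw [CfsgLib.PCore.card_comap_mk', hZ, mul_comm (q - 1)] at h1
    omega
  have hKA : Nat.card KA + 1 ≤ q ^ 2 := by
    have hne : ∀ g : KA, (cx g, cy g) ≠ (0, 0) := fun g e => by
      simp only [Prod.mk.injEq] at e
      exact g.1.ne_zero (by rw [hcxy g, e.1, e.2, zero_smul, zero_smul, add_zero])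
    have h := Nat.card_le_card_of_injective (fun g : KA => (⟨(cx g, cy g), hne g⟩ : {v : ZMod q × ZMod q // v ≠ (0, 0)}))
      (fun g g' e => hcinj (congrArg Subtype.val e))
    rw [Nat.card_eq_fintype_card (α := {v : ZMod q × ZMod q // v ≠ (0, 0)}), Fintype.card_subtype_compl,
      Fintype.card_subtype_eq, Fintype.card_prod, ZMod.card, ← pow_two] at h
    have : 0 < q ^ 2 := by positivity
    omega
  have hle := Subgroup.card_le_of_le hHz
  have hcast : ((q : ℤ) - 1) = ((q - 1 : ℕ) : ℤ) := by rw [Nat.cast_sub (by omega)]; rfl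
  have hCeq : Subgroup.centralizer ({z} : Set (GL (Fin 2) (ZMod q) ⧸ (Subgroup.center (GL (Fin 2) (ZMod q))))) = (H : Subgroup _) := by
    refine (Subgroup.eq_of_le_of_card_ge hHz ?_).symm
    rw [hHc]
    by_contra hlt
    push Not at hlt
    have h1 := Nat.mul_le_mul_right (q - 1) hlt
    zify [show 1 ≤ q by omega] at h1 hC hKA
    nlinarith
  have hns : ∀ s : ZMod q, s * s ≠ a := by
    intro s hs
    have hs0 : s ≠ 0 := fun h => ha0 (by rw [← hs, h, mul_zero])
    have hne : ∀ g : KA, cx g + cy g * s ≠ 0 ∧ cx g - cy g * s ≠ 0 := by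
      intro g
      have hd := ((Matrix.isUnit_iff_isUnit_det _).mp g.1.isUnit).ne_zero
      rw [hcxy g, Matrix.det_fin_two] at hd
      simp [htr] at hd
      rw [← mul_ne_zero_iff]
      intro h
      apply hd
      linear_combination h + cy g * cy g * hs - cy g * cy g * e00
    have h := Nat.card_le_card_of_injective
      (fun g : KA => ((⟨cx g + cy g * s, (hne g).1⟩, ⟨cx g - cy g * s, (hne g).2⟩) :
        {v : ZMod q // v ≠ 0} × {v : ZMod q // v ≠ 0}))
      (fun g g' e => hcinj (by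
        simp only [Prod.mk.injEq, Subtype.mk.injEq] at e ⊢
        have ex : cx g = cx g' := mul_left_cancel₀ h2 (by linear_combination e.1 + e.2)
        exact ⟨ex, mul_right_cancel₀ hs0 (by linear_combination e.1 - ex)⟩))
    rw [Nat.card_prod, Nat.card_eq_fintype_card (α := {v : ZMod q // v ≠ 0}), Fintype.card_subtype_compl,
      Fintype.card_subtype_eq, ZMod.card] at h
    rw [hCeq, hHc] at hC
    have h1 : (q + 1) * (q - 1) ≤ (q - 1) * (q - 1) :=
      Nat.le_of_mul_le_mul_left (by rw [← mul_assoc]; exact hC.trans (Nat.mul_le_mul_left 2 h)) two_pos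
    have := Nat.le_of_mul_le_mul_right h1 (by omega)
    omega
  -- a common involution of the two centralisers
  obtain ⟨gx, hgx⟩ := hπ x
  set A' := ((gx * g0 * gx⁻¹ : GL (Fin 2) (ZMod q)) : Matrix (Fin 2) (Fin 2) (ZMod q)) with hA'
  have ha' : A' * A' = a • 1 := by
    rw [hA', ← Units.val_mul, show gx * g0 * gx⁻¹ * (gx * g0 * gx⁻¹) = gx * (g0 * g0) * gx⁻¹ by group,
      Units.val_mul, Units.val_mul, Units.val_mul, ← hA, ha, mul_smul_comm, mul_one, smul_mul_assoc,
      ← Units.val_mul, mul_inv_cancel, Units.val_one]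
  have htr' : A' 1 1 = -A' 0 0 := by
    have : Matrix.trace A' = Matrix.trace A := by
      rw [hA', Units.val_mul, Matrix.trace_mul_comm, ← Units.val_mul, ← mul_assoc, inv_mul_cancel, one_mul]
    rw [Matrix.trace_fin_two, Matrix.trace_fin_two, htr] at this
    linear_combination this
  set X := A * A' - A' * A with hX
  have hXA : X * A = -(A * X) := by
    rw [hX]; simp only [sub_mul, mul_sub, mul_assoc, ha]
    rw [← mul_assoc A A A', ha]; simp
  have hXA' : X * A' = -(A' * X) := by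
    rw [hX]; simp only [sub_mul, mul_sub, mul_assoc, ha']
    rw [← mul_assoc A' A' A, ha']; simp
  suffices hu : ∃ u : GL (Fin 2) (ZMod q) ⧸ (Subgroup.center (GL (Fin 2) (ZMod q))), u ≠ 1 ∧ Commute u z ∧ Commute u (x * z * x⁻¹) by
    obtain ⟨u, hu1, hu2, hu3⟩ := hu
    refine fun hbot => hu1 ((Subgroup.eq_bot_iff_forall _).mp hbot u ⟨?_, ?_⟩)
    · exact hCeq ▸ Subgroup.mem_centralizer_singleton_iff.mpr hu2.eq
    · show u ∈ MulAut.conj x • (H : Subgroup _)
      rw [Subgroup.mem_pointwise_smul_iff_inv_smul_mem]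
      refine hCeq ▸ Subgroup.mem_centralizer_singleton_iff.mpr ?_
      show (MulAut.conj x).symm u * z = z * (MulAut.conj x).symm u
      simp only [MulAut.conj_symm_apply]
      calc x⁻¹ * u * x * z = x⁻¹ * (u * (x * z * x⁻¹)) * x := by group
        _ = z * (x⁻¹ * u * x) := by rw [hu3.eq]; group
  by_cases hX0 : X = 0
  · refine ⟨z, hz1, Commute.refl z, ?_⟩
    have hc : Commute g0 (gx * g0 * gx⁻¹) := Units.ext (sub_eq_zero.mp hX0)
    have := hc.map π
    rwa [map_mul, map_mul, map_inv, hg0, hgx] at this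
  · have htrX : X 1 1 = -X 0 0 := by
      rw [hX]; simp [Matrix.mul_apply, Fin.sum_univ_two, htr, htr']; ring
    have hdet : X.det ≠ 0 := by
      intro hd
      rw [Matrix.det_fin_two, htrX] at hd
      have f00 := congrArg (fun M : Matrix (Fin 2) (Fin 2) (ZMod q) => M 0 0) hXA
      simp [Matrix.mul_apply, Fin.sum_univ_two, htr] at f00
      by_cases hf : X 0 1 = 0
      · have he : X 0 0 = 0 := mul_self_eq_zero.mp (by linear_combination -hd - X 1 0 * hf)
        have hg : X 1 0 ≠ 0 := fun h => hX0 (by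
          ext i j; fin_cases i <;> fin_cases j <;> simp [hf, he, htrX, h])
        have hb : A 0 1 = 0 := (mul_eq_zero.mp (by
          linear_combination f00 - A 1 0 * hf - 2 * A 0 0 * he : A 0 1 * X 1 0 = 0)).resolve_right hg
        exact hns (A 0 0) (by linear_combination e00 - A 1 0 * hb)
      · refine hns ((A 0 0 * X 0 1 - A 0 1 * X 0 0) / X 0 1) ?_
        field_simp
        linear_combination (X 0 1) ^ 2 * e00 - A 0 1 * X 0 1 * f00 - (A 0 1) ^ 2 * hd
    let w : GL (Fin 2) (ZMod q) := ((Matrix.isUnit_iff_isUnit_det _).mpr (isUnit_iff_ne_zero.mpr hdet)).unit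
    have hw : (w : Matrix (Fin 2) (Fin 2) (ZMod q)) = X := IsUnit.unit_spec _
    have hm1 : ∀ g : GL (Fin 2) (ZMod q), (w : Matrix (Fin 2) (Fin 2) (ZMod q)) * g = -(g * w) →
        Commute (π w) (π g) := fun g hg => by
      show π w * π g = π g * π w
      rw [← mul_inv_eq_one, ← map_mul, ← map_mul, ← map_inv, ← map_mul, hscal]
      refine ⟨-1, ?_⟩
      calc ((w * g * (g * w)⁻¹ : GL (Fin 2) (ZMod q)) : Matrix (Fin 2) (Fin 2) (ZMod q))
          = -((g * w * (g * w)⁻¹ : GL (Fin 2) (ZMod q)) : Matrix (Fin 2) (Fin 2) (ZMod q)) := by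
            rw [Units.val_mul, Units.val_mul w g, hg, Units.val_mul (g * w), Units.val_mul g w, neg_mul]
        _ = _ := by rw [mul_inv_cancel, Units.val_one, neg_one_smul]
    refine ⟨π w, fun h => ?_, ?_, ?_⟩
    · obtain ⟨c, hc⟩ := (hscal w).mp h
      rw [hw] at hc
      rw [hc] at htrX
      simp at htrX
      have : c = 0 := (mul_eq_zero.mp (by linear_combination htrX : (2 : ZMod q) * c = 0)).resolve_left h2
      exact hX0 (by rw [hc, this, zero_smul])
    · exact hg0 ▸ hm1 g0 (hw ▸ hXA)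
    · have := hm1 (gx * g0 * gx⁻¹) (hw ▸ hXA')
      rwa [map_mul π (gx * g0), map_mul, map_inv, hg0, hgx] at this

end Cfsg.Agent.S2485
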