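import Cfsg.Statements.S2486
import Cfsg.Agent.SLBlocks.BigCell
-- import your own Cfsg.Agent.* helpers here

set_option autoImplicit false
set_option linter.style.haveILetI false
open scoped Pointwise
open Cfsg

namespace Cfsg.Agent.S2486

/-- Let n ≥ 4 and let G be a finite group with a normal subgroup N of index 2 isomorphic to SL(n,2) and with trivial centralizer in G (so G is the extension of the simple group L_n(2) by its inverse-transpose automorphism, its full automorphism group). Then any two Sylow 2-subgroups of G have a non-trivial intersection: for a Sylow 2-subgroup H and every x ∈ G, H ∩ H^x ≠ 1. -/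
theorem result {G : Type*} [Group G] [Finite G] {n : ℕ} (hn : 4 ≤ n) (N : Subgroup G) [N.Normal]
    (e : N ≃* Matrix.SpecialLinearGroup (Fin n) (ZMod 2)) (hidx : N.index = 2)
    (hC : Subgroup.centralizer (N : Set G) = ⊥)
    (H : Sylow 2 G) (x : G) :
    (H : Subgroup G) ⊓ MulAut.conj x • (H : Subgroup G) ≠ ⊥ := by
  classical
  haveI : Fact (Nat.Prime 2) := ⟨Nat.prime_two⟩
  intro hbot
  -- `H ∩ N` is a Sylow subgroup of `N`
  let P0 : Subgroup N := (H : Subgroup G).subgroupOf N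
  have hPg : IsPGroup 2 P0 := H.isPGroup'.comap_of_injective N.subtype N.subtype_injective
  have hPi : ¬ 2 ∣ P0.index := by
    have h1 := Subgroup.relIndex_mul_index (inf_le_left : (H : Subgroup G) ⊓ N ≤ H)
    have h2 := Subgroup.relIndex_mul_index (inf_le_right : (H : Subgroup G) ⊓ N ≤ N)
    rw [Subgroup.inf_relIndex_left] at h1
    rw [Subgroup.inf_relIndex_right, hidx] at h2
    change ¬ 2 ∣ (H : Subgroup G).relIndex N
    have hd := Subgroup.relIndex_dvd_index_of_normal N (H : Subgroup G)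
    rw [hidx] at hd
    rcases (Nat.dvd_prime Nat.prime_two).1 hd with h | h
    · exact absurd ⟨(H : Subgroup G).relIndex N, by rw [← one_mul (H : Subgroup G).index, ← h, h1, ← h2, mul_comm]⟩
        H.not_dvd_index
    · rw [h, ← h2, mul_comm 2, Nat.mul_left_inj two_ne_zero] at h1
      rw [← h1]
      exact H.not_dvd_index
  let P : Sylow 2 N := hPg.toSylow hPi
  have hP : ∀ a : N, a ∈ (P : Subgroup N) ↔ (a : G) ∈ H := fun a => Iff.rfl
  -- move it onto the unitriangular group
  obtain ⟨U, hU⟩ := CfsgLib.SLn.Unip.exists_sylow_eq_upperUni (K := ZMod 2) (n := n) 2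
  let P1 : Sylow 2 (Matrix.SpecialLinearGroup (Fin n) (ZMod 2)) :=
    P.mapSurjective (f := (e : N →* Matrix.SpecialLinearGroup (Fin n) (ZMod 2))) e.surjective
  obtain ⟨c, hc⟩ := MulAction.exists_smul_eq (Matrix.SpecialLinearGroup (Fin n) (ZMod 2)) P1 U
  let φ : N ≃* Matrix.SpecialLinearGroup (Fin n) (ZMod 2) := e.trans (MulAut.conj c)
  have hφ : ∀ a : N, φ a ∈ CfsgLib.SLn.Unip.upperUni (ZMod 2) n ↔ (a : G) ∈ H := fun a => by
    rw [← hU, ← hc, ← hP]
    change MulAut.conj c (e a) ∈ MulAut.conj c • (P.1.map (e : N →* _)) ↔ _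
    rw [show MulAut.conj c (e a) = MulAut.conj c • e a from rfl, Subgroup.smul_mem_pointwise_smul_iff]
    exact Subgroup.mem_map_iff_mem e.injective
  -- every triangular matrix over two elements is unitriangular
  have hB : ∀ g, g ∈ CfsgLib.SLBlocks.borel (ZMod 2) n → g ∈ CfsgLib.SLn.Unip.upperUni (ZMod 2) n :=
    fun g hg => ⟨hg, fun i => by
      have h := CfsgLib.SLBlocks.diag_ne_zero hg i
      have h2 : ∀ z : ZMod 2, z ≠ 0 → z = 1 := fun z hz => by
        fin_cases z
        · exact absurd rfl hz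
        · rfl
      exact h2 _ h⟩
  -- an element of `H` outside `N`
  obtain ⟨h₀, hh₀H, hh₀N⟩ : ∃ h ∈ (H : Subgroup G), h ∉ N := by
    by_contra hno
    push Not at hno
    apply H.not_dvd_index
    have := Subgroup.index_dvd_of_le hno
    rwa [hidx] at this
  obtain ⟨y, hy, hxy⟩ : ∃ y ∈ N, MulAut.conj x • (H : Subgroup G) = MulAut.conj y • (H : Subgroup G) := by
    by_cases hx : x ∈ N
    · exact ⟨x, hx, rfl⟩
    · refine ⟨x * h₀, ?_, ?_⟩
      · rw [Subgroup.mul_mem_iff_of_index_two hidx]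
        exact iff_of_false hx hh₀N
      · rw [map_mul, mul_smul, Subgroup.conj_smul_eq_self_of_mem hh₀H]
  rw [hxy] at hbot
  have hmeet : ∀ g ∈ (H : Subgroup G), y⁻¹ * g * y ∈ (H : Subgroup G) → g = 1 := fun g hg hg' => by
    have : g ∈ (H : Subgroup G) ⊓ MulAut.conj y • (H : Subgroup G) :=
      ⟨hg, Subgroup.mem_pointwise_smul_iff_inv_smul_mem.2 (by
        simpa [MulAut.smul_def, MulAut.conj_inv_apply] using hg')⟩
    rwa [hbot, Subgroup.mem_bot] at this
  have good : ∀ z : N, (∀ g ∈ (H : Subgroup G), (z : G)⁻¹ * g * z ∈ (H : Subgroup G) → g = 1) →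
      CfsgLib.SLBlocks.Good (ZMod 2) n (φ z) := by
    intro z hz
    rcases CfsgLib.SLBlocks.dichotomy (φ z) with ⟨u, hu, hpsi⟩ | hg
    · exfalso
      obtain ⟨a, ha⟩ := φ.surjective (u : Matrix.SpecialLinearGroup (Fin n) (ZMod 2))
      have hu1 : u = 1 := by
        have ha1 : (a : G) = 1 := hz a ((hφ a).1 (ha ▸ u.2)) (by
          have h2 := (hφ (z⁻¹ * a * z)).1 (by
            rw [map_mul, map_mul, map_inv, ha]
            exact hB _ hu)
          exact h2)
        refine Subtype.ext ?_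
        rw [← ha, show a = 1 from Subtype.ext ha1, map_one]
        rfl
      exact hpsi (by rw [hu1, map_one])
    · exact hg
  let yN : N := ⟨y, hy⟩
  let y' : N := ⟨h₀ * y * h₀⁻¹, Subgroup.Normal.conj_mem inferInstance y hy h₀⟩
  have gy : CfsgLib.SLBlocks.Good (ZMod 2) n (φ yN) := good yN hmeet
  have gy' : CfsgLib.SLBlocks.Good (ZMod 2) n (φ y') := good y' (fun g hg hg' => by
    have h1 := hmeet (h₀⁻¹ * g * h₀) (mul_mem (mul_mem (inv_mem hh₀H) hg) hh₀H) (by
      have h2 := mul_mem (mul_mem (inv_mem hh₀H) hg') hh₀H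
      convert h2 using 1
      change _ = h₀⁻¹ * ((h₀ * y * h₀⁻¹)⁻¹ * g * (h₀ * y * h₀⁻¹)) * h₀
      group)
    have := congrArg (fun k => h₀ * k * h₀⁻¹) h1
    simpa [mul_assoc] using this)
  obtain ⟨u, hu, b, hb, hub⟩ := CfsgLib.SLBlocks.good_eq gy' gy
  obtain ⟨a, rfl⟩ := φ.surjective u
  obtain ⟨b', rfl⟩ := φ.surjective b
  have haH := (hφ a).1 hu
  have hbH := (hφ b').1 (hB _ hb)
  rw [← map_mul, ← map_mul] at hub
  have he : h₀ * y * h₀⁻¹ = (a : G) * y * b' := congrArg Subtype.val (φ.injective hub)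
  -- the element `a⁻¹ h₀` lies in both Sylow subgroups
  have h1 := hmeet ((a : G)⁻¹ * h₀) (mul_mem (inv_mem haH) hh₀H) (by
    have e1 : y⁻¹ * ((a : G)⁻¹ * h₀) * y = y⁻¹ * (a : G)⁻¹ * (h₀ * y * h₀⁻¹) * h₀ := by group
    have e2 : y⁻¹ * ((a : G)⁻¹ * h₀) * y = (b' : G) * h₀ := by rw [e1, he]; group
    rw [e2]
    exact mul_mem hbH hh₀H)
  exact hh₀N (by rw [(inv_mul_eq_one.1 h1).symm]; exact a.2)

end Cfsg.Agent.S2486
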