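import Cfsg.Statements.S2487
import Mathlib

set_option autoImplicit false
open scoped Pointwise
open Cfsg

namespace Cfsg.Agent.S2487

open Matrix Module
open scoped Classical

section

variable {F : Type*} [Field F] [Fintype F] {m : ℕ}

/-- The polar form. -/
noncomputable def pol (m : ℕ) (F : Type*) [Field F] : LinearMap.BilinForm F (Fin m ⊕ Fin m → F) :=
  LinearMap.mk₂ F (fun x y => ∑ i : Fin m, (x (.inl i) * y (.inr i) + x (.inr i) * y (.inl i)))
    (fun x x' y => by rw [← Finset.sum_add_distrib]; simp [add_mul]; exact Finset.sum_congr rfl fun i _ => by ring)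
    (fun c x y => by simp only [Pi.smul_apply, smul_eq_mul, Finset.mul_sum]; exact Finset.sum_congr rfl fun i _ => by ring)
    (fun x y y' => by rw [← Finset.sum_add_distrib]; exact Finset.sum_congr rfl fun i _ => by simp; ring)
    (fun c x y => by simp only [Pi.smul_apply, smul_eq_mul, Finset.mul_sum]; exact Finset.sum_congr rfl fun i _ => by ring)

theorem q_add (x y : Fin m ⊕ Fin m → F) :
    Cfsg.quadFormPlus m F (x + y) = Cfsg.quadFormPlus m F x + Cfsg.quadFormPlus m F y + pol m F x y := by
  simp only [Cfsg.quadFormPlus, pol, LinearMap.mk₂_apply, ← Finset.sum_add_distrib]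
  exact Finset.sum_congr rfl fun i _ => by simp; ring

theorem q_smul (c : F) (x : Fin m ⊕ Fin m → F) :
    Cfsg.quadFormPlus m F (c • x) = c ^ 2 * Cfsg.quadFormPlus m F x := by
  simp only [Cfsg.quadFormPlus, Finset.mul_sum]
  exact Finset.sum_congr rfl fun i _ => by simp; ring

theorem q_zero : Cfsg.quadFormPlus m F (0 : Fin m ⊕ Fin m → F) = 0 := by simp [Cfsg.quadFormPlus]

theorem pol_comm (x y : Fin m ⊕ Fin m → F) : pol m F x y = pol m F y x := by
  simp only [pol, LinearMap.mk₂_apply]
  exact Finset.sum_congr rfl fun i _ => by ring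

theorem pol_refl : (pol m F).IsRefl := fun x y h => by rw [pol_comm]; exact h

theorem pol_nondeg : (pol m F).Nondegenerate := by
  have h : ∀ x, (∀ y, pol m F x y = 0) → x = 0 := by
    intro x hx
    funext i
    rcases i with i | i
    · have := hx (Pi.single (Sum.inr i) 1)
      simpa [pol, Pi.single_apply] using this
    · have := hx (Pi.single (Sum.inl i) 1)
      simpa [pol, Pi.single_apply] using this
  exact ⟨h, fun x hx => h x fun y => by rw [pol_comm]; exact hx y⟩

variable (hF : Fintype.card F = 2)
include hF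

theorem eq01 (c : F) : c = 0 ∨ c = 1 := by
  by_contra h
  push Not at h
  have := Finset.card_le_univ ({c, 0, 1} : Finset F)
  rw [Finset.card_insert_of_notMem (by simp [h]), Finset.card_pair zero_ne_one] at this
  omega

theorem two_eq_zero : (2 : F) = 0 := by
  haveI : CharP F 2 := by
    obtain ⟨p, hp⟩ := CharP.exists F
    haveI := hp
    obtain ⟨⟨n, hn⟩, hpp, h⟩ := FiniteField.card F p
    rw [hF] at h
    obtain rfl : p = 2 := ((Nat.prime_dvd_prime_iff_eq hpp Nat.prime_two).1 (h ▸ dvd_pow_self p (by simp; omega)))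
    exact hp
  exact CharTwo.two_eq_zero

/-- Totally singular subspaces. -/
def TS (A : Submodule F (Fin m ⊕ Fin m → F)) : Prop := ∀ x ∈ A, Cfsg.quadFormPlus m F x = 0

omit hF in
theorem ts_pol {A : Submodule F (Fin m ⊕ Fin m → F)} (hA : TS A) {x y : Fin m ⊕ Fin m → F}
    (hx : x ∈ A) (hy : y ∈ A) : pol m F x y = 0 := by
  have := q_add x y
  rw [hA _ (A.add_mem hx hy), hA _ hx, hA _ hy] at this
  linear_combination -this

omit hF in
theorem le_orth {A : Submodule F (Fin m ⊕ Fin m → F)} (hA : TS A) : A ≤ (pol m F).orthogonal A :=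
  fun _ hx _ hy => ts_pol hA hy hx

theorem finrank_orth (A : Submodule F (Fin m ⊕ Fin m → F)) :
    finrank F ((pol m F).orthogonal A) = 2 * m - finrank F A := by
  rw [LinearMap.BilinForm.finrank_orthogonal pol_nondeg, Module.finrank_fintype_fun_eq_card]
  simp [two_mul]

/-- The number of nonzero singular vectors of a subspace of dimension at least three is odd. -/
theorem odd_singular (W : Submodule F (Fin m ⊕ Fin m → F)) (hW : 3 ≤ finrank F W) :
    ¬ 2 ∣ Nat.card {w : W // w ≠ 0 ∧ Cfsg.quadFormPlus m F w = 0} := by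
  obtain ⟨d, hd⟩ : ∃ d, finrank F W = 3 + d := ⟨finrank F W - 3, by omega⟩
  obtain ⟨e⟩ : Nonempty (((Fin 3 → F) × (Fin d → F)) ≃ₗ[F] W) :=
    FiniteDimensional.nonempty_linearEquiv_of_finrank_eq (by simp [hd])
  have h2 := two_eq_zero hF
  have hu : (Finset.univ : Finset F) = {0, 1} := by
    ext c; rcases eq01 hF c with h | h <;> simp [h]
  have hs : ∀ f : F → F, ∑ c, f c = f 0 + f 1 := fun f => by rw [hu, Finset.sum_pair zero_ne_one]
  have hsum : ∑ w : W, Cfsg.quadFormPlus m F w = 0 := by
    rw [← Equiv.sum_comp e.toEquiv, Fintype.sum_prod_type_right]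
    refine Finset.sum_eq_zero fun c _ => ?_
    let e3 : F × F × F ≃ (Fin 3 → F) :=
      { toFun := fun a => ![a.1, a.2.1, a.2.2]
        invFun := fun f => (f 0, f 1, f 2)
        left_inv := fun a => rfl
        right_inv := fun f => by funext i; fin_cases i <;> rfl }
    rw [← Equiv.sum_comp e3]
    let u : Fin 3 → (Fin m ⊕ Fin m → F) := fun i => (e (Pi.single i 1, 0) : W)
    let r : Fin m ⊕ Fin m → F := (e (0, c) : W)
    have hdec : ∀ a : F × F × F, ((e.toEquiv (e3 a, c) : W) : Fin m ⊕ Fin m → F) =
        a.1 • u 0 + a.2.1 • u 1 + a.2.2 • u 2 + r := by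
      intro a
      simp only [u, r, ← Submodule.coe_smul, ← Submodule.coe_add, ← map_smul, ← map_add,
        LinearEquiv.coe_toEquiv]
      congr 2
      refine Prod.ext ?_ (by simp)
      funext i; fin_cases i <;> simp [e3] <;> rfl
    simp only [hdec, Fintype.sum_prod_type, hs, zero_smul, one_smul, zero_add, q_add, q_zero, map_zero,
      LinearMap.zero_apply, map_add, LinearMap.add_apply, add_zero]
    linear_combination (4 * Cfsg.quadFormPlus m F r + 2 * Cfsg.quadFormPlus m F (u 0) +
      2 * Cfsg.quadFormPlus m F (u 1) + 2 * Cfsg.quadFormPlus m F (u 2) + 2 * pol m F (u 0) r +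
      2 * pol m F (u 1) r + 2 * pol m F (u 2) r + pol m F (u 0) (u 1) + pol m F (u 0) (u 2) +
      pol m F (u 1) (u 2)) * h2
  intro hdvd
  haveI : CharP F 2 := CharTwo.of_one_ne_zero_of_two_eq_zero one_ne_zero h2
  have hz : ((Finset.univ.filter fun w : W => Cfsg.quadFormPlus m F w = 0).card : F) = 0 := by
    have h1 : ∀ w : W, (if Cfsg.quadFormPlus m F w = 0 then (1 : F) else 0) = 1 + Cfsg.quadFormPlus m F w := by
      intro w
      rcases eq01 hF (Cfsg.quadFormPlus m F w) with h | h <;> rw [h]
      · simp
      · rw [if_neg one_ne_zero]; linear_combination -h2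
    rw [← Finset.sum_boole, Finset.sum_congr rfl fun w _ => h1 w, Finset.sum_add_distrib, hsum, add_zero,
      Finset.sum_const, nsmul_eq_mul, mul_one, Finset.card_univ, CharP.cast_eq_zero_iff F 2,
      Module.card_eq_pow_finrank (K := F), hF]
    exact dvd_pow_self 2 (by omega)
  rw [CharP.cast_eq_zero_iff F 2] at hz
  have hins : (Finset.univ.filter fun w : W => Cfsg.quadFormPlus m F w = 0) =
      insert 0 (Finset.univ.filter fun w : W => w ≠ 0 ∧ Cfsg.quadFormPlus m F w = 0) := by
    ext w
    by_cases hw : w = 0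
    · subst hw; rw [Finset.mem_filter, Finset.mem_insert]; simp [q_zero]
    · simp [hw]
  rw [hins, Finset.card_insert_of_notMem (by simp)] at hz
  rw [Nat.card_eq_fintype_card, Fintype.card_subtype] at hdvd
  omega

/-- The linear map of a matrix. -/
noncomputable def act : Cfsg.isometryGroup F (Cfsg.quadFormPlus m F) →*
    Module.End F (Fin m ⊕ Fin m → F) :=
  ((Matrix.toLinAlgEquiv' (R := F)).toMonoidHom.comp (Units.coeHom _)).comp
    (Cfsg.isometryGroup F (Cfsg.quadFormPlus m F)).subtype

omit hF in
theorem act_q (g : Cfsg.isometryGroup F (Cfsg.quadFormPlus m F)) (x : Fin m ⊕ Fin m → F) :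
    Cfsg.quadFormPlus m F (act g x) = Cfsg.quadFormPlus m F x := g.2 x x

omit hF in
theorem act_pol (g : Cfsg.isometryGroup F (Cfsg.quadFormPlus m F)) (x y : Fin m ⊕ Fin m → F) :
    pol m F (act g x) (act g y) = pol m F x y := by
  have h1 := q_add (act g x) (act g y)
  rw [← map_add, act_q, act_q, act_q, q_add] at h1
  linear_combination -h1

omit hF in
theorem act_injective : Function.Injective (act (F := F) (m := m)) := fun g h hgh =>
  Subtype.ext (Units.ext ((Matrix.toLinAlgEquiv' (R := F)).injective hgh))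

omit hF in
theorem act_apply_injective (g : Cfsg.isometryGroup F (Cfsg.quadFormPlus m F)) :
    Function.Injective (act g) := fun x y h => by
  have := congrArg (act g⁻¹) h
  rwa [← LinearMap.comp_apply, ← LinearMap.comp_apply, ← Module.End.mul_eq_comp, ← map_mul,
    inv_mul_cancel, map_one] at this

/-- A 2-group of isometries leaves a totally singular subspace of dimension `m - 1` invariant. -/
theorem exists_inv (H : Subgroup (Cfsg.isometryGroup F (Cfsg.quadFormPlus m F))) (hH : IsPGroup 2 H)
    (k : ℕ) (hk : k + 1 ≤ m) : ∃ A : Submodule F (Fin m ⊕ Fin m → F),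
      finrank F A = k ∧ TS A ∧ ∀ g ∈ H, A.map (act g) = A := by
  haveI : Fact (Nat.Prime 2) := ⟨Nat.prime_two⟩
  induction k with
  | zero => exact ⟨⊥, by simp, fun x hx => by simp [(Submodule.mem_bot F).1 hx, Cfsg.quadFormPlus], fun g _ => Submodule.map_bot _⟩
  | succ k ih =>
    obtain ⟨A, hA, hAs, hAi⟩ := ih (by omega)
    obtain ⟨W, hW⟩ := exists_isCompl (A.comap ((pol m F).orthogonal A).subtype)
    set W0 := W.map ((pol m F).orthogonal A).subtype with hW0
    have hW0le : W0 ≤ (pol m F).orthogonal A := Submodule.map_subtype_le _ _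
    have hdisj : ∀ x ∈ A, x ∈ W0 → x = 0 := by
      rintro x hx ⟨w, hw, rfl⟩
      have : w = 0 := (Submodule.mem_bot F).1 (hW.disjoint.le_bot ⟨hx, hw⟩)
      simp [this]
    have hdec : ∀ x ∈ (pol m F).orthogonal A, ∃ a ∈ A, ∃ w ∈ W0, x = a + w := by
      intro x hx
      obtain ⟨a, ha, w, hw, h⟩ := Submodule.mem_sup.1
        (hW.codisjoint.eq_top ▸ Submodule.mem_top : (⟨x, hx⟩ : (pol m F).orthogonal A) ∈ _)
      exact ⟨_, ha, _, Submodule.mem_map_of_mem hw, (congrArg Subtype.val h).symm⟩
    have hdim : 3 ≤ finrank F W0 := by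
      have h1 := Submodule.finrank_add_eq_of_isCompl hW
      rw [finrank_orth hF, hA, (Submodule.comapSubtypeEquivOfLe (le_orth hAs)).finrank_eq, hA] at h1
      rw [hW0, Submodule.finrank_map_subtype_eq]
      omega
    let T := {X : Submodule F (Fin m ⊕ Fin m → F) // A ≤ X ∧ finrank F X = k + 1 ∧ TS X}
    let f : {w : W0 // w ≠ 0 ∧ Cfsg.quadFormPlus m F w = 0} → T := fun w =>
      ⟨A ⊔ Submodule.span F {(w.1 : Fin m ⊕ Fin m → F)}, le_sup_left, by
        have hd : A ⊓ Submodule.span F {(w.1 : Fin m ⊕ Fin m → F)} = ⊥ := eq_bot_iff.2 fun x hx =>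
          (Submodule.mem_bot F).2 (hdisj x hx.1 ((Submodule.span_singleton_le_iff_mem _ _).2 w.1.2 hx.2))
        have h1 := Submodule.finrank_sup_add_finrank_inf_eq A (Submodule.span F {(w.1 : Fin m ⊕ Fin m → F)})
        rw [hd, finrank_bot, add_zero, hA, finrank_span_singleton (by simpa using w.2.1)] at h1
        exact h1, by
        intro x hx
        obtain ⟨a, ha, b, hb, rfl⟩ := Submodule.mem_sup.1 hx
        obtain ⟨c, rfl⟩ := Submodule.mem_span_singleton.1 hb
        rw [q_add, hAs a ha, q_smul, w.2.2, map_smul, hW0le w.1.2 a ha]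
        simp⟩
    have hf : Function.Bijective f := by
      constructor
      · intro w w' h
        have h1 : (w'.1 : Fin m ⊕ Fin m → F) ∈ A ⊔ Submodule.span F {(w.1 : Fin m ⊕ Fin m → F)} := by
          rw [show A ⊔ Submodule.span F {(w.1 : Fin m ⊕ Fin m → F)} = _ from congrArg Subtype.val h]
          exact Submodule.mem_sup_right (Submodule.mem_span_singleton_self _)
        obtain ⟨a, ha, b, hb, hab⟩ := Submodule.mem_sup.1 h1
        obtain ⟨c, rfl⟩ := Submodule.mem_span_singleton.1 hb
        have ha0 : a = 0 := hdisj a ha (by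
          rw [eq_sub_of_add_eq hab]; exact W0.sub_mem w'.1.2 (W0.smul_mem _ w.1.2))
        rw [ha0, zero_add] at hab
        rcases eq01 hF c with rfl | rfl
        · rw [zero_smul] at hab
          exact absurd (Subtype.ext hab.symm) w'.2.1
        · rw [one_smul] at hab
          exact Subtype.ext (Subtype.ext hab)
      · rintro ⟨X, hAX, hX, hXs⟩
        obtain ⟨x, hxX, hxA⟩ : ∃ x ∈ X, x ∉ A := by
          by_contra h
          push Not at h
          have := Submodule.finrank_mono (h : X ≤ A)
          omega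
        obtain ⟨a, ha, w, hw, rfl⟩ := hdec x fun y hy => ts_pol hXs (hAX hy) hxX
        have hwX : w ∈ X := by simpa using X.sub_mem hxX (hAX ha)
        refine ⟨⟨⟨w, hw⟩, fun h => hxA ?_, hXs w hwX⟩, Subtype.ext ?_⟩
        · have : w = 0 := congrArg Subtype.val h
          rw [this, add_zero]; exact ha
        · refine Submodule.eq_of_le_of_finrank_eq (sup_le hAX ((Submodule.span_singleton_le_iff_mem _ _).2 hwX)) ?_
          rw [hX]
          exact (f ⟨⟨w, hw⟩, fun h => hxA (by have hw0 : w = 0 := congrArg Subtype.val h; rw [hw0, add_zero]; exact ha), hXs w hwX⟩).2.2.1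
    let mv : ↥H → T → T := fun g X => ⟨X.1.map (act g.1), (hAi g.1 g.2).ge.trans (Submodule.map_mono X.2.1), by
      rw [← (Submodule.equivMapOfInjective _ (act_apply_injective g.1) X.1).finrank_eq]; exact X.2.2.1, by
      rintro _ ⟨x, hx, rfl⟩
      rw [act_q]; exact X.2.2.2 x hx⟩
    letI : MulAction ↥H T :=
      { smul := mv
        one_smul := fun X => Subtype.ext (by
          show X.1.map (act (1 : Cfsg.isometryGroup F (Cfsg.quadFormPlus m F))) = X.1
          rw [map_one, Module.End.one_eq_id, Submodule.map_id])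
        mul_smul := fun g g' X => Subtype.ext (by
          show X.1.map (act (g.1 * g'.1)) = (X.1.map (act g'.1)).map (act g.1)
          rw [map_mul, Module.End.mul_eq_comp, Submodule.map_comp]) }
    obtain ⟨X, hX⟩ := hH.nonempty_fixed_point_of_prime_not_dvd_card T (by
      rw [← Nat.card_congr (Equiv.ofBijective f hf)]; exact odd_singular hF W0 hdim)
    exact ⟨X.1, X.2.2.1, X.2.2.2, fun g hg => congrArg Subtype.val (hX ⟨g, hg⟩)⟩

/-- The pointwise stabilizer of a totally singular subspace of dimension `m - 1` is a 2-group. -/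
theorem pow_eight (A : Submodule F (Fin m ⊕ Fin m → F)) (hA : finrank F A + 1 = m) (hAs : TS A)
    (g : Cfsg.isometryGroup F (Cfsg.quadFormPlus m F)) (hg : ∀ a ∈ A, act g a = a) : g ^ 8 = 1 := by
  set O := (pol m F).orthogonal A with hO
  have h2 := two_eq_zero hF
  have hv2 : ∀ v : Fin m ⊕ Fin m → F, v + v = 0 := fun v => by
    funext i; simp only [Pi.add_apply, Pi.zero_apply]; linear_combination (v i) * h2
  have hO1 : finrank F O = m + 1 := by rw [hO, finrank_orth hF]; omega
  have hgO : ∀ x ∈ O, act g x ∈ O := fun x hx a ha => by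
    have := act_pol g a x
    rw [hg a ha] at this
    exact this.trans (hx a ha)
  have hgA : ∀ x, act g x ∈ A → x ∈ A := fun x hx => by
    have : act g x = act g (act g x) := (hg _ hx).symm
    rwa [← act_apply_injective g this] at hx
  obtain ⟨z, hzO, hzQ, hzA⟩ : ∃ z ∈ O, Cfsg.quadFormPlus m F z = 0 ∧ z ∉ A := by
    let ι : (Fin m → F) →ₗ[F] (Fin m ⊕ Fin m → F) :=
      { toFun := fun v => Sum.elim v 0
        map_add' := fun v w => by funext i; rcases i with i | i <;> simp
        map_smul' := fun c v => by funext i; rcases i with i | i <;> simp }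
    have hι : Function.Injective ι := fun v w h => funext fun i => congrFun h (Sum.inl i)
    have hιr : finrank F (LinearMap.range ι) = m := by
      rw [LinearMap.finrank_range_of_inj hι]; simp
    have hιs : TS (LinearMap.range ι) := by
      rintro _ ⟨v, rfl⟩; simp [ι, Cfsg.quadFormPlus]
    by_contra hno
    push Not at hno
    have hle : LinearMap.range ι ⊓ O ≤ LinearMap.range ι ⊓ A :=
      fun x hx => ⟨hx.1, hno x hx.2 (hιs x hx.1)⟩
    have h1 := Submodule.finrank_mono hle
    have hιo : (pol m F).orthogonal (LinearMap.range ι) = LinearMap.range ι :=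
      (Submodule.eq_of_le_of_finrank_le (le_orth hιs) (by rw [finrank_orth hF, hιr]; omega)).symm
    have h3 : (pol m F).orthogonal (LinearMap.range ι ⊔ A) ≤ LinearMap.range ι ⊓ O :=
      le_inf ((LinearMap.BilinForm.orthogonal_le le_sup_left).trans hιo.le)
        (LinearMap.BilinForm.orthogonal_le le_sup_right)
    have h4 := Submodule.finrank_mono h3
    rw [finrank_orth hF] at h4
    have h5 := Submodule.finrank_sup_add_finrank_inf_eq (LinearMap.range ι) A
    omega
  set P := A ⊔ Submodule.span F {z} with hP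
  have hPs : TS P := by
    intro x hx
    obtain ⟨a, ha, b, hb, rfl⟩ := Submodule.mem_sup.1 hx
    obtain ⟨c, rfl⟩ := Submodule.mem_span_singleton.1 hb
    rw [q_add, hAs a ha, q_smul, hzQ, map_smul, hzO a ha]
    simp
  have hPm : (pol m F).orthogonal P = P := by
    refine (Submodule.eq_of_le_of_finrank_le (le_orth hPs) ?_).symm
    have h1 : finrank F P = m := by
      have := Submodule.finrank_sup_add_finrank_inf_eq A (Submodule.span F {z})
      have hd : A ⊓ Submodule.span F {z} = ⊥ := eq_bot_iff.2 fun x hx => by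
        obtain ⟨c, rfl⟩ := Submodule.mem_span_singleton.1 hx.2
        rcases eq01 hF c with rfl | rfl
        · simp
        · exact absurd (by simpa using hx.1) hzA
      rw [hd, finrank_bot, finrank_span_singleton (fun h => hzA (by rw [h]; exact A.zero_mem))] at this
      rw [hP]; omega
    rw [finrank_orth hF, h1]; omega
  have hcase : ∀ x ∈ O, pol m F x z = 0 → x ∈ A ∨ x + z ∈ A := by
    intro x hx hxz
    have : x ∈ P := by
      rw [← hPm]
      intro y hy
      obtain ⟨a, ha, b, hb, rfl⟩ := Submodule.mem_sup.1 hy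
      obtain ⟨c, rfl⟩ := Submodule.mem_span_singleton.1 hb
      show pol m F (a + c • z) x = 0
      rw [map_add, LinearMap.add_apply, hx a ha, map_smul, LinearMap.smul_apply, pol_comm z x, hxz,
        smul_zero, add_zero]
    obtain ⟨a, ha, b, hb, rfl⟩ := Submodule.mem_sup.1 this
    obtain ⟨c, rfl⟩ := Submodule.mem_span_singleton.1 hb
    rcases eq01 hF c with rfl | rfl
    · exact Or.inl (by simpa using ha)
    · exact Or.inr (by rw [one_smul, add_assoc, hv2, add_zero]; exact ha)
  have hpig : ∀ x ∈ O, ∀ y ∈ O, ∀ w ∈ O, Cfsg.quadFormPlus m F x = 0 → Cfsg.quadFormPlus m F y = 0 →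
      Cfsg.quadFormPlus m F w = 0 → x ∉ A → y ∉ A → w ∉ A → x + y ∈ A ∨ x + w ∈ A ∨ y + w ∈ A := by
    have key : ∀ x ∈ O, ∀ y ∈ O, Cfsg.quadFormPlus m F x = 0 → Cfsg.quadFormPlus m F y = 0 →
        pol m F x z = 1 → pol m F y z = 1 → x + y ∈ A := by
      intro x hx y hy hxQ hyQ hxz hyz
      rcases hcase (x + y) (O.add_mem hx hy) (by
        rw [map_add, LinearMap.add_apply, hxz, hyz]; linear_combination h2) with h | h
      · exact h
      · exfalso
        have hy' : y = x + z + (x + y + z) := by
          have : x + z + (x + y + z) = y + ((x + x) + (z + z)) := by abel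
          rw [this, hv2, hv2, add_zero, add_zero]
        have hb : pol m F (x + z) (x + y + z) = 0 := by
          rw [pol_comm, map_add (pol m F (x + y + z)), show pol m F (x + y + z) x = 0 from hx _ h,
            show pol m F (x + y + z) z = 0 from hzO _ h, add_zero]
        rw [hy', q_add, q_add, hxQ, hzQ, hxz, hAs _ h, hb] at hyQ
        exact one_ne_zero (α := F) (by linear_combination hyQ)
    intro x hx y hy w hw hxQ hyQ hwQ hxA hyA hwA
    have hA' : ∀ u ∈ O, u ∉ A → pol m F u z = 0 → u + z ∈ A := fun u hu huA h =>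
      (hcase u hu h).resolve_left huA
    have hsum : ∀ u v : Fin m ⊕ Fin m → F, u + z ∈ A → v + z ∈ A → u + v ∈ A := fun u v hu hv => by
      have h1 : u + z + (v + z) = u + v := by
        rw [add_add_add_comm, hv2 z, add_zero]
      exact h1 ▸ A.add_mem hu hv
    rcases eq01 hF (pol m F x z) with h1 | h1 <;> rcases eq01 hF (pol m F y z) with h3 | h3 <;>
      rcases eq01 hF (pol m F w z) with h4 | h4
    all_goals first
      | exact Or.inl (hsum x y (hA' x hx hxA h1) (hA' y hy hyA h3))
      | exact Or.inl (key x hx y hy hxQ hyQ h1 h3)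
      | exact Or.inr (Or.inl (hsum x w (hA' x hx hxA h1) (hA' w hw hwA h4)))
      | exact Or.inr (Or.inl (key x hx w hw hxQ hwQ h1 h4))
      | exact Or.inr (Or.inr (hsum y w (hA' y hy hyA h3) (hA' w hw hwA h4)))
      | exact Or.inr (Or.inr (key y hy w hw hyQ hwQ h3 h4))
  have hsq : ∀ x ∈ O, Cfsg.quadFormPlus m F x = 0 → x + act g (act g x) ∈ A := by
    intro x hx hxQ
    by_cases hxA : x ∈ A
    · rw [hg x hxA, hg x hxA, hv2]; exact A.zero_mem
    have hfix : x + act g x ∈ A → x + act g (act g x) ∈ A := fun h => by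
      have h1 : act g x + act g (act g x) ∈ A := by rw [← map_add, hg _ h]; exact h
      have h3 := A.add_mem h h1
      rwa [add_assoc, ← add_assoc (act g x), hv2, zero_add] at h3
    rcases hpig x hx (act g x) (hgO x hx) (act g (act g x)) (hgO _ (hgO x hx)) hxQ
        (by rw [act_q, hxQ]) (by rw [act_q, act_q, hxQ]) hxA (fun h => hxA (hgA _ h))
        (fun h => hxA (hgA _ (hgA _ h))) with h | h | h
    · exact hfix h
    · exact h
    · refine hfix (hgA _ ?_)
      rw [map_add]; exact h
  have hO2 : ∀ x ∈ O, x + act g (act g x) ∈ A := by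
    intro x hx
    rcases eq01 hF (Cfsg.quadFormPlus m F x) with hxQ | hxQ
    · exact hsq x hx hxQ
    have hxz : pol m F x z = 1 := by
      refine (eq01 hF _).resolve_left fun h => ?_
      rcases hcase x hx h with h1 | h1
      · rw [hAs x h1] at hxQ; exact zero_ne_one hxQ
      · have h3 := q_add (x + z) z
        rw [add_assoc, hv2, add_zero, hxQ, hAs _ h1, hzQ, hzO _ h1] at h3
        exact one_ne_zero (α := F) (by linear_combination h3)
    have h1 := hsq (x + z) (O.add_mem hx hzO) (by rw [q_add, hxQ, hzQ, hxz]; linear_combination h2)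
    have h3 := A.add_mem h1 (hsq z hzO hzQ)
    rw [map_add, map_add] at h3
    have h4 : x + z + (act g (act g x) + act g (act g z)) + (z + act g (act g z)) =
        x + act g (act g x) + ((z + z) + (act g (act g z) + act g (act g z))) := by abel
    rwa [h4, hv2, hv2, add_zero, add_zero] at h3
  have hall : ∀ x, x + act g (act g x) ∈ O := by
    intro x a ha
    show pol m F a (x + act g (act g x)) = 0
    have h1 := act_pol g a x
    rw [hg a ha] at h1
    have h3 := act_pol g a (act g x)
    rw [hg a ha] at h3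
    rw [map_add, h3, h1]
    linear_combination (pol m F a x) * h2
  have h4fix : ∀ x, act g (act g (act g (act g x))) + x ∈ A := by
    intro x
    have h := hO2 _ (hall x)
    rw [map_add, map_add] at h
    have h1 : x + act g (act g x) + (act g (act g x) + act g (act g (act g (act g x)))) =
        act g (act g (act g (act g x))) + x + (act g (act g x) + act g (act g x)) := by abel
    rwa [h1, hv2, add_zero] at h
  refine act_injective (LinearMap.ext fun x => ?_)
  rw [map_pow, map_one, Module.End.one_apply]
  show (act g ^ 8) x = x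
  have h := h4fix x
  have h1 := h4fix (act g (act g (act g (act g x))))
  have h3 : act g (act g (act g (act g (act g (act g (act g (act g x))))))) +
      act g (act g (act g (act g x))) = act g (act g (act g (act g x))) + x := by
    conv_rhs => rw [← hg _ h, ← hg _ h, ← hg _ h, ← hg _ h] 
    simp only [map_add, hg _ h]
    rw [← map_add, ← map_add, ← map_add, ← map_add, hg _ h, hg _ h, hg _ h, hg _ h]
  rw [add_comm (act g (act g (act g (act g x)))) x] at h3
  have h5 := congrArg (fun v => v + act g (act g (act g (act g x)))) h3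
  simp only [add_assoc, hv2, add_zero] at h5
  exact h5

/-- An isometry fixing a subspace of codimension at least two pointwise. -/
theorem exists_fix (U : Submodule F (Fin m ⊕ Fin m → F)) (hU : finrank F U + 2 ≤ 2 * m) :
    ∃ g : Cfsg.isometryGroup F (Cfsg.quadFormPlus m F), g ≠ 1 ∧ ∀ a ∈ U, act g a = a := by
  have h2 := two_eq_zero hF
  have hv2 : ∀ v : Fin m ⊕ Fin m → F, v + v = 0 := fun v => by
    funext i; simp only [Pi.add_apply, Pi.zero_apply]; linear_combination (v i) * h2
  have build : ∀ f : Module.End F (Fin m ⊕ Fin m → F), f * f = 1 →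
      (∀ x, Cfsg.quadFormPlus m F (f x) = Cfsg.quadFormPlus m F x) → f ≠ 1 → (∀ a ∈ U, f a = a) →
      ∃ g : Cfsg.isometryGroup F (Cfsg.quadFormPlus m F), g ≠ 1 ∧ ∀ a ∈ U, act g a = a := by
    intro f hf hq hne hfix
    let e := (Matrix.toLinAlgEquiv' (R := F) (n := Fin m ⊕ Fin m))
    let M : GL (Fin m ⊕ Fin m) F := ⟨e.symm f, e.symm f, by rw [← map_mul, hf, map_one], by rw [← map_mul, hf, map_one]⟩
    have hM : ∀ x, (M : Matrix (Fin m ⊕ Fin m) (Fin m ⊕ Fin m) F) *ᵥ x = f x := fun x => by
      have := LinearMap.congr_fun (e.apply_symm_apply f) x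
      exact this
    refine ⟨⟨M, fun u v => ?_⟩, fun h => hne ?_, fun a ha => (hM a).trans (hfix a ha)⟩
    · show Cfsg.quadFormPlus m F ((M : Matrix (Fin m ⊕ Fin m) (Fin m ⊕ Fin m) F) *ᵥ u) = _
      rw [hM]; exact hq u
    · refine LinearMap.ext fun x => ?_
      rw [← hM]
      have : M = 1 := congrArg Subtype.val h
      rw [this]; simp
  have hC : 2 ≤ finrank F ((pol m F).orthogonal U) := by rw [finrank_orth hF]; omega
  by_cases hv : ∃ v ∈ (pol m F).orthogonal U, Cfsg.quadFormPlus m F v = 1
  · obtain ⟨v, hv, hQv⟩ := hv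
    have hvv : pol m F v v = 0 := by
      have := q_add v v
      rw [hv2, hQv, show Cfsg.quadFormPlus m F (0 : Fin m ⊕ Fin m → F) = 0 from by simp [Cfsg.quadFormPlus]] at this
      linear_combination -this - h2
    refine build (LinearMap.id + (pol m F v).smulRight v) ?_ (fun x => ?_) ?_ (fun a ha => ?_)
    · refine LinearMap.ext fun x => ?_
      simp only [Module.End.mul_apply, LinearMap.add_apply, LinearMap.id_apply, LinearMap.smulRight_apply,
         Module.End.one_apply, map_add, map_smul, LinearMap.smul_apply, hvv,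
        smul_zero, zero_smul, add_zero, add_assoc, hv2]
    · simp only [LinearMap.add_apply, LinearMap.id_apply, LinearMap.smulRight_apply, 
        q_add, q_smul, hQv, map_smul, smul_eq_mul, pol_comm v x]
      linear_combination (pol m F x v) ^ 2 * h2
    · intro h
      have hv0 : v ≠ 0 := by rintro rfl; simp [Cfsg.quadFormPlus] at hQv
      refine hv0 (pol_nondeg.2 v fun x => ?_)
      have := LinearMap.congr_fun h x
      simp only [LinearMap.add_apply, LinearMap.id_apply, LinearMap.smulRight_apply, 
        Module.End.one_apply, add_eq_left, smul_eq_zero, pol_comm v x] at this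
      exact this.resolve_right hv0
    · simp [pol_comm v a, show pol m F a v = 0 from hv a ha]
  · push Not at hv
    have hQ : TS ((pol m F).orthogonal U) := fun x hx => (eq01 hF _).resolve_right (hv x hx)
    obtain ⟨u, hu, hu0⟩ : ∃ u ∈ (pol m F).orthogonal U, u ≠ 0 := by
      refine Submodule.exists_mem_ne_zero_of_ne_bot fun h => ?_
      rw [h, finrank_bot] at hC; omega
    obtain ⟨v, hv', hvu⟩ : ∃ v ∈ (pol m F).orthogonal U, v ∉ Submodule.span F {u} := by
      by_contra h
      push Not at h
      have := Submodule.finrank_mono (h : (pol m F).orthogonal U ≤ Submodule.span F {u})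
      rw [finrank_span_singleton hu0] at this; omega
    refine build (LinearMap.id + (pol m F v).smulRight u + (pol m F u).smulRight v) ?_
      (fun x => ?_) ?_ (fun a ha => ?_)
    · refine LinearMap.ext fun x => ?_
      simp only [Module.End.mul_apply, LinearMap.add_apply, LinearMap.id_apply, LinearMap.smulRight_apply,
         Module.End.one_apply, map_add, map_smul, LinearMap.smul_apply,
        ts_pol hQ hu hu, ts_pol hQ hu hv', ts_pol hQ hv' hu, ts_pol hQ hv' hv', smul_zero, zero_smul, add_zero]
      rw [show ∀ a b c : Fin m ⊕ Fin m → F, a + b + c + b + c = a + ((b + b) + (c + c)) from fun a b c => by abel,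
        hv2, hv2, add_zero, add_zero]
    · simp only [LinearMap.add_apply, LinearMap.id_apply, LinearMap.smulRight_apply, 
        q_add, q_smul, map_add, map_smul, LinearMap.smul_apply, smul_eq_mul, hQ u hu, hQ v hv',
        ts_pol hQ hu hv', pol_comm v x, pol_comm u x]
      linear_combination (pol m F x u * pol m F x v) * h2
    · intro h
      have hv0 : v ≠ 0 := fun h0 => hvu (h0 ▸ Submodule.zero_mem _)
      refine hv0 (pol_nondeg.2 v fun x => ?_)
      have h1 := LinearMap.congr_fun h x
      simp only [LinearMap.add_apply, LinearMap.id_apply, LinearMap.smulRight_apply, 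
        Module.End.one_apply, add_assoc, add_eq_left, pol_comm v x, pol_comm u x] at h1
      rcases eq01 hF (pol m F x u) with h3 | h3
      · rw [h3, zero_smul, add_zero, smul_eq_zero] at h1
        exact h1.resolve_right hu0
      · exfalso
        rw [h3, one_smul, add_comm, ← eq_neg_iff_add_eq_zero] at h1
        exact hvu (h1 ▸ Submodule.neg_mem _ (Submodule.smul_mem _ _ (Submodule.mem_span_singleton_self u)))
    · simp [pol_comm v a, pol_comm u a, show pol m F a v = 0 from hv' a ha, show pol m F a u = 0 from hu a ha]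

end

/-- Let m ≥ 4 and let G be the full isometry group of the hyperbolic quadratic form x₁y₁ + ⋯ + x_m y_m on the 2m-dimensional space over the field with 2 elements (the orthogonal group O⁺(2m,2), which contains Ω⁺(2m,2) with index 2). Then any two Sylow 2-subgroups of G have a non-trivial intersection: for a Sylow 2-subgroup H and every x ∈ G, H ∩ H^x ≠ 1. -/
theorem result {F : Type*} [Field F] [Fintype F] (hF : Fintype.card F = 2) {m : ℕ} (hm : 4 ≤ m)
    (H : Sylow 2 (Cfsg.isometryGroup F (Cfsg.quadFormPlus m F)))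
    (x : Cfsg.isometryGroup F (Cfsg.quadFormPlus m F)) :
    (H : Subgroup (Cfsg.isometryGroup F (Cfsg.quadFormPlus m F))) ⊓ MulAut.conj x • (H : Subgroup _) ≠ ⊥ := by
  classical
  haveI : Fact (Nat.Prime 2) := ⟨Nat.prime_two⟩
  obtain ⟨A, hA, hAs, hAi⟩ := exists_inv hF _ H.2 (m - 1) (by omega)
  let K : Subgroup (Cfsg.isometryGroup F (Cfsg.quadFormPlus m F)) :=
    { carrier := {g | ∀ a ∈ A, act g a = a}
      mul_mem' := fun {g g'} hg hg' a ha => by
        show act (g * g') a = a
        rw [map_mul, Module.End.mul_apply, hg' a ha, hg a ha]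
      one_mem' := fun a _ => by rw [map_one]; rfl
      inv_mem' := fun {g} hg a ha => by
        show act g⁻¹ a = a
        conv_lhs => rw [← hg a ha]
        rw [← Module.End.mul_apply, ← map_mul, inv_mul_cancel, map_one]; rfl }
  have hKp : IsPGroup 2 K := fun g => ⟨3, Subtype.ext (pow_eight hF A (by omega) hAs g g.2)⟩
  have hinv : ∀ h ∈ (H : Subgroup _), ∀ a ∈ A, act h a ∈ A := fun h hh a ha =>
    (hAi h hh).le (Submodule.mem_map_of_mem ha)
  have hn : (H : Subgroup _) ≤ Subgroup.normalizer (K : Set (Cfsg.isometryGroup F (Cfsg.quadFormPlus m F))) := by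
    intro h hh
    rw [Subgroup.mem_normalizer_iff]
    have key : ∀ h ∈ (H : Subgroup _), ∀ g ∈ K, h * g * h⁻¹ ∈ K := by
      intro h hh g hg a ha
      show act (h * g * h⁻¹) a = a
      rw [map_mul, map_mul, Module.End.mul_apply, Module.End.mul_apply, hg _ (hinv h⁻¹ (inv_mem hh) a ha),
        ← Module.End.mul_apply, ← map_mul, mul_inv_cancel, map_one]; rfl
    refine fun g => ⟨key h hh g, fun hg => ?_⟩
    have := key h⁻¹ (inv_mem hh) _ hg
    simpa [mul_assoc] using this
  have hKH : K ≤ (H : Subgroup _) := le_sup_right.trans_eq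
    (H.3 (IsPGroup.to_sup_of_normal_right' H.2 hKp hn) le_sup_left)
  set B := A.map (act x) with hB
  have hdim : finrank F ↥(A ⊔ B) + 2 ≤ 2 * m := by
    have h1 := Submodule.finrank_sup_add_finrank_inf_eq A B
    have h3 : finrank F ↥B = m - 1 := by
      rw [hB, ← (Submodule.equivMapOfInjective _ (act_apply_injective x) A).finrank_eq, hA]
    omega
  obtain ⟨g, hg1, hg⟩ := exists_fix hF (A ⊔ B) hdim
  refine fun hbot => hg1 ((Subgroup.eq_bot_iff_forall _).1 hbot g ⟨hKH fun a ha => hg a (Submodule.mem_sup_left ha), ?_⟩)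
  show g ∈ MulAut.conj x • (H : Subgroup _)
  rw [Subgroup.mem_pointwise_smul_iff_inv_smul_mem]
  refine hKH fun a ha => ?_
  show act ((MulAut.conj x)⁻¹ g) a = a
  rw [MulAut.conj_inv_apply, map_mul, map_mul, Module.End.mul_apply, Module.End.mul_apply,
    hg _ (Submodule.mem_sup_right (Submodule.mem_map_of_mem ha)), ← Module.End.mul_apply, ← map_mul,
    inv_mul_cancel, map_one]
  rfl

end Cfsg.Agent.S2487
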