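import Cfsg.Statements.S2493
import Cfsg.Agent.AltDoubleCover.Main

set_option autoImplicit false
open Cfsg

namespace Cfsg.Agent.S2493

/-- Let n ≥ 5 and let G be a finite perfect group whose centre has order 2 with G/Z(G) isomorphic to the alternating group of degree n (the double cover of the alternating group). Then every element of G is a commutator. -/
theorem result {G : Type*} [Group G] [Finite G] (hperf : commutator G = ⊤) {n : ℕ} (hn : 5 ≤ n)
    (hZ : Nat.card (Subgroup.center G) = 2) (e : G ⧸ Subgroup.center G ≃* alternatingGroup (Fin n))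
    (g : G) :
    ∃ a b : G, a * b * a⁻¹ * b⁻¹ = g := by
  obtain ⟨z, hz, hcen⟩ : ∃ z ∈ Subgroup.center G, z ≠ 1 ∧ ∀ x ∈ Subgroup.center G, x = 1 ∨ x = z := by
    obtain ⟨z, hz⟩ := (Nat.card_eq_two_iff' (1 : Subgroup.center G)).1 hZ
    exact ⟨z, z.2, fun h => hz.1 (Subtype.ext h), fun x hx => or_iff_not_imp_left.2 fun h =>
      congrArg Subtype.val (hz.2 ⟨x, hx⟩ fun h' => h (congrArg Subtype.val h'))⟩
  let π : G →* Equiv.Perm (Fin n) :=
    (alternatingGroup (Fin n)).subtype.comp (e.toMonoidHom.comp (QuotientGroup.mk' _))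
  have hπ : ∀ x, π x = 1 ↔ x ∈ Subgroup.center G := fun x => by
    rw [← QuotientGroup.eq_one_iff]
    exact ⟨fun h => e.injective (by rw [map_one]; exact Subtype.ext h),
      fun h => by show ((e (QuotientGroup.mk x)) : Equiv.Perm (Fin n)) = 1; rw [h, map_one]; rfl⟩
  have hr : π.range = alternatingGroup (Fin n) := by
    refine le_antisymm ?_ fun t ht => ?_
    · rintro _ ⟨x, rfl⟩
      exact (e (QuotientGroup.mk x)).2
    · obtain ⟨x, hx⟩ := (QuotientGroup.mk'_surjective _) (e.symm ⟨t, ht⟩)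
      exact ⟨x, by show ((e (QuotientGroup.mk' _ x)) : Equiv.Perm (Fin n)) = t; rw [hx, e.apply_symm_apply]⟩
  have hsq : z * z = 1 := by
    rcases hcen.2 (z * z) (mul_mem hz hz) with h | h
    · exact h
    · exact absurd (mul_eq_left.1 h) hcen.1
  exact CfsgLib.AltDoubleCover.Cover.exists_commutator
    ⟨π, hr, z, fun x => Subgroup.mem_center_iff.1 hz x, hsq, hcen.1, (hπ z).2 hz,
      fun x hx => hcen.2 x ((hπ x).1 hx), hperf⟩ (by simpa using hn) g

end Cfsg.Agent.S2493
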