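import Cfsg.Statements.S2495
import Cfsg.Agent.GraphLie.Linear
import Cfsg.Agent.NumTheory.Zsigmondy
-- import your own Cfsg.Agent.* helpers here

set_option autoImplicit false
open Cfsg

namespace Cfsg.Agent.S2495

/-- Let q be an odd prime power, n ≥ 4 even, and L = PSL(n,q). Then L has an element of order q^(n/2) + 1 if and only if the 2-part of n exceeds the 2-part of q − 1. -/
theorem result {F : Type*} [Field F] [Fintype F] {q : ℕ} (hF : Fintype.card F = q) (hodd : Odd q)
    {n : ℕ} (hn : 4 ≤ n) (heven : Even n) :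
    (∃ g : Matrix.ProjectiveSpecialLinearGroup (Fin n) F, orderOf g = q ^ (n / 2) + 1) ↔
      padicValNat 2 (q - 1) < padicValNat 2 n := by
  classical
  open Polynomial UniqueFactorizationMonoid in
  obtain ⟨p, hchar⟩ := CharP.exists F
  have : Fact p.Prime := ⟨CharP.char_is_prime F p⟩
  have hp : p.Prime := Fact.out
  have hQ : Nat.card F = q := by rw [Nat.card_eq_fintype_card, hF]
  have hq3 : 3 ≤ q := by
    have : 1 < q := hF ▸ Fintype.one_lt_card
    obtain ⟨t, ht⟩ := hodd
    omega
  obtain ⟨d, hd⟩ := heven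
  rw [show n / 2 = d by omega]
  set N := q ^ d + 1 with hN
  set M := ∑ i ∈ Finset.range n, q ^ i with hM
  set S := ∑ i ∈ Finset.range d, q ^ i with hS
  have hMS : M = N * S := by
    rw [hM, hd, Finset.sum_range_add, hN, Nat.add_mul, one_mul, Finset.mul_sum, add_comm]
    exact congrArg (· + _) (Finset.sum_congr rfl fun i _ => by rw [pow_add])
  have hmod : ∀ k, (∑ i ∈ Finset.range k, q ^ i) ≡ k [MOD q - 1] := by
    intro k
    induction k with
    | zero => rfl
    | succ k ih =>
      rw [Finset.sum_range_succ]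
      refine ih.add ?_
      have h : q ≡ 1 [MOD q - 1] := ((Nat.modEq_iff_dvd' (by omega)).mpr dvd_rfl).symm
      simpa using h.pow k
  set G := Nat.gcd n (q - 1) with hG
  have hgM : Nat.gcd M (q - 1) = G := (hmod n).gcd_eq
  have hGpos : 0 < G := Nat.gcd_pos_of_pos_right _ (by omega)
  have hq1 : 1 ≤ q - 1 := by omega
  constructor
  · rintro ⟨g, hg⟩
    obtain ⟨r, _, hrdvd, hord⟩ := CfsgLib.Zsigmondy.exists_primitive_prime (a := q) (n := n) (by omega) (by omega) (by omega)
    have hr : r.Prime := Fact.out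
    have hrq : ¬ r ∣ q := by
      intro h
      have h1 : r ∣ q ^ n := dvd_pow h (by omega)
      have h2 := Nat.dvd_sub h1 hrdvd
      rw [show q ^ n - (q ^ n - 1) = 1 by have := Nat.one_le_pow n q (by omega); omega] at h2
      exact hr.not_dvd_one h2
    have hrp : r ≠ p := by
      rintro rfl
      obtain ⟨e, -, he⟩ := FiniteField.card F r
      exact hrq (by rw [← hF, he]; exact dvd_pow_self r e.ne_zero)
    have hrN : r ∣ N := by
      have h1 : q ^ n - 1 = N * (q ^ d - 1) := by rw [hN, ← Nat.sq_sub_sq, one_pow, ← pow_mul, hd]; ring_nf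
      rw [h1] at hrdvd
      refine (hr.dvd_mul.mp hrdvd).resolve_right fun h => ?_
      have := Nat.le_of_dvd (by omega) (hord ▸ (CfsgLib.GraphLie.dvd_pow_sub_one_iff hrq d).mp h)
      omega
    obtain ⟨s, rfl⟩ := QuotientGroup.mk_surjective g
    have hNs : N ∣ orderOf s := hg ▸ orderOf_map_dvd (QuotientGroup.mk' (Subgroup.center (Matrix.SpecialLinearGroup (Fin n) F))) s
    set A := (s : Matrix (Fin n) (Fin n) F) with hA
    have : Nonempty (Fin n) := ⟨⟨0, by omega⟩⟩
    obtain ⟨f, hfmem, hfdeg⟩ : ∃ f ∈ normalizedFactors A.charpoly, n ≤ f.natDegree := by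
      by_contra hne
      push Not at hne
      set L := ∏ i ∈ Finset.Ico 1 n, (q ^ i - 1) with hL
      have hc0 : ∀ f ∈ normalizedFactors A.charpoly, f.coeff 0 ≠ 0 := by
        intro f hf h0
        obtain ⟨c, hc⟩ := dvd_of_mem_normalizedFactors hf
        have hdet := Matrix.det_eq_sign_charpoly_coeff A
        rw [hc, mul_coeff_zero, h0, zero_mul, mul_zero, s.2] at hdet
        exact one_ne_zero hdet
      have h2 := CfsgLib.GLOrders.pow_eq_scalar_of_factors p A L n (Nat.clog p n) 1 (Nat.le_pow_clog hp.one_lt n)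
        (fun f hf => by
          have hi := irreducible_of_normalized_factor f hf
          have h := CfsgLib.GLOrders.irreducible_dvd_X_pow_sub_one hi (hc0 f hf)
          rw [hQ] at h
          obtain ⟨c, hc⟩ := Finset.dvd_prod_of_mem (fun i => q ^ i - 1) (Finset.mem_Ico.mpr ⟨hi.natDegree_pos, hne f hf⟩)
          rw [map_one, hL, hc, pow_mul]
          exact h.trans (sub_one_dvd_pow_sub_one _ c))
        (fun f hf => by
          have h1 := CfsgLib.GraphLie.sum_count_natDegree A {f}
          rw [Finset.sum_singleton, Fintype.card_fin] at h1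
          exact le_trans (Nat.le_mul_of_pos_right _ (irreducible_of_normalized_factor f hf).natDegree_pos) h1)
      rw [one_pow, one_smul] at h2
      have h3 := (hrN.trans hNs).trans (orderOf_dvd_of_pow_eq_one (x := s) (n := L * p ^ Nat.clog p n)
        (Subtype.ext (by rw [Matrix.SpecialLinearGroup.coe_pow]; exact h2)))
      rcases hr.dvd_mul.mp h3 with h | h
      · obtain ⟨i, hi, hd⟩ := (Nat.Prime.prime hr).exists_mem_finset_dvd h
        have h4 := hord ▸ (CfsgLib.GraphLie.dvd_pow_sub_one_iff hrq i).mp hd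
        have := Finset.mem_Ico.mp hi
        have := Nat.le_of_dvd (by omega) h4
        omega
      · exact hrp ((Nat.prime_dvd_prime_iff_eq hr hp).mp (hr.dvd_of_dvd_pow h))
    have hf := irreducible_of_normalized_factor f hfmem
    have hfm : f.Monic := by
      rw [← normalize_normalized_factor f hfmem]
      exact monic_normalize hf.ne_zero
    have hchi : A.charpoly = f := eq_of_monic_of_dvd_of_natDegree_le hfm A.charpoly_monic (dvd_of_mem_normalizedFactors hfmem)
      (by rw [Matrix.charpoly_natDegree_eq_dim, Fintype.card_fin]; exact hfdeg)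
    have hfA : aeval A (f ^ n) = 0 := by
      rw [map_pow, ← hchi, Matrix.aeval_self_charpoly, zero_pow (by omega)]
    obtain ⟨c, hc⟩ := CfsgLib.GLOrders.primary_pow_scalar p (by omega : 0 < n) A s.2 hf hfm hfA (Nat.clog p n) (Nat.le_pow_clog hp.one_lt n)
    have h1 : N ∣ CfsgLib.GLOrders.projSinger (Nat.card F) n * p ^ Nat.clog p n := by
      rw [← hg]
      refine orderOf_dvd_of_pow_eq_one ?_
      rw [← QuotientGroup.mk_pow]
      exact (CfsgLib.GLOrders.mk_eq_one_iff _).mpr ⟨c, by rw [Matrix.SpecialLinearGroup.coe_pow]; exact hc⟩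
    have hNp : Nat.Coprime N p := by
      rw [Nat.coprime_comm, hp.coprime_iff_not_dvd]
      intro h
      obtain ⟨e, -, he⟩ := FiniteField.card F p
      have h2 : p ∣ q ^ d := dvd_pow (by rw [← hF, he]; exact dvd_pow_self p e.ne_zero) (by omega)
      exact hp.not_dvd_one ((Nat.dvd_add_right h2).mp h)
    have h2 := (hNp.pow_right _).dvd_of_dvd_mul_right h1
    unfold CfsgLib.GLOrders.projSinger at h2
    rw [hQ, ← hM, hgM, Nat.dvd_div_iff_mul_dvd (hgM ▸ Nat.gcd_dvd_left M (q - 1)), hMS, mul_comm N S] at h2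
    have hGS : G ∣ S := Nat.dvd_of_mul_dvd_mul_right (by omega) h2
    have hGd : G ∣ d := by
      have h3 : G ∣ q - 1 := Nat.gcd_dvd_right _ _
      have h4 := (hmod d).of_dvd h3
      exact Nat.modEq_zero_iff_dvd.mp (h4.symm.trans (Nat.modEq_zero_iff_dvd.mpr hGS))
    by_contra hcon
    push Not at hcon
    have h5 : 2 ^ padicValNat 2 n ∣ G := Nat.dvd_gcd pow_padicValNat_dvd
      ((pow_dvd_pow 2 hcon).trans pow_padicValNat_dvd)
    have h6 : 2 ^ (padicValNat 2 n + 1) ∣ n := by
      rw [pow_succ]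
      conv_rhs => rw [hd, ← two_mul, mul_comm]
      exact Nat.mul_dvd_mul_right (h5.trans hGd) 2
    exact pow_succ_padicValNat_not_dvd (by omega) h6
  · intro hlt
    have hGd : G ∣ d := by
      have h1 : G ∣ 2 * d := by rw [two_mul, ← hd]; exact Nat.gcd_dvd_left _ _
      obtain ⟨e, o, ho, hGe⟩ := Nat.exists_eq_two_pow_mul_odd hGpos.ne'
      rw [hGe]
      refine (Nat.Coprime.pow_left e (Nat.coprime_two_left.mpr ho)).mul_dvd_of_dvd_of_dvd ?_ ?_
      · have h2 : 2 ^ e ∣ q - 1 := (hGe ▸ dvd_mul_right _ o).trans (Nat.gcd_dvd_right n (q - 1))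
        have h3 : e ≤ padicValNat 2 (q - 1) := (padicValNat_dvd_iff_le (by omega)).mp h2
        have h4 : 2 ^ (e + 1) ∣ n := (pow_dvd_pow 2 (by omega)).trans pow_padicValNat_dvd
        rw [pow_succ, hd, ← two_mul, mul_comm 2 d] at h4
        exact Nat.dvd_of_mul_dvd_mul_right two_pos h4
      · exact (Nat.coprime_two_right.mpr ho).dvd_of_dvd_mul_left ((hGe ▸ dvd_mul_left o _).trans h1)
    have hGS : G ∣ S := by
      have h3 : G ∣ q - 1 := Nat.gcd_dvd_right _ _
      exact Nat.modEq_zero_iff_dvd.mp (((hmod d).of_dvd h3).trans (Nat.modEq_zero_iff_dvd.mpr hGd))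
    obtain ⟨s, hs⟩ := CfsgLib.GLOrders.exists_psl_singer (F := F) (n := n) (by omega)
    have h1 : N ∣ CfsgLib.GLOrders.projSinger (Nat.card F) n := by
      unfold CfsgLib.GLOrders.projSinger
      rw [hQ, ← hM, hgM, Nat.dvd_div_iff_mul_dvd (hgM ▸ Nat.gcd_dvd_left M (q - 1)), hMS, mul_comm N S]
      exact Nat.mul_dvd_mul_right hGS N
    exact CfsgLib.GLOrders.exists_orderOf_eq_of_dvd (orderOf_pos _) (h1.trans hs)

end Cfsg.Agent.S2495
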