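import Cfsg.Statements.S2503
import Cfsg.Agent.SL2.Tori
-- import your own Cfsg.Agent.* helpers here

set_option autoImplicit false
open Cfsg

namespace Cfsg.Agent.S2503

/-- Let F be a finite field with q = 2^t ≥ 4 elements and L = PSL(2,F). Then L has a cyclic subgroup A of order q + 1 and an elementary abelian 2-subgroup B of order q such that L = ABA: every element of L is a product a·b·a' with a, a' ∈ A and b ∈ B. -/
theorem result {F : Type*} [Field F] [Fintype F]
    (h2 : 2 ∣ Fintype.card F) (h4 : 4 ≤ Fintype.card F) :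
    ∃ A B : Subgroup (Matrix.ProjectiveSpecialLinearGroup (Fin 2) F),
      IsCyclic A ∧ Nat.card A = Fintype.card F + 1 ∧ IsMulCommutative B ∧ (∀ b ∈ B, b * b = 1) ∧
        Nat.card B = Fintype.card F ∧
        ∀ g : Matrix.ProjectiveSpecialLinearGroup (Fin 2) F, ∃ a ∈ A, ∃ b ∈ B, ∃ c ∈ A, g = a * b * c := by
  classical
  have hch : CharP F 2 := by
    have : (2 : F) = 0 := by
      by_contra h
      have hch : ringChar F ≠ 2 := fun hr => h (by
        have : CharP F 2 := ringChar.of_eq hr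
        exact CharTwo.two_eq_zero)
      have := FiniteField.odd_card_of_char_ne_two hch
      omega
    exact CharTwo.of_one_ne_zero_of_two_eq_zero one_ne_zero this
  have h20 : (2 : F) = 0 := CharTwo.two_eq_zero
  have hsq : ∀ a : F, ∃ s : F, s ^ 2 = a := fun a => by
    obtain ⟨s, hs⟩ := (frobeniusEquiv F 2).surjective a
    exact ⟨s, hs⟩
  have hinj : Function.Injective (CfsgLib.SL2.proj (F := F)) := by
    intro a b h
    rcases CfsgLib.SL2.proj_eq_iff.mp h with h | h
    · exact h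
    · rw [h, ← neg_one_mul, CfsgLib.SL2.neg_one_eq_one h20, one_mul]
  obtain ⟨t, ht⟩ := CfsgLib.SL2.exists_elliptic_trace F
  set z := CfsgLib.SL2.compT t with hz
  have hze : CfsgLib.SL2.IsElliptic z := by intro r; rw [hz, CfsgLib.SL2.tr_compT]; exact ht r
  have hzc := CfsgLib.SL2.isCyclic_centralizer (CfsgLib.SL2.IsElliptic.tr_sq_ne hze)
  set C := Subgroup.centralizer ({z} : Set (Matrix.SpecialLinearGroup (Fin 2) F))
  refine ⟨C.map CfsgLib.SL2.proj, (CfsgLib.SL2.proj.comp CfsgLib.SL2.upperHom).range, ?_, ?_, ?_, ?_, ?_, ?_⟩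
  · exact isCyclic_of_surjective (C.equivMapOfInjective _ hinj).toMonoidHom (C.equivMapOfInjective _ hinj).surjective
  · rw [Subgroup.card_map_of_injective hinj, CfsgLib.SL2.card_centralizer_elliptic hze, Nat.card_eq_fintype_card]
  · refine ⟨⟨?_⟩⟩
    rintro ⟨_, a, rfl⟩ ⟨_, b, rfl⟩
    exact Subtype.ext (by simp only [Subgroup.coe_mul, ← map_mul, mul_comm a b])
  · rintro _ ⟨a, rfl⟩
    have : a * a = (1 : Multiplicative F) := Multiplicative.toAdd.injective (CharTwo.add_self_eq_zero (Multiplicative.toAdd a))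
    rw [← map_mul, this, map_one]
  · rw [← Nat.card_congr (MonoidHom.ofInjective (f := CfsgLib.SL2.proj.comp CfsgLib.SL2.upperHom)
      (hinj.comp (fun (s s' : Multiplicative F) h => Multiplicative.toAdd.injective (CfsgLib.SL2.upperU_injective (F := F) h)))).toEquiv, Nat.card_congr Multiplicative.toAdd,
      Nat.card_eq_fintype_card]
  · intro g
    obtain ⟨g, rfl⟩ := CfsgLib.SL2.proj_surjective g
    have hdet := CfsgLib.SL2.det_eq g
    set a := g.1 0 0 with ha
    set b := g.1 0 1 with hb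
    set c := g.1 1 0 with hc
    set d := g.1 1 1 with hd
    let Q : F → F → F := fun x y => x ^ 2 + t * x * y + y ^ 2
    have hQ0 : ∀ x y : F, Q x y = 0 → x = 0 ∧ y = 0 := by
      intro x y h
      simp only [Q] at h
      by_cases hy : y = 0
      · subst hy; exact ⟨by simpa using h, rfl⟩
      · exfalso
        refine ht (-(x / y)) ?_
        field_simp
        linear_combination h
    obtain ⟨x, y, hxy, heq⟩ : ∃ x y : F, Q x y = 1 ∧ Q (a * x + b * y) (c * x + d * y) = 1 := by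
      set A := a ^ 2 + t * a * c + c ^ 2 + 1 with hA
      set B := b ^ 2 + t * b * d + d ^ 2 + 1 with hB
      have key : ∀ x y : F, Q (a * x + b * y) (c * x + d * y) = Q x y + A * x ^ 2 + B * y ^ 2 := by
        intro x y
        simp only [Q, hA, hB]
        linear_combination (t * x * y) * hdet + (a * b * x * y + c * d * x * y + t * b * c * x * y - x ^ 2 - y ^ 2) * h20
      obtain ⟨x₀, y₀, hne, hR⟩ : ∃ x y : F, (x ≠ 0 ∨ y ≠ 0) ∧ A * x ^ 2 + B * y ^ 2 = 0 := by
        by_cases hA0 : A = 0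
        · exact ⟨1, 0, Or.inl one_ne_zero, by rw [hA0]; ring⟩
        · obtain ⟨s, hs⟩ := hsq (B / A)
          exact ⟨s, 1, Or.inr one_ne_zero, by rw [hs]; field_simp; linear_combination B * h20⟩
      have hQ : Q x₀ y₀ ≠ 0 := fun h => by
        obtain ⟨hx, hy⟩ := hQ0 _ _ h
        exact hne.elim (fun h' => h' hx) (fun h' => h' hy)
      obtain ⟨s, hs⟩ := hsq (Q x₀ y₀)⁻¹
      have h1 : Q (s * x₀) (s * y₀) = 1 := by
        have : Q (s * x₀) (s * y₀) = s ^ 2 * Q x₀ y₀ := by simp only [Q]; ring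
        rw [this, hs, inv_mul_cancel₀ hQ]
      exact ⟨s * x₀, s * y₀, h1, by rw [key, h1]; linear_combination s ^ 2 * hR⟩
    have htr : CfsgLib.SL2.tr z = t := CfsgLib.SL2.tr_compT t
    have hm : ((x, y) : F × F) ∈ CfsgLib.SL2.normSet (CfsgLib.SL2.tr z) 1 := by rw [htr]; exact hxy
    have hm' : ((a * x + b * y, c * x + d * y) : F × F) ∈ CfsgLib.SL2.normSet (CfsgLib.SL2.tr z) 1 := by rw [htr]; exact heq
    set h := CfsgLib.SL2.centElt z ⟨_, hm⟩
    set h' := CfsgLib.SL2.centElt z ⟨_, hm'⟩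
    set u := (h' : Matrix.SpecialLinearGroup (Fin 2) F)⁻¹ * g * (h : Matrix.SpecialLinearGroup (Fin 2) F) with hu
    have hz00 : z.1 0 0 = 0 := rfl
    have hz10 : z.1 1 0 = 1 := rfl
    have hz11 : z.1 1 1 = t := rfl
    have hcol : (g * h.1).1 0 0 = h'.1.1 0 0 ∧ (g * h.1).1 1 0 = h'.1.1 1 0 := by
      rw [CfsgLib.SL2.mul00, CfsgLib.SL2.mul10]
      simp only [h, h', CfsgLib.SL2.centElt, CfsgLib.SL2.linElt_coe, CfsgLib.SL2.linComb, ← ha, ← hb, ← hc, ← hd, hz00, hz10]
      simp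
    have hu0 : u.1 0 0 = 1 ∧ u.1 1 0 = 0 := by
      have := CfsgLib.SL2.det_eq h'.1
      refine ⟨?_, ?_⟩
      · rw [hu, mul_assoc, CfsgLib.SL2.mul00, hcol.1, hcol.2, CfsgLib.SL2.inv00, CfsgLib.SL2.inv01]
        linear_combination this
      · rw [hu, mul_assoc, CfsgLib.SL2.mul10, hcol.1, hcol.2, CfsgLib.SL2.inv10, CfsgLib.SL2.inv11]
        ring
    have huU : u = CfsgLib.SL2.upperU (u.1 0 1) := by
      have := CfsgLib.SL2.det_eq u
      rw [hu0.1, hu0.2] at this
      exact CfsgLib.SL2.ext2 (by simp [hu0.1]) (by simp) (by simp [hu0.2]) (by simp; linear_combination this)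
    refine ⟨CfsgLib.SL2.proj h'.1, ⟨h'.1, h'.2, rfl⟩, CfsgLib.SL2.proj u, ⟨Multiplicative.ofAdd (u.1 0 1), ?_⟩,
      CfsgLib.SL2.proj h.1⁻¹, ⟨h.1⁻¹, C.inv_mem h.2, rfl⟩, ?_⟩
    · rw [huU]; simp [CfsgLib.SL2.upperHom]
    · rw [← map_mul, ← map_mul, hu]
      congr 1
      group

end Cfsg.Agent.S2503
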