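import Cfsg.Statements.S2504
import Mathlib
import Cfsg.Agent.H29.AbelianPerm

set_option autoImplicit false
open Cfsg

namespace Cfsg.Agent.S2504

/-- The largest order of an abelian subgroup of the alternating group of degree n is 3^k when n = 3k, 4·3^(k−1) when n = 3k + 1, and 16·3^(k−2) when n = 3k + 2, for every k ≥ 2 (so for all degrees n ≥ 6). -/
theorem result (k : ℕ) (hk : 2 ≤ k) :
    IsGreatest {c : ℕ | ∃ A : Subgroup (alternatingGroup (Fin (3 * k))), IsMulCommutative A ∧ Nat.card A = c} (3 ^ k) ∧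
    IsGreatest {c : ℕ | ∃ A : Subgroup (alternatingGroup (Fin (3 * k + 1))), IsMulCommutative A ∧ Nat.card A = c}
      (4 * 3 ^ (k - 1)) ∧
    IsGreatest {c : ℕ | ∃ A : Subgroup (alternatingGroup (Fin (3 * k + 2))), IsMulCommutative A ∧ Nat.card A = c}
      (16 * 3 ^ (k - 2)) := by
  obtain ⟨j, rfl⟩ : ∃ j, k = j + 2 := ⟨k - 2, by omega⟩
  have up : ∀ N, ∀ c ∈ {c : ℕ | ∃ A : Subgroup (alternatingGroup (Fin N)), IsMulCommutative A ∧ Nat.card A = c},
      c ≤ max (H29.AbelianPerm.h N) (H29.AbelianPerm.f (N - 2)) := by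
    rintro N c ⟨A, hA, rfl⟩
    have := H29.AbelianPerm.card_le_even (Fin N) (A.map (alternatingGroup (Fin N)).subtype) ?_ ?_
    · rw [Fintype.card_fin] at this
      rwa [Nat.card_congr ((A.equivMapOfInjective (alternatingGroup (Fin N)).subtype Subtype.val_injective).toEquiv)]
    · rintro _ ⟨a, ha, rfl⟩ _ ⟨b, hb, rfl⟩
      rw [← map_mul, ← map_mul]
      congr 1
      exact congrArg Subtype.val (hA.is_comm.comm ⟨a, ha⟩ ⟨b, hb⟩)
    · rintro _ ⟨a, -, rfl⟩
      exact a.2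
  have low : ∀ {N c : ℕ}, H29.AbelianPerm.Has true N c →
      c ∈ {c : ℕ | ∃ A : Subgroup (alternatingGroup (Fin N)), IsMulCommutative A ∧ Nat.card A = c} := by
    rintro N c ⟨A, hA, he, rfl⟩
    exact ⟨A.subgroupOf _, ⟨⟨fun a b => Subtype.ext (Subtype.ext (hA _ a.2 _ b.2))⟩⟩,
      Nat.card_congr (Subgroup.subgroupOfEquivOfLe (he rfl)).toEquiv⟩
  obtain ⟨h0, h1, h2⟩ := H29.AbelianPerm.h_values j
  have f2 := (H29.AbelianPerm.f_values (j + 2)).1
  refine ⟨⟨low (H29.AbelianPerm.has_threes _ _), ?_⟩, ⟨?_, ?_⟩, ⟨?_, ?_⟩⟩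
  · refine fun c hc => (up _ c hc).trans (max_le h0.le ?_)
    rw [show 3 * (j + 2) - 2 = 3 * (j + 1) + 1 by omega, (H29.AbelianPerm.f_values j).2.1]
    have : 3 ^ (j + 2) = 9 * 3 ^ j := by ring
    omega
  · rw [show 3 * (j + 2) + 1 = 4 + 3 * (j + 1) by ring, show j + 2 - 1 = j + 1 by omega]
    exact low ((H29.AbelianPerm.has_four _).add (H29.AbelianPerm.has_threes _ _))
  · refine fun c hc => (up _ c hc).trans ?_
    rw [show j + 2 - 1 = j + 1 by omega]
    refine max_le h1.le ?_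
    rw [show 3 * (j + 2) + 1 - 2 = 3 * (j + 1) + 2 by omega, (H29.AbelianPerm.f_values (j + 1)).2.2]
    omega
  · rw [show 3 * (j + 2) + 2 = 4 + (4 + 3 * j) by ring, show j + 2 - 2 = j by omega,
      show 16 * 3 ^ j = 4 * (4 * 3 ^ j) by ring]
    exact low ((H29.AbelianPerm.has_four _).add
      ((H29.AbelianPerm.has_four _).add (H29.AbelianPerm.has_threes _ _)))
  · refine fun c hc => (up _ c hc).trans ?_
    rw [show j + 2 - 2 = j by omega]
    refine max_le h2.le ?_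
    rw [show 3 * (j + 2) + 2 - 2 = 3 * (j + 1 + 1) by omega, (H29.AbelianPerm.f_values (j + 1)).1]
    have : 3 ^ (j + 1 + 1) = 9 * 3 ^ j := by ring
    omega

end Cfsg.Agent.S2504
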