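import Cfsg.Statements.S2505
import Mathlib
import Cfsg.Agent.H29.AbelianPerm

set_option autoImplicit false
open Cfsg

namespace Cfsg.Agent.S2505

/-- The largest order of an abelian subgroup of the symmetric group of degree n is 3^k when n = 3k, 4·3^(k−1) when n = 3k + 1, and 2·3^k when n = 3k + 2, for every k ≥ 1. -/
theorem result (k : ℕ) (hk : 1 ≤ k) :
    IsGreatest {c : ℕ | ∃ A : Subgroup (Equiv.Perm (Fin (3 * k))), IsMulCommutative A ∧ Nat.card A = c} (3 ^ k) ∧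
    IsGreatest {c : ℕ | ∃ A : Subgroup (Equiv.Perm (Fin (3 * k + 1))), IsMulCommutative A ∧ Nat.card A = c}
      (4 * 3 ^ (k - 1)) ∧
    IsGreatest {c : ℕ | ∃ A : Subgroup (Equiv.Perm (Fin (3 * k + 2))), IsMulCommutative A ∧ Nat.card A = c}
      (2 * 3 ^ k) := by
  obtain ⟨j, rfl⟩ : ∃ j, k = j + 1 := ⟨k - 1, by omega⟩
  have up : ∀ N, ∀ c ∈ {c : ℕ | ∃ A : Subgroup (Equiv.Perm (Fin N)), IsMulCommutative A ∧ Nat.card A = c},
      c ≤ H29.AbelianPerm.f N := by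
    rintro N c ⟨A, hA, rfl⟩
    exact H29.AbelianPerm.card_le_f N (Fin N) (Fintype.card_fin N) A
      (fun a ha b hb => congrArg Subtype.val (hA.is_comm.comm ⟨a, ha⟩ ⟨b, hb⟩))
  have low : ∀ {N c : ℕ}, H29.AbelianPerm.Has false N c →
      c ∈ {c : ℕ | ∃ A : Subgroup (Equiv.Perm (Fin N)), IsMulCommutative A ∧ Nat.card A = c} := by
    rintro N c ⟨A, hA, -, rfl⟩
    exact ⟨A, ⟨⟨fun a b => Subtype.ext (hA _ a.2 _ b.2)⟩⟩, rfl⟩
  obtain ⟨f0, f1, -⟩ := H29.AbelianPerm.f_values j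
  refine ⟨⟨low (H29.AbelianPerm.has_threes _ _), ?_⟩, ⟨?_, ?_⟩, ⟨?_, ?_⟩⟩
  · exact fun c hc => (up _ c hc).trans f0.le
  · simp only [Nat.add_sub_cancel]
    rw [show 3 * (j + 1) + 1 = 4 + 3 * j by ring]
    exact low ((H29.AbelianPerm.has_four _).add (H29.AbelianPerm.has_threes _ _))
  · intro c hc
    simp only [Nat.add_sub_cancel]
    exact (up _ c hc).trans f1.le
  · rw [show 3 * (j + 1) + 2 = 2 + 3 * (j + 1) by ring]
    exact low (H29.AbelianPerm.has_two.add (H29.AbelianPerm.has_threes _ _))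
  · exact fun c hc => (up _ c hc).trans (H29.AbelianPerm.f_values (j + 1)).2.2.le

end Cfsg.Agent.S2505
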