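import Cfsg.Statements.S2506
import Cfsg.Agent.AltAbelian.Conj

set_option autoImplicit false
open scoped Pointwise
open Cfsg

namespace Cfsg.Agent.S2506

open Equiv Equiv.Perm CfsgLib.AltAbelian
open scoped Pointwise

theorem comm_map {n : ℕ} {A : Subgroup (alternatingGroup (Fin n))} (hA : IsMulCommutative A) :
    ∀ a ∈ A.map (alternatingGroup (Fin n)).subtype,
    ∀ b ∈ A.map (alternatingGroup (Fin n)).subtype, a * b = b * a := by
  rintro _ ⟨a, ha, rfl⟩ _ ⟨b, hb, rfl⟩
  rw [← map_mul, ← map_mul]
  exact congrArg _ (congrArg Subtype.val (hA.is_comm.comm ⟨a, ha⟩ ⟨b, hb⟩))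

theorem good_le {n m : ℕ} (h : Good n m) {A : Subgroup (alternatingGroup (Fin n))}
    (hmax : ∀ C : Subgroup (alternatingGroup (Fin n)), IsMulCommutative C → Nat.card C ≤ Nat.card A) :
    m ≤ Nat.card A := by
  obtain ⟨C, hC, hCe, rfl⟩ := h
  rw [← Nat.card_congr (Subgroup.subgroupOfEquivOfLe hCe).toEquiv]
  refine hmax _ ⟨⟨fun a b => ?_⟩⟩
  apply Subtype.ext
  apply Subtype.ext
  exact hC _ a.2 _ b.2

/-- In the alternating group of any degree, any two abelian subgroups of the largest possible order (among abelian subgroups) are conjugate. -/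
theorem result (n : ℕ)
    (A B : Subgroup (alternatingGroup (Fin n))) (hA : IsMulCommutative A) (hB : IsMulCommutative B)
    (hAmax : ∀ C : Subgroup (alternatingGroup (Fin n)), IsMulCommutative C → Nat.card C ≤ Nat.card A)
    (hBmax : ∀ C : Subgroup (alternatingGroup (Fin n)), IsMulCommutative C → Nat.card C ≤ Nat.card B) :
    ∃ g : alternatingGroup (Fin n), B = MulAut.conj g • A := by
  classical
  set ι := (alternatingGroup (Fin n)).subtype with hι
  have hev : ∀ C : Subgroup (alternatingGroup (Fin n)), C.map ι ≤ alternatingGroup (Fin n) :=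
    fun C => Subgroup.map_subtype_le C
  have hcard : ∀ C : Subgroup (alternatingGroup (Fin n)), Nat.card (C.map ι) = Nat.card C :=
    fun C => Subgroup.card_subtype _ C
  have hsame : Nat.card A = Nat.card B := le_antisymm (hBmax A hA) (hAmax B hB)
  by_cases hn : n ≤ 2
  · haveI : Subsingleton (alternatingGroup (Fin n)) := by
      rw [← Finite.card_le_one_iff_subsingleton]
      interval_cases n <;> rw [Nat.card_eq_fintype_card] <;> decide
    exact ⟨1, by ext x; simp [Subsingleton.elim x 1]⟩
  by_cases h5 : n = 5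
  · subst h5
    have hA5 : Nat.card A = 5 := by
      rw [← hcard]
      exact card_five (comm_map hA) (hev A) (by rw [hcard]; exact good_le good_five hAmax)
    have hB5 : Nat.card B = 5 := hsame ▸ hA5
    haveI : Fact (Nat.Prime 5) := ⟨Nat.prime_five⟩
    have h60 : Nat.card (alternatingGroup (Fin 5)) = 60 := by
      have : 2 * Nat.card (alternatingGroup (Fin 5)) = 120 := by
        rw [Nat.card_eq_fintype_card, two_mul_card_alternatingGroup, Fintype.card_perm,
          Fintype.card_fin]
        rfl
      omega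
    have hnd : ∀ C : Subgroup (alternatingGroup (Fin 5)), Nat.card C = 5 → ¬ 5 ∣ C.index := by
      intro C hC
      have h := C.card_mul_index
      rw [hC, h60] at h
      omega
    let SA : Sylow 5 (alternatingGroup (Fin 5)) :=
      (IsPGroup.of_card (n := 1) (by rw [hA5, pow_one]) : IsPGroup 5 A).toSylow (hnd A hA5)
    let SB : Sylow 5 (alternatingGroup (Fin 5)) :=
      (IsPGroup.of_card (n := 1) (by rw [hB5, pow_one]) : IsPGroup 5 B).toSylow (hnd B hB5)
    obtain ⟨g, hg⟩ := MulAction.exists_smul_eq (alternatingGroup (Fin 5)) SA SB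
    refine ⟨g, ?_⟩
    exact (congrArg Sylow.toSubgroup hg).symm
  obtain ⟨m, hm, hb⟩ := good_bound (by omega) h5
  have hbig : ∀ C : Subgroup (alternatingGroup (Fin n)), IsMulCommutative C →
      m ≤ Nat.card C → Big (C.map ι) := fun C hC hle =>
    big_of_card (comm_map hC) (hev C) (by
      rw [hcard, Fintype.card_fin]
      exact hb.trans (Nat.mul_le_mul_left _ (Nat.pow_le_pow_left hle 3)))
  obtain ⟨σ, hs, hσ⟩ := exists_even_conj (hbig A hA (good_le hm hAmax))
    (hbig B hB (good_le hm hBmax)) (by rw [hcard, hcard, hsame]) (by simp; omega)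
  let g : alternatingGroup (Fin n) := ⟨σ, mem_alternatingGroup.mpr hs⟩
  refine ⟨g, Subgroup.map_injective (f := ι) Subtype.val_injective ?_⟩
  rw [← hσ]
  show (A.map ι).map (MulAut.conj σ).toMonoidHom = (A.map (MulAut.conj g).toMonoidHom).map ι
  rw [Subgroup.map_map, Subgroup.map_map]
  rfl

end Cfsg.Agent.S2506
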