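import Cfsg.Statements.S2507
import Cfsg.Agent.SL2.PSLData
-- import your own Cfsg.Agent.* helpers here

set_option autoImplicit false
open Cfsg

namespace Cfsg.Agent.S2507

/-- Let F be a finite field with q = 2^f ≥ 4 elements. The conjugacy class sizes of PSL(2,F) are exactly 1, q(q − 1), q² − 1 and q(q + 1). -/
theorem result {F : Type*} [Field F] [Fintype F]
    (h2 : 2 ∣ Fintype.card F) (h4 : 4 ≤ Fintype.card F) :
    Set.range (fun g : (Matrix.ProjectiveSpecialLinearGroup (Fin 2) F) => (Subgroup.centralizer ({g} : Set (Matrix.ProjectiveSpecialLinearGroup (Fin 2) F))).index) =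
      {1, Fintype.card F * (Fintype.card F - 1), Fintype.card F ^ 2 - 1, Fintype.card F * (Fintype.card F + 1)} := by
  have hch : CharP F 2 := by
    have : (2 : F) = 0 := by
      by_contra h
      have hch : ringChar F ≠ 2 := fun hr => h (by
        have : CharP F 2 := ringChar.of_eq hr
        exact CharTwo.two_eq_zero)
      have := FiniteField.odd_card_of_char_ne_two hch
      omega
    exact CharTwo.of_one_ne_zero_of_two_eq_zero one_ne_zero this
  have h20 : (2 : F) = 0 := CharTwo.two_eq_zero
  have hpos := Fintype.card_pos (α := F)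
  apply Set.Subset.antisymm
  · rintro n ⟨x, rfl⟩
    obtain ⟨g, rfl⟩ := CfsgLib.SL2.proj_surjective x
    simp only [Set.mem_insert_iff, Set.mem_singleton_iff]
    by_cases hg : g ∈ Subgroup.center (Matrix.SpecialLinearGroup (Fin 2) F)
    · left
      rw [CfsgLib.SL2.proj_eq_one_iff.mpr ((CfsgLib.SL2.mem_center_iff g).mp hg)]
      exact CfsgLib.SL2.index_centralizer_one
    · rw [CfsgLib.SL2.index_centralizer_proj (Or.inr h20)]
      rcases CfsgLib.SL2.type_cases (g := g) with h | ⟨h4', r, hr⟩ | ⟨_, he⟩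
      · right; right; left
        rw [← CfsgLib.SL2.index_centralizer_unipotent hg h, CfsgLib.SL2.card_sq_eq_one_even h20, one_mul]
      · exact Or.inr (Or.inr (Or.inr (CfsgLib.SL2.index_centralizer_split h4' hr)))
      · exact Or.inr (Or.inl (CfsgLib.SL2.index_centralizer_elliptic he))
  · intro n hn
    simp only [Set.mem_insert_iff, Set.mem_singleton_iff] at hn
    rcases hn with rfl | rfl | rfl | rfl
    · exact ⟨1, CfsgLib.SL2.index_centralizer_one⟩
    · obtain ⟨g, hg⟩ := CfsgLib.SL2.exists_elliptic_trace F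
      refine ⟨CfsgLib.SL2.proj (CfsgLib.SL2.compT g), ?_⟩
      simp only
      rw [CfsgLib.SL2.index_centralizer_proj (Or.inr h20)]
      exact CfsgLib.SL2.index_centralizer_elliptic (by intro r; rw [CfsgLib.SL2.tr_compT]; exact hg r)
    · refine ⟨CfsgLib.SL2.proj (CfsgLib.SL2.upperU 1), ?_⟩
      simp only
      rw [CfsgLib.SL2.index_centralizer_proj (Or.inr h20),
        ← CfsgLib.SL2.index_centralizer_unipotent (CfsgLib.SL2.upperU_not_center one_ne_zero)
          (Or.inl (CfsgLib.SL2.tr_upperU 1)), CfsgLib.SL2.card_sq_eq_one_even h20, one_mul]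
    · obtain ⟨u, hu⟩ := CfsgLib.SL2.diagT_generator (F := F)
      rw [Nat.card_eq_fintype_card] at hu
      have hu1 : (u : F) ^ 2 ≠ 1 := by
        intro h
        have h2u : u ^ 2 = 1 := Units.ext (by simpa using h)
        have h3 : CfsgLib.SL2.diagT u ^ 2 = 1 := by
          rw [pow_two, ← CfsgLib.SL2.diagT_mul, ← pow_two, h2u, CfsgLib.SL2.diagT_one]
        have := Nat.le_of_dvd (by norm_num) (orderOf_dvd_of_pow_eq_one h3)
        omega
      refine ⟨CfsgLib.SL2.proj (CfsgLib.SL2.diagT u), ?_⟩
      simp only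
      rw [CfsgLib.SL2.index_centralizer_proj (Or.inr h20)]
      refine CfsgLib.SL2.index_centralizer_split (r := (u : F)) ?_ ?_
      · rw [CfsgLib.SL2.tr_diagT]; exact CfsgLib.SL2.add_inv_sq_ne_four _ u.ne_zero hu1
      · rw [CfsgLib.SL2.tr_diagT]; field_simp; ring

end Cfsg.Agent.S2507
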