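import Cfsg.Statements.S2508
import Cfsg.Agent.SL2.PSLData
-- import your own Cfsg.Agent.* helpers here

set_option autoImplicit false
open Cfsg

namespace Cfsg.Agent.S2508

/-- Let F be a finite field with q elements, q odd and q ≥ 7. If q ≡ 1 (mod 4) the conjugacy class sizes of PSL(2,F) are exactly 1, (q² − 1)/2, q(q + 1)/2, q(q − 1) and q(q + 1); if q ≡ 3 (mod 4) they are exactly 1, (q² − 1)/2, q(q − 1)/2, q(q + 1) and q(q − 1). -/
theorem result {F : Type*} [Field F] [Fintype F]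
    (hodd : ¬ 2 ∣ Fintype.card F) (h7 : 7 ≤ Fintype.card F) :
    (Fintype.card F % 4 = 1 →
      Set.range (fun g : (Matrix.ProjectiveSpecialLinearGroup (Fin 2) F) => (Subgroup.centralizer ({g} : Set (Matrix.ProjectiveSpecialLinearGroup (Fin 2) F))).index) =
        {1, (Fintype.card F ^ 2 - 1) / 2, Fintype.card F * (Fintype.card F + 1) / 2,
          Fintype.card F * (Fintype.card F - 1), Fintype.card F * (Fintype.card F + 1)}) ∧
    (Fintype.card F % 4 = 3 →
      Set.range (fun g : (Matrix.ProjectiveSpecialLinearGroup (Fin 2) F) => (Subgroup.centralizer ({g} : Set (Matrix.ProjectiveSpecialLinearGroup (Fin 2) F))).index) =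
        {1, (Fintype.card F ^ 2 - 1) / 2, Fintype.card F * (Fintype.card F - 1) / 2,
          Fintype.card F * (Fintype.card F + 1), Fintype.card F * (Fintype.card F - 1)}) := by
  have hchar : ringChar F ≠ 2 := fun h => hodd (by
    have := FiniteField.even_card_of_char_two h
    exact Nat.dvd_of_mod_eq_zero this)
  have h2 : (2 : F) ≠ 0 := Ring.two_ne_zero hchar
  have hq : Fintype.card F % 2 = 1 := by omega
  set q := Fintype.card F with hqdef
  have hw : Nat.card {w : F // w ^ 2 = 1} = 2 := CfsgLib.SL2.card_sq_eq_one_odd h2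
  set f := fun g : (Matrix.ProjectiveSpecialLinearGroup (Fin 2) F) => (Subgroup.centralizer ({g} : Set (Matrix.ProjectiveSpecialLinearGroup (Fin 2) F))).index with hf
  have hbig : ∀ e : ℕ, e = (q ^ 2 - 1) / 2 ↔ 2 * e = q ^ 2 - 1 := fun e => by
    have : 2 ∣ q ^ 2 - 1 := by
      have : q ^ 2 % 2 = 1 := by rw [Nat.pow_mod, hq]
      omega
    omega
  have hroot : ∀ g : Matrix.SpecialLinearGroup (Fin 2) F, CfsgLib.SL2.tr g = 0 →
      ((∃ r : F, r * r - CfsgLib.SL2.tr g * r + 1 = 0) ↔ q % 4 ≠ 3) := by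
    intro g h0
    rw [← FiniteField.isSquare_neg_one_iff, h0]
    constructor
    · rintro ⟨r, hr⟩; exact ⟨r, by linear_combination -hr⟩
    · rintro ⟨r, hr⟩; exact ⟨r, by linear_combination -hr⟩
  have hzero4 : ∀ g : Matrix.SpecialLinearGroup (Fin 2) F, CfsgLib.SL2.tr g = 0 → CfsgLib.SL2.tr g ^ 2 ≠ 4 := by
    intro g h0 h
    rw [h0] at h
    exact h2 (mul_self_eq_zero.mp (by linear_combination -h))
  have hval : ∀ g : Matrix.SpecialLinearGroup (Fin 2) F,
      f (CfsgLib.SL2.proj g) = 1 ∨ f (CfsgLib.SL2.proj g) = (q ^ 2 - 1) / 2 ∨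
      (q % 4 ≠ 3 ∧ f (CfsgLib.SL2.proj g) = q * (q + 1) / 2) ∨
      (q % 4 = 3 ∧ f (CfsgLib.SL2.proj g) = q * (q - 1) / 2) ∨
      f (CfsgLib.SL2.proj g) = q * (q - 1) ∨ f (CfsgLib.SL2.proj g) = q * (q + 1) := by
    intro g
    by_cases hg : g ∈ Subgroup.center (Matrix.SpecialLinearGroup (Fin 2) F)
    · left
      simp only [hf]
      rw [CfsgLib.SL2.proj_eq_one_iff.mpr ((CfsgLib.SL2.mem_center_iff g).mp hg)]
      exact CfsgLib.SL2.index_centralizer_one
    by_cases h0 : CfsgLib.SL2.tr g = 0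
    · have hi := CfsgLib.SL2.index_centralizer_proj_zero h2 h0
      by_cases hm : q % 4 = 3
      · have he : CfsgLib.SL2.IsElliptic g := fun r hr => (hroot g h0).mp ⟨r, hr⟩ hm
        rw [CfsgLib.SL2.index_centralizer_elliptic he] at hi
        refine Or.inr (Or.inr (Or.inr (Or.inl ⟨hm, ?_⟩)))
        simp only [hf, hqdef] at *; omega
      · obtain ⟨r, hr⟩ := (hroot g h0).mpr hm
        rw [CfsgLib.SL2.index_centralizer_split (hzero4 g h0) hr] at hi
        refine Or.inr (Or.inr (Or.inl ⟨hm, ?_⟩))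
        simp only [hf, hqdef] at *; omega
    · have hi : f (CfsgLib.SL2.proj g) = _ := CfsgLib.SL2.index_centralizer_proj (Or.inl h0)
      rcases CfsgLib.SL2.type_cases (g := g) with h | ⟨h4', r, hr⟩ | ⟨_, he⟩
      · refine Or.inr (Or.inl ((hbig _).mpr ?_))
        rw [hi, hqdef, ← CfsgLib.SL2.index_centralizer_unipotent hg h, hw]
      · exact Or.inr (Or.inr (Or.inr (Or.inr (Or.inr (hi.trans (CfsgLib.SL2.index_centralizer_split h4' hr))))))
      · exact Or.inr (Or.inr (Or.inr (Or.inr (Or.inl (hi.trans (CfsgLib.SL2.index_centralizer_elliptic he))))))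
  have e1 : 1 ∈ Set.range f := ⟨1, CfsgLib.SL2.index_centralizer_one⟩
  have e2 : (q ^ 2 - 1) / 2 ∈ Set.range f := by
    refine ⟨CfsgLib.SL2.proj (CfsgLib.SL2.upperU 1), (hbig _).mpr ?_⟩
    simp only [hf]
    rw [CfsgLib.SL2.index_centralizer_proj (Or.inl (by rw [CfsgLib.SL2.tr_upperU]; exact h2)), hqdef,
      ← CfsgLib.SL2.index_centralizer_unipotent (CfsgLib.SL2.upperU_not_center one_ne_zero)
        (Or.inl (CfsgLib.SL2.tr_upperU 1)), hw]
  have e3 : q * (q + 1) ∈ Set.range f := by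
    obtain ⟨g, h0, h4', r, hr⟩ := CfsgLib.SL2.exists_split_tr_ne_zero (F := F) (by omega)
    exact ⟨CfsgLib.SL2.proj g, (CfsgLib.SL2.index_centralizer_proj (Or.inl h0)).trans
      (CfsgLib.SL2.index_centralizer_split h4' hr)⟩
  have e4 : q * (q - 1) ∈ Set.range f := by
    obtain ⟨g, h0, he⟩ := CfsgLib.SL2.exists_elliptic_tr_ne_zero (F := F) (by omega)
    exact ⟨CfsgLib.SL2.proj g, (CfsgLib.SL2.index_centralizer_proj (Or.inl h0)).trans
      (CfsgLib.SL2.index_centralizer_elliptic he)⟩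
  have hc0 : CfsgLib.SL2.tr (CfsgLib.SL2.compT (0 : F)) = 0 := CfsgLib.SL2.tr_compT 0
  have hiz := CfsgLib.SL2.index_centralizer_proj_zero h2 hc0
  constructor
  · intro hm
    have e5 : q * (q + 1) / 2 ∈ Set.range f := by
      obtain ⟨r, hr⟩ := (hroot _ hc0).mpr (by omega)
      rw [CfsgLib.SL2.index_centralizer_split (hzero4 _ hc0) hr] at hiz
      exact ⟨CfsgLib.SL2.proj (CfsgLib.SL2.compT 0), by simp only [hf, hqdef] at *; omega⟩
    apply Set.Subset.antisymm
    · rintro n ⟨x, rfl⟩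
      obtain ⟨g, rfl⟩ := CfsgLib.SL2.proj_surjective x
      simp only [Set.mem_insert_iff, Set.mem_singleton_iff]
      rcases hval g with h | h | ⟨_, h⟩ | ⟨h', _⟩ | h | h
      · exact Or.inl h
      · exact Or.inr (Or.inl h)
      · exact Or.inr (Or.inr (Or.inl h))
      · omega
      · exact Or.inr (Or.inr (Or.inr (Or.inl h)))
      · exact Or.inr (Or.inr (Or.inr (Or.inr h)))
    · simp only [Set.insert_subset_iff, Set.singleton_subset_iff]
      exact ⟨e1, e2, e5, e4, e3⟩
  · intro hm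
    have e5 : q * (q - 1) / 2 ∈ Set.range f := by
      have he : CfsgLib.SL2.IsElliptic (CfsgLib.SL2.compT (0 : F)) := fun r hr => (hroot _ hc0).mp ⟨r, hr⟩ hm
      rw [CfsgLib.SL2.index_centralizer_elliptic he] at hiz
      exact ⟨CfsgLib.SL2.proj (CfsgLib.SL2.compT 0), by simp only [hf, hqdef] at *; omega⟩
    apply Set.Subset.antisymm
    · rintro n ⟨x, rfl⟩
      obtain ⟨g, rfl⟩ := CfsgLib.SL2.proj_surjective x
      simp only [Set.mem_insert_iff, Set.mem_singleton_iff]
      rcases hval g with h | h | ⟨h', _⟩ | ⟨_, h⟩ | h | h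
      · exact Or.inl h
      · exact Or.inr (Or.inl h)
      · omega
      · exact Or.inr (Or.inr (Or.inl h))
      · exact Or.inr (Or.inr (Or.inr (Or.inr h)))
      · exact Or.inr (Or.inr (Or.inr (Or.inl h)))
    · simp only [Set.insert_subset_iff, Set.singleton_subset_iff]
      exact ⟨e1, e2, e5, e3, e4⟩

end Cfsg.Agent.S2508
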