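import Cfsg.Statements.S2510
import Cfsg.Agent.GLOrders.SpectrumPowers
import Cfsg.Agent.GLOrders.ProjectiveSL
-- import your own Cfsg.Agent.* helpers here

set_option autoImplicit false
open Cfsg

namespace Cfsg.Agent.S2510

/-- Let F be a finite field with q = p^a elements, n ≥ 2 (with q ≥ 4 when n = 2), L = PSL(n, F), and let r be a prime dividing q − 1 and not dividing n. Then for every m the direct product L × L × L × (ℤ/r)^m has the same set of element orders as L × L × L; and if n − 1 ≠ p^j for every j ≥ 0 (so never when n = 2, since 1 = p^0), then already L × L × (ℤ/r)^m has the same set of element orders as L × L. -/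
theorem result {F : Type*} [Field F] [Fintype F] (p a n r m : ℕ) (hp : p.Prime) (ha : 1 ≤ a) (hF : Fintype.card F = p ^ a)
    (hn : 2 ≤ n) (hn2 : n = 2 → 4 ≤ Fintype.card F) (hr : r.Prime) (hrq : r ∣ Fintype.card F - 1) (hrn : ¬ r ∣ n) :
    Set.range (orderOf : Matrix.ProjectiveSpecialLinearGroup (Fin n) F × Matrix.ProjectiveSpecialLinearGroup (Fin n) F × Matrix.ProjectiveSpecialLinearGroup (Fin n) F × Multiplicative (Fin m → ZMod r) → ℕ) =
      Set.range (orderOf : Matrix.ProjectiveSpecialLinearGroup (Fin n) F × Matrix.ProjectiveSpecialLinearGroup (Fin n) F × Matrix.ProjectiveSpecialLinearGroup (Fin n) F → ℕ) ∧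
    ((¬ ∃ j : ℕ, n - 1 = p ^ j) →
      Set.range (orderOf : Matrix.ProjectiveSpecialLinearGroup (Fin n) F × Matrix.ProjectiveSpecialLinearGroup (Fin n) F × Multiplicative (Fin m → ZMod r) → ℕ) =
        Set.range (orderOf : Matrix.ProjectiveSpecialLinearGroup (Fin n) F × Matrix.ProjectiveSpecialLinearGroup (Fin n) F → ℕ)) := by
  classical
  have : Fact p.Prime := ⟨hp⟩
  have : Fact r.Prime := ⟨hr⟩
  have : CharP F p := charP_of_card_eq_prime_pow hF
  have hn0 : 0 < n := by omega
  have hrq' : r ∣ Nat.card F - 1 := by rwa [Nat.card_eq_fintype_card]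
  have hrp : r ≠ p := by
    rintro rfl
    have h1 : r ∣ Fintype.card F := by rw [hF]; exact dvd_pow_self r (by omega)
    have h2 := Nat.dvd_sub h1 hrq
    have h3 : 1 ≤ Fintype.card F := Fintype.card_pos
    rw [show Fintype.card F - (Fintype.card F - 1) = 1 by omega] at h2
    exact hr.not_dvd_one h2
  have hna : n ≤ p ^ Nat.clog p n := Nat.le_pow_clog hp.one_lt n
  have hlt : ∀ j, j < Nat.clog p n → p ^ j < n := by
    intro j hj
    by_contra h
    have := Nat.clog_le_of_le_pow (b := p) (x := n) (y := j) (by omega)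
    omega
  have hdich := CfsgLib.GLOrders.order_dichotomy (F := F) p hn0 r hr hrq' hrn _ hna
  have hcop := CfsgLib.GLOrders.coprime_projSinger (F := F) p hn0 (Nat.clog p n)
  obtain ⟨sS, hS⟩ := CfsgLib.GLOrders.exists_psl_singer (F := F) (n := n) hn0
  have hZ : ∀ z : Multiplicative (Fin m → ZMod r), z ^ r = 1 := by
    intro z
    refine Multiplicative.toAdd.injective (funext fun i => ?_)
    simp
  obtain ⟨yr, hyr⟩ : ∃ y : Matrix.SpecialLinearGroup (Fin n) F, orderOf (QuotientGroup.mk' (Subgroup.center _) y) = r := by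
    obtain ⟨y, hy, _⟩ := CfsgLib.GLOrders.exists_of_idempotent r hr hrq' hrn
      (Matrix.diagonal fun i : Fin n => if i.val = 0 then (1 : F) else 0) (by simp)
      (fun h => by simpa using congrFun (congrFun h ⟨0, hn0⟩) ⟨0, hn0⟩)
      (fun h => by simpa using congrFun (congrFun h ⟨1, by omega⟩) ⟨1, by omega⟩)
    exact ⟨y, hy⟩
  refine ⟨?_, ?_⟩
  · obtain ⟨g, hgdet, hgord⟩ := CfsgLib.GLOrders.exists_unipotent (F := F) p n _ hn hna hlt
    obtain ⟨sP, hsP⟩ : ∃ s : Matrix.SpecialLinearGroup (Fin n) F, orderOf s = p ^ Nat.clog p n := by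
      obtain ⟨s, hs⟩ : ∃ s : Matrix.SpecialLinearGroup (Fin n) F, (s : Matrix (Fin n) (Fin n) F) = g := ⟨⟨_, hgdet⟩, rfl⟩
      refine ⟨s, ?_⟩
      rw [← hgord, ← orderOf_injective Matrix.SpecialLinearGroup.toGL Matrix.SpecialLinearGroup.toGL_injective]
      congr 1
      exact Units.ext hs
    exact CfsgLib.GLOrders.range_orderOf_cube_mul r _ _ hr hZ hcop hdich _ _ _ hS
      (CfsgLib.GLOrders.orderOf_mk_unipotent p hn0 sP _ hsP).symm.dvd hyr.symm.dvd
  · intro hnp
    obtain ⟨k, rfl⟩ : ∃ k, n = k + 1 := ⟨n - 1, by omega⟩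
    have hk2 : 2 ≤ k := by
      by_contra h
      exact hnp ⟨0, by simp; omega⟩
    obtain ⟨g, hgdet, hgord⟩ := CfsgLib.GLOrders.exists_unipotent (F := F) p k (Nat.clog p (k + 1)) hk2 (by omega)
      (fun j hj => by
        have h1 := hlt j hj
        have h2 : p ^ j ≠ k := fun h => hnp ⟨j, by rw [h]; omega⟩
        omega)
    let g' : Matrix.SpecialLinearGroup (Fin k) F := ⟨(g : Matrix (Fin k) (Fin k) F), hgdet⟩
    have hg' : orderOf g' = p ^ Nat.clog p (k + 1) := by
      rw [← hgord, ← orderOf_injective Matrix.SpecialLinearGroup.toGL Matrix.SpecialLinearGroup.toGL_injective]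
      congr 1
      exact Units.ext rfl
    let sP := CfsgLib.WordLaw.slBlock F (rfl : k + 1 = k + 1) g'
    have hsP : orderOf sP = p ^ Nat.clog p (k + 1) := by
      rw [orderOf_injective _ (CfsgLib.WordLaw.slBlock_injective F _), hg']
    let σ : Fin k ⊕ Fin 1 ≃ Fin (k + 1) := finSumFinEquiv.trans (finCongr rfl)
    let e : Matrix (Fin (k + 1)) (Fin (k + 1)) F := Matrix.reindex σ σ (Matrix.fromBlocks 1 0 0 0)
    have he : e * e = e := by
      simp only [e, Matrix.reindex_apply, Matrix.submatrix_mul_equiv, Matrix.fromBlocks_multiply]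
      simp
    obtain ⟨y, hy, hc⟩ := CfsgLib.GLOrders.exists_of_idempotent r hr hrq' hrn e he
      (by
        intro h
        have := congrFun (congrFun h (σ (Sum.inl ⟨0, by omega⟩))) (σ (Sum.inl ⟨0, by omega⟩))
        simp [e] at this)
      (by
        intro h
        have := congrFun (congrFun h (σ (Sum.inr 0))) (σ (Sum.inr 0))
        simp [e] at this)
    have hcomm := hc sP (by
      show Matrix.reindex σ σ (Matrix.fromBlocks (g' : Matrix (Fin k) (Fin k) F) 0 0 1) * Matrix.reindex σ σ (Matrix.fromBlocks 1 0 0 0) =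
        Matrix.reindex σ σ (Matrix.fromBlocks 1 0 0 0) * Matrix.reindex σ σ (Matrix.fromBlocks (g' : Matrix (Fin k) (Fin k) F) 0 0 1)
      simp only [Matrix.reindex_apply, Matrix.submatrix_mul_equiv, Matrix.fromBlocks_multiply]
      simp)
    have h1 := CfsgLib.GLOrders.orderOf_mk_unipotent (F := F) p hn0 sP _ hsP
    let π := QuotientGroup.mk' (Subgroup.center (Matrix.SpecialLinearGroup (Fin (k + 1)) F))
    have hcomm' : Commute (π sP) (π y) := hcomm.map π
    have hord : orderOf (π sP * π y) = p ^ Nat.clog p (k + 1) * r := by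
      rw [hcomm'.orderOf_mul_eq_mul_orderOf_of_coprime]
      · rw [h1, hy]
      · rw [h1, hy]
        exact Nat.Coprime.pow_left _ ((Nat.coprime_primes hp hr).mpr hrp.symm)
    exact CfsgLib.GLOrders.range_orderOf_square_mul r _ _ hr hZ hcop hdich _ (π sP * π y) hS
      ⟨hord ▸ dvd_mul_right _ _, hord ▸ dvd_mul_left _ _⟩

end Cfsg.Agent.S2510
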