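import Cfsg.Statements.S2511
import Cfsg.Agent.Unitary.Spectrum
import Cfsg.Agent.Unitary.ProjectiveElements
import Cfsg.Agent.GLOrders.SpectrumPowers
-- import your own Cfsg.Agent.* helpers here

set_option autoImplicit false
open Cfsg

namespace Cfsg.Agent.S2511

/-- Let F be a finite field with q² elements, q = p^a, n ≥ 3 with (n, q) ≠ (3, 2), L = PSU(n, q) realised over F, and let r be a prime dividing q + 1 and not dividing n. Then for every m the direct product L × L × L × (ℤ/r)^m has the same set of element orders as L × L × L; and if n − 1 is not a power of p, then already L × L × (ℤ/r)^m has the same set of element orders as L × L. -/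
theorem result {F : Type*} [Field F] [Fintype F] (p a n q r m : ℕ) (hp : p.Prime) (ha : 1 ≤ a) (hq : q = p ^ a) (hF : Fintype.card F = q ^ 2)
    (hn : 3 ≤ n) (hn3 : ¬ (n = 3 ∧ q = 2)) (hr : r.Prime) (hrq : r ∣ q + 1) (hrn : ¬ r ∣ n) :
    Set.range (orderOf : Cfsg.PSU n F q × Cfsg.PSU n F q × Cfsg.PSU n F q × Multiplicative (Fin m → ZMod r) → ℕ) = Set.range (orderOf : Cfsg.PSU n F q × Cfsg.PSU n F q × Cfsg.PSU n F q → ℕ) ∧
    ((¬ ∃ j : ℕ, n - 1 = p ^ j) →
      Set.range (orderOf : Cfsg.PSU n F q × Cfsg.PSU n F q × Multiplicative (Fin m → ZMod r) → ℕ) = Set.range (orderOf : Cfsg.PSU n F q × Cfsg.PSU n F q → ℕ)) := by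
  classical
  obtain ⟨p', e, hp', hchar', hqe', he⟩ := CfsgLib.Unitary.exists_prime_pow q hF
  have : Fact p.Prime := ⟨hp⟩
  have : NeZero r := ⟨hr.pos.ne'⟩
  have hF' : Fintype.card F = p ^ (a * 2) := by rw [hF, hq, pow_mul]
  have : CharP F p := charP_of_card_eq_prime_pow hF'
  have hpq : p ∣ q := by rw [hq]; exact dvd_pow_self p (by omega)
  set c := Nat.clog p n with hc
  have hdich := fun x : Cfsg.PSU n F q => CfsgLib.Unitary.order_dichotomy q hF hn r hr hrq hrn p a hq c
    (Nat.le_pow_clog hp.one_lt n) x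
  have hcop : Nat.Coprime (CfsgLib.Unitary.uM q n) (p ^ c) :=
    (CfsgLib.Unitary.uM_coprime q n p hp hpq (by omega)).pow_right c
  obtain ⟨xS, hS⟩ := CfsgLib.Unitary.exists_psu_singer (F := F) q hF hn
  obtain ⟨xP, hP⟩ := CfsgLib.Unitary.exists_psu_unipotent (F := F) q hF p hn
  obtain ⟨xR, hR1, hR⟩ := CfsgLib.Unitary.exists_psu_mixed (F := F) q hF p (show n - 1 + 1 = n by omega) hn r hr hrq hrn
  have hZ : ∀ z : Multiplicative (Fin m → ZMod r), z ^ r = 1 := by
    intro z
    refine Multiplicative.toAdd.injective (funext fun i => ?_)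
    simp
  refine ⟨CfsgLib.GLOrders.range_orderOf_cube_mul r _ _ hr hZ hcop hdich xS xP xR hS hP hR, fun hnp => ?_⟩
  refine CfsgLib.GLOrders.range_orderOf_square_mul r _ _ hr hZ hcop hdich xS xR hS ⟨?_, hR⟩
  have hclog : c = Nat.clog p (n - 1) := by
    refine le_antisymm (Nat.clog_le_of_le_pow ?_) (Nat.clog_mono_right p (by omega))
    have h1 : n - 1 ≤ p ^ Nat.clog p (n - 1) := Nat.le_pow_clog hp.one_lt _
    have h2 : n - 1 ≠ p ^ Nat.clog p (n - 1) := fun h => hnp ⟨_, h⟩
    omega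
  rw [hclog]
  exact hR1

end Cfsg.Agent.S2511
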