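import Cfsg.Statements.S2512
import Cfsg.Agent.Symp.Spectrum
import Cfsg.Agent.GLOrders.SpectrumThree
-- import your own Cfsg.Agent.* helpers here

set_option autoImplicit false
open Cfsg

namespace Cfsg.Agent.S2512

/-- Let F be a finite field of odd order q = p^a, n ≥ 2 (with q ≥ 3 automatic), and L = PSp(2n, F). Then for every m the direct product L × L × L × (ℤ/2)^m has the same set of element orders as L × L × L; and if 2n − 1 is not a power of p, then already L × L × (ℤ/2)^m has the same set of element orders as L × L. -/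
theorem result {F : Type*} [Field F] [Fintype F] (p a n m : ℕ) (hp : p.Prime) (ha : 1 ≤ a) (hF : Fintype.card F = p ^ a) (hodd : Odd (Fintype.card F))
    (hn : 2 ≤ n) :
    Set.range (orderOf : Cfsg.PSp n F × Cfsg.PSp n F × Cfsg.PSp n F × Multiplicative (Fin m → ZMod 2) → ℕ) = Set.range (orderOf : Cfsg.PSp n F × Cfsg.PSp n F × Cfsg.PSp n F → ℕ) ∧
    ((¬ ∃ j : ℕ, 2 * n - 1 = p ^ j) →
      Set.range (orderOf : Cfsg.PSp n F × Cfsg.PSp n F × Multiplicative (Fin m → ZMod 2) → ℕ) = Set.range (orderOf : Cfsg.PSp n F × Cfsg.PSp n F → ℕ)) := by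
  classical
  have : Fact p.Prime := ⟨hp⟩
  have : CharP F p := charP_of_card_eq_prime_pow hF
  have hq : Odd (Nat.card F) := by rwa [Nat.card_eq_fintype_card]
  have hpo : Odd p := (Nat.odd_pow_iff (by omega : a ≠ 0)).mp (hF ▸ hodd)
  have hp2 : p ≠ 2 := fun h => by rw [h] at hpo; exact absurd hpo (by decide)
  have hF2 : (2 : F) ≠ 0 := Ring.two_ne_zero (by rw [ringChar.eq F p]; exact hp2)
  have hn0 : 0 < n := by omega
  set A := (Nat.card F ^ n - 1) / 2 with hA
  set B := (Nat.card F ^ n + 1) / 2 with hB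
  set c := Nat.clog p (2 * n) with hc
  have hodd' : Odd (Nat.card F ^ n) := hq.pow
  obtain ⟨t, ht⟩ := hodd'
  have hAB : 2 ∣ Nat.lcm A B := by
    rcases Nat.even_or_odd A with h | h
    · exact h.two_dvd.trans (Nat.dvd_lcm_left _ _)
    · refine (even_iff_two_dvd.mp ?_).trans (Nat.dvd_lcm_right _ _)
      have : B = A + 1 := by omega
      rw [this]; exact h.add_one
  have hcase := fun x : Cfsg.PSp n F => CfsgLib.Symp.order_cases p hp2 hn x
  obtain ⟨gA, hgA⟩ := CfsgLib.Symp.exists_torus_minus (F := F) n (by omega)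
  obtain ⟨gB, hgB⟩ := CfsgLib.Symp.exists_torus_plus (F := F) n (by omega)
  have hxA : A ∣ orderOf (gA : Cfsg.PSp n F) := by
    have h := CfsgLib.Symp.orderOf_dvd_two_mul hn0 gA
    rw [hgA, show Nat.card F ^ n - 1 = 2 * A by omega] at h
    exact Nat.dvd_of_mul_dvd_mul_left two_pos h
  have hxB : B ∣ orderOf (gB : Cfsg.PSp n F) := by
    have h := CfsgLib.Symp.orderOf_dvd_two_mul hn0 gB
    rw [hgB, show Nat.card F ^ n + 1 = 2 * B by omega] at h
    exact Nat.dvd_of_mul_dvd_mul_left two_pos h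
  have hle : 2 * n ≤ p ^ c := Nat.le_pow_clog hp.one_lt _
  have hlt : ∀ j, j < c → p ^ j < 2 * n := by
    intro j hj
    by_contra h
    have := Nat.clog_le_of_le_pow (b := p) (x := 2 * n) (y := j) (by omega)
    omega
  have hcop : Nat.Coprime (p ^ c) 2 := Nat.Coprime.pow_left c ((Nat.coprime_primes hp Nat.prime_two).mpr hp2)
  have hZ : ∀ z : Multiplicative (Fin m → ZMod 2), z ^ 2 = 1 := by
    intro z
    refine Multiplicative.toAdd.injective (funext fun i => ?_)
    simp only [toAdd_pow, Pi.smul_apply, toAdd_one, Pi.zero_apply]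
    exact CharTwo.two_nsmul _
  refine ⟨?_, fun hnp => ?_⟩
  · obtain ⟨u, hu⟩ := CfsgLib.Symp.exists_unipotent (F := F) p n c (by omega) hle hlt
    have hxP : p ^ c ∣ orderOf (u : Cfsg.PSp n F) := by
      have h := CfsgLib.Symp.orderOf_dvd_two_mul hn0 u
      rw [hu] at h
      exact hcop.dvd_of_dvd_mul_left h
    exact CfsgLib.GLOrders.range_orderOf_cube_three 2 A B _ hZ hAB hcase _ _ _ hxA hxB hxP
  · have hlt' : ∀ j, j < c → p ^ j < 2 * (n - 1) := by
      intro j hj
      have h1 := hlt j hj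
      have h2 : p ^ j ≠ 2 * n - 1 := fun h => hnp ⟨j, h.symm⟩
      have h3 : p ^ j ≠ 2 * (n - 1) := fun h => Nat.not_even_iff_odd.mpr hpo.pow (h ▸ even_two_mul _)
      omega
    obtain ⟨u, hu⟩ := CfsgLib.Symp.exists_unipotent (F := F) p (n - 1) c (by omega) (by omega) hlt'
    obtain ⟨y, hy⟩ := CfsgLib.Symp.exists_torus_minus (F := F) 1 le_rfl
    obtain ⟨w, hw⟩ := CfsgLib.Symp.exists_good hF2 (by omega : 0 < n - 1) one_pos (by omega : n - 1 + 1 = n) u y
    have hy2 : 2 ∣ orderOf y := by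
      rw [hy, pow_one, ← even_iff_two_dvd]
      exact Nat.Odd.sub_odd hq odd_one
    exact CfsgLib.GLOrders.range_orderOf_square_three 2 A B _ hZ hAB hcase _ _ w hxA hxB
      ⟨(dvd_of_eq hu.symm).trans ((Nat.dvd_lcm_left _ _).trans hw), hy2.trans ((Nat.dvd_lcm_right _ _).trans hw)⟩

end Cfsg.Agent.S2512
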