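import Cfsg.Statements.S2513
import Cfsg.Agent.GLOrders.Basic
-- import your own Cfsg.Agent.* helpers here

set_option autoImplicit false
open Cfsg

namespace Cfsg.Agent.S2513

theorem center_sl_eq_bot {F : Type*} [Field F] [Fintype F] (hF : Fintype.card F = 2) (n : ℕ) (hn : 2 ≤ n) :
    Subgroup.center (Matrix.SpecialLinearGroup (Fin n) F) = ⊥ := by
  classical
  rw [eq_bot_iff]
  intro A hA
  obtain ⟨r, hr, hA'⟩ := Matrix.SpecialLinearGroup.mem_center_iff.mp hA
  have hr0 : r ≠ 0 := by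
    rintro rfl
    rw [Fintype.card_fin, zero_pow (by omega)] at hr
    exact zero_ne_one hr
  have h1 : r = 1 := by
    have := FiniteField.pow_card_sub_one_eq_one r hr0
    rwa [hF, pow_one] at this
  rw [Subgroup.mem_bot]
  apply Subtype.ext
  rw [← hA', h1]; simp

/-- The image in the projective group of an element of the general linear group over two elements. -/
theorem exists_toPSL {F : Type*} [Field F] [Fintype F] (hF : Fintype.card F = 2) (n : ℕ) (hn : 2 ≤ n)
    (g : GL (Fin n) F) : ∃ x : Matrix.ProjectiveSpecialLinearGroup (Fin n) F, orderOf x = orderOf g := by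
  classical
  have hdet : (g : Matrix (Fin n) (Fin n) F).det = 1 := by
    have h0 : (g : Matrix (Fin n) (Fin n) F).det ≠ 0 := by
      have := (Matrix.isUnit_iff_isUnit_det _).mp g.isUnit
      exact this.ne_zero
    have := FiniteField.pow_card_sub_one_eq_one _ h0
    rwa [hF, pow_one] at this
  let s : Matrix.SpecialLinearGroup (Fin n) F := ⟨(g : Matrix (Fin n) (Fin n) F), hdet⟩
  refine ⟨QuotientGroup.mk s, ?_⟩
  have hinj : Function.Injective (QuotientGroup.mk' (Subgroup.center (Matrix.SpecialLinearGroup (Fin n) F))) := by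
    rw [← MonoidHom.ker_eq_bot_iff, QuotientGroup.ker_mk', center_sl_eq_bot hF n hn]
  have h1 : orderOf (QuotientGroup.mk s : Matrix.ProjectiveSpecialLinearGroup (Fin n) F) = orderOf s :=
    orderOf_injective (QuotientGroup.mk' (Subgroup.center (Matrix.SpecialLinearGroup (Fin n) F))) hinj s
  rw [h1, ← orderOf_injective Matrix.SpecialLinearGroup.toGL Matrix.SpecialLinearGroup.toGL_injective s]
  congr 1
  exact Units.ext rfl

theorem range_orderOf_eq {F : Type*} [Field F] [Fintype F] (hF : Fintype.card F = 2) (n k : ℕ) (hn : 2 ≤ n)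
    (hk : (n + 3) / 2 ≤ k) :
    Set.range (orderOf : (Fin k → Matrix.ProjectiveSpecialLinearGroup (Fin n) F) → ℕ) =
      {d | d ∣ ((Finset.Icc 1 n).lcm fun i => 2 ^ i - 1) * 2 ^ Nat.clog 2 n} := by
  classical
  have : CharP F 2 := by
    obtain ⟨p, hp⟩ := CharP.exists F
    obtain ⟨m, hp', hm⟩ := FiniteField.card F p
    rw [hF] at hm
    have : p = 2 := ((Nat.prime_dvd_prime_iff_eq hp' Nat.prime_two).mp (hm ▸ dvd_pow_self p m.ne_zero))
    exact this ▸ hp
  have hq : Nat.card F = 2 := by rw [Nat.card_eq_fintype_card, hF]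
  set N := (Finset.Icc 1 n).lcm fun i => 2 ^ i - 1 with hN
  set a := Nat.clog 2 n with ha
  have hna : n ≤ 2 ^ a := Nat.le_pow_clog (by norm_num) n
  have hexp : ∀ f : Fin k → Matrix.ProjectiveSpecialLinearGroup (Fin n) F, f ^ (N * 2 ^ a) = 1 := by
    intro f
    funext i
    obtain ⟨s, hs⟩ := QuotientGroup.mk_surjective (f i)
    rw [Pi.pow_apply, ← hs, ← QuotientGroup.mk_pow, Pi.one_apply]
    have h1 : s ^ (N * 2 ^ a) = 1 := by
      apply Subtype.ext
      rw [Matrix.SpecialLinearGroup.coe_pow, Matrix.SpecialLinearGroup.coe_one]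
      refine CfsgLib.GLOrders.pow_exponent_eq_one 2 _ ?_ N a ?_ hna
      · exact (Matrix.isUnit_iff_isUnit_det _).mpr (by rw [s.2]; exact isUnit_one)
      · intro d h1 h2
        rw [hq, hN]
        exact Finset.dvd_lcm (f := fun i => 2 ^ i - 1) (Finset.mem_Icc.mpr ⟨h1, h2⟩)
    rw [h1, QuotientGroup.mk_one]
  have hsinger : ∀ i : ℕ, ∃ x : Matrix.ProjectiveSpecialLinearGroup (Fin n) F,
      1 ≤ i → i ≤ n → 2 ^ i - 1 ∣ orderOf x := by
    intro i
    by_cases hi : 1 ≤ i ∧ i ≤ n
    · obtain ⟨hi1, hi2⟩ := hi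
      obtain ⟨g, hg⟩ := CfsgLib.GLOrders.exists_singer (F := F) i hi1
      obtain ⟨x, hx⟩ := exists_toPSL hF n hn (CfsgLib.GLOrders.blockHom F (Nat.add_sub_cancel' hi2) (g, 1))
      refine ⟨x, fun _ _ => ?_⟩
      rw [hx, orderOf_injective _ (CfsgLib.GLOrders.blockHom_injective F _), Prod.orderOf, hg, hq]
      simp
    · exact ⟨1, fun h1 h2 => absurd ⟨h1, h2⟩ hi⟩
  choose sing hsing using hsinger
  obtain ⟨u, hu⟩ : ∃ u : Matrix.ProjectiveSpecialLinearGroup (Fin n) F, orderOf u = 2 ^ a := by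
    obtain ⟨g, _, hg⟩ := CfsgLib.GLOrders.exists_unipotent (F := F) 2 n a hn hna (fun j hj => by
      by_contra h
      have := Nat.clog_le_of_le_pow (b := 2) (x := n) (y := j) (by omega)
      omega)
    obtain ⟨x, hx⟩ := exists_toPSL hF n hn g
    exact ⟨x, hx.trans hg⟩
  let f : Fin k → Matrix.ProjectiveSpecialLinearGroup (Fin n) F := fun j =>
    if j.val < n - n / 2 then sing (n / 2 + 1 + j.val) else u
  have hproj : ∀ j, orderOf (f j) ∣ orderOf f := fun j =>
    orderOf_map_dvd (Pi.evalMonoidHom (fun _ => Matrix.ProjectiveSpecialLinearGroup (Fin n) F) j) f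
  have hbig : ∀ i, 1 ≤ i → i ≤ n → 2 ^ i - 1 ∣ orderOf f := by
    intro i hi1 hi2
    have hmod := Nat.mod_lt n hi1
    have hmul : i * (n / i) + n % i = n := Nat.div_add_mod n i
    have hge : i ≤ i * (n / i) := by
      have : 1 ≤ n / i := by
        rw [Nat.one_le_div_iff hi1]; exact hi2
      calc i = i * 1 := (mul_one i).symm
        _ ≤ _ := Nat.mul_le_mul_left i this
    have hM : n / 2 < i * (n / i) := by omega
    obtain ⟨M, hMdef⟩ : ∃ M, M = i * (n / i) := ⟨_, rfl⟩
    have h1 : 2 ^ i - 1 ∣ 2 ^ M - 1 := by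
      rw [hMdef]; exact Nat.pow_sub_one_dvd_pow_sub_one 2 (dvd_mul_right _ _)
    rw [← hMdef] at hM hmul hge
    have hj : M - (n / 2 + 1) < k := by omega
    refine h1.trans (Dvd.dvd.trans ?_ (hproj ⟨M - (n / 2 + 1), hj⟩))
    have : f ⟨M - (n / 2 + 1), hj⟩ = sing M := by
      simp only [f]
      rw [if_pos (by omega)]
      congr 1; omega
    rw [this]
    exact hsing M (by omega) (by omega)
  have hu' : 2 ^ a ∣ orderOf f := by
    have hj : n - n / 2 < k := by omega
    have : f ⟨n - n / 2, hj⟩ = u := by simp only [f]; rw [if_neg (lt_irrefl _)]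
    have h := hproj ⟨n - n / 2, hj⟩
    rwa [this, hu] at h
  have hodd : Nat.Coprime N (2 ^ a) := by
    apply Nat.Coprime.pow_right
    rw [Nat.coprime_two_right]
    by_contra h
    rw [Nat.not_odd_iff_even, even_iff_two_dvd] at h
    have hN' : N ∣ ∏ i ∈ Finset.Icc 1 n, (2 ^ i - 1) :=
      Finset.lcm_dvd fun i hi => Finset.dvd_prod_of_mem _ hi
    obtain ⟨i, hi, h2⟩ := (Nat.prime_two.prime.dvd_finsetProd_iff _).mp (h.trans hN')
    have hi' := (Finset.mem_Icc.mp hi).1
    have : 2 ∣ 2 ^ i := dvd_pow_self 2 (by omega)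
    have : 1 ≤ 2 ^ i := Nat.one_le_two_pow
    omega
  have hford : orderOf f = N * 2 ^ a := by
    refine Nat.dvd_antisymm (orderOf_dvd_of_pow_eq_one (hexp f)) (hodd.mul_dvd_of_dvd_of_dvd ?_ hu')
    exact Finset.lcm_dvd fun i hi => hbig i (Finset.mem_Icc.mp hi).1 (Finset.mem_Icc.mp hi).2
  ext d
  constructor
  · rintro ⟨g, rfl⟩
    exact orderOf_dvd_of_pow_eq_one (hexp g)
  · rintro ⟨c, hc⟩
    refine ⟨f ^ c, ?_⟩
    have hc0 : c ≠ 0 := by
      rintro rfl
      have := orderOf_pos f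
      rw [hford, hc] at this
      omega
    have hd : c ∣ orderOf f := ⟨d, by rw [hford, hc, mul_comm]⟩
    rw [orderOf_pow_of_dvd hc0 hd, hford, hc, Nat.mul_div_cancel _ (Nat.pos_of_ne_zero hc0)]

/-- Let F be the field with two elements, n ≥ 2, L = PSL(n, F) and k₀ = ⌊(n + 3)/2⌋. Then for every k ≥ k₀ the direct product of k copies of L has the same set of element orders as the direct product of k₀ copies of L. -/
theorem result {F : Type*} [Field F] [Fintype F] (hF : Fintype.card F = 2) (n k : ℕ) (hn : 2 ≤ n) (hk : (n + 3) / 2 ≤ k) :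
    Set.range (orderOf : (Fin k → Matrix.ProjectiveSpecialLinearGroup (Fin n) F) → ℕ) = Set.range (orderOf : (Fin ((n + 3) / 2) → Matrix.ProjectiveSpecialLinearGroup (Fin n) F) → ℕ) := by
  rw [range_orderOf_eq hF n k hn hk, range_orderOf_eq hF n _ hn le_rfl]

end Cfsg.Agent.S2513
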