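import Cfsg.Statements.S2514
import Mathlib

set_option autoImplicit false
open Cfsg

namespace Cfsg.Agent.S2514

/-- For a finite group X write μ(X) for the set of element orders of X that are maximal under divisibility. Let G and H be finite groups and k ≥ 1 such that μ(H) ⊆ μ(G) and μ(G) has fewer than k elements outside μ(H). Then the direct product of k copies of G has the same set of element orders as the direct product of k − 1 copies of G with H. -/
theorem result {G H : Type*} [Group G] [Finite G] [Group H] [Finite H] (k : ℕ) (hk : 1 ≤ k)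
    (hsub : {n : ℕ | n ∈ Set.range (orderOf : H → ℕ) ∧ ∀ m ∈ Set.range (orderOf : H → ℕ), n ∣ m → m = n} ⊆ {n : ℕ | n ∈ Set.range (orderOf : G → ℕ) ∧ ∀ m ∈ Set.range (orderOf : G → ℕ), n ∣ m → m = n})
    (hfew : ({n : ℕ | n ∈ Set.range (orderOf : G → ℕ) ∧ ∀ m ∈ Set.range (orderOf : G → ℕ), n ∣ m → m = n} \ {n : ℕ | n ∈ Set.range (orderOf : H → ℕ) ∧ ∀ m ∈ Set.range (orderOf : H → ℕ), n ∣ m → m = n}).ncard < k) :
    Set.range (orderOf : (Fin k → G) → ℕ) = Set.range (orderOf : (Fin (k - 1) → G) × H → ℕ) := by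
  classical
  set μG := {n : ℕ | n ∈ Set.range (orderOf : G → ℕ) ∧ ∀ m ∈ Set.range (orderOf : G → ℕ), n ∣ m → m = n}
  set μH := {n : ℕ | n ∈ Set.range (orderOf : H → ℕ) ∧ ∀ m ∈ Set.range (orderOf : H → ℕ), n ∣ m → m = n}
  have hmaxG : ∀ g : G, ∃ n ∈ μG, orderOf g ∣ n := by
    intro g
    haveI : Nonempty {x : G // orderOf g ∣ orderOf x} := ⟨⟨g, dvd_rfl⟩⟩
    obtain ⟨x, hx⟩ := Finite.exists_max (fun x : {x : G // orderOf g ∣ orderOf x} => orderOf x.1)
    refine ⟨orderOf x.1, ⟨⟨x.1, rfl⟩, ?_⟩, x.2⟩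
    rintro m ⟨y, rfl⟩ hd
    exact le_antisymm (hx ⟨y, x.2.trans hd⟩) (Nat.le_of_dvd (orderOf_pos y) hd)
  have hmaxH : ∀ g : H, ∃ n ∈ μH, orderOf g ∣ n := by
    intro g
    haveI : Nonempty {x : H // orderOf g ∣ orderOf x} := ⟨⟨g, dvd_rfl⟩⟩
    obtain ⟨x, hx⟩ := Finite.exists_max (fun x : {x : H // orderOf g ∣ orderOf x} => orderOf x.1)
    refine ⟨orderOf x.1, ⟨⟨x.1, rfl⟩, ?_⟩, x.2⟩
    rintro m ⟨y, rfl⟩ hd
    exact le_antisymm (hx ⟨y, x.2.trans hd⟩) (Nat.le_of_dvd (orderOf_pos y) hd)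
  have hdivG : ∀ (d : ℕ) (x : G), d ∣ orderOf x → ∃ y : G, orderOf y = d :=
    fun d x hd => ⟨_, orderOf_pow_orderOf_div (orderOf_pos x).ne' hd⟩
  have hdivH : ∀ (d : ℕ) (x : H), d ∣ orderOf x → ∃ y : H, orderOf y = d :=
    fun d x hd => ⟨_, orderOf_pow_orderOf_div (orderOf_pos x).ne' hd⟩
  have hHG : ∀ h : H, ∃ g : G, orderOf g = orderOf h := by
    intro h
    obtain ⟨n, hn, hd⟩ := hmaxH h
    obtain ⟨⟨x, rfl⟩, -⟩ := hsub hn
    exact hdivG _ x hd
  have hpi : ∀ {ι : Type} (f : ι → G) (m : ℕ), orderOf f ∣ m ↔ ∀ i, orderOf (f i) ∣ m := by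
    intro ι f m
    simp only [orderOf_dvd_iff_pow_eq_one, funext_iff, Pi.pow_apply, Pi.one_apply]
  have hprod : ∀ {j : ℕ} (u : (Fin j → G) × H) (m : ℕ), orderOf u ∣ m ↔ (∀ i, orderOf (u.1 i) ∣ m) ∧ orderOf u.2 ∣ m := by
    intro j u m
    simp only [orderOf_dvd_iff_pow_eq_one, Prod.ext_iff, Prod.pow_fst, Prod.pow_snd, funext_iff, Pi.pow_apply,
      Prod.fst_one, Prod.snd_one, Pi.one_apply]
  obtain ⟨j, rfl⟩ : ∃ j, k = j + 1 := ⟨k - 1, by omega⟩
  rw [Nat.add_sub_cancel]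
  ext d
  constructor
  · rintro ⟨F, rfl⟩
    choose n hn hdn using fun i => hmaxG (F i)
    by_cases hH : ∃ i, n i ∈ μH
    · obtain ⟨i0, ⟨x, hx⟩, -⟩ := hH
      obtain ⟨h, hh⟩ := hdivH (orderOf (F i0)) x (hx ▸ hdn i0)
      refine ⟨(fun i => F (i0.succAbove i), h), Nat.dvd_antisymm ?_ ?_⟩
      · rw [hprod]
        exact ⟨fun i => (hpi F _).1 dvd_rfl _, hh ▸ (hpi F _).1 dvd_rfl _⟩
      · rw [hpi]
        have h1 := (hprod (fun i => F (i0.succAbove i), h) _).1 dvd_rfl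
        exact (Fin.forall_iff_succAbove i0).2 ⟨hh ▸ h1.2, h1.1⟩
    · push Not at hH
      obtain ⟨i, i', hii, hne⟩ : ∃ i i', n i = n i' ∧ i ≠ i' := by
        by_contra hcon
        push Not at hcon
        have h1 := Set.ncard_le_ncard_of_injOn (s := (Set.univ : Set (Fin (j + 1)))) (t := μG \ μH) n
          (fun i _ => ⟨hn i, hH i⟩) (fun a _ b _ e => hcon a b e)
          ((Set.finite_range (orderOf : G → ℕ)).subset fun m hm => hm.1.1)
        rw [Set.ncard_univ, Nat.card_fin] at h1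
        omega
      obtain ⟨⟨x, hx⟩, -⟩ := hn i
      obtain ⟨g, hg⟩ := hdivG (Nat.lcm (orderOf (F i)) (orderOf (F i'))) x
        (hx ▸ Nat.lcm_dvd (hdn i) (hii ▸ hdn i'))
      refine ⟨(fun l => Function.update F i g (i'.succAbove l), 1), Nat.dvd_antisymm ?_ ?_⟩
      · rw [hprod, orderOf_one]
        refine ⟨fun l => ?_, one_dvd _⟩
        by_cases hl : i'.succAbove l = i
        · simp only [hl, Function.update_self, hg]
          exact Nat.lcm_dvd ((hpi F _).1 dvd_rfl i) ((hpi F _).1 dvd_rfl i')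
        · simp only [Function.update_of_ne hl]
          exact (hpi F _).1 dvd_rfl _
      · rw [hpi]
        have h1 := ((hprod ((fun l => Function.update F i g (i'.succAbove l)), (1 : H)) _).1 dvd_rfl).1
        intro l
        obtain ⟨l0, hl0⟩ := Fin.exists_succAbove_eq hne
        have hgd := h1 l0
        simp only [hl0, Function.update_self, hg] at hgd
        by_cases hl : l = i'
        · subst hl; exact (Nat.dvd_lcm_right _ _).trans hgd
        by_cases hl' : l = i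
        · subst hl'; exact (Nat.dvd_lcm_left _ _).trans hgd
        obtain ⟨l1, hl1⟩ := Fin.exists_succAbove_eq hl
        have := h1 l1
        simp only [hl1, Function.update_of_ne hl'] at this
        exact this
  · rintro ⟨⟨f, h⟩, rfl⟩
    obtain ⟨g, hg⟩ := hHG h
    refine ⟨Fin.cons g f, Nat.dvd_antisymm ?_ ?_⟩
    · rw [hpi, Fin.forall_fin_succ]
      have h1 := (hprod (f, h) _).1 dvd_rfl
      simp only [Fin.cons_zero, Fin.cons_succ, hg]
      exact ⟨h1.2, h1.1⟩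
    · rw [hprod]
      have h1 := (hpi (Fin.cons g f : Fin (j + 1) → G) _).1 dvd_rfl
      refine ⟨fun i => ?_, ?_⟩
      · simpa only [Fin.cons_succ] using h1 i.succ
      · simpa only [Fin.cons_zero, hg] using h1 0


end Cfsg.Agent.S2514
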