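import Cfsg.Statements.S2515
import Mathlib
import Cfsg.Agent.TwistTensor.Orders

set_option autoImplicit false
open Cfsg

namespace Cfsg.Agent.S2515

/-- Let q = 3^α with α ≥ 3 odd. There is a finite group H having a non-trivial normal 3-subgroup and whose element orders maximal under divisibility are exactly 6, 9, q − 1 and (q + 1)/2. -/
theorem result (α : ℕ) (hα : 3 ≤ α) (hodd : Odd α) :
    ∃ (H : Type) (_ : Group H) (_ : Fintype H), (∃ P : Subgroup H, P.Normal ∧ P ≠ ⊥ ∧ IsPGroup 3 ↥P) ∧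
      {n : ℕ | n ∈ Set.range (orderOf : H → ℕ) ∧ ∀ m ∈ Set.range (orderOf : H → ℕ), n ∣ m → m = n} = ({6, 9, 3 ^ α - 1, (3 ^ α + 1) / 2} : Set ℕ) := by
  classical
  haveI : Fact (Nat.Prime 3) := ⟨Nat.prime_three⟩
  let F := GaloisField 3 α
  haveI : Fintype F := Fintype.ofFinite F
  have hq : Fintype.card F = 3 ^ α := by
    rw [← Nat.card_eq_fintype_card, GaloisField.card 3 α (by omega)]
  obtain ⟨c, hc⟩ := hodd
  set q := 3 ^ α with hqdef
  have hq8 : q % 8 = 3 := by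
    rw [hqdef, hc, pow_succ, pow_mul, Nat.mul_mod, Nat.pow_mod]
    simp
  have hq3 : q % 3 = 0 := by
    rw [hqdef, hc, pow_succ]; exact Nat.mul_mod_left _ _
  have hq27 : 27 ≤ q := by
    rw [hqdef]; exact le_trans (by norm_num) (Nat.pow_le_pow_right (show 0 < 3 by norm_num) hα)
  set A := (q - 1) / 2 with hA
  set B := (q + 1) / 2 with hB
  have hA2 : q - 1 = 2 * A := by omega
  have hB' : q + 1 = 2 * B := by omega
  have hA6 : A.Coprime 6 := by
    rw [show (6 : ℕ) = 2 * 3 from rfl, Nat.coprime_mul_iff_right]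
    exact ⟨Nat.coprime_two_right.2 (Nat.odd_iff.2 (by omega)),
      (Nat.prime_three.coprime_iff_not_dvd.2 (by omega)).symm⟩
  have hB3 : B.Coprime 3 := (Nat.prime_three.coprime_iff_not_dvd.2 (by omega)).symm
  have hB4 : ¬ 4 ∣ B := by omega
  have hB2 : 2 ∣ B := by omega
  haveI : Finite (CfsgLib.TwistTensor.Ext F) := Finite.of_equiv _ SemidirectProduct.equivProd.symm
  refine ⟨CfsgLib.TwistTensor.Ext F, inferInstance, Fintype.ofFinite _, ?_, ?_⟩
  · refine ⟨(SemidirectProduct.inl : CfsgLib.TwistTensor.Mod F →* CfsgLib.TwistTensor.Ext F).range, ?_, ?_, ?_⟩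
    · rw [SemidirectProduct.range_inl_eq_ker_rightHom]; infer_instance
    · intro h
      have : (SemidirectProduct.inl (Multiplicative.ofAdd (1 : Matrix (Fin 2) (Fin 2) F)) : CfsgLib.TwistTensor.Ext F) = 1 := by
        rw [← Subgroup.mem_bot, ← h]; exact ⟨_, rfl⟩
      rw [map_eq_one_iff _ SemidirectProduct.inl_injective, ofAdd_eq_one] at this
      exact one_ne_zero this
    · rintro ⟨_, w, rfl⟩
      exact ⟨1, Subtype.ext (by
        show (SemidirectProduct.inl w : CfsgLib.TwistTensor.Ext F) ^ 3 ^ 1 = 1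
        rw [pow_one, ← map_pow, CfsgLib.TwistTensor.inl_pow_three, map_one])⟩
  have hmem : ∀ (g : Matrix.SpecialLinearGroup (Fin 2) F) (e : ℤˣ),
      Nat.lcm (orderOf (CfsgLib.SL2.proj g)) (orderOf e) ∈ Set.range (orderOf : CfsgLib.TwistTensor.Ext F → ℕ) :=
    fun g e => ⟨SemidirectProduct.inr ⟨CfsgLib.TwistTensor.aut (g, e), MonoidHom.mem_range.2 ⟨_, rfl⟩⟩, by
      rw [orderOf_injective _ SemidirectProduct.inr_injective, Subgroup.orderOf_mk, CfsgLib.TwistTensor.orderOf_aut]⟩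
  have hcen : Nat.card (Subgroup.center (Matrix.SpecialLinearGroup (Fin 2) F)) = 2 := by
    rw [CfsgLib.SL2.card_center_eq_gcd, hq, hA2]; exact Nat.gcd_eq_left (dvd_mul_right 2 A)
  have rA : q - 1 ∈ Set.range (orderOf : CfsgLib.TwistTensor.Ext F → ℕ) := by
    obtain ⟨u, hu⟩ := CfsgLib.SL2.diagT_generator (F := F)
    rw [Nat.card_eq_fintype_card, hq] at hu
    have h := hmem (CfsgLib.SL2.diagT u) (-1)
    rwa [CfsgLib.SL2.orderOf_proj_eq (by rw [hcen, hu, hA2]; exact dvd_mul_right 2 A), hcen, hu, ← hA,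
      show orderOf (-1 : ℤˣ) = 2 from orderOf_eq_prime (by decide) (by decide),
      Nat.Coprime.lcm_eq_mul (hA6.coprime_dvd_right (by norm_num)), mul_comm, ← hA2] at h
  have rB : B ∈ Set.range (orderOf : CfsgLib.TwistTensor.Ext F → ℕ) := by
    obtain ⟨g, hg, -⟩ := CfsgLib.SL2.exists_elliptic_generator F
    rw [Nat.card_eq_fintype_card, hq] at hg
    have h := hmem g 1
    rwa [CfsgLib.SL2.orderOf_proj_eq (by rw [hcen, hg, hB']; exact dvd_mul_right 2 B), hcen, hg, ← hB,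
      orderOf_one, Nat.lcm_one_right] at h
  have hcases : ∀ n ∈ Set.range (orderOf : CfsgLib.TwistTensor.Ext F → ℕ), n ∣ 6 ∨ n ∣ 9 ∨ n ∣ q - 1 ∨ n ∣ B := by
    rintro n ⟨x, rfl⟩
    simp only [orderOf_dvd_iff_pow_eq_one, hA2]
    exact CfsgLib.TwistTensor.exists_cases (by rw [hq]; exact hA2) hA6 (by rw [hq]; exact hB') hB2 hB3 hB4 x
  ext n
  constructor
  · rintro ⟨hn, hmax⟩
    rcases hcases n hn with h | h | h | h
    · exact Or.inl (hmax 6 CfsgLib.TwistTensor.mem_range_six h).symm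
    · exact Or.inr (Or.inl (hmax 9 CfsgLib.TwistTensor.mem_range_nine h).symm)
    · exact Or.inr (Or.inr (Or.inl (hmax _ rA h).symm))
    · exact Or.inr (Or.inr (Or.inr (hmax _ rB h).symm))
  · have h6 : ¬ (6 ∣ 9) ∧ ¬ (6 ∣ q - 1) ∧ ¬ (6 ∣ B) ∧ ¬ (9 ∣ 6) ∧ ¬ (9 ∣ q - 1) ∧ ¬ (9 ∣ B) := by omega
    have hAd : ¬ (q - 1 ∣ 6) ∧ ¬ (q - 1 ∣ 9) ∧ ¬ (q - 1 ∣ B) ∧ ¬ (B ∣ 6) ∧ ¬ (B ∣ 9) ∧ ¬ (B ∣ q - 1) := by
      refine ⟨fun h => ?_, fun h => ?_, fun h => ?_, fun h => ?_, fun h => ?_, fun h => ?_⟩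
      iterate 5 (have := Nat.le_of_dvd (by omega) h; omega)
      obtain ⟨t, ht⟩ := h
      rcases t with _ | _ | t
      · omega
      · omega
      · nlinarith [show q - 1 + 2 = 2 * B by omega]
    rintro (rfl | rfl | rfl | rfl)
    · refine ⟨CfsgLib.TwistTensor.mem_range_six, fun m hm hd => ?_⟩
      rcases hcases m hm with h | h | h | h
      · exact Nat.dvd_antisymm h hd
      all_goals exact absurd (hd.trans h) (by tauto)
    · refine ⟨CfsgLib.TwistTensor.mem_range_nine, fun m hm hd => ?_⟩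
      rcases hcases m hm with h | h | h | h
      on_goal 2 => exact Nat.dvd_antisymm h hd
      all_goals exact absurd (hd.trans h) (by tauto)
    · refine ⟨rA, fun m hm hd => ?_⟩
      rcases hcases m hm with h | h | h | h
      on_goal 3 => exact Nat.dvd_antisymm h hd
      all_goals exact absurd (hd.trans h) (by tauto)
    · refine ⟨rB, fun m hm hd => ?_⟩
      rcases hcases m hm with h | h | h | h
      on_goal 4 => exact Nat.dvd_antisymm h hd
      all_goals exact absurd (hd.trans h) (by tauto)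

end Cfsg.Agent.S2515
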