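import Cfsg.Statements.S2516
import Mathlib

set_option autoImplicit false
open Cfsg

namespace Cfsg.Agent.S2516

/-- Let F be a field of characteristic p > 0, V a non-zero finite-dimensional F-vector space, G a finite group and ρ a representation of G on V; form the semidirect product V ⋊ G. For g ∈ G of order k, the coset Vg contains an element of order pk if and only if the minimal polynomial of ρ(g) does not divide 1 + X + ⋯ + X^(k−1). -/
theorem result {F : Type*} [Field F] (p : ℕ) [Fact p.Prime] [CharP F p] {V : Type*} [AddCommGroup V] [Module F V] [FiniteDimensional F V] [Nontrivial V]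
    {G : Type*} [Group G] [Finite G] (ρ : Representation F G V) (g : G) :
    (∃ x : Multiplicative V ⋊[(MulAutMultiplicative V).symm.toMonoidHom.comp
        ((DistribMulAction.toAddAut ((V →ₗ[F] V)ˣ) V).comp ρ.asGroupHom)] G,
        x.right = g ∧ orderOf x = p * orderOf g) ↔
      ¬ (minpoly F (ρ g) ∣ ∑ i ∈ Finset.range (orderOf g), (Polynomial.X : Polynomial F) ^ i) := by
  classical
  set ψ := (MulAutMultiplicative V).symm.toMonoidHom.comp
    ((DistribMulAction.toAddAut ((V →ₗ[F] V)ˣ) V).comp ρ.asGroupHom) with hψ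
  have happ : ∀ (a : G) (v : V), ψ a (Multiplicative.ofAdd v) = Multiplicative.ofAdd (ρ a v) := fun a v => rfl
  have hpow : ∀ (v : V) (n : ℕ), (⟨Multiplicative.ofAdd v, g⟩ : Multiplicative V ⋊[ψ] G) ^ n =
      ⟨Multiplicative.ofAdd (∑ i ∈ Finset.range n, ((ρ g) ^ i) v), g ^ n⟩ := by
    intro v n
    induction n with
    | zero => refine SemidirectProduct.ext ?_ ?_ <;> simp
    | succ n ih =>
      rw [pow_succ', ih]
      refine SemidirectProduct.ext ?_ ?_
      · rw [SemidirectProduct.mul_left, happ, ← ofAdd_add, map_sum, Finset.sum_range_succ', pow_zero,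
          Module.End.one_apply, add_comm]
        simp only [pow_succ', Module.End.mul_apply]
      · rw [SemidirectProduct.mul_right, pow_succ']
  have hae : ∀ v : V, Polynomial.aeval (ρ g) (∑ i ∈ Finset.range (orderOf g), (Polynomial.X : Polynomial F) ^ i) v =
      ∑ i ∈ Finset.range (orderOf g), ((ρ g) ^ i) v := fun v => by
    simp [map_sum, LinearMap.sum_apply]
  have hp2 := (Fact.out : p.Prime).two_le
  have hk := orderOf_pos g
  constructor
  · rintro ⟨⟨l, r⟩, hr, ho⟩ hdvd
    simp only at hr
    subst hr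
    rw [minpoly.dvd_iff] at hdvd
    have h0 : (⟨l, r⟩ : Multiplicative V ⋊[ψ] G) ^ orderOf r = 1 := by
      rw [← ofAdd_toAdd l, hpow, ← hae, hdvd, pow_orderOf_eq_one]
      refine SemidirectProduct.ext ?_ ?_ <;> simp
    have := Nat.le_of_dvd hk (orderOf_dvd_of_pow_eq_one h0)
    rw [ho] at this
    nlinarith
  · intro hnd
    rw [minpoly.dvd_iff] at hnd
    obtain ⟨v, hv⟩ : ∃ v : V, Polynomial.aeval (ρ g) (∑ i ∈ Finset.range (orderOf g), (Polynomial.X : Polynomial F) ^ i) v ≠ 0 := by
      by_contra h
      push Not at h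
      exact hnd (LinearMap.ext h)
    rw [hae] at hv
    refine ⟨⟨Multiplicative.ofAdd v, g⟩, rfl, ?_⟩
    set x : Multiplicative V ⋊[ψ] G := ⟨Multiplicative.ofAdd v, g⟩
    have hxk : orderOf (x ^ orderOf g) = p := by
      refine orderOf_eq_prime ?_ ?_
      · rw [hpow, pow_orderOf_eq_one,
          show (⟨Multiplicative.ofAdd (∑ i ∈ Finset.range (orderOf g), ((ρ g) ^ i) v), 1⟩ : Multiplicative V ⋊[ψ] G) =
            SemidirectProduct.inl (Multiplicative.ofAdd (∑ i ∈ Finset.range (orderOf g), ((ρ g) ^ i) v)) from rfl,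
          ← map_pow, ← ofAdd_nsmul, ← Nat.cast_smul_eq_nsmul F, CharP.cast_eq_zero, zero_smul, ofAdd_zero, map_one]
      · rw [hpow]
        intro h
        exact hv (congrArg Multiplicative.toAdd (congrArg SemidirectProduct.left h))
    have hd : orderOf g ∣ orderOf x := orderOf_map_dvd (SemidirectProduct.rightHom (φ := ψ)) x
    have hfin : x ^ (orderOf g * p) = 1 := by rw [pow_mul, ← hxk, pow_orderOf_eq_one]
    rw [orderOf_pow_of_dvd hk.ne' hd] at hxk
    rw [← Nat.div_mul_cancel hd, hxk]


end Cfsg.Agent.S2516
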