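import Cfsg.Statements.S2517
import Cfsg.Agent.SpecNine.SideG
import Cfsg.Agent.SpecNine.Ext

set_option autoImplicit false
open Cfsg

namespace Cfsg.Agent.S2517

/-- Let F be a finite field of odd order q, let Ω₉ be the simple orthogonal group PΩ(9, F), and let Ω₈⁻ be the commutator subgroup of the isometry group of a minus-type non-singular quadratic form on V = F⁸ (the simple group PΩ⁻(8, F), acting on its natural module V). Then Ω₉ and the semidirect product V ⋊ Ω₈⁻ have exactly the same set of element orders. -/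
theorem result {F : Type*} [Field F] [Fintype F] (hF : Odd (Fintype.card F)) (a b : F)
    (hab : ∀ z₁ z₂ : F, z₁ ^ 2 + a * z₁ * z₂ + b * z₂ ^ 2 = 0 → z₁ = 0 ∧ z₂ = 0) :
    Set.range (orderOf : Cfsg.POmega F (Cfsg.quadFormOdd 4 F) → ℕ) =
      Set.range (orderOf :
        (Multiplicative (((Fin 3 ⊕ Fin 3) ⊕ Fin 2) → F)) ⋊[
          (MulAutMultiplicative (((Fin 3 ⊕ Fin 3) ⊕ Fin 2) → F)).symm.toMonoidHom.comp
           ((DistribMulAction.toAddAut (LinearMap.GeneralLinearGroup F (((Fin 3 ⊕ Fin 3) ⊕ Fin 2) → F))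
              (((Fin 3 ⊕ Fin 3) ⊕ Fin 2) → F)).comp
            (Matrix.GeneralLinearGroup.toLin.toMonoidHom.comp
              ((Cfsg.isometryGroup F (Cfsg.quadFormMinus 3 F a b)).subtype.comp
                (Cfsg.Omega F (Cfsg.quadFormMinus 3 F a b)).subtype)))]
          ↥(Cfsg.Omega F (Cfsg.quadFormMinus 3 F a b)) → ℕ) := by
  classical
  obtain ⟨p, hp⟩ := CharP.exists F
  have : Fact p.Prime := ⟨CharP.char_is_prime F p⟩
  have h2 : (2 : F) ≠ 0 := CfsgLib.OrthOrder.two_ne_zero_of_odd hF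
  have hp2 : p ≠ 2 := fun e => h2 (by subst e; exact_mod_cast CharP.cast_eq_zero F 2)
  ext N
  rw [CfsgLib.PrimeGraphBC.mem_range_pomega_iff h2 (by norm_num), CfsgLib.SpecNine.mem_range_ext_iff h2 (p := p) hab]
  refine ⟨fun h => ?_, CfsgLib.SpecNine.omel_of_sh h2 hp2⟩
  obtain ⟨T, hT, hNT⟩ := CfsgLib.SpecNine.sh_of_omel h2 hp2 h
  rw [← CfsgLib.SpecNine.mem_range_ext_iff h2 (p := p) hab] at hT ⊢
  obtain ⟨y, rfl⟩ := hT
  obtain ⟨c, hc⟩ := hNT
  have hpos : 0 < orderOf y := @orderOf_pos _ _ (Finite.of_equiv _ SemidirectProduct.equivProd.symm) y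
  rw [hc] at hpos
  refine ⟨y ^ c, ?_⟩
  rw [orderOf_pow_of_dvd (Nat.pos_of_mul_pos_left hpos).ne' (hc ▸ dvd_mul_left c N), hc,
    Nat.mul_div_cancel _ (Nat.pos_of_mul_pos_left hpos)]

end Cfsg.Agent.S2517
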