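import Cfsg.Statements.S2518
import Cfsg.Agent.G2Three.Graph
import Cfsg.Agent.G2Three.SelfCent
import Cfsg.Agent.SL2.PSLData
-- import your own Cfsg.Agent.* helpers here

set_option autoImplicit false
open Cfsg

namespace Cfsg.Agent.S2518

/-- Let F₃ be the field with 3 elements and F₁₃ the field with 13 elements. The Chevalley group G₂(F₃) and PSL(2, F₁₃) have the same prime graph: the same prime divisors of their orders, and for distinct primes r, s an element of order rs in one iff in the other. -/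
theorem result {F : Type*} [Field F] [Fintype F] (hF : Fintype.card F = 3) {E : Type*} [Field E] [Fintype E] (hE : Fintype.card E = 13) :
    ((∀ r : ℕ, r.Prime → (r ∣ Nat.card ↥(Cfsg.Lie.chevG2.group F) ↔ r ∣ Nat.card (Matrix.ProjectiveSpecialLinearGroup (Fin 2) E))) ∧
      (∀ r s : ℕ, r.Prime → s.Prime → r ≠ s → ((∃ x : ↥(Cfsg.Lie.chevG2.group F), orderOf x = r * s) ↔ (∃ y : (Matrix.ProjectiveSpecialLinearGroup (Fin 2) E), orderOf y = r * s)))) := by
  classical
  let f : ZMod 3 ≃+* F := ZMod.ringEquivOfPrime F (by norm_num) hF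
  let ψ : CfsgLib.G2Three.G3 ≃* ↥(Cfsg.Lie.chevG2.group F) :=
    (Subgroup.equivMapOfInjective _ _
      (CfsgLib.Chev.glMap_injective Cfsg.Lie.chevG2 (f : ZMod 3 →+* F))).trans
      (MulEquiv.subgroupCongr (CfsgLib.Chev.map_group_eq Cfsg.Lie.chevG2 (f : ZMod 3 →+* F) f.surjective))
  haveI : Finite ↥(Cfsg.Lie.chevG2.group F) := inferInstance
  have hcard : Nat.card ↥(Cfsg.Lie.chevG2.group F) = 2 ^ 6 * 3 ^ 6 * 7 * 13 := by
    rw [Cfsg.Agent.S1059.result hF]; norm_num
  obtain ⟨x7, hx7, hc7⟩ := CfsgLib.G2Three.exists_seven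
  obtain ⟨x13, hx13, hc13⟩ := CfsgLib.G2Three.exists_thirteen
  obtain ⟨x6, hx6⟩ := CfsgLib.G2Three.exists_six
  haveI : Fact (Nat.Prime 7) := ⟨by norm_num⟩
  haveI : Fact (Nat.Prime 13) := ⟨by norm_num⟩
  have hfact : ∀ q : ℕ, q = 7 ∨ q = 13 → (2 ^ 6 * 3 ^ 6 * 7 * 13 : ℕ).factorization q = 1 := by
    intro q hq
    have key : ∀ m : ℕ, m ≠ 0 → q.Prime → ¬ q ∣ m → (q * m).factorization q = 1 := fun m hm hp hd => by
      rw [Nat.factorization_mul hp.ne_zero hm, Finsupp.add_apply, hp.factorization_self,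
        Nat.factorization_eq_zero_of_not_dvd hd]
    rcases hq with rfl | rfl
    · rw [show (2 ^ 6 * 3 ^ 6 * 7 * 13 : ℕ) = 7 * (2 ^ 6 * 3 ^ 6 * 13) by norm_num]
      exact key _ (by norm_num) (by norm_num) (by norm_num)
    · rw [show (2 ^ 6 * 3 ^ 6 * 7 * 13 : ℕ) = 13 * (2 ^ 6 * 3 ^ 6 * 7) by norm_num]
      exact key _ (by norm_num) (by norm_num) (by norm_num)
  have iso7 : ∀ y : ↥(Cfsg.Lie.chevG2.group F), 7 ∣ orderOf y → orderOf y = 7 := fun y hy =>
    CfsgLib.G2Three.orderOf_eq_of_selfCentralizing (by rw [hcard]; exact hfact 7 (Or.inl rfl))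
      (x := ψ x7) (by rw [ψ.orderOf_eq, hx7]) (fun z hz => by
        have := hc7 (ψ.symm z) (ψ.injective (by simpa using hz))
        obtain ⟨k, hk⟩ := Subgroup.mem_zpowers_iff.1 this
        exact ⟨k, show ψ x7 ^ k = z by rw [← map_zpow, hk, MulEquiv.apply_symm_apply]⟩) hy
  have iso13 : ∀ y : ↥(Cfsg.Lie.chevG2.group F), 13 ∣ orderOf y → orderOf y = 13 := fun y hy =>
    CfsgLib.G2Three.orderOf_eq_of_selfCentralizing (by rw [hcard]; exact hfact 13 (Or.inr rfl))
      (x := ψ x13) (by rw [ψ.orderOf_eq, hx13]) (fun z hz => by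
        have := hc13 (ψ.symm z) (ψ.injective (by simpa using hz))
        obtain ⟨k, hk⟩ := Subgroup.mem_zpowers_iff.1 this
        exact ⟨k, show ψ x13 ^ k = z by rw [← map_zpow, hk, MulEquiv.apply_symm_apply]⟩) hy
  haveI : CharP E 13 := charP_of_card_eq_prime hE
  have hspec : ∀ m : ℕ, (∃ y : Matrix.ProjectiveSpecialLinearGroup (Fin 2) E, orderOf y = m) ↔
      (m ∣ 13 ∨ m ∣ 6 ∨ m ∣ 7) := by
    intro m
    have h := CfsgLib.SL2.range_orderOf_PSL (F := E) 13
    rw [hE] at h
    norm_num at h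
    have := Set.ext_iff.1 h m
    simpa using this
  have hmem : ∀ r : ℕ, r.Prime → (r ∣ 2 ^ 6 * 3 ^ 6 * 7 * 13 ↔ r = 2 ∨ r = 3 ∨ r = 7 ∨ r = 13) := by
    intro r hr
    constructor
    · intro h
      rcases (Nat.Prime.dvd_mul hr).1 h with h | h
      · rcases (Nat.Prime.dvd_mul hr).1 h with h | h
        · rcases (Nat.Prime.dvd_mul hr).1 h with h | h
          · exact Or.inl ((Nat.prime_dvd_prime_iff_eq hr Nat.prime_two).1 (hr.dvd_of_dvd_pow h))
          · exact Or.inr (Or.inl ((Nat.prime_dvd_prime_iff_eq hr Nat.prime_three).1 (hr.dvd_of_dvd_pow h)))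
        · exact Or.inr (Or.inr (Or.inl ((Nat.prime_dvd_prime_iff_eq hr (by norm_num)).1 h)))
      · exact Or.inr (Or.inr (Or.inr ((Nat.prime_dvd_prime_iff_eq hr (by norm_num)).1 h)))
    · rintro (rfl | rfl | rfl | rfl) <;> norm_num
  have hdiv : ∀ r : ℕ, r.Prime → (r ∣ Nat.card (Matrix.ProjectiveSpecialLinearGroup (Fin 2) E) ↔
      r = 2 ∨ r = 3 ∨ r = 7 ∨ r = 13) := by
    intro r hr
    constructor
    · intro h
      haveI : Fact r.Prime := ⟨hr⟩
      obtain ⟨y, hy⟩ := exists_prime_orderOf_dvd_card' r h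
      rcases (hspec r).1 ⟨y, hy⟩ with h | h | h <;>
        have := Nat.le_of_dvd (by norm_num) h <;> interval_cases r <;>
        first | omega | norm_num at hr | norm_num at h
    · intro h
      obtain ⟨y, hy⟩ := (hspec r).2 (by rcases h with rfl | rfl | rfl | rfl <;> norm_num)
      exact hy ▸ orderOf_dvd_natCard y
  refine ⟨fun r hr => by rw [hcard, hmem r hr, hdiv r hr], fun r s hr hs hne => ?_⟩
  rw [hspec]
  constructor
  · rintro ⟨y, hy⟩
    have hcases : ∀ t : ℕ, t.Prime → t ∣ r * s → (t = 2 ∨ t = 3) := by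
      intro t ht htd
      have htc : t ∣ 2 ^ 6 * 3 ^ 6 * 7 * 13 := by
        rw [← hcard]; exact (hy ▸ htd : t ∣ orderOf y).trans (orderOf_dvd_natCard y)
      have hcomp : ¬ (r * s).Prime := Nat.not_prime_mul hr.ne_one hs.ne_one
      rcases (hmem t ht).1 htc with h | h | h | h
      · exact Or.inl h
      · exact Or.inr h
      · exact absurd (by rw [← hy, iso7 y (by rw [hy, ← h]; exact htd)]; norm_num) hcomp
      · exact absurd (by rw [← hy, iso13 y (by rw [hy, ← h]; exact htd)]; norm_num) hcomp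
    refine Or.inr (Or.inl ?_)
    rcases hcases r hr (dvd_mul_right r s) with rfl | rfl <;>
      rcases hcases s hs (dvd_mul_left s _) with rfl | rfl <;> first | (exact absurd rfl hne) | norm_num
  · intro h
    have hle : r * s ≤ 13 := by
      rcases h with h | h | h <;> have := Nat.le_of_dvd (by norm_num) h <;> omega
    have := hr.two_le
    have := hs.two_le
    have hr6 : r ≤ 6 := by nlinarith
    have hs6 : s ≤ 6 := by nlinarith
    refine ⟨ψ x6, ?_⟩
    rw [ψ.orderOf_eq, hx6]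
    interval_cases r <;> interval_cases s <;> first | omega | norm_num at hr hs h ⊢

end Cfsg.Agent.S2518
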