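import Cfsg.Statements.S2521
-- import your own Cfsg.Agent.* helpers here

set_option autoImplicit false
open Cfsg

namespace Cfsg.Agent.S2521

/-- Let B be a finite group that is the semidirect product of a nilpotent normal subgroup U by an abelian subgroup T (U ∩ T = 1, UT = B), and let t ∈ T have centralizer exactly T. Then every element of the coset tU is conjugate to t in B: for each u ∈ U there is b ∈ B with b t b⁻¹ = t u. -/
theorem result {B : Type*} [Group B] [Finite B] (U T : Subgroup B) [U.Normal] (hU : Group.IsNilpotent ↥U) (hT : IsMulCommutative ↥T)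
    (hcompl : Subgroup.IsComplement' U T) (t : B) (ht : t ∈ T) (hreg : Subgroup.centralizer ({t} : Set B) = T) (u : B) (hu : u ∈ U) :
    ∃ b : B, b * t * b⁻¹ = t * u := by
  classical
  have htU : ∀ b : B, ∃ v ∈ U, t * v = b * t * b⁻¹ := by
    intro b
    obtain ⟨⟨v, w⟩, hvw⟩ := hcompl.2 b
    have hwt : (w : B) * t = t * w :=
      Subtype.ext_iff.mp (hT.is_comm.comm w ⟨t, ht⟩)
    have hb : b = (v : B) * w := hvw.symm
    refine ⟨t⁻¹ * v * t * (v : B)⁻¹, ?_, ?_⟩
    · exact U.mul_mem (by simpa using (inferInstance : U.Normal).conj_mem v v.2 t⁻¹) (U.inv_mem v.2)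
    · rw [hb]; calc
        t * (t⁻¹ * (v : B) * t * (v : B)⁻¹) = (v : B) * t * (v : B)⁻¹ := by group
        _ = (v : B) * ((w : B) * t * (w : B)⁻¹) * (v : B)⁻¹ := by rw [hwt]; group
        _ = (v : B) * w * t * ((v : B) * w)⁻¹ := by group
  let f : U → U := fun v => ⟨t⁻¹ * ((v : B) * t * (v : B)⁻¹), by
    obtain ⟨x, hx, h⟩ := htU v
    rw [← h]; simpa using hx⟩
  have hf : Function.Injective f := by
    intro v w h
    have h' : (v : B) * t * (v : B)⁻¹ = (w : B) * t * (w : B)⁻¹ := mul_left_cancel (Subtype.ext_iff.mp h)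
    have hc : (w : B)⁻¹ * v ∈ Subgroup.centralizer ({t} : Set B) := by
      rw [Subgroup.mem_centralizer_singleton_iff]
      calc (w : B)⁻¹ * v * t = (w : B)⁻¹ * ((v : B) * t * (v : B)⁻¹) * v := by group
        _ = t * ((w : B)⁻¹ * v) := by rw [h']; group
    rw [hreg] at hc
    have h1 : (w : B)⁻¹ * v ∈ U ⊓ T := ⟨U.mul_mem (U.inv_mem w.2) v.2, hc⟩
    rw [hcompl.disjoint.eq_bot, Subgroup.mem_bot] at h1
    exact Subtype.ext (inv_mul_eq_one.mp h1).symm
  obtain ⟨v, hv⟩ := (Finite.injective_iff_surjective.mp hf) ⟨u, hu⟩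
  refine ⟨v, ?_⟩
  rw [← show t⁻¹ * ((v : B) * t * (v : B)⁻¹) = u from Subtype.ext_iff.mp hv]
  group

end Cfsg.Agent.S2521
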