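import Cfsg.Statements.S2522
import Cfsg.Agent.UnipProd.Factor

set_option autoImplicit false
open Cfsg

namespace Cfsg.Agent.S2522

open Matrix CfsgLib.UnipProd

/-- A transvection is similar to one in standard position. -/
theorem transvection_similar {K : Type*} [Field K] {m : ℕ} (M : Matrix (Fin (m + 2)) (Fin (m + 2)) K)
    {a b : Fin (m + 2) → K} (hM : M - 1 = vecMulVec a b) (hne : M ≠ 1) (hdet : M.det = 1)
    {t : K} (ht : t ≠ 0) :
    ∃ P : Matrix (Fin (m + 2)) (Fin (m + 2)) K, P.det ≠ 0 ∧
      M * P = P * (1 + t • Matrix.single 0 1 1) := by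
  classical
  have hM' : M = 1 + vecMulVec a b := by rw [← hM, add_sub_cancel]
  have hba : b ⬝ᵥ a = 0 := by
    have h := hdet
    rw [hM', Matrix.vecMulVec_eq Unit, Matrix.det_one_add_replicateCol_mul_replicateRow] at h
    simpa using h
  obtain ⟨k, hk⟩ : ∃ k, b k ≠ 0 := by
    by_contra hh
    push Not at hh
    exact hne (by rw [hM', show b = 0 from funext hh]; simp)
  obtain ⟨l, hl, hlk⟩ : ∃ l, a l ≠ 0 ∧ l ≠ k := by
    by_contra hh
    push Not at hh
    have hsum : b ⬝ᵥ a = b k * a k := Finset.sum_eq_single k (fun j _ hj => by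
      have : a j = 0 := by by_contra h; exact hj (hh j h)
      rw [this, mul_zero]) (fun h => absurd (Finset.mem_univ _) h)
    have hak : a k ≠ 0 := fun h => hne (by
      rw [hM', show a = 0 from funext fun j => by
        by_cases hj : a j = 0
        · exact hj
        · exact absurd (hh j hj ▸ h) hj]
      simp)
    exact mul_ne_zero hk hak (hsum ▸ hba)
  obtain ⟨σ, hσl, hσk⟩ : ∃ σ : Equiv.Perm (Fin (m + 2)), σ l = 0 ∧ σ k = 1 := by
    refine ⟨(Equiv.swap l 0).trans (Equiv.swap (Equiv.swap l 0 k) 1), ?_, by simp⟩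
    simp only [Equiv.trans_apply, Equiv.swap_apply_left]
    refine Equiv.swap_apply_of_ne_of_ne ?_ (by simp)
    intro h
    exact hlk ((Equiv.swap l 0).injective (by rw [Equiv.swap_apply_left]; exact h))
  let P₀ : Matrix (Fin (m + 2)) (Fin (m + 2)) K := Matrix.of fun i j =>
    if j = l then a i / t else if j = k then (if i = k then 1 / b k else 0)
    else (if i = j then 1 else 0) - (if i = k then b j / b k else 0)
  have hdetP : P₀.det ≠ 0 := by
    intro h
    obtain ⟨x, hx0, hx⟩ := Matrix.exists_mulVec_eq_zero_iff.mpr h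
    have hxi : ∀ i, i ≠ k → a i / t * x l + (if i = l then 0 else x i) = 0 := by
      intro i hi
      have := congrFun hx i
      rw [mulVec, dotProduct, ← Finset.add_sum_erase _ _ (Finset.mem_univ l)] at this
      have e : ∀ j ∈ (Finset.univ : Finset (Fin (m + 2))).erase l,
          P₀ i j * x j = if i = j then x j else 0 := by
        intro j hj
        have hjl := (Finset.mem_erase.mp hj).1
        simp only [P₀, Matrix.of_apply, if_neg hjl, if_neg hi, sub_zero]
        by_cases hjk : j = k
        · subst hjk; simp [hi]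
        · rw [if_neg hjk]; split_ifs <;> simp
      rw [Finset.sum_congr rfl e, Finset.sum_ite_eq] at this
      simp only [P₀, Matrix.of_apply, if_true, Finset.mem_erase, Finset.mem_univ, and_true] at this
      rw [Pi.zero_apply] at this
      split_ifs with hil <;> simpa [hil] using this
    have hxl : x l = 0 := by
      have := hxi l hlk
      simpa [hl, ht] using this
    have hx' : ∀ i, i ≠ k → x i = 0 := fun i hi => by
      by_cases hil : i = l
      · rw [hil, hxl]
      · have := hxi i hi
        simpa [hxl, hil] using this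
    refine hx0 (funext fun i => ?_)
    by_cases hi : i = k
    · subst hi
      have h := congrFun hx i
      rw [mulVec, dotProduct, Finset.sum_eq_single i (fun j _ hj => by rw [hx' j hj, mul_zero])
        (fun h => absurd (Finset.mem_univ _) h)] at h
      simpa [P₀, hlk.symm, hk] using h
    · exact hx' i hi
  have hbP : ∀ j, (b ᵥ* P₀) j = if j = k then 1 else 0 := by
    intro j
    simp only [vecMul, dotProduct, P₀, Matrix.of_apply]
    by_cases hjl : j = l
    · subst hjl
      simp only [if_true, if_neg hlk, ← mul_div_assoc]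
      rw [← Finset.sum_div, show (∑ i, b i * a i) = 0 from hba, zero_div]
    · by_cases hjk : j = k
      · subst hjk; simp [hjl, hk]
      · simp only [if_neg hjl, if_neg hjk, mul_sub, Finset.sum_sub_distrib]
        simp
        field_simp
        ring
  have hMP : M * P₀ = P₀ * (1 + t • Matrix.single l k 1) := by
    rw [hM', add_mul, one_mul, mul_add, mul_one, Matrix.vecMulVec_mul, Matrix.mul_smul]
    congr 1
    ext i j
    rw [vecMulVec_apply, hbP, Matrix.smul_apply, smul_eq_mul]
    by_cases hj : j = k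
    · subst hj
      rw [Matrix.mul_single_apply_same]
      simp [P₀]
      field_simp
    · rw [if_neg hj, mul_zero, Matrix.mul_single_apply_of_ne _ _ _ _ _ hj, mul_zero]
  refine ⟨P₀.submatrix id σ.symm, ?_, ?_⟩
  · rw [Matrix.det_permute']
    refine mul_ne_zero ?_ hdetP
    rcases Int.units_eq_one_or (Equiv.Perm.sign σ.symm) with e | e <;> simp [e]
  · have hT : (1 + t • Matrix.single l k 1 : Matrix (Fin (m + 2)) (Fin (m + 2)) K) =
        (1 + t • Matrix.single 0 1 1 : Matrix _ _ K).submatrix σ σ := by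
      ext i j
      simp only [Matrix.submatrix_apply, Matrix.add_apply, Matrix.smul_apply, Matrix.one_apply,
        Matrix.single_apply, σ.injective.eq_iff]
      have e1 : ((0 : Fin (m + 2)) = σ i ↔ l = i) := by rw [← hσl, σ.injective.eq_iff]
      have e2 : ((1 : Fin (m + 2)) = σ j ↔ k = j) := by rw [← hσk, σ.injective.eq_iff]
      simp [e1, e2]
    ext i j
    have h := congrFun (congrFun hMP i) (σ.symm j)
    rw [hT] at h
    rw [Matrix.mul_apply, Matrix.mul_apply] at h
    rw [Matrix.mul_apply, Matrix.mul_apply, ← Equiv.sum_comp σ (fun x =>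
      P₀.submatrix id σ.symm i x * (1 + t • Matrix.single 0 1 1 : Matrix _ _ K) x j)]
    simpa using h

/-- Let K be a field with at least four elements (finite or infinite), n ≥ 3, and J ∈ GL(n, K) the regular unipotent matrix (ones on the diagonal and the superdiagonal, zeros elsewhere). Then every non-scalar g ∈ GL(n, K) with det g = 1 is a product of two GL(n, K)-conjugates of J. -/
theorem result {K : Type*} [Field K] (hK : 4 ≤ Cardinal.mk K) (n : ℕ) (hn : 3 ≤ n) (J g : GL (Fin n) K)
    (hJ : ∀ i j : Fin n, (J : Matrix (Fin n) (Fin n) K) i j = if i = j then 1 else if j.val = i.val + 1 then 1 else 0)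
    (hg : ¬ ∃ c : K, (g : Matrix (Fin n) (Fin n) K) = c • (1 : Matrix (Fin n) (Fin n) K))
    (hdet : (g : Matrix (Fin n) (Fin n) K).det = 1) :
    ∃ x y : GL (Fin n) K, g = (x * J * x⁻¹) * (y * J * y⁻¹) := by
  classical
  obtain ⟨m, rfl⟩ : ∃ m, n = m + 2 := ⟨n - 2, by omega⟩
  have hJM : (J : Matrix (Fin (m + 2)) (Fin (m + 2)) K) = jordan (m + 2) := Matrix.ext hJ
  set M := (g : Matrix (Fin (m + 2)) (Fin (m + 2)) K) with hM
  suffices h : ∃ S L U X Y : Matrix (Fin (m + 2)) (Fin (m + 2)) K, S.det ≠ 0 ∧ X.det ≠ 0 ∧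
      Y.det ≠ 0 ∧ M * S = S * (L * U) ∧ L * X = X * jordan (m + 2) ∧
      U * Y = Y * jordan (m + 2) by
    obtain ⟨S, L, U, X, Y, hS, hX, hY, hMS, hLX, hUY⟩ := h
    let s := Matrix.GeneralLinearGroup.mkOfDetNeZero S hS
    let x := Matrix.GeneralLinearGroup.mkOfDetNeZero X hX
    let y := Matrix.GeneralLinearGroup.mkOfDetNeZero Y hY
    refine ⟨s * x, s * y, ?_⟩
    have hsm : (g * s : GL (Fin (m + 2)) K) = s * ((x * J * x⁻¹) * (y * J * y⁻¹)) := by
      apply Units.ext
      have h1 : (((x * J * x⁻¹ : GL (Fin (m + 2)) K)) : Matrix (Fin (m + 2)) (Fin (m + 2)) K) = L := by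
        rw [Units.val_mul, Units.val_mul, hJM]
        show X * jordan (m + 2) * (x⁻¹ : GL (Fin (m + 2)) K).val = L
        rw [← hLX, Matrix.mul_assoc]
        show L * (x.val * (x⁻¹ : GL (Fin (m + 2)) K).val) = L
        rw [Units.mul_inv, mul_one]
      have h2 : (((y * J * y⁻¹ : GL (Fin (m + 2)) K)) : Matrix (Fin (m + 2)) (Fin (m + 2)) K) = U := by
        rw [Units.val_mul, Units.val_mul, hJM]
        show Y * jordan (m + 2) * (y⁻¹ : GL (Fin (m + 2)) K).val = U
        rw [← hUY, Matrix.mul_assoc]
        show U * (y.val * (y⁻¹ : GL (Fin (m + 2)) K).val) = U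
        rw [Units.mul_inv, mul_one]
      rw [Units.val_mul, Units.val_mul, Units.val_mul, h1, h2]
      exact hMS
    calc g = (g * s) * s⁻¹ := by group
      _ = _ := by rw [hsm]; group
  by_cases hbig : ∃ a b, M - 1 = vecMulVec a b
  · obtain ⟨a, b, hab⟩ := hbig
    have hne : M ≠ 1 := fun h => hg ⟨1, by rw [h, one_smul]⟩
    obtain ⟨t, ht⟩ := exists_notMem_finset ({0, 1} : Finset K)
      (lt_of_lt_of_le (lt_of_le_of_lt (Nat.cast_le.mpr Finset.card_le_two) (by norm_num)) hK)
    simp only [Finset.mem_insert, Finset.mem_singleton, not_or] at ht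
    obtain ⟨P, hP, hMP⟩ := transvection_similar M hab hne hdet ht.1
    obtain ⟨U, hU, hJU⟩ := transvection_factor (m := m) ht.2
    obtain ⟨Y, hY, hUY⟩ := upReg_similar hU
    refine ⟨P, jordan (m + 2), U, 1, Y, hP, by simp, hY, ?_, by simp, hUY⟩
    rw [hJU]; exact hMP
  · obtain ⟨S, L, U, r', hS, hL, hU, hMS, -, -, -⟩ := exists_factor hK (m + 1) M hdet
      (fun _ => ⟨hg, hbig⟩) (Pi.single 0 1) (Pi.single 0 1) (by simp) (by simp)
    obtain ⟨X, hX, hLX⟩ := lowReg_similar hL
    obtain ⟨Y, hY, hUY⟩ := upReg_similar hU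
    exact ⟨S, L, U, X, Y, hS, hX, hY, hMS, hLX, hUY⟩

end Cfsg.Agent.S2522
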