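import Cfsg.Statements.S2556
import Cfsg.Agent.Sz.Sylow
import Cfsg.Agent.PCore.Basic
import Cfsg.Prelude.Def_CaseTheorems

set_option autoImplicit false
open Cfsg

namespace Cfsg.Agent.S2556

open CfsgLib.Sz

section Poly

variable {F : Type*} [Field F] [Fintype F] {m : ℕ}

/-- Exponent of a product of two Frobenius powers, reduced. -/
def ex (m : ℕ) (u v : ZMod (2 * m + 1)) : ℕ :=
  if u = v then 2 ^ (u + 1).val else 2 ^ u.val + 2 ^ v.val

theorem val_inj' {u v : ZMod (2 * m + 1)} (h : u.val = v.val) : u = v := ZMod.val_injective _ h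

theorem sum_pair {u v : ℕ} (h : u ≠ v) : ∑ i ∈ ({u, v} : Finset ℕ), 2 ^ i = 2 ^ u + 2 ^ v := Finset.sum_pair h

theorem ex_single {u v w : ZMod (2 * m + 1)} (huv : u ≠ v) : ex m u v ≠ 2 ^ w.val := by
  intro e
  rw [ex, if_neg huv] at e
  have huv' : u.val ≠ v.val := fun h => huv (val_inj' h)
  have h := Finset.geomSum_injective (le_refl 2) (a₁ := {u.val, v.val}) (a₂ := {w.val})
    (by simpa [Finset.sum_pair huv'] using e)
  have := congrArg Finset.card h
  rw [Finset.card_pair huv', Finset.card_singleton] at this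
  omega

theorem ex_pair {u v i j : ZMod (2 * m + 1)} (huv : u ≠ v) (e : ex m i j = ex m u v) :
    (i = u ∧ j = v) ∨ (i = v ∧ j = u) := by
  by_cases hij : i = j
  · exact absurd (e.symm.trans (by rw [ex, if_pos hij])) (ex_single huv)
  rw [ex, ex, if_neg hij, if_neg huv] at e
  have huv' : u.val ≠ v.val := fun h => huv (val_inj' h)
  have hij' : i.val ≠ j.val := fun h => hij (val_inj' h)
  have h := Finset.geomSum_injective (le_refl 2) (a₁ := {i.val, j.val}) (a₂ := {u.val, v.val})
    (by simpa [Finset.sum_pair huv', Finset.sum_pair hij'] using e)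
  have hi : i.val ∈ ({u.val, v.val} : Finset ℕ) := h ▸ Finset.mem_insert_self _ _
  have hj : j.val ∈ ({u.val, v.val} : Finset ℕ) := h ▸ Finset.mem_insert_of_mem (Finset.mem_singleton_self _)
  simp only [Finset.mem_insert, Finset.mem_singleton] at hi hj
  rcases hi with hi | hi <;> rcases hj with hj | hj
  · exact absurd (hi.trans hj.symm) hij'
  · exact Or.inl ⟨val_inj' hi, val_inj' hj⟩
  · exact Or.inr ⟨val_inj' hi, val_inj' hj⟩
  · exact absurd (hi.trans hj.symm) hij'

theorem ex_diag {u i j : ZMod (2 * m + 1)} (e : ex m i j = ex m u u) : i = u ∧ j = u := by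
  rw [ex.eq_def m u u, if_pos rfl] at e
  by_cases hij : i = j
  · rw [ex, if_pos hij] at e
    have h := val_inj' (Nat.pow_right_injective (le_refl 2) e)
    exact ⟨add_right_cancel h, hij ▸ add_right_cancel h⟩
  · exact absurd e (ex_single hij)

theorem ex_lt (hm : 1 ≤ m) (u v : ZMod (2 * m + 1)) : ex m u v < 2 ^ (2 * m + 1) := by
  have hlt : ∀ w : ZMod (2 * m + 1), w.val < 2 * m + 1 := ZMod.val_lt
  rw [ex]
  split_ifs with h
  · exact Nat.pow_lt_pow_right (le_refl 2) (hlt _)
  · have key : ∀ a b : ℕ, a < b → b < 2 * m + 1 → 2 ^ a + 2 ^ b < 2 ^ (2 * m + 1) := fun a b hab hb => by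
      have h1 : 2 ^ a < 2 ^ b := Nat.pow_lt_pow_right (le_refl 2) hab
      have h2 : 2 ^ (b + 1) ≤ 2 ^ (2 * m + 1) := Nat.pow_le_pow_right (by norm_num) hb
      rw [pow_succ] at h2
      omega
    rcases lt_or_gt_of_ne (fun e => h (val_inj' e) : u.val ≠ v.val) with h' | h'
    · exact key _ _ h' (hlt _)
    · rw [add_comm]; exact key _ _ h' (hlt _)

variable (h : Hyp F m)
include h

theorem pow_per (x : F) (a : ℕ) : x ^ 2 ^ (a % (2 * m + 1)) = x ^ 2 ^ a := by
  conv_rhs => rw [← Nat.mod_add_div a (2 * m + 1)]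
  rw [pow_add, pow_mul, pow_mul 2, ← h.hF, FiniteField.pow_card_pow]

theorem pow_val_add (x : F) (u v : ZMod (2 * m + 1)) : x ^ 2 ^ (u + v).val = (x ^ 2 ^ u.val) ^ 2 ^ v.val := by
  rw [ZMod.val_add, pow_per h, pow_add, pow_mul]

theorem pow_ex (x : F) (u v : ZMod (2 * m + 1)) : x ^ ex m u v = x ^ 2 ^ u.val * x ^ 2 ^ v.val := by
  rw [ex]
  split_ifs with huv
  · subst huv
    rw [pow_val_add h, ← pow_two]
    haveI : Fact (1 < 2 * m + 1) := ⟨by have := h.hm; omega⟩
    rw [ZMod.val_one, pow_one]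
  · rw [pow_add]

/-- The step by which `th` moves Frobenius exponents. -/
abbrev dd (m : ℕ) : ZMod (2 * m + 1) := ((m + 1 : ℕ) : ZMod (2 * m + 1))

theorem dd_two : dd m + dd m = 1 := by
  show ((m + 1 : ℕ) : ZMod (2 * m + 1)) + _ = _
  rw [← Nat.cast_add, show m + 1 + (m + 1) = 2 * m + 1 + 1 by ring, Nat.cast_add, ZMod.natCast_self, zero_add,
    Nat.cast_one]

theorem th_frob (x : F) (u : ZMod (2 * m + 1)) : th m (x ^ 2 ^ u.val) = x ^ 2 ^ (u + dd m).val := by
  rw [pow_val_add h, ZMod.val_natCast_of_lt (by have := h.hm; omega), th]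

/-- Linearised polynomials determine their coefficients. -/
theorem linearised_injective : Function.Injective (fun a : ZMod (2 * m + 1) → F =>
    (haveI := h.charP
     AddMonoidHom.mk' (fun x => ∑ i, a i * x ^ 2 ^ i.val) fun x y => by
      rw [← Finset.sum_add_distrib]
      exact Finset.sum_congr rfl fun i _ => by rw [add_pow_char_pow, mul_add])) := by
  intro a b hab
  let p : Polynomial F := ∑ i, Polynomial.C (a i - b i) * Polynomial.X ^ 2 ^ i.val
  have hp : p = 0 := by
    refine Polynomial.eq_zero_of_natDegree_lt_card_of_eval_eq_zero p (f := id) Function.injective_id (fun x => ?_) ?_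
    · have := DFunLike.congr_fun hab x
      simp only [AddMonoidHom.mk'_apply] at this
      simp [p, Polynomial.eval_finsetSum, sub_mul, Finset.sum_sub_distrib, this]
    · rw [h.hF]
      refine lt_of_le_of_lt (Polynomial.natDegree_sum_le_of_forall_le _ _ (n := 2 ^ (2 * m)) fun i _ => ?_)
        (Nat.pow_lt_pow_right (le_refl 2) (by omega))
      refine (Polynomial.natDegree_C_mul_X_pow_le _ _).trans (Nat.pow_le_pow_right (by norm_num) ?_)
      have := ZMod.val_lt i; omega
  funext u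
  have hc := congrArg (fun q : Polynomial F => q.coeff (2 ^ u.val)) hp
  simp only [p, Polynomial.finsetSum_coeff, Polynomial.coeff_C_mul_X_pow, Polynomial.coeff_zero] at hc
  rw [Finset.sum_eq_single u (fun i _ hi => if_neg fun e => hi (val_inj' (Nat.pow_right_injective (le_refl 2) e)).symm)
    (fun hu => absurd (Finset.mem_univ _) hu), if_pos rfl] at hc
  exact sub_eq_zero.mp hc

/-- Additive maps are linearised polynomials. -/
theorem exists_linearised (f : F →+ F) :
    ∃ a : ZMod (2 * m + 1) → F, ∀ x, f x = ∑ i, a i * x ^ 2 ^ i.val := by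
  classical
  haveI := h.charP
  let Ψ : (ZMod (2 * m + 1) → F) → (F →+ F) := fun a =>
    AddMonoidHom.mk' (fun x => ∑ i, a i * x ^ 2 ^ i.val) fun x y => by
      rw [← Finset.sum_add_distrib]
      exact Finset.sum_congr rfl fun i _ => by rw [add_pow_char_pow, mul_add]
  have hinj : Function.Injective Ψ := linearised_injective h
  haveI : Finite (F →+ F) := Finite.of_injective _ DFunLike.coe_injective
  have hcard : Nat.card (F →+ F) = Nat.card (ZMod (2 * m + 1) → F) := by
    letI : Fact (Nat.Prime 2) := ⟨Nat.prime_two⟩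
    letI : Algebra (ZMod 2) F := ZMod.algebra F 2
    let e : (F →+ F) ≃ (F →ₗ[ZMod 2] F) :=
      { toFun := fun g => g.toZModLinearMap 2, invFun := fun g => g.toAddMonoidHom,
        left_inv := fun g => rfl, right_inv := fun g => rfl }
    have hn : Module.finrank (ZMod 2) F = 2 * m + 1 := by
      have := Module.card_eq_pow_finrank (K := ZMod 2) (V := F)
      rw [ZMod.card, h.hF] at this
      exact (Nat.pow_right_injective (le_refl 2) this).symm
    haveI : Finite (F →ₗ[ZMod 2] F) := Finite.of_equiv _ e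
    rw [Nat.card_congr e, Module.natCard_eq_pow_finrank (K := ZMod 2), Module.finrank_linearMap, hn, Nat.card_zmod,
      Nat.card_fun, Nat.card_eq_fintype_card (α := F), h.hF, Nat.card_eq_fintype_card, ZMod.card, ← pow_mul]
  obtain ⟨a, ha⟩ := (hinj.bijective_of_nat_card_le hcard.le).2 f
  exact ⟨a, fun x => by rw [← ha]; rfl⟩

/-- An additive bijection respecting `x ↦ x^(r+1)` up to an additive map is semilinear scalar. -/
theorem semilinear (f : F →+ F) (hf : Function.Injective f) (t : F →+ F)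
    (hN : ∀ x, th m (f x) * f x = t (th m x * x)) :
    ∃ (u : ZMod (2 * m + 1)) (c : F), c ≠ 0 ∧ ∀ x, f x = c * x ^ 2 ^ u.val := by
  classical
  haveI := h.charP
  obtain ⟨a, ha⟩ := exists_linearised h f
  obtain ⟨c, hc⟩ := exists_linearised h t
  set d := dd m with hd
  have hd0 : d ≠ 0 := fun e => by
    have := dd_two h
    rw [← hd, e, add_zero] at this
    haveI hF1 : Fact (1 < 2 * m + 1) := ⟨by have := h.hm; omega⟩
    exact zero_ne_one this
  let b : ZMod (2 * m + 1) → F := fun v => th m (a (v - d))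
  have hth : ∀ x, th m (f x) = ∑ v, b v * x ^ 2 ^ v.val := by
    intro x
    rw [ha, th, sum_pow_char_pow 2 (m + 1)]
    refine Fintype.sum_equiv (Equiv.addRight d) _ _ fun i => ?_
    show (a i * x ^ 2 ^ i.val) ^ 2 ^ (m + 1) = th m (a (i + d - d)) * x ^ 2 ^ (i + d).val
    rw [add_sub_cancel_right, ← th_frob h, mul_pow]; rfl
  let p : Polynomial F := (∑ i, ∑ v, Polynomial.C (a i * b v) * Polynomial.X ^ ex m i v) -
    ∑ k, Polynomial.C (c k) * Polynomial.X ^ ex m k (k + d)
  have hp : p = 0 := by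
    refine Polynomial.eq_zero_of_natDegree_lt_card_of_eval_eq_zero p (f := id) Function.injective_id (fun x => ?_) ?_
    · simp only [p, id, Polynomial.eval_sub, Polynomial.eval_finsetSum, Polynomial.eval_mul, Polynomial.eval_C,
        Polynomial.eval_pow, Polynomial.eval_X, pow_ex h]
      rw [sub_eq_zero]
      have h' := hN x
      rw [hth, mul_comm, ha, Finset.sum_mul_sum, hc] at h'
      refine Eq.trans ?_ (h'.trans ?_)
      · exact Finset.sum_congr rfl fun i _ => Finset.sum_congr rfl fun v _ => by ring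
      · exact Finset.sum_congr rfl fun k _ => by rw [mul_pow, ← th_frob h]; simp only [th, ← pow_mul, mul_comm (2 ^ (m + 1))]; ring
    · have hlt : ∀ i v, ex m i v ≤ 2 ^ (2 * m + 1) - 1 := fun i v => by have := ex_lt h.hm i v; omega
      rw [h.hF]
      refine lt_of_le_of_lt (Polynomial.natDegree_sub_le _ _) (lt_of_le_of_lt (max_le ?_ ?_)
        (Nat.sub_lt (Nat.two_pow_pos _) one_pos))
      · exact Polynomial.natDegree_sum_le_of_forall_le _ _ fun i _ =>
          Polynomial.natDegree_sum_le_of_forall_le _ _ fun v _ =>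
            (Polynomial.natDegree_C_mul_X_pow_le _ _).trans (hlt _ _)
      · exact Polynomial.natDegree_sum_le_of_forall_le _ _ fun v _ =>
            (Polynomial.natDegree_C_mul_X_pow_le _ _).trans (hlt _ _)
  have coeff : ∀ E, (∑ q : ZMod (2 * m + 1) × ZMod (2 * m + 1), if E = ex m q.1 q.2 then a q.1 * b q.2 else 0) =
      ∑ k, if E = ex m k (k + d) then c k else 0 := by
    intro E
    have hE := congrArg (fun q : Polynomial F => q.coeff E) hp
    simp only [p, Polynomial.coeff_sub, Polynomial.finsetSum_coeff, Polynomial.coeff_C_mul_X_pow,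
      Polynomial.coeff_zero, sub_eq_zero] at hE
    rw [Fintype.sum_prod_type]; exact hE
  have hdiag : ∀ u, a u * b u = 0 := fun u => by
    have h' := coeff (ex m u u)
    rw [Finset.sum_eq_single (u, u) (fun q _ hq => if_neg fun e => hq (Prod.ext (ex_diag e.symm).1 (ex_diag e.symm).2))
      (fun hu => absurd (Finset.mem_univ _) hu), if_pos rfl, Finset.sum_eq_zero (fun k _ => if_neg fun e => ?_)] at h'
    · exact h'
    · obtain ⟨e1, e2⟩ := ex_diag e.symm
      rw [e1] at e2
      exact hd0 (add_eq_left.mp e2)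
  have hoff : ∀ u v, u ≠ v → v ≠ u + d → u ≠ v + d → a u * b v + a v * b u = 0 := fun u v huv h1 h2 => by
    have h' := coeff (ex m u v)
    rw [Finset.sum_eq_add (u, v) (v, u) (fun e => huv (congrArg Prod.fst e))
      (fun q _ hq => if_neg fun e => ?_) (fun hu => absurd (Finset.mem_univ _) hu)
      (fun hu => absurd (Finset.mem_univ _) hu), if_pos rfl,
      if_pos (show ex m u v = ex m v u by rw [ex, ex, if_neg huv, if_neg (Ne.symm huv), add_comm]),
      Finset.sum_eq_zero (fun k _ => if_neg fun e => ?_)] at h'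
    · exact h'
    · rcases ex_pair huv e.symm with ⟨rfl, e2⟩ | ⟨rfl, e2⟩
      · exact h1 e2.symm
      · exact h2 e2.symm
    · rcases ex_pair huv e.symm with ⟨e1, e2⟩ | ⟨e1, e2⟩
      · exact hq.1 (Prod.ext e1 e2)
      · exact hq.2 (Prod.ext e1 e2)
  have key : ∀ u, a u ≠ 0 → ∀ s, a s ≠ 0 → s = u ∨ s = u - 1 := by
    intro u hu s hs
    have hbu : b u = 0 := (mul_eq_zero.mp (hdiag u)).resolve_left hu
    have hbv : b (s + d) ≠ 0 := by
      show th m (a (s + d - d)) ≠ 0
      rw [add_sub_cancel_right]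
      exact fun e => hs (th_eq_zero e)
    by_cases h1 : s + d = u + d
    · exact Or.inl (add_right_cancel h1)
    by_cases h2 : u = s + d + d
    · exact Or.inr (by rw [h2, add_assoc, dd_two h, add_sub_cancel_right])
    exfalso
    have hne : u ≠ s + d := fun e => hbv (e ▸ hbu)
    have := hoff u (s + d) hne h1 h2
    rw [hbu, mul_zero, add_zero, mul_eq_zero] at this
    exact this.elim hu hbv
  obtain ⟨u, hu⟩ : ∃ u, a u ≠ 0 := by
    by_contra hall
    simp only [not_exists, not_not] at hall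
    have : f 1 = f 0 := by rw [ha, ha]; simp [hall]
    exact one_ne_zero (hf this)
  refine ⟨u, a u, hu, fun x => ?_⟩
  rw [ha, Finset.sum_eq_single u (fun s _ hsu => ?_) (fun hu => absurd (Finset.mem_univ _) hu)]
  by_contra hne
  have hs : a s ≠ 0 := left_ne_zero_of_mul hne
  have e1 := (key u hu s hs).resolve_left hsu
  rcases key s hs u hu with e2 | e2
  · exact hsu e2.symm
  · rw [e1] at e2
    have h2 : ((2 : ℕ) : ZMod (2 * m + 1)) = 0 := by
      push_cast; linear_combination e2
    rw [ZMod.natCast_eq_zero_iff] at h2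
    have := Nat.le_of_dvd (by norm_num) h2
    have := h.hm
    omega

end Poly


section Group

variable {F : Type*} [Field F] [Fintype F] {m : ℕ} (h : Hyp F m)
include h

/-- An element of the unipotent group. -/
def el (a b : F) : Usub h := ⟨gU h a b, a, b, rfl⟩

theorem el_mul (a b a' b' : F) : el h a b * el h a' b' = el h (a + a') (b + b' + th m a * a') :=
  Subtype.ext (gU_mul h a b a' b')

theorem el_inj {a b a' b' : F} (e : el h a b = el h a' b') : a = a' ∧ b = b' := gU_injective h (congrArg Subtype.val e)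

theorem el_surj (g : Usub h) : ∃ a b, g = el h a b := by
  obtain ⟨a, b, e⟩ := g.2
  exact ⟨a, b, Subtype.ext e⟩

theorem el_zero : el h 0 0 = 1 := Subtype.ext (gU_zero h)

theorem el_sq (a b : F) : el h a b * el h a b = el h 0 (th m a * a) := Subtype.ext (gU_sq h a b)

theorem el_sq_one {a b : F} : el h a b * el h a b = 1 ↔ a = 0 := by
  rw [← pow_two, ← gU_sq_eq_one_iff h (a := a) (b := b)]
  exact ⟨fun e => congrArg Subtype.val e, fun e => Subtype.ext e⟩

/-- The norm is bijective. -/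
theorem norm_bijective : Function.Bijective (fun x : F => th m x * x) := by
  refine Finite.injective_iff_bijective.1 fun x y e => ?_
  change th m x * x = th m y * y at e
  by_cases hy : y = 0
  · subst hy
    rw [th_zero, zero_mul, mul_eq_zero] at e
    exact e.elim th_eq_zero id
  have hty : th m y ≠ 0 := fun e0 => hy (th_eq_zero e0)
  have hz : th m (x / y) * (x / y) = 1 := by
    rw [div_eq_mul_inv, th_mul, th_inv]
    field_simp
    exact e
  have hz0 : x / y ≠ 0 := right_ne_zero_of_mul_eq_one hz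
  have h1 : th m (x / y) = (x / y)⁻¹ := eq_inv_of_mul_eq_one_left hz
  have h2 := h.th_th (x / y)
  rw [h1, th_inv, h1, inv_inv, pow_two] at h2
  have : x / y = 1 := mul_left_cancel₀ hz0 (by rw [mul_one]; exact h2.symm)
  rwa [div_eq_one_iff_eq hy] at this

/-- The induced map on the quotient by the centre. -/
theorem exists_induced : ∃ (Φ : MulAut (Usub h) →* Equiv.Perm F),
    (∀ φ, ∀ x y, Φ φ (x + y) = Φ φ x + Φ φ y) ∧
    (∀ φ a b, ∃ b', φ (el h a b) = el h (Φ φ a) b') ∧
    (∀ φ, ∃ t : F →+ F, ∀ x, th m (Φ φ x) * Φ φ x = t (th m x * x) ∧ φ (el h 0 (th m x * x)) = el h 0 (t (th m x * x))) := by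
  classical
  haveI := h.charP
  have hex : ∀ (φ : MulAut (Usub h)) a b, ∃ a' b', φ (el h a b) = el h a' b' := fun φ a b => el_surj h _
  choose A B hAB using hex
  have hz : ∀ φ b, A φ 0 b = 0 := by
    intro φ b
    have e := congrArg φ ((el_sq_one h (a := 0) (b := b)).2 rfl)
    rw [map_mul, map_one, hAB] at e
    exact (el_sq_one h).1 e
  have hwd : ∀ φ a b, A φ a b = A φ a 0 := by
    intro φ a b
    have e : el h a b = el h a 0 * el h 0 b := by rw [el_mul, add_zero, mul_zero, zero_add, add_zero]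
    have e' := congrArg φ e
    rw [map_mul, hAB, hAB, hAB, el_mul] at e'
    rw [(el_inj h e').1, hz, add_zero]
  let M : MulAut (Usub h) → F → F := fun φ a => A φ a 0
  have hM : ∀ φ a b, φ (el h a b) = el h (M φ a) (B φ a b) := fun φ a b => by rw [hAB, hwd]
  have hMadd : ∀ φ x y, M φ (x + y) = M φ x + M φ y := by
    intro φ x y
    have e := congrArg φ (el_mul h x 0 y 0)
    rw [map_mul, hM, hM, hM, el_mul] at e
    exact (el_inj h e).1.symm
  have hMmul : ∀ φ ψ a, M (φ * ψ) a = M φ (M ψ a) := by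
    intro φ ψ a
    have e : (φ * ψ) (el h a 0) = φ (ψ (el h a 0)) := rfl
    rw [hM, hM, hM] at e
    exact (el_inj h e).1
  have hMone : ∀ a, M 1 a = a := fun a => by
    have e : (1 : MulAut (Usub h)) (el h a 0) = el h a 0 := rfl
    rw [hM] at e
    exact (el_inj h e).1
  refine ⟨{ toFun := fun φ => ⟨M φ, M φ⁻¹, fun a => by rw [← hMmul, inv_mul_cancel, hMone],
              fun a => by rw [← hMmul, mul_inv_cancel, hMone]⟩
            map_one' := Equiv.ext hMone
            map_mul' := fun φ ψ => Equiv.ext (hMmul φ ψ) }, hMadd, fun φ a b => ⟨_, hM φ a b⟩, fun φ => ?_⟩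
  let t : F →+ F := AddMonoidHom.mk' (fun b => B φ 0 b) fun b c => by
    have e := congrArg φ (el_mul h 0 b 0 c)
    rw [map_mul, hM, hM, add_zero, mul_zero, add_zero, hM, el_mul] at e
    have e2 := (el_inj h e).2
    rw [show M φ 0 = 0 from hz φ 0, th_zero, zero_mul, add_zero] at e2
    exact e2.symm
  refine ⟨t, fun x => ⟨?_, ?_⟩⟩
  · have e := congrArg φ (el_sq h x 0)
    rw [map_mul, hM, el_sq, hM] at e
    exact (el_inj h e).2
  · rw [hM, show M φ 0 = 0 from hz φ 0]; rfl

/-- The semilinear automorphisms. -/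
theorem exists_aut (u : ZMod (2 * m + 1)) (c : F) (hc : c ≠ 0) :
    ∃ φ : MulAut (Usub h), ∀ a b, φ (el h a b) = el h (c * a ^ 2 ^ u.val) (th m c * c * b ^ 2 ^ u.val) := by
  classical
  haveI := h.charP
  let f : Usub h →* Usub h := MonoidHom.mk' (fun g =>
      let p := (usubEquiv h).symm g
      el h (c * p.1 ^ 2 ^ u.val) (th m c * c * p.2 ^ 2 ^ u.val)) fun g g' => by
    obtain ⟨a, b, rfl⟩ := el_surj h g
    obtain ⟨a', b', rfl⟩ := el_surj h g'
    have es : ∀ x y, (usubEquiv h).symm (el h x y) = (x, y) := fun x y => (Equiv.symm_apply_eq _).2 rfl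
    simp only [el_mul, es]
    congr 1
    · rw [add_pow_char_pow, mul_add]
    · rw [add_pow_char_pow, add_pow_char_pow, th_mul, mul_pow, th_pow]
      ring
  have hf : ∀ a b, f (el h a b) = el h (c * a ^ 2 ^ u.val) (th m c * c * b ^ 2 ^ u.val) := fun a b => by
    show el h _ _ = _
    rw [show (usubEquiv h).symm (el h a b) = (a, b) from (Equiv.symm_apply_eq _).2 rfl]
  have hpow : Function.Injective (fun x : F => x ^ 2 ^ u.val) := fun x y e => by
    have e' : iterateFrobenius F 2 u.val x = iterateFrobenius F 2 u.val y := e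
    exact (iterateFrobenius F 2 u.val).injective e'
  have hinj : Function.Injective f := by
    intro g g' e
    obtain ⟨a, b, rfl⟩ := el_surj h g
    obtain ⟨a', b', rfl⟩ := el_surj h g'
    rw [hf, hf] at e
    obtain ⟨e1, e2⟩ := el_inj h e
    rw [hpow (mul_left_cancel₀ hc e1),
      hpow (mul_left_cancel₀ (mul_ne_zero (fun e0 => hc (th_eq_zero e0)) hc) e2)]
  exact ⟨MulEquiv.ofBijective f (Finite.injective_iff_bijective.1 hinj), hf⟩

end Group

theorem main_uni {F : Type*} [Field F] [Fintype F] {m : ℕ} (h : Hyp F m) :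
    Cfsg.IsElementaryAbelian 2 (Cfsg.pCore 2 (MulAut (Usub h))) ∧
      Nat.card ↥(Cfsg.pCore 2 (MulAut (Usub h))) = 2 ^ ((2 * m + 1) ^ 2) ∧
      Nat.card (MulAut (Usub h)) = 2 ^ ((2 * m + 1) ^ 2) * ((2 * m + 1) * (2 ^ (2 * m + 1) - 1)) := by
  classical
  haveI := h.charP
  haveI : Fact (Nat.Prime 2) := ⟨Nat.prime_two⟩
  haveI : Finite (MulAut (Usub h)) := Finite.of_injective (fun φ => (φ : Usub h → Usub h)) DFunLike.coe_injective
  obtain ⟨Φ, hadd, hel, ht⟩ := exists_induced h
  have hnb := norm_bijective h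
  -- kernel = additive maps
  have hker : ∀ φ : Φ.ker, ∃ g : F →+ F, ∀ a b, φ.1 (el h a b) = el h a (b + g a) := by
    intro φ
    have h1 : ∀ a, Φ φ.1 a = a := fun a => by rw [show Φ φ.1 = 1 from φ.2]; rfl
    obtain ⟨t, ht'⟩ := ht φ.1
    have hfix : ∀ b, φ.1 (el h 0 b) = el h 0 b := fun b => by
      obtain ⟨x, rfl⟩ := hnb.2 b
      rw [(ht' x).2, ← (ht' x).1, h1]
    choose β hβ using fun a => hel φ.1 a 0
    have hβ' : ∀ a b, φ.1 (el h a b) = el h a (β a + b) := fun a b => by
      have e : el h a b = el h a 0 * el h 0 b := by rw [el_mul, add_zero, mul_zero, zero_add, add_zero]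
      rw [e, map_mul, hβ, hfix, h1, el_mul, add_zero, mul_zero, add_zero]
    refine ⟨AddMonoidHom.mk' β fun x y => ?_, fun a b => by rw [hβ', add_comm]; rfl⟩
    have e := congrArg φ.1 (el_mul h x 0 y 0)
    rw [map_mul, hβ', hβ', hβ', el_mul] at e
    have e2 := (el_inj h e).2
    linear_combination -e2
  choose G hG using hker
  have hext : ∀ φ ψ : MulAut (Usub h), (∀ a b, φ (el h a b) = ψ (el h a b)) → φ = ψ := fun φ ψ e =>
    MulEquiv.ext fun g => by obtain ⟨a, b, rfl⟩ := el_surj h g; exact e a b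
  have hGbij : Function.Bijective G := by
    constructor
    · exact fun φ ψ e => Subtype.ext (hext _ _ fun a b => by rw [hG, hG, e])
    · intro g
      let f : Usub h →* Usub h := MonoidHom.mk' (fun x =>
          el h ((usubEquiv h).symm x).1 (((usubEquiv h).symm x).2 + g ((usubEquiv h).symm x).1)) fun x y => by
        obtain ⟨a, b, rfl⟩ := el_surj h x
        obtain ⟨a', b', rfl⟩ := el_surj h y
        have es : ∀ x y, (usubEquiv h).symm (el h x y) = (x, y) := fun x y => (Equiv.symm_apply_eq _).2 rfl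
        simp only [el_mul, es, map_add]
        congr 1
        ring
      have hf : ∀ a b, f (el h a b) = el h a (b + g a) := fun a b => by
        show el h _ _ = _
        rw [show (usubEquiv h).symm (el h a b) = (a, b) from (Equiv.symm_apply_eq _).2 rfl]
      have hinj : Function.Injective f := by
        intro x y e
        obtain ⟨a, b, rfl⟩ := el_surj h x
        obtain ⟨a', b', rfl⟩ := el_surj h y
        rw [hf, hf] at e
        obtain ⟨rfl, e2⟩ := el_inj h e
        rw [add_right_cancel e2]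
      let φ : MulAut (Usub h) := MulEquiv.ofBijective f (Finite.injective_iff_bijective.1 hinj)
      have hφ : φ ∈ Φ.ker := Equiv.ext fun a => by
        obtain ⟨b', e⟩ := hel φ a 0
        rw [show φ (el h a 0) = el h a (0 + g a) from hf a 0] at e
        exact (el_inj h e).1.symm
      refine ⟨⟨φ, hφ⟩, AddMonoidHom.ext fun a => ?_⟩
      have e : el h a (0 + G ⟨φ, hφ⟩ a) = el h a (0 + g a) := (hG ⟨φ, hφ⟩ a 0).symm.trans (hf a 0)
      simpa using (el_inj h e).2
  have hkc : Nat.card Φ.ker = 2 ^ ((2 * m + 1) ^ 2) := by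
    rw [Nat.card_eq_of_bijective G hGbij]
    let Ψ : (ZMod (2 * m + 1) → F) → (F →+ F) := fun a =>
      AddMonoidHom.mk' (fun x => ∑ i, a i * x ^ 2 ^ i.val) fun x y => by
        rw [← Finset.sum_add_distrib]
        exact Finset.sum_congr rfl fun i _ => by rw [add_pow_char_pow, mul_add]
    have hsurj : Function.Surjective Ψ := fun f => by
      obtain ⟨a, ha⟩ := exists_linearised h f
      exact ⟨a, AddMonoidHom.ext fun x => (ha x).symm⟩
    have hle := Nat.card_le_card_of_surjective Ψ hsurj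
    have hge : Nat.card (ZMod (2 * m + 1) → F) ≤ Nat.card (F →+ F) := by
      haveI : Finite (F →+ F) := Finite.of_injective _ DFunLike.coe_injective
      exact Nat.card_le_card_of_injective Ψ (linearised_injective h)
    rw [le_antisymm hle hge, Nat.card_fun, Nat.card_eq_fintype_card, h.hF, Nat.card_eq_fintype_card, ZMod.card,
      ← pow_mul, pow_two]
  -- image
  have hexp : ∀ q : ZMod (2 * m + 1) × Fˣ, ∃ σ : Φ.range, ∀ a, σ.1 a = (q.2 : F) * a ^ 2 ^ q.1.val := by
    rintro ⟨u, c⟩
    obtain ⟨φ, hφ⟩ := exists_aut h u (c : F) c.ne_zero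
    refine ⟨⟨Φ φ, φ, rfl⟩, fun a => ?_⟩
    obtain ⟨b', e⟩ := hel φ a 0
    rw [hφ] at e
    exact (el_inj h e).1.symm
  choose Θ hΘ using hexp
  have hΘbij : Function.Bijective Θ := by
    constructor
    · rintro ⟨u, c⟩ ⟨v, c'⟩ e
      have h1 : ∀ a, (c : F) * a ^ 2 ^ u.val = (c' : F) * a ^ 2 ^ v.val := fun a => by rw [← hΘ (u, c), e, hΘ]
      have hc : c = c' := by have := h1 1; simp only [one_pow, mul_one] at this; exact Units.ext this
      subst hc
      refine Prod.ext ?_ rfl
      obtain ⟨g, hg⟩ := IsCyclic.exists_generator (α := Fˣ)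
      have hu : g ^ 2 ^ u.val = g ^ 2 ^ v.val := Units.ext (by push_cast; exact mul_left_cancel₀ c.ne_zero (h1 g))
      rw [pow_eq_pow_iff_modEq, orderOf_eq_card_of_forall_mem_zpowers hg, Nat.card_units, Nat.card_eq_fintype_card, h.hF] at hu
      have hlt : ∀ w : ZMod (2 * m + 1), 2 ^ w.val < 2 ^ (2 * m + 1) - 1 := fun w => by
        have h1 : 2 ^ w.val ≤ 2 ^ (2 * m) := Nat.pow_le_pow_right (by norm_num) (by have := ZMod.val_lt w; omega)
        have h2 : 2 ^ 2 ≤ 2 ^ (2 * m) := Nat.pow_le_pow_right (by norm_num) (by have := h.hm; omega)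
        rw [pow_succ 2 (2 * m)]
        omega
      exact ZMod.val_injective _ (Nat.pow_right_injective (le_refl 2)
        (Nat.ModEq.eq_of_lt_of_lt hu (hlt u) (hlt v)))
    · rintro ⟨σ, φ, rfl⟩
      obtain ⟨t, ht'⟩ := ht φ
      obtain ⟨u, c, hc, e⟩ := semilinear h (AddMonoidHom.mk' (Φ φ) (hadd φ)) (Φ φ).injective t (fun x => (ht' x).1)
      refine ⟨(u, Units.mk0 c hc), Subtype.ext (Equiv.ext fun a => ?_)⟩
      rw [hΘ]
      exact (e a).symm
  have hrc : Nat.card Φ.range = (2 * m + 1) * (2 ^ (2 * m + 1) - 1) := by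
    rw [← Nat.card_eq_of_bijective Θ hΘbij, Nat.card_prod, Nat.card_eq_fintype_card, ZMod.card, Nat.card_units,
      Nat.card_eq_fintype_card, h.hF]
  have hcore : Cfsg.pCore 2 (MulAut (Usub h)) = Φ.ker := by
    refine le_antisymm ?_ (CfsgLib.PCore.le_pCore inferInstance (IsPGroup.of_card hkc))
    intro φ hφ
    rw [MonoidHom.mem_ker]
    obtain ⟨k, hk⟩ := CfsgLib.PCore.isPGroup_pCore 2 (MulAut (Usub h)) ⟨φ, hφ⟩
    have hk' : Φ φ ^ 2 ^ k = 1 := by
      rw [← map_pow, show φ ^ 2 ^ k = 1 from congrArg Subtype.val hk, map_one]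
    have hd : Φ φ ^ Nat.card Φ.range = 1 :=
      congrArg Subtype.val (pow_card_eq_one' (x := (⟨Φ φ, φ, rfl⟩ : Φ.range)))
    have hodd : Nat.Coprime (2 ^ k) (Nat.card Φ.range) := by
      refine Nat.Coprime.pow_left k ((Nat.prime_two.coprime_iff_not_dvd).2 ?_)
      rw [hrc, Nat.prime_two.dvd_mul, not_or]
      refine ⟨by omega, ?_⟩
      have : 2 ^ (2 * m + 1) = 2 * 2 ^ (2 * m) := by rw [pow_succ]; ring
      have := Nat.two_pow_pos (2 * m)
      omega
    have e := pow_gcd_eq_one.2 ⟨hk', hd⟩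
    rwa [hodd, pow_one] at e
  refine ⟨?_, by rw [hcore, hkc], ?_⟩
  · rw [hcore]
    have hmul : ∀ φ ψ : Φ.ker, ∀ a b, (φ * ψ).1 (el h a b) = el h a (b + G ψ a + G φ a) := fun φ ψ a b => by
      show φ.1 (ψ.1 (el h a b)) = _
      rw [hG, hG]
    refine ⟨⟨⟨fun φ ψ => Subtype.ext (hext _ _ fun a b => by rw [hmul, hmul, add_right_comm])⟩⟩, fun φ hφ => ?_⟩
    rw [pow_two]
    refine congrArg Subtype.val (?_ : (⟨φ, hφ⟩ * ⟨φ, hφ⟩ : Φ.ker) = 1)
    refine Subtype.ext (hext _ _ fun a b => ?_)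
    rw [hmul, add_assoc, CharTwo.add_self_eq_zero, add_zero]
    rfl
  · rw [Subgroup.card_eq_card_quotient_mul_card_subgroup Φ.ker,
      Nat.card_congr (QuotientGroup.quotientKerEquivRange Φ).toEquiv, hkc, hrc, mul_comm]


/-- Let S be a Sylow 2-subgroup of the Suzuki group Sz(q), q = 2ⁿ with n = 2m + 1 ≥ 3 (realised as 4 × 4 matrices over the field with q elements). Then the largest normal 2-subgroup of the automorphism group of S is elementary abelian of order 2^(n²), and the automorphism group of S has order 2^(n²) · n · (q − 1). -/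
theorem result {S : Type*} [Group S] [Finite S] (m : ℕ) (hm : 1 ≤ m)
    {F : Type*} [Field F] [Fintype F] (hF : Fintype.card F = 2 ^ (2 * m + 1))
    (P : Sylow 2 ↥(Cfsg.Lie.Sz F (2 ^ (m + 1)))) (hS : Nonempty (S ≃* ↥(P : Subgroup ↥(Cfsg.Lie.Sz F (2 ^ (m + 1)))))) :
    Cfsg.IsElementaryAbelian 2 (Cfsg.pCore 2 (MulAut S)) ∧ Nat.card ↥(Cfsg.pCore 2 (MulAut S)) = 2 ^ ((2 * m + 1) ^ 2) ∧
      Nat.card (MulAut S) = 2 ^ ((2 * m + 1) ^ 2) * ((2 * m + 1) * (2 ^ (2 * m + 1) - 1)) := by
  classical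
  haveI : Fact (Nat.Prime 2) := ⟨Nat.prime_two⟩
  have h : CfsgLib.Sz.Hyp F m := ⟨hm, hF⟩
  obtain ⟨e0⟩ := hS
  let e : S ≃* CfsgLib.Sz.Usub h := e0.trans ((P.equiv (CfsgLib.Sz.sylU h)).trans
    (MulEquiv.subgroupCongr (CfsgLib.Sz.coe_sylU h)))
  let E : MulAut S ≃* MulAut (CfsgLib.Sz.Usub h) := MulAut.congr e
  obtain ⟨⟨hc, hp⟩, h2, h3⟩ := main_uni h
  haveI : Finite (MulAut S) := Finite.of_injective (fun φ => (φ : S → S)) DFunLike.coe_injective
  haveI : Finite (MulAut (CfsgLib.Sz.Usub h)) := Finite.of_equiv _ E.toEquiv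
  have hmap : (Cfsg.pCore 2 (MulAut S)).map E.toMonoidHom = Cfsg.pCore 2 (MulAut (CfsgLib.Sz.Usub h)) := by
    apply le_antisymm
    · refine CfsgLib.PCore.le_pCore (Subgroup.Normal.map (Cfsg.pCore_normal 2 _) _ E.surjective) ?_
      exact (CfsgLib.PCore.isPGroup_pCore 2 _).map _
    · rw [← Subgroup.comap_le_comap_of_surjective (f := E.toMonoidHom) E.surjective,
        Subgroup.comap_map_eq_self_of_injective (f := E.toMonoidHom) E.injective]
      exact CfsgLib.PCore.le_pCore ((Cfsg.pCore_normal 2 _).comap _)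
        ((CfsgLib.PCore.isPGroup_pCore 2 _).comap_of_injective E.toMonoidHom E.injective)
  have hmem : ∀ {φ}, φ ∈ Cfsg.pCore 2 (MulAut S) → E φ ∈ Cfsg.pCore 2 (MulAut (CfsgLib.Sz.Usub h)) :=
    fun hφ => hmap ▸ Subgroup.mem_map_of_mem _ hφ
  refine ⟨⟨⟨⟨fun φ ψ => Subtype.ext (E.injective ?_)⟩⟩, fun φ hφ => E.injective ?_⟩, ?_, ?_⟩
  · show E (φ.1 * ψ.1) = E (ψ.1 * φ.1)
    rw [map_mul, map_mul]
    exact congrArg Subtype.val (hc.is_comm.comm ⟨_, hmem φ.2⟩ ⟨_, hmem ψ.2⟩)
  · rw [map_pow, map_one]; exact hp _ (hmem hφ)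
  · rw [Nat.card_congr ((Cfsg.pCore 2 (MulAut S)).equivMapOfInjective E.toMonoidHom E.injective).toEquiv, hmap, h2]
  · rw [Nat.card_congr E.toEquiv, h3]

end Cfsg.Agent.S2556
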