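import Cfsg.Statements.S2558
import Cfsg.Agent.SignedClasses.OrthTransfer

set_option autoImplicit false
open Cfsg

namespace Cfsg.Agent.S2558

/-- The number of conjugacy classes of the full orthogonal groups O⁺(2n,q) and O⁻(2n,q), q odd, 2n ≥ 4: for F a finite field of odd order q and n ≥ 2, the number k of conjugacy classes of the isometry group of the hyperbolic quadratic form Σ xᵢyᵢ on F^{2n}, and likewise of the elliptic form Σ xᵢyᵢ + (z₁² + a z₁z₂ + b z₂²) with anisotropic binary part, satisfies q^n/2 ≤ k ≤ 9.5·q^n. -/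
theorem result {F : Type*} [Field F] [Fintype F] (hodd : Odd (Fintype.card F)) (n : ℕ) (hn : 2 ≤ n) (a b : F) (hab : ∀ z₁ z₂ : F, z₁ ^ 2 + a * z₁ * z₂ + b * z₂ ^ 2 = 0 → z₁ = 0 ∧ z₂ = 0) :
    (Fintype.card F ^ n ≤ 2 * Nat.card (ConjClasses ↥(Cfsg.isometryGroup F (Cfsg.quadFormPlus n F))) ∧
      2 * Nat.card (ConjClasses ↥(Cfsg.isometryGroup F (Cfsg.quadFormPlus n F))) ≤ 19 * Fintype.card F ^ n) ∧
    (Fintype.card F ^ n ≤ 2 * Nat.card (ConjClasses ↥(Cfsg.isometryGroup F (Cfsg.quadFormMinus (n - 1) F a b))) ∧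
      2 * Nat.card (ConjClasses ↥(Cfsg.isometryGroup F (Cfsg.quadFormMinus (n - 1) F a b))) ≤ 19 * Fintype.card F ^ n) := by
  have h1 := CfsgLib.SignedClasses.orth_bounds hodd hn (CfsgLib.Forms.quadPlus F n)
    (CfsgLib.Forms.nondegenerate_quadPlus n) (by simp)
  have h2 := CfsgLib.SignedClasses.orth_bounds hodd hn (CfsgLib.Forms.quadMinus F (n - 1) a b)
    (CfsgLib.Forms.nondegenerate_quadMinus (n - 1) hab) (by simp; omega)
  rw [CfsgLib.Forms.coe_quadPlus] at h1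
  rw [CfsgLib.Forms.coe_quadMinus] at h2
  exact ⟨h1, h2⟩

end Cfsg.Agent.S2558
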