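import Cfsg.Statements.S2560
import Cfsg.Agent.OmegaClasses.OddBounds

set_option autoImplicit false
open Cfsg

namespace Cfsg.Agent.S2560

/-- The number of conjugacy classes of Ω(2n+1,q), q odd, n ≥ 2: for F a finite field of odd order q, the number k of conjugacy classes of the commutator subgroup of the isometry group of the quadratic form x₀² + Σ xᵢyᵢ on F^{2n+1} satisfies q^n/2 ≤ k ≤ 7.3·q^n. -/
theorem result {F : Type*} [Field F] [Fintype F] (hodd : Odd (Fintype.card F)) (n : ℕ) (hn : 2 ≤ n) :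
    Fintype.card F ^ n ≤ 2 * Nat.card (ConjClasses ↥(Cfsg.Omega F (Cfsg.quadFormOdd n F))) ∧
      10 * Nat.card (ConjClasses ↥(Cfsg.Omega F (Cfsg.quadFormOdd n F))) ≤ 73 * Fintype.card F ^ n := by
  have h2 : (2 : F) ≠ 0 := by
    refine Ring.two_ne_zero fun hc => ?_
    have := FiniteField.even_card_iff_char_two.mp hc
    rw [Nat.odd_iff] at hodd
    omega
  have hq : 3 ≤ Fintype.card F := by
    have := Fintype.one_lt_card (α := F)
    obtain ⟨k, hk⟩ := hodd
    omega
  rw [← CfsgLib.Forms.coe_quadOdd]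
  obtain ⟨G, hG, hGs, ⟨E⟩⟩ := CfsgLib.SignedClasses.exists_iso_equiv h2 (CfsgLib.Forms.quadOdd F n)
    (CfsgLib.Forms.nondegenerate_quadOdd n h2)
    (Fintype.equivFinOfCardEq (show Fintype.card (Unit ⊕ (Fin n ⊕ Fin n)) = 2 * n + 1 by simp; omega))
  obtain ⟨Q, hQ, hQG, hO⟩ := CfsgLib.OmegaClasses.exists_quad h2 G hG hGs
  obtain ⟨E'⟩ := CfsgLib.OmegaClasses.exists_commutator_equiv (E.trans (MulEquiv.subgroupCongr hO.symm))
  rw [CfsgLib.OmegaClasses.card_classes_congr E']
  exact CfsgLib.OmegaClasses.omega_bounds h2 hq hn rfl G hG hGs Q hQ hQG hO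

end Cfsg.Agent.S2560
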