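import Cfsg.Statements.S2648
import Cfsg.Agent.S0261
import Cfsg.Agent.H29.SpDegree.Blocks
import Cfsg.Agent.LinearPGroupDL.Main
import Cfsg.Agent.LinearPGroupDL.SylowLower

set_option autoImplicit false
open Cfsg

namespace Cfsg.Agent.S2648

open Matrix

variable {F : Type*} [Field F] {l : Type} [Fintype l] [DecidableEq l] {m : Type} [Fintype m] [DecidableEq m]

/-- `Sp` has a `2`-subgroup with nontrivial `j`-th derived subgroup. -/
def HasSp (F : Type*) [Field F] (l : Type) [Fintype l] [DecidableEq l] (j : ℕ) : Prop :=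
  ∃ Q : Subgroup (symplecticGroup l F), IsPGroup 2 Q ∧ derivedSeries Q j ≠ ⊥

theorem hasSp_map {j : ℕ} (h : HasSp F l j) (f : symplecticGroup l F →* symplecticGroup m F)
    (hf : Function.Injective f) : HasSp F m j := by
  obtain ⟨Q, hQ, hj⟩ := h
  refine ⟨Q.map f, hQ.map f, fun h => hj ?_⟩
  have := map_derivedSeries_le_derivedSeries (Q.equivMapOfInjective f hf).toMonoidHom j
  rw [h, le_bot_iff] at this
  exact (Subgroup.map_eq_bot_iff_of_injective _ (Q.equivMapOfInjective f hf).injective).1 this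

/-- Renaming the hyperbolic pairs. -/
def reindexHom (e : m ≃ l) : symplecticGroup l F →* symplecticGroup m F :=
  MonoidHom.mk' (fun A => ⟨(A : Matrix (l ⊕ l) (l ⊕ l) F).submatrix (e.sumCongr e) (e.sumCongr e), by
    have hJ : J m F = (J l F).submatrix (e.sumCongr e) (e.sumCongr e) := by
      ext (i | i) (j | j) <;> simp [J, Matrix.one_apply]
    rw [SymplecticGroup.mem_iff, hJ, transpose_submatrix, submatrix_mul_equiv, submatrix_mul_equiv,
      SymplecticGroup.mem_iff.1 A.2]⟩)
    fun A B => Subtype.ext (submatrix_mul_equiv _ _ _ _ _).symm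

theorem reindexHom_injective (e : m ≃ l) : Function.Injective (reindexHom (F := F) e) := fun A B h =>
  Subtype.ext ((Matrix.reindex (e.sumCongr e).symm (e.sumCongr e).symm).injective (congrArg Subtype.val h))

/-- The matrix of padding. -/
def padMat (A : Matrix (l ⊕ l) (l ⊕ l) F) : Matrix ((l ⊕ m) ⊕ (l ⊕ m)) ((l ⊕ m) ⊕ (l ⊕ m)) F :=
  (fromBlocks A 0 0 (1 : Matrix (m ⊕ m) (m ⊕ m) F)).submatrix
    (Equiv.sumSumSumComm l m l m) (Equiv.sumSumSumComm l m l m)

theorem padMat_mem (A : symplecticGroup l F) :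
    padMat (m := m) (A : Matrix (l ⊕ l) (l ⊕ l) F) ∈ symplecticGroup (l ⊕ m) F := by
  have hJ : J (l ⊕ m) F = (fromBlocks (J l F) 0 0 (J m F)).submatrix
      (Equiv.sumSumSumComm l m l m) (Equiv.sumSumSumComm l m l m) := by
    ext ((i | i) | (i | i)) ((j | j) | (j | j)) <;> simp [J, Equiv.sumSumSumComm, Matrix.one_apply]
  rw [SymplecticGroup.mem_iff, hJ, padMat, transpose_submatrix, submatrix_mul_equiv, submatrix_mul_equiv,
    fromBlocks_transpose, fromBlocks_multiply, fromBlocks_multiply]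
  simp [SymplecticGroup.mem_iff.1 A.2]

theorem padMat_mul (A B : Matrix (l ⊕ l) (l ⊕ l) F) :
    padMat (m := m) (A * B) = padMat A * padMat B := by
  rw [padMat, padMat, padMat, submatrix_mul_equiv, fromBlocks_multiply]
  simp

/-- Adding hyperbolic pairs. -/
def padHom : symplecticGroup l F →* symplecticGroup (l ⊕ m) F :=
  MonoidHom.mk' (fun A => ⟨padMat (A : Matrix (l ⊕ l) (l ⊕ l) F), padMat_mem A⟩)
    fun _ _ => Subtype.ext (padMat_mul _ _)

theorem padHom_injective : Function.Injective (padHom (F := F) (l := l) (m := m)) := fun A B h =>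
  Subtype.ext (fromBlocks_inj.1 ((Matrix.reindex (Equiv.sumSumSumComm l m l m).symm
    (Equiv.sumSumSumComm l m l m).symm).injective (congrArg Subtype.val h))).1

/-- The coordinate bijection for copies of `Sp`. -/
def prodEquiv (l m : Type) : (l × m) ⊕ (l × m) ≃ (l ⊕ l) × m := (Equiv.sumProdDistrib l l m).symm

theorem J_prod : J (l × m) F = (blockDiagonal fun _ : m => J l F).submatrix (prodEquiv l m) (prodEquiv l m) := by
  ext (⟨i, a⟩ | ⟨i, a⟩) (⟨j, b⟩ | ⟨j, b⟩) <;> by_cases h : a = b <;>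
    simp [J, prodEquiv, blockDiagonal_apply, Matrix.one_apply, h]

/-- The matrix of copies. -/
def copiesMat (v : m → Matrix (l ⊕ l) (l ⊕ l) F) : Matrix ((l × m) ⊕ (l × m)) ((l × m) ⊕ (l × m)) F :=
  (blockDiagonal v).submatrix (prodEquiv l m) (prodEquiv l m)

theorem copiesMat_mem (v : m → symplecticGroup l F) :
    copiesMat (fun a => (v a : Matrix (l ⊕ l) (l ⊕ l) F)) ∈ symplecticGroup (l × m) F := by
  rw [SymplecticGroup.mem_iff, J_prod, copiesMat, transpose_submatrix, submatrix_mul_equiv, submatrix_mul_equiv,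
    blockDiagonal_transpose, ← blockDiagonal_mul, ← blockDiagonal_mul]
  simp [SymplecticGroup.mem_iff.1 (v _).2]

theorem copiesMat_mul (v w : m → Matrix (l ⊕ l) (l ⊕ l) F) :
    copiesMat (fun a => v a * w a) = copiesMat v * copiesMat w := by
  rw [copiesMat, copiesMat, copiesMat, submatrix_mul_equiv, ← blockDiagonal_mul]

/-- Copies of `Sp` acting blockwise. -/
def copiesHom : (m → symplecticGroup l F) →* symplecticGroup (l × m) F :=
  MonoidHom.mk' (fun v => ⟨copiesMat fun a => (v a : Matrix (l ⊕ l) (l ⊕ l) F), copiesMat_mem v⟩)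
    fun v w => Subtype.ext (copiesMat_mul (fun a => (v a : Matrix (l ⊕ l) (l ⊕ l) F)) (fun a => (w a : Matrix (l ⊕ l) (l ⊕ l) F)))

theorem copiesHom_injective : Function.Injective (copiesHom (F := F) (l := l) (m := m)) := fun v w h => by
  have h' : copiesMat (fun a => (v a : Matrix (l ⊕ l) (l ⊕ l) F)) = copiesMat fun a => (w a : Matrix (l ⊕ l) (l ⊕ l) F) :=
    congrArg Subtype.val h
  funext a
  have h2 : blockDiagonal (fun a => (v a : Matrix (l ⊕ l) (l ⊕ l) F)) = blockDiagonal fun a => (w a : Matrix (l ⊕ l) (l ⊕ l) F) := by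
    ext i k
    have := congrFun (congrFun h' ((prodEquiv l m).symm i)) ((prodEquiv l m).symm k)
    simpa [copiesMat] using this
  exact Subtype.ext (congrFun (blockDiagonal_injective h2) a)

theorem zmod_two_sub : ∀ a : ZMod 2, a - 1 - 1 = a := by decide

theorem hasSp_succ [Finite F] {j : ℕ} (h : HasSp F l j) : HasSp F (l × ZMod 2) (j + 1) := by
  haveI : Fact (Nat.Prime 2) := ⟨Nat.prime_two⟩
  obtain ⟨Q, hQ, hj⟩ := h
  let σ : l × ZMod 2 ≃ l × ZMod 2 := (Equiv.refl l).prodCongr (Equiv.subRight (1 : ZMod 2))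
  let S : Matrix ((l × ZMod 2) ⊕ (l × ZMod 2)) ((l × ZMod 2) ⊕ (l × ZMod 2)) F :=
    (1 : Matrix _ _ F).submatrix (σ.sumCongr σ) id
  have hS : ∀ M, S * M * Sᵀ = M.submatrix (σ.sumCongr σ) (σ.sumCongr σ) := by
    intro M
    ext i k
    simp [S, Matrix.mul_apply, Matrix.one_apply]
  let s : symplecticGroup (l × ZMod 2) F := ⟨S, by
    rw [SymplecticGroup.mem_iff, hS]
    ext (⟨i, a⟩ | ⟨i, a⟩) (⟨k, b⟩ | ⟨k, b⟩) <;> simp [J, σ, Matrix.one_apply]⟩
  let b : (ZMod 2 → Q) →* symplecticGroup (l × ZMod 2) F :=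
    (copiesHom (F := F) (l := l) (m := ZMod 2)).comp (Pi.monoidHom fun i => Q.subtype.comp (Pi.evalMonoidHom _ i))
  have hinv : ∀ x, σ.sumCongr σ (σ.sumCongr σ x) = x := by
    rintro (⟨i, a⟩ | ⟨i, a⟩)
    · show Sum.inl (i, a - 1 - 1) = Sum.inl (i, a)
      rw [zmod_two_sub]
    · show Sum.inr (i, a - 1 - 1) = Sum.inr (i, a)
      rw [zmod_two_sub]
  have hSS : S * S = 1 := by
    ext i k
    simp only [S, Matrix.mul_apply, Matrix.one_apply, submatrix_apply, id]
    rw [Finset.sum_eq_single (σ.sumCongr σ i) (fun x _ hx => by rw [if_neg (Ne.symm hx), zero_mul]) (by simp),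
      if_pos rfl, one_mul, hinv]
  have hs : s ^ 2 = 1 := Subtype.ext (by rw [pow_two]; exact hSS)
  have hSt : Sᵀ = S := by
    ext i k
    simp only [S, transpose_apply, submatrix_apply, id, Matrix.one_apply]
    exact if_congr ⟨fun h => by rw [← h, hinv], fun h => by rw [← h, hinv]⟩ rfl rfl
  have hconj : ∀ v, s * b v * s⁻¹ = b fun i => v (i - 1) := by
    intro v
    rw [inv_eq_of_mul_eq_one_right ((pow_two s).symm.trans hs)]
    refine Subtype.ext ?_
    show S * ((blockDiagonal fun a => (((v a : Q) : symplecticGroup l F) : Matrix (l ⊕ l) (l ⊕ l) F)).submatrix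
      (prodEquiv l (ZMod 2)) (prodEquiv l (ZMod 2))) * S = _
    rw [show ∀ M : Matrix _ _ F, S * M * S = S * M * Sᵀ from fun M => by rw [hSt], hS, submatrix_submatrix]
    ext (⟨i, a⟩ | ⟨i, a⟩) (⟨k, c⟩ | ⟨k, c⟩) <;>
      simp [b, copiesHom, copiesMat, σ, prodEquiv, blockDiagonal_apply, Pi.monoidHom]
  have hb : Function.Injective b := by
    intro v w h
    funext i
    exact Subtype.ext (congrFun (copiesHom_injective h) i)
  exact ⟨_, LinearPGroupDL.wreath_isPGroup 2 b s hQ hs hconj,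
    LinearPGroupDL.wreath_derived_ne_bot 2 b s hconj hb hj⟩

theorem quaternion_not_comm {k : ℕ} (hk : 1 ≤ k) :
    QuaternionGroup.a (1 : ZMod (2 * 2 ^ k)) * QuaternionGroup.xa 0 ≠
      QuaternionGroup.xa 0 * QuaternionGroup.a 1 := by
  intro hc
  rw [QuaternionGroup.a_mul_xa, QuaternionGroup.xa_mul_a] at hc
  have hc' := QuaternionGroup.xa.inj hc
  have h2 : ((2 : ℕ) : ZMod (2 * 2 ^ k)) = 0 := by
    push_cast
    linear_combination -hc'
  rw [ZMod.natCast_eq_zero_iff] at h2
  have h3 := Nat.le_of_dvd (by norm_num) h2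
  have h4 : 2 ≤ 2 ^ k := Nat.le_self_pow (by omega) 2
  omega

theorem hasSp_one [Fintype F] (hF : Odd (Fintype.card F)) : HasSp F (Fin 1) 1 := by
  obtain ⟨P⟩ : Nonempty (Sylow 2 (SpecialLinearGroup (Fin 2) F)) := inferInstance
  obtain ⟨k, hk, ⟨e⟩⟩ := Cfsg.Agent.S0261.result hF P
  obtain ⟨f, hf⟩ : ∃ f : SpecialLinearGroup (Fin 2) F →* symplecticGroup (Fin 1) F, Function.Injective f :=
    ⟨(CfsgLib.H29.SpDegree.blockHom (F := F) (n := 1)).comp (MonoidHom.pi fun _ => MonoidHom.id _),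
      fun a b h => congrFun (CfsgLib.H29.SpDegree.blockHom_injective h) 0⟩
  refine ⟨(P : Subgroup _).map f, P.isPGroup'.map f, fun h => ?_⟩
  rw [derivedSeries_one] at h
  obtain ⟨g, hg⟩ : ∃ g : QuaternionGroup (2 ^ k) →* ↥((P : Subgroup _).map f), Function.Injective g :=
    ⟨((P : Subgroup _).equivMapOfInjective f hf).toMonoidHom.comp e.symm.toMonoidHom,
      ((P : Subgroup _).equivMapOfInjective f hf).injective.comp e.symm.injective⟩
  refine quaternion_not_comm hk (hg ?_)
  rw [map_mul, map_mul, ← commutatorElement_eq_one_iff_mul_comm, ← Subgroup.mem_bot, ← h, commutator_def]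
  exact Subgroup.commutator_mem_commutator (Subgroup.mem_top _) (Subgroup.mem_top _)

theorem hasSp_pow [Fintype F] (hF : Odd (Fintype.card F)) : ∀ k : ℕ, HasSp F (Fin (2 ^ k)) (k + 1) := by
  intro k
  induction k with
  | zero => exact hasSp_one hF
  | succ k ih =>
    let e : Fin (2 ^ (k + 1)) ≃ Fin (2 ^ k) × ZMod 2 := (Fintype.equivFinOfCardEq (by
      rw [Fintype.card_prod, ZMod.card, Fintype.card_fin, pow_succ])).symm
    exact hasSp_map (hasSp_succ ih) (reindexHom e) (reindexHom_injective e)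

/-- Let q be odd, F a field with q elements and n ≥ 1. A Sylow 2-subgroup R of the symplectic group Sp_{2n}(F) has derived length exactly k + 1, where 2^k ≤ 2n < 2^{k+1}: the (k+1)-st term of its derived series is trivial and the k-th is not. -/
theorem result {F : Type*} [Field F] [Fintype F] [DecidableEq F] (q : ℕ) (hF : Fintype.card F = q) (hq : Odd q) (n : ℕ) (hn : 1 ≤ n) (R : Sylow 2 ↥(Matrix.symplecticGroup (Fin n) F)) : derivedSeries ↥(R : Subgroup ↥(Matrix.symplecticGroup (Fin n) F)) (Nat.log 2 (2 * n) + 1) = ⊥ ∧ derivedSeries ↥(R : Subgroup ↥(Matrix.symplecticGroup (Fin n) F)) (Nat.log 2 (2 * n)) ≠ ⊥ := by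
  classical
  haveI : Fact (Nat.Prime 2) := ⟨Nat.prime_two⟩
  subst hF
  constructor
  · let e : Fin n ⊕ Fin n ≃ Fin (2 * n) := finSumFinEquiv.trans (finCongr (two_mul n).symm)
    let ρ : ↥(R : Subgroup ↥(Matrix.symplecticGroup (Fin n) F)) →* Matrix.GeneralLinearGroup (Fin (2 * n)) F :=
      MonoidHom.toHomUnits
        (((Matrix.reindexAlgEquiv F F e).toMulEquiv.toMonoidHom.comp
          (Matrix.symplecticGroup (Fin n) F).subtype).comp
          (R : Subgroup ↥(Matrix.symplecticGroup (Fin n) F)).subtype)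
    refine LinearPGroupDL.main 2 R.isPGroup' F (2 * n) ρ fun a b h => ?_
    exact Subtype.ext (Subtype.ext ((Matrix.reindexAlgEquiv F F e).injective (congrArg Units.val h)))
  · intro h
    have hlog : Nat.log 2 (2 * n) = Nat.log 2 n + 1 := by
      rw [mul_comm]; exact Nat.log_mul_base (by norm_num) (by omega)
    have hle : 2 ^ Nat.log 2 n ≤ n := Nat.pow_log_le_self 2 (by omega)
    let e : Fin n ≃ Fin (2 ^ Nat.log 2 n) ⊕ Fin (n - 2 ^ Nat.log 2 n) :=
      (finSumFinEquiv.trans (finCongr (Nat.add_sub_cancel' hle))).symm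
    obtain ⟨Q, hQ, hj⟩ := hasSp_map (hasSp_map (hasSp_pow hq (Nat.log 2 n)) padHom padHom_injective)
      (reindexHom e) (reindexHom_injective e)
    obtain ⟨P', hP'⟩ := hQ.exists_le_sylow
    let ψ : Q →* (R : Subgroup ↥(Matrix.symplecticGroup (Fin n) F)) :=
      (P'.equiv R).toMonoidHom.comp (Subgroup.inclusion hP')
    have hψ : Function.Injective ψ := (P'.equiv R).injective.comp (Subgroup.inclusion_injective hP')
    have := map_derivedSeries_le_derivedSeries ψ (Nat.log 2 n + 1)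
    rw [← hlog, h, le_bot_iff] at this
    rw [← hlog] at hj
    exact hj ((Subgroup.map_eq_bot_iff_of_injective _ hψ).1 this)

end Cfsg.Agent.S2648
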