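import Cfsg.Statements.S2733
import Cfsg.Agent.AutPE.MinusFieldBalance
import Cfsg.Agent.AutPE.GraphMain

set_option autoImplicit false
open Cfsg

namespace Cfsg.Agent.S2733

/-- A criterion for the failure of local balance in almost simple groups whose socle is a minus-type orthogonal group PΩ⁻_{2m+2}(F) (m ≥ 3; the form Σ xᵢ yᵢ + z₁² + a z₁ z₂ + b z₂² with anisotropic binary part). Let F be a finite field of characteristic r and K the (simple) group in question; let A be a group of automorphisms of K containing all inner automorphisms, and x ∈ A an automorphism of prime order p ≠ r that is not inner-diagonal (not induced by a class-preserving similarity, classes read over a quadratic extension). Then the largest normal subgroup of C_A(x) of order prime to p is nontrivial if and only if x is a field automorphism of K (conjugate under Aut(K) to a non-identity standard field automorphism) and p does not divide the number of fixed points of x on K. -/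
theorem result {F : Type*} [Field F] [Fintype F] {r : ℕ} [Fact r.Prime] [CharP F r] {m : ℕ} (hm : 3 ≤ m) (a b : F) (hab : (∀ z₁ z₂ : F, z₁ ^ 2 + a * z₁ * z₂ + b * z₂ ^ 2 = 0 → z₁ = 0 ∧ z₂ = 0)) (hK : IsSimpleGroup (Cfsg.POmega F (Cfsg.quadFormMinus m F a b))) (A : Subgroup (MulAut (Cfsg.POmega F (Cfsg.quadFormMinus m F a b)))) (hinn : ∀ k : Cfsg.POmega F (Cfsg.quadFormMinus m F a b), MulAut.conj k ∈ A) {p : ℕ} [Fact p.Prime] (hpr : p ≠ r) (x : MulAut (Cfsg.POmega F (Cfsg.quadFormMinus m F a b))) (hxA : x ∈ A) (hord : orderOf x = p) (hnot : ¬ Cfsg.IsInnerDiagonalAutPOmegaMinus m a b x) :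
    Cfsg.pPrimeCore p ↥(A ⊓ Subgroup.centralizer {x}) ≠ ⊥ ↔ (Cfsg.IsFieldAutClassPOmegaMinus m x ∧ Nat.Coprime p (Nat.card ↥(MonoidHom.eqLocus x.toMonoidHom (MonoidHom.id (Cfsg.POmega F (Cfsg.quadFormMinus m F a b)))))) := by
  have key : ∀ (Φ : F → F → ((Fin m ⊕ Fin m) ⊕ Fin 2 → F) → F),
      Φ = (fun a' b' => ⇑(CfsgLib.Forms.quadMinus F m a' b')) →
      ∀ (A : Subgroup (MulAut (Cfsg.POmega F (Φ a b)))), (∀ k : Cfsg.POmega F (Φ a b), MulAut.conj k ∈ A) →
      ∀ x : MulAut (Cfsg.POmega F (Φ a b)), orderOf x = p →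
      (¬ ∃ g : GL ((Fin m ⊕ Fin m) ⊕ Fin 2) F, g ∈ Cfsg.Geo.quadSimilarityGroup (F := F) (Φ a b) ∧
        Cfsg.PreservesSingularClassesMinus m a b g.1 ∧
        Cfsg.IsInducedBySemilinearPOmega (Φ a b) g (RingEquiv.refl F) x) →
      (Cfsg.pPrimeCore p ↥(A ⊓ Subgroup.centralizer {x}) ≠ ⊥ ↔
        ((∃ (a' b' : F) (ψ : Cfsg.POmega F (Φ a b) ≃* Cfsg.POmega F (Φ a' b')) (σ : F ≃+* F),
          (∀ z₁ z₂ : F, z₁ ^ 2 + a' * z₁ * z₂ + b' * z₂ ^ 2 = 0 → z₁ = 0 ∧ z₂ = 0) ∧
          σ ≠ RingEquiv.refl F ∧ σ a' = a' ∧ σ b' = b' ∧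
          Cfsg.IsFieldAutPOmegaOf (Φ a' b') σ ((ψ.symm.trans x).trans ψ)) ∧
        Nat.Coprime p (Nat.card ↥(MonoidHom.eqLocus x.toMonoidHom (MonoidHom.id (Cfsg.POmega F (Φ a b))))))) := by
    rintro Φ rfl A hinn x hord hnot
    have hnot' : x ∉ CfsgLib.AutPE.classSub (⇑(CfsgLib.Forms.quadMinus F m a b))
        (Cfsg.PreservesSingularClassesMinus m a b) := fun h => hnot (CfsgLib.AutPE.inndiag_minus_cases hm hab h)
    by_cases hp : p = 2
    · subst hp
      obtain ⟨hcore, hτ⟩ := CfsgLib.AutPE.balance_minus_two (r := r) hm hab (fun e => hpr e.symm) A hinn x hord hnot'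
      refine iff_of_false (fun h => h hcore) fun h => ?_
      exact (CfsgLib.AutPE.field_class_minus hm hab h.1).1 hτ
    · exact CfsgLib.AutPE.balance_minus_odd hm hab hp A hinn x hord hnot'
  exact key (fun a' b' => Cfsg.quadFormMinus m F a' b')
    (funext fun a' => funext fun b' => (CfsgLib.Forms.coe_quadMinus (F := F) m a' b').symm) A hinn x hord hnot

end Cfsg.Agent.S2733
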