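import Cfsg.Statements.S3011
import Cfsg.Agent.Subnormal.BaerSuzuki
import Cfsg.Agent.Invol.TwoPart

set_option autoImplicit false
open Cfsg

namespace Cfsg.Agent.S3011


/-- An element of odd order that is an involution-like square root of one is trivial. -/
theorem eq_one_of_sq {G : Type*} [Group G] {x : G} (ho : Odd (orderOf x)) (h : x * x = 1) : x = 1 := by
  have h2 : orderOf x ∣ 2 := orderOf_dvd_of_pow_eq_one (by rw [pow_two, h])
  have : orderOf x = 1 := Nat.eq_one_of_dvd_coprimes (Nat.coprime_two_right.2 ho) dvd_rfl h2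
  exact orderOf_eq_one_iff.1 this

theorem exists_inverted {G : Type*} [Group G] [Finite G] {v : G} (hv : v * v = 1) (hn : v ∉ Cfsg.pCore 2 G) :
    ∃ h : G, h ≠ 1 ∧ Odd (orderOf h) ∧ v * h * v⁻¹ = h⁻¹ := by
  haveI : Fact (Nat.Prime 2) := ⟨Nat.prime_two⟩
  by_contra hcon
  push Not at hcon
  refine hn (CfsgLib.Subnormal.mem_pCore_of_forall_isPGroup fun g => ?_)
  set y := g * v * g⁻¹ with hy
  have hy2 : y * y = 1 := by rw [hy, show g * v * g⁻¹ * (g * v * g⁻¹) = g * (v * v) * g⁻¹ by group, hv]; group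
  obtain ⟨k, m, hm, hkm⟩ := Nat.exists_eq_two_pow_mul_odd (orderOf_pos (v * y)).ne'
  refine CfsgLib.Invol.isPGroup_closure_pair hv hy2 (k := k) ?_
  have hh : orderOf ((v * y) ^ (2 ^ k)) = m := by
    rw [orderOf_pow_of_dvd (by positivity) (by rw [hkm]; exact dvd_mul_right _ _), hkm,
      Nat.mul_div_cancel_left _ (by positivity)]
  have hinv : v * (v * y) ^ (2 ^ k) * v⁻¹ = ((v * y) ^ (2 ^ k))⁻¹ := by
    rw [← conj_pow, ← inv_pow]
    congr 1
    rw [mul_inv_rev, inv_eq_of_mul_eq_one_left hv, inv_eq_of_mul_eq_one_left hy2,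
      show v * (v * y) * v = (v * v) * y * v by group, hv, one_mul]
  by_cases h1 : (v * y) ^ (2 ^ k) = 1
  · exact orderOf_dvd_of_pow_eq_one h1
  · exact absurd hinv (hcon _ h1 (by rw [hh]; exact hm))

/-- The core configuration: `a` inverts `h` which `b` centralizes, `b` inverts `l` which `a` centralizes. -/
theorem config_false {G : Type*} [Group G] [Finite G] {V : Subgroup G} (hS : Cfsg.IsSidkiPair V) {a b h l : G}
    (hV : ∀ w ∈ V, w = 1 ∨ w = a ∨ w = b ∨ w = a * b) (ha : a ∈ V) (hb : b ∈ V) (hab : a * b = b * a)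
    (h1 : h ≠ 1) (l1 : l ≠ 1) (ho : Odd (orderOf h)) (lo : Odd (orderOf l))
    (hah : a * h * a⁻¹ = h⁻¹) (hbh : b * h * b⁻¹ = h) (hal : a * l * a⁻¹ = l) (hbl : b * l * b⁻¹ = l⁻¹) : False := by
  have hcentral : ∀ {w x : G}, w * x = x * w → w * x * w⁻¹ = x := fun e => mul_inv_eq_iff_eq_mul.2 e
  obtain ⟨m, hm⟩ := ho
  have hgen : (h * h) ^ (m + 1) = h := by
    rw [← pow_two, ← pow_mul, show 2 * (m + 1) = orderOf h + 1 by omega, pow_succ, pow_orderOf_eq_one, one_mul]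
  -- h commutes with l
  have hcomm : Commute h l := by
    have hx : Odd (orderOf (h⁻¹ * l * h)) := by
      rwa [show h⁻¹ * l * h = h⁻¹ * l * h⁻¹⁻¹ by group, ← MulAut.conj_apply,
        MulEquiv.orderOf_eq]
    have hbx : b * (h⁻¹ * l * h) * b⁻¹ = (h⁻¹ * l * h)⁻¹ := by
      rw [show b * (h⁻¹ * l * h) * b⁻¹ = (b * h * b⁻¹)⁻¹ * (b * l * b⁻¹) * (b * h * b⁻¹) by group, hbh, hbl]
      group
    obtain ⟨w, hw, hw1, hwc⟩ := hS _ b hb hx hbx
    have hwx := hcentral hwc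
    have hax : a * (h⁻¹ * l * h) * a⁻¹ = h * l * h⁻¹ := by
      rw [show a * (h⁻¹ * l * h) * a⁻¹ = (a * h * a⁻¹)⁻¹ * (a * l * a⁻¹) * (a * h * a⁻¹) by group, hah, hal]
      group
    rcases hV w hw with rfl | rfl | rfl | rfl
    · exact absurd rfl hw1
    · rw [hax] at hwx
      have h2 : Commute (h * h) l := by
        show h * h * l = l * (h * h)
        calc h * h * l = h * (h * l * h⁻¹) * h := by group
          _ = l * (h * h) := by rw [hwx]; group
      have := h2.pow_left (m + 1)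
      rwa [hgen] at this
    · rw [hbx] at hwx
      have h3 := eq_one_of_sq hx (inv_eq_iff_mul_eq_one.1 hwx)
      exfalso
      exact l1 (by rw [show l = h * (h⁻¹ * l * h) * h⁻¹ by group, h3]; group)
    · have e : h * l⁻¹ * h⁻¹ = h⁻¹ * l * h := by
        rw [show a * b * (h⁻¹ * l * h) * (a * b)⁻¹ = a * (b * (h⁻¹ * l * h) * b⁻¹) * a⁻¹ by group, hbx,
          show a * (h⁻¹ * l * h)⁻¹ * a⁻¹ = (a * (h⁻¹ * l * h) * a⁻¹)⁻¹ by group, hax] at hwx
        rw [← hwx]; group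
      have h4 : (h * h) * l⁻¹ * (h * h)⁻¹ = l := by
        rw [show (h * h) * l⁻¹ * (h * h)⁻¹ = h * (h * l⁻¹ * h⁻¹) * h⁻¹ by group, e]; group
      have h4' : (h * h) * l * (h * h)⁻¹ = l⁻¹ := by
        rw [show (h * h) * l * (h * h)⁻¹ = ((h * h) * l⁻¹ * (h * h)⁻¹)⁻¹ by simp [mul_assoc], h4]
      have h5 : Commute ((h * h) * (h * h)) l := by
        show (h * h) * (h * h) * l = l * ((h * h) * (h * h))
        calc (h * h) * (h * h) * l = (h * h) * ((h * h) * l * (h * h)⁻¹) * (h * h) := by group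
          _ = (h * h) * l⁻¹ * (h * h) := by rw [h4']
          _ = ((h * h) * l⁻¹ * (h * h)⁻¹) * ((h * h) * (h * h)) := by simp [mul_assoc]
          _ = l * ((h * h) * (h * h)) := by rw [h4]
      have h6 := h5.pow_left ((m + 1) * (m + 1))
      have hgen2 : ((h * h) * (h * h)) ^ ((m + 1) * (m + 1)) = h := by
        rw [pow_mul, (Commute.refl (h * h)).mul_pow, hgen, hgen]
      rwa [hgen2] at h6
  -- the product h * l
  have hlo : Odd (orderOf (h * l)) :=
    Odd.of_dvd_nat (((show Odd (orderOf h) from ⟨m, hm⟩)).mul lo) hcomm.orderOf_mul_dvd_mul_orderOf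
  have hcinv : (a * b) * (h * l) * (a * b)⁻¹ = (h * l)⁻¹ := by
    rw [show (a * b) * (h * l) * (a * b)⁻¹ = a * ((b * h * b⁻¹) * (b * l * b⁻¹)) * a⁻¹ by group, hbh, hbl,
      show a * (h * l⁻¹) * a⁻¹ = (a * h * a⁻¹) * (a * l * a⁻¹)⁻¹ by group, hah, hal, ← mul_inv_rev,
      hcomm.eq]
  obtain ⟨w, hw, hw1, hwc⟩ := hS (h * l) (a * b) (V.mul_mem ha hb) hlo hcinv
  have hwx := hcentral hwc
  rcases hV w hw with rfl | rfl | rfl | rfl
  · exact hw1 rfl
  · rw [show w * (h * l) * w⁻¹ = (w * h * w⁻¹) * (w * l * w⁻¹) by group, hah, hal] at hwx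
    exact h1 (eq_one_of_sq ⟨m, hm⟩ (inv_eq_iff_mul_eq_one.1 (mul_right_cancel hwx)))
  · rw [show w * (h * l) * w⁻¹ = (w * h * w⁻¹) * (w * l * w⁻¹) by group, hbh, hbl] at hwx
    exact l1 (eq_one_of_sq lo (inv_eq_iff_mul_eq_one.1 (mul_left_cancel hwx)))
  · rw [hcinv] at hwx
    have hl := eq_one_of_sq hlo (inv_eq_iff_mul_eq_one.1 hwx)
    have hl' : h = l⁻¹ := mul_eq_one_iff_eq_inv.1 hl
    have : a * h * a⁻¹ = h := by
      rw [hl', show a * l⁻¹ * a⁻¹ = (a * l * a⁻¹)⁻¹ by group, hal]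
    rw [hah] at this
    exact h1 (eq_one_of_sq ⟨m, hm⟩ (inv_eq_iff_mul_eq_one.1 this))

/-- Let G be a finite group and V a nontrivial elementary abelian 2-subgroup of G of order at most 4 such that, whenever an element of V inverts an element h of G of odd order, some nontrivial element of V commutes with h. Then V meets O₂(G) nontrivially. (The case of order at most 4 has a short argument from the Baer–Suzuki theorem.) -/
theorem result {G : Type*} [Group G] [Finite G] (V : Subgroup G) (hV : Cfsg.IsElementaryAbelian 2 V) (hV1 : V ≠ ⊥) (hS : Cfsg.IsSidkiPair V) (h4 : Nat.card V ≤ 4) : V ⊓ Cfsg.pCore 2 G ≠ ⊥ := by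
  classical
  intro hbot
  obtain ⟨hVc, hV2⟩ := hV
  have hsq : ∀ v ∈ V, v * v = 1 := fun v hv => by
    have := hV2 v hv
    rwa [pow_two] at this
  have hinv : ∀ v ∈ V, v ≠ 1 → ∃ h : G, h ≠ 1 ∧ Odd (orderOf h) ∧ v * h * v⁻¹ = h⁻¹ := fun v hv hv1 =>
    exists_inverted (hsq v hv) fun hm => hv1 (Subgroup.mem_bot.1 (hbot ▸ Subgroup.mem_inf.2 ⟨hv, hm⟩))
  have hne : ∀ {v w h : G}, h ≠ 1 → Odd (orderOf h) → v * h * v⁻¹ = h⁻¹ → w * h = h * w → w ≠ v := by
    intro v w h h1 ho hvh hwh e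
    subst e
    rw [mul_inv_eq_iff_eq_mul.2 hwh] at hvh
    exact h1 (eq_one_of_sq ho (inv_eq_iff_mul_eq_one.1 hvh.symm))
  obtain ⟨⟨a, ha⟩, ha1⟩ := Subgroup.ne_bot_iff_exists_ne_one.1 hV1
  replace ha1 : a ≠ 1 := fun e => ha1 (Subtype.ext e)
  obtain ⟨h, h1, ho, hah⟩ := hinv a ha ha1
  obtain ⟨b, hb, hb1, hbh⟩ := hS h a ha ho hah
  have hba : b ≠ a := hne h1 ho hah hbh
  have hab : a * b = b * a := congrArg Subtype.val (hVc.is_comm.comm (⟨a, ha⟩ : ↥V) ⟨b, hb⟩)
  have hab1 : a * b ≠ 1 := fun e => hba ((mul_right_inj a).1 (e.trans (hsq a ha).symm))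
  have haba : a * b ≠ a := fun e => hb1 (mul_eq_left.1 e)
  have habb : a * b ≠ b := fun e => ha1 (mul_eq_right.1 e)
  have henum : ∀ w ∈ V, w = 1 ∨ w = a ∨ w = b ∨ w = a * b := by
    intro w hw
    by_contra hcon
    push Not at hcon
    have hsub : ↑({w, 1, a, b, a * b} : Finset G) ⊆ (V : Set G) := by
      intro x hx
      simp only [Finset.coe_insert, Finset.coe_singleton, Set.mem_insert_iff, Set.mem_singleton_iff] at hx
      rcases hx with rfl | rfl | rfl | rfl | rfl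
      exacts [hw, V.one_mem, ha, hb, V.mul_mem ha hb]
    have h5 : ({w, 1, a, b, a * b} : Finset G).card = 5 := by
      simp [hcon.1, hcon.2.1, hcon.2.2.1, hcon.2.2.2, ha1.symm, hb1.symm, hab1.symm, hba.symm, haba.symm,
        habb.symm]
    have := Set.ncard_le_ncard hsub (Set.toFinite _)
    rw [Set.ncard_coe_finset, h5, ← Nat.card_coe_set_eq] at this
    have h6 : Nat.card ↥(V : Set G) ≤ 4 := h4
    omega
  have hbh' : b * h * b⁻¹ = h := mul_inv_eq_iff_eq_mul.2 hbh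
  obtain ⟨l, l1, lo, hbl⟩ := hinv b hb hb1
  obtain ⟨w, hw, hw1, hwl⟩ := hS l b hb lo hbl
  have hwb : w ≠ b := hne l1 lo hbl hwl
  have hwl' : w * l * w⁻¹ = l := mul_inv_eq_iff_eq_mul.2 hwl
  rcases henum w hw with e | e | e | e
  · exact hw1 e
  · subst e
    exact config_false hS henum hw hb hab h1 l1 ho lo hah hbh' hwl' hbl
  · exact hwb e
  · subst e
    refine config_false hS (a := a * b) ?_ hw hb ?_ h1 l1 ho lo ?_ hbh' hwl' hbl
    · intro x hx
      have e2 : a * b * b = a := by rw [mul_assoc, hsq b hb, mul_one]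
      rw [e2]
      rcases henum x hx with e | e | e | e
      exacts [Or.inl e, Or.inr (Or.inr (Or.inr e)), Or.inr (Or.inr (Or.inl e)), Or.inr (Or.inl e)]
    · rw [mul_assoc, hsq b hb, mul_one, hab, ← mul_assoc, hsq b hb, one_mul]
    · rw [show a * b * h * (a * b)⁻¹ = a * (b * h * b⁻¹) * a⁻¹ by group, hbh', hah]

end Cfsg.Agent.S3011
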