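import Cfsg.Statements.S2756
import Cfsg.Agent.RealZJ.Main
import Cfsg.Agent.S3011

set_option autoImplicit false
open Cfsg

namespace Cfsg.Agent.S2756

/-- With a normal Sylow `2`-subgroup no nontrivial element of odd prime power order is inverted. -/
theorem not_inverted {H : Type*} [Group H] [Finite H] {q : ℕ} [Fact q.Prime] (hq : q ≠ 2)
    (hn : ∀ P : Sylow 2 H, (P : Subgroup H).Normal) {Q : Subgroup H} (hQ : IsPGroup q Q) {x g : H}
    (hx : x ∈ Q) (hx1 : x ≠ 1) : g * x * g⁻¹ ≠ x⁻¹ := by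
  haveI : Fact (Nat.Prime 2) := ⟨Nat.prime_two⟩
  intro h
  obtain ⟨m, hm, k, hk⟩ := CfsgLib.RealZJ.exists_odd_pow g
  have h1 := CfsgLib.RealZJ.conj_pow_odd h hm
  set t := g ^ m
  have ht : IsPGroup 2 (Subgroup.zpowers t) := by
    rintro ⟨z, hz⟩
    obtain ⟨i, rfl⟩ := Subgroup.mem_zpowers_iff.1 hz
    refine ⟨k, Subtype.ext ?_⟩
    rw [Subgroup.coe_pow, Subgroup.coe_one, ← zpow_natCast, ← zpow_mul, mul_comm, zpow_mul, zpow_natCast, hk,
      one_zpow]
  obtain ⟨P, hP⟩ := ht.exists_le_sylow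
  have htP : t ∈ (P : Subgroup H) := hP (Subgroup.mem_zpowers t)
  have hmem : x⁻¹ * x⁻¹ ∈ (P : Subgroup H) := by
    rw [show x⁻¹ * x⁻¹ = t * (x * t⁻¹ * x⁻¹) by nth_rewrite 1 [← h1]; group]
    exact P.mul_mem htP ((hn P).conj_mem _ (P.inv_mem htP) x)
  obtain ⟨j, hj⟩ := P.2 ⟨_, hmem⟩
  have h2 : x⁻¹ * x⁻¹ = 1 := CfsgLib.RealZJ.eq_one_of_pow_eq hQ hq (Q.mul_mem (Q.inv_mem hx) (Q.inv_mem hx))
    (k := j) (congrArg Subtype.val hj)
  refine hx1 (CfsgLib.RealZJ.eq_one_of_pow_eq hQ hq hx (k := 1) ?_)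
  rw [pow_one, pow_two, ← inv_inj, mul_inv_rev, h2, inv_one]

/-- A normal Sylow `2`-subgroup is inherited by subgroups. -/
theorem normal_sylow_subgroup {G : Type*} [Group G] [Finite G] (hn : ∀ P : Sylow 2 G, (P : Subgroup G).Normal)
    (N : Subgroup G) (P : Sylow 2 N) : (P : Subgroup N).Normal := by
  haveI : Fact (Nat.Prime 2) := ⟨Nat.prime_two⟩
  obtain ⟨S, hS⟩ := (P.2.map N.subtype).exists_le_sylow
  haveI := hn S
  have h : (P : Subgroup N) = (S : Subgroup G).subgroupOf N :=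
    (P.3 (S.2.comap_of_injective N.subtype N.subtype_injective) fun x hx => hS ⟨x, hx, rfl⟩).symm
  rw [h]
  infer_instance

/-- Without a normal Sylow `2`-subgroup some odd element is inverted. -/
theorem exists_real {G : Type*} [Group G] [Finite G] (h : ¬ ∀ P : Sylow 2 G, (P : Subgroup G).Normal) :
    ∃ q : ℕ, q.Prime ∧ q ≠ 2 ∧ CfsgLib.RealZJ.HasReal q G := by
  haveI : Fact (Nat.Prime 2) := ⟨Nat.prime_two⟩
  set O := Cfsg.pCore 2 G with hO
  haveI : O.Normal := Cfsg.pCore_normal 2 G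
  have h2 : 2 ∣ Nat.card (G ⧸ O) := by
    by_contra h2
    refine h fun P => ?_
    have hle : (P : Subgroup G) ≤ O := fun x hx => by
      rw [← QuotientGroup.eq_one_iff, ← orderOf_eq_one_iff]
      obtain ⟨k, hk⟩ := P.2 ⟨x, hx⟩
      have hk' : (QuotientGroup.mk x : G ⧸ O) ^ 2 ^ k = 1 := by
        rw [← QuotientGroup.mk_pow, show x ^ 2 ^ k = 1 from congrArg Subtype.val hk, QuotientGroup.mk_one]
      exact Nat.eq_one_of_dvd_coprimes ((Nat.prime_two.coprime_iff_not_dvd.2 h2).pow_left k)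
        (orderOf_dvd_of_pow_eq_one hk') (orderOf_dvd_natCard _)
    rw [← le_antisymm (CfsgLib.PCore.pCore_le_sylow P) hle]
    infer_instance
  obtain ⟨v, hv⟩ := exists_prime_orderOf_dvd_card' 2 h2
  have hvv : v * v = 1 := by rw [← pow_two, ← hv, pow_orderOf_eq_one]
  have hn : v ∉ Cfsg.pCore 2 (G ⧸ O) := by
    rw [CfsgLib.PCore.pCore_quotient, Subgroup.mem_bot]
    intro e
    rw [e, orderOf_one] at hv
    omega
  obtain ⟨z, hz1, hzo, hz⟩ := Cfsg.Agent.S3011.exists_inverted hvv hn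
  obtain ⟨q, hq, hqd⟩ := Nat.exists_prime_and_dvd (fun e => hz1 (orderOf_eq_one_iff.1 e))
  haveI := Fact.mk hq
  have hq2 : q ≠ 2 := by
    rintro rfl
    exact Nat.not_even_iff_odd.2 hzo (even_iff_two_dvd.2 hqd)
  refine ⟨q, hq, hq2, CfsgLib.RealZJ.hasReal_of_surjective hq2 _ (QuotientGroup.mk'_surjective O) ?_⟩
  have ho : orderOf (z ^ (orderOf z / q)) = q := orderOf_pow_orderOf_div (orderOf_pos z).ne' hqd
  refine CfsgLib.RealZJ.hasReal_of_inverted hq2 (Q := Subgroup.zpowers (z ^ (orderOf z / q)))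
    (IsPGroup.of_card (n := 1) (by rw [Nat.card_zpowers, ho, pow_one])) (Subgroup.mem_zpowers _) ?_ (n := v) ?_
  · intro e
    rw [e, orderOf_one] at ho
    exact hq.ne_one ho.symm
  · rw [← conj_pow, hz, inv_pow]

/-- For a finite group G the following are equivalent: (a) G has a normal Sylow 2-subgroup; (b) for every odd prime q dividing the order of G and every Sylow q-subgroup T, the normalizer of Z(J(T)) has a normal Sylow 2-subgroup; (c) for every odd prime q and every Sylow q-subgroup T, no nonidentity element of T is inverted by an element of the normalizer of Z(J(T)). Here J(T) is the Thompson subgroup generated by the abelian subgroups of T of largest order. Stated as the two equivalences (a) ⇔ (b) and (a) ⇔ (c). -/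
theorem result {G : Type*} [Group G] [Finite G] : ((∀ P : Sylow 2 G, (P : Subgroup G).Normal) ↔ ∀ (q : ℕ) [Fact q.Prime], q ≠ 2 → q ∣ Nat.card G → ∀ T : Sylow q G, ∀ P : Sylow 2 ↥(Subgroup.normalizer (Cfsg.centerThompsonAOf (T : Subgroup G) : Set G)), (P : Subgroup ↥(Subgroup.normalizer (Cfsg.centerThompsonAOf (T : Subgroup G) : Set G))).Normal) ∧ ((∀ P : Sylow 2 G, (P : Subgroup G).Normal) ↔ ∀ (q : ℕ) [Fact q.Prime], q ≠ 2 → ∀ T : Sylow q G, ∀ x ∈ (T : Subgroup G), x ≠ 1 → ∀ g ∈ Subgroup.normalizer (Cfsg.centerThompsonAOf (T : Subgroup G) : Set G), g * x * g⁻¹ ≠ x⁻¹) := by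
  have hca : (∀ (q : ℕ) [Fact q.Prime], q ≠ 2 → ∀ T : Sylow q G, ∀ x ∈ (T : Subgroup G), x ≠ 1 →
      ∀ g ∈ Subgroup.normalizer (Cfsg.centerThompsonAOf (T : Subgroup G) : Set G), g * x * g⁻¹ ≠ x⁻¹) →
      ∀ P : Sylow 2 G, (P : Subgroup G).Normal := by
    intro hc
    by_contra hn
    obtain ⟨q, hq, hq2, hr⟩ := exists_real hn
    haveI := Fact.mk hq
    obtain ⟨T⟩ : Nonempty (Sylow q G) := inferInstance
    obtain ⟨y, hy, hy1, n, hnN, hny⟩ := CfsgLib.RealZJ.inverts_of_hasReal hq2 hr T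
    rw [← CfsgLib.ZJ.centerThompsonAOf_eq q] at hnN
    exact hc q hq2 T y hy hy1 n hnN hny
  refine ⟨⟨fun hn q _ _ _ T => normal_sylow_subgroup hn _, fun hb => hca ?_⟩,
    ⟨fun hn q _ hq2 T x hx hx1 g _ => not_inverted hq2 hn T.2 hx hx1, hca⟩⟩
  intro q _ hq2 T x hx hx1 g hg hgx
  have hqd : q ∣ Nat.card G := by
    obtain ⟨k, hk⟩ := T.2 ⟨x, hx⟩
    obtain ⟨j, -, hj⟩ := (Nat.dvd_prime_pow Fact.out).1
      (orderOf_dvd_of_pow_eq_one (show x ^ q ^ k = 1 from congrArg Subtype.val hk))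
    refine (dvd_pow_self q ?_).trans (hj ▸ orderOf_dvd_natCard x)
    rintro rfl
    exact hx1 (orderOf_eq_one_iff.1 (by rw [hj, pow_zero]))
  set N := Subgroup.normalizer (Cfsg.centerThompsonAOf (T : Subgroup G) : Set G)
  have hxN : x ∈ N := by
    show x ∈ Subgroup.normalizer (Cfsg.centerThompsonAOf (T : Subgroup G) : Set G)
    rw [CfsgLib.ZJ.centerThompsonAOf_eq q]
    exact CfsgLib.ZJ.normalizer_le_normalizer_W _ (Subgroup.le_normalizer hx)
  exact not_inverted (H := N) hq2 (hb q hq2 hqd T) (T.2.comap_of_injective N.subtype N.subtype_injective)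
    (x := ⟨x, hxN⟩) (g := ⟨g, hg⟩) hx (fun e => hx1 (congrArg Subtype.val e)) (Subtype.ext hgx)

end Cfsg.Agent.S2756
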