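import Cfsg.Statements.S2799
import Cfsg.Agent.S5193
import Cfsg.Agent.Fusion.GroupQd

set_option autoImplicit false
open Cfsg

namespace Cfsg.Agent.S2799

/-- Let S be a Sylow p-subgroup of the finite group G, J(S) the subgroup generated by the abelian subgroups of S of largest order, and x an element of S lying in the centre of N_G(J(S)). Assume that p is odd, or that x is a p-th power of an element of Z(S), or that the symmetric group of degree 4 is not involved in G. Then x is weakly closed in S with respect to G: every G-conjugate of x that lies in S equals x. -/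
theorem result {G : Type*} [Group G] [Finite G] {p : ℕ} [Fact p.Prime] (S : Sylow p G) (x : G) (hxS : x ∈ (S : Subgroup G)) (hxZ : x ∈ (Subgroup.center ↥(Subgroup.normalizer ((Cfsg.thompsonSubgroupAOf (S : Subgroup G)) : Set G))).map (Subgroup.normalizer ((Cfsg.thompsonSubgroupAOf (S : Subgroup G)) : Set G)).subtype) (h : p ≠ 2 ∨ (∃ z ∈ (S : Subgroup G) ⊓ Subgroup.centralizer ((S : Subgroup G) : Set G), z ^ p = x) ∨ ¬ Cfsg.Involves (Equiv.Perm (Fin 4)) G) : ∀ g : G, g * x * g⁻¹ ∈ (S : Subgroup G) → g * x * g⁻¹ = x := by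
  classical
  intro g hg
  set F := Cfsg.groupFusionSystem (S : Subgroup G) with hFdef
  have hF : F.IsSaturated p := CfsgLib.Fusion.isSaturated_group (p := p) S
  set J := Cfsg.thompsonSubgroupAOf (S : Subgroup G) with hJdef
  have hJS : J ≤ (S : Subgroup G) := by
    rw [hJdef, CfsgLib.ZJ.thompsonSubgroupAOf_eq p]; exact CfsgLib.ZJ.J_le _
  have hSN : (S : Subgroup G) ≤ Subgroup.normalizer (J : Set G) := fun y hy => by
    rw [hJdef, CfsgLib.ZJ.thompsonSubgroupAOf_eq p]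
    exact CfsgLib.ZJ.normalizer_le_normalizer_J _ (Subgroup.le_normalizer hy)
  have hxc : ∀ y ∈ Subgroup.normalizer (J : Set G), y * x = x * y := by
    obtain ⟨x', hx', rfl⟩ := hxZ
    exact fun y hy => congrArg Subtype.val (Subgroup.mem_center_iff.1 hx' ⟨y, hy⟩)
  set N := CfsgLib.Fusion.normalizerSystem F hJS
  have hN := CfsgLib.Fusion.isNormalizerSystem_normalizerSystem F hJS
  have hXS : Subgroup.zpowers x ≤ (S : Subgroup G) := Subgroup.zpowers_le.2 hxS
  have hxN : x ∈ N.center := by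
    refine (le_sSup (show N.IsCentral (Subgroup.zpowers x) from ⟨?_, ?_⟩) : Subgroup.zpowers x ≤ N.center)
      (Subgroup.mem_zpowers x)
    · exact le_inf hXS (hXS.trans hSN)
    intro P φ hφ
    have hφ' : φ ∈ F.normalizerHom J P := hφ
    obtain ⟨-, hP, -, ψ, hψ, hag, hψJ⟩ := hφ'
    obtain ⟨hPJ, hψv, a, ha⟩ := hψ
    have haJ : a ∈ Subgroup.normalizer (J : Set G) := Subgroup.mem_normalizer_fintype fun y hy => by
      have h1 : ψ ⟨y, Subgroup.mem_sup_right hy⟩ ∈ J := hψJ.le ⟨⟨y, Subgroup.mem_sup_right hy⟩, hy, rfl⟩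
      rw [ha] at h1
      exact h1
    have hax : ∀ z ∈ Subgroup.zpowers x, a * z * a⁻¹ = z := fun z hz => by
      obtain ⟨i, rfl⟩ := Subgroup.mem_zpowers_iff.1 hz
      exact mul_inv_eq_iff_eq_mul.2 ((show Commute a x from hxc a haJ).zpow_right i).eq
    have hPS : P ≤ (S : Subgroup G) := le_sup_left.trans hPJ
    have hv : ∀ z : ↥((P ⊔ Subgroup.zpowers x) ⊔ J), Cfsg.conjHom _ a z ∈ (S : Subgroup G) := by
      have hle : (P ⊔ Subgroup.zpowers x) ⊔ J ≤ ((S : Subgroup G)).comap (MulAut.conj a).toMonoidHom := by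
        refine sup_le (sup_le (fun y hy => ?_) fun y hy => ?_) fun y hy => ?_
        · have := hψv ⟨y, Subgroup.mem_sup_left hy⟩; rw [ha] at this; exact this
        · show a * y * a⁻¹ ∈ (S : Subgroup G)
          rw [hax y hy]; exact hXS hy
        · exact hJS ((Subgroup.mem_normalizer_iff.1 haJ y).1 hy)
      exact fun z => hle z.2
    have hbig : Cfsg.conjHom _ a ∈ F.Hom ((P ⊔ Subgroup.zpowers x) ⊔ J) :=
      ⟨sup_le (sup_le hPS hXS) hJS, hv, a, fun z => rfl⟩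
    have hPXN : P ⊔ Subgroup.zpowers x ≤ Cfsg.FusionSystem.normalizerIn (S : Subgroup G) J :=
      sup_le hP (le_inf hXS (hXS.trans hSN))
    refine ⟨(Cfsg.conjHom _ a).comp (Subgroup.inclusion le_sup_left),
      ⟨CfsgLib.Fusion.restrict hbig le_sup_left, hPXN,
        fun z => ⟨hv _, hSN (hv _)⟩, Cfsg.conjHom _ a, hbig, fun z => rfl, le_antisymm ?_ ?_⟩,
      fun z => ?_, fun z => hax z z.2⟩
    · rintro _ ⟨y, hy, rfl⟩
      exact (Subgroup.mem_normalizer_iff.1 haJ _).1 hy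
    · intro y hy
      refine ⟨⟨a⁻¹ * y * a, Subgroup.mem_sup_right ?_⟩, ?_, ?_⟩
      · have := (Subgroup.mem_normalizer_iff.1 (inv_mem haJ) y).1 hy
        simpa using this
      · have := (Subgroup.mem_normalizer_iff.1 (inv_mem haJ) y).1 hy
        rw [inv_inv] at this
        exact this
      · show a * (a⁻¹ * y * a) * a⁻¹ = y
        group
    · refine Eq.trans ?_ (hag z)
      rw [ha]
      rfl
  have hxF : x ∈ F.center := by
    obtain ⟨h1, h2⟩ := Cfsg.Agent.S5193.result p S.2 F hF N hN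
    rcases h with hp | ⟨z, hz, rfl⟩ | hf
    · rw [← h2 (Or.inl hp)]; exact hxN
    · exact h1 ⟨Subgroup.subset_closure ⟨z, hz, rfl⟩, hxN⟩
    · rw [← h2 (Or.inr (CfsgLib.Fusion.isSectionFree_group_of_not_involves S hf))]; exact hxN
  have hφ : Cfsg.conjHom (Subgroup.zpowers x) g ∈ F.Hom (Subgroup.zpowers x) := by
    refine CfsgLib.Fusion.conjHom_mem_group hXS ?_
    rintro _ ⟨_, ⟨i, rfl⟩, rfl⟩
    show g * x ^ i * g⁻¹ ∈ (S : Subgroup G)
    rw [← conj_zpow]
    exact (S : Subgroup G).zpow_mem hg i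
  let G₀ : Subgroup G :=
    { carrier := {y | ∀ (X : Subgroup G) (φ : X →* G), φ ∈ F.Hom X → ∃ (X' : Subgroup G) (hle : X ≤ X')
        (hy : y ∈ X'), ∃ ψ ∈ F.Hom X', (∀ z : X, ψ (Subgroup.inclusion hle z) = φ z) ∧ ψ ⟨y, hy⟩ = y}
      one_mem' := fun X φ hφ => ⟨X, le_rfl, X.one_mem, φ, hφ, fun z => rfl, map_one φ⟩
      mul_mem' := by
        intro a b ha hb X φ hφ
        obtain ⟨X₁, h1, ha1, ψ₁, hψ₁, he1, hfa⟩ := ha X φ hφ
        obtain ⟨X₂, h2, hb2, ψ₂, hψ₂, he2, hfb⟩ := hb X₁ ψ₁ hψ₁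
        refine ⟨X₂, h1.trans h2, X₂.mul_mem (h2 ha1) hb2, ψ₂, hψ₂, fun z => (he2 _).trans (he1 z), ?_⟩
        rw [show (⟨a * b, X₂.mul_mem (h2 ha1) hb2⟩ : X₂) = Subgroup.inclusion h2 ⟨a, ha1⟩ * ⟨b, hb2⟩ from rfl,
          map_mul, he2, hfa, hfb]
      inv_mem' := by
        intro a ha X φ hφ
        obtain ⟨X₁, h1, ha1, ψ₁, hψ₁, he1, hfa⟩ := ha X φ hφ
        refine ⟨X₁, h1, X₁.inv_mem ha1, ψ₁, hψ₁, he1, ?_⟩
        rw [show (⟨a⁻¹, X₁.inv_mem ha1⟩ : X₁) = (⟨a, ha1⟩ : X₁)⁻¹ from rfl, map_inv, hfa] }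
  have hle : F.center ≤ G₀ := sSup_le fun K hK y hy X φ hφ => by
    obtain ⟨ψ, hψ, hag, hfix⟩ := hK.2 X φ hφ
    exact ⟨X ⊔ K, le_sup_left, Subgroup.mem_sup_right hy, ψ, hψ, hag, hfix ⟨y, hy⟩⟩
  obtain ⟨X', h1, hy', ψ, -, he, hfx⟩ := hle hxF _ _ hφ
  exact ((he ⟨x, Subgroup.mem_zpowers x⟩).symm.trans hfx :)

end Cfsg.Agent.S2799
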