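import Cfsg.Statements.S2896
import Cfsg.Agent.PReduced.CharP

set_option autoImplicit false
open Cfsg

namespace Cfsg.Agent.S2896

open Subgroup CfsgLib.PReduced in
/-- The key step. -/
theorem step {G : Type*} [Group G] [Finite G] {p : ℕ} [Fact p.Prime] {X : Subgroup G} (hX : IsPGroup p X) {z : G}
    (hz : z ∈ X) (hzc : ∀ x ∈ X, x * z = z * x) (h : CharPOf p (centralizer ({z} : Set G))) :
    CharPOf p (normalizer (X : Set G)) := by
  have h1 := h.inf_centralizer (P := X) (fun x hx => mem_centralizer_singleton_iff.mpr (hzc x hx)) hX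
  rw [inf_eq_right.mpr (centralizer_le (Set.singleton_subset_iff.mpr hz))] at h1
  have h2 := CharPOf.inf_normalizer (H := ⊤) (by rwa [top_inf_eq]) le_top hX
  rwa [top_inf_eq] at h2

/-- Let p be a prime dividing the order of the finite group G, S a Sylow p-subgroup of G and X a subgroup of S. (i) If some nontrivial element z of the centre of X has F*(C_G(z)) = O_p(C_G(z)), then F*(N_G(X)) = O_p(N_G(X)). (ii) G has parabolic characteristic p if and only if F*(C_G(z)) = O_p(C_G(z)) for every nontrivial z ∈ Ω₁(Z(S)). (iii) If F*(C_G(z)) = O_p(C_G(z)) for every element z of S of order p, then G has local characteristic p. -/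
theorem result {G : Type*} [Group G] [Finite G] {p : ℕ} [Fact p.Prime] (hdiv : p ∣ Nat.card G) (S : Sylow p G) (X : Subgroup G) (hX : X ≤ (S : Subgroup G)) : (∀ z : G, z ≠ 1 → z ∈ X → (∀ x ∈ X, x * z = z * x) → Cfsg.generalizedFittingSubgroup ↥(Subgroup.centralizer ({z} : Set G)) = Cfsg.pCore p ↥(Subgroup.centralizer ({z} : Set G)) → Cfsg.generalizedFittingSubgroup ↥(Subgroup.normalizer (X : Set G)) = Cfsg.pCore p ↥(Subgroup.normalizer (X : Set G))) ∧ (Cfsg.IsOfParabolicCharacteristic p G ↔ ∀ z : G, z ≠ 1 → z ∈ Cfsg.omegaOne p ((S : Subgroup G) ⊓ Subgroup.centralizer ((S : Subgroup G) : Set G)) → Cfsg.generalizedFittingSubgroup ↥(Subgroup.centralizer ({z} : Set G)) = Cfsg.pCore p ↥(Subgroup.centralizer ({z} : Set G))) ∧ ((∀ z : G, z ∈ (S : Subgroup G) → orderOf z = p → Cfsg.generalizedFittingSubgroup ↥(Subgroup.centralizer ({z} : Set G)) = Cfsg.pCore p ↥(Subgroup.centralizer ({z} : Set G))) → Cfsg.IsOfLocalCharacteristic p G) := by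
  open Subgroup CfsgLib.PReduced in
  have hXp := S.isPGroup'.to_le hX
  refine ⟨fun z _ hzX hzc hF => (CfsgLib.PReduced.charPOf_iff_generalizedFitting _).mp
    (step hXp hzX hzc ((CfsgLib.PReduced.charPOf_iff_generalizedFitting _).mpr hF)), ⟨?_, ?_⟩, ?_⟩
  · intro h z hz1 hz
    have hzS : z ∈ (S : Subgroup G) ⊓ Subgroup.centralizer ((S : Subgroup G) : Set G) :=
      (Subgroup.closure_le _).mpr (fun y hy => hy.1) hz
    have hzp : IsPGroup p (Subgroup.zpowers z) := S.isPGroup'.to_le (Subgroup.zpowers_le.mpr hzS.1)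
    have hzc : Subgroup.centralizer ((Subgroup.zpowers z : Subgroup G) : Set G) = Subgroup.centralizer ({z} : Set G) := by
      rw [Subgroup.zpowers_eq_closure, Subgroup.centralizer_closure]
    have hSz : (S : Subgroup G) ≤ Subgroup.centralizer ({z} : Set G) := fun s hs =>
      Subgroup.mem_centralizer_singleton_iff.mpr (Subgroup.mem_centralizer_iff.mp hzS.2 s hs)
    have h1 := h (Subgroup.zpowers z) hzp (fun e => hz1 (Subgroup.zpowers_eq_bot.mp e))
      ⟨S, hSz.trans (hzc ▸ Subgroup.centralizer_le_normalizer _)⟩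
    refine (CfsgLib.PReduced.charPOf_iff_generalizedFitting _).mp ?_
    have h2 := ((CfsgLib.PReduced.charPOf_iff _).mpr h1).inf_centralizer Subgroup.le_normalizer hzp
    rwa [inf_eq_right.mpr (Subgroup.centralizer_le_normalizer _), hzc] at h2
  · intro h R hR hR1 hpar
    obtain ⟨T, hT⟩ := hpar
    obtain ⟨g, hg⟩ := MulAction.exists_smul_eq G T S
    set R' := R.map (MulAut.conj g).toMonoidHom with hR'
    have hSR : (S : Subgroup G) ≤ Subgroup.normalizer (R' : Set G) := by
      rw [← hg, Sylow.coe_subgroup_smul]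
      exact (Subgroup.map_mono hT).trans (Subgroup.le_normalizer_map _)
    have hR'p : IsPGroup p R' := hR.map _
    have hR'S : R' ≤ (S : Subgroup G) :=
      le_sup_right.trans (S.is_maximal' (S.isPGroup'.to_sup_of_normal_right' hR'p hSR) le_sup_left).le
    obtain ⟨z, hzR, hzp, hzc⟩ := CfsgLib.PReduced.exists_central_of_normalized _ S.isPGroup' hR'S hSR
      (fun e => hR1 ((Subgroup.map_eq_bot_iff_of_injective _ (MulAut.conj g).injective).mp e))
    have hz1 : z ≠ 1 := fun e => (Fact.out : p.Prime).ne_one (by rw [← hzp, e, orderOf_one])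
    have h1 := h z hz1 (Subgroup.subset_closure ⟨⟨hR'S hzR, Subgroup.mem_centralizer_iff.mpr hzc⟩,
      orderOf_dvd_iff_pow_eq_one.mp (dvd_of_eq hzp)⟩)
    have h2 := (step hR'p hzR (fun x hx => hzc x (hR'S hx))
      ((CfsgLib.PReduced.charPOf_iff_generalizedFitting _).mpr h1)).map_conj g⁻¹
    refine (CfsgLib.PReduced.charPOf_iff _).mp ?_
    convert h2 using 1
    ext x
    constructor
    · intro hx
      exact ⟨g * x * g⁻¹, Subgroup.le_normalizer_map (MulAut.conj g).toMonoidHom ⟨x, hx, rfl⟩, by simp [mul_assoc]⟩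
    · rintro ⟨y, hy, rfl⟩
      have h3 : g⁻¹ * y * g⁻¹⁻¹ ∈ Subgroup.normalizer ((R'.map (MulAut.conj g⁻¹).toMonoidHom : Subgroup G) : Set G) :=
        Subgroup.le_normalizer_map (MulAut.conj g⁻¹).toMonoidHom ⟨y, hy, rfl⟩
      have e : R'.map (MulAut.conj g⁻¹).toMonoidHom = R := by
        rw [hR', Subgroup.map_map]
        convert Subgroup.map_id R
        ext w
        simp [mul_assoc]
      rw [e] at h3
      exact h3
  · intro h
    refine ⟨hdiv, fun R hR hR1 => (CfsgLib.PReduced.charPOf_iff _).mp ?_⟩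
    obtain ⟨T, hT⟩ := hR.exists_le_sylow
    obtain ⟨g, hg⟩ := MulAction.exists_smul_eq G T S
    obtain ⟨z, hzR, hzp, hzc⟩ := CfsgLib.PReduced.exists_central_of_normalized R hR le_rfl Subgroup.le_normalizer hR1
    have hgz : g * z * g⁻¹ ∈ (S : Subgroup G) := by
      rw [← hg, Sylow.coe_subgroup_smul]
      exact Subgroup.mem_map.2 ⟨z, hT hzR, rfl⟩
    have h1 := ((CfsgLib.PReduced.charPOf_iff_generalizedFitting _).mpr
      (h _ hgz (by rw [← MulAut.conj_apply, MulEquiv.orderOf_eq, hzp]))).map_conj g⁻¹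
    refine step hR hzR hzc ?_
    convert h1 using 1
    ext x
    constructor
    · intro hx
      refine ⟨g * x * g⁻¹, ?_, by simp [mul_assoc]⟩
      rw [SetLike.mem_coe, Subgroup.mem_centralizer_singleton_iff]
      have := Subgroup.mem_centralizer_singleton_iff.mp hx
      calc g * x * g⁻¹ * (g * z * g⁻¹) = g * (x * z) * g⁻¹ := by group
        _ = g * (z * x) * g⁻¹ := by rw [this]
        _ = _ := by group
    · rintro ⟨y, hy, rfl⟩
      rw [Subgroup.mem_centralizer_singleton_iff]
      have := Subgroup.mem_centralizer_singleton_iff.mp hy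
      show g⁻¹ * y * g⁻¹⁻¹ * z = z * (g⁻¹ * y * g⁻¹⁻¹)
      calc g⁻¹ * y * g⁻¹⁻¹ * z = g⁻¹ * (y * (g * z * g⁻¹)) * g := by group
        _ = g⁻¹ * (g * z * g⁻¹ * y) * g := by rw [this]
        _ = _ := by group

end Cfsg.Agent.S2896
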