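import Cfsg.Statements.S2898
import Cfsg.Agent.PReduced.Basic
import Cfsg.Agent.PCore.Basic
import Cfsg.Agent.PReduced.Hom
import Mathlib.GroupTheory.FixedPointFree

set_option autoImplicit false
open Cfsg

namespace Cfsg.Agent.S2898

open Subgroup CfsgLib.PReduced in
/-- The odd core is trivial. -/
theorem aux {G : Type*} [Group G] [Finite G] (h2 : 2 ∣ Nat.card G)
    (hG : Cfsg.IsOfParabolicCharacteristic 2 G) (hZ : center (G ⧸ Cfsg.pPrimeCore 2 G) = ⊥) :
    Cfsg.pPrimeCore 2 G = ⊥ := by
  set O := Cfsg.pPrimeCore 2 G with hO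
  have hOco : (Nat.card O).Coprime 2 := CfsgLib.PCore.pPrimeCore_coprime 2 G
  obtain ⟨S⟩ : Nonempty (Sylow 2 G) := inferInstance
  by_contra hne
  -- an involution central in `S` inverts `O`
  have hinv : ∀ z : G, orderOf z = 2 → (S : Subgroup G) ≤ centralizer ({z} : Set G) →
      ∀ x ∈ O, z * x * z⁻¹ = x⁻¹ := by
    intro z hz hS
    have hzz : z * z = 1 := by rw [← pow_two, ← hz]; exact pow_orderOf_eq_one z
    have hN : normalizer (zpowers z : Set G) = centralizer ({z} : Set G) := by
      refine le_antisymm (fun g hg => ?_) (fun g hg => ?_)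
      · rw [mem_centralizer_singleton_iff]
        obtain ⟨i, hi⟩ := mem_zpowers_iff.mp ((mem_normalizer_iff.mp hg z).mp (mem_zpowers z))
        rw [← zpow_mod_orderOf, hz, Nat.cast_ofNat] at hi
        rcases Int.emod_two_eq_zero_or_one i with h | h <;> rw [h] at hi
        · rw [zpow_zero] at hi
          have h1 : z = 1 := conj_eq_one_iff.mp hi.symm
          rw [h1, orderOf_one] at hz
          omega
        · rw [zpow_one] at hi
          exact mul_inv_eq_iff_eq_mul.mp hi.symm
      · rw [mem_normalizer_iff_map_conj_eq, MonoidHom.map_zpowers]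
        congr 1
        show g * z * g⁻¹ = z
        exact mul_inv_eq_iff_eq_mul.mpr (mem_centralizer_singleton_iff.mp hg)
    have hzne : zpowers z ≠ ⊥ := by
      rw [Ne, zpowers_eq_bot]
      rintro rfl
      rw [orderOf_one] at hz
      omega
    have hzp : IsPGroup 2 (zpowers z) := IsPGroup.of_card (n := 1) (by rw [Nat.card_zpowers, hz, pow_one])
    have hchar := hG (zpowers z) hzp hzne ⟨S, hN ▸ hS⟩
    set N := normalizer (zpowers z : Set G) with hNdef
    -- the fixed points of `z` on `O` centralize the 2-core of `C(z)`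
    have hfix : ∀ x ∈ O, z * x * z⁻¹ = x → x = 1 := by
      intro x hxO hx
      have hxN : x ∈ N := by
        rw [hN, mem_centralizer_singleton_iff]
        exact (mul_inv_eq_iff_eq_mul.mp hx).symm
      have hcen : (⟨x, hxN⟩ : N) ∈ centralizer (Cfsg.pCore 2 N : Set N) := by
        have hcopN : (Nat.card (O.subgroupOf N)).Coprime 2 := by
          refine Nat.Coprime.coprime_dvd_left ?_ hOco
          rw [← card_map_of_injective N.subtype_injective, subgroupOf_map_subtype]
          exact card_dvd_of_le inf_le_left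
        have hbot : O.subgroupOf N ⊓ Cfsg.pCore 2 N = ⊥ := by
          rw [inf_comm]
          exact CfsgLib.PCore.inf_eq_bot_of_isPGroup_of_coprime (isPGroup_pCore 2 N) hcopN
        have hcomm := Subgroup.commutator_le_inf (O.subgroupOf N) (Cfsg.pCore 2 N)
        rw [hbot, le_bot_iff, commutator_eq_bot_iff_le_centralizer] at hcomm
        exact hcomm hxO
      have := hchar hcen
      obtain ⟨k, hk⟩ := IsPGroup.iff_card.mp (isPGroup_pCore 2 N)
      have h1 := Subgroup.orderOf_dvd_natCard _ this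
      rw [hk, Subgroup.orderOf_mk] at h1
      exact orderOf_eq_one_iff.mp (Nat.Coprime.eq_one_of_dvd
        (Nat.Coprime.pow_right k (Nat.Coprime.coprime_dvd_left (Subgroup.orderOf_dvd_natCard O hxO) hOco)) h1)
    let φ : O →* O :=
      { toFun := fun x => ⟨z * x * z⁻¹, (inferInstance : O.Normal).conj_mem _ x.2 z⟩
        map_one' := Subtype.ext (by simp)
        map_mul' := fun x y => Subtype.ext (by simp [mul_assoc]) }
    have hφ : MonoidHom.FixedPointFree φ := fun x hx => Subtype.ext (hfix x x.2 (congrArg Subtype.val hx))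
    have hφ2 : Function.Involutive φ := fun x => Subtype.ext (by
      show z * (z * x * z⁻¹) * z⁻¹ = x
      calc z * (z * (x : G) * z⁻¹) * z⁻¹ = (z * z) * x * (z * z)⁻¹ := by group
        _ = x := by simp [hzz])
    intro x hx
    exact congrArg Subtype.val (congrFun (hφ.coe_eq_inv_of_involutive hφ2) ⟨x, hx⟩)
  have hSne : (S : Subgroup G) ≠ ⊥ := S.ne_bot_of_dvd_card h2
  -- `C(O)` has odd order
  set C := centralizer (O : Set G) with hC
  have hSC : (S : Subgroup G) ⊓ C = ⊥ := by
    by_contra h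
    haveI : Nontrivial (((S : Subgroup G) ⊓ C).subgroupOf (S : Subgroup G)) := by
      rw [nontrivial_iff_ne_bot, Ne, subgroupOf_eq_bot, disjoint_iff, inf_assoc, inf_comm C, ← inf_assoc, inf_idem]
      exact h
    have hdvd : 2 ∣ Nat.card ↥(((S : Subgroup G) ⊓ C).subgroupOf (S : Subgroup G) ⊓ center ↥(S : Subgroup G)) := by
      have hnt : Nontrivial ↥(((S : Subgroup G) ⊓ C).subgroupOf (S : Subgroup G) ⊓ center ↥(S : Subgroup G)) := by
        have hn : (((S : Subgroup G) ⊓ C).subgroupOf (S : Subgroup G)).Normal := by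
          rw [inf_subgroupOf_left]
          infer_instance
        exact (Subgroup.nontrivial_iff_ne_bot _).mpr (@CfsgLib.PReduced.inf_center_ne_bot _ _ _ 2 _ S.isPGroup' _ hn ((Subgroup.nontrivial_iff_ne_bot _).mp ‹_›))
      obtain ⟨k, hk⟩ := IsPGroup.iff_card.mp ((S.isPGroup').to_subgroup
        (((S : Subgroup G) ⊓ C).subgroupOf (S : Subgroup G) ⊓ center ↥(S : Subgroup G)))
      rcases k with _ | k
      · simp only [pow_zero] at hk
        exact absurd hk (Finite.one_lt_card_iff_nontrivial.mpr hnt).ne'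
      · exact hk ▸ dvd_pow_self 2 (Nat.succ_ne_zero k)
    obtain ⟨⟨⟨s, hsS⟩, hsC, hsc⟩, hs2⟩ := exists_prime_orderOf_dvd_card' 2
      (G := ↥(((S : Subgroup G) ⊓ C).subgroupOf (S : Subgroup G) ⊓ center ↥(S : Subgroup G))) hdvd
    have hs : orderOf s = 2 := by rwa [← Subgroup.orderOf_coe, ← Subgroup.orderOf_coe] at hs2
    have hsS' : (S : Subgroup G) ≤ centralizer ({s} : Set G) := fun t ht => by
      rw [mem_centralizer_singleton_iff]
      exact congrArg Subtype.val (mem_center_iff.mp hsc ⟨t, ht⟩)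
    apply hne
    rw [eq_bot_iff]
    intro x hx
    have h1 := hinv s hs hsS' x hx
    have hsC2 : x * s = s * x := mem_centralizer_iff.mp hsC.2 x hx
    rw [← hsC2, mul_inv_cancel_right] at h1
    have h2' : orderOf x ∣ 2 := orderOf_dvd_of_pow_eq_one (by rw [pow_two]; exact mul_eq_one_iff_eq_inv.mpr h1)
    exact mem_bot.mpr (orderOf_eq_one_iff.mp (Nat.Coprime.eq_one_of_dvd
      (Nat.Coprime.coprime_dvd_left (Subgroup.orderOf_dvd_natCard O hx) hOco) h2'))
  have hCodd : C ≤ O := by
    refine CfsgLib.PCore.le_pPrimeCore inferInstance ?_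
    obtain ⟨P, hP⟩ := exists_sylow_inf S C
    have h1 := P.not_dvd_index
    have h3 : (P : Subgroup C) = ⊥ := by rw [hP, hSC, bot_subgroupOf]
    rw [h3, index_bot] at h1
    exact (Nat.coprime_comm.mp ((Nat.prime_two.coprime_iff_not_dvd).mpr h1))
  -- an involution in the centre of `S` is central modulo `O`
  obtain ⟨k, hk⟩ := IsPGroup.iff_card.mp (S.isPGroup'.to_subgroup (center ↥(S : Subgroup G)))
  haveI : Nontrivial ↥(S : Subgroup G) := (Subgroup.nontrivial_iff_ne_bot _).mpr hSne
  haveI := S.isPGroup'.center_nontrivial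
  obtain ⟨⟨⟨z, hzS⟩, hzc⟩, hz2'⟩ := exists_prime_orderOf_dvd_card' 2 (G := center ↥(S : Subgroup G)) (by
    rcases k with _ | k
    · simp only [pow_zero] at hk
      exact absurd hk (Finite.one_lt_card_iff_nontrivial.mpr ‹_›).ne'
    · exact hk ▸ dvd_pow_self 2 (Nat.succ_ne_zero k))
  have hz2 : orderOf z = 2 := by rwa [← Subgroup.orderOf_coe, ← Subgroup.orderOf_coe] at hz2'
  have hzS' : (S : Subgroup G) ≤ centralizer ({z} : Set G) := fun t ht => by
    rw [mem_centralizer_singleton_iff]
    exact congrArg Subtype.val (mem_center_iff.mp hzc ⟨t, ht⟩)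
  have hcen : (QuotientGroup.mk z : G ⧸ O) ∈ center (G ⧸ O) := by
    rw [mem_center_iff]
    intro q
    obtain ⟨g, rfl⟩ := QuotientGroup.mk_surjective q
    have hmem : g * z * g⁻¹ * z⁻¹ ∈ C := by
      rw [mem_centralizer_iff]
      intro x hx
      have hn : O.Normal := inferInstance
      have hzz : z * z = 1 := by rw [← pow_two, ← hz2]; exact pow_orderOf_eq_one z
      have hzi : z⁻¹ = z := inv_eq_of_mul_eq_one_right hzz
      have hc : ∀ w ∈ O, g * z * g⁻¹ * w = w⁻¹ * (g * z * g⁻¹) := by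
        intro w hw
        have h1 := hinv z hz2 hzS' (g⁻¹ * w * g) (by simpa using hn.conj_mem w hw g⁻¹)
        calc g * z * g⁻¹ * w = g * (z * (g⁻¹ * w * g) * z⁻¹) * z * g⁻¹ := by group
          _ = g * (g⁻¹ * w * g)⁻¹ * z * g⁻¹ := by rw [h1]
          _ = w⁻¹ * (g * z * g⁻¹) := by group
      have hzx : z * x = x⁻¹ * z := mul_inv_eq_iff_eq_mul.mp (hinv z hz2 hzS' x hx)
      rw [hzi]
      symm
      calc g * z * g⁻¹ * z * x = g * z * g⁻¹ * (z * x) := mul_assoc _ _ _
        _ = g * z * g⁻¹ * (x⁻¹ * z) := by rw [hzx]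
        _ = g * z * g⁻¹ * x⁻¹ * z := (mul_assoc _ _ _).symm
        _ = x⁻¹⁻¹ * (g * z * g⁻¹) * z := by rw [hc _ (inv_mem hx)]
        _ = x * (g * z * g⁻¹ * z) := by rw [inv_inv, mul_assoc]
    rw [← QuotientGroup.mk_mul, ← QuotientGroup.mk_mul, QuotientGroup.eq]
    have hn : O.Normal := inferInstance
    have h8 := hn.conj_mem _ (inv_mem (hCodd hmem)) (g * z)⁻¹
    simpa [mul_assoc] using h8
  rw [hZ, mem_bot, QuotientGroup.eq_one_iff] at hcen
  have h9 := Nat.Coprime.coprime_dvd_left (Subgroup.orderOf_dvd_natCard O hcen) hOco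
  rw [hz2] at h9
  exact absurd h9 (by decide)

/-- Let G be a finite group of even order with parabolic characteristic 2. If the centre of G ⧸ O(G) is trivial, then O(G) = 1. -/
theorem result {G : Type*} [Group G] [Finite G] (h2 : 2 ∣ Nat.card G) (hG : Cfsg.IsOfParabolicCharacteristic 2 G) [hN : (Cfsg.oddCore G).Normal] (hZ : Subgroup.center (G ⧸ Cfsg.oddCore G) = ⊥) : Cfsg.oddCore G = ⊥ := by
  exact aux h2 hG hZ

end Cfsg.Agent.S2898
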