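import Cfsg.Statements.S2904
import Cfsg.Agent.NumTheory.Zsigmondy
-- import your own Cfsg.Agent.* helpers here

set_option autoImplicit false
open Cfsg

namespace Cfsg.Agent.S2904

/-- Zsigmondy's Theorem: for natural numbers a > 1 and n > 1 there is a prime dividing aⁿ − 1 that divides aᵏ − 1 for no natural number 0 < k < n, unless a = 2 and n = 6, or n = 2 and a + 1 is a power of two. -/
theorem result (a n : ℕ) (ha : 1 < a) (hn : 1 < n) (h6 : ¬ (a = 2 ∧ n = 6)) (h2 : ¬ (n = 2 ∧ ∃ m : ℕ, a + 1 = 2 ^ m)) : ∃ r : ℕ, r.Prime ∧ r ∣ a ^ n - 1 ∧ ∀ k : ℕ, 0 < k → k < n → ¬ r ∣ a ^ k - 1 := by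
  rcases Nat.lt_or_ge n 3 with h | h
  · obtain rfl : n = 2 := by omega
    have hno : ¬ ∃ m : ℕ, a + 1 = 2 ^ m := fun hm => h2 ⟨rfl, hm⟩
    obtain ⟨r, hr, hra, hr2⟩ : ∃ r : ℕ, r.Prime ∧ r ∣ a + 1 ∧ r ≠ 2 := by
      by_contra hc
      push Not at hc
      exact hno ⟨_, Nat.eq_prime_pow_of_unique_prime_dvd (by omega) fun {d} hd hdd => hc d hd hdd⟩
    refine ⟨r, hr, hra.trans ⟨a - 1, by rw [← Nat.sq_sub_sq, one_pow]⟩, fun k hk0 hk2 hk => hr2 ?_⟩
    obtain rfl : k = 1 := by omega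
    rw [pow_one] at hk
    have h3 := Nat.dvd_sub hra hk
    rw [show a + 1 - (a - 1) = 2 by omega] at h3
    exact (Nat.prime_dvd_prime_iff_eq hr Nat.prime_two).mp h3
  · obtain ⟨r, hr, hdvd, hord⟩ := CfsgLib.Zsigmondy.exists_primitive_prime (a := a) (by omega) h h6
    refine ⟨r, hr.out, hdvd, fun k hk0 hkn hk => ?_⟩
    rw [← ZMod.natCast_eq_zero_iff, Nat.cast_sub (Nat.one_le_pow _ _ (by omega)), Nat.cast_pow, Nat.cast_one,
      sub_eq_zero] at hk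
    have := Nat.le_of_dvd hk0 (orderOf_dvd_of_pow_eq_one hk)
    omega

end Cfsg.Agent.S2904
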