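import Cfsg.Statements.S2905
import Cfsg.Agent.PReduced.PIrreducible
import Cfsg.Agent.Subnormal.Basic
import Cfsg.Agent.CoprimeAction.Invariant
import Mathlib.Data.Nat.PrimeFin

set_option autoImplicit false
open Cfsg

namespace Cfsg.Agent.S2905

open Subgroup CfsgLib.PReduced in
/-- Subnormal subgroups inside `M`. -/
theorem subnormal_part {P : Type*} [Group P] [Finite P] {p : ℕ} [Fact p.Prime] (S : Sylow p P) {M : Subgroup P}
    (hM : M ≠ ⊤) (hSM : (S : Subgroup P) ≤ M) (hin : ∀ X : Subgroup P, X ≠ ⊤ → (S : Subgroup P) ≤ X → X ≤ M)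
    (N : Subgroup P) (hN : N.IsSubnormal) (hNM : N ≤ M) : N ⊓ (S : Subgroup P) ≤ Cfsg.pCore p P := by
  let cl : Subgroup P → Subgroup P := fun A =>
    ⨆ s : ↥(S : Subgroup P), A.map (MulAut.conj (s : P)).toMonoidHom
  have hcl_le : ∀ A, A ≤ cl A := fun A =>
    le_iSup_of_le 1 (CfsgLib.Subnormal.conj_one A).ge
  have hcl_M : ∀ A, A ≤ M → cl A ≤ M := fun A hA => iSup_le fun s =>
    (map_mono hA).trans (CfsgLib.Subnormal.conj_eq_self_iff.mpr (le_normalizer (hSM s.2))).le
  have hcl_sn : ∀ A, A.IsSubnormal → (cl A).IsSubnormal := fun A hA =>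
    CfsgLib.Subnormal.isSubnormal_sSup _ (by rintro B ⟨s, rfl⟩; exact CfsgLib.Subnormal.isSubnormal_conj hA _)
  have hcl_S : ∀ A, (S : Subgroup P) ≤ normalizer (cl A : Set P) := by
    intro A s hs
    have hle : ∀ t ∈ (S : Subgroup P), (cl A).map (MulAut.conj t).toMonoidHom ≤ cl A := by
      intro t ht
      rw [Subgroup.map_iSup]
      refine iSup_le fun u => le_iSup_of_le ⟨t * u, mul_mem ht u.2⟩ ?_
      rw [CfsgLib.Subnormal.conj_conj]
    refine CfsgLib.Subnormal.conj_eq_self_iff.mp (le_antisymm (hle s hs) ?_)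
    refine CfsgLib.Subnormal.le_conj_iff.mpr ?_
    exact hle s⁻¹ (inv_mem hs)
  set F : Set (Subgroup P) := {A | A.IsSubnormal ∧ A ≤ M ∧ (S : Subgroup P) ≤ normalizer (A : Set P) ∧ N ≤ A}
  obtain ⟨A, ⟨hA1, hA2, hA3, hA4⟩, hmax⟩ := (Set.toFinite F).exists_maximal
    ⟨cl N, hcl_sn N hN, hcl_M N hNM, hcl_S N, hcl_le N⟩
  have hAn : A.Normal := by
    by_contra hn
    obtain ⟨x, hx, hxn⟩ := CfsgLib.Subnormal.exists_conj_le_normalizer hA1 hn
    have hxM : A.map (MulAut.conj x).toMonoidHom ≤ M :=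
      hxn.trans (hin _ (fun e => hn (normalizer_eq_top_iff.mp e)) hA3)
    have hB := hmax (y := cl (A ⊔ A.map (MulAut.conj x).toMonoidHom))
      ⟨hcl_sn _ (CfsgLib.Subnormal.isSubnormal_sup hA1 (CfsgLib.Subnormal.isSubnormal_conj hA1 x)),
        hcl_M _ (sup_le hA2 hxM), hcl_S _, hA4.trans (le_sup_left.trans (hcl_le _))⟩
      (le_sup_left.trans (hcl_le _))
    refine hx (eq_of_le_of_card_ge ((le_sup_right.trans (hcl_le _)).trans hB) (le_of_eq ?_))
    exact (card_map_of_injective (MulAut.conj x).injective).symm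
  intro y hy
  exact mem_pCore_of_le_unique S hM hin hA2 (hA4 hy.1) (exists_pow_eq_one_of_mem S.isPGroup' hy.2)

open Subgroup CfsgLib.PReduced in
/-- At most two primes when `O^p` has a normal Sylow subgroup. -/
theorem two_primes {P : Type*} [Group P] [Finite P] {p : ℕ} [Fact p.Prime] (S : Sylow p P) {M : Subgroup P}
    (hM : M ≠ ⊤) (hSM : (S : Subgroup P) ≤ M) (hin : ∀ X : Subgroup P, X ≠ ⊤ → (S : Subgroup P) ≤ X → X ≤ M)
    (hT : ∀ T : Sylow p ↥(Cfsg.pResidual p P), (T : Subgroup ↥(Cfsg.pResidual p P)).Normal) :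
    (Nat.card P).primeFactors.card ≤ 2 := by
  classical
  have hp := (Fact.out : p.Prime)
  set K := Cfsg.pResidual p P with hK
  haveI hKn : K.Normal := CfsgLib.Transfer.pResidual_normal
  set O := Cfsg.pCore p P with hO
  have hKel : ∀ x ∈ K, (∃ k, x ^ p ^ k = 1) → x ∈ O := (isPClosed_normal_iff K).mp hT
  have hOS : O ≤ (S : Subgroup P) := pCore_le_sylow S
  set π := QuotientGroup.mk' O with hπ
  have hsurj := QuotientGroup.mk'_surjective O
  set K' := K.map π with hK'
  haveI hK'n : K'.Normal := hKn.map π hsurj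
  set S' := (S : Subgroup P).map π with hS'
  have hK'p : ¬ p ∣ Nat.card K' := by
    intro hd
    obtain ⟨⟨q, hq⟩, hqp⟩ := exists_prime_orderOf_dvd_card' p hd
    rw [orderOf_mk] at hqp
    obtain ⟨x, hx, rfl⟩ := hq
    obtain ⟨a, ha, hak, hax⟩ := exists_pElement_lift_mem hx ⟨1, by rw [pow_one]; exact hqp ▸ pow_orderOf_eq_one _⟩
    have h1 : QuotientGroup.mk' O a = 1 := (QuotientGroup.eq_one_iff a).mpr (hKel a ha hak)
    rw [← hax, h1, orderOf_one] at hqp
    exact hp.ne_one hqp.symm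
  have hS'p : IsPGroup p S' := S.isPGroup'.map π
  obtain ⟨b, hb⟩ := IsPGroup.iff_card.mp hS'p
  have hS'K : S' ≤ normalizer (K' : Set (P ⧸ O)) := by
    rw [normalizer_eq_top]; exact le_top
  have hcop : (Nat.card S').Coprime (Nat.card K') := hb ▸ (hp.coprime_iff_not_dvd.mpr hK'p).pow_left b
  have hsol : Group.IsSolvable S' := by
    haveI := hS'p.isNilpotent
    infer_instance
  -- a prime whose invariant Sylow subgroup together with `S'` is everything
  obtain ⟨q, Q, hQK, hQq, hQS, htop⟩ : ∃ (q : ℕ) (Q : Subgroup (P ⧸ O)), Q ≤ K' ∧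
      (∀ r, r.Prime → r ∣ Nat.card Q → r = q) ∧ S' ≤ normalizer (Q : Set (P ⧸ O)) ∧ Q ⊔ S' = ⊤ := by
    by_contra hcon
    push Not at hcon
    have hKM : K' ≤ M.map π := by
      have hdvd : Nat.card K' ∣ Nat.card ↥(K' ⊓ M.map π) := by
        rw [← Nat.factorization_prime_le_iff_dvd Nat.card_pos.ne' Nat.card_pos.ne']
        intro q hq
        haveI : Fact q.Prime := ⟨hq⟩
        obtain ⟨Q, hQn⟩ := CfsgLib.CoprimeAction.exists_invariant_sylow hS'K hcop (Or.inl hsol) q
        have hne := hcon q ((Q : Subgroup K').map K'.subtype) (map_subtype_le _) (fun r hr hrd => by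
          rw [CfsgLib.CoprimeAction.card_sylow_map] at hrd
          exact (Nat.prime_dvd_prime_iff_eq hr hq).mp (hr.dvd_of_dvd_pow hrd)) hQn
        refine (hq.pow_dvd_iff_le_factorization Nat.card_pos.ne').1 ?_
        rw [← CfsgLib.CoprimeAction.card_sylow_map Q]
        refine card_dvd_of_le (le_inf (map_subtype_le _) ?_)
        have hX : ((Q : Subgroup K').map K'.subtype ⊔ S').comap π ≤ M := by
          refine hin _ (fun e => hne ?_) fun s hs => mem_sup_right ⟨s, hs, rfl⟩
          rw [← map_comap_eq_self_of_surjective hsurj ((Q : Subgroup K').map K'.subtype ⊔ S'), e,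
            map_top_of_surjective π hsurj]
        intro y hy
        obtain ⟨x, rfl⟩ := hsurj y
        exact ⟨x, hX (mem_sup_left hy), rfl⟩
      exact inf_eq_left.1 (eq_of_le_of_card_ge inf_le_left (Nat.le_of_dvd Nat.card_pos hdvd))
    have hKM' : K ≤ M := by
      refine (map_le_iff_le_comap.mp hKM).trans ?_
      rw [comap_map_eq, QuotientGroup.ker_mk']
      exact sup_le le_rfl (hOS.trans hSM)
    exact hM (top_le_iff.mp ((CfsgLib.Transfer.pResidual_sup_sylow S).ge.trans (sup_le hKM' hSM)))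
  haveI : Q.Normal := normalizer_eq_top_iff.mp (top_le_iff.mp (htop.ge.trans (sup_le le_normalizer hQS)))
  have hdvd : Nat.card (P ⧸ O) ∣ Nat.card S' * Nat.card Q := by
    have h := CfsgLib.PCore.card_sup_dvd Q S'
    rwa [sup_comm, htop, card_top] at h
  obtain ⟨a, ha⟩ := IsPGroup.iff_card.mp (isPGroup_pCore p P)
  refine le_trans (Finset.card_le_card (t := {p, q}) fun r hr => ?_) (Finset.card_le_two)
  obtain ⟨hr1, hr2, -⟩ := Nat.mem_primeFactors.mp hr
  rw [Finset.mem_insert, Finset.mem_singleton]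
  rw [card_eq_card_quotient_mul_card_subgroup O] at hr2
  rcases hr1.dvd_mul.mp hr2 with h | h
  · rcases hr1.dvd_mul.mp (h.trans hdvd) with h | h
    · exact Or.inl ((Nat.prime_dvd_prime_iff_eq hr1 hp).mp (hr1.dvd_of_dvd_pow (hb ▸ h)))
    · exact Or.inr (hQq r hr1 h)
  · exact Or.inl ((Nat.prime_dvd_prime_iff_eq hr1 hp).mp (hr1.dvd_of_dvd_pow (ha ▸ h)))

/-- Let P be a finite p-minimal group (a Sylow p-subgroup S is not normal and lies in a unique maximal subgroup M of P) and let F be the normal core of M. Then: every subnormal subgroup N of P contained in M satisfies N ∩ S ≤ O_p(P); if O^p(P) has a normal Sylow p-subgroup then the order of P has at most two prime divisors; every normal subgroup N of P either contains O^p(P) or is contained in F; and O^p(P)F ⧸ F is a minimal normal subgroup of P ⧸ F. -/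
theorem result {P : Type*} [Group P] [Finite P] {p : ℕ} [Fact p.Prime] (hP : Cfsg.IsPMinimal p P) (S : Sylow p P) (M : Subgroup P) (hM : IsCoatom M) (hSM : (S : Subgroup P) ≤ M) [hF : M.normalCore.Normal] : (∀ N : Subgroup P, N.IsSubnormal → N ≤ M → N ⊓ (S : Subgroup P) ≤ Cfsg.pCore p P) ∧ ((∀ T : Sylow p ↥(Cfsg.pResidual p P), (T : Subgroup ↥(Cfsg.pResidual p P)).Normal) → (Nat.card P).primeFactors.card ≤ 2) ∧ (∀ N : Subgroup P, N.Normal → Cfsg.pResidual p P ≤ N ∨ N ≤ M.normalCore) ∧ (∀ N : Subgroup P, N.Normal → M.normalCore ≤ N → N ≤ Cfsg.pResidual p P ⊔ M.normalCore → N = M.normalCore ∨ N = Cfsg.pResidual p P ⊔ M.normalCore) ∧ M.normalCore < Cfsg.pResidual p P ⊔ M.normalCore := by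
  open Subgroup CfsgLib.PReduced in
  obtain ⟨-, A, -, hu⟩ := hP S
  have hMA : M = A := hu M ⟨hM, hSM⟩
  have hin : ∀ X : Subgroup P, X ≠ ⊤ → (S : Subgroup P) ≤ X → X ≤ M := fun X hX hSX => by
    obtain ⟨B, hB, hXB⟩ := (eq_top_or_exists_le_coatom X).resolve_left hX
    rw [hMA, ← hu B ⟨hB, hSX.trans hXB⟩]
    exact hXB
  set K := Cfsg.pResidual p P with hK
  haveI hKn : K.Normal := CfsgLib.Transfer.pResidual_normal
  set F := M.normalCore with hF'
  have hFM : F ≤ M := M.normalCore_le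
  have hdich : ∀ N : Subgroup P, N.Normal → K ≤ N ∨ N ≤ F := by
    intro N hN
    by_cases hNM : N ≤ M
    · exact Or.inr (Subgroup.normal_le_normalCore.mpr hNM)
    refine Or.inl (CfsgLib.PReduced.pResidual_le_of_forall_pow_mem N fun x => ?_)
    have htop : N ⊔ (S : Subgroup P) = ⊤ := by
      by_contra hne
      exact hNM (le_sup_left.trans (hin _ hne le_sup_right))
    obtain ⟨c, hc, t, ht, rfl⟩ := Subgroup.mem_sup_of_normal_left.mp (htop.ge (Subgroup.mem_top x))
    obtain ⟨k, hk⟩ := CfsgLib.PReduced.exists_pow_eq_one_of_mem S.isPGroup' ht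
    refine ⟨k, (QuotientGroup.eq_one_iff (N := N) _).mp ?_⟩
    rw [QuotientGroup.mk_pow, QuotientGroup.mk_mul, (QuotientGroup.eq_one_iff c).mpr hc, one_mul,
      ← QuotientGroup.mk_pow, hk, QuotientGroup.mk_one]
  refine ⟨subnormal_part S hM.1 hSM hin, two_primes S hM.1 hSM hin, hdich, fun N hN hFN hNK => ?_, ?_⟩
  · rcases hdich N hN with h | h
    · exact Or.inr (le_antisymm hNK (sup_le h hFN))
    · exact Or.inl (le_antisymm h hFN)
  · refine lt_of_le_of_ne le_sup_right fun e => hM.1 ?_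
    refine top_le_iff.mp ((CfsgLib.Transfer.pResidual_sup_sylow S).ge.trans (sup_le ?_ hSM))
    exact (le_sup_left.trans e.ge).trans hFM

end Cfsg.Agent.S2905
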