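import Cfsg.Statements.S2906
import Cfsg.Agent.PReduced.FStarAction
import Cfsg.Agent.PReduced.PIrreducible
import Cfsg.Agent.Components.Basic
import Cfsg.Agent.Subnormal.Basic
import Cfsg.Agent.Hall.StructBatch

set_option autoImplicit false
open Cfsg

namespace Cfsg.Agent.S2906

open Subgroup CfsgLib.PReduced CfsgLib.Subnormal
open scoped commutatorElement
open Cfsg (IsComponent layer)

/-- A perfect subgroup lies in `O^p`. -/
theorem perfect_le_residual {G : Type*} [Group G] [Finite G] {p : ℕ} [Fact p.Prime] {K : Subgroup G}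
    (h : ⁅K, K⁆ = K) : K ≤ Cfsg.pResidual p G := by
  haveI := CfsgLib.Transfer.pResidual_normal (p := p) (G := G)
  set π := QuotientGroup.mk' (Cfsg.pResidual p G) with hπ
  haveI : Group.IsNilpotent (K.map π) :=
    ((CfsgLib.Transfer.isPGroup_quotient_pResidual (p := p) (G := G)).to_subgroup _).isNilpotent
  have hperf : Group.IsPerfect (K.map π) := by
    refine ⟨map_injective (K.map π).subtype_injective ?_⟩
    rw [_root_.commutator_def, Subgroup.map_commutator, ← MonoidHom.range_eq_map, range_subtype, ← Subgroup.map_commutator, h]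
  have hsub : Subsingleton (K.map π) := by
    by_contra hn
    haveI := not_subsingleton_iff_nontrivial.mp hn
    exact Group.IsPerfect.not_isNilpotent (K.map π) inferInstance
  intro x hx
  exact (QuotientGroup.eq_one_iff x).mp
    (congrArg Subtype.val (hsub.elim ⟨π x, mem_map_of_mem π hx⟩ (1 : K.map π)) : π x = 1)

/-- A Sylow subgroup of a normal `p'`-subgroup normalized by a given Sylow `p`-subgroup. -/
theorem sylow_choice {G : Type*} [Group G] [Finite G] {p : ℕ} [Fact p.Prime] (S : Sylow p G) (N : Subgroup G) [N.Normal]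
    (hN : ¬ p ∣ Nat.card N) (r : ℕ) [Fact r.Prime] :
    ∃ R : Sylow r N, (S : Subgroup G) ≤ normalizer (((R : Subgroup N).map N.subtype : Subgroup G) : Set G) ∧
      normalizer (((R : Subgroup N).map N.subtype : Subgroup G) : Set G) ⊔ N = ⊤ := by
  obtain ⟨R0⟩ : Nonempty (Sylow r N) := inferInstance
  set W := normalizer (((R0 : Subgroup N).map N.subtype : Subgroup G) : Set G) with hW
  have h := Sylow.normalizer_sup_eq_top R0
  have hidx : ¬ p ∣ W.index := by
    have h1 : N.index ∣ Nat.card W := by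
      rw [← relIndex_top_right, ← h, relIndex_sup_right]; exact relIndex_dvd_card _ _
    have h2 : Nat.card W * W.index ∣ Nat.card W * Nat.card N := by
      rw [Subgroup.card_mul_index, ← N.card_mul_index, mul_comm (Nat.card W)]
      exact mul_dvd_mul_left _ h1
    exact fun hd => hN (hd.trans (Nat.dvd_of_mul_dvd_mul_left Nat.card_pos h2))
  obtain ⟨T⟩ : Nonempty (Sylow p W) := inferInstance
  obtain ⟨S', hS'⟩ := (T.isPGroup'.map W.subtype).exists_le_sylow
  have hSW : (S' : Subgroup G) ≤ W := by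
    refine (Subgroup.eq_of_le_of_card_ge hS' ?_).ge.trans (map_subtype_le _)
    rw [card_map_of_injective W.subtype_injective, Sylow.card_eq_multiplicity, Sylow.card_eq_multiplicity,
      ← W.card_mul_index, Nat.factorization_mul Nat.card_pos.ne' Subgroup.index_ne_zero_of_finite,
      Finsupp.add_apply, Nat.factorization_eq_zero_of_not_dvd hidx, add_zero]
  obtain ⟨g, hg⟩ := MulAction.exists_smul_eq G S' S
  let φ : N ≃* N := (MulAut.conjNormal g : MulAut N)
  refine ⟨R0.mapSurjective (f := φ.toMonoidHom) φ.surjective, ?_⟩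
  have hmap : ((R0.mapSurjective (f := φ.toMonoidHom) φ.surjective : Sylow r N) : Subgroup N).map N.subtype =
      ((R0 : Subgroup N).map N.subtype).map (MulAut.conj g).toMonoidHom := by
    show ((R0 : Subgroup N).map φ.toMonoidHom).map N.subtype = _
    rw [Subgroup.map_map, Subgroup.map_map]
    congr 1
  rw [hmap]
  constructor
  · rw [← hg, Sylow.coe_subgroup_smul]
    exact (map_mono hSW).trans (le_normalizer_map _)
  · refine top_le_iff.mp (le_trans ?_ (sup_le_sup_right (le_normalizer_map (MulAut.conj g).toMonoidHom) N))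
    have := congrArg (Subgroup.map (MulAut.conj g).toMonoidHom) h
    rw [Subgroup.map_sup, Subgroup.map_top_of_surjective _ (MulAut.conj g).surjective,
      conj_eq_self_iff.mpr (show g ∈ normalizer (N : Set G) by rw [normalizer_eq_top]; exact mem_top g)] at this
    exact this.ge

/-- Normal `p'`-subgroups of a p-minimal group are nilpotent. -/
theorem nilpotent_of_coprime {G : Type*} [Group G] [Finite G] {p : ℕ} [Fact p.Prime] (S : Sylow p G) {M : Subgroup G}
    (hM : M ≠ ⊤) (hin : ∀ X : Subgroup G, X ≠ ⊤ → (S : Subgroup G) ≤ X → X ≤ M) (N : Subgroup G) [N.Normal]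
    (hN : ¬ p ∣ Nat.card N) : Group.IsNilpotent N := by
  by_cases hNM : N ≤ M
  · refine (Group.isNilpotent_of_finite_tfae.out 3 0).mp fun r hr R => ?_
    haveI := hr
    obtain ⟨R1, hS1, hW1⟩ := sylow_choice S N hN r
    set W := normalizer (((R1 : Subgroup N).map N.subtype : Subgroup G) : Set G) with hW
    have htop : W = ⊤ := by
      by_contra hne
      exact hM (top_le_iff.mp (hW1.ge.trans (sup_le (hin _ hne hS1) hNM)))
    have hn1 : (R1 : Subgroup N).Normal := by
      refine normalizer_eq_top_iff.mp (top_le_iff.mp fun n _ => ?_)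
      have hn : (n : G) ∈ W := htop ▸ mem_top _
      refine conj_eq_self_iff.mp (Subgroup.eq_of_le_of_card_ge ?_
        (card_map_of_injective (MulAut.conj n).injective).ge)
      rintro _ ⟨y, hy, rfl⟩
      obtain ⟨z, hz, hze⟩ := (mem_normalizer_iff.mp hn _).mp (mem_map_of_mem N.subtype hy)
      show n * y * n⁻¹ ∈ (R1 : Subgroup N)
      rwa [← (Subtype.ext hze : z = n * y * n⁻¹)]
    obtain ⟨c, rfl⟩ := MulAction.exists_smul_eq N R1 R
    rw [Sylow.smul_eq_of_normal (h := hn1)]
    exact hn1
  · by_cases hall : ∀ q : ℕ, q.Prime → ∃ R : Sylow q N, (R : Subgroup N) ≤ M.subgroupOf N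
    · exfalso
      refine hNM (subgroupOf_eq_top.mp (index_eq_one.mp ?_))
      by_contra hne
      obtain ⟨q, hq, hdvd⟩ := Nat.exists_prime_and_dvd hne
      haveI : Fact q.Prime := ⟨hq⟩
      obtain ⟨R, hR⟩ := hall q hq
      exact R.not_dvd_index (hdvd.trans (index_dvd_of_le hR))
    · push_neg at hall
      obtain ⟨q, hq, hq'⟩ := hall
      haveI : Fact q.Prime := ⟨hq⟩
      obtain ⟨R, hSR, -⟩ := sylow_choice S N hN q
      have he : (R : Subgroup N).map N.subtype ⊔ (S : Subgroup G) = ⊤ := by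
        by_contra h
        exact hq' R fun x hx => (le_sup_left.trans (hin _ h le_sup_right)) (mem_map_of_mem N.subtype hx)
      have hcop : N ⊓ (S : Subgroup G) = ⊥ := by
        obtain ⟨k, hk⟩ := IsPGroup.iff_card.mp S.isPGroup'
        exact eq_bot_of_card_eq _ (Nat.eq_one_of_dvd_coprimes
          (((Fact.out : p.Prime).coprime_iff_not_dvd.mpr hN).pow_left k).symm
          (card_dvd_of_le inf_le_left) (hk ▸ card_dvd_of_le inf_le_right))
      have hRtop : (R : Subgroup N) = ⊤ := by
        rw [eq_top_iff]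
        intro n _
        have hn : (n : G) ∈ (R : Subgroup N).map N.subtype ⊔ (S : Subgroup G) := he ▸ mem_top _
        rw [sup_comm, ← SetLike.mem_coe, coe_mul_of_left_le_normalizer_right _ _ hSR] at hn
        obtain ⟨s, hs, w, ⟨w', hw', rfl⟩, hsw⟩ := hn
        have hsw' : s * (w' : G) = (n : G) := hsw
        have hs1 : s ∈ N ⊓ (S : Subgroup G) := ⟨by
          have h2 := mul_mem n.2 (inv_mem w'.2)
          rwa [← hsw', mul_inv_cancel_right] at h2, hs⟩
        rw [hcop, mem_bot] at hs1
        rw [hs1, one_mul] at hsw'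
        rwa [← Subtype.ext hsw']
      exact (R.isPGroup'.of_equiv ((MulEquiv.subgroupCongr hRtop).trans Subgroup.topEquiv)).isNilpotent

/-- Let P be a finite p-minimal group with O_p(P) = 1, S a Sylow p-subgroup of P and K a component of P. Then O^p(P) = F*(P) = E(P) is generated by the S-conjugates of K, and the subgroup K·N_S(K) is again p-minimal. -/
theorem result {P : Type*} [Group P] [Finite P] {p : ℕ} [Fact p.Prime] (hP : Cfsg.IsPMinimal p P) (hOp : Cfsg.pCore p P = ⊥) (S : Sylow p P) (K : Subgroup P) (hK : Cfsg.IsComponent K) : Cfsg.pResidual p P = Cfsg.generalizedFittingSubgroup P ∧ Cfsg.generalizedFittingSubgroup P = Cfsg.layer P ∧ Cfsg.layer P = ⨆ s : ↥(S : Subgroup P), K.map (MulAut.conj (s : P)).toMonoidHom ∧ Cfsg.IsPMinimal p ↥(K ⊔ ((S : Subgroup P) ⊓ Subgroup.normalizer (K : Set P))) := by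
  obtain ⟨hSn, M, ⟨hM, hSM⟩, hMu⟩ := hP S
  have hin : ∀ X : Subgroup P, X ≠ ⊤ → (S : Subgroup P) ≤ X → X ≤ M := by
    intro X hX hSX
    obtain ⟨C, hC, hXC⟩ := (eq_top_or_exists_le_coatom X).resolve_left hX
    exact (hMu C ⟨hC, hSX.trans hXC⟩) ▸ hXC
  have hjoin : ∀ N : Subgroup P, ¬ N ≤ M → N ⊔ (S : Subgroup P) = ⊤ := fun N hN => by
    by_contra h
    exact hN (le_sup_left.trans (hin _ h le_sup_right))
  set E := layer P with hE
  haveI hEn : E.Normal := CfsgLib.Components.layer_normal
  have hKE : K ≤ E := CfsgLib.Components.component_le_layer hK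
  have hpK : p ∣ Nat.card K := by
    by_contra hnd
    haveI : (Cfsg.pPrimeCore p P).Normal := by
      haveI := CfsgLib.Components.pPrimeCore_characteristic (G := P) p
      infer_instance
    haveI := nilpotent_of_coprime S hM.1 hin (Cfsg.pPrimeCore p P)
      ((Fact.out : p.Prime).coprime_iff_not_dvd.mp (CfsgLib.Components.pPrimeCore_coprime p).symm)
    have hle := CfsgLib.Components.subnormal_le_pPrimeCore hK.1
      ((Fact.out : p.Prime).coprime_iff_not_dvd.mpr hnd).symm
    exact CfsgLib.Components.quasisimple_not_nilpotent hK.2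
      (nilpotent_of_mulEquiv (subgroupOfEquivOfLe hle))
  have hnle : ∀ N : Subgroup P, N.Normal → K ≤ N → ¬ N ≤ M := by
    intro N hN hKN hNM
    haveI := hN
    obtain ⟨x, hx⟩ := exists_prime_orderOf_dvd_card' p hpK
    have h1 := mem_pCore_of_le_unique S hM.1 hin hNM (hKN x.2) ⟨1, by
      rw [pow_one]; have := pow_orderOf_eq_one (x : P); rwa [orderOf_coe, hx] at this⟩
    rw [hOp, mem_bot] at h1
    rw [← orderOf_coe, h1, orderOf_one] at hx
    exact (Fact.out : p.Prime).ne_one hx.symm
  -- `O^p(P) = E(P)`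
  set R := Cfsg.pResidual p P with hR
  haveI hRn : R.Normal := CfsgLib.Transfer.pResidual_normal
  have hres_le : ∀ N : Subgroup P, N.Normal → ¬ N ≤ M → R ≤ N := by
    intro N hN hNM
    haveI := hN
    refine pResidual_le_of_forall_pow_mem N fun x => ?_
    have hx : x ∈ N ⊔ (S : Subgroup P) := (hjoin N hNM) ▸ mem_top x
    rw [← SetLike.mem_coe, normal_mul] at hx
    obtain ⟨n, hn, s, hs, rfl⟩ := hx
    obtain ⟨k, hk⟩ := exists_pow_eq_one_of_mem S.isPGroup' hs
    refine ⟨k, (QuotientGroup.eq_one_iff (N := N) _).mp ?_⟩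
    show QuotientGroup.mk' N ((n * s) ^ p ^ k) = 1
    rw [map_pow, map_mul, show QuotientGroup.mk' N n = 1 from (QuotientGroup.eq_one_iff n).mpr hn, one_mul,
      ← map_pow, hk, map_one]
  have hER : E ≤ R := perfect_le_residual CfsgLib.Components.commutator_layer
  have hEM : ¬ E ≤ M := hnle E hEn hKE
  have hRE : R = E := le_antisymm (hres_le E hEn hEM) hER
  have hFR : Cfsg.fittingSubgroup P ≤ R := fun x hx => CfsgLib.Transfer.mem_pResidual_of_coprime
    ((FStarAct.fitting_coprime (p := p) hOp).coprime_dvd_left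
      (orderOf_mk x hx ▸ orderOf_dvd_natCard _))
  have hFS : Cfsg.generalizedFittingSubgroup P = E := le_antisymm (sup_le le_rfl (hFR.trans hRE.le)) le_sup_left
  set K1 := ⨆ s : ↥(S : Subgroup P), K.map (MulAut.conj (s : P)).toMonoidHom with hK1
  have hcomp : ∀ g : P, IsComponent (K.map (MulAut.conj g).toMonoidHom) := CfsgLib.Components.isComponent_conj hK
  have hK1E : K1 ≤ E := iSup_le fun s => CfsgLib.Components.component_le_layer (hcomp s)
  have hK1n : K1.Normal := by
    refine normalizer_eq_top_iff.mp (top_le_iff.mp ((hjoin E hEM).ge.trans (sup_le ?_ ?_)))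
    · intro e he
      refine conj_eq_self_iff.mp (Subgroup.eq_of_le_of_card_ge ?_
        (card_map_of_injective (MulAut.conj e).injective).ge)
      rw [hK1, Subgroup.map_iSup]
      exact iSup_le fun s => (conj_eq_self_iff.mpr (CfsgLib.Components.component_normal_in_layer (hcomp s) he)).le.trans
        (le_iSup (fun s : ↥(S : Subgroup P) => K.map (MulAut.conj (s : P)).toMonoidHom) s)
    · intro t ht
      refine conj_eq_self_iff.mp (Subgroup.eq_of_le_of_card_ge ?_
        (card_map_of_injective (MulAut.conj t).injective).ge)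
      rw [hK1, Subgroup.map_iSup]
      refine iSup_le fun s => ?_
      rw [conj_conj]
      exact le_iSup (fun s : ↥(S : Subgroup P) => K.map (MulAut.conj (s : P)).toMonoidHom) (⟨t, ht⟩ * s)
  have hKK1 : K ≤ K1 := (conj_one K).ge.trans
    (le_of_eq_of_le (by simp) (le_iSup (fun s : ↥(S : Subgroup P) => K.map (MulAut.conj (s : P)).toMonoidHom) 1))
  have hK1eq : E = K1 := le_antisymm (hRE.ge.trans (hres_le K1 hK1n (hnle K1 hK1n hKK1))) hK1E
  refine ⟨hRE.trans hFS.symm, hFS, hK1eq, ?_⟩
  -- the p-minimal subgroup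
  set T := (S : Subgroup P) ⊓ normalizer (K : Set P) with hT
  set X := K ⊔ T with hX
  have hTX : T ≤ X := le_sup_right
  have hXn : X ≤ normalizer (K : Set P) := sup_le le_normalizer inf_le_right
  obtain ⟨QK, hQK⟩ := CfsgLib.Hall.Struct.sylow_subgroupOf_subnormal K hK.1 S
  have hTp : IsPGroup p (T.subgroupOf X) :=
    (S.isPGroup'.to_le inf_le_left).of_equiv (subgroupOfEquivOfLe hTX).symm
  have hTmax : ∀ Q' : Subgroup X, IsPGroup p Q' → T.subgroupOf X ≤ Q' → Q' = T.subgroupOf X := by
    intro Q' hQ' hle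
    refine le_antisymm (fun y hy => ?_) hle
    have hy' : (y : P) ∈ T ⊔ K := sup_comm K T ▸ y.2
    rw [← SetLike.mem_coe, coe_mul_of_left_le_normalizer_right _ _ inf_le_right] at hy'
    obtain ⟨t, ht, k, hk, htk⟩ := hy'
    have hQK' : (QK : Subgroup K) ≤ (Q'.map X.subtype).subgroupOf K := by
      intro z hz
      rw [hQK] at hz
      exact ⟨⟨z, mem_sup_left z.2⟩, hle (show (z : P) ∈ T from ⟨hz, le_normalizer z.2⟩), rfl⟩
    have hkQ : (⟨k, hk⟩ : K) ∈ (QK : Subgroup K) := by
      rw [← QK.3 ((hQ'.map X.subtype).comap_of_injective K.subtype K.subtype_injective) hQK']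
      refine ⟨⟨k, mem_sup_left hk⟩, ?_, rfl⟩
      have h2 : (⟨k, mem_sup_left hk⟩ : X) = (⟨t, hTX ht⟩ : X)⁻¹ * y := by
        refine Subtype.ext ?_
        show k = t⁻¹ * (y : P)
        rw [← htk]; group
      show (⟨k, mem_sup_left hk⟩ : X) ∈ Q'
      rw [h2]
      exact mul_mem (inv_mem (hle (show (⟨t, hTX ht⟩ : X) ∈ T.subgroupOf X from ht))) hy
    rw [hQK] at hkQ
    show (y : P) ∈ T
    rw [← htk]
    exact mul_mem ht ⟨hkQ, le_normalizer hk⟩
  let TS : Sylow p X := ⟨T.subgroupOf X, hTp, fun {Q'} h1 h2 => hTmax Q' h1 h2⟩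
  have hTnn : ¬ (T.subgroupOf X).Normal := by
    intro hn
    set D := (QK : Subgroup K) with hD
    have hDn : D.Normal := by
      refine ⟨fun z hz k => ?_⟩
      rw [show D = (S : Subgroup P).subgroupOf K from hQK] at hz ⊢
      exact (hn.conj_mem (⟨z, mem_sup_left z.2⟩ : X) (show (z : P) ∈ T from ⟨hz, le_normalizer z.2⟩)
        ⟨k, mem_sup_left k.2⟩).1
    have h1 := CfsgLib.Components.subnormal_le_pCore (CfsgLib.Components.subnormal_map_subtype hDn.isSubnormal hK.1)
      (QK.isPGroup'.map K.subtype)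
    rw [hOp, le_bot_iff, map_eq_bot_iff_of_injective _ K.subtype_injective] at h1
    exact QK.ne_bot_of_dvd_card hpK h1
  have hKM : ¬ K ≤ M := by
    intro h
    refine hnle K1 hK1n hKK1 (iSup_le fun s => ?_)
    exact (map_mono h).trans (conj_eq_self_iff.mpr (le_normalizer (hSM s.2))).le
  set M0 := (M ⊓ X).subgroupOf X with hM0
  have hM0t : M0 ≠ ⊤ := fun e => hKM (le_sup_left.trans ((subgroupOf_eq_top.mp e).trans inf_le_left))
  have hTM0 : T.subgroupOf X ≤ M0 := fun z hz => show (z : P) ∈ M ⊓ X from ⟨hSM hz.1, z.2⟩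
  have hprop : ∀ Y : Subgroup X, T.subgroupOf X ≤ Y → Y ≠ ⊤ → Y ≤ M0 := by
    intro Y hTY hY
    set Y' := Y.map X.subtype with hY'
    have hY'X : Y' ≤ X := map_subtype_le Y
    have hTY' : T ≤ Y' := fun z hz => ⟨⟨z, hTX hz⟩, hTY hz, rfl⟩
    set KY := Y' ⊓ K with hKY
    have hKKY : ¬ K ≤ Y' := fun h => hY (by
      rw [eq_top_iff]
      intro z _
      obtain ⟨w, hw, hwz⟩ := sup_le h hTY' z.2
      exact (Subtype.ext hwz : w = z) ▸ hw)
    set W := ⨆ s : ↥(S : Subgroup P), KY.map (MulAut.conj (s : P)).toMonoidHom with hW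
    have hSW : (S : Subgroup P) ≤ normalizer (W : Set P) := by
      intro t ht
      refine conj_eq_self_iff.mp (Subgroup.eq_of_le_of_card_ge ?_
        (card_map_of_injective (MulAut.conj t).injective).ge)
      rw [hW, Subgroup.map_iSup]
      refine iSup_le fun s => ?_
      rw [conj_conj]
      exact le_iSup (fun s : ↥(S : Subgroup P) => KY.map (MulAut.conj (s : P)).toMonoidHom) (⟨t, ht⟩ * s)
    have hWS : W ⊔ (S : Subgroup P) ≠ ⊤ := by
      intro e
      haveI hWn : W.Normal := normalizer_eq_top_iff.mp (top_le_iff.mp (e.ge.trans (sup_le le_normalizer hSW)))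
      have hWM : ¬ W ≤ M := fun h => hM.1 (top_le_iff.mp (e.ge.trans (sup_le h hSM)))
      have hKW : K ≤ W := (hKE.trans hRE.ge).trans (hres_le W hWn hWM)
      have hKYC : KY ≤ normalizer ((centralizer (K : Set P) : Subgroup P) : Set P) :=
        (inf_le_right.trans le_normalizer).trans (by
          intro g hg
          refine conj_eq_self_iff.mp ?_
          refine Subgroup.eq_of_le_of_card_ge ?_ (card_map_of_injective (MulAut.conj g).injective).ge
          rintro _ ⟨c, hc, rfl⟩
          refine mem_centralizer_iff.mpr fun k hk => ?_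
          have hk' : g⁻¹ * k * g ∈ K := by simpa using (mem_normalizer_iff.mp (inv_mem hg) k).mp hk
          have := mem_centralizer_iff.mp hc _ hk'
          show k * (g * c * g⁻¹) = g * c * g⁻¹ * k
          calc k * (g * c * g⁻¹) = g * (g⁻¹ * k * g * c) * g⁻¹ := by group
            _ = g * (c * (g⁻¹ * k * g)) * g⁻¹ := by rw [this]
            _ = _ := by group)
      have hsplit : W ≤ KY ⊔ centralizer (K : Set P) := by
        refine iSup_le fun s => ?_
        by_cases hs : K.map (MulAut.conj (s : P)).toMonoidHom = K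
        · refine le_trans ?_ le_sup_left
          have hsT : (s : P) ∈ T := ⟨s.2, conj_eq_self_iff.mp hs⟩
          refine le_inf ?_ ((map_mono inf_le_right).trans hs.le)
          exact (map_mono inf_le_left).trans (conj_eq_self_iff.mpr (le_normalizer (hTY' hsT))).le
        · refine le_trans (map_mono inf_le_right) (le_trans ?_ le_sup_right)
          exact commutator_eq_bot_iff_le_centralizer.mp
            (CfsgLib.Components.components_commute (hcomp s) hK hs)
      refine hKKY ?_
      have hdec : ∀ k ∈ K, ∃ a ∈ KY, ∀ z ∈ K, z * (a⁻¹ * k) = (a⁻¹ * k) * z := by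
        intro k hk
        have h1 := hsplit (hKW hk)
        rw [← SetLike.mem_coe, coe_mul_of_left_le_normalizer_right _ _ hKYC] at h1
        obtain ⟨a, ha, c, hc, rfl⟩ := h1
        exact ⟨a, ha, fun z hz => by rw [inv_mul_cancel_left]; exact mem_centralizer_iff.mp hc z hz⟩
      conv_lhs => rw [← CfsgLib.Components.quasisimple_commutator hK.2]
      rw [commutator_le]
      intro k hk l hl
      obtain ⟨a, ha, hc⟩ := hdec k hk
      obtain ⟨b, hb, hd⟩ := hdec l hl
      have hka : k = a * (a⁻¹ * k) := by group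
      have hlb : l = b * (b⁻¹ * l) := by group
      set c := a⁻¹ * k
      set d := b⁻¹ * l
      have h3 : ⁅k, l⁆ = ⁅a, b⁆ := by
        have hcl : c * l = l * c := (hc l hl).symm
        have hda : a * d = d * a := hd a ha.2
        rw [hka]
        calc ⁅a * c, l⁆ = a * (c * l) * c⁻¹ * a⁻¹ * l⁻¹ := by simp only [commutatorElement_def]; group
          _ = a * l * a⁻¹ * l⁻¹ := by rw [hcl]; group
          _ = a * (b * d) * a⁻¹ * (b * d)⁻¹ := by rw [← hlb]
          _ = a * b * (d * a⁻¹) * d⁻¹ * b⁻¹ := by group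
          _ = a * b * (a⁻¹ * d) * d⁻¹ * b⁻¹ := by
            rw [show d * a⁻¹ = a⁻¹ * d by
              rw [eq_inv_mul_iff_mul_eq, ← mul_assoc, hda, mul_inv_cancel_right]]
          _ = _ := by simp only [commutatorElement_def]; group
      rw [h3]
      exact Y'.mul_mem (Y'.mul_mem (Y'.mul_mem ha.1 hb.1) (Y'.inv_mem ha.1)) (Y'.inv_mem hb.1)
    have hKYM : KY ≤ M := by
      refine le_trans ?_ (le_sup_left.trans (hin _ hWS le_sup_right))
      exact (conj_one KY).ge.trans
        (le_of_eq_of_le (by simp) (le_iSup (fun s : ↥(S : Subgroup P) => KY.map (MulAut.conj (s : P)).toMonoidHom) 1))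
    intro y hy
    have hy' : (y : P) ∈ T ⊔ K := sup_comm K T ▸ y.2
    rw [← SetLike.mem_coe, coe_mul_of_left_le_normalizer_right _ _ inf_le_right] at hy'
    obtain ⟨t, ht, k, hk, htk⟩ := hy'
    have hk' : k ∈ KY := ⟨by
      have := Y'.mul_mem (Y'.inv_mem (hTY' ht)) (mem_map_of_mem X.subtype hy)
      rwa [show t⁻¹ * X.subtype y = k by show t⁻¹ * (y : P) = k; rw [← htk]; group] at this, hk⟩
    refine show (y : P) ∈ M ⊓ X from ⟨?_, y.2⟩
    rw [← htk]
    exact mul_mem (hSM ht.1) (hKYM hk')
  intro Q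
  obtain ⟨g, rfl⟩ := MulAction.exists_smul_eq X TS Q
  have hconj : ∀ C : Subgroup X, ((g • TS : Sylow p X) : Subgroup X) ≤ C ↔
      T.subgroupOf X ≤ C.map (MulAut.conj g⁻¹).toMonoidHom := by
    intro C
    rw [Sylow.coe_subgroup_smul]
    refine (map_le_iff_le_comap).trans ?_
    rw [le_conj_iff, inv_inv, map_le_iff_le_comap]
    rfl
  have hcoatom : IsCoatom M0 := ⟨hM0t, fun C hC => by
    by_contra hne
    exact hC.not_ge (hprop C (hTM0.trans hC.le) hne)⟩
  refine ⟨fun hn => hTnn ?_, M0.map (MulAut.conj g).toMonoidHom, ⟨?_, ?_⟩, ?_⟩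
  · have e : g⁻¹ • (g • TS) = g • TS := Sylow.smul_eq_of_normal (h := hn)
    rw [inv_smul_smul] at e
    show (TS : Subgroup X).Normal
    rw [e]; exact hn
  · exact ((MulAut.conj g).mapSubgroup.isCoatom_iff M0).mpr hcoatom
  · rw [hconj, conj_conj, inv_mul_cancel, conj_one]; exact hTM0
  · rintro C ⟨hC, hTC⟩
    have hC' : IsCoatom (C.map (MulAut.conj g⁻¹).toMonoidHom) :=
      ((MulAut.conj g⁻¹).mapSubgroup.isCoatom_iff C).mpr hC
    have e := (hC'.le_iff_eq hM0t).mp (hprop _ ((hconj C).mp hTC) hC'.1)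
    rw [e, conj_conj, mul_inv_cancel, conj_one]

end Cfsg.Agent.S2906
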