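import Cfsg.Statements.S2907
import Cfsg.Agent.PReduced.Basic

set_option autoImplicit false
open Cfsg

namespace Cfsg.Agent.S2907

open Subgroup in
/-- In a semi-extraspecial group every element of the centre is a commutator with a given non-central element. -/
theorem aux {X : Type*} [Group X] [Finite X] {p : ℕ} [hp : Fact p.Prime] (hX : Cfsg.IsSemiExtraspecial p X)
    (x : X) (hx : x ∉ center X) :
    (centralizer ({x} : Set X)).index = Nat.card ↥(center X) ∧
      {z : X | ∃ y : X, z = x * y * x⁻¹ * y⁻¹} = (center X : Set X) := by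
  obtain ⟨⟨-, -, hcom⟩, hY⟩ := hX
  have hcen : ∀ y, x * y * x⁻¹ * y⁻¹ ∈ center X := fun y => by
    rw [← hcom]
    exact Subgroup.commutator_mem_commutator (mem_top x) (mem_top y)
  let f : X →* center X :=
    { toFun := fun y => ⟨x * y * x⁻¹ * y⁻¹, hcen y⟩
      map_one' := Subtype.ext (by simp)
      map_mul' := fun y z => by
        refine Subtype.ext ?_
        show x * (y * z) * x⁻¹ * (y * z)⁻¹ = x * y * x⁻¹ * y⁻¹ * (x * z * x⁻¹ * z⁻¹)
        have := mem_center_iff.mp (hcen z) y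
        calc x * (y * z) * x⁻¹ * (y * z)⁻¹ = x * y * x⁻¹ * (x * z * x⁻¹ * z⁻¹) * y⁻¹ := by group
          _ = x * y * x⁻¹ * (y⁻¹ * (y * (x * z * x⁻¹ * z⁻¹))) * y⁻¹ := by group
          _ = x * y * x⁻¹ * (y⁻¹ * ((x * z * x⁻¹ * z⁻¹) * y)) * y⁻¹ := by rw [this]
          _ = _ := by group }
  have hker : f.ker = centralizer ({x} : Set X) := by
    ext y
    rw [MonoidHom.mem_ker, mem_centralizer_singleton_iff, Subtype.ext_iff]
    show x * y * x⁻¹ * y⁻¹ = 1 ↔ y * x = x * y
    rw [mul_inv_eq_one, mul_inv_eq_iff_eq_mul, eq_comm]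
  have hsurj : f.range = ⊤ := by
    by_contra hne
    obtain ⟨M, hM, hle⟩ := (eq_top_or_exists_le_coatom f.range).resolve_left hne
    set Y := M.map (center X).subtype with hYdef
    have hYc : Y ≤ center X := map_subtype_le _
    have hYsub : Y.subgroupOf (center X) = M := comap_map_eq_self_of_injective (center X).subtype_injective M
    obtain ⟨hn, ⟨-, -, -⟩, hcard⟩ := hY Y hYc (hYsub.symm ▸ hM)
    have hxY : (QuotientGroup.mk x : X ⧸ Y) ∈ center (X ⧸ Y) := by
      refine mem_center_iff.mpr fun g => ?_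
      obtain ⟨y, rfl⟩ := QuotientGroup.mk_surjective g
      symm
      rw [← QuotientGroup.mk_mul, ← QuotientGroup.mk_mul, QuotientGroup.eq]
      have h1 : (x * y * x⁻¹ * y⁻¹) ∈ Y := ⟨f y, hle ⟨y, rfl⟩, rfl⟩
      simpa [mul_assoc] using hn.conj_mem _ (inv_mem h1) (x * y)⁻¹
    obtain ⟨z, hz, hzM⟩ := SetLike.exists_of_lt (lt_top_iff_ne_top.mpr hM.1)
    have hzc : (QuotientGroup.mk (z : X) : X ⧸ Y) ∈ center (X ⧸ Y) := by
      refine mem_center_iff.mpr fun g => ?_
      obtain ⟨y, rfl⟩ := QuotientGroup.mk_surjective g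
      rw [← QuotientGroup.mk_mul, ← QuotientGroup.mk_mul, mem_center_iff.mp z.2 y]
    have hz1 : (QuotientGroup.mk (z : X) : X ⧸ Y) ≠ 1 := fun h => by
      have := (QuotientGroup.eq_one_iff (N := Y) _).mp h
      exact hzM (hYsub ▸ (this : z ∈ Y.subgroupOf (center X)))
    have hgen : zpowers (⟨_, hzc⟩ : center (X ⧸ Y)) = ⊤ :=
      zpowers_eq_top_of_prime_card hcard (fun h => hz1 (congrArg Subtype.val h))
    obtain ⟨i, hi⟩ := mem_zpowers_iff.mp (hgen ▸ mem_top (⟨_, hxY⟩ : center (X ⧸ Y)))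
    have hi' : ((z : X) ^ i : X ⧸ Y) = (x : X ⧸ Y) := by
      have := congrArg Subtype.val hi
      simpa using this
    rw [← QuotientGroup.mk_zpow, QuotientGroup.eq] at hi'
    exact hx (by simpa using mul_mem (zpow_mem z.2 i) (hYc hi'))
  refine ⟨?_, ?_⟩
  · rw [← hker, Subgroup.index_ker, hsurj, Subgroup.card_top]
  · ext z
    constructor
    · rintro ⟨y, rfl⟩
      exact hcen y
    · intro hz
      obtain ⟨y, hy⟩ := (hsurj ▸ mem_top (⟨z, hz⟩ : center X) : (⟨z, hz⟩ : center X) ∈ f.range)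
      exact ⟨y, (congrArg Subtype.val hy).symm⟩

/-- Let X be a finite semi-extraspecial p-group and x an element of X outside the centre. Then the index of C_X(x) in X equals the order of Z(X), and the commutators [x, y], y ∈ X, form exactly the centre Z(X). -/
theorem result {X : Type*} [Group X] [Finite X] {p : ℕ} [Fact p.Prime] (hX : Cfsg.IsSemiExtraspecial p X) (x : X) (hx : x ∉ Subgroup.center X) : (Subgroup.centralizer ({x} : Set X)).index = Nat.card ↥(Subgroup.center X) ∧ {z : X | ∃ y : X, z = x * y * x⁻¹ * y⁻¹} = (Subgroup.center X : Set X) := by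
  exact aux hX x hx

end Cfsg.Agent.S2907
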