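import Cfsg.Statements.S2909
import Cfsg.Agent.PReduced.CommutatorAction
import Cfsg.Agent.PReduced.Basic
import Cfsg.Agent.CoprimeAction.Invariant

set_option autoImplicit false
open Cfsg

namespace Cfsg.Agent.S2909

/-- Let p be a prime, E a normal p-subgroup of the finite group G, and U a non-cyclic elementary abelian p-subgroup of G such that either C_E(U) = C_E(u) for every nontrivial u ∈ U, or [E, U] = [E, ⟨u⟩] for every nontrivial u ∈ U. If R is a subgroup of order prime to p normalized by U, then [R, U] centralizes E. -/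
theorem result {G : Type*} [Group G] [Finite G] {p : ℕ} [Fact p.Prime] (E : Subgroup G) [E.Normal] (hE : IsPGroup p ↥E) (U : Subgroup G) (hU : Cfsg.IsElementaryAbelian p U) (hnc : ¬ IsCyclic ↥U) (hcond : (∀ u ∈ U, u ≠ 1 → E ⊓ Subgroup.centralizer (U : Set G) = E ⊓ Subgroup.centralizer ({u} : Set G)) ∨ (∀ u ∈ U, u ≠ 1 → ⁅E, U⁆ = ⁅E, Subgroup.zpowers u⁆)) (R : Subgroup G) (hR : ¬ p ∣ Nat.card ↥R) (hRU : U ≤ Subgroup.normalizer (R : Set G)) : ⁅R, U⁆ ≤ Subgroup.centralizer (E : Set G) := by
  open scoped commutatorElement in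
  open Subgroup in
  haveI : (Subgroup.centralizer (E : Set G)).Normal := Subgroup.normalizer_eq_top_iff.mp (top_le_iff.mp (by
    refine le_trans ?_ (CfsgLib.PReduced.normalizer_le_normalizer_centralizer E)
    rw [Subgroup.normalizer_eq_top]))
  haveI := hU.1
  have hp := (Fact.out : p.Prime)
  have hUp : IsPGroup p U := CfsgLib.PReduced.isPGroup_of_isElementaryAbelian hU
  set CE := Subgroup.centralizer (E : Set G) with hCE
  set W := (Subgroup.centralizer ((U.map (QuotientGroup.mk' CE) : Subgroup (G ⧸ CE)) : Set (G ⧸ CE))).comap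
    (QuotientGroup.mk' CE) with hW
  have hWle : R ≤ W → ⁅R, U⁆ ≤ CE := by
    intro h
    rw [Subgroup.commutator_le]
    intro r hr u hu
    rw [← QuotientGroup.eq_one_iff, ← QuotientGroup.mk'_apply, map_commutatorElement,
      commutatorElement_eq_one_iff_mul_comm]
    exact (Subgroup.mem_centralizer_iff.mp (h hr) _ ⟨u, hu, rfl⟩).symm
  refine hWle (CfsgLib.CoprimeAction.le_of_centralizers_le hnc hRU ?_ fun u hu hu1 => ?_)
  · obtain ⟨k, hk⟩ := IsPGroup.iff_card.mp hUp
    rw [hk]
    exact Nat.Coprime.pow_left _ (hp.coprime_iff_not_dvd.mpr hR)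
  set C := R ⊓ Subgroup.centralizer ({u} : Set G) with hC
  have hUc : U ≤ Subgroup.centralizer ({u} : Set G) := fun w hw => Subgroup.mem_centralizer_singleton_iff.mpr
    (congrArg Subtype.val (hU.1.is_comm.comm (⟨w, hw⟩ : U) ⟨u, hu⟩))
  have hUC : U ≤ Subgroup.normalizer (C : Set G) := fun w hw =>
    Subgroup.inf_normalizer_le_normalizer_inf ⟨hRU hw, Subgroup.le_normalizer (hUc hw)⟩
  set B := ⁅C, U⁆ with hB
  have hBC : B ≤ C := CfsgLib.PCore.commutator_le_of_le_normalizer hUC
  have hBp : ¬ p ∣ Nat.card B := fun h => hR (h.trans (Subgroup.card_dvd_of_le (hBC.trans inf_le_left)))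
  have hEn : ∀ X : Subgroup G, X ≤ Subgroup.normalizer (E : Set G) := fun X => by
    rw [Subgroup.normalizer_eq_top]; exact le_top
  have hzc : Subgroup.centralizer ((Subgroup.zpowers u : Subgroup G) : Set G) = Subgroup.centralizer ({u} : Set G) := by
    rw [Subgroup.zpowers_eq_closure, Subgroup.centralizer_closure]
  have hAp : IsPGroup p (Subgroup.zpowers u) := hUp.to_le (Subgroup.zpowers_le.mpr hu)
  have hBu : B ≤ Subgroup.centralizer ((Subgroup.zpowers u : Subgroup G) : Set G) := hzc ▸ hBC.trans inf_le_right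
  have key : B ≤ CE := by
    rcases hcond with h | h
    · refine CfsgLib.PCore.thompson_AxB hAp ((hp.coprime_iff_not_dvd.mpr hBp).symm) hE
        (fun a ha b hb => Subgroup.mem_centralizer_iff.mp (hBu hb) a ha) (hEn _) (hEn _) ?_
      rw [hzc, ← h u hu hu1]
      set F := E ⊓ Subgroup.centralizer (U : Set G) with hF
      have hCF : C ≤ Subgroup.normalizer (F : Set G) := by
        rw [h u hu hu1]
        exact fun c hc => Subgroup.inf_normalizer_le_normalizer_inf ⟨hEn _ hc, Subgroup.le_normalizer hc.2⟩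
      have hUF : U ≤ Subgroup.centralizer (F : Set G) := Subgroup.le_centralizer_iff.mp inf_le_right
      rw [hB, Subgroup.commutator_le]
      intro c hc w hw
      rw [commutatorElement_def]
      exact mul_mem ((Subgroup.mem_normalizer_iff.mp
        (CfsgLib.PReduced.normalizer_le_normalizer_centralizer F (hCF hc)) _).mp (hUF hw)) (inv_mem (hUF hw))
    · set D := ⁅E, U⁆ with hD
      have hCD : C ≤ Subgroup.normalizer (D : Set G) := by
        rw [h u hu hu1]
        refine CfsgLib.PCore.le_normalizer_commutator (hEn _) ?_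
        exact fun c hc => Subgroup.centralizer_le_normalizer _ (hzc.symm ▸ hc.2)
      have hUD : U ≤ Subgroup.normalizer (D : Set G) := CfsgLib.CoprimeAction.le_normalizer_commutator (hEn _)
      have hED : E ≤ Subgroup.normalizer (D : Set G) := CfsgLib.CoprimeAction.self_le_normalizer_commutator
      have h3 : ⁅B, E⁆ ≤ D := by
        refine CfsgLib.PReduced.commutator_rotate_le hUD hED hCD ?_ ?_
        · rw [Subgroup.commutator_comm U E]
          exact CfsgLib.PCore.commutator_le_of_le_normalizer hCD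
        · exact Subgroup.commutator_mono (CfsgLib.PCore.commutator_le_of_le_normalizer (hEn _)) le_rfl
      have h4 := CfsgLib.PReduced.commutator_eq_bot_of_le hE hAp hBp (hEn _) (hEn _)
        (Subgroup.commutator_eq_bot_iff_le_centralizer.mpr (Subgroup.le_centralizer_iff.mp hBu))
        (by rw [← h u hu hu1, Subgroup.commutator_comm]; exact h3)
      rw [Subgroup.commutator_comm] at h4
      exact Subgroup.commutator_eq_bot_iff_le_centralizer.mp h4
  intro c hc
  rw [hW, Subgroup.mem_comap, Subgroup.mem_centralizer_iff]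
  rintro _ ⟨w, hw, rfl⟩
  have h5 : (QuotientGroup.mk' CE) ⁅c, w⁆ = 1 :=
    (QuotientGroup.eq_one_iff _).mpr (key (Subgroup.commutator_mem_commutator hc hw))
  rw [map_commutatorElement, commutatorElement_eq_one_iff_mul_comm] at h5
  exact h5.symm

end Cfsg.Agent.S2909
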