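import Cfsg.Statements.S2910
import Cfsg.Agent.Transfer.SmallElements

set_option autoImplicit false
open Cfsg

namespace Cfsg.Agent.S2910

/-- Let p be an odd prime dividing the order of the finite group G and P a Sylow p-subgroup of G. If Ω₁(P) (generated by the elements of order dividing p) is contained in the centre of G, then G has a normal p-complement. In particular, if G is quasisimple then Ω₁(P) is not central in G. -/
theorem result {G : Type*} [Group G] [Finite G] {p : ℕ} [Fact p.Prime] (hp : p ≠ 2) (hdiv : p ∣ Nat.card G) (P : Sylow p G) (hZ : Cfsg.omegaOne p (P : Subgroup G) ≤ Subgroup.center G) : Cfsg.HasNormalPComplement p G ∧ ¬ Cfsg.IsQuasisimple G := by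
  have hc : Cfsg.HasNormalPComplement p G :=
    CfsgLib.Transfer.hasNormalPComplement_of_fixes_small P fun Q hQ n _ _ x hx hs => by
      rcases hs with h1 | ⟨h2, _⟩
      · exact Subgroup.mem_center_iff.1 (hZ (Subgroup.subset_closure ⟨hQ hx, h1⟩)) n
      · exact absurd h2 hp
  refine ⟨hc, fun hq => ?_⟩
  have hP : (P : Subgroup G) ⊓ Cfsg.pResidual p G = ⊥ := by
    simpa [inf_comm] using (CfsgLib.Transfer.hasNormalPComplement_iff_inf P).1 hc
  have htop : Cfsg.pResidual p G = ⊤ := by
    refine (CfsgLib.Transfer.pResidual_eq_top_iff P).2 ?_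
    have := hq.1.commutator_eq_top
    rw [this]; exact le_top
  rw [htop, inf_top_eq] at hP
  exact P.not_dvd_index (by rwa [hP, Subgroup.index_bot])

end Cfsg.Agent.S2910
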