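import Cfsg.Statements.S2912
import Mathlib.RingTheory.AdjoinRoot
import Mathlib.Algebra.Module.ZMod
import Mathlib.LinearAlgebra.Dual.Lemmas
import Mathlib.FieldTheory.Finite.Basic
import Mathlib.LinearAlgebra.LinearIndependent.Basic

set_option autoImplicit false
open Cfsg

namespace Cfsg.Agent.S2912

open Polynomial
open scoped commutatorElement

/-- An action by additive maps as a `ZMod`-linear representation. -/
noncomputable def linRep {q : ℕ} {C A : Type*} [Monoid C] [AddCommGroup A] [Module (ZMod q) A]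
    (f : C → A →+ A) (h1 : ∀ a, f 1 a = a) (hm : ∀ x y a, f (x * y) a = f x (f y a)) :
    C →* Module.End (ZMod q) A where
  toFun c := (f c).toZModLinearMap q
  map_one' := LinearMap.ext h1
  map_mul' x y := LinearMap.ext (hm x y)

/-- Faithfulness of `linRep`. -/
theorem linRep_injective {q : ℕ} {C A : Type*} [Group C] [AddCommGroup A] [Module (ZMod q) A]
    (f : C → A →+ A) (h1 : ∀ a, f 1 a = a) (hm : ∀ x y a, f (x * y) a = f x (f y a))
    (h : ∀ c, (∀ a, f c a = a) → c = 1) : Function.Injective (linRep (q := q) f h1 hm) := by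
  intro a b e
  have e' : ∀ v, f a v = f b v := fun v => LinearMap.congr_fun e v
  exact inv_mul_eq_one.mp (h (b⁻¹ * a) fun v => by rw [hm, e', ← hm, inv_mul_cancel, h1]) |>.symm

/-- An operator of prime order `p` has an irreducible polynomial factor, prime to `X - 1`, with nonzero kernel. -/
theorem exists_factor {k V : Type*} [Field k] [AddCommGroup V] [Module k V] {p : ℕ} (hp : (p : k) ≠ 0)
    (T : Module.End k V) (hTp : T ^ p = 1) (hT : T ≠ 1) :
    ∃ g : k[X], Irreducible g ∧ g ∣ X ^ p - 1 ∧ g.eval 1 ≠ 0 ∧ ∃ w : V, w ≠ 0 ∧ aeval T g w = 0 := by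
  classical
  set Φ : k[X] := ∑ i ∈ Finset.range p, X ^ i with hΦ
  have hmul : Φ * (X - 1) = X ^ p - 1 := geom_sum_mul X p
  have h0 : ∃ w : V, w ≠ 0 ∧ aeval T Φ w = 0 := by
    obtain ⟨v, hv⟩ : ∃ v, T v ≠ v := by
      by_contra! h
      exact hT (LinearMap.ext h)
    refine ⟨(aeval T (X - 1 : k[X])) v, ?_, ?_⟩
    · rw [map_sub, aeval_X, map_one, LinearMap.sub_apply, Module.End.one_apply, sub_ne_zero]
      exact hv
    · rw [← Module.End.mul_apply, ← map_mul, hmul, map_sub, map_pow, aeval_X, map_one, hTp, sub_self,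
        LinearMap.zero_apply]
  have h1 : Φ.eval 1 ≠ 0 := by
    simp [hΦ, eval_finset_sum, hp]
  have key : ∀ q : k[X], q.eval 1 ≠ 0 → (∃ w : V, w ≠ 0 ∧ aeval T q w = 0) → q ∣ X ^ p - 1 →
      ∃ g : k[X], Irreducible g ∧ g ∣ X ^ p - 1 ∧ g.eval 1 ≠ 0 ∧ ∃ w : V, w ≠ 0 ∧ aeval T g w = 0 := by
    intro q
    induction q using WfDvdMonoid.induction_on_irreducible with
    | zero => intro h; simp at h
    | unit u hu =>
      rintro - ⟨w, hw, hw'⟩ -
      obtain ⟨v, rfl⟩ := hu
      refine absurd ?_ hw
      have h : aeval T (((v⁻¹ : (k[X])ˣ) : k[X]) * (v : k[X])) w = 0 := by rw [map_mul, Module.End.mul_apply, hw', map_zero]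
      rwa [Units.inv_mul, map_one, Module.End.one_apply] at h
    | mul a i _ hi ih =>
      rintro h1 ⟨w, hw, hw'⟩ hd
      rw [eval_mul] at h1
      by_cases hz : aeval T a w = 0
      · exact ih (right_ne_zero_of_mul h1) ⟨w, hw, hz⟩ (dvd_of_mul_left_dvd hd)
      · refine ⟨i, hi, dvd_of_mul_right_dvd hd, left_ne_zero_of_mul h1, _, hz, ?_⟩
        rwa [map_mul, Module.End.mul_apply] at hw'
  exact key Φ h1 h0 ⟨X - 1, hmul.symm⟩

/-- Faithful representations of extraspecial groups in coprime characteristic are large. -/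
theorem key {k : Type*} [Field k] [Fintype k] {H V : Type*} [Group H] [Finite H] [AddCommGroup V] [Module k V]
    [Finite V] {p : ℕ} [Fact p.Prime] (hp : (p : k) ≠ 0) (hcen : Nat.card (Subgroup.center H) = p)
    (hcom : ∀ a b : H, ⁅a, b⁆ ∈ Subgroup.center H) (ρ : H →* Module.End k V) (hρ : Function.Injective ρ)
    (n w : ℕ) (hcard : Nat.card H = p ^ (2 * w + 1))
    (hmin : ∀ d : ℕ, 1 ≤ d → p ∣ Fintype.card k ^ d - 1 → n ≤ d) :
    Fintype.card k ^ (n * p ^ w) ≤ Nat.card V := by
  classical
  obtain ⟨z, hz⟩ : ∃ z : Subgroup.center H, z ≠ 1 := by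
    haveI : Nontrivial (Subgroup.center H) := Finite.one_lt_card_iff_nontrivial.mp (hcen ▸ (Fact.out : p.Prime).one_lt)
    exact exists_ne 1
  have hgenz : ∀ x : Subgroup.center H, ∃ i : ℕ, x = z ^ i := fun x => by
    obtain ⟨i, hi⟩ := (isOfFinOrder_of_finite z).mem_powers_iff_mem_zpowers.mpr (mem_zpowers_of_prime_card hcen hz (g' := x))
    exact ⟨i, hi.symm⟩
  have hzp : ((z : H)) ^ p = 1 := by
    rw [← hcen, ← Subgroup.coe_pow, pow_card_eq_one', Subgroup.coe_one]
  set T : Module.End k V := ρ (z : H) with hT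
  obtain ⟨g, hg, hgd, hg1, v0, hv0, hv0'⟩ := exists_factor hp T (by rw [hT, ← map_pow, hzp, map_one]) (fun e =>
    hz (Subtype.ext (hρ (e.trans (map_one ρ).symm))))
  haveI : Fact (Irreducible g) := ⟨hg⟩
  -- the kernel of `g`
  let W : Submodule k V := LinearMap.ker (aeval T g)
  have hcommT : ∀ h : H, Commute (ρ h) T := fun h => by
    have := congrArg ρ (Subgroup.mem_center_iff.mp z.2 h)
    rw [map_mul, map_mul] at this
    exact this
  have hW : ∀ h : H, ∀ x ∈ W, ρ h x ∈ W := fun h x hx => by
    have hc' : ∀ q : k[X], Commute (ρ h) (aeval T q) := fun q => by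
      induction q using Polynomial.induction_on' with
      | add a b ha hb => rw [map_add]; exact ha.add_right hb
      | monomial i a =>
        rw [aeval_monomial]
        exact (Algebra.commute_algebraMap_right a (ρ h)).mul_right ((hcommT h).pow_right i)
    have hc := hc' g
    show aeval T g (ρ h x) = 0
    rw [← Module.End.mul_apply, ← hc.eq, Module.End.mul_apply, show aeval T g x = 0 from hx, map_zero]
  let σ : H →* Module.End k W :=
    { toFun := fun h => (ρ h).restrict (hW h)
      map_one' := by ext x; simp [LinearMap.restrict_apply]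
      map_mul' := fun a b => by ext x; simp [LinearMap.restrict_apply] }
  have hσ : ∀ (h : H) (x : W), (σ h x : V) = ρ h x := fun h x => rfl
  have haev : ∀ q : k[X], ∀ x : W, ((aeval (σ (z : H)) q) x : V) = aeval T q (x : V) := by
    intro q
    induction q using Polynomial.induction_on' with
    | add a b ha hb => intro x; simp [map_add, ha, hb]
    | monomial i a =>
      intro x
      simp only [aeval_monomial, Module.End.mul_apply, Module.algebraMap_end_apply, Submodule.coe_smul]
      congr 1
      rw [hT, ← map_pow, ← map_pow, hσ]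
  have hann : ∀ a : k[X], a ∈ Ideal.span {g} → (aeval (σ (z : H))).toRingHom a = 0 := by
    intro a ha
    obtain ⟨b, rfl⟩ := Ideal.mem_span_singleton.mp ha
    refine LinearMap.ext fun x => Subtype.ext ?_
    show ((aeval (σ (z : H)) (g * b)) x : V) = ((0 : Module.End k W) x : V)
    rw [mul_comm, map_mul, Module.End.mul_apply, show aeval (σ (z : H)) g x = 0 from Subtype.ext ((haev g x).trans x.2),
      map_zero, LinearMap.zero_apply]
  let L : AdjoinRoot g →+* Module.End k W := Ideal.Quotient.lift (Ideal.span {g}) _ hann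
  have hLmk : ∀ (a : k[X]), L (AdjoinRoot.mk g a) = aeval (σ (z : H)) a := fun a => rfl
  letI : Module (AdjoinRoot g) W := Module.compHom W L
  have hsmul : ∀ (c : AdjoinRoot g) (x : W), c • x = L c x := fun c x => rfl
  have hlin : ∀ (h : H) (c : AdjoinRoot g) (x : W), σ h (c • x) = c • σ h x := by
    intro h c x
    obtain ⟨a, rfl⟩ := AdjoinRoot.mk_surjective c
    rw [hsmul, hsmul, hLmk]
    have hc : Commute (σ h) (aeval (σ (z : H)) a) := by
      induction a using Polynomial.induction_on' with
      | add a b ha hb => rw [map_add]; exact ha.add_right hb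
      | monomial i a =>
        rw [aeval_monomial]
        refine (Algebra.commute_algebraMap_right a (σ h)).mul_right (Commute.pow_right ?_ i)
        show σ h * σ (z : H) = σ (z : H) * σ h
        rw [← map_mul, ← map_mul, Subgroup.mem_center_iff.mp z.2 h]
    exact LinearMap.congr_fun hc.eq x
  let S : H → (W →ₗ[AdjoinRoot g] W) := fun h => { toFun := σ h, map_add' := map_add _, map_smul' := hlin h }
  have hS : ∀ (a b : H) (x : W), S (a * b) x = S a (S b x) := fun a b x => LinearMap.congr_fun (map_mul σ a b) x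
  have hS1 : ∀ x : W, S 1 x = x := fun x => LinearMap.congr_fun (map_one σ) x
  -- the central character
  set ζ : AdjoinRoot g := AdjoinRoot.root g with hζ
  have hzroot : ∀ x : W, S (z : H) x = ζ • x := fun x => by
    rw [hsmul, hζ, ← AdjoinRoot.mk_X, hLmk, aeval_X]; rfl
  have hζp : ζ ^ p = 1 := by
    have h : AdjoinRoot.mk g (X ^ p - 1) = 0 := AdjoinRoot.mk_eq_zero.mpr hgd
    rwa [map_sub, map_pow, AdjoinRoot.mk_X, map_one, sub_eq_zero] at h
  have hζ1 : ζ ≠ 1 := by
    intro e
    have h : AdjoinRoot.mk g (X - C 1) = 0 := by rw [map_sub, AdjoinRoot.mk_X, map_one, map_one, ← hζ, e, sub_self]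
    obtain ⟨q, hq⟩ := AdjoinRoot.mk_eq_zero.mp h
    rcases (irreducible_X_sub_C (1 : k)).isUnit_or_isUnit hq with h2 | h2
    · exact hg.not_isUnit h2
    · obtain ⟨u, rfl⟩ := h2
      refine hg1 ?_
      have h3 : g = (X - C 1) * (↑u⁻¹ : k[X]) := by rw [hq, mul_assoc, Units.mul_inv, mul_one]
      rw [h3, eval_mul, eval_sub, eval_X, eval_C, sub_self, zero_mul]
  obtain ⟨x0, hx0⟩ : ∃ x : W, x ≠ 0 := ⟨⟨v0, hv0'⟩, fun e => hv0 (congrArg Subtype.val e)⟩
  have hex : ∀ c : Subgroup.center H, ∃ a : AdjoinRoot g, ∀ x : W, S (c : H) x = a • x := fun c => by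
    obtain ⟨i, rfl⟩ := hgenz c
    refine ⟨ζ ^ i, ?_⟩
    induction i with
    | zero => intro x; rw [pow_zero, Subgroup.coe_one, hS1, pow_zero, one_smul]
    | succ i ih =>
      intro x
      rw [pow_succ, Subgroup.coe_mul, hS, hzroot, ih, pow_succ, mul_smul]
  choose ψ hψ using hex
  have huniq : ∀ a b : AdjoinRoot g, a • x0 = b • x0 → a = b := fun a b h => smul_left_injective _ hx0 h
  have hψmul : ∀ a b, ψ (a * b) = ψ a * ψ b := fun a b => huniq _ _ (by
    rw [mul_smul, ← hψ, ← hψ, ← hψ, Subgroup.coe_mul, hS])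
  have hψ1 : ψ 1 = 1 := huniq _ _ (by rw [← hψ, Subgroup.coe_one, hS1, one_smul])
  let Ψ : Subgroup.center H →* AdjoinRoot g := { toFun := ψ, map_one' := hψ1, map_mul' := hψmul }
  have hψz : Ψ z = ζ := huniq _ _ (by show ψ z • x0 = _; rw [← hψ, hzroot])
  have hordζ : orderOf ζ = p := orderOf_eq_prime hζp hζ1
  have hordz : orderOf z = p := by rw [← hcen]; exact orderOf_eq_card_of_forall_mem_zpowers fun x => mem_zpowers_of_prime_card hcen hz
  have hψker : ∀ c, Ψ c = 1 → c = 1 := fun c hc => by
    obtain ⟨i, rfl⟩ := hgenz c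
    rw [map_pow, hψz] at hc
    have h2 := orderOf_dvd_of_pow_eq_one hc
    rw [hordζ, ← hordz] at h2
    exact orderOf_dvd_iff_pow_eq_one.mp h2
  let χ : H → (H →* AdjoinRoot g) := fun b =>
    { toFun := fun h => Ψ ⟨⁅h, b⁆, hcom h b⟩
      map_one' := by
        rw [show (⟨⁅(1 : H), b⁆, hcom 1 b⟩ : Subgroup.center H) = 1 from Subtype.ext (commutatorElement_one_left b), map_one]
      map_mul' := fun h h' => by
        rw [← map_mul]
        congr 1
        refine Subtype.ext ?_
        show ⁅h * h', b⁆ = ⁅h, b⁆ * ⁅h', b⁆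
        rw [show ⁅h * h', b⁆ = h * ⁅h', b⁆ * h⁻¹ * ⁅h, b⁆ by simp only [commutatorElement_def]; group,
          Subgroup.mem_center_iff.mp (hcom h' b) h, mul_inv_cancel_right]
        exact Subgroup.mem_center_iff.mp (hcom h b) _ }
  have hχinj : Function.Injective fun q : H ⧸ Subgroup.center H => χ q.out := by
    intro q q' e
    rw [← QuotientGroup.out_eq' q, ← QuotientGroup.out_eq' q', QuotientGroup.eq]
    refine Subgroup.mem_center_iff.mpr fun h => ?_
    set b := q.out
    set b' := q'.out
    have e1 : Ψ ⟨⁅h, b⁆, hcom h b⟩ = Ψ ⟨⁅h, b'⁆, hcom h b'⟩ := DFunLike.congr_fun e h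
    have hmem : ⁅h, b'⁆ * ⁅h, b⁆⁻¹ ∈ Subgroup.center H := mul_mem (hcom h b') (inv_mem (hcom h b))
    have e2 : ⁅h, b'⁆ * ⁅h, b⁆⁻¹ = 1 := congrArg Subtype.val (hψker ⟨_, hmem⟩ (by
      rw [show (⟨_, hmem⟩ : Subgroup.center H) = ⟨⁅h, b'⁆, hcom h b'⟩ * ⟨⁅h, b⁆, hcom h b⟩⁻¹ from rfl,
        map_mul, ← e1, ← map_mul, mul_inv_cancel, map_one]))
    have e3 : ⁅h, b⁆ = ⁅h, b'⁆ := (mul_inv_eq_one.mp e2).symm
    have e4 : h * b * h⁻¹ * b⁻¹ = h * b' * h⁻¹ * b'⁻¹ := by simpa [commutatorElement_def] using e3
    have e5 : h * (b⁻¹ * b') * h⁻¹ = b⁻¹ * b' := by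
      calc h * (b⁻¹ * b') * h⁻¹ = b⁻¹ * ((h * b * h⁻¹ * b⁻¹)⁻¹ * (h * b' * h⁻¹ * b'⁻¹)) * b' := by group
        _ = _ := by rw [e4, inv_mul_cancel, mul_one]
    exact mul_inv_eq_iff_eq_mul.mp e5
  -- independence of coset representatives
  have hind : LinearIndependent (AdjoinRoot g) (fun q : H ⧸ Subgroup.center H => S q.out) := by
    haveI : Fintype (H ⧸ Subgroup.center H) := Fintype.ofFinite _
    rw [Fintype.linearIndependent_iff]
    intro c hc q0
    set v : (H ⧸ Subgroup.center H) → W := fun q => c q • S q.out x0 with hv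
    have hsum : ∀ h : H, ∑ q, (χ q.out h) • v q = 0 := by
      intro h
      have h1 := congrArg (S h) (LinearMap.congr_fun hc (S h⁻¹ x0))
      rw [LinearMap.sum_apply, map_sum, LinearMap.zero_apply, map_zero] at h1
      rw [← h1]
      refine Finset.sum_congr rfl fun q _ => ?_
      rw [LinearMap.smul_apply, map_smul, ← hS, ← hS, hv]
      show χ q.out h • c q • S q.out x0 = _
      rw [smul_comm]
      congr 1
      show ψ ⟨⁅h, q.out⁆, _⟩ • S q.out x0 = _
      rw [← hψ, ← hS]
      congr 2
      simp only [commutatorElement_def]; group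
    have hvq : v q0 = 0 := by
      refine (Module.forall_dual_apply_eq_zero_iff (AdjoinRoot g) (v q0)).mp fun f => ?_
      have hd := Fintype.linearIndependent_iff.mp ((linearIndependent_monoidHom H (AdjoinRoot g)).comp _ hχinj)
        (fun q => f (v q)) (funext fun h => by
          have := congrArg f (hsum h)
          rw [map_sum, map_zero] at this
          simp only [Finset.sum_apply, Pi.smul_apply, Function.comp, smul_eq_mul, Pi.zero_apply]
          rw [← this]
          refine Finset.sum_congr rfl fun q _ => ?_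
          rw [map_smul, smul_eq_mul]
          first | rw [mul_comm] | skip
          simp only [hv, map_smul, smul_eq_mul])
      exact hd q0
    rcases smul_eq_zero.mp hvq with h | h
    · exact h
    · exfalso
      refine hx0 ?_
      have := congrArg (S q0.out⁻¹) h
      rwa [← hS, inv_mul_cancel, hS1, map_zero] at this
  haveI : Finite W := Finite.of_injective (fun x : W => (x : V)) Subtype.val_injective
  haveI : Module.Finite (AdjoinRoot g) W := Module.Finite.of_finite
  haveI : Fintype (H ⧸ Subgroup.center H) := Fintype.ofFinite _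
  have hle := hind.fintype_card_le_finrank
  rw [Module.finrank_linearMap, Fintype.card_eq_nat_card] at hle
  have hq : Nat.card (H ⧸ Subgroup.center H) = p ^ (2 * w) := by
    have h := Subgroup.card_eq_card_quotient_mul_card_subgroup (Subgroup.center H)
    rw [hcard, hcen, pow_succ] at h
    exact (mul_right_cancel₀ (Fact.out : p.Prime).ne_zero h).symm
  rw [hq, show p ^ (2 * w) = p ^ w * p ^ w by ring] at hle
  set m := Module.finrank (AdjoinRoot g) W
  have hm : p ^ w ≤ m := Nat.mul_self_le_mul_self_iff.mp hle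
  have hfin : Module.Finite k (AdjoinRoot g) := (AdjoinRoot.powerBasis hg.ne_zero).finite
  haveI : Finite (AdjoinRoot g) := Module.finite_of_finite k
  set d := Module.finrank k (AdjoinRoot g)
  have hF : Nat.card (AdjoinRoot g) = Fintype.card k ^ d := by
    rw [Module.natCard_eq_pow_finrank (K := k), Nat.card_eq_fintype_card]
  have hd : n ≤ d := by
    refine hmin d Module.finrank_pos ?_
    have hu : ζ ≠ 0 := fun e => by rw [e, zero_pow (Fact.out : p.Prime).ne_zero] at hζp; exact zero_ne_one hζp
    have h : orderOf (Units.mk0 ζ hu) ∣ Nat.card (AdjoinRoot g)ˣ := orderOf_dvd_natCard _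
    rwa [← orderOf_units, Units.val_mk0, hordζ, Nat.card_units, hF] at h
  calc Fintype.card k ^ (n * p ^ w) ≤ Fintype.card k ^ (d * m) :=
        Nat.pow_le_pow_right Fintype.card_pos (Nat.mul_le_mul hd hm)
    _ = Nat.card W := by rw [pow_mul, ← hF, ← Module.natCard_eq_pow_finrank]
    _ ≤ Nat.card V := Nat.card_le_card_of_injective _ Subtype.val_injective
/-- Let p and r be distinct primes, let E be an extraspecial subgroup of order p^(2w+1) of a finite group, and let A be an elementary abelian r-subgroup normalized by E on which E acts faithfully (C_E(A) = 1). If n ≥ 1 is least with p dividing rⁿ − 1 (the smallest dimension of a faithful representation of a group of order p over the field with r elements), then the order of A is at least r^(n·p^w). -/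
theorem result {G : Type*} [Group G] [Finite G] {p r : ℕ} [Fact p.Prime] [hr : Fact r.Prime] (hpr : p ≠ r) (E A : Subgroup G) (w : ℕ) (hE : Cfsg.IsExtraspecial p ↥E) (hEcard : Nat.card ↥E = p ^ (2 * w + 1)) (hA : Cfsg.IsElementaryAbelian r A) (hnorm : E ≤ Subgroup.normalizer (A : Set G)) (hfaith : E ⊓ Subgroup.centralizer (A : Set G) = ⊥) (n : ℕ) (hn : 1 ≤ n) (hdiv : p ∣ r ^ n - 1) (hmin : ∀ k : ℕ, 1 ≤ k → p ∣ r ^ k - 1 → n ≤ k) : r ^ (n * p ^ w) ≤ Nat.card ↥A := by
  obtain ⟨hAc, hAexp⟩ := hA
  haveI := hAc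
  letI : CommGroup A := IsMulCommutative.instCommGroup
  have hexp : ∀ x : Additive A, r • x = 0 := fun x => by
    apply Additive.toMul.injective
    exact Subtype.ext (hAexp _ (Additive.toMul x).2)
  letI instM : Module (ZMod r) (Additive A) := AddCommGroup.zmodModule hexp
  let f : ↥E → (Additive A →+ Additive A) := fun e =>
    { toFun := fun v => Additive.ofMul ⟨(e : G) * ((Additive.toMul v : A) : G) * (e : G)⁻¹,
        (Subgroup.mem_normalizer_iff.mp (hnorm e.2) _).mp (Additive.toMul v).2⟩
      map_zero' := by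
        apply Additive.toMul.injective
        exact Subtype.ext (by simp)
      map_add' := fun v w => by
        apply Additive.toMul.injective
        exact Subtype.ext (by simp [mul_assoc]) }
  let ρ := linRep (q := r) (A := Additive A) f
    (fun v => Additive.toMul.injective (Subtype.ext (by simp [f])))
    (fun a b v => Additive.toMul.injective (Subtype.ext (by simp [f, mul_assoc])))
  have hρ : Function.Injective ρ := by
    refine linRep_injective f _ _ fun e he => Subtype.ext ?_
    refine Subgroup.mem_bot.mp (hfaith ▸ Subgroup.mem_inf.mpr ⟨e.2, Subgroup.mem_centralizer_iff.mpr fun a ha => ?_⟩)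
    have h : (e : G) * a * (e : G)⁻¹ = a := congrArg (fun v : Additive A => ((Additive.toMul v : A) : G))
      (he (Additive.ofMul (⟨a, ha⟩ : A)))
    exact (mul_inv_eq_iff_eq_mul.mp h).symm
  have hp : ((p : ℕ) : ZMod r) ≠ 0 := fun h => hpr
    ((Nat.prime_dvd_prime_iff_eq hr.out (Fact.out : p.Prime)).mp ((ZMod.natCast_eq_zero_iff _ _).mp h)).symm
  have hcom : ∀ a b : ↥E, ⁅a, b⁆ ∈ Subgroup.center ↥E := fun a b => by
    rw [← hE.1.2.2, commutator_def]
    exact Subgroup.commutator_mem_commutator (Subgroup.mem_top a) (Subgroup.mem_top b)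
  have := key (k := ZMod r) hp hE.2 hcom ρ hρ n w hEcard (fun d hd h => hmin d hd (by rwa [ZMod.card] at h))
  rwa [ZMod.card] at this

end Cfsg.Agent.S2912
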