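import Cfsg.Statements.S2923
import Cfsg.Agent.PCore.AxB
import Cfsg.Agent.PCore.Descent
import Cfsg.Agent.PReduced.Basic

set_option autoImplicit false
open Cfsg

namespace Cfsg.Agent.S2923

open Subgroup CfsgLib.PReduced in
/-- Characteristic `p` passes to subgroups normalized by an overgroup of characteristic `p`. -/
theorem step {X : Type*} [Group X] [Finite X] {p : ℕ} [Fact p.Prime] {K Y : Subgroup X} (hYK : Y ≤ K)
    (hn : K ≤ normalizer (Y : Set X))
    (hK : K ⊓ centralizer (Cfsg.pCoreOf p K : Set X) ≤ Cfsg.pCoreOf p K) :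
    Y ⊓ centralizer (Cfsg.pCoreOf p Y : Set X) ≤ Cfsg.pCoreOf p Y := by
  refine le_pCoreOf inf_le_left (fun y hy => Subgroup.inf_normalizer_le_normalizer_inf
    ⟨Subgroup.le_normalizer hy, normalizer_le_normalizer_centralizer _ (le_normalizer_pCoreOf Y hy)⟩) ?_
  refine CfsgLib.PCore.isPGroup_of_forall_coprime _ fun x hx hcop => ?_
  obtain ⟨a, ha⟩ := IsPGroup.iff_card.mp (isPGroup_pCoreOf (p := p) Y)
  have hco : (Nat.card (zpowers x)).Coprime (Nat.card (Cfsg.pCoreOf p Y)) := by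
    rw [Nat.card_zpowers, ha]
    exact Nat.Coprime.pow_right a hcop
  have hsub : Cfsg.pCoreOf p K ⊓ Y ≤ Cfsg.pCoreOf p Y :=
    le_pCoreOf inf_le_right
      (fun y hy => Subgroup.inf_normalizer_le_normalizer_inf
        ⟨le_normalizer_pCoreOf K (hYK hy), Subgroup.le_normalizer hy⟩)
      ((isPGroup_pCoreOf K).to_le inf_le_left)
  have hc : ⁅Cfsg.pCoreOf p K, zpowers x⁆ ≤ Cfsg.pCoreOf p Y := by
    refine (le_inf ?_ ?_).trans hsub
    · exact CfsgLib.PCore.commutator_le_of_le_normalizer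
        (zpowers_le.mpr (le_normalizer_pCoreOf K (hYK hx.1)))
    · refine (Subgroup.commutator_comm _ _).trans_le ?_
      exact (Subgroup.commutator_mono (zpowers_le.mpr hx.1) le_rfl).trans
        (CfsgLib.PCore.commutator_le_of_le_normalizer ((pCoreOf_le K).trans hn))
  have h1 : zpowers x ≤ centralizer (Cfsg.pCoreOf p K : Set X) :=
    CfsgLib.PCore.le_centralizer_of_stabilizes hco hc
      (hc.trans (Subgroup.le_centralizer_iff.mp (zpowers_le.mpr hx.2)))
  have h2 : x ∈ Cfsg.pCoreOf p K := hK ⟨hYK hx.1, h1 (mem_zpowers x)⟩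
  obtain ⟨b, hb⟩ := IsPGroup.iff_card.mp (isPGroup_pCoreOf (p := p) K)
  exact orderOf_eq_one_iff.mp (Nat.Coprime.eq_one_of_dvd (Nat.Coprime.pow_right b hcop)
    (hb ▸ Subgroup.orderOf_dvd_natCard _ h2))

open Subgroup CfsgLib.PReduced in
/-- Characteristic `p` in ambient form passes to subnormal subgroups. -/
theorem ambient {X : Type*} [Group X] [Finite X] {p : ℕ} [Fact p.Prime]
    (hX : (⊤ : Subgroup X) ⊓ centralizer (Cfsg.pCoreOf p (⊤ : Subgroup X) : Set X) ≤ Cfsg.pCoreOf p ⊤)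
    {Y : Subgroup X} (hY : Y.IsSubnormal) :
    Y ⊓ centralizer (Cfsg.pCoreOf p Y : Set X) ≤ Cfsg.pCoreOf p Y := by
  induction hY with
  | top => exact hX
  | step H K hle _ hN ih =>
    exact step hle ((Subgroup.normal_subgroupOf_iff_le_normalizer hle).mp hN) ih

/-- Let p be a prime and X a finite group of characteristic p, that is C_X(O_p(X)) ≤ O_p(X). Then every subnormal subgroup of X has characteristic p. -/
theorem result {X : Type*} [Group X] [Finite X] {p : ℕ} [Fact p.Prime] (hX : Subgroup.centralizer (Cfsg.pCore p X : Set X) ≤ Cfsg.pCore p X) (Y : Subgroup X) (hY : Y.IsSubnormal) : Subgroup.centralizer (Cfsg.pCore p ↥Y : Set ↥Y) ≤ Cfsg.pCore p ↥Y := by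
  have htop : Cfsg.pCoreOf p (⊤ : Subgroup X) = Cfsg.pCore p X := by
    refine le_antisymm (CfsgLib.PReduced.le_pCore ?_ (CfsgLib.PReduced.isPGroup_pCoreOf _))
      (CfsgLib.PReduced.le_pCoreOf le_top (by rw [Subgroup.normalizer_eq_top]) (CfsgLib.PReduced.isPGroup_pCore p X))
    exact ⟨fun x hx g =>
      (Subgroup.mem_normalizer_iff.mp (CfsgLib.PReduced.le_normalizer_pCoreOf (⊤ : Subgroup X) (Subgroup.mem_top g)) x).mp hx⟩
  have hamb := ambient (p := p) (by rw [htop]; exact le_trans inf_le_right hX) hY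
  intro y hy
  obtain ⟨z, hz, hzy⟩ := hamb ⟨y.2, (CfsgLib.PReduced.centralizer_map_subtype Y (Cfsg.pCore p Y) y).mpr hy⟩
  exact Subtype.ext hzy ▸ hz

end Cfsg.Agent.S2923
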