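import Cfsg.Statements.S2924
import Cfsg.Agent.PCore.AxB
import Cfsg.Agent.Components.Basic

set_option autoImplicit false
open Cfsg

namespace Cfsg.Agent.S2924

open scoped commutatorElement Pointwise

universe u

variable {X : Type u} [Group X] [Finite X]

/-- The odd core of the centralizer of `y`, in the ambient group. -/
noncomputable def th (y : X) : Subgroup X :=
  (Cfsg.oddCore ↥(Subgroup.centralizer ({y} : Set X))).map (Subgroup.centralizer ({y} : Set X)).subtype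

theorem th_le (y : X) : th y ≤ Subgroup.centralizer ({y} : Set X) := Subgroup.map_subtype_le _

theorem th_commute {y d : X} (hd : d ∈ th y) : Commute d y :=
  (Subgroup.mem_centralizer_iff.1 (th_le y hd) y rfl).symm

theorem th_coprime (y : X) : (Nat.card ↥(th y)).Coprime 2 := by
  rw [th, ← Nat.card_congr (Subgroup.equivMapOfInjective _ _ (Subgroup.centralizer ({y} : Set X)).subtype_injective).toEquiv]
  exact CfsgLib.PCore.pPrimeCore_coprime 2 _

theorem th_normalized {y g : X} (hg : g * y = y * g) {d : X} (hd : d ∈ th y) : g * d * g⁻¹ ∈ th y := by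
  obtain ⟨w, hw, rfl⟩ := hd
  haveI := CfsgLib.PCore.pPrimeCore_characteristic 2 ↥(Subgroup.centralizer ({y} : Set X))
  have hn : (Cfsg.oddCore ↥(Subgroup.centralizer ({y} : Set X))).Normal := inferInstance
  have hgC : g ∈ Subgroup.centralizer ({y} : Set X) := Subgroup.mem_centralizer_iff.2 fun u hu => by
    rw [Set.mem_singleton_iff.mp hu]; exact hg.symm
  exact ⟨_, hn.conj_mem w hw ⟨g, hgC⟩, rfl⟩

/-- A `2'`-group of the centraliser of `a` commutes with `O₂(C(b))` if it commutes with `a`, normalised by what commutes with both. -/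
theorem commute_pCore {a b : X} (ha : a ^ 2 = 1) (hab : a * b = b * a) {d q : X}
    (hd : d ∈ th a) (hdb : d * b = b * d)
    (hq : q ∈ (Cfsg.pCore 2 ↥(Subgroup.centralizer ({b} : Set X))).map (Subgroup.centralizer ({b} : Set X)).subtype) :
    d * q = q * d := by
  set C := Subgroup.centralizer ({b} : Set X) with hC
  set Q := (Cfsg.pCore 2 ↥C).map C.subtype with hQ
  haveI : Fact (Nat.Prime 2) := ⟨Nat.prime_two⟩
  have hmem : ∀ g : X, g * b = b * g → g ∈ C := fun g hg => Subgroup.mem_centralizer_iff.2 fun u hu => by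
    rw [Set.mem_singleton_iff.mp hu]; exact hg.symm
  have hQn : C ≤ Subgroup.normalizer (Q : Set X) := by
    haveI := CfsgLib.PCore.pCore_characteristic 2 ↥C
    have hn : (Cfsg.pCore 2 ↥C).Normal := inferInstance
    intro g hg
    refine Subgroup.mem_normalizer_iff.2 fun w => ⟨?_, ?_⟩
    · rintro ⟨v, hv, rfl⟩; exact ⟨_, hn.conj_mem v hv ⟨g, hg⟩, rfl⟩
    · rintro ⟨v, hv, hvw⟩
      refine ⟨(⟨g, hg⟩ : ↥C)⁻¹ * v * ⟨g, hg⟩, by simpa using hn.conj_mem v hv (⟨g, hg⟩ : ↥C)⁻¹, ?_⟩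
      have : (v : X) = g * w * g⁻¹ := hvw
      simp [this, mul_assoc]
  have hQp : IsPGroup 2 ↥Q := (CfsgLib.PCore.isPGroup_pCore 2 _).map _
  have hA : IsPGroup 2 ↥(Subgroup.zpowers a) := fun x => ⟨1, by
    obtain ⟨x, hx⟩ := x
    obtain ⟨i, rfl⟩ := Subgroup.mem_zpowers_iff.1 hx
    refine Subtype.ext ?_
    show (a ^ i) ^ (2 ^ 1) = 1
    rw [pow_one, ← zpow_natCast, ← zpow_mul, mul_comm, zpow_mul, zpow_natCast, ha, one_zpow]⟩
  set B := th a ⊓ C with hB
  have hBc : (Nat.card ↥B).Coprime 2 := (th_coprime a).coprime_dvd_left (Subgroup.card_dvd_of_le inf_le_left)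
  have key := CfsgLib.PCore.thompson_AxB (p := 2) (A := Subgroup.zpowers a) (B := B) (K := Q) hA hBc hQp
    (by
      intro x hx y hy
      obtain ⟨i, rfl⟩ := Subgroup.mem_zpowers_iff.1 hx
      exact ((th_commute hy.1).symm.zpow_left i).eq)
    ((Subgroup.zpowers_le.mpr (hmem a hab)).trans hQn) (inf_le_right.trans hQn)
    (by
      intro y hy
      refine Subgroup.mem_centralizer_iff.2 fun w hw => ?_
      obtain ⟨hwQ, hwA⟩ := Subgroup.mem_inf.1 hw
      have hwa : w * a = a * w := (Subgroup.mem_centralizer_iff.1 hwA a (Subgroup.mem_zpowers a)).symm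
      set c := w * y * w⁻¹ * y⁻¹ with hc
      have h1 : c ∈ th a := (th a).mul_mem (th_normalized hwa hy.1) ((th a).inv_mem hy.1)
      have h2 : c ∈ Q := by
        have : c = w * (y * w⁻¹ * y⁻¹) := by rw [hc]; group
        rw [this]
        exact Q.mul_mem hwQ ((Subgroup.mem_normalizer_iff.1 (hQn hy.2) _).1 (Q.inv_mem hwQ))
      have h3 : orderOf c = 1 := by
        obtain ⟨k, hk⟩ := IsPGroup.iff_card.1 hQp
        exact Nat.eq_one_of_dvd_coprimes ((th_coprime a).pow_right k) (Subgroup.orderOf_dvd_natCard _ h1)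
          (hk ▸ Subgroup.orderOf_dvd_natCard _ h2)
      have h4 := orderOf_eq_one_iff.1 h3
      rw [hc, mul_inv_eq_one, mul_inv_eq_iff_eq_mul] at h4
      exact h4)
  exact (Subgroup.mem_centralizer_iff.1 (key ⟨hd, hmem d hdb⟩) q hq).symm

/-- The eigen elements generate. -/
theorem le_closure_eigen {Y A : Subgroup X} (hY : Cfsg.IsElementaryAbelian 2 Y) (hA : (Nat.card ↥A).Coprime 2)
    (hc : ∀ x ∈ A, ∀ y ∈ A, x * y = y * x) (hn : ∀ y ∈ Y, ∀ x ∈ A, y * x * y⁻¹ ∈ A) (s : Finset X) :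
    (∀ y ∈ s, y ∈ Y) → A ≤ Subgroup.closure {u : X | u ∈ A ∧ ∀ y ∈ s, y * u * y⁻¹ = u ∨ y * u * y⁻¹ = u⁻¹} := by
  classical
  induction s using Finset.induction_on with
  | empty => intro _ u hu; exact Subgroup.subset_closure ⟨hu, by simp⟩
  | insert c s hcs ih =>
    intro hs
    refine (ih fun y hy => hs y (Finset.mem_insert_of_mem hy)).trans ((Subgroup.closure_le _).2 ?_)
    rintro u ⟨huA, hu⟩
    have hcY : c ∈ Y := hs c (Finset.mem_insert_self c s)
    have hcc : c * c = 1 := by rw [← sq]; exact hY.2 c hcY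
    set u' := c * u * c⁻¹ with hu'
    have hu'A : u' ∈ A := hn c hcY u huA
    have hodd : Odd (orderOf u) := Nat.coprime_two_right.1 (hA.coprime_dvd_left (Subgroup.orderOf_dvd_natCard _ huA))
    obtain ⟨k, hk⟩ := hodd
    have huu : u ^ (2 * (k + 1)) = u := by
      rw [show 2 * (k + 1) = orderOf u + 1 by omega, pow_succ, pow_orderOf_eq_one, one_mul]
    have hc1 : Commute u u' := hc _ huA _ hu'A
    have hcu' : c * u' * c⁻¹ = u := by
      rw [hu', show c⁻¹ = c from inv_eq_of_mul_eq_one_right hcc]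
      calc c * (c * u * c) * c = (c * c) * u * (c * c) := by group
        _ = u := by simp [hcc]
    have heig : ∀ y ∈ s, (y * u * y⁻¹ = u ∧ y * u' * y⁻¹ = u') ∨ (y * u * y⁻¹ = u⁻¹ ∧ y * u' * y⁻¹ = u'⁻¹) := by
      intro y hy
      have hyc : y * c = c * y :=
        congrArg Subtype.val (hY.1.is_comm.comm (⟨y, hs y (Finset.mem_insert_of_mem hy)⟩ : ↥Y) ⟨c, hcY⟩)
      have h0 : y * u' * y⁻¹ = c * (y * u * y⁻¹) * c⁻¹ := by
        calc y * u' * y⁻¹ = (y * c) * u * (y * c)⁻¹ := by rw [hu']; group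
          _ = (c * y) * u * (c * y)⁻¹ := by rw [hyc]
          _ = c * (y * u * y⁻¹) * c⁻¹ := by group
      rcases hu y hy with h | h
      · exact Or.inl ⟨h, by rw [h0, h]⟩
      · exact Or.inr ⟨h, by rw [h0, h, hu']; group⟩
    have h1 : (u * u') ^ (k + 1) ∈ {v : X | v ∈ A ∧ ∀ y ∈ insert c s, y * v * y⁻¹ = v ∨ y * v * y⁻¹ = v⁻¹} := by
      refine ⟨A.pow_mem (A.mul_mem huA hu'A) _, fun y hy => ?_⟩
      rcases Finset.mem_insert.1 hy with rfl | hy
      · left
        rw [← conj_pow]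
        congr 1
        rw [← conj_mul, hcu', ← hu', hc1.eq]
      · rcases heig y hy with ⟨e1, e2⟩ | ⟨e1, e2⟩
        · left; rw [← conj_pow, ← conj_mul, e1, e2]
        · right
          have e3 : (u * u')⁻¹ = u⁻¹ * u'⁻¹ := by rw [hc1.eq]; exact mul_inv_rev _ _
          rw [← conj_pow, ← conj_mul, e1, e2, ← inv_pow, e3]
    have h2 : (u * u'⁻¹) ^ (k + 1) ∈ {v : X | v ∈ A ∧ ∀ y ∈ insert c s, y * v * y⁻¹ = v ∨ y * v * y⁻¹ = v⁻¹} := by
      refine ⟨A.pow_mem (A.mul_mem huA (A.inv_mem hu'A)) _, fun y hy => ?_⟩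
      rcases Finset.mem_insert.1 hy with rfl | hy
      · right
        rw [← conj_pow, ← inv_pow]
        congr 1
        rw [← conj_mul, ← conj_inv, hcu', ← hu', mul_inv_rev, inv_inv]
      · rcases heig y hy with ⟨e1, e2⟩ | ⟨e1, e2⟩
        · left; rw [← conj_pow, ← conj_mul, ← conj_inv, e1, e2]
        · right
          have e3 : (u * u'⁻¹)⁻¹ = u⁻¹ * u'⁻¹⁻¹ := by rw [hc1.inv_right.eq]; exact mul_inv_rev _ _
          rw [← conj_pow, ← conj_mul, ← conj_inv, e1, e2, ← inv_pow, e3]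
    have h3 : u = (u * u') ^ (k + 1) * (u * u'⁻¹) ^ (k + 1) := by
      have h4 : Commute (u * u') (u * u'⁻¹) := hc _ (A.mul_mem huA hu'A) _ (A.mul_mem huA (A.inv_mem hu'A))
      have h5 : u * u' * (u * u'⁻¹) = u * u := by
        calc u * u' * (u * u'⁻¹) = u * (u' * u) * u'⁻¹ := by group
          _ = u * (u * u') * u'⁻¹ := by rw [hc1.eq]
          _ = _ := by group
      rw [← h4.mul_pow, h5, ← sq, ← pow_mul, huu]
    rw [SetLike.mem_coe, h3]
    exact mul_mem (Subgroup.subset_closure h1) (Subgroup.subset_closure h2)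

/-- Let X be a finite group and Y an elementary abelian 2-subgroup of X of order at least 8 such that C_X(x) has no components (E(C_X(x)) = 1) for every nontrivial x ∈ Y, and F*(C_X(z)) = O₂(C_X(z)) for some nontrivial z ∈ Y. Then the subgroup generated by the cores O(C_X(y)), y ∈ Y nontrivial, has odd order and is normalized by N_X(Y). -/
theorem result {X : Type*} [Group X] [Finite X] (Y : Subgroup X) (hY : Cfsg.IsElementaryAbelian 2 Y) (h8 : 8 ≤ Nat.card ↥Y) (hE : ∀ x ∈ Y, x ≠ 1 → Cfsg.layer ↥(Subgroup.centralizer ({x} : Set X)) = ⊥) (hz : ∃ z ∈ Y, z ≠ 1 ∧ Cfsg.generalizedFittingSubgroup ↥(Subgroup.centralizer ({z} : Set X)) = Cfsg.pCore 2 ↥(Subgroup.centralizer ({z} : Set X))) : Odd (Nat.card ↥(⨆ y : {y : X // y ∈ Y ∧ y ≠ 1}, (Cfsg.oddCore ↥(Subgroup.centralizer ({(y : X)} : Set X))).map (Subgroup.centralizer ({(y : X)} : Set X)).subtype)) ∧ Subgroup.normalizer (Y : Set X) ≤ Subgroup.normalizer ((⨆ y : {y : X // y ∈ Y ∧ y ≠ 1},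 (Cfsg.oddCore ↥(Subgroup.centralizer ({(y : X)} : Set X))).map (Subgroup.centralizer ({(y : X)} : Set X)).subtype : Subgroup X) : Set X) := by
  classical
  haveI : Fact (Nat.Prime 2) := ⟨Nat.prime_two⟩
  obtain ⟨z, hzY, hz1, hFz⟩ := hz
  have hYc : ∀ a ∈ Y, ∀ b ∈ Y, a * b = b * a := fun a ha b hb =>
    congrArg Subtype.val (hY.1.is_comm.comm (⟨a, ha⟩ : ↥Y) ⟨b, hb⟩)
  have hY2 : ∀ a ∈ Y, a ^ 2 = 1 := fun a ha => hY.2 a ha
  have hcopQ : ∀ {d : X} {n : ℕ} {H : Subgroup X}, IsPGroup 2 ↥H → d ∈ H → n.Coprime 2 → d ^ n = 1 → d = 1 := by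
    intro d n H hH hd hn hdn
    obtain ⟨k, hk⟩ := IsPGroup.iff_card.1 hH
    exact orderOf_eq_one_iff.1 (Nat.eq_one_of_dvd_coprimes (hn.pow_right k) (orderOf_dvd_of_pow_eq_one hdn)
      (hk ▸ Subgroup.orderOf_dvd_natCard _ hd))
  have hfree : ∀ a ∈ Y, ∀ d ∈ th a, d * z = z * d → d = 1 := by
    intro a ha d hd hdz
    set C := Subgroup.centralizer ({z} : Set X)
    have hdC : d ∈ C := Subgroup.mem_centralizer_iff.2 fun u hu => by
      rw [Set.mem_singleton_iff.mp hu]; exact hdz.symm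
    have h1 : (⟨d, hdC⟩ : ↥C) ∈ Subgroup.centralizer ((Cfsg.generalizedFittingSubgroup ↥C : Subgroup ↥C) : Set ↥C) := by
      refine Subgroup.mem_centralizer_iff.2 fun q hq => Subtype.ext ?_
      rw [hFz] at hq
      exact (commute_pCore (hY2 a ha) (hYc a ha z hzY) hd hdz ⟨q, hq, rfl⟩).symm
    have h2 := CfsgLib.Components.centralizer_generalizedFittingSubgroup_le h1
    rw [hFz] at h2
    exact hcopQ ((CfsgLib.PCore.isPGroup_pCore 2 ↥C).map C.subtype) ⟨_, h2, rfl⟩ (th_coprime a)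
      (CfsgLib.PCore.pow_card_of_mem hd)
  have hzz : z * z = 1 := by rw [← sq]; exact hY2 z hzY
  have hinv : ∀ a ∈ Y, ∀ d ∈ th a, z * d * z⁻¹ = d⁻¹ := by
    intro a ha
    let φ : ↥(th a) →* ↥(th a) :=
      { toFun := fun x => ⟨z * x * z⁻¹, th_normalized (hYc z hzY a ha) x.2⟩
        map_one' := Subtype.ext (by simp)
        map_mul' := fun x y => Subtype.ext (by simp [mul_assoc]) }
    have hφ : MonoidHom.FixedPointFree φ := fun x hx =>
      Subtype.ext (hfree a ha x x.2 (mul_inv_eq_iff_eq_mul.1 (congrArg Subtype.val hx)).symm)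
    have hφ2 : Function.Involutive φ := fun x => Subtype.ext (by
      show z * (z * x * z⁻¹) * z⁻¹ = x
      calc z * (z * (x : X) * z⁻¹) * z⁻¹ = (z * z) * x * (z * z)⁻¹ := by group
        _ = x := by simp [hzz])
    intro x hx
    exact congrArg Subtype.val (congrFun (hφ.coe_eq_inv_of_involutive hφ2) ⟨x, hx⟩)
  have hab : ∀ a ∈ Y, ∀ x ∈ th a, ∀ y ∈ th a, x * y = y * x := by
    intro a ha x hx y hy
    have h := hinv a ha _ ((th a).mul_mem hx hy)
    rw [← conj_mul, hinv a ha x hx, hinv a ha y hy, ← mul_inv_rev, inv_inj] at h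
    exact h.symm
  -- balance
  have hbal : ∀ a ∈ Y, ∀ b ∈ Y, b ≠ 1 → ∀ d ∈ th a, d * b = b * d → d ∈ th b := by
    intro a ha b hb hb1 d hd hdb
    set C := Subgroup.centralizer ({b} : Set X) with hC
    set O := Cfsg.oddCore ↥C with hO
    haveI hOn : O.Normal := by
      haveI := CfsgLib.PCore.pPrimeCore_characteristic 2 ↥C
      infer_instance
    have hdC : d ∈ C := Subgroup.mem_centralizer_iff.2 fun u hu => by
      rw [Set.mem_singleton_iff.mp hu]; exact hdb.symm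
    have hFle : Cfsg.generalizedFittingSubgroup ↥C ≤ Cfsg.pCore 2 ↥C ⊔ O := by
      show Cfsg.layer ↥C ⊔ Cfsg.fittingSubgroup ↥C ≤ _
      rw [hE b hb hb1, bot_sup_eq, CfsgLib.Components.fittingSubgroup_eq_iSup]
      refine iSup_le fun q => ?_
      by_cases hq : (q : ℕ) = 2
      · rw [hq]; exact le_sup_left
      · refine le_sup_of_le_right ?_
        haveI : Fact (q : ℕ).Prime := ⟨Nat.prime_of_mem_primeFactors q.2⟩
        haveI := CfsgLib.PCore.pCore_characteristic (q : ℕ) ↥C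
        obtain ⟨k, hk⟩ := IsPGroup.iff_card.1 (CfsgLib.PCore.isPGroup_pCore (q : ℕ) ↥C)
        exact CfsgLib.PCore.le_pPrimeCore inferInstance
          (hk ▸ ((Nat.coprime_primes Fact.out Nat.prime_two).2 hq).pow_left k)
    have hd0 : ∀ w ∈ O, (⟨d, hdC⟩ : ↥C) * w = w * ⟨d, hdC⟩ := by
      intro w hw
      refine Subtype.ext ?_
      have hwth : (w : X) ∈ th b := ⟨w, hw, rfl⟩
      have hw' : d * (w : X) * d⁻¹ ∈ th b := th_normalized hdb hwth
      have h1 := hinv b hb _ hw'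
      have h2 : z * (d * (w : X) * d⁻¹) * z⁻¹ = d⁻¹ * (w : X)⁻¹ * d := by
        calc z * (d * (w : X) * d⁻¹) * z⁻¹ = (z * d * z⁻¹) * (z * (w : X) * z⁻¹) * (z * d * z⁻¹)⁻¹ := by group
          _ = _ := by rw [hinv a ha d hd, hinv b hb _ hwth]; simp
      have h3 : Commute (d ^ 2) (w : X) := by
        have h4 : d⁻¹ * (w : X) * d = d * (w : X) * d⁻¹ := inv_injective (by
          calc (d⁻¹ * (w : X) * d)⁻¹ = d⁻¹ * (w : X)⁻¹ * d := by group
            _ = _ := h2.symm.trans h1)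
        show d ^ 2 * (w : X) = (w : X) * d ^ 2
        calc d ^ 2 * (w : X) = d * (d * (w : X) * d⁻¹) * d := by rw [sq]; group
          _ = d * (d⁻¹ * (w : X) * d) * d := by rw [h4]
          _ = (w : X) * d ^ 2 := by rw [sq]; group
      have hodd : Odd (orderOf d) :=
        Nat.coprime_two_right.1 ((th_coprime a).coprime_dvd_left (Subgroup.orderOf_dvd_natCard _ hd))
      obtain ⟨k, hk⟩ := hodd
      have hdd : d = (d ^ 2) ^ (k + 1) := by
        rw [← pow_mul, show 2 * (k + 1) = orderOf d + 1 by omega, pow_succ, pow_orderOf_eq_one, one_mul]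
      show d * (w : X) = (w : X) * d
      rw [hdd]; exact (h3.pow_left (k + 1)).eq
    have h1 : (⟨d, hdC⟩ : ↥C) ∈ Subgroup.centralizer ((Cfsg.generalizedFittingSubgroup ↥C : Subgroup ↥C) : Set ↥C) := by
      refine Subgroup.mem_centralizer_iff.2 fun q hq => ?_
      obtain ⟨q₁, hq₁, q₂, hq₂, rfl⟩ := Subgroup.mem_sup_of_normal_right.1 (hFle hq)
      have e1 : Commute (⟨d, hdC⟩ : ↥C) q₁ :=
        Subtype.ext (commute_pCore (hY2 a ha) (hYc a ha b hb) hd hdb ⟨q₁, hq₁, rfl⟩)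
      exact (e1.mul_right (hd0 q₂ hq₂)).eq.symm
    obtain ⟨q₁, hq₁, q₂, hq₂, he⟩ := Subgroup.mem_sup_of_normal_right.1
      (hFle (CfsgLib.Components.centralizer_generalizedFittingSubgroup_le h1))
    have hc12 : Commute q₁ q₂ := by
      have e1 : Commute (⟨d, hdC⟩ : ↥C) q₂ := hd0 q₂ hq₂
      have : q₁ = (⟨d, hdC⟩ : ↥C) * q₂⁻¹ := by rw [← he]; group
      rw [this]
      exact e1.mul_left ((Commute.refl q₂).inv_left)
    have hq1 : q₁ = 1 := by
      have hn := (th_coprime a).mul_left (CfsgLib.PCore.pPrimeCore_coprime 2 ↥C)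
      have hp : (⟨d, hdC⟩ : ↥C) ^ (Nat.card ↥(th a) * Nat.card ↥O) = 1 := by
        rw [pow_mul, show (⟨d, hdC⟩ : ↥C) ^ Nat.card ↥(th a) = 1 from
          Subtype.ext (by simpa using CfsgLib.PCore.pow_card_of_mem hd), one_pow]
      rw [← he, hc12.mul_pow, show q₂ ^ (Nat.card ↥(th a) * Nat.card ↥O) = 1 by
        rw [mul_comm, pow_mul, CfsgLib.PCore.pow_card_of_mem hq₂, one_pow], mul_one] at hp
      obtain ⟨k, hk⟩ := IsPGroup.iff_card.1 (CfsgLib.PCore.isPGroup_pCore 2 ↥C)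
      exact orderOf_eq_one_iff.1 (Nat.eq_one_of_dvd_coprimes (hn.pow_right k) (orderOf_dvd_of_pow_eq_one hp)
        (hk ▸ Subgroup.orderOf_dvd_natCard _ hq₁))
    rw [hq1, one_mul] at he
    exact ⟨⟨d, hdC⟩, he ▸ hq₂, rfl⟩
  -- everything commutes
  haveI : Fintype X := Fintype.ofFinite X
  set s : Finset X := Finset.univ.filter (fun y => y ∈ Y) with hs
  have hsY : ∀ y ∈ s, y ∈ Y := fun y hy => by simpa [hs] using hy
  have hgen : ∀ a ∈ Y, th a ≤
      Subgroup.closure {u : X | u ∈ th a ∧ ∀ y ∈ s, y * u * y⁻¹ = u ∨ y * u * y⁻¹ = u⁻¹} :=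
    fun a ha => le_closure_eigen hY (th_coprime a) (hab a ha) (fun y hy x hx => th_normalized (hYc y hy a ha) hx) s hsY
  have hall : ∀ a ∈ Y, ∀ b ∈ Y, ∀ u ∈ th a, ∀ v ∈ th b, u * v = v * u := by
    intro a ha b hb
    have key : ∀ u ∈ {u : X | u ∈ th a ∧ ∀ y ∈ s, y * u * y⁻¹ = u ∨ y * u * y⁻¹ = u⁻¹},
        ∀ v ∈ {v : X | v ∈ th b ∧ ∀ y ∈ s, y * v * y⁻¹ = v ∨ y * v * y⁻¹ = v⁻¹}, Commute u v := by
      rintro u ⟨hu, hue⟩ v ⟨hv, hve⟩
      obtain ⟨y₁, y₂, hne, hy⟩ := Fintype.exists_ne_map_eq_of_card_lt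
        (fun y : ↥Y => (decide ((y : X) * u * (y : X)⁻¹ = u), decide ((y : X) * v * (y : X)⁻¹ = v)))
        (by rw [Fintype.card_prod, Fintype.card_bool, ← Nat.card_eq_fintype_card]; omega)
      simp only [Prod.mk.injEq, decide_eq_decide] at hy
      set c := (y₁ : X) * y₂ with hc
      have hy22 : (y₂ : X) * y₂ = 1 := by rw [← sq]; exact hY2 _ y₂.2
      have hc1 : c ≠ 1 := fun h => hne (Subtype.ext (by
        calc (y₁ : X) = c * y₂ := by rw [hc, mul_assoc, hy22, mul_one]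
          _ = y₂ := by rw [h, one_mul]))
      have hfix : ∀ w : X, ((y₁ : X) * w * (y₁ : X)⁻¹ = w ↔ (y₂ : X) * w * (y₂ : X)⁻¹ = w) →
          (∀ y ∈ s, y * w * y⁻¹ = w ∨ y * w * y⁻¹ = w⁻¹) → Commute w c := by
        intro w hiff he
        have e2 := he (y₂ : X) (by simp [hs, y₂.2])
        have e1 := he (y₁ : X) (by simp [hs, y₁.2])
        have h0 : c * w * c⁻¹ = w := by
          calc c * w * c⁻¹ = (y₁ : X) * ((y₂ : X) * w * (y₂ : X)⁻¹) * (y₁ : X)⁻¹ := by rw [hc]; group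
            _ = w := by
              by_cases h : (y₂ : X) * w * (y₂ : X)⁻¹ = w
              · rw [h, hiff.2 h]
              · rw [e2.resolve_left h]
                have h5 := e1.resolve_left (fun h6 => h (hiff.1 h6))
                calc (y₁ : X) * w⁻¹ * (y₁ : X)⁻¹ = ((y₁ : X) * w * (y₁ : X)⁻¹)⁻¹ := by group
                  _ = w := by rw [h5, inv_inv]
        exact (mul_inv_eq_iff_eq_mul.1 h0).symm
      have hcY : c ∈ Y := Y.mul_mem y₁.2 y₂.2
      exact hab c hcY u (hbal a ha c hcY hc1 u hu (hfix u hy.1 hue).eq)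
        v (hbal b hb c hcY hc1 v hv (hfix v hy.2 hve).eq)
    intro u hu v hv
    have h1 : ∀ u' ∈ {u : X | u ∈ th a ∧ ∀ y ∈ s, y * u * y⁻¹ = u ∨ y * u * y⁻¹ = u⁻¹}, Commute u' v := by
      intro u' hu'
      have hv' := hgen b hb hv
      have hle : Subgroup.closure {v : X | v ∈ th b ∧ ∀ y ∈ s, y * v * y⁻¹ = v ∨ y * v * y⁻¹ = v⁻¹} ≤
          Subgroup.centralizer {u'} := (Subgroup.closure_le _).2 fun w hw => Subgroup.mem_centralizer_iff.2 fun t ht => by
        rw [Set.mem_singleton_iff.mp ht]; exact key u' hu' w hw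
      exact Subgroup.mem_centralizer_iff.1 (hle hv') u' rfl
    have hle : Subgroup.closure {u : X | u ∈ th a ∧ ∀ y ∈ s, y * u * y⁻¹ = u ∨ y * u * y⁻¹ = u⁻¹} ≤
        Subgroup.centralizer {v} := (Subgroup.closure_le _).2 fun w hw => Subgroup.mem_centralizer_iff.2 fun t ht => by
      rw [Set.mem_singleton_iff.mp ht]; exact (h1 w hw).symm
    exact (Subgroup.mem_centralizer_iff.1 (hle (hgen a ha hu)) v rfl).symm
  show Odd (Nat.card ↥(⨆ y : {y : X // y ∈ Y ∧ y ≠ 1}, th (y : X))) ∧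
    Subgroup.normalizer (Y : Set X) ≤
      Subgroup.normalizer ((⨆ y : {y : X // y ∈ Y ∧ y ≠ 1}, th (y : X) : Subgroup X) : Set X)
  set T : Set X := ⋃ y : {y : X // y ∈ Y ∧ y ≠ 1}, (th (y : X) : Set X) with hT
  set W : Subgroup X := ⨆ y : {y : X // y ∈ Y ∧ y ≠ 1}, th (y : X) with hW
  have hWT : W = Subgroup.closure T := by
    rw [hT, Subgroup.closure_iUnion]; simp [hW]
  set N := ∏ y ∈ s, Nat.card ↥(th y) with hN
  have hNodd : Odd N := Finset.prod_induction _ Odd (fun _ _ h1 h2 => h1.mul h2) odd_one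
    fun y _ => Nat.coprime_two_right.1 (th_coprime y)
  have hTc : ∀ x ∈ T, ∀ y ∈ T, x * y = y * x := by
    intro x hx y hy
    obtain ⟨i, hi⟩ := Set.mem_iUnion.1 hx
    obtain ⟨j, hj⟩ := Set.mem_iUnion.1 hy
    exact hall i i.2.1 j j.2.1 x hi y hj
  have hpow : ∀ w ∈ Subgroup.closure T, w ^ N = 1 := by
    intro w hw
    induction hw using Subgroup.closure_induction with
    | mem x hx =>
      obtain ⟨i, hi⟩ := Set.mem_iUnion.1 hx
      refine orderOf_dvd_iff_pow_eq_one.1 ((Subgroup.orderOf_dvd_natCard _ hi).trans ?_)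
      exact Finset.dvd_prod_of_mem (fun y => Nat.card ↥(th y)) (by simp [hs, i.2.1])
    | one => simp
    | mul x y hx hy h1 h2 =>
      haveI := Subgroup.isMulCommutative_closure hTc
      have hxy : Commute x y := congrArg Subtype.val (mul_comm' (⟨x, hx⟩ : ↥(Subgroup.closure T)) ⟨y, hy⟩)
      rw [hxy.mul_pow, h1, h2, one_mul]
    | inv x _ h1 => rw [inv_pow, h1, inv_one]
  refine ⟨?_, ?_⟩
  · by_contra h
    rw [Nat.not_odd_iff_even, even_iff_two_dvd] at h
    obtain ⟨w, hw⟩ := exists_prime_orderOf_dvd_card' 2 h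
    have hw' : (w : X) ∈ Subgroup.closure T := hWT ▸ w.2
    have hd := orderOf_dvd_of_pow_eq_one (hpow _ hw')
    rw [Subgroup.orderOf_coe, hw] at hd
    exact (Nat.not_even_iff_odd.2 hNodd) (even_iff_two_dvd.2 hd)
  · have hconj : ∀ (n y : X), ∀ d ∈ th y, n * d * n⁻¹ ∈ th (n * y * n⁻¹) := by
      intro n y d hd
      set C := Subgroup.centralizer ({n * y * n⁻¹} : Set X)
      set M := (th y).map (MulAut.conj n).toMonoidHom with hM
      have hMC : M ≤ C := by
        rintro _ ⟨w, hw, rfl⟩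
        refine Subgroup.mem_centralizer_iff.2 fun t ht => ?_
        rw [Set.mem_singleton_iff.mp ht]
        show n * y * n⁻¹ * (n * w * n⁻¹) = n * w * n⁻¹ * (n * y * n⁻¹)
        calc n * y * n⁻¹ * (n * w * n⁻¹) = n * (y * w) * n⁻¹ := by group
          _ = n * (w * y) * n⁻¹ := by rw [(th_commute hw).eq]
          _ = _ := by group
      have hMn : (M.subgroupOf C).Normal := by
        refine ⟨fun m hm g => ?_⟩
        obtain ⟨w, hw, hwm⟩ := Subgroup.mem_subgroupOf.1 hm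
        refine Subgroup.mem_subgroupOf.2 ⟨(n⁻¹ * (g : X) * n) * w * (n⁻¹ * (g : X) * n)⁻¹, th_normalized ?_ hw, ?_⟩
        · have hg := Subgroup.mem_centralizer_iff.1 g.2 _ rfl
          calc n⁻¹ * (g : X) * n * y = n⁻¹ * ((g : X) * (n * y * n⁻¹)) * n := by group
            _ = n⁻¹ * ((n * y * n⁻¹) * (g : X)) * n := by rw [hg]
            _ = _ := by group
        · have hwm' : n * w * n⁻¹ = (m : X) := hwm
          show n * (n⁻¹ * (g : X) * n * w * (n⁻¹ * (g : X) * n)⁻¹) * n⁻¹ = ((g * m * g⁻¹ : ↥C) : X)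
          rw [Subgroup.coe_mul, Subgroup.coe_mul, Subgroup.coe_inv, ← hwm']
          group
      have hMc : (Nat.card ↥(M.subgroupOf C)).Coprime 2 := by
        rw [Nat.card_congr (Subgroup.subgroupOfEquivOfLe hMC).toEquiv, hM,
          ← Nat.card_congr (Subgroup.equivMapOfInjective _ _ (MulAut.conj n).injective).toEquiv]
        exact th_coprime y
      exact ⟨⟨_, hMC ⟨d, hd, rfl⟩⟩, CfsgLib.PCore.le_pPrimeCore hMn hMc (Subgroup.mem_subgroupOf.2 ⟨d, hd, rfl⟩), rfl⟩
    have hle : ∀ m ∈ Subgroup.normalizer (Y : Set X), ∀ w ∈ W, m * w * m⁻¹ ∈ W := by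
      intro m hm w hw
      have hle' : W ≤ W.comap (MulAut.conj m).toMonoidHom := iSup_le fun i d hd => by
        have hiY : m * (i : X) * m⁻¹ ∈ Y ∧ m * (i : X) * m⁻¹ ≠ 1 :=
          ⟨(Subgroup.mem_normalizer_iff.1 hm _).1 i.2.1, fun h => i.2.2 (conj_eq_one_iff.1 h)⟩
        exact Subgroup.mem_iSup_of_mem (⟨_, hiY⟩ : {y : X // y ∈ Y ∧ y ≠ 1}) (hconj m (i : X) d hd)
      exact hle' hw
    intro n hn
    refine Subgroup.mem_normalizer_iff.2 fun w => ⟨hle n hn w, fun h => ?_⟩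
    have := hle n⁻¹ (inv_mem hn) _ h
    simpa [mul_assoc] using this

end Cfsg.Agent.S2924
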