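import Cfsg.Statements.S2925
import Cfsg.Agent.Hall.StructBatch
import Cfsg.Agent.Components.Basic
import Cfsg.Agent.Subnormal.Basic

set_option autoImplicit false
open Cfsg

namespace Cfsg.Agent.S2925

open scoped commutatorElement
open Subgroup

/-- Let K be a component of the finite group X and T a Sylow 2-subgroup of X. If some abelian normal subgroup Y of T does not normalize K, then K ⧸ Z(K) has abelian Sylow 2-subgroups. -/
theorem result {X : Type*} [Group X] [Finite X] (K : Subgroup X) (hK : Cfsg.IsComponent K) (T : Sylow 2 X) (Y : Subgroup X) (hYT : Y ≤ (T : Subgroup X)) (hYn : (Y.subgroupOf (T : Subgroup X)).Normal) (hYab : IsMulCommutative ↥Y) (hnot : ¬ Y ≤ Subgroup.normalizer (K : Set X)) (P : Sylow 2 (↥K ⧸ Subgroup.center ↥K)) : IsMulCommutative ↥(P : Subgroup (↥K ⧸ Subgroup.center ↥K)) := by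
  obtain ⟨y, hy, hyK⟩ := SetLike.not_le_iff_exists.mp hnot
  set K' := K.map (MulAut.conj y).toMonoidHom with hK'
  have hne : K' ≠ K := fun e => hyK (CfsgLib.Subnormal.conj_eq_self_iff.mp e)
  have hcomm := CfsgLib.Components.components_commute hK (CfsgLib.Components.isComponent_conj hK y) (Ne.symm hne)
  have hKK' : ∀ a ∈ K, ∀ b ∈ K', a * b = b * a := fun a ha b hb =>
    (commutatorElement_eq_one_iff_mul_comm.mp (mem_bot.mp (hcomm ▸ commutator_mem_commutator ha hb)))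
  -- commutators with `y` lie in the abelian group `Y`
  have key : ∀ t ∈ (T : Subgroup X) ⊓ K, ∀ s ∈ (T : Subgroup X) ⊓ K,
      ∀ k ∈ K, k * ((s * t)⁻¹ * (t * s)) = ((s * t)⁻¹ * (t * s)) * k := by
    intro t ht s hs k hk
    have hmem : ∀ u ∈ (T : Subgroup X) ⊓ K, u * y * u⁻¹ * y⁻¹ ∈ Y ∧ y * u⁻¹ * y⁻¹ ∈ K' := fun u hu =>
      ⟨mul_mem (hYn.conj_mem ⟨y, hYT hy⟩ hy ⟨u, hu.1⟩) (inv_mem hy), ⟨u⁻¹, inv_mem hu.2, rfl⟩⟩
    obtain ⟨haY, ht'⟩ := hmem t ht
    obtain ⟨hbY, hs'⟩ := hmem s hs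
    set t' := y * t⁻¹ * y⁻¹ with ht'def
    set s' := y * s⁻¹ * y⁻¹ with hs'def
    have hab : (t * t') * (s * s') = (s * s') * (t * t') := by
      have h := congrArg Subtype.val (hYab.is_comm.comm (⟨_, haY⟩ : Y) ⟨_, hbY⟩)
      simp only [Subgroup.coe_mul] at h
      rw [ht'def, hs'def]
      simpa [mul_assoc] using h
    have h1 : t * s * (t' * s') = s * t * (s' * t') := by
      calc t * s * (t' * s') = t * (s * t') * s' := by group
        _ = t * (t' * s) * s' := by rw [hKK' s hs.2 t' ht']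
        _ = (t * t') * (s * s') := by group
        _ = (s * s') * (t * t') := hab
        _ = s * (s' * t) * t' := by group
        _ = s * (t * s') * t' := by rw [hKK' t ht.2 s' hs']
        _ = _ := by group
    have h2 : (s * t)⁻¹ * (t * s) ∈ K' := by
      have e : (s * t)⁻¹ * (t * s) = (s' * t') * (t' * s')⁻¹ := by
        calc (s * t)⁻¹ * (t * s) = (s * t)⁻¹ * (t * s * (t' * s')) * (t' * s')⁻¹ := by group
          _ = (s * t)⁻¹ * (s * t * (s' * t')) * (t' * s')⁻¹ := by rw [h1]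
          _ = _ := by group
      rw [e]
      exact mul_mem (mul_mem hs' ht') (inv_mem (mul_mem ht' hs'))
    exact hKK' k hk _ h2
  obtain ⟨Q, hQ⟩ := CfsgLib.Hall.Struct.sylow_subgroupOf_subnormal K hK.1 T
  have hcenter : ∀ a ∈ (Q : Subgroup ↥K), ∀ b ∈ (Q : Subgroup ↥K),
      QuotientGroup.mk' (Subgroup.center ↥K) a * QuotientGroup.mk' _ b =
        QuotientGroup.mk' (Subgroup.center ↥K) b * QuotientGroup.mk' _ a := by
    intro a ha b hb
    rw [hQ] at ha hb
    rw [← map_mul, ← map_mul, QuotientGroup.mk'_apply, QuotientGroup.mk'_apply, QuotientGroup.eq, mem_center_iff]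
    intro k
    exact Subtype.ext (key b ⟨hb, b.2⟩ a ⟨ha, a.2⟩ k k.2)
  obtain ⟨g, hg⟩ := MulAction.exists_smul_eq (↥K ⧸ Subgroup.center ↥K)
    (Q.mapSurjective (QuotientGroup.mk'_surjective (Subgroup.center ↥K))) P
  subst hg
  refine ⟨⟨fun a b => Subtype.ext ?_⟩⟩
  obtain ⟨a, ha⟩ := a
  obtain ⟨b, hb⟩ := b
  rw [Sylow.coe_subgroup_smul, Sylow.coe_mapSurjective] at ha hb
  obtain ⟨_, ⟨u, hu, rfl⟩, rfl⟩ := ha
  obtain ⟨_, ⟨v, hv, rfl⟩, rfl⟩ := hb
  rw [Subgroup.coe_mul, Subgroup.coe_mul]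
  dsimp only
  exact ((map_mul _ _ _).symm.trans (congrArg _ (hcenter u hu v hv))).trans (map_mul _ _ _)

end Cfsg.Agent.S2925
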