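import Cfsg.Statements.S2929
import Cfsg.Agent.ThreeCycleClasses.Main

set_option autoImplicit false
open Cfsg

namespace Cfsg.Agent.S2929

open CfsgLib.ThreeCycleClasses Equiv

theorem zmod_three : (∀ z : ZMod 3, z = 0 ∨ z = 1 ∨ z = 2) ∧ (1 : ZMod 3) ≠ 0 ∧ (1 : ZMod 3) ≠ 2 ∧
    (0 : ZMod 3) ≠ 2 ∧ (0 : ZMod 3) ≠ 1 ∧ (1 : ZMod 3) + 1 = 2 ∧ (1 : ZMod 3) + 2 = 0 := by
  decide

/-- Let n ≥ 5 and let H be a subgroup of the symmetric group of degree n whose generalized Fitting subgroup F*(H) is quasisimple. If H contains a Sylow 3-subgroup of the symmetric group, then F*(H) is isomorphic to an alternating group of degree m for some m ∈ {n − 2, n − 1, n}. -/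
theorem result (n : ℕ) (hn : 5 ≤ n) (H : Subgroup (Equiv.Perm (Fin n))) (hF : Cfsg.IsQuasisimple ↥(Cfsg.generalizedFittingSubgroup ↥H)) (hS : ∃ P : Sylow 3 (Equiv.Perm (Fin n)), (P : Subgroup (Equiv.Perm (Fin n))) ≤ H) : ∃ m : ℕ, (m = n - 2 ∨ m = n - 1 ∨ m = n) ∧ Nonempty (↥(Cfsg.generalizedFittingSubgroup ↥H) ≃* ↥(alternatingGroup (Fin m))) := by
  classical
  obtain ⟨hz, z10, z12, z02, z01, zadd, zadd'⟩ := zmod_three
  haveI : Fact (Nat.Prime 3) := ⟨Nat.prime_three⟩
  obtain ⟨P, hP⟩ := hS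
  let k := n / 3
  let e : (Fin k × ZMod 3) ⊕ Fin (n % 3) ≃ Fin n :=
    Fintype.equivFinOfCardEq (by
      simp only [Fintype.card_sum, Fintype.card_prod, Fintype.card_fin, ZMod.card, k]
      omega)
  let φ : Multiplicative (Fin k → ZMod 3) →* Perm (Fin n) :=
    { toFun := fun v => e.permCongr (Equiv.sumCongr
        (Equiv.prodShear (Equiv.refl (Fin k)) (fun i => Equiv.addLeft (Multiplicative.toAdd v i)))
        (Equiv.refl _))
      map_one' := by
        ext x
        obtain ⟨y, rfl⟩ := e.surjective x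
        rcases y with ⟨i, z⟩ | r <;> simp
      map_mul' := fun u v => by
        ext x
        obtain ⟨y, rfl⟩ := e.surjective x
        rcases y with ⟨i, z⟩ | r <;> simp [add_assoc] }
  have hE : IsPGroup 3 φ.range := by
    refine IsPGroup.of_surjective ?_ φ.rangeRestrict φ.rangeRestrict_surjective
    exact IsPGroup.of_card (n := k) (by simp)
  obtain ⟨Q, hQ⟩ := hE.exists_le_sylow
  obtain ⟨g, hg⟩ := MulAction.exists_smul_eq (Perm (Fin n)) Q P
  have hmem : ∀ i : Fin k, tc (g (e (Sum.inl (i, 0)))) (g (e (Sum.inl (i, 1))))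
      (g (e (Sum.inl (i, 2)))) ∈ H := by
    intro i
    refine hP ?_
    rw [← hg, Sylow.coe_subgroup_smul, ← conj_tc]
    refine Subgroup.smul_mem_pointwise_smul _ (MulAut.conj g) _ (hQ ?_)
    refine ⟨Multiplicative.ofAdd (Pi.single i 1), ?_⟩
    ext x
    obtain ⟨y, rfl⟩ := e.surjective x
    rcases y with ⟨j, z⟩ | r
    · rcases eq_or_ne j i with rfl | hj
      · obtain ⟨h1, h2, h3⟩ := tc_apply (a := e (Sum.inl (j, 0))) (b := e (Sum.inl (j, 1)))
          (c := e (Sum.inl (j, 2))) (by simp) (by simp [z02]) (by simp [z12])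
        rcases hz z with rfl | rfl | rfl <;> simp [φ, h1, h2, h3, zadd, zadd']
      · rw [tc_apply_of_ne (by simp [hj]) (by simp [hj]) (by simp [hj])]
        simp [φ, hj]
    · rw [tc_apply_of_ne (by simp) (by simp) (by simp)]
      simp [φ]
  have hk : 0 < k := by simp only [k]; omega
  have hne : ∀ i : Fin k, ∀ a b : ZMod 3, a ≠ b → g (e (Sum.inl (i, a))) ≠ g (e (Sum.inl (i, b))) := by
    intro i a b hab h
    simp [hab] at h
  obtain ⟨O, hO, ⟨iso⟩⟩ := exists_class H hF ⟨_, by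
    have h := Perm.isThreeCycle_swap_mul_swap_same (hne ⟨0, hk⟩ 1 0 z10)
      (hne ⟨0, hk⟩ 1 2 z12) (hne ⟨0, hk⟩ 0 2 z02)
    rwa [swap_comm (g _) (g (e (Sum.inl (⟨0, hk⟩, (0 : ZMod 3)))))] at h, hmem ⟨0, hk⟩⟩
  have hsub : ∀ i : Fin k, ∀ z : ZMod 3, g (e (Sum.inl (i, z))) ∈ O := by
    intro i z
    have h01 := hne i 0 1 z01
    have h02 := hne i 0 2 z02
    have h12 := hne i 1 2 z12
    have h := hmem i
    rcases hz z with rfl | rfl | rfl
    · exact hO _ _ _ h01 h02 h12 h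
    · exact hO _ _ _ h12 h01.symm h02.symm (by rw [tc_rot h01 h02 h12]; exact h)
    · exact hO _ _ _ h02.symm h12.symm h01
        (by rw [← tc_rot h02.symm h12.symm h01]; exact h)
  have hcard : 3 * k ≤ O.card := by
    have h := Finset.card_le_card_of_injOn (fun y : Fin k × ZMod 3 => g (e (Sum.inl y)))
      (s := Finset.univ) (t := O) (fun y _ => hsub y.1 y.2) (fun a _ b _ h => by simpa using h)
    simp only [Finset.card_univ, Fintype.card_prod, Fintype.card_fin, ZMod.card] at h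
    omega
  have hle : O.card ≤ n := by simpa using O.card_le_univ
  refine ⟨O.card, by simp only [k] at hcard; omega, ⟨iso.trans ?_⟩⟩
  exact Equiv.altCongrHom (Fintype.equivFinOfCardEq (Fintype.card_coe O))

end Cfsg.Agent.S2929
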