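import Cfsg.Statements.S2931
import Cfsg.Agent.S0822
import Cfsg.Agent.Forms.OmegaMatrix
import Cfsg.Agent.O6Sylow.Data

set_option autoImplicit false
open Cfsg

namespace Cfsg.Agent.S2931

open QuadraticMap Matrix CfsgLib.Forms CfsgLib.Forms.TwoTransp CfsgLib.O6Sylow

/-- A generator on the pairs as a permutation. -/
def gperm (k : Fin 7) : Equiv.Perm (Fin 8) := Function.Involutive.toPerm (gp k) (gen_invol k)

theorem gperm_even : ∀ k : Fin 7, k.val < 6 → Equiv.Perm.sign (gperm k) = 1 := by decide +kernel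

/-- The matrix group element of a generator. -/
noncomputable def gel (k : Fin 7) : O6 :=
  let u := (wd k).1
  if hu : Q6 u ≠ 0 then
    match (wd k).2 with
    | none => reflGL Q6 u hu
    | some v => if hv : Q6 v ≠ 0 then reflGL Q6 u hu * reflGL Q6 v hv else 1
  else 1

theorem gel_mv (k : Fin 7) (x : W6) : ((gel k : GL ((Fin 2 ⊕ Fin 2) ⊕ Fin 2) (ZMod 2)) : Matrix ((Fin 2 ⊕ Fin 2) ⊕ Fin 2) ((Fin 2 ⊕ Fin 2) ⊕ Fin 2) (ZMod 2)) *ᵥ x = gfun k x := by
  obtain ⟨h1, h2⟩ := gen_one k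
  have hu : Q6 (wd k).1 ≠ 0 := by rw [CfsgLib.Forms.coe_quadMinus, h1]; exact one_ne_zero
  have ht : ∀ u (hu : Q6 u ≠ 0) y, ((reflGL Q6 u hu : GL ((Fin 2 ⊕ Fin 2) ⊕ Fin 2) (ZMod 2)) : Matrix ((Fin 2 ⊕ Fin 2) ⊕ Fin 2) ((Fin 2 ⊕ Fin 2) ⊕ Fin 2) (ZMod 2)) *ᵥ y = tfun u y :=
    fun u hu y => by rw [refl_mulVec, pol_eq]; rfl
  rcases hw : (wd k).2 with _ | v
  · simp only [gel, dif_pos hu, gfun, hw]
    exact ht _ hu x
  · have hv' : Q6 v ≠ 0 := by rw [CfsgLib.Forms.coe_quadMinus, h2 v hw]; exact one_ne_zero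
    simp only [gel, dif_pos hu, gfun, hw, dif_pos hv']
    rw [coe_mul_mv, ht _ hu, ht _ hv']

/-- Isometries with their action on the pairs. -/
theorem action_exists : ∃ (K : Subgroup O6) (ψ : K →* Equiv.Perm (Fin 8)), Function.Injective ψ ∧
    ∀ k, ∃ h : gel k ∈ K, ψ ⟨gel k, h⟩ = gperm k := by
  classical
  let act : O6 → W6 → W6 := fun g x => ((g : GL ((Fin 2 ⊕ Fin 2) ⊕ Fin 2) (ZMod 2)) : Matrix ((Fin 2 ⊕ Fin 2) ⊕ Fin 2) ((Fin 2 ⊕ Fin 2) ⊕ Fin 2) (ZMod 2)) *ᵥ x
  have hact : ∀ g h x, act (g * h) x = act g (act h x) := fun g h x => coe_mul_mv g h x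
  have hone : ∀ x, act 1 x = x := fun x => one_mulVec x
  have hinv : ∀ g x, act g⁻¹ (act g x) = x := fun g x => by rw [← hact, inv_mul_cancel, hone]
  have htr : ∀ g h i j k, Sends (act h) i j → Sends (act g) j k → Sends (act (g * h)) i k := by
    intro g h i j k h1 h2
    rcases h1 with ⟨a, b⟩ | ⟨a, b⟩ <;> rcases h2 with ⟨c, e⟩ | ⟨c, e⟩ <;>
      simp [Sends, hact, a, b, c, e]
  have huniq : ∀ g i j k, Sends (act g) i j → Sends (act g) i k → j = k := by
    intro g i j k h1 h2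
    apply pairs_inj
    rcases h1 with ⟨a, b⟩ | ⟨a, b⟩ <;> rcases h2 with ⟨c, e⟩ | ⟨c, e⟩
    · exact Or.inl ⟨a.symm.trans c, b.symm.trans e⟩
    · exact Or.inr ⟨a.symm.trans c, b.symm.trans e⟩
    · exact Or.inr ⟨b.symm.trans e, a.symm.trans c⟩
    · exact Or.inl ⟨b.symm.trans e, a.symm.trans c⟩
  let K : Subgroup O6 :=
    { carrier := {g | (∀ i, ∃ j, Sends (act g) i j) ∧ ∀ i, ∃ j, Sends (act g⁻¹) i j}
      one_mem' := ⟨fun i => ⟨i, Or.inl ⟨hone _, hone _⟩⟩, fun i => ⟨i, by rw [inv_one]; exact Or.inl ⟨hone _, hone _⟩⟩⟩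
      mul_mem' := fun {g h} hg hh => ⟨fun i => by
          obtain ⟨j, hj⟩ := hh.1 i
          obtain ⟨k, hk⟩ := hg.1 j
          exact ⟨k, htr g h i j k hj hk⟩, fun i => by
          obtain ⟨j, hj⟩ := hg.2 i
          obtain ⟨k, hk⟩ := hh.2 j
          exact ⟨k, by rw [_root_.mul_inv_rev]; exact htr _ _ i j k hj hk⟩⟩
      inv_mem' := fun {g} hg => ⟨hg.2, by rw [inv_inv]; exact hg.1⟩ }
  have hex : ∀ (g : K) i, ∃ j, Sends (act g.1) i j := fun g => g.2.1
  choose π hπ using hex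
  letI A : MulAction K (Fin 8) :=
    { smul := π
      one_smul := fun i => huniq _ i _ _ (hπ 1 i) (Or.inl ⟨hone _, hone _⟩)
      mul_smul := fun g h i => huniq _ i _ _ (hπ (g * h) i) (htr g.1 h.1 i _ _ (hπ h i) (hπ g _)) }
  refine ⟨K, MulAction.toPermHom K (Fin 8), ?_, fun k => ?_⟩
  · rw [injective_iff_map_eq_one]
    intro g hg
    have hp : ∀ i, Sends (act g.1) i i := fun i => by
      have := hπ g i
      rwa [show π g i = i from DFunLike.congr_fun hg i] at this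
    have hv : ∀ i, act g.1 (pA i) = pA i ∧ act g.1 (pB i) = pB i := by
      intro i
      rcases hp i with h | ⟨h1, h2⟩
      · exact h
      · exfalso
        obtain ⟨k, hk, e⟩ := (vertex i).1
        rcases e with e | e <;> rcases hp k with ⟨a, b⟩ | ⟨a, b⟩
        · rw [e, h1] at a; exact ne_pair i a.symm
        · rw [e, h1] at a; exact hk (pairs_inj k i (Or.inl ⟨e, a.symm⟩))
        · rw [e, h1] at b; exact ne_pair i b.symm
        · rw [e, h1] at b; exact hk (pairs_inj k i (Or.inr ⟨b.symm, e⟩))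
    have hout : ∀ x, pol x w61 = 1 → act g.1 x = x := by
      intro x hx
      refine rigid x _ hx ?_ fun i => ?_
      · have := mem_isometryGroup.1 g.1.2 x
        rwa [CfsgLib.Forms.coe_quadMinus] at this
      · have hp : ∀ y, act g.1 y = y → pol (act g.1 x) y = pol x y := fun y hy => by
          conv_lhs => rw [← hy]
          rw [← pol_eq, ← pol_eq]
          simp only [polar, act, ← Matrix.mulVec_add, mem_isometryGroup.1 g.1.2]
        exact ⟨hp _ (hv i).1, hp _ (hv i).2⟩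
    refine Subtype.ext (ext_mv fun x => ?_)
    show act g.1 x = act 1 x
    rw [hone]
    rcases split x with h | ⟨x0, h0, h1⟩
    · exact hout x h
    · have e := hout _ h1
      simp only [act, Matrix.mulVec_add] at e
      have e0 := hout x0 h0
      simp only [act] at e0
      rw [e0] at e
      exact add_right_cancel e
  · have hs : ∀ i, Sends (act (gel k)) i (gp k i) := fun i => by
      have := gen_sends k i
      simpa only [Sends, act, gel_mv] using this
    have hself : (gel k)⁻¹ = gel k := by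
      refine inv_eq_of_mul_eq_one_right (Subtype.ext ?_)
      refine congrArg Subtype.val (ext_mv fun x => ?_ : gel k * gel k = 1)
      rw [coe_mul_mv, gel_mv, gel_mv]
      show gfun k (gfun k x) = act 1 x
      rw [hone]
      exact gfun_invol k x
    have hmem : gel k ∈ K := ⟨fun i => ⟨_, hs i⟩, fun i => ⟨gp k i, by rw [hself]; exact hs i⟩⟩
    exact ⟨hmem, Equiv.ext fun i => huniq _ i _ _ (hπ ⟨gel k, hmem⟩ i) (hs i)⟩

/-- A subgroup of odd index and prime power order is a Sylow subgroup. -/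
theorem sylow_equiv {G : Type*} [Group G] [Finite G] (H : Subgroup G) {k m : ℕ} (hH : Nat.card H = 2 ^ k)
    (hG : Nat.card G = 2 ^ k * m) (hm : ¬ 2 ∣ m) (P : Sylow 2 G) : Nonempty (↥(P : Subgroup G) ≃* H) := by
  haveI : Fact (Nat.Prime 2) := ⟨Nat.prime_two⟩
  have hm0 : m ≠ 0 := fun h => hm (h ▸ dvd_zero 2)
  let S : Sylow 2 G := Sylow.ofCard H (by
    rw [hH, hG, Nat.factorization_mul (pow_ne_zero _ two_ne_zero) hm0, Finsupp.add_apply,
      Nat.Prime.factorization_pow Nat.prime_two, Finsupp.single_eq_same, Nat.factorization_eq_zero_of_not_dvd hm,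
      add_zero])
  exact ⟨P.equiv S⟩

theorem anis_unique : ∀ a b : ZMod 2,
    (∀ z₁ z₂ : ZMod 2, z₁ ^ 2 + a * z₁ * z₂ + b * z₂ ^ 2 = 0 → z₁ = 0 ∧ z₂ = 0) → a = 1 ∧ b = 1 := by decide

theorem anis6 : ∀ z₁ z₂ : ZMod 2, z₁ ^ 2 + 1 * z₁ * z₂ + 1 * z₂ ^ 2 = 0 → z₁ = 0 ∧ z₂ = 0 := by decide

/-- The isometry group over any field with two elements. -/
theorem transfer {K : Type} [Field K] [Fintype K] (hK : Fintype.card K = 2) (a b : K)
    (hab : ∀ z₁ z₂ : K, z₁ ^ 2 + a * z₁ * z₂ + b * z₂ ^ 2 = 0 → z₁ = 0 ∧ z₂ = 0) :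
    Nonempty (↥(Cfsg.isometryGroup K (Cfsg.quadFormMinus 2 K a b)) ≃* O6) := by
  classical
  let σ : ZMod 2 ≃+* K := ZMod.ringEquivOfPrime K Nat.prime_two hK
  obtain ⟨a', rfl⟩ := σ.surjective a
  obtain ⟨b', rfl⟩ := σ.surjective b
  have h' : ∀ z₁ z₂ : ZMod 2, z₁ ^ 2 + a' * z₁ * z₂ + b' * z₂ ^ 2 = 0 → z₁ = 0 ∧ z₂ = 0 := fun z₁ z₂ h => by
    obtain ⟨h1, h2⟩ := hab (σ z₁) (σ z₂) (by rw [← map_pow, ← map_pow, ← map_mul, ← map_mul, ← map_mul, ← map_add, ← map_add, h, map_zero])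
    exact ⟨σ.injective (h1.trans (map_zero σ).symm), σ.injective (h2.trans (map_zero σ).symm)⟩
  have hc : a' = 1 ∧ b' = 1 := (anis_unique a' b') h'
  obtain ⟨rfl, rfl⟩ := hc
  rw [map_one, O6, Q6, CfsgLib.Forms.coe_quadMinus]
  let e : GL ((Fin 2 ⊕ Fin 2) ⊕ Fin 2) (ZMod 2) ≃* GL ((Fin 2 ⊕ Fin 2) ⊕ Fin 2) K :=
    Units.mapEquiv σ.mapMatrix.toMulEquiv
  have hmap : ((Cfsg.isometryGroup (ZMod 2) (Cfsg.quadFormMinus 2 (ZMod 2) 1 1)).map e.toMonoidHom) =
      Cfsg.isometryGroup K (Cfsg.quadFormMinus 2 K 1 1) := by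
    have hq : ∀ v : W6, Cfsg.quadFormMinus 2 K 1 1 (σ ∘ v) = σ (Cfsg.quadFormMinus 2 (ZMod 2) 1 1 v) := fun v => by
      simp only [Cfsg.quadFormMinus, Function.comp, map_add, map_sum, map_mul, map_pow, map_one]
    have hmv : ∀ (g : GL ((Fin 2 ⊕ Fin 2) ⊕ Fin 2) (ZMod 2)) (v : W6),
        ((e g : GL ((Fin 2 ⊕ Fin 2) ⊕ Fin 2) K) : Matrix ((Fin 2 ⊕ Fin 2) ⊕ Fin 2) ((Fin 2 ⊕ Fin 2) ⊕ Fin 2) K) *ᵥ (σ ∘ v) = σ ∘ ((g : Matrix ((Fin 2 ⊕ Fin 2) ⊕ Fin 2) ((Fin 2 ⊕ Fin 2) ⊕ Fin 2) (ZMod 2)) *ᵥ v) := fun g v => by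
      funext i
      simp [e, Matrix.mulVec, dotProduct, Units.coe_mapEquiv]
    ext g
    obtain ⟨g, rfl⟩ := e.surjective g
    rw [Subgroup.mem_map_equiv, e.symm_apply_apply, mem_isometryGroup, mem_isometryGroup]
    constructor
    · intro h v
      rw [show v = σ ∘ (σ.symm ∘ v) from funext fun _ => (σ.apply_symm_apply _).symm, hmv, hq, hq, h]
    · intro h v
      have := h (σ ∘ v)
      rw [hmv, hq, hq] at this
      exact σ.injective this
  exact ⟨((e.subgroupMap _).trans (MulEquiv.subgroupCongr hmap)).symm⟩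


/-- The Sylow 2-subgroups of the alternating group of degree 8 and of PSp₄(3) are isomorphic, and so are the Sylow 2-subgroups of the symmetric group of degree 8 and of the full isometry group of a non-degenerate quadratic form of minus type in dimension 6 over the field with 2 elements. -/
theorem result (F : Type) [Field F] [Fintype F] (hF : Fintype.card F = 3) (K : Type) [Field K] [Fintype K] (hK : Fintype.card K = 2) (a b : K) (hab : ∀ z₁ z₂ : K, z₁ ^ 2 + a * z₁ * z₂ + b * z₂ ^ 2 = 0 → z₁ = 0 ∧ z₂ = 0) (P : Sylow 2 ↥(alternatingGroup (Fin 8))) (Q : Sylow 2 (Cfsg.PSp 2 F)) (P' : Sylow 2 (Equiv.Perm (Fin 8))) (Q' : Sylow 2 ↥(Cfsg.isometryGroup K (Cfsg.quadFormMinus 2 K a b))) : Nonempty (↥(P : Subgroup ↥(alternatingGroup (Fin 8))) ≃* ↥(Q : Subgroup (Cfsg.PSp 2 F))) ∧ Nonempty (↥(P' : Subgroup (Equiv.Perm (Fin 8))) ≃* ↥(Q' : Subgroup ↥(Cfsg.isometryGroup K (Cfsg.quadFormMinus 2 K a b)))) := by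
  classical
  haveI : Fact (Nat.Prime 2) := ⟨Nat.prime_two⟩
  have anis := anis6
  have hQ6 := CfsgLib.Forms.nondegenerate_quadMinus 2 anis
  obtain ⟨K', ψ, hψ, hgel⟩ := action_exists
  choose hmem hψg using hgel
  let ge : Fin 7 → K' := fun k => ⟨gel k, hmem k⟩
  -- subgroups generated by the first few generators
  have key : ∀ c n : ℕ, (c = 7 ∧ n = 128) ∨ (c = 6 ∧ n = 64) →
      Nat.card ↥((Subgroup.closure (ge '' {k | k.val < c})).map ψ) = n := by
    intro c n hcn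
    set H := (Subgroup.closure (ge '' {k | k.val < c})).map ψ with hH
    have hmemH : ∀ k : Fin 7, k.val < c → gperm k ∈ H := fun k hk =>
      ⟨ge k, Subgroup.subset_closure ⟨k, hk, rfl⟩, hψg k⟩
    have hsub : ∀ p ∈ H, ∃ m : Fin 128, m.val < n ∧ (p : Fin 8 → Fin 8) = L m := by
      intro p hp
      rw [hH, MonoidHom.map_closure] at hp
      induction hp using Subgroup.closure_induction_left with
      | one => exact ⟨0, by rcases hcn with ⟨_, h⟩ | ⟨_, h⟩ <;> simp [h], funext fun i => (L_zero i).symm⟩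
      | mul_left x hx y _ ih =>
        obtain ⟨_, ⟨k, hk, rfl⟩, rfl⟩ := hx
        obtain ⟨m, hm, e⟩ := ih
        refine ⟨mu k m, ?_, funext fun i => ?_⟩
        · rcases hcn with ⟨_, h⟩ | ⟨hc, h⟩
          · rw [h]; exact (mu k m).isLt
          · rw [h] at hm ⊢; exact L_small k (hc ▸ hk) m hm
        · rw [Equiv.Perm.mul_apply, show y i = L m i from congrFun e i, show ψ (ge k) = gperm k from hψg k]
          exact L_mu k m i
      | inv_mul_cancel x hx y _ ih =>
        obtain ⟨_, ⟨k, hk, rfl⟩, rfl⟩ := hx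
        obtain ⟨m, hm, e⟩ := ih
        have hs : (ψ (ge k))⁻¹ = gperm k := by
          rw [show ψ (ge k) = gperm k from hψg k]
          exact Equiv.ext fun i => rfl
        refine ⟨mu k m, ?_, funext fun i => ?_⟩
        · rcases hcn with ⟨_, h⟩ | ⟨hc, h⟩
          · rw [h]; exact (mu k m).isLt
          · rw [h] at hm ⊢; exact L_small k (hc ▸ hk) m hm
        · rw [hs, Equiv.Perm.mul_apply, show y i = L m i from congrFun e i]
          exact L_mu k m i
    have hsup : ∀ j : ℕ, ∀ m : Fin 128, m.val ≤ j → m.val < n → ∃ p ∈ H, (p : Fin 8 → Fin 8) = L m := by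
      intro j
      induction j with
      | zero => intro m hm _; obtain rfl : m = 0 := Fin.ext (Nat.le_zero.mp hm)
                exact ⟨1, one_mem _, funext fun i => (L_zero i).symm⟩
      | succ j ih =>
        intro m hm hn
        by_cases h0 : m = 0
        · subst h0; exact ⟨1, one_mem _, funext fun i => (L_zero i).symm⟩
        obtain ⟨k, m', hlt, e, hk⟩ := L_reach m h0
        have hlt' : m'.val < m.val := hlt
        obtain ⟨p, hp, ep⟩ := ih m' (by omega) (by omega)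
        refine ⟨gperm k * p, mul_mem (hmemH k ?_) hp, funext fun i => ?_⟩
        · rcases hcn with ⟨hc, _⟩ | ⟨hc, h⟩
          · rw [hc]; exact k.isLt
          · rw [hc]; exact hk (h ▸ hn)
        · rw [Equiv.Perm.mul_apply, show p i = L m' i from congrFun ep i, ← e]
          exact L_mu k m' i
    choose f hf using fun p : H => hsub p.1 p.2
    have hbij : Function.Bijective (fun p : H => (⟨(f p).val, (hf p).1⟩ : Fin n)) := by
      constructor
      · intro p q h
        have h' : f p = f q := Fin.ext (congrArg Fin.val h :)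
        exact Subtype.ext (DFunLike.coe_injective ((hf p).2.trans (h' ▸ (hf q).2.symm)))
      · intro m
        have hn128 : n ≤ 128 := by rcases hcn with ⟨_, h⟩ | ⟨_, h⟩ <;> omega
        obtain ⟨p, hp, ep⟩ := hsup m.val ⟨m.val, by omega⟩ le_rfl m.isLt
        refine ⟨⟨p, hp⟩, Fin.ext ?_⟩
        exact (congrArg Fin.val (L_inj ((hf ⟨p, hp⟩).2.symm.trans ep)) :)
    rw [Nat.card_congr (Equiv.ofBijective _ hbij), Nat.card_fin]
  -- orders
  have hO : Nat.card O6 = 2 ^ 7 * 405 := by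
    show Nat.card (Cfsg.isometryGroup (ZMod 2) ⇑Q6) = _
    rw [CfsgLib.OrthOrder.natCard_isometryGroup Q6 rfl, CfsgLib.OrthOrder.card_isom_minus anis 2, ZMod.card]
    simp [Finset.prod_range_succ]
  have hΩ : Nat.card (Cfsg.Omega (ZMod 2) ⇑Q6) = 2 ^ 6 * 405 := by
    have h := Subgroup.card_mul_index (Cfsg.Omega (ZMod 2) ⇑Q6)
    rw [CfsgLib.Forms.index_Omega_two rfl hQ6 (Or.inr (by simp)) (by simp)] at h
    change _ * 2 = Nat.card O6 at h
    rw [hO] at h
    omega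
  have hS8 : Nat.card (Equiv.Perm (Fin 8)) = 2 ^ 7 * 315 := by
    rw [Nat.card_perm, Nat.card_fin]; rfl
  have hA8 : Nat.card (alternatingGroup (Fin 8)) = 2 ^ 6 * 315 := by
    have h := Subgroup.card_mul_index (alternatingGroup (Fin 8))
    rw [alternatingGroup.index_eq_two, hS8] at h
    omega
  constructor
  · let L6 := Subgroup.closure (ge '' {k | k.val < 6})
    have hev : L6.map ψ ≤ alternatingGroup (Fin 8) := by
      rw [MonoidHom.map_closure, Subgroup.closure_le]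
      rintro _ ⟨_, ⟨k, hk, rfl⟩, rfl⟩
      rw [show ψ (ge k) = gperm k from hψg k]
      exact gperm_even k hk
    have hom : L6.map K'.subtype ≤ Cfsg.Omega (ZMod 2) ⇑Q6 := by
      rw [MonoidHom.map_closure, Subgroup.closure_le]
      rintro _ ⟨_, ⟨k, hk, rfl⟩, rfl⟩
      show gel k ∈ _
      obtain ⟨h1, h2⟩ := gen_one k
      obtain ⟨v, hv⟩ := Option.isSome_iff_exists.1 (gen_parity k hk)
      have hu : Q6 (wd k).1 ≠ 0 := by rw [CfsgLib.Forms.coe_quadMinus, h1]; exact one_ne_zero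
      have hv' : Q6 v ≠ 0 := by rw [CfsgLib.Forms.coe_quadMinus, h2 v hv]; exact one_ne_zero
      have e : gel k = reflGL Q6 _ hu * reflGL Q6 v hv' := by
        refine ext_mv fun x => ?_
        rw [gel_mv, coe_mul_mv, refl_mulVec, refl_mulVec, pol_eq, pol_eq, gfun, hv]
        rfl
      rw [SetLike.mem_coe, e, CfsgLib.Forms.mem_Omega_of_list (l := [⟨_, hu⟩, ⟨v, hv'⟩]) hQ6 (Or.inr (by simp))]
      · refine ⟨⟨1, rfl⟩, 1, ?_⟩
        show valueProd Q6 [⟨(wd k).1, hu⟩, ⟨v, hv'⟩] = 1 * 1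
        simp only [valueProd, List.map_cons, List.map_nil, List.prod_cons, List.prod_nil]
        simp only [CfsgLib.Forms.coe_quadMinus, h1, h2 v hv, mul_one]
      · rw [map_mul, reflGL, reflGL, MulEquiv.apply_symm_apply, MulEquiv.apply_symm_apply]
        exact Subtype.ext (by simp [reflProd])
    have hc := key 6 64 (Or.inr ⟨rfl, rfl⟩)
    have eψ := Subgroup.equivMapOfInjective L6 ψ hψ
    have eK := Subgroup.equivMapOfInjective L6 K'.subtype Subtype.val_injective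
    obtain ⟨eP⟩ := sylow_equiv ((L6.map ψ).subgroupOf (alternatingGroup (Fin 8))) (k := 6) (m := 315)
      (by rw [Nat.card_congr (Subgroup.subgroupOfEquivOfLe hev).toEquiv, hc]; rfl) hA8 (by norm_num) P
    haveI : Fintype (GaloisField 2 2) := Fintype.ofFinite _
    obtain ⟨e4⟩ : Nonempty (↥(Cfsg.Omega (ZMod 2) ⇑Q6) ≃* Cfsg.PSp 2 F) := by
      obtain ⟨e₁⟩ := Cfsg.Agent.S0303.result (F := ZMod 2) (K := GaloisField 2 2) (q := 2) (ZMod.card 2)
        (by rw [← Nat.card_eq_fintype_card, GaloisField.card 2 2 two_ne_zero]) 1 1 anis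
      obtain ⟨e₂⟩ := Cfsg.Agent.S0822.result (F := GaloisField 2 2) (K := F)
        (by rw [← Nat.card_eq_fintype_card, GaloisField.card 2 2 two_ne_zero]; rfl) hF
      have hb : Subgroup.center (Cfsg.Omega (ZMod 2) ⇑Q6) = ⊥ :=
        Subgroup.card_eq_one.1 (CfsgLib.OrthOrder.card_center_char_two rfl hQ6 (by simp))
      rw [← CfsgLib.Forms.coe_quadMinus] at e₁
      exact ⟨(((QuotientGroup.quotientMulEquivOfEq hb).trans QuotientGroup.quotientBot).symm.trans e₁).trans e₂⟩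
    let H := ((L6.map K'.subtype).subgroupOf (Cfsg.Omega (ZMod 2) ⇑Q6)).map e4.toMonoidHom
    have eH : ↥L6 ≃* H := eK.trans ((Subgroup.subgroupOfEquivOfLe hom).symm.trans (e4.subgroupMap _))
    obtain ⟨eQ⟩ := sylow_equiv H (k := 6) (m := 405)
      (by rw [← Nat.card_congr eH.toEquiv, Nat.card_congr eψ.toEquiv, hc]; rfl)
      (by rw [← Nat.card_congr e4.toEquiv, hΩ]) (by norm_num) Q
    exact ⟨eP.trans ((Subgroup.subgroupOfEquivOfLe hev).trans (eψ.symm.trans (eH.trans eQ.symm)))⟩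
  · let L7 := Subgroup.closure (ge '' {k | k.val < 7})
    have hc := key 7 128 (Or.inl ⟨rfl, rfl⟩)
    have eψ := Subgroup.equivMapOfInjective L7 ψ hψ
    obtain ⟨eP⟩ := sylow_equiv (L7.map ψ) (k := 7) (m := 315) (by rw [hc]; rfl) hS8 (by norm_num) P'
    obtain ⟨et⟩ := transfer hK a b hab
    let H := (L7.map K'.subtype).map et.symm.toMonoidHom
    have eH : ↥L7 ≃* H :=
      (Subgroup.equivMapOfInjective L7 K'.subtype Subtype.val_injective).trans (et.symm.subgroupMap _)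
    obtain ⟨eQ⟩ := sylow_equiv H (k := 7) (m := 405)
      (by rw [← Nat.card_congr eH.toEquiv, Nat.card_congr eψ.toEquiv, hc]; rfl)
      (by rw [Nat.card_congr et.toEquiv, hO]) (by norm_num) Q'
    exact ⟨eP.trans (eψ.symm.trans (eH.trans eQ.symm))⟩

end Cfsg.Agent.S2931
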