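import Cfsg.Statements.S2939
import Cfsg.Agent.LocalLemmas.SylowGraph
import Mathlib.Data.List.OfFn
import Mathlib.Data.Fin.Tuple.Basic

set_option autoImplicit false
open Cfsg

namespace Cfsg.Agent.S2939

theorem take_succ_prod {G : Type*} [Group G] {n : ℕ} (y : Fin n → G) (j : Fin n) :
    ((List.ofFn y).take (j.val + 1)).prod = ((List.ofFn y).take j.val).prod * y j := by
  rw [List.prod_take_succ _ _ (by simp), List.getElem_ofFn]


/-- Let p be a prime dividing the order of the finite group G and 𝓕 a family of subgroups of G closed under conjugation, with conjugates taken as X^g = g⁻¹Xg. Then 𝓕 controls Sylow p-intersections in G (any two distinct Sylow p-subgroups S and T with S ∩ T ≠ 1 are joined by a chain S = S₀, S₁, …, Sₙ = T of Sylow p-subgroups where, for each i, some member Xᵢ of 𝓕 meets both S_{i-1} and Sᵢ in Sylow p-subgroups of Xᵢ, satisfies S ∩ T ≤ Sᵢ ∩ Xᵢ, and contains an element xᵢ with Sᵢ^{xᵢ} = S_{i-1}) if and only if 𝓕 strongly controls p-fusion in G (whenever A is a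 subset of a Sylow p-subgroup S, A contains an element other than 1, and A^g ⊆ S, the element g factorises as g = y₁⋯yₙy with y ∈ N_G(S) and each yᵢ in a member Yᵢ of 𝓕 that meets S in a Sylow p-subgroup of Yᵢ, with A^{y₁⋯yᵢ} ⊆ S ∩ Yᵢ for each i). -/
theorem result {G : Type*} [Group G] [Finite G] {p : ℕ} [Fact p.Prime] (hdiv : p ∣ Nat.card G) (𝓕 : Set (Subgroup G)) (h𝓕 : Cfsg.IsNormalSet 𝓕) : Cfsg.ControlsSylowIntersections p 𝓕 ↔ Cfsg.FamilyStronglyControlsFusion p 𝓕 := by
  classical
  constructor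
  · intro hc S A g hAS hA1 hAg
    set T := g • S with hT
    by_cases hST : S = T
    · exact ⟨0, fun i => i.elim0, fun i => i.elim0, g, Sylow.smul_eq_iff_mem_normalizer.mp hST.symm,
        fun i => i.elim0, by simp, fun i => i.elim0⟩
    have hAT : ∀ a ∈ A, a ∈ (S : Subgroup G) ⊓ (T : Subgroup G) := fun a ha =>
      ⟨hAS ha, CfsgLib.SylowGraph.mem_smul_iff.mpr (hAg ⟨a, ha, rfl⟩)⟩
    obtain ⟨n, c, X, x, h0, hn, hstep⟩ := hc S T hST fun h => by
      obtain ⟨a, ha, ha1⟩ := hA1
      exact ha1 (Subgroup.mem_bot.mp (h ▸ hAT a ha))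
    let u : Fin (n + 1) → G := Fin.induction 1 (fun j uj => x j * uj)
    have hu0 : u 0 = 1 := rfl
    have hus : ∀ j : Fin n, u j.succ = x j * u j.castSucc := fun j => by simp [u]
    have hcu : ∀ i : Fin (n + 1), c i = u i • S := by
      intro i
      induction i using Fin.induction with
      | zero => rw [h0, hu0, one_smul]
      | succ j ih =>
        obtain ⟨-, -, -, hconj, -⟩ := hstep j
        apply Sylow.ext
        rw [hus, mul_smul, ← ih, CfsgLib.SylowGraph.coe_smul_sylow, ← hconj, Cfsg.subgroupConjRight,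
          CfsgLib.LocalLemmas.conjMap_conjMap, mul_inv_cancel, CfsgLib.LocalLemmas.conjMap_one]
    let y : Fin n → G := fun i => (u i.castSucc)⁻¹ * x i * u i.castSucc
    have hprod : ∀ i : Fin (n + 1), ((List.ofFn y).take i.val).prod = u i := by
      intro i
      induction i using Fin.induction with
      | zero => simp [hu0]
      | succ j ih =>
        have ih' : ((List.ofFn y).take j.val).prod = u j.castSucc := ih
        rw [Fin.val_succ, take_succ_prod, ih', hus]
        simp [y, mul_assoc]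
    refine ⟨n, fun i => (X i).map (MulAut.conj (u i.castSucc)⁻¹).toMonoidHom, y, (u (Fin.last n))⁻¹ * g,
      Sylow.smul_eq_iff_mem_normalizer.mp (by rw [mul_smul, ← hT, ← hn, hcu (Fin.last n), inv_smul_smul]), fun i => ⟨?_, ?_⟩, ?_, fun i => ?_⟩
    · obtain ⟨hX1, -⟩ := hstep i
      have := CfsgLib.SylowGraph.sylowMembers_conj h𝓕 (u i.castSucc)⁻¹ hX1
      rwa [hcu, CfsgLib.SylowGraph.coe_smul_sylow, CfsgLib.LocalLemmas.conjMap_conjMap, inv_mul_cancel,
        CfsgLib.LocalLemmas.conjMap_one] at this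
    · obtain ⟨-, -, hx, -⟩ := hstep i
      exact ⟨x i, hx, by simp [y]⟩
    · have := hprod (Fin.last n)
      rw [Fin.val_last, List.take_of_length_le (by simp)] at this
      rw [this, mul_inv_cancel_left]
    · rintro _ ⟨a, ha, rfl⟩
      obtain ⟨-, -, hx, -, hle⟩ := hstep i
      have hp' := hprod i.succ
      rw [Fin.val_succ] at hp'
      show (_ : G) ∈ (S : Set G) ∩ _
      obtain ⟨h1, h2⟩ := hle (hAT a ha)
      rw [hp']
      refine ⟨?_, ⟨(x i)⁻¹ * a * x i, (X i).mul_mem ((X i).mul_mem ((X i).inv_mem hx) h2) hx, ?_⟩⟩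
      · rw [hcu] at h1
        exact CfsgLib.SylowGraph.mem_smul_iff.mp h1
      · simp [hus, mul_assoc]
  · intro hc S T hST hne
    obtain ⟨g, hg⟩ := MulAction.exists_smul_eq G S T
    subst hg
    obtain ⟨n, Y, y, y₀, hy₀, hY, hprod, hA⟩ := hc S (((S : Subgroup G) ⊓ ((g • S : Sylow p G) : Subgroup G) : Subgroup G) : Set G) g
      (fun a ha => ha.1) (by
        obtain ⟨⟨a, ha⟩, ha1⟩ := Subgroup.ne_bot_iff_exists_ne_one.mp hne
        exact ⟨a, ha, fun e => ha1 (Subtype.ext e)⟩) (by
        rintro _ ⟨a, ha, rfl⟩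
        exact CfsgLib.SylowGraph.mem_smul_iff.mp ha.2)
    let u : Fin (n + 1) → G := fun i => ((List.ofFn y).take i.val).prod
    have hu0 : u 0 = 1 := by simp [u]
    have hus : ∀ j : Fin n, u j.succ = u j.castSucc * y j := fun j => take_succ_prod y j
    refine ⟨n, fun i => u i • S, fun i => (Y i).map (MulAut.conj (u i.castSucc)).toMonoidHom,
      fun i => u i.succ * (u i.castSucc)⁻¹, ?_, ?_, fun i => ?_⟩
    · simp only [hu0, one_smul]
    · have e : u (Fin.last n) = g * y₀⁻¹ := by
        simp only [u, Fin.val_last]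
        rw [List.take_of_length_le (by simp), hprod, mul_inv_cancel_right]
      show u (Fin.last n) • S = g • S
      rw [e, mul_smul, Sylow.smul_eq_iff_mem_normalizer.mpr (Subgroup.inv_mem _ hy₀)]
    · have hYn : (Y i).map (MulAut.conj (y i)).toMonoidHom = Y i :=
        CfsgLib.LocalLemmas.conjMap_eq_of_mem_normalizer (Subgroup.le_normalizer (hY i).2)
      have hX' : (Y i).map (MulAut.conj (u i.castSucc)).toMonoidHom = (Y i).map (MulAut.conj (u i.succ)).toMonoidHom := by
        rw [hus, ← CfsgLib.LocalLemmas.conjMap_conjMap, hYn]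
      refine ⟨CfsgLib.SylowGraph.sylowMembers_conj h𝓕 _ (hY i).1, ?_, ?_, ?_, ?_⟩
      · show (Y i).map (MulAut.conj (u i.castSucc)).toMonoidHom ∈ _
        rw [hX']; exact CfsgLib.SylowGraph.sylowMembers_conj h𝓕 _ (hY i).1
      · exact ⟨y i, (hY i).2, by simp [hus, mul_assoc]⟩
      · show Cfsg.subgroupConjRight _ ((u i.succ • S : Sylow p G) : Subgroup G) = ((u i.castSucc • S : Sylow p G) : Subgroup G)
        rw [Cfsg.subgroupConjRight, CfsgLib.SylowGraph.coe_smul_sylow, CfsgLib.SylowGraph.coe_smul_sylow,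
          CfsgLib.LocalLemmas.conjMap_conjMap]
        congr 1
        simp [mul_assoc]
      · intro a ha
        have h1 := hA i ⟨a, ha, rfl⟩
        have e : ((List.ofFn y).take (i.val + 1)).prod = u i.succ := by simp [u]
        rw [e] at h1
        refine ⟨CfsgLib.SylowGraph.mem_smul_iff.mpr h1.1, ?_⟩
        show a ∈ (Y i).map (MulAut.conj (u i.castSucc)).toMonoidHom
        rw [hX', CfsgLib.LocalLemmas.mem_conjMap]
        exact h1.2

end Cfsg.Agent.S2939
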