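import Cfsg.Statements.S2940
import Cfsg.Agent.LocalLemmas.Basic

set_option autoImplicit false
open Cfsg

namespace Cfsg.Agent.S2940

/-- Let S be a Sylow p-subgroup of the finite group G and G₁, G₂ subgroups containing S with G = G₁G₂. Then for every g ∈ G there is a Sylow p-subgroup U of G with S ∩ S^g ≤ U ≤ G₁ ∩ G₂^g (conjugates taken as X^g = g⁻¹Xg). -/
theorem result {G : Type*} [Group G] [Finite G] {p : ℕ} [Fact p.Prime] (S : Sylow p G) (G₁ G₂ : Subgroup G) (h1 : (S : Subgroup G) ≤ G₁) (h2 : (S : Subgroup G) ≤ G₂) (hfact : ∀ g : G, ∃ g₁ ∈ G₁, ∃ g₂ ∈ G₂, g = g₁ * g₂) (g : G) : ∃ U : Sylow p G, (S : Subgroup G) ⊓ Cfsg.subgroupConjRight g (S : Subgroup G) ≤ (U : Subgroup G) ∧ (U : Subgroup G) ≤ G₁ ⊓ Cfsg.subgroupConjRight g G₂ := by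
  -- write g = g₂ * g₁
  obtain ⟨a, ha, b, hb, hab⟩ := hfact g⁻¹
  have hg : g = b⁻¹ * a⁻¹ := by rw [← mul_inv_rev, ← hab, inv_inv]
  set g₁ := a⁻¹ with hg₁
  set g₂ := b⁻¹ with hg₂
  have hg₁m : g₁ ∈ G₁ := G₁.inv_mem ha
  have hg₂m : g₂ ∈ G₂ := G₂.inv_mem hb
  have hG₂ : Cfsg.subgroupConjRight g G₂ = G₂.map (MulAut.conj g₁⁻¹).toMonoidHom := by
    rw [Cfsg.subgroupConjRight, hg, mul_inv_rev, ← CfsgLib.LocalLemmas.conjMap_conjMap]
    congr 1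
    exact CfsgLib.LocalLemmas.conjMap_eq_of_mem_normalizer (Subgroup.le_normalizer (G₂.inv_mem hg₂m))
  set M := G₁ ⊓ Cfsg.subgroupConjRight g G₂ with hM
  have hSM : ((g₁⁻¹ • S : Sylow p G) : Subgroup G) ≤ M := by
    intro z hz
    have hz' : z ∈ (S : Subgroup G).map (MulAut.conj g₁⁻¹).toMonoidHom := hz
    refine ⟨?_, ?_⟩
    · rw [CfsgLib.LocalLemmas.mem_conjMap] at hz'
      have := G₁.mul_mem (G₁.mul_mem (G₁.inv_mem hg₁m) (h1 hz')) hg₁m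
      simpa [mul_assoc] using this
    · rw [hG₂]; exact CfsgLib.LocalLemmas.conjMap_mono h2 hz'
  set D := (S : Subgroup G) ⊓ Cfsg.subgroupConjRight g (S : Subgroup G) with hD
  have hDM : D ≤ M := fun z hz =>
    ⟨h1 hz.1, by
      have := hz.2
      rw [Cfsg.subgroupConjRight] at this ⊢
      exact CfsgLib.LocalLemmas.conjMap_mono h2 this⟩
  obtain ⟨h, hh, hle⟩ := CfsgLib.LocalLemmas.exists_conj_le_of_le (g₁⁻¹ • S) hSM hDM (S.isPGroup'.to_inf_left)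
  refine ⟨h • (g₁⁻¹ • S), hle, fun z hz => ?_⟩
  have hz' : z ∈ ((g₁⁻¹ • S : Sylow p G) : Subgroup G).map (MulAut.conj h).toMonoidHom := hz
  rw [CfsgLib.LocalLemmas.mem_conjMap] at hz'
  have := M.mul_mem (M.mul_mem hh (hSM hz')) (M.inv_mem hh)
  simpa [mul_assoc] using this

end Cfsg.Agent.S2940
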