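import Cfsg.Statements.S2955
import Cfsg.Agent.LocalLemmas.SylowGraph

set_option autoImplicit false
open Cfsg

namespace Cfsg.Agent.S2955

/-- Let p be a prime dividing the order of the finite group G and 𝓕 a conjugation-closed family of subgroups that controls Sylow p-intersections in G. Suppose the Sylow p-subgroups of G are chain-connected: any two of them are joined by a chain of Sylow p-subgroups, consecutive ones distinct with nontrivial intersection, all containing the intersection of the two ends (equivalently, the graph on the Sylow p-subgroups whose edges are the distinct pairs meeting nontrivially is connected). Then for every Sylow p-subgroup S, G is generated by N_G(S) together with the members of 𝓕 that meet S in a Sylow p-subgroup of themselves. -/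
theorem result {G : Type*} [Group G] [Finite G] (p : ℕ) [Fact p.Prime] (hdiv : p ∣ Nat.card G)
    (𝓕 : Set (Subgroup G)) (h𝓕 : Cfsg.IsNormalSet 𝓕) (hc : Cfsg.ControlsSylowIntersections p 𝓕)
    (hconn : Cfsg.IsSylowChainConnected p G) (S : Sylow p G) :
    (⨆ X ∈ Cfsg.sylowMembers p 𝓕 (S : Subgroup G), X) ⊔ Subgroup.normalizer ((S : Subgroup G) : Set G) = ⊤ := by
  set H := (⨆ X ∈ Cfsg.sylowMembers p 𝓕 (S : Subgroup G), X) ⊔ Subgroup.normalizer ((S : Subgroup G) : Set G) with hH
  have key : ∀ {h : G}, h ∈ H → ∀ X : Subgroup G, X ∈ Cfsg.sylowMembers p 𝓕 ((h • S : Sylow p G) : Subgroup G) → X ≤ H := by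
    intro h hh X hX y hy
    have hX' := CfsgLib.SylowGraph.sylowMembers_conj h𝓕 h⁻¹ hX
    rw [CfsgLib.SylowGraph.coe_smul_sylow, CfsgLib.LocalLemmas.conjMap_conjMap, inv_mul_cancel,
      CfsgLib.LocalLemmas.conjMap_one] at hX'
    have h1 : h⁻¹ * y * h ∈ H :=
      Subgroup.mem_sup_left (le_iSup₂ (f := fun X _ => X) _ hX' ⟨y, hy, by simp⟩)
    have := H.mul_mem (H.mul_mem hh h1) (H.inv_mem hh)
    simpa [mul_assoc] using this
  have hedge : ∀ a b : Sylow p G, a ≠ b → (a : Subgroup G) ⊓ (b : Subgroup G) ≠ ⊥ →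
      (∃ h ∈ H, a = h • S) → ∃ h ∈ H, b = h • S := by
    intro a b hab hne ha
    obtain ⟨n, c, X, x, h0, hn, hstep⟩ := hc a b hab hne
    have hall : ∀ i : Fin (n + 1), ∃ h ∈ H, c i = h • S := by
      intro i
      induction i using Fin.induction with
      | zero => rw [h0]; exact ha
      | succ j ih =>
        obtain ⟨h, hh, hcj⟩ := ih
        obtain ⟨hX1, -, hx, hconj, -⟩ := hstep j
        rw [hcj] at hX1
        refine ⟨x j * h, H.mul_mem (key hh _ hX1 hx) hh, ?_⟩
        apply Sylow.ext
        rw [mul_smul, ← hcj, CfsgLib.SylowGraph.coe_smul_sylow, ← hconj, Cfsg.subgroupConjRight,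
          CfsgLib.LocalLemmas.conjMap_conjMap, mul_inv_cancel, CfsgLib.LocalLemmas.conjMap_one]
    exact hn ▸ hall (Fin.last n)
  refine eq_top_iff.mpr fun g _ => ?_
  obtain ⟨n, c, h0, hn, -, hadj⟩ := hconn S (g • S)
  have hall : ∀ i : Fin (n + 1), ∃ h ∈ H, c i = h • S := by
    intro i
    induction i using Fin.induction with
    | zero => exact ⟨1, H.one_mem, by rw [h0, one_smul]⟩
    | succ j ih => exact hedge _ _ (hadj j).1 (hadj j).2 ih
  obtain ⟨h, hh, he⟩ := hall (Fin.last n)
  rw [hn] at he
  have h1 : (h⁻¹ * g) • S = S := by rw [mul_smul, he, inv_smul_smul]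
  have h2 : h⁻¹ * g ∈ H := Subgroup.mem_sup_right (Sylow.smul_eq_iff_mem_normalizer.mp h1)
  simpa using H.mul_mem hh h2

end Cfsg.Agent.S2955
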