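import Cfsg.Statements.S2956
import Cfsg.Agent.SylowLink.Basic
import Cfsg.Agent.Transfer.Frobenius

set_option autoImplicit false
open Cfsg

namespace Cfsg.Agent.S2956

universe u

section
open Subgroup CfsgLib.LocalLemmas CfsgLib.SylowLink

variable {G : Type u} [Group G] [Finite G] {p : ℕ} [Fact p.Prime]

theorem exists_ext {M : Subgroup G} {C : Subgroup G} (hC : IsPGroup p C) (hCM : C ≤ M) :
    ∃ U : Sylow p G, C ≤ (U : Subgroup G) ⊓ M ∧ ∃ a : Sylow p M, (a : Subgroup M).map M.subtype = (U : Subgroup G) ⊓ M := by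
  obtain ⟨a, ha⟩ := (hC.comap_subtype (K := M)).exists_le_sylow
  obtain ⟨U, hU⟩ := (a.isPGroup'.map M.subtype).exists_le_sylow
  have h1 : (U : Subgroup G).subgroupOf M = (a : Subgroup M) :=
    a.is_maximal' (U.isPGroup'.comap_subtype) fun y hy => hU ⟨y, hy, rfl⟩
  refine ⟨U, le_inf (fun y hy => hU ⟨⟨y, hCM hy⟩, ha hy, rfl⟩) hCM, a, ?_⟩
  rw [← h1, subgroupOf_map_subtype]

theorem exists_maximal_local {N : Subgroup G} (hN : Cfsg.IsPLocal p N) :
    ∃ M, Cfsg.IsMaximalPLocal p M ∧ N ≤ M := by
  obtain ⟨M, ⟨hM, hNM⟩, hmax⟩ := Set.Finite.exists_maximal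
    (s := {M : Subgroup G | Cfsg.IsPLocal p M ∧ N ≤ M}) (Set.toFinite _) ⟨N, hN, le_rfl⟩
  exact ⟨M, ⟨hM, fun K hK hle => le_antisymm (hmax ⟨hK, hNM.trans hle⟩ hle) hle⟩, hNM⟩

end

/-- Let p be a prime dividing the order of the finite group G, and f an assignment to every p-subgroup P of a set f(P) of subgroups of P, each normalized by N_G(P), compatible with conjugation, such that for P ≠ 1 the members of f(P) are nontrivial. Let 𝓕 be the family of the normalizers N_G(F) of the members F of f(S) over the Sylow p-subgroups S of G, and 𝓕' the family of the maximal p-local subgroups M of G that are singular for f (the corresponding family of normalizers inside M does not control Sylow p-intersections in M). Then 𝓕 ∪ 𝓕' controls Sylow p-intersections in G. -/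
theorem result {G : Type*} [Group G] [Finite G] (p : ℕ) [Fact p.Prime] (hdiv : p ∣ Nat.card G)
    (f : Subgroup G → Set (Subgroup G)) (hf : Cfsg.IsNormalizerFunctor p f)
    (hf1 : ∀ P : Subgroup G, IsPGroup p ↥P → P ≠ ⊥ → ∀ F ∈ f P, F ≠ ⊥)
    (𝓕 𝓕' : Set (Subgroup G)) (h𝓕 : 𝓕 = Cfsg.functorFamily p f ⊤)
    (h𝓕' : 𝓕' = {M | Cfsg.IsMaximalPLocal p M ∧ ¬ Cfsg.IsFunctorRegular p f M}) :
    Cfsg.ControlsSylowIntersections p (𝓕 ∪ 𝓕') := by
  open Subgroup CfsgLib.LocalLemmas CfsgLib.SylowLink in
  refine controls_of_linked ?_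
  suffices key : ∀ (k : ℕ) (S T : Sylow p G), Nat.card G - Nat.card ((S : Subgroup G) ⊓ (T : Subgroup G) : Subgroup G) ≤ k →
      (S : Subgroup G) ⊓ (T : Subgroup G) ≠ ⊥ →
      Relation.ReflTransGen (Step (𝓕 ∪ 𝓕') ((S : Subgroup G) ⊓ (T : Subgroup G))) S T from
    fun S T _ hne => key _ S T le_rfl hne
  intro k
  induction k using Nat.strong_induction_on with
  | _ k ih =>
  intro S T hk hne
  set R := (S : Subgroup G) ⊓ (T : Subgroup G) with hR
  by_cases hST : S = T
  · subst hST; exact Relation.ReflTransGen.refl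
  -- Sylow subgroups with a larger common subgroup
  have hbig : ∀ (U V : Sylow p G) (C : Subgroup G), R ≤ C → Nat.card R < Nat.card C →
      C ≤ (U : Subgroup G) → C ≤ (V : Subgroup G) → Relation.ReflTransGen (Step (𝓕 ∪ 𝓕') R) U V := by
    intro U V C hRC hlt hU hV
    have hle : C ≤ (U : Subgroup G) ⊓ (V : Subgroup G) := le_inf hU hV
    have h1 := card_le_of_le hle
    have h2 := card_le_card_group ((U : Subgroup G) ⊓ (V : Subgroup G))
    refine linked_mono (hRC.trans hle) (ih _ (by omega) U V le_rfl fun e => hne ?_)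
    rw [e] at hle
    exact le_bot_iff.mp (hRC.trans hle)
  -- the maximal local subgroups
  have hloc : ∀ (l : ℕ) (M : Subgroup G), Cfsg.IsMaximalPLocal p M → ∀ (U V : Sylow p G) (a b : Sylow p M),
      (a : Subgroup M).map M.subtype = (U : Subgroup G) ⊓ M → (b : Subgroup M).map M.subtype = (V : Subgroup G) ⊓ M →
      R ≤ (U : Subgroup G) ⊓ M → R ≤ (V : Subgroup G) ⊓ M → Nat.card R < Nat.card ((U : Subgroup G) ⊓ M : Subgroup G) →
      Nat.card G - Nat.card ((U : Subgroup G) ⊓ M : Subgroup G) ≤ l →
      Relation.ReflTransGen (Step (𝓕 ∪ 𝓕') R) U V := by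
    intro l
    induction l using Nat.strong_induction_on with
    | _ l ihl =>
    intro M hM U V a b ha hb hRU hRV hRlt hl
    have hcard : ∀ c : Sylow p M, Nat.card ((c : Subgroup M).map M.subtype) = Nat.card ((U : Subgroup G) ⊓ M : Subgroup G) := fun c => by
      rw [← ha, card_map_of_injective M.subtype_injective, card_map_of_injective M.subtype_injective,
        Sylow.card_eq_multiplicity, Sylow.card_eq_multiplicity]
    by_cases hreg : Cfsg.IsFunctorRegular p f M
    · have hext : ∀ c : Sylow p M, ∃ W : Sylow p G, (c : Subgroup M).map M.subtype = (W : Subgroup G) ⊓ M := fun c => by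
        obtain ⟨W, hW, a', ha'⟩ := exists_ext (c.isPGroup'.map M.subtype) (map_subtype_le (c : Subgroup M))
        refine ⟨W, eq_of_le_of_card_ge hW (le_of_eq ?_)⟩
        rw [← ha', card_map_of_injective M.subtype_injective, card_map_of_injective M.subtype_injective,
          Sylow.card_eq_multiplicity, Sylow.card_eq_multiplicity]
      choose W hW using hext
      have hWle : ∀ c : Sylow p M, (c : Subgroup M).map M.subtype ≤ (W c : Subgroup G) := fun c =>
        (hW c).le.trans inf_le_left
      set D := (a : Subgroup M).map M.subtype ⊓ (b : Subgroup M).map M.subtype with hD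
      have hRD : R ≤ D := by rw [hD, ha, hb]; exact le_inf hRU hRV
      have hchain := linked_in_regular hf hreg a b (fun e => hne (le_bot_iff.mp (e ▸ hRD)))
      have hUW : Relation.ReflTransGen (Step (𝓕 ∪ 𝓕') R) U (W a) :=
        hbig U (W a) _ hRU hRlt inf_le_left (ha ▸ hWle a)
      have hWV : Relation.ReflTransGen (Step (𝓕 ∪ 𝓕') R) (W b) V :=
        hbig (W b) V ((V : Subgroup G) ⊓ M) hRV (by rw [← hb, hcard]; exact hRlt) (hb ▸ hWle b) inf_le_left
      have hmain : ∀ c, Relation.ReflTransGen (fun u v : Sylow p M => InStep (p := p) f M D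
          ((u : Subgroup M).map M.subtype) ((v : Subgroup M).map M.subtype)) a c →
          Relation.ReflTransGen (Step (𝓕 ∪ 𝓕') R) (W a) (W c) ∧ R ≤ (c : Subgroup M).map M.subtype := by
        intro c hc
        induction hc with
        | refl => exact ⟨Relation.ReflTransGen.refl, ha ▸ hRU⟩
        | @tail u v _ huv ihc =>
          obtain ⟨hprev, hRu⟩ := ihc
          obtain ⟨P, F, x, hF, hu, hv, hx, hconj, hDv⟩ := huv
          have hRv : R ≤ (v : Subgroup M).map M.subtype := hRD.trans hDv
          refine ⟨hprev.trans ?_, hRv⟩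
          set P' := (P : Subgroup M).map M.subtype with hP'
          have hP'p : IsPGroup p P' := P.isPGroup'.map _
          obtain ⟨hFP, hFN⟩ := (hf P' hP'p).1 F hF
          have hP'1 : P' ≠ ⊥ := fun e => by
            have h1 := hcard P
            rw [← hP', e, card_bot] at h1
            have : 0 < Nat.card R := Nat.card_pos
            omega
          have hF1 : F ≠ ⊥ := hf1 P' hP'p hP'1 F hF
          obtain ⟨Q, hQ⟩ := hP'p.exists_le_sylow
          by_cases hfull : P' = (Q : Subgroup G)
          · -- `P'` is a Sylow subgroup of `G`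
            have heq : ∀ c : Sylow p M, (W c : Subgroup G) = (c : Subgroup M).map M.subtype := fun c =>
              (eq_of_le_of_card_ge (hWle c) (le_of_eq (by
                rw [hcard c, ← hcard P, ← hP', hfull, Sylow.card_eq_multiplicity, Sylow.card_eq_multiplicity]))).symm
            have hmem : Subgroup.normalizer (F : Set G) ∈ 𝓕 ∪ 𝓕' := by
              refine Or.inl ?_
              rw [h𝓕]
              refine ⟨Q.subtype le_top, F, ?_, by rw [top_inf_eq]⟩
              rw [Sylow.coe_subtype, subgroupOf_map_subtype, inf_top_eq, ← hfull]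
              exact hF
            refine Relation.ReflTransGen.single ⟨_, x, mem_sylowMembers_of_le (W u) hmem ?_,
              mem_sylowMembers_of_le (W v) hmem ?_, hx.2, ?_, le_inf ?_ (hRv.trans hv)⟩
            · rw [heq]; exact hu
            · rw [heq]; exact hv
            · rw [heq, heq]; exact hconj
            · rw [heq]; exact hRv
          · -- a maximal local subgroup with larger Sylow subgroups
            obtain ⟨M', hM', hNM'⟩ := exists_maximal_local (p := p) (N := Subgroup.normalizer (F : Set G))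
              ⟨F, hP'p.to_le hFP, hF1, rfl⟩
            obtain ⟨A, hA, a', ha'⟩ := exists_ext (u.isPGroup'.map M.subtype) (hu.trans hNM')
            obtain ⟨B, hB, b', hb'⟩ := exists_ext (v.isPGroup'.map M.subtype) (hv.trans hNM')
            have hgt := CfsgLib.Transfer.inf_normalizer_gt Q (lt_of_le_of_ne hQ hfull)
            obtain ⟨A₂, hA₂, a₂, ha₂⟩ := exists_ext (M := M') (Q.isPGroup'.to_le inf_le_right)
              ((inf_le_left.trans hFN).trans hNM' : Subgroup.normalizer (P' : Set G) ⊓ (Q : Subgroup G) ≤ M')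
            have hlt2 : Nat.card ((U : Subgroup G) ⊓ M : Subgroup G) < Nat.card ((A : Subgroup G) ⊓ M' : Subgroup G) := by
              rw [← hcard P, ← hP', ← ha', card_map_of_injective M'.subtype_injective, Sylow.card_eq_multiplicity a',
                ← Sylow.card_eq_multiplicity a₂, ← card_map_of_injective M'.subtype_injective, ha₂]
              exact lt_of_lt_of_le (lt_of_le_of_ne (card_le_of_le hgt.le)
                fun e => hgt.ne (eq_of_le_of_card_ge hgt.le e.ge)) (card_le_of_le hA₂)
            have hle := card_le_card_group ((A : Subgroup G) ⊓ M')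
            have hl1 : Relation.ReflTransGen (Step (𝓕 ∪ 𝓕') R) A B :=
              ihl _ (by omega) M' hM' A B a' b' ha' hb' (hRu.trans hA) (hRv.trans hB) (hRlt.trans hlt2) le_rfl
            exact ((hbig (W u) A _ hRu (by rw [hcard]; exact hRlt) (hWle u) (hA.trans inf_le_left)).trans hl1).trans
              (hbig B (W v) _ hRv (by rw [hcard]; exact hRlt) (hB.trans inf_le_left) (hWle v))
      exact (hUW.trans (hmain b hchain).1).trans hWV
    · have hmem : M ∈ 𝓕 ∪ 𝓕' := Or.inr (h𝓕' ▸ ⟨hM, hreg⟩)
      obtain ⟨m, hm⟩ := MulAction.exists_smul_eq M a b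
      have hmV : ((V : Subgroup G) ⊓ M) ≤ ((((m : G) • U : Sylow p G)) : Subgroup G) ⊓ M := by
        refine le_inf (fun y hy => ?_) inf_le_right
        have h1 : (⟨y, hy.2⟩ : M) ∈ ((m • a : Sylow p M) : Subgroup M) := by
          rw [hm]
          obtain ⟨y', hy', hye⟩ := (hb.ge hy)
          exact (Subtype.ext hye : y' = ⟨y, hy.2⟩) ▸ hy'
        rw [Sylow.coe_subgroup_smul, mem_pointwise_smul_iff_inv_smul_mem] at h1
        simp only [MulAut.smul_def, MulAut.conj_inv_apply] at h1
        have h2 : (m : G)⁻¹ * y * (m : G) ∈ (U : Subgroup G) ⊓ M := ha.le ⟨_, h1, rfl⟩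
        exact CfsgLib.SylowGraph.mem_smul_iff.mpr h2.1
      have hUm : ((((m : G) • U : Sylow p G)) : Subgroup G) ⊓ M = (V : Subgroup G) ⊓ M := by
        refine (eq_of_le_of_card_ge hmV ?_).symm
        have hpg : IsPGroup p ↥((((m : G) • U : Sylow p G) : Subgroup G) ⊓ M) := ((m : G) • U).isPGroup'.to_le inf_le_left
        obtain ⟨c, hc⟩ := (hpg.comap_subtype (K := M)).exists_le_sylow
        have h1 : (((m : G) • U : Sylow p G) : Subgroup G) ⊓ M ≤ (c : Subgroup M).map M.subtype := fun y hy =>
          ⟨⟨y, hy.2⟩, hc hy, rfl⟩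
        exact (card_le_of_le h1).trans_eq (by rw [hcard, ← hb, hcard])
      refine Relation.ReflTransGen.head ⟨M, m, ⟨hmem, a, ha⟩, ⟨hmem, b, hb.trans hUm.symm⟩, m.2, ?_,
        hRV.trans hmV⟩ ?_
      · rw [CfsgLib.SylowGraph.coe_smul_sylow, Cfsg.subgroupConjRight, conjMap_conjMap, inv_mul_cancel, conjMap_one]
      · exact hbig _ V ((V : Subgroup G) ⊓ M) hRV (by rw [← hb, hcard]; exact hRlt) (hmV.trans inf_le_left) inf_le_left
  -- the start
  have hRp : IsPGroup p R := S.isPGroup'.to_le inf_le_left
  obtain ⟨M, hM, hNM⟩ := exists_maximal_local (p := p) (N := Subgroup.normalizer (R : Set G)) ⟨R, hRp, hne, rfl⟩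
  have hRS : R < (S : Subgroup G) := lt_of_le_of_ne inf_le_left fun e =>
    hST (Sylow.ext (S.is_maximal' T.isPGroup' (inf_eq_left.mp e))).symm
  have hRT : R < (T : Subgroup G) := lt_of_le_of_ne inf_le_right fun e =>
    hST (Sylow.ext (T.is_maximal' S.isPGroup' (inf_eq_right.mp e)))
  have g1 := CfsgLib.Transfer.inf_normalizer_gt S hRS
  have g2 := CfsgLib.Transfer.inf_normalizer_gt T hRT
  obtain ⟨U, hU, a, ha⟩ := exists_ext (M := M) (S.isPGroup'.to_le inf_le_right)
    (inf_le_left.trans hNM : Subgroup.normalizer (R : Set G) ⊓ (S : Subgroup G) ≤ M)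
  obtain ⟨V, hV, b, hb⟩ := exists_ext (M := M) (T.isPGroup'.to_le inf_le_right)
    (inf_le_left.trans hNM : Subgroup.normalizer (R : Set G) ⊓ (T : Subgroup G) ≤ M)
  have c1 : Nat.card R < Nat.card (Subgroup.normalizer (R : Set G) ⊓ (S : Subgroup G) : Subgroup G) :=
    lt_of_le_of_ne (card_le_of_le g1.le) fun e => g1.ne (eq_of_le_of_card_ge g1.le e.ge)
  have c2 : Nat.card R < Nat.card (Subgroup.normalizer (R : Set G) ⊓ (T : Subgroup G) : Subgroup G) :=
    lt_of_le_of_ne (card_le_of_le g2.le) fun e => g2.ne (eq_of_le_of_card_ge g2.le e.ge)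
  refine ((hbig S U _ g1.le c1 inf_le_right (hU.trans inf_le_left)).trans
    (hloc _ M hM U V a b ha hb (g1.le.trans hU) (g2.le.trans hV) (c1.trans_le (card_le_of_le hU)) le_rfl)).trans
    (hbig V T _ g2.le c2 (hV.trans inf_le_left) inf_le_right)

end Cfsg.Agent.S2956
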