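import Cfsg.Statements.S2957
import Cfsg.Agent.SylowLink.Basic
import Cfsg.Agent.S2940

set_option autoImplicit false
open Cfsg

namespace Cfsg.Agent.S2957

universe u

section
open Subgroup CfsgLib.LocalLemmas

variable {G : Type u} [Group G] [Finite G] {p : ℕ} [Fact p.Prime]

/-- A link by the normalizer of a functor value of a Sylow subgroup. -/
def GStep (f : Subgroup G → Set (Subgroup G)) (D : Subgroup G) (u v : Sylow p G) : Prop :=
  ∃ (P : Sylow p G) (F : Subgroup G) (x : G), F ∈ f (P : Subgroup G) ∧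
    (u : Subgroup G) ≤ normalizer (F : Set G) ∧ (v : Subgroup G) ≤ normalizer (F : Set G) ∧
    x ∈ normalizer (F : Set G) ∧ Cfsg.subgroupConjRight x (v : Subgroup G) = (u : Subgroup G) ∧
    D ≤ (v : Subgroup G)

theorem gstep_conj {f : Subgroup G → Set (Subgroup G)} (hf : Cfsg.IsNormalizerFunctor p f) (g : G) {D : Subgroup G}
    {u v : Sylow p G} (h : GStep f D u v) :
    GStep f (D.map (MulAut.conj g).toMonoidHom) (g • u) (g • v) := by
  obtain ⟨P, F, x, hF, hu, hv, hx, hc, hD⟩ := h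
  have hN : normalizer ((F.map (MulAut.conj g).toMonoidHom : Subgroup G) : Set G) =
      (normalizer (F : Set G)).map (MulAut.conj g).toMonoidHom :=
    (map_normalizer_eq_of_bijective _ (MulAut.conj g).bijective).symm
  refine ⟨g • P, F.map (MulAut.conj g).toMonoidHom, g * x * g⁻¹, ?_, ?_, ?_, ?_, ?_, conjMap_mono hD⟩
  · rw [CfsgLib.SylowGraph.coe_smul_sylow, (hf _ P.isPGroup').2 g]
    exact ⟨F, hF, rfl⟩
  · rw [CfsgLib.SylowGraph.coe_smul_sylow, hN]; exact conjMap_mono hu
  · rw [CfsgLib.SylowGraph.coe_smul_sylow, hN]; exact conjMap_mono hv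
  · rw [hN]; exact ⟨x, hx, rfl⟩
  · rw [CfsgLib.SylowGraph.coe_smul_sylow, CfsgLib.SylowGraph.coe_smul_sylow, ← hc, Cfsg.subgroupConjRight,
      Cfsg.subgroupConjRight, conjMap_conjMap, conjMap_conjMap]
    congr 3
    group

theorem gstep_in_regular {f : Subgroup G → Set (Subgroup G)} (hf : Cfsg.IsNormalizerFunctor p f) {M : Subgroup G}
    (S : Sylow p G) (hS : (S : Subgroup G) ≤ M) (hM : Cfsg.IsFunctorRegular p f M) (u v : Sylow p G)
    (hu : (u : Subgroup G) ≤ M) (hv : (v : Subgroup G) ≤ M) {D : Subgroup G}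
    (hD : D ≤ (u : Subgroup G) ⊓ (v : Subgroup G)) (hD1 : D ≠ ⊥) :
    Relation.ReflTransGen (GStep f D) u v := by
  have hsyl : ∀ P : Sylow p M, ∃ P' : Sylow p G, (P' : Subgroup G) = (P : Subgroup M).map M.subtype := fun P => by
    obtain ⟨P', hP'⟩ := (P.isPGroup'.map M.subtype).exists_le_sylow
    refine ⟨P', (eq_of_le_of_card_ge hP' ?_).symm⟩
    rw [card_map_of_injective M.subtype_injective, Sylow.card_eq_multiplicity P,
      ← Sylow.card_eq_multiplicity (S.subtype hS), Sylow.coe_subtype, Nat.card_congr (subgroupOfEquivOfLe hS).toEquiv,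
      Sylow.card_eq_multiplicity S, Sylow.card_eq_multiplicity P']
  choose up hup using hsyl
  have hback : ∀ w : Sylow p G, ∀ hw : (w : Subgroup G) ≤ M, up (w.subtype hw) = w := fun w hw => Sylow.ext (by
    rw [hup, Sylow.coe_subtype, subgroupOf_map_subtype, inf_eq_left.mpr hw])
  have hmap : ∀ w : Sylow p G, ∀ hw : (w : Subgroup G) ≤ M,
      ((w.subtype hw : Sylow p M) : Subgroup M).map M.subtype = (w : Subgroup G) := fun w hw => by
    rw [Sylow.coe_subtype, subgroupOf_map_subtype, inf_eq_left.mpr hw]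
  have hne : (u : Subgroup G) ⊓ (v : Subgroup G) ≠ ⊥ := fun e => hD1 (le_bot_iff.mp (e ▸ hD))
  have h1 := CfsgLib.SylowLink.linked_in_regular hf hM (u.subtype hu) (v.subtype hv) (by rwa [hmap, hmap])
  rw [← hback u hu, ← hback v hv]
  refine h1.lift up ?_
  rintro a b ⟨P, F, x, hF, ha, hb, hx, hc, hDb⟩
  refine ⟨up P, F, x, by rw [hup]; exact hF, by rw [hup]; exact ha, by rw [hup]; exact hb, hx.2,
    by rw [hup, hup]; exact hc, ?_⟩
  rw [hup]
  exact (hD.trans (by rw [hmap, hmap])).trans hDb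

end

/-- Let p be a prime dividing the order of the finite group G, f an equivariant assignment of a set of subgroups f(P) of P to every p-subgroup P, each normalized by N_G(P), and S a Sylow p-subgroup. If G = G₁G₂ for subgroups G₁, G₂ both containing S and both regular for f (in each Gᵢ, the family of normalizers in Gᵢ of the members of f(P), P a Sylow p-subgroup of Gᵢ, controls Sylow p-intersections), then G itself is regular for f. -/
theorem result {G : Type*} [Group G] [Finite G] (p : ℕ) [Fact p.Prime] (hdiv : p ∣ Nat.card G)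
    (f : Subgroup G → Set (Subgroup G)) (hf : Cfsg.IsNormalizerFunctor p f) (S : Sylow p G)
    (G₁ G₂ : Subgroup G) (h₁ : (S : Subgroup G) ≤ G₁) (h₂ : (S : Subgroup G) ≤ G₂)
    (hprod : ∀ g : G, ∃ g₁ ∈ G₁, ∃ g₂ ∈ G₂, g = g₁ * g₂)
    (hr₁ : Cfsg.IsFunctorRegular p f G₁) (hr₂ : Cfsg.IsFunctorRegular p f G₂) :
    Cfsg.IsFunctorRegular p f ⊤ := by
  open Subgroup CfsgLib.LocalLemmas in
  refine CfsgLib.SylowLink.regular_top_of_linked fun A B hAB hne => ?_
  obtain ⟨a, rfl⟩ := MulAction.exists_smul_eq G S A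
  obtain ⟨b, hb⟩ := MulAction.exists_smul_eq G S B
  set g := b⁻¹ * a with hg
  have hB : B = a • (g⁻¹ • S) := by
    rw [hg, smul_smul, mul_inv_rev, inv_inv, mul_inv_cancel_left, hb]
  set T := g⁻¹ • S with hT
  set D := (S : Subgroup G) ⊓ (T : Subgroup G) with hD
  have hTeq : Cfsg.subgroupConjRight g (S : Subgroup G) = (T : Subgroup G) := rfl
  have hDB : ((a • S : Sylow p G) : Subgroup G) ⊓ (B : Subgroup G) = D.map (MulAut.conj a).toMonoidHom := by
    rw [hB, CfsgLib.SylowGraph.coe_smul_sylow, CfsgLib.SylowGraph.coe_smul_sylow, hD,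
      Subgroup.map_inf _ _ _ (MulAut.conj a).injective]
  have hD1 : D ≠ ⊥ := fun e => hne (by rw [hDB, e, Subgroup.map_bot])
  obtain ⟨U, hU, hUle⟩ := Cfsg.Agent.S2940.result S G₁ G₂ h₁ h₂ hprod g
  rw [hTeq] at hU
  have c1 : Relation.ReflTransGen (GStep f D) S U :=
    gstep_in_regular hf S h₁ hr₁ S U h₁ (hUle.trans inf_le_left) (le_inf inf_le_left hU) hD1
  set D' := D.map (MulAut.conj g).toMonoidHom with hD'
  have hgU : ((g • U : Sylow p G) : Subgroup G) ≤ G₂ := by
    rw [CfsgLib.SylowGraph.coe_smul_sylow]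
    refine (conjMap_mono (hUle.trans inf_le_right)).trans ?_
    rw [Cfsg.subgroupConjRight, conjMap_conjMap, mul_inv_cancel, conjMap_one]
  have hD'le : D' ≤ ((g • U : Sylow p G) : Subgroup G) ⊓ (S : Subgroup G) := by
    refine le_inf ?_ ?_
    · rw [CfsgLib.SylowGraph.coe_smul_sylow]; exact conjMap_mono hU
    · refine (conjMap_mono (inf_le_right : D ≤ (T : Subgroup G))).trans ?_
      rw [hT, CfsgLib.SylowGraph.coe_smul_sylow, conjMap_conjMap, mul_inv_cancel, conjMap_one]
  have hD'1 : D' ≠ ⊥ := fun e => hD1 ((map_eq_bot_iff_of_injective _ (MulAut.conj g).injective).mp e)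
  have c2' := gstep_in_regular hf S h₂ hr₂ (g • U) S hgU h₂ hD'le hD'1
  have c2 : Relation.ReflTransGen (GStep f D) U T := by
    have h := c2'.lift (p := GStep f D) (fun w : Sylow p G => g⁻¹ • w) (fun u v huv => by
      have := gstep_conj hf g⁻¹ huv
      rwa [hD', conjMap_conjMap, inv_mul_cancel, conjMap_one] at this)
    simp only [Function.onFun, inv_smul_smul] at h
    exact h
  rw [hDB, hB]
  refine (c1.trans c2).lift (fun w : Sylow p G => a • w) fun u v huv => ?_
  obtain ⟨P, F, x, hF, hu, hv, hx, hc, hDv⟩ := gstep_conj hf a huv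
  refine ⟨P.subtype le_top, F, x, ?_, hu, hv, ⟨mem_top x, hx⟩, hc, hDv⟩
  rwa [Sylow.coe_subtype, subgroupOf_map_subtype, inf_top_eq]

end Cfsg.Agent.S2957
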