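import Cfsg.Statements.S2958
import Cfsg.Agent.LocalLemmas.Basic

set_option autoImplicit false
open Cfsg

namespace Cfsg.Agent.S2958

/-- Let X, A, B be subgroups of a group G such that G is generated by the conjugates of X and every conjugate of X is contained in A or in B. Then A = G or B = G. -/
theorem result {G : Type*} [Group G] (X A B : Subgroup G) (hgen : (⨆ g : G, X.map (MulAut.conj g).toMonoidHom) = ⊤) (hcover : ∀ g : G, X.map (MulAut.conj g).toMonoidHom ≤ A ∨ X.map (MulAut.conj g).toMonoidHom ≤ B) : A = ⊤ ∨ B = ⊤ := by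
  set conjX : G → Subgroup G := fun g => X.map (MulAut.conj g).toMonoidHom with hconjX
  by_cases hall : ∀ g : G, conjX g ≤ B
  · right
    exact top_le_iff.mp (hgen ▸ iSup_le hall)
  left
  push Not at hall
  -- D is generated by the conjugates in A but not in B
  set D : Subgroup G := ⨆ g : {g : G // conjX g ≤ A ∧ ¬ conjX g ≤ B}, conjX g.1 with hD
  have hDA : D ≤ A := iSup_le fun g => g.2.1
  -- elements of conjugates lying in B permute the generators of D
  have hinv : ∀ b ∈ B, D.map (MulAut.conj b).toMonoidHom ≤ D := by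
    intro b hb
    rw [hD, Subgroup.map_iSup]
    refine iSup_le fun g => ?_
    simp only [hconjX, CfsgLib.LocalLemmas.conjMap_conjMap]
    have hnB : ¬ conjX (b * g.1) ≤ B := by
      intro hc
      apply g.2.2
      intro y hy
      have hmem : b * y * b⁻¹ ∈ conjX (b * g.1) := by
        simp only [hconjX, CfsgLib.LocalLemmas.mem_conjMap] at hy ⊢
        simpa [mul_assoc] using hy
      have := B.mul_mem (B.mul_mem (B.inv_mem hb) (hc hmem)) hb
      simpa [mul_assoc] using this
    exact le_iSup (fun g : {g : G // conjX g ≤ A ∧ ¬ conjX g ≤ B} => conjX g.1)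
      ⟨b * g.1, (hcover _).resolve_right hnB, hnB⟩
  have hN : ∀ b : G, b ∈ Subgroup.normalizer (D : Set G) := by
    have : (⊤ : Subgroup G) ≤ Subgroup.normalizer (D : Set G) := by
      rw [← hgen]
      refine iSup_le fun g => ?_
      by_cases hgB : conjX g ≤ B
      · intro b hb
        rw [Subgroup.mem_set_normalizer_iff]
        intro y
        constructor
        · intro hy
          exact hinv b (hgB hb) (CfsgLib.LocalLemmas.mem_conjMap.mpr (by simpa [mul_assoc] using hy))
        · intro hy
          have h' : y ∈ D.map (MulAut.conj b⁻¹).toMonoidHom := by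
            rw [CfsgLib.LocalLemmas.mem_conjMap]; simpa using hy
          exact hinv b⁻¹ (B.inv_mem (hgB hb)) h'
      · exact le_trans (le_iSup (fun g : {g : G // conjX g ≤ A ∧ ¬ conjX g ≤ B} => conjX g.1)
          ⟨g, (hcover g).resolve_right hgB, hgB⟩) Subgroup.le_normalizer
    exact fun b => this (Subgroup.mem_top b)
  obtain ⟨g, hg⟩ := hall
  have hgD : conjX g ≤ D := le_iSup (fun g : {g : G // conjX g ≤ A ∧ ¬ conjX g ≤ B} => conjX g.1)
    ⟨g, (hcover g).resolve_right hg, hg⟩
  apply top_le_iff.mp
  refine le_trans ?_ hDA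
  rw [← hgen]
  refine iSup_le fun k => ?_
  intro y hy
  have h1 : (g * k⁻¹) * y * (g * k⁻¹)⁻¹ ∈ conjX g := by
    simp only [hconjX, CfsgLib.LocalLemmas.mem_conjMap] at hy ⊢
    simpa [mul_assoc] using hy
  exact (Subgroup.mem_set_normalizer_iff.mp (hN (g * k⁻¹)) y).mpr (hgD h1)

end Cfsg.Agent.S2958
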