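import Cfsg.Statements.S2959
import Cfsg.Agent.LocalLemmas.Basic

set_option autoImplicit false
open Cfsg

namespace Cfsg.Agent.S2959

/-- Let G be a finite group of characteristic p, that is C_G(O_p(G)) ≤ O_p(G), with p prime, and let L be a subgroup of G normalized by O_p(G). Then L has characteristic p: C_L(O_p(L)) ≤ O_p(L). -/
theorem result {G : Type*} [Group G] [Finite G] {p : ℕ} [Fact p.Prime] (hG : Subgroup.centralizer (Cfsg.pCore p G : Set G) ≤ Cfsg.pCore p G) (L : Subgroup G) (hL : Cfsg.pCore p G ≤ Subgroup.normalizer (L : Set G)) : Subgroup.centralizer (Cfsg.pCore p ↥L : Set ↥L) ≤ Cfsg.pCore p ↥L := by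
  set R := Cfsg.pCore p G with hR
  haveI hRn : R.Normal := Cfsg.pCore_normal p G
  have hRp : IsPGroup p R := CfsgLib.LocalLemmas.pCore_isPGroup
  have hRL : (R.subgroupOf L) ≤ Cfsg.pCore p L :=
    CfsgLib.LocalLemmas.le_pCore (hRp.comap_subtype)
  apply CfsgLib.LocalLemmas.le_pCore
  apply CfsgLib.LocalLemmas.isPGroup_of_coprime_orderOf
  intro x hx hxc
  apply Subtype.ext
  -- x centralizes R, so lies in R
  have hcomm : (x : G) ∈ Subgroup.centralizer (R : Set G) := by
    rw [Subgroup.mem_centralizer_iff]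
    intro q hq
    symm
    have h1 : q⁻¹ * ((x : G) * q * (x : G)⁻¹) ∈ R :=
      R.mul_mem (R.inv_mem hq) (hRn.conj_mem q hq _)
    have h2 : q⁻¹ * ((x : G) * q * (x : G)⁻¹) ∈ L := by
      have hqn := Subgroup.mem_set_normalizer_iff.mp ((Subgroup.normalizer (L : Set G)).inv_mem (hL hq)) (x : G)
      have := L.mul_mem (hqn.mp x.2) (L.inv_mem x.2)
      simpa [mul_assoc] using this
    refine (CfsgLib.LocalLemmas.commute_of_coprime_stab hRp (by rwa [Subgroup.orderOf_coe]) h1 ?_).eq
    have := Subgroup.mem_centralizer_iff.mp hx ⟨_, h2⟩ (hRL (show (⟨_, h2⟩ : L) ∈ R.subgroupOf L from h1))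
    exact (congrArg Subtype.val this).symm
  exact CfsgLib.LocalLemmas.eq_one_of_coprime_orderOf hRp (hG hcomm) (by rwa [Subgroup.orderOf_coe])

end Cfsg.Agent.S2959
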