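import Cfsg.Statements.S2960
import Cfsg.Agent.LocalLemmas.Basic

set_option autoImplicit false
open Cfsg

namespace Cfsg.Agent.S2960

/-- Let G be a finite group of characteristic p (C_G(O_p(G)) ≤ O_p(G)), p prime, T a Sylow p-subgroup of G and Q a normal subgroup of T with C_T(Q) ≤ Q. Then C_G(Q) ≤ Q. -/
theorem result {G : Type*} [Group G] [Finite G] {p : ℕ} [Fact p.Prime] (hG : Subgroup.centralizer (Cfsg.pCore p G : Set G) ≤ Cfsg.pCore p G) (T : Sylow p G) (Q : Subgroup G) (hQT : Q ≤ (T : Subgroup G)) (hQn : (T : Subgroup G) ≤ Subgroup.normalizer (Q : Set G)) (hC : (T : Subgroup G) ⊓ Subgroup.centralizer (Q : Set G) ≤ Q) : Subgroup.centralizer (Q : Set G) ≤ Q := by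
  set R := Cfsg.pCore p G with hR
  haveI hRn : R.Normal := Cfsg.pCore_normal p G
  have hRp : IsPGroup p R := CfsgLib.LocalLemmas.pCore_isPGroup
  have hTp : IsPGroup p ↥(T : Subgroup G) := T.isPGroup'
  have hRT : R ≤ (T : Subgroup G) := hRp.le_sylow_of_normal T
  -- p'-elements centralizing Q centralize R
  have hp' : ∀ x ∈ Subgroup.centralizer (Q : Set G), (orderOf x).Coprime p → x = 1 := by
    intro x hx hxc
    set P := R ⊔ Q with hP
    have hPT : P ≤ (T : Subgroup G) := sup_le hRT hQT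
    have hPp : IsPGroup p P := hTp.to_le hPT
    have hxP : ∀ y ∈ P, x * y * x⁻¹ ∈ P := by
      intro y hy
      rw [← SetLike.mem_coe, hP, Subgroup.normal_mul] at hy
      obtain ⟨r, hr, q, hq, rfl⟩ := hy
      have e : x * (r * q) * x⁻¹ = (x * r * x⁻¹) * q := by
        have h1 : q * x = x * q := Subgroup.mem_centralizer_iff.mp hx q hq
        calc x * (r * q) * x⁻¹ = x * r * x⁻¹ * (x * q) * x⁻¹ := by simp [mul_assoc]
          _ = x * r * x⁻¹ * q := by rw [← h1]; simp [mul_assoc]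
      rw [e]
      exact P.mul_mem (Subgroup.mem_sup_left (hRn.conj_mem r hr x)) (Subgroup.mem_sup_right hq)
    set R₁ := P ⊓ Subgroup.centralizer ({x} : Set G) with hR₁
    have hQR₁ : Q ≤ R₁ := le_inf le_sup_right fun q hq => by
      rw [Subgroup.mem_centralizer_singleton_iff]
      exact Subgroup.mem_centralizer_iff.mp hx q hq
    by_contra hne
    have hlt : R₁ < P := by
      refine lt_of_le_of_ne inf_le_left fun h => ?_
      apply hne
      apply CfsgLib.LocalLemmas.eq_one_of_coprime_orderOf hRp (hG ?_) hxc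
      rw [Subgroup.mem_centralizer_iff]
      intro r hr
      exact Subgroup.mem_centralizer_singleton_iff.mp (h.ge (Subgroup.mem_sup_left hr : r ∈ P)).2
    obtain ⟨y, hyP, hyR₁, hyN⟩ := CfsgLib.LocalLemmas.exists_mem_normalizer_not_mem hPp hlt
    apply hyR₁
    refine ⟨hyP, Subgroup.mem_centralizer_singleton_iff.mpr ?_⟩
    set c := y⁻¹ * (x * y * x⁻¹) with hc
    have hcR : c ∈ R₁ := by
      have hcP : c ∈ P := P.mul_mem (P.inv_mem hyP) (hxP y hyP)
      refine hQR₁ (hC ⟨hPT hcP, Subgroup.mem_centralizer_iff.mpr ?_⟩)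
      intro q hq
      -- x and y normalise: conjugation of q by y and by x y x⁻¹ agree
      have hxq : ∀ r ∈ R₁, x * r = r * x := fun r hr =>
        (Subgroup.mem_centralizer_singleton_iff.mp hr.2).symm
      have hyq : y * q * y⁻¹ ∈ R₁ := (Subgroup.mem_set_normalizer_iff.mp hyN q).mp (hQR₁ hq)
      have h1 := hxq _ hyq
      have h2 := hxq q (hQR₁ hq)
      -- q commutes with c
      have e1 : (x * y * x⁻¹) * q * (x * y * x⁻¹)⁻¹ = y * q * y⁻¹ := by
        calc (x * y * x⁻¹) * q * (x * y * x⁻¹)⁻¹ = x * (y * (x⁻¹ * (q * x)) * y⁻¹) * x⁻¹ := by simp [mul_assoc]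
          _ = x * (y * q * y⁻¹) * x⁻¹ := by rw [← h2]; simp
          _ = y * q * y⁻¹ := by rw [h1]; simp
      have e2 : c * q * c⁻¹ = q := by
        calc c * q * c⁻¹ = y⁻¹ * ((x * y * x⁻¹) * q * (x * y * x⁻¹)⁻¹) * y := by rw [hc]; simp [mul_assoc]
          _ = q := by rw [e1]; simp [mul_assoc]
      calc q * c = c * q * c⁻¹ * c := by rw [e2]
        _ = c * q := by simp
    refine (CfsgLib.LocalLemmas.commute_of_coprime_stab hPp hxc hcR.1 ?_).eq.symm
    exact (Subgroup.mem_centralizer_singleton_iff.mp hcR.2).symm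
  have hCp : IsPGroup p ↥(Subgroup.centralizer (Q : Set G)) :=
    CfsgLib.LocalLemmas.isPGroup_of_coprime_orderOf hp'
  -- T normalizes the p-group C(Q), so contains it
  have hnorm : (T : Subgroup G) ≤ Subgroup.normalizer (Subgroup.centralizer (Q : Set G) : Set G) := by
    intro t ht
    apply CfsgLib.LocalLemmas.mem_normalizer_of_conjMap_le
    intro z hz
    rw [CfsgLib.LocalLemmas.mem_conjMap] at hz
    rw [Subgroup.mem_centralizer_iff]
    intro q hq
    have hq' : t⁻¹ * q * t ∈ Q := by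
      have := (Subgroup.mem_set_normalizer_iff.mp ((Subgroup.normalizer (Q : Set G)).inv_mem (hQn ht)) q).mp hq
      simpa using this
    have h1 : (t⁻¹ * q * t) * (t⁻¹ * z * t) = (t⁻¹ * z * t) * (t⁻¹ * q * t) :=
      Subgroup.mem_centralizer_iff.mp hz _ hq'
    calc q * z = t * ((t⁻¹ * q * t) * (t⁻¹ * z * t)) * t⁻¹ := by simp [mul_assoc]
      _ = z * q := by rw [h1]; simp [mul_assoc]
  have hsup : IsPGroup p ↥((T : Subgroup G) ⊔ Subgroup.centralizer (Q : Set G) : Subgroup G) :=
    hTp.to_sup_of_normal_right' hCp hnorm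
  have := T.is_maximal' hsup le_sup_left
  intro z hz
  exact hC ⟨this ▸ (Subgroup.mem_sup_right hz : z ∈ (T : Subgroup G) ⊔ _), hz⟩

end Cfsg.Agent.S2960
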