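import Cfsg.Statements.S2961
import Cfsg.Agent.LocalLemmas.Basic
import Cfsg.Agent.S2960

set_option autoImplicit false
open Cfsg

namespace Cfsg.Agent.S2961

/-- Let G be a finite group of characteristic p (C_G(O_p(G)) ≤ O_p(G)), p prime, T a Sylow p-subgroup of G and Q a normal subgroup of T with C_T(Q) ≤ Q. Then every subgroup L of G containing Q has characteristic p: C_L(O_p(L)) ≤ O_p(L). -/
theorem result {G : Type*} [Group G] [Finite G] {p : ℕ} [Fact p.Prime] (hG : Subgroup.centralizer (Cfsg.pCore p G : Set G) ≤ Cfsg.pCore p G) (T : Sylow p G) (Q : Subgroup G) (hQT : Q ≤ (T : Subgroup G)) (hQn : (T : Subgroup G) ≤ Subgroup.normalizer (Q : Set G)) (hC : (T : Subgroup G) ⊓ Subgroup.centralizer (Q : Set G) ≤ Q) (L : Subgroup G) (hQL : Q ≤ L) : Subgroup.centralizer (Cfsg.pCore p ↥L : Set ↥L) ≤ Cfsg.pCore p ↥L := by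
  set R := Cfsg.pCore p G with hR
  haveI hRn : R.Normal := Cfsg.pCore_normal p G
  have hRp : IsPGroup p R := CfsgLib.LocalLemmas.pCore_isPGroup
  have hRT : R ≤ (T : Subgroup G) := hRp.le_sylow_of_normal T
  have hCQ := Cfsg.Agent.S2960.result hG T Q hQT hQn hC
  have hQp : IsPGroup p Q := T.isPGroup'.to_le hQT
  set K := Cfsg.pCore p L with hK
  haveI hKn : K.Normal := Cfsg.pCore_normal p L
  have hKp : IsPGroup p K := CfsgLib.LocalLemmas.pCore_isPGroup
  haveI : R.Normal := hRn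
  have hRLK : R.subgroupOf L ≤ K := CfsgLib.LocalLemmas.le_pCore (hRp.comap_subtype)
  set N : Subgroup L := Subgroup.normalClosure (Q.subgroupOf L : Set L) with hN
  -- commutators of R with N lie in K
  have hcommN : ∀ n ∈ N, ∀ q ∈ R, ∃ k : L, k ∈ K ∧ (k : G) = q⁻¹ * ((n : G) * q * (n : G)⁻¹) := by
    intro n hn
    induction hn using Subgroup.closure_induction with
    | mem n hn =>
      obtain ⟨a, ha, hconj⟩ := Group.mem_conjugatesOfSet_iff.mp hn
      obtain ⟨l, rfl⟩ := isConj_iff.mp hconj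
      intro q hq
      set q₀ := (l : G)⁻¹ * q * (l : G) with hq₀
      have hq₀R : q₀ ∈ R := by simpa using hRn.conj_mem q hq (l : G)⁻¹
      have haQ : (a : G) ∈ Q := ha
      have hmem : q₀⁻¹ * ((a : G) * q₀ * (a : G)⁻¹) ∈ R ⊓ Q := by
        refine ⟨R.mul_mem (R.inv_mem hq₀R) (hRn.conj_mem _ hq₀R _), ?_⟩
        have := (Subgroup.mem_set_normalizer_iff.mp
          ((Subgroup.normalizer (Q : Set G)).inv_mem (hQn (hRT hq₀R))) (a : G)).mp haQ
        have := Q.mul_mem this (Q.inv_mem haQ)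
        simpa [mul_assoc] using this
      refine ⟨l * ⟨_, hQL hmem.2⟩ * l⁻¹, hKn.conj_mem _ (hRLK hmem.1) l, ?_⟩
      simp [hq₀, mul_assoc]
    | one => intro q _; exact ⟨1, K.one_mem, by simp⟩
    | mul x y _ _ hx hy =>
      intro q hq
      obtain ⟨k₁, hk₁, e₁⟩ := hx q hq
      obtain ⟨k₂, hk₂, e₂⟩ := hy q hq
      refine ⟨k₁ * (x * k₂ * x⁻¹), K.mul_mem hk₁ (hKn.conj_mem _ hk₂ x), ?_⟩
      simp only [Subgroup.coe_mul, Subgroup.coe_inv, e₁, e₂]
      simp [mul_assoc]
    | inv x _ hx =>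
      intro q hq
      obtain ⟨k₁, hk₁, e₁⟩ := hx ((x : G)⁻¹ * q * (x : G)) (by simpa using hRn.conj_mem q hq (x : G)⁻¹)
      refine ⟨k₁⁻¹, K.inv_mem hk₁, ?_⟩
      simp only [Subgroup.coe_inv, e₁]
      simp [mul_assoc]
  apply CfsgLib.LocalLemmas.le_pCore
  apply CfsgLib.LocalLemmas.isPGroup_of_coprime_orderOf
  intro x hx hxc
  have hxG : (orderOf (x : G)).Coprime p := by rwa [Subgroup.orderOf_coe]
  set H : Subgroup L := Subgroup.centralizer (K : Set L) with hH
  -- p'-elements of N ⊓ H are trivial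
  have hNH : ∀ z ∈ N, z ∈ H → (orderOf z).Coprime p → z = 1 := by
    intro z hz hzH hzc
    have hzG : (orderOf (z : G)).Coprime p := by rwa [Subgroup.orderOf_coe]
    apply Subtype.ext
    apply CfsgLib.LocalLemmas.eq_one_of_coprime_orderOf hRp (hG ?_) hzG
    rw [Subgroup.mem_centralizer_iff]
    intro q hq
    obtain ⟨k, hk, ek⟩ := hcommN z hz q hq
    refine (CfsgLib.LocalLemmas.commute_of_coprime_stab hRp hzG ?_ ?_).eq.symm
    · exact R.mul_mem (R.inv_mem hq) (hRn.conj_mem q hq _)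
    · rw [← ek]; exact (congrArg Subtype.val (Subgroup.mem_centralizer_iff.mp hzH k hk)).symm
  haveI : H.Normal := by rw [hH]; infer_instance
  haveI : N.Normal := Subgroup.normalClosure_normal
  have hNHp : IsPGroup p ↥(N ⊓ H) :=
    CfsgLib.LocalLemmas.isPGroup_of_coprime_orderOf fun z hz => hNH z hz.1 hz.2
  have hNHK : N ⊓ H ≤ K := CfsgLib.LocalLemmas.le_pCore hNHp
  apply Subtype.ext
  apply CfsgLib.LocalLemmas.eq_one_of_coprime_orderOf hQp (hCQ ?_) hxG
  rw [Subgroup.mem_centralizer_iff]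
  intro q hq
  set q' : L := ⟨q, hQL hq⟩ with hq'
  have hqN : q' ∈ N := Subgroup.subset_normalClosure hq
  have hcK : q'⁻¹ * (x * q' * x⁻¹) ∈ K := by
    refine hNHK ⟨N.mul_mem (N.inv_mem hqN) (Subgroup.Normal.conj_mem inferInstance q' hqN x), ?_⟩
    have hxH : x ∈ H := hx
    have h1 : q'⁻¹ * x * q' ∈ H := by
      have := Subgroup.Normal.conj_mem (inferInstance : H.Normal) x hxH q'⁻¹
      simpa using this
    have := H.mul_mem h1 (H.inv_mem hxH)
    simpa [mul_assoc] using this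
  have hcomm : Commute x q' :=
    CfsgLib.LocalLemmas.commute_of_coprime_stab hKp hxc hcK
      ((Subgroup.mem_centralizer_iff.mp hx _ hcK).symm)
  exact (congrArg Subtype.val hcomm.eq).symm

end Cfsg.Agent.S2961
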