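import Cfsg.Statements.S2963
import Mathlib.Data.Nat.Choose.Lucas
import Mathlib.Data.Nat.Log
import Mathlib.GroupTheory.Sylow
import Mathlib.GroupTheory.Perm.Sign

set_option autoImplicit false
open Cfsg

namespace Cfsg.Agent.S2963

open scoped Pointwise in
theorem choose_two_pow_mod (k : ℕ) : ∀ n : ℕ, n.choose (2 ^ k) % 2 = (n / 2 ^ k) % 2 := by
  induction k with
  | zero => intro n; simp
  | succ k ih =>
    intro n
    haveI : Fact (Nat.Prime 2) := ⟨Nat.prime_two⟩
    have h := Choose.choose_modEq_choose_mod_mul_choose_div_nat (p := 2) (n := n) (k := 2 ^ (k + 1))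
    rw [Nat.ModEq] at h
    rw [h, show 2 ^ (k + 1) % 2 = 0 by simp [pow_succ], Nat.choose_zero_right, one_mul,
      show 2 ^ (k + 1) / 2 = 2 ^ k by simp [pow_succ], ih, Nat.div_div_eq_div_mul, pow_succ']

theorem isCoatom_stabilizer {n : ℕ} (hn : 2 ≤ n) (x : Fin n) :
    IsCoatom (MulAction.stabilizer (Equiv.Perm (Fin n)) x) := by
  refine ⟨fun h => ?_, fun H hH => eq_top_iff.mpr fun g _ => ?_⟩
  · haveI : Nontrivial (Fin n) := Fin.nontrivial_iff_two_le.mpr hn
    obtain ⟨y, hy⟩ := exists_ne x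
    exact hy ((Equiv.swap_apply_left x y).symm.trans (h.ge (Subgroup.mem_top (Equiv.swap x y))))
  · obtain ⟨h, hhH, hhx⟩ := SetLike.exists_of_lt hH
    have hy : h x ≠ x := hhx
    by_cases hz : g x = x
    · exact hH.le hz
    set w := Equiv.swap (h x) (g x) * h with hw
    have hwH : w ∈ H := H.mul_mem (hH.le (by
      show Equiv.swap (h x) (g x) x = x
      exact Equiv.swap_apply_of_ne_of_ne (Ne.symm hy) (Ne.symm hz))) hhH
    have h1 : w⁻¹ * g ∈ MulAction.stabilizer (Equiv.Perm (Fin n)) x := by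
      show w⁻¹ (g x) = x
      rw [show g x = w x by simp [hw]]
      simp
    simpa using H.mul_mem hwH (hH.le h1)


/-- Let n be odd. If the symmetric group of degree n is a minimal parabolic group for the prime 2, that is, a Sylow 2-subgroup is not normal and lies in exactly one maximal subgroup, then n = 2^m + 1 for some natural number m. -/
theorem result (n : ℕ) (hn : Odd n) (h : Cfsg.IsPMinimal 2 (Equiv.Perm (Fin n))) : ∃ m : ℕ, n = 2 ^ m + 1 := by
  classical
  by_contra hcon
  push Not at hcon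
  obtain ⟨S⟩ := Sylow.nonempty (p := 2) (G := Equiv.Perm (Fin n))
  obtain ⟨hSn, M, ⟨-, -⟩, huniq⟩ := h S
  have hn2 : 2 ≤ n := by
    by_contra hlt
    haveI : Subsingleton (Fin n) := Fin.subsingleton_iff_le_one.mpr (by omega)
    exact hSn ⟨fun a ha g => by rw [Subsingleton.elim (g * a * g⁻¹) a]; exact ha⟩
  haveI : Fact (Nat.Prime 2) := ⟨Nat.prime_two⟩
  set k := Nat.log 2 (n - 1) with hk
  have hk1 : 2 ^ k ≤ n - 1 := Nat.pow_log_le_self 2 (by omega)
  have hk2 : n - 1 < 2 ^ (k + 1) := Nat.lt_pow_succ_log_self (by norm_num) _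
  have hak : 2 ^ k + 1 < n := by have := hcon k; omega
  have hodd1 : ¬ 2 ∣ Nat.card (Fin n) := by
    rw [Nat.card_fin]; obtain ⟨r, hr⟩ := hn; omega
  obtain ⟨x, hx⟩ := S.isPGroup'.nonempty_fixed_point_of_prime_not_dvd_card (Fin n) hodd1
  set a := 2 ^ k
  let Ω := {A : Finset (Fin n) // A ∈ (Finset.univ.erase x).powersetCard a}
  have hxS : ∀ g : (S : Subgroup (Equiv.Perm (Fin n))), (g : Equiv.Perm (Fin n)) x = x := fun g => hx g
  have hmem : ∀ (g : (S : Subgroup (Equiv.Perm (Fin n)))) (A : Ω),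
      A.1.image (g : Equiv.Perm (Fin n)) ∈ (Finset.univ.erase x).powersetCard a := fun g A => by
    obtain ⟨h1, h2⟩ := Finset.mem_powersetCard.mp A.2
    refine Finset.mem_powersetCard.mpr ⟨fun z hz => ?_, by rw [Finset.card_image_of_injective _ (Equiv.injective _), h2]⟩
    obtain ⟨w, hw, rfl⟩ := Finset.mem_image.mp hz
    refine Finset.mem_erase.mpr ⟨fun e => (Finset.mem_erase.mp (h1 hw)).1 ?_, Finset.mem_univ _⟩
    exact (g : Equiv.Perm (Fin n)).injective (e.trans (hxS g).symm)
  let : MulAction (S : Subgroup (Equiv.Perm (Fin n))) Ω :=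
    { smul := fun g A => ⟨A.1.image (g : Equiv.Perm (Fin n)), hmem g A⟩
      one_smul := fun A => Subtype.ext (by show A.1.image _ = A.1; simp)
      mul_smul := fun g g' A => Subtype.ext (by
        show A.1.image _ = (A.1.image _).image _
        rw [Finset.image_image]; rfl) }
  have hodd2 : ¬ 2 ∣ Nat.card Ω := by
    rw [Nat.card_eq_fintype_card, Fintype.card_coe, Finset.card_powersetCard, Finset.card_erase_of_mem (Finset.mem_univ x),
      Finset.card_univ, Fintype.card_fin, Nat.dvd_iff_mod_eq_zero, choose_two_pow_mod,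
      show (n - 1) / a = 1 from Nat.div_eq_of_lt_le (by omega) (by rw [pow_succ] at hk2; omega)]
    norm_num
  obtain ⟨A, hA⟩ := S.isPGroup'.nonempty_fixed_point_of_prime_not_dvd_card Ω hodd2
  obtain ⟨hAx, hAc⟩ := Finset.mem_powersetCard.mp A.2
  let N : Subgroup (Equiv.Perm (Fin n)) :=
    { carrier := {g | A.1.image g = A.1}
      one_mem' := by simp
      mul_mem' := fun {g g'} hg hg' => by
        show A.1.image (g ∘ g') = A.1
        rw [← Finset.image_image, (hg' : A.1.image g' = A.1), (hg : A.1.image g = A.1)]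
      inv_mem' := fun {g} hg => by
        show A.1.image (g⁻¹ : Equiv.Perm (Fin n)) = A.1
        conv_lhs => rw [← (hg : A.1.image g = A.1)]
        rw [Finset.image_image]
        simp [Function.comp_def] }
  have hSN : (S : Subgroup (Equiv.Perm (Fin n))) ≤ N := fun g hg => congrArg Subtype.val (hA ⟨g, hg⟩)
  have hxA : x ∉ A.1 := fun hxm => (Finset.mem_erase.mp (hAx hxm)).1 rfl
  have hapos : 0 < a := pow_pos two_pos k
  obtain ⟨z, hz⟩ : A.1.Nonempty := Finset.card_pos.mp (by omega)
  have hNtop : N ≠ ⊤ := fun e => by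
    have h1 : A.1.image (Equiv.swap z x) = A.1 := e.ge (Subgroup.mem_top (Equiv.swap z x))
    exact hxA (h1 ▸ Finset.mem_image.mpr ⟨z, hz, Equiv.swap_apply_left z x⟩)
  obtain ⟨M', hM', hNM'⟩ := (eq_top_or_exists_le_coatom N).resolve_left hNtop
  have hstab : (S : Subgroup (Equiv.Perm (Fin n))) ≤ MulAction.stabilizer (Equiv.Perm (Fin n)) x :=
    fun g hg => hxS ⟨g, hg⟩
  have heq : M' = MulAction.stabilizer (Equiv.Perm (Fin n)) x :=
    (huniq M' ⟨hM', hSN.trans hNM'⟩).trans (huniq _ ⟨isCoatom_stabilizer hn2 x, hstab⟩).symm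
  obtain ⟨y, hyA, hyx⟩ : ∃ y, y ∉ A.1 ∧ y ≠ x := by
    by_contra hy
    push Not at hy
    have h1 : Finset.univ ⊆ insert x A.1 := fun w _ => by
      by_cases hw : w ∈ A.1
      · exact Finset.mem_insert_of_mem hw
      · rw [hy w hw]; exact Finset.mem_insert_self _ _
    have := Finset.card_le_card h1
    rw [Finset.card_univ, Fintype.card_fin, Finset.card_insert_of_notMem hxA, hAc] at this
    omega
  have hswap : Equiv.swap x y ∈ N := by
    show A.1.image (Equiv.swap x y) = A.1
    refine Finset.eq_of_subset_of_card_le (fun w hw => ?_) ?_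
    · obtain ⟨v, hv, rfl⟩ := Finset.mem_image.mp hw
      rwa [Equiv.swap_apply_of_ne_of_ne (ne_of_mem_of_not_mem hv hxA) (ne_of_mem_of_not_mem hv hyA)]
    · rw [Finset.card_image_of_injective _ (Equiv.injective _)]
  have := heq ▸ hNM' hswap
  exact hyx ((Equiv.swap_apply_left x y).symm.trans this)

end Cfsg.Agent.S2963
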