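import Cfsg.Statements.S2998
import Cfsg.Agent.LocalLemmas.Basic
import Cfsg.Agent.Transfer.Frobenius

set_option autoImplicit false
open Cfsg

namespace Cfsg.Agent.S2998

/-- Let G be a finite group, p a prime, P a Sylow p-subgroup of G and x ∈ P an element such that N_G(R) ≤ C_G(x) for every nontrivial subgroup R of P. Then P ≤ C_G(x); every G-conjugate of x lying in P equals x (so g ∈ C_G(x) whenever g x g⁻¹ ∈ P); and for every normal subgroup N of G, the image of x in G ⧸ N has the same property with respect to the image of P: the normalizer of every nontrivial subgroup of the image of P centralizes the image of x. -/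
theorem result {G : Type*} [Group G] [Finite G] {p : ℕ} [Fact p.Prime] (P : Sylow p G) (x : G) (hxP : x ∈ (P : Subgroup G)) (hlc : ∀ R : Subgroup G, R ≤ (P : Subgroup G) → R ≠ ⊥ → Subgroup.normalizer (R : Set G) ≤ Subgroup.centralizer ({x} : Set G)) : (P : Subgroup G) ≤ Subgroup.centralizer ({x} : Set G) ∧ (∀ g : G, g * x * g⁻¹ ∈ (P : Subgroup G) → g * x * g⁻¹ = x) ∧ ∀ (N : Subgroup G) [N.Normal], ∀ R : Subgroup (G ⧸ N), R ≤ (P : Subgroup G).map (QuotientGroup.mk' N) → R ≠ ⊥ → Subgroup.normalizer (R : Set (G ⧸ N)) ≤ Subgroup.centralizer ({(QuotientGroup.mk x : G ⧸ N)} : Set (G ⧸ N)) := by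
  have hP : (P : Subgroup G) ≤ Subgroup.centralizer ({x} : Set G) := by
    by_cases h : (P : Subgroup G) = ⊥
    · rw [h]; exact bot_le
    · exact Subgroup.le_normalizer.trans (hlc _ le_rfl h)
  refine ⟨hP, fun g hg => ?_, fun N _ R hR hR1 => ?_⟩
  · by_cases hx1 : x = 1
    · simp [hx1]
    set y := g * x * g⁻¹ with hy
    have hy1 : y ≠ 1 := fun h => hx1 (by simpa [hy] using h)
    have hCy : Subgroup.centralizer ({y} : Set G) ≤ Subgroup.centralizer ({x} : Set G) := by
      refine le_trans ?_ (hlc (Subgroup.zpowers y) (Subgroup.zpowers_le.mpr hg) (by simpa using hy1))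
      intro c hc
      refine Subgroup.mem_normalizer_fintype fun z hz => ?_
      obtain ⟨i, rfl⟩ := Subgroup.mem_zpowers_iff.mp hz
      have : Commute c (y ^ i) := Commute.zpow_right (Subgroup.mem_centralizer_singleton_iff.mp hc) i
      rw [this.eq, mul_inv_cancel_right]
      exact Subgroup.zpow_mem_zpowers y i
    have hconj : Subgroup.centralizer ({y} : Set G) = (Subgroup.centralizer ({x} : Set G)).map (MulAut.conj g).toMonoidHom := by
      ext c
      rw [CfsgLib.LocalLemmas.mem_conjMap, Subgroup.mem_centralizer_singleton_iff,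
        Subgroup.mem_centralizer_singleton_iff, hy]
      constructor <;> intro h
      · calc g⁻¹ * c * g * x = g⁻¹ * (c * (g * x * g⁻¹)) * g := by simp [mul_assoc]
          _ = g⁻¹ * (g * x * g⁻¹ * c) * g := by rw [h]
          _ = x * (g⁻¹ * c * g) := by simp [mul_assoc]
      · calc c * (g * x * g⁻¹) = g * (g⁻¹ * c * g * x) * g⁻¹ := by simp [mul_assoc]
          _ = g * (x * (g⁻¹ * c * g)) * g⁻¹ := by rw [h]
          _ = g * x * g⁻¹ * c := by simp [mul_assoc]
    have heq : Subgroup.centralizer ({y} : Set G) = Subgroup.centralizer ({x} : Set G) :=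
      Subgroup.eq_of_le_of_card_ge hCy
        (by rw [hconj, Subgroup.card_map_of_injective (MulAut.conj g).injective])
    obtain ⟨c, hc, hcP⟩ := CfsgLib.LocalLemmas.exists_conj_le_of_le P hP
      (show (P : Subgroup G).map (MulAut.conj g).toMonoidHom ≤ _ from
        ((CfsgLib.LocalLemmas.conjMap_mono hP).trans hconj.ge).trans heq.le)
      (CfsgLib.LocalLemmas.isPGroup_conjMap P.isPGroup')
    have hn : c⁻¹ * g ∈ Subgroup.normalizer ((P : Subgroup G) : Set G) := by
      refine Subgroup.mem_normalizer_fintype fun z hz => ?_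
      have := CfsgLib.LocalLemmas.mem_conjMap.mp (hcP (Subgroup.mem_map_of_mem _ hz))
      show c⁻¹ * g * z * (c⁻¹ * g)⁻¹ ∈ (P : Subgroup G)
      rwa [show c⁻¹ * g * z * (c⁻¹ * g)⁻¹ = c⁻¹ * (MulAut.conj g).toMonoidHom z * c by simp [mul_assoc]]
    have hP1 : (P : Subgroup G) ≠ ⊥ := fun h => hy1 (by
      have : y ∈ (⊥ : Subgroup G) := h ▸ hg
      simpa using this)
    have h2 := Subgroup.mul_mem _ hc (hlc _ le_rfl hP1 hn)
    rw [mul_inv_cancel_left, Subgroup.mem_centralizer_singleton_iff] at h2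
    rw [hy, h2, mul_inv_cancel_right]
  · intro g' hg'
    obtain ⟨g, rfl⟩ := QuotientGroup.mk_surjective g'
    set π := QuotientGroup.mk' N with hπ
    set R₀ := (P : Subgroup G) ⊓ R.comap π with hR₀
    have hmap : R₀.map π = R := by
      refine le_antisymm (Subgroup.map_le_iff_le_comap.mpr inf_le_right) fun r hr => ?_
      obtain ⟨a, ha, rfl⟩ := hR hr
      exact ⟨a, ⟨ha, hr⟩, rfl⟩
    have hR₀1 : R₀ ≠ ⊥ := fun h => hR1 (by rw [← hmap, h, Subgroup.map_bot])
    have hgK : ∀ a ∈ R.comap π, g * a * g⁻¹ ∈ R.comap π := by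
      intro a ha
      rw [Subgroup.mem_comap, map_mul, map_mul, map_inv]
      exact (Subgroup.mem_normalizer_iff.1 hg' _).1 ha
    have hsub : R₀.map (MulAut.conj g).toMonoidHom ≤ R.comap π := by
      rintro _ ⟨a, ha, rfl⟩; exact hgK a ha.2
    have hp0 : IsPGroup p R₀ := P.isPGroup'.to_le inf_le_left
    obtain ⟨k, hk, R₁, hR₁K, hR₁, hcR₁, hR₀R₁⟩ := CfsgLib.LocalLemmas.exists_conj_common hsub
      (inf_le_right : R₀ ≤ R.comap π) (CfsgLib.LocalLemmas.isPGroup_conjMap hp0) hp0
    have hR₁eq : R₁ ≤ R₀ := by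
      obtain ⟨S, hS⟩ := CfsgLib.Transfer.exists_sylow_map_eq_inf P N
      have hle : (S : Subgroup N) ≤ R₁.subgroupOf N := by
        intro s hs
        refine Subgroup.mem_subgroupOf.mpr (hR₀R₁ ?_)
        have hsPN : (s : G) ∈ (P : Subgroup G) ⊓ N := hS ▸ Subgroup.mem_map_of_mem N.subtype hs
        refine ⟨hsPN.1, ?_⟩
        show π s ∈ R
        rw [hπ, QuotientGroup.mk'_apply, (QuotientGroup.eq_one_iff _).mpr s.2]
        exact R.one_mem
      have heq := S.3 (hR₁.comap_subtype (K := N)) hle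
      intro r hr
      obtain ⟨a, ha, har⟩ := hmap.ge (hR₁K hr)
      have hn : a⁻¹ * r ∈ N := (QuotientGroup.eq (s := N)).mp har
      have : (⟨a⁻¹ * r, hn⟩ : N) ∈ (S : Subgroup N) := by
        rw [← heq]
        exact Subgroup.mem_subgroupOf.mpr (R₁.mul_mem (R₁.inv_mem (hR₀R₁ ha)) hr)
      have h3 : a⁻¹ * r ∈ (P : Subgroup G) := (hS ▸ Subgroup.mem_map_of_mem N.subtype this : a⁻¹ * r ∈ (P : Subgroup G) ⊓ N).1
      exact ⟨mul_inv_cancel_left a r ▸ mul_mem ha.1 h3, hR₁K hr⟩
    have hn : k * g ∈ Subgroup.normalizer (R₀ : Set G) := by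
      refine Subgroup.mem_normalizer_fintype fun z hz => hR₁eq (hcR₁ ⟨g * z * g⁻¹, ⟨z, hz, rfl⟩, ?_⟩)
      simp [mul_assoc]
    have h1 := congrArg π (Subgroup.mem_centralizer_singleton_iff.mp (hlc R₀ inf_le_left hR₀1 hn))
    obtain ⟨a, ha, hak⟩ := hR hk
    have h2 := congrArg π (Subgroup.mem_centralizer_singleton_iff.mp (hP ha))
    rw [map_mul, map_mul, hak] at h2
    simp only [map_mul] at h1
    rw [← mul_assoc (π x), ← h2, mul_assoc, mul_assoc] at h1
    exact Subgroup.mem_centralizer_singleton_iff.mpr (mul_left_cancel h1)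

end Cfsg.Agent.S2998
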