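import Cfsg.Statements.S3003
import Cfsg.Agent.CoprimeAction.Hyperplane
import Mathlib.GroupTheory.Index

set_option autoImplicit false
open Cfsg

namespace Cfsg.Agent.S3003

/-- Let G be a finite group, p a prime and Q a large p-subgroup of G: C_G(Q) ≤ Q and N_G(U) ≤ N_G(Q) for every nontrivial subgroup U of C_G(Q). Let Q ≤ G₁ ≤ G, let R be a subgroup of order prime to p normalized by G₁, and let U ≤ G₁ be a p-subgroup. If U contains a nontrivial element which is G₁-conjugate to an element of Z(Q), then C_R(U) = 1. In particular, if U is elementary abelian of order at least p² and every maximal subgroup of U contains a nontrivial element G₁-conjugate into Z(Q), then R = 1. -/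
theorem result {G : Type*} [Group G] [Finite G] {p : ℕ} [Fact p.Prime] (Q : Subgroup G) (hQp : IsPGroup p ↥Q) (hlarge : Cfsg.IsLarge Q) (G₁ : Subgroup G) (hQG : Q ≤ G₁) (R : Subgroup G) (hR : (Nat.card ↥R).Coprime p) (hGR : G₁ ≤ Subgroup.normalizer (R : Set G)) (U : Subgroup G) (hUG : U ≤ G₁) (hUp : IsPGroup p ↥U) : ((∃ x ∈ U, x ≠ 1 ∧ ∃ g ∈ G₁, g * x * g⁻¹ ∈ Q ⊓ Subgroup.centralizer (Q : Set G)) → R ⊓ Subgroup.centralizer (U : Set G) = ⊥) ∧ (Cfsg.IsElementaryAbelian p U → p ^ 2 ≤ Nat.card ↥U → (∀ U₀ : Subgroup G, U₀ ≤ U → IsCoatom (U₀.subgroupOf U) → ∃ x ∈ U₀, x ≠ 1 ∧ ∃ g ∈ G₁, g * x * g⁻¹ ∈ Q ⊓ Subgroup.centralizer (Q : Set G)) → R = ⊥) := by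
  have hp : p.Prime := Fact.out
  have hcop : ∀ V : Subgroup G, IsPGroup p V → (Nat.card V).Coprime (Nat.card R) := by
    intro V hV
    obtain ⟨k, hk⟩ := hV.exists_card_eq
    rw [hk]
    exact (hR.symm.pow_left k)
  have hRQ : ∀ z ∈ R, z ∈ Q → z = 1 := by
    intro z hz hzQ
    have h1 : orderOf z ∣ (Nat.card Q).gcd (Nat.card R) :=
      Nat.dvd_gcd (Subgroup.orderOf_dvd_natCard Q hzQ) (Subgroup.orderOf_dvd_natCard R hz)
    rw [(hcop Q hQp).gcd_eq_one, Nat.dvd_one, orderOf_eq_one_iff] at h1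
    exact h1
  have part1 : ∀ V : Subgroup G, (∃ x ∈ V, x ≠ 1 ∧ ∃ g ∈ G₁, g * x * g⁻¹ ∈ Q ⊓ Subgroup.centralizer (Q : Set G)) →
      R ⊓ Subgroup.centralizer (V : Set G) = ⊥ := by
    rintro V ⟨x, hxV, hx1, g, hg, hz⟩
    refine eq_bot_iff.2 fun r ⟨hr, hrC⟩ => Subgroup.mem_bot.2 ?_
    set z := g * x * g⁻¹ with hzdef
    set r' := g * r * g⁻¹ with hr'
    have hr'R : r' ∈ R := (Subgroup.mem_normalizer_iff.1 (hGR hg) r).1 hr
    have hrx : x * r = r * x := Subgroup.mem_centralizer_iff.1 hrC x hxV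
    have hr'z : z * r' = r' * z := by
      rw [hzdef, hr']
      calc g * x * g⁻¹ * (g * r * g⁻¹) = g * (x * r) * g⁻¹ := by group
        _ = g * (r * x) * g⁻¹ := by rw [hrx]
        _ = _ := by group
    have hne : Subgroup.zpowers z ≠ ⊥ := fun h => hx1 (conj_eq_one_iff.1 (Subgroup.zpowers_eq_bot.1 h))
    have hN := hlarge.2 (Subgroup.zpowers z) (Subgroup.zpowers_le.2 hz.2) hne
    have hr'N : r' ∈ Subgroup.normalizer (Q : Set G) := by
      refine hN (Subgroup.centralizer_le_normalizer _ ?_)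
      rw [Subgroup.mem_centralizer_iff]
      intro w hw
      obtain ⟨k, rfl⟩ := Subgroup.mem_zpowers_iff.1 hw
      exact ((show Commute z r' from hr'z).zpow_left k).eq
    have hr'C : r' ∈ Subgroup.centralizer (Q : Set G) := by
      rw [Subgroup.mem_centralizer_iff]
      intro q hq
      have h1 : q * r' * q⁻¹ * r'⁻¹ ∈ R :=
        mul_mem ((Subgroup.mem_normalizer_iff.1 (hGR (hQG hq)) r').1 hr'R) (inv_mem hr'R)
      have h2 : q * r' * q⁻¹ * r'⁻¹ ∈ Q := by
        rw [show q * r' * q⁻¹ * r'⁻¹ = q * (r' * q⁻¹ * r'⁻¹) by group]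
        exact Q.mul_mem hq ((Subgroup.mem_normalizer_iff.1 hr'N _).1 (Q.inv_mem hq))
      exact mul_inv_eq_iff_eq_mul.1 (mul_inv_eq_one.1 (hRQ _ h1 h2))
    exact conj_eq_one_iff.1 (hRQ r' hr'R (hlarge.1 hr'C))
  refine ⟨part1 U, fun hel hcard hall => le_bot_iff.1 ?_⟩
  haveI := hel.1
  have hU1 : U ≠ ⊥ := fun h => by
    rw [h, Subgroup.card_bot] at hcard
    have := Nat.pow_le_pow_left hp.two_le 2
    omega
  refine CfsgLib.CoprimeAction.le_of_hyperplane_centralizers_le (p := p) (A := U) hU1 hel.2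
    (hUG.trans hGR) (hcop U hUp) fun B hB hrel => ?_
  obtain ⟨x, hx, hx1, g, hg, hz⟩ := hall B hB ⟨fun h => hp.ne_one (hrel.symm.trans (by
    show (B.subgroupOf U).index = 1
    rw [h, Subgroup.index_top])), fun K hK => by
      have hd := Subgroup.index_dvd_of_le hK.le
      rw [show (B.subgroupOf U).index = p from hrel] at hd
      rcases hp.eq_one_or_self_of_dvd _ hd with h | h
      · exact Subgroup.index_eq_one.1 h
      · exfalso
        have h1 := (B.subgroupOf U).card_mul_index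
        have h2 := K.card_mul_index
        rw [show (B.subgroupOf U).index = p from hrel] at h1
        rw [h] at h2
        have h3 := Subgroup.eq_of_le_of_card_ge hK.le (Nat.eq_of_mul_eq_mul_right hp.pos (h2.trans h1.symm)).le
        exact hK.ne h3⟩
  exact (part1 B ⟨x, hx, hx1, g, hg, hz⟩).le

end Cfsg.Agent.S3003
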