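import Cfsg.Statements.S3006
import Cfsg.Agent.PGroup.CentrallyLarge

set_option autoImplicit false
open scoped Pointwise
open Cfsg

namespace Cfsg.Agent.S3006

/-- Let P be a finite p-group, Q a centrally large subgroup of P (|Q|·|Z(Q)| maximal among subgroups of P) and A an abelian subgroup of P of largest order. Then QA = AQ is a centrally large subgroup of P, C_{QA}(Q ∩ A) = Z(Q)·A, and the subgroup generated by all centrally large subgroups of P contains C_P(Z(J(P))), where J(P) is generated by the abelian subgroups of largest order. -/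
theorem result {p : ℕ} [Fact p.Prime] (P : Type*) [Group P] [Finite P] (hP : IsPGroup p P) (Q A : Subgroup P) (hQ : Cfsg.IsCentrallyLarge Q) (hA : A ∈ Cfsg.maxAbelianSubgroups P) : ((Q ⊔ A : Subgroup P) : Set P) = (Q : Set P) * (A : Set P) ∧ Cfsg.IsCentrallyLarge (Q ⊔ A) ∧ (Q ⊔ A) ⊓ Subgroup.centralizer ((Q ⊓ A : Subgroup P) : Set P) = (Q ⊓ Subgroup.centralizer (Q : Set P)) ⊔ A ∧ (((Q ⊓ Subgroup.centralizer (Q : Set P)) ⊔ A : Subgroup P) : Set P) = ((Q ⊓ Subgroup.centralizer (Q : Set P)) : Set P) * (A : Set P) ∧ Subgroup.centralizer ((Cfsg.thompsonSubgroupA P ⊓ Subgroup.centralizer (Cfsg.thompsonSubgroupA P : Set P) : Subgroup P) : Set P) ≤ Cfsg.centrallyLargeJoin P := by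
  obtain ⟨h1, h2, h3⟩ := CfsgLib.PGroup.centrallyLarge_sup_maxAbelian hQ hA
  obtain ⟨hQl, hCQ⟩ := (CfsgLib.PGroup.isCentrallyLarge_iff Q).mp hQ
  have hprod := CfsgLib.PGroup.sup_eq_mul_of_card_eq Q A h2
  have hCA := CfsgLib.PGroup.centralizer_maxAbelian hA
  set Z := Subgroup.centralizer (Q : Set P) with hZ
  have hQC : Q ⊓ Z = Z := inf_eq_right.mpr hCQ
  rw [hQC]
  have hQC' : ((Q : Set P) ⊓ (Z : Set P)) = (Z : Set P) := by
    simpa using congrArg (fun H : Subgroup P => (H : Set P)) hQC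
  simp only [hQC'] at *
  -- `Z ⊔ (Q ⊓ A)` is abelian of largest order, hence self-centralizing
  have hZab : IsMulCommutative Z := Subgroup.le_centralizer_iff_isMulCommutative.mp
    (Subgroup.centralizer_le (SetLike.coe_subset_coe.mpr hCQ))
  have hI : Q ⊓ A ≤ Subgroup.centralizer ((Q ⊓ A : Subgroup P) : Set P) :=
    inf_le_right.trans (hCA.ge.trans (Subgroup.centralizer_le (SetLike.coe_subset_coe.mpr inf_le_right)))
  have hmem : Z ⊔ (Q ⊓ A) ∈ Cfsg.maxAbelianSubgroups P :=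
    ⟨CfsgLib.PGroup.isMulCommutative_sup_of_commute hZab (Subgroup.le_centralizer_iff_isMulCommutative.mp hI)
      (Subgroup.centralizer_le (SetLike.coe_subset_coe.mpr inf_le_left)), fun B hB => h3 ▸ hA.2 B hB⟩
  have hZA : Z ⊔ A ≤ (Q ⊔ A) ⊓ Subgroup.centralizer ((Q ⊓ A : Subgroup P) : Set P) :=
    le_inf (sup_le_sup_right hCQ A) (sup_le (Subgroup.centralizer_le (SetLike.coe_subset_coe.mpr inf_le_left))
      (hCA.ge.trans (Subgroup.centralizer_le (SetLike.coe_subset_coe.mpr inf_le_right))))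
  have hset : ∀ x ∈ (Q ⊔ A) ⊓ Subgroup.centralizer ((Q ⊓ A : Subgroup P) : Set P),
      x ∈ (Z : Set P) * (A : Set P) := by
    rintro x ⟨hx, hxc⟩
    replace hx := hprod.le (show x ∈ ((_ : Subgroup P) : Set P) from hx)
    obtain ⟨u, hu, a, ha, rfl⟩ := hx
    have ha' : a ∈ Subgroup.centralizer ((Q ⊓ A : Subgroup P) : Set P) :=
      Subgroup.centralizer_le (SetLike.coe_subset_coe.mpr inf_le_right) (hCA.ge ha)
    have huI : u ∈ Subgroup.centralizer ((Q ⊓ A : Subgroup P) : Set P) := by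
      have := Subgroup.mul_mem _ hxc (Subgroup.inv_mem _ ha')
      simpa using this
    have huA : u ∈ Z ⊔ (Q ⊓ A) := by
      rw [← CfsgLib.PGroup.centralizer_maxAbelian hmem, CfsgLib.PGroup.centralizer_sup_eq]
      exact ⟨CfsgLib.PGroup.le_centralizer_centralizer Q hu, huI⟩
    have hI' : Q ⊓ A ≤ Subgroup.normalizer (Z : Set P) :=
      (Subgroup.le_centralizer_iff.mp (Subgroup.centralizer_le (SetLike.coe_subset_coe.mpr inf_le_left))).trans
        (Subgroup.centralizer_le_normalizer _)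
    rw [← SetLike.mem_coe, Subgroup.coe_mul_of_right_le_normalizer_left Z (Q ⊓ A) hI'] at huA
    obtain ⟨z, hz, w, hw, rfl⟩ := huA
    exact ⟨z, hz, w * a, A.mul_mem hw.2 ha, by simp [mul_assoc]⟩
  refine ⟨hprod, h1, le_antisymm (fun x hx => ?_) hZA, ?_, ?_⟩
  · obtain ⟨z, hz, a, ha, rfl⟩ := hset x hx
    exact Subgroup.mul_mem _ (Subgroup.mem_sup_left hz) (Subgroup.mem_sup_right ha)
  · refine Set.Subset.antisymm (fun x hx => hset x (hZA hx)) ?_
    rintro _ ⟨z, hz, a, ha, rfl⟩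
    exact Subgroup.mul_mem _ (Subgroup.mem_sup_left hz) (Subgroup.mem_sup_right ha)
  · refine (CfsgLib.PGroup.centralizer_centerThompsonA_le hQ).trans ?_
    exact le_sSup (CfsgLib.PGroup.sup_thompsonA_centrallyLarge hQ)

end Cfsg.Agent.S3006
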