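import Cfsg.Statements.S3007
import Cfsg.Agent.PGroup.CentrallyLarge

set_option autoImplicit false
open scoped commutatorElement
open Cfsg

namespace Cfsg.Agent.S3007

/-- Let P be a finite p-group and Q, R minimal centrally large subgroups of P (centrally large: |Q|·|Z(Q)| maximal among subgroups of P; minimal among such under inclusion). Then Q = (Q ∩ R)·Z(Q), the derived subgroups [Q, Q] and [R, R] coincide, |Q| = |R| and |Z(Q)| = |Z(R)|; and if Q is abelian then the minimal centrally large subgroups of P are exactly the abelian subgroups of P of largest order. -/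
theorem result {p : ℕ} [Fact p.Prime] (P : Type*) [Group P] [Finite P] (hP : IsPGroup p P) (Q R : Subgroup P) (hQ : Cfsg.IsMinimalCentrallyLarge Q) (hR : Cfsg.IsMinimalCentrallyLarge R) : (Q ⊓ R) ⊔ (Q ⊓ Subgroup.centralizer (Q : Set P)) = Q ∧ ⁅Q, Q⁆ = ⁅R, R⁆ ∧ Nat.card ↥Q = Nat.card ↥R ∧ Nat.card ↥(Q ⊓ Subgroup.centralizer (Q : Set P)) = Nat.card ↥(R ⊓ Subgroup.centralizer (R : Set P)) ∧ (IsMulCommutative ↥Q → ∀ X : Subgroup P, Cfsg.IsMinimalCentrallyLarge X ↔ X ∈ Cfsg.maxAbelianSubgroups P) := by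
  obtain ⟨hQl, hCQ⟩ := (CfsgLib.PGroup.isCentrallyLarge_iff Q).mp hQ.1
  obtain ⟨hRl, hCR⟩ := (CfsgLib.PGroup.isCentrallyLarge_iff R).mp hR.1
  have hQd := CfsgLib.PGroup.minimalCentrallyLarge_decomp hQ hR
  have hRd := CfsgLib.PGroup.minimalCentrallyLarge_decomp hR hQ
  rw [inf_eq_right.mpr hCQ, inf_eq_right.mpr hCR]
  rw [inf_comm R Q] at hRd
  set ZQ := Subgroup.centralizer (Q : Set P) with hZQ
  set ZR := Subgroup.centralizer (R : Set P) with hZR
  -- the two centres meet `Q ⊓ R` in the same subgroup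
  have hD : ∀ {X Y : Subgroup P}, Subgroup.centralizer (Y : Set P) ≤ Y →
      (X ⊓ Y) ⊔ Subgroup.centralizer (Y : Set P) = Y → Subgroup.centralizer (X : Set P) ≤ X →
      (X ⊓ Y) ⊓ Subgroup.centralizer (X : Set P) ≤ Subgroup.centralizer (Y : Set P) := by
    intro X Y hCY hY hCX z hz
    rw [← hY, CfsgLib.PGroup.centralizer_sup_eq]
    exact ⟨Subgroup.centralizer_le (SetLike.coe_subset_coe.mpr inf_le_left) hz.2,
      CfsgLib.PGroup.le_centralizer_centralizer Y hz.1.2⟩
  have hDeq : (Q ⊓ R) ⊓ ZQ = (Q ⊓ R) ⊓ ZR := le_antisymm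
    (le_inf inf_le_left (hD hCR hRd hCQ))
    (le_inf inf_le_left (by
      intro z hz
      exact hD hCQ (by rw [inf_comm R Q]; exact hQd) hCR ⟨⟨hz.1.2, hz.1.1⟩, hz.2⟩))
  -- cardinalities
  have hcard : ∀ {X : Subgroup P} (hX : (Q ⊓ R) ⊔ Subgroup.centralizer (X : Set P) = X),
      Nat.card X * Nat.card ↥((Q ⊓ R) ⊓ Subgroup.centralizer (X : Set P)) =
        Nat.card ↥(Q ⊓ R) * Nat.card ↥(Subgroup.centralizer (X : Set P)) := by
    intro X hX
    set Z := Subgroup.centralizer (X : Set P)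
    have hn : Q ⊓ R ≤ Subgroup.normalizer (Z : Set P) :=
      ((le_sup_left.trans hX.le).trans (CfsgLib.PGroup.le_centralizer_centralizer X)).trans
        (Subgroup.centralizer_le_normalizer _)
    have hr : (Q ⊓ R ⊓ Z).relIndex (Q ⊓ R) = Z.relIndex ((Q ⊓ R) ⊔ Z) := by
      rw [inf_comm, Subgroup.inf_relIndex_right]
      have : (Z.subgroupOf ((Q ⊓ R) ⊔ Z)).Normal :=
        Subgroup.normal_subgroupOf_of_le_normalizer (sup_le hn Subgroup.le_normalizer)
      haveI := this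
      rw [← Subgroup.relIndex_subgroupOf (le_refl ((Q ⊓ R) ⊔ Z)), ← Subgroup.relIndex_subgroupOf
        (le_sup_left : Q ⊓ R ≤ (Q ⊓ R) ⊔ Z), ← Subgroup.relIndex_sup_right (H := (Q ⊓ R).subgroupOf _)]
      rw [← Subgroup.subgroupOf_sup le_sup_left le_sup_right]
    have h1 := CfsgLib.PGroup.card_mul_relIndex_of_le (inf_le_left : Q ⊓ R ⊓ Z ≤ Q ⊓ R)
    have h2 := CfsgLib.PGroup.card_mul_relIndex_of_le (le_sup_right : Z ≤ (Q ⊓ R) ⊔ Z)
    rw [hr] at h1
    rw [hX] at h2 h1
    rw [← h2, ← h1]; ring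
  have hQc := hcard hQd
  have hRc := hcard hRd
  have hmQ : Nat.card Q * Nat.card ZQ = Cfsg.maxCentralizerProduct P := hQl
  have hmR : Nat.card R * Nat.card ZR = Cfsg.maxCentralizerProduct P := hRl
  rw [← hDeq] at hRc
  set d := Nat.card ↥((Q ⊓ R) ⊓ ZQ) with hd
  set k := Nat.card ↥(Q ⊓ R)
  have hk : 0 < k := Nat.card_pos
  have hdpos : 0 < d := Nat.card_pos
  have hzz : Nat.card ZQ = Nat.card ZR := by
    have h1 : (k * Nat.card ZQ) * Nat.card ZQ = (k * Nat.card ZR) * Nat.card ZR := by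
      calc (k * Nat.card ZQ) * Nat.card ZQ = (Nat.card Q * d) * Nat.card ZQ := by rw [hQc]
        _ = (Nat.card Q * Nat.card ZQ) * d := by ring
        _ = (Nat.card R * Nat.card ZR) * d := by rw [hmQ, hmR]
        _ = (Nat.card R * d) * Nat.card ZR := by ring
        _ = (k * Nat.card ZR) * Nat.card ZR := by rw [hRc]
    have h2 : k * (Nat.card ZQ * Nat.card ZQ) = k * (Nat.card ZR * Nat.card ZR) := by
      simpa [mul_assoc] using h1
    exact Nat.mul_self_inj.mp (Nat.eq_of_mul_eq_mul_left hk h2)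
  have hqq : Nat.card Q = Nat.card R :=
    Nat.eq_of_mul_eq_mul_right hdpos (by rw [hQc, hRc, hzz])
  have hcomm : ∀ {X : Subgroup P}, (Q ⊓ R) ⊔ Subgroup.centralizer (X : Set P) = X →
      ⁅X, X⁆ = ⁅Q ⊓ R, Q ⊓ R⁆ := by
    intro X hX
    refine le_antisymm ?_ (Subgroup.commutator_mono (le_sup_left.trans hX.le) (le_sup_left.trans hX.le))
    set Z := Subgroup.centralizer (X : Set P)
    have hn : Z ≤ Subgroup.normalizer ((Q ⊓ R : Subgroup P) : Set P) :=
      (Subgroup.centralizer_le (SetLike.coe_subset_coe.mpr (le_sup_left.trans hX.le))).trans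
        (Subgroup.centralizer_le_normalizer _)
    have hmem : ∀ x ∈ X, ∃ i ∈ Q ⊓ R, ∃ z ∈ Z, x = i * z := by
      intro x hx
      rw [← hX, ← SetLike.mem_coe, Subgroup.coe_mul_of_right_le_normalizer_left _ _ hn] at hx
      obtain ⟨i, hi, z, hz, rfl⟩ := hx
      exact ⟨i, hi, z, hz, rfl⟩
    rw [Subgroup.commutator_le]
    intro x hx y hy
    obtain ⟨i, hi, z, hz, rfl⟩ := hmem x hx
    obtain ⟨j, hj, w, hw, rfl⟩ := hmem y hy
    have hc : ∀ c ∈ Z, ∀ a ∈ X, a * c = c * a := fun c hc a ha => Subgroup.mem_centralizer_iff.mp hc a ha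
    have hiX : i ∈ X := le_sup_left.trans hX.le hi
    have hjX : j ∈ X := le_sup_left.trans hX.le hj
    have hzX : z ∈ X := le_sup_right.trans hX.le hz
    have hwX : w ∈ X := le_sup_right.trans hX.le hw
    have h1 := hc z hz _ hy
    have h2 := hc w hw _ hiX
    have e : ⁅i * z, j * w⁆ = ⁅i, j⁆ := by
      simp only [commutatorElement_def, mul_inv_rev]
      have hzy : z * (j * w) * z⁻¹ = j * w := by rw [← h1]; simp
      calc i * z * (j * w) * (z⁻¹ * i⁻¹) * (w⁻¹ * j⁻¹)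
          = i * (z * (j * w) * z⁻¹) * i⁻¹ * (w⁻¹ * j⁻¹) := by simp [mul_assoc]
        _ = i * j * (w * i⁻¹ * w⁻¹) * j⁻¹ := by rw [hzy]; simp [mul_assoc]
        _ = i * j * i⁻¹ * j⁻¹ := by
          rw [← hc w hw _ (X.inv_mem hiX)]; simp [mul_assoc]
    rw [e]
    exact Subgroup.commutator_mem_commutator hi hj
  have hder : ⁅Q, Q⁆ = ⁅R, R⁆ := by rw [hcomm hQd, hcomm hRd]
  refine ⟨hQd, hder, hqq, hzz, fun hab X => ?_⟩
  haveI := hab
  have hQsq : Cfsg.maxCentralizerProduct P = Nat.card Q * Nat.card Q := by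
    refine le_antisymm ?_ (CfsgLib.PGroup.card_sq_le_max hab)
    rw [← hmQ]
    exact Nat.mul_le_mul_left _ (Subgroup.card_le_of_le hCQ)
  have hQmax : Q ∈ Cfsg.maxAbelianSubgroups P := ⟨hab, fun B hB => by
    have := (CfsgLib.PGroup.card_sq_le_max hB).trans hQsq.le
    exact Nat.mul_self_le_mul_self_iff.mp this⟩
  constructor
  · intro hX
    have hXd := CfsgLib.PGroup.minimalCentrallyLarge_decomp hX hQ
    obtain ⟨hXl, hCX⟩ := (CfsgLib.PGroup.isCentrallyLarge_iff X).mp hX.1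
    have hXab : IsMulCommutative X := by
      rw [← hXd]
      refine CfsgLib.PGroup.isMulCommutative_sup_of_commute (Subgroup.le_centralizer_iff_isMulCommutative.mp ?_)
        (Subgroup.le_centralizer_iff_isMulCommutative.mp (Subgroup.centralizer_le (SetLike.coe_subset_coe.mpr hCX)))
        (inf_le_left.trans (CfsgLib.PGroup.le_centralizer_centralizer X))
      exact inf_le_right.trans ((Subgroup.le_centralizer_iff_isMulCommutative.mpr hab).trans
        (Subgroup.centralizer_le (SetLike.coe_subset_coe.mpr inf_le_right)))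
    refine ⟨hXab, fun B hB => ?_⟩
    have hCXeq : Subgroup.centralizer (X : Set P) = X :=
      le_antisymm hCX (Subgroup.le_centralizer_iff_isMulCommutative.mpr hXab)
    have h := (CfsgLib.PGroup.card_sq_le_max hB).trans hXl.symm.le
    rw [hCXeq] at h
    exact Nat.mul_self_le_mul_self_iff.mp h
  · intro hX
    have hCX := CfsgLib.PGroup.centralizer_maxAbelian hX
    have hcardX : Nat.card X = Nat.card Q := le_antisymm (hQmax.2 X hX.1) (hX.2 Q hab)
    have hXl : Cfsg.IsCentralizerLarge X := by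
      unfold Cfsg.IsCentralizerLarge
      rw [hCX, hcardX, hQsq]
    refine ⟨(CfsgLib.PGroup.isCentrallyLarge_iff X).mpr ⟨hXl, hCX.le⟩, fun X' hle hX' => ?_⟩
    obtain ⟨hX'l, hCX'⟩ := (CfsgLib.PGroup.isCentrallyLarge_iff X').mp hX'
    have h1 : X ≤ Subgroup.centralizer (X' : Set P) :=
      hCX.ge.trans (Subgroup.centralizer_le (SetLike.coe_subset_coe.mpr hle))
    exact le_antisymm hle (h1.trans hCX')

end Cfsg.Agent.S3007
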