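import Cfsg.Statements.S3008
import Cfsg.Agent.PGroup.CentrallyLarge
import Cfsg.Agent.S3006
import Cfsg.Agent.S3007

set_option autoImplicit false
open Cfsg

namespace Cfsg.Agent.S3008


open scoped commutatorElement Pointwise
open CfsgLib.PGroup

/-- Itô: for a product of two abelian subgroups the mixed commutators commute. -/
lemma ito_aux {G : Type*} [Group G] (A B : Subgroup G) (hA : IsMulCommutative A) (hB : IsMulCommutative B)
    (hAB : ((A ⊔ B : Subgroup G) : Set G) = (A : Set G) * (B : Set G))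
    {a a' b b' : G} (ha : a ∈ A) (ha' : a' ∈ A) (hb : b ∈ B) (hb' : b' ∈ B) :
    Commute ⁅a, b⁆ ⁅a'⁻¹, b'⁻¹⁆ := by
  have cA : ∀ x ∈ A, ∀ y ∈ A, Commute x y := fun x hx y hy => congrArg Subtype.val (mul_comm' (⟨x, hx⟩ : A) ⟨y, hy⟩)
  have cB : ∀ x ∈ B, ∀ y ∈ B, Commute x y := fun x hx y hy => congrArg Subtype.val (mul_comm' (⟨x, hx⟩ : B) ⟨y, hy⟩)
  -- `a' b a'⁻¹ = b₁ a₁` and `b' a b'⁻¹ = a₂ b₂`
  have h1 : (a' * b * a'⁻¹)⁻¹ ∈ ((A ⊔ B : Subgroup G) : Set G) :=
    Subgroup.inv_mem _ (Subgroup.mul_mem _ (Subgroup.mul_mem _ (Subgroup.mem_sup_left ha') (Subgroup.mem_sup_right hb))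
      (Subgroup.inv_mem _ (Subgroup.mem_sup_left ha')))
  rw [hAB] at h1
  obtain ⟨a1, ha1, b1, hb1, e1⟩ := h1
  have h2 : b' * a * b'⁻¹ ∈ ((A ⊔ B : Subgroup G) : Set G) :=
    Subgroup.mul_mem _ (Subgroup.mul_mem _ (Subgroup.mem_sup_right hb') (Subgroup.mem_sup_left ha))
      (Subgroup.inv_mem _ (Subgroup.mem_sup_right hb'))
  rw [hAB] at h2
  obtain ⟨a2, ha2, b2, hb2, e2⟩ := h2
  have e1' : a' * b * a'⁻¹ = b1⁻¹ * a1⁻¹ := by rw [← inv_inj, ← e1]; group
  have e2' : b' * a * b'⁻¹ = a2 * b2 := e2.symm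
  have kA : ∀ u ∈ A, MulAut.conj a' u = u := fun u hu => by
    rw [MulAut.conj_apply, (cA a' ha' u hu).eq, mul_inv_cancel_right]
  have kB : ∀ u ∈ B, MulAut.conj b' u = u := fun u hu => by
    rw [MulAut.conj_apply, (cB b' hb' u hu).eq, mul_inv_cancel_right]
  have L1 : ∀ u ∈ A, MulAut.conj a' ⁅u, b⁆ = ⁅u, b1⁻¹⁆ := fun u hu => by
    rw [map_commutatorElement, kA u hu, MulAut.conj_apply, e1', commutatorElement_def, commutatorElement_def, mul_inv_rev,
      inv_inv, inv_inv]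
    calc u * (b1⁻¹ * a1⁻¹) * u⁻¹ * (a1 * b1) = u * b1⁻¹ * (a1⁻¹ * u⁻¹) * a1 * b1 := by group
      _ = u * b1⁻¹ * (u⁻¹ * a1⁻¹) * a1 * b1 := by rw [(cA _ (A.inv_mem ha1) _ (A.inv_mem hu)).eq]
      _ = u * b1⁻¹ * u⁻¹ * b1 := by group
  have L2 : ∀ v ∈ B, MulAut.conj b' ⁅a, v⁆ = ⁅a2, v⁆ := fun v hv => by
    rw [map_commutatorElement, kB v hv, MulAut.conj_apply, e2', commutatorElement_def, commutatorElement_def, mul_inv_rev]
    calc a2 * b2 * v * (b2⁻¹ * a2⁻¹) * v⁻¹ = a2 * (b2 * v) * b2⁻¹ * a2⁻¹ * v⁻¹ := by group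
      _ = a2 * (v * b2) * b2⁻¹ * a2⁻¹ * v⁻¹ := by rw [(cB _ hb2 _ hv).eq]
      _ = a2 * v * a2⁻¹ * v⁻¹ := by group
  have key : MulAut.conj a' (MulAut.conj b' ⁅a, b⁆) = MulAut.conj b' (MulAut.conj a' ⁅a, b⁆) := by
    rw [L2 b hb, L1 a2 ha2, L1 a ha, L2 _ (B.inv_mem hb1)]
  set y := ⁅a, b⁆
  simp only [MulAut.conj_apply] at key
  show y * ⁅a'⁻¹, b'⁻¹⁆ = ⁅a'⁻¹, b'⁻¹⁆ * y
  rw [commutatorElement_def, inv_inv, inv_inv]
  calc y * (a'⁻¹ * b'⁻¹ * a' * b')
      = a'⁻¹ * b'⁻¹ * (b' * (a' * y * a'⁻¹) * b'⁻¹) * (a' * b') := by group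
    _ = a'⁻¹ * b'⁻¹ * (a' * (b' * y * b'⁻¹) * a'⁻¹) * (a' * b') := by rw [← key]
    _ = a'⁻¹ * b'⁻¹ * a' * b' * y := by group

lemma ito_commute {G : Type*} [Group G] (A B : Subgroup G) (hA : IsMulCommutative A) (hB : IsMulCommutative B)
    (hAB : ((A ⊔ B : Subgroup G) : Set G) = (A : Set G) * (B : Set G))
    {a a' b b' : G} (ha : a ∈ A) (ha' : a' ∈ A) (hb : b ∈ B) (hb' : b' ∈ B) :
    Commute ⁅a, b⁆ ⁅a', b'⁆ := by
  have := ito_aux A B hA hB hAB ha (A.inv_mem ha') hb (B.inv_mem hb')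
  simpa using this

variable {P : Type*} [Group P] [Finite P]

lemma centralizer_map_conj (Q : Subgroup P) (x : P) :
    Subgroup.centralizer ((Q.map (MulAut.conj x).toMonoidHom : Subgroup P) : Set P) =
      (Subgroup.centralizer (Q : Set P)).map (MulAut.conj x).toMonoidHom := by
  ext y
  constructor
  · intro hy
    refine ⟨x⁻¹ * y * x, Subgroup.mem_centralizer_iff.2 fun q hq => ?_, by simp [mul_assoc]⟩
    have h := Subgroup.mem_centralizer_iff.1 hy (x * q * x⁻¹) ⟨q, hq, rfl⟩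
    calc q * (x⁻¹ * y * x) = x⁻¹ * ((x * q * x⁻¹) * y) * x := by group
      _ = x⁻¹ * (y * (x * q * x⁻¹)) * x := by rw [h]
      _ = (x⁻¹ * y * x) * q := by group
  · rintro ⟨c, hc, rfl⟩
    refine Subgroup.mem_centralizer_iff.2 ?_
    rintro _ ⟨q, hq, rfl⟩
    rw [← map_mul, ← map_mul, Subgroup.mem_centralizer_iff.1 hc q hq]

lemma centrallyLarge_map (Q : Subgroup P) (x : P) (h : Cfsg.IsCentrallyLarge Q) :
    Cfsg.IsCentrallyLarge (Q.map (MulAut.conj x).toMonoidHom) := by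
  have hinj : Function.Injective (MulAut.conj x).toMonoidHom := (MulAut.conj x).injective
  obtain ⟨h1, h2⟩ := (isCentrallyLarge_iff Q).1 h
  refine (isCentrallyLarge_iff _).2 ⟨?_, ?_⟩
  · unfold Cfsg.IsCentralizerLarge at *
    rw [centralizer_map_conj, Subgroup.card_map_of_injective hinj, Subgroup.card_map_of_injective hinj, h1]
  · rw [centralizer_map_conj]; exact Subgroup.map_mono h2

lemma minimal_map (Q : Subgroup P) (x : P) (h : Cfsg.IsMinimalCentrallyLarge Q) :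
    Cfsg.IsMinimalCentrallyLarge (Q.map (MulAut.conj x).toMonoidHom) := by
  refine ⟨centrallyLarge_map Q x h.1, fun R hR hRl => ?_⟩
  have h2 : R.map (MulAut.conj x⁻¹).toMonoidHom ≤ Q := by
    rintro _ ⟨r, hr, rfl⟩
    obtain ⟨q, hq, rfl⟩ := hR hr
    simpa [mul_assoc] using hq
  have h3 := h.2 _ h2 (centrallyLarge_map R x⁻¹ hRl)
  refine le_antisymm hR ?_
  rintro _ ⟨q, hq, rfl⟩
  rw [← h3] at hq
  obtain ⟨r, hr, rfl⟩ := hq
  simpa [mul_assoc] using hr

/-- Among minimal centrally large subgroups, one whose centralizer is deepest is normalised by each such `B`. -/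
lemma improve {p : ℕ} [Fact p.Prime] (hP : IsPGroup p P) (Q : Subgroup P) (hQ : Cfsg.IsMinimalCentrallyLarge Q)
    (B : Subgroup P) (hB : IsMulCommutative B)
    (hprod : ((Subgroup.centralizer (Q : Set P) ⊔ B : Subgroup P) : Set P) =
      (Subgroup.centralizer (Q : Set P) : Set P) * (B : Set P))
    (n : ℕ) (hn : (⊤ : Subgroup P).lowerCentralSeries n = ⊥)
    (hmax : ∀ Q' : Subgroup P, Cfsg.IsMinimalCentrallyLarge Q' →
      ∑ i ∈ Finset.range (n + 1), Nat.card ↥(Subgroup.centralizer (Q' : Set P) ⊓ (⊤ : Subgroup P).lowerCentralSeries i) ≤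
      ∑ i ∈ Finset.range (n + 1), Nat.card ↥(Subgroup.centralizer (Q : Set P) ⊓ (⊤ : Subgroup P).lowerCentralSeries i)) :
    B ≤ Subgroup.normalizer (Q : Set P) := by
  classical
  intro x hx
  obtain ⟨hQl, hCQ⟩ := (isCentrallyLarge_iff Q).1 hQ.1
  obtain ⟨hZl, hCZ⟩ := centralizer_centralizer_eq hQl
  set Q1 := Q.map (MulAut.conj x).toMonoidHom with hQ1
  have hQ1m : Cfsg.IsMinimalCentrallyLarge Q1 := minimal_map Q x hQ
  obtain ⟨hQ1l, hCQ1⟩ := (isCentrallyLarge_iff Q1).1 hQ1m.1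
  obtain ⟨hZ1l, hCZ1⟩ := centralizer_centralizer_eq hQ1l
  set Z := Subgroup.centralizer (Q : Set P) with hZ
  set Z1 := Subgroup.centralizer (Q1 : Set P) with hZ1
  rw [Subgroup.mem_normalizer_iff_map_conj_eq]
  by_cases hZZ : Z = Z1
  · show Q1 = Q
    rw [← hCZ1, ← hCZ, hZZ]
  exfalso
  -- the data of the pair
  have hdec := minimalCentrallyLarge_decomp hQ hQ1m
  have hdec1 := minimalCentrallyLarge_decomp hQ1m hQ
  rw [inf_comm] at hdec1
  obtain ⟨-, hKl, -, hCK⟩ := centralizerLarge_pair hQl hQ1l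
  set K := Q ⊓ Q1 with hK
  set D := Z ⊓ Z1 with hD
  have hKZ : K ⊓ Z = D := by
    refine le_antisymm (le_inf inf_le_right ?_) (le_inf (fun z hz => ⟨hCQ hz.1, hCQ1 hz.2⟩) inf_le_left)
    rintro z ⟨hzK, hzZ⟩
    rw [hZ1, ← hdec1, centralizer_sup_eq]
    exact ⟨Subgroup.centralizer_le (SetLike.coe_subset_coe.2 inf_le_left) hzZ,
      le_centralizer_centralizer Q1 hzK.2⟩
  have hcardK : Nat.card Q * Nat.card D = Nat.card K * Nat.card Z := by
    have h := (centralizerLarge_pair hKl hZl).2.2.1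
    rw [hdec, hKZ] at h
    exact h
  have hSK : Z ⊔ Z1 ≤ Subgroup.centralizer (K : Set P) := hCK.ge
  -- the commutators
  have hcom : ∀ z ∈ Z, ⁅x, z⁆ ∈ Z ⊔ Z1 := fun z hz => by
    rw [commutatorElement_def]
    refine Subgroup.mul_mem _ (Subgroup.mem_sup_right ?_) (Subgroup.inv_mem _ (Subgroup.mem_sup_left hz))
    rw [hZ1, hQ1, centralizer_map_conj]
    exact ⟨z, hz, rfl⟩
  have hZab : IsMulCommutative Z := Subgroup.le_centralizer_iff_isMulCommutative.mp
    (Subgroup.centralizer_le (SetLike.coe_subset_coe.mpr hCQ))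
  have hMc : IsMulCommutative ↥(Subgroup.closure {c | ∃ z ∈ Z, c = ⁅x, z⁆}) := by
    refine Subgroup.isMulCommutative_closure ?_
    rintro _ ⟨z, hz, rfl⟩ _ ⟨z', hz', rfl⟩
    rw [← commutatorElement_inv z x, ← commutatorElement_inv z' x]
    exact ((ito_commute Z B hZab hB hprod hz hz' hx hx).inv_inv).eq
  set M := Subgroup.closure {c | ∃ z ∈ Z, c = ⁅x, z⁆} with hM
  have hMS : M ≤ Z ⊔ Z1 := (Subgroup.closure_le _).2 (by rintro _ ⟨z, hz, rfl⟩; exact hcom z hz)
  have hDab : IsMulCommutative D := Subgroup.le_centralizer_iff_isMulCommutative.mp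
    (inf_le_left.trans ((Subgroup.le_centralizer_iff_isMulCommutative.mpr hZab).trans
      (Subgroup.centralizer_le (SetLike.coe_subset_coe.2 inf_le_left))))
  have hZ1ab : IsMulCommutative Z1 := Subgroup.le_centralizer_iff_isMulCommutative.mp
    (Subgroup.centralizer_le (SetLike.coe_subset_coe.mpr hCQ1))
  have hDS : Z ⊔ Z1 ≤ Subgroup.centralizer (D : Set P) :=
    sup_le ((Subgroup.le_centralizer_iff_isMulCommutative.mpr hZab).trans
        (Subgroup.centralizer_le (SetLike.coe_subset_coe.2 inf_le_left)))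
      ((Subgroup.le_centralizer_iff_isMulCommutative.mpr hZ1ab).trans
        (Subgroup.centralizer_le (SetLike.coe_subset_coe.2 inf_le_right)))
  set W := D ⊔ M with hW
  have hWab : IsMulCommutative W := isMulCommutative_sup_of_commute hDab hMc
    (Subgroup.le_centralizer_iff.1 (hMS.trans hDS))
  have hWS : W ≤ Z ⊔ Z1 := sup_le (inf_le_left.trans le_sup_left) hMS
  have hKW : K ⊓ W ≤ D := by
    rintro w ⟨hwK, hwW⟩
    have hwC := hSK (hWS hwW)
    have hwZ : w ∈ Z := by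
      rw [hZ, ← hdec, centralizer_sup_eq]
      exact ⟨hwC, le_centralizer_centralizer Q hwK.1⟩
    exact hKZ.le ⟨hwK, hwZ⟩
  -- representatives modulo `D`
  have hinj : ∀ z ∈ Z, ∀ z' ∈ Z, ∀ d ∈ D, ⁅x, z⁆ = d * ⁅x, z'⁆ → z⁻¹ * z' ∈ D := by
    intro z hz z' hz' d hd he
    refine ⟨Z.mul_mem (Z.inv_mem hz) hz', ?_⟩
    have hx1 : ∀ u ∈ Z, x * u * x⁻¹ ∈ Z1 := fun u hu => by
      rw [hZ1, hQ1, centralizer_map_conj]; exact ⟨u, hu, rfl⟩
    have e : z⁻¹ * z' = (x * z * x⁻¹)⁻¹ * (d * (x * z' * x⁻¹)) := by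
      have e1 : x * z * x⁻¹ = d * ⁅x, z'⁆ * z := by
        rw [← he, commutatorElement_def]; group
      rw [e1, commutatorElement_def]
      group
    rw [e]
    exact Z1.mul_mem (Z1.inv_mem (hx1 z hz)) (Z1.mul_mem hd.2 (hx1 z' hz'))
  have hge : ∀ i, Nat.card ↥(Z ⊓ (⊤ : Subgroup P).lowerCentralSeries i) ≤
        Nat.card ↥(W ⊓ (⊤ : Subgroup P).lowerCentralSeries i) := by
    intro i
    set L := (⊤ : Subgroup P).lowerCentralSeries i with hL
    let q : ↥(Z ⊓ L) → ↥(Z ⊓ L) ⧸ D.subgroupOf (Z ⊓ L) := QuotientGroup.mk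
    let r : ↥(Z ⊓ L) → ↥(Z ⊓ L) := fun z => (q z).out
    have hr : ∀ z, ((r z : P))⁻¹ * (z : P) ∈ D := fun z => by
      have := QuotientGroup.eq.1 (QuotientGroup.out_eq' (q z))
      exact this
    have hrc : ∀ z, ⁅x, (r z : P)⁆ ∈ L := fun z => by
      have h1 : ⁅(r z : P), x⁆ ∈ (⊤ : Subgroup P).lowerCentralSeries (i + 1) :=
        Subgroup.commutator_mem_commutator (r z).2.2 (Subgroup.mem_top x)
      have h2 := Subgroup.lowerCentralSeries_antitone (⊤ : Subgroup P) (Nat.le_succ i) h1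
      rw [← commutatorElement_inv]; exact L.inv_mem h2
    refine Nat.card_le_card_of_injective (fun z => ⟨((r z : P))⁻¹ * (z : P) * ⁅x, (r z : P)⁆,
      W.mul_mem (Subgroup.mem_sup_left (hr z)) (Subgroup.mem_sup_right (Subgroup.subset_closure ⟨_, (r z).2.1, rfl⟩)),
      L.mul_mem (L.mul_mem (L.inv_mem (r z).2.2) z.2.2) (hrc z)⟩) fun z z' h => ?_
    have h' : ((r z : P))⁻¹ * (z : P) * ⁅x, (r z : P)⁆ = ((r z' : P))⁻¹ * (z' : P) * ⁅x, (r z' : P)⁆ :=
      congrArg Subtype.val h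
    have hd : (((r z : P))⁻¹ * (z : P))⁻¹ * (((r z' : P))⁻¹ * (z' : P)) ∈ D :=
      D.mul_mem (D.inv_mem (hr z)) (hr z')
    have hq : r z = r z' := by
      have h3 := hinj _ (r z).2.1 _ (r z').2.1 _ hd (by rw [mul_assoc, ← h', inv_mul_cancel_left])
      have h4 : q (r z) = q (r z') := QuotientGroup.eq.2 h3
      have h5 : ∀ w, q (r w) = q w := fun w => QuotientGroup.out_eq' (q w)
      rw [h5, h5] at h4
      simp only [r, h4]
    rw [hq, mul_left_inj, mul_right_inj] at h'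
    exact Subtype.ext h'
  have hW0 : Nat.card Z ≤ Nat.card W := by simpa using hge 0
  -- the new subgroup
  set Q2 := K ⊔ W with hQ2
  have h1 : Nat.card K * Nat.card W ≤ Nat.card Q2 * Nat.card D :=
    (card_mul_card_le K W).trans (Nat.mul_le_mul_left _ (Subgroup.card_le_of_le hKW))
  have hWC : W ≤ Subgroup.centralizer (Q2 : Set P) := by
    rw [hQ2, centralizer_sup_eq]
    exact le_inf (hWS.trans hSK) (Subgroup.le_centralizer_iff_isMulCommutative.mpr hWab)
  have h2 := Subgroup.card_le_of_le hWC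
  have h3 := measure_le_max Q2
  have hmQ : Nat.card Q * Nat.card Z = Cfsg.maxCentralizerProduct P := hQl
  have hfin : Nat.card ↥(Subgroup.centralizer (Q2 : Set P)) ≤ Nat.card W ∧
      Nat.card W = Nat.card Z ∧ Nat.card Q2 = Nat.card Q := by
    rw [← hmQ] at h3
    set a := Nat.card Q2
    set c := Nat.card ↥(Subgroup.centralizer (Q2 : Set P))
    set y := Nat.card W
    set z := Nat.card Z
    set k := Nat.card K
    set d := Nat.card D
    set qq := Nat.card Q
    have hd : 0 < d := Nat.card_pos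
    have ha : 0 < a := Nat.card_pos
    have hk : 0 < k := Nat.card_pos
    have hy : 0 < y := Nat.card_pos
    have c1 : a * c * d ≤ k * z * z := by
      calc a * c * d ≤ qq * z * d := Nat.mul_le_mul_right _ h3
        _ = (qq * d) * z := by ring
        _ = k * z * z := by rw [hcardK]
    have c2 : k * z * z ≤ k * y * y := Nat.mul_le_mul (Nat.mul_le_mul_left _ hW0) hW0
    have c3 : k * y * y ≤ a * d * y := Nat.mul_le_mul_right _ h1
    have hcy : c ≤ y := Nat.le_of_mul_le_mul_left (show a * d * c ≤ a * d * y by linarith) (Nat.mul_pos ha hd)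
    have hcy' : c = y := le_antisymm hcy h2
    have hyz : y = z := by
      refine le_antisymm ?_ hW0
      have h4 : k * (y * y) ≤ k * (z * z) := by rw [hcy'] at c1; linarith
      exact Nat.mul_self_le_mul_self_iff.1 (Nat.le_of_mul_le_mul_left h4 hk)
    refine ⟨hcy, hyz, ?_⟩
    rw [hcy', hyz] at c1
    rw [hyz] at c3 c2 hy
    have h5 : a * d * z = k * z * z := le_antisymm (by linarith) c3
    have h6 : a * d = qq * d := by rw [hcardK]; exact Nat.eq_of_mul_eq_mul_right hy h5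
    exact Nat.eq_of_mul_eq_mul_right hd h6
  obtain ⟨hf1, hf2, hf3⟩ := hfin
  have hCQ2 : Subgroup.centralizer (Q2 : Set P) = W := (Subgroup.eq_of_le_of_card_ge hWC hf1).symm
  have hQ2l : Cfsg.IsCentrallyLarge Q2 := (isCentrallyLarge_iff _).2 ⟨by
    unfold Cfsg.IsCentralizerLarge
    rw [hCQ2, hf2, hf3]; exact hmQ, hCQ2.le.trans le_sup_right⟩
  obtain ⟨Q3, hQ3le, hQ3⟩ := exists_minimalCentrallyLarge_le hQ2l
  have hQ23 : Q3 = Q2 := Subgroup.eq_of_le_of_card_ge hQ3le
    (by rw [hf3]; exact ((Cfsg.Agent.S3007.result (p := p) P hP Q Q3 hQ hQ3).2.2.1).le)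
  rw [hQ23] at hQ3
  have hle := hmax Q2 hQ3
  rw [hCQ2] at hle
  -- strictness
  have hex : ¬ Z ≤ D := fun h => hZZ (Subgroup.eq_of_le_of_card_ge (h.trans inf_le_right)
    (le_of_eq (by rw [hZ1, hQ1, centralizer_map_conj, Subgroup.card_map_of_injective (MulAut.conj x).injective])))
  let good : ℕ → Prop := fun i => ¬ Z ⊓ (⊤ : Subgroup P).lowerCentralSeries i ≤ D
  have hg0 : good 0 := by simpa [good] using hex
  have hgn : ¬ good n := by simp [good, hn]
  obtain ⟨i, hi, hi1, hin⟩ : ∃ i, good i ∧ ¬ good (i + 1) ∧ i + 1 ≤ n := by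
    by_contra hcon
    push Not at hcon
    have : ∀ j ≤ n, good j := fun j hj => by
      induction j with
      | zero => exact hg0
      | succ j ih =>
        by_contra hj'
        exact absurd (hcon j (ih (by omega)) (fun h => h hj')) (by omega)
    exact hgn (this n le_rfl)
  have hlt : Nat.card ↥(Z ⊓ (⊤ : Subgroup P).lowerCentralSeries (i + 1)) <
      Nat.card ↥(W ⊓ (⊤ : Subgroup P).lowerCentralSeries (i + 1)) := by
    obtain ⟨z, hzi, hzD⟩ := SetLike.not_le_iff_exists.1 hi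
    have hi1' : Z ⊓ (⊤ : Subgroup P).lowerCentralSeries (i + 1) ≤ D := not_not.1 hi1
    refine lt_of_le_of_ne (hge _) fun he => ?_
    have hsub : Z ⊓ (⊤ : Subgroup P).lowerCentralSeries (i + 1) ≤ W ⊓ (⊤ : Subgroup P).lowerCentralSeries (i + 1) :=
      le_inf (hi1'.trans le_sup_left) inf_le_right
    have heq := Subgroup.eq_of_le_of_card_ge hsub he.ge
    have hmem : ⁅x, z⁆ ∈ W ⊓ (⊤ : Subgroup P).lowerCentralSeries (i + 1) := by
      refine ⟨Subgroup.mem_sup_right (Subgroup.subset_closure ⟨z, hzi.1, rfl⟩), ?_⟩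
      rw [← commutatorElement_inv]
      exact Subgroup.inv_mem _ (Subgroup.commutator_mem_commutator hzi.2 (Subgroup.mem_top x))
    rw [← heq] at hmem
    have hd := hi1' hmem
    have := hinj z hzi.1 1 Z.one_mem _ hd (by rw [commutatorElement_one_right, mul_one])
    exact hzD (by simpa using D.inv_mem this)
  have := Finset.sum_lt_sum (s := Finset.range (n + 1))
    (f := fun j => Nat.card ↥(Z ⊓ (⊤ : Subgroup P).lowerCentralSeries j))
    (g := fun j => Nat.card ↥(W ⊓ (⊤ : Subgroup P).lowerCentralSeries j))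
    (fun j _ => hge j) ⟨i + 1, Finset.mem_range.2 (by omega), hlt⟩
  omega

/-- Let P be a finite p-group, with J(P) generated by its abelian subgroups of largest order and J̃(P) = C_P(Z(J(P))); call R ≤ P centrally large if |R|·|Z(R)| is as large as possible, and let P_MCL be generated by the minimal centrally large subgroups. Then: for every centrally large Q, Q·J(P) ⊇ J̃(P); some minimal centrally large subgroup of P is normalized by both J(P) and P_MCL; if P = J(P) and d(P)² = |P|·|Z(P)|, where d(P) is the largest order of an abelian subgroup, then every minimal centrally large subgroup of P is abelian; and if every minimal centrally large subgroup is abelian then J̃(P) = J(P). -/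
theorem result {p : ℕ} [Fact p.Prime] (P : Type*) [Group P] [Finite P] (hP : IsPGroup p P) : (∀ Q : Subgroup P, Cfsg.IsCentrallyLarge Q → Subgroup.centralizer ((Cfsg.thompsonSubgroupA P ⊓ Subgroup.centralizer (Cfsg.thompsonSubgroupA P : Set P) : Subgroup P) : Set P) ≤ Q ⊔ Cfsg.thompsonSubgroupA P) ∧ (∃ Q : Subgroup P, Cfsg.IsMinimalCentrallyLarge Q ∧ Cfsg.thompsonSubgroupA P ≤ Subgroup.normalizer (Q : Set P) ∧ Cfsg.minimalCentrallyLargeJoin P ≤ Subgroup.normalizer (Q : Set P)) ∧ (Cfsg.thompsonSubgroupA P = ⊤ → (∀ A ∈ Cfsg.maxAbelianSubgroups P, Nat.card ↥A ^ 2 = Nat.card P * Nat.card ↥(Subgroup.center P)) → ∀ Q : Subgroup P, Cfsg.IsMinimalCentrallyLarge Q → IsMulCommutative ↥Q) ∧ ((∀ Q : Subgroup P, Cfsg.IsMinimalCentrallyLarge Q → IsMulCommutative ↥Q) → Subgroup.centralizer ((Cfsg.thompsonSubgroupA P ⊓ Subgroup.centralizer (Cfsg.thompsonSubgroupA P : Set P) : Subgroup P) : Set P) = Cfsg.thompsonSubgroupA P) := by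
  classical
  refine ⟨fun Q hQ => centralizer_centerThompsonA_le hQ, ?_, ?_, ?_⟩
  · haveI := hP.isNilpotent
    obtain ⟨n, hn⟩ := Subgroup.nilpotent_iff_lowerCentralSeries.1 (inferInstance : Group.IsNilpotent P)
    obtain ⟨R₀, hR₀⟩ := exists_isCentrallyLarge (G := P)
    obtain ⟨Q₀, -, hQ₀⟩ := exists_minimalCentrallyLarge_le hR₀
    obtain ⟨Q, hQ, hmax⟩ := Finset.exists_max_image (Set.toFinite {Q : Subgroup P | Cfsg.IsMinimalCentrallyLarge Q}).toFinset
      (fun Q => ∑ i ∈ Finset.range (n + 1), Nat.card ↥(Subgroup.centralizer (Q : Set P) ⊓ (⊤ : Subgroup P).lowerCentralSeries i))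
      ⟨Q₀, by simpa using hQ₀⟩
    simp only [Set.Finite.mem_toFinset, Set.mem_setOf_eq] at hQ hmax
    obtain ⟨hQl, hCQ⟩ := (isCentrallyLarge_iff Q).1 hQ.1
    refine ⟨Q, hQ, sSup_le fun A hA => ?_, sSup_le fun R hR => ?_⟩
    · refine improve hP Q hQ A hA.1 ?_ n hn hmax
      have h := (Cfsg.Agent.S3006.result (p := p) P hP Q A hQ.1 hA).2.2.2.1
      rw [inf_eq_right.2 hCQ, show (Q : Set P) ⊓ (Subgroup.centralizer (Q : Set P) : Set P) = Subgroup.centralizer (Q : Set P) from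
        inf_eq_right.2 (SetLike.coe_subset_coe.2 hCQ)] at h
      exact h
    · obtain ⟨hRl, hCR⟩ := (isCentrallyLarge_iff R).1 hR.1
      have hd := minimalCentrallyLarge_decomp hR hQ
      rw [← hd]
      refine sup_le (inf_le_right.trans Subgroup.le_normalizer) (improve hP Q hQ _ ?_ ?_ n hn hmax)
      · exact Subgroup.le_centralizer_iff_isMulCommutative.mp (Subgroup.centralizer_le (SetLike.coe_subset_coe.mpr hCR))
      · exact sup_eq_mul_of_card_eq _ _
          (centralizerLarge_pair (centralizer_centralizer_eq hQl).1 (centralizer_centralizer_eq hRl).1).2.2.1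
  · intro hJ hA Q hQ
    obtain ⟨A, hAm⟩ := maxAbelian_nonempty (G := P)
    have hPl := sup_thompsonA_centrallyLarge hQ.1
    rw [hJ, sup_top_eq] at hPl
    have hAl : Cfsg.IsCentrallyLarge A := by
      have hCA := centralizer_maxAbelian hAm
      refine (isCentrallyLarge_iff _).2 ⟨?_, hCA.le⟩
      unfold Cfsg.IsCentralizerLarge
      rw [hCA, ← maxCentralProduct_eq, ← sq, hA A hAm, ← hPl, Subgroup.card_top]
      exact congrArg (Nat.card P * ·) (by
        rw [card_center_eq, top_inf_eq, Subgroup.coe_top, Subgroup.centralizer_univ])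
    obtain ⟨X, hXA, hX⟩ := exists_minimalCentrallyLarge_le hAl
    have hXab : IsMulCommutative ↥X := by
      haveI := hAm.1
      exact ⟨⟨fun a b => Subtype.ext (congrArg Subtype.val (mul_comm' (⟨a, hXA a.2⟩ : A) ⟨b, hXA b.2⟩) : )⟩⟩
    exact (((Cfsg.Agent.S3007.result (p := p) P hP X Q hX hQ).2.2.2.2 hXab Q).1 hQ).1
  · intro hall
    obtain ⟨R₀, hR₀⟩ := exists_isCentrallyLarge (G := P)
    obtain ⟨Q, -, hQ⟩ := exists_minimalCentrallyLarge_le hR₀
    have hQA := ((Cfsg.Agent.S3007.result (p := p) P hP Q Q hQ hQ).2.2.2.2 (hall Q hQ) Q).1 hQ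
    refine le_antisymm ((centralizer_centerThompsonA_le hQ.1).trans (sup_le (le_sSup hQA) le_rfl)) ?_
    exact thompsonA_le_centralizer_center

end Cfsg.Agent.S3008
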