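import Cfsg.Statements.S3009
import Cfsg.Agent.SL2.Elements

set_option autoImplicit false
open Cfsg

namespace Cfsg.Agent.S3009

open Subgroup CfsgLib.SL2

variable {F : Type*} [Field F]

local notation "SL" => Matrix.SpecialLinearGroup (Fin 2) F

/-- The standard Weyl element. -/
def rot : SL := mk2 0 1 (-1) 0 (by ring)

theorem rot_coe : ((rot : SL) : Matrix (Fin 2) (Fin 2) F) = !![0, 1; -1, 0] := rfl

theorem rot_sq : (rot : SL) * rot = diagT (-1 : Fˣ) := by
  apply ext2 <;> simp [mul00, mul01, mul10, mul11, rot_coe]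

theorem lowerU_eq (s : F) : (lowerU s : SL) = rot * upperU (-s) * rot⁻¹ := by
  rw [eq_mul_inv_iff_mul_eq]
  apply ext2 <;> simp [mul00, mul01, mul10, mul11, rot_coe]

theorem rot_inv : (rot : SL)⁻¹ = rot * diagT (-1 : Fˣ) := by
  rw [inv_eq_iff_mul_eq_one]
  apply ext2 <;> simp [mul00, mul01, mul10, mul11, rot_coe]

theorem key_identity (u : Fˣ) :
    upperU (u : F) * lowerU (-(u : F)⁻¹) * upperU (u : F) = diagT u * (rot : SL) := by
  have := u.ne_zero
  apply ext2 <;> simp [mul00, mul01, mul10, mul11, rot_coe]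

theorem diagT_rot (u : Fˣ) : diagT u * (rot : SL) = rot * diagT u⁻¹ := by
  apply ext2 <;> simp [mul00, mul01, mul10, mul11, rot_coe]

theorem rot_eq : (rot : SL) = upperU 1 * lowerU (-1) * upperU 1 := by
  apply ext2 <;> simp [mul00, mul01, mul10, mul11, rot_coe]

theorem upperU_diagT (u : Fˣ) (t : F) :
    upperU t * diagT u = (diagT u : SL) * upperU (((u⁻¹ : Fˣ) : F) ^ 2 * t) := by
  have := u.ne_zero
  apply ext2 <;> simp [mul00, mul01, mul10, mul11] <;> field_simp

theorem decomp {g : SL} (hc : g.1 1 0 ≠ 0) :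
    g = upperU ((g.1 0 0 - 1) / g.1 1 0) * lowerU (g.1 1 0) *
      upperU ((g.1 1 1 - 1) / g.1 1 0) := by
  have hd := det_eq g
  apply ext2 <;> simp [mul00, mul01, mul10, mul11] <;> field_simp
  all_goals first | linear_combination hd | linear_combination -hd | ring

theorem sl_induction {P : SL → Prop} (hu : ∀ t, P (upperU t)) (hl : ∀ t, P (lowerU t))
    (hmul : ∀ g h, P g → P h → P (g * h)) (g : SL) : P g := by
  have main : ∀ g : SL, g.1 1 0 ≠ 0 → P g := fun g hc => by
    rw [decomp hc]
    exact hmul _ _ (hmul _ _ (hu _) (hl _)) (hu _)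
  by_cases hc : g.1 1 0 = 0
  · have e : g = lowerU (-1) * (lowerU 1 * g) := by
      have : (lowerU (-1) : SL) * lowerU 1 = 1 := by
        apply ext2 <;> simp [mul00, mul01, mul10, mul11]
      rw [← mul_assoc, this, one_mul]
    rw [e]
    refine hmul _ _ (hl _) (main _ ?_)
    have hd := det_eq g
    rw [hc, mul_zero, sub_zero] at hd
    simp [mul10, hc]
    intro h
    rw [h, zero_mul] at hd
    exact zero_ne_one hd
  · exact main g hc

/-- The module-theoretic heart. -/
theorem natural [Finite F] {p n : ℕ} [Fact p.Prime] (hFp : Nat.card F = p ^ n) {M : Type*}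
    [AddCommGroup M] [Finite M] {k : ℕ} (hM : Nat.card M = p ^ k) (π : SL →* AddMonoid.End M)
    (hirr : ∀ W : AddSubgroup M, (∀ g, ∀ m ∈ W, π g m ∈ W) → W = ⊥ ∨ W = ⊤)
    (hnt : ∃ g m, π g m ≠ m)
    (hyp : (∀ m : M, ∀ s t : F, π (upperU s) (π (upperU t) m - m) = π (upperU t) m - m) ∨
      Nat.card M ≤ Nat.card {m : M // ∀ t, π (upperU t) m = m} ^ 2) :
    ∃ Ψ : (Fin 2 → F) ≃+ M, ∀ (g : SL) (v : Fin 2 → F),
      Ψ ((g : Matrix (Fin 2) (Fin 2) F).mulVec v) = π g (Ψ v) := by
  classical
  have happ : ∀ g h m, π (g * h) m = π g (π h m) := fun g h m => by rw [map_mul]; rfl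
  have hone : ∀ m, π (1 : SL) m = m := fun m => by rw [map_one]; rfl
  have hinj : ∀ g : SL, Function.Injective (π g) := fun g a b h => by
    have := congrArg (π g⁻¹) h
    rwa [← happ, ← happ, inv_mul_cancel, hone, hone] at this
  have hcancel : ∀ (g : SL) m, π g⁻¹ (π g m) = m := fun g m => by
    rw [← happ, inv_mul_cancel, hone]
  set w : SL := rot with hw
  let A : AddSubgroup M :=
    { carrier := {m | ∀ t, π (upperU t) m = m}
      zero_mem' := fun t => map_zero _
      add_mem' := fun {a b} ha hb t => by rw [map_add, ha t, hb t]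
      neg_mem' := fun {a} ha t => by rw [map_neg, ha t] }
  have hA : ∀ m, m ∈ A ↔ ∀ t, π (upperU t) m = m := fun m => Iff.rfl
  -- `wA` is fixed by the lower unitriangular group
  have hlow : ∀ a ∈ A, ∀ s, π (lowerU s) (π w a) = π w a := by
    intro a ha s
    rw [lowerU_eq, happ, hcancel, happ, ha]
  have hfix0 : ∀ m, m ∈ A → (∀ s, π (lowerU s) m = m) → m = 0 := by
    intro m h1 h2
    let W : AddSubgroup M :=
      { carrier := {m | ∀ g : SL, π g m = m}
        zero_mem' := fun g => map_zero _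
        add_mem' := fun {a b} ha hb g => by rw [map_add, ha g, hb g]
        neg_mem' := fun {a} ha g => by rw [map_neg, ha g] }
    have hm : m ∈ W := fun g => by
      induction g using sl_induction with
      | hu t => exact h1 t
      | hl t => exact h2 t
      | hmul g h hg hh => rw [happ, hh, hg]
    rcases hirr W (fun g m hm h => by rw [hm g, hm h]) with h | h
    · rw [h] at hm; exact hm
    · obtain ⟨g, x, hgx⟩ := hnt
      exact absurd ((h ▸ AddSubgroup.mem_top x : x ∈ W) g) hgx
  have hdisj : ∀ a ∈ A, ∀ b ∈ A, a = π w b → a = 0 := fun a ha b hb h =>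
    hfix0 a ha (fun s => by rw [h]; exact hlow b hb s)
  have huniq : ∀ a ∈ A, ∀ b ∈ A, ∀ a' ∈ A, ∀ b' ∈ A, a + π w b = a' + π w b' → a = a' ∧ b = b' := by
    intro a ha b hb a' ha' b' hb' h
    have h' : a - a' = π w (b' - b) := by
      rw [map_sub]
      rw [sub_eq_sub_iff_add_eq_add, h]; abel
    have h0 := hdisj _ (sub_mem ha ha') _ (sub_mem hb' hb) h'
    refine ⟨sub_eq_zero.mp h0, ?_⟩
    rw [h0] at h'
    exact (sub_eq_zero.mp (hinj w (h'.symm.trans (map_zero _).symm))).symm
  -- fixed points of p-groups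
  have hUp : IsPGroup p (Multiplicative F) :=
    IsPGroup.of_card (n := n) (by rw [Nat.card_congr Multiplicative.toAdd]; exact hFp)
  obtain ⟨x0, hx0, hx01⟩ : ∃ x ∈ A, x ≠ 0 := by
    obtain ⟨g, x, hgx⟩ := hnt
    have : Nontrivial M := ⟨_, _, hgx⟩
    have hk : k ≠ 0 := fun h => by
      rw [h, pow_zero] at hM
      exact absurd hM (ne_of_gt Finite.one_lt_card)
    let : MulAction (Multiplicative F) M :=
      { smul := fun t m => π (upperU t.toAdd) m
        one_smul := fun m => by
          change π (upperU (0 : F)) m = m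
          rw [upperU_zero, hone]
        mul_smul := fun s t m => by
          change π (upperU (s.toAdd + t.toAdd)) m = π (upperU s.toAdd) (π (upperU t.toAdd) m)
          rw [upperU_add, happ] }
    obtain ⟨b, hb, hb0⟩ := hUp.exists_fixed_point_of_prime_dvd_card_of_fixed_point M
      (hM ▸ dvd_pow_self p hk) (a := (0 : M)) (fun t => map_zero (π (upperU t.toAdd)))
    exact ⟨b, fun t => hb (Multiplicative.ofAdd t), fun h => hb0 h.symm⟩
  -- `M = A ⊕ wA`
  have hdec : ∀ m, ∃ a ∈ A, ∃ b ∈ A, m = a + π w b := by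
    rcases hyp with hq | hcard
    · let D : AddSubgroup M :=
        { carrier := {m | ∃ a ∈ A, ∃ b ∈ A, m = a + π w b}
          zero_mem' := ⟨0, zero_mem _, 0, zero_mem _, by simp⟩
          add_mem' := by
            rintro _ _ ⟨a, ha, b, hb, rfl⟩ ⟨a', ha', b', hb', rfl⟩
            exact ⟨a + a', add_mem ha ha', b + b', add_mem hb hb', by rw [map_add]; abel⟩
          neg_mem' := by
            rintro _ ⟨a, ha, b, hb, rfl⟩
            exact ⟨-a, neg_mem ha, -b, neg_mem hb, by rw [map_neg]; abel⟩ }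
      have hquad : ∀ t m, π (upperU t) m - m ∈ A := fun t m s => hq m s t
      have hDu : ∀ t, ∀ m ∈ D, π (upperU t) m ∈ D := fun t m hm => by
        rw [← sub_add_cancel (π (upperU t) m) m]
        exact add_mem ⟨_, hquad t m, 0, zero_mem _, by simp⟩ hm
      have hDl : ∀ s, ∀ m ∈ D, π (lowerU s) m ∈ D := fun s m hm => by
        rw [← sub_add_cancel (π (lowerU s) m) m]
        refine add_mem ⟨0, zero_mem _, _, hquad (-s) (π w⁻¹ m), ?_⟩ hm
        rw [zero_add, map_sub, lowerU_eq, happ, happ, ← happ w w⁻¹, mul_inv_cancel, hone]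
      have hDall : ∀ g : SL, ∀ m ∈ D, π g m ∈ D := fun g => by
        induction g using sl_induction with
        | hu t => exact hDu t
        | hl t => exact hDl t
        | hmul g h hg hh => exact fun m hm => by rw [happ]; exact hg _ (hh m hm)
      rcases hirr D hDall with h | h
      · have : x0 ∈ D := ⟨x0, hx0, 0, zero_mem _, by simp⟩
        rw [h] at this
        exact absurd this hx01
      · intro m
        exact (h ▸ AddSubgroup.mem_top m : m ∈ D)
    · let f : A × A → M := fun x => (x.1 : M) + π w x.2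
      have hf : Function.Injective f := fun x y h => by
        obtain ⟨h1, h2⟩ := huniq _ x.1.2 _ x.2.2 _ y.1.2 _ y.2.2 h
        exact Prod.ext (Subtype.ext h1) (Subtype.ext h2)
      have hs := (hf.bijective_of_nat_card_le (by rw [Nat.card_prod, ← sq]; exact hcard)).surjective
      intro m
      obtain ⟨x, hx⟩ := hs m
      exact ⟨_, x.1.2, _, x.2.2, hx.symm⟩
  -- the torus
  let h : Fˣ → M → M := fun r m => π (diagT r) m
  have hhA : ∀ r, ∀ a ∈ A, π (diagT r) a ∈ A := fun r a ha t => by
    rw [← happ, upperU_diagT, happ, ha]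
  have hz : ∀ a ∈ A, π (diagT (-1 : Fˣ)) a ∈ A := hhA _
  let X : AddSubgroup M :=
    { carrier := {x | x ∈ A ∧ ∀ t, π (upperU t) (π w x) - π w x ∈ A}
      zero_mem' := ⟨zero_mem _, fun t => by simp⟩
      add_mem' := fun {a b} ha hb => ⟨add_mem ha.1 hb.1, fun t => by
        have := add_mem (ha.2 t) (hb.2 t)
        simp only [map_add]
        convert this using 1
        abel⟩
      neg_mem' := fun {a} ha => ⟨neg_mem ha.1, fun t => by
        have := neg_mem (ha.2 t)
        simp only [map_neg]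
        convert this using 1
        abel⟩ }
  have hhX : ∀ r, ∀ x ∈ X, π (diagT r) x ∈ X := by
    intro r x hx
    refine ⟨hhA r x hx.1, fun t => ?_⟩
    have e : π w (π (diagT r) x) = π (diagT r⁻¹) (π w x) := by
      rw [← happ, ← happ, hw, diagT_rot r⁻¹, inv_inv]
    rw [e, ← happ, upperU_diagT, happ, ← map_sub]
    exact hhA _ _ (hx.2 _)
  -- the crucial formula
  have hB : ∀ (u : Fˣ), ∀ x ∈ X, π (upperU (u : F)) (π w x) =
      π w x + π (diagT (-1 : Fˣ)) (π (diagT u) x) ∧
      π (diagT (-1 : Fˣ)) (π (diagT u) x) ∈ X := by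
    intro u x hx
    refine ⟨?_, hhX _ _ (hhX u x hx)⟩
    set t : F := (u : F) with ht
    set z : SL := diagT (-1 : Fˣ) with hzdef
    set b := π (upperU t) (π w x) - π w x with hb
    have hbA : b ∈ A := hx.2 t
    have eu : π (upperU t) (π w x) = π w x + b := by rw [hb]; abel
    obtain ⟨P, hP, Q, hQ, hPQ⟩ := hdec (π (upperU t⁻¹) (π w (π z b)))
    have ev : π (lowerU (-t⁻¹)) b = π w P + π z Q := by
      rw [lowerU_eq, neg_neg, happ, happ, hw, rot_inv, happ, ← hw, ← hzdef, hPQ, map_add, ← happ w w Q,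
        hw, rot_sq]
    have em : π (diagT u * w) (π w x) = π (diagT u) (π z x) := by
      rw [happ, ← happ w w, hw, rot_sq]
    have eL : π (diagT u) (π z x) = π w x + b + (π (upperU t) (π w P) + π z Q) := by
      rw [← em, hw, ← key_identity u, ← ht, happ, happ, ← hw, eu, map_add, hlow x hx.1, map_add, eu,
        ev, map_add, hz Q hQ t]
    have hPx : P = -x := by
      have h1 : π (upperU t) (π w (P + x)) = π (diagT u) (π z x) - π z Q := by
        rw [map_add, map_add, eu, eL]; abel
      have h2 : π (upperU t) (π w (P + x)) ∈ A := h1 ▸ sub_mem (hhA _ _ (hz _ hx.1)) (hz Q hQ)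
      have h3 : π (upperU (-t)) (π (upperU t) (π w (P + x))) = π (upperU t) (π w (P + x)) := h2 _
      rw [← happ, ← upperU_add, neg_add_cancel, upperU_zero, hone] at h3
      have h5 := hdisj _ (h3 ▸ h2 : π w (P + x) ∈ A) _ (add_mem hP hx.1) rfl
      exact eq_neg_of_add_eq_zero_left (hinj w (h5.trans (map_zero _).symm))
    have hQ' : π (diagT u) (π z x) = π z Q := by
      rw [eL, hPx, map_neg, map_neg, eu]; abel
    have hQx : Q = π (diagT u) x := by
      apply hinj z
      rw [← hQ', ← happ, ← happ, hzdef, ← diagT_mul, ← diagT_mul, mul_comm]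
    have hQX : Q ∈ X := hQx ▸ hhX u x hx
    have hbQ : π z b = Q := by
      have h1 : π (upperU t⁻¹) (π w (π z b - Q)) =
          P - (π (upperU t⁻¹) (π w Q) - π w Q) := by
        rw [map_sub, map_sub, hPQ]; abel
      have h2 : π (upperU t⁻¹) (π w (π z b - Q)) ∈ A := h1 ▸ sub_mem hP (hQX.2 _)
      have h3 : π (upperU (-t⁻¹)) (π (upperU t⁻¹) (π w (π z b - Q))) =
          π (upperU t⁻¹) (π w (π z b - Q)) := h2 _
      rw [← happ, ← upperU_add, neg_add_cancel, upperU_zero, hone] at h3
      have h5 := hdisj _ (h3 ▸ h2 : π w (π z b - Q) ∈ A) _ (sub_mem (hz b hbA) hQ) rfl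
      exact sub_eq_zero.mp (hinj w (h5.trans (map_zero _).symm))
    rw [eu]
    congr 1
    rw [← hQx, ← hbQ, ← happ, hzdef, ← diagT_mul, neg_mul_neg, one_mul, diagT_one, hone]
  -- `X = A`
  obtain ⟨x1, hx1, hx11⟩ : ∃ x ∈ X, x ≠ 0 := by
    let f : F → M ⧸ A → M ⧸ A := fun t =>
      QuotientAddGroup.map A A (π (upperU t)) (fun a ha => by
        show π (upperU t) a ∈ A
        rw [ha t]; exact ha)
    have hfm : ∀ t (m : M), f t (m : M ⧸ A) = ((π (upperU t) m : M) : M ⧸ A) := fun t m => rfl
    let : MulAction (Multiplicative F) (M ⧸ A) :=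
      { smul := fun t q => f t.toAdd q
        one_smul := fun q => by
          induction q using QuotientAddGroup.induction_on with
          | H m =>
            change f (0 : F) (m : M ⧸ A) = _
            rw [hfm, upperU_zero, hone]
        mul_smul := fun s t q => by
          induction q using QuotientAddGroup.induction_on with
          | H m =>
            change f (s.toAdd + t.toAdd) (m : M ⧸ A) = f s.toAdd (f t.toAdd (m : M ⧸ A))
            rw [hfm, hfm, hfm, upperU_add, happ] }
    have hdvd : p ∣ Nat.card (M ⧸ A) := by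
      have hd : Nat.card (M ⧸ A) ∣ p ^ k := by
        rw [← hM, AddSubgroup.card_eq_card_quotient_mul_card_addSubgroup A]
        exact dvd_mul_right _ _
      obtain ⟨j, -, hj⟩ := (Nat.dvd_prime_pow Fact.out).mp hd
      rcases j with _ | j
      · exfalso
        rw [pow_zero] at hj
        have : Subsingleton (M ⧸ A) := (Nat.card_eq_one_iff_unique.mp hj).1
        have hmem : π w x0 ∈ A :=
          (QuotientAddGroup.eq_zero_iff _).mp (Subsingleton.elim _ _)
        exact hx01 (hinj w ((hdisj _ hmem _ hx0 rfl).trans (map_zero _).symm))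
      · exact hj ▸ dvd_pow_self p (Nat.succ_ne_zero j)
    obtain ⟨q, hq, hq0⟩ := hUp.exists_fixed_point_of_prime_dvd_card_of_fixed_point (M ⧸ A) hdvd
      (a := 0) (fun t => map_zero _)
    induction q using QuotientAddGroup.induction_on with
    | H m =>
      obtain ⟨a, ha, b, hb, rfl⟩ := hdec m
      refine ⟨b, ⟨hb, fun t => ?_⟩, ?_⟩
      · have h1 : ((π (upperU t) (a + π w b) : M) : M ⧸ A) = ((a + π w b : M) : M ⧸ A) :=
          hq (Multiplicative.ofAdd t)
        rw [QuotientAddGroup.eq] at h1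
        have h2 := neg_mem h1
        rw [map_add, ha t] at h2
        convert h2 using 1
        abel
      · rintro rfl
        exact hq0 ((QuotientAddGroup.eq_zero_iff _).mpr (by simpa using ha)).symm
  let W : AddSubgroup M :=
    { carrier := {m | ∃ a ∈ X, ∃ b ∈ X, m = a + π w b}
      zero_mem' := ⟨0, zero_mem _, 0, zero_mem _, by simp⟩
      add_mem' := by
        rintro _ _ ⟨a, ha, b, hb, rfl⟩ ⟨a', ha', b', hb', rfl⟩
        exact ⟨a + a', add_mem ha ha', b + b', add_mem hb hb', by rw [map_add]; abel⟩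
      neg_mem' := by
        rintro _ ⟨a, ha, b, hb, rfl⟩
        exact ⟨-a, neg_mem ha, -b, neg_mem hb, by rw [map_neg]; abel⟩ }
  have hWu : ∀ t, ∀ m ∈ W, π (upperU t) m ∈ W := by
    rintro t _ ⟨a, ha, b, hb, rfl⟩
    rcases eq_or_ne t 0 with rfl | ht
    · rw [upperU_zero, hone]; exact ⟨a, ha, b, hb, rfl⟩
    · obtain ⟨h1, h2⟩ := hB (Units.mk0 t ht) b hb
      rw [Units.val_mk0] at h1
      exact ⟨_, add_mem ha h2, b, hb, by rw [map_add, ha.1 t, h1]; abel⟩
  have hWw : ∀ m ∈ W, π w m ∈ W := by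
    rintro _ ⟨a, ha, b, hb, rfl⟩
    exact ⟨_, hhX (-1 : Fˣ) b hb, a, ha, by rw [map_add, ← happ w w b, hw, rot_sq]; abel⟩
  have hWl : ∀ s, ∀ m ∈ W, π (lowerU s) m ∈ W := fun s m hm => by
    have hwi : π w⁻¹ m ∈ W := by
      rw [hw, rot_inv, ← rot_sq, happ, happ]
      exact hWw _ (hWw _ (hWw _ hm))
    rw [lowerU_eq, happ, happ]
    exact hWw _ (hWu _ _ hwi)
  have hWall : ∀ g : SL, ∀ m ∈ W, π g m ∈ W := fun g => by
    induction g using sl_induction with
    | hu t => exact hWu t
    | hl t => exact hWl t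
    | hmul g h hg hh => exact fun m hm => by rw [happ]; exact hg _ (hh m hm)
  have hXA : ∀ a ∈ A, a ∈ X := by
    rcases hirr W hWall with h | h
    · have : x1 ∈ W := ⟨x1, hx1, 0, zero_mem _, by simp⟩
      rw [h] at this
      exact absurd this hx11
    · intro a ha
      obtain ⟨a', ha', b', hb', he⟩ := (h ▸ AddSubgroup.mem_top a : a ∈ W)
      obtain ⟨rfl, -⟩ := huniq a ha 0 (zero_mem _) a' ha'.1 b' hb'.1 (by simpa using he)
      exact ha'
  -- the field action on `A`
  let φ : F → M → M := fun t a => if ht : t = 0 then 0 else π (diagT (Units.mk0 t ht)) a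
  have hφu : ∀ t, ∀ a ∈ A, π (upperU t) (π w a) = π w a + π (diagT (-1 : Fˣ)) (φ t a) := by
    intro t a ha
    simp only [φ]
    split
    · next ht => rw [ht, upperU_zero, hone, map_zero, add_zero]
    · next ht => exact (hB (Units.mk0 t ht) a (hXA a ha)).1
  have hφA : ∀ t, ∀ a ∈ A, φ t a ∈ A := by
    intro t a ha
    simp only [φ]
    split
    · exact zero_mem _
    · exact hhA _ a ha
  have hφadd : ∀ s t, ∀ a ∈ A, φ (s + t) a = φ s a + φ t a := by
    intro s t a ha
    apply hinj (diagT (-1 : Fˣ))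
    have h1 : π (upperU s) (π (upperU t) (π w a)) = π (upperU (s + t)) (π w a) := by
      rw [upperU_add, happ]
    rw [hφu t a ha, map_add, hφu s a ha, hz _ (hφA t a ha) s, hφu (s + t) a ha, add_assoc] at h1
    rw [map_add]
    exact (add_left_cancel h1).symm
  have hφ1 : ∀ a, φ 1 a = a := fun a => by
    simp only [φ]
    rw [dif_neg one_ne_zero, Units.mk0_one, diagT_one, hone]
  have hφ0 : ∀ a, φ 0 a = 0 := fun a => by simp [φ]
  have hφmul : ∀ s t, ∀ a, φ (s * t) a = φ s (φ t a) := by
    intro s t a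
    simp only [φ]
    by_cases hs : s = 0
    · subst hs; rw [dif_pos (zero_mul t), dif_pos rfl]
    by_cases ht : t = 0
    · subst ht; rw [dif_pos (mul_zero s), dif_pos rfl, dif_neg hs, map_zero]
    rw [dif_neg (mul_ne_zero hs ht), dif_neg hs, dif_neg ht, ← happ, ← diagT_mul]
    congr 3
    exact Units.ext rfl
  have hz1 : ∀ a ∈ A, π (diagT (-1 : Fˣ)) a = -a := by
    intro a ha
    have h1 := hφadd 1 (-1) a ha
    rw [add_neg_cancel, hφ0, hφ1] at h1
    have h2 : φ (-1) a = π (diagT (-1 : Fˣ)) a := by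
      simp only [φ]
      rw [dif_neg (neg_ne_zero.mpr one_ne_zero)]
      congr 3
      exact Units.ext rfl
    rw [← h2]
    exact eq_neg_of_add_eq_zero_right h1.symm
  -- the isomorphism
  let f : (Fin 2 → F) →+ M := AddMonoidHom.mk' (fun v => φ (v 0) x0 - π w (φ (v 1) x0)) (by
    intro a b
    simp only [Pi.add_apply, hφadd _ _ x0 hx0, map_add]
    abel)
  have hfv : ∀ v, f v = φ (v 0) x0 - π w (φ (v 1) x0) := fun v => rfl
  have hfu : ∀ t v, f ((upperU t : SL).1.mulVec v) = π (upperU t) (f v) := by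
    intro t v
    have e : (upperU t : SL).1.mulVec v = ![v 0 + t * v 1, v 1] := by
      ext i
      fin_cases i <;> simp [upperU_coe, Matrix.mulVec, dotProduct, Fin.sum_univ_two]
    rw [e, hfv, hfv]
    simp only [Matrix.cons_val_zero, Matrix.cons_val_one]
    rw [map_sub, hφu t _ (hφA _ x0 hx0), hφA _ x0 hx0 t, hφadd _ _ x0 hx0,
      hz1 _ (hφA t _ (hφA _ x0 hx0)), hφmul t (v 1) x0]
    abel
  have hfw : ∀ v, f ((rot : SL).1.mulVec v) = π w (f v) := by
    intro v
    have e : (rot : SL).1.mulVec v = ![v 1, -v 0] := by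
      ext i
      fin_cases i <;> simp [rot_coe, Matrix.mulVec, dotProduct, Fin.sum_univ_two]
    have hn : φ (-v 0) x0 = -φ (v 0) x0 := by
      have h1 := hφadd (v 0) (-v 0) x0 hx0
      rw [add_neg_cancel, hφ0] at h1
      exact eq_neg_of_add_eq_zero_right h1.symm
    rw [e, hfv, hfv]
    simp only [Matrix.cons_val_zero, Matrix.cons_val_one]
    rw [hn, map_neg, map_sub, ← happ w w, hw, rot_sq, hz1 _ (hφA _ x0 hx0)]
    abel
  have hfl : ∀ t v, f ((lowerU t : SL).1.mulVec v) = π (lowerU t) (f v) := by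
    intro t v
    have hP : ∀ g h : SL, (∀ v, f (g.1.mulVec v) = π g (f v)) →
        (∀ v, f (h.1.mulVec v) = π h (f v)) → ∀ v, f ((g * h).1.mulVec v) = π (g * h) (f v) := by
      intro g h hg hh v
      rw [happ, ← hh, ← hg, Matrix.SpecialLinearGroup.coe_mul, Matrix.mulVec_mulVec]
    have e : (lowerU t : SL) = rot * upperU (-t) * (rot * (rot * rot)) := by
      rw [lowerU_eq, rot_inv, rot_sq]
    rw [e]
    exact hP _ _ (hP _ _ hfw (hfu _)) (hP _ _ hfw (hP _ _ hfw hfw)) v
  have hfall : ∀ (g : SL) v, f (g.1.mulVec v) = π g (f v) := fun g => by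
    induction g using sl_induction with
    | hu t => exact hfu t
    | hl t => exact hfl t
    | hmul g h hg hh =>
      intro v
      rw [happ, ← hh, ← hg, Matrix.SpecialLinearGroup.coe_mul, Matrix.mulVec_mulVec]
  have hφinj : ∀ t, φ t x0 = 0 → t = 0 := by
    intro t ht
    by_contra h0
    simp only [φ] at ht
    rw [dif_neg h0] at ht
    exact hx01 (hinj _ (ht.trans (map_zero _).symm))
  have hfinj : Function.Injective f := by
    rw [injective_iff_map_eq_zero]
    intro v hv
    rw [hfv, sub_eq_zero] at hv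
    have h0 := hdisj _ (hφA _ x0 hx0) _ (hφA _ x0 hx0) hv
    have h1 : φ (v 1) x0 = 0 := hinj w ((hv.symm.trans h0).trans (map_zero _).symm)
    ext i
    fin_cases i
    · exact hφinj _ h0
    · exact hφinj _ h1
  have hfsurj : Function.Surjective f := by
    rcases hirr f.range (by
      rintro g _ ⟨v, rfl⟩
      exact ⟨_, hfall g v⟩) with h | h
    · exfalso
      have : f ![1, 0] ∈ f.range := ⟨_, rfl⟩
      rw [h, AddSubgroup.mem_bot, hfv] at this
      simp only [Matrix.cons_val_zero, Matrix.cons_val_one, hφ1, hφ0, map_zero, sub_zero] at this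
      exact hx01 this
    · exact AddMonoidHom.range_eq_top.mp h
  exact ⟨AddEquiv.ofBijective f ⟨hfinj, hfsurj⟩, fun g v => hfall g v⟩

theorem sylow_conj [Finite F] {p n : ℕ} [Fact p.Prime] (hFp : Nat.card F = p ^ n) {G : Type*} [Group G]
    [Finite G] (e : G ≃* SL) (S : Sylow p G) :
    ∃ e' : G ≃* SL, ∀ g, g ∈ (S : Subgroup G) ↔ ∃ t, e' g = upperU t := by
  set U : Subgroup G := (upperHom (F := F)).range.map e.symm.toMonoidHom with hU
  have hmem : ∀ g, g ∈ U ↔ ∃ t, e g = upperU t := by
    intro g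
    constructor
    · rintro ⟨_, ⟨t, rfl⟩, rfl⟩
      exact ⟨t.toAdd, by simp [upperHom]⟩
    · rintro ⟨t, ht⟩
      exact ⟨upperU t, ⟨Multiplicative.ofAdd t, rfl⟩, by simp [← ht]⟩
  have hUp : IsPGroup p ↥U := by
    apply IsPGroup.map
    rintro ⟨_, t, rfl⟩
    have hp : IsPGroup p (Multiplicative F) :=
      IsPGroup.of_card (n := n) (by rw [Nat.card_congr Multiplicative.toAdd]; exact hFp)
    obtain ⟨j, hj⟩ := hp t
    exact ⟨j, Subtype.ext (by rw [SubmonoidClass.coe_pow, ← map_pow, hj, map_one]; rfl)⟩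
  obtain ⟨T, hT⟩ := hUp.exists_le_sylow
  have hTU : (T : Subgroup G) ≤ U := by
    by_contra hlt
    have : Group.IsNilpotent ↥(T : Subgroup G) := T.2.isNilpotent
    have hlt' : U.subgroupOf (T : Subgroup G) < ⊤ := by
      rw [lt_top_iff_ne_top]
      intro h
      exact hlt (subgroupOf_eq_top.mp h)
    obtain ⟨m, hm1, hm2⟩ := SetLike.exists_of_lt (normalizerCondition_of_isNilpotent _ hlt')
    apply hm2
    rw [mem_subgroupOf, hmem]
    obtain ⟨s, hs⟩ : ∃ s, e ((m : G) * e.symm (upperU 1) * (m : G)⁻¹) = upperU s := by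
      apply (hmem _).mp
      exact (mem_normalizer_iff.mp hm1 ⟨_, hT ((hmem _).mpr ⟨1, by simp⟩)⟩).mp
        ((hmem _).mpr ⟨1, by simp⟩)
    set g := e (m : G) with hg
    rw [map_mul, map_mul, map_inv, ← hg, MulEquiv.apply_symm_apply, mul_inv_eq_iff_eq_mul] at hs
    have h10 : g.1 1 0 = 0 := by
      have h00 := congrArg (fun x : SL => x.1 0 0) hs
      have h11 := congrArg (fun x : SL => x.1 1 1) hs
      simp [mul00, mul11] at h00 h11
      exact h11
    have hd := det_eq g
    rw [h10, mul_zero, sub_zero] at hd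
    obtain ⟨j, hj⟩ := T.2 m
    have hgj : g ^ p ^ j = 1 := by
      have : ((m : G)) ^ p ^ j = 1 := by simpa using congrArg Subtype.val hj
      rw [hg, ← map_pow, this, map_one]
    have hpow : ∀ i : ℕ, (g ^ i).1 0 0 = g.1 0 0 ^ i ∧ (g ^ i).1 1 0 = 0 := by
      intro i
      induction i with
      | zero => simp
      | succ i ih =>
        rw [pow_succ, mul00, mul10, ih.1, ih.2, h10]
        exact ⟨by ring, by ring⟩
    have hn : n ≠ 0 := fun h => by
      rw [h, pow_zero] at hFp
      exact absurd hFp (ne_of_gt Finite.one_lt_card)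
    have : CharP F p := by
      obtain ⟨c, hc⟩ := CharP.exists F
      have hcp : c.Prime := (CharP.char_is_prime_or_zero F c).resolve_right (CharP.char_ne_zero_of_finite F c)
      have hdvd : c ∣ Nat.card F := by
        have h0 : ((Nat.card F : ℕ) : F) = 0 := by
          cases nonempty_fintype F
          rw [Nat.card_eq_fintype_card, Nat.cast_card_eq_zero]
        exact (CharP.cast_eq_zero_iff F c _).mp h0
      rw [hFp] at hdvd
      exact ((Nat.prime_dvd_prime_iff_eq hcp Fact.out).mp (hcp.dvd_of_dvd_pow hdvd)) ▸ hc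
    have h00 : g.1 0 0 = 1 := by
      have h1 : g.1 0 0 ^ p ^ j = 1 := by rw [← (hpow _).1, hgj]; simp
      have h2 : (g.1 0 0 - 1) ^ p ^ j = 0 := by rw [sub_pow_char_pow, h1, one_pow, sub_self]
      exact sub_eq_zero.mp (pow_eq_zero_iff (pow_ne_zero _ (Fact.out : p.Prime).ne_zero) |>.mp h2)
    refine ⟨g.1 0 1, ext2 ?_ ?_ ?_ ?_⟩ <;> simp [h00, h10]
    rw [h00, one_mul] at hd
    exact hd
  obtain ⟨c, hc⟩ := MulAction.exists_smul_eq G S T
  refine ⟨(MulAut.conj c).trans e, fun g => ?_⟩
  rw [MulEquiv.trans_apply, ← hmem, MulAut.conj_apply]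
  have h1 : c * g * c⁻¹ ∈ ((c • S : Sylow p G) : Subgroup G) ↔ g ∈ (S : Subgroup G) := by
    rw [Sylow.coe_subgroup_smul, Subgroup.mem_pointwise_smul_iff_inv_smul_mem]
    simp [MulAut.smul_def, mul_assoc]
  rw [← h1, hc]
  exact ⟨fun h => hTU h, fun h => hT h⟩

/-- Let p be a prime and let G and V be subgroups of a finite group with V elementary abelian and normalized by G, and G isomorphic to SL₂(F) for a finite field F with pⁿ elements. Suppose G acts irreducibly and nontrivially on V by conjugation (no G-invariant subgroups of V other than 1 and V, and [V, G] ≠ 1), and let S be a Sylow p-subgroup of G and V₀ = C_V(S). If [V, S, S] = 1 or |V| ≤ |V₀|², then G acts on V as SL₂(F) on its natural two-dimensional module; in particular |V| = |F|². -/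
theorem result {X : Type*} [Group X] [Finite X] {p : ℕ} [Fact p.Prime] (G V : Subgroup X) (hV : Cfsg.IsElementaryAbelian p V) (hGV : G ≤ Subgroup.normalizer (V : Set X)) (F : Type) [Field F] [Fintype F] (n : ℕ) (hF : Fintype.card F = p ^ n) (hG : Nonempty (↥G ≃* Matrix.SpecialLinearGroup (Fin 2) F)) (hirr : ∀ U : Subgroup X, U ≤ V → G ≤ Subgroup.normalizer (U : Set X) → U = ⊥ ∨ U = V) (hnt : ⁅V, G⁆ ≠ ⊥) (S : Sylow p ↥G) (hyp : ⁅⁅V, (S : Subgroup ↥G).map G.subtype⁆, (S : Subgroup ↥G).map G.subtype⁆ = ⊥ ∨ Nat.card ↥V ≤ Nat.card ↥(V ⊓ Subgroup.centralizer (((S : Subgroup ↥G).map G.subtype : Subgroup X) : Set X)) ^ 2) : Cfsg.ActsAsSL2OnSection F ⊤ G V ⊥ := by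
  classical
  obtain ⟨e0⟩ := hG
  have hFp : Nat.card F = p ^ n := by rw [Nat.card_eq_fintype_card, hF]
  obtain ⟨e, he⟩ := sylow_conj hFp e0 S
  set SX := (S : Subgroup ↥G).map G.subtype with hSX
  have hmemS : ∀ s : X, s ∈ SX ↔ ∃ t, ((e.symm (upperU t) : ↥G) : X) = s := by
    intro s
    constructor
    · rintro ⟨g, hg, rfl⟩
      obtain ⟨t, ht⟩ := (he g).mp hg
      exact ⟨t, by rw [← ht]; simp⟩
    · rintro ⟨t, rfl⟩
      exact ⟨_, (he _).mpr ⟨t, by simp⟩, rfl⟩
  let instV : CommGroup ↥V :=
    { (inferInstance : Group ↥V) with mul_comm := fun a b => hV.1.is_comm.comm a b }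
  have hconj : ∀ (g : ↥G) (v : X), v ∈ V → (g : X) * v * (g : X)⁻¹ ∈ V := fun g v hv =>
    (mem_normalizer_iff.mp (hGV g.2) v).mp hv
  let act : Matrix.SpecialLinearGroup (Fin 2) F → AddMonoid.End (Additive ↥V) := fun g =>
    { toFun := fun m => Additive.ofMul ⟨_, hconj (e.symm g) m.toMul.1 m.toMul.2⟩
      map_zero' := by
        apply Additive.toMul.injective
        apply Subtype.ext
        simp
      map_add' := fun a b => by
        apply Additive.toMul.injective
        apply Subtype.ext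
        simp [mul_assoc] }
  have hact : ∀ g (m : Additive ↥V),
      ((Additive.toMul (act g m) : ↥V) : X) =
        ((e.symm g : ↥G) : X) * (Additive.toMul m : ↥V) * ((e.symm g : ↥G) : X)⁻¹ := fun g m => rfl
  let π : Matrix.SpecialLinearGroup (Fin 2) F →* AddMonoid.End (Additive ↥V) :=
    { toFun := act
      map_one' := by
        refine DFunLike.ext _ _ fun m => ?_
        apply Additive.toMul.injective
        apply Subtype.ext
        rw [hact]
        simp
      map_mul' := fun g h => by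
        refine DFunLike.ext _ _ fun m => ?_
        apply Additive.toMul.injective
        apply Subtype.ext
        change _ = ((Additive.toMul (act g (act h m)) : ↥V) : X)
        rw [hact, hact, hact, map_mul, coe_mul]
        group }
  have hVp : IsPGroup p ↥V := fun v => ⟨1, Subtype.ext (by simpa using hV.2 v v.2)⟩
  obtain ⟨k, hk⟩ := IsPGroup.iff_card.mp hVp
  have hM : Nat.card (Additive ↥V) = p ^ k := by rw [Nat.card_congr Additive.toMul]; exact hk
  have hinv : ∀ W : AddSubgroup (Additive ↥V), (∀ g, ∀ m ∈ W, π g m ∈ W) → W = ⊥ ∨ W = ⊤ := by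
    intro W hW
    let U : Subgroup X := (AddSubgroup.toSubgroup' W).map V.subtype
    have hU : ∀ x, x ∈ U ↔ ∃ h : x ∈ V, Additive.ofMul (⟨x, h⟩ : ↥V) ∈ W := by
      intro x
      constructor
      · rintro ⟨v, hv, rfl⟩
        exact ⟨v.2, hv⟩
      · rintro ⟨h, hh⟩
        exact ⟨⟨x, h⟩, hh, rfl⟩
    have hUV : U ≤ V := fun x hx => ((hU x).mp hx).1
    have hfw : ∀ g : ↥G, ∀ x ∈ U, (g : X) * x * (g : X)⁻¹ ∈ U := by
      intro g x hx
      obtain ⟨h, hh⟩ := (hU x).mp hx
      refine (hU _).mpr ⟨hconj g x h, ?_⟩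
      convert hW (e g) _ hh using 1
      apply Additive.toMul.injective
      apply Subtype.ext
      change _ = ((Additive.toMul (act (e g) _) : ↥V) : X)
      rw [hact]
      simp
    have hGU : G ≤ normalizer (U : Set X) := by
      intro g hg
      rw [mem_normalizer_iff]
      intro x
      refine ⟨hfw ⟨g, hg⟩ x, fun hx => ?_⟩
      have := hfw ⟨g⁻¹, inv_mem hg⟩ _ hx
      simpa [mul_assoc] using this
    rcases hirr U hUV hGU with h | h
    · left
      rw [eq_bot_iff]
      intro m hm
      have : ((Additive.toMul m : ↥V) : X) ∈ U := (hU _).mpr ⟨_, hm⟩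
      rw [h, mem_bot] at this
      rw [AddSubgroup.mem_bot]
      exact Additive.toMul.injective (Subtype.ext this)
    · right
      rw [eq_top_iff]
      intro m _
      exact ((hU _).mp (h.symm ▸ (Additive.toMul m).2)).2
  have hntr : ∃ g m, π g m ≠ m := by
    by_contra hcon
    push_neg at hcon
    apply hnt
    rw [commutator_eq_bot_iff_le_centralizer]
    intro v hv
    rw [mem_centralizer_iff]
    intro g hg
    have h1 := congrArg (fun m => ((Additive.toMul m : ↥V) : X))
      (hcon (e ⟨g, hg⟩) (Additive.ofMul ⟨v, hv⟩))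
    change ((Additive.toMul (act (e ⟨g, hg⟩) (Additive.ofMul ⟨v, hv⟩)) : ↥V) : X) = v at h1
    rw [hact, MulEquiv.symm_apply_apply] at h1
    exact mul_inv_eq_iff_eq_mul.mp h1
  obtain ⟨Ψ, hΨ⟩ := natural hFp hM π hinv hntr (by
    rcases hyp with h | h
    · left
      intro m s t
      set a := ((e.symm (upperU t) : ↥G) : X)
      set b := ((e.symm (upperU s) : ↥G) : X)
      set v := ((Additive.toMul m : ↥V) : X)
      have hc : a * v * a⁻¹ * v⁻¹ ∈ ⁅V, SX⁆ := by
        rw [commutator_comm]
        exact commutator_mem_commutator ((hmemS _).mpr ⟨t, rfl⟩) (Additive.toMul m).2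
      have hb := mem_centralizer_iff.mp ((commutator_eq_bot_iff_le_centralizer.mp h) hc) b
        ((hmemS _).mpr ⟨s, rfl⟩)
      apply Additive.toMul.injective
      apply Subtype.ext
      change ((Additive.toMul (act _ (act _ m - m)) : ↥V) : X) = _
      rw [hact, toMul_sub, Subgroup.coe_div, div_eq_mul_inv]
      change b * (a * v * a⁻¹ * v⁻¹) * b⁻¹ = _
      rw [hb, mul_inv_cancel_right]
      change _ = ((Additive.toMul (act _ m - m) : ↥V) : X)
      rw [toMul_sub, Subgroup.coe_div, div_eq_mul_inv]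
      rfl
    · right
      rw [Nat.card_congr Additive.toMul]
      convert h using 2
      refine Nat.card_congr
        { toFun := fun m => ⟨((Additive.toMul m.1 : ↥V) : X), (Additive.toMul m.1).2, ?_⟩
          invFun := fun x => ⟨Additive.ofMul ⟨x.1, x.2.1⟩, ?_⟩
          left_inv := fun m => rfl
          right_inv := fun x => rfl }
      · intro s hs
        obtain ⟨t, rfl⟩ := (hmemS s).mp hs
        have h1 := congrArg (fun m => ((Additive.toMul m : ↥V) : X)) (m.2 t)
        exact mul_inv_eq_iff_eq_mul.mp h1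
      · intro t
        apply Additive.toMul.injective
        apply Subtype.ext
        change _ * x.1 * _ = x.1
        rw [mem_centralizer_iff.mp x.2.2 _ ((hmemS _).mpr ⟨t, rfl⟩), mul_inv_cancel_right])
  refine ⟨hGV, bot_le, e.toMonoidHom, AddMonoidHom.toMultiplicativeRight Ψ.symm.toAddMonoidHom,
    MonoidHom.range_eq_top.mpr e.surjective, ?_, ?_, ?_⟩
  · intro v
    exact ⟨Additive.toMul (Ψ (Multiplicative.toAdd v)),
      congrArg Multiplicative.ofAdd (Ψ.symm_apply_apply _)⟩
  · intro u
    rw [mem_bot]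
    constructor
    · intro h
      have h1 : Ψ.symm (Additive.ofMul u) = 0 := congrArg Multiplicative.toAdd h
      have h2 : Additive.ofMul u = 0 := (map_eq_zero_iff Ψ.symm Ψ.symm.injective).mp h1
      exact congrArg (fun m => ((Additive.toMul m : ↥V) : X)) h2
    · intro h
      have : u = 1 := Subtype.ext h
      rw [this, map_one]
  · intro g u
    refine ⟨Additive.toMul (act (e g) (Additive.ofMul u)), ?_, ?_⟩
    · rw [hact]; simp
    · change Ψ.symm (π (e g) (Additive.ofMul u)) = (e g).1.mulVec (Ψ.symm (Additive.ofMul u))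
      apply Ψ.injective
      rw [Ψ.apply_symm_apply, hΨ, Ψ.apply_symm_apply]

end Cfsg.Agent.S3009
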