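import Cfsg.Statements.S3012

set_option autoImplicit false
open Cfsg

namespace Cfsg.Agent.S3012

/-- Let G be a finite group, V a nontrivial elementary abelian 2-subgroup of G satisfying the Sidki pair condition (every odd-order element inverted by an element of V commutes with a nontrivial element of V), and K a normal subgroup of G with V ∩ K = 1. Then the image of V in G/K satisfies the Sidki pair condition in G/K. -/
theorem result {G : Type*} [Group G] [Finite G] (V K : Subgroup G) [K.Normal] (hV : Cfsg.IsElementaryAbelian 2 V) (hV1 : V ≠ ⊥) (hS : Cfsg.IsSidkiPair V) (hVK : V ⊓ K = ⊥) : Cfsg.IsSidkiPair (V.map (QuotientGroup.mk' K)) := by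
  intro h' v' hv' hodd hinv
  obtain ⟨v, hv, rfl⟩ := hv'
  set π := QuotientGroup.mk' K
  obtain ⟨r, hr⟩ := hodd
  obtain ⟨k, hk⟩ := QuotientGroup.mk'_surjective K (h' ^ (r + 1))
  have hv2 : v * v = 1 := by rw [← pow_two]; exact hV.2 v hv
  have hvi : v⁻¹ = v := inv_eq_of_mul_eq_one_right hv2
  set d := k * v * k⁻¹ * v⁻¹ with hd
  have hπd : π d = h' := by
    have h1 : π v * π k * (π v)⁻¹ = (π k)⁻¹ := by
      rw [hk, ← conj_pow, hinv, inv_pow]
    have h2 : π v * (π k)⁻¹ * (π v)⁻¹ = π k := by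
      have := congrArg Inv.inv h1
      simpa [mul_assoc] using this
    rw [hd, map_mul, map_mul, map_mul, map_inv, map_inv]
    calc π k * π v * (π k)⁻¹ * (π v)⁻¹ = π k * (π v * (π k)⁻¹ * (π v)⁻¹) := by simp [mul_assoc]
      _ = h' := by
        rw [h2, hk, ← pow_add, show r + 1 + (r + 1) = orderOf h' + 1 by omega, pow_succ, pow_orderOf_eq_one, one_mul]
  have hvd : v * d * v⁻¹ = d⁻¹ := by
    rw [hd, mul_inv_rev, mul_inv_rev, mul_inv_rev, inv_inv, inv_inv, hvi]
    simp [mul_assoc, hv2]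
  obtain ⟨e, o, ho, heo⟩ := (orderOf d).exists_eq_pow_mul_and_not_dvd (orderOf_pos d).ne' 2 (by norm_num)
  have hcop : Nat.Coprime (2 ^ e) (orderOf h') := (Nat.coprime_two_left.mpr ⟨r, hr⟩).pow_left e
  obtain ⟨j, hj⟩ := exists_pow_eq_self_of_coprime hcop
  have hd'h : π ((d ^ 2 ^ e) ^ j) = h' := by rw [map_pow, map_pow, hπd, hj]
  have hodd' : Odd (orderOf ((d ^ 2 ^ e) ^ j)) := by
    refine Odd.of_dvd_nat (Nat.odd_iff.mpr (Nat.two_dvd_ne_zero.mp ho)) (orderOf_dvd_of_pow_eq_one ?_)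
    rw [← pow_mul, ← pow_mul, mul_comm j o, ← mul_assoc, ← heo, pow_mul, pow_orderOf_eq_one, one_pow]
  obtain ⟨w, hw, hw1, hwc⟩ := hS _ v hv hodd' (by rw [← conj_pow, ← conj_pow, hvd, inv_pow, inv_pow])
  refine ⟨π w, Subgroup.mem_map_of_mem _ hw, fun h => hw1 ?_, ?_⟩
  · have : w ∈ V ⊓ K := ⟨hw, (QuotientGroup.eq_one_iff w).mp h⟩
    rw [hVK] at this
    simpa using this
  · rw [← hd'h, ← map_mul, ← map_mul, hwc]

end Cfsg.Agent.S3012
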