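import Cfsg.Statements.S3013

set_option autoImplicit false
open Cfsg

namespace Cfsg.Agent.S3013

/-- Let G be a finite group and V a nontrivial elementary abelian 2-subgroup of G satisfying the Sidki pair condition. Let v ∈ V and let x be an element of odd order inverted by v, and put C = C_G(v) ∩ C_G(x), the centralizer of the dihedral subgroup generated by v and x. Then C ∩ V is nontrivial and satisfies the Sidki pair condition inside C: every odd-order element of C inverted by an element of C ∩ V commutes with a nontrivial element of C ∩ V. -/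
theorem result {G : Type*} [Group G] [Finite G] (V : Subgroup G) (hV : Cfsg.IsElementaryAbelian 2 V) (hV1 : V ≠ ⊥) (hS : Cfsg.IsSidkiPair V) (v x : G) (hv : v ∈ V) (hx : Odd (orderOf x)) (hinv : v * x * v⁻¹ = x⁻¹) (C : Subgroup G) (hC : C = Subgroup.centralizer ({v} : Set G) ⊓ Subgroup.centralizer ({x} : Set G)) : C ⊓ V ≠ ⊥ ∧ Cfsg.IsSidkiPair ((C ⊓ V).subgroupOf C) := by
  have cV : ∀ a ∈ V, ∀ b ∈ V, Commute a b := fun a ha b hb => congrArg Subtype.val (hV.1.is_comm.comm ⟨a, ha⟩ ⟨b, hb⟩)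
  have hCmem : ∀ w ∈ V, Commute w x → w ∈ C ⊓ V := fun w hw hwx => by
    refine ⟨?_, hw⟩
    rw [hC]
    exact ⟨Subgroup.mem_centralizer_singleton_iff.mpr (cV w hw v hv).eq,
      Subgroup.mem_centralizer_singleton_iff.mpr hwx.eq⟩
  refine ⟨fun h => ?_, ?_⟩
  · obtain ⟨w, hw, hw1, hwc⟩ := hS x v hv hx hinv
    exact hw1 (Subgroup.mem_bot.mp (h ▸ hCmem w hw hwc))
  · intro h' u' hu' hodd hinv'
    set h : G := (h' : G)
    set u : G := (u' : G)
    have hu : u ∈ C ⊓ V := Subgroup.mem_subgroupOf.mp hu'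
    have hCh : h ∈ C := h'.2
    have hinv2 : u * h * u⁻¹ = h⁻¹ := congrArg Subtype.val hinv'
    have mC : ∀ a ∈ C, Commute a v ∧ Commute a x := fun a ha => by
      rw [hC] at ha
      exact ⟨Subgroup.mem_centralizer_singleton_iff.mp ha.1, Subgroup.mem_centralizer_singleton_iff.mp ha.2⟩
    obtain ⟨hhv, hhx⟩ := mC h hCh
    obtain ⟨huv, hux⟩ := mC u hu.1
    have hodd' : Odd (orderOf (h * x)) := by
      refine Odd.of_dvd_nat ?_ hhx.orderOf_mul_dvd_mul_orderOf
      exact (Subgroup.orderOf_coe h' ▸ hodd).mul hx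
    have hvh : v * h * v⁻¹ = h := by rw [hhv.symm.eq, mul_inv_cancel_right]
    have hux' : u * x⁻¹ * u⁻¹ = x⁻¹ := by rw [hux.inv_right.eq, mul_inv_cancel_right]
    have hinv3 : (u * v) * (h * x) * (u * v)⁻¹ = (h * x)⁻¹ := by
      rw [hhx.eq]
      conv_rhs => rw [mul_inv_rev]
      calc u * v * (x * h) * (u * v)⁻¹ = u * ((v * x * v⁻¹) * (v * h * v⁻¹)) * u⁻¹ := by simp [mul_assoc]
        _ = (u * x⁻¹ * u⁻¹) * (u * h * u⁻¹) := by rw [hinv, hvh]; simp [mul_assoc]
        _ = h⁻¹ * x⁻¹ := by rw [hux', hinv2, hhx.inv_inv.symm.eq]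
    obtain ⟨w, hw, hw1, hwc⟩ := hS (h * x) (u * v) (V.mul_mem hu.2 hv) hodd' hinv3
    have hwv : Commute w v := cV w hw v hv
    have hwc2 : Commute w (h * x⁻¹) := by
      have e : h * x⁻¹ = v * (h * x) * v⁻¹ := by
        calc h * x⁻¹ = (v * h * v⁻¹) * (v * x * v⁻¹) := by rw [hvh, hinv]
          _ = _ := by simp [mul_assoc]
      rw [e]
      exact (hwv.mul_right hwc).mul_right hwv.inv_right
    have hwh2 : Commute w (h * h) := by
      have := Commute.mul_right (hwc : Commute w (h * x)) hwc2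
      have e : h * x * (h * x⁻¹) = h * h := by
        calc h * x * (h * x⁻¹) = h * (x * h) * x⁻¹ := by simp [mul_assoc]
          _ = h * h := by rw [← hhx.eq]; simp [mul_assoc]
      rwa [e] at this
    have hwh : Commute w h := by
      obtain ⟨r, hr⟩ := hodd
      have := hwh2.pow_right (r + 1)
      rw [← pow_two, ← pow_mul, show 2 * (r + 1) = orderOf h + 1 by rw [Subgroup.orderOf_coe h']; omega,
        pow_succ, pow_orderOf_eq_one, one_mul] at this
      exact this
    have hwx : Commute w x := by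
      have := hwh.inv_right.mul_right (hwc : Commute w (h * x))
      rwa [inv_mul_cancel_left] at this
    have hwC := hCmem w hw hwx
    exact ⟨⟨w, hwC.1⟩, Subgroup.mem_subgroupOf.mpr hwC, fun e => hw1 (congrArg Subtype.val e), Subtype.ext hwh.eq⟩

end Cfsg.Agent.S3013
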