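import Cfsg.Statements.S3014
import Cfsg.Agent.LocalLemmas.MaximalTransfer
import Cfsg.Agent.LocalLemmas.Basic

set_option autoImplicit false
open Cfsg

namespace Cfsg.Agent.S3014

/-- Let G be a finite group and H ≤ M ≤ G subgroups such that for every g ∈ G the subgroup generated by H and g H g⁻¹ meets M exactly in H. If H is a maximal subgroup of M and M is a maximal subgroup of G, then the normal closure of H in G meets M exactly in H. -/
theorem result {G : Type*} [Group G] [Finite G] (H M : Subgroup G) (hHM : H ≤ M) (hcl : ∀ g : G, (H ⊔ H.map (MulAut.conj g).toMonoidHom) ⊓ M = H) (hmaxH : IsCoatom (H.subgroupOf M)) (hmaxM : IsCoatom M) : Subgroup.normalClosure (H : Set G) ⊓ M = H := by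
  classical
  have hnorm : ∀ g ∈ M, H.map (MulAut.conj g).toMonoidHom ≤ H := fun g hg => by
    have hle : H.map (MulAut.conj g).toMonoidHom ≤ M := by
      rintro _ ⟨a, ha, rfl⟩; exact M.mul_mem (M.mul_mem hg (hHM ha)) (M.inv_mem hg)
    exact (le_inf le_sup_right hle).trans (hcl g).le
  have hMN : M ≤ Subgroup.normalizer (H : Set G) := fun g hg =>
    CfsgLib.LocalLemmas.mem_normalizer_of_conjMap_le (hnorm g hg)
  haveI hn : (H.subgroupOf M).Normal := Subgroup.normal_subgroupOf_of_le_normalizer hMN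
  set N := Subgroup.normalClosure (H : Set G) with hN
  have hHN : H ≤ N := Subgroup.le_normalClosure
  by_contra hne
  have hMle : M ≤ N := by
    have h1 : (N ⊓ M).subgroupOf M = ⊤ := by
      refine hmaxH.2 _ (lt_of_le_of_ne (fun a ha => ?_) fun e => hne (le_antisymm ?_ (le_inf hHN hHM)))
      · exact Subgroup.mem_subgroupOf.mpr ⟨hHN (Subgroup.mem_subgroupOf.mp ha), a.2⟩
      · intro a ha
        have : (⟨a, ha.2⟩ : M) ∈ (N ⊓ M).subgroupOf M := Subgroup.mem_subgroupOf.mpr ha
        rw [← e] at this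
        exact Subgroup.mem_subgroupOf.mp this
    exact (Subgroup.subgroupOf_eq_top.mp h1).trans inf_le_left
  have hHne : H ≠ M := fun e => hmaxH.1 (by rw [e, Subgroup.subgroupOf_self])
  have hnotnormal : ¬ H.Normal := fun hH => hHne (le_antisymm hHM (by
    rw [hN, Subgroup.normalClosure_eq_self] at hMle; exact hMle))
  have hnormM : Subgroup.normalizer (H : Set G) = M := by
    refine ((hmaxM.le_iff.mp hMN).resolve_left fun e => hnotnormal ?_)
    exact (Subgroup.normalizer_eq_top_iff).mp e
  have hNtop : N = ⊤ := by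
    refine (hmaxM.le_iff.mp hMle).resolve_right fun e => hne ?_
    exfalso
    apply hnotnormal
    refine ⟨fun a ha g => ?_⟩
    have hle : H.map (MulAut.conj g).toMonoidHom ≤ M := by
      rintro _ ⟨b, hb, rfl⟩
      exact e ▸ (Subgroup.normalClosure_normal.conj_mem b (hHN hb) g)
    exact ((le_inf le_sup_right hle).trans (hcl g).le) ⟨a, ha, rfl⟩
  have hprime : (H.relIndex M).Prime := by
    haveI : Nontrivial (M ⧸ H.subgroupOf M) := by
      rw [QuotientGroup.nontrivial_iff]; exact hmaxH.1
    obtain ⟨q, hq, hdvd⟩ := Nat.exists_prime_and_dvd (n := Nat.card (M ⧸ H.subgroupOf M)) Finite.one_lt_card.ne'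
    haveI := Fact.mk hq
    obtain ⟨a, ha⟩ := exists_prime_orderOf_dvd_card' q hdvd
    have h1 : H.subgroupOf M < (Subgroup.zpowers a).comap (QuotientGroup.mk' _) := by
      refine lt_of_le_of_ne (fun b hb => ?_) fun e => ?_
      · rw [Subgroup.mem_comap, QuotientGroup.mk'_apply, (QuotientGroup.eq_one_iff b).mpr hb]; exact one_mem _
      · obtain ⟨b, rfl⟩ := QuotientGroup.mk_surjective a
        have : b ∈ H.subgroupOf M := e.ge (Subgroup.mem_zpowers _)
        rw [(QuotientGroup.eq_one_iff b).mpr this, orderOf_one] at ha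
        exact hq.ne_one ha.symm
    have h2 := hmaxH.2 _ h1
    have h3 : Subgroup.zpowers a = ⊤ :=
      Subgroup.comap_injective (QuotientGroup.mk'_surjective _) (h2.trans (Subgroup.comap_top _).symm)
    show (Nat.card (M ⧸ H.subgroupOf M)).Prime
    rwa [← Subgroup.card_top, ← h3, Nat.card_zpowers, ha]
  have hTI : ∀ g : G, g ∉ M → ∀ y ∈ M, g⁻¹ * y * g ∈ M → g⁻¹ * y * g ∈ H := by
    intro g hg y hy hy'
    by_contra hyH
    set z := g⁻¹ * y * g with hz
    set H' := H.map (MulAut.conj g⁻¹).toMonoidHom with hH'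
    set L := H ⊔ H' with hL
    have hLM : L ⊓ M = H := hcl g⁻¹
    have hzL : z ∈ Subgroup.normalizer (L : Set G) := by
      refine CfsgLib.LocalLemmas.mem_normalizer_of_conjMap_le ?_
      rw [hL, Subgroup.map_sup]
      refine sup_le_sup (hnorm z hy') ?_
      rintro _ ⟨_, ⟨a, ha, rfl⟩, rfl⟩
      exact ⟨y * a * y⁻¹, hnorm y hy ⟨a, ha, rfl⟩, by simp [hz, mul_assoc]⟩
    have hMLn : M ≤ Subgroup.normalizer (L : Set G) := by
      have hlt : H.subgroupOf M < (Subgroup.normalizer (L : Set G)).subgroupOf M := by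
        refine lt_of_le_of_ne (fun a ha => ?_) fun e => hyH ?_
        · exact Subgroup.mem_subgroupOf.mpr (Subgroup.le_normalizer (H := L) (le_sup_left (b := H') (Subgroup.mem_subgroupOf.mp ha)))
        · exact Subgroup.mem_subgroupOf.mp (e.ge (Subgroup.mem_subgroupOf.mpr hzL : (⟨z, hy'⟩ : M) ∈ _))
      exact Subgroup.subgroupOf_eq_top.mp (hmaxH.2 _ hlt)
    have hLnM : ¬ L ≤ M := fun hle => hg (by
      have h1 : H' ≤ H := (le_sup_right.trans (le_inf le_rfl hle)).trans hLM.le
      have := CfsgLib.LocalLemmas.mem_normalizer_of_conjMap_le h1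
      rw [hnormM] at this
      simpa using M.inv_mem this)
    have htop : Subgroup.normalizer (L : Set G) = ⊤ :=
      (hmaxM.le_iff.mp hMLn).resolve_right fun e => hLnM (Subgroup.le_normalizer.trans e.le)
    haveI : L.Normal := Subgroup.normalizer_eq_top_iff.mp htop
    have hLtop : L = ⊤ := top_le_iff.mp (hNtop ▸ Subgroup.normalClosure_le_normal (N := L) (SetLike.coe_subset_coe.mpr le_sup_left))
    rw [hLtop, top_inf_eq] at hLM
    exact hHne hLM.symm
  obtain ⟨K, hK, hHK, hKtop, -⟩ := CfsgLib.MaximalTransfer.exists_normal_ge hHM hprime hTI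
  exact hKtop (top_le_iff.mp (hNtop ▸ Subgroup.normalClosure_le_normal (N := K) hHK))

end Cfsg.Agent.S3014
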