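import Cfsg.Statements.S3015
import Cfsg.Agent.LocalLemmas.MaximalTransfer
import Cfsg.Agent.LocalLemmas.Basic

set_option autoImplicit false
open Cfsg

namespace Cfsg.Agent.S3015

/-- Let G be a finite non-abelian simple group, M a maximal subgroup of G and H a normal subgroup of M of prime index in M. Then G is generated by H together with one of its conjugates. -/
theorem result {G : Type*} [Group G] [Finite G] [IsSimpleGroup G] (hG : ¬ IsMulCommutative G) (M H : Subgroup G) (hmaxM : IsCoatom M) (hHM : H ≤ M) (hHn : (H.subgroupOf M).Normal) (hidx : (H.relIndex M).Prime) : ∃ g : G, H ⊔ H.map (MulAut.conj g).toMonoidHom = ⊤ := by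
  classical
  by_contra hno
  push Not at hno
  haveI := hHn
  have hr : Fact (H.relIndex M).Prime := ⟨hidx⟩
  set r := H.relIndex M with hrdef
  have hMN : M ≤ Subgroup.normalizer (H : Set G) := fun g hg =>
    Subgroup.mem_normalizer_fintype fun a ha =>
      Subgroup.mem_subgroupOf.mp (hHn.conj_mem ⟨a, hHM ha⟩ (Subgroup.mem_subgroupOf.mpr ha) ⟨g, hg⟩)
  have hMne : M ≠ ⊥ := fun e => hidx.ne_one (by rw [hrdef, e, Subgroup.relIndex_bot_right])
  have hMn : ¬ M.Normal := fun h => (h.eq_bot_or_eq_top).elim hMne hmaxM.1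
  have hnM : Subgroup.normalizer (M : Set G) = M :=
    (hmaxM.le_iff.mp Subgroup.le_normalizer).resolve_left fun e => hMn (Subgroup.normalizer_eq_top_iff.mp e)
  have hTI : ∀ g : G, g ∉ M → ∀ y ∈ M, g⁻¹ * y * g ∈ M → g⁻¹ * y * g ∈ H := by
    intro g hg y hy hy'
    by_contra hzH
    set z := g⁻¹ * y * g with hz
    set H' := H.map (MulAut.conj g⁻¹).toMonoidHom with hH'
    set L := H ⊔ H' with hL
    have hsubM : ∀ {K : Subgroup G}, K ≤ M → H ≤ K → z ∈ K → K = M := by
      intro K hK hHK hzK
      have h1 := Subgroup.relIndex_mul_relIndex H K M hHK hK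
      rcases (Nat.dvd_prime hidx).mp (Dvd.intro _ h1) with h | h
      · exact absurd (Subgroup.relIndex_eq_one.mp h hzK) hzH
      · rw [h] at h1
        exact le_antisymm hK (Subgroup.relIndex_eq_one.mp ((Nat.mul_eq_left hidx.ne_zero).mp h1))
    have hzL : z ∈ Subgroup.normalizer (L : Set G) := by
      refine CfsgLib.LocalLemmas.mem_normalizer_of_conjMap_le ?_
      rw [hL, Subgroup.map_sup]
      refine sup_le_sup ?_ ?_
      · rintro _ ⟨a, ha, rfl⟩
        exact (Subgroup.mem_normalizer_iff.mp (hMN hy') a).mp ha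
      · rintro _ ⟨_, ⟨a, ha, rfl⟩, rfl⟩
        exact ⟨y * a * y⁻¹, (Subgroup.mem_normalizer_iff.mp (hMN hy) a).mp ha, by simp [hz, mul_assoc]⟩
    have hMLn : M ≤ Subgroup.normalizer (L : Set G) := by
      have := hsubM (K := M ⊓ Subgroup.normalizer (L : Set G)) inf_le_left
        (le_inf hHM (le_sup_left.trans Subgroup.le_normalizer)) ⟨hy', hzL⟩
      exact this.ge.trans inf_le_right
    by_cases hLM : L ≤ M
    swap
    · have htop : Subgroup.normalizer (L : Set G) = ⊤ :=
        (hmaxM.le_iff.mp hMLn).resolve_right fun e => hLM (Subgroup.le_normalizer.trans e.le)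
      haveI : L.Normal := Subgroup.normalizer_eq_top_iff.mp htop
      rcases (inferInstance : L.Normal).eq_bot_or_eq_top with h | h
      · exact hLM (h ▸ bot_le)
      · exact hno g⁻¹ h
    have hH'M : H' ≤ M := le_sup_right.trans hLM
    by_cases hH0 : H = ⊥
    · have hM' : M.map (MulAut.conj g⁻¹).toMonoidHom ≤ M := by
        have hzp : Subgroup.zpowers z = M := by
          refine hsubM (Subgroup.zpowers_le.mpr hy') (hH0 ▸ bot_le) (Subgroup.mem_zpowers z)
        have hyp : Subgroup.zpowers y = M := by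
          have : Subgroup.zpowers y ≤ M := Subgroup.zpowers_le.mpr hy
          refine Subgroup.eq_of_le_of_card_ge this ?_
          rw [← hzp, Nat.card_zpowers, Nat.card_zpowers, hz,
            show g⁻¹ * y * g = MulAut.conj g⁻¹ y by simp, MulEquiv.orderOf_eq]
        intro a ha
        rw [← hyp] at ha
        rw [← hzp]
        rw [MonoidHom.map_zpowers] at ha
        simpa [hz] using ha
      have := CfsgLib.LocalLemmas.mem_normalizer_of_conjMap_le hM'
      rw [hnM] at this
      exact hg (by simpa using M.inv_mem this)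
    have hHn' : ¬ H.Normal := fun h =>
      (h.eq_bot_or_eq_top).elim hH0 (fun e => hmaxM.1 (top_le_iff.mp (e ▸ hHM)))
    have hnH : Subgroup.normalizer (H : Set G) = M :=
      (hmaxM.le_iff.mp hMN).resolve_left fun e => hHn' (Subgroup.normalizer_eq_top_iff.mp e)
    set A := Subgroup.closure {a : G | a ∈ H ∧ (orderOf a).Coprime r} with hA
    have hcopM : ∀ a ∈ M, (orderOf a).Coprime r → a ∈ H := by
      intro a ha hco
      have h1 : orderOf (QuotientGroup.mk (⟨a, ha⟩ : M) : M ⧸ H.subgroupOf M) ∣ r := orderOf_dvd_natCard _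
      have h2 : orderOf (QuotientGroup.mk (⟨a, ha⟩ : M) : M ⧸ H.subgroupOf M) ∣ orderOf a := by
        have := orderOf_map_dvd (QuotientGroup.mk' (H.subgroupOf M)) (⟨a, ha⟩ : M)
        rwa [Subgroup.orderOf_mk] at this
      have h3 := Nat.eq_one_of_dvd_coprimes hco h2 h1
      exact Subgroup.mem_subgroupOf.mp ((QuotientGroup.eq_one_iff _).mp (orderOf_eq_one_iff.mp h3))
    have hginv : g⁻¹ ∈ Subgroup.normalizer (A : Set G) := by
      refine CfsgLib.LocalLemmas.mem_normalizer_of_conjMap_le ?_
      rw [hA, MonoidHom.map_closure, Subgroup.closure_le]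
      rintro _ ⟨a, ⟨ha, hco⟩, rfl⟩
      have hco' : (orderOf ((MulAut.conj g⁻¹).toMonoidHom a)).Coprime r := by
        show (orderOf (MulAut.conj g⁻¹ a)).Coprime r
        rwa [MulEquiv.orderOf_eq]
      exact Subgroup.subset_closure ⟨hcopM _ (hH'M ⟨a, ha, rfl⟩) hco', hco'⟩
    have hMA : M ≤ Subgroup.normalizer (A : Set G) := fun m hm => by
      refine CfsgLib.LocalLemmas.mem_normalizer_of_conjMap_le ?_
      rw [hA, MonoidHom.map_closure, Subgroup.closure_le]
      rintro _ ⟨a, ⟨ha, hco⟩, rfl⟩
      refine Subgroup.subset_closure ⟨(Subgroup.mem_normalizer_iff.mp (hMN hm) a).mp ha, ?_⟩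
      show (orderOf (MulAut.conj m a)).Coprime r
      rwa [MulEquiv.orderOf_eq]
    rcases hmaxM.le_iff.mp hMA with h | h
    swap
    · rw [h] at hginv; exact hg (by simpa using M.inv_mem hginv)
    haveI := Subgroup.normalizer_eq_top_iff.mp h
    rcases (inferInstance : A.Normal).eq_bot_or_eq_top with hA0 | hA1
    swap
    · exact hmaxM.1 (top_le_iff.mp (hA1 ▸ (Subgroup.closure_le M).mpr fun a ha => hHM ha.1))
    have hrM : IsPGroup r M := CfsgLib.LocalLemmas.isPGroup_of_coprime_orderOf fun a ha hco => by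
      have : a ∈ A := Subgroup.subset_closure ⟨hcopM a ha hco, hco⟩
      rwa [hA0, Subgroup.mem_bot] at this
    have hH'lt : H' < M := by
      refine lt_of_le_of_ne hH'M fun e => ?_
      have h1 : Nat.card H' = Nat.card H := Subgroup.card_map_of_injective (MulAut.conj g⁻¹).injective
      rw [e] at h1
      exact hidx.ne_one (by rw [hrdef, Subgroup.eq_of_le_of_card_ge hHM h1.le, Subgroup.relIndex_self])
    obtain ⟨w, hwM, hwH, hwN⟩ := CfsgLib.LocalLemmas.exists_mem_normalizer_not_mem hrM hH'lt
    have hidx' : H'.relIndex M = r := by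
      have e1 := Subgroup.relIndex_mul_relIndex ⊥ H M bot_le hHM
      have e2 := Subgroup.relIndex_mul_relIndex ⊥ H' M bot_le hH'M
      rw [Subgroup.relIndex_bot_left, Subgroup.relIndex_bot_left] at e1 e2
      rw [show Nat.card H' = Nat.card H from Subgroup.card_map_of_injective (MulAut.conj g⁻¹).injective, ← e1] at e2
      exact Nat.eq_of_mul_eq_mul_left Nat.card_pos e2
    have hMH' : M ≤ Subgroup.normalizer (H' : Set G) := by
      set K := M ⊓ Subgroup.normalizer (H' : Set G)
      have h1 := Subgroup.relIndex_mul_relIndex H' K M (le_inf hH'M Subgroup.le_normalizer) inf_le_left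
      rw [hidx'] at h1
      rcases (Nat.dvd_prime hidx).mp (Dvd.intro _ h1) with h | h
      · exact absurd (Subgroup.relIndex_eq_one.mp h (⟨hwM, hwN⟩ : w ∈ K)) hwH
      · rw [h] at h1
        exact (Subgroup.relIndex_eq_one.mp ((Nat.mul_eq_left hidx.ne_zero).mp h1)).trans inf_le_right
    have hMg : M.map (MulAut.conj g⁻¹).toMonoidHom ≤ Subgroup.normalizer (H' : Set G) := by
      rw [← hnH, hH']
      exact Subgroup.le_normalizer_map _
    rcases hmaxM.le_iff.mp hMH' with h | h
    · haveI := Subgroup.normalizer_eq_top_iff.mp h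
      rcases (inferInstance : H'.Normal).eq_bot_or_eq_top with h0 | h0
      · exact hH0 ((Subgroup.map_eq_bot_iff_of_injective _ (MulAut.conj g⁻¹).injective).mp h0)
      · exact hmaxM.1 (top_le_iff.mp (h0 ▸ hH'M))
    · have := CfsgLib.LocalLemmas.mem_normalizer_of_conjMap_le (hMg.trans h.le)
      rw [hnM] at this
      exact hg (by simpa using M.inv_mem this)
  obtain ⟨K, hK, -, hKtop, hcomm⟩ := CfsgLib.MaximalTransfer.exists_normal_ge hHM hidx hTI
  rcases hK.eq_bot_or_eq_top with h | h
  · refine hG ⟨⟨fun a b => ?_⟩⟩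
    exact commutatorElement_eq_one_iff_mul_comm.mp (Subgroup.mem_bot.mp (h ▸ hcomm a b))
  · exact hKtop h

end Cfsg.Agent.S3015
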