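import Cfsg.Statements.S3020
import Cfsg.Agent.Transfer.Focal
import Cfsg.Agent.Transfer.Residual
import Cfsg.Agent.PCore.Basic
import Cfsg.Agent.LocalLemmas.Basic

set_option autoImplicit false
open Cfsg

namespace Cfsg.Agent.S3020

/-- Let G be a finite group, p a prime and H an abelian p-subgroup of G that is extremely closed (for every g, the subgroup generated by H and g H g⁻¹ meets N_G(H) exactly in H). Then for every g ∈ G, the subgroup T generated by H and g H g⁻¹ is the product of H with O_{p'}(T), and H meets O_{p'}(T) trivially; that is, O_{p'}(T) is a normal p-complement of H in T. -/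
theorem result {G : Type*} [Group G] [Finite G] {p : ℕ} [Fact p.Prime] (H : Subgroup G) (hHp : IsPGroup p H) (hHab : IsMulCommutative H) (hcl : Cfsg.IsExtremelyClosed H) (g : G) (T : Subgroup G) (hT : T = H ⊔ H.map (MulAut.conj g).toMonoidHom) : H ⊔ (Cfsg.pPrimeCore p ↥T).map T.subtype = T ∧ H ⊓ (Cfsg.pPrimeCore p ↥T).map T.subtype = ⊥ := by
  subst hT
  set T := H ⊔ H.map (MulAut.conj g).toMonoidHom with hT
  have hHT : H ≤ T := le_sup_left
  set H₀ := H.subgroupOf T with hH₀
  have hN : Subgroup.normalizer (H₀ : Set T) = H₀ := by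
    refine le_antisymm (fun t ht => ?_) Subgroup.le_normalizer
    have : (t : G) ∈ Subgroup.normalizer (H : Set G) := Subgroup.mem_normalizer_fintype fun a ha =>
      Subgroup.mem_subgroupOf.mp ((Subgroup.mem_normalizer_iff.mp ht ⟨a, hHT ha⟩).mp (Subgroup.mem_subgroupOf.mpr ha))
    exact Subgroup.mem_subgroupOf.mpr ((hcl g).le ⟨t.2, this⟩)
  have hp0 : IsPGroup p H₀ := hHp.comap_of_injective T.subtype T.subtype_injective
  obtain ⟨S, hS⟩ := hp0.exists_le_sylow
  have hSeq : H₀ = (S : Subgroup T) := by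
    by_contra hne
    obtain ⟨y, -, hy1, hy2⟩ := CfsgLib.LocalLemmas.exists_mem_normalizer_not_mem S.isPGroup' (lt_of_le_of_ne hS hne)
    exact hy1 (hN.le hy2)
  have hab : IsMulCommutative H₀ := ⟨⟨fun a b => Subtype.ext (Subtype.ext (congrArg (fun w : H => (w : G))
    (hHab.is_comm.comm (⟨_, Subgroup.mem_subgroupOf.mp a.2⟩ : H) ⟨_, Subgroup.mem_subgroupOf.mp b.2⟩)))⟩⟩
  have hburn : Subgroup.normalizer ((S : Subgroup T) : Set T) ≤ Subgroup.centralizer ((S : Subgroup T) : Set T) := by
    rw [← hSeq, hN]; exact Subgroup.le_centralizer_iff_isMulCommutative.mpr hab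
  obtain ⟨K, hKn, hK⟩ := CfsgLib.Transfer.exists_complement (CfsgLib.Transfer.burnside_normal_complement S hburn) S
  have hKle : K ≤ Cfsg.pPrimeCore p T :=
    CfsgLib.PCore.le_pPrimeCore_of_not_dvd hKn (CfsgLib.Transfer.not_dvd_card_of_isComplement' hK)
  have htop : H₀ ⊔ Cfsg.pPrimeCore p T = ⊤ := by
    refine top_le_iff.mp ?_
    rw [← hK.sup_eq_top]
    exact sup_le (hKle.trans le_sup_right) (hSeq.ge.trans le_sup_left)
  have hbot : H₀ ⊓ Cfsg.pPrimeCore p T = ⊥ :=
    CfsgLib.PCore.inf_eq_bot_of_isPGroup_of_coprime hp0 (CfsgLib.PCore.pPrimeCore_coprime p T)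
  constructor
  · have := congrArg (Subgroup.map T.subtype) htop
    rwa [Subgroup.map_sup, hH₀, Subgroup.subgroupOf_map_subtype, ← MonoidHom.range_eq_map, Subgroup.range_subtype,
      inf_eq_left.mpr hHT] at this
  · have := congrArg (Subgroup.map T.subtype) hbot
    rwa [Subgroup.map_inf _ _ _ T.subtype_injective, hH₀, Subgroup.subgroupOf_map_subtype, Subgroup.map_bot,
      inf_eq_left.mpr hHT] at this

end Cfsg.Agent.S3020
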