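import Cfsg.Statements.S3021
import Cfsg.Agent.LocalLemmas.Basic

set_option autoImplicit false
open Cfsg

namespace Cfsg.Agent.S3021

/-- Let G be a finite group, p a prime and H a p-subgroup of G that is extremely closed (for every g, the subgroup generated by H and g H g⁻¹ meets N_G(H) exactly in H). Then every p-subgroup Q of G containing H has N_G(Q) ≤ N_G(H); in particular every Sylow p-subgroup P of G containing H normalizes H, and H is strongly closed in P with respect to G. -/
theorem result {G : Type*} [Group G] [Finite G] {p : ℕ} [Fact p.Prime] (H : Subgroup G) (hHp : IsPGroup p H) (hcl : Cfsg.IsExtremelyClosed H) : (∀ Q : Subgroup G, IsPGroup p Q → H ≤ Q → Subgroup.normalizer (Q : Set G) ≤ Subgroup.normalizer (H : Set G)) ∧ ∀ P : Sylow p G, H ≤ (P : Subgroup G) → (P : Subgroup G) ≤ Subgroup.normalizer (H : Set G) ∧ Cfsg.IsStronglyClosed H (P : Subgroup G) := by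
  have key : ∀ Q : Subgroup G, IsPGroup p Q → H ≤ Q → Q ≤ Subgroup.normalizer (H : Set G) := by
    intro Q hQ hHQ q hq
    set D := H ⊔ H.map (MulAut.conj q).toMonoidHom with hD
    have hDQ : D ≤ Q := sup_le hHQ fun z hz => by
      rw [CfsgLib.LocalLemmas.mem_conjMap] at hz
      have := Q.mul_mem (Q.mul_mem hq (hHQ hz)) (Q.inv_mem hq)
      simpa [mul_assoc] using this
    rcases eq_or_lt_of_le (le_sup_left : H ≤ D) with h | h
    · refine CfsgLib.LocalLemmas.mem_normalizer_of_conjMap_le (le_trans ?_ h.ge)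
      exact le_sup_right
    · obtain ⟨y, hyD, hyH, hyN⟩ := CfsgLib.LocalLemmas.exists_mem_normalizer_not_mem (hQ.to_le hDQ) h
      exact absurd ((hcl q).le ⟨hyD, hyN⟩) hyH
  refine ⟨fun Q hQ hHQ g hg => ?_, fun P hHP => ⟨key _ P.isPGroup' hHP, hHP, ?_⟩⟩
  · apply CfsgLib.LocalLemmas.mem_normalizer_of_conjMap_le
    intro z hz
    refine (hcl g).le ⟨Subgroup.mem_sup_right hz, key Q hQ hHQ ?_⟩
    rw [CfsgLib.LocalLemmas.mem_conjMap] at hz
    have := (Subgroup.mem_set_normalizer_iff.mp hg _).mp (hHQ hz)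
    simpa [mul_assoc] using this
  · intro x hx g hgx
    refine (hcl g).le ⟨Subgroup.mem_sup_right ?_, key _ P.isPGroup' hHP hgx⟩
    rw [CfsgLib.LocalLemmas.mem_conjMap]
    simpa [mul_assoc] using hx

end Cfsg.Agent.S3021
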