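import Cfsg.Statements.S3023
import Cfsg.Agent.PReduced.CharP
import Cfsg.Agent.S0542

set_option autoImplicit false
open Cfsg

namespace Cfsg.Agent.S3023

theorem charPOf_inf {G : Type*} [Group G] [Finite G] {p : ℕ} [Fact p.Prime] {H K : Subgroup G} (hK : K.IsSubnormal)
    (hH : CfsgLib.PReduced.CharPOf p H) : CfsgLib.PReduced.CharPOf p (K ⊓ H) := by
  induction hK with
  | top => rwa [top_inf_eq]
  | step A B hAB _ hN ih =>
    exact ih.of_normal (inf_le_inf_right H hAB) (fun x hx =>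
      Subgroup.inf_normalizer_le_normalizer_inf ⟨(Subgroup.normal_subgroupOf_iff_le_normalizer hAB).mp hN hx.1,
        Subgroup.le_normalizer hx.2⟩)

/-- Let p be a prime, G a finite group of parabolic characteristic p (every p-local subgroup containing a Sylow p-subgroup of G has characteristic p), S a Sylow p-subgroup of G and G₁ a subnormal subgroup of G. If the centre of S ∩ G₁ is nontrivial and contained in the centre of S, then G₁ has parabolic characteristic p. -/
theorem result {G : Type*} [Group G] [Finite G] {p : ℕ} [Fact p.Prime] (hG : Cfsg.IsOfParabolicCharacteristic p G) (S : Sylow p G) (G₁ : Subgroup G) (hsn : G₁.IsSubnormal) (hne : ((S : Subgroup G) ⊓ G₁) ⊓ Subgroup.centralizer (((S : Subgroup G) ⊓ G₁ : Subgroup G) : Set G) ≠ ⊥) (hle : ((S : Subgroup G) ⊓ G₁) ⊓ Subgroup.centralizer (((S : Subgroup G) ⊓ G₁ : Subgroup G) : Set G) ≤ (S : Subgroup G) ⊓ Subgroup.centralizer ((S : Subgroup G) : Set G)) : Cfsg.IsOfParabolicCharacteristic p ↥G₁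 := by
  open Subgroup CfsgLib.PReduced in
  intro R hR hR1 hpar
  refine (CfsgLib.PReduced.charPOf_iff _).mp (CfsgLib.PReduced.CharPOf.of_map G₁.subtype_injective ?_)
  obtain ⟨T, hT⟩ := hpar
  obtain ⟨S₁, hS₁⟩ := Cfsg.Agent.S0542.result p G₁ hsn S
  obtain ⟨g, hg⟩ := MulAction.exists_smul_eq G₁ S₁ T
  set R' := R.map G₁.subtype with hR'
  have hR'p : IsPGroup p R' := hR.map _
  have hR'ne : R' ≠ ⊥ := fun e => hR1 ((Subgroup.map_eq_bot_iff_of_injective _ G₁.subtype_injective).mp e)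
  set T' := (T : Subgroup G₁).map G₁.subtype with hT'
  have hT'R : T' ≤ Subgroup.normalizer (R' : Set G) := (Subgroup.map_mono hT).trans (Subgroup.le_normalizer_map _)
  have hRT : R' ≤ T' := Subgroup.map_mono
    (le_sup_right.trans (T.is_maximal' (T.isPGroup'.to_sup_of_normal_right' hR hT) le_sup_left).le)
  obtain ⟨z, hzR, hzp, hzc⟩ := CfsgLib.PReduced.exists_central_of_normalized T' (T.isPGroup'.map _) hRT hT'R hR'ne
  -- move `z` into `S`
  set S₁' := (S : Subgroup G) ⊓ G₁ with hS₁'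
  have hconj : ∀ s ∈ S₁', (g : G) * s * (g : G)⁻¹ ∈ T' := by
    intro s hs
    refine ⟨g * ⟨s, hs.2⟩ * g⁻¹, ?_, rfl⟩
    rw [← hg, Sylow.coe_subgroup_smul]
    exact Subgroup.mem_map.2 ⟨⟨s, hs.2⟩, by rw [hS₁]; exact hs.1, rfl⟩
  have hw : (g : G)⁻¹ * z * g ∈ S₁' := by
    obtain ⟨t, ht, htz⟩ := hRT hzR
    rw [← hg, Sylow.coe_subgroup_smul] at ht
    obtain ⟨s, hs, hst⟩ := ht
    rw [hS₁] at hs
    rw [← htz, ← hst]
    have h6 : (s : G) ∈ S₁' := ⟨Subgroup.mem_subgroupOf.mp hs, s.2⟩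
    simpa [mul_assoc] using h6
  set w := (g : G)⁻¹ * z * g with hw'
  have hwz : z = (g : G) * w * (g : G)⁻¹ := by rw [hw']; group
  have hwp : orderOf w = p := by
    rw [← hzp, hwz, ← MulAut.conj_apply, MulEquiv.orderOf_eq]
  have hwS' : w ∈ (S : Subgroup G) ⊓ Subgroup.centralizer ((S : Subgroup G) : Set G) := by
    refine hle ⟨hw, Subgroup.mem_centralizer_iff.mpr fun s hs => ?_⟩
    have h1 := hzc _ (hconj s hs)
    rw [hwz] at h1
    have h2 : (g : G) * (s * w) * (g : G)⁻¹ = (g : G) * (w * s) * (g : G)⁻¹ := by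
      calc (g : G) * (s * w) * (g : G)⁻¹ = (g : G) * s * (g : G)⁻¹ * ((g : G) * w * (g : G)⁻¹) := by group
        _ = _ := h1
        _ = _ := by group
    exact mul_left_cancel (mul_right_cancel h2)
  -- the centralizer of `z` in `G`
  have hzn : ∀ u : G, Subgroup.centralizer ((Subgroup.zpowers u : Subgroup G) : Set G) = Subgroup.centralizer ({u} : Set G) := by
    intro u
    rw [Subgroup.zpowers_eq_closure, Subgroup.centralizer_closure]
  have hwzp : IsPGroup p (Subgroup.zpowers w) := S.isPGroup'.to_le (Subgroup.zpowers_le.mpr hwS'.1)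
  have h1 := ((CfsgLib.PReduced.charPOf_iff _).mpr (hG (Subgroup.zpowers w) hwzp
    (fun e => (Fact.out : p.Prime).ne_one (by rw [← hwp, Subgroup.zpowers_eq_bot.mp e, orderOf_one]))
    ⟨S, fun s hs => (hzn w ▸ Subgroup.centralizer_le_normalizer _ : Subgroup.centralizer ({w} : Set G) ≤ _)
      (Subgroup.mem_centralizer_singleton_iff.mpr (Subgroup.mem_centralizer_iff.mp hwS'.2 s hs))⟩)).map_conj (g : G)
  have hzp' : IsPGroup p (Subgroup.zpowers z) := hR'p.to_le (Subgroup.zpowers_le.mpr hzR)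
  have hmapw : (Subgroup.zpowers w).map (MulAut.conj (g : G)).toMonoidHom = Subgroup.zpowers z := by
    rw [MonoidHom.map_zpowers, hwz]; rfl
  rw [Subgroup.map_normalizer_eq_of_bijective _ (MulAut.conj (g : G)).bijective, hmapw] at h1
  have hRc : R' ≤ Subgroup.centralizer ({z} : Set G) := fun r hr =>
    Subgroup.mem_centralizer_singleton_iff.mpr (hzc r (hRT hr))
  have hRn : R' ≤ Subgroup.normalizer ((Subgroup.zpowers z : Subgroup G) : Set G) :=
    hRc.trans (hzn z ▸ Subgroup.centralizer_le_normalizer _)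
  have h2 := h1.inf_centralizer hRn hR'p
  have hCR : Subgroup.centralizer (R' : Set G) ≤ Subgroup.normalizer ((Subgroup.zpowers z : Subgroup G) : Set G) :=
    (Subgroup.centralizer_le (Set.singleton_subset_iff.mpr hzR)).trans (hzn z ▸ Subgroup.centralizer_le_normalizer _)
  rw [inf_eq_right.mpr hCR] at h2
  have h3 := charPOf_inf hsn h2
  have h4 := h3.inf_normalizer (Subgroup.map_subtype_le R) hR'p
  convert h4 using 1
  ext x
  constructor
  · rintro ⟨y, hy, rfl⟩
    exact ⟨y.2, Subgroup.le_normalizer_map G₁.subtype ⟨y, hy, rfl⟩⟩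
  · rintro ⟨hx1, hx2⟩
    refine ⟨⟨x, hx1⟩, Subgroup.mem_normalizer_iff.mpr fun y => ?_, rfl⟩
    have := Subgroup.mem_normalizer_iff.mp hx2 (y : G)
    have h5 : (G₁.subtype y ∈ R' ↔ G₁.subtype (⟨x, hx1⟩ * y * ⟨x, hx1⟩⁻¹) ∈ R') := this
    rw [hR', Subgroup.mem_map_iff_mem G₁.subtype_injective, Subgroup.mem_map_iff_mem G₁.subtype_injective] at h5
    exact h5

end Cfsg.Agent.S3023
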