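import Cfsg.Statements.S3025
import Cfsg.Agent.RankOneP.Basic
import Mathlib.RingTheory.ZMod.UnitsCyclic
import Mathlib.RingTheory.IntegralDomain
import Mathlib.GroupTheory.SpecificGroups.Cyclic

set_option autoImplicit false
open Cfsg

namespace Cfsg.Agent.S3025

/-- Let F be a finite group and H a nontrivial subgroup of F that is contained in every nontrivial subgroup of F which H normalizes. Then F has a nontrivial normal subgroup N contained in every nontrivial normal subgroup of F (a unique minimal normal subgroup), N is simple, and one of the following holds: C_F(N) = 1; or H = N has prime order p, C_F(N) is cyclic of order a power of p, and F/C_F(N) is cyclic of order dividing p − 1; or H = N has order 2, N is central in F, and F is a generalized quaternion group. -/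
theorem result {F : Type*} [Group F] [Finite F] (H : Subgroup F) (hH : H ≠ ⊥)
    (hmin : ∀ R : Subgroup F, R ≠ ⊥ → H ≤ Subgroup.normalizer (R : Set F) → H ≤ R) :
    ∃ N : Subgroup F, N.Normal ∧ N ≠ ⊥ ∧ (∀ M : Subgroup F, M.Normal → M ≠ ⊥ → N ≤ M) ∧ IsSimpleGroup ↥N ∧
      (Subgroup.centralizer (N : Set F) = ⊥ ∨
       (H = N ∧ (Nat.card N).Prime ∧ IsCyclic ↥(Subgroup.centralizer (N : Set F)) ∧
          (∃ k : ℕ, 1 ≤ k ∧ Nat.card ↥(Subgroup.centralizer (N : Set F)) = Nat.card N ^ k) ∧
          (∃ g : F, Subgroup.centralizer (N : Set F) ⊔ Subgroup.zpowers g = ⊤) ∧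
          (Subgroup.centralizer (N : Set F)).index ∣ Nat.card N - 1) ∨
       (H = N ∧ Nat.card N = 2 ∧ Subgroup.centralizer (N : Set F) = ⊤ ∧
          ∃ k : ℕ, 1 ≤ k ∧ Nonempty (F ≃* QuaternionGroup (2 ^ k)))) := by
  open Subgroup in
  set N : Subgroup F := sInf {M : Subgroup F | M.Normal ∧ M ≠ ⊥} with hNdef
  have hHN : H ≤ N := le_sInf fun M hM => hmin M hM.2 (by
    haveI := hM.1
    rw [normalizer_eq_top]
    exact le_top)
  have hNne : N ≠ ⊥ := fun e => hH (le_bot_iff.mp (e ▸ hHN))
  have hNmin : ∀ M : Subgroup F, M.Normal → M ≠ ⊥ → N ≤ M := fun M hM hM1 => sInf_le ⟨hM, hM1⟩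
  haveI hNn : N.Normal := ⟨fun a ha g => mem_sInf.mpr fun M hM => hM.1.conj_mem a (mem_sInf.mp ha M hM) g⟩
  have hHNn : H ≤ normalizer (N : Set F) := by rw [normalizer_eq_top]; exact le_top
  haveI hsimple : IsSimpleGroup N := by
    haveI : Nontrivial N := (nontrivial_iff_ne_bot N).mpr hNne
    refine ⟨fun T hT => ?_⟩
    by_cases hT1 : T = ⊥
    · exact Or.inl hT1
    right
    set T' := T.map N.subtype with hT'
    have hconj : ∀ g : F, H ≤ T'.map (MulAut.conj g).toMonoidHom := by
      intro g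
      refine hmin _ (fun e => hT1 ?_) ?_
      · exact (map_eq_bot_iff_of_injective _ N.subtype_injective).mp
          ((map_eq_bot_iff_of_injective _ (MulAut.conj g).injective).mp e)
      · refine hHN.trans ?_
        intro n hn
        refine Subgroup.mem_normalizer_fintype (S := ((T'.map (MulAut.conj g).toMonoidHom : Subgroup F) : Set F)) ?_
        rintro _ ⟨_, ⟨t, ht, rfl⟩, rfl⟩
        let n' : N := ⟨g⁻¹ * n * g, by simpa using hNn.conj_mem n hn g⁻¹⟩
        refine ⟨_, ⟨n' * t * n'⁻¹, hT.conj_mem t ht n', rfl⟩, ?_⟩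
        simp [n', mul_assoc]
    have h1 : H ≤ T'.normalCore := fun h hh g => by
      obtain ⟨y, hy, hye⟩ := hconj g⁻¹ hh
      simp only [MulEquiv.coe_toMonoidHom, MulAut.conj_apply, inv_inv] at hye
      rw [← hye]
      simpa [mul_assoc] using hy
    have h2 : N ≤ T' := (hNmin _ inferInstance (fun e => hH (le_bot_iff.mp (e ▸ h1)))).trans (normalCore_le _)
    rw [eq_top_iff']
    intro n
    exact (mem_map_iff_mem N.subtype_injective).mp (h2 n.2)
  refine ⟨N, hNn, hNne, hNmin, hsimple, ?_⟩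
  set C := centralizer (N : Set F) with hC
  by_cases hC1 : C = ⊥
  · exact Or.inl hC1
  right
  haveI : C.Normal := inferInstance
  have hNC : N ≤ C := hNmin C inferInstance hC1
  letI : CommGroup N := { (inferInstance : Group N) with
    mul_comm := fun a b => Subtype.ext (mem_centralizer_iff.mp (hNC b.2) a a.2) }
  have hprime : (Nat.card N).Prime := IsSimpleGroup.prime_card
  haveI := Fact.mk hprime
  set p := Nat.card N with hp
  have hHeq : H = N := by
    refine eq_of_le_of_card_ge hHN ?_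
    rcases (Nat.dvd_prime hprime).mp (card_dvd_of_le hHN) with e | e
    · exact absurd (card_eq_one.mp e) hH
    · exact e.ge
  -- `N` lies in every nontrivial subgroup of `C`
  have hsub : ∀ R : Subgroup F, R ≤ C → R ≠ ⊥ → N ≤ R := fun R hR hR1 =>
    hHeq.ge.trans (hmin R hR1 (hHeq.le.trans ((le_centralizer_iff.mp hR).trans (centralizer_le_normalizer _))))
  have hNin : ∀ y : F, y ∈ C → y ≠ 1 → N ≤ zpowers y := fun y hy hy1 =>
    hsub _ (zpowers_le.mpr hy) (fun e => hy1 (zpowers_eq_bot.mp e))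
  have hCp : IsPGroup p C := by
    obtain ⟨n, hn⟩ : ∃ n, Nat.card C = p ^ n := ⟨_, Nat.eq_prime_pow_of_unique_prime_dvd Nat.card_pos.ne' (fun {q} hq hqd => by
      haveI := Fact.mk hq
      obtain ⟨y, hy⟩ := exists_prime_orderOf_dvd_card' q hqd
      have h1 : p ∣ q := by
        rw [hp, ← hy, ← Subgroup.orderOf_coe, ← Nat.card_zpowers]
        exact card_dvd_of_le (hNin y y.2 (fun e => hq.ne_one (by rw [← hy, ← Subgroup.orderOf_coe, e, orderOf_one])))
      exact ((Nat.prime_dvd_prime_iff_eq hprime hq).mp h1).symm)⟩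
    exact IsPGroup.of_card hn
  have huniq : CfsgLib.RankOneP.UniqueOrderP p C := by
    intro a b ha hb ha1
    have ha1' : (a : F) ≠ 1 := fun e => ha1 (Subtype.ext e)
    have hle : ∀ c : C, c ^ p = 1 → (c : F) ∈ N := by
      intro c hc
      by_cases hc1 : (c : F) = 1
      · rw [hc1]; exact one_mem _
      have h2 : N = zpowers (c : F) := eq_of_le_of_card_ge (hNin c c.2 hc1) (by
        rw [Nat.card_zpowers, Subgroup.orderOf_coe]
        exact orderOf_le_of_pow_eq_one hprime.pos hc)
      rw [h2]; exact mem_zpowers _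
    obtain ⟨i, hi⟩ := (hNin a a.2 ha1') (hle b hb)
    exact ⟨i, Subtype.ext (by simpa using hi)⟩
  have hk : ∀ {k : ℕ}, Nat.card C = p ^ k → 1 ≤ k := fun {k} h => by
    rcases Nat.eq_zero_or_pos k with rfl | h'
    · rw [pow_zero] at h; exact absurd (card_eq_one.mp h) hC1
    · exact h'
  obtain ⟨k₀, hk₀⟩ := IsPGroup.iff_card.mp hCp
  let f : F →* MulAut N := MulAut.conjNormal
  have hker : f.ker = C := by
    ext g
    rw [MonoidHom.mem_ker, mem_centralizer_iff]
    constructor
    · intro h n hn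
      have h1 := congrArg (fun φ : MulAut N => ((φ ⟨n, hn⟩ : N) : F)) h
      simp only [f, MulAut.conjNormal_apply, MulAut.one_apply] at h1
      rw [mul_inv_eq_iff_eq_mul] at h1
      exact h1.symm
    · intro h
      refine MulEquiv.ext fun n => Subtype.ext ?_
      rw [MulAut.conjNormal_apply, MulAut.one_apply, ← h n n.2, mul_inv_cancel_right]
  haveI : IsCyclic N := isCyclic_of_prime_card hp.symm
  let e := IsCyclic.mulAutMulEquiv N
  haveI : IsCyclic (ZMod (Nat.card N))ˣ := ZMod.isCyclic_units_prime hprime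
  haveI : IsCyclic (MulAut N) := isCyclic_of_surjective e.symm.toMonoidHom e.symm.surjective
  have hidx : C.index ∣ p - 1 := by
    rw [← hker, index_ker]
    refine (card_subgroup_dvd_card f.range).trans (dvd_of_eq ?_)
    rw [Nat.card_congr e.toEquiv, Nat.card_eq_fintype_card, ZMod.card_units]
  rcases CfsgLib.RankOneP.isCyclic_or_quaternion hCp huniq with hcyc | ⟨hp2, k, hk1, ⟨ψ⟩⟩
  · left
    refine ⟨hHeq, hprime, hcyc, ⟨k₀, hk hk₀, hk₀⟩, ?_, hidx⟩
    obtain ⟨⟨r, g, hg⟩, hr⟩ := IsCyclic.exists_generator (α := f.range)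
    refine ⟨g, (eq_top_iff' _).mpr fun x => ?_⟩
    obtain ⟨i, hi⟩ := mem_zpowers_iff.mp (hr ⟨f x, x, rfl⟩)
    have hi' : f g ^ i = f x := by rw [hg]; exact congrArg Subtype.val hi
    have h1 : x * (g ^ i)⁻¹ ∈ C := by rw [← hker, MonoidHom.mem_ker, map_mul, map_inv, map_zpow, hi', mul_inv_cancel]
    have h2 := mul_mem (mem_sup_left h1 : _ ∈ C ⊔ zpowers g) (mem_sup_right ⟨i, rfl⟩ : g ^ i ∈ C ⊔ zpowers g)
    simpa using h2
  · right
    have htop : C = ⊤ := by
      rw [← index_eq_one]
      exact Nat.dvd_one.mp (hidx.trans (dvd_of_eq (by rw [hp2])))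
    exact ⟨hHeq, hp2, htop, k, hk1, ⟨((topEquiv.symm.trans (MulEquiv.subgroupCongr htop.symm)).trans ψ)⟩⟩

end Cfsg.Agent.S3025
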