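import Cfsg.Statements.S3027
import Cfsg.Agent.LocalLemmas.Basic

set_option autoImplicit false
open Cfsg
open scoped commutatorElement

namespace Cfsg.Agent.S3027

/-- Let G be a finite group and D a normal subgroup of G such that G/D is perfect (that is, G = G′D). Then among the subnormal subgroups B of G with BD = G there is a least one, and it is normal in G. -/
theorem result {G : Type*} [Group G] [Finite G] (D : Subgroup G) [D.Normal] (hperf : ⁅(⊤ : Subgroup G), (⊤ : Subgroup G)⁆ ⊔ D = ⊤) :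
    ∃ B : Subgroup G, B.Normal ∧ B ⊔ D = ⊤ ∧ ∀ B' : Subgroup G, B'.IsSubnormal → B' ⊔ D = ⊤ → B ≤ B' := by
  classical
  set π := QuotientGroup.mk' D
  have hsurj : Function.Surjective π := QuotientGroup.mk'_surjective D
  have hiff : ∀ X : Subgroup G, X ⊔ D = ⊤ ↔ X.map π = ⊤ := fun X => by
    constructor
    · intro h
      have := congrArg (Subgroup.map π) h
      rwa [Subgroup.map_sup, QuotientGroup.map_mk'_self, sup_bot_eq, Subgroup.map_top_of_surjective _ hsurj] at this
    · intro h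
      have := congrArg (Subgroup.comap π) h
      rwa [Subgroup.comap_map_eq, QuotientGroup.ker_mk', Subgroup.comap_top] at this
  have hq : (⁅(⊤ : Subgroup (G ⧸ D)), (⊤ : Subgroup (G ⧸ D))⁆ : Subgroup (G ⧸ D)) = ⊤ := by
    have := (hiff _).mp hperf
    rwa [Subgroup.map_commutator, Subgroup.map_top_of_surjective _ hsurj] at this
  have hcomm : ∀ X Y : Subgroup G, X.map π = ⊤ → Y.map π = ⊤ → (⁅X, Y⁆ : Subgroup G).map π = ⊤ := fun X Y hX hY => by
    rw [Subgroup.map_commutator, hX, hY, hq]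
  obtain ⟨M₀, ⟨hM₀n, hM₀⟩, hM₀min⟩ :=
    (Set.toFinite {M : Subgroup G | M.Normal ∧ M.map π = ⊤}).exists_minimal ⟨⊤, inferInstance, Subgroup.map_top_of_surjective _ hsurj⟩
  refine ⟨M₀, hM₀n, (hiff _).mpr hM₀, fun B' hB' hB'D => ?_⟩
  replace hB'D := (hiff _).mp hB'D
  induction hB' with
  | top => exact le_top
  | step H K hle hK hn ih =>
    have hKD : K.map π = ⊤ := top_le_iff.mp (hB'D ▸ Subgroup.map_mono hle)
    have hMK := ih hKD
    have hMnorm : M₀ ≤ Subgroup.normalizer (H : Set G) :=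
      hMK.trans ((Subgroup.normal_subgroupOf_iff_le_normalizer hle).mp hn)
    obtain ⟨Y, ⟨hYle, hYn, hYtop⟩, hYmin⟩ :=
      (Set.toFinite {Y : Subgroup G | Y ≤ M₀ ∧ M₀ ≤ Subgroup.normalizer (Y : Set G) ∧ Y.map π = ⊤}).exists_minimal
        ⟨M₀, le_rfl, Subgroup.le_normalizer, hM₀⟩
    have hleast : ∀ X : Subgroup G, X ≤ M₀ → M₀ ≤ Subgroup.normalizer (X : Set G) → X.map π = ⊤ → Y ≤ X := by
      intro X hX hXn hXtop
      refine (hYmin ⟨inf_le_left.trans hYle, fun m hm => ?_, ?_⟩ inf_le_left).trans inf_le_right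
      · refine Subgroup.mem_normalizer_fintype fun a ha => ⟨?_, ?_⟩
        · exact (Subgroup.mem_normalizer_iff.mp (hYn hm) a).mp ha.1
        · exact (Subgroup.mem_normalizer_iff.mp (hXn hm) a).mp ha.2
      · refine top_le_iff.mp ((hcomm Y X hYtop hXtop).ge.trans (Subgroup.map_mono (Subgroup.commutator_le.mpr ?_)))
        intro a ha b hb
        refine ⟨?_, ?_⟩
        · rw [commutatorElement_def, show a * b * a⁻¹ * b⁻¹ = a * (b * a⁻¹ * b⁻¹) by simp [mul_assoc]]
          exact Y.mul_mem ha ((Subgroup.mem_normalizer_iff.mp (hYn (hX hb)) a⁻¹).mp (Y.inv_mem ha))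
        · rw [commutatorElement_def]
          exact X.mul_mem ((Subgroup.mem_normalizer_iff.mp (hXn (hYle ha)) b).mp hb) (X.inv_mem hb)
    have hYnormal : Y.Normal := ⟨fun a ha g => by
      have hle' : Y ≤ Y.map (MulAut.conj g⁻¹).toMonoidHom := by
        refine hleast _ ?_ ?_ ?_
        · rintro _ ⟨b, hb, rfl⟩; exact hM₀n.conj_mem b (hYle hb) g⁻¹
        · have e : M₀.map (MulAut.conj g⁻¹).toMonoidHom = M₀ := CfsgLib.LocalLemmas.conjMap_eq_of_mem_normalizer
            (Subgroup.normalizer_eq_top_iff.mpr hM₀n ▸ Subgroup.mem_top _)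
          rw [← e]
          exact (Subgroup.map_mono hYn).trans (Subgroup.le_normalizer_map _)
        · refine top_le_iff.mp fun q _ => ?_
          obtain ⟨b, hb, hbq⟩ := hYtop.ge (Subgroup.mem_top (π g * q * (π g)⁻¹))
          exact ⟨g⁻¹ * b * g⁻¹⁻¹, ⟨b, hb, rfl⟩, by simp [hbq, mul_assoc]⟩
      have := CfsgLib.LocalLemmas.mem_conjMap.mp (hle' ha)
      simpa using this⟩
    have hM0Y : M₀ ≤ Y := hM₀min ⟨hYnormal, hYtop⟩ hYle
    refine hM0Y.trans ((hleast (H ⊓ M₀) inf_le_right (fun m hm => ?_) ?_).trans inf_le_left)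
    · refine Subgroup.mem_normalizer_fintype fun a ha => ⟨?_, hM₀n.conj_mem a ha.2 m⟩
      exact (Subgroup.mem_normalizer_iff.mp (hMnorm hm) a).mp ha.1
    · refine top_le_iff.mp ((hcomm H M₀ hB'D hM₀).ge.trans (Subgroup.map_mono (Subgroup.commutator_le.mpr ?_)))
      intro a ha b hb
      refine ⟨?_, ?_⟩
      · rw [commutatorElement_def, show a * b * a⁻¹ * b⁻¹ = a * (b * a⁻¹ * b⁻¹) by simp [mul_assoc]]
        exact H.mul_mem ha ((Subgroup.mem_normalizer_iff.mp (hMnorm hb) a⁻¹).mp (H.inv_mem ha))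
      · rw [commutatorElement_def]
        exact M₀.mul_mem (hM₀n.conj_mem b hb a) (M₀.inv_mem hb)

end Cfsg.Agent.S3027
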