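import Cfsg.Statements.S3028
import Cfsg.Agent.S0542
import Cfsg.Agent.Subnormal.Basic
import Cfsg.Agent.PCore.Basic
import Mathlib.GroupTheory.Transfer

set_option autoImplicit false
open Cfsg

namespace Cfsg.Agent.S3028

universe u

section
open Subgroup

/-- A subgroup containing a Sylow subgroup of `X` for every prime contains `X`. -/
theorem le_of_sylows_le {G : Type u} [Group G] [Finite G] {X K : Subgroup G}
    (h : ∀ q : ℕ, q.Prime → q ∣ Nat.card X → ∃ Q : Sylow q X, (Q : Subgroup X).map X.subtype ≤ K) : X ≤ K := by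
  rw [← subgroupOf_eq_top, ← index_eq_one]
  by_contra hne
  obtain ⟨q, hq, hqd⟩ := Nat.exists_prime_and_dvd hne
  haveI := Fact.mk hq
  obtain ⟨Q, hQ⟩ := h q hq (hqd.trans (index_dvd_card _))
  exact Q.not_dvd_index (hqd.trans (index_dvd_of_le fun y hy => hQ ⟨y, hy, rfl⟩))

/-- The image of a Sylow subgroup meets the image of a subnormal subgroup in the image of the intersection. -/
theorem inf_map_le {G : Type u} [Group G] [Finite G] {p : ℕ} [Fact p.Prime] (S : Sylow p G) {A : Subgroup G}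
    (hA : A.IsSubnormal) {H : Type u} [Group H] (f : G →* H) :
    A.map f ⊓ (S : Subgroup G).map f ≤ (A ⊓ (S : Subgroup G)).map f := by
  obtain ⟨Q, hQ⟩ := Cfsg.Agent.S0542.result p A hA S
  set f' : A →* A.map f := (f.comp A.subtype).codRestrict _ (fun a => ⟨a, a.2, rfl⟩)
  have hf' : Function.Surjective f' := by
    rintro ⟨_, a, ha, rfl⟩
    exact ⟨⟨a, ha⟩, rfl⟩
  have hle : ((Q.mapSurjective hf' : Sylow p (A.map f)) : Subgroup (A.map f)) ≤
      ((S : Subgroup G).map f).subgroupOf (A.map f) := by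
    rintro _ ⟨a, ha, rfl⟩
    rw [hQ] at ha
    exact ⟨a, ha, rfl⟩
  have heq := (Q.mapSurjective hf').is_maximal'
    ((S.isPGroup'.map f).comap_of_injective (A.map f).subtype (A.map f).subtype_injective) hle
  intro y hy
  have h2 : (⟨y, hy.1⟩ : A.map f) ∈ ((Q.mapSurjective hf' : Sylow p (A.map f)) : Subgroup (A.map f)) := by
    rw [← heq]; exact hy.2
  obtain ⟨a, ha, hae⟩ := h2
  rw [hQ] at ha
  exact ⟨a, ⟨a.2, ha⟩, congrArg Subtype.val hae⟩

/-- The subgroup generated by the `p'`-elements of `A`. -/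
def primeTo (p : ℕ) {G : Type u} [Group G] (A : Subgroup G) : Subgroup G :=
  closure {y | y ∈ A ∧ (orderOf y).Coprime p}

theorem primeTo_le {p : ℕ} {G : Type u} [Group G] (A : Subgroup G) : primeTo p A ≤ A :=
  (closure_le _).mpr fun _ hy => hy.1

theorem le_normalizer_primeTo {p : ℕ} {G : Type u} [Group G] [Finite G] (A : Subgroup G) :
    A ≤ normalizer (primeTo p A : Set G) := by
  intro a ha
  refine Subgroup.mem_normalizer_fintype (S := (primeTo p A : Set G)) fun y hy => ?_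
  have : (primeTo p A).map (MulAut.conj a).toMonoidHom ≤ primeTo p A := by
    rw [primeTo, MonoidHom.map_closure, closure_le]
    rintro _ ⟨z, hz, rfl⟩
    refine subset_closure ⟨A.mul_mem (A.mul_mem ha hz.1) (A.inv_mem ha), ?_⟩
    show (orderOf ((MulAut.conj a) z)).Coprime p
    rw [MulEquiv.orderOf_eq]
    exact hz.2
  exact this ⟨y, hy, rfl⟩

theorem coprime_of_mem {q p : ℕ} [Fact q.Prime] (hp : p.Prime) (hne : q ≠ p) {G : Type u} [Group G] {X : Subgroup G}
    (hX : IsPGroup q X) {y : G} (hy : y ∈ X) : (orderOf y).Coprime p := by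
  obtain ⟨k, hk⟩ := hX ⟨y, hy⟩
  exact Nat.Coprime.coprime_dvd_left (orderOf_dvd_of_pow_eq_one (congrArg Subtype.val hk))
    (((Nat.coprime_primes (Fact.out : q.Prime) hp).mpr hne).pow_left k)

theorem le_primeTo_sup {p : ℕ} [Fact p.Prime] {G : Type u} [Group G] [Finite G] (S : Sylow p G) {A : Subgroup G}
    (hA : A.IsSubnormal) : A ≤ primeTo p A ⊔ (A ⊓ (S : Subgroup G)) := by
  refine le_of_sylows_le fun q hq _ => ?_
  haveI := Fact.mk hq
  by_cases hqp : q = p
  · subst hqp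
    obtain ⟨Q, hQ⟩ := Cfsg.Agent.S0542.result q A hA S
    refine ⟨Q, ?_⟩
    rintro _ ⟨a, ha, rfl⟩
    rw [hQ] at ha
    exact mem_sup_right ⟨a.2, ha⟩
  · obtain ⟨Q⟩ := (inferInstance : Nonempty (Sylow q A))
    refine ⟨Q, ?_⟩
    rintro _ ⟨a, ha, rfl⟩
    exact mem_sup_left (subset_closure ⟨a.2,
      coprime_of_mem (Fact.out : p.Prime) hqp (Q.isPGroup'.map A.subtype) ⟨a, ha, rfl⟩⟩)

theorem key : ∀ (k : ℕ) {G : Type u} [Group G] [Finite G], Nat.card G ≤ k → ∀ (p : ℕ), p.Prime →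
    ∀ (S : Sylow p G) (A B : Subgroup G), A.IsSubnormal → B.IsSubnormal →
    (A ⊔ B) ⊓ (S : Subgroup G) ≤ (A ⊓ (S : Subgroup G)) ⊔ (B ⊓ (S : Subgroup G)) := by
  intro k
  induction k using Nat.strong_induction_on with
  | _ k ih =>
  intro G _ _ hk p hp S A B hA hB
  haveI := Fact.mk hp
  set T := (A ⊓ (S : Subgroup G)) ⊔ (B ⊓ (S : Subgroup G)) with hT
  have hTS : T ≤ (S : Subgroup G) := sup_le inf_le_right inf_le_right
  -- inside a proper subnormal subgroup
  have hsub : ∀ X : Subgroup G, X ≠ ⊤ → X.IsSubnormal → ∀ A' B' : Subgroup G, A' ≤ X → B' ≤ X →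
      A'.IsSubnormal → B'.IsSubnormal →
      (A' ⊔ B') ⊓ (S : Subgroup G) ≤ (A' ⊓ (S : Subgroup G)) ⊔ (B' ⊓ (S : Subgroup G)) := by
    intro X hX hXsn A' B' hA' hB' hA'sn hB'sn
    have hlt : Nat.card X < k := lt_of_lt_of_le (lt_of_le_of_ne (card_le_card_group X)
      fun e => hX (eq_top_of_card_eq X e)) hk
    obtain ⟨S', hS'⟩ := Cfsg.Agent.S0542.result p X hXsn S
    have h1 := Subgroup.map_mono (f := X.subtype) (ih _ hlt le_rfl p hp S' (A'.subgroupOf X) (B'.subgroupOf X)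
      hA'sn.subgroupOf hB'sn.subgroupOf)
    rw [hS', ← subgroupOf_sup hA' hB'] at h1
    intro y hy
    have hyX : y ∈ X := sup_le hA' hB' hy.1
    have h2 := h1 ⟨⟨y, hyX⟩, ⟨hy.1, hy.2⟩, rfl⟩
    refine (Subgroup.map_le_iff_le_comap.mpr (sup_le ?_ ?_)) h2
    · exact fun z hz => mem_sup_left (show (z : G) ∈ A' ⊓ (S : Subgroup G) from ⟨hz.1, hz.2⟩)
    · exact fun z hz => mem_sup_right (show (z : G) ∈ B' ⊓ (S : Subgroup G) from ⟨hz.1, hz.2⟩)
  by_cases hJ : A ⊔ B ≠ ⊤
  · exact hsub _ hJ (CfsgLib.Subnormal.isSubnormal_sup hA hB) A B le_sup_left le_sup_right hA hB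
  push Not at hJ
  by_cases htriv : (⊤ : Subgroup G) = ⊥
  · exact fun y _ => (mem_bot.mp (htriv ▸ mem_top y) : y = 1) ▸ one_mem _
  obtain ⟨N, ⟨hN, hN0⟩, hmin⟩ := Set.Finite.exists_minimal
    (s := {N : Subgroup G | N.Normal ∧ N ≠ ⊥}) (Set.toFinite _) ⟨⊤, inferInstance, htriv⟩
  haveI := hN
  have hmin' : ∀ L : Subgroup G, L.Normal → L ≤ N → L = ⊥ ∨ L = N := fun L hL hLN => by
    rcases eq_or_ne L ⊥ with e | e
    · exact Or.inl e
    · exact Or.inr (le_antisymm hLN (hmin ⟨hL, e⟩ hLN))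
  have hlt : Nat.card (G ⧸ N) < k := by
    refine lt_of_lt_of_le ?_ hk
    change N.index < _
    rw [← index_mul_card N]
    have : 1 < Nat.card N := (one_lt_card_iff_ne_bot N).2 hN0
    have h0 : N.index ≠ 0 := Subgroup.index_ne_zero_of_finite
    nlinarith [Nat.pos_of_ne_zero h0]
  -- the quotient
  have hquot : ∀ (q : ℕ), q.Prime → ∀ Q : Sylow q G,
      (Q : Subgroup G) ≤ (A ⊓ (Q : Subgroup G)) ⊔ (B ⊓ (Q : Subgroup G)) ⊔ N := by
    intro q hq Q
    haveI := Fact.mk hq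
    have hs := QuotientGroup.mk'_surjective N
    have h1 := ih _ hlt le_rfl q hq (Q.mapSurjective hs) (A.map (QuotientGroup.mk' N)) (B.map (QuotientGroup.mk' N))
      (hA.map hs) (hB.map hs)
    rw [← Subgroup.map_sup, hJ, Subgroup.map_top_of_surjective _ hs, top_inf_eq] at h1
    have h2 := h1.trans (sup_le_sup (inf_map_le Q hA _) (inf_map_le Q hB _))
    rw [← Subgroup.map_sup] at h2
    have h3 := Subgroup.comap_mono (f := QuotientGroup.mk' N) h2
    rw [comap_map_eq, QuotientGroup.ker_mk'] at h3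
    exact (Subgroup.le_comap_map _ _).trans h3
  have hSNle : (S : Subgroup G) ⊓ N ≤ T → (A ⊔ B) ⊓ (S : Subgroup G) ≤ T := by
    intro hle s hs
    obtain ⟨t, ht, n, hn, rfl⟩ := mem_sup_of_normal_right.mp (hquot p hp S hs.2)
    have hnS : n ∈ (S : Subgroup G) := by
      simpa using (S : Subgroup G).mul_mem ((S : Subgroup G).inv_mem (hTS ht)) hs.2
    exact T.mul_mem ht (hle ⟨hnS, hn⟩)
  refine hSNle ?_
  set N₁ := N ⊓ A with hN₁
  set N₂ := N ⊓ B with hN₂
  have hNA := CfsgLib.Subnormal.minNormal_le_normalizer hN hmin' hA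
  have hNB := CfsgLib.Subnormal.minNormal_le_normalizer hN hmin' hB
  have hcomA : ∀ a ∈ A, ∀ n ∈ N, a * n * a⁻¹ * n⁻¹ ∈ N₁ := fun a ha n hn =>
    ⟨N.mul_mem (hN.conj_mem n hn a) (N.inv_mem hn),
      by simpa [mul_assoc] using A.mul_mem ha ((mem_normalizer_iff.mp (hNA hn) _).mp (A.inv_mem ha))⟩
  have hcomB : ∀ b ∈ B, ∀ n ∈ N, b * n * b⁻¹ * n⁻¹ ∈ N₂ := fun b hb n hn =>
    ⟨N.mul_mem (hN.conj_mem n hn b) (N.inv_mem hn),
      by simpa [mul_assoc] using B.mul_mem hb ((mem_normalizer_iff.mp (hNB hn) _).mp (B.inv_mem hb))⟩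
  set N₀ := N₁ ⊔ N₂ with hN₀
  have hN₀n : N₀.Normal := by
    rw [← normalizer_eq_top_iff, eq_top_iff, ← hJ]
    refine sup_le (fun a ha => ?_) (fun b hb => ?_)
    · refine Subgroup.mem_normalizer_fintype (S := (N₀ : Set G)) fun y hy => ?_
      have hyN : y ∈ N := (sup_le inf_le_left inf_le_left : N₀ ≤ N) hy
      have := N₀.mul_mem (mem_sup_left (hcomA a ha y hyN)) hy
      simpa using this
    · refine Subgroup.mem_normalizer_fintype (S := (N₀ : Set G)) fun y hy => ?_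
      have hyN : y ∈ N := (sup_le inf_le_left inf_le_left : N₀ ≤ N) hy
      have := N₀.mul_mem (mem_sup_right (hcomB b hb y hyN)) hy
      simpa using this
  rcases hmin' N₀ hN₀n (sup_le inf_le_left inf_le_left) with h0 | h0
  swap
  · -- `N` is covered by `N ∩ A` and `N ∩ B`
    have hn1 : (N₁.subgroupOf N).Normal := normal_subgroupOf_of_le_normalizer fun n hn =>
      inf_normalizer_le_normalizer_inf ⟨le_normalizer hn, hNA hn⟩
    have hN₂sn : N₂.IsSubnormal := hN.isSubnormal.inf hB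
    obtain ⟨Q₂, hQ₂⟩ := Cfsg.Agent.S0542.result p N₂ hN₂sn S
    set f : N₂ →* N ⧸ N₁.subgroupOf N :=
      (QuotientGroup.mk' _).comp (inclusion (inf_le_left : N₂ ≤ N))
    have hf : Function.Surjective f := by
      intro y
      obtain ⟨⟨y, hy⟩, rfl⟩ := QuotientGroup.mk'_surjective _ y
      have hy0 : y ∈ N₁ ⊔ N₂ := by
        show y ∈ N₀
        rw [h0]; exact hy
      have hN₂n : N₂ ≤ normalizer (N₁ : Set G) := fun n hn =>
        inf_normalizer_le_normalizer_inf ⟨le_normalizer hn.1, hNA hn.1⟩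
      rw [← SetLike.mem_coe, coe_mul_of_right_le_normalizer_left _ _ hN₂n] at hy0
      obtain ⟨n₁, hn₁, n₂, hn₂, rfl⟩ := hy0
      refine ⟨⟨n₂, hn₂⟩, QuotientGroup.eq.mpr ?_⟩
      show n₂⁻¹ * (n₁ * n₂) ∈ N₁
      simpa [mul_assoc] using (mem_normalizer_iff.mp (inv_mem (hN₂n hn₂)) n₁).mp hn₁
    obtain ⟨Q, hQ⟩ := Cfsg.Agent.S0542.result p N hN.isSubnormal S
    have hle : ((Q₂.mapSurjective hf : Sylow p _) : Subgroup (N ⧸ N₁.subgroupOf N)) ≤
        (Q : Subgroup N).map (QuotientGroup.mk' (N₁.subgroupOf N)) := by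
      rintro _ ⟨a, ha, rfl⟩
      rw [hQ₂] at ha
      exact ⟨inclusion (inf_le_left : N₂ ≤ N) a, by rw [hQ]; exact ha, rfl⟩
    have heq := (Q₂.mapSurjective hf).is_maximal' (Q.isPGroup'.map _) hle
    rintro s ⟨hsS, hsN⟩
    have h2 : QuotientGroup.mk' (N₁.subgroupOf N) ⟨s, hsN⟩ ∈
        ((Q₂.mapSurjective hf : Sylow p _) : Subgroup (N ⧸ N₁.subgroupOf N)) := by
      rw [← heq]; exact ⟨⟨s, hsN⟩, by rw [hQ]; exact hsS, rfl⟩
    obtain ⟨a, ha, hae⟩ := h2
    rw [hQ₂] at ha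
    have hae' : (QuotientGroup.mk (inclusion (inf_le_left : N₂ ≤ N) a) : N ⧸ N₁.subgroupOf N) =
        QuotientGroup.mk (⟨s, hsN⟩ : N) := hae
    have h3' := QuotientGroup.eq.mp hae'
    have h3 : (a : G)⁻¹ * s ∈ N₁ := h3'
    have h4 : s = (a : G) * ((a : G)⁻¹ * s) := by group
    rw [h4]
    exact T.mul_mem (mem_sup_right ⟨a.2.2, ha⟩)
      (mem_sup_left ⟨h3.2, (S : Subgroup G).mul_mem ((S : Subgroup G).inv_mem ha) hsS⟩)
  -- `N` is central
  have hc : ∀ g n : G, n ∈ N → g * n = n * g := by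
    intro g n hn
    have hg : g ∈ A ⊔ B := hJ ▸ mem_top g
    refine mem_centralizer_singleton_iff.mp ((sup_le ?_ ?_ : A ⊔ B ≤ centralizer ({n} : Set G)) hg)
    · intro a ha
      have h : a * n * a⁻¹ * n⁻¹ ∈ N₀ := mem_sup_left (hcomA a ha n hn)
      rw [h0, mem_bot, mul_inv_eq_one, mul_inv_eq_iff_eq_mul] at h
      exact mem_centralizer_singleton_iff.mpr h
    · intro a ha
      have h : a * n * a⁻¹ * n⁻¹ ∈ N₀ := mem_sup_right (hcomB a ha n hn)
      rw [h0, mem_bot, mul_inv_eq_one, mul_inv_eq_iff_eq_mul] at h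
      exact mem_centralizer_singleton_iff.mpr h
  intro s hs
  by_contra hsT
  have hs1 : s ≠ 1 := fun e => hsT (e ▸ one_mem _)
  obtain ⟨k₁, hk₁⟩ := S.isPGroup' ⟨s, hs.1⟩
  -- `N` has order `p`
  obtain ⟨c, hcp, hcmem⟩ : ∃ c : G, orderOf c = p ∧ c ∈ zpowers s := by
    have hd : p ∣ Nat.card (zpowers s) := by
      obtain ⟨j, hj⟩ := (S.isPGroup'.to_le (zpowers_le.mpr hs.1)).exists_card_eq
      rcases Nat.eq_zero_or_pos j with rfl | hj0
      · rw [pow_zero, Nat.card_zpowers, orderOf_eq_one_iff] at hj; exact absurd hj hs1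
      · rw [hj]; exact dvd_pow_self p hj0.ne'
    obtain ⟨⟨c, hc'⟩, hc''⟩ := exists_prime_orderOf_dvd_card' p hd
    exact ⟨c, by rwa [Subgroup.orderOf_mk] at hc'', hc'⟩
  have hcN : zpowers c ≤ N := zpowers_le.mpr ((zpowers_le.mpr hs.2) hcmem)
  have hcn : (zpowers c).Normal := ⟨fun a ha g => by
    rw [hc g a (hcN ha), mul_inv_cancel_right]; exact ha⟩
  have hNp : Nat.card N = p := by
    rcases hmin' _ hcn hcN with e | e
    · exact absurd (zpowers_eq_bot.mp e) (fun e1 => hp.ne_one (by rw [← hcp, e1, orderOf_one]))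
    · rw [← e, Nat.card_zpowers, hcp]
  have hNS : N ≤ (S : Subgroup G) := by
    have : zpowers c = N := (hmin' _ hcn hcN).resolve_left fun e =>
      hp.ne_one (by rw [← hcp, zpowers_eq_bot.mp e, orderOf_one])
    rw [← this]
    exact zpowers_le.mpr ((zpowers_le.mpr hs.1) hcmem)
  have hTN : T ⊓ N = ⊥ := by
    haveI := Fact.mk hp
    rcases hmin' (T ⊓ N) ⟨fun a ha g => by rw [hc g a ha.2, mul_inv_cancel_right]; exact ha⟩ inf_le_right with e | e
    · exact e
    · exact absurd ((inf_eq_right.mp e) hs.2) hsT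
  have hdec : ∀ x : (S : Subgroup G), ∃ t ∈ T, ∃ n : N, (x : G) = t * n := fun x => by
    obtain ⟨t, ht, n, hn, he⟩ := mem_sup_of_normal_right.mp (hquot p hp S x.2)
    exact ⟨t, ht, ⟨n, hn⟩, he.symm⟩
  choose tf htf nf hnf using hdec
  have huniq : ∀ (x : (S : Subgroup G)) (t : G) (n : N), t ∈ T → (x : G) = t * n → nf x = n := by
    intro x t n ht he
    have h1 : (tf x)⁻¹ * t ∈ T ⊓ N := by
      refine ⟨T.mul_mem (T.inv_mem (htf x)) ht, ?_⟩
      have h2 : (tf x)⁻¹ * t = (nf x : G) * (n : G)⁻¹ := by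
        rw [eq_mul_inv_iff_mul_eq, mul_assoc, ← he, hnf x, inv_mul_cancel_left]
      rw [h2]
      exact N.mul_mem (nf x).2 (N.inv_mem n.2)
    rw [hTN, mem_bot, inv_mul_eq_one] at h1
    refine Subtype.ext ?_
    have := hnf x
    rw [he, h1] at this
    exact (mul_left_cancel this).symm
  let φ : (S : Subgroup G) →* N :=
    MonoidHom.mk' nf fun x y => huniq (x * y) (tf x * tf y) (nf x * nf y) (T.mul_mem (htf x) (htf y)) (by
      rw [Subgroup.coe_mul, Subgroup.coe_mul, hnf x, hnf y]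
      calc tf x * (nf x : G) * (tf y * (nf y : G)) = tf x * ((nf x : G) * tf y) * (nf y : G) := by group
        _ = tf x * (tf y * (nf x : G)) * (nf y : G) := by rw [hc (tf y) (nf x : G) (nf x).2]
        _ = _ := by group)
  letI : CommGroup N := { (inferInstance : Group N) with mul_comm := fun a b => Subtype.ext (hc a b b.2) }
  let φ' : (S : Subgroup G) →* N := φ
  set V := MonoidHom.transfer φ' with hV
  have hVne : V c ≠ 1 := by
    have hcN' : c ∈ N := hcN (mem_zpowers c)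
    rw [hV, MonoidHom.transfer_eq_pow (H := (S : Subgroup G)) φ' c fun j g₀ _ => by
      rw [mul_assoc, ← hc g₀ (c ^ j) (N.pow_mem hcN' j), inv_mul_cancel_left]]
    intro h1
    have h2 : φ' ⟨c ^ (S : Subgroup G).index, (S : Subgroup G).pow_mem (hNS hcN') _⟩ =
        ⟨c ^ (S : Subgroup G).index, N.pow_mem hcN' _⟩ :=
      huniq _ 1 _ T.one_mem (by simp)
    have h3 : (⟨c ^ (S : Subgroup G).index, N.pow_mem hcN' _⟩ : N) = 1 := h2.symm.trans h1
    have h4 := orderOf_dvd_of_pow_eq_one (congrArg Subtype.val h3)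
    rw [hcp] at h4
    exact S.not_dvd_index h4
  -- the subgroup generated by the `p'`-elements
  set JA := primeTo p A with hJA
  set JB := primeTo p B with hJB
  have hker : ∀ y : G, (orderOf y).Coprime p → y ∈ V.ker := by
    intro y hy
    rw [MonoidHom.mem_ker]
    have h1 := (orderOf_map_dvd V y)
    have h2 : orderOf (V y) ∣ p := hNp ▸ orderOf_dvd_natCard _
    exact orderOf_eq_one_iff.mp (Nat.eq_one_of_dvd_coprimes hy h1 h2)
  have hJle : JA ⊔ JB ≤ V.ker := sup_le ((closure_le _).mpr fun y hy => hker y hy.2)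
    ((closure_le _).mpr fun y hy => hker y hy.2)
  have hJmem : ∀ y : G, (orderOf y).Coprime p → y ∈ JA ⊔ JB := by
    intro y hy
    have hyN : zpowers y ≤ JA ⊔ JB ⊔ N := le_of_sylows_le fun q hq hqd => by
      haveI := Fact.mk hq
      have hqp : q ≠ p := fun e => hp.one_lt.ne' (Nat.eq_one_of_dvd_coprimes hy
        (by rw [← Nat.card_zpowers, ← e]; exact hqd) dvd_rfl)
      obtain ⟨Q⟩ := (inferInstance : Nonempty (Sylow q (zpowers y)))
      obtain ⟨Q', hQ'⟩ := (Q.isPGroup'.map (zpowers y).subtype).exists_le_sylow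
      refine ⟨Q, (hQ'.trans (hquot q hq Q')).trans (sup_le_sup_right (sup_le_sup ?_ ?_) N)⟩
      · exact fun z hz => subset_closure ⟨hz.1, coprime_of_mem hp hqp Q'.isPGroup' hz.2⟩
      · exact fun z hz => subset_closure ⟨hz.1, coprime_of_mem hp hqp Q'.isPGroup' hz.2⟩
    obtain ⟨j, hj, n, hn, he⟩ := mem_sup_of_normal_right.mp (hyN (mem_zpowers y))
    have hyp : y ^ p ∈ JA ⊔ JB := by
      rw [← he, (Commute.mul_pow (hc j n hn) p), show n ^ p = 1 by
        rw [← hNp]; exact congrArg Subtype.val (pow_card_eq_one' (x := (⟨n, hn⟩ : N))), mul_one]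
      exact Subgroup.pow_mem _ hj p
    obtain ⟨m, hm⟩ := exists_pow_eq_self_of_coprime (x := y) hy.symm
    exact hm ▸ Subgroup.pow_mem _ hyp m
  have hJn : (JA ⊔ JB).Normal := by
    have : JA ⊔ JB = closure {y : G | (orderOf y).Coprime p} := le_antisymm
      (sup_le ((closure_le _).mpr fun y hy => subset_closure hy.2) ((closure_le _).mpr fun y hy => subset_closure hy.2))
      ((closure_le _).mpr fun y hy => hJmem y hy)
    rw [this]
    refine ⟨fun a ha g => ?_⟩
    have h1 : (closure {y : G | (orderOf y).Coprime p}).map (MulAut.conj g).toMonoidHom ≤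
        closure {y : G | (orderOf y).Coprime p} := by
      rw [MonoidHom.map_closure, closure_le]
      rintro _ ⟨z, hz, rfl⟩
      refine subset_closure ?_
      show (orderOf ((MulAut.conj g) z)).Coprime p
      rw [MulEquiv.orderOf_eq]
      exact hz
    exact h1 ⟨a, ha, rfl⟩
  haveI := hJn
  have hJne : JA ⊔ JB ≠ ⊤ := fun e => hVne (MonoidHom.mem_ker.mp (hJle (e ▸ mem_top c)))
  have hJAsn : JA.IsSubnormal :=
    Subgroup.IsSubnormal.step _ A (primeTo_le A) hA (normal_subgroupOf_of_le_normalizer (le_normalizer_primeTo A))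
  have hJBsn : JB.IsSubnormal :=
    Subgroup.IsSubnormal.step _ B (primeTo_le B) hB (normal_subgroupOf_of_le_normalizer (le_normalizer_primeTo B))
  have hJT : s ∈ JA ⊔ JB ⊔ T := by
    have : A ⊔ B ≤ JA ⊔ JB ⊔ T := sup_le
      ((le_primeTo_sup S hA).trans (sup_le_sup le_sup_left le_sup_left))
      ((le_primeTo_sup S hB).trans (sup_le_sup le_sup_right le_sup_right))
    exact this (hJ ▸ mem_top s)
  obtain ⟨j, hj, t, ht, rfl⟩ := mem_sup_of_normal_left.mp hJT
  have hjS : j ∈ (S : Subgroup G) := by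
    simpa using (S : Subgroup G).mul_mem hs.1 ((S : Subgroup G).inv_mem (hTS ht))
  refine hsT (T.mul_mem ?_ ht)
  exact (sup_le_sup (inf_le_inf_right _ (primeTo_le A)) (inf_le_inf_right _ (primeTo_le B)) :
    (JA ⊓ (S : Subgroup G)) ⊔ (JB ⊓ (S : Subgroup G)) ≤ T)
    (hsub _ hJne hJn.isSubnormal JA JB le_sup_left le_sup_right hJAsn hJBsn ⟨hj, hjS⟩)

end

/-- Let G be a finite group, p a prime, S a Sylow p-subgroup of G and A₁, A₂ subnormal subgroups of G. Then the join of S ∩ A₁ and S ∩ A₂ is a Sylow p-subgroup of the join of A₁ and A₂; equivalently ⟨A₁, A₂⟩ ∩ S = ⟨A₁ ∩ S, A₂ ∩ S⟩. -/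
theorem result {G : Type*} [Group G] [Finite G] {p : ℕ} [Fact p.Prime] (S : Sylow p G) (A₁ A₂ : Subgroup G)
    (h₁ : A₁.IsSubnormal) (h₂ : A₂.IsSubnormal) :
    (A₁ ⊔ A₂) ⊓ (S : Subgroup G) = (A₁ ⊓ (S : Subgroup G)) ⊔ (A₂ ⊓ (S : Subgroup G)) := by
  exact le_antisymm (key (Nat.card G) le_rfl p Fact.out S A₁ A₂ h₁ h₂)
    (sup_le (inf_le_inf_right _ le_sup_left) (inf_le_inf_right _ le_sup_right))

end Cfsg.Agent.S3028
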