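import Cfsg.Statements.S3031
import Cfsg.Agent.Transfer.FixedOrder
import Cfsg.Agent.Transfer.FusionInduction
import Cfsg.Agent.Transfer.Tate
import Cfsg.Agent.Transfer.Focal

set_option autoImplicit false
open Cfsg

namespace Cfsg.Agent.S3031

open CfsgLib.Transfer
open scoped Pointwise commutatorElement

section

variable {p : ℕ} {G : Type*} [Group G] [Finite G] [hp : Fact p.Prime]

omit [Finite G] hp in
private theorem prime_lt (hmin : ∀ q : ℕ, q.Prime → q ∣ Nat.card G → p ≤ q) {n : G} (hn : (orderOf n).Coprime p)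
    (q : ℕ) (hq : q.Prime) (hqn : q ∣ orderOf n) : p < q := by
  refine lt_of_le_of_ne (hmin q hq (hqn.trans (orderOf_dvd_natCard n))) ?_
  rintro rfl
  exact hq.one_lt.ne' (Nat.eq_one_of_dvd_coprimes hn hqn dvd_rfl)

/-- `P` normalises a subgroup which is strongly closed in its normaliser. -/
private theorem le_normalizer_of_closed (P : Sylow p G) {E : Subgroup G} (hE : E ≤ (P : Subgroup G))
    (hcl : ∀ g : G, E.map (MulAut.conj g).toMonoidHom ⊓ Subgroup.normalizer (E : Set G) ≤ E) :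
    (P : Subgroup G) ≤ Subgroup.normalizer (E : Set G) := by
  by_contra hle
  set D := Subgroup.normalizer (E : Set G) ⊓ (P : Subgroup G) with hD
  have hlt : D < (P : Subgroup G) := lt_of_le_of_ne inf_le_right fun h => hle (h.ge.trans inf_le_left)
  obtain ⟨g, hg, hgD⟩ := SetLike.exists_of_lt (inf_normalizer_gt P hlt)
  refine hgD ⟨?_, hg.2⟩
  show g ∈ Subgroup.normalizer (E : Set G)
  rw [Subgroup.mem_normalizer_iff_map_conj_eq]
  refine Subgroup.eq_of_le_of_card_ge ?_ (le_of_eq ?_)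
  · intro x hx
    refine hcl g ⟨hx, ?_⟩
    obtain ⟨y, hy, rfl⟩ := hx
    exact ((Subgroup.mem_normalizer_iff.1 hg.1 y).1 ⟨Subgroup.le_normalizer hy, hE hy⟩).1
  · exact (Subgroup.card_map_of_injective (MulAut.conj g).injective).symm

/-- A `p'`-element normalising a subgroup `Q` of `P` normalises `E ⊓ Q`. -/
private theorem mem_normalizer_inf (P : Sylow p G) {E Q : Subgroup G} (hE : E ≤ (P : Subgroup G))
    (hQ : Q ≤ (P : Subgroup G))
    (hcl : ∀ g : G, E.map (MulAut.conj g).toMonoidHom ⊓ Subgroup.normalizer (E : Set G) ≤ E)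
    {n : G} (hn : n ∈ Subgroup.normalizer (Q : Set G)) :
    n ∈ Subgroup.normalizer ((E ⊓ Q : Subgroup G) : Set G) := by
  refine Subgroup.mem_normalizer_fintype (S := ((E ⊓ Q : Subgroup G) : Set G)) fun x hx => ?_
  have h1 : n * x * n⁻¹ ∈ Q := (Subgroup.mem_normalizer_iff.1 hn x).1 hx.2
  exact ⟨hcl n ⟨⟨x, hx.1, rfl⟩, le_normalizer_of_closed P hE hcl (hQ h1)⟩, h1⟩

/-- The local step: `p'`-elements of normalisers act trivially modulo `Φ(P)`. -/
private theorem local_step (hmin : ∀ q : ℕ, q.Prime → q ∣ Nat.card G → p ≤ q) (P : Sylow p G) {e : ℕ}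
    (he : 1 ≤ e) (heP : p ^ e < Nat.card (P : Subgroup G))
    (hcl : ∀ E : Subgroup G, E ≤ (P : Subgroup G) → (Nat.card E = p ^ e ∨ (p ^ e = 2 ∧ Nat.card E = 4)) →
      ∀ g : G, E.map (MulAut.conj g).toMonoidHom ⊓ Subgroup.normalizer (E : Set G) ≤ E) :
    ∀ (k : ℕ) (Q : Subgroup G), Nat.card Q ≤ k → Q ≤ (P : Subgroup G) → ∀ n ∈ Subgroup.normalizer (Q : Set G),
      (orderOf n).Coprime p → ∀ x ∈ Q, x⁻¹ * (n * x * n⁻¹) ∈ phi (P : Subgroup G) := by
  intro k
  induction k using Nat.strong_induction_on with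
  | _ k ih =>
  intro Q hk hQP n hn hnp
  have hm := prime_lt hmin hnp
  have hQ : IsPGroup p Q := P.isPGroup'.to_le hQP
  set Φ := phi (P : Subgroup G) with hΦ
  have hPΦ : ∀ g ∈ (P : Subgroup G), g ∈ Subgroup.normalizer (Φ : Set G) := fun g hg =>
    mem_normalizer_phi (Subgroup.le_normalizer hg)
  have hsub : ∀ W : Subgroup G, W ≤ Q → W ≠ Q → n ∈ Subgroup.normalizer (W : Set G) →
      ∀ x ∈ W, x⁻¹ * (n * x * n⁻¹) ∈ Φ := by
    intro W hWQ hne hnW
    have hcl : Nat.card W < Nat.card Q := lt_of_le_of_ne (Subgroup.card_le_of_le hWQ) fun h =>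
      hne (Subgroup.eq_of_le_of_card_ge hWQ h.ge)
    exact ih (Nat.card W) (by omega) W le_rfl (hWQ.trans hQP) n hnW hnp
  have hnA : Subgroup.zpowers n ≤ Subgroup.normalizer (Q : Set G) := Subgroup.zpowers_le.2 hn
  have hcop := coprime_card hm hQ
  have hsolv : Group.IsSolvable (Subgroup.zpowers n) ∨ Group.IsSolvable Q :=
    Or.inr (by have := hQ.isNilpotent; infer_instance)
  set R := ⁅Q, Subgroup.zpowers n⁆ with hR
  have hRQ : R ≤ Q := CfsgLib.CoprimeAction.commutator_le_of_normalizer hnA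
  intro x hx
  by_cases hR' : R = Q
  swap
  · obtain ⟨r, hr, c, hc, rfl⟩ :=
      CfsgLib.CoprimeAction.exists_commutator_mul_centralizer hnA hcop hsolv hx
    have hnR : n ∈ Subgroup.normalizer (R : Set G) :=
      CfsgLib.CoprimeAction.le_normalizer_commutator hnA (Subgroup.mem_zpowers n)
    have h1 := hsub R hRQ hR' hnR r hr
    have hnc : n * c = c * n := Subgroup.mem_centralizer_iff.1 hc.2 n (Subgroup.mem_zpowers n)
    have h2 := (Subgroup.mem_normalizer_iff.1 (hPΦ c⁻¹ (inv_mem (hQP hc.1))) _).1 h1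
    have e2 : c⁻¹ * (r⁻¹ * (n * r * n⁻¹)) * c⁻¹⁻¹ = (r * c)⁻¹ * (n * (r * c) * n⁻¹) := by
      calc c⁻¹ * (r⁻¹ * (n * r * n⁻¹)) * c⁻¹⁻¹ = c⁻¹ * r⁻¹ * n * r * (n⁻¹ * (c * n)) * n⁻¹ := by group
        _ = c⁻¹ * r⁻¹ * n * r * (n⁻¹ * (n * c)) * n⁻¹ := by rw [hnc]
        _ = _ := by group
    exact e2 ▸ h2
  suffices hQΦ : Q ≤ Φ from mul_mem (inv_mem (hQΦ hx)) (hQΦ ((Subgroup.mem_normalizer_iff.1 hn x).1 hx))
  by_contra hQΦ
  -- the largest invariant subgroup of `Q ⊓ Φ`
  let V : Subgroup G :=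
    { carrier := {y | ∀ a ∈ Subgroup.zpowers n, a * y * a⁻¹ ∈ Q ⊓ Φ}
      one_mem' := fun a _ => by simp
      mul_mem' := fun {u v} hu hv a ha => by
        have : a * (u * v) * a⁻¹ = (a * u * a⁻¹) * (a * v * a⁻¹) := by group
        rw [this]; exact mul_mem (hu a ha) (hv a ha)
      inv_mem' := fun {u} hu a ha => by
        have : a * u⁻¹ * a⁻¹ = (a * u * a⁻¹)⁻¹ := by group
        rw [this]; exact inv_mem (hu a ha) }
  have hVle : V ≤ Q ⊓ Φ := fun y hy => by simpa using hy 1 (one_mem _)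
  have hnV : n ∈ Subgroup.normalizer (V : Set G) := by
    refine Subgroup.mem_normalizer_fintype (S := (V : Set G)) fun y hy a ha => ?_
    have := hy (a * n) (mul_mem ha (Subgroup.mem_zpowers n))
    simpa [mul_assoc] using this
  have hphiV : phi Q ≤ V := fun y hy a ha => by
    have h1 : a * y * a⁻¹ ∈ phi Q :=
      (Subgroup.mem_normalizer_iff.1 (mem_normalizer_phi (hnA ha)) y).1 hy
    exact ⟨phi_le Q h1, phi_mono P.isPGroup' hQP h1⟩
  have hVQ : V ≤ Q := hVle.trans inf_le_left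
  have hQV : Q ≤ Subgroup.normalizer (V : Set G) := fun q hq => by
    refine Subgroup.mem_normalizer_fintype (S := (V : Set G)) fun v hv => ?_
    have : q * v * q⁻¹ = ⁅q, v⁆ * v := by rw [commutatorElement_def]; group
    rw [this]
    exact mul_mem (hphiV (commutatorElement_mem_phi hQ hq (hVQ hv))) hv
  -- proper invariant subgroups lie in `V`
  have hin : ∀ W : Subgroup G, W ≤ Q → W ≠ Q → n ∈ Subgroup.normalizer (W : Set G) → W ≤ V := by
    intro W hWQ hWne hnW w hw
    have hnW' : Subgroup.zpowers n ≤ Subgroup.normalizer (W : Set G) := Subgroup.zpowers_le.2 hnW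
    have hmv : w⁻¹ * (n * w * n⁻¹) ∈ V := by
      intro a ha
      have hWm : a * w * a⁻¹ ∈ W := (Subgroup.mem_normalizer_iff.1 (hnW' ha) w).1 hw
      have h1 := hsub W hWQ hWne hnW _ hWm
      have hc : n * a = a * n := by obtain ⟨j, rfl⟩ := ha; exact ((Commute.refl n).zpow_right j).eq
      have e1 : (a * w * a⁻¹)⁻¹ * (n * (a * w * a⁻¹) * n⁻¹) = a * (w⁻¹ * (n * w * n⁻¹)) * a⁻¹ := by
        calc (a * w * a⁻¹)⁻¹ * (n * (a * w * a⁻¹) * n⁻¹) = a * w⁻¹ * a⁻¹ * (n * a) * w * (n * a)⁻¹ := by group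
          _ = a * w⁻¹ * a⁻¹ * (a * n) * w * (a * n)⁻¹ := by rw [hc]
          _ = _ := by group
      rw [e1] at h1
      refine ⟨(Subgroup.mem_normalizer_iff.1 (hnA ha) _).1 (hWQ (mul_mem (inv_mem hw)
        ((Subgroup.mem_normalizer_iff.1 hnW w).1 hw))), h1⟩
    have hwQ := hWQ hw
    -- a fixed point in the coset
    obtain ⟨v, hv, hvw⟩ := CfsgLib.CoprimeAction.exists_mem_centralizer (A := Subgroup.zpowers n) (N := V)
      (Subgroup.zpowers_le.2 hnV) (hcop.coprime_dvd_right (Subgroup.card_dvd_of_le hVQ))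
      (Or.inr (by have := (hQ.to_le hVQ).isNilpotent; infer_instance)) (k := w) (fun a ha => by
        have h1 := zpow_conj_mem hnV hmv a ha
        simpa [mul_assoc] using (Subgroup.mem_normalizer_iff.1 (hQV hwQ) _).1 h1)
    set c := v * w with hc
    have hcQ : c ∈ Q := mul_mem (hVQ hv) hwQ
    suffices hcV : c ∈ V by simpa [hc] using V.mul_mem (V.inv_mem hv) hcV
    -- averaging
    have : Fintype (Subgroup.zpowers n) := Fintype.ofFinite _
    have hVn : (V.subgroupOf Q).Normal := Subgroup.normal_subgroupOf_of_le_normalizer hQV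
    let : CommGroup (Q ⧸ V.subgroupOf Q) :=
      { (inferInstance : Group (Q ⧸ V.subgroupOf Q)) with
        mul_comm := by
          rintro ⟨u⟩ ⟨v⟩
          refine QuotientGroup.eq.2 (?_ : ((u * v)⁻¹ * (v * u) : Q) ∈ V.subgroupOf Q)
          have : ((u * v)⁻¹ * (v * u) : Q) = ⁅v⁻¹, u⁻¹⁆ := by rw [commutatorElement_def]; group
          rw [this, Subgroup.mem_subgroupOf]
          exact hphiV (commutatorElement_mem_phi hQ (inv_mem v.2) (inv_mem u.2)) }
    let f : Subgroup.zpowers n → Q →* Q := fun a =>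
      { toFun := fun q => ⟨a * q * (a : G)⁻¹, (Subgroup.mem_normalizer_iff.1 (hnA a.2) q).1 q.2⟩
        map_one' := Subtype.ext (by simp)
        map_mul' := fun q r => Subtype.ext (by simp [mul_assoc]) }
    let ψ : Q →* Q ⧸ V.subgroupOf Q :=
      ∏ a : Subgroup.zpowers n, (QuotientGroup.mk' (V.subgroupOf Q)).comp (f a)
    have hψ : ∀ q, ψ q = ∏ a : Subgroup.zpowers n, (QuotientGroup.mk (f a q) : Q ⧸ V.subgroupOf Q) :=
      fun q => MonoidHom.finsetProd_apply _ _ _
    have hker : Q ≤ ψ.ker.map Q.subtype := hR'.symm.le.trans (Subgroup.commutator_le.2 fun q hq b hb => by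
      refine ⟨⟨q, hq⟩ * (f ⟨b, hb⟩ ⟨q, hq⟩)⁻¹, ?_, by simp [f, commutatorElement_def, mul_assoc]⟩
      rw [SetLike.mem_coe, MonoidHom.mem_ker, map_mul, map_inv, mul_inv_eq_one, hψ, hψ]
      refine (Fintype.prod_equiv (Equiv.mulRight ⟨b, hb⟩) _ _ fun a => ?_).symm
      exact congrArg _ (Subtype.ext (by simp [f, mul_assoc])))
    have h1 : ψ ⟨c, hcQ⟩ = 1 := by
      obtain ⟨y, hy, he⟩ := hker hcQ
      exact (Subtype.ext he : y = ⟨c, hcQ⟩) ▸ hy
    have h2 : ∀ a, f a ⟨c, hcQ⟩ = ⟨c, hcQ⟩ := fun a => Subtype.ext (by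
      show (a : G) * c * (a : G)⁻¹ = c
      rw [Subgroup.mem_centralizer_iff.1 hvw a a.2, mul_inv_cancel_right])
    rw [hψ, Finset.prod_congr rfl (fun a _ => by rw [h2 a]), Finset.prod_const, Finset.card_univ,
      ← QuotientGroup.mk_pow, QuotientGroup.eq_one_iff, Subgroup.mem_subgroupOf,
      ← Nat.card_eq_fintype_card, SubmonoidClass.coe_pow] at h1
    obtain ⟨i, hi⟩ := exists_pow_eq_self_of_coprime
      (hcop.coprime_dvd_right (Q.orderOf_dvd_natCard hcQ))
    exact hi ▸ pow_mem h1 i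
  -- a maximal subgroup of `P` not containing `Q`
  obtain ⟨q₀, hq₀, hq₀Φ⟩ := SetLike.not_le_iff_exists.1 hQΦ
  obtain ⟨M, hMP, hPM, hMc, hΦM, hqM⟩ := exists_index_prime P.isPGroup' (hQP hq₀) hq₀Φ
  have hVne : V ≠ Q := fun h => hq₀Φ (hVle (h.symm ▸ hq₀ : q₀ ∈ V)).2
  have hnall : ¬ ∀ y ∈ Q, Commute n y := by
    intro hall
    have : R ≤ ⊥ := Subgroup.commutator_le.2 fun y hy a ha => by
      obtain ⟨j, rfl⟩ := ha
      rw [Subgroup.mem_bot, commutatorElement_eq_one_iff_mul_comm]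
      exact ((hall y hy).zpow_left j).eq.symm
    rw [hR'] at this
    exact hq₀Φ (Subgroup.mem_bot.1 (this hq₀) ▸ one_mem _)
  have hidx : Nat.card (Q ⊓ M : Subgroup G) * p = Nat.card Q := by
    have hQM : Q ≤ Subgroup.normalizer (M : Set G) := hQP.trans hPM
    have h1 : M.relIndex Q ∣ p := by
      have h2 : (M.subgroupOf P).index = p := by
        have := Subgroup.card_mul_index (M.subgroupOf P)
        rw [Nat.card_congr (Subgroup.subgroupOfEquivOfLe hMP).toEquiv, ← hMc] at this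
        exact Nat.eq_of_mul_eq_mul_left Nat.card_pos this
      have hn' : (M.subgroupOf P).Normal := Subgroup.normal_subgroupOf_of_le_normalizer hPM
      have h3 := Subgroup.relIndex_dvd_index_of_normal (M.subgroupOf P) (Q.subgroupOf P)
      rwa [Subgroup.relIndex_subgroupOf hQP, h2] at h3
    have h4 : M.relIndex Q = p := by
      rcases (Nat.dvd_prime hp.out).1 h1 with h | h
      · exact absurd (Subgroup.relIndex_eq_one.1 h hq₀) hqM
      · exact h
    have := Subgroup.card_mul_index (M.subgroupOf Q)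
    rw [Subgroup.relIndex] at h4
    rw [h4, ← Subgroup.card_map_of_injective Q.subtype_injective, Subgroup.subgroupOf_map_subtype,
      inf_comm] at this
    exact this
  obtain ⟨y, hy, hyV⟩ : ∃ y ∈ Q ⊓ M, y ∉ V := by
    by_contra h
    push Not at h
    have heq : Q ⊓ M = V := le_antisymm h (le_inf hVQ ((hVle.trans inf_le_right).trans hΦM))
    have hlast : ∀ z ∈ Q, z⁻¹ * (n * z * n⁻¹) ∈ V :=
      fun z hz => conj_mem_of_index hVQ (heq ▸ hidx) hn hnV hm hz
    refine hVne (le_antisymm hVQ (hR'.symm.le.trans (Subgroup.commutator_le.2 fun z hz a ha => ?_)))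
    have h1 := zpow_conj_mem hnV (hlast z⁻¹ (inv_mem hz)) a ha
    rw [commutatorElement_def]
    simpa [mul_assoc] using h1
  by_cases hyd : orderOf y ≤ p ^ e
  · -- extend `⟨y⟩` inside `M`
    obtain ⟨i, hi⟩ := IsPGroup.iff_card.1 (P.isPGroup'.to_le hMP)
    obtain ⟨l, hl⟩ := IsPGroup.iff_card.1 P.isPGroup'
    obtain ⟨j, hj⟩ := IsPGroup.iff_card.1 (P.isPGroup'.to_le (Subgroup.zpowers_le.2 (hMP hy.2)))
    have hei : e ≤ i := by
      have h1 : e < l := (Nat.pow_lt_pow_iff_right hp.out.one_lt).1 (hl ▸ heP)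
      have h2 : p ^ (i + 1) = p ^ l := by rw [pow_succ, ← hi, ← hl]; exact hMc
      have := Nat.pow_right_injective hp.out.two_le h2
      omega
    obtain ⟨K, hK, hyK⟩ := Sylow.exists_subgroup_card_pow_prime_le p (hi ▸ pow_dvd_pow p hei : p ^ e ∣ Nat.card M)
      ((Subgroup.zpowers y).subgroupOf M)
      ((Nat.card_congr (Subgroup.subgroupOfEquivOfLe (Subgroup.zpowers_le.2 hy.2)).toEquiv).trans hj)
      ((Nat.pow_le_pow_iff_right hp.out.one_lt).1 (by rw [← hj, Nat.card_zpowers]; exact hyd))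
    set E := K.map M.subtype with hE
    have hEM : E ≤ M := Subgroup.map_subtype_le _
    have hEc : Nat.card E = p ^ e := by rw [hE, Subgroup.card_map_of_injective M.subtype_injective, hK]
    refine hyV (hin (E ⊓ Q) inf_le_right ?_ (mem_normalizer_inf P (hEM.trans hMP) hQP
      (hcl E (hEM.trans hMP) (Or.inl hEc)) hn)
      ⟨⟨⟨y, hy.2⟩, hyK (by exact Subgroup.mem_zpowers y), rfl⟩, hy.1⟩)
    exact fun h => hqM (hEM (h.symm ▸ hq₀ : q₀ ∈ E ⊓ Q).1)
  · -- `Q` is big
    refine hnall (commute_of_fixed_order (Nat.card Q) Q n e le_rfl hQ hn hm he ?_ fun E hEQ hEc => ?_)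
    · exact (not_le.1 hyd).trans_le (Nat.le_of_dvd Nat.card_pos (Q.orderOf_dvd_natCard hy.1))
    · have := mem_normalizer_inf P (hEQ.trans hQP) hQP (hcl E (hEQ.trans hQP) hEc) hn
      rwa [inf_eq_left.2 hEQ] at this

end

/-- Let G be a finite group, p the smallest prime dividing |G| and P a Sylow p-subgroup. Suppose that P is cyclic, or that P has a subgroup D with 1 < |D| < |P| such that every subgroup E of P of order |D|, and also every subgroup E of P of order 4 when |D| = 2, satisfies g E g⁻¹ ∩ N_G(E) ≤ E for all g ∈ G (E is strongly closed in its normalizer with respect to G). Then G has a normal p-complement. -/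
theorem result {G : Type*} [Group G] [Finite G] {p : ℕ} [Fact p.Prime] (hdiv : p ∣ Nat.card G)
    (hmin : ∀ q : ℕ, q.Prime → q ∣ Nat.card G → p ≤ q) (P : Sylow p G)
    (h : IsCyclic ↥(P : Subgroup G) ∨ ∃ D : Subgroup G, D ≤ (P : Subgroup G) ∧ 1 < Nat.card D ∧ Nat.card D < Nat.card (P : Subgroup G) ∧
      ∀ E : Subgroup G, E ≤ (P : Subgroup G) → (Nat.card E = Nat.card D ∨ (Nat.card D = 2 ∧ Nat.card E = 4)) →
        ∀ g : G, E.map (MulAut.conj g).toMonoidHom ⊓ Subgroup.normalizer (E : Set G) ≤ E) :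
    Cfsg.HasNormalPComplement p G := by
  have hP0 : 1 < Nat.card (P : Subgroup G) := by
    have := Sylow.dvd_card_of_dvd_card P hdiv
    exact lt_of_lt_of_le (Fact.out (p := p.Prime)).one_lt (Nat.le_of_dvd Nat.card_pos this)
  rcases h with hc | ⟨D, hDP, hD1, hD2, hcl⟩
  · have hmf : (Nat.card G).minFac = p := by
      have hne : Nat.card G ≠ 1 := fun h => (Fact.out (p := p.Prime)).one_lt.ne' (Nat.dvd_one.1 (h ▸ hdiv))
      exact le_antisymm (Nat.minFac_le_of_dvd (Fact.out (p := p.Prime)).two_le hdiv)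
        (hmin _ (Nat.minFac_prime hne) (Nat.minFac_dvd _))
    exact ⟨P, _, MonoidHom.normal_ker _, IsCyclic.isComplement' hmf hc⟩
  obtain ⟨e, hed⟩ := IsPGroup.iff_card.1 (P.isPGroup'.to_le hDP)
  have he : 1 ≤ e := by
    rcases Nat.eq_zero_or_pos e with rfl | h
    · rw [hed, pow_zero] at hD1; exact absurd hD1 (lt_irrefl 1)
    · exact h
  rw [hed] at hD2 hcl
  have hloc := local_step hmin P he hD2 hcl
  set Φ := phi (P : Subgroup G) with hΦ
  have hPΦ : ∀ g ∈ (P : Subgroup G), ∀ y ∈ Φ, g * y * g⁻¹ ∈ Φ := fun g hg y hy =>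
    (Subgroup.mem_normalizer_iff.1 (mem_normalizer_phi (Subgroup.le_normalizer hg)) y).1 hy
  have hfus := fusion_induction P (rel := fun x y => x⁻¹ * y ∈ Φ)
    (fun x _ => by simp) (fun x _ y _ h => by simpa using inv_mem h)
    (fun x _ y _ z _ h1 h2 => by simpa [mul_assoc] using mul_mem h1 h2)
    (fun s hs x hx => by
      have := commutatorElement_mem_phi P.isPGroup' (inv_mem hx) hs
      have e1 : ⁅x⁻¹, s⁆ = x⁻¹ * (s * x * s⁻¹) := by rw [commutatorElement_def]; group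
      exact e1 ▸ this)
    (fun E hEP n hn hnp x hx => hloc (Nat.card E) E le_rfl hEP n hn hnp x hx)
  refine tate_residual P ?_
  rw [← Subgroup.map_subtype_le_map_subtype, Subgroup.subgroupOf_map_subtype, inf_comm]
  refine (inf_pResidual_le_focal P).trans (focalSubgroup_le_of_forall fun x hx g hg => ?_)
  have h1 := hPΦ x hx _ (inv_mem (hfus g x hx hg))
  have e1 : x * (x⁻¹ * (g * x * g⁻¹))⁻¹ * x⁻¹ = x * (g * x⁻¹ * g⁻¹) := by group
  exact e1 ▸ h1

end Cfsg.Agent.S3031
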