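import Cfsg.Statements.S3032
import Cfsg.Agent.S3031
import Cfsg.Agent.SupersolvableNormal.Basic
import Cfsg.Agent.PCore.Lift

set_option autoImplicit false
open Cfsg

namespace Cfsg.Agent.S3032

universe u

open Subgroup

/-- The hypothesis on `E`. -/
def Hyp {G : Type u} [Group G] (E : Subgroup G) : Prop :=
  ∀ (p : ℕ), p.Prime → ∀ P : Subgroup G, P ≤ E → IsPGroup p P → ¬ p ∣ P.relIndex E → ¬ IsCyclic ↥P →
    ∃ D : Subgroup G, D ≤ P ∧ 1 < Nat.card D ∧ Nat.card D < Nat.card P ∧
      ∀ F : Subgroup G, F ≤ P → (Nat.card F = Nat.card D ∨ (Nat.card D = 2 ∧ Nat.card F = 4)) →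
        ∀ g : G, F.map (MulAut.conj g).toMonoidHom ⊓ Subgroup.normalizer (F : Set G) ≤ F

/-- A Sylow subgroup normalises a subgroup which is strongly closed in its normaliser. -/
theorem le_normalizer_of_closed {p : ℕ} [Fact p.Prime] {G : Type u} [Group G] [Finite G] (S : Sylow p G)
    {F : Subgroup G} (hF : F ≤ (S : Subgroup G))
    (hcl : ∀ g : G, F.map (MulAut.conj g).toMonoidHom ⊓ Subgroup.normalizer (F : Set G) ≤ F) :
    (S : Subgroup G) ≤ Subgroup.normalizer (F : Set G) := by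
  by_contra hle
  set D := Subgroup.normalizer (F : Set G) ⊓ (S : Subgroup G) with hD
  have hlt : D < (S : Subgroup G) := lt_of_le_of_ne inf_le_right fun h => hle (h.ge.trans inf_le_left)
  obtain ⟨g, hg, hgD⟩ := SetLike.exists_of_lt (CfsgLib.Transfer.inf_normalizer_gt S hlt)
  refine hgD ⟨?_, hg.2⟩
  show g ∈ Subgroup.normalizer (F : Set G)
  rw [Subgroup.mem_normalizer_iff_map_conj_eq]
  refine Subgroup.eq_of_le_of_card_ge ?_ (le_of_eq ?_)
  · intro x hx
    refine hcl g ⟨hx, ?_⟩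
    obtain ⟨y, hy, rfl⟩ := hx
    exact ((Subgroup.mem_normalizer_iff.1 hg.1 y).1 ⟨Subgroup.le_normalizer hy, hF hy⟩).1
  · exact (Subgroup.card_map_of_injective (MulAut.conj g).injective).symm

/-- A normal Sylow subgroup contains the `q`-subgroups. -/
theorem le_of_sylow {q : ℕ} [Fact q.Prime] {G : Type u} [Group G] [Finite G] {K Q X : Subgroup G} (hQK : Q ≤ K)
    (hQ : IsPGroup q Q) (hd : ¬ q ∣ Q.relIndex K) (hn : K ≤ normalizer (Q : Set G)) (hXK : X ≤ K)
    (hX : IsPGroup q X) : X ≤ Q := by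
  have hsup : IsPGroup q ↥(Q ⊔ X : Subgroup G) := hQ.to_sup_of_normal_left' hX (hXK.trans hn)
  have hle : Q ⊔ X ≤ K := sup_le hQK hXK
  have h1 : Q.relIndex (Q ⊔ X) ∣ Q.relIndex K := Dvd.intro _ (relIndex_mul_relIndex Q (Q ⊔ X) K le_sup_left hle)
  obtain ⟨j, hj⟩ := IsPGroup.iff_card.mp hsup
  obtain ⟨i, -, hi⟩ := (Nat.dvd_prime_pow (Fact.out : q.Prime)).mp (hj ▸ index_dvd_card (Q.subgroupOf (Q ⊔ X)))
  rcases Nat.eq_zero_or_pos i with rfl | hi0
  · exact le_sup_right.trans (relIndex_eq_one.mp (by rw [pow_zero] at hi; exact hi))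
  · have h2 : q ∣ Q.relIndex (Q ⊔ X) := by rw [relIndex, hi]; exact dvd_pow_self q hi0.ne'
    exact absurd (h2.trans h1) hd

theorem exists_normal_sylow : ∀ (k : ℕ) {G : Type u} [Group G] [Finite G] (E : Subgroup G), Nat.card E ≤ k → E ≠ ⊥ →
    Hyp E → ∃ (q : ℕ) (Q : Subgroup G), q.Prime ∧ Q ≤ E ∧ IsPGroup q Q ∧ Q ≠ ⊥ ∧ ¬ q ∣ Q.relIndex E ∧
      E ≤ normalizer (Q : Set G) := by
  intro k
  induction k using Nat.strong_induction_on with
  | _ k ih =>
  intro G _ _ E hk hE1 hyp
  have hne : Nat.card E ≠ 1 := fun h => hE1 (card_eq_one.mp h)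
  set p := (Nat.card E).minFac with hp
  haveI := Fact.mk (Nat.minFac_prime hne)
  obtain ⟨P⟩ := (inferInstance : Nonempty (Sylow p E))
  set P' := (P : Subgroup E).map E.subtype with hP'
  have hP'E : P' ≤ E := map_subtype_le _
  have hrel : P'.relIndex E = (P : Subgroup E).index := by
    rw [relIndex, hP', subgroupOf, comap_map_eq_self_of_injective E.subtype_injective]
  have hcompl : Cfsg.HasNormalPComplement p E := by
    refine Cfsg.Agent.S3031.result (Nat.minFac_dvd _) (fun q hq hqd => Nat.minFac_le_of_dvd hq.two_le hqd) P ?_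
    by_cases hc : IsCyclic ↥(P : Subgroup E)
    · exact Or.inl hc
    right
    have hnc : ¬ IsCyclic ↥P' := fun h => hc (by
      haveI := h
      exact isCyclic_of_injective ((P : Subgroup E).equivMapOfInjective E.subtype E.subtype_injective).toMonoidHom
        (MulEquiv.injective _))
    obtain ⟨D, hDP, hD1, hD2, hcl⟩ := hyp p (Fact.out) P' hP'E (P.isPGroup'.map _) (hrel ▸ P.not_dvd_index) hnc
    have hDE : D ≤ E := hDP.trans hP'E
    have hDc : Nat.card (D.subgroupOf E) = Nat.card D := Nat.card_congr (subgroupOfEquivOfLe hDE).toEquiv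
    refine ⟨D.subgroupOf E, fun d hd => ?_, by rw [hDc]; exact hD1, ?_, fun F hFP hFc g => ?_⟩
    · obtain ⟨d', hd', hde⟩ := hDP hd
      exact (E.subtype_injective hde) ▸ hd'
    · rw [hDc]
      rwa [hP', card_map_of_injective E.subtype_injective] at hD2
    · intro x hx
      have h1 := hcl (F.map E.subtype) (map_mono hFP)
        (by rw [card_map_of_injective E.subtype_injective]; rwa [hDc] at hFc) (g : G)
        (show (x : G) ∈ _ from ⟨by
          obtain ⟨y, hy, rfl⟩ := hx.1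
          exact ⟨y, ⟨y, hy, rfl⟩, rfl⟩, Subgroup.le_normalizer_map E.subtype ⟨x, hx.2, rfl⟩⟩)
      exact (mem_map_iff_mem E.subtype_injective).mp h1
  obtain ⟨P₀, N, hN, hNP⟩ := hcompl
  haveI := hN
  set K := N.map E.subtype with hK
  have hidx : N.index = Nat.card (P₀ : Subgroup E) := Subgroup.IsComplement'.index_eq_card hNP.symm
  have hKE : K ≤ E := map_subtype_le _
  have hKn : E ≤ normalizer (K : Set G) := by
    have h := Subgroup.le_normalizer_map E.subtype (H := N)
    rw [normalizer_eq_top_iff.mpr hN, ← MonoidHom.range_eq_map, range_subtype] at h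
    exact h
  by_cases hK1 : K = ⊥
  · refine ⟨p, E, Fact.out, le_rfl, ?_, hE1, by rw [relIndex_self]; exact fun h => (Fact.out : p.Prime).ne_one (Nat.dvd_one.mp h), le_normalizer⟩
    have hN1 : N = ⊥ := (map_eq_bot_iff_of_injective _ E.subtype_injective).mp hK1
    obtain ⟨j, hj⟩ := IsPGroup.iff_card.mp P₀.isPGroup'
    exact IsPGroup.of_card (n := j) (by rw [← hj, ← hidx, hN1, index_bot])
  have hpow : ∀ r : ℕ, r.Prime → r ≠ p → ¬ r ∣ K.relIndex E := fun r hr hrp hd => by
    rw [relIndex, hK, subgroupOf, comap_map_eq_self_of_injective E.subtype_injective, hidx] at hd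
    obtain ⟨j, hj⟩ := IsPGroup.iff_card.mp P₀.isPGroup'
    rw [hj] at hd
    exact hrp ((Nat.prime_dvd_prime_iff_eq hr Fact.out).mp (hr.dvd_of_dvd_pow hd))
  have hpK : ¬ p ∣ Nat.card K := by
    intro hd
    rw [hK, card_map_of_injective E.subtype_injective] at hd
    have h1 : N.index * p ∣ Nat.card E := by
      rw [← N.card_mul_index, mul_comm (Nat.card N)]
      exact Nat.mul_dvd_mul_left _ hd
    obtain ⟨j, hj⟩ := IsPGroup.iff_card.mp P₀.isPGroup'
    rw [hidx, hj, ← pow_succ] at h1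
    have h2 := ((Fact.out : p.Prime).pow_dvd_iff_le_factorization Nat.card_pos.ne').mp h1
    rw [P₀.card_eq_multiplicity] at hj
    have := Nat.pow_right_injective (Fact.out : p.Prime).two_le hj
    omega
  have hlt : Nat.card K < k := by
    refine lt_of_lt_of_le (lt_of_le_of_ne (card_le_of_le hKE) fun e => hpK (e ▸ Nat.minFac_dvd _)) hk
  obtain ⟨q, Q, hq, hQK, hQ, hQ1, hQd, hQn⟩ := ih _ hlt K le_rfl hK1 (fun r hr R hRK hR hRd hRc => by
    refine hyp r hr R (hRK.trans hKE) hR ?_ hRc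
    rw [← relIndex_mul_relIndex R K E hRK hKE]
    by_cases hrp : r = p
    · subst hrp
      exfalso
      obtain ⟨j, hj⟩ := IsPGroup.iff_card.mp hR
      rcases Nat.eq_zero_or_pos j with rfl | hj0
      · exact hRc (by
          rw [pow_zero] at hj
          haveI := (Nat.card_eq_one_iff_unique.mp hj).1
          exact isCyclic_of_subsingleton)
      · exact hpK ((hj ▸ dvd_pow_self p hj0.ne' : p ∣ Nat.card R).trans (card_dvd_of_le hRK))
    · exact fun hd => ((hr.dvd_mul).mp hd).elim hRd (hpow r hr hrp))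
  haveI := Fact.mk hq
  have hqp : q ≠ p := by
    rintro rfl
    obtain ⟨j, hj⟩ := IsPGroup.iff_card.mp hQ
    rcases Nat.eq_zero_or_pos j with rfl | hj0
    · exact hQ1 (card_eq_one.mp (by rw [hj, pow_zero]))
    · exact hpK ((hj ▸ dvd_pow_self p hj0.ne' : p ∣ Nat.card Q).trans (card_dvd_of_le hQK))
  refine ⟨q, Q, hq, hQK.trans hKE, hQ, hQ1, ?_, fun e he => ?_⟩
  · rw [← relIndex_mul_relIndex Q K E hQK hKE]
    exact fun hd => ((hq.dvd_mul).mp hd).elim hQd (hpow q hq hqp)
  · refine Subgroup.mem_normalizer_fintype (S := (Q : Set G)) fun y hy => ?_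
    refine le_of_sylow hQK hQ hQd hQn (X := Q.map (MulAut.conj e).toMonoidHom) ?_ (hQ.map _) ⟨y, hy, rfl⟩
    rintro _ ⟨v, hv, rfl⟩
    exact (mem_normalizer_iff.mp (hKn he) v).mp (hQK hv)

theorem main : ∀ (k : ℕ) {G : Type u} [Group G] [Finite G] (E : Subgroup G) [E.Normal], Nat.card G ≤ k →
    Cfsg.IsSupersolvable (G ⧸ E) → Hyp E → Cfsg.IsSupersolvable G := by
  intro k
  induction k using Nat.strong_induction_on with
  | _ k ih =>
  intro G _ _ E _ hk hGE hyp
  by_cases hE1 : E = ⊥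
  · subst hE1
    exact CfsgLib.Hall.Supersolv.isSupersolvable_of_surjective (QuotientGroup.quotientBot (G := G)).toMonoidHom
      (QuotientGroup.quotientBot (G := G)).surjective hGE
  obtain ⟨q, Q, hq, hQE, hQ, hQ1, hQd, hQn⟩ := exists_normal_sylow (Nat.card E) E le_rfl hE1 hyp
  haveI := Fact.mk hq
  haveI hQnormal : Q.Normal := ⟨fun y hy g => le_of_sylow hQE hQ hQd hQn (X := Q.map (MulAut.conj g).toMonoidHom)
    (by rintro _ ⟨v, hv, rfl⟩; exact ‹E.Normal›.conj_mem v (hQE hv) g) (hQ.map _) ⟨y, hy, rfl⟩⟩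
  set π := QuotientGroup.mk' Q with hπ
  have hsur := QuotientGroup.mk'_surjective Q
  haveI : (E.map π).Normal := Subgroup.Normal.map inferInstance _ hsur
  have hGQ : Cfsg.IsSupersolvable (G ⧸ Q) := by
    refine ih (Nat.card (G ⧸ Q)) (lt_of_lt_of_le (CfsgLib.Hall.Supersolv.card_quotient_lt hQ1) hk) (E.map π) le_rfl
      (CfsgLib.SupersolvableNormal.quotient_quotient hGE) ?_
    intro r hr P' hP'E hP' hP'd hP'c
    haveI := Fact.mk hr
    set X := P'.comap π with hX
    have hQX : Q ≤ X := fun y hy => by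
      rw [hX, mem_comap, show π y = 1 from (QuotientGroup.eq_one_iff y).mpr hy]; exact one_mem _
    have hEc : (E.map π).comap π = E := by
      rw [comap_map_eq, QuotientGroup.ker_mk']; exact sup_eq_left.mpr hQE
    have hXE : X ≤ E := hEc ▸ comap_mono hP'E
    have hXd : X.relIndex E = P'.relIndex (E.map π) := by rw [hX, relIndex_comap]
    have hrq : r ≠ q := by
      rintro rfl
      obtain ⟨j, hj⟩ := IsPGroup.iff_card.mp hP'
      rcases Nat.eq_zero_or_pos j with rfl | hj0
      · refine hP'c ?_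
        rw [pow_zero] at hj
        haveI := (Nat.card_eq_one_iff_unique.mp hj).1
        exact isCyclic_of_subsingleton
      · refine hQd ((hj ▸ dvd_pow_self r hj0.ne' : r ∣ Nat.card P').trans ((card_dvd_of_le hP'E).trans ?_))
        rw [← relIndex_ker, QuotientGroup.ker_mk']
    have hcop : (Nat.card Q).Coprime r := by
      obtain ⟨j, hj⟩ := IsPGroup.iff_card.mp hQ
      rw [hj]
      exact ((Nat.coprime_primes hq hr).mpr hrq.symm).pow_left j
    have hinj : ∀ A : Subgroup G, IsPGroup r A → Nat.card (A.map π) = Nat.card A := fun A hA => by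
      rw [← relIndex_ker, QuotientGroup.ker_mk', ← inf_relIndex_right]
      rw [show Q ⊓ A = ⊥ by rw [inf_comm]; exact CfsgLib.PCore.inf_eq_bot_of_isPGroup_of_coprime hA hcop]
      exact relIndex_bot_left A
    obtain ⟨R₀⟩ := (inferInstance : Nonempty (Sylow r X))
    set R := (R₀ : Subgroup X).map X.subtype with hR
    have hRX : R ≤ X := map_subtype_le _
    have hRp : IsPGroup r R := R₀.isPGroup'.map _
    have hRd : ¬ r ∣ R.relIndex E := by
      rw [← relIndex_mul_relIndex R X E hRX hXE, hXd]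
      refine fun hd => ((hr.dvd_mul).mp hd).elim ?_ hP'd
      rw [relIndex, hR, subgroupOf, comap_map_eq_self_of_injective X.subtype_injective]
      exact R₀.not_dvd_index
    have hRmap : R.map π = P' := by
      refine le_antisymm (map_le_iff_le_comap.mpr hRX) fun y hy => ?_
      let f : X →* P' := (π.comp X.subtype).codRestrict P' fun a => a.2
      have hf : Function.Surjective f := fun ⟨a, ha⟩ => by
        obtain ⟨b, rfl⟩ := hsur a
        exact ⟨⟨b, ha⟩, rfl⟩
      have h1 : ((R₀.mapSurjective hf : Sylow r P') : Subgroup P') = ⊤ :=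
        ((R₀.mapSurjective hf).is_maximal' (hP'.of_equiv topEquiv.symm) le_top).symm
      have h2 : (⟨y, hy⟩ : P') ∈ ((R₀.mapSurjective hf : Sylow r P') : Subgroup P') := by rw [h1]; exact mem_top _
      obtain ⟨b, hb, hbe⟩ := h2
      exact ⟨b, ⟨b, hb, rfl⟩, congrArg Subtype.val hbe⟩
    have hRc : ¬ IsCyclic ↥R := fun h => by
      haveI := h
      refine hP'c ?_
      rw [← hRmap]
      exact isCyclic_of_surjective (π.subgroupMap R) (MonoidHom.subgroupMap_surjective π R)
    obtain ⟨D, hDR, hD1, hD2, hcl⟩ := hyp r hr R (hRX.trans hXE) hRp hRd hRc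
    refine ⟨D.map π, hRmap ▸ map_mono hDR, by rw [hinj D (hRp.to_le hDR)]; exact hD1,
      by rw [hinj D (hRp.to_le hDR), ← hRmap, hinj R hRp]; exact hD2, fun F' hF' hF'c g' => ?_⟩
    obtain ⟨g, rfl⟩ := hsur g'
    set F := R ⊓ F'.comap π with hF
    have hFmap : F.map π = F' := by
      refine le_antisymm (map_le_iff_le_comap.mpr inf_le_right) fun y hy => ?_
      obtain ⟨b, hb, rfl⟩ := (hRmap ▸ hF' hy : y ∈ R.map π)
      exact ⟨b, ⟨hb, hy⟩, rfl⟩
    have hFp : IsPGroup r F := hRp.to_le inf_le_left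
    have hFc : Nat.card F = Nat.card D ∨ (Nat.card D = 2 ∧ Nat.card F = 4) := by
      rw [hinj D (hRp.to_le hDR), ← hFmap, hinj F hFp] at hF'c
      exact hF'c
    intro x hx
    set Fg := F.map (MulAut.conj g).toMonoidHom with hFg
    have hFgmap : Fg.map π = F'.map (MulAut.conj (π g)).toMonoidHom := by
      rw [← hFmap, hFg, Subgroup.map_map, Subgroup.map_map]
      congr 1
    have hxN : x ∈ (normalizer (F : Set G)).map π := by
      refine CfsgLib.PCore.normalizer_map_le_map Q hcop F hFp ?_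
      rw [hFmap]; exact hx.2
    obtain ⟨n₀, hn₀, hn₀x⟩ := hxN
    obtain ⟨j, hj⟩ : ∃ j, x ^ r ^ j = 1 := by
      obtain ⟨j, hj⟩ := ((hFp.map (MulAut.conj g).toMonoidHom).map π) ⟨x, (hFgmap ▸ hx.1 : x ∈ Fg.map π)⟩
      exact ⟨j, congrArg Subtype.val hj⟩
    -- an `r`-element of `N(F)` over `x`
    obtain ⟨n, hnN, hnx, hnp⟩ : ∃ n ∈ normalizer (F : Set G), π n = x ∧ IsPGroup r (zpowers n) := by
      set f := (orderOf n₀).factorization r with hf
      set m := orderOf n₀ / r ^ f with hm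
      have hmr : (r ^ j).Coprime m := (Nat.coprime_ordCompl hr (orderOf_pos n₀).ne').pow_left j
      obtain ⟨i, hi⟩ := exists_pow_eq_self_of_coprime (x := x)
        (hmr.symm.coprime_dvd_right (orderOf_dvd_of_pow_eq_one hj))
      refine ⟨(n₀ ^ m) ^ i, Subgroup.pow_mem _ (Subgroup.pow_mem _ hn₀ _) _, by rw [map_pow, map_pow, hn₀x, hi], ?_⟩
      have h1 : orderOf (n₀ ^ m) ∣ r ^ f := by
        refine orderOf_dvd_of_pow_eq_one ?_
        rw [← pow_mul, hm, Nat.div_mul_cancel (Nat.ordProj_dvd _ _), pow_orderOf_eq_one]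
      obtain ⟨l, -, hl⟩ := (Nat.dvd_prime_pow hr).mp ((orderOf_pow_dvd i).trans h1)
      exact IsPGroup.of_card (n := l) (by rw [Nat.card_zpowers, hl])
    -- move `n` into a conjugate of `F`
    set Z := (Fg.map π).comap π with hZ
    have hFgZ : Fg ≤ Z := le_comap_map _ _
    have hnZ : n ∈ Z := by
      rw [hZ, mem_comap, hnx, hFgmap]
      exact hx.1
    have hFgp : IsPGroup r Fg := hFp.map _
    obtain ⟨T₀, hT₀⟩ := (hFgp.comap_of_injective Z.subtype Z.subtype_injective).exists_le_sylow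
    obtain ⟨T, hT⟩ := (hnp.comap_of_injective Z.subtype Z.subtype_injective).exists_le_sylow
    have hT₀le : (T₀ : Subgroup Z).map Z.subtype ≤ Fg := by
      have hle : Fg ≤ (T₀ : Subgroup Z).map Z.subtype := fun y hy => ⟨⟨y, hFgZ hy⟩, hT₀ hy, rfl⟩
      refine (eq_of_le_of_card_ge hle ?_).ge
      rw [← hinj _ (T₀.isPGroup'.map Z.subtype), ← hinj Fg hFgp]
      refine card_le_of_le (map_le_iff_le_comap.mpr ?_)
      rw [← hZ]
      exact map_subtype_le _
    obtain ⟨z, hz⟩ := MulAction.exists_smul_eq Z T₀ T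
    have hnT : (⟨n, hnZ⟩ : Z) ∈ (T : Subgroup Z) := hT (mem_zpowers n)
    rw [← hz, Sylow.coe_subgroup_smul, mem_pointwise_smul_iff_inv_smul_mem] at hnT
    have h3 : (z : G)⁻¹ * n * (z : G) ∈ Fg := hT₀le ⟨_, hnT, by simp [MulAut.conj_inv_apply]⟩
    obtain ⟨v, hv, hve⟩ := h3
    have hnF : n ∈ F := hcl F inf_le_left hFc ((z : G) * g) ⟨⟨v, hv, by
      have hve' : g * v * g⁻¹ = (z : G)⁻¹ * n * (z : G) := hve
      show (z : G) * g * v * ((z : G) * g)⁻¹ = n
      calc (z : G) * g * v * ((z : G) * g)⁻¹ = (z : G) * (g * v * g⁻¹) * (z : G)⁻¹ := by group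
        _ = n := by rw [hve']; group⟩, hnN⟩
    rw [← hnx, ← hFmap]
    exact ⟨n, hnF, rfl⟩
  by_cases hc : IsCyclic ↥Q
  · exact CfsgLib.Hall.Supersolv.isSupersolvable_of_cyclic_normal Q hGQ
  obtain ⟨D, hDQ, hD1, hD2, hcl⟩ := hyp q hq Q hQE hQ hQd hc
  obtain ⟨e, he⟩ := IsPGroup.iff_card.mp (hQ.to_le hDQ)
  rw [he] at hD1 hD2 hcl
  refine CfsgLib.SupersolvableNormal.of_fixed_order (p := q) (Nat.card G) Q e le_rfl hQ hGQ ?_ hD2 fun F hF hFc => ?_
  · rcases Nat.eq_zero_or_pos e with rfl | h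
    · rw [pow_zero] at hD1; exact absurd hD1 (lt_irrefl 1)
    · exact h
  · obtain ⟨S, hS⟩ := hQ.exists_le_sylow
    have hSn := le_normalizer_of_closed S (hF.trans hS) (hcl F hF hFc)
    refine ⟨fun y hy g => hcl F hF hFc g ⟨⟨y, hy, rfl⟩, hSn (hS ?_)⟩⟩
    exact hQnormal.conj_mem y (hF hy) g

/-- Let G be a finite group and E a normal subgroup with G/E supersolvable. Suppose that for every prime p and every non-cyclic Sylow p-subgroup P of E there is a subgroup D of P with 1 < |D| < |P| such that every subgroup F of P of order |D|, and also every subgroup F of P of order 4 when |D| = 2, satisfies g F g⁻¹ ∩ N_G(F) ≤ F for all g ∈ G. Then G is supersolvable. -/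
theorem result {G : Type*} [Group G] [Finite G] (E : Subgroup G) [E.Normal] (hGE : Cfsg.IsSupersolvable (G ⧸ E))
    (h : ∀ (p : ℕ), p.Prime → ∀ P : Subgroup G, P ≤ E → IsPGroup p P → ¬ p ∣ P.relIndex E → ¬ IsCyclic ↥P →
      ∃ D : Subgroup G, D ≤ P ∧ 1 < Nat.card D ∧ Nat.card D < Nat.card P ∧
        ∀ F : Subgroup G, F ≤ P → (Nat.card F = Nat.card D ∨ (Nat.card D = 2 ∧ Nat.card F = 4)) →
          ∀ g : G, F.map (MulAut.conj g).toMonoidHom ⊓ Subgroup.normalizer (F : Set G) ≤ F) :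
    Cfsg.IsSupersolvable G := by
  exact main (Nat.card G) E le_rfl hGE h

end Cfsg.Agent.S3032
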