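import Cfsg.Statements.S3035
import Cfsg.Agent.BSW.IndexTwo
import Cfsg.Agent.S0254
import Cfsg.Agent.S0255
import Cfsg.Agent.SLn.Card

set_option autoImplicit false
open Cfsg

namespace Cfsg.Agent.S3035

/-- Let G be a finite group with an involution z whose centralizer is dihedral of order 8. Then G = C_G(z) O(G) with O(G) the largest normal subgroup of odd order, or G is isomorphic to the symmetric group of degree 4, the symmetric group of degree 5, the group SL₃(2), or the alternating group of degree 6. -/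
theorem result {G : Type*} [Group G] [Finite G] (z : G) (hz : orderOf z = 2)
    (hC : Nonempty (↥(Subgroup.centralizer ({z} : Set G)) ≃* DihedralGroup 4)) :
    Subgroup.centralizer ({z} : Set G) ⊔ Cfsg.oddCore G = ⊤ ∨ Nonempty (G ≃* Equiv.Perm (Fin 4)) ∨ Nonempty (G ≃* Equiv.Perm (Fin 5)) ∨
      Nonempty (G ≃* Matrix.SpecialLinearGroup (Fin 3) (ZMod 2)) ∨ Nonempty (G ≃* ↥(alternatingGroup (Fin 6))) := by
  classical
  obtain ⟨e⟩ := hC
  by_cases hG : ∀ H : Subgroup G, H.index ≠ 2
  · obtain ⟨hS, h | h⟩ := CfsgLib.BSW.structured_of_dihedral_eight' hz e hG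
    · refine Or.inr (Or.inr (Or.inr (Or.inl ?_)))
      haveI : Fact (Nat.Prime 7) := ⟨by norm_num⟩
      haveI : Fact (Nat.Prime 2) := ⟨Nat.prime_two⟩
      obtain ⟨e1⟩ := hS.nonempty_iso (F := ZMod 7) (by rw [h, ZMod.card])
      obtain ⟨e2⟩ := Cfsg.Agent.S0255.result (F := ZMod 7) (K := ZMod 2) (ZMod.card 7) (ZMod.card 2)
      have hcen : Subgroup.center (Matrix.SpecialLinearGroup (Fin 3) (ZMod 2)) = ⊥ := by
        refine Subgroup.eq_bot_of_card_eq _ ?_
        rw [CfsgLib.SLn.card_center_SL (ZMod 2) 3 (by norm_num), ZMod.card]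
        rfl
      exact ⟨e1.trans (e2.trans ((QuotientGroup.quotientMulEquivOfEq hcen).trans QuotientGroup.quotientBot))⟩
    · refine Or.inr (Or.inr (Or.inr (Or.inr ?_)))
      haveI : Fact (Nat.Prime 3) := ⟨by norm_num⟩
      letI : Fintype (GaloisField 3 2) := Fintype.ofFinite _
      have hF : Fintype.card (GaloisField 3 2) = 9 := by
        rw [← Nat.card_eq_fintype_card, GaloisField.card 3 2 (by norm_num)]; norm_num
      obtain ⟨e1⟩ := hS.nonempty_iso (F := GaloisField 3 2) (by rw [h, hF])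
      obtain ⟨e2⟩ := Cfsg.Agent.S0254.result (F := GaloisField 3 2) hF
      exact ⟨e1.trans e2⟩
  · push Not at hG
    obtain ⟨H, hH⟩ := hG
    rcases CfsgLib.BSW.dihedral_eight_index_two hz e hH with h | h | h
    · exact Or.inl h
    · exact Or.inr (Or.inl h)
    · exact Or.inr (Or.inr (Or.inl h))

end Cfsg.Agent.S3035
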