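import Cfsg.Statements.S3048
import Cfsg.Agent.S3012
import Cfsg.Agent.Components.Basic
import Cfsg.Agent.Components.Cores
import Cfsg.Agent.Subnormal.BaerSuzuki
import Cfsg.Agent.Invol.TwoPart

set_option autoImplicit false
universe u
open Cfsg

namespace Cfsg.Agent.S3048

open scoped commutatorElement
open CfsgLib.Components

section aux
variable {G : Type*} [Group G]

theorem vcomm {V : Subgroup G} (hV : Cfsg.IsElementaryAbelian 2 V) {a b : G} (ha : a ∈ V) (hb : b ∈ V) :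
    a * b = b * a := congrArg Subtype.val (hV.1.is_comm.comm ⟨a, ha⟩ ⟨b, hb⟩)

theorem vsq {V : Subgroup G} (hV : Cfsg.IsElementaryAbelian 2 V) {a : G} (ha : a ∈ V) : a * a = 1 := by
  rw [← pow_two]; exact hV.2 a ha

theorem elem_le {U V : Subgroup G} (hUV : U ≤ V) (hV : Cfsg.IsElementaryAbelian 2 V) :
    Cfsg.IsElementaryAbelian 2 U :=
  ⟨⟨⟨fun a b => Subtype.ext (vcomm hV (hUV a.2) (hUV b.2))⟩⟩, fun a ha => hV.2 a (hUV ha)⟩

theorem sq_root {x : G} (ho : Odd (orderOf x)) (H : Subgroup G) (h : x * x ∈ H) : x ∈ H := by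
  obtain ⟨m, hm⟩ := ho
  have : (x * x) ^ (m + 1) = x := by
    rw [← pow_two, ← pow_mul, show 2 * (m + 1) = orderOf x + 1 by omega, pow_succ, pow_orderOf_eq_one, one_mul]
  rw [← this]; exact H.pow_mem h _

theorem odd_sq_one {x : G} (ho : Odd (orderOf x)) (h : x * x = 1) : x = 1 :=
  Subgroup.mem_bot.1 (sq_root ho ⊥ (Subgroup.mem_bot.2 h))

theorem mem_of_odd {U N : Subgroup G} [N.Normal] (hU : Cfsg.IsElementaryAbelian 2 U) {x : G}
    (hx : x ∈ U ⊔ N) (ho : Odd (orderOf x)) : x ∈ N := by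
  apply sq_root ho
  obtain ⟨u, hu, n, hn, rfl⟩ := Subgroup.mem_sup_of_normal_right.1 hx
  rw [show u * n * (u * n) = (u * u) * ((u⁻¹ * n * u) * n) by group, vsq hU hu, one_mul]
  refine N.mul_mem ?_ hn
  have := (inferInstance : N.Normal).conj_mem n hn u⁻¹
  rwa [inv_inv] at this

theorem witness {W : Subgroup G} (h : ¬ Cfsg.IsSidkiPair W) : ∃ y w : G, w ∈ W ∧ Odd (orderOf y) ∧
    w * y * w⁻¹ = y⁻¹ ∧ ∀ w' ∈ W, w' * y = y * w' → w' = 1 := by
  unfold Cfsg.IsSidkiPair at h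
  by_contra hc
  refine h fun y w hw ho hi => ?_
  by_contra hc2
  exact hc ⟨y, w, hw, ho, hi, fun w' hw' he => by_contra fun hne => hc2 ⟨w', hw', hne, he⟩⟩

theorem conj_fix {v x : G} (h : v * x = x * v) : v * x * v⁻¹ = x := mul_inv_eq_iff_eq_mul.2 h

variable [Finite G] (h0 : Cfsg.pCore 2 G = ⊥)
include h0

theorem subnormal_two_bot {D : Subgroup G} (hs : D.IsSubnormal) (hp : IsPGroup 2 ↥D) : D = ⊥ :=
  eq_bot_iff.2 ((subnormal_le_pCore hs hp).trans h0.le)

theorem elem_one {N : Subgroup G} (hN : N.Normal) {z : G} (hz : z ∈ N) (hz2 : z * z = 1)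
    (hc : ∀ n ∈ N, n * z = z * n) : z = 1 := by
  have hle : N ≤ Subgroup.normalizer (Subgroup.zpowers z : Set G) := by
    refine le_trans (fun n hn => ?_) (Subgroup.centralizer_le_normalizer _)
    rw [Subgroup.mem_centralizer_iff]
    rintro _ ⟨k, rfl⟩
    exact ((show Commute n z from hc n hn).zpow_right k).symm.eq
  have hs := subnormal_of_normal_le (Subgroup.zpowers_le.2 hz) hle hN.isSubnormal
  have hp : IsPGroup 2 ↥(Subgroup.zpowers z) := by
    rintro ⟨g, k, rfl⟩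
    refine ⟨1, Subtype.ext ?_⟩
    show (z ^ k) ^ (2 ^ 1) = 1
    rw [pow_one, pow_two, ← (Commute.refl z).mul_zpow, hz2, one_zpow]
  exact Subgroup.mem_bot.1 ((subnormal_two_bot h0 hs hp).le (Subgroup.mem_zpowers z))

end aux

section main
variable {G : Type u} [Group G] [Finite G]

theorem local_fail (h0 : Cfsg.pCore 2 G = ⊥)
    (hminG : ∀ (H : Type u) [Group H] [Finite H] (W : Subgroup H), Nat.card H < Nat.card G →
      Cfsg.IsElementaryAbelian 2 W → W ≠ ⊥ → Cfsg.IsSidkiPair W → W ⊓ Cfsg.pCore 2 H ≠ ⊥)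
    {U H T : Subgroup G} (hU : Cfsg.IsElementaryAbelian 2 U) (hU1 : U ≠ ⊥) (hH : H ≠ ⊤) (hUH : U ≤ H)
    (hTH : T ≤ H) (hn : H ≤ Subgroup.normalizer (T : Set G)) (hTs : T.IsSubnormal)
    (hf : ∀ u ∈ U, (∀ t ∈ T, u * t = t * u) → u = 1) :
    ∃ x ∈ H, ∃ u ∈ U, Odd (orderOf x) ∧ u * x * u⁻¹ = x⁻¹ ∧ ∀ w ∈ U, w * x = x * w → w = 1 := by
  haveI : Fact (Nat.Prime 2) := ⟨Nat.prime_two⟩
  by_contra hc
  have hS : Cfsg.IsSidkiPair (U.subgroupOf H) := by
    intro x u hu ho hi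
    by_contra hc2
    refine hc ⟨(x : G), x.2, (u : G), hu, by rwa [Subgroup.orderOf_coe],
      by simpa using congrArg (Subtype.val : ↥H → G) hi, fun w hw he => ?_⟩
    by_contra hne
    exact hc2 ⟨⟨w, hUH hw⟩, hw, fun e => hne (congrArg Subtype.val e), Subtype.ext he⟩
  have hE : Cfsg.IsElementaryAbelian 2 (U.subgroupOf H) :=
    ⟨⟨⟨fun a b => Subtype.ext (Subtype.ext (vcomm hU a.2 b.2))⟩⟩,
      fun a ha => Subtype.ext (hU.2 (a : G) ha)⟩
  have hne : U.subgroupOf H ≠ ⊥ := by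
    obtain ⟨u, hu, hu1⟩ := U.bot_or_exists_ne_one.resolve_left hU1
    intro e
    have : (⟨u, hUH hu⟩ : ↥H) ∈ U.subgroupOf H := hu
    rw [e, Subgroup.mem_bot] at this
    exact hu1 (congrArg Subtype.val this)
  obtain ⟨u, hu, hu1⟩ := (Subgroup.bot_or_exists_ne_one _).resolve_left
    (hminG ↥H _ (card_lt_of_ne_top hH) hE hne hS)
  refine hu1 (Subtype.ext (hf u hu.1 fun t ht => ?_))
  set P := (Cfsg.pCore 2 ↥H).map H.subtype with hP
  have hPn : ∀ h ∈ H, ∀ p ∈ P, h * p * h⁻¹ ∈ P := by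
    rintro h hh _ ⟨p, hp, rfl⟩
    haveI := pCore_characteristic (G := ↥H) 2
    exact ⟨⟨h, hh⟩ * p * ⟨h, hh⟩⁻¹, (inferInstance : (Cfsg.pCore 2 ↥H).Normal).conj_mem p hp _, rfl⟩
  have hnT : ∀ h ∈ H, ∀ s ∈ T, h * s * h⁻¹ ∈ T := fun h hh s hs =>
    (Subgroup.mem_normalizer_iff.1 (hn hh) s).1 hs
  have hD : P ⊓ T = ⊥ := by
    refine subnormal_two_bot h0 (subnormal_of_normal_le inf_le_right (fun a ha => ?_) hTs)
      (((pCore_isPGroup 2).map _).to_le inf_le_left)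
    rw [Subgroup.mem_normalizer_iff]
    intro b
    refine ⟨fun hb => ⟨hPn a (hTH ha) b hb.1, hnT a (hTH ha) b hb.2⟩, fun hb => ?_⟩
    have e : b = a⁻¹ * (a * b * a⁻¹) * a⁻¹⁻¹ := by group
    rw [e]
    exact ⟨hPn _ (H.inv_mem (hTH ha)) _ hb.1, hnT _ (H.inv_mem (hTH ha)) _ hb.2⟩
  have huP : (u : G) ∈ P := Subgroup.mem_map_of_mem _ hu.2
  have : (u : G) * t * (u : G)⁻¹ * t⁻¹ ∈ P ⊓ T := by
    refine ⟨?_, T.mul_mem (hnT _ u.2 t ht) (T.inv_mem ht)⟩
    rw [mul_assoc (u : G) t, mul_assoc (u : G)]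
    exact P.mul_mem huP (hPn t (hTH ht) _ (P.inv_mem huP))
  rw [hD, Subgroup.mem_bot, mul_inv_eq_one, mul_inv_eq_iff_eq_mul] at this
  exact this

theorem pCore_bot (V : Subgroup G) (hV : Cfsg.IsElementaryAbelian 2 V) (hV1 : V ≠ ⊥) (hS : Cfsg.IsSidkiPair V)
    (hVO : V ⊓ Cfsg.pCore 2 G = ⊥) (hminG : ∀ (H : Type u) [Group H] [Finite H] (W : Subgroup H),
      Nat.card H < Nat.card G → Cfsg.IsElementaryAbelian 2 W → W ≠ ⊥ → Cfsg.IsSidkiPair W →
      W ⊓ Cfsg.pCore 2 H ≠ ⊥) : Cfsg.pCore 2 G = ⊥ := by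
  haveI : Fact (Nat.Prime 2) := ⟨Nat.prime_two⟩
  by_contra hK
  haveI := pCore_characteristic (G := G) 2
  set K := Cfsg.pCore 2 G with hKdef
  set π := QuotientGroup.mk' K with hπ
  have hlt : Nat.card (G ⧸ K) < Nat.card G := by
    rw [Subgroup.card_eq_card_quotient_mul_card_subgroup K]
    exact lt_mul_of_one_lt_right Nat.card_pos (K.one_lt_card_iff_ne_bot.2 hK)
  have hE : Cfsg.IsElementaryAbelian 2 (V.map π) := by
    refine ⟨⟨⟨?_⟩⟩, ?_⟩
    · rintro ⟨_, a, ha, rfl⟩ ⟨_, b, hb, rfl⟩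
      exact Subtype.ext (by show π a * π b = π b * π a; rw [← map_mul, vcomm hV ha hb, map_mul])
    · rintro _ ⟨a, ha, rfl⟩
      rw [← map_pow, hV.2 a ha, map_one]
  have hker : ∀ v ∈ V, π v = 1 → v = 1 := fun v hv e =>
    Subgroup.mem_bot.1 (hVO.le ⟨hv, (QuotientGroup.eq_one_iff v).1 e⟩)
  have hne : V.map π ≠ ⊥ := by
    obtain ⟨v, hv, hv1⟩ := V.bot_or_exists_ne_one.resolve_left hV1
    exact fun e => hv1 (hker v hv (Subgroup.mem_bot.1 (e.le (Subgroup.mem_map_of_mem π hv))))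
  obtain ⟨w, hw, hw1⟩ := (Subgroup.bot_or_exists_ne_one _).resolve_left
    (hminG _ _ hlt hE hne (Cfsg.Agent.S3012.result V K hV hV1 hS hVO))
  obtain ⟨v, hv, rfl⟩ := hw.1
  have hkp : IsPGroup 2 ↥π.ker := by
    rw [QuotientGroup.ker_mk']; exact pCore_isPGroup 2
  haveI := pCore_characteristic (G := G ⧸ K) 2
  have hM : (Cfsg.pCore 2 (G ⧸ K)).comap π ≤ K :=
    le_pCore inferInstance ((pCore_isPGroup 2).comap_of_ker_isPGroup π hkp)
  exact hw1 ((QuotientGroup.eq_one_iff v).2 (hM hw.2))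

variable (V : Subgroup G) (hV : Cfsg.IsElementaryAbelian 2 V) (hV1 : V ≠ ⊥) (hS : Cfsg.IsSidkiPair V)
  (h0 : Cfsg.pCore 2 G = ⊥)
  (hminG : ∀ (H : Type u) [Group H] [Finite H] (W : Subgroup H), Nat.card H < Nat.card G →
    Cfsg.IsElementaryAbelian 2 W → W ≠ ⊥ → Cfsg.IsSidkiPair W → W ⊓ Cfsg.pCore 2 H ≠ ⊥)
  (hminV : ∀ W : Subgroup G, Nat.card W < Nat.card V → Cfsg.IsElementaryAbelian 2 W → W ≠ ⊥ →
    Cfsg.IsSidkiPair W → W ⊓ Cfsg.pCore 2 G ≠ ⊥)
include hV hV1 hS h0 hminG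

theorem not_central {N : Subgroup G} [N.Normal] (hN1 : N ≠ ⊥) : ∃ g : G, ∃ n ∈ N, g * n ≠ n * g := by
  haveI : Fact (Nat.Prime 2) := ⟨Nat.prime_two⟩
  by_contra hcen
  push Not at hcen
  set π := QuotientGroup.mk' N with hπ
  have hlt : Nat.card (G ⧸ N) < Nat.card G := by
    rw [Subgroup.card_eq_card_quotient_mul_card_subgroup N]
    exact lt_mul_of_one_lt_right Nat.card_pos (N.one_lt_card_iff_ne_bot.2 hN1)
  have hVN : V ⊓ N = ⊥ := eq_bot_iff.2 fun v hv => Subgroup.mem_bot.2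
    (elem_one h0 inferInstance hv.2 (vsq hV hv.1) fun n _ => hcen n v hv.2)
  have hE : Cfsg.IsElementaryAbelian 2 (V.map π) := by
    refine ⟨⟨⟨?_⟩⟩, ?_⟩
    · rintro ⟨_, a, ha, rfl⟩ ⟨_, b, hb, rfl⟩
      exact Subtype.ext (by show π a * π b = π b * π a; rw [← map_mul, vcomm hV ha hb, map_mul])
    · rintro _ ⟨a, ha, rfl⟩
      rw [← map_pow, hV.2 a ha, map_one]
  have hker : ∀ v ∈ V, π v = 1 → v = 1 := fun v hv e =>
    Subgroup.mem_bot.1 (hVN.le ⟨hv, (QuotientGroup.eq_one_iff v).1 e⟩)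
  have hne : V.map π ≠ ⊥ := by
    obtain ⟨v, hv, hv1⟩ := V.bot_or_exists_ne_one.resolve_left hV1
    exact fun e => hv1 (hker v hv (Subgroup.mem_bot.1 (e.le (Subgroup.mem_map_of_mem π hv))))
  obtain ⟨w, hw, hw1⟩ := (Subgroup.bot_or_exists_ne_one _).resolve_left
    (hminG _ _ hlt hE hne (Cfsg.Agent.S3012.result V N hV hV1 hS hVN))
  obtain ⟨v, hv, rfl⟩ := hw.1
  haveI := pCore_characteristic (G := G ⧸ N) 2
  have hv' : v ∈ Cfsg.pCore 2 G := by
    refine CfsgLib.Subnormal.mem_pCore_of_forall_isPGroup fun g => ?_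
    set y := g * v * g⁻¹ with hy
    have hy2 : y * y = 1 := by
      rw [hy, show g * v * g⁻¹ * (g * v * g⁻¹) = g * (v * v) * g⁻¹ by group, vsq hV hv]; group
    have hm : π (v * y) ∈ Cfsg.pCore 2 (G ⧸ N) := by
      rw [map_mul, hy, map_mul, map_mul, map_inv]
      exact (Cfsg.pCore 2 (G ⧸ N)).mul_mem hw.2
        ((inferInstance : (Cfsg.pCore 2 (G ⧸ N)).Normal).conj_mem _ hw.2 _)
    obtain ⟨k, hk⟩ := pCore_isPGroup 2 ⟨_, hm⟩
    refine CfsgLib.Invol.isPGroup_closure_pair (vsq hV hv) hy2 (k := k) ?_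
    have hz : (v * y) ^ (2 ^ k) ∈ N := (QuotientGroup.eq_one_iff _).1 (by
      have := congrArg Subtype.val hk
      rwa [SubmonoidClass.coe_pow, ← map_pow] at this)
    apply orderOf_dvd_of_pow_eq_one
    refine elem_one h0 inferInstance hz ?_ fun n hn => (hcen _ n hn).symm
    have e1 := conj_fix (hcen v _ hz)
    rw [← conj_pow, show v * (v * y) * v⁻¹ = (v * y)⁻¹ by
      rw [mul_inv_rev, inv_eq_of_mul_eq_one_left hy2, inv_eq_of_mul_eq_one_left (vsq hV hv),
        show v * (v * y) * v = (v * v) * y * v by group, vsq hV hv, one_mul], inv_pow] at e1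
    exact inv_eq_iff_mul_eq_one.1 e1
  rw [h0, Subgroup.mem_bot] at hv'
  exact hw1 (by rw [hv', map_one])

include hminV in
theorem sup_top (N : Subgroup G) [N.Normal] (hN1 : N ≠ ⊥) : V ⊔ N = ⊤ := by
  haveI : Fact (Nat.Prime 2) := ⟨Nat.prime_two⟩
  by_contra hlt
  set L := Subgroup.centralizer (N : Set G) with hLdef
  have hmemL : ∀ {a : G}, a ∈ L → ∀ n ∈ N, a * n = n * a := fun ha n hn =>
    (Subgroup.mem_centralizer_iff.1 ha n hn).symm
  haveI hLn : L.Normal := by rw [hLdef]; infer_instance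
  set W := V ⊓ L with hW
  have hWV : W ≤ V := inf_le_left
  have hW1 : W ≠ ⊥ := by
    intro e
    obtain ⟨x, hx, u, hu, ho, hi, hc⟩ := local_fail h0 hminG hV hV1 hlt le_sup_left le_sup_right
      ((Subgroup.le_normalizer_of_normal (H := N)).trans' le_top) (inferInstance : N.Normal).isSubnormal
      fun u hu h => Subgroup.mem_bot.1 (e.le ⟨hu, Subgroup.mem_centralizer_iff.2 fun n hn => (h n hn).symm⟩)
    obtain ⟨w, hw, hw1, hwc⟩ := hS x u hu ho hi
    exact hw1 (hc w hw hwc)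
  have hWne : W ≠ V := by
    intro e
    have hVL : V ≤ L := e.symm.le.trans inf_le_right
    have hL : L ≠ ⊤ := by
      intro eL
      obtain ⟨g, n, hn, hgn⟩ := not_central V hV hV1 hS h0 hminG hN1
      exact hgn (hmemL (eL.ge (Subgroup.mem_top g)) n hn)
    obtain ⟨x, hx, u, hu, ho, hi, hc⟩ := local_fail h0 hminG hV hV1 hL hVL le_rfl
      Subgroup.le_normalizer hLn.isSubnormal
      fun u hu h => elem_one h0 hLn (hVL hu) (vsq hV hu) fun n hn => (h n hn).symm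
    obtain ⟨w, hw, hw1, hwc⟩ := hS x u hu ho hi
    exact hw1 (hc w hw hwc)
  have hnS : ¬ Cfsg.IsSidkiPair W := by
    intro hs
    refine hminV W ?_ (elem_le hWV hV) hW1 hs (by rw [h0, inf_bot_eq])
    exact lt_of_le_of_ne (Subgroup.card_le_of_le hWV) fun e => hWne (Subgroup.eq_of_le_of_card_ge hWV e.ge)
  obtain ⟨y, w0, hw0, hyo, hyi, hyc⟩ := witness hnS
  have hyL : y ∈ L := by
    apply sq_root hyo
    have h1 : w0 * y⁻¹ * w0⁻¹ = y := by
      have := congrArg Inv.inv hyi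
      simpa [mul_assoc] using this
    have e : y * y = y * w0 * y⁻¹ * w0⁻¹ := by
      calc y * y = y * (w0 * y⁻¹ * w0⁻¹) := by rw [h1]
        _ = y * w0 * y⁻¹ * w0⁻¹ := by group
    rw [e]
    exact L.mul_mem (hLn.conj_mem w0 hw0.2 y) (L.inv_mem hw0.2)
  set U := V ⊓ Subgroup.centralizer ({y} : Set G) with hUdef
  have hUV : U ≤ V := inf_le_left
  have hUy : ∀ u ∈ U, u * y = y * u := fun u hu => (Subgroup.mem_centralizer_iff.1 hu.2 y rfl).symm
  have hU1 : U ≠ ⊥ := by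
    obtain ⟨w, hw, hw1, hwc⟩ := hS y w0 (hWV hw0) hyo hyi
    intro e
    refine hw1 (Subgroup.mem_bot.1 (e.le ⟨hw, Subgroup.mem_centralizer_iff.2 fun a ha => ?_⟩))
    rw [Set.mem_singleton_iff.1 ha]; exact hwc.symm
  obtain ⟨x, hx, u, hu, hxo, hxi, hxc⟩ := local_fail h0 hminG (H := U ⊔ N) (T := N) (elem_le hUV hV) hU1
    (fun e => hlt (eq_top_iff.2 (e.ge.trans (sup_le_sup_right hUV _)))) le_sup_left le_sup_right
    ((Subgroup.le_normalizer_of_normal (H := N)).trans' le_top) (inferInstance : N.Normal).isSubnormal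
    fun u hu h => hyc u ⟨hUV hu, Subgroup.mem_centralizer_iff.2 fun n hn => (h n hn).symm⟩ (hUy u hu)
  have hxN : x ∈ N := mem_of_odd (elem_le hUV hV) hx hxo
  have hxy : Commute x y := (hmemL hyL x hxN).symm
  have hw0x : w0 * x * w0⁻¹ = x := conj_fix (hmemL hw0.2 x hxN)
  have hinv : u * w0 * (x * y) * (u * w0)⁻¹ = (x * y)⁻¹ := by
    calc u * w0 * (x * y) * (u * w0)⁻¹ = (u * (w0 * x * w0⁻¹) * u⁻¹) * (u * (w0 * y * w0⁻¹) * u⁻¹) := by group
      _ = x⁻¹ * y⁻¹ := by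
        rw [hw0x, hyi, hxi]
        congr 1
        exact conj_fix ((show Commute u y from hUy u hu).inv_right)
      _ = (x * y)⁻¹ := by rw [← mul_inv_rev, hxy.eq]
  obtain ⟨v, hv, hv1, hvc⟩ := hS (x * y) (u * w0) (V.mul_mem (hUV hu) (hWV hw0))
    (Odd.of_dvd_nat (hxo.mul hyo) hxy.orderOf_mul_dvd_mul_orderOf) hinv
  set z := x⁻¹ * (v * x * v⁻¹) with hz
  have hzN : z ∈ N := N.mul_mem (N.inv_mem hxN) ((inferInstance : N.Normal).conj_mem x hxN v)
  have hvy : v * y * v⁻¹ = z⁻¹ * y := by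
    have h := conj_fix hvc
    rw [show v * (x * y) * v⁻¹ = (v * x * v⁻¹) * (v * y * v⁻¹) by group] at h
    rw [hz]
    calc v * y * v⁻¹ = (v * x * v⁻¹)⁻¹ * ((v * x * v⁻¹) * (v * y * v⁻¹)) := (inv_mul_cancel_left _ _).symm
      _ = (v * x * v⁻¹)⁻¹ * (x * y) := by rw [h]
      _ = (x⁻¹ * (v * x * v⁻¹))⁻¹ * y := by group
  clear_value z
  have hzL : z ∈ L := by
    have : z⁻¹ = (v * y * v⁻¹) * y⁻¹ := by rw [hvy]; group
    exact inv_inv z ▸ L.inv_mem (this ▸ L.mul_mem (hLn.conj_mem y hyL v) (L.inv_mem hyL))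
  have hzy : Commute z y := (hmemL hyL z hzN).symm
  have hz2 : z * z = 1 := by
    have hwz : w0 * z * w0⁻¹ = z := conj_fix (hmemL hw0.2 z hzN)
    have e1 : w0 * (v * y * v⁻¹) * w0⁻¹ = (v * y * v⁻¹)⁻¹ := by
      have hc : w0 * v = v * w0 := vcomm hV (hWV hw0) hv
      calc w0 * (v * y * v⁻¹) * w0⁻¹ = (w0 * v) * y * (w0 * v)⁻¹ := by group
        _ = (v * w0) * y * (v * w0)⁻¹ := by rw [hc]
        _ = v * (w0 * y * w0⁻¹) * v⁻¹ := by group
        _ = (v * y * v⁻¹)⁻¹ := by rw [hyi]; group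
    rw [hvy, show w0 * (z⁻¹ * y) * w0⁻¹ = (w0 * z * w0⁻¹)⁻¹ * (w0 * y * w0⁻¹) by group, hwz, hyi,
      mul_inv_rev, inv_inv] at e1
    have e2 : z⁻¹ * y⁻¹ = z * y⁻¹ := e1.trans (hzy.inv_right.eq).symm
    exact inv_eq_iff_mul_eq_one.1 (mul_right_cancel e2)
  have hz1 : z = 1 := elem_one h0 inferInstance hzN hz2 fun n hn => (hmemL hzL n hn).symm
  refine hv1 (hxc v ⟨hv, Subgroup.mem_centralizer_iff.2 fun a ha => ?_⟩ ?_)
  · rw [Set.mem_singleton_iff.1 ha]
    rw [hz1, inv_one, one_mul, mul_inv_eq_iff_eq_mul] at hvy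
    exact hvy.symm
  · rw [hz, inv_mul_eq_one, eq_comm, mul_inv_eq_iff_eq_mul] at hz1
    exact hz1

end main

/-- Minimal counterexample reduction for the Sidki pair problem. Let G be a finite group and V a nontrivial elementary abelian 2-subgroup satisfying the Sidki pair condition with V ∩ O₂(G) = 1. Suppose that for every finite group H of smaller order, every nontrivial elementary abelian 2-subgroup W of H satisfying the Sidki pair condition meets O₂(H) nontrivially, and that the same holds in G for every such subgroup W of order smaller than that of V. Then the generalized Fitting subgroup F*(G) is a non-abelian simple group and G = V F*(G). -/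
theorem result {G : Type u} [Group G] [Finite G] (V : Subgroup G) (hV : Cfsg.IsElementaryAbelian 2 V) (hV1 : V ≠ ⊥) (hS : Cfsg.IsSidkiPair V) (hVO : V ⊓ Cfsg.pCore 2 G = ⊥) (hminG : ∀ (H : Type u) [Group H] [Finite H] (W : Subgroup H), Nat.card H < Nat.card G → Cfsg.IsElementaryAbelian 2 W → W ≠ ⊥ → Cfsg.IsSidkiPair W → W ⊓ Cfsg.pCore 2 H ≠ ⊥) (hminV : ∀ W : Subgroup G, Nat.card W < Nat.card V → Cfsg.IsElementaryAbelian 2 W → W ≠ ⊥ → Cfsg.IsSidkiPair W → W ⊓ Cfsg.pCore 2 G ≠ ⊥) : IsSimpleGroup ↥(Cfsg.generalizedFittingSubgroup G) ∧ ¬ IsMulCommutative ↥(Cfsg.generalizedFittingSubgroup G) ∧ V ⊔ Cfsg.generalizedFittingSubgroup G = ⊤ := by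
  haveI : Fact (Nat.Prime 2) := ⟨Nat.prime_two⟩
  have h0 := pCore_bot V hV hV1 hS hVO hminG
  obtain ⟨v₀, hv₀, hv₀1⟩ := V.bot_or_exists_ne_one.resolve_left hV1
  haveI hnt : Nontrivial G := ⟨v₀, 1, hv₀1⟩
  obtain ⟨N, ⟨hNn, hN1⟩, hNmin⟩ := (wellFounded_lt (α := Subgroup G)).has_min
    {N | N.Normal ∧ N ≠ ⊥} ⟨⊤, inferInstance, top_ne_bot⟩
  haveI := hNn
  have hmin : ∀ M : Subgroup G, M.Normal → M ≤ N → M = ⊥ ∨ M = N := fun M hM hle => by
    by_cases hb : M = ⊥
    · exact Or.inl hb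
    · exact Or.inr (eq_of_le_of_not_lt hle (hNmin M ⟨hM, hb⟩))
  have htop : V ⊔ N = ⊤ := sup_top V hV hV1 hS h0 hminG hminV N hN1
  have hdec : ∀ g : G, ∃ v ∈ V, ∃ n ∈ N, g = v * n := fun g => by
    obtain ⟨v, hv, n, hn, e⟩ := Subgroup.mem_sup_of_normal_right.1 (htop.ge (Subgroup.mem_top g))
    exact ⟨v, hv, n, hn, e.symm⟩
  have hfaith : ∀ b ∈ V, (∀ n ∈ N, b * n = n * b) → b = 1 := fun b hb h => by
    refine elem_one h0 (N := ⊤) inferInstance (Subgroup.mem_top b) (vsq hV hb) fun g _ => ?_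
    obtain ⟨v, hv, n, hn, rfl⟩ := hdec g
    exact (((show Commute b v from vcomm hV hb hv)).mul_right (h n hn)).symm.eq
  -- N is not abelian
  have hnab : ¬ ∀ a ∈ N, ∀ b ∈ N, a * b = b * a := by
    intro hab
    have hfix : ∀ v ∈ V, v ≠ 1 → ∀ n ∈ N, v * n = n * v → n = 1 := by
      intro v hv hv1 n hn he
      have hF : (N ⊓ Subgroup.centralizer ({v} : Set G)).Normal := by
        refine ⟨fun a ha g => ?_⟩
        obtain ⟨w, hw, m, hm, rfl⟩ := hdec g
        have e : w * m * a * (w * m)⁻¹ = w * a * w⁻¹ := by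
          rw [show w * m * a * (w * m)⁻¹ = w * (m * a * m⁻¹) * w⁻¹ by group, conj_fix (hab m hm a ha.1)]
        rw [e]
        refine ⟨hNn.conj_mem a ha.1 w, Subgroup.mem_centralizer_iff.2 fun b hb => ?_⟩
        obtain rfl := Set.mem_singleton_iff.1 hb
        have hba : Commute b a := Subgroup.mem_centralizer_iff.1 ha.2 b rfl
        have hbw : Commute b w := vcomm hV hv hw
        exact ((hbw.mul_right hba).mul_right hbw.inv_right).eq
      rcases hmin _ hF inf_le_left with h | h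
      · refine Subgroup.mem_bot.1 (h.le ⟨hn, Subgroup.mem_centralizer_iff.2 fun b hb => ?_⟩)
        rw [Set.mem_singleton_iff.1 hb]; exact he
      · exact absurd (hfaith v hv fun m hm =>
          Subgroup.mem_centralizer_iff.1 (h.ge hm).2 v rfl) hv1
    obtain ⟨n, hn, hn1⟩ := N.bot_or_exists_ne_one.resolve_left hN1
    have hinv : ∀ v ∈ V, v ≠ 1 → v * n * v⁻¹ = n⁻¹ := fun v hv hv1 => by
      refine (mul_eq_one_iff_eq_inv).1 (hfix v hv hv1 _ (N.mul_mem (hNn.conj_mem n hn v) hn) ?_)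
      have hvi : v⁻¹ = v := inv_eq_of_mul_eq_one_left (vsq hV hv)
      have := hab (v * n * v⁻¹) (hNn.conj_mem n hn v) n hn
      rw [← mul_inv_eq_iff_eq_mul]
      calc v * (v * n * v⁻¹ * n) * v⁻¹ = (v * v) * n * (v⁻¹ * (n * v⁻¹)) := by group
        _ = n * (v * n * v⁻¹) := by rw [vsq hV hv, one_mul]; simp [hvi, mul_assoc]
        _ = v * n * v⁻¹ * n := this.symm
    have hodd : Odd (orderOf n) := by
      rw [← Nat.not_even_iff_odd]
      rintro ⟨k, hk⟩
      have hk1 : n ^ k = 1 := by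
        refine elem_one h0 hNn (N.pow_mem hn k) ?_ fun m hm => hab m hm _ (N.pow_mem hn k)
        rw [← pow_add, ← hk, pow_orderOf_eq_one]
      have := Nat.le_of_dvd (by have := orderOf_pos n; omega) (orderOf_dvd_of_pow_eq_one hk1)
      have := orderOf_pos n; omega
    obtain ⟨w, hw, hw1, hwc⟩ := hS n v₀ hv₀ hodd (hinv v₀ hv₀ hv₀1)
    exact hn1 (hfix w hw hw1 n hn hwc)
  -- a minimal normal subgroup of N
  obtain ⟨T, ⟨hTN, hTnm, hT1⟩, hTmin⟩ := (wellFounded_lt (α := Subgroup G)).has_min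
    {T | T ≤ N ∧ N ≤ Subgroup.normalizer (T : Set G) ∧ T ≠ ⊥} ⟨N, le_rfl, Subgroup.le_normalizer, hN1⟩
  have hTs : T.IsSubnormal := subnormal_of_normal_le hTN hTnm hNn.isSubnormal
  have hnT : ∀ n ∈ N, ∀ t ∈ T, n * t * n⁻¹ ∈ T := fun n hn t ht =>
    (Subgroup.mem_normalizer_iff.1 (hTnm hn) t).1 ht
  have hTmin' : ∀ S : Subgroup G, S ≤ T → (∀ n ∈ N, ∀ s ∈ S, n * s * n⁻¹ ∈ S) → S = ⊥ ∨ S = T := by
    intro S hST hS'
    by_cases hb : S = ⊥
    · exact Or.inl hb
    refine Or.inr (eq_of_le_of_not_lt hST (hTmin S ⟨hST.trans hTN, fun n hn => ?_, hb⟩))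
    rw [Subgroup.mem_normalizer_iff]
    refine fun s => ⟨hS' n hn s, fun h => ?_⟩
    have := hS' n⁻¹ (N.inv_mem hn) _ h
    rwa [show n⁻¹ * (n * s * n⁻¹) * n⁻¹⁻¹ = s by group] at this
  have hconjN : ∀ v : G, ∀ n ∈ N, v⁻¹ * n * v ∈ N := fun v n hn => by
    have := hNn.conj_mem n hn v⁻¹
    rwa [inv_inv] at this
  -- conjugates of T generate N
  set S : Set G := {a | ∃ v ∈ V, ∃ t ∈ T, a = v * t * v⁻¹} with hSdef
  have hSinv : ∀ g : G, ∀ a ∈ S, g * a * g⁻¹ ∈ S := by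
    rintro g _ ⟨v, hv, t, ht, rfl⟩
    obtain ⟨w, hw, n, hn, e⟩ := hdec (g * v)
    refine ⟨w, hw, n * t * n⁻¹, hnT n hn t ht, ?_⟩
    calc g * (v * t * v⁻¹) * g⁻¹ = (g * v) * t * (g * v)⁻¹ := by group
      _ = w * (n * t * n⁻¹) * w⁻¹ := by rw [e]; group
  have hSN : Subgroup.closure S = N := by
    haveI hcn : (Subgroup.closure S).Normal := by
      refine ⟨fun a ha g => ?_⟩
      induction ha using Subgroup.closure_induction with
      | mem a ha => exact Subgroup.subset_closure (hSinv g a ha)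
      | one => simp
      | mul a b _ _ h1 h2 =>
        rw [show g * (a * b) * g⁻¹ = (g * a * g⁻¹) * (g * b * g⁻¹) by group]; exact mul_mem h1 h2
      | inv a _ h1 =>
        rw [show g * a⁻¹ * g⁻¹ = (g * a * g⁻¹)⁻¹ by group]; exact inv_mem h1
    refine (hmin _ hcn ((Subgroup.closure_le N).2 ?_)).resolve_left fun h => ?_
    · rintro _ ⟨v, hv, t, ht, rfl⟩; exact hNn.conj_mem t (hTN ht) v
    · obtain ⟨t, ht, ht1⟩ := T.bot_or_exists_ne_one.resolve_left hT1
      exact ht1 (Subgroup.mem_bot.1 (h.le (Subgroup.subset_closure ⟨1, V.one_mem, t, ht, by group⟩)))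
  have hcS : ∀ c : G, (∀ a ∈ S, a * c = c * a) → ∀ n ∈ N, c * n = n * c := fun c hc n hn => by
    have : N ≤ Subgroup.centralizer ({c} : Set G) := by
      rw [← hSN, Subgroup.closure_le]
      intro a ha
      exact Subgroup.mem_centralizer_iff.2 fun b hb => by
        rw [Set.mem_singleton_iff.1 hb]; exact (hc a ha).symm
    exact Subgroup.mem_centralizer_iff.1 (this hn) c rfl
  have hNnorm : T = N := by
    by_contra hTne
    have hB : ∀ v ∈ V, v ∉ Subgroup.normalizer (T : Set G) → ∀ t ∈ T, ∀ s ∈ T,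
        Commute t (v * s * v⁻¹) ∧ (t = v * s * v⁻¹ → t = 1) := by
      intro v hv hvB
      set T' := T.map (MulAut.conj v).toMonoidHom with hT'
      have hnT' : ∀ n ∈ N, ∀ a ∈ T', n * a * n⁻¹ ∈ T' := by
        rintro n hn _ ⟨s, hs, rfl⟩
        refine ⟨(v⁻¹ * n * v) * s * (v⁻¹ * n * v)⁻¹, hnT _ (hconjN v n hn) s hs, ?_⟩
        simp only [MulEquiv.coe_toMonoidHom, MulAut.conj_apply]; group
      have hI : T ⊓ T' = ⊥ := by
        refine (hTmin' _ inf_le_left fun n hn a ha => ⟨hnT n hn a ha.1, hnT' n hn a ha.2⟩).resolve_right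
          fun h => hvB ?_
        have hvT : ∀ t ∈ T, v * t * v⁻¹ ∈ T := by
          intro t ht
          obtain ⟨s, hs, e⟩ := (h.ge ht).2
          have e' : v * t * v⁻¹ = s := by
            rw [← e]; simp only [MulEquiv.coe_toMonoidHom, MulAut.conj_apply]
            rw [inv_eq_of_mul_eq_one_left (vsq hV hv),
              show v * (v * s * v) * v = (v * v) * s * (v * v) by group, vsq hV hv]; group
          rw [e']; exact hs
        rw [Subgroup.mem_normalizer_iff]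
        refine fun t => ⟨hvT t, fun ht => ?_⟩
        have := hvT _ ht
        rwa [inv_eq_of_mul_eq_one_left (vsq hV hv),
          show v * (v * t * v) * v = (v * v) * t * (v * v) by group, vsq hV hv, one_mul, mul_one] at this
      intro t ht s hs
      have hs' : v * s * v⁻¹ ∈ T' := ⟨s, hs, rfl⟩
      have hsN : v * s * v⁻¹ ∈ N := hNn.conj_mem s (hTN hs) v
      refine ⟨?_, fun e => Subgroup.mem_bot.1 (hI.le ⟨ht, e ▸ hs'⟩)⟩
      have h1 : t * (v * s * v⁻¹) * t⁻¹ * (v * s * v⁻¹)⁻¹ ∈ T ⊓ T' := by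
        refine ⟨?_, T'.mul_mem (hnT' t (hTN ht) _ hs') (T'.inv_mem hs')⟩
        rw [show t * (v * s * v⁻¹) * t⁻¹ * (v * s * v⁻¹)⁻¹
          = t * ((v * s * v⁻¹) * t⁻¹ * (v * s * v⁻¹)⁻¹) by group]
        exact T.mul_mem ht (hnT _ hsN _ (T.inv_mem ht))
      rw [hI, Subgroup.mem_bot, mul_inv_eq_one, mul_inv_eq_iff_eq_mul] at h1
      exact h1
    -- T is not abelian
    have hZ : ∀ t ∈ T, (∀ s ∈ T, s * t = t * s) → t = 1 := by
      have hZn : T ⊓ Subgroup.centralizer (T : Set G) = ⊥ := by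
        refine (hTmin' _ inf_le_left fun n hn a ha => ⟨hnT n hn a ha.1,
          Subgroup.mem_centralizer_iff.2 fun s hs => ?_⟩).resolve_right fun h => hnab ?_
        · have hs' : n⁻¹ * s * n⁻¹⁻¹ ∈ T := hnT n⁻¹ (N.inv_mem hn) s hs
          have hc := Subgroup.mem_centralizer_iff.1 ha.2 _ hs'
          calc s * (n * a * n⁻¹) = n * ((n⁻¹ * s * n⁻¹⁻¹) * a) * n⁻¹ := by group
            _ = n * (a * (n⁻¹ * s * n⁻¹⁻¹)) * n⁻¹ := by rw [hc]
            _ = (n * a * n⁻¹) * s := by group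
        · have habT : ∀ t ∈ T, ∀ s ∈ T, Commute t s := fun t ht s hs =>
            (Subgroup.mem_centralizer_iff.1 (h.ge hs).2 t ht)
          intro a ha b hb
          refine hcS a ?_ b hb
          rintro _ ⟨w, hw, s, hs, rfl⟩
          refine (hcS (w * s * w⁻¹) ?_ a ha)
          rintro _ ⟨v, hv, t, ht, rfl⟩
          have hcm : Commute t ((v⁻¹ * w) * s * (v⁻¹ * w)⁻¹) := by
            by_cases hu : v⁻¹ * w ∈ Subgroup.normalizer (T : Set G)
            · exact habT t ht _ ((Subgroup.mem_normalizer_iff.1 hu s).1 hs)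
            · exact (hB _ (V.mul_mem (V.inv_mem hv) hw) hu t ht s hs).1
          calc v * t * v⁻¹ * (w * s * w⁻¹)
              = v * (t * ((v⁻¹ * w) * s * (v⁻¹ * w)⁻¹)) * v⁻¹ := by group
            _ = v * (((v⁻¹ * w) * s * (v⁻¹ * w)⁻¹) * t) * v⁻¹ := by rw [hcm.eq]
            _ = w * s * w⁻¹ * (v * t * v⁻¹) := by group
      exact fun t ht h => Subgroup.mem_bot.1 (hZn.le ⟨ht, Subgroup.mem_centralizer_iff.2 h⟩)
    set B := V ⊓ Subgroup.normalizer (T : Set G) with hBdef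
    have hBne : B ≠ V := by
      intro e
      refine hTne ((hmin T ⟨fun t ht g => ?_⟩ hTN).resolve_left hT1)
      obtain ⟨v, hv, n, hn, rfl⟩ := hdec g
      rw [show v * n * t * (v * n)⁻¹ = v * (n * t * n⁻¹) * v⁻¹ by group]
      exact (Subgroup.mem_normalizer_iff.1 (e.ge hv).2 _).1 (hnT n hn t ht)
    have hBf : ∀ b ∈ V, (∀ t ∈ T, b * t = t * b) → b = 1 := fun b hb h => by
      refine hfaith b hb (hcS b ?_)
      rintro _ ⟨v, hv, t, ht, rfl⟩
      have h1 : Commute b v := vcomm hV hb hv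
      exact (((h1.mul_right (h t ht)).mul_right h1.inv_right)).eq.symm
    by_cases hB1 : B = ⊥
    · obtain ⟨t, ht, hto, htz⟩ : ∃ t ∈ T, Odd (orderOf t) ∧ t ≠ 1 := by
        by_contra hc
        push Not at hc
        refine hT1 (subnormal_two_bot h0 hTs fun g => ?_)
        obtain ⟨k, m, hm, hkm⟩ := Nat.exists_eq_two_pow_mul_odd (orderOf_pos (g : G)).ne'
        refine ⟨k, Subtype.ext ?_⟩
        rw [SubmonoidClass.coe_pow]
        refine hc _ (T.pow_mem g.2 _) ?_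
        rw [orderOf_pow_of_dvd (by positivity) (by rw [hkm]; exact dvd_mul_right _ _), hkm,
          Nat.mul_div_cancel_left _ (by positivity)]
        exact hm
      have hnB : ∀ w ∈ V, w ≠ 1 → w ∉ Subgroup.normalizer (T : Set G) := fun w hw hw1 h =>
        hw1 (Subgroup.mem_bot.1 (hB1.le ⟨hw, h⟩))
      set s := v₀ * t * v₀⁻¹ with hs
      obtain ⟨hts, htsne⟩ := hB v₀ hv₀ (hnB v₀ hv₀ hv₀1) t ht t ht
      have hvs : v₀ * s * v₀⁻¹ = t := by
        rw [hs, inv_eq_of_mul_eq_one_left (vsq hV hv₀),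
          show v₀ * (v₀ * t * v₀) * v₀ = (v₀ * v₀) * t * (v₀ * v₀) by group, vsq hV hv₀]; group
      have hinv : v₀ * (t * s⁻¹) * v₀⁻¹ = (t * s⁻¹)⁻¹ := by
        rw [show v₀ * (t * s⁻¹) * v₀⁻¹ = (v₀ * t * v₀⁻¹) * (v₀ * s * v₀⁻¹)⁻¹ by group, hvs, ← hs,
          mul_inv_rev, inv_inv]
      have hso : orderOf s⁻¹ = orderOf t := by
        rw [orderOf_inv, hs, ← MulAut.conj_apply, MulEquiv.orderOf_eq]
      have hxo : Odd (orderOf (t * s⁻¹)) :=
        Odd.of_dvd_nat (hto.mul (hso.symm ▸ hto)) hts.inv_right.orderOf_mul_dvd_mul_orderOf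
      obtain ⟨w, hw, hw1, hwc⟩ := hS _ v₀ hv₀ hxo hinv
      have hfx := conj_fix hwc
      by_cases hwv : w = v₀
      · rw [hwv, hinv] at hfx
        exact htz (htsne (mul_inv_eq_one.1 (odd_sq_one hxo (inv_eq_iff_mul_eq_one.1 hfx))))
      have hu1 : w * v₀ ≠ 1 := fun e => hwv (by
        rw [← inv_eq_of_mul_eq_one_left (vsq hV hv₀)]; exact eq_inv_of_mul_eq_one_left e)
      refine htz (hZ t ht fun t' ht' => ?_)
      have hA : Commute t' (w * t * w⁻¹) := (hB w hw (hnB w hw hw1) t' ht' t ht).1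
      have hb : Commute t' (w * s * w⁻¹) := by
        rw [show w * s * w⁻¹ = (w * v₀) * t * (w * v₀)⁻¹ by rw [hs]; group]
        exact (hB _ (V.mul_mem hw hv₀) (hnB _ (V.mul_mem hw hv₀) hu1) t' ht' t ht).1
      have hC : Commute t' s := (hB v₀ hv₀ (hnB v₀ hv₀ hv₀1) t' ht' t ht).1
      have e : t = (w * t * w⁻¹) * (w * s * w⁻¹)⁻¹ * s := by
        calc t = (t * s⁻¹) * s := by group
          _ = (w * (t * s⁻¹) * w⁻¹) * s := by rw [hfx]
          _ = _ := by group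
      rw [e]
      exact ((hA.mul_right hb.inv_right).mul_right hC).eq
    · have hH : B ⊔ T ≠ ⊤ := fun e => hBne (le_antisymm inf_le_left fun v hv =>
        ⟨hv, sup_le inf_le_right Subgroup.le_normalizer (e.ge (Subgroup.mem_top v))⟩)
      obtain ⟨x, hx, b, hb, hxo, hxi, hxc⟩ := local_fail h0 hminG (T := T) (elem_le inf_le_left hV) hB1 hH
        le_sup_left le_sup_right (sup_le inf_le_right Subgroup.le_normalizer) hTs
        fun u hu => hBf u hu.1
      have hxT : x ∈ T := by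
        apply sq_root hxo
        have hnorm : (B : Set G) ⊆ Subgroup.normalizer (T : Set G) := fun a ha => ha.2
        obtain ⟨a, ha, n, hn, rfl⟩ : ∃ a ∈ B, ∃ n ∈ T, a * n = x := by
          have : x ∈ (↑(B ⊔ T) : Set G) := hx
          rw [Subgroup.coe_mul_of_left_le_normalizer_right B T hnorm] at this
          exact this
        rw [show a * n * (a * n) = (a * a) * ((a⁻¹ * n * a⁻¹⁻¹) * n) by group, vsq hV ha.1, one_mul]
        exact T.mul_mem ((Subgroup.mem_normalizer_iff.1 (Subgroup.inv_mem _ ha.2) n).1 hn) hn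
      obtain ⟨w, hw, hw1, hwc⟩ := hS x b hb.1 hxo hxi
      by_cases hwB : w ∈ Subgroup.normalizer (T : Set G)
      · exact hw1 (hxc w ⟨hw, hwB⟩ hwc)
      · have hx1 : x = 1 := (hB w hw hwB x hxT x hxT).2 (conj_fix hwc).symm
        obtain ⟨c, hc, hc1⟩ := B.bot_or_exists_ne_one.resolve_left hB1
        exact hc1 (hxc c hc (by rw [hx1, mul_one, one_mul]))
  subst hNnorm
  haveI hntN : Nontrivial ↥T := (Subgroup.nontrivial_iff_ne_bot T).2 hT1
  haveI hsimp : IsSimpleGroup ↥T := by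
    refine ⟨fun K hK => ?_⟩
    have := hTmin' (K.map T.subtype) (Subgroup.map_subtype_le K) (by
      rintro n hn _ ⟨k, hk, rfl⟩
      exact ⟨⟨n, hn⟩ * k * ⟨n, hn⟩⁻¹, hK.conj_mem k hk _, rfl⟩)
    rcases this with h | h
    · exact Or.inl ((Subgroup.map_eq_bot_iff_of_injective _ T.subtype_injective).1 h)
    · exact Or.inr (Subgroup.map_injective T.subtype_injective
        (h.trans (by rw [← MonoidHom.range_eq_map, Subgroup.range_subtype])))
  have hnc : ¬ IsMulCommutative ↥T := fun h => hnab fun a ha b hb =>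
    congrArg Subtype.val (h.is_comm.comm ⟨a, ha⟩ ⟨b, hb⟩)
  have hperf : _root_.commutator ↥T = ⊤ := by
    refine (IsSimpleGroup.eq_bot_or_eq_top_of_normal _ inferInstance).resolve_left fun h => hnc ?_
    refine ⟨⟨fun a b => commutatorElement_eq_one_iff_mul_comm.1 (Subgroup.mem_bot.1 (h.le ?_))⟩⟩
    exact Subgroup.commutator_mem_commutator (Subgroup.mem_top a) (Subgroup.mem_top b)
  have hcen : Subgroup.center ↥T = ⊥ := by
    refine (IsSimpleGroup.eq_bot_or_eq_top_of_normal _ inferInstance).resolve_right fun h => hnc ?_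
    exact ⟨⟨fun a b => (Subgroup.mem_center_iff.1 (h.ge (Subgroup.mem_top a)) b).symm⟩⟩
  have hcomp : Cfsg.IsComponent T := by
    refine ⟨hNn.isSubnormal, ⟨hperf⟩, ?_⟩
    exact ((QuotientGroup.quotientMulEquivOfEq hcen).trans QuotientGroup.quotientBot).isSimpleGroup
  have hCT : Subgroup.centralizer (T : Set G) = ⊥ := by
    by_contra hC
    have htopC := sup_top V hV hV1 hS h0 hminG hminV _ hC
    refine hnab fun a ha b hb => commutatorElement_eq_one_iff_mul_comm.1 ?_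
    have h1 : ⁅a, b⁆ ∈ Subgroup.centralizer (T : Set G) := by
      obtain ⟨v, hv, c, hc, rfl⟩ := Subgroup.mem_sup_of_normal_right.1 (htopC.ge (Subgroup.mem_top a))
      obtain ⟨w, hw, d, hd, rfl⟩ := Subgroup.mem_sup_of_normal_right.1 (htopC.ge (Subgroup.mem_top b))
      set π := QuotientGroup.mk' (Subgroup.centralizer (T : Set G))
      refine (QuotientGroup.eq_one_iff _).1 (show π ⁅v * c, w * d⁆ = 1 from ?_)
      rw [map_commutatorElement, map_mul, map_mul, (QuotientGroup.eq_one_iff c).2 hc |> fun e => (show π c = 1 from e),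
        (QuotientGroup.eq_one_iff d).2 hd |> fun e => (show π d = 1 from e), mul_one, mul_one,
        ← map_commutatorElement, commutatorElement_eq_one_iff_mul_comm.2 (vcomm hV hv hw), map_one]
    have h2 : ⁅a, b⁆ ∈ T := by
      rw [commutatorElement_def]
      exact T.mul_mem (T.mul_mem (T.mul_mem ha hb) (T.inv_mem ha)) (T.inv_mem hb)
    have h3 : (⟨_, h2⟩ : ↥T) ∈ Subgroup.center ↥T :=
      Subgroup.mem_center_iff.2 fun g => Subtype.ext (Subgroup.mem_centralizer_iff.1 h1 g g.2)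
    rw [hcen, Subgroup.mem_bot] at h3
    exact congrArg Subtype.val h3
  have hF : Cfsg.generalizedFittingSubgroup G = T := by
    refine le_antisymm (sup_le (sSup_le fun K hK => ?_) ?_)
      ((component_le_layer hcomp).trans layer_le_generalizedFittingSubgroup)
    · refine (component_normal_or_commute hK hNn).resolve_right fun h => ?_
      have hle := (Subgroup.commutator_eq_bot_iff_le_centralizer.1 h).trans hCT.le
      haveI := quasisimple_nontrivial hK.2
      exact (Subgroup.nontrivial_iff_ne_bot K).1 inferInstance (eq_bot_iff.2 hle)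
    · haveI := fittingSubgroup_normal (G := G)
      rcases hmin (Cfsg.fittingSubgroup G ⊓ T) inferInstance inf_le_right with h | h
      · refine le_trans ?_ bot_le
        rw [← hCT]
        exact Subgroup.commutator_eq_bot_iff_le_centralizer.1
          (eq_bot_iff.2 ((Subgroup.commutator_le_inf _ _).trans h.le))
      · exfalso
        haveI := fittingSubgroup_isNilpotent (G := G)
        have hle : T ≤ Cfsg.fittingSubgroup G := h.ge.trans inf_le_left
        haveI : Group.IsNilpotent ↥T := Group.nilpotent_of_mulEquiv (Subgroup.subgroupOfEquivOfLe hle)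
        exact quasisimple_not_nilpotent hcomp.2 inferInstance
  rw [hF]
  exact ⟨hsimp, hnc, htop⟩

end Cfsg.Agent.S3048
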