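import Cfsg.Statements.S3049
import Cfsg.Agent.Transfer.SmallElements
import Cfsg.Agent.Components.Basic
import Cfsg.Agent.Hall.StructBatch
import Cfsg.Agent.IsoInv.Basic

set_option autoImplicit false
open Cfsg

namespace Cfsg.Agent.S3049

open scoped Pointwise

variable {G : Type*} [Group G] [Finite G] {p : ℕ} [Fact p.Prime]

/-- An isolated element is central in every `p`-subgroup containing it. -/
theorem central_in {x : G} (hiso : Cfsg.IsIsolated x) (P : Subgroup G) (hP : IsPGroup p ↥P) (hxP : x ∈ P) :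
    ∀ y ∈ P, x * y = y * x := by
  haveI : Group.IsNilpotent ↥P := hP.isNilpotent
  set C : Subgroup ↥P := Subgroup.centralizer {(⟨x, hxP⟩ : ↥P)} with hC
  have hmem : ∀ a : ↥P, a ∈ C ↔ x * (a : G) = (a : G) * x := fun a => by
    rw [hC, Subgroup.mem_centralizer_iff]
    constructor
    · intro h; exact congrArg Subtype.val (h _ rfl)
    · intro h b hb; rw [Set.mem_singleton_iff.mp hb]; exact Subtype.ext h
  by_contra hcon
  have hne : C ≠ ⊤ := fun h => hcon fun y hy => (hmem ⟨y, hy⟩).1 (h ▸ Subgroup.mem_top _)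
  obtain ⟨g, hg, hgC⟩ := SetLike.exists_of_lt
    (Group.normalizerCondition_of_isNilpotent (G := ↥P) C (lt_top_iff_ne_top.2 hne))
  have hxC : (⟨x, hxP⟩ : ↥P) ∈ C := (hmem _).2 rfl
  have h1 := (hmem _).1 ((Subgroup.mem_normalizer_iff.1 hg _).1 hxC)
  have h2 : (g : G) * x * (g : G)⁻¹ = x := hiso (g : G) (by simpa [Commute, SemiconjBy] using h1)
  exact hgC ((hmem g).2 (mul_inv_eq_iff_eq_mul.1 h2).symm)

/-- A perfect subgroup centralising `v` is a `p'`-group. -/
theorem coprime_of_perfect (hrank : Cfsg.PRankLE p 2 G) (S : Sylow p G) {x : G} (hx : orderOf x = p)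
    (hxS : x ∈ S) (hiso : Cfsg.IsIsolated x) (hp : p ≠ 2) (L : Subgroup G) (hL : ⁅L, L⁆ = L)
    (hSL : ¬ p ∣ (S : Subgroup G).relIndex L) (v : G) (hvS : v ∈ S) (hv : orderOf v = p)
    (hvL : ∀ l ∈ L, Commute l v) (hxv : x ∉ Subgroup.zpowers v) (hyv : ∀ y ∈ S, y ∈ L → Commute y v) :
    (Nat.card ↥L).Coprime p := by
  have hpr : p.Prime := Fact.out
  have hxc : ∀ y ∈ S, x * y = y * x := fun y hy => central_in hiso _ S.isPGroup' hxS y hy
  have hxpow : x ^ p = 1 := hx ▸ pow_orderOf_eq_one x
  have hvpow : v ^ p = 1 := hv ▸ pow_orderOf_eq_one v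
  have hdec : ∀ y ∈ S, y ∈ L → y ^ p = 1 → ∃ i j : ℤ, y = x ^ i * v ^ j := by
    intro y hy hyL hy1
    set k : Set G := {x, v, y}
    have hk : ∀ a ∈ k, ∀ b ∈ k, a * b = b * a := by
      rintro a (rfl | rfl | rfl) b (rfl | rfl | rfl) <;>
        first
          | rfl
          | exact hxc _ hvS
          | exact (hxc _ hvS).symm
          | exact hxc _ hy
          | exact (hxc _ hy).symm
          | exact (hyv _ hy hyL).eq
          | exact (hyv _ hy hyL).eq.symm
    haveI := Subgroup.isMulCommutative_closure hk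
    have hexp : ∀ a ∈ Subgroup.closure k, a ^ p = 1 := by
      intro a ha
      induction ha using Subgroup.closure_induction with
      | mem a ha => rcases ha with rfl | rfl | rfl <;> assumption
      | one => simp
      | mul a b ha hb h1 h2 =>
        have hab : Commute a b :=
          congrArg Subtype.val (mul_comm' (⟨a, ha⟩ : ↥(Subgroup.closure k)) ⟨b, hb⟩)
        rw [hab.mul_pow, h1, h2, one_mul]
      | inv a _ h1 => rw [inv_pow, h1, inv_one]
    have hcard := hrank _ (Subgroup.isMulCommutative_closure hk) hexp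
    set W := Subgroup.zpowers x ⊔ Subgroup.zpowers v with hW
    have hWk : W ≤ Subgroup.closure k := sup_le
      (Subgroup.zpowers_le.mpr (Subgroup.subset_closure (Or.inl rfl)))
      (Subgroup.zpowers_le.mpr (Subgroup.subset_closure (Or.inr (Or.inl rfl))))
    have hdisj : Disjoint (Subgroup.zpowers x) (Subgroup.zpowers v) := by
      rw [disjoint_iff]
      by_contra hne
      haveI : Fact (Nat.card ↥(Subgroup.zpowers x)).Prime := ⟨by rwa [Nat.card_zpowers, hx]⟩
      rcases ((Subgroup.zpowers x ⊓ Subgroup.zpowers v).subgroupOf (Subgroup.zpowers x)).eq_bot_or_eq_top_of_prime_card with h | h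
      · rw [Subgroup.subgroupOf_eq_bot, disjoint_iff, inf_assoc, inf_comm (Subgroup.zpowers v), ← inf_assoc, inf_idem] at h
        exact hne h
      · exact hxv ((Subgroup.subgroupOf_eq_top.1 h (Subgroup.mem_zpowers x)).2)
    have hWcard : p ^ 2 ≤ Nat.card ↥W := by
      refine Nat.le_of_dvd Nat.card_pos ?_
      have h1 : (p ^ 2) = Nat.card (↥(Subgroup.zpowers x) × ↥(Subgroup.zpowers v)) := by
        rw [Nat.card_prod, Nat.card_zpowers, Nat.card_zpowers, hx, hv, sq]
      let f : ↥(Subgroup.zpowers x) × ↥(Subgroup.zpowers v) → ↥W := fun a =>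
        ⟨(a.1 : G) * a.2, W.mul_mem (Subgroup.mem_sup_left a.1.2) (Subgroup.mem_sup_right a.2.2)⟩
      have hf : Function.Injective f := fun a b h =>
        Subgroup.mul_injective_of_disjoint hdisj (congrArg Subtype.val h)
      have h2 : p ^ 2 ≤ Nat.card ↥W := h1 ▸ Nat.card_le_card_of_injective f hf
      have h3 : Nat.card ↥W ≤ p ^ 2 := (Subgroup.card_le_of_le hWk).trans hcard
      rw [le_antisymm h3 h2]
    have hWeq : W = Subgroup.closure k :=
      Subgroup.eq_of_le_of_card_ge hWk (hcard.trans hWcard)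
    have hyW : y ∈ W := hWeq ▸ Subgroup.subset_closure (Or.inr (Or.inr rfl))
    have hn : Subgroup.zpowers x ≤ Subgroup.normalizer (Subgroup.zpowers v : Set G) := by
      refine Subgroup.zpowers_le.mpr (Subgroup.centralizer_le_normalizer _ (Subgroup.mem_centralizer_iff.2 ?_))
      intro w hw
      obtain ⟨i, rfl⟩ := Subgroup.mem_zpowers_iff.1 hw
      exact ((show Commute x v from hxc _ hvS).zpow_right i).eq.symm
    rw [hW, ← SetLike.mem_coe, Subgroup.coe_mul_of_left_le_normalizer_right _ _ hn] at hyW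
    obtain ⟨a, ha, b, hb, hab⟩ := hyW
    obtain ⟨i, rfl⟩ := Subgroup.mem_zpowers_iff.1 ha
    obtain ⟨j, rfl⟩ := Subgroup.mem_zpowers_iff.1 hb
    exact ⟨i, j, hab.symm⟩
  let Q : Sylow p ↥L := (S.isPGroup'.comap_of_injective L.subtype L.subtype_injective).toSylow hSL
  have hQ : ∀ a : ↥L, a ∈ (Q : Subgroup ↥L) ↔ (a : G) ∈ S := fun a => Iff.rfl
  have hfix : ∀ Q' : Subgroup ↥L, Q' ≤ (Q : Subgroup ↥L) → ∀ n ∈ Subgroup.normalizer (Q' : Set ↥L),
      (orderOf n).Coprime p → ∀ a ∈ Q', (a ^ p = 1 ∨ (p = 2 ∧ a ^ 4 = 1)) → Commute n a := by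
    intro Q' hQ' n hn _ a ha hsmall
    have ha1 : a ^ p = 1 := hsmall.resolve_right fun h => hp h.1
    have haS : (a : G) ∈ S := (hQ a).1 (hQ' ha)
    have hbS : (n : G) * a * (n : G)⁻¹ ∈ S := (hQ _).1 (hQ' ((Subgroup.mem_normalizer_iff.1 hn a).1 ha))
    obtain ⟨i, j, hij⟩ := hdec (a : G) haS a.2 (by simpa using congrArg Subtype.val ha1)
    have hnv : Commute (n : G) (v ^ j) := (hvL _ n.2).zpow_right j
    have key : Commute (n : G) (x ^ i) := by
      have h1 : ((n : G) * x * (n : G)⁻¹) ^ i ∈ S := by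
        have : ((n : G) * x * (n : G)⁻¹) ^ i = ((n : G) * a * (n : G)⁻¹) * (v ^ j)⁻¹ := by
          rw [conj_zpow, hij, mul_assoc (n : G) (x ^ i * v ^ j), mul_assoc (x ^ i) (v ^ j), ← hnv.inv_left.eq]
          group
        rw [this]
        exact S.toSubgroup.mul_mem hbS (S.toSubgroup.inv_mem (S.toSubgroup.zpow_mem hvS j))
      by_cases hi : (p : ℤ) ∣ i
      · obtain ⟨m, rfl⟩ := hi
        rw [zpow_mul, zpow_natCast, hxpow, one_zpow]
        exact Commute.one_right _
      · set y := (n : G) * x * (n : G)⁻¹ with hy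
        have hyp : y ^ p = 1 := by rw [hy, conj_pow, hxpow]; simp
        obtain ⟨r, s, hrs⟩ : IsCoprime (p : ℤ) i :=
          (Nat.prime_iff_prime_int.1 hpr).coprime_iff_not_dvd.2 hi
        have hyS : y ∈ S := by
          have : y = (y ^ i) ^ s := by
            calc y = y ^ ((p : ℤ) * r + i * s) := by rw [show (p : ℤ) * r + i * s = 1 by linarith, zpow_one]
              _ = (y ^ i) ^ s := by rw [zpow_add, zpow_mul, zpow_natCast, hyp, one_zpow, one_mul, zpow_mul]
          rw [this]; exact S.toSubgroup.zpow_mem h1 s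
        have h2 : y = x := hiso (n : G) (hxc y hyS)
        exact (show Commute (n : G) x from mul_inv_eq_iff_eq_mul.1 h2).zpow_right i
    have h3 : Commute (n : G) (a : G) := by rw [hij]; exact key.mul_right hnv
    exact Subtype.ext h3.eq
  obtain ⟨P, N, hN, hNP⟩ := CfsgLib.Transfer.hasNormalPComplement_of_fixes_small Q hfix
  have htop : commutator ↥L = ⊤ := by
    rw [← Subgroup.map_subtype_inj, Subgroup.map_subtype_commutator, hL, ← MonoidHom.range_eq_map, Subgroup.range_subtype]
  have hNtop : N = ⊤ := by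
    by_contra hne
    haveI := hN
    haveI : Nontrivial (↥L ⧸ N) := QuotientGroup.nontrivial_iff.mpr hne
    have hpq : IsPGroup p (↥L ⧸ N) := by
      obtain ⟨k, hk⟩ := IsPGroup.iff_card.1 P.isPGroup'
      exact IsPGroup.iff_card.2 ⟨k, by rw [← Subgroup.index_eq_card, hNP.symm.index_eq_card, hk]⟩
    haveI := hpq.isNilpotent
    refine (IsSolvable.commutator_lt_top_of_nontrivial (↥L ⧸ N)).ne ?_
    have := Subgroup.map_commutator (⊤ : Subgroup ↥L) ⊤ (QuotientGroup.mk' N)
    rw [← commutator_def, htop, Subgroup.map_top_of_surjective _ (QuotientGroup.mk'_surjective N)] at this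
    exact this.symm
  have hP1 : (P : Subgroup ↥L) = ⊥ := by
    rw [hNtop] at hNP; exact Subgroup.isComplement'_top_left.1 hNP
  refine (hpr.coprime_iff_not_dvd.2 fun h => ?_).symm
  exact P.ne_bot_of_dvd_card h hP1

/-- Let G be a finite group and p an odd prime with O_{p'}(G) = 1. Suppose that G has p-rank at most 2 (no elementary abelian subgroup of order p³) and that some element x of order p is isolated in G (no G-conjugate of x other than x commutes with x) and not central. Then the generalized Fitting subgroup F*(G) is a non-abelian simple group. Since O_{p'}(G) = 1, such an x is not central modulo O_{p'}(G): the hypotheses describe a counterexample to the Z*_p statement in p-rank at most 2. -/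
theorem result {G : Type*} [Group G] [Finite G] {p : ℕ} [Fact p.Prime] (hp : p ≠ 2) (hcore : Cfsg.pPrimeCore p G = ⊥)
    (hrank : Cfsg.PRankLE p 2 G) (x : G) (hx : orderOf x = p) (hiso : Cfsg.IsIsolated x) (hnc : x ∉ Subgroup.center G) :
    IsSimpleGroup ↥(Cfsg.generalizedFittingSubgroup G) ∧ ¬ IsMulCommutative ↥(Cfsg.generalizedFittingSubgroup G) := by
  have hpr : p.Prime := Fact.out
  have hxp : IsPGroup p ↥(Subgroup.zpowers x) :=
    IsPGroup.iff_card.2 ⟨1, by rw [Nat.card_zpowers, hx, pow_one]⟩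
  obtain ⟨S, hS⟩ := hxp.exists_le_sylow
  have hxS : x ∈ S := hS (Subgroup.mem_zpowers x)
  have hxc : ∀ y ∈ S, x * y = y * x := fun y hy => central_in hiso _ S.isPGroup' hxS y hy
  have hpc : ∀ N : Subgroup G, N.IsSubnormal → (Nat.card ↥N).Coprime p → N = ⊥ := fun N h1 h2 =>
    le_bot_iff.1 (hcore ▸ CfsgLib.Components.subnormal_le_pPrimeCore h1 h2)
  set A := Cfsg.pCore p G with hA
  have hAn : A.Normal := by
    haveI := CfsgLib.Components.pCore_characteristic (G := G) p
    infer_instance
  have hAp : IsPGroup p ↥A := CfsgLib.Components.pCore_isPGroup p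
  have hfit : Cfsg.fittingSubgroup G ≤ A := by
    rw [CfsgLib.Components.fittingSubgroup_eq_iSup]
    refine iSup_le fun q => ?_
    haveI : Fact (q : ℕ).Prime := ⟨Nat.prime_of_mem_primeFactors q.2⟩
    by_cases hqp : (q : ℕ) = p
    · rw [hqp]
    · have hn : (Cfsg.pCore (q : ℕ) G).Normal := by
        haveI := CfsgLib.Components.pCore_characteristic (G := G) (q : ℕ)
        infer_instance
      obtain ⟨k, hk⟩ := IsPGroup.iff_card.1 (CfsgLib.Components.pCore_isPGroup (G := G) (q : ℕ))
      rw [hpc _ hn.isSubnormal (by rw [hk]; exact ((Nat.coprime_primes Fact.out hpr).2 hqp).pow_left _)]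
      exact bot_le
  set E := Cfsg.layer G with hE
  have hEn : E.Normal := CfsgLib.Components.layer_normal
  have hAE : ∀ e ∈ E, ∀ a ∈ A, Commute e a := fun e he a ha =>
    (Subgroup.mem_centralizer_iff.1 (CfsgLib.Components.layer_le_centralizer_fitting he) a
      (CfsgLib.Components.pCore_le_fittingSubgroup p ha)).symm
  have hAS : A ≤ (S : Subgroup G) := by
    haveI := hAn
    exact hAp.le_sylow_of_normal S
  have hcent : x ∈ A → x ∈ Subgroup.center G := fun hxA => Subgroup.mem_center_iff.2 fun g => by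
    have h1 : g * x * g⁻¹ = x := hiso g (hxc _ (hAS (hAn.conj_mem x hxA g)))
    exact mul_inv_eq_iff_eq_mul.1 h1
  have hEne : E ≠ ⊥ := by
    intro h
    apply hnc
    apply hcent
    have h1 : x ∈ Subgroup.centralizer ((Cfsg.generalizedFittingSubgroup G : Subgroup G) : Set G) := by
      refine Subgroup.mem_centralizer_iff.2 fun a ha => ?_
      have : a ∈ A := by
        have ha' : a ∈ Cfsg.layer G ⊔ Cfsg.fittingSubgroup G := ha
        rw [← hE, h, bot_sup_eq] at ha'
        exact hfit ha'
      exact (hxc a (hAS this)).symm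
    have h2 : x ∈ Cfsg.layer G ⊔ Cfsg.fittingSubgroup G :=
      CfsgLib.Components.centralizer_generalizedFittingSubgroup_le h1
    rw [← hE, h, bot_sup_eq] at h2
    exact hfit h2
  have hAbot : A = ⊥ := by
    by_contra hne
    obtain ⟨z, hzA, hzS, hz⟩ : ∃ z ∈ A, z ∈ S ∧ orderOf z = p := by
      have hdvd : p ∣ Nat.card ↥A := by
        obtain ⟨k, hk⟩ := IsPGroup.iff_card.1 hAp
        have hk0 : k ≠ 0 := by
          rintro rfl
          rw [pow_zero, Subgroup.card_eq_one] at hk
          exact hne hk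
        exact hk ▸ dvd_pow_self p hk0
      obtain ⟨z, hz⟩ := exists_prime_orderOf_dvd_card' p hdvd
      exact ⟨z, z.2, hAS z.2, by rwa [Subgroup.orderOf_coe]⟩
    have hxz : x ∉ Subgroup.zpowers z := fun h => hnc (hcent (Subgroup.zpowers_le.mpr hzA h))
    have := coprime_of_perfect hrank S hx hxS hiso hp E CfsgLib.Components.commutator_layer
      (CfsgLib.Hall.Struct.sylow_inf_normal E hEn.isSubnormal S) z hzS hz (fun l hl => hAE l hl z hzA) hxz
      (fun y _ hy => hAE y hy z hzA)
    exact hEne (hpc E hEn.isSubnormal this)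
  have hfbot : Cfsg.fittingSubgroup G = ⊥ := le_bot_iff.1 (hAbot ▸ hfit)
  have hZK : ∀ K : Subgroup G, Cfsg.IsComponent K → Subgroup.center ↥K = ⊥ := by
    intro K hK
    have hn : ((Subgroup.center ↥K).map K.subtype).IsSubnormal :=
      CfsgLib.Components.subnormal_trans (Subgroup.map_subtype_le _) (by
        rw [Subgroup.subgroupOf, Subgroup.comap_map_eq_self_of_injective K.subtype_injective]
        exact (inferInstance : (Subgroup.center ↥K).Normal).isSubnormal) hK.1
    have hnil : Group.IsNilpotent ↥((Subgroup.center ↥K).map K.subtype) :=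
      letI : CommGroup ↥(Subgroup.center ↥K) := { (inferInstance : Group ↥(Subgroup.center ↥K)) with mul_comm := fun a b => Subtype.ext (Subgroup.mem_center_iff.1 b.2 a) }
      Group.nilpotent_of_surjective (((Subgroup.center ↥K).equivMapOfInjective _ K.subtype_injective).toMonoidHom) ((Subgroup.center ↥K).equivMapOfInjective _ K.subtype_injective).surjective
    have h := CfsgLib.Components.subnormal_le_fittingSubgroup hn hnil
    rw [hfbot, le_bot_iff, Subgroup.map_eq_bot_iff_of_injective _ K.subtype_injective] at h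
    exact h
  have hsimple : ∀ K : Subgroup G, Cfsg.IsComponent K → IsSimpleGroup ↥K := by
    intro K hK
    haveI := hK.2.2
    exact CfsgLib.IsoInv.isSimpleGroup_of_equiv
      ((QuotientGroup.quotientMulEquivOfEq (hZK K hK)).trans QuotientGroup.quotientBot) inferInstance
  have hlift : ∀ K : Subgroup G, Cfsg.IsComponent K → ∃ u ∈ K, u ∈ S ∧ orderOf u = p := by
    intro K hK
    have hd : p ∣ Nat.card ↥K := by
      by_contra h
      have hb := hpc K hK.1 (hpr.coprime_iff_not_dvd.2 h).symm
      haveI := CfsgLib.Components.quasisimple_nontrivial hK.2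
      exact (Subgroup.nontrivial_iff_ne_bot K).1 inferInstance hb
    let Q : Sylow p ↥K := (S.isPGroup'.comap_of_injective K.subtype K.subtype_injective).toSylow
      (CfsgLib.Hall.Struct.sylow_inf_normal K hK.1 S)
    have hd' : p ∣ Nat.card ↥(Q : Subgroup ↥K) := Q.dvd_card_of_dvd_card hd
    obtain ⟨u, hu⟩ := exists_prime_orderOf_dvd_card' p hd'
    exact ⟨((u : ↥K) : G), (u : ↥K).2, u.2, by rwa [Subgroup.orderOf_coe, Subgroup.orderOf_coe]⟩
  have huniq : ∀ K L : Subgroup G, Cfsg.IsComponent K → Cfsg.IsComponent L → K = L := by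
    intro K L hK hL
    by_contra hne
    obtain ⟨u, huK, huS, hu⟩ := hlift K hK
    obtain ⟨v, hvL, hvS, hv⟩ := hlift L hL
    have hcom : ∀ a ∈ K, ∀ b ∈ L, Commute a b := fun a ha b hb =>
      commutatorElement_eq_one_iff_commute.1 ((Subgroup.mem_bot).1
        (CfsgLib.Components.components_commute hK hL hne ▸ Subgroup.commutator_mem_commutator ha hb))
    have key : ∀ (K L : Subgroup G) (v : G), Cfsg.IsComponent K → v ∈ L → v ∈ S → orderOf v = p →
        (∀ a ∈ K, ∀ b ∈ L, Commute a b) → x ∉ Subgroup.zpowers v → False := by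
      intro K L v hK hvL hvS hv hcom hxv
      have hcp := coprime_of_perfect hrank S hx hxS hiso hp K (CfsgLib.Components.quasisimple_commutator hK.2)
        (CfsgLib.Hall.Struct.sylow_inf_normal K hK.1 S) v hvS hv (fun l hl => hcom l hl v hvL) hxv
        (fun y _ hy => hcom y hy v hvL)
      haveI := CfsgLib.Components.quasisimple_nontrivial hK.2
      exact (Subgroup.nontrivial_iff_ne_bot K).1 inferInstance (hpc K hK.1 hcp)
    by_cases h1 : x ∈ Subgroup.zpowers v
    · refine key L K u hL huK huS hu (fun a ha b hb => (hcom b hb a ha).symm) fun h2 => ?_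
      have hxK : x ∈ K := Subgroup.zpowers_le.mpr huK h2
      have hxL : x ∈ L := Subgroup.zpowers_le.mpr hvL h1
      have : (⟨x, hxK⟩ : ↥K) ∈ Subgroup.center ↥K :=
        Subgroup.mem_center_iff.2 fun a => Subtype.ext (hcom a a.2 x hxL).eq
      rw [hZK K hK, Subgroup.mem_bot] at this
      rw [show x = 1 from congrArg Subtype.val this, orderOf_one] at hx
      exact hpr.one_lt.ne hx
    · exact key K L v hK hvL hvS hv hcom h1
  obtain ⟨K, hK⟩ : ∃ K : Subgroup G, Cfsg.IsComponent K := by
    by_contra h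
    push Not at h
    exact hEne (CfsgLib.Components.layer_eq_bot_of_no_component h)
  have hF : Cfsg.generalizedFittingSubgroup G = K := by
    show Cfsg.layer G ⊔ Cfsg.fittingSubgroup G = K
    rw [hfbot, sup_bot_eq]
    exact le_antisymm (sSup_le fun L hL => (huniq L K hL hK).le) (le_sSup hK)
  refine ⟨?_, ?_⟩
  · rw [hF]; exact hsimple K hK
  · rw [hF]
    intro hab
    letI : CommGroup ↥K := { (inferInstance : Group ↥K) with mul_comm := fun a b => hab.is_comm.comm a b }
    exact CfsgLib.Components.quasisimple_not_nilpotent hK.2 CommGroup.isNilpotent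

end Cfsg.Agent.S3049
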