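import Cfsg.Statements.S3050
import Cfsg.Agent.PGroup.Basic
import Mathlib.FieldTheory.Finite.Basic
import Mathlib.LinearAlgebra.Dimension.Free
import Mathlib.LinearAlgebra.Matrix.Notation
import Mathlib.Tactic.LinearCombination

set_option autoImplicit false
open Cfsg

namespace Cfsg.Agent.S3050

open scoped commutatorElement
open Matrix

section sl

variable {K : Type*} [Field K]

local notation "SL2" => Matrix.SpecialLinearGroup (Fin 2) K

/-- Upper unitriangular element. -/
def uU (t : K) : SL2 := ⟨!![1, t; 0, 1], by rw [Matrix.det_fin_two]; simp⟩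

/-- Lower unitriangular element. -/
def lL (t : K) : SL2 := ⟨!![1, 0; t, 1], by rw [Matrix.det_fin_two]; simp⟩

@[simp] theorem uU_val (t : K) : ((uU t : SL2) : Matrix (Fin 2) (Fin 2) K) = !![1, t; 0, 1] := rfl

@[simp] theorem lL_val (t : K) : ((lL t : SL2) : Matrix (Fin 2) (Fin 2) K) = !![1, 0; t, 1] := rfl

theorem uU_mul (s t : K) : uU s * uU t = uU (s + t) := by
  apply Subtype.ext
  ext i j
  fin_cases i <;> fin_cases j <;> simp [Matrix.mul_apply, Fin.sum_univ_two, add_comm]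

theorem uU_zero : uU (0 : K) = 1 := by
  apply Subtype.ext
  ext i j
  fin_cases i <;> fin_cases j <;> simp

/-- The element exchanging the two coordinates (characteristic two). -/
def wW : SL2 := uU 1 * lL 1 * uU 1

theorem eq_word {g : SL2} (hc : (g : Matrix (Fin 2) (Fin 2) K) 1 0 ≠ 0) :
    ∃ p r : K, g = uU p * lL ((g : Matrix (Fin 2) (Fin 2) K) 1 0) * uU r := by
  have hdet := g.2
  rw [Matrix.det_fin_two] at hdet
  set A := (g : Matrix (Fin 2) (Fin 2) K) with hA
  refine ⟨(A 0 0 - 1) / A 1 0, (A 1 1 - 1) / A 1 0, ?_⟩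
  apply Subtype.ext
  ext i j
  fin_cases i <;> fin_cases j <;> simp [Matrix.mul_apply, Fin.sum_univ_two, ← hA] <;> field_simp <;>
    first | ring1 | linear_combination hdet | linear_combination (-1 : K) * hdet

theorem sl_induction {P : SL2 → Prop} (hu : ∀ t, P (uU t)) (hl : ∀ t, P (lL t))
    (hm : ∀ g h, P g → P h → P (g * h)) (g : SL2) : P g := by
  have hgen : ∀ g : SL2, (g : Matrix (Fin 2) (Fin 2) K) 1 0 ≠ 0 → P g := by
    intro g hg
    obtain ⟨p, r, e⟩ := eq_word hg
    rw [e]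
    exact hm _ _ (hm _ _ (hu p) (hl _)) (hu r)
  by_cases hc : (g : Matrix (Fin 2) (Fin 2) K) 1 0 = 0
  · have ha : (g : Matrix (Fin 2) (Fin 2) K) 0 0 ≠ 0 := fun h => by
      have := g.2
      rw [Matrix.det_fin_two, h, hc] at this
      simp at this
    have h2 : ((lL 1 * g : SL2) : Matrix (Fin 2) (Fin 2) K) 1 0 ≠ 0 := by
      simpa [Matrix.mul_apply, Fin.sum_univ_two, hc] using ha
    have : g = lL (-1) * (lL 1 * g) := by
      rw [← mul_assoc]
      apply Subtype.ext
      ext i j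
      fin_cases i <;> fin_cases j <;> simp [Matrix.mul_apply, Fin.sum_univ_two]
    rw [this]
    exact hm _ _ (hl _) (hgen _ h2)
  · exact hgen g hc

variable [CharP K 2]

theorem two_eq_zero' : (1 : K) + 1 = 0 := CharTwo.add_self_eq_zero 1

theorem wW_val : ((wW : SL2) : Matrix (Fin 2) (Fin 2) K) = !![0, 1; 1, 0] := by
  ext i j
  fin_cases i <;> fin_cases j <;> simp [wW, Matrix.mul_apply, Fin.sum_univ_two, CharTwo.add_self_eq_zero]

theorem wW_uU (t : K) : wW * uU t * wW = lL t := by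
  apply Subtype.ext
  ext i j
  fin_cases i <;> fin_cases j <;>
    simp [Matrix.mul_apply, Fin.sum_univ_two, wW_val]

theorem wW_sq : wW * wW = (1 : SL2) := by
  apply Subtype.ext
  ext i j
  fin_cases i <;> fin_cases j <;> simp [Matrix.mul_apply, Fin.sum_univ_two, wW_val]

/-- The torus element. -/
def tT (t : K) : SL2 := uU t * lL t⁻¹ * uU t * wW

theorem tT_val {t : K} (ht : t ≠ 0) : ((tT t : SL2) : Matrix (Fin 2) (Fin 2) K) = !![t, 0; 0, t⁻¹] := by
  ext i j
  fin_cases i <;> fin_cases j <;>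
    simp [tT, Matrix.mul_apply, Fin.sum_univ_two, wW_val, mul_inv_cancel₀ ht, inv_mul_cancel₀ ht,
      CharTwo.add_self_eq_zero]

theorem tT_conj {l : K} (hl : l ≠ 0) (t : K) : tT l * uU t = uU (l * l * t) * tT l := by
  apply Subtype.ext
  ext i j
  fin_cases i <;> fin_cases j <;> simp [Matrix.mul_apply, Fin.sum_univ_two, tT_val hl] <;> field_simp

theorem tT_mul {s t : K} (hs : s ≠ 0) (ht : t ≠ 0) : tT s * tT t = tT (s * t) := by
  apply Subtype.ext
  ext i j
  fin_cases i <;> fin_cases j <;>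
    simp [Matrix.mul_apply, Fin.sum_univ_two, tT_val hs, tT_val ht, tT_val (mul_ne_zero hs ht), mul_comm]

/-- The elements of order three `u(t) l(1/t)`. -/
def yY (t : K) : SL2 := uU t * lL t⁻¹

theorem yY_val {t : K} (ht : t ≠ 0) : ((yY t : SL2) : Matrix (Fin 2) (Fin 2) K) = !![0, t; t⁻¹, 1] := by
  ext i j
  fin_cases i <;> fin_cases j <;>
    simp [yY, Matrix.mul_apply, Fin.sum_univ_two, mul_inv_cancel₀ ht, CharTwo.add_self_eq_zero]

theorem yY_cube {t : K} (ht : t ≠ 0) : yY t * yY t * yY t = (1 : SL2) ∧ yY t ≠ (1 : SL2) := by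
  refine ⟨?_, fun h => ?_⟩
  · apply Subtype.ext
    ext i j
    fin_cases i <;> fin_cases j <;>
      simp [Matrix.mul_apply, Fin.sum_univ_two, yY_val ht, mul_inv_cancel₀ ht, inv_mul_cancel₀ ht,
        CharTwo.add_self_eq_zero]
  · have := congrArg (fun g : SL2 => (g : Matrix (Fin 2) (Fin 2) K) 0 0) h
    simp [yY_val ht] at this

theorem yY_inv {t : K} : yY t * (lL t⁻¹ * uU t) = (1 : SL2) := by
  have hu : uU t * uU t = (1 : SL2) := by rw [uU_mul, CharTwo.add_self_eq_zero, uU_zero]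
  have hl : lL t⁻¹ * lL t⁻¹ = (1 : SL2) := by
    apply Subtype.ext
    ext i j
    fin_cases i <;> fin_cases j <;> simp [Matrix.mul_apply, Fin.sum_univ_two, CharTwo.add_self_eq_zero]
  rw [yY, mul_assoc, ← mul_assoc (lL t⁻¹), hl, one_mul, hu]

variable [Finite K]

theorem exists_sqrt' (a : K) : ∃ r : K, r * r = a := by
  have hinj : Function.Injective (fun r : K => r * r) := fun r s h => by
    have h' : (r + s) * (r + s) = 0 := by
      rw [show (r + s) * (r + s) = r * r + s * s + (r * s + r * s) by ring, CharTwo.add_self_eq_zero,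
        show r * r = s * s from h, CharTwo.add_self_eq_zero, zero_add]
    exact CharTwo.add_eq_zero.1 (mul_self_eq_zero.1 h')
  exact Finite.injective_iff_surjective.1 hinj a

/-- All elements of order three are conjugate to `u(1) l(1)`. -/
theorem order_three_conj {g : SL2} (h3 : g * g * g = 1) (h1 : g ≠ 1) : ∃ P : SL2, g * P = P * yY 1 := by
  set A := (g : Matrix (Fin 2) (Fin 2) K) with hA
  have hdet : A 0 0 * A 1 1 - A 0 1 * A 1 0 = 1 := by rw [← Matrix.det_fin_two]; exact g.2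
  rw [CharTwo.sub_eq_add] at hdet
  set τ := A 0 0 + A 1 1 with hτ
  have h2 : A * A = τ • A + 1 := by
    ext i j
    fin_cases i <;> fin_cases j <;> simp [Matrix.mul_apply, Fin.sum_univ_two, hτ]
    · linear_combination (norm := skip) hdet
      ring_nf
      simp [CharTwo.two_eq_zero]
    · ring
    · ring
    · linear_combination (norm := skip) hdet
      ring_nf
      simp [CharTwo.two_eq_zero]
  have hA3 : A * A * A = 1 := congrArg Subtype.val h3
  rw [h2, Matrix.add_mul, Matrix.smul_mul, h2, one_mul, smul_add, smul_smul] at hA3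
  have hτ1 : τ = 1 := by
    by_contra hne
    have hne2 : τ * τ + 1 ≠ 0 := fun h => hne (by
      have h' : (τ + 1) * (τ + 1) = 0 := by
        rw [show (τ + 1) * (τ + 1) = τ * τ + 1 + (τ + τ) by ring, CharTwo.add_self_eq_zero, h, add_zero]
      exact CharTwo.add_eq_zero.1 (mul_self_eq_zero.1 h'))
    have e01 := congrArg (fun M : Matrix (Fin 2) (Fin 2) K => M 0 1) hA3
    have e10 := congrArg (fun M : Matrix (Fin 2) (Fin 2) K => M 1 0) hA3
    have e00 := congrArg (fun M : Matrix (Fin 2) (Fin 2) K => M 0 0) hA3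
    have e11 := congrArg (fun M : Matrix (Fin 2) (Fin 2) K => M 1 1) hA3
    simp at e01 e10 e00 e11
    have z01 : A 0 1 = 0 := (mul_eq_zero.1 (show (τ * τ + 1) * A 0 1 = 0 by linear_combination e01)).resolve_left hne2
    have z10 : A 1 0 = 0 := (mul_eq_zero.1 (show (τ * τ + 1) * A 1 0 = 0 by linear_combination e10)).resolve_left hne2
    have heq : A 0 0 = A 1 1 := mul_left_cancel₀ hne2 (by linear_combination e00 - e11)
    rw [z01, zero_mul, add_zero, ← heq] at hdet
    have h00 : A 0 0 = 1 := CharTwo.add_eq_zero.1 (mul_self_eq_zero.1 (by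
      rw [show (A 0 0 + 1) * (A 0 0 + 1) = A 0 0 * A 0 0 + 1 + (A 0 0 + A 0 0) by ring, hdet,
        CharTwo.add_self_eq_zero, CharTwo.add_self_eq_zero, add_zero]))
    refine h1 (Subtype.ext ?_)
    ext i j
    fin_cases i <;> fin_cases j <;> simp [← hA, z01, z10, h00, ← heq]
  -- a vector moved out of its line
  obtain ⟨p, q, hv⟩ : ∃ p q : K, p * (A 1 0 * p + A 1 1 * q) + q * (A 0 0 * p + A 0 1 * q) ≠ 0 := by
    by_contra hall
    push Not at hall
    have a1 := hall 1 0
    have a2 := hall 0 1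
    have a3 := hall 1 1
    simp at a1 a2 a3
    rw [a1, a2, zero_add, add_zero] at a3
    rw [hτ, add_comm, a3] at hτ1
    exact zero_ne_one hτ1
  set δ := p * (A 1 0 * p + A 1 1 * q) + q * (A 0 0 * p + A 0 1 * q) with hδ
  obtain ⟨r, hr⟩ := exists_sqrt' δ⁻¹
  let P : SL2 := ⟨!![r * p, r * (A 0 0 * p + A 0 1 * q); r * q, r * (A 1 0 * p + A 1 1 * q)], by
    rw [Matrix.det_fin_two]
    simp only [Matrix.cons_val', Matrix.cons_val_zero, Matrix.cons_val_one, Matrix.empty_val',
      Matrix.cons_val_fin_one, Matrix.of_apply]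
    rw [CharTwo.sub_eq_add, ← mul_inv_cancel₀ hv, ← hr, hδ]
    ring⟩
  have hPv : (P : Matrix (Fin 2) (Fin 2) K) =
      !![r * p, r * (A 0 0 * p + A 0 1 * q); r * q, r * (A 1 0 * p + A 1 1 * q)] := rfl
  refine ⟨P, Subtype.ext ?_⟩
  rw [Matrix.SpecialLinearGroup.coe_mul, Matrix.SpecialLinearGroup.coe_mul]
  have f00 := congrArg (fun M : Matrix (Fin 2) (Fin 2) K => M 0 0) h2
  have f01 := congrArg (fun M : Matrix (Fin 2) (Fin 2) K => M 0 1) h2
  have f10 := congrArg (fun M : Matrix (Fin 2) (Fin 2) K => M 1 0) h2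
  have f11 := congrArg (fun M : Matrix (Fin 2) (Fin 2) K => M 1 1) h2
  simp [Matrix.mul_apply, Fin.sum_univ_two, hτ1] at f00 f01 f10 f11
  ext i j
  fin_cases i <;> fin_cases j <;>
    simp [hPv, Matrix.mul_apply, Fin.sum_univ_two, yY_val (one_ne_zero' K), ← hA] <;>
    first
      | ring1
      | linear_combination r * p * f00 + r * q * f01
      | linear_combination r * p * f10 + r * q * f11

/-- A normal subgroup containing `u(1) l(1)` is everything when the field has more than two elements. -/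
theorem normal_eq_top {N : Subgroup SL2} [N.Normal] (hK : ∃ m : K, m ≠ 0 ∧ m ≠ 1) (hy : yY 1 ∈ N) : N = ⊤ := by
  set q := QuotientGroup.mk' N with hq
  have hy1 : q (uU 1) * q (lL 1) = 1 := by
    rw [← map_mul]
    exact (QuotientGroup.eq_one_iff _).2 (by simpa [yY] using hy)
  have huu : ∀ s : K, q (uU s) * q (uU s) = 1 := fun s => by
    rw [← map_mul, uU_mul, CharTwo.add_self_eq_zero, uU_zero, map_one]
  have hyt : ∀ t : K, t ≠ 0 → q (lL t⁻¹) = q (uU t) := by
    intro t ht
    obtain ⟨h3, h1⟩ := yY_cube ht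
    obtain ⟨P, hP⟩ := order_three_conj h3 h1
    have h : q (yY t) = 1 := (QuotientGroup.eq_one_iff _).2 (by
      rw [show yY t = P * yY 1 * P⁻¹ from eq_mul_inv_of_mul_eq hP]
      exact Subgroup.Normal.conj_mem inferInstance _ hy _)
    rw [yY, map_mul] at h
    exact mul_left_cancel (h.trans (huu t).symm)
  have hl1 : q (lL 1) = q (uU 1) := by simpa using hyt 1 one_ne_zero
  have hw : q wW = q (uU 1) := by rw [wW, map_mul, map_mul, hy1, one_mul]
  have hlu : ∀ t, q (lL t) = q (uU t) := fun t => by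
    rw [← wW_uU, map_mul, map_mul, hw, ← map_mul, ← map_mul, uU_mul, uU_mul, add_comm (1 : K) t, add_assoc,
      CharTwo.add_self_eq_zero, add_zero]
  obtain ⟨m, hm0, hm1⟩ := hK
  have hz : q (uU (m + m⁻¹)) = 1 := by
    have h2 := hyt m hm0
    rw [hlu] at h2
    rw [← uU_mul, map_mul, h2, huu]
  have hne : m + m⁻¹ ≠ 0 := fun h => by
    have h1 : m * m = 1 := by
      have := congrArg (m * ·) (CharTwo.add_eq_zero.1 h)
      simpa [mul_inv_cancel₀ hm0] using this
    refine hm1 (CharTwo.add_eq_zero.1 (mul_self_eq_zero.1 ?_))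
    rw [show (m + 1) * (m + 1) = m * m + 1 + (m + m) by ring, h1, CharTwo.add_self_eq_zero,
      CharTwo.add_self_eq_zero, add_zero]
  have hall : ∀ s : K, q (uU s) = 1 := by
    intro s
    rcases eq_or_ne s 0 with rfl | hs
    · rw [uU_zero, map_one]
    · obtain ⟨l, hl⟩ := exists_sqrt' (s / (m + m⁻¹))
      have hl0 : l ≠ 0 := fun h => by
        rw [h, zero_mul, eq_comm, div_eq_zero_iff] at hl
        exact hl.elim hs hne
      have h := congrArg q (tT_conj hl0 (m + m⁻¹))
      rw [map_mul, map_mul, hz, mul_one, hl, div_mul_cancel₀ _ hne] at h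
      exact mul_eq_right.1 h.symm
  rw [eq_top_iff]
  intro g _
  refine (QuotientGroup.eq_one_iff g).1 ?_
  show q g = 1
  refine sl_induction (P := fun g => q g = 1) hall (fun t => (hlu t).trans (hall t)) (fun g h hg hh => ?_) g
  rw [map_mul, hg, hh, one_mul]

/-- The coordinate form of the theorem. -/
theorem matrix_form {C : Type*} [AddCommGroup C] (h2 : ∀ c : C, c + c = 0)
    (ρ : SL2 →* Matrix (Fin 2) (Fin 2) (AddMonoid.End C))
    (hu : ρ (uU 1) = !![1, 1; 0, 1]) (hl : ρ (lL 1) = !![1, 0; 1, 1])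
    (hrel : ∀ t : K, t ≠ 0 → ρ (uU t * lL t⁻¹) + ρ (lL t⁻¹ * uU t) = 1) :
    ∃ e : K →+* AddMonoid.End C, ∀ g : SL2, ρ g = (g : Matrix (Fin 2) (Fin 2) K).map e := by
  have hff : ∀ f : AddMonoid.End C, f + f = 0 := fun f => AddMonoidHom.ext fun c => h2 (f c)
  have hcc : ∀ f g : AddMonoid.End C, f + g = 0 → f = g := fun f g h => add_right_cancel (h.trans (hff g).symm)
  obtain ⟨b, hb⟩ : ∃ b : K → AddMonoid.End C, ∀ t, b t = ρ (uU t) 0 1 := ⟨_, fun _ => rfl⟩
  obtain ⟨a, haDef⟩ : ∃ a : K → AddMonoid.End C, ∀ t, a t = 1 + ρ (uU t) 0 0 := ⟨_, fun _ => rfl⟩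
  have h20 : (2 : AddMonoid.End C) = 0 := by rw [← one_add_one_eq_two]; exact hff 1
  have hff' : ∀ f g : AddMonoid.End C, f + (f + g) = g := fun f g => by rw [← add_assoc, hff, zero_add]
  -- shape of the images
  have hU : ∀ t, ρ (uU t) = !![1 + a t, b t; 0, 1 + a t] := by
    intro t
    have h : ρ (uU t) * ρ (uU 1) = ρ (uU 1) * ρ (uU t) := by rw [← map_mul, ← map_mul, uU_mul, uU_mul, add_comm]
    rw [hu] at h
    have e00 := congrArg (fun M : Matrix (Fin 2) (Fin 2) (AddMonoid.End C) => M 0 0) h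
    have e01 := congrArg (fun M : Matrix (Fin 2) (Fin 2) (AddMonoid.End C) => M 0 1) h
    simp [Matrix.mul_apply, Fin.sum_univ_two] at e00 e01
    rw [add_comm (ρ (uU t) 0 1)] at e01
    have ha : 1 + a t = ρ (uU t) 0 0 := by
      rw [haDef, hff']
    ext1 i j
    fin_cases i <;> fin_cases j <;> simp [hb, ha, e00, add_right_cancel e01]
  have hW : ρ wW = !![0, 1; 1, 0] := by
    ext1 i j
    fin_cases i <;> fin_cases j <;> simp [wW, map_mul, hu, hl, Matrix.mul_apply, Fin.sum_univ_two, hff]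
  have hL : ∀ t, ρ (lL t) = !![1 + a t, 0; b t, 1 + a t] := by
    intro t
    rw [← wW_uU, map_mul, map_mul, hU, hW]
    ext1 i j
    fin_cases i <;> fin_cases j <;> simp [Matrix.mul_apply, Fin.sum_univ_two]
  have ha1 : a 1 = 0 := by
    rw [haDef, hu]
    simpa using hff 1
  have hb1 : b 1 = 1 := by
    rw [hb, hu]
    simp
  have hsum : ∀ s t, (1 + a (s + t) = (1 + a s) * (1 + a t)) ∧
      b (s + t) = (1 + a s) * b t + b s * (1 + a t) := by
    intro s t
    have h : ρ (uU (s + t)) = ρ (uU s) * ρ (uU t) := by rw [← map_mul, uU_mul]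
    rw [hU, hU, hU] at h
    have e00 := congrArg (fun M : Matrix (Fin 2) (Fin 2) (AddMonoid.End C) => M 0 0) h
    have e01 := congrArg (fun M : Matrix (Fin 2) (Fin 2) (AddMonoid.End C) => M 0 1) h
    simp [Matrix.mul_apply, Fin.sum_univ_two] at e00 e01
    exact ⟨e00, e01⟩
  have ha0 : a 0 = 0 := by
    rw [haDef, uU_zero, map_one]
    simpa using hff 1
  have hb0 : b 0 = 0 := by
    rw [hb, uU_zero, map_one]
    simp
  have hasq : ∀ t, a t * a t = 0 := by
    intro t
    have h := (hsum t t).1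
    rw [CharTwo.add_self_eq_zero, ha0, add_zero, add_mul, mul_add, mul_add, one_mul, one_mul, mul_one,
      show (1 : AddMonoid.End C) + a t + (a t + a t * a t) = 1 + (a t + a t) + a t * a t by abel, hff, add_zero]
      at h
    exact (add_eq_left.1 h.symm)
  have hacomm : ∀ s t, a s * a t = a t * a s := by
    intro s t
    have h1 := (hsum s t).1
    have h2' := (hsum t s).1
    rw [add_comm t s] at h2'
    have h := h1.symm.trans h2'
    simp only [add_mul, mul_add, one_mul, mul_one] at h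
    refine add_left_cancel (a := 1 + a s + a t) ?_
    calc (1 + a s + a t) + a s * a t = 1 + a s + (a t + a s * a t) := by abel
      _ = _ := h
      _ = _ := by abel
  -- the relations of the elements of order three
  have hR : ∀ t, t ≠ 0 → b t * b t⁻¹ = 1 ∧ b t⁻¹ * b t = 1 ∧ b t * a t⁻¹ = a t⁻¹ * b t ∧
      a t * b t⁻¹ = b t⁻¹ * a t := by
    intro t ht
    have h := hrel t ht
    rw [map_mul, map_mul, hU, hL] at h
    have e00 := congrArg (fun M : Matrix (Fin 2) (Fin 2) (AddMonoid.End C) => M 0 0) h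
    have e01 := congrArg (fun M : Matrix (Fin 2) (Fin 2) (AddMonoid.End C) => M 0 1) h
    have e10 := congrArg (fun M : Matrix (Fin 2) (Fin 2) (AddMonoid.End C) => M 1 0) h
    have e11 := congrArg (fun M : Matrix (Fin 2) (Fin 2) (AddMonoid.End C) => M 1 1) h
    simp [Matrix.mul_apply, Fin.sum_univ_two] at e00 e01 e10 e11
    simp only [add_mul, mul_add, one_mul, mul_one] at e00 e01 e10 e11
    rw [hacomm t⁻¹ t] at e00 e11
    refine ⟨?_, ?_, ?_, ?_⟩
    · rw [← e00]
      abel_nf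
      simp [two_zsmul, two_nsmul, two_mul, hff, h20]
    · rw [← e11]
      abel_nf
      simp [two_zsmul, two_nsmul, two_mul, hff, h20]
    · refine hcc _ _ ?_
      rw [← e01]
      rw [show b t + b t * a t⁻¹ + (b t + a t⁻¹ * b t) = (b t + b t) + (b t * a t⁻¹ + a t⁻¹ * b t) by abel, hff,
        zero_add]
    · refine hcc _ _ ?_
      rw [← e10]
      rw [show b t⁻¹ + a t * b t⁻¹ + (b t⁻¹ + b t⁻¹ * a t) = (b t⁻¹ + b t⁻¹) + (a t * b t⁻¹ + b t⁻¹ * a t) by abel,
        hff, zero_add]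
  have hab : ∀ t, t ≠ 0 → a t * b t = b t * a t := by
    intro t ht
    obtain ⟨r1, r2, -, r4⟩ := hR t ht
    calc a t * b t = b t * (b t⁻¹ * (a t * b t)) := by rw [← mul_assoc, r1, one_mul]
      _ = b t * (a t * (b t⁻¹ * b t)) := by rw [← mul_assoc (b t⁻¹), ← r4, mul_assoc]
      _ = b t * a t := by rw [r2, mul_one]
  -- the torus
  have hT : ∀ t, t ≠ 0 → ρ (tT t) = !![b t, a t + a t⁻¹; a t + a t⁻¹, b t⁻¹] := by
    intro t ht
    obtain ⟨r1, r2, r3, r4⟩ := hR t ht
    have hXY : (1 + a t) * (1 + a t⁻¹) = 1 + (a t + a t⁻¹) + a t * a t⁻¹ := by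
      simp only [add_mul, mul_add, one_mul, mul_one]; abel
    have hXX : (1 + a t) * (1 + a t) = 1 := by
      simp only [add_mul, mul_add, one_mul, mul_one, hasq, add_zero, add_assoc, hff]
    have hbX : b t * (1 + a t) = (1 + a t) * b t := by rw [mul_add, add_mul, hab t ht, mul_one, one_mul]
    have hbY : b t * (1 + a t⁻¹) = (1 + a t⁻¹) * b t := by rw [mul_add, add_mul, r3, mul_one, one_mul]
    have hdX : b t⁻¹ * (1 + a t) = (1 + a t) * b t⁻¹ := by rw [mul_add, add_mul, r4, mul_one, one_mul]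
    have hYX : (1 + a t⁻¹) * (1 + a t) = (1 + a t) * (1 + a t⁻¹) := by
      simp only [add_mul, mul_add, one_mul, mul_one, hacomm t⁻¹ t]; abel
    have hXYX : (1 + a t) * (1 + a t⁻¹) * (1 + a t) = 1 + a t⁻¹ := by
      rw [mul_assoc, hYX, ← mul_assoc, hXX, one_mul]
    rw [tT, map_mul, map_mul, map_mul, hU, hL, hW]
    ext1 i j
    fin_cases i <;> fin_cases j <;> simp [Matrix.mul_apply, Fin.sum_univ_two]
    · rw [add_mul, r1, one_mul, mul_assoc (b t)]
      rw [show b t * ((1 + a t⁻¹) * (1 + a t)) = (1 + a t) * (1 + a t⁻¹) * b t by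
        rw [← mul_assoc (b t), hbY, mul_assoc (1 + a t⁻¹) (b t), hbX, ← mul_assoc, hYX], add_right_comm, hff,
        zero_add]
    · rw [add_mul, r1, one_mul, hXYX]
      rw [show (1 + a t⁻¹) + (1 + a t) = ((1 : AddMonoid.End C) + 1) + (a t + a t⁻¹) by abel, hff, zero_add]
    · rw [hXYX, mul_assoc, r2, mul_one]
      rw [show (1 + a t) + (1 + a t⁻¹) = ((1 : AddMonoid.End C) + 1) + (a t + a t⁻¹) by abel, hff, zero_add]
    · rw [mul_assoc, hdX, ← mul_assoc, hXX, one_mul]
  -- the conjugation relation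
  have hconj : ∀ l, l ≠ 0 → ∀ t, (b l * b t + (a l + a l⁻¹) * (1 + a t) =
      (1 + a (l * l * t)) * (a l + a l⁻¹) + b (l * l * t) * b l⁻¹) ∧
      ((a l + a l⁻¹) * b t + b l⁻¹ * (1 + a t) = (1 + a (l * l * t)) * b l⁻¹) := by
    intro l hl t
    have h := congrArg ρ (tT_conj hl t)
    rw [map_mul, map_mul, hT l hl, hU, hU] at h
    have e01 := congrArg (fun M : Matrix (Fin 2) (Fin 2) (AddMonoid.End C) => M 0 1) h
    have e11 := congrArg (fun M : Matrix (Fin 2) (Fin 2) (AddMonoid.End C) => M 1 1) h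
    simp [Matrix.mul_apply, Fin.sum_univ_two] at e01 e11
    exact ⟨e01, e11⟩
  -- the diagonal parts vanish
  have hzero : ∀ μ, a μ = 0 := by
    have hsq : ∀ μ, a (μ * μ) = a μ * b μ + a μ := by
      intro μ
      rcases eq_or_ne μ 0 with rfl | hμ
      · rw [mul_zero, ha0, zero_mul, add_zero]
      obtain ⟨l, rfl⟩ := exists_sqrt' μ
      have hl : l ≠ 0 := fun h => hμ (by rw [h, zero_mul])
      obtain ⟨r1, r2, r3, r4⟩ := hR l hl
      set α := a l + a l⁻¹ with hα
      set d := b l⁻¹ with hd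
      set m := a (l * l) with hm
      obtain ⟨f1, g1⟩ := hconj l hl 1
      rw [ha1, hb1, add_zero, mul_one, mul_one] at f1
      rw [ha1, hb1, add_zero, mul_one, mul_one, mul_one, add_mul, one_mul, add_comm α d] at g1
      have hαm : α = m * d := add_left_cancel g1
      have hαb : α * b l = b l * α := by rw [hα, add_mul, mul_add, hab l hl, r3]
      have hmm : m = α * b l := by rw [hαm, mul_assoc, r2, mul_one]
      have hmb : m * b l = b l * m := by
        rw [hmm, ← mul_assoc (b l) α, ← hαb]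
      have hbb : b (l * l) = b l * b l := by
        rw [mul_one, add_mul, one_mul, add_assoc, add_comm (b l) α] at f1
        have f2 : b l = m * α + b (l * l) * d := add_left_cancel f1
        rw [hαm, ← mul_assoc, hasq, zero_mul, zero_add] at f2
        calc b (l * l) = b (l * l) * d * b l := by rw [mul_assoc, r2, mul_one]
          _ = b l * b l := by rw [← f2]
      obtain ⟨-, g2⟩ := hconj l hl (l * l)
      rw [← hα, ← hd, ← hm] at g2
      rw [hαm, mul_add (b l⁻¹), mul_one, add_mul, one_mul, ← add_assoc, add_comm (m * d * b (l * l)) d,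
        add_assoc] at g2
      have g3 : m * d * b (l * l) + d * m = a (l * l * (l * l)) * d := add_left_cancel g2
      calc a (l * l * (l * l)) = a (l * l * (l * l)) * d * b l := by rw [mul_assoc (a (l * l * (l * l))) d, r2, mul_one]
        _ = (m * d * b (l * l) + d * m) * b l := by rw [g3]
        _ = m * (d * b l) * b l * b l + d * b l * m := by
          rw [add_mul, hbb, mul_assoc d m, hmb]; simp only [mul_assoc]
        _ = _ := by rw [r2, mul_one, one_mul, hbb, mul_assoc]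
    intro μ
    have h1 := hsq (μ + 1)
    have hmul : (μ + 1) * (μ + 1) = μ * μ + 1 := by
      rw [show (μ + 1) * (μ + 1) = μ * μ + 1 + (μ + μ) by ring, CharTwo.add_self_eq_zero, add_zero]
    have hp : ∀ s, a (s + 1) = a s := fun s => by
      have := (hsum s 1).1
      rw [ha1, add_zero, mul_one] at this
      exact add_left_cancel this
    rw [hmul, hp, hp, hsq μ, (hsum μ 1).2, ha1, hb1, add_zero, mul_one, mul_one, mul_add, mul_add, mul_one,
      hasq, add_zero] at h1
    rw [add_comm (a μ) (a μ * b μ)] at h1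
    exact left_eq_add.1 h1
  -- the ring homomorphism
  have hadd : ∀ s t, b (s + t) = b s + b t := fun s t => by
    rw [(hsum s t).2, hzero, hzero, add_zero, one_mul, mul_one, add_comm]
  have hmul : ∀ s t, b (s * t) = b s * b t := by
    intro s t
    rcases eq_or_ne s 0 with rfl | hs
    · rw [zero_mul, hb0, zero_mul]
    rcases eq_or_ne t 0 with rfl | ht
    · rw [mul_zero, hb0, mul_zero]
    have h := congrArg (fun g => ρ g 0 0) (tT_mul hs ht)
    simp only [map_mul, hT s hs, hT t ht, hT (s * t) (mul_ne_zero hs ht)] at h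
    simpa [Matrix.mul_apply, Fin.sum_univ_two, hzero] using h.symm
  let e : K →+* AddMonoid.End C :=
    { toFun := b
      map_one' := hb1
      map_mul' := hmul
      map_zero' := hb0
      map_add' := hadd }
  refine ⟨e, fun g => sl_induction (P := fun g => ρ g = (g : Matrix (Fin 2) (Fin 2) K).map e) ?_ ?_ ?_ g⟩
  · intro t
    rw [hU]
    ext1 i j
    fin_cases i <;> fin_cases j <;> simp [hzero, e, hb0, hb1]
  · intro t
    rw [hL]
    ext1 i j
    fin_cases i <;> fin_cases j <;> simp [hzero, e, hb0, hb1]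
  · intro g h hg hh
    rw [map_mul, hg, hh, Matrix.SpecialLinearGroup.coe_mul, Matrix.map_mul]

/-- Modules over `SL₂` of exponent two on which elements of order three act fixed-point-freely. -/
theorem module_form {V : Type*} [AddCommGroup V] (h2 : ∀ v : V, v + v = 0) (ρ : SL2 →* AddMonoid.End V)
    (hrel : ∀ t : K, t ≠ 0 → ρ (uU t * lL t⁻¹) + ρ (lL t⁻¹ * uU t) = -1) :
    ∃ (C : AddSubgroup V) (e : K →+* AddMonoid.End C) (ψ : V ≃+ (Fin 2 → C)),
      ∀ (g : SL2) (v : V) (i : Fin 2), ψ (ρ g v) i = ∑ j, e ((g : Matrix (Fin 2) (Fin 2) K) i j) (ψ v j) := by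
  have hff : ∀ f : AddMonoid.End V, f + f = 0 := fun f => AddMonoidHom.ext fun c => h2 (f c)
  have hneg : ∀ f : AddMonoid.End V, -f = f := fun f => neg_eq_of_add_eq_zero_left (hff f)
  set n : AddMonoid.End V := ρ (uU 1) + 1 with hn
  set m : AddMonoid.End V := ρ (lL 1) + 1 with hm
  have hsq : ∀ f : AddMonoid.End V, f * f = 1 → (f + 1) * (f + 1) = 0 := fun f hf => by
    rw [add_mul, mul_add, hf, mul_one, one_mul, show (1 + f + (f + 1) : AddMonoid.End V) = (f + f) + (1 + 1) by abel]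
    simp only [hff, add_zero]
  have hnn : n * n = 0 := hsq _ (by rw [← map_mul, uU_mul, CharTwo.add_self_eq_zero, uU_zero, map_one])
  have hmm : m * m = 0 := hsq _ (by
    rw [← map_mul, ← map_one ρ]
    congr 1
    apply Subtype.ext
    ext i j
    fin_cases i <;> fin_cases j <;> simp [Matrix.mul_apply, Fin.sum_univ_two, CharTwo.add_self_eq_zero])
  have hnm : n * m + m * n = 1 := by
    have h := hrel 1 one_ne_zero
    rw [inv_one, map_mul, map_mul, hneg] at h
    rw [hn, hm]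
    simp only [add_mul, mul_add, one_mul, mul_one]
    rw [show ρ (uU 1) * ρ (lL 1) + ρ (lL 1) + (ρ (uU 1) + 1) +
      (ρ (lL 1) * ρ (uU 1) + ρ (uU 1) + (ρ (lL 1) + 1)) =
      (ρ (uU 1) * ρ (lL 1) + ρ (lL 1) * ρ (uU 1)) + ((ρ (lL 1) + ρ (lL 1)) + (ρ (uU 1) + ρ (uU 1)) + (1 + 1))
      by abel, h]
    simp only [hff, add_zero]
  let C : AddSubgroup V := AddMonoidHom.ker (n : V →+ V)
  have hnC : ∀ v, n v ∈ C := fun v => by
    show n (n v) = 0
    show (n * n) v = 0
    rw [hnn]; rfl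
  have hNM : ∀ v, n (m v) + m (n v) = v := fun v => congrArg (fun f : AddMonoid.End V => f v) hnm
  have hmm' : ∀ v, m (m v) = 0 := fun v => congrArg (fun f : AddMonoid.End V => f v) hmm
  have hC0 : ∀ c : C, n (c : V) = 0 := fun c => c.2
  have hnmC : ∀ c : C, n (m (c : V)) = (c : V) := fun c => by
    have := hNM (c : V)
    rwa [hC0, map_zero, add_zero] at this
  let ι₁ : C →+ V := AddMonoidHom.mk' (fun c => m (c : V)) (fun a b => by simp)
  let π₀ : V →+ C := AddMonoidHom.mk' (fun v => ⟨n (m v), hnC _⟩) (fun a b => Subtype.ext (by simp))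
  let π₁ : V →+ C := AddMonoidHom.mk' (fun v => ⟨n v, hnC _⟩) (fun a b => Subtype.ext (by simp))
  let ι : Fin 2 → (C →+ V) := ![C.subtype, ι₁]
  let π : Fin 2 → (V →+ C) := ![π₀, π₁]
  have hπι : ∀ i j, ∀ c : C, π i (ι j c) = if i = j then c else 0 := by
    intro i j c
    fin_cases i <;> fin_cases j <;> simp [π, ι, π₀, π₁, ι₁, Subtype.ext_iff, hnmC, hmm', hC0]
  have hsum : ∀ v, ι 0 (π 0 v) + ι 1 (π 1 v) = v := fun v => hNM v
  let ψ : V ≃+ (Fin 2 → C) :=
    { toFun := fun v i => π i v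
      invFun := fun f => ι 0 (f 0) + ι 1 (f 1)
      left_inv := hsum
      right_inv := fun f => by funext i; fin_cases i <;> simp [map_add, hπι]
      map_add' := fun v w => by funext i; exact map_add _ _ _ }
  let Φ : AddMonoid.End V →+* Matrix (Fin 2) (Fin 2) (AddMonoid.End C) :=
    { toFun := fun f => Matrix.of fun i j => ((π i).comp ((f : V →+ V).comp (ι j)) : C →+ C)
      map_one' := by
        ext i j c
        show (π i (ι j c) : V) = _
        rw [hπι]
        fin_cases i <;> fin_cases j <;> simp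
      map_mul' := fun f g => by
        ext i j c
        show (π i (f (g (ι j c))) : V) = _
        rw [Matrix.mul_apply, Fin.sum_univ_two]
        show _ = ((π i (f (ι 0 (π 0 (g (ι j c))))) + π i (f (ι 1 (π 1 (g (ι j c))))) : C) : V)
        rw [← map_add, ← map_add, hsum]
      map_zero' := by
        ext i j c
        show (π i 0 : V) = 0
        simp
      map_add' := fun f g => by
        ext i j c
        show (π i (f (ι j c) + g (ι j c)) : V) = _
        rw [map_add]
        rfl }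
  have hu1 : Φ (ρ (uU 1)) = !![1, 1; 0, 1] := by
    have e : ρ (uU 1) = n + 1 := by rw [hn, add_assoc, hff, add_zero]
    rw [e, map_add, map_one]
    ext i j c
    show ((π i (n (ι j c)) + (1 : Matrix (Fin 2) (Fin 2) (AddMonoid.End C)) i j c : C) : V) = _
    fin_cases i <;> fin_cases j <;> simp [Φ, π, ι, π₀, π₁, ι₁, hnmC, hmm', hC0]
  have hl1 : Φ (ρ (lL 1)) = !![1, 0; 1, 1] := by
    have e : ρ (lL 1) = m + 1 := by rw [hm, add_assoc, hff, add_zero]
    rw [e, map_add, map_one]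
    ext i j c
    show ((π i (m (ι j c)) + (1 : Matrix (Fin 2) (Fin 2) (AddMonoid.End C)) i j c : C) : V) = _
    fin_cases i <;> fin_cases j <;> simp [Φ, π, ι, π₀, π₁, ι₁, hnmC, hmm', hC0]
  obtain ⟨e, he⟩ := matrix_form (K := K) (C := C) (fun c => Subtype.ext (h2 c))
    (Φ.toMonoidHom.comp ρ) hu1 hl1 (fun t ht => by
      show Φ (ρ _) + Φ (ρ _) = 1
      rw [← map_add, hrel t ht, hneg, map_one])
  refine ⟨C, e, ψ, fun g v i => ?_⟩
  have h := he g
  have hent : ∀ j, Φ (ρ g) i j = e ((g : Matrix (Fin 2) (Fin 2) K) i j) := fun j => by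
    rw [show Φ (ρ g) = _ from h, Matrix.map_apply]
  rw [Fin.sum_univ_two, ← hent, ← hent]
  show π i (ρ g v) = π i (ρ g (ι 0 (π 0 v))) + π i (ρ g (ι 1 (π 1 v)))
  rw [← map_add, ← map_add, hsum]

omit [Finite K] in
/-- Facts in characteristic two. -/
theorem module_facts [Fintype K] {V : Type*} [AddCommGroup V] (h2 : ∀ v : V, v + v = 0) (ρ : SL2 →* AddMonoid.End V)
    (hrel : ∀ t : K, t ≠ 0 → ρ (uU t * lL t⁻¹) + ρ (lL t⁻¹ * uU t) = -1) (t : K) (v : V) :
    ρ (uU t) v = v + (ρ (uU t) * ρ (lL 1) + ρ (lL 1) * ρ (uU t)) (ρ (uU 1) v + v) ∧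
      ((ρ (uU t) * ρ (lL 1) + ρ (lL 1) * ρ (uU t)) ^ Fintype.card K) v =
        (ρ (uU t) * ρ (lL 1) + ρ (lL 1) * ρ (uU t)) v ∧
      (∀ s : K, s * (t + t * t) = 1 →
        ((ρ (uU s) * ρ (lL 1) + ρ (lL 1) * ρ (uU s)) *
          ((ρ (uU t) * ρ (lL 1) + ρ (lL 1) * ρ (uU t)) +
            (ρ (uU t) * ρ (lL 1) + ρ (lL 1) * ρ (uU t)) * (ρ (uU t) * ρ (lL 1) + ρ (lL 1) * ρ (uU t)))) v = v) := by
  obtain ⟨C, e, ψ, hψ⟩ := module_form h2 ρ hrel
  have hc2 : ∀ c : C, c + c = 0 := fun c => Subtype.ext (h2 c)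
  set D : K → AddMonoid.End V := fun t => ρ (uU t) * ρ (lL 1) + ρ (lL 1) * ρ (uU t) with hD
  have hDψ : ∀ (t : K) (v : V) (i : Fin 2), ψ (D t v) i = e t (ψ v i) := by
    intro t v i
    show ψ (ρ (uU t) (ρ (lL 1) v) + ρ (lL 1) (ρ (uU t) v)) i = _
    rw [map_add, Pi.add_apply]
    simp only [hψ]
    fin_cases i <;> simp [Fin.sum_univ_two] <;> abel_nf <;> simp [two_smul, hc2]
  refine ⟨?_, ?_, fun s hs => ?_⟩
  · apply ψ.injective
    funext i
    rw [map_add, Pi.add_apply, show (ρ (uU t) * ρ (lL 1) + ρ (lL 1) * ρ (uU t)) = D t from rfl, hDψ, map_add,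
      Pi.add_apply, hψ, hψ]
    fin_cases i <;> simp [Fin.sum_univ_two, hc2] <;> abel_nf <;> simp [two_smul, hc2]
  · apply ψ.injective
    funext i
    have hpow : ∀ (k : ℕ) (w : V), ψ ((D t ^ k) w) i = e (t ^ k) (ψ w i) := by
      intro k
      induction k with
      | zero => intro w; simp
      | succ k ih =>
        intro w
        rw [pow_succ]; show ψ ((D t ^ k) (D t w)) i = _
        rw [ih, hDψ, pow_succ, map_mul]; rfl
    rw [show (ρ (uU t) * ρ (lL 1) + ρ (lL 1) * ρ (uU t)) = D t from rfl, hpow, FiniteField.pow_card, hDψ]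
  · apply ψ.injective
    funext i
    show ψ (D s (D t v + D t (D t v))) i = _
    simp only [hDψ, map_add, Pi.add_apply, map_mul, AddMonoid.End.coe_mul, Function.comp_apply]
    show (e s * e t + e s * (e t * e t)) (ψ v i) = _
    rw [← map_mul, ← map_mul, ← map_mul, ← map_add, ← mul_add, hs, map_one]
    rfl

/-- The exponent is two. -/
theorem exponent_two [Fintype K] {V : Type*} [AddCommGroup V] (h4 : ∀ v : V, 4 • v = 0)
    (ρ : SL2 →* AddMonoid.End V)
    (hrel : ∀ t : K, t ≠ 0 → ρ (uU t * lL t⁻¹) + ρ (lL t⁻¹ * uU t) = -1)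
    (hK : ∃ t : K, t ≠ 0 ∧ t ≠ 1) (v : V) : v + v = 0 := by
  obtain ⟨t, ht0, ht1⟩ := hK
  have htt : t + t * t ≠ 0 := fun h => by
    have : t * (1 + t) = 0 := by rw [mul_add, mul_one, h]
    exact ht1 (CharTwo.add_eq_zero.1 ((mul_eq_zero.1 this).resolve_left ht0)).symm
  set W2 := AddMonoidHom.range (nsmulAddMonoidHom 2 : V →+ V) with hW2
  have hinv : ∀ f : AddMonoid.End V, W2 ≤ W2.comap (f : V →+ V) := by
    rintro f _ ⟨w, rfl⟩
    exact ⟨f w, (map_nsmul (f : V →+ V) 2 w).symm⟩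
  let ρ2 : SL2 →* AddMonoid.End (V ⧸ W2) :=
    { toFun := fun g => QuotientAddGroup.map W2 W2 (ρ g : V →+ V) (hinv (ρ g))
      map_one' := by
        ext w; obtain ⟨w, rfl⟩ := QuotientAddGroup.mk'_surjective W2 w; show ((ρ 1) w : V ⧸ W2) = _
        rw [map_one]; rfl
      map_mul' := fun g h => by
        ext w; obtain ⟨w, rfl⟩ := QuotientAddGroup.mk'_surjective W2 w; show ((ρ (g * h)) w : V ⧸ W2) = _
        rw [map_mul]; rfl }
  have hq2 : ∀ w : V ⧸ W2, w + w = 0 := by
    intro w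
    obtain ⟨w, rfl⟩ := QuotientAddGroup.mk'_surjective W2 w
    exact (QuotientAddGroup.eq_zero_iff _).2 ⟨w, two_nsmul w⟩
  have hrel2 : ∀ t : K, t ≠ 0 → ρ2 (uU t * lL t⁻¹) + ρ2 (lL t⁻¹ * uU t) = -1 := by
    intro t ht
    ext w
    obtain ⟨w, rfl⟩ := QuotientAddGroup.mk'_surjective W2 w
    show ((ρ (uU t * lL t⁻¹) w : V) : V ⧸ W2) + ((ρ (lL t⁻¹ * uU t) w : V) : V ⧸ W2) = -((w : V) : V ⧸ W2)
    rw [← QuotientAddGroup.mk_add, ← QuotientAddGroup.mk_neg]
    exact congrArg _ (congrArg (fun f : AddMonoid.End V => f w) (hrel t ht))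
  -- `Into2 f` : the image of f is in 2V
  have hz : ∀ f g : AddMonoid.End V, (∀ w, f w ∈ W2) → (∀ w, g w ∈ W2) → f * g = 0 := by
    intro f g hf hg
    ext w
    obtain ⟨a, ha⟩ := hg w
    obtain ⟨b, hb⟩ := hf a
    show f (g w) = 0
    rw [← ha, nsmulAddMonoidHom_apply, map_nsmul, ← hb, nsmulAddMonoidHom_apply, ← mul_nsmul]
    exact h4 b
  have htwo : ∀ f : AddMonoid.End V, (∀ w, f w ∈ W2) → f + f = 0 := by
    intro f hf
    ext w
    obtain ⟨b, hb⟩ := hf w
    show f w + f w = 0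
    rw [← hb, ← two_nsmul, nsmulAddMonoidHom_apply, ← mul_nsmul]
    exact h4 b
  have hdbl : ∀ f : AddMonoid.End V, ∀ w, (f + f) w ∈ W2 := fun f w => ⟨f w, two_nsmul (f w)⟩
  set u := ρ (uU 1) with hu
  set l := ρ (lL 1) with hl
  set v' := ρ (uU t) with hv
  set D := v' * l + l * v' with hD
  set s := (t + t * t)⁻¹ with hs
  set D' := ρ (uU s) * l + l * ρ (uU s) with hD'
  set n := u - 1 with hn
  set P := v' - 1 - D * n with hP
  have hPW : ∀ w, P w ∈ W2 := by
    intro w
    rw [← QuotientAddGroup.eq_zero_iff]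
    have f1 := (module_facts hq2 ρ2 hrel2 t (w : V ⧸ W2)).1
    change ((ρ (uU t) w : V) : V ⧸ W2) = ((w + (v' * l + l * v') (ρ (uU 1) w + w) : V) : V ⧸ W2) at f1
    show ((v' w - w - D (u w - w) : V) : V ⧸ W2) = 0
    rw [QuotientAddGroup.mk_sub, QuotientAddGroup.mk_sub, f1, QuotientAddGroup.mk_add, add_sub_cancel_left,
      ← QuotientAddGroup.mk_sub, ← map_sub, QuotientAddGroup.eq_zero_iff,
      show u w + w - (u w - w) = w + w by abel, map_add]
    exact ⟨D w, two_nsmul _⟩
  have hE : ∀ w, (D ^ Fintype.card K - D) w ∈ W2 := by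
    intro w
    rw [← QuotientAddGroup.eq_zero_iff]
    have f2 := (module_facts hq2 ρ2 hrel2 t (w : V ⧸ W2)).2.1
    have hp : ∀ (k : ℕ) (w : V), (((D ^ k) w : V) : V ⧸ W2) =
        ((ρ2 (uU t) * ρ2 (lL 1) + ρ2 (lL 1) * ρ2 (uU t)) ^ k) (w : V ⧸ W2) := by
      intro k
      induction k with
      | zero => intro w; rfl
      | succ k ih => intro w; rw [pow_succ, pow_succ]; exact ih (D w)
    show (((D ^ Fintype.card K) w - D w : V) : V ⧸ W2) = 0
    rw [QuotientAddGroup.mk_sub, hp, f2, sub_eq_zero]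
    rfl
  have hF : ∀ w, (D' * (D + D * D) - 1) w ∈ W2 := by
    intro w
    rw [← QuotientAddGroup.eq_zero_iff]
    have f3 := (module_facts hq2 ρ2 hrel2 t (w : V ⧸ W2)).2.2 s (inv_mul_cancel₀ htt)
    show (((D' * (D + D * D)) w - w : V) : V ⧸ W2) = 0
    rw [QuotientAddGroup.mk_sub, sub_eq_zero]
    exact f3
  -- exact relations
  have huu : u * u = 1 := by rw [hu, ← map_mul, uU_mul, CharTwo.add_self_eq_zero, uU_zero, map_one]
  have hvv : v' * v' = 1 := by rw [hv, ← map_mul, uU_mul, CharTwo.add_self_eq_zero, uU_zero, map_one]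
  have huv : u * v' = v' * u := by rw [hu, hv, ← map_mul, ← map_mul, uU_mul, uU_mul, add_comm]
  have hul : u * l + l * u = -1 := by
    have h := hrel 1 one_ne_zero
    rwa [inv_one, map_mul, map_mul] at h
  have h4e : ∀ f : AddMonoid.End V, (f + f) + (f + f) = 0 := fun f => AddMonoidHom.ext fun w => by
    show f w + f w + (f w + f w) = 0
    rw [← two_nsmul, ← two_nsmul, ← mul_nsmul]
    exact h4 (f w)
  have hneg2 : ∀ f : AddMonoid.End V, -(f + f) = f + f := fun f => neg_eq_of_add_eq_zero_left (h4e f)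
  clear_value u l v' D D' n P
  have hPP : P * P = 0 := hz P P hPW hPW
  have h2P : P + P = 0 := htwo P hPW
  have hvP : v' = 1 + D * n + P := by rw [hP]; abel
  have huD : u * D + D * u = -(v' + v') := by
    have h1 : u * (l * v') + u * (v' * l) = -(v' + v') - (l * (u * v') + v' * (l * u)) := by
      have e1 : u * (l * v') = -v' - l * (u * v') := by
        rw [← mul_assoc, eq_sub_of_add_eq hul]; noncomm_ring
      have e2 : u * (v' * l) = -v' - v' * (l * u) := by
        rw [← mul_assoc, huv, mul_assoc, eq_sub_of_add_eq hul]; noncomm_ring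
      rw [e1, e2]; abel
    rw [hD, mul_add, add_comm (u * (v' * l)), h1, add_mul, mul_assoc l v' u, mul_assoc v' l u, ← huv]
    abel
  have hnD : n * D = D * n + ((1 + D) + (1 + D)) := by
    have h1 : n * D = D * n + (-(v' + v') - (D * u + D * u)) := by
      rw [hn, sub_mul, mul_sub, one_mul, mul_one, eq_sub_of_add_eq huD]; abel
    have hu' : u = 1 + n := by rw [hn]; abel
    rw [h1, hvP, hu']
    rw [show -(1 + D * n + P + (1 + D * n + P)) - (D * (1 + n) + D * (1 + n)) =
      -((1 + D) + (1 + D)) + -(P + P) + -((D * n + D * n) + (D * n + D * n)) by noncomm_ring, h2P, h4e,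
      hneg2, neg_zero, add_zero, add_zero]
  have hnn : n * n = n + n := by
    rw [hn, sub_mul, mul_sub, huu, one_mul, mul_one, ← hneg2 (u - 1)]
    abel
  have h22 : ∀ f g : AddMonoid.End V, (f + f) * (g + g) = 0 := fun f g => hz _ _ (hdbl f) (hdbl g)
  have h2l : ∀ f : AddMonoid.End V, (f + f) * P = 0 := fun f => hz _ _ (hdbl f) hPW
  have h2r : ∀ f : AddMonoid.End V, P * (f + f) = 0 := fun f => hz _ _ hPW (hdbl f)
  have hsub : P * D * n = n * P * D + ((1 + D) * D * n + (1 + D) * D * n) ∧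
      D * n * P = n * D * P := by
    have hPn : P * n = n * P + ((1 + D) * n + (1 + D) * n) := by
      have h := congrArg (fun x => x - 1) (show v' = v' from rfl)
      have hc : (D * n + P) * n = n * (D * n + P) := by
        have hnv : n * v' = v' * n := by rw [hn, sub_mul, mul_sub, huv, one_mul, mul_one]
        have e : D * n + P = v' - 1 := by rw [hP]; abel
        rw [e, sub_mul v' 1 n, mul_sub n v' 1, hnv, one_mul, mul_one]
      rw [add_mul, mul_add, ← mul_assoc n, hnD, add_mul, add_mul, add_assoc] at hc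
      rw [add_left_cancel hc, add_comm]
    refine ⟨?_, ?_⟩
    · have e1 : P * (n * D) = P * (D * n) := by rw [hnD, mul_add, h2r, add_zero]
      rw [mul_assoc P D n, ← e1, ← mul_assoc, hPn, add_mul, add_mul, mul_assoc (1 + D) n D, hnD, mul_add,
        ← mul_assoc (1 + D) D n]
      rw [show (1 + D) * D * n + (1 + D) * ((1 + D) + (1 + D)) + ((1 + D) * D * n + (1 + D) * ((1 + D) + (1 + D))) =
        (1 + D) * D * n + (1 + D) * D * n +
          (((1 + D) * (1 + D) + (1 + D) * (1 + D)) + ((1 + D) * (1 + D) + (1 + D) * (1 + D))) by noncomm_ring,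
        h4e, add_zero]
    · rw [hnD, add_mul _ _ P, h2l, add_zero]
  -- the key identity
  obtain ⟨Z, hZ⟩ : ∃ Z, Z = D + D * D := ⟨_, rfl⟩
  rw [← hZ] at hF
  have hkey : n * (D * P + P * D) = Z * n + Z * n := by
    have h : (1 + D * n + P) * (1 + D * n + P) = 1 := by rw [← hvP]; exact hvv
    have h' : (D * n + D * n) + (P + P) + (D * n * (D * n) + (D * n * P + P * D * n)) + P * P = 0 := by
      have e : (1 + D * n + P) * (1 + D * n + P) =
          1 + ((D * n + D * n) + (P + P) + (D * n * (D * n) + (D * n * P + P * D * n)) + P * P) := by noncomm_ring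
      rw [e] at h
      exact add_eq_left.1 h
    have e2 : D * n * (D * n) = D * D * (n + n) + (D * (1 + D) * n + D * (1 + D) * n) := by
      rw [show D * n * (D * n) = D * (n * D) * n by simp [mul_assoc], hnD, mul_add, add_mul,
        show D * (D * n) * n = D * D * (n * n) by simp [mul_assoc], hnn]
      noncomm_ring
    rw [h2P, hPP, e2, hsub.1, hsub.2, add_zero, add_zero] at h'
    have e3 : n * (D * P + P * D) + (Z * n + Z * n) +
        (((D * D * n + D * n) + (D * D * n + D * n)) + ((D * D * n + D * n) + (D * D * n + D * n))) =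
        (D * n + D * n) + (D * D * (n + n) + (D * (1 + D) * n + D * (1 + D) * n) +
          (n * D * P + (n * P * D + ((1 + D) * D * n + (1 + D) * D * n)))) := by
      rw [hZ]; noncomm_ring
    rw [h4e, h', add_zero, add_comm] at e3
    rw [← hneg2]
    exact eq_neg_of_add_eq_zero_right e3
  have hLmul : ∀ A B : AddMonoid.End V, (∀ w, (n * A - A * n) w ∈ W2) →
      n * (A * B * P + P * (A * B)) = A * (n * (B * P + P * B)) + n * (A * P + P * A) * B := by
    intro A B hA
    have h0 : (n * A - A * n) * (B * P + P * B) = 0 := by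
      refine hz _ _ hA fun w => ?_
      exact W2.add_mem (hinv B (hPW w)) (hPW (B w))
    have h1 : A * (n * (B * P + P * B)) = n * (A * (B * P + P * B)) := by
      rw [sub_mul, sub_eq_zero] at h0
      rw [← mul_assoc, ← h0, mul_assoc]
    have h2' : n * A * (P + P) * B = 0 := by rw [h2P, mul_zero, zero_mul]
    rw [h1]
    rw [show n * (A * (B * P + P * B)) + n * (A * P + P * A) * B =
      n * (A * B * P + P * (A * B)) + n * A * (P + P) * B by noncomm_ring, h2', add_zero]
  have hAD : ∀ w, (n * D - D * n) w ∈ W2 := fun w => by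
    rw [hnD, add_sub_cancel_left]; exact hdbl _ w
  have hL2 : n * (D * D * P + P * (D * D)) = 0 := by
    rw [hLmul D D hAD, hkey]
    rw [show D * (Z * n + Z * n) + (Z * n + Z * n) * D = (D * Z * n + Z * (n * D)) + (D * Z * n + Z * (n * D))
      by noncomm_ring, hnD, hZ]
    rw [show (D * (D + D * D) * n + (D + D * D) * (D * n + ((1 + D) + (1 + D)))) +
      (D * (D + D * D) * n + (D + D * D) * (D * n + ((1 + D) + (1 + D)))) =
      ((D * D * n + D * D * D * n) + (D * D * n + D * D * D * n)) + ((D * D * n + D * D * D * n) + (D * D * n + D * D * D * n))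
      + ((((D + D * D) * (1 + D)) + ((D + D * D) * (1 + D))) + (((D + D * D) * (1 + D)) + ((D + D * D) * (1 + D))))
      by noncomm_ring, h4e, h4e, add_zero]
  have hpow : ∀ k : ℕ, n * ((D * D) ^ k * P + P * (D * D) ^ k) = 0 := by
    intro k
    induction k with
    | zero => rw [pow_zero, one_mul, mul_one, h2P, mul_zero]
    | succ k ih =>
      rw [pow_succ', hLmul _ _ (fun w => ?_), ih, hL2, mul_zero, zero_mul, add_zero]
      rw [show n * (D * D) - D * D * n = (n * D - D * n) * D + D * (n * D - D * n) by noncomm_ring]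
      exact W2.add_mem (hAD (D w)) (hinv D (hAD w))
  have hZn : Z * n + Z * n = 0 := by
    obtain ⟨q, hq⟩ : 2 ∣ Fintype.card K := by
      obtain ⟨k, -, hk⟩ := FiniteField.card K 2
      rw [hk]; exact dvd_pow_self 2 k.pos.ne'
    have h := hpow q
    rw [← pow_two, ← pow_mul, ← hq] at h
    have hq' : D ^ Fintype.card K = D + (D ^ Fintype.card K - D) := by abel
    rw [hq'] at h
    simp only [mul_add, add_mul, hz _ _ hE hPW, hz _ _ hPW hE, mul_zero, add_zero] at h
    rw [← mul_add n, hkey] at h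
    exact h
  have h2n : n + n = 0 := by
    have h := congrArg (D' * ·) hZn
    simp only [mul_zero] at h
    have e : D' * Z = 1 + (D' * Z - 1) := by abel
    rw [mul_add, ← mul_assoc, e, add_mul, one_mul] at h
    have h0 : (D' * Z - 1) * n + (D' * Z - 1) * n = 0 := by
      rw [← mul_add]; exact hz _ _ hF (hdbl n)
    rw [show n + (D' * Z - 1) * n + (n + (D' * Z - 1) * n) = (n + n) + ((D' * Z - 1) * n + (D' * Z - 1) * n) by abel,
      h0, add_zero] at h
    exact h
  have h1 : (1 : AddMonoid.End V) + 1 = 0 := by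
    have hu2 : u + u = 1 + 1 := by
      rw [show u + u = (1 + 1) + (n + n) by rw [hn]; abel, h2n, add_zero]
    have e : (u * l + l * u) + (u * l + l * u) = (l + l) + (l + l) := by
      rw [show (u * l + l * u) + (u * l + l * u) = (u + u) * l + l * (u + u) by noncomm_ring, hu2]
      noncomm_ring
    rw [h4e l, hul, ← neg_add, hneg2] at e
    exact e
  exact congrArg (fun f : AddMonoid.End V => f v) h1

end sl

section grp

variable {G : Type*} [Group G] [Finite G] (Q : Subgroup G) [Q.Normal]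

/-- The elements acting fixed-point-freely with cube one. -/
def yset : Set G := {y | y ^ 3 = 1 ∧ ∀ q ∈ Q, y * q * y⁻¹ = q → q = 1}

variable {Q}

omit [Finite G] in
theorem yset_conj {y : G} (hy : y ∈ yset Q) (g : G) : g * y * g⁻¹ ∈ yset Q := by
  refine ⟨by rw [conj_pow, hy.1]; group, fun q hq h => ?_⟩
  have hq' : g⁻¹ * q * g ∈ Q := by simpa using Subgroup.Normal.conj_mem (inferInstance : Q.Normal) q hq g⁻¹
  have h' : y * (g⁻¹ * q * g) * y⁻¹ = g⁻¹ * q * g := by
    calc y * (g⁻¹ * q * g) * y⁻¹ = g⁻¹ * (g * y * g⁻¹ * q * (g * y * g⁻¹)⁻¹) * g := by simp [mul_assoc]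
      _ = _ := by rw [h]
  calc q = g * (g⁻¹ * q * g) * g⁻¹ := by simp [mul_assoc]
    _ = 1 := by rw [hy.2 _ hq' h']; simp

omit [Finite G] [Q.Normal] in
theorem yset_inv {y : G} (hy : y ∈ yset Q) : y⁻¹ ∈ yset Q := by
  refine ⟨by rw [inv_pow, hy.1, inv_one], fun q hq h => hy.2 q hq ?_⟩
  calc y * q * y⁻¹ = y * (y⁻¹ * q * y⁻¹⁻¹) * y⁻¹ := by rw [h]
    _ = q := by simp [mul_assoc]

theorem three {y : G} (hy : y ∈ yset Q) {q : G} (hq : q ∈ Q) :
    q * (y * q * y⁻¹) * (y * (y * q * y⁻¹) * y⁻¹) = 1 := by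
  let f : Q → Q := fun r => ⟨(r : G)⁻¹ * (y * r * y⁻¹),
    Q.mul_mem (Q.inv_mem r.2) (Subgroup.Normal.conj_mem inferInstance _ r.2 _)⟩
  have hinj : Function.Injective f := by
    intro r s h
    have h' : (r : G)⁻¹ * (y * r * y⁻¹) = (s : G)⁻¹ * (y * s * y⁻¹) := congrArg Subtype.val h
    have h2 : y * ((r : G) * (s : G)⁻¹) * y⁻¹ = (r : G) * (s : G)⁻¹ := by
      calc y * ((r : G) * (s : G)⁻¹) * y⁻¹ = r * ((r : G)⁻¹ * (y * r * y⁻¹)) * (y * s * y⁻¹)⁻¹ := by simp [mul_assoc]
        _ = _ := by rw [h']; simp [mul_assoc]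
    exact Subtype.ext (mul_inv_eq_one.1 (hy.2 _ (Q.mul_mem r.2 (Q.inv_mem s.2)) h2))
  obtain ⟨r, hr⟩ := Finite.surjective_of_injective hinj ⟨q, hq⟩
  obtain rfl : (r : G)⁻¹ * (y * r * y⁻¹) = q := congrArg Subtype.val hr
  have h3 : y * (y * y) = 1 := by simpa [pow_succ, mul_assoc] using hy.1
  calc _ = (r : G)⁻¹ * (y * (y * y) * r * (y * (y * y))⁻¹) := by simp [mul_assoc]
    _ = 1 := by rw [h3]; simp

theorem self_conj_comm {y : G} (hy : y ∈ yset Q) {q : G} (hq : q ∈ Q) : q * (y * q * y⁻¹) = (y * q * y⁻¹) * q := by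
  have h3 : y * (y * y) = 1 := by simpa [pow_succ, mul_assoc] using hy.1
  have hyy : y⁻¹ = y * y := inv_eq_of_mul_eq_one_right h3
  have h1 := three hy hq
  have h2 := three (yset_inv hy) hq
  rw [inv_inv] at h2
  have e1 : y⁻¹ * q * y = y * (y * q * y⁻¹) * y⁻¹ := by
    calc y⁻¹ * q * y = (y * y) * q * (y * y)⁻¹ := by rw [← hyy, inv_inv]
      _ = _ := by simp [mul_assoc]
  have e2 : y⁻¹ * (y⁻¹ * q * y) * y = y * q * y⁻¹ := by
    rw [e1]; simp [mul_assoc]
  rw [e2, e1, mul_assoc] at h2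
  rw [mul_assoc] at h1
  set p := y * q * y⁻¹
  set p2 := y * p * y⁻¹
  have h12 : p * p2 = p2 * p := mul_left_cancel (h1.trans h2.symm)
  have h3' := congrArg (fun z => y⁻¹ * z * y) h12
  simpa [p, p2, mul_assoc] using h3'

end grp

/-- Let G be a finite group with a normal 2-subgroup Q such that G/Q is isomorphic to SL(2, 2ⁿ) with n ≥ 2, and suppose some element of G of order 3 fixes no nonidentity element of Q under conjugation. Then Q is elementary abelian and is the direct product of normal subgroups of G on each of which G acts as SL(2, 2ⁿ) acts on its natural two-dimensional module (a Galois twist of the natural action allowed). -/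
theorem result {G : Type*} [Group G] [Finite G]
    (Q : Subgroup G) [Q.Normal] (hQ : IsPGroup 2 ↥Q) (n : ℕ) (hn : 2 ≤ n)
    (K : Type*) [Field K] [Fintype K] (hK : Fintype.card K = 2 ^ n)
    (e : G ⧸ Q ≃* Matrix.SpecialLinearGroup (Fin 2) K)
    (x : G) (hx : orderOf x = 3) (hfpf : ∀ q ∈ Q, x * q * x⁻¹ = q → q = 1) :
    Cfsg.IsElementaryAbelian 2 Q ∧
      ∃ (k : ℕ) (V : Fin k → Subgroup G), (∀ i, V i ≤ Q ∧ (V i).Normal ∧
        Cfsg.ActsAsSL2OnSection K ⊤ ⊤ (V i) ⊥) ∧ iSupIndep V ∧ ⨆ i, V i = Q := by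
  classical
  haveI : Fact (Nat.Prime 2) := ⟨Nat.prime_two⟩
  haveI : CharP K 2 := charP_of_card_eq_prime_pow hK
  have hK2 : ∃ t : K, t ≠ 0 ∧ t ≠ 1 := by
    by_contra h
    push Not at h
    have hle : Fintype.card K ≤ 2 := by
      refine le_trans (Fintype.card_le_of_surjective (fun b : Bool => if b then (1 : K) else 0) fun t => ?_) (by simp)
      by_cases ht : t = 0
      · exact ⟨false, by simp [ht]⟩
      · exact ⟨true, by simp [h t ht]⟩
    have : 2 ^ 2 ≤ 2 ^ n := Nat.pow_le_pow_right two_pos hn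
    omega
  set ε : G →* Matrix.SpecialLinearGroup (Fin 2) K := e.toMonoidHom.comp (QuotientGroup.mk' Q) with hε
  have hεker : ∀ g, ε g = 1 ↔ g ∈ Q := fun g => by
    show e (QuotientGroup.mk' Q g) = 1 ↔ _
    rw [MulEquiv.map_eq_one_iff]; exact QuotientGroup.eq_one_iff g
  have hεsurj : Function.Surjective ε := e.surjective.comp (QuotientGroup.mk'_surjective Q)
  have hx3 : x ^ 3 = 1 := hx ▸ pow_orderOf_eq_one x
  have hxQ : x ∉ Q := by
    intro h
    obtain ⟨k, hk⟩ := hQ ⟨x, h⟩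
    have h2 : orderOf x ∣ 2 ^ k := orderOf_dvd_of_pow_eq_one (congrArg Subtype.val hk)
    rw [hx] at h2
    exact absurd (Nat.prime_three.dvd_of_dvd_pow h2) (by decide)
  have hxY : x ∈ yset Q := ⟨hx3, hfpf⟩
  obtain ⟨P₀, hP₀⟩ := order_three_conj (g := ε x) (by rw [← map_mul, ← map_mul, ← map_one ε]; congr 1; simpa [pow_succ] using hx3)
    (fun h => hxQ ((hεker x).1 h))
  have hlift : ∀ t : K, t ≠ 0 → ∃ y ∈ yset Q, ε y = yY t := by
    intro t ht
    obtain ⟨h3, h1⟩ := yY_cube ht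
    obtain ⟨P, hP⟩ := order_three_conj h3 h1
    obtain ⟨g, hg⟩ := hεsurj (P * P₀⁻¹)
    refine ⟨g * x * g⁻¹, yset_conj hxY g, ?_⟩
    rw [map_mul, map_mul, map_inv, hg, show ε x = P₀ * yY 1 * P₀⁻¹ from eq_mul_inv_of_mul_eq hP₀,
      show yY t = P * yY 1 * P⁻¹ from eq_mul_inv_of_mul_eq hP]
    simp [mul_assoc]
  -- Q is abelian
  have habel : ∀ a ∈ Q, ∀ b ∈ Q, a * b = b * a := by
    by_contra hna
    haveI hzn : (Subgroup.center ↥Q).Normal := inferInstance
    have hlt : Subgroup.center ↥Q < ⊤ := lt_top_iff_ne_top.2 fun h => hna fun a ha b hb =>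
      congrArg Subtype.val ((Subgroup.mem_center_iff.1 (h.ge (Subgroup.mem_top (⟨b, hb⟩ : Q)))) ⟨a, ha⟩)
    obtain ⟨⟨a, ha⟩, -, haz, hac⟩ := CfsgLib.PGroup.exists_mem_central_mod hQ hlt
    have hcen : ∀ z : G, z ∈ Q → (∀ b ∈ Q, b * z = z * b) → ∀ g : G, g * z * g⁻¹ ∈ Q ∧
        ∀ b ∈ Q, b * (g * z * g⁻¹) = g * z * g⁻¹ * b := fun z hz hzc g => by
      refine ⟨Subgroup.Normal.conj_mem inferInstance _ hz _, fun b hb => ?_⟩
      have hb' : g⁻¹ * b * g ∈ Q := by simpa using Subgroup.Normal.conj_mem (inferInstance : Q.Normal) b hb g⁻¹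
      calc b * (g * z * g⁻¹) = g * ((g⁻¹ * b * g) * z) * g⁻¹ := by simp [mul_assoc]
        _ = g * (z * (g⁻¹ * b * g)) * g⁻¹ := by rw [hzc _ hb']
        _ = _ := by simp [mul_assoc]
    let Z2 : G → Prop := fun a => a ∈ Q ∧ ∀ b ∈ Q, ∀ c ∈ Q, c * ⁅a, b⁆ = ⁅a, b⁆ * c
    have haZ : Z2 a := ⟨ha, fun b hb c hc => by
      have := Subgroup.mem_center_iff.1 (hac ⟨b, hb⟩) ⟨c, hc⟩
      exact congrArg Subtype.val this⟩
    have hZconj : ∀ a, Z2 a → ∀ g : G, Z2 (g * a * g⁻¹) := by
      intro a h g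
      refine ⟨Subgroup.Normal.conj_mem inferInstance _ h.1 _, fun b hb c hc => ?_⟩
      have hb' : g⁻¹ * b * g ∈ Q := by simpa using Subgroup.Normal.conj_mem (inferInstance : Q.Normal) b hb g⁻¹
      have hcm : ⁅a, g⁻¹ * b * g⁆ ∈ Q := by
        rw [commutatorElement_def]; exact Q.mul_mem (Q.mul_mem (Q.mul_mem h.1 hb') (Q.inv_mem h.1)) (Q.inv_mem hb')
      have e : ⁅g * a * g⁻¹, b⁆ = g * ⁅a, g⁻¹ * b * g⁆ * g⁻¹ := by simp [commutatorElement_def, mul_assoc]
      rw [e]
      exact (hcen _ hcm (fun d hd => h.2 _ hb' d hd) g).2 c hc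
    have hmulr : ∀ a b c, Z2 a → b ∈ Q → c ∈ Q → ⁅a, b * c⁆ = ⁅a, b⁆ * ⁅a, c⁆ := by
      intro a b c h hb hc
      have e : ⁅a, b * c⁆ = ⁅a, b⁆ * (b * ⁅a, c⁆ * b⁻¹) := by simp [commutatorElement_def, mul_assoc]
      rw [e, h.2 c hc b hb, mul_inv_cancel_right]
    have hinvr : ∀ a b, Z2 a → b ∈ Q → ⁅a, b⁻¹⁆ = ⁅a, b⁆⁻¹ := by
      intro a b h hb
      refine eq_inv_of_mul_eq_one_left ?_
      rw [← hmulr a b⁻¹ b h (Q.inv_mem hb) hb, inv_mul_cancel, commutatorElement_one_right]
    -- the basic law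
    have hlaw : ∀ a b, Z2 a → b ∈ Q → ∀ y ∈ yset Q, ⁅a, y * b * y⁻¹⁆ = ⁅y * a * y⁻¹, b⁆ := by
      intro a b h hb y hy
      have h' := hZconj a h y
      set A := y * a * y⁻¹
      set B := y * b * y⁻¹
      have hBQ : B ∈ Q := Subgroup.Normal.conj_mem inferInstance _ hb _
      have e0 := self_conj_comm hy (Q.mul_mem h.1 hb)
      rw [show y * (a * b) * y⁻¹ = A * B by simp [A, B, mul_assoc]] at e0
      have c1 : b * A = ⁅A, b⁆⁻¹ * (A * b) := by simp [commutatorElement_def, mul_assoc]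
      have c2 : a * B = ⁅a, B⁆ * (B * a) := by simp [commutatorElement_def, mul_assoc]
      have hz1 : ∀ d ∈ Q, d * ⁅A, b⁆⁻¹ = ⁅A, b⁆⁻¹ * d := fun d hd =>
        ((show Commute d ⁅A, b⁆ from h'.2 b hb d hd).inv_right).eq
      have hz2 : ∀ d ∈ Q, d * ⁅a, B⁆ = ⁅a, B⁆ * d := fun d hd => h.2 B hBQ d hd
      have ea : a * A = A * a := self_conj_comm hy h.1
      have eb : b * B = B * b := self_conj_comm hy hb
      have e1 : a * b * (A * B) = ⁅A, b⁆⁻¹ * ⁅a, B⁆ * (A * B * (a * b)) := by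
        calc a * b * (A * B) = a * (b * A) * B := by simp [mul_assoc]
          _ = a * ⁅A, b⁆⁻¹ * (A * b) * B := by rw [c1]; simp [mul_assoc]
          _ = ⁅A, b⁆⁻¹ * ((a * A) * (b * B)) := by rw [hz1 a h.1]; simp [mul_assoc]
          _ = ⁅A, b⁆⁻¹ * (A * (a * B) * b) := by rw [ea, eb]; simp [mul_assoc]
          _ = ⁅A, b⁆⁻¹ * ((A * ⁅a, B⁆) * (B * a) * b) := by rw [c2]; simp [mul_assoc]
          _ = _ := by rw [hz2 A h'.1]; simp [mul_assoc]
      have h1 : ⁅A, b⁆⁻¹ * ⁅a, B⁆ = 1 := mul_eq_right.1 (e1.symm.trans e0)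
      exact (inv_mul_eq_one.1 h1).symm
    have hlaw2 : ∀ a b, Z2 a → b ∈ Q → ∀ y ∈ yset Q, ⁅a, y * b * y⁻¹⁆ = y * (y * ⁅a, b⁆ * y⁻¹) * y⁻¹ := by
      intro a b h hb y hy
      set c := ⁅a, b⁆
      set B := y * b * y⁻¹
      have hBQ : B ∈ Q := Subgroup.Normal.conj_mem inferInstance _ hb _
      have hcQ : c ∈ Q := by
        show ⁅a, b⁆ ∈ Q
        rw [commutatorElement_def]; exact Q.mul_mem (Q.mul_mem (Q.mul_mem h.1 hb) (Q.inv_mem h.1)) (Q.inv_mem hb)
      have hyB : y * B * y⁻¹ = (b * B)⁻¹ := eq_inv_of_mul_eq_one_right (three hy hb)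
      have hyc : y * c * y⁻¹ = (c * ⁅a, B⁆)⁻¹ := by
        calc y * c * y⁻¹ = ⁅y * a * y⁻¹, B⁆ := by simp [c, B, commutatorElement_def, mul_assoc]
          _ = ⁅a, y * B * y⁻¹⁆ := (hlaw a B h hBQ y hy).symm
          _ = _ := by rw [hyB, hinvr a _ h (Q.mul_mem hb hBQ), hmulr a b B h hb hBQ]
      have h3 := three hy hcQ
      have e1 : ⁅a, B⁆ = c⁻¹ * (y * c * y⁻¹)⁻¹ := by rw [hyc]; simp
      rw [e1, eq_comm, ← _root_.mul_inv_rev, eq_inv_iff_mul_eq_one]
      have h4 : (y * c * y⁻¹ * c) = c * (y * c * y⁻¹) := (self_conj_comm hy hcQ).symm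
      rw [h4]
      have h5 := three hy hcQ
      set p := c * (y * c * y⁻¹)
      exact mul_eq_one_comm.1 h5
    -- the values
    let vals : G → Prop := fun d => ∃ a b, Z2 a ∧ b ∈ Q ∧ ⁅a, b⁆ = d
    let H : Subgroup G :=
      { carrier := {g | ∀ d, vals d → g * d * g⁻¹ = d}
        one_mem' := fun d _ => by simp
        mul_mem' := fun {g k} hg hk d hd => by
          calc g * k * d * (g * k)⁻¹ = g * (k * d * k⁻¹) * g⁻¹ := by simp [mul_assoc]
            _ = d := by rw [hk d hd, hg d hd]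
        inv_mem' := fun {g} hg d hd => by
          calc g⁻¹ * d * g⁻¹⁻¹ = g⁻¹ * (g * d * g⁻¹) * g⁻¹⁻¹ := by rw [hg d hd]
            _ = d := by simp [mul_assoc] }
    have hvconj : ∀ d, vals d → ∀ g : G, vals (g * d * g⁻¹) := by
      rintro d ⟨a, b, h1, h2, rfl⟩ g
      exact ⟨g * a * g⁻¹, g * b * g⁻¹, hZconj a h1 g, Subgroup.Normal.conj_mem inferInstance _ h2 _,
        by simp [commutatorElement_def, mul_assoc]⟩
    haveI hHn : H.Normal := ⟨fun g hg k d hd => by
      have hd' := hvconj d hd k⁻¹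
      rw [inv_inv] at hd'
      calc k * g * k⁻¹ * d * (k * g * k⁻¹)⁻¹ = k * (g * (k⁻¹ * d * k) * g⁻¹) * k⁻¹ := by simp [mul_assoc]
        _ = _ := by rw [hg _ hd']; simp [mul_assoc]⟩
    have hQH : Q ≤ H := fun q hq d ⟨a, b, h1, h2, e⟩ => by
      rw [← e, h1.2 b h2 q hq, mul_inv_cancel_right]
    have hyy : ∀ y ∈ yset Q, ∀ z ∈ yset Q, y * z * y⁻¹ * z⁻¹ ∈ H := by
      intro y hy z hz d hd
      -- act by squares
      have hw := yset_conj hz y
      have key : ∀ d, vals d → y * z * y⁻¹ * (y * z * y⁻¹) * d * (y * z * y⁻¹ * (y * z * y⁻¹))⁻¹ =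
          y * y * (z * z * (y⁻¹ * y⁻¹)) * d * (y * y * (z * z * (y⁻¹ * y⁻¹)))⁻¹ := by
        rintro _ ⟨a, b, h1, h2, rfl⟩
        have hb1 : y⁻¹ * b * y⁻¹⁻¹ ∈ Q := Subgroup.Normal.conj_mem inferInstance _ h2 _
        have hb2 : z * (y⁻¹ * b * y⁻¹⁻¹) * z⁻¹ ∈ Q := Subgroup.Normal.conj_mem inferInstance _ hb1 _
        have l1 := hlaw2 a b h1 h2 _ hw
        have l2 := hlaw2 a _ h1 hb2 y hy
        have l3 := hlaw2 a _ h1 hb1 z hz
        have l4 := hlaw2 a b h1 h2 _ (yset_inv hy)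
        rw [l3, l4, show y * (z * (y⁻¹ * b * y⁻¹⁻¹) * z⁻¹) * y⁻¹ = y * z * y⁻¹ * b * (y * z * y⁻¹)⁻¹ by
          simp [mul_assoc], l1] at l2
        simpa [mul_assoc] using l2
      have h3 : y * (y * y) = 1 := by simpa [pow_succ, mul_assoc] using hy.1
      have hz3 : z * (z * z) = 1 := by simpa [pow_succ, mul_assoc] using hz.1
      have hyi : y⁻¹ = y * y := inv_eq_of_mul_eq_one_right h3
      have hzi : z⁻¹ = z * z := inv_eq_of_mul_eq_one_right hz3
      have ew : y * z * y⁻¹ * (y * z * y⁻¹) = y * z⁻¹ * y⁻¹ := by rw [hzi]; simp [mul_assoc]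
      have ew2 : y * y * (z * z * (y⁻¹ * y⁻¹)) = y⁻¹ * z⁻¹ * y := by
        rw [← hyi, ← hzi, show y⁻¹ * y⁻¹ = y by rw [← _root_.mul_inv_rev, ← hyi, inv_inv], mul_assoc]
      rw [ew, ew2] at key
      -- y z⁻¹ y⁻¹ and y⁻¹ z⁻¹ y agree
      have hm : (y⁻¹ * z⁻¹ * y)⁻¹ * (y * z⁻¹ * y⁻¹) ∈ H := fun d hd => by
        set A := y⁻¹ * z⁻¹ * y
        calc A⁻¹ * (y * z⁻¹ * y⁻¹) * d * (A⁻¹ * (y * z⁻¹ * y⁻¹))⁻¹
            = A⁻¹ * ((y * z⁻¹ * y⁻¹) * d * (y * z⁻¹ * y⁻¹)⁻¹) * A := by simp [mul_assoc]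
          _ = A⁻¹ * (A * d * A⁻¹) * A := by rw [key d hd]
          _ = d := by simp [mul_assoc]
      have hm2 : z * (y * y) * z⁻¹ * (y * y)⁻¹ ∈ H := by
        have := Subgroup.Normal.conj_mem hHn _ hm y
        simpa [mul_assoc] using this
      rw [← hyi, inv_inv] at hm2
      have hm3 := H.inv_mem (Subgroup.Normal.conj_mem hHn _ hm2 y)
      have e : (y * (z * y⁻¹ * z⁻¹ * y) * y⁻¹)⁻¹ = z * y * z⁻¹ * y⁻¹ := by simp [mul_assoc]
      rw [e] at hm3
      have := H.inv_mem hm3
      refine (show y * z * y⁻¹ * z⁻¹ ∈ H from ?_) d hd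
      simpa [mul_assoc] using this
    set q := QuotientGroup.mk' H with hq
    have htop : Subgroup.closure (yset Q) ⊔ Q = ⊤ := by
      set N := Subgroup.closure (yset Q) ⊔ Q with hN
      haveI : (Subgroup.closure (yset Q)).Normal := ⟨fun g hg k => by
        have hle : Subgroup.closure (yset Q) ≤ (Subgroup.closure (yset Q)).comap (MulAut.conj k).toMonoidHom :=
          (Subgroup.closure_le _).2 fun y hy => Subgroup.subset_closure (yset_conj hy k)
        exact hle hg⟩
      have hN' : (N.map ε).Normal := Subgroup.Normal.map inferInstance ε hεsurj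
      obtain ⟨y, hy, hy'⟩ := hlift 1 one_ne_zero
      have h := normal_eq_top (N := N.map ε) hK2 ⟨y, Subgroup.mem_sup_left (Subgroup.subset_closure hy), hy'⟩
      rw [eq_top_iff]
      intro g _
      obtain ⟨g', hg', e'⟩ := h.ge (Subgroup.mem_top (ε g))
      have hdiff : g'⁻¹ * g ∈ Q := (hεker _).1 (by rw [map_mul, map_inv, e', inv_mul_cancel])
      simpa using mul_mem hg' (Subgroup.mem_sup_right hdiff : g'⁻¹ * g ∈ N)
    have hcomm : ∀ g k : G, Commute (q g) (q k) := by
      have step : ∀ y ∈ yset Q, ∀ g : G, Commute (q g) (q y) := by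
        intro y hy g
        have hle : (⊤ : Subgroup G) ≤ (Subgroup.centralizer {q y}).comap q := by
          rw [← htop, sup_le_iff, Subgroup.closure_le]
          refine ⟨fun z hz => ?_, fun z hz => ?_⟩
          · refine Subgroup.mem_centralizer_singleton_iff.2 ?_
            rw [← commutatorElement_eq_one_iff_mul_comm, ← map_commutatorElement]
            exact (QuotientGroup.eq_one_iff _).2 (by rw [commutatorElement_def]; exact hyy z hz y hy)
          · refine Subgroup.mem_centralizer_singleton_iff.2 ?_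
            rw [show q z = 1 from (QuotientGroup.eq_one_iff _).2 (hQH hz), one_mul, mul_one]
        exact Subgroup.mem_centralizer_singleton_iff.1 (hle (Subgroup.mem_top g))
      intro g k
      have hle : (⊤ : Subgroup G) ≤ (Subgroup.centralizer {q g}).comap q := by
        rw [← htop, sup_le_iff, Subgroup.closure_le]
        refine ⟨fun z hz => Subgroup.mem_centralizer_singleton_iff.2 (step z hz g).symm.eq, fun z hz => ?_⟩
        refine Subgroup.mem_centralizer_singleton_iff.2 ?_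
        rw [show q z = 1 from (QuotientGroup.eq_one_iff _).2 (hQH hz), one_mul, mul_one]
      exact (show Commute (q k) (q g) from Subgroup.mem_centralizer_singleton_iff.1 (hle (Subgroup.mem_top k))).symm
    -- perfectness
    obtain ⟨m, hm0, hm1⟩ := hK2
    have hu : ∀ t, uU (K := K) t ∈ H.map ε := by
      intro t
      have hne : m * m + 1 ≠ 0 := fun h => hm1 (CharTwo.add_eq_zero.1 (mul_self_eq_zero.1 (by
        rw [show (m + 1) * (m + 1) = m * m + 1 + (m + m) by ring, CharTwo.add_self_eq_zero, h, add_zero])))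
      obtain ⟨g1, hg1⟩ := hεsurj (tT m)
      obtain ⟨g2, hg2⟩ := hεsurj (uU (t / (m * m + 1)))
      have hu2 : uU (t / (m * m + 1)) * uU (t / (m * m + 1)) = (1 : Matrix.SpecialLinearGroup (Fin 2) K) := by
        rw [uU_mul, CharTwo.add_self_eq_zero, uU_zero]
      refine ⟨⁅g1, g2⁆, (QuotientGroup.eq_one_iff _).1 ?_, ?_⟩
      · show q ⁅g1, g2⁆ = 1
        rw [map_commutatorElement, commutatorElement_eq_one_iff_mul_comm]
        exact (hcomm g1 g2).eq
      · rw [map_commutatorElement, hg1, hg2, commutatorElement_def, tT_conj hm0, mul_inv_cancel_right,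
          inv_eq_of_mul_eq_one_right hu2, uU_mul]
        congr 1
        rw [← add_one_mul, mul_div_cancel₀ _ hne]
    have hHε : H.map ε = ⊤ := by
      haveI : (H.map ε).Normal := Subgroup.Normal.map hHn ε hεsurj
      refine normal_eq_top ⟨m, hm0, hm1⟩ ?_
      have hw : wW * uU 1 * (wW : Matrix.SpecialLinearGroup (Fin 2) K)⁻¹ ∈ H.map ε :=
        Subgroup.Normal.conj_mem inferInstance _ (hu 1) _
      rw [inv_eq_of_mul_eq_one_right wW_sq, wW_uU] at hw
      rw [yY, inv_one]
      exact mul_mem (hu 1) hw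
    have hxH : x ∈ H := by
      obtain ⟨g', hg', e'⟩ := hHε.ge (Subgroup.mem_top (ε x))
      have hdiff : g'⁻¹ * x ∈ Q := (hεker _).1 (by rw [map_mul, map_inv, e', inv_mul_cancel])
      simpa using mul_mem hg' (hQH hdiff)
    refine haz (Subgroup.mem_center_iff.2 fun ⟨b, hb⟩ => Subtype.ext ?_)
    have hcQ : ⁅a, b⁆ ∈ Q := by
      rw [commutatorElement_def]; exact Q.mul_mem (Q.mul_mem (Q.mul_mem ha hb) (Q.inv_mem ha)) (Q.inv_mem hb)
    have := hfpf _ hcQ (hxH _ ⟨a, b, haZ, hb, rfl⟩)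
    exact (commutatorElement_eq_one_iff_mul_comm.1 this).symm
  letI : CommGroup ↥Q := { (inferInstance : Group ↥Q) with mul_comm := fun a b => Subtype.ext (habel a a.2 b b.2) }
  -- the action
  let act : G →* AddMonoid.End (Additive ↥Q) :=
    { toFun := fun g => MonoidHom.toAdditive (MulAut.conjNormal g : MulAut ↥Q).toMonoidHom
      map_one' := by ext v; simp; rfl
      map_mul' := fun g h => by ext v; simp; rfl }
  have hactval : ∀ g (v : Additive ↥Q), ((Additive.toMul (act g v) : ↥Q) : G) = g * (Additive.toMul v : ↥Q) * g⁻¹ :=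
    fun g v => MulAut.conjNormal_apply _ _
  have hactQ : Q ≤ act.ker := fun g hg => by
    refine AddMonoidHom.ext fun v => ?_
    apply Additive.toMul.injective
    apply Subtype.ext
    refine (hactval g v).trans ?_
    rw [habel g hg _ (Additive.toMul v).2, mul_inv_cancel_right]
    rfl
  let ρ : Matrix.SpecialLinearGroup (Fin 2) K →* AddMonoid.End (Additive ↥Q) :=
    (QuotientGroup.lift Q act hactQ).comp e.symm.toMonoidHom
  have hρε : ∀ g, ρ (ε g) = act g := fun g => by simp [ρ, hε]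
  have hrel : ∀ t : K, t ≠ 0 → ρ (uU t * lL t⁻¹) + ρ (lL t⁻¹ * uU t) = -1 := by
    intro t ht
    obtain ⟨y, hy, hy'⟩ := hlift t ht
    have e1 : uU t * lL t⁻¹ = ε y := hy'.symm
    have e2 : lL t⁻¹ * uU t = ε y⁻¹ := by
      rw [map_inv, hy']
      exact (inv_eq_of_mul_eq_one_right yY_inv).symm
    rw [e1, e2, hρε, hρε]
    refine AddMonoidHom.ext fun v => ?_
    apply Additive.toMul.injective
    apply Subtype.ext
    show ((Additive.toMul (act y v) : ↥Q) : G) * (Additive.toMul (act y⁻¹ v) : ↥Q) =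
      (((Additive.toMul v : ↥Q))⁻¹ : ↥Q)
    rw [hactval, hactval, Subgroup.coe_inv]
    have h := three hy (Additive.toMul v).2
    rw [mul_assoc] at h
    rw [← eq_inv_of_mul_eq_one_right h]
    have h3 : y * (y * y) = 1 := by simpa [pow_succ, mul_assoc] using hy.1
    have hyi : y⁻¹ = y * y := inv_eq_of_mul_eq_one_right h3
    rw [inv_inv, show y⁻¹ * ((Additive.toMul v : ↥Q) : G) * y =
      y * (y * ((Additive.toMul v : ↥Q) : G) * y⁻¹) * y⁻¹ by
        calc _ = y * y * ((Additive.toMul v : ↥Q) : G) * (y * y)⁻¹ := by rw [← hyi, inv_inv]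
          _ = _ := by simp [mul_assoc]]
  -- exponent two
  have h2 : ∀ v : Additive ↥Q, v + v = 0 := by
    let V4 : AddSubgroup (Additive ↥Q) := AddMonoidHom.ker (nsmulAddMonoidHom 4)
    have h4m : ∀ {v}, v ∈ V4 ↔ 4 • v = 0 := Iff.rfl
    have hinv4 : ∀ (f : AddMonoid.End (Additive ↥Q)) (v : Additive ↥Q), v ∈ V4 → f v ∈ V4 := fun f v hv => by
      rw [h4m] at hv ⊢
      rw [← map_nsmul, hv, map_zero]
    let ρ4 : Matrix.SpecialLinearGroup (Fin 2) K →* AddMonoid.End V4 :=
      { toFun := fun g => ((ρ g : Additive ↥Q →+ Additive ↥Q).comp V4.subtype).codRestrict V4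
          (fun v => hinv4 _ _ v.2)
        map_one' := AddMonoidHom.ext fun v => Subtype.ext (by show ρ 1 (v : Additive ↥Q) = _; rw [map_one]; rfl)
        map_mul' := fun g h => AddMonoidHom.ext fun v => Subtype.ext (by show ρ (g * h) (v : Additive ↥Q) = _; rw [map_mul]; rfl) }
    have hV4 : ∀ v : V4, v + v = 0 := exponent_two (fun v => Subtype.ext v.2) ρ4 (fun t ht => by
      refine AddMonoidHom.ext fun v => Subtype.ext ?_
      exact congrArg (fun f : AddMonoid.End (Additive ↥Q) => f (v : Additive ↥Q)) (hrel t ht)) hK2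
    intro v
    obtain ⟨k, hk⟩ := hQ (Additive.toMul v)
    have hk' : 2 ^ k • v = 0 := by
      apply Additive.toMul.injective
      rw [toMul_nsmul, hk]; rfl
    clear hk
    induction k generalizing v with
    | zero => rw [pow_zero, one_smul] at hk'; rw [hk', add_zero]
    | succ k ih =>
      have h2v := ih (v + v) (by rw [← two_nsmul, ← mul_nsmul', ← pow_succ, hk'])
      have h4v : v ∈ V4 := by
        rw [h4m, show 4 = 2 * 2 from rfl, mul_nsmul, two_nsmul v, two_nsmul]
        exact h2v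
      exact congrArg Subtype.val (hV4 ⟨v, h4v⟩)
  refine ⟨⟨⟨⟨fun a b => Subtype.ext (habel a a.2 b b.2)⟩⟩, fun q hq => ?_⟩, ?_⟩
  · have := congrArg (fun v => ((Additive.toMul v : ↥Q) : G)) (h2 (Additive.ofMul ⟨q, hq⟩))
    rw [pow_two]; simpa using this
  obtain ⟨C, eC, ψ, hψ⟩ := module_form h2 ρ hrel
  letI : Module K C := Module.compHom C eC
  haveI : Finite C := Finite.of_injective _ Subtype.val_injective
  haveI : Module.Finite K C := Module.Finite.of_finite
  let B := Module.finBasis K C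
  set d := Module.finrank K C with hd
  let Ψ : Additive ↥Q ≃+ (Fin d → Fin 2 → K) :=
    { toFun := fun v i j => B.equivFun (ψ v j) i
      invFun := fun f => ψ.symm fun j => B.equivFun.symm fun i => f i j
      left_inv := fun v => by
        show ψ.symm (fun j => B.equivFun.symm (B.equivFun (ψ v j))) = v
        simp
      right_inv := fun f => by
        funext i j
        show B.equivFun (ψ (ψ.symm _) j) i = _
        rw [ψ.apply_symm_apply, LinearEquiv.apply_symm_apply]
      map_add' := fun v w => by funext i j; simp }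
  have hΨ : ∀ (g : G) (v : Additive ↥Q) (i : Fin d),
      Ψ (act g v) i = ((ε g : Matrix.SpecialLinearGroup (Fin 2) K) : Matrix (Fin 2) (Fin 2) K).mulVec (Ψ v i) := by
    intro g v i
    funext j
    show B.equivFun (ψ (act g v) j) i = _
    rw [← hρε, hψ, map_sum, Finset.sum_apply, Matrix.mulVec, dotProduct]
    refine Finset.sum_congr rfl fun l _ => ?_
    show B.equivFun (((ε g : Matrix.SpecialLinearGroup (Fin 2) K) : Matrix (Fin 2) (Fin 2) K) j l • ψ v l) i = _
    rw [map_smul, Pi.smul_apply, smul_eq_mul]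
    rfl
  let ι : ↥Q → Fin d → Fin 2 → K := fun q => Ψ (Additive.ofMul q)
  have hιmul : ∀ p q : ↥Q, ι (p * q) = ι p + ι q := fun p q => Ψ.map_add _ _
  have hιone : ι 1 = 0 := Ψ.map_zero
  let V : Fin d → Subgroup G := fun i => Subgroup.map Q.subtype
    { carrier := {q | ∀ j, j ≠ i → ι q j = 0}
      one_mem' := fun j _ => by rw [hιone]; rfl
      mul_mem' := fun {p q} hp hq j hj => by rw [hιmul, Pi.add_apply, hp j hj, hq j hj, add_zero]
      inv_mem' := fun {p} hp j hj => by
        have h := hιmul p p⁻¹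
        rw [mul_inv_cancel, hιone] at h
        have h' := congrFun h.symm j
        rwa [Pi.add_apply, hp j hj, zero_add] at h' }
  have hVmem : ∀ i (q : ↥Q), (q : G) ∈ V i ↔ ∀ j, j ≠ i → ι q j = 0 := fun i q =>
    Subgroup.mem_map_iff_mem Q.subtype_injective
  have hVQ : ∀ i, V i ≤ Q := fun i => Subgroup.map_subtype_le _
  have hconjι : ∀ (g : G) (q : ↥Q) (i : Fin d), ι (MulAut.conjNormal g q) i =
      ((ε g : Matrix.SpecialLinearGroup (Fin 2) K) : Matrix (Fin 2) (Fin 2) K).mulVec (ι q i) :=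
    fun g q i => hΨ g (Additive.ofMul q) i
  have hcn : ∀ (g : G) (q : ↥Q), ((MulAut.conjNormal g q : ↥Q) : G) = g * (q : G) * g⁻¹ := fun g q =>
    MulAut.conjNormal_apply g q
  have hVn : ∀ i, (V i).Normal := fun i => ⟨fun z hz g => by
    have hq := hVQ i hz
    rw [show g * z * g⁻¹ = ((MulAut.conjNormal g ⟨z, hq⟩ : ↥Q) : G) from (hcn g ⟨z, hq⟩).symm,
      hVmem]
    intro j hj
    rw [hconjι, (hVmem i ⟨z, hq⟩).1 hz j hj, Matrix.mulVec_zero]⟩
  refine ⟨d, V, fun i => ⟨hVQ i, hVn i, ?_, bot_le, ?_⟩, ?_, ?_⟩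
  · rw [Subgroup.normalizer_eq_top_iff.2 (hVn i)]
  · let ψi : ↥(V i) →* Multiplicative (Fin 2 → K) :=
      { toFun := fun u => Multiplicative.ofAdd (ι ⟨u, hVQ i u.2⟩ i)
        map_one' := by
          show Multiplicative.ofAdd (ι 1 i) = 1
          rw [hιone]; rfl
        map_mul' := fun u w => by
          show Multiplicative.ofAdd (ι (⟨u, hVQ i u.2⟩ * ⟨w, hVQ i w.2⟩) i) = _
          rw [hιmul]; rfl }
    refine ⟨ε.comp (⊤ : Subgroup G).subtype, ψi, ?_, ?_, fun u => ?_, fun g u => ?_⟩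
    · rw [MonoidHom.range_eq_top]
      intro s
      obtain ⟨g, hg⟩ := hεsurj s
      exact ⟨⟨g, Subgroup.mem_top g⟩, hg⟩
    · intro w
      set q : ↥Q := Additive.toMul (Ψ.symm (Pi.single i (Multiplicative.toAdd w)))
      have hι : ι q = Pi.single i (Multiplicative.toAdd w) := Ψ.apply_symm_apply _
      refine ⟨⟨q, (hVmem i q).2 fun j hj => by rw [hι, Pi.single_eq_of_ne hj]⟩, ?_⟩
      show Multiplicative.ofAdd (ι q i) = w
      rw [hι, Pi.single_eq_same, ofAdd_toAdd]
    · constructor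
      · intro h
        have h0 : ι ⟨u, hVQ i u.2⟩ i = 0 := Multiplicative.ofAdd.injective (h.trans ofAdd_zero.symm)
        have hall : ι ⟨u, hVQ i u.2⟩ = 0 := funext fun j => by
          rcases eq_or_ne j i with rfl | hj
          · exact h0
          · exact (hVmem i ⟨u, hVQ i u.2⟩).1 u.2 j hj
        have := Additive.ofMul.injective (Ψ.injective (hall.trans hιone.symm))
        exact Subgroup.mem_bot.2 (congrArg Subtype.val this)
      · intro h
        rw [Subgroup.mem_bot, OneMemClass.coe_eq_one] at h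
        rw [h, map_one]
    · refine ⟨⟨(g : G) * (u : G) * (g : G)⁻¹, (hVn i).conj_mem _ u.2 _⟩, rfl, ?_⟩
      show ι _ i = _
      rw [show (⟨(g : G) * (u : G) * (g : G)⁻¹, hVQ i ((hVn i).conj_mem _ u.2 _)⟩ : ↥Q) =
        MulAut.conjNormal (g : G) ⟨u, hVQ i u.2⟩ from Subtype.ext (hcn g ⟨u, hVQ i u.2⟩).symm, hconjι]
      rfl
  · intro i
    rw [Subgroup.disjoint_def]
    intro z hz hz'
    let S : Subgroup ↥Q :=
      { carrier := {q | ι q i = 0}
        one_mem' := by show ι 1 i = 0; rw [hιone]; rfl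
        mul_mem' := fun {p q} hp hq => by
          show ι (p * q) i = 0
          rw [hιmul, Pi.add_apply, hp, hq, add_zero]
        inv_mem' := fun {p} hp => by
          show ι p⁻¹ i = 0
          have h' := congrFun (hιmul p p⁻¹).symm i
          rwa [mul_inv_cancel, hιone, Pi.add_apply, hp, zero_add] at h' }
    have hle : (⨆ j ≠ i, V j) ≤ S.map Q.subtype := iSup₂_le fun j hj w hw =>
      ⟨⟨w, hVQ j hw⟩, (hVmem j ⟨w, hVQ j hw⟩).1 hw i (Ne.symm hj), rfl⟩
    obtain ⟨q, hq, rfl⟩ := hle hz'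
    have hall : ι q = 0 := funext fun j => by
      rcases eq_or_ne j i with rfl | hj
      · exact hq
      · exact (hVmem i q).1 hz j hj
    exact congrArg Subtype.val (Additive.ofMul.injective (Ψ.injective (hall.trans hιone.symm)))
  · refine le_antisymm (iSup_le hVQ) fun z hz => ?_
    let T : AddSubgroup (Additive ↥Q) := Subgroup.toAddSubgroup ((⨆ i, V i).subgroupOf Q)
    have hv : Additive.ofMul (⟨z, hz⟩ : ↥Q) ∈ T := by
      rw [← Ψ.symm_apply_apply (Additive.ofMul (⟨z, hz⟩ : ↥Q)),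
        ← Finset.univ_sum_single (Ψ (Additive.ofMul (⟨z, hz⟩ : ↥Q))), map_sum]
      refine T.sum_mem fun i _ => ?_
      show ((Additive.toMul (Ψ.symm (Pi.single i _)) : ↥Q) : G) ∈ ⨆ i, V i
      refine le_iSup V i ((hVmem i _).2 fun j hj => ?_)
      show Ψ (Ψ.symm _) j = 0
      rw [Ψ.apply_symm_apply, Pi.single_eq_of_ne hj]
    exact hv

end Cfsg.Agent.S3050
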