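import Cfsg.Statements.S3053
import Cfsg.Agent.PCore.OmegaFix
import Mathlib.GroupTheory.Sylow

set_option autoImplicit false
open Cfsg

namespace Cfsg.Agent.S3053

/-- Let p be an odd prime and G a finite group with a Sylow p-subgroup P that is extraspecial of order p³ and exponent p². Then the centre of P is strongly closed in P with respect to G: a G-conjugate of an element of Z(P) that lies in P already lies in Z(P). In particular a nontrivial central element of P is conjugate in G to no noncentral element of P. -/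
theorem result {G : Type*} [Group G] [Finite G]
    {p : ℕ} [Fact p.Prime] (hp : p ≠ 2) (P : Sylow p G) (hE : Cfsg.IsExtraspecial p ↥P)
    (hcard : Nat.card P = p ^ 3) (hexp : Monoid.exponent ↥P = p ^ 2) :
    Cfsg.IsStronglyClosed ((Subgroup.center ↥P).map (P : Subgroup G).subtype) (P : Subgroup G) := by
  open Subgroup in
  open scoped commutatorElement in
  have hpp := (Fact.out : p.Prime)
  obtain ⟨⟨hPp, -, hcomm⟩, hZp⟩ := hE
  replace hcomm : _root_.commutator ↥(P : Subgroup G) = center ↥(P : Subgroup G) := hcomm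
  replace hZp : Nat.card ↥(center ↥(P : Subgroup G)) = p := hZp
  replace hexp : Monoid.exponent ↥(P : Subgroup G) = p ^ 2 := hexp
  replace hcard : Nat.card ↥(P : Subgroup G) = p ^ 3 := hcard
  set Z := center (P : Subgroup G) with hZdef
  have hcl : ∀ a b : (P : Subgroup G), ⁅a, b⁆ ∈ center (P : Subgroup G) := fun a b => by
    rw [← hZdef, ← hcomm]; exact commutator_mem_commutator (mem_top a) (mem_top b)
  have hZpow : ∀ c : (P : Subgroup G), c ∈ Z → c ^ p = 1 := fun c hc => by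
    have := congrArg Subtype.val (pow_card_eq_one' (x := (⟨c, hc⟩ : Z)))
    rwa [hZp] at this
  let π : (P : Subgroup G) →* (P : Subgroup G) := MonoidHom.mk' (fun u => u ^ p) fun a b => by
    obtain ⟨j, hj⟩ := hpp.even_sub_one hp
    rw [CfsgLib.PCore.mul_pow_of_class_two hcl, hj, show p * (j + j) / 2 = p * j by
      rw [show p * (j + j) = 2 * (p * j) by ring, Nat.mul_div_cancel_left _ two_pos],
      pow_mul, hZpow _ (hcl b a), one_pow, mul_one]
  have hπ : ∀ u, π u = u ^ p := fun u => rfl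
  have hrange : ∀ u : (P : Subgroup G), u ^ p ∈ Z := fun u => mem_center_iff.mpr fun w => by
    have h := hZpow _ (hcl u w)
    rw [← CfsgLib.PCore.commutatorElement_pow_left_of_class_two hcl, commutatorElement_eq_one_iff_mul_comm] at h
    exact h.symm
  obtain ⟨y, hy⟩ : ∃ y : (P : Subgroup G), y ^ p ≠ 1 := by
    by_contra hcon
    push Not at hcon
    have := Monoid.exponent_dvd_of_forall_pow_eq_one hcon
    rw [hexp] at this
    have := Nat.le_of_dvd hpp.pos this
    nlinarith [hpp.two_le]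
  have hA2 : Nat.card π.ker = p ^ 2 := by
    have hr : π.range = Z := by
      refine eq_of_le_of_card_ge ?_ ?_
      · rintro _ ⟨u, rfl⟩; exact hrange u
      · rw [hZp]
        by_contra hlt
        push Not at hlt
        have hle : π.range ≤ Z := by rintro _ ⟨u, rfl⟩; exact hrange u
        have h1 : Nat.card π.range ∣ p := (card_dvd_of_le hle).trans (dvd_of_eq hZp)
        rcases (Nat.dvd_prime hpp).mp h1 with e | e
        · exact hy (by
            have h2 : π y ∈ π.range := ⟨y, rfl⟩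
            rw [card_eq_one.mp e, mem_bot] at h2
            exact h2)
        · omega
    have h1 := π.ker.card_mul_index
    rw [index_ker, hr, hZp, hcard, pow_succ] at h1
    exact Nat.eq_of_mul_eq_mul_right hpp.pos h1
  set A := π.ker.map (P : Subgroup G).subtype with hA
  have hAcard : Nat.card A = p ^ 2 := by rw [hA, card_map_of_injective (P : Subgroup G).subtype_injective, hA2]
  have hAmem : ∀ u : G, u ∈ A ↔ u ∈ (P : Subgroup G) ∧ u ^ p = 1 := fun u => by
    constructor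
    · rintro ⟨v, hv, rfl⟩
      exact ⟨v.2, congrArg Subtype.val (hv : v ^ p = 1)⟩
    · rintro ⟨h1, h2⟩
      exact ⟨⟨u, h1⟩, Subtype.ext h2, rfl⟩
  have hAc : ∀ u ∈ A, ∀ v ∈ A, u * v = v * u := fun u hu v hv =>
    congrArg Subtype.val (IsPGroup.isMulCommutative_of_card_eq_prime_sq hAcard |>.is_comm.comm ⟨u, hu⟩ ⟨v, hv⟩)
  set ZG := Z.map (P : Subgroup G).subtype with hZG
  have hZGcard : Nat.card ZG = p := by rw [hZG, card_map_of_injective (P : Subgroup G).subtype_injective, hZp]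
  have hZA : ZG ≤ A := by
    rintro _ ⟨c, hc, rfl⟩
    exact ⟨c, hZpow c hc, rfl⟩
  refine ⟨map_subtype_le _, fun x hx g hgP => ?_⟩
  by_contra hnot
  have hx1 : x ≠ 1 := fun e => hnot (by rw [e, mul_one, mul_inv_cancel]; exact one_mem _)
  obtain ⟨xP, hxZ, rfl⟩ := hx
  set a := g * (xP : G) * g⁻¹ with ha
  simp only [coe_subtype] at hnot hgP hx1
  have hxp : (xP : G) ^ p = 1 := congrArg Subtype.val (hZpow xP hxZ)
  have haA : a ∈ A := (hAmem a).mpr ⟨hgP, by rw [ha, conj_pow, hxp, mul_one, mul_inv_cancel]⟩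
  -- a conjugating element in `N(A)`
  set C := centralizer ({a} : Set G) with hC
  have hgC : ((g • P : Sylow p G) : Subgroup G) ≤ C := by
    intro s hs
    rw [Sylow.coe_subgroup_smul, mem_pointwise_smul_iff_inv_smul_mem] at hs
    simp only [MulAut.smul_def, MulAut.conj_inv_apply] at hs
    refine mem_centralizer_singleton_iff.mpr ?_
    have h1 : g⁻¹ * s * g * (xP : G) = (xP : G) * (g⁻¹ * s * g) :=
      congrArg Subtype.val (mem_center_iff.mp hxZ ⟨_, hs⟩)
    calc s * a = g * (g⁻¹ * s * g * (xP : G)) * g⁻¹ := by rw [ha]; group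
      _ = a * s := by rw [h1, ha]; group
  have hAC : A ≤ C := fun u hu => mem_centralizer_singleton_iff.mpr (hAc u hu a haA)
  obtain ⟨T, hT⟩ := ((P.isPGroup'.to_le (map_subtype_le π.ker : A ≤ P)).comap_of_injective C.subtype
    C.subtype_injective).exists_le_sylow
  obtain ⟨k, hk⟩ := MulAction.exists_smul_eq C ((g • P : Sylow p G).subtype hgC) T
  set h := (k : G) * g with hh
  have hh1 : h * (xP : G) * h⁻¹ = a := by
    calc h * (xP : G) * h⁻¹ = (k : G) * a * (k : G)⁻¹ := by rw [hh, ha]; group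
      _ = a := by rw [mem_centralizer_singleton_iff.mp k.2, mul_inv_cancel_right]
  have hhA : ∀ u ∈ A, h⁻¹ * u * h ∈ A := by
    intro u hu
    have h1 : (⟨u, hAC hu⟩ : C) ∈ ((k • (g • P : Sylow p G).subtype hgC : Sylow p C) : Subgroup C) := by
      rw [hk]; exact hT hu
    rw [Sylow.coe_subgroup_smul, mem_pointwise_smul_iff_inv_smul_mem] at h1
    have h2 : (k : G)⁻¹ * u * k ∈ ((g • P : Sylow p G) : Subgroup G) := by
      simpa [mem_subgroupOf, MulAut.conj_inv_apply] using h1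
    rw [Sylow.coe_subgroup_smul, mem_pointwise_smul_iff_inv_smul_mem] at h2
    simp only [MulAut.smul_def, MulAut.conj_inv_apply] at h2
    refine (hAmem _).mpr ⟨by simpa [hh, mul_assoc] using h2, ?_⟩
    have := conj_pow (i := p) (a := h⁻¹) (b := u)
    rw [inv_inv] at this
    rw [this, ((hAmem u).mp hu).2, mul_one, inv_mul_cancel]
  have hPA : ∀ w : (P : Subgroup G), ∀ u ∈ A, (w : G) * u * (w : G)⁻¹ ∈ A := fun w u hu =>
    (hAmem _).mpr ⟨mul_mem (mul_mem w.2 ((hAmem u).mp hu).1) (inv_mem w.2), by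
      rw [conj_pow, ((hAmem u).mp hu).2, mul_one, mul_inv_cancel]⟩
  have hhN : h ∈ normalizer (A : Set G) := by
    have : h⁻¹ ∈ normalizer (A : Set G) :=
      Subgroup.mem_normalizer_fintype (S := (A : Set G)) fun u hu => by
        simpa using hhA u hu
    simpa using inv_mem this
  have hPN : (P : Subgroup G) ≤ normalizer (A : Set G) := fun w hw =>
    Subgroup.mem_normalizer_fintype (S := (A : Set G)) fun u hu => hPA ⟨w, hw⟩ u hu
  -- transvections
  have htrans : ∀ u ∈ A, u ∉ ZG → ∀ w ∈ ZG, ∃ s : (P : Subgroup G),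
      (s : G) * u * (s : G)⁻¹ = u * w ∧ ∀ v ∈ ZG, (s : G) * v * (s : G)⁻¹ = v := by
    intro u hu hun w hw
    obtain ⟨u', hu', rfl⟩ := hu
    let f : (P : Subgroup G) →* (P : Subgroup G) := MonoidHom.mk' (fun s => ⁅s, u'⁆)
      fun s t => CfsgLib.PCore.commutatorElement_mul_left_of_class_two hcl s t u'
    have hf : f.range = Z := by
      have hle : f.range ≤ Z := by rintro _ ⟨s, rfl⟩; exact hcl s u'
      refine eq_of_le_of_card_ge hle ?_
      rcases (Nat.dvd_prime hpp).mp (hZp ▸ card_dvd_of_le hle) with e | e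
      · refine absurd ?_ hun
        refine ⟨u', mem_center_iff.mpr fun s => ?_, rfl⟩
        have h1 : f s ∈ f.range := ⟨s, rfl⟩
        rw [card_eq_one.mp e, mem_bot] at h1
        exact commutatorElement_eq_one_iff_mul_comm.mp h1
      · rw [hZp, e]
    obtain ⟨w', hw', rfl⟩ := hw
    obtain ⟨s, hs⟩ : w' ∈ f.range := hf ▸ hw'
    refine ⟨s, ?_, fun v hv => ?_⟩
    · have h1 : s * u' * s⁻¹ = u' * w' := by
        rw [mem_center_iff.mp (hw' : w' ∈ center _) u']
        have h2 : ⁅s, u'⁆ = w' := hs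
        rw [← h2, commutatorElement_def]
        group
      exact congrArg Subtype.val h1
    · obtain ⟨v', hv', rfl⟩ := hv
      have h1 : s * v' * s⁻¹ = v' := by rw [mem_center_iff.mp hv' s, mul_inv_cancel_right]
      exact congrArg Subtype.val h1
  set z := ((y ^ p : (P : Subgroup G)) : G) with hz
  have hzZ : z ∈ ZG := ⟨y ^ p, hrange y, rfl⟩
  have hzA : z ∈ A := hZA hzZ
  have hz1 : z ≠ 1 := fun e => hy (Subtype.ext e)
  have hgen : ∀ c ∈ ZG, c ≠ 1 → zpowers c = ZG := fun c hc hc1 => by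
    refine eq_of_le_of_card_ge (zpowers_le.mpr hc) ?_
    rw [hZGcard]
    rcases (Nat.dvd_prime hpp).mp (hZGcard ▸ card_dvd_of_le (zpowers_le.mpr hc)) with e | e
    · rw [Nat.card_zpowers, orderOf_eq_one_iff] at e; exact absurd e hc1
    · exact e.ge
  have hxG : (xP : G) ∈ ZG := ⟨xP, hxZ, rfl⟩
  -- the upper transvection
  obtain ⟨u, hua, huz⟩ := htrans a haA hnot z hzZ
  -- the lower transvection
  have hzh : h⁻¹ * z * h ∈ A := hhA z hzA
  have hzh' : h⁻¹ * z * h ∉ ZG := by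
    intro hin
    rw [← hgen _ hxG hx1] at hin
    obtain ⟨i, hi⟩ := hin
    simp only at hi
    have h1 : z = a ^ i := by
      rw [← hh1, conj_zpow, hi]; group
    have h2 : a ∈ ZG := by
      have hza : zpowers z ≤ zpowers a := zpowers_le.mpr (h1 ▸ zpow_mem (mem_zpowers a) i)
      have heq : zpowers z = zpowers a := eq_of_le_of_card_ge hza (by
        rw [hgen z hzZ hz1, hZGcard, Nat.card_zpowers]
        exact orderOf_le_of_pow_eq_one hpp.pos ((hAmem a).mp haA).2)
      rw [← hgen z hzZ hz1, heq]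
      exact mem_zpowers a
    exact hnot h2
  obtain ⟨l₀, hl₀a, hl₀z⟩ := htrans _ hzh hzh' (xP : G)⁻¹ (inv_mem hxG)
  set l := h * (l₀ : G) * h⁻¹ with hl
  have hla : l * a * l⁻¹ = a := by
    calc l * a * l⁻¹ = h * ((l₀ : G) * (xP : G) * (l₀ : G)⁻¹) * h⁻¹ := by rw [hl, ← hh1]; group
      _ = a := by rw [hl₀z _ hxG, hh1]
  have hlz : l * z * l⁻¹ = z * a⁻¹ := by
    calc l * z * l⁻¹ = h * ((l₀ : G) * (h⁻¹ * z * h) * (l₀ : G)⁻¹) * h⁻¹ := by rw [hl]; group
      _ = h * (h⁻¹ * z * h * (xP : G)⁻¹) * h⁻¹ := by rw [hl₀a]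
      _ = z * a⁻¹ := by rw [← hh1]; group
  have haz : a * z = z * a := hAc a haA z hzA
  set w := (u : G) * l * (u : G) with hw
  have hwa : w * a * w⁻¹ = z := by
    calc w * a * w⁻¹ = (u : G) * (l * ((u : G) * a * (u : G)⁻¹) * l⁻¹) * (u : G)⁻¹ := by rw [hw]; group
      _ = (u : G) * ((l * a * l⁻¹) * (l * z * l⁻¹)) * (u : G)⁻¹ := by rw [hua]; group
      _ = (u : G) * (a * z * a⁻¹) * (u : G)⁻¹ := by rw [hla, hlz]; group
      _ = z := by rw [haz, mul_inv_cancel_right, huz z hzZ]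
  have hwz : w * z * w⁻¹ = a⁻¹ := by
    calc w * z * w⁻¹ = (u : G) * (l * ((u : G) * z * (u : G)⁻¹) * l⁻¹) * (u : G)⁻¹ := by rw [hw]; group
      _ = (u : G) * (z * a⁻¹) * (u : G)⁻¹ := by rw [huz z hzZ, hlz]
      _ = ((u : G) * z * (u : G)⁻¹) * ((u : G) * a * (u : G)⁻¹)⁻¹ := by group
      _ = a⁻¹ := by rw [huz z hzZ, hua, mul_inv_rev, mul_inv_cancel_left]
  set n := w * w with hn
  have hlN : l ∈ normalizer (A : Set G) := mul_mem (mul_mem hhN (hPN l₀.2)) (inv_mem hhN)
  have hnN : n ∈ normalizer (A : Set G) := mul_mem (mul_mem (mul_mem (hPN u.2) hlN) (hPN u.2))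
    (mul_mem (mul_mem (hPN u.2) hlN) (hPN u.2))
  have hna : n * a * n⁻¹ = a⁻¹ := by
    calc n * a * n⁻¹ = w * (w * a * w⁻¹) * w⁻¹ := by rw [hn]; group
      _ = a⁻¹ := by rw [hwa, hwz]
  have hnz : n * z * n⁻¹ = z⁻¹ := by
    calc n * z * n⁻¹ = w * (w * z * w⁻¹) * w⁻¹ := by rw [hn]; group
      _ = (w * a * w⁻¹)⁻¹ := by rw [hwz]; group
      _ = z⁻¹ := by rw [hwa]
  have hinv : ∀ v ∈ A, n * v * n⁻¹ = v⁻¹ := by
    let B : Subgroup G :=
      { carrier := {v | v ∈ A ∧ n * v * n⁻¹ = v⁻¹}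
        one_mem' := ⟨one_mem _, by simp⟩
        mul_mem' := fun {v v'} hv hv' => ⟨mul_mem hv.1 hv'.1, by
          calc n * (v * v') * n⁻¹ = (n * v * n⁻¹) * (n * v' * n⁻¹) := by group
            _ = (v * v')⁻¹ := by
              rw [hv.2, hv'.2, ← mul_inv_rev, hAc v' hv'.1 v hv.1]⟩
        inv_mem' := fun {v} hv => ⟨inv_mem hv.1, by rw [← conj_inv, hv.2]⟩ }
    have hB : A ≤ B := by
      have h1 : ZG ≤ B := by rw [← hgen z hzZ hz1]; exact zpowers_le.mpr ⟨hzA, hnz⟩
      have hBA : B ≤ A := fun v hv => hv.1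
      refine (eq_of_le_of_card_ge hBA ?_).ge
      obtain ⟨j, hj2, hj⟩ := (Nat.dvd_prime_pow hpp).mp (hAcard ▸ card_dvd_of_le hBA)
      rw [hAcard, hj]
      refine Nat.pow_le_pow_right hpp.pos ?_
      by_contra hlt
      have h2 : ZG = B := eq_of_le_of_card_ge h1 (by
        rw [hj, hZGcard]
        exact (Nat.pow_le_pow_right hpp.pos (by omega : j ≤ 1)).trans (le_of_eq (pow_one p)))
      exact hnot (h2.ge ⟨haA, hna⟩)
    exact fun v hv => (hB hv).2
  -- move `n` into `N(P)`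
  set CA := centralizer (A : Set G) with hCA
  have hPCA : (P : Subgroup G) ≤ normalizer (CA : Set G) := by
    intro s hs
    refine Subgroup.mem_normalizer_fintype (S := (CA : Set G)) fun c hc => mem_centralizer_iff.mpr fun v hv => ?_
    have hv' : s⁻¹ * v * s ∈ A := by simpa using hPA ⟨s⁻¹, inv_mem hs⟩ v hv
    calc v * (s * c * s⁻¹) = s * ((s⁻¹ * v * s) * c) * s⁻¹ := by group
      _ = s * (c * (s⁻¹ * v * s)) * s⁻¹ := by rw [mem_centralizer_iff.mp hc _ hv']
      _ = s * c * s⁻¹ * v := by group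
  have hmemK : ∀ e : G, e ∈ CA ⊔ (P : Subgroup G) → ∃ c ∈ CA, ∃ t ∈ (P : Subgroup G), e = c * t := fun e he => by
    rw [← SetLike.mem_coe, coe_mul_of_right_le_normalizer_left _ _ hPCA] at he
    obtain ⟨c, hc, t, ht, rfl⟩ := he
    exact ⟨c, hc, t, ht, rfl⟩
  set K := CA ⊔ (P : Subgroup G) with hK
  have hnK : ((n • P : Sylow p G) : Subgroup G) ≤ K := by
    intro e he
    rw [Sylow.coe_subgroup_smul, mem_pointwise_smul_iff_inv_smul_mem] at he
    simp only [MulAut.smul_def, MulAut.conj_inv_apply] at he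
    set s := n⁻¹ * e * n with hs
    have he' : e = (n * s * n⁻¹ * s⁻¹) * s := by rw [hs]; group
    rw [he']
    refine mul_mem (mem_sup_left (mem_centralizer_iff.mpr fun v hv => ?_)) (mem_sup_right he)
    set c := n * s * n⁻¹ * s⁻¹ with hc
    suffices c * v * c⁻¹ = v by
      calc v * c = c * v * c⁻¹ * c := by rw [this]
        _ = c * v := by group
    have h1 : s⁻¹ * v * s ∈ A := by simpa using hPA ⟨s⁻¹, inv_mem he⟩ v hv
    have h2 : n⁻¹ * (s⁻¹ * v * s) * n = (s⁻¹ * v * s)⁻¹ := by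
      have h3 := hinv _ (inv_mem h1)
      rw [inv_inv] at h3
      calc n⁻¹ * (s⁻¹ * v * s) * n = n⁻¹ * (n * (s⁻¹ * v * s)⁻¹ * n⁻¹) * n := by rw [h3]
        _ = _ := by group
    calc c * v * c⁻¹ = n * (s * (n⁻¹ * (s⁻¹ * v * s) * n) * s⁻¹) * n⁻¹ := by rw [hc]; group
      _ = n * v⁻¹ * n⁻¹ := by rw [h2]; group
      _ = v := by rw [hinv _ (inv_mem hv), inv_inv]
  obtain ⟨kk, hkk⟩ := MulAction.exists_smul_eq K (P.subtype le_sup_right) ((n • P : Sylow p G).subtype hnK)
  obtain ⟨c, hc, t, ht, hct⟩ := hmemK kk kk.2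
  have hsmul : (kk : G) • P = n • P := by
    refine (Sylow.ext (((kk : G) • P).is_maximal' (n • P).isPGroup' ?_)).symm
    intro e he
    rw [Sylow.coe_subgroup_smul, mem_pointwise_smul_iff_inv_smul_mem] at he
    simp only [MulAut.smul_def, MulAut.conj_inv_apply] at he
    have heK : e ∈ K := by
      have := K.mul_mem (K.mul_mem kk.2 (mem_sup_right he)) (K.inv_mem kk.2)
      simpa [mul_assoc] using this
    have h1 : (⟨e, heK⟩ : K) ∈ ((kk • P.subtype le_sup_right : Sylow p K) : Subgroup K) := by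
      rw [Sylow.coe_subgroup_smul, mem_pointwise_smul_iff_inv_smul_mem]
      simpa [mem_subgroupOf, MulAut.conj_inv_apply] using he
    rw [hkk] at h1
    exact h1
  set m := c⁻¹ * n with hm
  have hmP : m ∈ normalizer ((P : Subgroup G) : Set G) := by
    refine Sylow.smul_eq_iff_mem_normalizer.mp ?_
    rw [hm, mul_smul, ← hsmul, hct, mul_smul,
      Sylow.smul_eq_iff_mem_normalizer.mpr (le_normalizer ht), inv_smul_smul]
  have hminv : ∀ v ∈ A, m * v * m⁻¹ = v⁻¹ := fun v hv => by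
    calc m * v * m⁻¹ = c⁻¹ * (n * v * n⁻¹) * c := by rw [hm]; group
      _ = c⁻¹ * (v⁻¹ * c) := by rw [hinv v hv, mul_assoc]
      _ = v⁻¹ := by rw [mem_centralizer_iff.mp hc _ (inv_mem hv), inv_mul_cancel_left]
  -- the contradiction
  have hy' : m * (y : G) * m⁻¹ ∈ (P : Subgroup G) := (mem_normalizer_iff.mp hmP _).mp y.2
  set d : (P : Subgroup G) := ⟨m * (y : G) * m⁻¹, hy'⟩ * y with hd
  have hdA : (d : G) ∈ A := by
    refine ⟨d, ?_, rfl⟩
    show π d = 1
    rw [hd, map_mul, hπ, hπ]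
    refine Subtype.ext ?_
    show (m * (y : G) * m⁻¹) ^ p * ((y : G) ^ p) = 1
    have h1 : (y : G) ^ p = z := by rw [hz]; rfl
    rw [conj_pow, h1, hminv z hzA, inv_mul_cancel]
  set κ := (y : G)⁻¹ * a * (y : G) * a⁻¹ with hκ
  have hκA : κ ∈ A := mul_mem (by simpa using hPA y⁻¹ a haA) (inv_mem haA)
  let aP : (P : Subgroup G) := ⟨a, hgP⟩
  have hκZ : y⁻¹ * aP * y * aP⁻¹ ∈ Z := by
    have := hcl y⁻¹ aP
    rwa [commutatorElement_def, inv_inv] at this
  have hκ2 : κ = κ⁻¹ := by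
    have h1 : m * κ * m⁻¹ = κ⁻¹ := hminv κ hκA
    have h2 : m * κ * m⁻¹ = (m * (y : G) * m⁻¹)⁻¹ * (m * a * m⁻¹) * (m * (y : G) * m⁻¹) * (m * a * m⁻¹)⁻¹ := by
      rw [hκ]; group
    have h3 : m * (y : G) * m⁻¹ = (d : G) * (y : G)⁻¹ := by
      rw [hd, Subgroup.coe_mul, mul_inv_cancel_right]
    rw [hminv a haA, h3, inv_inv] at h2
    have h4 : (d : G)⁻¹ * a⁻¹ * (d : G) = a⁻¹ := by
      rw [mul_assoc, hAc a⁻¹ (inv_mem haA) _ hdA, inv_mul_cancel_left]
    have h5 : ((d : G) * (y : G)⁻¹)⁻¹ * a⁻¹ * ((d : G) * (y : G)⁻¹) * a = (y : G) * a⁻¹ * (y : G)⁻¹ * a := by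
      calc _ = (y : G) * ((d : G)⁻¹ * a⁻¹ * (d : G)) * (y : G)⁻¹ * a := by group
        _ = _ := by rw [h4]
    rw [h5] at h2
    -- conjugates of the central element `κ`
    have h6 : ((y * aP⁻¹) * (y⁻¹ * aP * y * aP⁻¹) : (P : Subgroup G)) = (y⁻¹ * aP * y * aP⁻¹) * (y * aP⁻¹) :=
      (mem_center_iff.mp hκZ _)
    have h7 : (y : G) * a⁻¹ * κ = κ * ((y : G) * a⁻¹) := by
      have := congrArg Subtype.val h6
      simpa [aP, hκ] using this
    calc κ = κ * ((y : G) * a⁻¹) * ((y : G) * a⁻¹)⁻¹ := by group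
      _ = (y : G) * a⁻¹ * κ * ((y : G) * a⁻¹)⁻¹ := by rw [h7]
      _ = (y : G) * a⁻¹ * (y : G)⁻¹ * a := by rw [hκ]; group
      _ = κ⁻¹ := by rw [← h2, h1]
  have hκ1 : κ = 1 := by
    have h2 : κ ^ 2 = 1 := by
      rw [pow_two]
      calc κ * κ = κ * κ⁻¹ := by rw [← hκ2]
        _ = 1 := mul_inv_cancel κ
    have := Nat.eq_one_of_dvd_coprimes ((Nat.coprime_primes Nat.prime_two hpp).mpr (Ne.symm hp))
      (orderOf_dvd_of_pow_eq_one h2) (orderOf_dvd_of_pow_eq_one ((hAmem κ).mp hκA).2)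
    exact orderOf_eq_one_iff.mp this
  -- so `a` commutes with `P`
  apply hnot
  refine ⟨aP, mem_center_iff.mpr fun s => ?_, rfl⟩
  set Ca := centralizer ({aP} : Set (P : Subgroup G)) with hCa
  have hyC : y ∈ Ca := by
    refine mem_centralizer_singleton_iff.mpr (Subtype.ext ?_)
    rw [hκ, mul_inv_eq_one, mul_assoc, inv_mul_eq_iff_eq_mul] at hκ1
    show (y : G) * a = a * (y : G)
    exact hκ1.symm
  have hker : π.ker ≤ Ca := fun v hv => mem_centralizer_singleton_iff.mpr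
    (Subtype.ext (hAc v ⟨v, hv, rfl⟩ a haA))
  have hlt : π.ker < Ca := lt_of_le_of_ne hker fun e => hy (by
    have : y ∈ π.ker := e ▸ hyC
    exact this)
  have htop : Ca = ⊤ := by
    refine eq_top_of_card_eq _ ?_
    obtain ⟨j, hj3, hj⟩ := (Nat.dvd_prime_pow hpp).mp (hcard ▸ card_subgroup_dvd_card Ca)
    have h1 : Nat.card π.ker < Nat.card Ca := by
      refine lt_of_le_of_ne (card_le_of_le hker) fun e => hlt.ne (eq_of_le_of_card_ge hker e.ge)
    rw [hA2, hj, Nat.pow_lt_pow_iff_right hpp.one_lt] at h1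
    rw [hcard, hj, show j = 3 by omega]
  have hs' : s ∈ Ca := by rw [htop]; exact mem_top s
  exact mem_centralizer_singleton_iff.mp hs'

end Cfsg.Agent.S3053
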