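import Cfsg.Statements.S3054
import Cfsg.Agent.RankTwoResistant.Frame
import Cfsg.Agent.H29.Dickson.FiniteClassify

set_option autoImplicit false
open Cfsg

namespace Cfsg.Agent.S3054

open CfsgLib.H29.Dickson CfsgLib.RankTwoResistant Matrix OnePoint MulAction
open scoped OnePoint

section line

variable {K : Type*} [Field K]

/-- The point of the projective line given by a vector. -/
noncomputable def pt (v : Fin 2 → K) : OnePoint K :=
  haveI := Classical.decEq K
  if v 1 = 0 then ∞ else ((v 0 / v 1 : K) : OnePoint K)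

theorem pt_fixed {m : GL (Fin 2) K} {v : Fin 2 → K} {c : K} (hc : c ≠ 0) (hv : v ≠ 0)
    (h : (m : Matrix (Fin 2) (Fin 2) K) *ᵥ v = c • v) : pr m • pt v = pt v := by
  have h0 := congrFun h 0
  have h1 := congrFun h 1
  simp [Matrix.mulVec, dotProduct, Fin.sum_univ_two] at h0 h1
  unfold pt
  split_ifs with hv1
  · have hv0 : v 0 ≠ 0 := fun e => hv (by ext i; fin_cases i <;> simp [e, hv1])
    rw [smul_infty_eq_iff]
    rw [hv1, mul_zero, add_zero, mul_zero] at h1
    exact (mul_eq_zero.1 h1).resolve_right hv0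
  · have hd : m 1 0 * (v 0 / v 1) + m 1 1 = c := by
      field_simp
      linear_combination h1
    rw [smul_coe_of (by rw [hd]; exact hc), hd, coe_eq_coe, div_eq_iff hc]
    field_simp
    linear_combination h0

theorem pt_inj {v w : Fin 2 → K} (hv : v ≠ 0) (h : pt v = pt w) : ∃ d : K, w = d • v := by
  unfold pt at h
  split_ifs at h with h1 h2 h2
  · have hv0 : v 0 ≠ 0 := fun e => hv (by ext i; fin_cases i <;> simp [e, h1])
    exact ⟨w 0 / v 0, by ext i; fin_cases i <;> simp [h1, h2, hv0]⟩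
  · exact absurd h.symm (coe_ne_infty _)
  · exact absurd h (coe_ne_infty _)
  · rw [coe_eq_coe, div_eq_div_iff h1 h2] at h
    refine ⟨w 1 / v 1, ?_⟩
    ext i
    fin_cases i
    · simp; field_simp; linear_combination -h
    · simp [h1]

theorem scalar_eigen {m : GL (Fin 2) K} {v w : Fin 2 → K} {s u r k : K} (hv : v ≠ 0)
    (hw : ∀ d : K, w ≠ d • v) (hmv : (m : Matrix (Fin 2) (Fin 2) K) *ᵥ v = s • v)
    (hmw : (m : Matrix (Fin 2) (Fin 2) K) *ᵥ w = u • w + r • v) (hsk : s * k = 1) (huk : u = k * k)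
    {j : ℕ} (hj : pr m ^ j = 1) : k ^ (3 * j) = 1 := by
  have key : ∀ i : ℕ, ((m ^ i : GL (Fin 2) K) : Matrix (Fin 2) (Fin 2) K) *ᵥ v = s ^ i • v ∧
      ∃ r' : K, ((m ^ i : GL (Fin 2) K) : Matrix (Fin 2) (Fin 2) K) *ᵥ w = u ^ i • w + r' • v := by
    intro i
    induction i with
    | zero => exact ⟨by simp, 0, by simp⟩
    | succ i ih =>
      obtain ⟨h1, r', h2⟩ := ih
      refine ⟨?_, u ^ i * r + r' * s, ?_⟩
      · rw [pow_succ', Units.val_mul, ← Matrix.mulVec_mulVec, h1, Matrix.mulVec_smul, hmv, smul_smul, pow_succ]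
      · rw [pow_succ', Units.val_mul, ← Matrix.mulVec_mulVec, h2, Matrix.mulVec_add, Matrix.mulVec_smul,
          Matrix.mulVec_smul, hmv, hmw]
        ext i'
        simp [pow_succ]
        ring
  obtain ⟨h1, r', h2⟩ := key j
  rw [← map_pow] at hj
  obtain ⟨e01, e10, e00⟩ := pr_eq_one_iff.1 hj
  set c := (m ^ j : GL (Fin 2) K) 1 1
  have hsc : ∀ x : Fin 2 → K, ((m ^ j : GL (Fin 2) K) : Matrix (Fin 2) (Fin 2) K) *ᵥ x = c • x := by
    intro x
    ext i
    fin_cases i <;> simp [-Units.val_pow_eq_pow_val, Matrix.mulVec, dotProduct, Fin.sum_univ_two, e01, e10, e00, c]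
  rw [hsc] at h1 h2
  have hcs : c = s ^ j := by
    obtain ⟨i, hi⟩ := Function.ne_iff.1 hv
    have := congrFun h1 i
    simp at this
    exact this.resolve_right hi
  have hcu : c = u ^ j := by
    by_contra hne
    have h3 : (c - u ^ j) • w = r' • v := by rw [sub_smul, h2]; abel
    refine hw ((c - u ^ j)⁻¹ * r') ?_
    rw [← smul_smul, ← h3, smul_smul, inv_mul_cancel₀ (sub_ne_zero.2 hne), one_smul]
  calc k ^ (3 * j) = (k * k) ^ j * k ^ j := by rw [← mul_pow, pow_mul]; ring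
    _ = (s * k) ^ j := by rw [← huk, ← hcu, hcs, mul_pow]
    _ = 1 := by rw [hsk, one_pow]

end line

section proj

variable {F : Type*} [Field F] [Fintype F] (p : ℕ) [Fact p.Prime] [CharP F p]

theorem no_three (G : Subgroup (P2 F)) (hG : ¬ p ∣ Nat.card G) (h : Fin 3 → P2 F)
    (x : Fin 3 → OnePoint F) (hx : Function.Injective x) (hh : ∀ i, h i ∈ G)
    (hord : ∀ i, 6 ≤ orderOf (h i)) (hfix : ∀ i, h i • x i = x i) : False := by
  have := finite_P2 (F := F)
  have h1 : ∀ i, h i ≠ 1 := fun i e => by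
    have := hord i
    rw [e, orderOf_one] at this
    omega
  -- three elements in one torus
  have torus : ∀ a b : OnePoint (KK F), a ≠ b → (∀ i, h i ∈ T1 a b) → False := by
    intro a b hab hT
    have := charP_KK (F := F) p
    have hmem : ∀ i, ex (x i) = a ∨ ex (x i) = b := by
      intro i
      by_contra hne
      push Not at hne
      obtain ⟨ha, hb⟩ := mem_T1.1 (hT i)
      refine h1 i (iota_injective (a₂ := 1) ?_)
      rw [map_one]
      exact eq_one_of_fix₃ hne.1 hne.2 hab (by rw [iota_smul_ex, hfix]) ha hb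
    rcases hmem 0 with e0 | e0 <;> rcases hmem 1 with e1 | e1 <;> rcases hmem 2 with e2 | e2 <;>
      first
        | exact absurd (hx (ex_injective (e0.trans e1.symm))) (by decide)
        | exact absurd (hx (ex_injective (e0.trans e2.symm))) (by decide)
        | exact absurd (hx (ex_injective (e1.trans e2.symm))) (by decide)
  have hp' : ∀ g ∈ G, g ^ p = 1 → g = 1 := by
    intro g hg hgp
    by_contra hne
    exact hG (orderOf_eq_prime hgp hne ▸ Subgroup.orderOf_dvd_natCard G hg)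
  have hproj : ∀ (γ : P2 F) (L : Subfield F), PS L ≤ G.map (MulAut.conj γ).toMonoidHom → False := by
    intro γ L hle
    have hT : tra (1 : F) ∈ PS L :=
      ⟨⟨!![1, 1; 0, 1], by simp [det_fin_two]⟩, by
        refine congrArg pr (Units.ext ?_)
        ext i j
        fin_cases i <;> fin_cases j <;> rfl⟩
    obtain ⟨g, hg, hgt⟩ := hle hT
    have hgp : g ^ p = 1 := by
      apply (MulAut.conj γ).injective
      rw [map_pow, map_one]
      exact (congrArg (· ^ p) hgt).trans (tra_pow_char p 1)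
    rw [hp' g hg hgp, map_one] at hgt
    exact one_ne_zero (tra_injective (a₁ := (1 : F)) (a₂ := 0) (by rw [← hgt, tra_zero]))
  rcases subKind p G with ⟨x₀, hx₀⟩ | ⟨a, b, c, hc, hc1, hab, hle, -⟩ |
    ⟨a, b, c, hc, hc1, hab, hcab, hle, m, hm, hcord, hmc, ⟨e⟩⟩ | ⟨-, -, ⟨e⟩⟩ | ⟨-, -, ⟨e⟩⟩ | ⟨-, -, ⟨e⟩⟩ |
    ⟨γ, L, hL⟩ | ⟨γ, L, hL⟩
  · -- all elements fix `x₀`
    obtain ⟨χ, hχ⟩ := exists_chi p G x₀
    have hcomm : ∀ i j, Commute (h i) (h j) := by
      intro i j
      let gi : stabilizer G x₀ := ⟨⟨h i, hh i⟩, hx₀ _ (hh i)⟩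
      let gj : stabilizer G x₀ := ⟨⟨h j, hh j⟩, hx₀ _ (hh j)⟩
      have h2 := (hχ (gi * gj * gi⁻¹ * gj⁻¹)).1 (by simp [map_mul, map_inv, mul_comm (χ gi)])
      have h3 := hp' _ (((gi * gj * gi⁻¹ * gj⁻¹ : stabilizer G x₀) : G)).2 h2
      simp [gi, gj] at h3
      calc h i * h j = (h i * h j * (h i)⁻¹ * (h j)⁻¹) * (h j * h i) := by group
        _ = h j * h i := by rw [h3, one_mul]
    have key : ∀ i j, i ≠ j → x i ≠ x₀ → x j ≠ x₀ → False := by
      intro i j hij hi hj
      have := charP_KK (F := F) p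
      have e1 : h i • x j = x j := by
        have hfj : h j • (h i • x j) = h i • x j := by rw [← mul_smul, (hcomm j i).eq, mul_smul, hfix]
        have hne : h i • x j ≠ x₀ := fun e => hj (smul_left_cancel (h i) (e.trans (hx₀ _ (hh i)).symm))
        by_contra hne'
        refine h1 j (iota_injective (a₂ := 1) ?_)
        rw [map_one]
        exact eq_one_of_fix₃ (ex_injective.ne hne) (ex_injective.ne hne') (ex_injective.ne (Ne.symm hj))
          (by rw [iota_smul_ex, hfj]) (by rw [iota_smul_ex, hx₀ _ (hh j)]) (by rw [iota_smul_ex, hfix])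
      refine h1 i (iota_injective (a₂ := 1) ?_)
      rw [map_one]
      exact eq_one_of_fix₃ (ex_injective.ne hi) (ex_injective.ne (hx.ne hij)) (ex_injective.ne (Ne.symm hj))
        (by rw [iota_smul_ex, hfix]) (by rw [iota_smul_ex, hx₀ _ (hh i)]) (by rw [iota_smul_ex, e1])
    by_cases h0 : x 0 = x₀
    · exact key 1 2 (by decide) (fun e => absurd (hx (e.trans h0.symm)) (by decide))
        (fun e => absurd (hx (e.trans h0.symm)) (by decide))
    · by_cases h1' : x 1 = x₀
      · exact key 0 2 (by decide) h0 (fun e => absurd (hx (e.trans h1'.symm)) (by decide))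
      · exact key 0 1 (by decide) h0 h1'
  · exact torus a b hab fun i => hle (hh i)
  · refine torus a b hab fun i => ?_
    have hrot : ∀ g : DihedralGroup m, 3 ≤ orderOf g → ∃ r, g = DihedralGroup.r r := by
      rintro (r | r) hg
      · exact ⟨r, rfl⟩
      · rw [DihedralGroup.orderOf_sr] at hg; omega
    have hi : 3 ≤ orderOf (e ⟨h i, hh i⟩) := by
      rw [MulEquiv.orderOf_eq, Subgroup.orderOf_mk]; have := hord i; omega
    obtain ⟨r, hr⟩ := hrot _ hi
    have hm3 : 3 ≤ m := by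
      haveI : NeZero m := ⟨by omega⟩
      have := (hr ▸ hi).trans (Nat.le_of_dvd (by omega) (DihedralGroup.orderOf_r r ▸ Nat.div_dvd_of_dvd (Nat.gcd_dvd_left _ _)))
      exact this
    haveI : NeZero m := ⟨by omega⟩
    have hce : orderOf (e ⟨c, hc⟩) = m := by rw [MulEquiv.orderOf_eq, Subgroup.orderOf_mk, hcord]
    obtain ⟨s, hs⟩ := hrot _ (hce ▸ hm3)
    have hle' : Subgroup.zpowers (e ⟨c, hc⟩) ≤ Subgroup.zpowers (DihedralGroup.r (1 : ZMod m)) :=
      Subgroup.zpowers_le.mpr ⟨(s.val : ℤ), by simp [hs]⟩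
    have heq : Subgroup.zpowers (e ⟨c, hc⟩) = Subgroup.zpowers (DihedralGroup.r (1 : ZMod m)) :=
      Subgroup.eq_of_le_of_card_ge hle' (by
        rw [Nat.card_zpowers, Nat.card_zpowers, hce, DihedralGroup.orderOf_r_one])
    have hin : e ⟨h i, hh i⟩ ∈ Subgroup.zpowers (e ⟨c, hc⟩) := by
      rw [heq, hr]; exact ⟨(r.val : ℤ), by simp⟩
    obtain ⟨n, hn⟩ := hin
    have : (⟨c, hc⟩ : G) ^ n = ⟨h i, hh i⟩ := e.injective (by rw [map_zpow]; exact hn)
    have h2 : c ^ n = h i := congrArg Subtype.val this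
    exact h2 ▸ (T1 a b).zpow_mem hcab n
  · have key : ∀ g : alternatingGroup (Fin 4), orderOf g < 6 := by
      intro g
      have : g ^ 2 = 1 ∨ g ^ 3 = 1 := by revert g; decide +kernel
      rcases this with h | h <;> exact lt_of_le_of_lt (orderOf_le_of_pow_eq_one (by norm_num) h) (by norm_num)
    have := key (e ⟨h 0, hh 0⟩)
    rw [MulEquiv.orderOf_eq, Subgroup.orderOf_mk] at this
    have := hord 0
    omega
  · have key : ∀ g : Equiv.Perm (Fin 4), orderOf g < 6 := by
      intro g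
      have : g ^ 4 = 1 ∨ g ^ 3 = 1 := by revert g; decide +kernel
      rcases this with h | h <;> exact lt_of_le_of_lt (orderOf_le_of_pow_eq_one (by norm_num) h) (by norm_num)
    have := key (e ⟨h 0, hh 0⟩)
    rw [MulEquiv.orderOf_eq, Subgroup.orderOf_mk] at this
    have := hord 0
    omega
  · have key : ∀ g : alternatingGroup (Fin 5), orderOf g < 6 := by
      intro g
      have : g ^ 2 = 1 ∨ g ^ 3 = 1 ∨ g ^ 5 = 1 := by revert g; decide +kernel
      rcases this with h | h | h <;> exact lt_of_le_of_lt (orderOf_le_of_pow_eq_one (by norm_num) h) (by norm_num)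
    have := key (e ⟨h 0, hh 0⟩)
    rw [MulEquiv.orderOf_eq, Subgroup.orderOf_mk] at this
    have := hord 0
    omega
  · exact hproj γ L (hL ▸ PS_le_PL L)
  · exact hproj γ L hL.ge

end proj

variable {p : ℕ} [Fact p.Prime]

/-- Coordinates on a group of order `p²` and exponent `p`. -/
theorem exists_coord {H : Type*} [Group H] [Finite H] (hcard : Nat.card H = p ^ 2) (hexp : ∀ x : H, x ^ p = 1)
    {a b : H} (ha : a ≠ 1) (hb : b ∉ Subgroup.zpowers a) :
    ∃ e : H ≃* Multiplicative (Fin 2 → ZMod p), e a = Multiplicative.ofAdd ![1, 0] ∧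
      e b = Multiplicative.ofAdd ![0, 1] := by
  have hcomm := IsPGroup.commutative_of_card_eq_prime_sq hcard
  have hpow : ∀ (x : H) (i j : ZMod p), x ^ (i + j).val = x ^ i.val * x ^ j.val := by
    intro x i j
    rw [ZMod.val_add, ← pow_add]
    exact (pow_eq_pow_mod _ (hexp x)).symm
  let f : Multiplicative (Fin 2 → ZMod p) →* H :=
    { toFun := fun v => a ^ (Multiplicative.toAdd v 0).val * b ^ (Multiplicative.toAdd v 1).val
      map_one' := by simp
      map_mul' := fun v w => by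
        simp only [toAdd_mul, Pi.add_apply, hpow]
        exact Commute.mul_mul_mul_comm (hcomm _ _) _ _ }
  haveI : Fact (1 < p) := ⟨(Fact.out : p.Prime).one_lt⟩
  have hfa : f (Multiplicative.ofAdd ![1, 0]) = a := by
    show a ^ (1 : ZMod p).val * b ^ (0 : ZMod p).val = a
    simp [ZMod.val_one]
  have hfb : f (Multiplicative.ofAdd ![0, 1]) = b := by
    show a ^ (0 : ZMod p).val * b ^ (1 : ZMod p).val = b
    simp [ZMod.val_one]
  have hsurj : Function.Surjective f := by
    rw [← MonoidHom.range_eq_top, eq_top_iff, ← sup_zpowers_eq_top hcard hexp ha hb]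
    exact sup_le (Subgroup.zpowers_le.mpr ⟨_, hfa⟩) (Subgroup.zpowers_le.mpr ⟨_, hfb⟩)
  have hbij : Function.Bijective f := (Nat.bijective_iff_surjective_and_card f).2 ⟨hsurj, by
    rw [hcard, Nat.card_congr Multiplicative.toAdd, Nat.card_pi]
    simp [sq]⟩
  refine ⟨(MulEquiv.ofBijective f hbij).symm, ?_, ?_⟩ <;> rw [MulEquiv.symm_apply_eq]
  · exact hfa.symm
  · exact hfb.symm

/-- The matrices of the automorphisms in coordinates. -/
theorem exists_matHom {H : Type*} [Group H] (e : H ≃* Multiplicative (Fin 2 → ZMod p)) :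
    ∃ ψ : MulAut H →* GL (Fin 2) (ZMod p), ∀ (σ : MulAut H) (x : H),
      Multiplicative.toAdd (e (σ x)) = (ψ σ : Matrix (Fin 2) (Fin 2) (ZMod p)) *ᵥ Multiplicative.toAdd (e x) := by
  let L : MulAut H → ((Fin 2 → ZMod p) →ₗ[ZMod p] (Fin 2 → ZMod p)) := fun σ =>
    (AddMonoidHom.mk' (fun v => Multiplicative.toAdd (e (σ (e.symm (Multiplicative.ofAdd v)))))
      (fun v w => by simp) : (Fin 2 → ZMod p) →+ (Fin 2 → ZMod p)).toZModLinearMap p
  have hL : ∀ σ x, L σ (Multiplicative.toAdd (e x)) = Multiplicative.toAdd (e (σ x)) := fun σ x => by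
    show Multiplicative.toAdd (e (σ (e.symm (Multiplicative.ofAdd (Multiplicative.toAdd (e x)))))) = _
    rw [ofAdd_toAdd, e.symm_apply_apply]
  let M : MulAut H →* Matrix (Fin 2) (Fin 2) (ZMod p) :=
    { toFun := fun σ => LinearMap.toMatrix' (L σ)
      map_one' := by
        have : L 1 = LinearMap.id := LinearMap.ext fun v => by
          obtain ⟨x, rfl⟩ : ∃ x, Multiplicative.toAdd (e x) = v := ⟨e.symm (Multiplicative.ofAdd v), by simp⟩
          rw [hL]; rfl
        rw [this, LinearMap.toMatrix'_id]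
      map_mul' := fun σ τ => by
        rw [← LinearMap.toMatrix'_comp]
        congr 1
        refine LinearMap.ext fun v => ?_
        obtain ⟨x, rfl⟩ : ∃ x, Multiplicative.toAdd (e x) = v := ⟨e.symm (Multiplicative.ofAdd v), by simp⟩
        rw [LinearMap.comp_apply, hL, hL, hL]; rfl }
  refine ⟨M.toHomUnits, fun σ x => ?_⟩
  show _ = LinearMap.toMatrix' (L σ) *ᵥ _
  rw [LinearMap.toMatrix'_mulVec, hL]

/-- The elements of `N(P) ∩ N(A)` inducing a diagonal automorphism. -/
theorem exists_elt {G : Type*} [Group G] [Finite G] (P : Sylow p G) (hcard : Nat.card P = p ^ 3)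
    (hexp : ∀ w : ↥(P : Subgroup G), w ^ p = 1) (hH : Heis p ↥(P : Subgroup G))
    (A : Subgroup G) (hAP : A ≤ (P : Subgroup G)) (hAcard : Nat.card ↥A = p ^ 2)
    (hSL : ∀ φ : MulAut ↥A, orderOf φ = p → ∃ g : G, ∀ a : ↥A, (φ a : G) = g * (a : G) * g⁻¹)
    (κ μ : ℤ) (hκμ : (p : ℤ) ∣ κ * μ - 1) :
    ∃ (n : G) (a b z : ↥(P : Subgroup G)) (u r r' : ℤ), n ∈ Subgroup.normalizer ((P : Subgroup G) : Set G) ∧
      (a : G) ∈ A ∧ z ∈ Subgroup.center ↥(P : Subgroup G) ∧
      (QuotientGroup.mk a : ↥(P : Subgroup G) ⧸ Subgroup.center ↥(P : Subgroup G)) ≠ 1 ∧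
      (QuotientGroup.mk b : ↥(P : Subgroup G) ⧸ Subgroup.center ↥(P : Subgroup G)) ∉ Subgroup.zpowers (QuotientGroup.mk a) ∧
      n * (a : G) * n⁻¹ = (a : G) ^ μ * (z : G) ^ r ∧
      n * (b : G) * n⁻¹ = (a : G) ^ r' * (z : G) ^ (u - r') * (b : G) ^ (κ * κ) ∧
      True := by
  classical
  haveI := hH.fin
  have hpr : p.Prime := Fact.out
  have hAexp : ∀ x : ↥A, x ^ p = 1 := fun x => Subtype.ext (by
    have := congrArg Subtype.val (hexp ⟨x, hAP x.2⟩)
    simpa using this)
  have hAcomm := IsPGroup.commutative_of_card_eq_prime_sq hAcard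
  have hAc : ∀ x ∈ A, ∀ y ∈ A, x * y = y * x := fun x hx y hy =>
    congrArg Subtype.val (hAcomm (⟨x, hx⟩ : ↥A) ⟨y, hy⟩)
  set Z := Subgroup.center ↥(P : Subgroup G) with hZdef
  have hVc := IsPGroup.commutative_of_card_eq_prime_sq hH.cardV
  -- `A` contains the centre
  have hZA : ∀ c ∈ Z, ((c : ↥(P : Subgroup G)) : G) ∈ A := by
    intro c hc
    by_contra hcA
    set B := A.subgroupOf (P : Subgroup G) ⊔ Subgroup.zpowers c with hB
    have hBcard : Nat.card ↥B = p ^ 3 := by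
      obtain ⟨k, hk, hk'⟩ := (Nat.dvd_prime_pow hpr).1 ((Subgroup.card_subgroup_dvd_card B).trans hcard.dvd)
      have hlt : A.subgroupOf (P : Subgroup G) < B := lt_of_le_of_ne le_sup_left fun e => hcA
        (Subgroup.mem_subgroupOf.1 (e.symm ▸ Subgroup.mem_sup_right (Subgroup.mem_zpowers c)))
      have h2 : p ^ 2 < Nat.card ↥B := by
        rw [← hAcard, ← Nat.card_congr (Subgroup.subgroupOfEquivOfLe hAP).toEquiv]
        exact lt_of_not_ge fun h => hlt.ne (Subgroup.eq_of_le_of_card_ge hlt.le h)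
      rw [hk'] at h2
      have := (Nat.pow_lt_pow_iff_right hpr.one_lt).1 h2
      rw [hk', show k = 3 by omega]
    have hBtop : B = ⊤ := Subgroup.eq_top_of_card_eq B (by rw [hBcard]; exact hcard.symm)
    have hle : A.subgroupOf (P : Subgroup G) ≤ Z := by
      intro a ha
      have hle' : B ≤ Subgroup.centralizer {a} := sup_le
        (fun y hy => Subgroup.mem_centralizer_iff.2 fun w hw => by
          rw [Set.mem_singleton_iff.mp hw]
          exact Subtype.ext (hAc _ (Subgroup.mem_subgroupOf.1 ha) _ (Subgroup.mem_subgroupOf.1 hy)))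
        (Subgroup.zpowers_le.mpr (Subgroup.mem_centralizer_iff.2 fun w hw => by
          rw [Set.mem_singleton_iff.mp hw]; exact Subgroup.mem_center_iff.1 hc a))
      refine Subgroup.mem_center_iff.2 fun y => ?_
      exact ((Subgroup.mem_centralizer_iff.1 (hle' (hBtop ▸ Subgroup.mem_top y))) a rfl).symm
    have hh := Subgroup.card_le_of_le hle
    rw [Nat.card_congr (Subgroup.subgroupOfEquivOfLe hAP).toEquiv, hAcard, hH.cardZ] at hh
    have h3 : p ^ 1 < p ^ 2 := Nat.pow_lt_pow_right hpr.one_lt (by norm_num)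
    rw [pow_one] at h3
    omega
  obtain ⟨b, hb⟩ : ∃ b : ↥(P : Subgroup G), (b : G) ∉ A := by
    by_contra h
    push Not at h
    have hh := Subgroup.card_le_of_le (fun x hx => h ⟨x, hx⟩ : (P : Subgroup G) ≤ A)
    rw [hAcard, hcard] at hh
    have : p ^ 2 < p ^ 3 := Nat.pow_lt_pow_right hpr.one_lt (by norm_num)
    omega
  have hPn : ∀ x : ↥(P : Subgroup G), (x : G) ∈ Subgroup.normalizer (A : Set G) := by
    intro x
    have h0 : ∀ (x : ↥(P : Subgroup G)) (w : G), w ∈ A → (x : G) * w * (x : G)⁻¹ ∈ A := by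
      intro x w hw
      have hz : (x * ⟨w, hAP hw⟩ * x⁻¹ * (⟨w, hAP hw⟩ : ↥(P : Subgroup G))⁻¹) ∈ Z := by
        rw [← QuotientGroup.eq_one_iff]
        simp only [QuotientGroup.mk_mul, QuotientGroup.mk_inv]
        rw [hVc (QuotientGroup.mk x : ↥(P : Subgroup G) ⧸ Z)]
        group
      have h2 := A.mul_mem (hZA _ hz) hw
      simpa [mul_assoc] using h2
    refine Subgroup.mem_normalizer_iff.2 fun w => ⟨h0 x w, fun hw => ?_⟩
    simpa [mul_assoc] using h0 x⁻¹ _ hw
  set NA := Subgroup.normalizer (A : Set G)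
  set conjA : ↥NA →* MulAut ↥A := A.normalizerMonoidHom with hconjA
  have hconj : ∀ (g : ↥NA) (w : ↥A), (conjA g w : G) = (g : G) * w * (g : G)⁻¹ := fun g w => rfl
  set X := conjA.range with hX
  have hreal : ∀ φ : MulAut ↥A, orderOf φ = p → φ ∈ X := by
    intro φ hφ
    obtain ⟨g, hg⟩ := hSL φ hφ
    have hgN : g ∈ NA := Subgroup.mem_normalizer_iff.2 fun w => by
      refine ⟨fun hw => ?_, fun hw => ?_⟩
      · have := hg ⟨w, hw⟩
        rw [show ((⟨w, hw⟩ : ↥A) : G) = w from rfl] at this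
        exact this ▸ (φ ⟨w, hw⟩).2
      · obtain ⟨y, hy⟩ := φ.surjective ⟨_, hw⟩
        have := hg y
        rw [hy] at this
        exact (mul_left_cancel (mul_right_cancel this) : w = (y : G)) ▸ y.2
    exact ⟨⟨g, hgN⟩, MulEquiv.ext fun w => Subtype.ext (hg w).symm⟩
  set t := conjA ⟨b, hPn b⟩ with htdef
  have htp : t ^ p = 1 := by
    rw [htdef, ← map_pow]
    convert map_one conjA
    exact Subtype.ext (by simpa using congrArg Subtype.val (hexp b))
  -- `P = A⟨b⟩`
  set B := A.subgroupOf (P : Subgroup G) ⊔ Subgroup.zpowers b with hB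
  have hBtop : B = ⊤ := by
    obtain ⟨k, hk, hk'⟩ := (Nat.dvd_prime_pow hpr).1 ((Subgroup.card_subgroup_dvd_card B).trans hcard.dvd)
    have hlt : A.subgroupOf (P : Subgroup G) < B := lt_of_le_of_ne le_sup_left fun e => hb
      (Subgroup.mem_subgroupOf.1 (e.symm ▸ Subgroup.mem_sup_right (Subgroup.mem_zpowers b)))
    have h2 : p ^ 2 < Nat.card ↥B := by
      rw [← hAcard, ← Nat.card_congr (Subgroup.subgroupOfEquivOfLe hAP).toEquiv]
      exact lt_of_not_ge fun h => hlt.ne (Subgroup.eq_of_le_of_card_ge hlt.le h)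
    rw [hk'] at h2
    have := (Nat.pow_lt_pow_iff_right hpr.one_lt).1 h2
    refine Subgroup.eq_top_of_card_eq B ?_
    rw [hk', show k = 3 by omega]; exact hcard.symm
  have hcent : ∀ w : ↥(P : Subgroup G), (w : G) ∈ A → b * w = w * b → w ∈ Z := by
    intro w hw hbw
    have hle : B ≤ Subgroup.centralizer {w} := sup_le
      (fun y hy => Subgroup.mem_centralizer_iff.2 fun w' hw' => by
        rw [Set.mem_singleton_iff.mp hw']
        exact Subtype.ext (hAc _ hw _ (Subgroup.mem_subgroupOf.1 hy)))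
      (Subgroup.zpowers_le.mpr (Subgroup.mem_centralizer_iff.2 fun w' hw' => by
        rw [Set.mem_singleton_iff.mp hw']; exact hbw.symm))
    exact Subgroup.mem_center_iff.2 fun y =>
      ((Subgroup.mem_centralizer_iff.1 (hle (hBtop ▸ Subgroup.mem_top y))) w rfl).symm
  have ht1 : t ≠ 1 := by
    intro h
    have hall : A.subgroupOf (P : Subgroup G) ≤ Z := fun w hw => by
      refine hcent w (Subgroup.mem_subgroupOf.1 hw) (Subtype.ext ?_)
      have h2 := congrArg Subtype.val (DFunLike.congr_fun h ⟨(w : G), Subgroup.mem_subgroupOf.1 hw⟩)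
      rw [htdef] at h2
      exact mul_inv_eq_iff_eq_mul.1 h2
    have hh := Subgroup.card_le_of_le hall
    rw [Nat.card_congr (Subgroup.subgroupOfEquivOfLe hAP).toEquiv, hAcard, hH.cardZ] at hh
    have h3 : p ^ 1 < p ^ 2 := Nat.pow_lt_pow_right hpr.one_lt (by norm_num)
    rw [pow_one] at h3
    omega
  haveI : Finite (MulAut ↥A) := Finite.of_injective (fun α : MulAut ↥A => (α : ↥A → ↥A)) DFunLike.coe_injective
  have hto : orderOf t = p := orderOf_eq_prime htp ht1
  -- a second automorphism of order `p`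
  obtain ⟨c₀, hc₀, hc₀1⟩ : ∃ c₀ : ↥A, t c₀ = c₀ ∧ c₀ ≠ 1 := by
    haveI : Nontrivial ↥Z := Finite.one_lt_card_iff_nontrivial.mp (hpr.one_lt.trans_eq hH.cardZ.symm)
    obtain ⟨c, hc⟩ := exists_ne (1 : ↥Z)
    refine ⟨⟨((c : ↥(P : Subgroup G)) : G), hZA _ c.2⟩, Subtype.ext ?_,
      fun h => hc (Subtype.ext (Subtype.ext (congrArg (fun y : ↥A => (y : G)) h)))⟩
    rw [htdef, hconj]
    exact mul_inv_eq_iff_eq_mul.2 (congrArg Subtype.val (Subgroup.mem_center_iff.1 c.2 b))
  obtain ⟨d₀, hd₀⟩ : ∃ d₀ : ↥A, d₀ ∉ Subgroup.zpowers c₀ := by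
    by_contra h
    push Not at h
    have hh := Subgroup.card_le_of_le (fun x _ => h x : (⊤ : Subgroup ↥A) ≤ Subgroup.zpowers c₀)
    rw [Subgroup.card_top, hAcard, Nat.card_zpowers, orderOf_eq_prime (hAexp c₀) hc₀1] at hh
    have h3 : p ^ 1 < p ^ 2 := Nat.pow_lt_pow_right hpr.one_lt (by norm_num)
    rw [pow_one] at h3
    omega
  have hd₀1 : d₀ ≠ 1 := fun h => hd₀ (h ▸ one_mem _)
  have hc₀d : c₀ ∉ Subgroup.zpowers d₀ := by
    intro h
    haveI : Fact (Nat.card ↥(Subgroup.zpowers d₀)).Prime :=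
      ⟨by rw [Nat.card_zpowers, orderOf_eq_prime (hAexp d₀) hd₀1]; exact hpr⟩
    have heq : Subgroup.zpowers c₀ = Subgroup.zpowers d₀ :=
      Subgroup.eq_of_le_of_card_ge (Subgroup.zpowers_le.mpr h) (by
        rw [Nat.card_zpowers, Nat.card_zpowers, orderOf_eq_prime (hAexp d₀) hd₀1, orderOf_eq_prime (hAexp c₀) hc₀1])
    exact hd₀ (heq ▸ Subgroup.mem_zpowers d₀)
  obtain ⟨e₁, he₁c, he₁d⟩ := exists_coord hAcard hAexp hc₀1 hd₀
  obtain ⟨e₂, he₂d, he₂c⟩ := exists_coord hAcard hAexp hd₀1 hc₀d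
  set σ : MulAut ↥A := e₁.trans e₂.symm with hσ
  have hσc : σ c₀ = d₀ := by
    show e₂.symm (e₁ c₀) = d₀
    rw [he₁c, ← he₂d, e₂.symm_apply_apply]
  have hyp : orderOf (σ * t * σ⁻¹) = p := by
    rw [← MulAut.conj_apply]
    exact (orderOf_injective (MulAut.conj σ).toMonoidHom (MulAut.conj σ).injective t).trans hto
  have hyt : σ * t * σ⁻¹ ∉ Subgroup.zpowers t := by
    intro h
    have hfix : ∀ w ∈ Subgroup.zpowers t, w c₀ = c₀ := by
      intro w hw
      have hst : Subgroup.zpowers t ≤ MulAction.stabilizer (MulAut ↥A) c₀ :=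
        Subgroup.zpowers_le.mpr (show t • c₀ = c₀ from hc₀)
      exact hst hw
    have hfd : (σ * t * σ⁻¹) d₀ = d₀ := by
      rw [MulAut.mul_apply, MulAut.mul_apply, MulAut.inv_def, ← hσc, MulEquiv.symm_apply_apply, hc₀]
    have hfc := hfix _ h
    have : σ * t * σ⁻¹ = 1 := by
      refine MulEquiv.ext fun w => ?_
      have htop := sup_zpowers_eq_top hAcard hAexp hc₀1 hd₀
      have hle : Subgroup.zpowers c₀ ⊔ Subgroup.zpowers d₀ ≤
          (σ * t * σ⁻¹ : MulAut ↥A).toMonoidHom.eqLocus (MonoidHom.id ↥A) :=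
        sup_le (Subgroup.zpowers_le.mpr hfc) (Subgroup.zpowers_le.mpr hfd)
      exact hle (htop ▸ Subgroup.mem_top w)
    rw [this, orderOf_one] at hyp
    exact hpr.one_lt.ne hyp
  obtain ⟨z, a, hz1, haz, htz, hta, -, hall⟩ := exists_diag hAcard hAexp (X := X)
    ⟨_, rfl⟩ (hreal _ hyp) (IsPGroup.iff_card.2 ⟨1, by rw [Nat.card_zpowers, hto, pow_one]⟩)
    (IsPGroup.iff_card.2 ⟨1, by rw [Nat.card_zpowers, hyp, pow_one]⟩) ht1 hyt
  obtain ⟨φ, ⟨g, rfl⟩, hgz, hga, hgt⟩ := hall κ μ hκμ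
  set zP : ↥(P : Subgroup G) := ⟨z, hAP z.2⟩ with hzP
  set aP : ↥(P : Subgroup G) := ⟨a, hAP a.2⟩ with haP
  have hbz : (b : G) * z = z * b := mul_inv_eq_iff_eq_mul.1 (congrArg Subtype.val htz)
  have hzZ : zP ∈ Z := hcent zP z.2 (Subtype.ext hbz)
  have hba : (b : G) * a * (b : G)⁻¹ = (a : G) * z := congrArg Subtype.val hta
  have hcz : Commute (z : G) a := hAc _ z.2 _ a.2
  have hconjb : ∀ i j : ℤ, (b : G) ^ i * (a : G) ^ j * ((b : G) ^ i)⁻¹ = (a : G) ^ j * (z : G) ^ (i * j) :=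
    conj_zpow_zpow hba (show Commute (z : G) (b : G) from hbz.symm) hcz
  -- fix the Sylow subgroup
  set KG : Subgroup G := ((Subgroup.zpowers t).comap conjA).map NA.subtype with hKG
  have hPK : (P : Subgroup G) ≤ KG := by
    intro w hw
    refine ⟨⟨w, hPn ⟨w, hw⟩⟩, ?_, rfl⟩
    have hle : B ≤ ((Subgroup.zpowers t).comap conjA).comap
        (Subgroup.inclusion (fun x hx => hPn ⟨x, hx⟩ : (P : Subgroup G) ≤ NA)) := sup_le
      (fun y hy => by
        rw [Subgroup.mem_comap, Subgroup.mem_comap]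
        convert one_mem (Subgroup.zpowers t)
        refine MulEquiv.ext fun v => Subtype.ext ?_
        rw [hconj]
        exact mul_inv_eq_iff_eq_mul.2 (hAc _ (Subgroup.mem_subgroupOf.1 hy) _ v.2))
      (Subgroup.zpowers_le.mpr (Subgroup.mem_zpowers t))
    exact hle (hBtop ▸ Subgroup.mem_top (⟨w, hw⟩ : ↥(P : Subgroup G)))
  have hgK : ((((g : G)) • P : Sylow p G) : Subgroup G) ≤ KG := by
    rw [Sylow.coe_subgroup_smul]
    rintro _ ⟨w, hw, rfl⟩
    obtain ⟨w', hw', rfl⟩ := hPK hw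
    refine ⟨g * w' * g⁻¹, ?_, rfl⟩
    obtain ⟨i, hi⟩ := Subgroup.mem_zpowers_iff.1 hw'
    refine Subgroup.mem_zpowers_iff.2 ⟨(κ * κ) * i, ?_⟩
    rw [map_mul, map_mul, map_inv, ← hi, _root_.zpow_mul, ← hgt, conj_zpow]
  obtain ⟨⟨x, hxK⟩, hx⟩ := MulAction.exists_smul_eq ↥KG (((g : G) • P).subtype hgK) (P.subtype hPK)
  rw [Sylow.smul_subtype] at hx
  have hx' : x • ((g : G) • P) = P := Sylow.subtype_injective hx
  rw [← mul_smul] at hx'
  obtain ⟨x', hx1, rfl⟩ := hxK
  obtain ⟨i, hi⟩ := Subgroup.mem_zpowers_iff.1 hx1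
  have hxw : ∀ w : ↥A, (x' : G) * (w : G) * (x' : G)⁻¹ = (b : G) ^ i * (w : G) * ((b : G) ^ i)⁻¹ := by
    intro w
    rw [← hconj, ← hi, htdef, ← map_zpow, hconj]
    simp
  set n := (x' : G) * (g : G) with hn
  have hnN : n ∈ Subgroup.normalizer ((P : Subgroup G) : Set G) := Sylow.smul_eq_iff_mem_normalizer.1 hx'
  have hna : n * (a : G) * n⁻¹ = (a : G) ^ μ * (z : G) ^ (i * μ) := by
    have h1 : (g : G) * (a : G) * (g : G)⁻¹ = (a : G) ^ μ := congrArg Subtype.val hga
    calc n * (a : G) * n⁻¹ = (x' : G) * ((a ^ μ : ↥A) : G) * (x' : G)⁻¹ := by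
          rw [hn, SubgroupClass.coe_zpow, ← h1]; group
      _ = _ := by rw [hxw, SubgroupClass.coe_zpow, hconjb]
  have hnz : n * (z : G) * n⁻¹ = (z : G) ^ κ := by
    have h1 : (g : G) * (z : G) * (g : G)⁻¹ = (z : G) ^ κ := congrArg Subtype.val hgz
    calc n * (z : G) * n⁻¹ = (x' : G) * ((z ^ κ : ↥A) : G) * (x' : G)⁻¹ := by
          rw [hn, SubgroupClass.coe_zpow, ← h1]; group
      _ = _ := by
        rw [hxw, SubgroupClass.coe_zpow,
          (((show Commute (b : G) z from hbz).zpow_left i).zpow_right κ).eq, mul_inv_cancel_right]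
  -- the action on `b`
  have hnb : (⟨n * (b : G) * n⁻¹, (Subgroup.mem_normalizer_iff.1 hnN _).1 b.2⟩ : ↥(P : Subgroup G)) ∈ B :=
    hBtop ▸ Subgroup.mem_top _
  have hbn : Subgroup.zpowers b ≤ Subgroup.normalizer ((A.subgroupOf (P : Subgroup G)) : Set ↥(P : Subgroup G)) := by
    refine Subgroup.zpowers_le.mpr (Subgroup.mem_normalizer_iff.2 fun w => ?_)
    simp only [Subgroup.mem_subgroupOf]
    exact Subgroup.mem_normalizer_iff.1 (hPn b) (w : G)
  rw [hB, ← SetLike.mem_coe, Subgroup.coe_mul_of_right_le_normalizer_left _ _ hbn] at hnb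
  obtain ⟨α, hα, β, hβ, hαβ⟩ := hnb
  obtain ⟨u, rfl⟩ := Subgroup.mem_zpowers_iff.1 hβ
  have hαA : (α : G) ∈ A := Subgroup.mem_subgroupOf.1 hα
  have hnb' : n * (b : G) * n⁻¹ = (α : G) * (b : G) ^ u := by
    have := congrArg Subtype.val hαβ
    simpa using this.symm
  have huk : (p : ℤ) ∣ u * μ - κ := by
    have h1 : n * ((b : G) * a * (b : G)⁻¹) * n⁻¹ = (a : G) ^ μ * (z : G) ^ (i * μ) * (z : G) ^ κ := by
      rw [hba, ← hna, ← hnz]; group
    have h2 : n * ((b : G) * a * (b : G)⁻¹) * n⁻¹ =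
        (α : G) * ((b : G) ^ u * ((a : G) ^ μ * (z : G) ^ (i * μ)) * ((b : G) ^ u)⁻¹) * (α : G)⁻¹ := by
      calc n * ((b : G) * a * (b : G)⁻¹) * n⁻¹ =
          (n * (b : G) * n⁻¹) * (n * (a : G) * n⁻¹) * (n * (b : G) * n⁻¹)⁻¹ := by group
        _ = _ := by rw [hnb', hna]; group
    have h3 : (b : G) ^ u * ((a : G) ^ μ * (z : G) ^ (i * μ)) * ((b : G) ^ u)⁻¹ =
        (a : G) ^ μ * (z : G) ^ (u * μ) * (z : G) ^ (i * μ) := by
      have hc : Commute ((b : G) ^ u) ((z : G) ^ (i * μ)) := ((show Commute (b : G) z from hbz).zpow_left u).zpow_right _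
      rw [← hconjb u μ, mul_assoc _ ((b : G) ^ u)⁻¹, hc.inv_left.eq]
      group
    have hmemA : (a : G) ^ μ * (z : G) ^ (u * μ) * (z : G) ^ (i * μ) ∈ A :=
      A.mul_mem (A.mul_mem (A.zpow_mem a.2 _) (A.zpow_mem z.2 _)) (A.zpow_mem z.2 _)
    rw [h3, hAc _ hαA _ hmemA, mul_inv_cancel_right, h1, mul_assoc, mul_assoc, ← _root_.zpow_add, ← _root_.zpow_add] at h2
    have h4 := mul_left_cancel h2
    have hzo : orderOf (z : G) = p := by rw [Subgroup.orderOf_coe, orderOf_eq_prime (hAexp z) hz1]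
    rw [zpow_eq_zpow_iff_modEq, hzo, Int.modEq_iff_dvd] at h4
    have : u * μ - κ = u * μ + i * μ - (i * μ + κ) := by ring
    rw [this]; exact h4
  have hu2 : (p : ℤ) ∣ u - κ * κ := by
    have : u - κ * κ = κ * (u * μ - κ) - u * (κ * μ - 1) := by ring
    rw [this]; exact dvd_sub (huk.mul_left _) (hκμ.mul_left _)
  have hbu : (b : G) ^ u = (b : G) ^ (κ * κ) :=
    CfsgLib.RankTwoResistant.zpow_congr (by simpa using congrArg Subtype.val (hexp b)) hu2
  -- decompose `α`
  have hαd : α ∈ (Subgroup.zpowers aP ⊔ Subgroup.zpowers zP) := by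
    have htop := sup_zpowers_eq_top hAcard hAexp hz1 haz
    have := congrArg (Subgroup.map (Subgroup.inclusion hAP)) htop
    rw [Subgroup.map_sup, MonoidHom.map_zpowers, MonoidHom.map_zpowers] at this
    rw [sup_comm]
    show α ∈ Subgroup.zpowers (Subgroup.inclusion hAP z) ⊔ Subgroup.zpowers (Subgroup.inclusion hAP a)
    rw [this]
    exact ⟨⟨_, hαA⟩, Subgroup.mem_top _, rfl⟩
  have hzn : Subgroup.zpowers aP ≤ Subgroup.normalizer ((Subgroup.zpowers zP) : Set ↥(P : Subgroup G)) := by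
    refine Subgroup.zpowers_le.mpr (Subgroup.centralizer_le_normalizer _ (Subgroup.mem_centralizer_iff.2 ?_))
    intro w hw
    obtain ⟨k, rfl⟩ := Subgroup.mem_zpowers_iff.1 hw
    exact (Subgroup.mem_center_iff.1 (Subgroup.zpow_mem _ hzZ k) aP).symm
  rw [← SetLike.mem_coe, Subgroup.coe_mul_of_left_le_normalizer_right _ _ hzn] at hαd
  obtain ⟨α₁, hα₁, α₂, hα₂, rfl⟩ := hαd
  obtain ⟨r', rfl⟩ := Subgroup.mem_zpowers_iff.1 hα₁
  obtain ⟨w, rfl⟩ := Subgroup.mem_zpowers_iff.1 hα₂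
  refine ⟨n, aP, b, zP, r' + w, i * μ, r', hnN, a.2, hzZ, ?_, ?_, hna, ?_, trivial⟩
  · intro h
    have haZ : aP ∈ Z := (QuotientGroup.eq_one_iff aP).1 h
    have h2 : (b : G) * a = a * b := congrArg Subtype.val (Subgroup.mem_center_iff.1 haZ b)
    rw [h2, mul_inv_cancel_right, left_eq_mul] at hba
    exact hz1 (Subtype.ext hba)
  · intro h
    obtain ⟨k, hk⟩ := Subgroup.mem_zpowers_iff.1 h
    rw [← QuotientGroup.mk_zpow, QuotientGroup.eq] at hk
    have := A.mul_mem (A.zpow_mem a.2 k) (hZA _ hk)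
    simp [haP] at this
    exact hb this
  · rw [hnb', hbu]
    simp [haP, hzP]

/-- Let p be an odd prime and G a finite group with a Sylow p-subgroup P that is extraspecial of order p³ and exponent p. Suppose P contains three distinct subgroups A of order p² (each is elementary abelian of rank 2) such that every automorphism of A of order p is induced by conjugation by an element of G; equivalently the automorphism group induced on A by its normalizer contains the special linear group of A. Then p ≤ 13. -/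
theorem result {G : Type*} [Group G] [Finite G]
    {p : ℕ} [Fact p.Prime] (hp : p ≠ 2) (P : Sylow p G) (hE : Cfsg.IsExtraspecial p ↥P)
    (hcard : Nat.card P = p ^ 3) (hexp : Monoid.exponent ↥P = p)
    (A : Fin 3 → Subgroup G) (hA : Function.Injective A) (hAP : ∀ i, A i ≤ (P : Subgroup G))
    (hAcard : ∀ i, Nat.card ↥(A i) = p ^ 2)
    (hSL : ∀ i, ∀ φ : MulAut ↥(A i), orderOf φ = p → ∃ g : G, ∀ a : ↥(A i), (φ a : G) = g * (a : G) * g⁻¹) :
    p ≤ 13 := by
  classical
  have hpr : p.Prime := Fact.out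
  haveI := finite_P2 (F := ZMod p)
  by_contra hp13
  push Not at hp13
  have hp17 : 17 ≤ p := by
    by_contra h
    push Not at h
    interval_cases p <;> revert hpr <;> norm_num
  have hexp' : ∀ w : ↥(P : Subgroup G), w ^ p = 1 := fun w => by
    have h := Monoid.pow_exponent_eq_one w
    exact (congrArg (w ^ ·) hexp.symm).trans h
  have hncP : ¬ IsMulCommutative ↥(P : Subgroup G) := by
    intro hc
    have h1 : Subgroup.center ↥(P : Subgroup G) = ⊤ :=
      eq_top_iff.2 fun x _ => Subgroup.mem_center_iff.2 fun y => hc.is_comm.comm y x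
    have h2 : Nat.card ↥(Subgroup.center ↥(P : Subgroup G)) = p := hE.2
    rw [h1, Subgroup.card_top, hcard] at h2
    have : p ^ 1 < p ^ 3 := Nat.pow_lt_pow_right hpr.one_lt (by norm_num)
    rw [pow_one] at this
    omega
  have hH := heis hexp' hcard hncP
  haveI := hH.fin
  obtain ⟨kU, hkU⟩ := IsCyclic.exists_generator (α := (ZMod p)ˣ)
  have hkord : orderOf kU = p - 1 := by
    rw [orderOf_eq_card_of_forall_mem_zpowers hkU, Nat.card_eq_fintype_card, ZMod.card_units p]
  set κ : ℤ := ((kU : ZMod p).val : ℤ) with hκdef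
  set μ : ℤ := (((kU⁻¹ : (ZMod p)ˣ) : ZMod p).val : ℤ) with hμdef
  have hκc : (κ : ZMod p) = kU := by rw [hκdef, Int.cast_natCast, ZMod.natCast_zmod_val]
  have hμc : (μ : ZMod p) = ((kU⁻¹ : (ZMod p)ˣ) : ZMod p) := by rw [hμdef, Int.cast_natCast, ZMod.natCast_zmod_val]
  have hκμ : (p : ℤ) ∣ κ * μ - 1 := by
    rw [← ZMod.intCast_zmod_eq_zero_iff_dvd, Int.cast_sub, Int.cast_mul, hκc, hμc, Units.mul_inv, Int.cast_one, sub_self]
  choose n a b z u r r' hn haA hz ha hb hna hnb _ using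
    fun i => exists_elt P hcard hexp' hH (A i) (hAP i) (hAcard i) (hSL i) κ μ hκμ
  set Z := Subgroup.center ↥(P : Subgroup G)
  obtain ⟨a₀, ha₀⟩ : ∃ a₀ : ↥(P : Subgroup G) ⧸ Z, a₀ ≠ 1 := ⟨_, ha 0⟩
  obtain ⟨b₀, hb₀⟩ : ∃ b₀ : ↥(P : Subgroup G) ⧸ Z, b₀ ∉ Subgroup.zpowers a₀ := by
    by_contra h
    push Not at h
    have hh := Subgroup.card_le_of_le (fun x _ => h x : (⊤ : Subgroup (↥(P : Subgroup G) ⧸ Z)) ≤ Subgroup.zpowers a₀)
    rw [Subgroup.card_top, hH.cardV, Nat.card_zpowers, orderOf_eq_prime (hH.expV a₀) ha₀] at hh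
    have h3 : p ^ 1 < p ^ 2 := Nat.pow_lt_pow_right hpr.one_lt (by norm_num)
    rw [pow_one] at h3
    omega
  obtain ⟨e, -, -⟩ := exists_coord hH.cardV hH.expV ha₀ hb₀
  obtain ⟨ψ, hψ⟩ := exists_matHom e
  set NP := Subgroup.normalizer ((P : Subgroup G) : Set G)
  let act : ↥NP →* MulAut (↥(P : Subgroup G) ⧸ Z) :=
    modCenter.comp (Subgroup.normalizerMonoidHom (P : Subgroup G))
  let Ψ : ↥NP →* P2 (ZMod p) := (pr.comp ψ).comp act
  have hker : (P : Subgroup G).subgroupOf NP ≤ Ψ.ker := by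
    intro w hw
    have h1 : act w = 1 := by
      refine MulEquiv.ext fun v => ?_
      obtain ⟨y, rfl⟩ := QuotientGroup.mk_surjective v
      show (QuotientGroup.mk _ : ↥(P : Subgroup G) ⧸ Z) = QuotientGroup.mk y
      have : (Subgroup.normalizerMonoidHom (P : Subgroup G) w y) =
          ⟨(w : G), Subgroup.mem_subgroupOf.1 hw⟩ * y * ⟨(w : G), Subgroup.mem_subgroupOf.1 hw⟩⁻¹ := Subtype.ext rfl
      refine (congrArg QuotientGroup.mk this).trans ?_
      rw [QuotientGroup.mk_mul, QuotientGroup.mk_mul, QuotientGroup.mk_inv,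
        IsPGroup.commutative_of_card_eq_prime_sq hH.cardV (QuotientGroup.mk ⟨(w : G), _⟩ : ↥(P : Subgroup G) ⧸ Z)]
      group
    show Ψ w = 1
    show pr (ψ (act w)) = 1
    rw [h1, map_one, map_one]
  have hp' : ¬ p ∣ Nat.card ↥Ψ.range := by
    intro h
    rw [← Subgroup.index_ker] at h
    have h2 : ¬ p ∣ ((P : Subgroup G).subgroupOf NP).index := by
      have := (P.subtype (Subgroup.le_normalizer : (P : Subgroup G) ≤ NP)).not_dvd_index
      rwa [Sylow.coe_subtype] at this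
    exact h2 (h.trans (Subgroup.index_dvd_of_le hker))
  let v : Fin 3 → (Fin 2 → ZMod p) := fun i => Multiplicative.toAdd (e (QuotientGroup.mk (a i)))
  have hv : ∀ i, v i ≠ 0 := fun i h => ha i (e.injective (by rw [map_one]; exact h))
  have hμ0 : (μ : ZMod p) ≠ 0 := by rw [hμc]; exact Units.ne_zero _
  have hzq : ∀ i (j : ℤ), (QuotientGroup.mk (z i ^ j) : ↥(P : Subgroup G) ⧸ Z) = 1 := fun i j =>
    (QuotientGroup.eq_one_iff _).2 (Subgroup.zpow_mem _ (hz i) j)
  have hsm : ∀ (x : ↥(P : Subgroup G) ⧸ Z) (k : ℤ),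
      Multiplicative.toAdd (e (x ^ k)) = (k : ZMod p) • Multiplicative.toAdd (e x) := by
    intro x k
    rw [map_zpow, toAdd_zpow, Int.cast_smul_eq_zsmul]
  have hmv : ∀ i, (ψ (act ⟨n i, hn i⟩) : Matrix (Fin 2) (Fin 2) (ZMod p)) *ᵥ v i = (μ : ZMod p) • v i := by
    intro i
    rw [← hψ]
    have : act ⟨n i, hn i⟩ (QuotientGroup.mk (a i)) = (QuotientGroup.mk (a i) : ↥(P : Subgroup G) ⧸ Z) ^ μ := by
      show QuotientGroup.mk _ = _
      have h1 : Subgroup.normalizerMonoidHom (P : Subgroup G) ⟨n i, hn i⟩ (a i) = a i ^ μ * z i ^ r i :=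
        Subtype.ext ((hna i).trans (by simp))
      refine (congrArg QuotientGroup.mk h1).trans ?_
      rw [QuotientGroup.mk_mul, hzq, mul_one, QuotientGroup.mk_zpow]
    rw [this, hsm]
  have hmw : ∀ i, (ψ (act ⟨n i, hn i⟩) : Matrix (Fin 2) (Fin 2) (ZMod p)) *ᵥ
      Multiplicative.toAdd (e (QuotientGroup.mk (b i))) =
      ((κ * κ : ℤ) : ZMod p) • Multiplicative.toAdd (e (QuotientGroup.mk (b i))) + (r' i : ZMod p) • v i := by
    intro i
    rw [← hψ]
    have : act ⟨n i, hn i⟩ (QuotientGroup.mk (b i)) =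
        (QuotientGroup.mk (a i) : ↥(P : Subgroup G) ⧸ Z) ^ r' i * (QuotientGroup.mk (b i)) ^ (κ * κ) := by
      show QuotientGroup.mk _ = _
      have h1 : Subgroup.normalizerMonoidHom (P : Subgroup G) ⟨n i, hn i⟩ (b i) =
          a i ^ r' i * z i ^ (u i - r' i) * b i ^ (κ * κ) := Subtype.ext ((hnb i).trans (by simp))
      refine (congrArg QuotientGroup.mk h1).trans ?_
      rw [QuotientGroup.mk_mul, QuotientGroup.mk_mul, hzq, mul_one, QuotientGroup.mk_zpow, QuotientGroup.mk_zpow]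
    rw [this, map_mul, toAdd_mul, hsm, hsm, add_comm]
  refine no_three p Ψ.range hp' (fun i => Ψ ⟨n i, hn i⟩) (fun i => pt (v i)) ?_ (fun i => ⟨_, rfl⟩) ?_ ?_
  · intro i j hij
    obtain ⟨d, hd⟩ := pt_inj (hv i) hij
    apply hA
    have hmk : (QuotientGroup.mk (a j) : ↥(P : Subgroup G) ⧸ Z) = QuotientGroup.mk (a i ^ (d.val : ℤ)) := by
      apply e.injective
      apply Multiplicative.toAdd.injective
      rw [QuotientGroup.mk_zpow, hsm]
      simpa using hd
    have hle : ∀ i, ((Z.map (P : Subgroup G).subtype ⊔ Subgroup.zpowers ((a i : ↥(P : Subgroup G)) : G))) = A i := by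
      intro i
      have hAc := IsPGroup.commutative_of_card_eq_prime_sq (hAcard i)
      have hZA : ∀ c ∈ Z, ((c : ↥(P : Subgroup G)) : G) ∈ A i := by
        intro c hc
        by_contra hcA
        have hlt : (A i).subgroupOf (P : Subgroup G) < (A i).subgroupOf (P : Subgroup G) ⊔ Subgroup.zpowers c :=
          lt_of_le_of_ne le_sup_left fun e' => hcA
            (Subgroup.mem_subgroupOf.1 (e'.symm ▸ Subgroup.mem_sup_right (Subgroup.mem_zpowers c)))
        set B := (A i).subgroupOf (P : Subgroup G) ⊔ Subgroup.zpowers c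
        obtain ⟨k, hk, hk'⟩ := (Nat.dvd_prime_pow hpr).1 ((Subgroup.card_subgroup_dvd_card B).trans hcard.dvd)
        have h2 : p ^ 2 < Nat.card ↥B := by
          rw [← hAcard i, ← Nat.card_congr (Subgroup.subgroupOfEquivOfLe (hAP i)).toEquiv]
          exact lt_of_not_ge fun h => hlt.ne (Subgroup.eq_of_le_of_card_ge hlt.le h)
        rw [hk'] at h2
        have := (Nat.pow_lt_pow_iff_right hpr.one_lt).1 h2
        have hBtop : B = ⊤ := Subgroup.eq_top_of_card_eq B (by rw [hk', show k = 3 by omega]; exact hcard.symm)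
        apply ha i
        rw [QuotientGroup.eq_one_iff]
        have hle' : B ≤ Subgroup.centralizer {a i} := sup_le
          (fun y hy => Subgroup.mem_centralizer_iff.2 fun w hw => by
            rw [Set.mem_singleton_iff.mp hw]
            refine Subtype.ext ?_
            have h5 := hAc (⟨_, haA i⟩ : ↥(A i)) ⟨_, Subgroup.mem_subgroupOf.1 hy⟩
            exact congrArg (fun t : ↥(A i) => (t : G)) h5)
          (Subgroup.zpowers_le.mpr (Subgroup.mem_centralizer_iff.2 fun w hw => by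
            rw [Set.mem_singleton_iff.mp hw]; exact Subgroup.mem_center_iff.1 hc (a i)))
        exact Subgroup.mem_center_iff.2 fun y =>
          ((Subgroup.mem_centralizer_iff.1 (hle' (hBtop ▸ Subgroup.mem_top y))) (a i) rfl).symm
      refine Subgroup.eq_of_le_of_card_ge (sup_le ?_ (Subgroup.zpowers_le.mpr (haA i))) ?_
      · rintro _ ⟨c, hc, rfl⟩; exact hZA c hc
      · rw [hAcard i]
        have hltB : Z.map (P : Subgroup G).subtype <
            Z.map (P : Subgroup G).subtype ⊔ Subgroup.zpowers ((a i : ↥(P : Subgroup G)) : G) :=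
          lt_of_le_of_ne le_sup_left fun e' => by
            have : ((a i : ↥(P : Subgroup G)) : G) ∈ Z.map (P : Subgroup G).subtype :=
              e'.symm ▸ Subgroup.mem_sup_right (Subgroup.mem_zpowers _)
            obtain ⟨c, hc, hca⟩ := this
            exact ha i ((QuotientGroup.eq_one_iff _).2 (Subtype.ext hca ▸ hc))
        set B := Z.map (P : Subgroup G).subtype ⊔ Subgroup.zpowers ((a i : ↥(P : Subgroup G)) : G)
        have hBP : B ≤ (P : Subgroup G) := sup_le (Subgroup.map_subtype_le _) (Subgroup.zpowers_le.mpr (a i).2)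
        obtain ⟨k, hk, hk'⟩ := (Nat.dvd_prime_pow hpr).1 ((Subgroup.card_dvd_of_le hBP).trans hcard.dvd)
        have h2 : p ^ 1 < Nat.card ↥B := by
          rw [pow_one, ← hH.cardZ, Nat.card_congr (Z.equivMapOfInjective _ (P : Subgroup G).subtype_injective).toEquiv]
          exact lt_of_not_ge fun h => hltB.ne (Subgroup.eq_of_le_of_card_ge hltB.le h)
        rw [hk'] at h2 ⊢
        exact Nat.pow_le_pow_right hpr.pos ((Nat.pow_lt_pow_iff_right hpr.one_lt).1 h2)
    rw [← hle i, ← hle j]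
    have hai : ((a j : ↥(P : Subgroup G)) : G) ∈ A i := by
      rw [← hle i]
      rw [eq_comm, QuotientGroup.eq] at hmk
      have : ((a j : ↥(P : Subgroup G)) : G) =
          ((a i : ↥(P : Subgroup G)) : G) ^ (d.val : ℤ) * (((a i ^ (d.val : ℤ))⁻¹ * a j : ↥(P : Subgroup G)) : G) := by
        simp [← mul_assoc]
      rw [this]
      exact mul_mem (Subgroup.zpow_mem _ (Subgroup.mem_sup_right (Subgroup.mem_zpowers _)) _)
        (Subgroup.mem_sup_left ⟨_, hmk, rfl⟩)
    refine (Subgroup.eq_of_le_of_card_ge ?_ ?_).symm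
    · rw [hle j, hle i]
      rw [← hle j]
      exact sup_le (le_sup_left.trans (hle i).le) (Subgroup.zpowers_le.mpr hai)
    · rw [hle i, hle j, hAcard i, hAcard j]
  · intro i
    have hpos : 0 < orderOf (Ψ ⟨n i, hn i⟩) := orderOf_pos _
    have hk3 : (κ : ZMod p) ^ (3 * orderOf (Ψ ⟨n i, hn i⟩)) = 1 := by
      refine scalar_eigen (hv i) ?_ (hmv i) (hmw i) ?_ (by push_cast; ring) (pow_orderOf_eq_one _)
      · intro d hd
        refine hb i (Subgroup.mem_zpowers_iff.2 ⟨(d.val : ℤ), ?_⟩)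
        apply e.injective
        apply Multiplicative.toAdd.injective
        rw [hsm]
        simpa using hd.symm
      · rw [hκc, hμc, ← Units.val_mul, inv_mul_cancel, Units.val_one]
    rw [hκc, ← Units.val_pow_eq_pow_val, Units.val_eq_one, ← orderOf_dvd_iff_pow_eq_one, hkord] at hk3
    have := Nat.le_of_dvd (by omega) hk3
    omega
  · intro i
    exact pt_fixed hμ0 (hv i) (hmv i)

end Cfsg.Agent.S3054
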