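import Cfsg.Statements.S3055
import Cfsg.Agent.S3054

set_option autoImplicit false
open Cfsg

namespace Cfsg.Agent.S3055

open CfsgLib.H29.Dickson CfsgLib.RankTwoResistant Matrix OnePoint MulAction
open Cfsg.Agent.S3054 (pt pt_fixed pt_inj scalar_eigen exists_coord exists_matHom exists_elt)
open scoped OnePoint

section proj

variable {F : Type*} [Field F] [Fintype F] (p : ℕ) [Fact p.Prime] [CharP F p]

theorem no_seven (G : Subgroup (P2 F)) (hG : ¬ p ∣ Nat.card G) (h : Fin 7 → P2 F)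
    (x : Fin 7 → OnePoint F) (hx : Function.Injective x) (hh : ∀ i, h i ∈ G)
    (hord : ∀ i, 6 ≤ orderOf (h i) ∨ 4 ∣ orderOf (h i)) (hfix : ∀ i, h i • x i = x i) : False := by
  have := finite_P2 (F := F)
  have h1 : ∀ i, h i ≠ 1 := fun i e => by
    have := hord i
    rw [e, orderOf_one] at this
    omega
  -- three elements in one torus
  have torus : ∀ a b : OnePoint (KK F), a ≠ b → (∀ i, h i ∈ T1 a b) → False := by
    intro a b hab hT
    have := charP_KK (F := F) p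
    have hmem : ∀ i, ex (x i) = a ∨ ex (x i) = b := by
      intro i
      by_contra hne
      push Not at hne
      obtain ⟨ha, hb⟩ := mem_T1.1 (hT i)
      refine h1 i (iota_injective (a₂ := 1) ?_)
      rw [map_one]
      exact eq_one_of_fix₃ hne.1 hne.2 hab (by rw [iota_smul_ex, hfix]) ha hb
    rcases hmem 0 with e0 | e0 <;> rcases hmem 1 with e1 | e1 <;> rcases hmem 2 with e2 | e2 <;>
      first
        | exact absurd (hx (ex_injective (e0.trans e1.symm))) (by decide)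
        | exact absurd (hx (ex_injective (e0.trans e2.symm))) (by decide)
        | exact absurd (hx (ex_injective (e1.trans e2.symm))) (by decide)
  have hp' : ∀ g ∈ G, g ^ p = 1 → g = 1 := by
    intro g hg hgp
    by_contra hne
    exact hG (orderOf_eq_prime hgp hne ▸ Subgroup.orderOf_dvd_natCard G hg)
  have hproj : ∀ (γ : P2 F) (L : Subfield F), PS L ≤ G.map (MulAut.conj γ).toMonoidHom → False := by
    intro γ L hle
    have hT : tra (1 : F) ∈ PS L :=
      ⟨⟨!![1, 1; 0, 1], by simp [det_fin_two]⟩, by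
        refine congrArg pr (Units.ext ?_)
        ext i j
        fin_cases i <;> fin_cases j <;> rfl⟩
    obtain ⟨g, hg, hgt⟩ := hle hT
    have hgp : g ^ p = 1 := by
      apply (MulAut.conj γ).injective
      rw [map_pow, map_one]
      exact (congrArg (· ^ p) hgt).trans (tra_pow_char p 1)
    rw [hp' g hg hgp, map_one] at hgt
    exact one_ne_zero (tra_injective (a₁ := (1 : F)) (a₂ := 0) (by rw [← hgt, tra_zero]))
  rcases subKind p G with ⟨x₀, hx₀⟩ | ⟨a, b, c, hc, hc1, hab, hle, -⟩ |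
    ⟨a, b, c, hc, hc1, hab, hcab, hle, m, hm, hcord, hmc, ⟨e⟩⟩ | ⟨-, -, ⟨e⟩⟩ | ⟨-, -, ⟨e⟩⟩ | ⟨-, -, ⟨e⟩⟩ |
    ⟨γ, L, hL⟩ | ⟨γ, L, hL⟩
  · -- all elements fix `x₀`
    obtain ⟨χ, hχ⟩ := exists_chi p G x₀
    have hcomm : ∀ i j, Commute (h i) (h j) := by
      intro i j
      let gi : stabilizer G x₀ := ⟨⟨h i, hh i⟩, hx₀ _ (hh i)⟩
      let gj : stabilizer G x₀ := ⟨⟨h j, hh j⟩, hx₀ _ (hh j)⟩
      have h2 := (hχ (gi * gj * gi⁻¹ * gj⁻¹)).1 (by simp [map_mul, map_inv, mul_comm (χ gi)])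
      have h3 := hp' _ (((gi * gj * gi⁻¹ * gj⁻¹ : stabilizer G x₀) : G)).2 h2
      simp [gi, gj] at h3
      calc h i * h j = (h i * h j * (h i)⁻¹ * (h j)⁻¹) * (h j * h i) := by group
        _ = h j * h i := by rw [h3, one_mul]
    have key : ∀ i j, i ≠ j → x i ≠ x₀ → x j ≠ x₀ → False := by
      intro i j hij hi hj
      have := charP_KK (F := F) p
      have e1 : h i • x j = x j := by
        have hfj : h j • (h i • x j) = h i • x j := by rw [← mul_smul, (hcomm j i).eq, mul_smul, hfix]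
        have hne : h i • x j ≠ x₀ := fun e => hj (smul_left_cancel (h i) (e.trans (hx₀ _ (hh i)).symm))
        by_contra hne'
        refine h1 j (iota_injective (a₂ := 1) ?_)
        rw [map_one]
        exact eq_one_of_fix₃ (ex_injective.ne hne) (ex_injective.ne hne') (ex_injective.ne (Ne.symm hj))
          (by rw [iota_smul_ex, hfj]) (by rw [iota_smul_ex, hx₀ _ (hh j)]) (by rw [iota_smul_ex, hfix])
      refine h1 i (iota_injective (a₂ := 1) ?_)
      rw [map_one]
      exact eq_one_of_fix₃ (ex_injective.ne hi) (ex_injective.ne (hx.ne hij)) (ex_injective.ne (Ne.symm hj))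
        (by rw [iota_smul_ex, hfix]) (by rw [iota_smul_ex, hx₀ _ (hh i)]) (by rw [iota_smul_ex, e1])
    by_cases h0 : x 0 = x₀
    · exact key 1 2 (by decide) (fun e => absurd (hx (e.trans h0.symm)) (by decide))
        (fun e => absurd (hx (e.trans h0.symm)) (by decide))
    · by_cases h1' : x 1 = x₀
      · exact key 0 2 (by decide) h0 (fun e => absurd (hx (e.trans h1'.symm)) (by decide))
      · exact key 0 1 (by decide) h0 h1'
  · exact torus a b hab fun i => hle (hh i)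
  · refine torus a b hab fun i => ?_
    have hrot : ∀ g : DihedralGroup m, 3 ≤ orderOf g → ∃ r, g = DihedralGroup.r r := by
      rintro (r | r) hg
      · exact ⟨r, rfl⟩
      · rw [DihedralGroup.orderOf_sr] at hg; omega
    have hi : 3 ≤ orderOf (e ⟨h i, hh i⟩) := by
      rw [MulEquiv.orderOf_eq, Subgroup.orderOf_mk]
      have := hord i
      have := orderOf_pos (h i)
      omega
    obtain ⟨r, hr⟩ := hrot _ hi
    have hm3 : 3 ≤ m := by
      haveI : NeZero m := ⟨by omega⟩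
      have := (hr ▸ hi).trans (Nat.le_of_dvd (by omega) (DihedralGroup.orderOf_r r ▸ Nat.div_dvd_of_dvd (Nat.gcd_dvd_left _ _)))
      exact this
    haveI : NeZero m := ⟨by omega⟩
    have hce : orderOf (e ⟨c, hc⟩) = m := by rw [MulEquiv.orderOf_eq, Subgroup.orderOf_mk, hcord]
    obtain ⟨s, hs⟩ := hrot _ (hce ▸ hm3)
    have hle' : Subgroup.zpowers (e ⟨c, hc⟩) ≤ Subgroup.zpowers (DihedralGroup.r (1 : ZMod m)) :=
      Subgroup.zpowers_le.mpr ⟨(s.val : ℤ), by simp [hs]⟩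
    have heq : Subgroup.zpowers (e ⟨c, hc⟩) = Subgroup.zpowers (DihedralGroup.r (1 : ZMod m)) :=
      Subgroup.eq_of_le_of_card_ge hle' (by
        rw [Nat.card_zpowers, Nat.card_zpowers, hce, DihedralGroup.orderOf_r_one])
    have hin : e ⟨h i, hh i⟩ ∈ Subgroup.zpowers (e ⟨c, hc⟩) := by
      rw [heq, hr]; exact ⟨(r.val : ℤ), by simp⟩
    obtain ⟨n, hn⟩ := hin
    have : (⟨c, hc⟩ : G) ^ n = ⟨h i, hh i⟩ := e.injective (by rw [map_zpow]; exact hn)
    have h2 : c ^ n = h i := congrArg Subtype.val this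
    exact h2 ▸ (T1 a b).zpow_mem hcab n
  · have key : ∀ g : alternatingGroup (Fin 4), orderOf g < 6 ∧ ¬ 4 ∣ orderOf g := by
      intro g
      have : g ^ 2 = 1 ∨ g ^ 3 = 1 := by revert g; decide +kernel
      rcases this with h | h <;> (
        have hd := orderOf_dvd_of_pow_eq_one h
        have hle := Nat.le_of_dvd (by norm_num) hd
        have := orderOf_pos g
        interval_cases hg : orderOf g <;> omega)
    have := key (e ⟨h 0, hh 0⟩)
    rw [MulEquiv.orderOf_eq, Subgroup.orderOf_mk] at this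
    have := hord 0
    omega
  · -- at most three values of the squares
    have key : ∀ g : Equiv.Perm (Fin 4), g ^ 4 = 1 ∧ g ^ 2 ≠ 1 → g ^ 2 = Equiv.swap 0 1 * Equiv.swap 2 3 ∨
        g ^ 2 = Equiv.swap 0 2 * Equiv.swap 1 3 ∨ g ^ 2 = Equiv.swap 0 3 * Equiv.swap 1 2 := by decide +kernel
    have key' : ∀ g : Equiv.Perm (Fin 4), g ^ 4 = 1 ∨ g ^ 3 = 1 := by decide +kernel
    have h4 : ∀ i, e ⟨h i, hh i⟩ ^ 4 = 1 ∧ e ⟨h i, hh i⟩ ^ 2 ≠ 1 := by
      intro i
      have ho : orderOf (e ⟨h i, hh i⟩) = orderOf (h i) := by rw [MulEquiv.orderOf_eq, Subgroup.orderOf_mk]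
      have := hord i
      have := orderOf_pos (h i)
      rcases key' (e ⟨h i, hh i⟩) with h4 | h3
      · have := Nat.le_of_dvd (by norm_num) (ho ▸ orderOf_dvd_of_pow_eq_one h4)
        refine ⟨h4, fun h2 => ?_⟩
        have := Nat.le_of_dvd (by norm_num) (ho ▸ orderOf_dvd_of_pow_eq_one h2)
        omega
      · have := Nat.le_of_dvd (by norm_num) (ho ▸ orderOf_dvd_of_pow_eq_one h3)
        omega
    classical
    let T : Finset (Equiv.Perm (Fin 4)) := {Equiv.swap 0 1 * Equiv.swap 2 3,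
      Equiv.swap 0 2 * Equiv.swap 1 3, Equiv.swap 0 3 * Equiv.swap 1 2}
    obtain ⟨y, -, hy⟩ := Finset.exists_lt_card_fiber_of_mul_lt_card_of_maps_to
      (s := (Finset.univ : Finset (Fin 7))) (t := T) (f := fun i => e ⟨h i, hh i⟩ ^ 2) (n := 2)
      (fun i _ => by simpa [T] using key _ (h4 i)) (by
        have : T.card ≤ 3 := Finset.card_le_three
        simp only [Finset.card_univ, Fintype.card_fin]
        omega)
    obtain ⟨i, j, k, hi, hj, hk, hij, hik, hjk⟩ := Finset.two_lt_card_iff.1 hy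
    simp only [Finset.mem_filter, Finset.mem_univ, true_and] at hi hj hk
    have hsq : ∀ l, e ⟨h l, hh l⟩ ^ 2 = y → h l ^ 2 = h i ^ 2 := by
      intro l hl
      have h2 : (⟨h l, hh l⟩ : G) ^ 2 = (⟨h i, hh i⟩ : G) ^ 2 :=
        e.injective (by rw [map_pow, map_pow, hl, hi])
      simpa using congrArg Subtype.val h2
    have hfix2 : ∀ l, e ⟨h l, hh l⟩ ^ 2 = y → h i ^ 2 • x l = x l := fun l hl => by
      rw [← hsq l hl, sq, mul_smul, hfix, hfix]
    have h0 := eq_one_of_fix₃ (hx.ne hij) (hx.ne hik) (hx.ne hjk) (hfix2 i hi) (hfix2 j hj) (hfix2 k hk)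
    exact (h4 i).2 (by rw [← map_pow, show (⟨h i, hh i⟩ : G) ^ 2 = 1 from Subtype.ext (by simpa using h0), map_one])
  · have key : ∀ g : alternatingGroup (Fin 5), orderOf g < 6 ∧ ¬ 4 ∣ orderOf g := by
      intro g
      have : g ^ 2 = 1 ∨ g ^ 3 = 1 ∨ g ^ 5 = 1 := by revert g; decide +kernel
      rcases this with h | h | h <;> (
        have hd := orderOf_dvd_of_pow_eq_one h
        have hle := Nat.le_of_dvd (by norm_num) hd
        have := orderOf_pos g
        interval_cases hg : orderOf g <;> omega)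
    have := key (e ⟨h 0, hh 0⟩)
    rw [MulEquiv.orderOf_eq, Subgroup.orderOf_mk] at this
    have := hord 0
    omega
  · exact hproj γ L (hL ▸ PS_le_PL L)
  · exact hproj γ L hL.ge

end proj

variable {p : ℕ} [Fact p.Prime]

/-- A subgroup containing two independent transvections contains them all. -/
theorem all_mem {H : Type*} [Group H] [Finite H] (hcard : Nat.card H = p ^ 2) (hexp : ∀ x : H, x ^ p = 1)
    {X : Subgroup (MulAut H)} {t y : MulAut H} (htX : t ∈ X) (hyX : y ∈ X) (ht : orderOf t = p)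
    (hy : orderOf y = p) (hyt : y ∉ Subgroup.zpowers t) (φ : MulAut H) (hφ : orderOf φ = p) : φ ∈ X := by
  have hpr : p.Prime := Fact.out
  haveI : Finite (MulAut H) := Finite.of_injective (fun α : MulAut H => (α : H → H)) DFunLike.coe_injective
  have hcomm := IsPGroup.commutative_of_card_eq_prime_sq hcard
  have hpg : ∀ w : MulAut H, orderOf w = p → IsPGroup p ↥(Subgroup.zpowers w) := fun w hw =>
    IsPGroup.iff_card.2 ⟨1, by rw [Nat.card_zpowers, hw, pow_one]⟩
  have ne1 : ∀ w : MulAut H, orderOf w = p → w ≠ 1 := fun w hw e => hpr.one_lt.ne (by rw [← hw, e, orderOf_one])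
  have hext : ∀ c d : H, c ≠ 1 → d ∉ Subgroup.zpowers c → ∀ σ τ : MulAut H, σ c = τ c → σ d = τ d → σ = τ :=
    fun c d hc hd σ τ h1 h2 => MulEquiv.ext fun x => by
      have hle : (⊤ : Subgroup H) ≤ σ.toMonoidHom.eqLocus τ.toMonoidHom := by
        rw [← sup_zpowers_eq_top hcard hexp hc hd]
        exact sup_le (Subgroup.zpowers_le.2 h1) (Subgroup.zpowers_le.2 h2)
      exact hle (Subgroup.mem_top x)
  have shear : ∀ w : MulAut H, orderOf w = p → ∀ c : H, c ≠ 1 → w c = c → ∀ d, d ∉ Subgroup.zpowers c →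
      ∃ i : ℤ, ¬ (p : ℤ) ∣ i ∧ w d = d * c ^ i := by
    intro w hw c hc hwc d hd
    obtain ⟨u, hu, hfix, hline, -⟩ := CfsgLib.Fusion.pGroup_aut_square hcard hexp _ (hpg w hw)
    have hwu : w u = u := hfix w (Subgroup.mem_zpowers w)
    have hcu : u ∈ Subgroup.zpowers c := by
      by_contra hcu
      exact ne1 w hw (hext c u hc hcu w 1 hwc hwu)
    have hle : Subgroup.zpowers u ≤ Subgroup.zpowers c := Subgroup.zpowers_le.2 hcu
    obtain ⟨i, hi⟩ := Subgroup.mem_zpowers_iff.1 (hle (hline w (Subgroup.mem_zpowers w) d))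
    refine ⟨i, fun hdvd => ne1 w hw (hext c d hc hd w 1 hwc ?_), eq_mul_of_inv_mul_eq hi.symm⟩
    rw [zpow_eq_one_of_dvd (hexp c) hdvd, eq_inv_mul_iff_mul_eq, mul_one] at hi
    exact hi.symm
  have same : ∀ w : MulAut H, orderOf w = p → w ∈ X → ∀ c : H, c ≠ 1 → φ c = c → w c = c → φ ∈ X := by
    intro w hw hwX c hc h1 h2
    obtain ⟨d, hd⟩ : ∃ d, d ∉ Subgroup.zpowers c := by
      by_contra hh
      push Not at hh
      have h3 : Nat.card (Subgroup.zpowers c) = Nat.card H := by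
        rw [(Subgroup.eq_top_iff' _).2 hh, Subgroup.card_top]
      rw [Nat.card_zpowers, orderOf_eq_prime (hexp c) hc, hcard] at h3
      nlinarith [hpr.two_le]
    obtain ⟨i, hi, hwd⟩ := shear w hw c hc h2 d hd
    obtain ⟨j, -, hφd⟩ := shear φ hφ c hc h1 d hd
    obtain ⟨n, hn1, hn2⟩ := CfsgLib.MetaResistant.exists_pow_shear (hexp c) hi h2 hwd j
    rw [hext c d hc hd φ (w ^ n) (by rw [hn1, h1]) (by rw [hn2, hφd])]
    exact pow_mem hwX n
  obtain ⟨z, v, hz1, hvz, htz, htv, hyz, -⟩ := exists_diag hcard hexp htX hyX (hpg t ht) (hpg y hy) (ne1 t ht) hyt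
  have hgen : ∀ x : H, ∃ i j : ℤ, x = z ^ i * v ^ j := by
    intro x
    have hn : Subgroup.zpowers z ≤ Subgroup.normalizer ((Subgroup.zpowers v : Subgroup H) : Set H) :=
      Subgroup.zpowers_le.2 (Subgroup.centralizer_le_normalizer _ (Subgroup.mem_centralizer_iff.2 fun w _ => hcomm w z))
    have hx : x ∈ Subgroup.zpowers z ⊔ Subgroup.zpowers v := by
      rw [sup_zpowers_eq_top hcard hexp hz1 hvz]; exact Subgroup.mem_top x
    rw [← SetLike.mem_coe, Subgroup.coe_mul_of_left_le_normalizer_right _ _ hn] at hx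
    obtain ⟨a, ha, b, hb, rfl⟩ := hx
    obtain ⟨i, rfl⟩ := Subgroup.mem_zpowers_iff.1 ha
    obtain ⟨j, rfl⟩ := Subgroup.mem_zpowers_iff.1 hb
    exact ⟨i, j, rfl⟩
  obtain ⟨u, hu, hfix, -, -⟩ := CfsgLib.Fusion.pGroup_aut_square hcard hexp _ (hpg y hy)
  have hyu : y u = u := hfix y (Subgroup.mem_zpowers y)
  obtain ⟨c, hc, hfixc, -, -⟩ := CfsgLib.Fusion.pGroup_aut_square hcard hexp _ (hpg φ hφ)
  have hφc : φ c = c := hfixc φ (Subgroup.mem_zpowers φ)
  obtain ⟨β, α, rfl⟩ := hgen u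
  obtain ⟨b', a', rfl⟩ := hgen c
  have hα : ¬ (p : ℤ) ∣ α := by
    intro hd
    rw [zpow_eq_one_of_dvd (hexp v) hd, mul_one] at hyu hu
    exact hyz (fixed_of_zpow_fixed (hexp z) (fun hb => hu (zpow_eq_one_of_dvd (hexp z) hb)) hyu)
  by_cases ha' : (p : ℤ) ∣ a'
  · rw [zpow_eq_one_of_dvd (hexp v) ha', mul_one] at hφc hc
    exact same t ht htX _ hc hφc (by rw [map_zpow, htz])
  obtain ⟨α', hα'⟩ := exists_inv_mod (p := p) hα
  obtain ⟨a'', ha''⟩ := exists_inv_mod (p := p) ha'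
  set s : ℤ := a'' * α with hs
  obtain ⟨n, hn1, hn2⟩ := CfsgLib.MetaResistant.exists_pow_shear (t := t) (z := z) (l := v) (hexp z)
    (a := 1) (fun h => hpr.not_dvd_one (by exact_mod_cast h)) htz (by rw [zpow_one]; exact htv) ((b' * s - β) * α')
  have hcs : (t ^ n) (z ^ β * v ^ α) = (z ^ b' * v ^ a') ^ s := by
    rw [map_mul, map_zpow, map_zpow, hn1, hn2, Commute.mul_zpow (hcomm _ _), Commute.mul_zpow (hcomm _ _),
      ← _root_.zpow_mul, ← _root_.zpow_mul, ← _root_.zpow_mul, hcomm (v ^ α), ← mul_assoc, ← _root_.zpow_add]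
    congr 1
    · refine CfsgLib.RankTwoResistant.zpow_congr (hexp z) ?_
      have : β + (b' * s - β) * α' * α - b' * s = (b' * s - β) * (α * α' - 1) := by ring
      rw [this]; exact hα'.mul_left _
    · refine CfsgLib.RankTwoResistant.zpow_congr (hexp v) ?_
      have : α - a' * s = -α * (a' * a'' - 1) := by rw [hs]; ring
      rw [this]; exact ha''.mul_left _
  refine same (t ^ n * y * (t ^ n)⁻¹) ?_ (mul_mem (mul_mem (pow_mem htX n) hyX) (inv_mem (pow_mem htX n)))
    ((z ^ b' * v ^ a') ^ s) ?_ (by rw [map_zpow, hφc]) ?_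
  · rw [← MulAut.conj_apply]
    exact (orderOf_injective (MulAut.conj (t ^ n)).toMonoidHom (MulAut.conj (t ^ n)).injective y).trans hy
  · rw [← hcs]
    exact fun h => hu ((t ^ n).injective (by rw [h, map_one]))
  · rw [MulAut.mul_apply, MulAut.mul_apply, ← hcs, MulAut.inv_apply_self, hyu]

variable {G : Type*} [Group G] [Finite G]

/-- `P` induces a shear on each of its subgroups of order `p²`. -/
theorem exists_shear (P : Sylow p G) (hcard : Nat.card P = p ^ 3)
    (hexp : ∀ w : ↥(P : Subgroup G), w ^ p = 1) (hH : Heis p ↥(P : Subgroup G))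
    (A : Subgroup G) (hAP : A ≤ (P : Subgroup G)) (hAcard : Nat.card ↥A = p ^ 2) :
    (∀ c ∈ Subgroup.center ↥(P : Subgroup G), ((c : ↥(P : Subgroup G)) : G) ∈ A) ∧
      ∃ b : ↥(P : Subgroup G), (b : G) ∈ Subgroup.normalizer (A : Set G) ∧ ∃ w ∈ A, (b : G) * w ≠ w * b := by
  haveI := hH.fin
  have hpr : p.Prime := Fact.out
  have hAcomm := IsPGroup.commutative_of_card_eq_prime_sq hAcard
  have hAc : ∀ x ∈ A, ∀ y ∈ A, x * y = y * x := fun x hx y hy =>
    congrArg Subtype.val (hAcomm (⟨x, hx⟩ : ↥A) ⟨y, hy⟩)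
  set Z := Subgroup.center ↥(P : Subgroup G) with hZdef
  have hVc := IsPGroup.commutative_of_card_eq_prime_sq hH.cardV
  -- `A` contains the centre
  have hZA : ∀ c ∈ Z, ((c : ↥(P : Subgroup G)) : G) ∈ A := by
    intro c hc
    by_contra hcA
    set B := A.subgroupOf (P : Subgroup G) ⊔ Subgroup.zpowers c with hB
    have hBcard : Nat.card ↥B = p ^ 3 := by
      obtain ⟨k, hk, hk'⟩ := (Nat.dvd_prime_pow hpr).1 ((Subgroup.card_subgroup_dvd_card B).trans hcard.dvd)
      have hlt : A.subgroupOf (P : Subgroup G) < B := lt_of_le_of_ne le_sup_left fun e => hcA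
        (Subgroup.mem_subgroupOf.1 (e.symm ▸ Subgroup.mem_sup_right (Subgroup.mem_zpowers c)))
      have h2 : p ^ 2 < Nat.card ↥B := by
        rw [← hAcard, ← Nat.card_congr (Subgroup.subgroupOfEquivOfLe hAP).toEquiv]
        exact lt_of_not_ge fun h => hlt.ne (Subgroup.eq_of_le_of_card_ge hlt.le h)
      rw [hk'] at h2
      have := (Nat.pow_lt_pow_iff_right hpr.one_lt).1 h2
      rw [hk', show k = 3 by omega]
    have hBtop : B = ⊤ := Subgroup.eq_top_of_card_eq B (by rw [hBcard]; exact hcard.symm)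
    have hle : A.subgroupOf (P : Subgroup G) ≤ Z := by
      intro a ha
      have hle' : B ≤ Subgroup.centralizer {a} := sup_le
        (fun y hy => Subgroup.mem_centralizer_iff.2 fun w hw => by
          rw [Set.mem_singleton_iff.mp hw]
          exact Subtype.ext (hAc _ (Subgroup.mem_subgroupOf.1 ha) _ (Subgroup.mem_subgroupOf.1 hy)))
        (Subgroup.zpowers_le.mpr (Subgroup.mem_centralizer_iff.2 fun w hw => by
          rw [Set.mem_singleton_iff.mp hw]; exact Subgroup.mem_center_iff.1 hc a))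
      refine Subgroup.mem_center_iff.2 fun y => ?_
      exact ((Subgroup.mem_centralizer_iff.1 (hle' (hBtop ▸ Subgroup.mem_top y))) a rfl).symm
    have hh := Subgroup.card_le_of_le hle
    rw [Nat.card_congr (Subgroup.subgroupOfEquivOfLe hAP).toEquiv, hAcard, hH.cardZ] at hh
    have h3 : p ^ 1 < p ^ 2 := Nat.pow_lt_pow_right hpr.one_lt (by norm_num)
    rw [pow_one] at h3
    omega
  obtain ⟨b, hb⟩ : ∃ b : ↥(P : Subgroup G), (b : G) ∉ A := by
    by_contra h
    push Not at h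
    have hh := Subgroup.card_le_of_le (fun x hx => h ⟨x, hx⟩ : (P : Subgroup G) ≤ A)
    rw [hAcard, hcard] at hh
    have : p ^ 2 < p ^ 3 := Nat.pow_lt_pow_right hpr.one_lt (by norm_num)
    omega
  have hPn : ∀ x : ↥(P : Subgroup G), (x : G) ∈ Subgroup.normalizer (A : Set G) := by
    intro x
    have h0 : ∀ (x : ↥(P : Subgroup G)) (w : G), w ∈ A → (x : G) * w * (x : G)⁻¹ ∈ A := by
      intro x w hw
      have hz : (x * ⟨w, hAP hw⟩ * x⁻¹ * (⟨w, hAP hw⟩ : ↥(P : Subgroup G))⁻¹) ∈ Z := by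
        rw [← QuotientGroup.eq_one_iff]
        simp only [QuotientGroup.mk_mul, QuotientGroup.mk_inv]
        rw [hVc (QuotientGroup.mk x : ↥(P : Subgroup G) ⧸ Z)]
        group
      have h2 := A.mul_mem (hZA _ hz) hw
      simpa [mul_assoc] using h2
    refine Subgroup.mem_normalizer_iff.2 fun w => ⟨h0 x w, fun hw => ?_⟩
    simpa [mul_assoc] using h0 x⁻¹ _ hw
  refine ⟨hZA, b, hPn b, ?_⟩
  by_contra hall
  push Not at hall
  set B := A.subgroupOf (P : Subgroup G) ⊔ Subgroup.zpowers b with hB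
  have hBtop : B = ⊤ := by
    obtain ⟨k, hk, hk'⟩ := (Nat.dvd_prime_pow hpr).1 ((Subgroup.card_subgroup_dvd_card B).trans hcard.dvd)
    have hlt : A.subgroupOf (P : Subgroup G) < B := lt_of_le_of_ne le_sup_left fun e => hb
      (Subgroup.mem_subgroupOf.1 (e.symm ▸ Subgroup.mem_sup_right (Subgroup.mem_zpowers b)))
    have h2 : p ^ 2 < Nat.card ↥B := by
      rw [← hAcard, ← Nat.card_congr (Subgroup.subgroupOfEquivOfLe hAP).toEquiv]
      exact lt_of_not_ge fun h => hlt.ne (Subgroup.eq_of_le_of_card_ge hlt.le h)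
    rw [hk'] at h2
    have := (Nat.pow_lt_pow_iff_right hpr.one_lt).1 h2
    refine Subgroup.eq_top_of_card_eq B ?_
    rw [hk', show k = 3 by omega]; exact hcard.symm
  have hle : A.subgroupOf (P : Subgroup G) ≤ Z := by
    intro w hw
    have hle : B ≤ Subgroup.centralizer {w} := sup_le
      (fun y hy => Subgroup.mem_centralizer_iff.2 fun w' hw' => by
        rw [Set.mem_singleton_iff.mp hw']
        exact Subtype.ext (hAc _ (Subgroup.mem_subgroupOf.1 hw) _ (Subgroup.mem_subgroupOf.1 hy)))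
      (Subgroup.zpowers_le.mpr (Subgroup.mem_centralizer_iff.2 fun w' hw' => by
        rw [Set.mem_singleton_iff.mp hw']
        exact Subtype.ext (hall _ (Subgroup.mem_subgroupOf.1 hw)).symm))
    exact Subgroup.mem_center_iff.2 fun y =>
      ((Subgroup.mem_centralizer_iff.1 (hle (hBtop ▸ Subgroup.mem_top y))) w rfl).symm
  have hh := Subgroup.card_le_of_le hle
  rw [Nat.card_congr (Subgroup.subgroupOfEquivOfLe hAP).toEquiv, hAcard, hH.cardZ] at hh
  have h3 : p ^ 1 < p ^ 2 := Nat.pow_lt_pow_right hpr.one_lt (by norm_num)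
  rw [pow_one] at h3
  omega

/-- If all elements of `P` are conjugate, every such `A` has all its transvections induced. -/
theorem realized (P : Sylow p G) (hcard : Nat.card P = p ^ 3)
    (hexp : ∀ w : ↥(P : Subgroup G), w ^ p = 1) (hH : Heis p ↥(P : Subgroup G))
    (hconj : ∀ x y : ↥(P : Subgroup G), x ≠ 1 → y ≠ 1 → ∃ g : G, g * (x : G) * g⁻¹ = (y : G))
    (A : Subgroup G) (hAP : A ≤ (P : Subgroup G)) (hAcard : Nat.card ↥A = p ^ 2) :
    ∀ φ : MulAut ↥A, orderOf φ = p → ∃ g : G, ∀ a : ↥A, (φ a : G) = g * (a : G) * g⁻¹ := by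
  haveI := hH.fin
  have hpr : p.Prime := Fact.out
  have hAexp : ∀ x : ↥A, x ^ p = 1 := fun x => Subtype.ext (by
    have := congrArg Subtype.val (hexp ⟨x, hAP x.2⟩)
    simpa using this)
  obtain ⟨hZA, b, hbN, w₁, hw₁, hbw₁⟩ := exists_shear P hcard hexp hH A hAP hAcard
  set Z := Subgroup.center ↥(P : Subgroup G)
  haveI : Nontrivial ↥Z := Finite.one_lt_card_iff_nontrivial.mp (hpr.one_lt.trans_eq hH.cardZ.symm)
  obtain ⟨⟨z, hzZ⟩, hz'⟩ := exists_ne (1 : ↥Z)
  have hz1 : z ≠ 1 := fun h => hz' (Subtype.ext h)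
  set a : ↥(P : Subgroup G) := ⟨w₁, hAP hw₁⟩ with hadef
  have ha1 : a ≠ 1 := fun h => hbw₁ (by
    rw [show w₁ = 1 from congrArg Subtype.val h]; simp)
  obtain ⟨g, hg⟩ := hconj z a hz1 ha1
  -- a Sylow subgroup of `C(a)` containing `A`
  set C := Subgroup.centralizer ({w₁} : Set G) with hC
  have hgC : ((g • P : Sylow p G) : Subgroup G) ≤ C := by
    rw [Sylow.coe_subgroup_smul]
    rintro _ ⟨w, hw, rfl⟩
    refine Subgroup.mem_centralizer_iff.2 fun u hu => ?_
    rw [Set.mem_singleton_iff.mp hu]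
    have hc : w * (z : G) = (z : G) * w := congrArg Subtype.val (Subgroup.mem_center_iff.1 hzZ ⟨w, hw⟩)
    show w₁ * (g * w * g⁻¹) = g * w * g⁻¹ * w₁
    rw [show w₁ = g * (z : G) * g⁻¹ from hg.symm]
    calc g * (z : G) * g⁻¹ * (g * w * g⁻¹) = g * ((z : G) * w) * g⁻¹ := by group
      _ = g * (w * (z : G)) * g⁻¹ := by rw [hc]
      _ = g * w * g⁻¹ * (g * (z : G) * g⁻¹) := by group
  have hAc : ∀ x ∈ A, ∀ y ∈ A, x * y = y * x := fun x hx y hy =>
    congrArg Subtype.val ((IsPGroup.commutative_of_card_eq_prime_sq hAcard) (⟨x, hx⟩ : ↥A) ⟨y, hy⟩)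
  have hAC : A ≤ C := fun y hy => Subgroup.mem_centralizer_iff.2 fun u hu => by
    rw [Set.mem_singleton_iff.mp hu]; exact hAc _ hw₁ _ hy
  have hAp : IsPGroup p ↥(A.subgroupOf C) :=
    (P.isPGroup'.to_le hAP).of_equiv (Subgroup.subgroupOfEquivOfLe hAC).symm
  obtain ⟨T, hT⟩ := hAp.exists_le_sylow
  obtain ⟨⟨h, hhC⟩, hh⟩ := MulAction.exists_smul_eq ↥C ((g • P).subtype hgC) T
  rw [Sylow.smul_subtype] at hh
  set k := h * g with hk
  have hAk : A ≤ ((k • P : Sylow p G) : Subgroup G) := by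
    intro y hy
    have hy' : (⟨y, hAC hy⟩ : ↥C) ∈ (T : Subgroup ↥C) := hT hy
    rw [← hh] at hy'
    rw [hk, mul_smul]
    exact hy'
  set A' : Subgroup G := A.map (MulAut.conj k⁻¹).toMonoidHom with hA'
  have hA'P : A' ≤ (P : Subgroup G) := by
    rintro _ ⟨y, hy, rfl⟩
    have := hAk hy
    rw [Sylow.coe_subgroup_smul, Subgroup.mem_pointwise_smul_iff_inv_smul_mem, ← map_inv] at this
    exact this
  have hA'card : Nat.card ↥A' = p ^ 2 := by
    rw [← hAcard]
    exact Nat.card_congr (A.equivMapOfInjective _ (MulAut.conj k⁻¹).injective).toEquiv.symm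
  obtain ⟨hZA', b₂, hb₂N, w₂, hw₂, hbw₂⟩ := exists_shear P hcard hexp hH A' hA'P hA'card
  have hk1 : ∀ x ∈ A, k⁻¹ * x * k ∈ A' := fun x hx => ⟨x, hx, by simp⟩
  have hk2 : ∀ x ∈ A', k * x * k⁻¹ ∈ A := by
    rintro _ ⟨x, hx, rfl⟩
    simpa [mul_assoc] using hx
  have hyN : k * (b₂ : G) * k⁻¹ ∈ Subgroup.normalizer (A : Set G) := by
    refine Subgroup.mem_normalizer_iff.2 fun x => ⟨fun hx => ?_, fun hx => ?_⟩
    · have h2 := hk2 _ ((Subgroup.mem_normalizer_iff.1 hb₂N _).1 (hk1 x hx))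
      simpa [mul_assoc] using h2
    · have h3 : (b₂ : G) * (k⁻¹ * x * k) * (b₂ : G)⁻¹ ∈ A' := by
        have := hk1 _ hx
        simpa [mul_assoc] using this
      have h2 := hk2 _ ((Subgroup.mem_normalizer_iff.1 hb₂N (k⁻¹ * x * k)).2 h3)
      simpa [mul_assoc] using h2
  set conjA : ↥(Subgroup.normalizer (A : Set G)) →* MulAut ↥A := A.normalizerMonoidHom with hconjA
  set t := conjA ⟨b, hbN⟩ with htdef
  set y := conjA ⟨_, hyN⟩ with hydef
  have hcp : ∀ (u : G) (hu : u ∈ Subgroup.normalizer (A : Set G)), u ^ p = 1 → conjA ⟨u, hu⟩ ^ p = 1 := by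
    intro u hu hup
    rw [← map_pow]
    convert map_one conjA
    exact Subtype.ext (by simpa using hup)
  have htp : t ^ p = 1 := hcp _ _ (by simpa using congrArg Subtype.val (hexp b))
  have hyp : y ^ p = 1 := hcp _ _ (by
    rw [conj_pow, show (b₂ : G) ^ p = 1 by simpa using congrArg Subtype.val (hexp b₂)]; simp)
  have ht1 : t ≠ 1 := fun h => hbw₁ (by
    have h2 := congrArg Subtype.val (DFunLike.congr_fun h ⟨w₁, hw₁⟩)
    exact mul_inv_eq_iff_eq_mul.1 h2)
  have hy1 : y ≠ 1 := fun h => hbw₂ (by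
    have h2 := congrArg Subtype.val (DFunLike.congr_fun h ⟨_, hk2 w₂ hw₂⟩)
    have h3 : k * (b₂ : G) * k⁻¹ * (k * w₂ * k⁻¹) * (k * (b₂ : G) * k⁻¹)⁻¹ = k * w₂ * k⁻¹ := h2
    have h4 : (b₂ : G) * w₂ * (b₂ : G)⁻¹ = w₂ := by
      apply (MulAut.conj k).injective
      show k * ((b₂ : G) * w₂ * (b₂ : G)⁻¹) * k⁻¹ = k * w₂ * k⁻¹
      rw [← h3]; group
    exact mul_inv_eq_iff_eq_mul.1 h4)
  -- `y` fixes `w₁`
  have hhw : h * w₁ * h⁻¹ = w₁ :=
    mul_inv_eq_iff_eq_mul.2 (Subgroup.mem_centralizer_iff.1 hhC w₁ rfl).symm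
  have hkz : k * (z : G) * k⁻¹ = w₁ := by
    calc k * (z : G) * k⁻¹ = h * (g * (z : G) * g⁻¹) * h⁻¹ := by rw [hk]; group
      _ = h * w₁ * h⁻¹ := by rw [hg]
      _ = w₁ := hhw
  have hyw : y ⟨w₁, hw₁⟩ = ⟨w₁, hw₁⟩ := by
    refine Subtype.ext ?_
    show k * (b₂ : G) * k⁻¹ * w₁ * (k * (b₂ : G) * k⁻¹)⁻¹ = w₁
    have hc : (b₂ : G) * (z : G) = (z : G) * b₂ := congrArg Subtype.val (Subgroup.mem_center_iff.1 hzZ b₂)
    rw [← hkz]
    calc k * (b₂ : G) * k⁻¹ * (k * (z : G) * k⁻¹) * (k * (b₂ : G) * k⁻¹)⁻¹ =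
        k * ((b₂ : G) * (z : G)) * (b₂ : G)⁻¹ * k⁻¹ := by group
      _ = _ := by rw [hc]; group
  haveI : Finite (MulAut ↥A) := Finite.of_injective (fun α : MulAut ↥A => (α : ↥A → ↥A)) DFunLike.coe_injective
  have hyt : y ∉ Subgroup.zpowers t := by
    intro hy
    haveI : Fact (Nat.card ↥(Subgroup.zpowers t)).Prime := ⟨by rwa [Nat.card_zpowers, orderOf_eq_prime htp ht1]⟩
    have heq : Subgroup.zpowers y = Subgroup.zpowers t :=
      Subgroup.eq_of_le_of_card_ge (Subgroup.zpowers_le.mpr hy) (by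
        rw [Nat.card_zpowers, Nat.card_zpowers, orderOf_eq_prime htp ht1, orderOf_eq_prime hyp hy1])
    have hle : Subgroup.zpowers y ≤ MulAction.stabilizer (MulAut ↥A) (⟨w₁, hw₁⟩ : ↥A) :=
      Subgroup.zpowers_le.mpr hyw
    have h2 : t ⟨w₁, hw₁⟩ = ⟨w₁, hw₁⟩ := hle (heq ▸ Subgroup.mem_zpowers t)
    exact hbw₁ (mul_inv_eq_iff_eq_mul.1 (congrArg Subtype.val h2))
  intro φ hφ
  obtain ⟨n, hn⟩ := all_mem hAcard hAexp (X := conjA.range) ⟨_, rfl⟩ ⟨_, rfl⟩ (orderOf_eq_prime htp ht1)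
    (orderOf_eq_prime hyp hy1) hyt φ hφ
  exact ⟨(n : G), fun x => by rw [← hn]; rfl⟩

/-- Let p be an odd prime and G a finite group with a Sylow p-subgroup P that is extraspecial of order p³ and exponent p. If all nonidentity elements of P are conjugate in G, then p ≤ 7. -/
theorem result {G : Type*} [Group G] [Finite G]
    {p : ℕ} [Fact p.Prime] (hp : p ≠ 2) (P : Sylow p G) (hE : Cfsg.IsExtraspecial p ↥P)
    (hcard : Nat.card P = p ^ 3) (hexp : Monoid.exponent ↥P = p)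
    (hconj : ∀ x y : ↥P, x ≠ 1 → y ≠ 1 → ∃ g : G, g * (x : G) * g⁻¹ = (y : G)) :
    p ≤ 7 := by
  classical
  have hpr : p.Prime := Fact.out
  haveI := finite_P2 (F := ZMod p)
  by_contra hp13
  push Not at hp13
  have hp17 : p = 11 ∨ p = 13 ∨ 17 ≤ p := by
    by_contra h
    push Not at h
    obtain ⟨h1, h2, h3⟩ := h
    interval_cases p <;> first | omega | (revert hpr; norm_num)
  have hexp' : ∀ w : ↥(P : Subgroup G), w ^ p = 1 := fun w => by
    have h := Monoid.pow_exponent_eq_one w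
    exact (congrArg (w ^ ·) hexp.symm).trans h
  have hncP : ¬ IsMulCommutative ↥(P : Subgroup G) := by
    intro hc
    have h1 : Subgroup.center ↥(P : Subgroup G) = ⊤ :=
      eq_top_iff.2 fun x _ => Subgroup.mem_center_iff.2 fun y => hc.is_comm.comm y x
    have h2 : Nat.card ↥(Subgroup.center ↥(P : Subgroup G)) = p := hE.2
    rw [h1, Subgroup.card_top, hcard] at h2
    have : p ^ 1 < p ^ 3 := Nat.pow_lt_pow_right hpr.one_lt (by norm_num)
    rw [pow_one] at this
    omega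
  have hH := heis hexp' hcard hncP
  haveI := hH.fin
  obtain ⟨kU, hkU⟩ := IsCyclic.exists_generator (α := (ZMod p)ˣ)
  have hkord : orderOf kU = p - 1 := by
    rw [orderOf_eq_card_of_forall_mem_zpowers hkU, Nat.card_eq_fintype_card, ZMod.card_units p]
  set κ : ℤ := ((kU : ZMod p).val : ℤ) with hκdef
  set μ : ℤ := (((kU⁻¹ : (ZMod p)ˣ) : ZMod p).val : ℤ) with hμdef
  have hκc : (κ : ZMod p) = kU := by rw [hκdef, Int.cast_natCast, ZMod.natCast_zmod_val]
  have hμc : (μ : ZMod p) = ((kU⁻¹ : (ZMod p)ˣ) : ZMod p) := by rw [hμdef, Int.cast_natCast, ZMod.natCast_zmod_val]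
  have hκμ : (p : ℤ) ∣ κ * μ - 1 := by
    rw [← ZMod.intCast_zmod_eq_zero_iff_dvd, Int.cast_sub, Int.cast_mul, hκc, hμc, Units.mul_inv, Int.cast_one, sub_self]
  set Z := Subgroup.center ↥(P : Subgroup G)
  obtain ⟨a₀', ha₀'⟩ : ∃ a₀' : ↥(P : Subgroup G), (QuotientGroup.mk a₀' : ↥(P : Subgroup G) ⧸ Z) ≠ 1 := by
    haveI : Nontrivial (↥(P : Subgroup G) ⧸ Z) := Finite.one_lt_card_iff_nontrivial.mp
      ((Nat.one_lt_pow two_ne_zero hpr.one_lt).trans_eq hH.cardV.symm)
    obtain ⟨q, hq⟩ := exists_ne (1 : ↥(P : Subgroup G) ⧸ Z)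
    obtain ⟨q', rfl⟩ := QuotientGroup.mk_surjective q
    exact ⟨q', hq⟩
  obtain ⟨b₀', hb₀'⟩ : ∃ b₀' : ↥(P : Subgroup G),
      (QuotientGroup.mk b₀' : ↥(P : Subgroup G) ⧸ Z) ∉ Subgroup.zpowers (QuotientGroup.mk a₀') := by
    by_contra h
    push Not at h
    have hh := Subgroup.card_le_of_le ((fun x _ => by
      obtain ⟨x', rfl⟩ := QuotientGroup.mk_surjective x; exact h x') :
        (⊤ : Subgroup (↥(P : Subgroup G) ⧸ Z)) ≤ Subgroup.zpowers (QuotientGroup.mk a₀'))
    rw [Subgroup.card_top, hH.cardV, Nat.card_zpowers, orderOf_eq_prime (hH.expV _) ha₀'] at hh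
    have h3 : p ^ 1 < p ^ 2 := Nat.pow_lt_pow_right hpr.one_lt (by norm_num)
    rw [pow_one] at h3
    omega
  set q : Fin 7 → ↥(P : Subgroup G) ⧸ Z := fun i =>
    QuotientGroup.mk b₀' * (QuotientGroup.mk a₀') ^ ((i : ℕ) : ℤ) with hqdef
  have hq1 : ∀ i, q i ≠ 1 := fun i h => hb₀' (by
    rw [mul_eq_one_iff_eq_inv] at h
    rw [h]
    exact Subgroup.inv_mem _ (Subgroup.zpow_mem_zpowers _ _))
  set A : Fin 7 → Subgroup G := fun i =>
    ((Subgroup.zpowers (q i)).comap (QuotientGroup.mk' Z)).map (P : Subgroup G).subtype with hAdef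
  have hAP : ∀ i, A i ≤ (P : Subgroup G) := fun i => Subgroup.map_subtype_le _
  have hAcard : ∀ i, Nat.card ↥(A i) = p ^ 2 := by
    intro i
    rw [hAdef]
    rw [← Nat.card_congr (Subgroup.equivMapOfInjective _ _ (P : Subgroup G).subtype_injective).toEquiv,
      CfsgLib.Hall.card_comap_mk', Nat.card_zpowers, orderOf_eq_prime (hH.expV _) (hq1 i), hH.cardZ, sq]
  have hA : Function.Injective A := by
    intro i j hij
    have h1 := Subgroup.comap_injective (QuotientGroup.mk'_surjective Z)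
      (Subgroup.map_injective (P : Subgroup G).subtype_injective hij)
    obtain ⟨k, hk⟩ := Subgroup.mem_zpowers_iff.1 (h1 ▸ Subgroup.mem_zpowers (q i) : q i ∈ Subgroup.zpowers (q j))
    set a' : ↥(P : Subgroup G) ⧸ Z := QuotientGroup.mk a₀'
    set b' : ↥(P : Subgroup G) ⧸ Z := QuotientGroup.mk b₀'
    have hVc := IsPGroup.commutative_of_card_eq_prime_sq hH.cardV
    have h2 : b' ^ k * a' ^ (((j : ℕ) : ℤ) * k) = b' * a' ^ ((i : ℕ) : ℤ) := by
      rw [_root_.zpow_mul, ← Commute.mul_zpow (hVc _ _)]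
      exact hk
    have h3 : b' ^ (k - 1) = a' ^ (((i : ℕ) : ℤ) - ((j : ℕ) : ℤ) * k) := by
      rw [_root_.zpow_sub, _root_.zpow_sub, zpow_one, mul_inv_eq_iff_eq_mul, eq_comm,
        mul_assoc, hVc ((a' ^ (((j : ℕ) : ℤ) * k))⁻¹), ← mul_assoc, mul_inv_eq_iff_eq_mul, hVc _ b']
      exact h2.symm
    have hk1 : (p : ℤ) ∣ k - 1 := by
      by_contra hnd
      obtain ⟨s, hs⟩ := exists_inv_mod (p := p) hnd
      refine hb₀' (Subgroup.mem_zpowers_iff.2 ⟨(((i : ℕ) : ℤ) - ((j : ℕ) : ℤ) * k) * s, ?_⟩)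
      show a' ^ _ = b'
      rw [_root_.zpow_mul, ← h3, ← _root_.zpow_mul,
        CfsgLib.RankTwoResistant.zpow_congr (hH.expV b') hs, zpow_one]
    rw [zpow_eq_one_of_dvd (hH.expV b') hk1] at h3
    have h4 := orderOf_dvd_iff_zpow_eq_one.2 h3.symm
    rw [orderOf_eq_prime (hH.expV a') ha₀'] at h4
    have h5 : (p : ℤ) ∣ ((i : ℕ) : ℤ) - ((j : ℕ) : ℤ) := by
      have : ((i : ℕ) : ℤ) - ((j : ℕ) : ℤ) = ((i : ℕ) : ℤ) - ((j : ℕ) : ℤ) * k + ((j : ℕ) : ℤ) * (k - 1) := by ring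
      rw [this]; exact dvd_add h4 (hk1.mul_left _)
    have hi7 := i.isLt
    have hj7 := j.isLt
    have h6 := Int.eq_zero_of_abs_lt_dvd h5 (abs_lt.2 ⟨by omega, by omega⟩)
    exact Fin.ext (by omega)
  have hSL := fun i => realized P hcard hexp' hH hconj (A i) (hAP i) (hAcard i)
  choose n a b z u r r' hn haA hz ha hb hna hnb _ using
    fun i => exists_elt P hcard hexp' hH (A i) (hAP i) (hAcard i) (hSL i) κ μ hκμ
  obtain ⟨a₀, ha₀⟩ : ∃ a₀ : ↥(P : Subgroup G) ⧸ Z, a₀ ≠ 1 := ⟨_, ha 0⟩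
  obtain ⟨b₀, hb₀⟩ : ∃ b₀ : ↥(P : Subgroup G) ⧸ Z, b₀ ∉ Subgroup.zpowers a₀ := by
    by_contra h
    push Not at h
    have hh := Subgroup.card_le_of_le (fun x _ => h x : (⊤ : Subgroup (↥(P : Subgroup G) ⧸ Z)) ≤ Subgroup.zpowers a₀)
    rw [Subgroup.card_top, hH.cardV, Nat.card_zpowers, orderOf_eq_prime (hH.expV a₀) ha₀] at hh
    have h3 : p ^ 1 < p ^ 2 := Nat.pow_lt_pow_right hpr.one_lt (by norm_num)
    rw [pow_one] at h3
    omega
  obtain ⟨e, -, -⟩ := exists_coord hH.cardV hH.expV ha₀ hb₀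
  obtain ⟨ψ, hψ⟩ := exists_matHom e
  set NP := Subgroup.normalizer ((P : Subgroup G) : Set G)
  let act : ↥NP →* MulAut (↥(P : Subgroup G) ⧸ Z) :=
    modCenter.comp (Subgroup.normalizerMonoidHom (P : Subgroup G))
  let Ψ : ↥NP →* P2 (ZMod p) := (pr.comp ψ).comp act
  have hker : (P : Subgroup G).subgroupOf NP ≤ Ψ.ker := by
    intro w hw
    have h1 : act w = 1 := by
      refine MulEquiv.ext fun v => ?_
      obtain ⟨y, rfl⟩ := QuotientGroup.mk_surjective v
      show (QuotientGroup.mk _ : ↥(P : Subgroup G) ⧸ Z) = QuotientGroup.mk y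
      have : (Subgroup.normalizerMonoidHom (P : Subgroup G) w y) =
          ⟨(w : G), Subgroup.mem_subgroupOf.1 hw⟩ * y * ⟨(w : G), Subgroup.mem_subgroupOf.1 hw⟩⁻¹ := Subtype.ext rfl
      refine (congrArg QuotientGroup.mk this).trans ?_
      rw [QuotientGroup.mk_mul, QuotientGroup.mk_mul, QuotientGroup.mk_inv,
        IsPGroup.commutative_of_card_eq_prime_sq hH.cardV (QuotientGroup.mk ⟨(w : G), _⟩ : ↥(P : Subgroup G) ⧸ Z)]
      group
    show Ψ w = 1
    show pr (ψ (act w)) = 1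
    rw [h1, map_one, map_one]
  have hp' : ¬ p ∣ Nat.card ↥Ψ.range := by
    intro h
    rw [← Subgroup.index_ker] at h
    have h2 : ¬ p ∣ ((P : Subgroup G).subgroupOf NP).index := by
      have := (P.subtype (Subgroup.le_normalizer : (P : Subgroup G) ≤ NP)).not_dvd_index
      rwa [Sylow.coe_subtype] at this
    exact h2 (h.trans (Subgroup.index_dvd_of_le hker))
  let v : Fin 7 → (Fin 2 → ZMod p) := fun i => Multiplicative.toAdd (e (QuotientGroup.mk (a i)))
  have hv : ∀ i, v i ≠ 0 := fun i h => ha i (e.injective (by rw [map_one]; exact h))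
  have hμ0 : (μ : ZMod p) ≠ 0 := by rw [hμc]; exact Units.ne_zero _
  have hzq : ∀ i (j : ℤ), (QuotientGroup.mk (z i ^ j) : ↥(P : Subgroup G) ⧸ Z) = 1 := fun i j =>
    (QuotientGroup.eq_one_iff _).2 (Subgroup.zpow_mem _ (hz i) j)
  have hsm : ∀ (x : ↥(P : Subgroup G) ⧸ Z) (k : ℤ),
      Multiplicative.toAdd (e (x ^ k)) = (k : ZMod p) • Multiplicative.toAdd (e x) := by
    intro x k
    rw [map_zpow, toAdd_zpow, Int.cast_smul_eq_zsmul]
  have hmv : ∀ i, (ψ (act ⟨n i, hn i⟩) : Matrix (Fin 2) (Fin 2) (ZMod p)) *ᵥ v i = (μ : ZMod p) • v i := by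
    intro i
    rw [← hψ]
    have : act ⟨n i, hn i⟩ (QuotientGroup.mk (a i)) = (QuotientGroup.mk (a i) : ↥(P : Subgroup G) ⧸ Z) ^ μ := by
      show QuotientGroup.mk _ = _
      have h1 : Subgroup.normalizerMonoidHom (P : Subgroup G) ⟨n i, hn i⟩ (a i) = a i ^ μ * z i ^ r i :=
        Subtype.ext ((hna i).trans (by simp))
      refine (congrArg QuotientGroup.mk h1).trans ?_
      rw [QuotientGroup.mk_mul, hzq, mul_one, QuotientGroup.mk_zpow]
    rw [this, hsm]
  have hmw : ∀ i, (ψ (act ⟨n i, hn i⟩) : Matrix (Fin 2) (Fin 2) (ZMod p)) *ᵥ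
      Multiplicative.toAdd (e (QuotientGroup.mk (b i))) =
      ((κ * κ : ℤ) : ZMod p) • Multiplicative.toAdd (e (QuotientGroup.mk (b i))) + (r' i : ZMod p) • v i := by
    intro i
    rw [← hψ]
    have : act ⟨n i, hn i⟩ (QuotientGroup.mk (b i)) =
        (QuotientGroup.mk (a i) : ↥(P : Subgroup G) ⧸ Z) ^ r' i * (QuotientGroup.mk (b i)) ^ (κ * κ) := by
      show QuotientGroup.mk _ = _
      have h1 : Subgroup.normalizerMonoidHom (P : Subgroup G) ⟨n i, hn i⟩ (b i) =
          a i ^ r' i * z i ^ (u i - r' i) * b i ^ (κ * κ) := Subtype.ext ((hnb i).trans (by simp))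
      refine (congrArg QuotientGroup.mk h1).trans ?_
      rw [QuotientGroup.mk_mul, QuotientGroup.mk_mul, hzq, mul_one, QuotientGroup.mk_zpow, QuotientGroup.mk_zpow]
    rw [this, map_mul, toAdd_mul, hsm, hsm, add_comm]
  refine no_seven p Ψ.range hp' (fun i => Ψ ⟨n i, hn i⟩) (fun i => pt (v i)) ?_ (fun i => ⟨_, rfl⟩) ?_ ?_
  · intro i j hij
    obtain ⟨d, hd⟩ := pt_inj (hv i) hij
    apply hA
    have hmk : (QuotientGroup.mk (a j) : ↥(P : Subgroup G) ⧸ Z) = QuotientGroup.mk (a i ^ (d.val : ℤ)) := by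
      apply e.injective
      apply Multiplicative.toAdd.injective
      rw [QuotientGroup.mk_zpow, hsm]
      simpa using hd
    have hle : ∀ i, ((Z.map (P : Subgroup G).subtype ⊔ Subgroup.zpowers ((a i : ↥(P : Subgroup G)) : G))) = A i := by
      intro i
      have hAc := IsPGroup.commutative_of_card_eq_prime_sq (hAcard i)
      have hZA : ∀ c ∈ Z, ((c : ↥(P : Subgroup G)) : G) ∈ A i := by
        intro c hc
        by_contra hcA
        have hlt : (A i).subgroupOf (P : Subgroup G) < (A i).subgroupOf (P : Subgroup G) ⊔ Subgroup.zpowers c :=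
          lt_of_le_of_ne le_sup_left fun e' => hcA
            (Subgroup.mem_subgroupOf.1 (e'.symm ▸ Subgroup.mem_sup_right (Subgroup.mem_zpowers c)))
        set B := (A i).subgroupOf (P : Subgroup G) ⊔ Subgroup.zpowers c
        obtain ⟨k, hk, hk'⟩ := (Nat.dvd_prime_pow hpr).1 ((Subgroup.card_subgroup_dvd_card B).trans hcard.dvd)
        have h2 : p ^ 2 < Nat.card ↥B := by
          rw [← hAcard i, ← Nat.card_congr (Subgroup.subgroupOfEquivOfLe (hAP i)).toEquiv]
          exact lt_of_not_ge fun h => hlt.ne (Subgroup.eq_of_le_of_card_ge hlt.le h)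
        rw [hk'] at h2
        have := (Nat.pow_lt_pow_iff_right hpr.one_lt).1 h2
        have hBtop : B = ⊤ := Subgroup.eq_top_of_card_eq B (by rw [hk', show k = 3 by omega]; exact hcard.symm)
        apply ha i
        rw [QuotientGroup.eq_one_iff]
        have hle' : B ≤ Subgroup.centralizer {a i} := sup_le
          (fun y hy => Subgroup.mem_centralizer_iff.2 fun w hw => by
            rw [Set.mem_singleton_iff.mp hw]
            refine Subtype.ext ?_
            have h5 := hAc (⟨_, haA i⟩ : ↥(A i)) ⟨_, Subgroup.mem_subgroupOf.1 hy⟩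
            exact congrArg (fun t : ↥(A i) => (t : G)) h5)
          (Subgroup.zpowers_le.mpr (Subgroup.mem_centralizer_iff.2 fun w hw => by
            rw [Set.mem_singleton_iff.mp hw]; exact Subgroup.mem_center_iff.1 hc (a i)))
        exact Subgroup.mem_center_iff.2 fun y =>
          ((Subgroup.mem_centralizer_iff.1 (hle' (hBtop ▸ Subgroup.mem_top y))) (a i) rfl).symm
      refine Subgroup.eq_of_le_of_card_ge (sup_le ?_ (Subgroup.zpowers_le.mpr (haA i))) ?_
      · rintro _ ⟨c, hc, rfl⟩; exact hZA c hc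
      · rw [hAcard i]
        have hltB : Z.map (P : Subgroup G).subtype <
            Z.map (P : Subgroup G).subtype ⊔ Subgroup.zpowers ((a i : ↥(P : Subgroup G)) : G) :=
          lt_of_le_of_ne le_sup_left fun e' => by
            have : ((a i : ↥(P : Subgroup G)) : G) ∈ Z.map (P : Subgroup G).subtype :=
              e'.symm ▸ Subgroup.mem_sup_right (Subgroup.mem_zpowers _)
            obtain ⟨c, hc, hca⟩ := this
            exact ha i ((QuotientGroup.eq_one_iff _).2 (Subtype.ext hca ▸ hc))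
        set B := Z.map (P : Subgroup G).subtype ⊔ Subgroup.zpowers ((a i : ↥(P : Subgroup G)) : G)
        have hBP : B ≤ (P : Subgroup G) := sup_le (Subgroup.map_subtype_le _) (Subgroup.zpowers_le.mpr (a i).2)
        obtain ⟨k, hk, hk'⟩ := (Nat.dvd_prime_pow hpr).1 ((Subgroup.card_dvd_of_le hBP).trans hcard.dvd)
        have h2 : p ^ 1 < Nat.card ↥B := by
          rw [pow_one, ← hH.cardZ, Nat.card_congr (Z.equivMapOfInjective _ (P : Subgroup G).subtype_injective).toEquiv]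
          exact lt_of_not_ge fun h => hltB.ne (Subgroup.eq_of_le_of_card_ge hltB.le h)
        rw [hk'] at h2 ⊢
        exact Nat.pow_le_pow_right hpr.pos ((Nat.pow_lt_pow_iff_right hpr.one_lt).1 h2)
    rw [← hle i, ← hle j]
    have hai : ((a j : ↥(P : Subgroup G)) : G) ∈ A i := by
      rw [← hle i]
      rw [eq_comm, QuotientGroup.eq] at hmk
      have : ((a j : ↥(P : Subgroup G)) : G) =
          ((a i : ↥(P : Subgroup G)) : G) ^ (d.val : ℤ) * (((a i ^ (d.val : ℤ))⁻¹ * a j : ↥(P : Subgroup G)) : G) := by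
        simp [← mul_assoc]
      rw [this]
      exact mul_mem (Subgroup.zpow_mem _ (Subgroup.mem_sup_right (Subgroup.mem_zpowers _)) _)
        (Subgroup.mem_sup_left ⟨_, hmk, rfl⟩)
    refine (Subgroup.eq_of_le_of_card_ge ?_ ?_).symm
    · rw [hle j, hle i]
      rw [← hle j]
      exact sup_le (le_sup_left.trans (hle i).le) (Subgroup.zpowers_le.mpr hai)
    · rw [hle i, hle j, hAcard i, hAcard j]
  · intro i
    have hpos : 0 < orderOf (Ψ ⟨n i, hn i⟩) := orderOf_pos _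
    have hk3 : (κ : ZMod p) ^ (3 * orderOf (Ψ ⟨n i, hn i⟩)) = 1 := by
      refine scalar_eigen (hv i) ?_ (hmv i) (hmw i) ?_ (by push_cast; ring) (pow_orderOf_eq_one _)
      · intro d hd
        refine hb i (Subgroup.mem_zpowers_iff.2 ⟨(d.val : ℤ), ?_⟩)
        apply e.injective
        apply Multiplicative.toAdd.injective
        rw [hsm]
        simpa using hd.symm
      · rw [hκc, hμc, ← Units.val_mul, inv_mul_cancel, Units.val_one]
    rw [hκc, ← Units.val_pow_eq_pow_val, Units.val_eq_one, ← orderOf_dvd_iff_pow_eq_one, hkord] at hk3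
    rcases hp17 with h | h | h
    · have h2 : 11 - 1 ∣ 3 * orderOf (Ψ ⟨n i, hn i⟩) := by rw [← h]; exact hk3
      left; omega
    · have h2 : 13 - 1 ∣ 3 * orderOf (Ψ ⟨n i, hn i⟩) := by rw [← h]; exact hk3
      right; omega
    · have := Nat.le_of_dvd (by omega) hk3
      left; omega
  · intro i
    exact pt_fixed hμ0 (hv i) (hmv i)

end Cfsg.Agent.S3055
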