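import Cfsg.Statements.S3056
import Cfsg.Agent.LocalLemmas.SylowGraph
import Mathlib.Tactic.FinCases
import Mathlib.Logic.Relation
import Mathlib.Data.Fin.Tuple.Basic

set_option autoImplicit false
open Cfsg

namespace Cfsg.Agent.S3056

/-- Adjacency of Sylow subgroups. -/
def Adj {G : Type*} [Group G] {p : ℕ} (a b : Sylow p G) : Prop := a ≠ b ∧ (a : Subgroup G) ⊓ (b : Subgroup G) ≠ ⊥

theorem exists_path {G : Type*} [Group G] {p : ℕ} {a b : Sylow p G} (h : Relation.ReflTransGen Adj a b) :
    ∃ (n : ℕ) (c : Fin (n + 1) → Sylow p G), c 0 = a ∧ c (Fin.last n) = b ∧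
      ∀ i : Fin n, Adj (c i.castSucc) (c i.succ) := by
  induction h with
  | refl => exact ⟨0, fun _ => a, rfl, rfl, fun i => i.elim0⟩
  | @tail b' c' _ hadj ih =>
    obtain ⟨n, c, h0, hn, hc⟩ := ih
    refine ⟨n + 1, Fin.snoc c c', ?_, by simp, fun i => ?_⟩
    · rw [show (0 : Fin (n + 2)) = (0 : Fin (n + 1)).castSucc from rfl, Fin.snoc_castSucc, h0]
    · refine Fin.lastCases ?_ (fun j => ?_) i
      · rw [Fin.succ_last, Fin.snoc_last, Fin.snoc_castSucc, hn]; exact hadj
      · rw [Fin.snoc_castSucc, Fin.succ_castSucc, Fin.snoc_castSucc]; exact hc j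

/-- Let G be a finite group and p a prime. Join two Sylow p-subgroups when they are distinct and meet nontrivially. This graph on the Sylow p-subgroups is disconnected (the Sylow p-subgroups are not chain-connected through nontrivial intersections) if and only if G has a strongly p-embedded subgroup in the classical sense: a proper subgroup H of order divisible by p such that H ∩ gHg⁻¹ has order prime to p for every g outside H. -/
theorem result {G : Type*} [Group G] [Finite G]
    (p : ℕ) [Fact p.Prime] :
    ¬ Cfsg.IsSylowChainConnected p G ↔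
      ∃ H : Subgroup G, H ≠ ⊤ ∧ p ∣ Nat.card H ∧
        ∀ g : G, g ∉ H → ¬ p ∣ Nat.card ↥(H ⊓ H.map (MulAut.conj g).toMonoidHom) := by
  classical
  constructor
  · intro hnc
    obtain ⟨S, T, hno⟩ : ∃ S T : Sylow p G, ¬ Relation.ReflTransGen Adj S T := by
      by_contra hcon
      push Not at hcon
      refine hnc fun S T => ?_
      by_cases hST : S = T
      · subst hST; exact ⟨0, fun _ => S, rfl, rfl, fun _ => inf_le_left, fun i => i.elim0⟩
      by_cases hne : (S : Subgroup G) ⊓ (T : Subgroup G) = ⊥
      · obtain ⟨n, c, h0, hn, hc⟩ := exists_path (hcon S T)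
        exact ⟨n, c, h0, hn, fun i => hne ▸ bot_le, hc⟩
      · refine ⟨1, ![S, T], rfl, rfl, fun i => ?_, fun i => ?_⟩
        · fin_cases i <;> simp
        · fin_cases i; exact ⟨hST, hne⟩
    have hequiv : ∀ g : G, ∀ {a b : Sylow p G}, Relation.ReflTransGen Adj a b → Relation.ReflTransGen Adj (g • a) (g • b) := by
      intro g a b h
      induction h with
      | refl => exact .refl
      | tail _ hadj ih =>
        refine ih.tail ⟨fun e => hadj.1 (smul_left_cancel g e), fun e => hadj.2 ?_⟩
        rw [CfsgLib.SylowGraph.coe_smul_sylow, CfsgLib.SylowGraph.coe_smul_sylow,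
          ← Subgroup.map_inf _ _ _ (MulAut.conj g).injective] at e
        exact (Subgroup.map_eq_bot_iff_of_injective _ (MulAut.conj g).injective).mp e
    have hsymm : ∀ {a b : Sylow p G}, Relation.ReflTransGen Adj a b → Relation.ReflTransGen Adj b a := by
      intro a b h
      induction h with
      | refl => exact .refl
      | tail _ hadj ih =>
        refine Relation.ReflTransGen.head ⟨hadj.1.symm, fun e => hadj.2 ?_⟩ ih
        rwa [inf_comm] at e
    let H : Subgroup G :=
      { carrier := {g | Relation.ReflTransGen Adj S (g • S)}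
        one_mem' := by show Relation.ReflTransGen Adj S ((1 : G) • S); rw [one_smul]
        mul_mem' := by
          intro a b ha hb
          show Relation.ReflTransGen Adj S ((a * b) • S)
          rw [mul_smul]; exact ha.trans (hequiv a hb)
        inv_mem' := by
          intro a ha
          show Relation.ReflTransGen Adj S (a⁻¹ • S)
          have := hequiv a⁻¹ (hsymm ha)
          rwa [inv_smul_smul] at this }
    have hSH : (S : Subgroup G) ≤ H := fun s hs => by
      show Relation.ReflTransGen Adj S (s • S)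
      rw [Sylow.smul_eq_iff_mem_normalizer.mpr (Subgroup.le_normalizer hs)]
    have hpH : p ∣ Nat.card H := by
      refine Dvd.dvd.trans ?_ (Subgroup.card_dvd_of_le hSH)
      have hS1 : (S : Subgroup G) ≠ ⊥ := fun h => hno (by
        have e : S = T := Sylow.ext (h.trans (Subgroup.eq_bot_of_card_eq _
          (T.card_eq_multiplicity.trans (S.card_eq_multiplicity.symm.trans (by rw [h, Subgroup.card_bot])))).symm)
        rw [e])
      obtain ⟨k, hk0, hk⟩ := S.isPGroup'.nontrivial_iff_card.mp ((Subgroup.nontrivial_iff_ne_bot _).mpr hS1)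
      exact hk ▸ dvd_pow_self p (by omega)
    refine ⟨H, fun htop => ?_, hpH, fun g hg hd => ?_⟩
    · obtain ⟨a, ha⟩ := MulAction.exists_smul_eq G S T
      exact hno (ha ▸ (htop.ge (Subgroup.mem_top a) : a ∈ H))
    · obtain ⟨x, hx⟩ := exists_prime_orderOf_dvd_card' p hd
      have hx1 : (x : G) ≠ 1 := fun e => (Fact.out : p.Prime).ne_one (by
        rw [← hx, ← Subgroup.orderOf_coe x, e, orderOf_one])
      have key : ∀ y : G, y ∈ H → orderOf y = p → ∃ h ∈ H, y ∈ (h • S : Sylow p G) := by
        intro y hy hyo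
        obtain ⟨h, hh, hle⟩ := CfsgLib.LocalLemmas.exists_conj_le_of_le S hSH (Subgroup.zpowers_le.mpr hy)
          (IsPGroup.of_card (n := 1) (by rw [Nat.card_zpowers, hyo, pow_one]))
        exact ⟨h, hh, hle (Subgroup.mem_zpowers y)⟩
      have hxH : (x : G) ∈ H ∧ g⁻¹ * x * g ∈ H := ⟨x.2.1, CfsgLib.LocalLemmas.mem_conjMap.mp x.2.2⟩
      obtain ⟨h1, hh1, hm1⟩ := key x hxH.1 (by rw [Subgroup.orderOf_coe, hx])
      obtain ⟨h2, hh2, hm2⟩ := key (g⁻¹ * x * g) hxH.2 (by
        rw [show g⁻¹ * (x : G) * g = MulAut.conj g⁻¹ (x : G) by simp, MulEquiv.orderOf_eq, Subgroup.orderOf_coe, hx])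
      have hm3 : (x : G) ∈ ((g * h2) • S : Sylow p G) := by
        have := CfsgLib.SylowGraph.mem_smul_iff.mp hm2
        refine CfsgLib.SylowGraph.mem_smul_iff.mpr ?_
        simpa [mul_assoc] using this
      have hlink : Relation.ReflTransGen Adj S ((g * h2) • S) := by
        by_cases e : (h1 • S : Sylow p G) = (g * h2) • S
        · exact e ▸ hh1
        · refine Relation.ReflTransGen.tail hh1 ⟨e, fun h => hx1 ?_⟩
          have : (x : G) ∈ ((h1 • S : Sylow p G) : Subgroup G) ⊓ (((g * h2) • S : Sylow p G) : Subgroup G) := ⟨hm1, hm3⟩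
          rwa [h, Subgroup.mem_bot] at this
      have : g * h2 ∈ H := hlink
      exact hg (by simpa using H.mul_mem this (H.inv_mem hh2))
  · rintro ⟨H, hH, hpH, hse⟩ hc
    obtain ⟨S, hSH, hS1⟩ := CfsgLib.SylowGraph.exists_sylow_le hse hpH
    obtain ⟨g, hg⟩ : ∃ g : G, g ∉ H := by
      by_contra hcon; push Not at hcon; exact hH (eq_top_iff.mpr fun g _ => hcon g)
    have hT : ¬ ((g • S : Sylow p G) : Subgroup G) ≤ H := fun hle => by
      refine hse g hg (Dvd.dvd.trans ?_ (Subgroup.card_dvd_of_le
        (le_inf hle (CfsgLib.LocalLemmas.conjMap_mono hSH))))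
      obtain ⟨k, hk0, hk⟩ := (g • S).isPGroup'.nontrivial_iff_card.mp ((Subgroup.nontrivial_iff_ne_bot _).mpr
        fun e => hS1 ((Subgroup.map_eq_bot_iff_of_injective _ (MulAut.conj g).injective).mp e))
      exact hk ▸ dvd_pow_self p (by omega)
    obtain ⟨n, c, h0, hn, -, hadj⟩ := hc S (g • S)
    have hall : ∀ i : Fin (n + 1), (c i : Subgroup G) ≤ H := by
      intro i
      induction i using Fin.induction with
      | zero => rw [h0]; exact hSH
      | succ j ih =>
        refine CfsgLib.SylowGraph.le_of_inf_ne_bot hse (c j.succ).isPGroup' fun e => (hadj j).2 ?_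
        rw [eq_bot_iff, ← e]
        exact le_inf inf_le_right (inf_le_left.trans ih)
    exact hT (hn ▸ hall (Fin.last n))

end Cfsg.Agent.S3056
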