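import Cfsg.Statements.S3057
import Cfsg.Agent.PCore.PConstrained
import Cfsg.Agent.RankOneP.Basic
import Cfsg.Agent.CoprimeAction.Invariant

set_option autoImplicit false
open Cfsg

namespace Cfsg.Agent.S3057

section Aux

variable {G : Type*} [Group G] [Finite G] {p : ℕ} [Fact p.Prime]

/-- meeting Sylow subgroups. -/
def Adj (A B : Sylow p G) : Prop := (A : Subgroup G) ⊓ (B : Subgroup G) ≠ ⊥

omit [Finite G] [Fact p.Prime] in
theorem connected_of_conn (h : ∀ S T : Sylow p G, Relation.ReflTransGen Adj S T) :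
    Cfsg.IsSylowChainConnected p G := by
  intro S T
  by_cases hST : (S : Subgroup G) ⊓ (T : Subgroup G) = ⊥
  · have key : ∀ U, Relation.ReflTransGen Adj S U →
        ∃ (n : ℕ) (c : Fin (n + 1) → Sylow p G), c 0 = S ∧ c (Fin.last n) = U ∧
          ∀ i : Fin n, c i.castSucc ≠ c i.succ ∧
            (c i.castSucc : Subgroup G) ⊓ (c i.succ : Subgroup G) ≠ ⊥ := by
      intro U hU
      induction hU with
      | refl => exact ⟨0, fun _ => S, rfl, rfl, fun i => i.elim0⟩
      | @tail A B _ hAB ih =>
        obtain ⟨n, c, h0, h1, h2⟩ := ih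
        by_cases e : A = B
        · exact ⟨n, c, h0, h1.trans e, h2⟩
        refine ⟨n + 1, Fin.snoc c B, ?_, Fin.snoc_last _ _, fun i => ?_⟩
        · rw [← Fin.castSucc_zero, Fin.snoc_castSucc, h0]
        · induction i using Fin.lastCases with
          | last =>
            rw [Fin.succ_last, Fin.snoc_last, Fin.snoc_castSucc, h1]
            exact ⟨e, hAB⟩
          | cast j =>
            rw [← Fin.castSucc_succ, Fin.snoc_castSucc, Fin.snoc_castSucc]
            exact h2 j
    obtain ⟨n, c, h0, h1, h2⟩ := key T (h S T)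
    exact ⟨n, c, h0, h1, fun i => by rw [hST]; exact bot_le, h2⟩
  · by_cases e : S = T
    · exact ⟨0, fun _ => S, rfl, e, fun _ => inf_le_left, fun i => i.elim0⟩
    refine ⟨1, ![S, T], rfl, rfl, fun i => ?_, fun i => ?_⟩
    · fin_cases i
      · exact inf_le_left
      · exact inf_le_right
    · fin_cases i
      exact ⟨e, hST⟩

theorem conn_of_connected (h : Cfsg.IsSylowChainConnected p G) (S T : Sylow p G) :
    Relation.ReflTransGen Adj S T := by
  obtain ⟨n, c, h0, h1, -, h2⟩ := h S T
  have : ∀ i : Fin (n + 1), Relation.ReflTransGen Adj S (c i) := by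
    intro i
    induction i using Fin.induction with
    | zero => rw [h0]
    | succ j ih => exact ih.tail (h2 j).2
  exact h1 ▸ this (Fin.last n)

omit [Finite G] [Fact p.Prime] in
theorem Adj.smul {A B : Sylow p G} (h : Adj A B) (g : G) : Adj (g • A) (g • B) := by
  intro e
  apply h
  rw [eq_bot_iff]
  intro x hx
  have : MulAut.conj g x ∈ ((g • A : Sylow p G) : Subgroup G) ⊓ ((g • B : Sylow p G) : Subgroup G) :=
    ⟨⟨x, hx.1, rfl⟩, ⟨x, hx.2, rfl⟩⟩
  rw [e, Subgroup.mem_bot] at this
  rw [Subgroup.mem_bot]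
  exact (MulAut.conj g).injective (this.trans (map_one _).symm)

omit [Finite G] [Fact p.Prime] in
theorem conn_smul {A B : Sylow p G} (h : Relation.ReflTransGen Adj A B) (g : G) :
    Relation.ReflTransGen Adj (g • A) (g • B) :=
  h.lift (fun C => g • C) fun _ _ hh => hh.smul g

omit [Finite G] [Fact p.Prime] in
theorem conn_symm {A B : Sylow p G} (h : Relation.ReflTransGen Adj A B) :
    Relation.ReflTransGen Adj B A := by
  induction h with
  | refl => exact .refl
  | @tail C D _ hCD ih => exact Relation.ReflTransGen.head (by rw [Adj, inf_comm]; exact hCD) ih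

theorem uniqueOrder_of_equiv {A B : Type*} [Group A] [Group B] (e : A ≃* B)
    (h : CfsgLib.RankOneP.UniqueOrderP p A) : CfsgLib.RankOneP.UniqueOrderP p B := by
  intro x y hx hy hx1
  obtain ⟨k, hk⟩ := h (e.symm x) (e.symm y) (by rw [← map_pow, hx, map_one])
    (by rw [← map_pow, hy, map_one]) (fun h1 => hx1 (e.symm.injective (h1.trans (map_one _).symm)))
  refine ⟨k, ?_⟩
  have := congrArg e hk
  simpa [map_zpow] using this

theorem uniqueOrder_iff (P : Sylow p G) (hP : (P : Subgroup G) ≠ ⊥) :
    CfsgLib.RankOneP.UniqueOrderP p P ↔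
      (IsCyclic ↥P ∨ (p = 2 ∧ ∃ n : ℕ, Nonempty (↥P ≃* QuaternionGroup (2 ^ n)))) := by
  constructor
  · intro h
    rcases CfsgLib.RankOneP.isCyclic_or_quaternion P.isPGroup' h with h' | ⟨h2, k, -, e⟩
    · exact Or.inl h'
    · exact Or.inr ⟨h2, k, e⟩
  · intro hc
    rcases hc with hc | ⟨rfl, n, ⟨e⟩⟩
    · intro x y hx hy hx1
      have hox := orderOf_eq_prime hx hx1
      by_cases hy1 : y = 1
      · rw [hy1]; exact Subgroup.one_mem _
      haveI := hc
      rw [CfsgLib.RankOneP.zpowers_eq_of_orderOf_eq (hox.trans (orderOf_eq_prime hy hy1).symm)]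
      exact Subgroup.mem_zpowers y
    · refine uniqueOrder_of_equiv e.symm ?_
      haveI : NeZero (2 ^ n) := ⟨by positivity⟩
      haveI : NeZero (2 * 2 ^ n) := ⟨by positivity⟩
      have key : ∀ z : QuaternionGroup (2 ^ n), z ^ 2 = 1 → z ≠ 1 →
          z = QuaternionGroup.a ((2 ^ n : ℕ) : ZMod (2 * 2 ^ n)) := by
        intro z hz hz1
        cases z with
        | a i =>
          congr 1
          rw [pow_two, QuaternionGroup.a_mul_a, QuaternionGroup.one_def] at hz
          have h0 : ((i.val + i.val : ℕ) : ZMod (2 * 2 ^ n)) = 0 := by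
            rw [Nat.cast_add, ZMod.natCast_zmod_val]
            injection hz
          rw [ZMod.natCast_eq_zero_iff] at h0
          have hlt := ZMod.val_lt i
          have hi0 : i.val ≠ 0 := fun h => hz1 (by
            rw [QuaternionGroup.one_def, (ZMod.val_eq_zero i).mp h])
          obtain ⟨c, hc'⟩ := h0
          have : i.val = 2 ^ n := by
            rcases c with _ | _ | c
            · omega
            · omega
            · exfalso
              nlinarith
          exact (ZMod.natCast_zmod_val i).symm.trans (congrArg Nat.cast this)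
        | xa i =>
          exfalso
          have := orderOf_dvd_of_pow_eq_one hz
          rw [QuaternionGroup.orderOf_xa] at this
          norm_num at this
      intro x y hx hy hx1
      by_cases hy1 : y = 1
      · rw [hy1]; exact Subgroup.one_mem _
      rw [key y hy hy1, ← key x hx hx1]
      exact Subgroup.mem_zpowers x

theorem pCore_le_sylow (S : Sylow p G) : Cfsg.pCore p G ≤ (S : Subgroup G) := by
  refine sSup_le fun N hN => ?_
  obtain ⟨Q, hQ⟩ := hN.2.exists_le_sylow
  obtain ⟨g, hg⟩ := MulAction.exists_smul_eq G S Q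
  intro x hx
  have : g * x * g⁻¹ ∈ (Q : Subgroup G) := hQ (hN.1.conj_mem x hx g)
  rw [← hg] at this
  obtain ⟨y, hy, e⟩ := this
  have e' : g * y * g⁻¹ = g * x * g⁻¹ := e
  rw [← mul_left_cancel (mul_right_cancel e')]
  exact hy

theorem mem_pCore_of_forall {z : G} (h : ∀ Q : Sylow p G, z ∈ (Q : Subgroup G)) : z ∈ Cfsg.pCore p G := by
  let D : Subgroup G := ⨅ Q : Sylow p G, (Q : Subgroup G)
  have hz : z ∈ D := Subgroup.mem_iInf.mpr h
  have hn : D.Normal := by
    constructor
    intro x hx g
    rw [Subgroup.mem_iInf] at hx ⊢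
    intro Q
    obtain ⟨y, hy, e⟩ := hx (g⁻¹ • Q)
    have e' : g⁻¹ * y * g⁻¹⁻¹ = x := e
    rw [← e']
    have : g * (g⁻¹ * y * g⁻¹⁻¹) * g⁻¹ = y := by group
    rw [this]; exact hy
  have hp' : IsPGroup p D := by
    obtain ⟨Q⟩ : Nonempty (Sylow p G) := inferInstance
    exact Q.isPGroup'.to_le (iInf_le _ Q)
  exact le_sSup (show D ∈ {N : Subgroup G | N.Normal ∧ IsPGroup p N} from ⟨hn, hp'⟩) hz

theorem sylow_equiv (P Q : Sylow p G) : Nonempty (↥(P : Subgroup G) ≃* ↥(Q : Subgroup G)) := ⟨Sylow.equiv P Q⟩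

theorem connected_of_not_unique (hdiv : p ∣ Nat.card G) (hsol : Cfsg.IsPSolvable p G)
    (hu : ∀ P : Sylow p G, ¬ CfsgLib.RankOneP.UniqueOrderP p P) (S T : Sylow p G) :
    Relation.ReflTransGen Adj S T := by
  classical
  have hp := (Fact.out : p.Prime)
  set N := Cfsg.pPrimeCore p G with hN
  have hNc : (Nat.card N).Coprime p := CfsgLib.PCore.pPrimeCore_coprime p G
  haveI hNn : N.Normal := inferInstance
  let π := QuotientGroup.mk' N
  have hπ : Function.Surjective π := QuotientGroup.mk'_surjective N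
  set L := (Cfsg.pCore p (G ⧸ N)).comap π with hL
  haveI hcn : (Cfsg.pCore p (G ⧸ N)).Normal := inferInstance
  haveI hLn : L.Normal := inferInstance
  have hcne : Cfsg.pCore p (G ⧸ N) ≠ ⊥ := by
    intro h
    have h1 := CfsgLib.PCore.hall_higman (CfsgLib.PCore.isPSolvable_quotient hsol N)
      CfsgLib.PCore.pPrimeCore_quotient
    rw [h] at h1
    have htop : ∀ x : G ⧸ N, x = 1 := fun x =>
      Subgroup.mem_bot.mp (h1 (by rw [Subgroup.mem_centralizer_iff]; simp))
    have : N = ⊤ := (Subgroup.eq_top_iff' _).mpr fun g => (QuotientGroup.eq_one_iff g).mp (htop _)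
    rw [this, Subgroup.card_top] at hNc
    exact (hp.coprime_iff_not_dvd.mp hNc.symm) hdiv
  -- a Sylow subgroup containing one of `L`
  obtain ⟨Q2⟩ : Nonempty (Sylow p L) := inferInstance
  obtain ⟨P, hP⟩ := (Q2.isPGroup'.map L.subtype).exists_le_sylow
  have hLP : L ≤ N ⊔ (P : Subgroup G) := by
    intro x hx
    have hmem := pCore_le_sylow (P.mapSurjective hπ) (show π x ∈ Cfsg.pCore p (G ⧸ N) from hx)
    rw [Sylow.coe_mapSurjective] at hmem
    have h2 : x ∈ ((P : Subgroup G).map π).comap π := hmem
    rw [Subgroup.comap_map_eq, QuotientGroup.ker_mk', sup_comm] at h2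
    exact h2
  have hQ2ne : (Q2 : Subgroup L).map L.subtype ≠ ⊥ := by
    intro h
    rw [Subgroup.map_eq_bot_iff_of_injective _ L.subtype_injective] at h
    have hdL : p ∣ Nat.card L := by
      obtain ⟨⟨y, hy⟩, hy1⟩ := Subgroup.ne_bot_iff_exists_ne_one.mp hcne
      obtain ⟨k, hk⟩ := CfsgLib.PCore.isPGroup_pCore p (G ⧸ N) ⟨y, hy⟩
      obtain ⟨j, -, hj⟩ := (Nat.dvd_prime_pow hp).mp (orderOf_dvd_of_pow_eq_one (congrArg Subtype.val hk))
      obtain ⟨x, rfl⟩ := hπ y
      have hd : orderOf (π x) ∣ Nat.card L :=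
        (orderOf_map_dvd π x).trans (Subgroup.orderOf_dvd_natCard L hy)
      rcases j with _ | j
      · rw [pow_zero] at hj
        exact absurd (Subtype.ext (orderOf_eq_one_iff.mp hj)) hy1
      · exact (dvd_pow_self p j.succ_ne_zero).trans (hj ▸ hd)
    exact Q2.ne_bot_of_dvd_card hdL h
  have hsm : ∀ g : G, ∀ {x : G}, x ∈ (P : Subgroup G) → g * x * g⁻¹ ∈ ((g • P : Sylow p G) : Subgroup G) :=
    fun g x hx => ⟨x, hx, rfl⟩
  let D : Subgroup G :=
    { carrier := {g | Relation.ReflTransGen Adj P (g • P)}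
      one_mem' := by simpa using Relation.ReflTransGen.refl
      mul_mem' := fun {g h} hg hh => by
        show Relation.ReflTransGen Adj P ((g * h) • P)
        rw [mul_smul]
        exact hg.trans (conn_smul hh g)
      inv_mem' := fun {g} hg => by
        have := conn_smul (conn_symm hg) g⁻¹
        rwa [inv_smul_smul] at this }
  have hPD : (P : Subgroup G) ≤ D := by
    intro g hg
    show Relation.ReflTransGen Adj P (g • P)
    rw [Sylow.smul_eq_iff_mem_normalizer.mpr (Subgroup.le_normalizer hg)]
  have hnd : Subgroup.normalizer (((Q2 : Subgroup L).map L.subtype : Subgroup G) : Set G) ≤ D := by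
    intro g hg
    refine Relation.ReflTransGen.single fun e => hQ2ne ?_
    rw [eq_bot_iff]
    intro x hx
    have hx' : g⁻¹ * x * g ∈ (Q2 : Subgroup L).map L.subtype := by
      have := (Subgroup.mem_normalizer_iff.mp (inv_mem hg) x).mp hx
      rwa [inv_inv] at this
    have h2 : x ∈ ((g • P : Sylow p G) : Subgroup G) := by
      have := hsm g (hP hx')
      have e2 : g * (g⁻¹ * x * g) * g⁻¹ = x := by group
      rwa [e2] at this
    have h3 : x ∈ (P : Subgroup G) ⊓ ((g • P : Sylow p G) : Subgroup G) := ⟨hP hx, h2⟩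
    rwa [e] at h3
  have hND : N ≤ D := by
    -- a noncyclic abelian subgroup of `P`
    obtain ⟨A, hAc, hAp, hAcard⟩ : ∃ A : Subgroup ↥(P : Subgroup G), IsMulCommutative A ∧
        (∀ a ∈ A, a ^ p = 1) ∧ p < Nat.card A := by
      by_contra hcon
      push Not at hcon
      exact hu P (CfsgLib.RankOneP.unique_of_rank_le_one P.isPGroup' fun A h1 h2 => hcon A h1 h2)
    set A' := A.map (P : Subgroup G).subtype with hA'
    haveI := hAc
    haveI : IsMulCommutative A' := Subgroup.map_isMulCommutative A _
    have hA'P : A' ≤ (P : Subgroup G) := Subgroup.map_subtype_le _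
    have hAnc : ¬ IsCyclic A' := by
      intro hc
      haveI := hc
      have hexp : ∀ a : A', a ^ p = 1 := by
        rintro ⟨_, a, ha, rfl⟩
        apply Subtype.ext
        show ((a : G)) ^ p = 1
        rw [← SubgroupClass.coe_pow, hAp a ha]; rfl
      obtain ⟨g, hg⟩ := IsCyclic.exists_generator (α := A')
      have := Nat.le_of_dvd hp.pos (orderOf_dvd_of_pow_eq_one (hexp g))
      rw [orderOf_eq_card_of_forall_mem_zpowers hg,
        Subgroup.card_map_of_injective (Subgroup.subtype_injective _)] at this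
      omega
    have hAN : A' ≤ Subgroup.normalizer (N : Set G) := by
      rw [Subgroup.normalizer_eq_top_iff.mpr hNn]; exact le_top
    have hcop : (Nat.card A').Coprime (Nat.card N) := by
      obtain ⟨k, hk⟩ := IsPGroup.iff_card.mp (P.isPGroup'.to_le hA'P)
      rw [hk]
      exact hNc.symm.pow_left k
    refine CfsgLib.CoprimeAction.le_of_centralizers_le hAnc hAN hcop fun a ha ha1 n hn => ?_
    refine Relation.ReflTransGen.single fun e => ha1 ?_
    have hca : n * a = a * n := Subgroup.mem_centralizer_singleton_iff.mp hn.2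
    have h2 := hsm n (hA'P ha)
    rw [hca, mul_inv_cancel_right] at h2
    have h3 : a ∈ (P : Subgroup G) ⊓ ((n • P : Sylow p G) : Subgroup G) := ⟨hA'P ha, h2⟩
    rwa [e, Subgroup.mem_bot] at h3
  have htop : D = ⊤ := by
    rw [eq_top_iff, ← Sylow.normalizer_sup_eq_top Q2]
    exact sup_le hnd (hLP.trans (sup_le hND hPD))
  have hall : ∀ U : Sylow p G, Relation.ReflTransGen Adj P U := by
    intro U
    obtain ⟨g, rfl⟩ := MulAction.exists_smul_eq G P U
    have : g ∈ D := by rw [htop]; trivial
    exact this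
  exact (conn_symm (hall S)).trans (hall T)

end Aux

/-- Let p be a prime and G a finite p-solvable group of order divisible by p, with Sylow p-subgroup P. Then the Sylow p-subgroups of G fail to be chain-connected through nontrivial intersections (equivalently, G has a strongly p-embedded subgroup) if and only if O_p(G) = 1 and P is cyclic or, for p = 2, generalized quaternion. -/
theorem result {G : Type*} [Group G] [Finite G]
    (p : ℕ) [Fact p.Prime] (hdiv : p ∣ Nat.card G) (hsol : Cfsg.IsPSolvable p G) (P : Sylow p G) :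
    ¬ Cfsg.IsSylowChainConnected p G ↔
      Cfsg.pCore p G = ⊥ ∧ (IsCyclic ↥P ∨ (p = 2 ∧ ∃ n : ℕ, Nonempty (↥P ≃* QuaternionGroup (2 ^ n)))) := by
  have hPne : (P : Subgroup G) ≠ ⊥ := P.ne_bot_of_dvd_card hdiv
  rw [← uniqueOrder_iff P hPne]
  constructor
  · intro hnc
    refine ⟨?_, ?_⟩
    · by_contra hcore
      refine hnc (connected_of_conn fun S T => Relation.ReflTransGen.single fun e => hcore ?_)
      rw [eq_bot_iff, ← e]
      exact le_inf (pCore_le_sylow S) (pCore_le_sylow T)
    · by_contra hu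
      refine hnc (connected_of_conn (connected_of_not_unique hdiv hsol fun Q h => hu ?_))
      exact uniqueOrder_of_equiv (Sylow.equiv Q P) h
  · rintro ⟨hcore, hu⟩ hc
    obtain ⟨z, hz⟩ : ∃ z : ↥(P : Subgroup G), orderOf z = p := by
      apply exists_prime_orderOf_dvd_card'
      exact P.dvd_card_of_dvd_card hdiv
    have hz1 : (z : G) ≠ 1 := fun e => by
      rw [← Subgroup.orderOf_coe, e, orderOf_one] at hz
      exact (Fact.out : p.Prime).ne_one hz.symm
    have hzp : (z : G) ^ p = 1 :=
      orderOf_dvd_iff_pow_eq_one.mp (by rw [Subgroup.orderOf_coe]; exact hz.dvd)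
    have key : ∀ Q : Sylow p G, Relation.ReflTransGen Adj P Q → (z : G) ∈ (Q : Subgroup G) := by
      intro Q hQ
      induction hQ with
      | refl => exact z.2
      | @tail A B _ hAB ih =>
        obtain ⟨⟨w, hwA, hwB⟩, hw1⟩ := Subgroup.ne_bot_iff_exists_ne_one.mp hAB
        obtain ⟨k, hk⟩ := A.isPGroup' ⟨w, hwA⟩
        obtain ⟨j, -, hj⟩ := (Nat.dvd_prime_pow (Fact.out : p.Prime)).mp
          (orderOf_dvd_of_pow_eq_one (congrArg Subtype.val hk))
        rcases j with _ | j
        · exact absurd (Subtype.ext (orderOf_eq_one_iff.mp (by rw [← pow_zero p]; exact hj))) hw1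
        have hord : orderOf (w ^ p ^ j) = p := by
          rw [orderOf_pow' _ (pow_ne_zero _ (Fact.out : p.Prime).ne_zero), hj,
            Nat.gcd_eq_right (pow_dvd_pow p j.le_succ), pow_succ,
            Nat.mul_div_cancel_left _ (pow_pos (Fact.out : p.Prime).pos j)]
        have huA := uniqueOrder_of_equiv (Sylow.equiv P A) hu
        have := huA ⟨w ^ p ^ j, (A : Subgroup G).pow_mem hwA _⟩ ⟨z, ih⟩
          (Subtype.ext (by show (w ^ p ^ j) ^ p = 1; conv_lhs => rw [← hord]
                           rw [hord]; exact orderOf_dvd_iff_pow_eq_one.mp hord.dvd))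
          (Subtype.ext hzp) (fun e => by
            have e' : w ^ p ^ j = 1 := congrArg Subtype.val e
            rw [e', orderOf_one] at hord
            exact (Fact.out : p.Prime).ne_one hord.symm)
        obtain ⟨i, hi⟩ := Subgroup.mem_zpowers_iff.mp this
        have hi' : (w ^ p ^ j) ^ i = (z : G) := congrArg Subtype.val hi
        rw [← hi']
        exact (B : Subgroup G).zpow_mem ((B : Subgroup G).pow_mem hwB _) i
    have := mem_pCore_of_forall fun Q => key Q (conn_of_connected hc P Q)
    rw [hcore, Subgroup.mem_bot] at this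
    exact hz1 this

end Cfsg.Agent.S3057
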