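import Cfsg.Statements.S3058
import Cfsg.Agent.CoprimeAction.Invariant
import Cfsg.Agent.Transfer.Frobenius
import Cfsg.Agent.PReduced.Hom
import Mathlib.Logic.Relation
import Mathlib.Data.Fin.Tuple.Basic

set_option autoImplicit false
open scoped Pointwise
open Cfsg

namespace Cfsg.Agent.S3058

theorem connected {G : Type*} [Group G] [Finite G] (p : ℕ) [Fact p.Prime]
    (N M : Subgroup G) [N.Normal] [M.Normal] (hN : p ∣ Nat.card N) (hM : p ∣ Nat.card M)
    (hD : ¬ p ∣ Nat.card ↥(N ⊓ M)) : Cfsg.IsSylowChainConnected p G := by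
  classical
  have hp : p.Prime := Fact.out
  let step : Sylow p G → Sylow p G → Prop := fun S T => S ≠ T ∧ (S : Subgroup G) ⊓ (T : Subgroup G) ≠ ⊥
  let conn : Sylow p G → Sylow p G → Prop := Relation.ReflTransGen step
  have hstep : ∀ {S T}, step S T → step T S := fun h => ⟨h.1.symm, by rw [inf_comm]; exact h.2⟩
  have hsymm : ∀ {S T}, conn S T → conn T S := by
    intro S T h
    induction h with
    | refl => exact Relation.ReflTransGen.refl
    | tail _ hbc ih => exact Relation.ReflTransGen.head (hstep hbc) ih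
  have hmeet : ∀ (S T : Sylow p G) (x : G), x ∈ S → x ∈ T → x ≠ 1 → conn S T := by
    intro S T x hS hT hx
    by_cases h : S = T
    · exact h ▸ Relation.ReflTransGen.refl
    · exact Relation.ReflTransGen.single ⟨h, fun hb => hx (Subgroup.mem_bot.1 (hb ▸ (⟨hS, hT⟩ : x ∈ (S : Subgroup G) ⊓ T)))⟩
  have hsmul : ∀ (g : G) {S T}, conn S T → conn (g • S) (g • T) := by
    intro g S T h
    induction h with
    | refl => exact Relation.ReflTransGen.refl
    | @tail A B _ hAB ih =>
      refine ih.tail ⟨fun e => hAB.1 (MulAction.injective g e), fun hb => hAB.2 ?_⟩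
      have h1 : MulAut.conj g • ((A : Subgroup G) ⊓ B) = ⊥ := by rw [Subgroup.smul_inf]; exact hb
      exact (Subgroup.map_eq_bot_iff_of_injective _ (MulAut.conj g).injective).1 h1
  obtain ⟨S₀⟩ : Nonempty (Sylow p G) := inferInstance
  let H : Subgroup G :=
    { carrier := {g | conn (g • S₀) S₀}
      one_mem' := by show conn ((1 : G) • S₀) S₀; rw [one_smul]
      mul_mem' := fun {a b} ha hb => by
        show conn ((a * b) • S₀) S₀
        rw [mul_smul]
        exact (hsmul a hb).trans ha
      inv_mem' := fun {a} ha => by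
        show conn (a⁻¹ • S₀) S₀
        have h1 := hsmul a⁻¹ ha
        rw [inv_smul_smul] at h1
        exact hsymm h1 }
  have hH : ∀ (g x : G), x ∈ S₀ → x ≠ 1 → g⁻¹ * x * g ∈ S₀ → g ∈ H := by
    intro g x hx hx1 hxg
    refine hmeet _ _ x ?_ hx hx1
    exact CfsgLib.Transfer.mem_smul_sylow_iff.2 hxg
  have hcenH : ∀ x ∈ (S₀ : Subgroup G), x ≠ 1 → Subgroup.centralizer ({x} : Set G) ≤ H := by
    intro x hx hx1 g hg
    refine hH g x hx hx1 ?_
    rwa [mul_assoc, ← Subgroup.mem_centralizer_singleton_iff.1 hg, inv_mul_cancel_left]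
  -- elements of order `p` in `Z(S₀)` inside `N` and inside `M`
  have hex : ∀ L : Subgroup G, L.Normal → p ∣ Nat.card L →
      ∃ a ∈ L, a ∈ S₀ ∧ orderOf a = p ∧ ∀ s ∈ (S₀ : Subgroup G), s * a = a * s := by
    intro L hL hpL
    haveI := hL
    obtain ⟨T, hT⟩ := CfsgLib.Transfer.exists_sylow_map_eq_inf S₀ L
    set Q : Subgroup (S₀ : Subgroup G) := L.subgroupOf S₀
    have hQ : Q ≠ ⊥ := by
      intro h
      apply T.ne_bot_of_dvd_card hpL
      rw [← Subgroup.map_eq_bot_iff_of_injective (T : Subgroup L) L.subtype_injective, hT, eq_bot_iff]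
      intro x hx
      have h1 : (⟨x, hx.1⟩ : (S₀ : Subgroup G)) ∈ Q := hx.2
      rw [h, Subgroup.mem_bot] at h1
      exact Subgroup.mem_bot.2 (congrArg Subtype.val h1)
    have hne := CfsgLib.PReduced.inf_center_ne_bot S₀.isPGroup' hQ
    have hd : p ∣ Nat.card ↥(Q ⊓ Subgroup.center (S₀ : Subgroup G)) := by
      obtain ⟨k, hk⟩ := (S₀.isPGroup'.to_subgroup (Q ⊓ Subgroup.center (S₀ : Subgroup G))).exists_card_eq
      rcases k with _ | k
      · exact absurd (Subgroup.card_eq_one.mp (by simpa using hk)) hne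
      · exact hk ▸ dvd_pow_self p (Nat.succ_ne_zero k)
    obtain ⟨z, hz⟩ := exists_prime_orderOf_dvd_card' p hd
    rw [← Subgroup.orderOf_coe, ← Subgroup.orderOf_coe] at hz
    exact ⟨_, z.2.1, (z : (S₀ : Subgroup G)).2, hz,
      fun s hs => congrArg Subtype.val (Subgroup.mem_center_iff.1 z.2.2 ⟨s, hs⟩)⟩
  obtain ⟨a, haN, haS, hao, hac⟩ := hex N inferInstance hN
  obtain ⟨b, hbM, hbS, hbo, hbc⟩ := hex M inferInstance hM
  set D := N ⊓ M with hDdef
  have hDS : ∀ z ∈ D, z ∈ (S₀ : Subgroup G) → z = 1 := by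
    intro z hz hzS
    obtain ⟨k, hk⟩ := S₀.isPGroup'.exists_card_eq
    have h1 : orderOf z ∣ (Nat.card D).gcd (p ^ k) :=
      Nat.dvd_gcd (Subgroup.orderOf_dvd_natCard D hz) (hk ▸ Subgroup.orderOf_dvd_natCard _ hzS)
    rw [((((Nat.Prime.coprime_iff_not_dvd hp).2 hD).pow_left k).symm).gcd_eq_one, Nat.dvd_one, orderOf_eq_one_iff] at h1
    exact h1
  -- `D ≤ H`
  have hDH : D ≤ H := by
    set A := Subgroup.closure ({a, b} : Set G) with hA
    have hAS : A ≤ (S₀ : Subgroup G) := (Subgroup.closure_le _).2 (by rintro y (rfl | rfl) <;> assumption)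
    haveI : IsMulCommutative A := Subgroup.isMulCommutative_closure (by
      rintro x (rfl | rfl) y (rfl | rfl)
      · rfl
      · exact hbc _ haS
      · exact hac _ hbS
      · rfl)
    have hexp : ∀ x ∈ A, x ^ p = 1 := by
      intro x hx
      induction hx using Subgroup.closure_induction with
      | mem y hy => rcases hy with rfl | rfl <;> [exact hao ▸ pow_orderOf_eq_one _; exact hbo ▸ pow_orderOf_eq_one _]
      | one => exact one_pow p
      | mul y z hy hz ihy ihz =>
        have hc : Commute y z := congrArg Subtype.val (mul_comm' (⟨y, hy⟩ : A) ⟨z, hz⟩)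
        rw [hc.mul_pow, ihy, ihz, one_mul]
      | inv y _ ihy => rw [inv_pow, ihy, inv_one]
    have hnc : ¬ IsCyclic A := by
      intro hcyc
      obtain ⟨g, hg⟩ := IsCyclic.exists_generator (α := A)
      have hA1 : a ∈ A := Subgroup.subset_closure (Or.inl rfl)
      have hB1 : b ∈ A := Subgroup.subset_closure (Set.mem_insert_of_mem a (Set.mem_singleton b))
      have hcard : Nat.card A ∣ p := by
        rw [← orderOf_eq_card_of_forall_mem_zpowers hg]
        exact orderOf_dvd_of_pow_eq_one (Subtype.ext (hexp g g.2))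
      have hza : Subgroup.zpowers a = A := Subgroup.eq_of_le_of_card_ge (Subgroup.zpowers_le.2 hA1)
        (by rw [Nat.card_zpowers, hao]; exact Nat.le_of_dvd hp.pos hcard)
      have hbN : b ∈ N := Subgroup.zpowers_le.2 haN (hza ▸ hB1)
      have := hDS b ⟨hbN, hbM⟩ hbS
      rw [this, orderOf_one] at hbo
      exact hp.ne_one hbo.symm
    refine CfsgLib.CoprimeAction.le_of_centralizers_le (A := A) hnc ?_ ?_ fun x hx hx1 => inf_le_right.trans (hcenH x (hAS hx) hx1)
    · intro x _
      rw [Subgroup.normalizer_eq_top_iff.2 (inferInstance : D.Normal)]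
      trivial
    · obtain ⟨k, hk⟩ := (S₀.isPGroup'.to_le hAS).exists_card_eq
      rw [hk]
      exact ((Nat.Prime.coprime_iff_not_dvd hp).2 hD).pow_left k
  -- `M ≤ H`
  have ha1 : a ≠ 1 := fun e => hp.ne_one (by rw [← hao, e, orderOf_one])
  have hMH : M ≤ H := by
    intro m hm
    set a' := m * a * m⁻¹ with ha'
    have hdiff : a' * a⁻¹ ∈ D := by
      refine ⟨N.mul_mem (‹N.Normal›.conj_mem a haN m) (N.inv_mem haN), ?_⟩
      show a' * a⁻¹ ∈ M
      rw [ha', show m * a * m⁻¹ * a⁻¹ = m * (a * m⁻¹ * a⁻¹) by group]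
      exact M.mul_mem hm (‹M.Normal›.conj_mem _ (M.inv_mem hm) a)
    have hDn : D.Normal := inferInstance
    let f : D → D := fun c => ⟨a' * c * a⁻¹, by
      rw [show a' * (c : G) * a⁻¹ = (a' * c * a'⁻¹) * (a' * a⁻¹) by group]
      exact mul_mem (hDn.conj_mem c c.2 a') hdiff⟩
    have hfinj : Function.Injective f := fun u v h => Subtype.ext (mul_left_cancel (mul_right_cancel (congrArg Subtype.val h)))
    let φ : Equiv.Perm D := Equiv.ofBijective f (Finite.injective_iff_bijective.1 hfinj)
    have hφ : ∀ (n : ℕ) (c : D), (((φ ^ n) c : D) : G) = a' ^ n * c * (a ^ n)⁻¹ := by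
      intro n c
      induction n with
      | zero => simp
      | succ n ih =>
        rw [pow_succ', Equiv.Perm.mul_apply]
        show a' * (((φ ^ n) c : D) : G) * a⁻¹ = _
        rw [ih, pow_succ' a', pow_succ' a]
        group
    have hord : φ ^ p ^ 1 = 1 := by
      refine Equiv.ext fun c => Subtype.ext ?_
      have h1 : a ^ p ^ 1 = 1 := by rw [pow_one, ← hao]; exact pow_orderOf_eq_one a
      have h2 : a' ^ p ^ 1 = 1 := by rw [ha', conj_pow, h1]; group
      rw [hφ, h1, h2, one_mul, inv_one, mul_one]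
      rfl
    have hgrp : IsPGroup p (Subgroup.zpowers φ) := by
      obtain ⟨j, -, hj⟩ := (Nat.dvd_prime_pow hp).1 (orderOf_dvd_of_pow_eq_one hord)
      exact IsPGroup.of_card (n := j) (by rw [Nat.card_zpowers, hj])
    obtain ⟨c, hc⟩ := hgrp.nonempty_fixed_point_of_prime_not_dvd_card D hD
    have hfix : a' * (c : G) * a⁻¹ = c := congrArg Subtype.val (hc ⟨φ, Subgroup.mem_zpowers φ⟩)
    have h3 : (c : G)⁻¹ * m ∈ Subgroup.centralizer ({a} : Set G) := by
      refine Subgroup.mem_centralizer_singleton_iff.2 ?_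
      have h4 : a' * (c : G) = c * a := mul_inv_eq_iff_eq_mul.1 hfix
      calc (c : G)⁻¹ * m * a = (c : G)⁻¹ * (a' * c) * ((c : G)⁻¹ * m) := by rw [ha']; group
        _ = _ := by rw [h4]; group
    have := H.mul_mem (hDH c.2) (hcenH a haS ha1 h3)
    rwa [mul_inv_cancel_left] at this
  -- everything is in `H`
  obtain ⟨T, hT⟩ := CfsgLib.Transfer.exists_sylow_map_eq_inf S₀ M
  have hfr := Sylow.normalizer_sup_eq_top T
  rw [hT] at hfr
  have hall : ∀ g : G, g ∈ H := by
    intro g
    refine (sup_le ?_ hMH : Subgroup.normalizer (((S₀ : Subgroup G) ⊓ M : Subgroup G) : Set G) ⊔ M ≤ H)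
      (hfr ▸ Subgroup.mem_top g)
    intro n hn
    refine hH n b hbS (fun e => hp.ne_one (by rw [← hbo, e, orderOf_one])) ?_
    have h5 := (Subgroup.mem_normalizer_iff.1 (inv_mem hn) b).1 ⟨hbS, hbM⟩
    rw [inv_inv] at h5
    exact h5.1
  intro S T
  by_cases hST : (S : Subgroup G) ⊓ T = ⊥
  swap
  · by_cases he : S = T
    · exact ⟨0, fun _ => S, rfl, he, fun _ => inf_le_left, fun i => i.elim0⟩
    · refine ⟨1, ![S, T], rfl, rfl, fun i => ?_, fun i => ?_⟩
      · fin_cases i
        · exact inf_le_left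
        · exact inf_le_right
      · fin_cases i
        exact ⟨he, hST⟩
  have hconn : conn S T := by
    obtain ⟨g, rfl⟩ := MulAction.exists_smul_eq G S₀ S
    obtain ⟨g', rfl⟩ := MulAction.exists_smul_eq G S₀ T
    exact Relation.ReflTransGen.trans (hall g) (hsymm (hall g'))
  obtain ⟨n, c, h0, hlast, hc⟩ : ∃ (n : ℕ) (c : Fin (n + 1) → Sylow p G), c 0 = S ∧ c (Fin.last n) = T ∧
      ∀ i : Fin n, step (c i.castSucc) (c i.succ) := by
    clear hST
    induction hconn with
    | refl => exact ⟨0, fun _ => S, rfl, rfl, fun i => i.elim0⟩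
    | @tail U V _ hUV ih =>
      obtain ⟨n, c, h0, hlast, hc⟩ := ih
      refine ⟨n + 1, Fin.snoc c V, ?_, Fin.snoc_last _ _, fun i => ?_⟩
      · rw [← Fin.castSucc_zero, Fin.snoc_castSucc, h0]
      · rcases Fin.eq_castSucc_or_eq_last i with ⟨j, rfl⟩ | rfl
        · rw [Fin.succ_castSucc, Fin.snoc_castSucc, Fin.snoc_castSucc]
          exact hc j
        · rw [Fin.succ_last, Fin.snoc_castSucc, Fin.snoc_last, hlast]
          exact hUV
  exact ⟨n, c, h0, hlast, fun i => by rw [hST]; exact bot_le, hc⟩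


/-- Let p be a prime and G a finite group whose Sylow p-subgroups are not chain-connected through nontrivial intersections (so G has a strongly p-embedded subgroup). If N and M are normal subgroups of G whose orders are both divisible by p, then the order of N ∩ M is divisible by p. Consequently, among the normal subgroups of G whose order is divisible by p there is a smallest one (the intersection of all of them). -/
theorem result {G : Type*} [Group G] [Finite G]
    (p : ℕ) [Fact p.Prime] (hG : ¬ Cfsg.IsSylowChainConnected p G)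
    (N M : Subgroup G) [N.Normal] [M.Normal] (hN : p ∣ Nat.card N) (hM : p ∣ Nat.card M) :
    p ∣ Nat.card ↥(N ⊓ M) := by
  classical
  by_contra hD
  exact hG (connected p N M hN hM hD)

end Cfsg.Agent.S3058
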