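import Cfsg.Statements.S3059
import Cfsg.Agent.LocalLemmas.SylowGraph
import Cfsg.Agent.Transfer.Frobenius
import Cfsg.Agent.Transfer.Residual

set_option autoImplicit false
open Cfsg

namespace Cfsg.Agent.S3059

/-- Let p be a prime and H a strongly p-embedded subgroup of the finite group G in the classical sense: H is proper, p divides the order of H, and H ∩ gHg⁻¹ has order prime to p for every g outside H. Then for every normal subgroup N of G of order divisible by p, G = H · O^p(N), where O^p(N) is the subgroup generated by the elements of N of order prime to p. -/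
theorem result {G : Type*} [Group G] [Finite G]
    (p : ℕ) [Fact p.Prime] (H : Subgroup G) (hH : H ≠ ⊤) (hpH : p ∣ Nat.card H)
    (hse : ∀ g : G, g ∉ H → ¬ p ∣ Nat.card ↥(H ⊓ H.map (MulAut.conj g).toMonoidHom))
    (N : Subgroup G) [N.Normal] (hN : p ∣ Nat.card N) :
    H ⊔ Subgroup.closure {g : G | g ∈ N ∧ (orderOf g).Coprime p} = ⊤ := by
  obtain ⟨P, hPH, -⟩ := CfsgLib.SylowGraph.exists_sylow_le hse hpH
  obtain ⟨T, hT⟩ := CfsgLib.Transfer.exists_sylow_map_eq_inf P N
  have hQp : IsPGroup p ↥((T : Subgroup N).map N.subtype) := T.isPGroup'.map _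
  have hQH : (T : Subgroup N).map N.subtype ≤ H := hT.le.trans (inf_le_left.trans hPH)
  have hQ1 : (T : Subgroup N).map N.subtype ≠ ⊥ := fun e => by
    have h1 := (Subgroup.map_eq_bot_iff_of_injective _ N.subtype_injective).mp e
    have h2 := T.dvd_card_of_dvd_card hN
    rw [h1, Subgroup.card_bot] at h2
    exact (Fact.out : p.Prime).not_dvd_one h2
  have hfr := Sylow.normalizer_sup_eq_top T
  refine top_le_iff.mp (hfr.ge.trans (sup_le ((CfsgLib.SylowGraph.normalizer_le hse hQp hQ1 hQH).trans le_sup_left) ?_))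
  set K := Subgroup.closure {g : G | g ∈ N ∧ (orderOf g).Coprime p}
  have hres : (Cfsg.pResidual p N).map N.subtype ≤ K := by
    rw [Cfsg.pResidual, MonoidHom.map_closure]
    refine Subgroup.closure_mono ?_
    rintro _ ⟨a, ha, rfl⟩
    exact ⟨a.2, by show (orderOf (a : G)).Coprime p; rw [Subgroup.orderOf_coe]; exact ha⟩
  have h1 := congrArg (Subgroup.map N.subtype) (CfsgLib.Transfer.pResidual_sup_sylow T)
  rw [Subgroup.map_sup, ← MonoidHom.range_eq_map, Subgroup.range_subtype] at h1
  exact h1.ge.trans (sup_le (hres.trans le_sup_right) (hQH.trans le_sup_left))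

end Cfsg.Agent.S3059
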