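import Cfsg.Statements.S3062
import Cfsg.Agent.PGroup.DStar
import Cfsg.Agent.PGroup.CentrallyLarge

set_option autoImplicit false
open Cfsg

namespace Cfsg.Agent.S3062

/-- Let S be a finite p-group, J(S) the subgroup generated by the abelian subgroups of S of largest order and Z(J(S)) its centre. Then Z(S) ≤ D*(S) ≤ Z(J(S)), and every maximal normal abelian subgroup of S contains D*(S). -/
theorem result {S : Type*} [Group S] [Finite S] {p : ℕ} [Fact p.Prime]
    (hS : IsPGroup p S) :
    Subgroup.center S ≤ Cfsg.dStar S ∧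
    Cfsg.dStar S ≤ Cfsg.thompsonSubgroupA S ⊓ Subgroup.centralizer (Cfsg.thompsonSubgroupA S : Set S) ∧
    ∀ A : Subgroup S, A.Normal → IsMulCommutative A →
      (∀ B : Subgroup S, B.Normal → IsMulCommutative B → A ≤ B → B = A) → Cfsg.dStar S ≤ A := by
  refine ⟨le_sSup CfsgLib.PGroup.center_mem_dStarFamily, le_inf ?_ ?_, fun A hA hAab hmax => ?_⟩
  · obtain ⟨A, hA⟩ := CfsgLib.PGroup.maxAbelian_nonempty (G := S)
    exact (CfsgLib.PGroup.dStar_le_maxAbelian hS hA).trans (le_sSup hA)
  · rw [Subgroup.le_centralizer_iff]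
    refine sSup_le fun A hA => ?_
    exact (CfsgLib.PGroup.centralizer_maxAbelian hA).ge.trans
      (Subgroup.centralizer_le (SetLike.coe_subset_coe.mpr (CfsgLib.PGroup.dStar_le_maxAbelian hS hA)))
  · haveI := hA
    exact CfsgLib.PGroup.dStar_le_of_self_centralizing hS hAab
      (CfsgLib.PGroup.centralizer_maximal_normal_abelian hS hAab hmax)

end Cfsg.Agent.S3062
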