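import Cfsg.Statements.S3063
import Cfsg.Agent.PGroup.Replacement
import Cfsg.Agent.Hall.StructBatch3

set_option autoImplicit false
open Cfsg

namespace Cfsg.Agent.S3063

/-- A weak replacement Theorem for metabelian p-groups: let S be a finite p-group whose derived subgroup is abelian and A an abelian subgroup of S of largest possible order. Then the normal closure of A in S contains an abelian subgroup B of the same order as A that is normal in S. -/
theorem result {S : Type*} [Group S] [Finite S] {p : ℕ} [Fact p.Prime]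
    (hS : IsPGroup p S) (hmeta : IsMulCommutative ↥(commutator S))
    (A : Subgroup S) (hA : A ∈ Cfsg.maxAbelianSubgroups S) :
    ∃ B ∈ Cfsg.maxAbelianSubgroups S, B.Normal ∧ B ≤ Subgroup.normalClosure (A : Set S) := by
  open Subgroup in
  open scoped commutatorElement Pointwise in
  set B := commutator S with hB
  obtain ⟨A', ⟨hA', hA'cl⟩, hmax⟩ := Set.Finite.exists_maximalFor
    (fun X : Subgroup S => Nat.card (X ⊓ B : Subgroup S))
    {X | X ∈ Cfsg.maxAbelianSubgroups S ∧ X ≤ normalClosure (A : Set S)} (Set.toFinite _) ⟨A, hA, le_normalClosure⟩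
  refine ⟨A', hA', ?_, hA'cl⟩
  have hA'B : A' ≤ normalizer (B : Set S) := by rw [normalizer_eq_top]; exact le_top
  have hBA' : B ≤ normalizer (A' : Set S) := by
    by_contra hne
    obtain ⟨A'', hA'', hlt, -, hcl, -⟩ := CfsgLib.PGroup.replacement hS hA' hmeta hA'B hne
    have h1 : Nat.card (A'' ⊓ B : Subgroup S) ≤ Nat.card (A' ⊓ B : Subgroup S) :=
      hmax ⟨hA'', hcl.trans (normalClosure_le_normal hA'cl)⟩
        (card_le_of_le hlt.le)
    exact hlt.ne (eq_of_le_of_card_ge hlt.le h1)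
  refine ⟨fun a₀ ha₀ g => ?_⟩
  set A₂ := A'.map (MulAut.conj g).toMonoidHom with hA₂
  set Bp := (A' ⊔ A₂) ⊓ B with hBp
  set D := A' ⊓ A₂ with hD
  have hcom : ∀ a ∈ A', a⁻¹ * (g * a * g⁻¹) ∈ B := fun a _ => by
    have h : ⁅a⁻¹, g⁆ ∈ commutator S := commutator_mem_commutator (mem_top a⁻¹) (mem_top g)
    rw [commutatorElement_def, inv_inv] at h
    simpa [mul_assoc] using h
  have hA₂le : A₂ ≤ A' ⊔ Bp := by
    rintro _ ⟨a, ha, rfl⟩
    show g * a * g⁻¹ ∈ A' ⊔ Bp
    have h1 : a⁻¹ * (g * a * g⁻¹) ∈ Bp :=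
      ⟨mul_mem (mem_sup_left (A'.inv_mem ha)) (mem_sup_right ⟨a, ha, rfl⟩), hcom a ha⟩
    have := mul_mem (mem_sup_left ha : a ∈ A' ⊔ Bp) (mem_sup_right h1)
    simpa using this
  have heq : A' ⊔ Bp = A' ⊔ A₂ := le_antisymm (sup_le le_sup_left inf_le_left) (sup_le le_sup_left hA₂le)
  have hBpn : Bp ≤ normalizer (A' : Set S) := inf_le_right.trans hBA'
  have hA₂n : A₂ ≤ normalizer (A' : Set S) := hA₂le.trans (sup_le le_normalizer hBpn)
  haveI hA'c := hA'.1
  haveI hA₂c : IsMulCommutative A₂ := map_isMulCommutative _ _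
  have hDc : D ≤ centralizer ((A' ⊔ A₂ : Subgroup S) : Set S) := by
    intro d hd
    have h1 : A' ⊔ A₂ ≤ centralizer ({d} : Set S) := sup_le
      (fun a ha => mem_centralizer_singleton_iff.mpr (congrArg Subtype.val (hA'c.is_comm.comm ⟨a, ha⟩ ⟨d, hd.1⟩)))
      (fun a ha => mem_centralizer_singleton_iff.mpr (congrArg Subtype.val (hA₂c.is_comm.comm ⟨a, ha⟩ ⟨d, hd.2⟩)))
    exact mem_centralizer_iff.mpr fun v hv => mem_centralizer_singleton_iff.mp (h1 hv)
  have hDn : D ≤ normalizer (Bp : Set S) := fun d hd => mem_normalizer_iff.mpr fun v => by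
    constructor
    · intro hv
      rw [← (mem_centralizer_iff.mp (hDc hd) v hv.1), mul_inv_cancel_right]; exact hv
    · intro hv
      have h := mem_centralizer_iff.mp (hDc hd) _ hv.1
      simp only [inv_mul_cancel_right] at h
      have : v = d * v * d⁻¹ := mul_left_cancel h
      rwa [this]
  set M := Bp ⊔ D with hM
  have hMab : IsMulCommutative M := by
    rw [hM, sup_eq_closure]
    refine isMulCommutative_closure ?_
    rintro u (hu | hu) v (hv | hv)
    · exact congrArg Subtype.val (hmeta.is_comm.comm ⟨u, hu.2⟩ ⟨v, hv.2⟩)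
    · exact mem_centralizer_iff.mp (hDc hv) u hu.1
    · exact (mem_centralizer_iff.mp (hDc hu) v hv.1).symm
    · exact congrArg Subtype.val (hA'c.is_comm.comm ⟨u, hu.1⟩ ⟨v, hv.1⟩)
  -- the order of `M`
  have hc2 : Nat.card A₂ = Nat.card A' := card_map_of_injective (MulAut.conj g).injective
  have e1 := CfsgLib.Hall.Struct.card_mul_inf A' A₂
  rw [← coe_mul_of_right_le_normalizer_left _ _ hA₂n, hc2] at e1
  have e2 := CfsgLib.Hall.Struct.card_mul_inf A' Bp
  rw [← coe_mul_of_right_le_normalizer_left _ _ hBpn, heq] at e2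
  have e3 := CfsgLib.Hall.Struct.card_mul_inf Bp D
  rw [← coe_mul_of_right_le_normalizer_left _ _ hDn] at e3
  have hI : Nat.card (Bp ⊓ D : Subgroup S) ≤ Nat.card (A' ⊓ Bp : Subgroup S) :=
    card_le_of_le fun v hv => ⟨hv.2.1, hv.1⟩
  have hMcard : Nat.card A' ≤ Nat.card M := by
    have p1 : 0 < Nat.card A' := Nat.card_pos
    have p2 : 0 < Nat.card (Bp ⊓ D : Subgroup S) := Nat.card_pos
    simp only [SetLike.coe_sort_coe] at e1 e2 e3
    rw [← hD] at e1
    have h1 : Nat.card A' * (Nat.card Bp * Nat.card D) = Nat.card A' * Nat.card A' * Nat.card (A' ⊓ Bp : Subgroup S) := by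
      rw [← mul_assoc, ← e2, ← e1]; ring
    have h2 : Nat.card Bp * Nat.card D = Nat.card A' * Nat.card (A' ⊓ Bp : Subgroup S) :=
      Nat.eq_of_mul_eq_mul_left p1 (by rw [h1]; ring)
    have h3 : Nat.card A' * Nat.card (Bp ⊓ D : Subgroup S) ≤ Nat.card M * Nat.card (Bp ⊓ D : Subgroup S) := by
      rw [hM, e3, h2]; exact Nat.mul_le_mul_left _ hI
    exact Nat.le_of_mul_le_mul_right h3 p2
  have hMmax : M ∈ Cfsg.maxAbelianSubgroups S := ⟨hMab, fun X hX => (hA'.2 X hX).trans hMcard⟩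
  have hcl2 : A₂ ≤ normalClosure (A : Set S) := by
    rintro _ ⟨a, ha, rfl⟩
    exact (normalClosure_normal).conj_mem a (hA'cl ha) g
  have hMcl : M ≤ normalClosure (A : Set S) :=
    sup_le (inf_le_left.trans (sup_le hA'cl hcl2)) (inf_le_left.trans hA'cl)
  have hle : A' ⊓ B ≤ Bp := fun v hv => ⟨mem_sup_left hv.1, hv.2⟩
  have hBpM : Bp ≤ M ⊓ B := le_inf le_sup_left inf_le_right
  have hge := hmax ⟨hMmax, hMcl⟩ (card_le_of_le (hle.trans hBpM))
  have heq2 : A' ⊓ B = Bp := eq_of_le_of_card_ge hle ((card_le_of_le hBpM).trans hge)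
  have h1 : a₀⁻¹ * (g * a₀ * g⁻¹) ∈ A' ⊓ B := heq2.symm ▸
    (⟨mul_mem (mem_sup_left (A'.inv_mem ha₀)) (mem_sup_right ⟨a₀, ha₀, rfl⟩), hcom a₀ ha₀⟩ :
      a₀⁻¹ * (g * a₀ * g⁻¹) ∈ Bp)
  simpa using A'.mul_mem ha₀ h1.1

end Cfsg.Agent.S3063
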