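import Cfsg.Statements.S3064
import Cfsg.Agent.Frob.Kernel

set_option autoImplicit false
open Cfsg

namespace Cfsg.Agent.S3064

open scoped Pointwise

universe v

/-- Uniqueness of `x` in its conjugacy class inside any `p`-subgroup containing it. -/
theorem uniq_of_sylow {G : Type*} [Group G] [Finite G] {p : ℕ} [Fact p.Prime] (S : Sylow p G) (x : G)
    (hU : ∀ g : G, g⁻¹ * x * g ∈ S → g⁻¹ * x * g = x) (Q : Subgroup G) (hQ : IsPGroup p ↥Q)
    (hxQ : x ∈ Q) (g : G) (hg : g⁻¹ * x * g ∈ Q) : g⁻¹ * x * g = x := by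
  obtain ⟨T, hT⟩ := hQ.exists_le_sylow
  obtain ⟨a, ha⟩ := MulAction.exists_smul_eq G S T
  have key : ∀ t ∈ Q, a⁻¹ * t * a ∈ S := by
    intro t ht
    have h1 : t ∈ ((a • S : Sylow p G) : Subgroup G) := by rw [ha]; exact hT ht
    rw [Sylow.coe_subgroup_smul, Subgroup.mem_pointwise_smul_iff_inv_smul_mem, ← map_inv,
      MulAut.smul_def, MulAut.conj_apply, inv_inv] at h1
    exact h1
  have h1 := hU a (key x hxQ)
  have h2 := hU (g * a) (by
    have := key _ hg
    simpa [mul_assoc] using this)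
  calc g⁻¹ * x * g = a * ((g * a)⁻¹ * x * (g * a)) * a⁻¹ := by group
    _ = a * (a⁻¹ * x * a) * a⁻¹ := by rw [h2, h1]
    _ = x := by group

/-- The induction. -/
theorem main {p : ℕ} [Fact p.Prime] : ∀ (n : ℕ) (G : Type v) [Group G] [Finite G], Nat.card G = n →
    ∀ (S : Sylow p G) (x : G), x ∈ S → (∀ g : G, g⁻¹ * x * g ∈ S → g⁻¹ * x * g = x) →
      (∀ H : Subgroup G, (Nat.card H).Coprime p → (∀ h ∈ H, x * h * x⁻¹ ∈ H) → ∀ h ∈ H, x * h = h * x) →
        x ∈ Subgroup.center G := by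
  intro n
  induction n using Nat.strong_induction_on with
  | _ n ih =>
  intro G _ _ hn S x hxS hU hb
  have hpx : IsPGroup p ↥(Subgroup.zpowers x) := S.isPGroup'.to_le (Subgroup.zpowers_le.mpr hxS)
  have huniq := uniq_of_sylow S x hU
  set H : Subgroup G := Subgroup.centralizer {x} with hHdef
  have hmemH : ∀ y, y ∈ H ↔ x * y = y * x := fun y => by
    rw [hHdef, Subgroup.mem_centralizer_iff]; simp
  have hxH : x ∈ H := (hmemH x).2 rfl
  -- proper subgroups containing `x` centralise it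
  have hsub : ∀ K : Subgroup G, K ≠ ⊤ → x ∈ K → K ≤ H := by
    intro K hK hxK
    have hlt : Nat.card ↥K < n := hn ▸ lt_of_le_of_ne (Subgroup.card_le_card_group K)
      (fun h => hK (Subgroup.eq_top_of_card_eq K h))
    have hpK : IsPGroup p ↥(Subgroup.zpowers (⟨x, hxK⟩ : ↥K)) := by
      refine IsPGroup.of_injective hpx
        ((K.subtype.comp (Subgroup.zpowers (⟨x, hxK⟩ : ↥K)).subtype).codRestrict (Subgroup.zpowers x) ?_) ?_
      · rintro ⟨y, hy⟩
        obtain ⟨k, rfl⟩ := Subgroup.mem_zpowers_iff.1 hy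
        exact Subgroup.mem_zpowers_iff.2 ⟨k, by simp⟩
      · intro a b hab
        exact Subtype.ext (Subtype.ext (congrArg (fun c : ↥(Subgroup.zpowers x) => (c : G)) hab))
    obtain ⟨T, hT⟩ := hpK.exists_le_sylow
    have := ih _ hlt ↥K rfl T ⟨x, hxK⟩ (hT (Subgroup.mem_zpowers _)) (fun g hg => by
      have h1 := huniq ((T : Subgroup ↥K).map K.subtype) (T.isPGroup'.map _)
        ⟨⟨x, hxK⟩, hT (Subgroup.mem_zpowers _), rfl⟩ (g : G) ⟨_, hg, by simp⟩
      exact Subtype.ext (by simpa using h1))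
      (fun U hU' hinv u hu => by
        have hc : (Nat.card ↥(U.map K.subtype)).Coprime p := by
          rwa [Nat.card_congr (U.equivMapOfInjective _ K.subtype_injective).toEquiv.symm]
        have := hb (U.map K.subtype) hc (by
          rintro _ ⟨w, hw, rfl⟩
          exact ⟨_, hinv w hw, rfl⟩) (u : G) ⟨u, hu, rfl⟩
        exact Subtype.ext (by simpa using this))
    intro y hy
    have h2 := congrArg Subtype.val (Subgroup.mem_center_iff.1 this ⟨y, hy⟩)
    exact (hmemH y).2 (by simpa using h2.symm)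
  by_contra hnc
  have hHtop : H ≠ ⊤ := fun h => hnc (Subgroup.mem_center_iff.2 fun y => ((hmemH y).1 (h ▸ Subgroup.mem_top y)).symm)
  have hcomm : ∀ g : G, x * (g⁻¹ * x * g) = (g⁻¹ * x * g) * x → g⁻¹ * x * g = x := by
    intro g hg
    have hy : IsPGroup p ↥(Subgroup.zpowers (g⁻¹ * x * g)) := by
      have := hpx.map (MulAut.conj g⁻¹).toMonoidHom
      rwa [MonoidHom.map_zpowers, MulEquiv.coe_toMonoidHom, MulAut.conj_apply, inv_inv] at this
    have hn' : Subgroup.zpowers (g⁻¹ * x * g) ≤ Subgroup.normalizer (Subgroup.zpowers x : Set G) := by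
      refine Subgroup.zpowers_le.mpr (Subgroup.centralizer_le_normalizer _ ?_)
      refine Subgroup.mem_centralizer_iff.2 fun w hw => ?_
      obtain ⟨k, rfl⟩ := Subgroup.mem_zpowers_iff.1 hw
      exact ((show Commute x (g⁻¹ * x * g) from hg).zpow_left k).eq
    exact huniq _ (hy.to_sup_of_normal_right' hpx hn')
      (Subgroup.mem_sup_right (Subgroup.mem_zpowers _)) g (Subgroup.mem_sup_left (Subgroup.mem_zpowers _))
  set Z : Subgroup G := Subgroup.center G with hZ
  have hZH : Z ≤ H := fun z hz => (hmemH z).2 (Subgroup.mem_center_iff.1 hz x)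
  have hTI : ∀ g : G, g ∉ H → ∀ d ∈ H, g⁻¹ * d * g ∈ H → d ∈ Z := by
    intro g hg d hd hd'
    by_contra hdZ
    have hK : Subgroup.centralizer {d} ≠ (⊤ : Subgroup G) := fun h => hdZ (Subgroup.mem_center_iff.2 fun y => by
      have := h ▸ Subgroup.mem_top y
      rw [Subgroup.mem_centralizer_iff] at this
      exact (this d rfl).symm)
    have hxK : x ∈ Subgroup.centralizer {d} := Subgroup.mem_centralizer_iff.2 (by
      intro u hu; rw [Set.mem_singleton_iff.mp hu]; exact ((hmemH d).1 hd).symm)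
    have hyK : g * x * g⁻¹ ∈ Subgroup.centralizer {d} := Subgroup.mem_centralizer_iff.2 (by
      intro u hu; rw [Set.mem_singleton_iff.mp hu]
      have h1 := (hmemH _).1 hd'
      calc d * (g * x * g⁻¹) = g * ((g⁻¹ * d * g) * x) * g⁻¹ := by group
        _ = g * (x * (g⁻¹ * d * g)) * g⁻¹ := by rw [h1]
        _ = g * x * g⁻¹ * d := by group)
    have h2 := (hmemH _).1 (hsub _ hK hxK hyK)
    have h3 := hcomm g⁻¹ (by simpa using h2)
    rw [inv_inv] at h3
    exact hg ((hmemH g).2 (by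
      calc x * g = (g * x * g⁻¹) * g := by rw [h3]
        _ = g * x := by group))
  -- the Frobenius group `G / Z`
  set q := QuotientGroup.mk' Z with hq
  have hqker : q.ker = Z := QuotientGroup.ker_mk' Z
  have hcm : (H.map q).comap q = H := by
    rw [Subgroup.comap_map_eq, hqker, sup_eq_left.2 hZH]
  have hxb : q x ≠ 1 := fun h => hnc ((QuotientGroup.eq_one_iff x).1 h)
  have hFC : Cfsg.IsFrobeniusComplement (H.map q) := by
    refine ⟨fun h => hxb ?_, fun h => hHtop ?_, ?_⟩
    · exact (Subgroup.eq_bot_iff_forall _).1 h _ (Subgroup.mem_map_of_mem _ hxH)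
    · rw [← hcm, h, Subgroup.comap_top]
    · intro g' hg'
      obtain ⟨g, rfl⟩ := QuotientGroup.mk'_surjective Z g'
      rw [Subgroup.eq_bot_iff_forall]
      rintro w hw
      obtain ⟨hw1, hw2⟩ := Subgroup.mem_inf.1 hw
      obtain ⟨d, hd, rfl⟩ := hw1
      rw [Subgroup.mem_pointwise_smul_iff_inv_smul_mem, ← map_inv,
      MulAut.smul_def, MulAut.conj_apply, inv_inv] at hw2
      have hd' : g⁻¹ * d * g ∈ H := by
        rw [← hcm, Subgroup.mem_comap, map_mul, map_mul, map_inv]; exact hw2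
      exact (QuotientGroup.eq_one_iff d).2 (hTI g (fun h => hg' (Subgroup.mem_map_of_mem _ h)) d hd hd')
  set Kb := CfsgLib.Frob.kernel hFC with hKb
  haveI := CfsgLib.Frob.kernel_normal hFC
  set K : Subgroup G := Kb.comap q with hK
  haveI : K.Normal := inferInstanceAs (Kb.comap q).Normal
  have hZK : Z ≤ K := fun z hz => by
    rw [hK, Subgroup.mem_comap, show q z = 1 from (QuotientGroup.eq_one_iff z).2 hz]; exact one_mem _
  have hnle : ¬ K ≤ H := by
    intro h
    refine CfsgLib.Frob.kernel_ne_bot hFC ((Subgroup.eq_bot_iff_forall _).2 fun w hw => ?_)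
    obtain ⟨d, rfl⟩ := QuotientGroup.mk'_surjective Z w
    exact (Subgroup.disjoint_def.1 (CfsgLib.Frob.isComplement'_kernel hFC).disjoint) hw
      (Subgroup.mem_map_of_mem _ (h hw))
  -- `|K/Z|` is prime to `p`
  have hKp : ¬ p ∣ Nat.card ↥Kb := by
    intro h
    have hx1 : p ∣ Nat.card ↥(H.map q) := by
      obtain ⟨k, hk⟩ := IsPGroup.iff_card.1 (hpx.map q)
      rw [MonoidHom.map_zpowers] at hk
      have hk0 : k ≠ 0 := by
        rintro rfl
        rw [pow_zero, Subgroup.card_eq_one, Subgroup.zpowers_eq_bot] at hk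
        exact hxb hk
      refine (dvd_pow_self p hk0).trans (hk ▸ Subgroup.card_dvd_of_le ?_)
      exact Subgroup.zpowers_le.mpr (Subgroup.mem_map_of_mem _ hxH)
    exact (Fact.out : p.Prime).ne_one (Nat.dvd_one.1 ((CfsgLib.Frob.coprime_card_kernel hFC) ▸ Nat.dvd_gcd h hx1))
  obtain ⟨W⟩ : Nonempty (Sylow p ↥Z) := inferInstance
  set Zp : Subgroup G := (W : Subgroup ↥Z).map Z.subtype with hZp
  have hZpZ : Zp ≤ Z := Subgroup.map_subtype_le _
  have hrel : ¬ p ∣ Zp.relIndex K := by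
    rw [← Subgroup.relIndex_mul_relIndex Zp Z K hZpZ hZK]
    intro h
    rcases (Fact.out : p.Prime).dvd_mul.1 h with h1 | h1
    · rw [Subgroup.relIndex, Subgroup.subgroupOf, hZp,
        Subgroup.comap_map_eq_self_of_injective Z.subtype_injective] at h1
      exact W.not_dvd_index h1
    · apply hKp
      rwa [← hqker, ← MonoidHom.comap_bot, Subgroup.relIndex_comap, Subgroup.relIndex_bot_left, hK,
        Subgroup.map_comap_eq_self_of_surjective (QuotientGroup.mk'_surjective Z)] at h1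
  set N : Subgroup ↥K := Zp.subgroupOf K with hN
  haveI : N.Normal := ⟨fun z hz k => by
    have hzc := Subgroup.mem_center_iff.1 (hZpZ (Subgroup.mem_subgroupOf.1 hz)) (k : G)
    rw [hN, Subgroup.mem_subgroupOf]
    have : ((k * z * k⁻¹ : ↥K) : G) = (z : G) := by simp [hzc]
    rw [this]; exact hz⟩
  have hNp : IsPGroup p ↥N := (W.isPGroup'.map _).of_injective
    ((K.subtype.comp N.subtype).codRestrict Zp fun z => Subgroup.mem_subgroupOf.1 z.2)
    (fun a b hab => Subtype.ext (Subtype.ext (congrArg (fun c : ↥Zp => (c : G)) hab)))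
  obtain ⟨m, hm⟩ := IsPGroup.iff_card.1 hNp
  have hcop : (Nat.card ↥N).Coprime N.index := by
    rw [hm]
    exact Nat.Coprime.pow_left _ ((Fact.out : p.Prime).coprime_iff_not_dvd.2 hrel)
  obtain ⟨C, hC⟩ := Subgroup.exists_right_complement'_of_coprime hcop
  have hCcard : Nat.card ↥C = N.index := hC.symm.index_eq_card.symm
  have hNc : ∀ z ∈ N, ∀ k : ↥K, z * k = k * z := fun z hz k => by
    refine Subtype.ext ?_
    exact (Subgroup.mem_center_iff.1 (hZpZ (Subgroup.mem_subgroupOf.1 hz)) (k : G)).symm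
  -- `C` consists of all elements of `K` of order prime to `p`
  have hCall : ∀ k : ↥K, k ^ Nat.card ↥C = 1 → k ∈ C := by
    intro k hk
    obtain ⟨z, hz, c, hc, rfl⟩ : ∃ z ∈ N, ∃ c ∈ C, z * c = k := by
      obtain ⟨⟨⟨z, hz⟩, ⟨c, hc⟩⟩, h⟩ := hC.2 k
      exact ⟨z, hz, c, hc, h⟩
    have h1 : c ^ Nat.card ↥C = 1 :=
      congrArg Subtype.val (pow_card_eq_one' (x := (⟨c, hc⟩ : ↥C)))
    rw [(show Commute z c from hNc z hz c).mul_pow, h1, mul_one] at hk
    have hd1 : orderOf z ∣ Nat.card ↥C := orderOf_dvd_of_pow_eq_one hk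
    have hd2 : orderOf z ∣ Nat.card ↥N := by
      refine orderOf_dvd_of_pow_eq_one ?_
      exact congrArg Subtype.val (pow_card_eq_one' (x := (⟨z, hz⟩ : ↥N)))
    have : orderOf z = 1 := Nat.dvd_one.1 (hcop ▸ Nat.dvd_gcd hd2 (hCcard ▸ hd1))
    rw [orderOf_eq_one_iff.1 this, one_mul]; exact hc
  have hCx : ∀ c ∈ C.map K.subtype, x * c = c * x := by
    refine hb _ ?_ ?_
    · rw [Nat.card_congr (C.equivMapOfInjective _ K.subtype_injective).toEquiv.symm, hCcard]
      exact ((Fact.out : p.Prime).coprime_iff_not_dvd.2 hrel).symm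
    · rintro _ ⟨c, hc, rfl⟩
      refine ⟨⟨x * (c : G) * x⁻¹, Subgroup.Normal.conj_mem inferInstance _ c.2 x⟩, hCall _ ?_, rfl⟩
      refine Subtype.ext ?_
      have h1 : (c : G) ^ Nat.card ↥C = 1 :=
        congrArg (fun a : ↥K => (a : G)) (congrArg Subtype.val (pow_card_eq_one' (x := (⟨c, hc⟩ : ↥C))))
      rw [SubgroupClass.coe_pow, conj_pow, h1]; simp
  refine hnle fun k hk => ?_
  obtain ⟨⟨⟨z, hz⟩, ⟨c, hc⟩⟩, h⟩ := hC.2 ⟨k, hk⟩
  have hk' : (z : G) * (c : G) = k := congrArg Subtype.val h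
  rw [← hk']
  exact H.mul_mem (hZH (hZpZ (Subgroup.mem_subgroupOf.1 hz))) ((hmemH _).2 (hCx _ ⟨c, hc, rfl⟩))

/-- Let S be a Sylow p-subgroup of the finite group G and x an element of S such that (i) x is the only G-conjugate of x lying in S, and (ii) x centralizes every subgroup of order prime to p that it normalizes. Then x lies in the centre of G. -/
theorem result {G : Type*} [Group G] [Finite G] {p : ℕ} [Fact p.Prime]
    (S : Sylow p G) (x : G) (hx : x ∈ S)
    (hU : ∀ g : G, g⁻¹ * x * g ∈ S → g⁻¹ * x * g = x)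
    (hb : ∀ H : Subgroup G, (Nat.card H).Coprime p → (∀ h ∈ H, x * h * x⁻¹ ∈ H) → ∀ h ∈ H, x * h = h * x) :
    x ∈ Subgroup.center G := by
  exact main (Nat.card G) G rfl S x hx hU hb

end Cfsg.Agent.S3064
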