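import Cfsg.Statements.S3070
import Cfsg.Agent.ZJFive.Reduction

set_option autoImplicit false
open Cfsg

namespace Cfsg.Agent.S3070

open scoped Pointwise
open CfsgLib.ZJ (maxGood J J_le)

theorem aux {G : Type*} [Group G] [Finite G] {p : ℕ} [hp : Fact p.Prime] (S : Sylow p G)
    (h : ∀ g ∈ Subgroup.normalizer (J p false (S : Subgroup G) : Set G), (orderOf g).Coprime p →
      g ∈ Subgroup.centralizer (J p false (S : Subgroup G) : Set G)) :
    Cfsg.HasNormalPComplement p (Subgroup.normalizer (J p false (S : Subgroup G) : Set G)) := by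
  set J0 := J p false (S : Subgroup G) with hJ0
  set N := Subgroup.normalizer (J0 : Set G) with hN
  refine CfsgLib.Transfer.frobenius_normal_complement ?_
  intro Q hQ g hg ho
  refine Subgroup.mem_centralizer_iff.2 fun q hq => ?_
  have hgJ : (g : G) ∈ Subgroup.centralizer (J0 : Set G) :=
    h g g.2 (by rwa [Subgroup.orderOf_coe])
  have hgc : ∀ j ∈ J0, (g : G) * j * (g : G)⁻¹ = j := fun j hj => by
    rw [← Subgroup.mem_centralizer_iff.1 hgJ j hj, mul_inv_cancel_right]
  set x := g * q * g⁻¹ * q⁻¹ with hx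
  have hxQ : x ∈ Q := Q.mul_mem ((Subgroup.mem_normalizer_iff.1 hg q).1 hq) (Q.inv_mem hq)
  have hxJ : ∀ j ∈ J0, (x : G) * j * (x : G)⁻¹ = j := by
    intro j hj
    have hj' : (q : G)⁻¹ * j * q ∈ J0 := (Subgroup.mem_normalizer_iff''.1 q.2 j).1 hj
    have h1 : (g : G)⁻¹ * ((q : G)⁻¹ * j * q) * g = (q : G)⁻¹ * j * q := by
      conv_lhs => rw [← hgc _ hj']
      group
    calc (x : G) * j * (x : G)⁻¹
        = (g : G) * q * ((g : G)⁻¹ * ((q : G)⁻¹ * j * q) * g) * (q : G)⁻¹ * (g : G)⁻¹ := by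
          simp only [hx, Subgroup.coe_mul, Subgroup.coe_inv]; group
      _ = (g : G) * j * (g : G)⁻¹ := by rw [h1]; group
      _ = j := hgc j hj
  -- the Sylow subgroup containing `J ⊔ Q`
  have hQ' : IsPGroup p (Q.map N.subtype) := hQ.map _
  have hsup : IsPGroup p (J0 ⊔ Q.map N.subtype : Subgroup G) :=
    IsPGroup.to_sup_of_normal_left' (S.2.to_le (J_le _)) hQ'
      (fun y hy => by obtain ⟨z, -, rfl⟩ := hy; exact z.2)
  obtain ⟨T, hT⟩ := hsup.exists_le_sylow
  obtain ⟨k, hk⟩ := MulAction.exists_smul_eq G T S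
  obtain ⟨A, hA⟩ := CfsgLib.ZJ.maxGood_nonempty p false (S : Subgroup G)
  have hAJ : A ≤ J0 := CfsgLib.ZJ.maxGood_le_J hA
  have hAT : A ∈ maxGood p false (T : Subgroup G) := by
    refine ⟨hAJ.trans (le_sup_left.trans hT), hA.2.1, fun B hB hBg => ?_⟩
    have := hA.2.2 (B.map (MulAut.conj k).toMonoidHom) ?_ (CfsgLib.ZJ.good_map _ hBg)
    · rwa [Subgroup.card_map_of_injective (MulAut.conj k).injective] at this
    · refine (Subgroup.map_mono hB).trans ?_
      rw [← hk, Sylow.coe_subgroup_smul]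
      exact le_rfl
  have hxA : (x : G) ∈ A := by
    refine CfsgLib.ZJ.mem_of_maxGood hAT (hT (Subgroup.mem_sup_right ⟨x, hxQ, rfl⟩)) ?_
      (fun h => absurd h (by simp))
    intro a ha
    have := hxJ a (hAJ ha)
    exact (mul_inv_eq_iff_eq_mul.1 this).symm
  have hgx : g * x * g⁻¹ = x := Subtype.ext (by simpa using hgc _ (hAJ hxA))
  have hpow : ∀ n : ℕ, g ^ n * q * (g ^ n)⁻¹ = x ^ n * q := by
    intro n
    induction n with
    | zero => simp
    | succ n ih =>
      calc g ^ (n + 1) * q * (g ^ (n + 1))⁻¹ = g * (g ^ n * q * (g ^ n)⁻¹) * g⁻¹ := by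
            rw [pow_succ']; group
        _ = (g * x * g⁻¹) ^ n * (g * q * g⁻¹) := by rw [ih, conj_pow]; group
        _ = x ^ (n + 1) * q := by rw [hgx, pow_succ, hx]; group
  have hxn : x ^ orderOf g = 1 := by
    have := hpow (orderOf g)
    rw [pow_orderOf_eq_one, inv_one, mul_one, one_mul] at this
    exact (mul_eq_right.1 this.symm)
  have hx1 : x = 1 := by
    obtain ⟨k, hk⟩ := IsPGroup.iff_card.1 hQ
    have h2 : orderOf x ∣ p ^ k := hk ▸ Subgroup.orderOf_dvd_natCard Q hxQ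
    exact orderOf_eq_one_iff.1
      (Nat.eq_one_of_dvd_coprimes (ho.pow_right k) (orderOf_dvd_of_pow_eq_one hxn) h2)
  rw [hx, mul_inv_eq_one, mul_inv_eq_iff_eq_mul] at hx1
  exact hx1.symm

theorem result {G : Type*} [Group G] [Finite G] {p : ℕ} [Fact p.Prime]
    (hp : 5 ≤ p) (S : Sylow p G) :
    Cfsg.HasNormalPComplement p G ↔
      ∀ g ∈ Subgroup.normalizer (Cfsg.thompsonSubgroupAOf (S : Subgroup G) : Set G), (orderOf g).Coprime p →
        g ∈ Subgroup.centralizer (Cfsg.thompsonSubgroupAOf (S : Subgroup G) : Set G) := by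
  rw [CfsgLib.ZJ.thompsonSubgroupAOf_eq p]
  refine ⟨fun h g hg ho =>
    CfsgLib.Transfer.locallyTrivial_of_hasNormalPComplement h _ (S.2.to_le (J_le _)) g hg ho, fun h => ?_⟩
  exact CfsgLib.ZJFive.hasNormalPComplement_of_normalizer_J hp _ G rfl S (aux S h)

end Cfsg.Agent.S3070
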