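import Cfsg.Statements.S3072
import Cfsg.Agent.Fusion.Goldschmidt
import Cfsg.Agent.Transfer.Residual
import Cfsg.Agent.PReduced.Hom
import Cfsg.Agent.CoprimeAction.Invariant

set_option autoImplicit false
open Cfsg

namespace Cfsg.Agent.S3072

open Subgroup CfsgLib.GroupAlperin
open scoped Pointwise

variable {p : ℕ} {G : Type*} [Group G]

/-- The `O^p`-step data. -/
def XProp (p : ℕ) (H X : Subgroup G) : Prop :=
  H ≤ X ∧ X ≤ normalizer (H : Set G) ∧ (X.subgroupOf (normalizer (H : Set G))).Normal ∧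
    p ∣ H.relIndex X ∧
    ∀ Y : Subgroup G, H ≤ Y → Y ≤ normalizer (H : Set G) →
      (Y.subgroupOf (normalizer (H : Set G))).Normal → p ∣ H.relIndex Y → X ≤ Y

/-- One step of a strong chain. -/
def Step (P : Sylow p G) (H : Subgroup G) (x : G) : Prop :=
  H ≤ (P : Subgroup G) ∧
  ¬ p ∣ ((P : Subgroup G) ⊓ normalizer (H : Set G)).relIndex (normalizer (H : Set G)) ∧
  (P : Subgroup G) ⊓ centralizer (H : Set G) ≤ H ∧
  (Cfsg.pPrimePCore p ↥(normalizer (H : Set G))).map (normalizer (H : Set G)).subtype =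
    H ⊔ centralizer (H : Set G) ∧
  ¬ Cfsg.IsSylowChainConnected p
    (↥(normalizer (H : Set G)) ⧸ H.subgroupOf (normalizer (H : Set G))) ∧
  ∃ X : Subgroup G, XProp p H X ∧ x ∈ (Cfsg.pResidual p ↥X).map X.subtype

theorem normal_map_equiv {N N' : Subgroup G} {X : Subgroup G} (φ : G ≃* G)
    (hN : N.map φ.toMonoidHom = N') (h : (X.subgroupOf N).Normal) :
    ((X.map φ.toMonoidHom).subgroupOf N').Normal := by
  subst hN
  refine ⟨?_⟩
  rintro ⟨z, -⟩ ⟨z', hz', rfl⟩ ⟨_, n, hn, rfl⟩
  rename_i hzN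
  obtain ⟨w, hw, he⟩ := hzN
  have : w = z' := φ.injective he
  subst this
  exact ⟨n * w * n⁻¹, h.conj_mem ⟨w, hw⟩ hz' ⟨n, hn⟩, by
    show φ (n * w * n⁻¹) = φ n * φ w * (φ n)⁻¹
    simp⟩

theorem connected_equiv {Q Q' : Type*} [Group Q] [Group Q'] (e : Q ≃* Q')
    (h : Cfsg.IsSylowChainConnected p Q') : Cfsg.IsSylowChainConnected p Q := by
  let f : Sylow p Q → Sylow p Q' := fun S => S.comapOfInjective e.symm.toMonoidHom e.symm.injective
    (fun x _ => ⟨e x, e.symm_apply_apply x⟩)
  let g : Sylow p Q' → Sylow p Q := fun S => S.comapOfInjective e.toMonoidHom e.injective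
    (fun x _ => ⟨e.symm x, e.apply_symm_apply x⟩)
  have hgf : ∀ S, g (f S) = S := fun S => Sylow.ext (by
    ext x; simp [f, g, Sylow.coe_comapOfInjective])
  have hfg : ∀ S, f (g S) = S := fun S => Sylow.ext (by
    ext x; simp [f, g, Sylow.coe_comapOfInjective])
  intro S T
  obtain ⟨n, c, h0, hl, hle, hadj⟩ := h (f S) (f T)
  refine ⟨n, fun i => g (c i), by show g (c 0) = S; rw [h0, hgf], by show g (c (Fin.last n)) = T; rw [hl, hgf], fun i x hx => ?_, fun i => ⟨?_, ?_⟩⟩
  · apply hle i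
    simpa [f, Sylow.coe_comapOfInjective] using hx
  · intro e'
    apply (hadj i).1
    have := congrArg f e'
    rwa [hfg, hfg] at this
  · intro e'
    apply (hadj i).2
    rw [eq_bot_iff] at e' ⊢
    intro x hx
    have : e.symm x ∈ (⊥ : Subgroup Q) := e' (by
      simpa [g, Sylow.coe_comapOfInjective] using hx)
    rw [mem_bot] at this ⊢
    simpa using congrArg e this

theorem map_pPrimePCore_equiv {A B : Type*} [Group A] [Group B] (e : A ≃* B) :
    (Cfsg.pPrimePCore p A).map e.toMonoidHom = Cfsg.pPrimePCore p B := by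
  have hO : (Cfsg.pPrimeCore p A).map e.toMonoidHom = Cfsg.pPrimeCore p B :=
    CfsgLib.PCore.map_pPrimeCore_equiv e
  let ē := QuotientGroup.congr (Cfsg.pPrimeCore p A) (Cfsg.pPrimeCore p B) e hO
  have hē : ∀ a, ē (QuotientGroup.mk' _ a) = QuotientGroup.mk' _ (e a) := fun a => rfl
  have key : ∀ a, a ∈ Cfsg.pPrimePCore p A ↔ e a ∈ Cfsg.pPrimePCore p B := by
    intro a
    rw [CfsgLib.PCore.mem_pPrimePCore, CfsgLib.PCore.mem_pPrimePCore, ← hē,
      ← CfsgLib.PCore.map_pCore_equiv ē]
    exact (mem_map_iff_mem (f := ē.toMonoidHom) ē.injective).symm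
  ext b
  constructor
  · rintro ⟨a, ha, rfl⟩
    exact (key a).mp ha
  · intro hb
    exact ⟨e.symm b, (key _).mpr (by rwa [e.apply_symm_apply]), e.apply_symm_apply b⟩

theorem step_conj [Finite G] {P : Sylow p G} {H : Subgroup G} {x y : G}
    (hy : y ∈ normalizer ((P : Subgroup G) : Set G)) (h : Step P H x) :
    Step P (H.map (MulAut.conj y).toMonoidHom) (y * x * y⁻¹) := by
  set φ : G ≃* G := MulAut.conj y with hφ
  have hP : (P : Subgroup G).map φ.toMonoidHom = P := by
    have : cj (P : Subgroup G) y⁻¹ = P := cj_eq_self (inv_mem hy)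
    rwa [cj, inv_inv] at this
  have hN : (normalizer (H : Set G)).map φ.toMonoidHom =
      normalizer (H.map φ.toMonoidHom : Set G) := map_equiv_normalizer_eq H φ
  have hC : (centralizer (H : Set G)).map φ.toMonoidHom =
      centralizer (H.map φ.toMonoidHom : Set G) := by
    ext z
    rw [mem_map_equiv, mem_centralizer_iff, mem_centralizer_iff]
    constructor
    · rintro hz _ ⟨a, ha, rfl⟩
      have := congrArg φ (hz a ha)
      simpa using this
    · intro hz a ha
      apply φ.injective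
      have := hz (φ a) ⟨a, ha, rfl⟩
      simpa using this
  set N := normalizer (H : Set G)
  set H' := H.map φ.toMonoidHom
  set N' := normalizer (H' : Set G)
  obtain ⟨h1, h2, h3, h4, h5, X, hX, hx⟩ := h
  let e : ↥N ≃* ↥N' := (N.equivMapOfInjective φ.toMonoidHom φ.injective).trans (MulEquiv.subgroupCongr hN)
  have he : ∀ n : ↥N, ((e n : ↥N') : G) = φ n := fun n => rfl
  refine ⟨?_, ?_, ?_, ?_, ?_, X.map φ.toMonoidHom, ⟨?_, ?_, ?_, ?_, ?_⟩, ?_⟩
  · rw [← hP]; exact map_mono h1
  · rw [show normalizer (H' : Set G) = N.map φ.toMonoidHom from hN.symm, ← hP,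
      ← map_inf _ _ _ φ.injective, relIndex_map_map_of_injective _ _ φ.injective]
    exact h2
  · rw [← hC, ← hP, ← map_inf _ _ _ φ.injective]
    exact map_mono h3
  · rw [← hC, ← Subgroup.map_sup, ← h4, ← map_pPrimePCore_equiv e, Subgroup.map_map, Subgroup.map_map]
    congr 1
  · intro hcon
    apply h5
    refine connected_equiv (QuotientGroup.congr _ (H'.subgroupOf N') e ?_) hcon
    ext z
    constructor
    · rintro ⟨n, hn, rfl⟩
      exact ⟨n, hn, rfl⟩
    · rintro ⟨a, ha, haz⟩
      exact ⟨⟨a, le_normalizer ha⟩, ha, Subtype.ext haz⟩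
  · exact map_mono hX.1
  · rw [show normalizer (H' : Set G) = N.map φ.toMonoidHom from hN.symm]; exact map_mono hX.2.1
  · exact normal_map_equiv φ hN hX.2.2.1
  · rw [relIndex_map_map_of_injective _ _ φ.injective]; exact hX.2.2.2.1
  · intro Y hHY hYN hYn hYd
    rw [map_le_iff_le_comap]
    have hmc : (Y.comap φ.toMonoidHom).map φ.toMonoidHom = Y :=
      map_comap_eq_self_of_surjective φ.surjective Y
    refine hX.2.2.2.2 _ (map_le_iff_le_comap.mp hHY) ?_ ?_ ?_
    · rw [← map_le_map_iff_of_injective (f := φ.toMonoidHom) φ.injective, hmc, hN]; exact hYN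
    · refine ⟨fun z hz n => ?_⟩
      have h6 := hYn.conj_mem (e z) hz (e n)
      show φ ((n : G) * z * (n : G)⁻¹) ∈ Y
      rw [map_mul, map_mul, map_inv]
      exact h6
    · rw [← relIndex_map_map_of_injective _ _ (f := φ.toMonoidHom) φ.injective, hmc]; exact hYd
  · obtain ⟨r, hr, rfl⟩ := hx
    refine ⟨X.equivMapOfInjective φ.toMonoidHom φ.injective r, ?_, by simp [hφ]; rfl⟩
    rw [← CfsgLib.Transfer.map_pResidual_equiv (X.equivMapOfInjective φ.toMonoidHom φ.injective)]
    exact ⟨r, hr, rfl⟩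

/-- A strong chain. -/
inductive C3 (P : Sylow p G) : Subgroup G → G → Prop
  | nil {T : Subgroup G} (h : T ≤ P) : C3 P T 1
  | cons {T : Subgroup G} (H : Subgroup G) {x y : G} (hH : Step P H x) (hT : T ≤ H)
      (h : C3 P (cj T x) y) : C3 P T (x * y)

variable {P : Sylow p G}

theorem C3.mono {T : Subgroup G} {x : G} (h : C3 P T x) :
    ∀ {T' : Subgroup G}, T' ≤ T → C3 P T' x := by
  induction h with
  | nil h => exact fun h' => .nil (h'.trans h)
  | cons H hH hT _ ih => exact fun h' => .cons H hH (h'.trans hT) (ih (cj_mono h' _))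

theorem C3.trans {T : Subgroup G} {x : G} (h : C3 P T x) :
    ∀ {y : G}, C3 P (cj T x) y → C3 P T (x * y) := by
  induction h with
  | nil _ => intro y hy; rw [cj_one] at hy; rwa [one_mul]
  | cons H hH hT _ ih =>
    intro y hy
    rw [← cj_cj] at hy
    rw [mul_assoc]
    exact .cons H hH hT (ih hy)

theorem C3.conj [Finite G] {T : Subgroup G} {x : G} (h : C3 P T x) :
    ∀ {y : G}, y ∈ normalizer ((P : Subgroup G) : Set G) → C3 P (cj T y⁻¹) (y * x * y⁻¹) := by
  induction h with
  | @nil T h =>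
    intro y hy
    rw [mul_one, mul_inv_cancel]
    refine .nil ((cj_mono h _).trans ?_)
    rw [cj_eq_self (inv_mem hy)]
  | @cons T H x z hH hT _ ih =>
    intro y hy
    have hs := step_conj hy hH
    have e : y * (x * z) * y⁻¹ = (y * x * y⁻¹) * (y * z * y⁻¹) := by group
    rw [e]
    refine .cons _ hs ?_ ?_
    · have := cj_mono hT y⁻¹
      simpa [cj] using this
    · have := ih hy
      rw [cj_cj] at this
      rw [cj_cj, show y⁻¹ * (y * x * y⁻¹) = x * y⁻¹ by group]
      exact this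

/-- Fusion along a strong chain. -/
def GF3 (P : Sylow p G) (T : Subgroup G) (g : G) : Prop :=
  ∃ c ∈ centralizer (T : Set G), ∃ a, C3 P T a ∧
    ∃ y ∈ normalizer ((P : Subgroup G) : Set G), g = c * a * y

theorem GF3.mono {T T' : Subgroup G} {g : G} (h : GF3 P T g) (hle : T' ≤ T) : GF3 P T' g := by
  obtain ⟨c, hc, a, ha, y, hy, rfl⟩ := h
  exact ⟨c, centralizer_le (by exact hle) hc, a, ha.mono hle, y, hy, rfl⟩

theorem cj_cent {T : Subgroup G} {c : G} (hc : c ∈ centralizer (T : Set G)) : cj T c = T :=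
  cj_eq_self (centralizer_le_normalizer _ hc)

theorem GF3.trans [Finite G] {T : Subgroup G} {g g' : G} (h : GF3 P T g) (h' : GF3 P (cj T g) g') :
    GF3 P T (g * g') := by
  obtain ⟨c, hc, a, ha, y, hy, rfl⟩ := h
  obtain ⟨c', hc', a', ha', y', hy', rfl⟩ := h'
  rw [mul_assoc c a y, ← cj_cj, cj_cent hc, ← cj_cj] at hc' ha'
  refine ⟨c * ((a * y) * c' * (a * y)⁻¹), mul_mem hc ?_, a * (y * a' * y⁻¹), ?_, y * y',
    mul_mem hy hy', by group⟩
  · rw [mem_centralizer_iff]
    intro t ht
    have h1 : (a * y)⁻¹ * t * (a * y) ∈ cj (cj T a) y := by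
      rw [cj_cj, mem_cj]
      have : (a * y) * ((a * y)⁻¹ * t * (a * y)) * (a * y)⁻¹ = t := by group
      rw [this]; exact ht
    have h2 := mem_centralizer_iff.1 hc' _ h1
    calc t * ((a * y) * c' * (a * y)⁻¹)
        = (a * y) * (((a * y)⁻¹ * t * (a * y)) * c') * (a * y)⁻¹ := by group
      _ = (a * y) * (c' * ((a * y)⁻¹ * t * (a * y))) * (a * y)⁻¹ := by rw [h2]
      _ = (a * y) * c' * (a * y)⁻¹ * t := by group
  · refine ha.trans ?_
    have := ha'.conj hy
    rwa [cj_cj, mul_inv_cancel, cj_one] at this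

theorem C3.fin {T : Subgroup G} {g : G} (h : C3 P T g) :
    ∃ (n : ℕ) (H : Fin n → Subgroup G) (x : Fin n → G), (List.ofFn x).prod = g ∧
      ∀ i : Fin n, Step P (H i) (x i) ∧ cj T ((List.ofFn x).take i.val).prod ≤ H i := by
  induction h with
  | nil _ => exact ⟨0, Fin.elim0, Fin.elim0, by simp, fun i => i.elim0⟩
  | @cons T H₀ x₀ y hH hT _ ih =>
    obtain ⟨n, H, x, hprod, hprop⟩ := ih
    refine ⟨n + 1, Fin.cons H₀ H, Fin.cons x₀ x, by simp [List.ofFn_succ, hprod], ?_⟩
    intro i
    induction i using Fin.cases with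
    | zero => simpa [cj_one] using ⟨hH, hT⟩
    | succ j =>
      refine ⟨by simpa using (hprop j).1, ?_⟩
      rw [List.ofFn_succ, Fin.val_succ, List.take_succ_cons, List.prod_cons]
      simp only [Fin.cons_zero, Fin.cons_succ]
      rw [← cj_cj]
      exact (hprop j).2

variable [hp : Fact p.Prime] [Finite G]

theorem local_gen (P : Sylow p G) {H : Subgroup G} (hgood : CfsgLib.Goldschmidt.Good P H)
    (hbig : ∀ (E : Subgroup G) (g : G), H < E → E ≤ P → cj E g ≤ P → GF3 P E g) :
    ∀ n ∈ normalizer (H : Set G), GF3 P H n := by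
  classical
  obtain ⟨hHP, hcent, hdir, htame⟩ := hgood
  rcases eq_or_lt_of_le hHP with rfl | hlt
  · exact fun n hn => ⟨1, one_mem _, 1, .nil le_rfl, n, hn, by group⟩
  set N := normalizer (H : Set G) with hN
  have hHN : H ≤ N := le_normalizer
  obtain ⟨W, hW⟩ := exists_sylow_subgroupOf htame
  have hW' : ∀ n : ↥N, n ∈ (W : Subgroup ↥N) ↔ (n : G) ∈ (P : Subgroup G) := fun n => by
    rw [hW, mem_subgroupOf]
    exact ⟨fun h => h.1, fun h => ⟨h, n.2⟩⟩
  set H' := H.subgroupOf N with hH'
  have : H'.Normal := normal_subgroupOf_of_le_normalizer le_rfl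
  set π := QuotientGroup.mk' H' with hπ
  have hπs : Function.Surjective π := QuotientGroup.mk'_surjective _
  set Wb : Sylow p (↥N ⧸ H') := W.mapSurjective hπs with hWb
  have hWbc : (Wb : Subgroup (↥N ⧸ H')) = (W : Subgroup ↥N).map π := Sylow.coe_mapSurjective hπs W
  -- the subgroup of good elements
  have hcjH : ∀ n ∈ N, cj H n = H := fun n hn => cj_eq_self hn
  have hone : GF3 P H 1 := ⟨1, one_mem _, 1, .nil hHP, 1, one_mem _, by group⟩
  have hmul : ∀ a ∈ N, ∀ b, GF3 P H a → GF3 P H b → GF3 P H (a * b) := fun a ha b h1 h2 =>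
    h1.trans (by rw [hcjH a ha]; exact h2)
  let K : Subgroup ↥N :=
    { carrier := {n | GF3 P H (n : G)}
      one_mem' := hone
      mul_mem' := fun {a b} ha hb => hmul a a.2 b ha hb
      inv_mem' := by
        intro a ha
        have hpw : ∀ k : ℕ, GF3 P H ((a ^ k : ↥N) : G) := by
          intro k
          induction k with
          | zero => simpa using hone
          | succ k ih => rw [pow_succ]; exact hmul _ (a ^ k).2 _ ih ha
        have e : a⁻¹ = a ^ (orderOf a - 1) := by
          symm; apply eq_inv_of_mul_eq_one_left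
          rw [← pow_succ, Nat.sub_add_cancel (orderOf_pos a), pow_orderOf_eq_one]
        show GF3 P H ((a⁻¹ : ↥N) : G)
        rw [e]; exact hpw _ }
  have hH'W : H' ≤ (W : Subgroup ↥N) := fun n hn => (hW' n).mpr (hHP hn)
  -- criterion
  have critQ : ∀ (n : ↥N) (R : Subgroup (↥N ⧸ H')), R ≠ ⊥ → R ≤ Wb →
      (∀ r ∈ R, (π n)⁻¹ * r * π n ∈ (Wb : Subgroup (↥N ⧸ H'))) → n ∈ K := by
    intro n R hR hRW hRn
    have hmemW : ∀ z : ↥N, π z ∈ (Wb : Subgroup (↥N ⧸ H')) → z ∈ (W : Subgroup ↥N) := by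
      intro z hz
      rw [hWbc, ← mem_comap, comap_map_eq, QuotientGroup.ker_mk', sup_eq_left.mpr hH'W] at hz
      exact hz
    set E := (R.comap π).map N.subtype with hE
    have hHE : H ≤ E := fun z hz => by
      refine ⟨⟨z, hHN hz⟩, ?_, rfl⟩
      show π _ ∈ R
      rw [hπ, QuotientGroup.mk'_apply, (QuotientGroup.eq_one_iff _).mpr (show (⟨z, hHN hz⟩ : ↥N) ∈ H' from hz)]
      exact one_mem _
    have hlt' : H < E := by
      refine lt_of_le_of_ne hHE fun e => hR ?_
      rw [eq_bot_iff]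
      intro r hr
      obtain ⟨z, rfl⟩ := hπs r
      have hz : (z : G) ∈ E := ⟨z, hr, rfl⟩
      rw [← e] at hz
      rw [mem_bot, hπ, QuotientGroup.mk'_apply, QuotientGroup.eq_one_iff]
      exact hz
    have hEP : E ≤ P := by
      rintro _ ⟨z, hz, rfl⟩
      exact (hW' z).mp (hmemW z (hRW hz))
    have hEn : cj E (n : G) ≤ P := by
      rintro _ ⟨_, ⟨z, hz, rfl⟩, rfl⟩
      have h1 := hmemW (n⁻¹ * z * n) (by rw [map_mul, map_mul, map_inv]; exact hRn _ hz)
      simpa [mul_assoc] using (hW' _).mp h1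
    exact (hbig E n hlt' hEP hEn).mono hHE
  -- `H < P ∩ N`
  have hWH : ¬ (W : Subgroup ↥N) ≤ H' := by
    intro hle
    have : Group.IsNilpotent ↥(P : Subgroup G) := P.2.isNilpotent
    have hlt' : H.subgroupOf (P : Subgroup G) < ⊤ :=
      lt_top_iff_ne_top.mpr fun e => not_le_of_gt hlt (subgroupOf_eq_top.mp e)
    obtain ⟨t, ht1, ht2⟩ := SetLike.exists_of_lt (normalizerCondition_of_isNilpotent _ hlt')
    apply ht2
    have htN : (t : G) ∈ N := by
      rw [hN, mem_normalizer_iff]
      intro z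
      constructor
      · intro hz
        exact (mem_normalizer_iff.mp ht1 ⟨z, hHP hz⟩).mp hz
      · intro hz
        have h1 : (t : G)⁻¹ * ((t : G) * z * (t : G)⁻¹) * (t : G) ∈ (P : Subgroup G) :=
          mul_mem (mul_mem (inv_mem t.2) (hHP hz)) t.2
        have e : (t : G)⁻¹ * ((t : G) * z * (t : G)⁻¹) * (t : G) = z := by group
        rw [e] at h1
        exact (mem_normalizer_iff.mp ht1 ⟨z, h1⟩).mpr hz
    exact hle (show (⟨t, htN⟩ : ↥N) ∈ (W : Subgroup ↥N) from (hW' _).mpr t.2)
  have hWbne : (Wb : Subgroup (↥N ⧸ H')) ≠ ⊥ := by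
    rw [hWbc, Ne, Subgroup.map_eq_bot_iff, QuotientGroup.ker_mk']
    exact hWH
  have hker : H' ≤ K := fun z hz => by
    refine critQ z _ hWbne le_rfl fun r hr => ?_
    rw [hπ, QuotientGroup.mk'_apply, (QuotientGroup.eq_one_iff z).mpr hz]
    simpa using hr
  have hWK : (W : Subgroup ↥N) ≤ K := fun z hz => by
    refine critQ z _ hWbne le_rfl fun r hr => ?_
    have hz' : π z ∈ (Wb : Subgroup (↥N ⧸ H')) := hWbc ▸ mem_map_of_mem π hz
    exact mul_mem (mul_mem (inv_mem hz') hr) hz'
  suffices hK : K = ⊤ by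
    intro n hn
    exact (show (⟨n, hn⟩ : ↥N) ∈ K from hK ▸ mem_top _)
  by_cases hconn : Cfsg.IsSylowChainConnected p (↥N ⧸ H')
  · rw [eq_top_iff]
    intro n _
    obtain ⟨l, c, h0, hl, -, hadj⟩ := hconn Wb (π n • Wb)
    have key : ∀ i : ℕ, (hi : i ≤ l) → ∃ k ∈ K, c ⟨i, by omega⟩ = π k • Wb := by
      intro i
      induction i with
      | zero => intro hi; exact ⟨1, one_mem _, by rw [map_one, one_smul]; exact h0⟩
      | succ i ih =>
        intro hi
        obtain ⟨k, hk, hci⟩ := ih (by omega)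
        obtain ⟨q, hq⟩ := MulAction.exists_smul_eq (↥N ⧸ H') Wb (c ⟨i + 1, by omega⟩)
        obtain ⟨m, rfl⟩ := hπs q
        refine ⟨m, ?_, hq.symm⟩
        have hne := (hadj ⟨i, by omega⟩).2
        set R := (c ⟨i, by omega⟩ : Subgroup (↥N ⧸ H')) ⊓ (c ⟨i + 1, by omega⟩ : Subgroup (↥N ⧸ H'))
          with hR
        have hmem : k⁻¹ * m ∈ K := by
          refine critQ _ (R.map (MulAut.conj (π k)⁻¹).toMonoidHom) ?_ ?_ ?_
          · rw [Ne, map_eq_bot_iff_of_injective _ (MulAut.conj _).injective]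
            exact hne
          · rintro _ ⟨r, hr, rfl⟩
            have h1 : r ∈ ((π k • Wb : Sylow p (↥N ⧸ H')) : Subgroup (↥N ⧸ H')) := hci ▸ hr.1
            rw [Sylow.coe_subgroup_smul, mem_pointwise_smul_iff_inv_smul_mem] at h1
            simpa [MulAut.smul_def, mul_assoc] using h1
          · rintro _ ⟨r, hr, rfl⟩
            have h1 : r ∈ ((π m • Wb : Sylow p (↥N ⧸ H')) : Subgroup (↥N ⧸ H')) := hq ▸ hr.2
            rw [Sylow.coe_subgroup_smul, mem_pointwise_smul_iff_inv_smul_mem] at h1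
            simpa [MulAut.smul_def, mul_assoc] using h1
        have := K.mul_mem hk hmem
        rwa [mul_inv_cancel_left] at this
    obtain ⟨k, hk, hck⟩ := key l le_rfl
    have hnk : k⁻¹ * n ∈ K := by
      refine critQ _ _ hWbne le_rfl fun r hr => ?_
      have e : π k • Wb = π n • Wb := by rw [← hck]; exact hl
      have h1 : π k * r * (π k)⁻¹ ∈ ((π k • Wb : Sylow p (↥N ⧸ H')) : Subgroup (↥N ⧸ H')) := by
        rw [Sylow.coe_subgroup_smul, mem_pointwise_smul_iff_inv_smul_mem]
        simpa [MulAut.smul_def, mul_assoc] using hr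
      rw [e, Sylow.coe_subgroup_smul, mem_pointwise_smul_iff_inv_smul_mem] at h1
      simpa [MulAut.smul_def, mul_assoc] using h1
    have := K.mul_mem hk hnk
    rwa [mul_inv_cancel_left] at this
  -- a normal subgroup meeting `W` outside `H` and lying in `K` suffices
  have frattini : ∀ X' : Subgroup ↥N, X'.Normal → H' ≤ X' → p ∣ H'.relIndex X' → X' ≤ K → K = ⊤ := by
    intro X' hXn hHX hdvd hXK
    obtain ⟨U, hU⟩ := CfsgLib.QDWr.exists_sylow_inf_normal W X'
    have hfr := Sylow.normalizer_sup_eq_top U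
    rw [hU, Subgroup.subgroupOf_map_subtype, inf_eq_left.2 inf_le_right] at hfr
    rw [eq_top_iff, ← hfr]
    refine sup_le (fun m hm => ?_) hXK
    refine critQ m (((W : Subgroup ↥N) ⊓ X').map π) ?_ (hWbc ▸ map_mono inf_le_left) ?_
    · rw [Ne, Subgroup.map_eq_bot_iff, QuotientGroup.ker_mk']
      intro hle
      apply U.not_dvd_index
      have h1 : (U : Subgroup ↥X') ≤ H'.subgroupOf X' := by
        rw [hU]; exact fun z hz => hle hz
      have h2 : (H'.subgroupOf X').index ∣ (U : Subgroup ↥X').index := index_dvd_of_le h1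
      exact dvd_trans hdvd h2
    · rintro _ ⟨r, hr, rfl⟩
      rw [← map_inv, ← map_mul, ← map_mul, hWbc]
      refine mem_map_of_mem π ?_
      have h1 := (mem_normalizer_iff.mp (inv_mem hm) r).mp hr
      rw [inv_inv] at h1
      exact h1.1
  -- candidates
  have hWrel : p ∣ H.relIndex N := by
    obtain ⟨j, hj⟩ := Wb.2.exists_card_eq
    have h1 : p ∣ Nat.card ↥(Wb : Subgroup (↥N ⧸ H')) := by
      rcases j with _ | j
      · exact absurd (card_eq_one.mp (by simpa using hj)) hWbne
      · exact hj ▸ dvd_pow_self p (Nat.succ_ne_zero j)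
    exact h1.trans (card_subgroup_dvd_card _)
  obtain ⟨X, hXmem, hXmin⟩ := (Set.toFinite {X : Subgroup G | H ≤ X ∧ X ≤ N ∧ (X.subgroupOf N).Normal ∧
      p ∣ H.relIndex X}).exists_minimal ⟨N, hHN, le_rfl, by rw [subgroupOf_self]; infer_instance, hWrel⟩
  obtain ⟨hHX, hXN, hXn, hXd⟩ := hXmem
  set X' := X.subgroupOf N with hX'
  have hHX' : H' ≤ X' := fun z hz => hHX hz
  have hrel : ∀ {A : Subgroup G}, A ≤ N → H'.relIndex (A.subgroupOf N) = H.relIndex A := fun hA =>
    relIndex_subgroupOf hA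
  refine frattini X' hXn hHX' (by rw [hrel hXN]; exact hXd) ?_
  by_cases huni : ∀ Y : Subgroup G, H ≤ Y → Y ≤ N → (Y.subgroupOf N).Normal → p ∣ H.relIndex Y → X ≤ Y
  · -- the step
    have hX : XProp p H X := ⟨hHX, hXN, hXn, hXd, huni⟩
    obtain ⟨U, hU⟩ := CfsgLib.QDWr.exists_sylow_inf_normal W X'
    have htop := CfsgLib.Transfer.pResidual_sup_sylow U
    have hres : (Cfsg.pResidual p ↥X').map X'.subtype ≤ K := by
      have hstep : ∀ x : G, x ∈ (Cfsg.pResidual p ↥X).map X.subtype → GF3 P H x := by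
        intro x hx
        have hpc : (P : Subgroup G) ⊓ centralizer (H : Set G) ≤ H := by
          rintro c ⟨hcP, hcC⟩
          obtain ⟨hO1, hD1, hcomm, hinf, hsup⟩ := hdir
          set O := (Cfsg.pPrimeCore p ↥N).map N.subtype with hO
          have hc := hcent hcC
          rw [← hsup] at hc
          have hn' : H ≤ normalizer (O : Set G) := by
            intro d hd
            rw [mem_normalizer_iff]
            intro o
            constructor
            · intro ho
              rw [← hcomm o ho d hd, mul_inv_cancel_right]; exact ho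
            · intro ho
              have := hcomm _ ho d hd
              have e : o = d * o * d⁻¹ := by
                calc o = d⁻¹ * ((d * o * d⁻¹) * d) := by group
                _ = d⁻¹ * (d * (d * o * d⁻¹)) := by rw [this]
                _ = d * o * d⁻¹ := by group
              rw [e]; exact ho
          rw [← SetLike.mem_coe, coe_mul_of_right_le_normalizer_left _ _ hn'] at hc
          obtain ⟨o, ho, d, hd, rfl⟩ := hc
          have hoP : o ∈ (P : Subgroup G) := by
            have := (P : Subgroup G).mul_mem hcP ((P : Subgroup G).inv_mem (hHP hd))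
            simpa using this
          have hcard : (Nat.card ↥O).Coprime p := by
            rw [hO, card_map_of_injective N.subtype_injective]
            exact CfsgLib.PCore.pPrimeCore_coprime p _
          have ho1 : o = 1 := by
            have h1 : o ∈ (P : Subgroup G) ⊓ O := ⟨hoP, ho⟩
            rw [CfsgLib.PCore.inf_eq_bot_of_isPGroup_of_coprime P.2 hcard] at h1
            exact h1
          simpa [ho1] using hd
        have hpp : (Cfsg.pPrimePCore p ↥N).map N.subtype = H ⊔ centralizer (H : Set G) := by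
          refine le_antisymm ?_ (sup_le hdir.2.1 hcent)
          rw [← hdir.2.2.2.2]
          refine sup_le (fun o ho => mem_sup_right (mem_centralizer_iff.mpr fun d hd => ?_)) le_sup_left
          exact (hdir.2.2.1 o ho d hd).symm
        have hs : Step P H x := ⟨hHP, htame, hpc, hpp, hconn, X, hX, hx⟩
        have hxN : x ∈ N := hXN (map_subtype_le _ hx)
        refine ⟨1, one_mem _, x * 1, .cons H hs le_rfl (.nil (by rw [hcjH x hxN]; exact hHP)), 1,
          one_mem _, by group⟩
      rintro _ ⟨r, hr, rfl⟩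
      apply hstep
      refine ⟨subgroupOfEquivOfLe hXN r, ?_, rfl⟩
      rw [← CfsgLib.Transfer.map_pResidual_equiv (subgroupOfEquivOfLe hXN)]
      exact ⟨r, hr, rfl⟩
    have h1 : X' = (Cfsg.pResidual p ↥X' ⊔ (U : Subgroup ↥X')).map X'.subtype := by
      rw [htop, ← MonoidHom.range_eq_map, range_subtype]
    rw [h1, Subgroup.map_sup]
    refine sup_le hres ?_
    rw [hU, subgroupOf_map_subtype]
    exact (inf_le_left.trans inf_le_left).trans hWK
  · -- two normal subgroups
    push_neg at huni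
    obtain ⟨Y, hHY, hYN, hYn, hYd, hXY⟩ := huni
    set Y' := Y.subgroupOf N with hY'
    set Xb := X'.map π with hXb
    set Yb := Y'.map π with hYb
    have : Xb.Normal := hXn.map π hπs
    have : Yb.Normal := hYn.map π hπs
    have hcardb : ∀ A : Subgroup ↥N, H' ≤ A → Nat.card ↥(A.map π) = H'.relIndex A := by
      intro A hA
      have h := Subgroup.relIndex_ker (K := A) π
      rw [QuotientGroup.ker_mk'] at h
      exact h.symm
    have hcomap : ∀ A : Subgroup ↥N, H' ≤ A → (A.map π).comap π = A := fun A hA => by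
      rw [comap_map_eq, QuotientGroup.ker_mk', sup_eq_left.mpr hA]
    have hHY' : H' ≤ Y' := fun z hz => hHY hz
    set D := Xb ⊓ Yb with hD
    have hDp : ¬ p ∣ Nat.card ↥D := by
      intro hd
      have hDe : D = ((X ⊓ Y).subgroupOf N).map π := by
        apply comap_injective hπs
        rw [hD, comap_inf, hcomap X' hHX', hcomap Y' hHY', hcomap ((X ⊓ Y).subgroupOf N) (fun z hz => mem_subgroupOf.mpr (mem_inf.mpr ⟨hHX hz, hHY hz⟩))]
        ext z; rfl
      rw [hDe, hcardb ((X ⊓ Y).subgroupOf N) (fun z hz => mem_subgroupOf.mpr (mem_inf.mpr ⟨hHX hz, hHY hz⟩)), hrel (inf_le_left.trans hXN)] at hd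
      apply hXY
      have hn : ((X ⊓ Y).subgroupOf N).Normal := by
        refine ⟨fun z hz g => mem_subgroupOf.mpr (mem_inf.mpr ⟨?_, ?_⟩)⟩
        · exact hXn.conj_mem z hz.1 g
        · exact hYn.conj_mem z hz.2 g
      exact (hXmin ⟨le_inf hHX hHY, inf_le_left.trans hXN, hn, hd⟩ inf_le_left).trans inf_le_right
    let Kb := K.map π
    have hKb : ∀ z : ↥N, π z ∈ Kb → z ∈ K := fun z hz => by
      rw [← mem_comap, hcomap K hker] at hz
      exact hz
    have critb : ∀ (q : ↥N ⧸ H') (R : Subgroup (↥N ⧸ H')), R ≠ ⊥ → R ≤ Wb →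
        (∀ r ∈ R, q⁻¹ * r * q ∈ (Wb : Subgroup (↥N ⧸ H'))) → q ∈ Kb := by
      intro q R h1 h2 h3
      obtain ⟨z, rfl⟩ := hπs q
      exact mem_map_of_mem π (critQ z R h1 h2 h3)
    have hex : ∀ A : Subgroup (↥N ⧸ H'), A.Normal → p ∣ Nat.card ↥A →
        ∃ a ∈ A, a ∈ (Wb : Subgroup (↥N ⧸ H')) ∧ a ^ p = 1 ∧ a ≠ 1 ∧
          ∀ w ∈ (Wb : Subgroup (↥N ⧸ H')), w * a = a * w := by
      intro A hA hd
      obtain ⟨U, hU⟩ := CfsgLib.QDWr.exists_sylow_inf_normal Wb A
      have hne : (A.subgroupOf (Wb : Subgroup (↥N ⧸ H'))) ≠ ⊥ := by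
        intro e
        rw [subgroupOf_eq_bot, disjoint_iff, inf_comm] at e
        have h1 : (U : Subgroup ↥A) = ⊥ := by rw [hU, e, bot_subgroupOf]
        exact U.ne_bot_of_dvd_card hd h1
      set Z := A.subgroupOf (Wb : Subgroup (↥N ⧸ H')) ⊓ center ↥(Wb : Subgroup (↥N ⧸ H')) with hZ
      have hZne : Z ≠ ⊥ := CfsgLib.PReduced.inf_center_ne_bot Wb.2 hne
      obtain ⟨j, hj⟩ := IsPGroup.iff_card.mp (Wb.2.to_subgroup Z)
      have hpZ : p ∣ Nat.card ↥Z := by
        rcases j with _ | j
        · exact absurd (card_eq_one.mp (by simpa using hj)) hZne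
        · exact hj ▸ dvd_pow_self p (Nat.succ_ne_zero j)
      obtain ⟨⟨z, hz⟩, hzo⟩ := exists_prime_orderOf_dvd_card' p hpZ
      rw [Subgroup.orderOf_mk, ← Subgroup.orderOf_coe] at hzo
      refine ⟨z, hz.1, z.2, orderOf_dvd_iff_pow_eq_one.mp hzo.dvd, ?_, fun w hw => ?_⟩
      · intro e
        rw [e, orderOf_one] at hzo
        exact hp.out.ne_one hzo.symm
      · exact congrArg Subtype.val (mem_center_iff.mp hz.2 ⟨w, hw⟩)
    obtain ⟨a, haX, haW, hap, ha1, hac⟩ := hex Xb inferInstance (by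
      rw [hXb, hcardb X' hHX', hrel hXN]; exact hXd)
    obtain ⟨b, hbY, hbW, hbp, hb1, hbc⟩ := hex Yb inferInstance (by
      rw [hYb, hcardb Y' hHY', hrel hYN]; exact hYd)
    set A := zpowers a ⊔ zpowers b with hA
    have hAW : A ≤ Wb := sup_le (zpowers_le.mpr haW) (zpowers_le.mpr hbW)
    have hAle : A ≤ centralizer (A : Set (↥N ⧸ H')) := by
      have h1 : ∀ w ∈ A, w * a = a * w ∧ w * b = b * w := fun w hw => ⟨hac w (hAW hw), hbc w (hAW hw)⟩
      refine sup_le (zpowers_le.mpr ?_) (zpowers_le.mpr ?_)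
      · exact mem_centralizer_iff.mpr fun w hw => (h1 w hw).1
      · exact mem_centralizer_iff.mpr fun w hw => (h1 w hw).2
    have hAc : IsMulCommutative ↥A :=
      ⟨⟨fun u v => Subtype.ext (mem_centralizer_iff.mp (hAle v.2) u u.2)⟩⟩
    have hab : b ∉ zpowers a := by
      intro hmem
      apply hDp
      have hbD : b ∈ D := ⟨zpowers_le.mpr haX hmem, hbY⟩
      have := orderOf_dvd_natCard (⟨b, hbD⟩ : ↥D)
      rwa [Subgroup.orderOf_mk, orderOf_eq_prime hbp hb1] at this
    have hncyc : ¬ IsCyclic ↥A := by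
      intro hcyc
      obtain ⟨⟨g, hg⟩, hgen⟩ := hcyc.exists_generator
      have hexp : g ^ p = 1 := by
        have hsub : A ≤
          { carrier := {u | u ∈ A ∧ u ^ p = 1}
            one_mem' := ⟨one_mem _, one_pow _⟩
            mul_mem' := fun {u v} hu hv => ⟨mul_mem hu.1 hv.1, by
              rw [Commute.mul_pow (mem_centralizer_iff.mp (hAle hv.1) u hu.1), hu.2, hv.2, one_mul]⟩
            inv_mem' := fun {u} hu => ⟨inv_mem hu.1, by rw [inv_pow, hu.2, inv_one]⟩ :
              Subgroup (↥N ⧸ H') } :=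
          sup_le (zpowers_le.mpr ⟨mem_sup_left (mem_zpowers a), hap⟩)
            (zpowers_le.mpr ⟨mem_sup_right (mem_zpowers b), hbp⟩)
        exact (hsub hg).2
      have hAg : A ≤ zpowers g := fun u hu => by
        obtain ⟨i, hi⟩ := mem_zpowers_iff.mp (hgen ⟨u, hu⟩)
        exact ⟨i, congrArg Subtype.val hi⟩
      apply hab
      have hle : zpowers a ≤ zpowers g := (le_sup_left.trans hAg)
      have hcard : Nat.card ↥(zpowers g) ≤ Nat.card ↥(zpowers a) := by
        rw [Nat.card_zpowers, Nat.card_zpowers, orderOf_eq_prime hap ha1]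
        exact Nat.le_of_dvd hp.out.pos (orderOf_dvd_of_pow_eq_one hexp)
      rw [Subgroup.eq_of_le_of_card_ge hle hcard]
      exact hAg (mem_sup_right (mem_zpowers b))
    have hDn : A ≤ normalizer (D : Set (↥N ⧸ H')) := by
      rw [normalizer_eq_top_iff.mpr (inferInstance : D.Normal)]; exact le_top
    have hDK : D ≤ Kb := by
      refine CfsgLib.CoprimeAction.le_of_centralizers_le hncyc hDn ?_ ?_
      · obtain ⟨j, hj⟩ := IsPGroup.iff_card.mp (Wb.2.to_le hAW)
        rw [hj]
        exact Nat.Coprime.pow_left _ ((Nat.Prime.coprime_iff_not_dvd hp.out).mpr hDp)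
      · rintro e he he1 d ⟨-, hdc⟩
        refine critb d (zpowers e) (by simpa using he1) (zpowers_le.mpr (hAW he)) fun r hr => ?_
        have h1 : d * e = e * d := (mem_centralizer_iff.mp hdc e rfl).symm
        obtain ⟨i, rfl⟩ := mem_zpowers_iff.mp hr
        have h2 : d⁻¹ * e ^ i * d = e ^ i := by
          rw [mul_assoc, ← (Commute.zpow_right h1 i).eq, inv_mul_cancel_left]
        rw [h2]
        exact zpow_mem (hAW he) i
    have hXK : Xb ≤ Kb := by
      intro x hx
      set B := zpowers b with hB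
      set L := D ⊔ B with hL
      have hBp : IsPGroup p ↥B := Wb.2.to_le (zpowers_le.mpr hbW)
      have hBL : ¬ p ∣ (B.subgroupOf L).index := by
        intro hd
        apply hDp
        refine hd.trans ?_
        have h1 : Nat.card ↥L ∣ Nat.card ↥D * Nat.card ↥B := by
          rw [hL, sup_comm, mul_comm]
          exact CfsgLib.PCore.card_sup_dvd D B
        have h2 : (B.subgroupOf L).index * Nat.card ↥B = Nat.card ↥L := by
          rw [← Nat.card_congr (subgroupOfEquivOfLe (le_sup_right : B ≤ L)).toEquiv, mul_comm]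
          exact card_mul_index _
        rw [← h2] at h1
        exact Nat.dvd_of_mul_dvd_mul_right Nat.card_pos h1
      let SB : Sylow p ↥L := (hBp.comap_subtype (K := L)).toSylow hBL
      set B' := B.map (MulAut.conj x).toMonoidHom with hB'
      have hB'L : B' ≤ L := by
        rw [hB', hB, MonoidHom.map_zpowers, zpowers_le]
        have e : (MulAut.conj x).toMonoidHom b = (x * b * x⁻¹ * b⁻¹) * b := by simp
        rw [e]
        refine mul_mem (mem_sup_left ⟨?_, ?_⟩) (mem_sup_right (mem_zpowers b))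
        · have e2 : x * b * x⁻¹ * b⁻¹ = x * (b * x⁻¹ * b⁻¹) := by group
          rw [e2]
          exact mul_mem hx ((inferInstance : Xb.Normal).conj_mem _ (inv_mem hx) b)
        · exact Yb.mul_mem ((inferInstance : Yb.Normal).conj_mem b hbY x) (Yb.inv_mem hbY)
      obtain ⟨S', hS'⟩ := ((hBp.map (MulAut.conj x).toMonoidHom).comap_subtype (K := L)).exists_le_sylow
      obtain ⟨⟨l, hl⟩, hle⟩ := MulAction.exists_smul_eq ↥L SB S'
      rw [← SetLike.mem_coe, hL, Subgroup.normal_mul] at hl
      obtain ⟨d, hd, e, he, hde⟩ := hl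
      simp only at hde
      subst hde
      have hd' : d⁻¹ * x ∈ Kb := by
        refine critb _ B (by rw [hB]; simpa using hb1) (zpowers_le.mpr hbW) ?_
        have key : ∀ r ∈ B, (d * e)⁻¹ * (x * r * x⁻¹) * (d * e) ∈ B := by
          intro r hr
          have h1 : (⟨x * r * x⁻¹, hB'L ⟨r, hr, rfl⟩⟩ : ↥L) ∈ (S' : Subgroup ↥L) := hS' ⟨r, hr, rfl⟩
          rw [← hle, Sylow.coe_subgroup_smul, mem_pointwise_smul_iff_inv_smul_mem] at h1
          simpa [MulAut.smul_def, mul_assoc, SB, IsPGroup.toSylow_coe, mem_subgroupOf] using h1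
        have key2 : ∀ r ∈ B, (d⁻¹ * x) * r * (d⁻¹ * x)⁻¹ ∈ B := by
          intro r hr
          have e1 : (d⁻¹ * x) * r * (d⁻¹ * x)⁻¹ = e * ((d * e)⁻¹ * (x * r * x⁻¹) * (d * e)) * e⁻¹ := by
            group
          rw [e1]
          exact mul_mem (mul_mem he (key r hr)) (inv_mem he)
        set z := d⁻¹ * x
        have hpow : ∀ k : ℕ, ∀ r ∈ B, z ^ k * r * (z ^ k)⁻¹ ∈ B := by
          intro k
          induction k with
          | zero => intro r hr; simpa using hr
          | succ k ih =>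
            intro r hr
            have := key2 _ (ih r hr)
            rw [pow_succ']
            simpa [mul_assoc] using this
        intro r hr
        have := hpow (orderOf z - 1) r hr
        have e3 : z ^ (orderOf z - 1) * z = 1 := by
          rw [← pow_succ, Nat.sub_add_cancel (orderOf_pos z), pow_orderOf_eq_one]
        rw [eq_inv_of_mul_eq_one_left e3, inv_inv] at this
        exact zpowers_le.mpr hbW this
      have := Kb.mul_mem (hDK hd) hd'
      rwa [mul_inv_cancel_left] at this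
    intro z hz
    exact hKb z (hXK (mem_map_of_mem π hz))

/-- The strong fusion theorem. -/
theorem fusion3 (P : Sylow p G) : ∀ (m : ℕ) (T : Subgroup G) (g : G), T ≤ P → cj T g ≤ P →
    Nat.card (P : Subgroup G) - Nat.card T = m → GF3 P T g := by
  intro m
  induction m using Nat.strong_induction_on with
  | _ m ih =>
    intro T g hT hTg hm
    have hlarge : ∀ (E : Subgroup G) (y : G), Nat.card T < Nat.card E → E ≤ P → cj E y ≤ P →
        GF3 P E y := by
      intro E y hlt hEP hy
      refine ih _ ?_ E y hEP hy rfl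
      have := Subgroup.card_le_of_le hEP
      omega
    have hone : ∀ {U D : Subgroup G} {x : G}, Nat.card U = Nat.card T → U ≤ D → D ≤ P →
        ¬ p ∣ ((P : Subgroup G) ⊓ normalizer (D : Set G)).relIndex (normalizer (D : Set G)) →
        x ∈ normalizer (D : Set G) → GF3 P U x := by
      intro U D x hU hUD hDP htame hx
      by_cases hlt : Nat.card T < Nat.card D
      · exact (hlarge D x hlt hDP (by rw [cj_eq_self hx]; exact hDP)).mono hUD
      have hDU : D = U := (Subgroup.eq_of_le_of_card_ge hUD (by omega)).symm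
      subst hDU
      rcases CfsgLib.Goldschmidt.step hDP htame with hgood | ⟨D', hlt', hD'P, hcov⟩
      · exact local_gen P hgood (fun E y hE hEP hy => hlarge E y (hU ▸ card_lt_of_lt hE) hEP hy) x hx
      · obtain ⟨c, hc, n, hn, rfl⟩ := hcov x hx
        have h1 : GF3 P D n :=
          (hlarge D' n (hU ▸ card_lt_of_lt hlt') hD'P (by rw [cj_eq_self hn]; exact hD'P)).mono hlt'.le
        obtain ⟨c', hc', a, ha, y, hy, rfl⟩ := h1
        exact ⟨c * c', mul_mem hc hc', a, ha, y, hy, by group⟩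
    have key : ∀ {U : Subgroup G} {x : G}, AChain P U x → Nat.card U = Nat.card T → GF3 P U x := by
      intro U x h
      induction h with
      | nil h => exact fun _ => ⟨1, one_mem _, 1, .nil h, 1, one_mem _, by group⟩
      | @cons U Q x y htame hx hxp hU _ ih' =>
        intro hcard
        refine (hone hcard hU inf_le_left htame.1 hx).trans (ih' ?_)
        rw [← hcard]
        exact Subgroup.card_map_of_injective (MulAut.conj x⁻¹).injective
    exact key (exists_chain_of_fusion P hT hTg) rfl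

/-- A strong form of the Alperin–Goldschmidt fusion Theorem. Let P be a Sylow p-subgroup of the finite group G, A a subset of P containing a nonidentity element, and g an element with g⁻¹Ag ⊆ P. Then g = c·x₁⋯xₙ·y with c ∈ C_G(A), y ∈ N_G(P) and, for each i, an element xᵢ and a subgroup Hᵢ ≤ P such that: N_P(Hᵢ) is a Sylow p-subgroup of N_G(Hᵢ); C_P(Hᵢ) ≤ Hᵢ; O_{p',p}(N_G(Hᵢ)) = Hᵢ·C_G(Hᵢ); the Sylow p-subgroups of N_G(Hᵢ)/Hᵢ are not chain-connected through nontrivial intersections (the quotient has a strongly p-embedded subgroup); xᵢ lies in O^p(Xᵢ), where Xᵢ/Hᵢ is the smallest normal subgroup of N_G(Hᵢ)/Hᵢ of order divisible by p; and (x₁⋯xᵢ₋₁)⁻¹A(x₁⋯xᵢ₋₁) ⊆ Hᵢ. -/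
theorem result {G : Type*} [Group G] [Finite G] {p : ℕ} [Fact p.Prime]
    (P : Sylow p G) (A : Set G) (hA : A ⊆ (P : Set G)) (hA1 : ∃ a ∈ A, a ≠ 1)
    (g : G) (hAg : (fun a => g⁻¹ * a * g) '' A ⊆ (P : Set G)) :
    ∃ (n : ℕ) (H X : Fin n → Subgroup G) (x : Fin n → G) (c y : G),
      c ∈ Subgroup.centralizer A ∧ y ∈ Subgroup.normalizer ((P : Subgroup G) : Set G) ∧
      g = c * (List.ofFn x).prod * y ∧
      ∀ i : Fin n,
        H i ≤ (P : Subgroup G) ∧
        ¬ p ∣ ((P : Subgroup G) ⊓ Subgroup.normalizer (H i : Set G)).relIndex (Subgroup.normalizer (H i : Set G)) ∧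
        (P : Subgroup G) ⊓ Subgroup.centralizer (H i : Set G) ≤ H i ∧
        (Cfsg.pPrimePCore p ↥(Subgroup.normalizer (H i : Set G))).map (Subgroup.normalizer (H i : Set G)).subtype =
          H i ⊔ Subgroup.centralizer (H i : Set G) ∧
        ¬ Cfsg.IsSylowChainConnected p
            (↥(Subgroup.normalizer (H i : Set G)) ⧸ (H i).subgroupOf (Subgroup.normalizer (H i : Set G))) ∧
        (H i ≤ X i ∧ X i ≤ Subgroup.normalizer (H i : Set G) ∧
          ((X i).subgroupOf (Subgroup.normalizer (H i : Set G))).Normal ∧ p ∣ (H i).relIndex (X i) ∧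
          ∀ Y : Subgroup G, H i ≤ Y → Y ≤ Subgroup.normalizer (H i : Set G) →
            (Y.subgroupOf (Subgroup.normalizer (H i : Set G))).Normal → p ∣ (H i).relIndex Y → X i ≤ Y) ∧
        x i ∈ (Cfsg.pResidual p ↥(X i)).map (X i).subtype ∧
        (fun a => (((List.ofFn x).take i.val).prod)⁻¹ * a * ((List.ofFn x).take i.val).prod) '' A ⊆ (H i : Set G) := by
  have hT : Subgroup.closure A ≤ (P : Subgroup G) := (closure_le _).mpr hA
  have hTg : cj (Subgroup.closure A) g ≤ (P : Subgroup G) := by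
    rw [cj, MonoidHom.map_closure, closure_le]
    rintro _ ⟨a, ha, rfl⟩
    have := hAg ⟨a, ha, rfl⟩
    simpa [mul_assoc] using this
  obtain ⟨c, hc, a, ha, y, hy, rfl⟩ := fusion3 P _ _ g hT hTg rfl
  obtain ⟨n, H, x, hprod, hprop⟩ := ha.fin
  choose h1 h2 using hprop
  choose X hX hx using fun i => (h1 i).2.2.2.2.2
  refine ⟨n, H, X, x, c, y, centralizer_le Subgroup.subset_closure hc, hy, by rw [hprod], fun i => ?_⟩
  obtain ⟨s1, s2, s3, s4, s5, -⟩ := h1 i
  refine ⟨s1, s2, s3, s4, s5, hX i, hx i, ?_⟩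
  rintro _ ⟨b, hb, rfl⟩
  apply h2 i
  rw [mem_cj]
  have e : ∀ q : G, q * (q⁻¹ * b * q) * q⁻¹ = b := fun q => by group
  rw [e]
  exact Subgroup.subset_closure hb

end Cfsg.Agent.S3072
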