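import Cfsg.Statements.S3075
import Cfsg.Agent.LocalLemmas.Basic
import Mathlib.LinearAlgebra.Matrix.SpecialLinearGroup
import Mathlib.Tactic.IntervalCases
import Mathlib.Tactic.LinearCombination
import Mathlib.GroupTheory.SpecificGroups.Cyclic

set_option autoImplicit false
open Cfsg

namespace Cfsg.Agent.S3075

theorem commute_of_order_prime {G : Type*} [Group G] [Finite G] {p : ℕ} [hp : Fact p.Prime] {B : Subgroup G}
    (hB : Nat.card B = p) {x : G} (hx : x ∈ Subgroup.normalizer (B : Set G))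
    (hxp : x ^ p ∈ Subgroup.centralizer (B : Set G)) : x ∈ Subgroup.centralizer (B : Set G) := by
  haveI : IsCyclic B := isCyclic_of_prime_card hB
  let φ : MulAut B := Subgroup.normalizerMonoidHom B ⟨x, hx⟩
  have hmem : ∀ n : Subgroup.normalizer (B : Set G),
      Subgroup.normalizerMonoidHom B n = 1 ↔ (n : G) ∈ Subgroup.centralizer (B : Set G) := fun n => by
    rw [← MonoidHom.mem_ker, Subgroup.normalizerMonoidHom_ker, Subgroup.mem_subgroupOf]
  have h1 : orderOf φ ∣ p := orderOf_dvd_of_pow_eq_one (by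
    rw [← map_pow, hmem]; simpa using hxp)
  have h2 : orderOf φ ∣ p - 1 := by
    rw [← Nat.totient_prime hp.out, ← hB, ← IsCyclic.card_mulAut]; exact orderOf_dvd_natCard φ
  have h3 : orderOf φ = 1 := Nat.eq_one_of_dvd_coprimes
    (((Nat.coprime_self_sub_right (n := p) (m := 1) hp.out.one_le).mpr (Nat.coprime_one_right p))) h1 h2
  exact (hmem ⟨x, hx⟩).mp (orderOf_eq_one_iff.mp h3)


/-- Let p be an odd prime and N a finite group with a normal elementary abelian subgroup A of order p² that is its own centralizer in N, such that N/A is isomorphic to SL₂(p) (over any field F with p elements). Then N splits over A: some subgroup U of N satisfies A ∩ U = 1 and AU = N. -/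
theorem result {N : Type*} [Group N] [Finite N] {p : ℕ} [Fact p.Prime] (hp : p ≠ 2)
    (A : Subgroup N) [A.Normal] (hAcomm : IsMulCommutative A) (hAcard : Nat.card A = p ^ 2) (hAexp : Monoid.exponent ↥A = p)
    (hAself : Subgroup.centralizer (A : Set N) = A)
    {F : Type*} [Field F] [Fintype F] (hF : Fintype.card F = p) (e : N ⧸ A ≃* Matrix.SpecialLinearGroup (Fin 2) F) :
    ∃ U : Subgroup N, A ⊓ U = ⊥ ∧ A ⊔ U = ⊤ := by
  classical
  have hp' : p.Prime := Fact.out
  have hchar : CharP F p := charP_of_card_eq_prime (hF.symm ▸ rfl)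
  haveI : NeZero (2 : F) := ⟨fun h => by
    have := (CharP.cast_eq_zero_iff F p 2).mp (by exact_mod_cast h)
    exact hp ((Nat.prime_dvd_prime_iff_eq hp' Nat.prime_two).mp this)⟩
  set π := QuotientGroup.mk' A
  set m : Matrix.SpecialLinearGroup (Fin 2) F := -1 with hm
  have hm2 : m * m = 1 := by rw [hm]; simp
  have hmc : ∀ q, q * m = m * q := fun q => by rw [hm, neg_one_mul, mul_neg, mul_one]
  have hm1 : m ≠ 1 := fun h => by
    have h1 := congrArg (fun q : Matrix.SpecialLinearGroup (Fin 2) F => (q : Matrix (Fin 2) (Fin 2) F) 0 0) h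
    simp [hm] at h1
    exact two_ne_zero (α := F) (by linear_combination -h1)
  set z := e.symm m with hz
  obtain ⟨t₀, ht₀⟩ := QuotientGroup.mk'_surjective A z
  have hzo : orderOf z = 2 := by
    rw [hz, MulEquiv.orderOf_eq]
    exact orderOf_eq_prime (by rw [pow_two, hm2]) hm1
  set t := t₀ ^ (p : ℕ) with ht
  have hpodd : Odd p := hp'.odd_of_ne_two hp
  have htz : π t = z := by
    obtain ⟨r, hr⟩ := hpodd
    rw [ht, map_pow, ht₀, hr, pow_add, pow_mul, ← hzo, pow_orderOf_eq_one, one_pow, one_mul, pow_one]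
  have ht2 : t ^ 2 = 1 := by
    have h1 : t₀ ^ 2 ∈ A := by
      rw [← QuotientGroup.eq_one_iff (N := A), ← QuotientGroup.mk'_apply A, map_pow, ht₀, ← hzo, pow_orderOf_eq_one]
    have h2 : (t₀ ^ 2) ^ p = 1 := congrArg Subtype.val (hAexp ▸ Monoid.pow_exponent_eq_one (⟨_, h1⟩ : A))
    rw [ht, ← pow_mul, mul_comm, pow_mul, h2]
  set C := Subgroup.centralizer ({t} : Set N) with hC
  set T := A ⊔ Subgroup.zpowers t with hT
  have htT : t ∈ T := Subgroup.mem_sup_right (Subgroup.mem_zpowers t)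
  have htop : A ⊔ C = ⊤ := by
    refine eq_top_iff.mpr fun g _ => ?_
    have hgA : π (g * t * g⁻¹) = π t := by
      rw [map_mul, map_mul, map_inv, htz]
      apply e.injective
      rw [map_mul, map_mul, map_inv, hz, MulEquiv.apply_symm_apply, hmc, mul_inv_cancel_right]
    have hgT : g * t * g⁻¹ ∈ T := by
      have h1 : t⁻¹ * (g * t * g⁻¹) ∈ A := (QuotientGroup.eq (s := A)).mp hgA.symm
      have := T.mul_mem htT (Subgroup.mem_sup_left h1)
      rwa [mul_inv_cancel_left] at this
    have hz2 : ∀ w : N, w ^ 2 = 1 → IsPGroup 2 (Subgroup.zpowers w) := fun w hw => by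
      obtain ⟨j, -, hj⟩ := (Nat.dvd_prime_pow Nat.prime_two).mp ((pow_one 2).symm ▸ orderOf_dvd_of_pow_eq_one hw)
      exact IsPGroup.of_card (n := j) (by rw [Nat.card_zpowers, hj])
    haveI : Fact (Nat.Prime 2) := ⟨Nat.prime_two⟩
    obtain ⟨h, hh, R, hRT, hR, hcR, htR⟩ := CfsgLib.LocalLemmas.exists_conj_common (p := 2)
      (Subgroup.zpowers_le.mpr hgT) (Subgroup.zpowers_le.mpr htT)
      (hz2 _ (by rw [conj_pow, ht2, mul_one, mul_inv_cancel])) (hz2 t ht2)
    have key : h * g * t * (h * g)⁻¹ ∈ R := by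
      have := hcR (Subgroup.mem_map_of_mem _ (Subgroup.mem_zpowers (g * t * g⁻¹)))
      simpa [mul_assoc] using this
    have hRz : ∀ r ∈ R, ∀ r' ∈ R, π r = π r' → r = r' := fun r hr r' hr' he => by
      have h1 : r⁻¹ * r' ∈ A := (QuotientGroup.eq (s := A)).mp he
      obtain ⟨j, hj⟩ := IsPGroup.iff_orderOf.mp hR ⟨r⁻¹ * r', R.mul_mem (R.inv_mem hr) hr'⟩
      rw [Subgroup.orderOf_mk] at hj
      have h2 : orderOf (r⁻¹ * r') ∣ p := orderOf_dvd_of_pow_eq_one
        (congrArg Subtype.val (hAexp ▸ Monoid.pow_exponent_eq_one (⟨_, h1⟩ : A)))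
      have := Nat.eq_one_of_dvd_coprimes ((Nat.coprime_primes Nat.prime_two hp').mpr (Ne.symm hp) |>.pow_left j) hj.dvd h2
      exact inv_mul_eq_one.mp (orderOf_eq_one_iff.mp this)
    have h3 : h * g * t * (h * g)⁻¹ = t := hRz _ key _ (htR (Subgroup.mem_zpowers t)) (by
      rw [map_mul, map_mul, map_inv, htz]
      apply e.injective
      rw [map_mul, map_mul, map_inv, hz, MulEquiv.apply_symm_apply, hmc, mul_inv_cancel_right])
    have h4 : h * g ∈ C := Subgroup.mem_centralizer_singleton_iff.mpr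
      (by calc h * g * t = h * g * t * (h * g)⁻¹ * (h * g) := by simp [mul_assoc]
            _ = t * (h * g) := by rw [h3])
    have hTle : T ≤ A ⊔ C := sup_le le_sup_left
      ((Subgroup.zpowers_le.mpr (Subgroup.mem_centralizer_singleton_iff.mpr rfl)).trans le_sup_right)
    have := (A ⊔ C).mul_mem ((A ⊔ C).inv_mem (hTle hh)) (Subgroup.mem_sup_right h4)
    simpa using this
  refine ⟨C, ?_, htop⟩
  set B := A ⊓ C with hB
  have cA : ∀ a ∈ A, ∀ b ∈ A, Commute a b := fun a ha b hb =>
    congrArg Subtype.val (hAcomm.is_comm.comm (⟨a, ha⟩ : A) ⟨b, hb⟩)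
  have hBn : B.Normal := by
    refine Subgroup.normalizer_eq_top_iff.mp (top_le_iff.mp (htop.ge.trans (sup_le (fun a ha => ?_) fun c hc => ?_)))
    · refine Subgroup.mem_normalizer_fintype fun b hb => ?_
      rw [(cA a ha b hb.1).eq, mul_inv_cancel_right]; exact hb
    · exact Subgroup.mem_normalizer_fintype fun b hb =>
        ⟨(inferInstance : A.Normal).conj_mem b hb.1 c, C.mul_mem (C.mul_mem hc hb.2) (C.inv_mem hc)⟩
  have hdvd : Nat.card B ∣ p ^ 2 := hAcard ▸ Subgroup.card_dvd_of_le inf_le_left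
  obtain ⟨j, hj, hjB⟩ := (Nat.dvd_prime_pow hp').mp hdvd
  interval_cases j
  · exact Subgroup.eq_bot_of_card_eq _ (hjB.trans (pow_zero p))
  · exfalso
    rw [pow_one] at hjB
    set u₀ : Matrix.SpecialLinearGroup (Fin 2) F := ⟨!![1, 1; 0, 1], by simp [Matrix.det_fin_two]⟩
    set v₀ : Matrix.SpecialLinearGroup (Fin 2) F := ⟨!![1, 0; 1, 1], by simp [Matrix.det_fin_two]⟩
    have hp0 : (p : F) = 0 := CharP.cast_eq_zero F p
    have hup : u₀ ^ p = 1 := by
      apply Subtype.ext
      show (!![1, 1; 0, 1] : Matrix (Fin 2) (Fin 2) F) ^ p = 1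
      have : ∀ k : ℕ, (!![1, 1; 0, 1] : Matrix (Fin 2) (Fin 2) F) ^ k = !![1, (k : F); 0, 1] := fun k => by
        induction k with
        | zero => simp [Matrix.one_fin_two]
        | succ k ih => rw [pow_succ, ih]; simp [add_comm]
      rw [this, hp0, Matrix.one_fin_two]
    have hvp : v₀ ^ p = 1 := by
      apply Subtype.ext
      show (!![1, 0; 1, 1] : Matrix (Fin 2) (Fin 2) F) ^ p = 1
      have : ∀ k : ℕ, (!![1, 0; 1, 1] : Matrix (Fin 2) (Fin 2) F) ^ k = !![1, 0; (k : F), 1] := fun k => by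
        induction k with
        | zero => simp [Matrix.one_fin_two]
        | succ k ih => rw [pow_succ, ih]; simp
      rw [this, hp0, Matrix.one_fin_two]
    set πB := QuotientGroup.mk' B
    have hAB : Nat.card (A.map πB) = p := by
      have h1 := Subgroup.card_mul_index (πB.subgroupMap A).ker
      rw [Subgroup.index_ker, MonoidHom.range_eq_top.mpr (πB.subgroupMap_surjective A), Subgroup.card_top, hAcard] at h1
      have h2 : Nat.card (πB.subgroupMap A).ker = p := by
        rw [← hjB, ← Nat.card_congr (Subgroup.subgroupOfEquivOfLe (inf_le_left : B ≤ A)).toEquiv]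
        congr 1
        congr 1
        ext a
        rw [MonoidHom.mem_ker, Subgroup.mem_subgroupOf, ← QuotientGroup.eq_one_iff (N := B)]
        exact Subtype.ext_iff
      rw [h2, pow_two] at h1
      exact Nat.eq_of_mul_eq_mul_left hp'.pos h1
    have htriv : ∀ q : Matrix.SpecialLinearGroup (Fin 2) F, q ^ p = 1 → ∀ u : N, e (π u) = q →
        (∀ b ∈ B, Commute u b) ∧ ∀ a ∈ A, u * a * u⁻¹ * a⁻¹ ∈ B := by
      intro q hq u hu
      have hupA : u ^ p ∈ A := by
        rw [← QuotientGroup.eq_one_iff (N := A), ← QuotientGroup.mk'_apply A]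
        apply e.injective
        rw [map_one, map_pow, map_pow, hu, hq]
      have hcB := commute_of_order_prime hjB (x := u) (Subgroup.normalizer_eq_top_iff.mpr hBn ▸ Subgroup.mem_top u)
        (Subgroup.mem_centralizer_iff.mpr fun b hb => (cA _ hb.1 _ hupA).eq)
      have hcA := commute_of_order_prime hAB (x := πB u)
        (Subgroup.normalizer_eq_top_iff.mpr ((inferInstance : A.Normal).map πB (QuotientGroup.mk'_surjective B)) ▸
          Subgroup.mem_top _)
        (Subgroup.mem_centralizer_iff.mpr (by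
          rintro _ ⟨a, ha, rfl⟩
          rw [← map_pow, ← map_mul, ← map_mul, (cA a ha _ hupA).eq]))
      refine ⟨fun b hb => (Subgroup.mem_centralizer_iff.mp hcB b hb).symm, fun a ha => ?_⟩
      rw [← QuotientGroup.eq_one_iff (N := B), ← QuotientGroup.mk'_apply B]
      show πB (u * a * u⁻¹ * a⁻¹) = 1
      rw [map_mul, map_mul, map_mul, map_inv, map_inv,
        ← Subgroup.mem_centralizer_iff.mp hcA (πB a) ⟨a, ha, rfl⟩, mul_inv_cancel_right, mul_inv_cancel]
    obtain ⟨u, hu⟩ := QuotientGroup.mk'_surjective A (e.symm u₀)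
    obtain ⟨v, hv⟩ := QuotientGroup.mk'_surjective A (e.symm v₀)
    obtain ⟨hu1, hu2⟩ := htriv u₀ hup u (by rw [hu, MulEquiv.apply_symm_apply])
    obtain ⟨hv1, hv2⟩ := htriv v₀ hvp v (by rw [hv, MulEquiv.apply_symm_apply])
    have hcomm : u * v * u⁻¹ * v⁻¹ ∈ A := by
      rw [← hAself, Subgroup.mem_centralizer_iff]
      intro a ha
      -- `u v` and `v u` act alike on `A`
      have key : ∀ c ∈ A, u * v * c * (u * v)⁻¹ = v * u * c * (v * u)⁻¹ := by
        intro c hc
        set b₁ := u * c * u⁻¹ * c⁻¹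
        set b₂ := v * c * v⁻¹ * c⁻¹
        have e1 : u * v * c * (u * v)⁻¹ = u * b₂ * u⁻¹ * (b₁ * c) := by simp [b₁, b₂, mul_assoc]
        have e2 : v * u * c * (v * u)⁻¹ = v * b₁ * v⁻¹ * (b₂ * c) := by simp [b₁, b₂, mul_assoc]
        have hb₁ : b₁ ∈ B := hu2 c hc
        have hb₂ : b₂ ∈ B := hv2 c hc
        clear_value b₁ b₂
        rw [e1, e2, (hu1 b₂ hb₂).eq, mul_inv_cancel_right, (hv1 b₁ hb₁).eq, mul_inv_cancel_right,
          ← mul_assoc, ← mul_assoc, (cA b₂ hb₂.1 b₁ hb₁.1).eq]
      set w := v * u with hw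
      set a' := w⁻¹ * a * w with ha'
      have ha'A : a' ∈ A := by simpa [ha'] using (inferInstance : A.Normal).conj_mem a ha w⁻¹
      have h1 : w * a' * w⁻¹ = a := by simp [ha', mul_assoc]
      have h2 := key a' ha'A
      rw [h1] at h2
      have e3 : u * v * u⁻¹ * v⁻¹ = u * v * w⁻¹ := by simp [hw, mul_assoc]
      rw [e3]
      calc a * (u * v * w⁻¹) = u * v * a' * (u * v)⁻¹ * (u * v * w⁻¹) := by rw [h2]
        _ = u * v * w⁻¹ * a := by simp [ha', mul_assoc]
    have := congrArg e ((QuotientGroup.eq_one_iff (N := A) _).mpr hcomm)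
    simp only [← QuotientGroup.mk'_apply A, map_mul, map_inv, map_one] at this
    rw [hu, hv, MulEquiv.apply_symm_apply, MulEquiv.apply_symm_apply, mul_inv_eq_one, mul_inv_eq_iff_eq_mul] at this
    have h1 := congrArg (fun q : Matrix.SpecialLinearGroup (Fin 2) F => (q : Matrix (Fin 2) (Fin 2) F) 0 0) this
    simp only [Matrix.SpecialLinearGroup.coe_mul] at h1
    simp [u₀, v₀, Matrix.mul_apply, Fin.sum_univ_two] at h1
  · have hBA : B = A := Subgroup.eq_of_le_of_card_ge inf_le_left (by rw [hjB, hAcard])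
    have : t ∈ A := by
      rw [← hAself, Subgroup.mem_centralizer_iff]
      exact fun a ha => Subgroup.mem_centralizer_singleton_iff.mp (hBA.ge ha).2
    exfalso
    rw [← QuotientGroup.eq_one_iff (N := A), ← QuotientGroup.mk'_apply A] at this
    change π t = 1 at this
    rw [htz] at this
    rw [this, orderOf_one] at hzo
    omega

end Cfsg.Agent.S3075
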