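import Cfsg.Statements.S3078
import Cfsg.Agent.PGroup.ReplacementFine

set_option autoImplicit false
open Cfsg
open scoped commutatorElement

namespace Cfsg.Agent.S3078

/-- A replacement Theorem for abelian subgroups of p-groups, p odd. Let G be a finite p-group with p odd, A an abelian subgroup of G, and B a subgroup of nilpotency class at most 2 with [B, B] ≤ A, such that A normalizes B but B does not normalize A. Then there is an abelian subgroup A* of G of the same order as A with A ∩ B strictly contained in A* ∩ B, A* contained in N_G(A) and in the normal closure of A, the exponent of A* dividing the exponent of A, and with the subgroup generated by the elements of order dividing p in A of order at most that of the corresponding subgroup of A* (the rank of A is at most the rank of A*). -/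
theorem result {G : Type*} [Group G] [Finite G] {p : ℕ} [Fact p.Prime] (hp : p ≠ 2) (hG : IsPGroup p G) (A B : Subgroup G) (hA : IsMulCommutative A) (hB2 : ⁅⁅B, B⁆, B⁆ = ⊥) (hBA : ⁅B, B⁆ ≤ A) (hAB : A ≤ Subgroup.normalizer (B : Set G)) (hBnA : ¬ B ≤ Subgroup.normalizer (A : Set G)) : ∃ Astar : Subgroup G, IsMulCommutative Astar ∧ Nat.card Astar = Nat.card A ∧ A ⊓ B < Astar ⊓ B ∧ Astar ≤ Subgroup.normalizer (A : Set G) ∧ Astar ≤ Subgroup.normalClosure (A : Set G) ∧ Monoid.exponent Astar ∣ Monoid.exponent A ∧ Nat.card (Cfsg.omegaOne p A) ≤ Nat.card (Cfsg.omegaOne p Astar) := by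
  have hg : CfsgLib.ZJ.Good p false A := ⟨hA, fun h => absurd h (by decide)⟩
  obtain ⟨A', hg', hcard, hlt, hN, b, hb, hle, hA₁N, hAN₁, hZ, hu⟩ :=
    CfsgLib.PGroup.replacement_fine hg (hG.to_subgroup _) hAB hBA hB2 (Or.inl hp) hBnA
  set A₁ := A.map (MulAut.conj b).toMonoidHom with hA₁
  have hA₁c : IsMulCommutative A₁ := (CfsgLib.ZJ.good_map (MulAut.conj b).toMonoidHom hg).1
  have h2 := CfsgLib.PGroup.pair_data hA hA₁c hA₁N hAN₁
  refine ⟨A', hg'.1, hcard, hlt, hN, ?_, ?_, ?_⟩
  · refine hle.trans (sup_le Subgroup.le_normalClosure ?_)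
    rintro _ ⟨a, ha, rfl⟩
    exact Subgroup.normalClosure_normal.conj_mem a (Subgroup.le_normalClosure ha) b
  · have hodd : Odd (Monoid.exponent A) := by
      obtain ⟨m, hm⟩ := (hG.to_subgroup A).exists_card_eq
      exact Odd.of_dvd_nat ((Fact.out : p.Prime).odd_of_ne_two hp).pow
        (hm ▸ Group.exponent_dvd_nat_card (G := A) : Monoid.exponent A ∣ p ^ m)
    refine Monoid.exponent_dvd_of_forall_pow_eq_one fun x => Subtype.ext ?_
    show (x : G) ^ Monoid.exponent A = 1
    have key : ∀ y ∈ A ⊔ A₁, y ^ Monoid.exponent A = 1 := by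
      intro y hy
      rw [Subgroup.sup_eq_closure] at hy
      induction hy using Subgroup.closure_induction with
      | mem w hw =>
        rcases hw with hw | ⟨a, ha, rfl⟩
        · exact congrArg Subtype.val (Monoid.pow_exponent_eq_one (⟨w, hw⟩ : A))
        · rw [← map_pow, show a ^ Monoid.exponent A = 1 from
            congrArg Subtype.val (Monoid.pow_exponent_eq_one (⟨a, ha⟩ : A)), map_one]
      | one => exact one_pow _
      | mul v w hv hw h1 h1' =>
        rw [← Subgroup.sup_eq_closure] at hv hw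
        exact CfsgLib.PGroup.mul_pow_eq_one_of_odd h2 hodd hv hw h1 h1'
      | inv v _ h1 => rw [inv_pow, h1, inv_one]
    exact key _ (hle x.2)
  · set R := Cfsg.omegaOne p A with hR
    set R' := Cfsg.omegaOne p A' with hR'
    set R₁ := R.map (MulAut.conj b).toMonoidHom with hR₁
    have hRA : R ≤ A := (Subgroup.closure_le _).mpr fun x hx => hx.1
    have hmem : ∀ {D : Subgroup G}, IsMulCommutative D → ∀ x ∈ Cfsg.omegaOne p D, x ∈ D ∧ x ^ p = 1 := by
      intro D hD x hx
      induction hx using Subgroup.closure_induction with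
      | mem w hw => exact hw
      | one => exact ⟨D.one_mem, one_pow p⟩
      | mul v w _ _ h1 h1' =>
        have hc : Commute v w := congrArg Subtype.val (hD.is_comm.comm (⟨v, h1.1⟩ : D) ⟨w, h1'.1⟩)
        exact ⟨D.mul_mem h1.1 h1'.1, by rw [hc.mul_pow, h1.2, h1'.2, one_mul]⟩
      | inv v _ h1 => exact ⟨D.inv_mem h1.1, by rw [inv_pow, h1.2, inv_one]⟩
    have hNR : ∀ T : Subgroup G, T ≤ Subgroup.normalizer (A : Set G) → T ≤ Subgroup.normalizer (R : Set G) := by
      intro T hT t ht
      refine Subgroup.mem_normalizer_fintype fun x hx => Subgroup.subset_closure ⟨?_, ?_⟩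
      · exact (Subgroup.mem_normalizer_iff.1 (hT ht) x).1 (hRA hx)
      · rw [conj_pow, (hmem hA x hx).2, mul_one, mul_inv_cancel]
    have hR₁A : R₁ ≤ A₁ := Subgroup.map_mono hRA
    have hR'A : R' ≤ A' := (Subgroup.closure_le _).mpr fun x hx => hx.1
    have hsub : R₁ ≤ R ⊔ R' := by
      rintro _ ⟨a, ha, rfl⟩
      have ha' := hmem hA _ (R.inv_mem ha)
      have h1 : a⁻¹ * b * (a⁻¹)⁻¹ * b⁻¹ ∈ R' := by
        refine Subgroup.subset_closure ⟨hu _ ha'.1, ?_⟩
        have e : a⁻¹ * b * (a⁻¹)⁻¹ * b⁻¹ = a⁻¹ * (MulAut.conj b).toMonoidHom a := by simp [mul_assoc]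
        rw [e]
        refine CfsgLib.PGroup.mul_pow_eq_one_of_odd h2 ((Fact.out : p.Prime).odd_of_ne_two hp)
          (Subgroup.mem_sup_left ha'.1) (Subgroup.mem_sup_right ⟨a, hRA ha, rfl⟩) ha'.2 ?_
        rw [← map_pow, (hmem hA a ha).2, map_one]
      have e2 : (MulAut.conj b).toMonoidHom a = a * (a⁻¹ * b * (a⁻¹)⁻¹ * b⁻¹) := by simp [mul_assoc]
      rw [e2]
      exact mul_mem (Subgroup.mem_sup_left ha) (Subgroup.mem_sup_right h1)
    have hinf : R ⊓ R₁ ≤ R ⊓ R' := fun x hx =>
      ⟨hx.1, Subgroup.subset_closure ⟨hZ ⟨hRA hx.1, hR₁A hx.2⟩, (hmem hA x hx.1).2⟩⟩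
    have e1 := CfsgLib.ZJ.card_sup_mul_card_inf_of_le_normalizer (hNR R₁ (hR₁A.trans hA₁N))
    have e2 := CfsgLib.ZJ.card_sup_mul_card_inf_of_le_normalizer (hNR R' (hR'A.trans hN))
    have e3 : Nat.card R₁ = Nat.card R := Subgroup.card_map_of_injective (MulAut.conj b).injective
    have e4 : Nat.card (R₁ ⊔ R : Subgroup G) ≤ Nat.card (R' ⊔ R : Subgroup G) :=
      Subgroup.card_le_of_le (sup_le (hsub.trans (sup_comm R R').le) le_sup_right)
    have e5 : Nat.card (R₁ ⊓ R : Subgroup G) ≤ Nat.card (R' ⊓ R : Subgroup G) := by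
      rw [inf_comm R₁ R, inf_comm R' R]; exact Subgroup.card_le_of_le hinf
    have e6 := Nat.mul_le_mul e4 e5
    rw [e1, e2, e3] at e6
    exact Nat.le_of_mul_le_mul_right e6 Nat.card_pos

end Cfsg.Agent.S3078
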