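import Cfsg.Statements.S3086
import Cfsg.Agent.PGV.Core
import Cfsg.Agent.Components.Basic

set_option autoImplicit false
open Cfsg

namespace Cfsg.Agent.S3086

/-- The P(G,V)-theorem. Let p be a prime, G a finite group acting faithfully and linearly on a finite vector space V over the field with p elements, and A a nontrivial elementary abelian p-subgroup of G such that |A|·|C_V(A)| ≥ |B|·|C_V(B)| for every subgroup B of A. Then A normalizes every component (subnormal quasisimple subgroup) of G. -/
theorem result {G V : Type*} [Group G] [Finite G] [AddCommGroup V] [Finite V] (p : ℕ) [Fact p.Prime] [Module (ZMod p) V]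
    (ρ : Representation (ZMod p) G V) (hρ : Function.Injective ρ)
    (A : Subgroup G) (hA : A ≠ ⊥) (hAel : Cfsg.IsElementaryAbelian p A)
    (hP : ∀ B : Subgroup G, B ≤ A →
      Nat.card ↥B * Nat.card {v : V // ∀ b ∈ B, ρ b v = v} ≤ Nat.card ↥A * Nat.card {v : V // ∀ a ∈ A, ρ a v = v}) :
    ∀ K : Subgroup G, Cfsg.IsComponent K → A ≤ Subgroup.normalizer (K : Set G) := by
  classical
  intro K hK
  haveI := hAel.1
  letI : CommGroup ↥A := { (inferInstance : Group ↥A) with mul_comm := fun a b => Subtype.ext (setLike_mul_comm a.2 b.2) }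
  have hfix : ∀ (g : G) (v : V), ρ g v = (ρ g).toAddMonoidHom v := fun _ _ => rfl
  let ρ' : G →* AddMonoid.End V :=
    { toFun := fun g => (ρ g).toAddMonoidHom
      map_one' := by rw [map_one]; rfl
      map_mul' := fun g h => by rw [map_mul]; rfl }
  have hρ' : Function.Injective ρ' := fun g h e =>
    hρ (LinearMap.ext fun v => DFunLike.congr_fun e v)
  let α := ρ'.comp A.subtype
  let κ := ρ'.comp K.subtype
  have hperf : commutator ↥K = ⊤ := hK.2.1.commutator_eq_top
  have hchar : (p : AddMonoid.End V) = 0 := by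
    refine DFunLike.ext _ _ fun v => ?_
    rw [AddMonoid.End.natCast_apply, ← Nat.cast_smul_eq_nsmul (ZMod p), ZMod.natCast_self, zero_smul]
    rfl
  have hcjκ : ∀ (a : ↥A) (x : ↥K), CfsgLib.PGV.cj α κ a x = ρ' ((a : G) * x * (a : G)⁻¹) := fun a x => by
    rw [map_mul, map_mul]; rfl
  have H : CfsgLib.PGV.Hyp p α κ :=
    { prime := Fact.out
      char := hchar
      exp := fun a => Subtype.ext (by rw [SubmonoidClass.coe_pow, hAel.2 a a.2]; rfl)
      perfect := hperf
      simple := fun N hN x hx ⟨y, hy⟩ => by
        rcases CfsgLib.Components.quasisimple_normal hK.2 hN with h | h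
        · refine absurd ?_ hy
          show κ x * κ y = κ y * κ x
          rw [← map_mul, ← map_mul, Subgroup.mem_center_iff.mp (h hx) y]
        · exact h
      conj := fun a => by
        by_cases he : K.map (MulAut.conj (a : G)).toMonoidHom = K
        · left
          intro x
          have hmem : (a : G) * x * (a : G)⁻¹ ∈ K :=
            he.le ⟨x, x.2, rfl⟩
          exact ⟨⟨_, hmem⟩, hcjκ a x⟩
        · right
          intro x y
          have hcom := CfsgLib.Components.components_commute (CfsgLib.Components.isComponent_conj hK a) hK he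
          rw [hcjκ]
          show ρ' _ * ρ' (y : G) = ρ' (y : G) * ρ' _
          rw [← map_mul, ← map_mul]
          congr 1
          have := Subgroup.commutator_eq_bot_iff_le_centralizer.mp hcom
            (⟨x, x.2, rfl⟩ : (a : G) * x * (a : G)⁻¹ ∈ K.map (MulAut.conj (a : G)).toMonoidHom)
          exact (Subgroup.mem_centralizer_iff.mp this y y.2).symm }
  have hcard : ∀ B : Subgroup ↥A, Nat.card (CfsgLib.PGV.fixSub α B) =
      Nat.card {v : V // ∀ b ∈ B.map A.subtype, ρ b v = v} := by
    intro B
    refine Nat.card_congr (Equiv.subtypeEquivRight fun v => ⟨?_, ?_⟩)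
    · rintro h _ ⟨b, hb, rfl⟩; exact h b hb
    · intro h b hb; exact h _ ⟨b, hb, rfl⟩
  have hmax : ∀ B : Subgroup ↥A, CfsgLib.PGV.meas α B ≤ CfsgLib.PGV.meas α ⊤ := by
    intro B
    have h := hP (B.map A.subtype) (Subgroup.map_subtype_le B)
    rw [CfsgLib.PGV.meas, CfsgLib.PGV.meas, hcard, hcard, Subgroup.card_top,
      ← Subgroup.card_map_of_injective (K := B) A.subtype_injective, ← MonoidHom.range_eq_map,
      Subgroup.range_subtype]
    exact h
  intro a ha
  have hN := CfsgLib.PGV.main _ le_rfl H hmax ⟨a, ha⟩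
  have hle : K.map (MulAut.conj a).toMonoidHom ≤ K := by
    rintro _ ⟨x, hx, rfl⟩
    obtain ⟨y, hy⟩ := hN ⟨x, hx⟩
    rw [hcjκ] at hy
    have := hρ' hy
    show a * x * a⁻¹ ∈ K
    rw [this]
    exact y.2
  have heq : K.map (MulAut.conj a).toMonoidHom = K :=
    Subgroup.eq_of_le_of_card_ge hle (le_of_eq (Subgroup.card_map_of_injective (MulAut.conj a).injective).symm)
  rw [Subgroup.mem_normalizer_iff]
  intro g
  constructor
  · intro hg
    rw [← heq]
    exact ⟨g, hg, rfl⟩
  · intro hg
    rw [← heq] at hg
    obtain ⟨x, hx, he⟩ := hg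
    simp only [MulEquiv.toMonoidHom_eq_coe, MonoidHom.coe_coe, MulAut.conj_apply, mul_left_inj, mul_right_inj] at he
    exact he ▸ hx

end Cfsg.Agent.S3086
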