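import Cfsg.Statements.S3087

set_option autoImplicit false
open Cfsg

namespace Cfsg.Agent.S3087

/-- Let p be a prime, G a finite group acting linearly on a finite vector space V over the field with p elements, W a G-invariant subspace, and A a subgroup of G with |A|·|C_V(A)| ≥ |B|·|C_V(B)| for every subgroup B of A. Then |A|·|C_W(A)| ≥ |B|·|C_W(B)| for every subgroup B of A that contains C_A(W); that is, the image of A in the group induced on W satisfies the same maximality condition. -/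
theorem result {G V : Type*} [Group G] [Finite G] [AddCommGroup V] [Finite V] (p : ℕ) [Fact p.Prime] [Module (ZMod p) V]
    (ρ : Representation (ZMod p) G V) (W : Submodule (ZMod p) V) (hW : ∀ g : G, ∀ w ∈ W, ρ g w ∈ W)
    (A : Subgroup G)
    (hP : ∀ B : Subgroup G, B ≤ A →
      Nat.card ↥B * Nat.card {v : V // ∀ b ∈ B, ρ b v = v} ≤ Nat.card ↥A * Nat.card {v : V // ∀ a ∈ A, ρ a v = v})
    (B : Subgroup G) (hBA : B ≤ A) (hCB : ∀ a ∈ A, (∀ w ∈ W, ρ a w = w) → a ∈ B) :
    Nat.card ↥B * Nat.card {w : W // ∀ b ∈ B, ρ b w = w} ≤ Nat.card ↥A * Nat.card {w : W // ∀ a ∈ A, ρ a w = w} := by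
  have hBV := hP B hBA
  set CVA := {v : V // ∀ a ∈ A, ρ a v = v}
  -- subgroups of V
  let fix : Subgroup G → AddSubgroup V := fun C =>
    { carrier := {v | ∀ b ∈ C, ρ b v = v}
      zero_mem' := by intro b _; simp
      add_mem' := by intro u v hu hv b hb; rw [map_add, hu b hb, hv b hb]
      neg_mem' := by intro u hu b hb; rw [map_neg, hu b hb] }
  have hfix : ∀ C : Subgroup G, Nat.card {v : V // ∀ b ∈ C, ρ b v = v} = Nat.card (fix C) := fun C => rfl
  have hfixW : ∀ C : Subgroup G, Nat.card {w : W // ∀ b ∈ C, ρ b w = w} = Nat.card ↥(fix C ⊓ W.toAddSubgroup) := by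
    intro C
    exact Nat.card_congr
      { toFun := fun w => ⟨w.1.1, w.2, w.1.2⟩
        invFun := fun v => ⟨⟨v.1, v.2.2⟩, v.2.1⟩
        left_inv := fun _ => rfl
        right_inv := fun _ => rfl }
  rw [hfix, hfix] at hBV
  rw [hfixW, hfixW]
  have hle : fix A ≤ fix B := fun v hv b hb => hv b (hBA hb)
  -- index inequality
  have h1 : (fix A ⊓ W.toAddSubgroup).relIndex (fix B ⊓ W.toAddSubgroup) ≤ (fix A).relIndex (fix B) := by
    have he : fix A ⊓ W.toAddSubgroup = fix A ⊓ (fix B ⊓ W.toAddSubgroup) := by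
      rw [← inf_assoc, inf_eq_left.mpr hle]
    rw [he, AddSubgroup.inf_relIndex_right]
    refine AddSubgroup.relIndex_le_of_le_right inf_le_left ?_
    exact AddSubgroup.index_ne_zero_of_finite
  have h2 := AddSubgroup.card_mul_index ((fix A).addSubgroupOf (fix B))
  rw [Nat.card_congr (AddSubgroup.addSubgroupOfEquivOfLe hle).toEquiv] at h2
  have hle' : fix A ⊓ W.toAddSubgroup ≤ fix B ⊓ W.toAddSubgroup := inf_le_inf_right _ hle
  have h3 := AddSubgroup.card_mul_index ((fix A ⊓ W.toAddSubgroup).addSubgroupOf (fix B ⊓ W.toAddSubgroup))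
  rw [Nat.card_congr (AddSubgroup.addSubgroupOfEquivOfLe hle').toEquiv] at h3
  change _ * (fix A).relIndex (fix B) = _ at h2
  change _ * (fix A ⊓ W.toAddSubgroup).relIndex (fix B ⊓ W.toAddSubgroup) = _ at h3
  rw [← h2] at hBV
  rw [← h3]
  have hpos : 0 < Nat.card (fix A) := Nat.card_pos
  have h4 : Nat.card B * (fix A).relIndex (fix B) ≤ Nat.card A := by
    rw [mul_comm (Nat.card (fix A)), ← mul_assoc] at hBV
    exact Nat.le_of_mul_le_mul_right hBV hpos
  calc Nat.card B * (Nat.card ↥(fix A ⊓ W.toAddSubgroup) * (fix A ⊓ W.toAddSubgroup).relIndex (fix B ⊓ W.toAddSubgroup))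
      ≤ Nat.card B * (Nat.card ↥(fix A ⊓ W.toAddSubgroup) * (fix A).relIndex (fix B)) := by gcongr
    _ = (Nat.card B * (fix A).relIndex (fix B)) * Nat.card ↥(fix A ⊓ W.toAddSubgroup) := by ring
    _ ≤ _ := by gcongr

end Cfsg.Agent.S3087
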