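import Cfsg.Statements.S3153
import Cfsg.Agent.StdRankOne.Core

set_option autoImplicit false
open Cfsg

namespace Cfsg.Agent.S3153

/-- Let X be a finite group and P a standard subgroup of X whose centralizer has 2-rank at most 1 and whose centre has odd order. Let S be a Sylow 2-subgroup of N_X(P) and t an involution of S centralizing P. Suppose some element g of X normalizes S, does not lie in S, has its square in S, and conjugates t into P·C_X(P). Then P commutes elementwise with the largest normal odd-order subgroup O(X) of X; consequently every t-invariant 2-component of X containing P is quasisimple. -/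
theorem result {X : Type*} [Group X] [Finite X] (P : Subgroup X) (hP : Cfsg.IsStandardSubgroup P)
    (hr : Cfsg.PRankLE 2 1 ↥(Subgroup.centralizer (P : Set X))) (hZ : Odd (Nat.card ↥(Subgroup.center ↥P)))
    (S : Sylow 2 ↥(Subgroup.normalizer (P : Set X))) (t : X) (ht : orderOf t = 2) (htS : t ∈ (S : Subgroup ↥(Subgroup.normalizer (P : Set X))).map (Subgroup.normalizer (P : Set X)).subtype)
    (htP : t ∈ Subgroup.centralizer (P : Set X))
    (g : X) (hgN : ∀ s ∈ (S : Subgroup ↥(Subgroup.normalizer (P : Set X))).map (Subgroup.normalizer (P : Set X)).subtype, g * s * g⁻¹ ∈ (S : Subgroup ↥(Subgroup.normalizer (P : Set X))).map (Subgroup.normalizer (P : Set X)).subtype)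
    (hgS : g ∉ (S : Subgroup ↥(Subgroup.normalizer (P : Set X))).map (Subgroup.normalizer (P : Set X)).subtype) (hg2 : g ^ 2 ∈ (S : Subgroup ↥(Subgroup.normalizer (P : Set X))).map (Subgroup.normalizer (P : Set X)).subtype)
    (hgt : g * t * g⁻¹ ∈ P ⊔ Subgroup.centralizer (P : Set X)) :
    ⁅P, Cfsg.oddCore X⁆ = ⊥ ∧
      ∀ L : Subgroup X, Cfsg.IsPComponent 2 L → P ≤ L → (∀ l ∈ L, t * l * t⁻¹ ∈ L) → Cfsg.IsQuasisimple ↥L := by
  haveI : Fact (Nat.Prime 2) := ⟨Nat.prime_two⟩
  have h := CfsgLib.StdRankOne.main P hP hr hZ ((S : Subgroup ↥(Subgroup.normalizer (P : Set X))).map (Subgroup.normalizer (P : Set X)).subtype) (S.isPGroup'.map _)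
    (Subgroup.map_subtype_le _) (fun T hT hTN hST => ?_) t ht htS htP g hgN hgS hg2 hgt
  · exact ⟨h.1, fun L hL hPL _ => h.2 L hL hPL⟩
  · have hTsub : IsPGroup 2 ↥(T.subgroupOf (Subgroup.normalizer (P : Set X))) :=
      hT.of_injective (Subgroup.subgroupOfEquivOfLe hTN).toMonoidHom (Subgroup.subgroupOfEquivOfLe hTN).injective
    have hle : (S : Subgroup ↥(Subgroup.normalizer (P : Set X))) ≤ T.subgroupOf (Subgroup.normalizer (P : Set X)) := fun s hs => hST ⟨s, hs, rfl⟩
    rw [← S.is_maximal' hTsub hle, Subgroup.subgroupOf_map_subtype, inf_eq_left.mpr hTN]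

end Cfsg.Agent.S3153
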