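import Cfsg.Statements.S3154
import Cfsg.Agent.L34.MaxElemCover
-- import your own Cfsg.Agent.* helpers here

set_option autoImplicit false
open Cfsg

namespace Cfsg.Agent.S3154

/-- Let X be a finite quasisimple group whose centre is an elementary abelian 2-group and whose central quotient is isomorphic to the projective special linear group of dimension 3 over the field with 4 elements. Let T be a Sylow 2-subgroup of X and H ≠ K subgroups of T containing the centre Z(X) whose images in X/Z(X) are elementary abelian of order 16 (the two such subgroups of a Sylow 2-subgroup of the quotient). Then H and K are elementary abelian, H ∩ K is the centre of the subgroup they generate, and each of N_X(H), N_X(K) is a split extension of H, respectively K, by the projective special linear group of dimension 2 over the field with 4 elements (there is a complement isomorphic to that group). -/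
theorem result {X : Type*} [Group X] [Finite X] (hq : Cfsg.IsQuasisimple X) (hZ : Cfsg.IsElementaryAbelian 2 (Subgroup.center X))
    {F : Type*} [Field F] [Fintype F] (hF : Fintype.card F = 4) (hXL : Nonempty ((X ⧸ Subgroup.center X) ≃* Matrix.ProjectiveSpecialLinearGroup (Fin 3) F))
    (T : Sylow 2 X) (H K : Subgroup X) (hHK : H ≠ K) (hHT : H ≤ T) (hKT : K ≤ T) (hZH : Subgroup.center X ≤ H) (hZK : Subgroup.center X ≤ K)
    (hH : Cfsg.IsElementaryAbelian 2 (H.map (QuotientGroup.mk' (Subgroup.center X))) ∧ Nat.card ↥(H.map (QuotientGroup.mk' (Subgroup.center X))) = 16)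
    (hK : Cfsg.IsElementaryAbelian 2 (K.map (QuotientGroup.mk' (Subgroup.center X))) ∧ Nat.card ↥(K.map (QuotientGroup.mk' (Subgroup.center X))) = 16) :
    Cfsg.IsElementaryAbelian 2 H ∧ Cfsg.IsElementaryAbelian 2 K ∧
      H ⊓ K = (Subgroup.center ↥(H ⊔ K)).map (H ⊔ K).subtype ∧
      (∃ C : Subgroup X, C ≤ Subgroup.normalizer (H : Set X) ∧ C ⊓ H = ⊥ ∧ H ⊔ C = Subgroup.normalizer (H : Set X) ∧
        Nonempty (↥C ≃* Matrix.ProjectiveSpecialLinearGroup (Fin 2) F)) ∧
      (∃ C : Subgroup X, C ≤ Subgroup.normalizer (K : Set X) ∧ C ⊓ K = ⊥ ∧ K ⊔ C = Subgroup.normalizer (K : Set X) ∧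
        Nonempty (↥C ≃* Matrix.ProjectiveSpecialLinearGroup (Fin 2) F)) := by
  classical
  let π₀ : X →* CfsgLib.L34.P3 F := hXL.some.toMonoidHom.comp (QuotientGroup.mk' (Subgroup.center X))
  have hk₀ : π₀.ker = Subgroup.center X := by
    ext x
    simp [π₀, MonoidHom.mem_ker]
  have hs₀ : Function.Surjective π₀ := hXL.some.surjective.comp (QuotientGroup.mk'_surjective _)
  have hU2 : IsPGroup 2 (CfsgLib.L34.Usub hF) := IsPGroup.of_card (n := 6) (by rw [CfsgLib.L34.card_Usub hF]; norm_num)
  let U : Sylow 2 (CfsgLib.L34.P3 F) := hU2.toSylow (by rw [CfsgLib.L34.index_Usub hF]; norm_num)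
  haveI : Fact (Nat.Prime 2) := ⟨Nat.prime_two⟩
  obtain ⟨g, hg⟩ := MulAction.exists_smul_eq (CfsgLib.L34.P3 F) (T.mapSurjective hs₀) U
  let π : X →* CfsgLib.L34.P3 F := (MulAut.conj g).toMonoidHom.comp π₀
  have hker : π.ker = Subgroup.center X := by
    rw [← hk₀]
    ext x
    simp [π, MonoidHom.mem_ker]
  have hs : Function.Surjective π := (MulAut.conj g).surjective.comp hs₀
  have hsq : ∀ z ∈ π.ker, z * z = 1 := fun z hz => by
    rw [hker] at hz
    rw [← pow_two]
    exact hZ.2 z hz
  have hT : (T : Subgroup X).map π = CfsgLib.L34.Usub hF := by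
    have := congrArg Sylow.toSubgroup hg
    rw [Sylow.coe_subgroup_smul] at this
    rw [show π = (MulAut.conj g).toMonoidHom.comp π₀ from rfl, ← Subgroup.map_map]
    exact this
  have key : ∀ J : Subgroup X, J ≤ T → Subgroup.center X ≤ J →
      Cfsg.IsElementaryAbelian 2 (J.map (QuotientGroup.mk' (Subgroup.center X))) →
      Nat.card ↥(J.map (QuotientGroup.mk' (Subgroup.center X))) = 16 →
      J = (CfsgLib.L34.Acol hF).comap π ∨ J = (CfsgLib.L34.Acol hF).comap (CfsgLib.L34.gr.comp π) := by
    intro J hJT hZJ hJe hJc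
    have hcard : Nat.card ↥(J.map π) = 16 := by
      rw [← hJc, show π = ((MulAut.conj g).toMonoidHom.comp hXL.some.toMonoidHom).comp
        (QuotientGroup.mk' (Subgroup.center X)) from rfl, ← Subgroup.map_map]
      exact Nat.card_congr (Subgroup.equivMapOfInjective _ _
        ((MulAut.conj g).injective.comp hXL.some.injective)).toEquiv.symm
    have hsq' : ∀ y ∈ J.map π, y * y = 1 := by
      rintro _ ⟨j, hj, rfl⟩
      have h := hJe.2 _ (Subgroup.mem_map_of_mem _ hj)
      rw [← map_pow, QuotientGroup.mk'_apply, QuotientGroup.eq_one_iff, ← hker, MonoidHom.mem_ker] at h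
      rw [← pow_two, ← map_pow]
      exact h
    have hback : (J.map π).comap π = J := by
      rw [Subgroup.comap_map_eq_self]
      rw [hker]
      exact hZJ
    rcases CfsgLib.L34.eq_Acol hF (hT ▸ Subgroup.map_mono hJT) hsq' with h | h
    · left
      rw [← hback, Subgroup.eq_of_le_of_card_ge (K := CfsgLib.L34.Acol hF) (fun x hx => h x hx)
        (by rw [hcard, CfsgLib.L34.card_Acol])]
    · right
      rw [← hback]
      refine Eq.trans (congrArg (fun Y => Subgroup.comap π Y)
        (Subgroup.eq_of_le_of_card_ge (H := J.map π) (K := (CfsgLib.L34.Acol hF).comap CfsgLib.L34.gr) (fun x hx => ?_) ?_))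
        (Subgroup.comap_comap _ _ _)
      · obtain ⟨a, c, rfl⟩ := h x hx
        rw [Subgroup.mem_comap, CfsgLib.L34.gr_uEl hF]
        exact ⟨![c, a], by simp [CfsgLib.L34.aEl]⟩
      · rw [hcard, ← CfsgLib.L34.card_Acol hF]
        exact Nat.card_le_card_of_injective (fun x => ⟨CfsgLib.L34.gr x.1, x.2⟩)
          fun x y e => Subtype.ext (CfsgLib.L34.gr_injective (congrArg Subtype.val e))
  have hker' : (CfsgLib.L34.gr.comp π).ker = π.ker := CfsgLib.L34.gr_ker hF
  have hs' : Function.Surjective (CfsgLib.L34.gr.comp π) := CfsgLib.L34.gr_surjective.comp hs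
  have eA := CfsgLib.L34.comap_elementary hF hs hker.le hsq
  have cA := CfsgLib.L34.exists_complement hF hs hker.le hsq
  have eB := CfsgLib.L34.comap_elementary hF hs' (hker'.trans hker).le (hker' ▸ hsq)
  have cB := CfsgLib.L34.exists_complement hF hs' (hker'.trans hker).le (hker' ▸ hsq)
  have hI := CfsgLib.L34.inf_eq_center hF hs hker.le hsq
  rcases key H hHT hZH hH.1 hH.2 with rfl | rfl <;> rcases key K hKT hZK hK.1 hK.2 with rfl | rfl
  · exact absurd rfl hHK
  · exact ⟨eA, eB, hI, cA, cB⟩
  · refine ⟨eB, eA, ?_, cB, cA⟩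
    rw [inf_comm, hI]
    rw [sup_comm ((CfsgLib.L34.Acol hF).comap (CfsgLib.L34.gr.comp π))]
  · exact absurd rfl hHK

end Cfsg.Agent.S3154
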