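import Cfsg.Statements.S3155
import Mathlib.LinearAlgebra.Determinant
import Mathlib.Algebra.Module.ZMod
import Mathlib.LinearAlgebra.Dimension.Constructions
import Mathlib.LinearAlgebra.FreeModule.StrongRankCondition

set_option autoImplicit false
open Cfsg

namespace Cfsg.Agent.S3155

/-- Let B be the direct product of three cyclic groups of order 4. Then the automorphism of B inverting every element is not the square of any automorphism of B. -/
theorem result {B : Type*} [CommGroup B] [Finite B] (hB : Nonempty (B ≃* Multiplicative (ZMod 4 × ZMod 4 × ZMod 4)))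
    (τ : B ≃* B) : τ.trans τ ≠ MulEquiv.inv B := by
  intro h
  obtain ⟨e⟩ := hB
  let e' : Additive B ≃+ (ZMod 4 × ZMod 4 × ZMod 4) := MulEquiv.toAdditiveLeft e
  let t : (ZMod 4 × ZMod 4 × ZMod 4) →+ (ZMod 4 × ZMod 4 × ZMod 4) :=
    ((e'.symm.trans (MulEquiv.toAdditive τ)).trans e').toAddMonoidHom
  let f := t.toZModLinearMap 4
  have hf : f ∘ₗ f = (-1 : ZMod 4) • LinearMap.id := by
    refine LinearMap.ext fun v => ?_
    have h1 := DFunLike.congr_fun h (Additive.toMul (e'.symm v))
    simp only [MulEquiv.trans_apply, MulEquiv.inv_apply] at h1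
    have h2 : t (t v) = - v := by
      show e' (Additive.ofMul (τ (Additive.toMul (e'.symm (e' (Additive.ofMul (τ (Additive.toMul (e'.symm v))))))))) = -v
      rw [AddEquiv.symm_apply_apply, toMul_ofMul, h1, ofMul_inv, map_neg, ofMul_toMul,
        AddEquiv.apply_symm_apply]
    simpa [f] using h2
  have : Fact (1 < 4) := ⟨by omega⟩
  have hd := congrArg LinearMap.det hf
  have hr : Module.finrank (ZMod 4) (ZMod 4 × ZMod 4 × ZMod 4) = 3 := by
    rw [Module.finrank_prod, Module.finrank_prod, Module.finrank_self]
  rw [LinearMap.det_comp, LinearMap.det_smul, LinearMap.det_id, hr] at hd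
  revert hd
  generalize LinearMap.det f = d
  revert d
  decide

end Cfsg.Agent.S3155
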