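import Cfsg.Statements.S3156
import Cfsg.Agent.SuzukiTwo.UnitaryThree

set_option autoImplicit false
open Cfsg

namespace Cfsg.Agent.S3156

open CfsgLib.SUFusion CfsgLib.SuzukiTwo

section Field

variable {K : Type*} [Field K] [CharP K 2]

/-- An additive map preserving `x ↦ x⁵` on the field with 16 elements is a scalar times the identity or times
`x ↦ x⁴`. -/
theorem isometry (h16 : ∀ x : K, x ^ 16 = x) (D : K →+ K) (hD : ∀ x, D x ^ 5 = x ^ 5) :
    ∃ l : K, l ^ 5 = 1 ∧ ((∀ x, D x = l * x) ∨ ∀ x, D x = l * x ^ 4) := by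
  refine ⟨D 1, by rw [hD, one_pow], ?_⟩
  have hl : D 1 ≠ 0 := fun h => by
    have := hD 1
    rw [h, one_pow, zero_pow (by norm_num)] at this
    exact zero_ne_one this
  have pw : ∀ x, D x = D 1 * x ∨ D x = D 1 * x ^ 4 := by
    intro x
    have h2 : (2 : K) = 0 := CharTwo.two_eq_zero
    obtain ⟨y, hy⟩ : ∃ y, D x = D 1 * y := ⟨D x / D 1, by rw [mul_div_cancel₀ _ hl]⟩
    have hy5 : y ^ 5 = x ^ 5 := by
      have := hD x
      rw [hy, mul_pow, hD, one_pow, one_mul] at this
      exact this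
    have hy1 : (y + 1) ^ 5 = (x + 1) ^ 5 := by
      have := hD (x + 1)
      rw [map_add, hy, show D 1 * y + D 1 = D 1 * (y + 1) by ring, mul_pow, hD, one_pow, one_mul] at this
      exact this
    obtain ⟨u, rfl⟩ : ∃ u, y = x + u := ⟨y - x, by ring⟩
    have hu4 : u ^ 4 = u := by
      linear_combination hy1 - hy5 - u * h2 - 2 * (x + u) ^ 4 * h2 + 2 * x ^ 4 * h2
        - 5 * ((x + u) ^ 3 + (x + u) ^ 2) * h2 + 5 * (x ^ 3 + x ^ 2) * h2 - 2 * (x + u) * h2 + 2 * x * h2
        - (2 * x ^ 3 * u + 3 * x ^ 2 * u ^ 2 + 2 * x * u ^ 3) * h2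
    have : u * (u + (x + x ^ 4)) = 0 := by
      linear_combination hy5 - (2 * x ^ 4 * u + 5 * x ^ 3 * u ^ 2 + 5 * x ^ 2 * u ^ 3 + 2 * x * u ^ 4) * h2
        - x * hu4 - u * hu4
    rcases mul_eq_zero.mp this with h | h
    · left; rw [hy, h, add_zero]
    · right
      rw [hy]
      congr 1
      rw [CharTwo.add_eq_zero] at h
      rw [h]
      linear_combination x * h2
  by_contra hh
  rw [not_or] at hh
  obtain ⟨ha, hb⟩ := hh
  simp only [not_forall] at ha hb
  obtain ⟨a, ha⟩ := ha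
  obtain ⟨b, hb⟩ := hb
  have ha' := (pw a).resolve_left ha
  have hb' := (pw b).resolve_right hb
  have hadd : (a + b) ^ 4 = a ^ 4 + b ^ 4 := by
    linear_combination (2 * a ^ 3 * b + 3 * a ^ 2 * b ^ 2 + 2 * a * b ^ 3) * (CharTwo.two_eq_zero : (2 : K) = 0)
  rcases pw (a + b) with h | h
  · rw [map_add, hb', mul_add] at h
    exact ha (add_right_cancel h)
  · rw [map_add, ha', hadd, mul_add] at h
    exact hb (add_left_cancel h)

/-- An involutive additive map of the subfield with four elements is trivial or semilinear. -/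
theorem tau_shape (t : K → K) (hmem : ∀ u, u ^ 4 = u → t u ^ 4 = t u)
    (hadd : ∀ u v, u ^ 4 = u → v ^ 4 = v → t (u + v) = t u + t v) (hinv : ∀ u, u ^ 4 = u → t (t u) = u)
    (y : K) (hy4 : y ^ 4 = y) (hy : t y ≠ y) :
    ∃ c : K, c ≠ 0 ∧ c ^ 4 = c ∧ ∀ u, u ^ 4 = u → t u = c ^ 2 * u ^ 2 := by
  have h2 : (2 : K) = 0 := CharTwo.two_eq_zero
  have h0 : t 0 = 0 := by
    have := hadd 0 0 (by simp) (by simp)
    rw [add_zero] at this
    linear_combination -this
  have hy0 : y ≠ 0 := fun h => hy (by rw [h, h0])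
  obtain ⟨c, hc⟩ : ∃ c, c = y + t y := ⟨_, rfl⟩
  have hc0 : c ≠ 0 := fun h => hy (by rw [← hc.symm.trans h |> CharTwo.add_eq_zero.mp])
  have hc4 : c ^ 4 = c := by
    rw [hc]
    linear_combination hy4 + hmem y hy4
      + (2 * y ^ 3 * t y + 3 * y ^ 2 * t y ^ 2 + 2 * y * t y ^ 3) * h2
  have htc : t c = c := by
    rw [hc, hadd y (t y) hy4 (hmem y hy4), hinv y hy4, add_comm]
  have hty : t y = y + c := by
    rw [hc]; linear_combination -y * h2
  have h3 : ∀ u : K, u ≠ 0 → u ^ 4 = u → u ^ 3 = 1 := fun u hu h => mul_left_cancel₀ hu (by linear_combination h)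
  have hyc : y ≠ c := fun h => by
    apply hy
    rw [h]; exact htc
  have hq : y ^ 2 + c * y + c ^ 2 = 0 := by
    have : (y + c) * (y ^ 2 + c * y + c ^ 2) = 0 := by
      linear_combination h3 y hy0 hy4 + h3 c hc0 hc4 + (1 + y ^ 2 * c + y * c ^ 2) * h2
    exact (mul_eq_zero.mp this).resolve_left fun h => hyc (CharTwo.add_eq_zero.mp h)
  refine ⟨c, hc0, hc4, fun u hu => ?_⟩
  by_cases hu0 : u = 0
  · rw [hu0, h0]; ring
  by_cases huc : u = c
  · rw [huc, htc]; linear_combination -hc4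
  have hqu : u ^ 2 + c * u + c ^ 2 = 0 := by
    have : (u + c) * (u ^ 2 + c * u + c ^ 2) = 0 := by
      linear_combination h3 u hu0 hu + h3 c hc0 hc4 + (1 + u ^ 2 * c + u * c ^ 2) * h2
    exact (mul_eq_zero.mp this).resolve_left fun h => huc (CharTwo.add_eq_zero.mp h)
  have key : c ^ 2 * y ^ 2 = y + c := by
    linear_combination c ^ 2 * hq - (y + c) * h3 c hc0 hc4 - (y + c) * h2
  have : (u + y) * (u + (y + c)) = 0 := by
    linear_combination hqu - hq + (y * u + y ^ 2 + y * c) * h2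
  rcases mul_eq_zero.mp this with h | h
  · rw [CharTwo.add_eq_zero.mp h, hty, key]
  · rw [CharTwo.add_eq_zero.mp h, hadd y c hy4 hc4, hty, htc]
    linear_combination -key - (c ^ 3 * y) * h2 - hc4

end Field

/-- The centre-compatible parameters of the Sylow 2-subgroup. -/
theorem no_S3_uni {K : Type*} [Field K] [Fintype K] [CharP K 2] {σ : K →+* K} (hσ2 : ∀ x, σ (σ x) = x)
    (hK : Fintype.card K = 4 ^ 2) (hσ : ∀ x, σ x = x ^ 4) (hσne : σ ≠ RingHom.id K)
    (f : Equiv.Perm (Fin 3) →* MulAut (uni σ 3)) (hf : Function.Injective f) : False := by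
  classical
  have h2 : (2 : K) = 0 := CharTwo.two_eq_zero
  have h16 : ∀ x : K, x ^ 16 = x := fun x => by
    have := FiniteField.pow_card x
    rwa [hK] at this
  obtain ⟨-, htr⟩ := fixed_field 4 hK hσ hσne hσ2
  have hnorm : ∀ a, σ (a * σ a) = a * σ a := fun a => by rw [map_mul, hσ2, mul_comm]
  have hchoose : ∀ a, ∃ g : uni σ 3, (par3 σ g.1).1 = a := fun a => by
    obtain ⟨b, hb⟩ := htr _ (hnorm a)
    exact ⟨⟨u3 hσ2 a b (by rw [hb, CharTwo.add_self_eq_zero]), u3_mem hσ2 _ _ _⟩, by simp [par3_u3]⟩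
  choose lift hlift using hchoose
  have hchz : ∀ b, ∃ g : uni σ 3, σ b = b → par3 σ g.1 = (0, b) := fun b => by
    by_cases h : σ b = b
    · exact ⟨⟨u3 hσ2 0 b (by rw [h, CharTwo.add_self_eq_zero, zero_mul, add_zero]), u3_mem hσ2 _ _ _⟩,
        fun _ => by simp [par3_u3]⟩
    · exact ⟨1, fun h' => absurd h' h⟩
  choose zel hzel using hchz
  let P : uni σ 3 → K × K := fun g => par3 σ g.1
  have hmul : ∀ g g' : uni σ 3, P (g * g') = ((P g).1 + (P g').1, (P g).2 + (P g').2 + (P g).1 * σ (P g').1) :=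
    fun g g' => par3_mul hσ2 g.2 g'.2
  have hext : ∀ g g' : uni σ 3, P g = P g' → g = g' := fun g g' h =>
    Subtype.ext (par3_ext hσ2 g.2 g'.2 h)
  have hone : P 1 = (0, 0) := by simp [P, par3, mat_one]
  have hfix : ∀ g : uni σ 3, (P g).1 = 0 → σ (P g).2 = (P g).2 := by
    intro g ha
    obtain ⟨a, b, h, hg⟩ := exists_u3 hσ2 g.2
    simp only [P, hg, par3_u3] at ha ⊢
    subst ha
    rw [map_zero, mul_zero, add_zero, CharTwo.add_eq_zero] at h
    exact h.symm
  have hinv : ∀ g : uni σ 3, g * g = 1 ↔ (P g).1 = 0 := by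
    intro g
    constructor
    · intro h
      have h' := congrArg (fun x : uni σ 3 => (P x).2) h
      simp only [hmul, hone, CharTwo.add_self_eq_zero, zero_add, mul_eq_zero, map_eq_zero, or_self] at h'
      exact h'
    · intro h
      apply hext
      rw [hmul, hone, h, zero_mul, add_zero, CharTwo.add_self_eq_zero, CharTwo.add_self_eq_zero]
  let M : MulAut (uni σ 3) → K → K := fun θ a => (P (θ (lift a))).1
  have hwd : ∀ (θ : MulAut (uni σ 3)) g, (P (θ g)).1 = M θ (P g).1 := by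
    intro θ g
    obtain ⟨h, hh⟩ : ∃ h, h = (lift (P g).1)⁻¹ * g := ⟨_, rfl⟩
    have hg : g = lift (P g).1 * h := by rw [hh, mul_inv_cancel_left]
    have hh1 : (P h).1 = 0 := by
      have := congrArg (fun x => (P x).1) hg
      simp only [hmul] at this
      rw [show (P (lift (P g).1)).1 = (P g).1 from hlift _] at this
      exact left_eq_add.mp this
    have hh2 : (P (θ h)).1 = 0 := by
      rw [← hinv, ← map_mul, (hinv h).mpr hh1, map_one]
    conv_lhs => rw [hg, map_mul, hmul]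
    show _ + (P (θ h)).1 = _
    rw [hh2, add_zero]
  have hMadd : ∀ θ a b, M θ (a + b) = M θ a + M θ b := by
    intro θ a b
    have := hwd θ (lift a * lift b)
    rw [map_mul, hmul, hmul, show (P (lift a)).1 = a from hlift a, show (P (lift b)).1 = b from hlift b] at this
    exact this.symm
  have hMcomp : ∀ θ ψ a, M (θ * ψ) a = M θ (M ψ a) := fun θ ψ a => hwd θ (ψ (lift a))
  have hMone : ∀ a, M 1 a = a := fun a => hlift a
  have hM0 : ∀ θ, M θ 0 = 0 := fun θ => by
    have h := hMadd θ 0 0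
    rw [add_zero, CharTwo.add_self_eq_zero] at h
    exact h
  let T : MulAut (uni σ 3) → K → K := fun θ b => (P (θ (zel b))).2
  have hzel1 : ∀ (θ : MulAut (uni σ 3)) (b : K), σ b = b → (P (θ (zel b))).1 = 0 := fun θ b hb => by
    rw [hwd, show P (zel b) = (0, b) from hzel b hb, hM0]
  have hTfix : ∀ (θ : MulAut (uni σ 3)) (b : K), σ b = b → σ (T θ b) = T θ b := fun θ b hb => hfix _ (hzel1 θ b hb)
  have hzimg : ∀ (θ : MulAut (uni σ 3)) (b : K), σ b = b → θ (zel b) = zel (T θ b) := fun θ b hb => hext _ _ (by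
    rw [show P (zel (T θ b)) = (0, T θ b) from hzel _ (hTfix θ b hb)]
    exact Prod.ext (hzel1 θ b hb) rfl)
  have hTcomp : ∀ θ ψ b, σ b = b → T (θ * ψ) b = T θ (T ψ b) := fun θ ψ b hb => by
    show (P (θ (ψ (zel b)))).2 = _
    rw [hzimg ψ b hb]
  have hTone : ∀ b, σ b = b → T 1 b = b := fun b hb => by
    show (P (zel b)).2 = b
    rw [show P (zel b) = (0, b) from hzel b hb]
  have hTadd : ∀ θ b c, σ b = b → σ c = c → T θ (b + c) = T θ b + T θ c := fun θ b c hb hc => by
    have hbc : σ (b + c) = b + c := by rw [map_add, hb, hc]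
    have e : zel (b + c) = zel b * zel c := hext _ _ (by
      rw [hmul, show P (zel (b + c)) = (0, b + c) from hzel _ hbc, show P (zel b) = (0, b) from hzel b hb,
        show P (zel c) = (0, c) from hzel c hc]
      simp)
    show (P (θ (zel (b + c)))).2 = _
    rw [e, map_mul, hmul, hzel1 θ b hb, zero_mul, add_zero]
  have hTq : ∀ θ a, T θ (a * σ a) = M θ a * σ (M θ a) := fun θ a => by
    have e : zel (a * σ a) = lift a * lift a := hext _ _ (by
      rw [hmul, show P (zel (a * σ a)) = (0, a * σ a) from hzel _ (hnorm a),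
        show (P (lift a)).1 = a from hlift a, CharTwo.add_self_eq_zero, CharTwo.add_self_eq_zero, zero_add])
    show (P (θ (zel (a * σ a)))).2 = _
    rw [e, map_mul, hmul]
    show _ + M θ a * σ (M θ a) = _
    rw [CharTwo.add_self_eq_zero, zero_add]
  have hnot : ∀ k : K, (∀ x, k * x ^ 4 = x) → False := fun k hk => by
    have hk1 := hk 1
    rw [one_pow, mul_one] at hk1
    refine hσne (RingHom.ext fun x => ?_)
    have := hk x
    rw [hk1, one_mul] at this
    rw [hσ, this]; rfl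
  have hswap : ∀ θ : MulAut (uni σ 3), θ * θ = 1 → ∀ b, σ b = b → T θ b = b := by
    intro θ hθ y hy
    by_contra hne
    have hfx : ∀ u, u ^ 4 = u ↔ σ u = u := fun u => by rw [hσ]
    obtain ⟨c, hc0, hc4, hc⟩ := tau_shape (T θ) (fun u hu => (hfx _).mpr (hTfix θ u ((hfx u).mp hu)))
      (fun u v hu hv => hTadd θ u v ((hfx u).mp hu) ((hfx v).mp hv))
      (fun u hu => by rw [← hTcomp θ θ u ((hfx u).mp hu), hθ, hTone u ((hfx u).mp hu)])
      y ((hfx y).mpr hy) hne
    have hq : ∀ x, M θ x ^ 5 = c ^ 2 * x ^ 10 := fun x => by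
      have h1 := hTq θ x
      rw [hc _ ((hfx _).mpr (hnorm x)), hσ, hσ] at h1
      linear_combination -h1
    let D : K →+ K := AddMonoidHom.mk' (fun x => (M θ x / c) ^ 8) fun u v => by
      rw [hMadd, add_div, show (8 : ℕ) = 2 ^ 3 from rfl, add_pow_char_pow]
    have hD : ∀ x, D x ^ 5 = x ^ 5 := fun x => by
      show ((M θ x / c) ^ 8) ^ 5 = _
      have e : (M θ x / c) ^ 5 = x ^ 10 := by
        rw [div_pow, hq, div_eq_iff (pow_ne_zero _ hc0)]
        linear_combination -(x ^ 10 * c) * hc4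
      rw [← pow_mul, show 8 * 5 = 5 * 8 from rfl, pow_mul, e]
      linear_combination (x ^ 64 + x ^ 49 + x ^ 34 + x ^ 19 + x ^ 4) * h16 x
    obtain ⟨l, -, hl⟩ := isometry h16 D hD
    have hback : ∀ x, M θ x = c * D x ^ 2 := fun x => by
      show _ = c * ((M θ x / c) ^ 8) ^ 2
      rw [← pow_mul, h16, mul_div_cancel₀ _ hc0]
    have hsq : ∀ x, M θ (M θ x) = x := fun x => by rw [← hMcomp, hθ, hMone]
    rcases hl with hl | hl
    · refine hnot ((c * l ^ 2) ^ 3) fun x => ?_
      have := hsq x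
      rw [hback, hl, hback, hl] at this
      linear_combination this
    · refine hnot ((c * l ^ 2) ^ 9) fun x => ?_
      have h64 : x ^ 64 = x ^ 4 := by rw [show 64 = 16 * 4 from rfl, pow_mul, h16]
      have := hsq x
      rw [hback, hl, hback, hl] at this
      linear_combination this - (c * l ^ 2) ^ 9 * h64
  have htriv : ∀ g : Equiv.Perm (Fin 3), ∀ b, σ b = b → T (f g) b = b := by
    intro g
    induction g using Equiv.Perm.swap_induction_on with
    | one => intro b hb; rw [map_one, hTone b hb]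
    | swap_mul g i j hij ih =>
      intro b hb
      rw [map_mul, hTcomp _ _ b hb, ih b hb, hswap _ (by rw [← map_mul, Equiv.swap_mul_self, map_one]) b hb]
  obtain ⟨φ, hφ⟩ : ∃ φ, φ = f (finRotate 3) := ⟨_, rfl⟩
  have hφ3 : φ * φ * φ = 1 := by
    rw [hφ, ← map_mul, ← map_mul, show finRotate 3 * finRotate 3 * finRotate 3 = 1 by decide, map_one]
  have hφT : ∀ b, σ b = b → T φ b = b := hφ ▸ htriv _
  obtain ⟨l, hl5, hl⟩ := isometry h16 (AddMonoidHom.mk' (M φ) (hMadd φ)) fun x => by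
    show M φ x ^ 5 = x ^ 5
    have h1 := hTq φ x
    rw [hφT _ (hnorm x), hσ, hσ] at h1
    linear_combination -h1
  have hcube : ∀ x, M φ (M φ (M φ x)) = x := fun x => by rw [← hMcomp, ← hMcomp, hφ3, hMone]
  have hid : ∀ x, M φ x = x := by
    rcases hl with hl | hl
    · have hl' : ∀ x, M φ x = l * x := hl
      have h1 := hcube 1
      rw [hl', hl', hl'] at h1
      intro x
      rw [hl']
      linear_combination -(x * l) * hl5 + x * (l * (l * (l * 1)) + 1) * h1
    · exfalso
      have hl' : ∀ x, M φ x = l * x ^ 4 := hl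
      refine hnot (l ^ 21) fun x => ?_
      have h64 : x ^ 64 = x ^ 4 := by rw [show 64 = 16 * 4 from rfl, pow_mul, h16]
      have := hcube x
      rw [hl', hl', hl'] at this
      linear_combination this - l ^ 21 * h64
  have hφz : ∀ z, (P z).1 = 0 → φ z = z := fun z hz => by
    have hb := hfix z hz
    have e : z = zel (P z).2 := hext _ _ (by
      rw [show P (zel (P z).2) = (0, (P z).2) from hzel _ hb]; exact Prod.ext hz rfl)
    rw [e, hzimg φ _ hb, hφT _ hb]
  have hφ1 : φ = 1 := by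
    refine MulEquiv.ext fun g => ?_
    obtain ⟨z, hz⟩ : ∃ z, φ g = g * z := ⟨g⁻¹ * φ g, by rw [mul_inv_cancel_left]⟩
    have hz1 : (P z).1 = 0 := by
      have := hwd φ g
      rw [hid, hz, hmul] at this
      exact add_eq_left.mp this
    have e3 : (φ * φ * φ) g = g := by rw [hφ3]; rfl
    rw [MulAut.mul_apply, MulAut.mul_apply, hz, map_mul, hz, hφz z hz1, map_mul, map_mul, hz, hφz z hz1,
      mul_assoc, mul_assoc, (hinv z).mpr hz1, mul_one, mul_eq_left] at e3
    rw [hz, e3, mul_one]; rfl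
  exact absurd (hf (show f (finRotate 3) = f 1 by rw [← hφ, hφ1, map_one])) (by decide)

/-- If a finite group T is isomorphic to a Sylow 2-subgroup of the projective special unitary group of dimension 3 with parameter 4 (realised over the field with 16 elements), then no subgroup of the automorphism group of T is isomorphic to the symmetric group of degree 3. -/
theorem result {T : Type*} [Group T] [Finite T] (hT : (∃ (F : Type) (_ : Field F) (_ : Fintype F), Fintype.card F = 16 ∧ ∃ S : Sylow 2 (Cfsg.PSU 3 F 4), Nonempty (T ≃* ↥(S : Subgroup (Cfsg.PSU 3 F 4))))) (H : Subgroup (MulAut T)) : ¬ Nonempty (↥H ≃* Equiv.Perm (Fin 3)) := by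
  classical
  rintro ⟨e⟩
  obtain ⟨F, iF, iFF, hF, S, ⟨eT⟩⟩ := hT
  haveI : Fact (Nat.Prime 2) := ⟨Nat.prime_two⟩
  haveI : CharP F 2 := charP_of_card_eq_prime_pow (f := 4) (by rw [hF]; norm_num)
  have hF' : Fintype.card F = 4 ^ 2 := by rw [hF]; norm_num
  obtain ⟨σ, hσ, hσ2, hσne, -⟩ := CfsgLib.Unitary.exists_conj 4 hF'
  obtain ⟨f, hf, hker⟩ := CfsgLib.SUFusion.exists_psu_hom 4 hF' 3 le_rfl σ hσ hσ2 hσne
  obtain ⟨U, hU⟩ := CfsgLib.SUFusion.exists_sylow_uni (n := 3) hσ2 hσne 2 le_rfl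
  have hinj : Function.Injective (f.comp (U : Subgroup _).subtype) := by
    rw [← MonoidHom.ker_eq_bot_iff, Subgroup.eq_bot_iff_forall]
    rintro ⟨g, hg⟩ hgk
    obtain ⟨c, hc⟩ := (hker g).mp hgk
    have hg' : g ∈ CfsgLib.SUFusion.uni σ 3 := by rw [← hU]; exact hg
    have h00 := hg' 0 0 le_rfl
    rw [hc, Matrix.smul_apply, Matrix.one_apply_eq, smul_eq_mul, mul_one] at h00
    apply Subtype.ext
    exact CfsgLib.SUFusion.mat_ext (by rw [hc, h00, one_smul]; rfl)
  let eU : CfsgLib.SUFusion.uni σ 3 ≃* (S : Subgroup (Cfsg.PSU 3 F 4)) :=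
    ((MulEquiv.subgroupCongr hU.symm).trans
      (((MonoidHom.ofInjective hinj)).trans (MulEquiv.subgroupCongr (show (f.comp (U : Subgroup _).subtype).range
        = ((U.mapSurjective hf : Sylow 2 _) : Subgroup _) by
        rw [MonoidHom.range_comp, Subgroup.range_subtype]; rfl)))).trans (Sylow.equiv _ S)
  let c := (MulAut.congr (eT.trans eU.symm))
  refine no_S3_uni hσ2 hF' hσ hσne (c.toMonoidHom.comp (H.subtype.comp e.symm.toMonoidHom)) ?_
  exact c.injective.comp (Subtype.val_injective.comp e.symm.injective)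

end Cfsg.Agent.S3156
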