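import Cfsg.Statements.S3157
import Cfsg.Agent.HeisFour.Fpf
import Cfsg.Agent.Forms.DihedralEight
import Cfsg.Agent.RankOneP.Basic

set_option autoImplicit false
open Cfsg
open scoped commutatorElement
open CfsgLib.HeisFour

namespace Cfsg.Agent.S3157

/-- Let T be a non-abelian group of order 64 admitting automorphisms ρ of order 3 and x of order 2 with x ρ x⁻¹ = ρ⁻¹ (so they generate a symmetric group of degree 3), where ρ fixes only the identity. Then T is isomorphic to a Sylow 2-subgroup of the projective special linear group of dimension 3 over the field with 4 elements, and the subgroup of fixed points of x is dihedral of order 8 or quaternion of order 8. -/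
theorem result {T : Type*} [Group T] [Finite T] (hT : Nat.card T = 64) (hna : ¬ IsMulCommutative T) (ρ x : MulAut T) (hρ : orderOf ρ = 3) (hx : orderOf x = 2)
    (hxr : x * ρ * x⁻¹ = ρ⁻¹) (hfp : ∀ y : T, ρ y = y → y = 1) (C : Subgroup T) (hC : ∀ y : T, y ∈ C ↔ x y = y) :
    (∃ (F : Type) (_ : Field F) (_ : Fintype F), Fintype.card F = 4 ∧
        ∃ S : Sylow 2 (Matrix.ProjectiveSpecialLinearGroup (Fin 3) F), Nonempty (T ≃* ↥(S : Subgroup (Matrix.ProjectiveSpecialLinearGroup (Fin 3) F)))) ∧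
      (Nonempty (↥C ≃* DihedralGroup 4) ∨ Nonempty (↥C ≃* QuaternionGroup 2)) := by
  have hρ3 : ρ ^ 3 = 1 := hρ ▸ pow_orderOf_eq_one ρ
  have h : Fpf ρ := ⟨fun t => congrArg (fun φ : MulAut T => φ t) hρ3, hfp⟩
  have hxx : ∀ t, x (x t) = t := fun t => by
    have h2 : x ^ 2 = 1 := hx ▸ pow_orderOf_eq_one x
    exact congrArg (fun φ : MulAut T => φ t) h2
  have hρinv : ρ⁻¹ = ρ * ρ := inv_eq_of_mul_eq_one_right (by rw [← pow_three]; exact hρ3)
  have hxρ : ∀ t, x (ρ t) = ρ (ρ (x t)) := fun t => by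
    have e : x * ρ = ρ * ρ * x := by rw [← hρinv, ← hxr, inv_mul_cancel_right]
    exact congrArg (fun φ : MulAut T => φ t) e
  have hxρ2 : ∀ t, x (ρ (ρ t)) = ρ (x t) := fun t => by rw [hxρ, hxρ, h.cube]
  set Z := Subgroup.center T with hZdef
  have hZρ : CfsgLib.HeisFour.Inv ρ Z := inv_center h hT hna
  have hZ4 : Nat.card Z = 4 := card_center h hT hna
  have hsq := fun z (hz : z ∈ Z) => center_sq h hT hna hz
  have hxZ : ∀ z ∈ Z, x z ∈ Z := by
    intro z hz
    rw [hZdef, Subgroup.mem_center_iff] at hz ⊢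
    intro g
    obtain ⟨g, rfl⟩ := x.surjective g
    rw [← map_mul, ← map_mul, hz]
  -- the elements of the centre
  obtain ⟨g₀, hg₀, hg₁⟩ : ∃ g ∈ Z, g ≠ 1 := by
    by_contra hc
    push Not at hc
    rw [(Subgroup.eq_bot_iff_forall Z).2 hc, Subgroup.card_bot] at hZ4
    omega
  have hlist : ∀ g ∈ Z, g ≠ 1 → ∀ z ∈ Z, z = 1 ∨ z = g ∨ z = ρ g ∨ z = ρ (ρ g) := by
    intro g hg hg1 z hz
    have hr : ρ g ≠ 1 := fun e => hg1 ((EmbeddingLike.map_eq_one_iff).1 e)
    have hrr : ρ (ρ g) ≠ 1 := fun e => hr ((EmbeddingLike.map_eq_one_iff).1 e)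
    have hne : ρ g ≠ g := fun e => hg1 (hfp g e)
    have hne2 : ρ (ρ g) ≠ g := fun e => hg1 (hfp g (by
      have := congrArg ρ e; rw [h.cube] at this; exact this.symm))
    have hne3 : ρ (ρ g) ≠ ρ g := fun e => hne (ρ.injective e)
    let v : Fin 4 → T := ![1, g, ρ g, ρ (ρ g)]
    have hv : ∀ i, v i ∈ Z := by
      intro i
      fin_cases i
      · exact Z.one_mem
      · exact hg
      · exact hZρ g hg
      · exact hZρ _ (hZρ g hg)
    let f : Fin 4 → Z := fun i => ⟨v i, hv i⟩
    have hinj : Function.Injective f := by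
      intro i j e
      have e' : v i = v j := congrArg Subtype.val e
      fin_cases i <;> fin_cases j <;>
        first
          | rfl
          | exact absurd e' (Ne.symm hg1)
          | exact absurd e' hg1
          | exact absurd e' (Ne.symm hr)
          | exact absurd e' hr
          | exact absurd e' (Ne.symm hrr)
          | exact absurd e' hrr
          | exact absurd e' (Ne.symm hne)
          | exact absurd e' hne
          | exact absurd e' (Ne.symm hne2)
          | exact absurd e' hne2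
          | exact absurd e' (Ne.symm hne3)
          | exact absurd e' hne3
    obtain ⟨i, hi⟩ := ((Nat.bijective_iff_injective_and_card f).2 ⟨hinj, by simp [hZ4]⟩).2 ⟨z, hz⟩
    have e' : v i = z := congrArg Subtype.val hi
    fin_cases i
    · exact Or.inl e'.symm
    · exact Or.inr (Or.inl e'.symm)
    · exact Or.inr (Or.inr (Or.inl e'.symm))
    · exact Or.inr (Or.inr (Or.inr e'.symm))
  obtain ⟨z₀, hz₀, hz₀1, hxz₀⟩ : ∃ z ∈ Z, z ≠ 1 ∧ x z = z := by
    rcases hlist g₀ hg₀ hg₁ (x g₀) (hxZ _ hg₀) with e | e | e | e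
    · exact absurd ((EmbeddingLike.map_eq_one_iff).1 e) hg₁
    · exact ⟨g₀, hg₀, hg₁, e⟩
    · refine ⟨ρ (ρ g₀), hZρ _ (hZρ _ hg₀), ?_, by rw [hxρ2, e]⟩
      exact fun e' => hg₁ ((EmbeddingLike.map_eq_one_iff).1 ((EmbeddingLike.map_eq_one_iff).1 e'))
    · refine ⟨ρ g₀, hZρ _ hg₀, fun e' => hg₁ ((EmbeddingLike.map_eq_one_iff).1 e'), ?_⟩
      rw [hxρ, e, h.cube]
  have hxfix : ∀ z ∈ Z, x z = z → z = 1 ∨ z = z₀ := by
    intro z hz e
    rcases hlist z₀ hz₀ hz₀1 z hz with rfl | rfl | rfl | rfl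
    · exact Or.inl rfl
    · exact Or.inr rfl
    · rw [hxρ, hxz₀] at e
      exact absurd (hfp _ e) fun e' => hz₀1 ((EmbeddingLike.map_eq_one_iff).1 e')
    · rw [hxρ2, hxz₀] at e
      exact absurd (hfp _ e.symm) fun e' => hz₀1 ((EmbeddingLike.map_eq_one_iff).1 e')
  -- the quotient by the centre
  let π : T →* T ⧸ Z := QuotientGroup.mk' Z
  have hπ : ∀ t, π t = 1 ↔ t ∈ Z := fun t => QuotientGroup.eq_one_iff t
  have hπsq : ∀ t, π t * π t = 1 := fun t => by rw [← map_mul, hπ]; exact sq_mem h hT hna t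
  have hπeq : ∀ s t, π s = π t ↔ s⁻¹ * t ∈ Z := fun s t => QuotientGroup.eq
  have hπcomm : ∀ s t, π s * π t = π t * π s := fun s t => by
    rw [← commutatorElement_eq_one_iff_mul_comm, ← map_commutatorElement, hπ]
    exact commutator_mem h hT hna s t
  have hπx : ∀ s t, π s = π t → π (x s) = π (x t) := fun s t e => by
    rw [hπeq] at e ⊢
    simpa only [map_mul, map_inv] using hxZ _ e
  have hπρ : ∀ s t, π s = π t → π (ρ s) = π (ρ t) := fun s t e => by
    rw [hπeq] at e ⊢
    simpa only [map_mul, map_inv] using hZρ _ e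
  have hcardW : Nat.card (T ⧸ Z) = 16 := by
    have := Subgroup.card_eq_card_quotient_mul_card_subgroup Z
    rw [hT, hZ4] at this
    omega
  set Cq := C.map π with hCq
  -- fixed cosets lift
  have hlift : ∀ t, π (x t) = π t → π t ∈ Cq := by
    intro t ht
    have hz := (hπeq _ _).1 ht.symm
    set z := t⁻¹ * x t with hzdef
    have hxt : x t = t * z := by rw [hzdef, mul_inv_cancel_left]
    have hzz : z * x z = 1 := by
      have := hxx t
      rw [hxt, map_mul, hxt, mul_assoc] at this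
      exact mul_eq_left.1 this
    have hxz : x z = z := (inv_eq_of_mul_eq_one_right hzz).symm.trans (inv_eq_of_mul_eq_one_right (hsq z hz))
    rcases hxfix z hz hxz with e | e
    · exact ⟨t, (hC t).2 (by rw [hxt, e, mul_one]), rfl⟩
    · refine ⟨t * ρ z₀, (hC _).2 ?_, ?_⟩
      · rw [map_mul, hxt, e, hxρ, hxz₀, mul_assoc, center_rho_two h hT hna hz₀, ← mul_assoc z₀ z₀, hsq z₀ hz₀, one_mul]
      · rw [map_mul, (hπ _).2 (hZρ _ hz₀), mul_one]
  have hCq4 : Nat.card Cq = 4 := by
    have hCfix : ∀ q ∈ Cq, ∀ t, π t = q → π (x t) = q := by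
      rintro _ ⟨c, hc, rfl⟩ t ht
      rw [hπx t c ht, (hC c).1 hc]
    let ψ : T →* T ⧸ Z := MonoidHom.mk' (fun t => π (t * x t)) (fun s t => by
      simp only [map_mul]
      calc π s * π t * (π (x s) * π (x t)) = π s * (π t * π (x s)) * π (x t) := by simp only [mul_assoc]
        _ = π s * (π (x s) * π t) * π (x t) := by rw [hπcomm t (x s)]
        _ = _ := by simp only [mul_assoc])
    have hrange : ψ.range ≤ Cq := by
      rintro _ ⟨t, rfl⟩
      refine hlift _ ?_
      rw [map_mul, map_mul, map_mul, hxx, hπcomm]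
    have hker : ψ.ker ≤ Cq.comap π := by
      intro t ht
      refine hlift t ?_
      have e : π (t * x t) = 1 := ht
      rw [map_mul, mul_eq_one_iff_eq_inv'] at e
      rw [e]
      exact inv_eq_of_mul_eq_one_right (hπsq t)
    have hk : Nat.card (Cq.comap π) = Nat.card Cq * 4 := by
      have e1 := (π.comp (Cq.comap π).subtype).ker.card_mul_index
      rw [Subgroup.index_ker, MonoidHom.range_comp, Subgroup.range_subtype,
        Subgroup.map_comap_eq_self_of_surjective (QuotientGroup.mk'_surjective Z)] at e1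
      have e2 : Nat.card (π.comp (Cq.comap π).subtype).ker = 4 := by
        rw [← hZ4]
        refine Nat.card_congr ⟨fun s => ⟨(s : Cq.comap π), (hπ _).1 s.2⟩,
          fun s => ⟨⟨s, ?_⟩, (hπ (s : T)).2 s.2⟩, fun s => rfl, fun s => rfl⟩
        show π (s : T) ∈ Cq
        rw [(hπ (s : T)).2 s.2]
        exact Cq.one_mem
      rw [e2] at e1
      rw [← e1, mul_comm]
    have hlow : 16 ≤ Nat.card Cq * Nat.card Cq := by
      have e1 := ψ.ker.card_mul_index
      rw [Subgroup.index_ker, hT] at e1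
      have h1 : Nat.card ψ.ker ≤ Nat.card Cq * 4 := hk ▸ Subgroup.card_le_of_le hker
      have h2 : Nat.card ψ.range ≤ Nat.card Cq := Subgroup.card_le_of_le hrange
      have := Nat.mul_le_mul h1 h2
      rw [e1, mul_assoc, mul_comm 4, ← mul_assoc] at this
      omega
    have hup : Nat.card Cq * Nat.card Cq ≤ 16 := by
      rw [← hcardW, ← Nat.card_prod]
      have hlift' : ∀ q : Cq, ∃ c ∈ C, π c = q := fun q => q.2
      choose f hf hfπ using hlift'
      refine Nat.card_le_card_of_injective (fun p : Cq × Cq => π (f p.1 * ρ (f p.2))) ?_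
      rintro ⟨p, q⟩ ⟨p', q'⟩ e
      simp only at e
      set s := f q * (f q')⁻¹
      have hs : s ∈ C := C.mul_mem (hf q) (C.inv_mem (hf q'))
      have e' : π (ρ s) = π ((f p)⁻¹ * f p') := by
        rw [map_mul, map_mul] at e
        simp only [s, map_mul, map_inv]
        rw [eq_inv_mul_iff_mul_eq, ← mul_assoc, e, mul_inv_cancel_right]
      have hfix : π (x (ρ s)) = π (ρ s) := by
        rw [hπx _ _ e', map_mul x, map_inv, (hC _).1 (hf p), (hC _).1 (hf p'), e']
      rw [hxρ, (hC _).1 hs, hπeq] at hfix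
      have h3 : ρ s ∈ Z := by
        refine h.descend hZρ ?_
        have := Z.inv_mem hfix
        simpa using this
      have h4 : s ∈ Z := by
        have := hZρ _ (hZρ _ h3)
        rwa [h.cube] at this
      have hq : q = q' := Subtype.ext (by
        have := (hπ s).2 h4
        simp only [s, map_mul, map_inv, hfπ] at this
        exact mul_inv_eq_one.1 this)
      subst hq
      have hp : p = p' := Subtype.ext (by
        rw [map_mul, map_mul] at e
        rw [← hfπ p, ← hfπ p']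
        exact mul_right_cancel e)
      subst hp
      rfl
    have : Nat.card Cq ≤ 4 := by by_contra hc; have := Nat.mul_le_mul (show 5 ≤ Nat.card Cq by omega) (show 5 ≤ Nat.card Cq by omega); omega
    interval_cases hh : Nat.card Cq <;> omega
  have hC8 : Nat.card C = 8 := by
    have e1 := (π.comp C.subtype).ker.card_mul_index
    rw [Subgroup.index_ker, MonoidHom.range_comp, Subgroup.range_subtype, ← hCq, hCq4] at e1
    have e2 : Nat.card (π.comp C.subtype).ker = 2 := by
      rw [Nat.card_eq_two_iff]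
      refine ⟨1, ⟨⟨z₀, (hC z₀).2 hxz₀⟩, (hπ z₀).2 hz₀⟩, fun e => hz₀1 ?_, ?_⟩
      · exact (congrArg (fun s : (π.comp C.subtype).ker => ((s : C) : T)) e).symm
      · ext ⟨⟨s, hs⟩, hk⟩
        simp only [Set.mem_insert_iff, Set.mem_singleton_iff, Set.mem_univ, iff_true]
        rcases hxfix s ((hπ s).1 hk) ((hC s).1 hs) with rfl | rfl
        · exact Or.inl rfl
        · exact Or.inr rfl
    rw [e2] at e1
    exact e1.symm
  -- the fixed points do not commute
  obtain ⟨c, hc, d, hd, hcd⟩ : ∃ c ∈ C, ∃ d ∈ C, ⁅c, d⁆ ≠ 1 := by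
    by_contra hcon
    push Not at hcon
    apply hna
    set K := Subgroup.closure ((C : Set T) ∪ ρ '' (C : Set T))
    have hcomm : ∀ s ∈ C, ∀ t ∈ C, ⁅s, ρ t⁆ = 1 := by
      intro s hs t ht
      rw [(table h hT hna s t).1, hcon s hs t ht, map_one, map_one]
    have hK : ∀ s ∈ K, ∀ t ∈ K, s * t = t * s := by
      have hgen : ∀ s ∈ ((C : Set T) ∪ ρ '' (C : Set T)), ∀ t ∈ ((C : Set T) ∪ ρ '' (C : Set T)), s * t = t * s := by
        rintro s (hs | ⟨s, hs, rfl⟩) t (ht | ⟨t, ht, rfl⟩) <;> rw [← commutatorElement_eq_one_iff_mul_comm]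
        · exact hcon s hs t ht
        · exact hcomm s hs t ht
        · rw [comm_symm h hT hna t (ρ s)]; exact hcomm t ht s hs
        · rw [← map_commutatorElement, hcon s hs t ht, map_one]
      have h1 : K ≤ Subgroup.centralizer ((C : Set T) ∪ ρ '' (C : Set T)) :=
        (Subgroup.closure_le _).2 fun s hs => Subgroup.mem_centralizer_iff.2 fun t ht => hgen t ht s hs
      intro s hs t ht
      have h2 : K ≤ Subgroup.centralizer ({t} : Set T) := (Subgroup.closure_le _).2 fun u hu =>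
        Subgroup.mem_centralizer_singleton_iff.2 (Subgroup.mem_centralizer_iff.1 (h1 ht) u hu)
      exact Subgroup.mem_centralizer_singleton_iff.1 (h2 hs)
    refine ⟨⟨fun s t => ?_⟩⟩
    suffices ∀ u : T, u ∈ K from hK s (this s) t (this t)
    intro u
    have hZK : Z ≤ K := by
      intro z hz
      have h0 : z₀ ∈ K := Subgroup.subset_closure (Or.inl ((hC z₀).2 hxz₀))
      have h1 : ρ z₀ ∈ K := Subgroup.subset_closure (Or.inr ⟨z₀, (hC z₀).2 hxz₀, rfl⟩)
      rcases hlist z₀ hz₀ hz₀1 z hz with rfl | rfl | rfl | rfl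
      · exact K.one_mem
      · exact h0
      · exact h1
      · rw [center_rho_two h hT hna hz₀]; exact K.mul_mem h0 h1
    have hlift' : ∀ q : Cq, ∃ c ∈ C, π c = q := fun q => q.2
    choose f hf hfπ using hlift'
    have hsur : Function.Surjective fun p : Cq × Cq => π (f p.1 * ρ (f p.2)) := by
      refine ((Nat.bijective_iff_injective_and_card _).2 ⟨?_, by rw [Nat.card_prod, hCq4, hcardW]⟩).2
      rintro ⟨p, q⟩ ⟨p', q'⟩ e
      simp only at e
      set w := f q * (f q')⁻¹
      have hw : w ∈ C := C.mul_mem (hf q) (C.inv_mem (hf q'))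
      have e' : π (ρ w) = π ((f p)⁻¹ * f p') := by
        rw [map_mul, map_mul] at e
        simp only [w, map_mul, map_inv]
        rw [eq_inv_mul_iff_mul_eq, ← mul_assoc, e, mul_inv_cancel_right]
      have hfix : π (x (ρ w)) = π (ρ w) := by
        rw [hπx _ _ e', map_mul x, map_inv, (hC _).1 (hf p), (hC _).1 (hf p'), e']
      rw [hxρ, (hC _).1 hw, hπeq] at hfix
      have h3 : ρ w ∈ Z := by
        refine h.descend hZρ ?_
        simpa using Z.inv_mem hfix
      have h4 : w ∈ Z := by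
        have := hZρ _ (hZρ _ h3)
        rwa [h.cube] at this
      have hq : q = q' := Subtype.ext (by
        have := (hπ w).2 h4
        simp only [w, map_mul, map_inv, hfπ] at this
        exact mul_inv_eq_one.1 this)
      subst hq
      have hp : p = p' := Subtype.ext (by
        rw [map_mul, map_mul] at e
        rw [← hfπ p, ← hfπ p']
        exact mul_right_cancel e)
      subst hp
      rfl
    obtain ⟨⟨p, q⟩, hpq⟩ := hsur (π u)
    have := K.mul_mem (K.mul_mem (Subgroup.subset_closure (Or.inl (hf p)))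
      (Subgroup.subset_closure (Or.inr ⟨f q, hf q, rfl⟩))) (hZK ((hπeq _ _).1 hpq))
    rwa [mul_inv_cancel_left] at this
  have hcd0 : ⁅c, d⁆ = z₀ := by
    have e : x ⁅c, d⁆ = ⁅c, d⁆ := by rw [map_commutatorElement, (hC c).1 hc, (hC d).1 hd]
    exact (hxfix _ (commutator_mem h hT hna c d) e).resolve_left hcd
  have hsqfix : ∀ s ∈ C, s * s = 1 ∨ s * s = z₀ := fun s hs =>
    hxfix _ (sq_mem h hT hna s) (by rw [map_mul, (hC s).1 hs])
  have hnoncomm : ∀ {s t : T}, ⁅s, t⁆ ≠ 1 → t * s ≠ s * t := fun hst e =>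
    hst (commutatorElement_eq_one_iff_mul_comm.2 e.symm)
  have hswap : ⁅d, c⁆ = z₀ := by rw [comm_symm h hT hna c d, hcd0]
  -- case distinction on the squares
  suffices hmain : (∃ a b : T, a * a = 1 ∧ b * b = 1 ∧ ⁅a, b⁆ ≠ 1) ∧
      (Nonempty (↥C ≃* DihedralGroup 4) ∨ Nonempty (↥C ≃* QuaternionGroup 2)) by
    obtain ⟨⟨a, b, ha, hb, hab⟩, hCiso⟩ := hmain
    refine ⟨?_, hCiso⟩
    obtain ⟨hgens, htop⟩ := gens_of_involutions h hT hna ha hb hab
    letI : Fintype (GaloisField 2 2) := Fintype.ofFinite _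
    have hF4 : Fintype.card (GaloisField 2 2) = 4 := by
      rw [← Nat.card_eq_fintype_card, GaloisField.card 2 2 two_ne_zero]; norm_num
    refine ⟨GaloisField 2 2, inferInstance, inferInstance, hF4, ?_⟩
    obtain ⟨S, hS, a₁, a₁', b₁, b₁', z₁, z₁', hg', htop'⟩ := sylow_model (F := GaloisField 2 2) hF4
    exact ⟨S, nonempty_equiv hgens hg' htop hT htop' hS⟩
  have hdih : ∀ s ∈ C, ∀ t ∈ C, ⁅s, t⁆ = z₀ → s * s = 1 →
      (∃ a b : T, a * a = 1 ∧ b * b = 1 ∧ ⁅a, b⁆ ≠ 1) ∧
      (Nonempty (↥C ≃* DihedralGroup 4) ∨ Nonempty (↥C ≃* QuaternionGroup 2)) := by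
    intro s hs t ht hst hss
    refine ⟨?_, Or.inl (CfsgLib.Forms.exists_mulEquiv_dihedral_four hC8 (a := ⟨s, hs⟩) (s := ⟨t, ht⟩)
      (Subtype.ext hss) fun e => hnoncomm (hst ▸ hz₀1) (congrArg Subtype.val e))⟩
    rcases hsqfix t ht with e | e
    · exact ⟨s, t, hss, e, hst ▸ hz₀1⟩
    · refine ⟨s, s * t, hss, ?_, ?_⟩
      · rw [sq_mul h hT hna, hss, e, one_mul, comm_symm h hT hna s t, hst, hsq z₀ hz₀]
      · rw [comm_mul_right h hT hna, commutatorElement_self, one_mul, hst]; exact hz₀1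
  rcases hsqfix c hc with ec | ec
  · exact hdih c hc d hd hcd0 ec
  rcases hsqfix d hd with ed | ed
  · exact hdih d hd c hc hswap ed
  -- the quaternion case
  obtain ⟨t1, t2, t3⟩ := table h hT hna c d
  rw [hcd0] at t1 t2 t3
  refine ⟨⟨c * ρ d, d * ρ c, ?_, ?_, ?_⟩, Or.inr ?_⟩
  · rw [sq_mul h hT hna, ec, ← map_mul, ed, comm_symm h hT hna c (ρ d), t1, center_rho_two h hT hna hz₀,
      hsq _ (Z.mul_mem hz₀ (hZρ _ hz₀))]
  · rw [sq_mul h hT hna, ed, ← map_mul, ec, t2, center_rho_two h hT hna hz₀,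
      hsq _ (Z.mul_mem hz₀ (hZρ _ hz₀))]
  · rw [comm_mul_left h hT hna, comm_mul_right h hT hna c, comm_mul_right h hT hna (ρ d), hcd0,
      commutatorElement_eq_one_iff_mul_comm.2 (h.commute c).eq,
      commutatorElement_eq_one_iff_mul_comm.2 (h.commute d).symm.eq,
      comm_symm h hT hna (ρ c) (ρ d), t3, mul_one, one_mul, ← center_rho_two h hT hna hz₀]
    exact fun e => hz₀1 ((EmbeddingLike.map_eq_one_iff).1 ((EmbeddingLike.map_eq_one_iff).1 e))
  · have hoc : orderOf (⟨c, hc⟩ : C) = 2 * 2 := by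
      rw [Subgroup.orderOf_mk]
      refine orderOf_eq_prime_pow (p := 2) (n := 1) ?_ ?_
      · rw [pow_one, pow_two, ec]; exact hz₀1
      · rw [show (2 : ℕ) ^ (1 + 1) = 4 by norm_num, show c ^ 4 = c * c * (c * c) by simp [pow_succ, mul_assoc],
          ec, hsq z₀ hz₀]
    have hdz : (⟨d, hd⟩ : C) ∉ Subgroup.zpowers (⟨c, hc⟩ : C) := by
      rintro ⟨n, hn⟩
      refine hcd (commutatorElement_eq_one_iff_mul_comm.2 ?_)
      have hn' : c ^ n = d := congrArg Subtype.val hn
      rw [← hn']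
      exact (Commute.self_zpow c n).eq
    refine CfsgLib.RankOneP.nonempty_mulEquiv_quaternion (n := 2) (a := ⟨c, hc⟩) (y := ⟨d, hd⟩) hoc ?_ ?_ hdz ?_
    · refine Subtype.ext ?_
      show d * c * d⁻¹ = c⁻¹
      have e : d * c * d⁻¹ = ⁅d, c⁆ * c := by simp only [commutatorElement_def]; group
      rw [e, hswap, eq_inv_iff_mul_eq_one, mul_assoc, ec, hsq z₀ hz₀]
    · refine Subtype.ext ?_
      show d ^ 2 = c ^ 2
      rw [pow_two, pow_two, ec, ed]
    · haveI : Finite C := inferInstance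
      refine Subgroup.eq_top_of_card_eq _ ?_
      have hd8 := Subgroup.card_subgroup_dvd_card (Subgroup.zpowers (⟨c, hc⟩ : C) ⊔ Subgroup.zpowers (⟨d, hd⟩ : C))
      have hgt : 4 < Nat.card ↥(Subgroup.zpowers (⟨c, hc⟩ : C) ⊔ Subgroup.zpowers (⟨d, hd⟩ : C)) := by
        refine lt_of_not_ge fun hle => hdz ?_
        rw [Subgroup.eq_of_le_of_card_ge (le_sup_left : Subgroup.zpowers (⟨c, hc⟩ : C) ≤ _ ⊔ Subgroup.zpowers (⟨d, hd⟩ : C))
          (by rw [Nat.card_zpowers, hoc]; exact hle)]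
        exact Subgroup.mem_sup_right (Subgroup.mem_zpowers _)
      rw [hC8] at hd8 ⊢
      have := Nat.le_of_dvd (by norm_num) hd8
      interval_cases hh : Nat.card ↥(Subgroup.zpowers (⟨c, hc⟩ : C) ⊔ Subgroup.zpowers (⟨d, hd⟩ : C)) <;> omega

end Cfsg.Agent.S3157
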