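import Cfsg.Statements.S3174
import Mathlib
import Cfsg.Agent.RuType.Center
import Cfsg.Agent.Forms.DihedralEight

set_option autoImplicit false
open Cfsg
open scoped commutatorElement

namespace Cfsg.Agent.S3174

/-- Let T be a finite 2-group of order at least 2^14 in which the fourth term of the upper central series has order 16. Let W be the centralizer in T of the third term Z₃(T), and suppose the Frattini subgroup of W has order at most 8 and lies in every subgroup of W of index at most 16. Then T has order exactly 2^14; the derived subgroup of W and the Frattini subgroup of W both equal Z₃(T), which is elementary abelian of order 8; the centre of W has order 8; W is normal in T with quotient dihedral of order 8; and W modulo its derived subgroup is elementary abelian of order 2^8. -/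
theorem result {T : Type*} [Group T] [Finite T]
    (hT : IsPGroup 2 T) (ha : 2 ^ 14 ≤ Nat.card T) (hb : Nat.card ↥(Subgroup.upperCentralSeries T 4) = 16)
    (W : Subgroup T) (hW : W = Subgroup.centralizer ((Subgroup.upperCentralSeries T 3 : Subgroup T) : Set T))
    (hc : Nat.card ↥(frattini ↥W) ≤ 8) (hd : ∀ U : Subgroup ↥W, U.index ≤ 16 → frattini ↥W ≤ U) :
    Nat.card T = 2 ^ 14 ∧
      (commutator ↥W).map W.subtype = Subgroup.upperCentralSeries T 3 ∧
      (frattini ↥W).map W.subtype = Subgroup.upperCentralSeries T 3 ∧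
      Nat.card ↥(Subgroup.center ↥W) = 8 ∧
      Nat.card ↥(Subgroup.upperCentralSeries T 3) = 8 ∧ (∀ z ∈ Subgroup.upperCentralSeries T 3, z ^ 2 = 1) ∧
      (∃ (_ : W.Normal), Nonempty (T ⧸ W ≃* DihedralGroup 4)) ∧
      Nat.card (↥W ⧸ commutator ↥W) = 2 ^ 8 ∧ (∀ x : ↥W ⧸ commutator ↥W, x ^ 2 = 1) := by
  haveI : Fact (Nat.Prime 2) := ⟨Nat.prime_two⟩
  have h : CfsgLib.RuType.Hyp W := ⟨hT, ha, hb, hW, hc, hd⟩
  have F := h.facts
  haveI hn : W.Normal := h.wnormal
  have h8 : Nat.card (Subgroup.upperCentralSeries T 3) = 8 := h.cardZ (by omega)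
  have hder : Nat.card ↥(commutator ↥W) = 8 := by
    rw [← Subgroup.card_map_of_injective W.subtype_injective, F.derived]
    exact h8
  refine ⟨?_, F.derived, F.fratt, ?_, h8, fun z hz => by rw [pow_two]; exact F.elem z hz, ⟨hn, ?_⟩, ?_, ?_⟩
  · rw [← W.card_mul_index, F.cardW, F.idx]
    norm_num
  · rw [← Subgroup.card_map_of_injective W.subtype_injective, CfsgLib.RuType.center_eq h]
    exact h8
  · obtain ⟨e₁, h₁, h₁'⟩ := h.exists_step (k := 0) (by omega)
    obtain ⟨e₂, h₂, h₂'⟩ := h.exists_step (k := 1) (by omega)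
    obtain ⟨e₃, h₃, h₃'⟩ := h.exists_step (k := 2) (by omega)
    obtain ⟨a, ha₂, ha₃⟩ := h.exists_pair F.idx h₂ h₂' h₃ h₃' h₁ (one_mem _)
    obtain ⟨s, hs₂, hs₃⟩ := h.exists_pair F.idx h₂ h₂' h₃ h₃' (one_mem _) h₂
    refine CfsgLib.Forms.exists_mulEquiv_dihedral_four (a := QuotientGroup.mk a) (s := QuotientGroup.mk s)
      (by rw [← Subgroup.index_eq_card, F.idx]) ?_ ?_
    · rw [← QuotientGroup.mk_mul, QuotientGroup.eq_one_iff]
      refine h.mem_W h₂ h₂' h₃ h₃' ?_ ?_
      · rw [CfsgLib.RuType.comm_mul_left, ha₂, CfsgLib.RuType.Hyp.central h₁ a]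
        exact F.elem _ (Subgroup.upperCentralSeries_mono T (by omega) h₁)
      · rw [CfsgLib.RuType.comm_mul_left, ha₃, mul_one, mul_one, mul_inv_cancel]
    · rw [← QuotientGroup.mk_mul, ← QuotientGroup.mk_mul]
      intro hc
      have hm := QuotientGroup.eq.1 hc
      have h0 := h.fix_of_mem hm h₃
      have e : ⁅s * a, e₃⁆ = ⁅a * s, e₃⁆ := by
        have e1 : a * s = s * a * ((s * a)⁻¹ * (a * s)) := by group
        conv_rhs => rw [e1, CfsgLib.RuType.comm_mul_left, h0, mul_one, mul_inv_cancel, one_mul]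
      rw [CfsgLib.RuType.comm_mul_left, CfsgLib.RuType.comm_mul_left, ha₃, hs₃, mul_one, mul_inv_cancel,
        one_mul, mul_one] at e
      have hfix : a * e₂ * a⁻¹ = e₂ := e.symm
      have : ⁅a, e₂⁆ = 1 := CfsgLib.RuType.fix_iff.2 hfix
      rw [ha₂] at this
      exact h₁' (CfsgLib.RuType.Hyp.zero_mem.2 this)
  · have := (commutator ↥W).card_mul_index
    rw [hder, F.cardW] at this
    rw [← Subgroup.index_eq_card]
    omega
  · intro x
    induction x using QuotientGroup.induction_on with
    | _ w =>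
      rw [← QuotientGroup.mk_pow, QuotientGroup.eq_one_iff]
      have := F.sq _ w.2
      rw [← F.derived] at this
      obtain ⟨m, hm, he⟩ := this
      exact (show m = w ^ 2 from Subtype.ext (by rw [Subgroup.coe_pow, pow_two]; exact he)) ▸ hm

end Cfsg.Agent.S3174
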