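import Cfsg.Statements.S3175
import Mathlib
import Cfsg.Agent.RuType.Auto
import Cfsg.Agent.RuType.Closed

set_option autoImplicit false
open Cfsg
open scoped commutatorElement

namespace Cfsg.Agent.S3175

/-- Let G be a finite group whose Sylow 2-subgroup T has order at least 2^14 and whose upper central series has fourth term of order 16; let W be the centralizer in T of the third term, and suppose the Frattini subgroup of W has order at most 8 and lies in every subgroup of W of index at most 16. Then the normalizer of T in G has a normal 2-complement, and W is weakly closed in T with respect to G. -/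
theorem result {G : Type*} [Group G] [Finite G]
    (T : Sylow 2 G) (ha : 2 ^ 14 ≤ Nat.card ↥(T : Subgroup G))
    (hb : Nat.card ↥(Subgroup.upperCentralSeries ↥(T : Subgroup G) 4) = 16)
    (W : Subgroup ↥(T : Subgroup G))
    (hW : W = Subgroup.centralizer ((Subgroup.upperCentralSeries ↥(T : Subgroup G) 3 : Subgroup ↥(T : Subgroup G)) : Set ↥(T : Subgroup G)))
    (hc : Nat.card ↥(frattini ↥W) ≤ 8)
    (hd : ∀ U : Subgroup ↥W, U.index ≤ 16 → frattini ↥W ≤ U) :
    Cfsg.HasNormalPComplement 2 ↥(Subgroup.normalizer ((T : Subgroup G) : Set G)) ∧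
      Cfsg.IsWeaklyClosed (W.map (T : Subgroup G).subtype) (T : Subgroup G) := by
  haveI : Fact (Nat.Prime 2) := ⟨Nat.prime_two⟩
  have h : CfsgLib.RuType.Hyp W := ⟨T.isPGroup', ha, hb, hW, hc, hd⟩
  refine ⟨?_, ?_⟩
  · set N := Subgroup.normalizer ((T : Subgroup G) : Set G) with hNdef
    have hTN : (T : Subgroup G) ≤ N := Subgroup.le_normalizer
    let TN : Sylow 2 N := T.subtype hTN
    have hTNval : (TN : Subgroup N) = (T : Subgroup G).subgroupOf N := rfl
    haveI hn : (TN : Subgroup N).Normal := by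
      rw [hTNval]
      exact Subgroup.normal_subgroupOf_iff_le_normalizer hTN |>.2 le_rfl
    obtain ⟨K, hK⟩ := Subgroup.exists_right_complement'_of_coprime TN.card_coprime_index
    have hKodd : Odd (Nat.card K) := by
      rw [← hK.symm.index_eq_card]
      exact Nat.not_even_iff_odd.1 fun hev => TN.not_dvd_index hev.two_dvd
    let e : ↥(TN : Subgroup N) ≃* ↥(T : Subgroup G) := Subgroup.subgroupOfEquivOfLe hTN
    let φ : N →* MulAut ↥(T : Subgroup G) := (MulAut.congr e).toMonoidHom.comp MulAut.conjNormal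
    have hcomm : ∀ k ∈ K, ∀ t ∈ (TN : Subgroup N), k * t = t * k := by
      intro k hk t ht
      have hpow : (φ k) ^ Nat.card K = 1 := by
        rw [← map_pow]
        have : k ^ Nat.card K = 1 := congrArg Subtype.val (pow_card_eq_one' (x := (⟨k, hk⟩ : K)))
        rw [this, map_one]
      have h1 := CfsgLib.RuType.aut_odd_trivial h (φ k) hKodd hpow
      have h2 : e (MulAut.conjNormal k (e.symm (e ⟨t, ht⟩))) = e ⟨t, ht⟩ := congrArg (fun a : MulAut ↥(T : Subgroup G) => a (e ⟨t, ht⟩)) h1
      rw [e.symm_apply_apply] at h2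
      have h3 : k * t * k⁻¹ = t := congrArg Subtype.val (e.injective h2)
      exact mul_inv_eq_iff_eq_mul.1 h3
    refine ⟨TN, K, ⟨fun k' hk' n => ?_⟩, hK.symm⟩
    obtain ⟨⟨t, k⟩, rfl⟩ := hK.2 n
    have hk'' : (k : N) * k' * (k : N)⁻¹ ∈ K := mul_mem (mul_mem k.2 hk') (inv_mem k.2)
    have : (t : N) * k * k' * ((t : N) * k)⁻¹ = (k : N) * k' * (k : N)⁻¹ := by
      calc (t : N) * k * k' * ((t : N) * k)⁻¹ = (t : N) * ((k : N) * k' * (k : N)⁻¹) * (t : N)⁻¹ := by group
        _ = (k : N) * k' * (k : N)⁻¹ := by rw [← hcomm _ hk'' _ t.2, mul_inv_cancel_right]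
    rw [this]
    exact hk''
  · refine ⟨Subgroup.map_subtype_le W, fun g hg => ?_⟩
    let φ : W →* ↥(T : Subgroup G) :=
      { toFun := fun w => ⟨g * ((w : ↥(T : Subgroup G)) : G) * g⁻¹,
          hg ⟨_, Subgroup.mem_map_of_mem (T : Subgroup G).subtype w.2, rfl⟩⟩
        map_one' := Subtype.ext (by simp)
        map_mul' := fun a b => Subtype.ext (by simp [mul_assoc]) }
    have hinj : Function.Injective φ := fun a b hab => by
      have := congrArg Subtype.val hab
      simp only [φ, MonoidHom.coe_mk, OneHom.coe_mk, mul_left_inj, mul_right_inj] at this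
      exact Subtype.ext (Subtype.ext this)
    have hcW : Nat.card φ.range = 2 ^ 11 := by
      rw [← Nat.card_congr (MonoidHom.ofInjective hinj).toEquiv, h.facts.cardW]
    let Z : Subgroup W := (Subgroup.upperCentralSeries ↥(T : Subgroup G) 3).subgroupOf W
    have hP : Z.map φ ≤ φ.range := by
      rintro _ ⟨z, -, rfl⟩
      exact ⟨z, rfl⟩
    have hcP : Nat.card (Z.map φ) = 8 := by
      rw [Subgroup.card_map_of_injective hinj, Nat.card_congr (Subgroup.subgroupOfEquivOfLe h.facts.zle).toEquiv]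
      exact h.cardZ (by omega)
    have hcen : ∀ x ∈ φ.range, ∀ p ∈ Z.map φ, x * p = p * x := by
      rintro _ ⟨w, rfl⟩ _ ⟨z, hz, rfl⟩
      rw [← map_mul, ← map_mul]
      congr 1
      apply Subtype.ext
      exact commutatorElement_eq_one_iff_mul_comm.1 (h.fix_of_mem w.2 hz)
    have hcomm : ∀ x ∈ φ.range, ∀ y ∈ φ.range, ⁅x, y⁆ ∈ Z.map φ := by
      rintro _ ⟨a, rfl⟩ _ ⟨b, rfl⟩
      refine ⟨⁅a, b⁆, ?_, map_commutatorElement φ a b⟩
      exact h.facts.comm _ a.2 _ b.2
    have hWeq := CfsgLib.RuType.unique_W h φ.range (Z.map φ) hP hcW hcP hcen hcomm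
    conv_rhs => rw [← hWeq]
    ext x
    constructor
    · rintro ⟨_, ⟨w, hw, rfl⟩, rfl⟩
      exact ⟨φ ⟨w, hw⟩, ⟨⟨w, hw⟩, rfl⟩, rfl⟩
    · rintro ⟨_, ⟨w, rfl⟩, rfl⟩
      exact ⟨_, Subgroup.mem_map_of_mem (T : Subgroup G).subtype w.2, rfl⟩

end Cfsg.Agent.S3175
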