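import Cfsg.Statements.S3179
import Cfsg.Agent.SLn.Card
import Cfsg.Agent.SL2.PSLData
import Cfsg.Agent.Sz.Structure
import Cfsg.Agent.UGeom.Center

set_option autoImplicit false
open Cfsg

namespace Cfsg.Agent.S3179

open Polynomial in
/-- An element of `GL₅(2)` killed by the ninth power is killed by the cube. -/
theorem cube_eq_one (A : Matrix (Fin 5) (Fin 5) (ZMod 2)) (h : A ^ 9 = 1) : A ^ 3 = 1 := by
  have hm : minpoly (ZMod 2) A ∣ (X ^ 9 - 1 : (ZMod 2)[X]) := minpoly.dvd _ _ (by simp [h])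
  have hdeg : (minpoly (ZMod 2) A).natDegree ≤ 5 := by
    refine (natDegree_le_of_dvd (Matrix.minpoly_dvd_charpoly A) A.charpoly_monic.ne_zero).trans ?_
    rw [Matrix.charpoly_natDegree_eq_dim]; simp
  have hfac : (X ^ 9 - 1 : (ZMod 2)[X]) = (X ^ 3 - 1) * (X ^ 6 + X ^ 3 + 1) := by ring
  have hmz : minpoly (ZMod 2) A ≠ 0 := minpoly.ne_zero (Matrix.isIntegral A)
  have hcop : IsCoprime (minpoly (ZMod 2) A) (X ^ 6 + X ^ 3 + 1 : (ZMod 2)[X]) := by
    by_contra hnc
    rw [← EuclideanDomain.gcd_isUnit_iff] at hnc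
    have hg0 : EuclideanDomain.gcd (minpoly (ZMod 2) A) (X ^ 6 + X ^ 3 + 1 : (ZMod 2)[X]) ≠ 0 :=
      fun h0 => hmz (EuclideanDomain.gcd_eq_zero_iff.1 h0).1
    obtain ⟨f, hf, hfd⟩ := WfDvdMonoid.exists_irreducible_factor hnc hg0
    have hfm := hfd.trans (EuclideanDomain.gcd_dvd_left _ _)
    have hd5 : f.natDegree ≤ 5 := (natDegree_le_of_dvd hfm hmz).trans hdeg
    have : Fact (Irreducible f) := ⟨hf⟩
    let pb := AdjoinRoot.powerBasis hf.ne_zero
    have : Module.Finite (ZMod 2) (AdjoinRoot f) := Module.Finite.of_basis pb.basis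
    have : Finite (AdjoinRoot f) := Module.finite_of_finite (ZMod 2)
    have : Fintype (AdjoinRoot f) := Fintype.ofFinite _
    have hcard : Fintype.card (AdjoinRoot f) = 2 ^ f.natDegree := by
      have hfin := Module.card_fintype pb.basis
      simpa [pb, ZMod.card] using hfin
    set z : AdjoinRoot f := AdjoinRoot.root f with hz
    have hroot : z ^ 6 + z ^ 3 + 1 = 0 := by
      obtain ⟨c, hc⟩ := hfd.trans (EuclideanDomain.gcd_dvd_right _ _)
      have h1 := congrArg (aeval z) hc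
      rw [map_mul, show aeval z f = 0 by rw [AdjoinRoot.aeval_eq, AdjoinRoot.mk_self], zero_mul] at h1
      simpa using h1
    have h3 : z ^ 3 ≠ 1 := by
      intro h3
      have h6 : z ^ 6 = 1 := by rw [show 6 = 3 * 2 by norm_num, pow_mul, h3, one_pow]
      rw [h6, h3] at hroot
      have h2 : (2 : AdjoinRoot f) = 0 := by
        rw [← map_ofNat (algebraMap (ZMod 2) (AdjoinRoot f)), show (2 : ZMod 2) = 0 from by decide, map_zero]
      exact one_ne_zero (α := AdjoinRoot f) (by linear_combination hroot - h2)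
    have h9 : z ^ 9 = 1 := by linear_combination (z ^ 3 - 1) * hroot
    have hz0 : z ≠ 0 := by intro h0; simp [h0] at hroot
    have hord : orderOf z = 9 := by
      have := orderOf_eq_prime_pow (p := 3) (n := 1) (x := z) (by simpa using h3) (by simpa using h9)
      simpa using this
    have hd : 9 ∣ 2 ^ f.natDegree - 1 := by
      rw [← hord, ← hcard]
      exact orderOf_dvd_of_pow_eq_one (FiniteField.pow_card_sub_one_eq_one z hz0)
    have h1 : 0 < f.natDegree := Irreducible.natDegree_pos hf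
    interval_cases f.natDegree <;> norm_num at hd
  have hd3 : minpoly (ZMod 2) A ∣ (X ^ 3 - 1 : (ZMod 2)[X]) := hcop.dvd_of_dvd_mul_right (hfac ▸ hm)
  obtain ⟨c, hc⟩ := hd3
  have h1 := congrArg (aeval A) hc
  rw [map_mul, minpoly.aeval, zero_mul] at h1
  exact sub_eq_zero.1 (by simpa using h1)

/-- `GL₅(2)` has no section with an element of order nine. -/
theorem orderOf_ne_nine {H : Subgroup (GL (Fin 5) (ZMod 2))} {K : Subgroup ↥H} [K.Normal] (y : ↥H ⧸ K) :
    orderOf y ≠ 9 := by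
  intro hy
  obtain ⟨x, rfl⟩ := QuotientGroup.mk'_surjective K y
  obtain ⟨k, hk⟩ := hy ▸ orderOf_map_dvd (QuotientGroup.mk' K) x
  have hx0 : 0 < orderOf x := orderOf_pos x
  have hg : orderOf ((x ^ k : H) : GL (Fin 5) (ZMod 2)) = 9 := by
    rw [Subgroup.orderOf_coe, orderOf_pow, hk, Nat.gcd_eq_right (dvd_mul_left k 9)]
    refine Nat.mul_div_cancel _ ?_
    rcases Nat.eq_zero_or_pos k with rfl | hk0
    · omega
    · exact hk0
  have h9 := pow_orderOf_eq_one ((x ^ k : H) : GL (Fin 5) (ZMod 2))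
  rw [hg] at h9
  have h3 : ((x ^ k : H) : GL (Fin 5) (ZMod 2)) ^ 3 = 1 := Units.ext (by
    rw [Units.val_pow_eq_pow_val, Units.val_one]
    exact cube_eq_one _ (by rw [← Units.val_pow_eq_pow_val, h9, Units.val_one]))
  have := Nat.le_of_dvd (by norm_num) (orderOf_dvd_of_pow_eq_one h3)
  omega

theorem exponent_le {a : ℕ} (h : 2 ^ a ∣ 3 * 9999360) : a ≤ 10 := by
  have h1 : 2 ^ a ≤ 3 * 9999360 := Nat.le_of_dvd (by norm_num) h
  have : a < 25 := (Nat.pow_lt_pow_iff_right (by norm_num : 1 < 2)).1 (by omega)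
  interval_cases a <;> norm_num at h <;> norm_num

/-- Let X be a section of the general linear group GL(5, 2), that is, a quotient of a subgroup of it. If X is isomorphic to PSL(2, 2^n) for some n ≥ 2, to a Suzuki group over the field with 2^(2m+1) elements for some m ≥ 1, or to PSU(3, 2^n) for some n ≥ 2, then X is isomorphic to PSL(2, 4). -/
theorem result {H : Subgroup (GL (Fin 5) (ZMod 2))}
    {K : Subgroup ↥H} [K.Normal]
    (hX : (∃ (n : ℕ) (F : Type) (_ : Field F) (_ : Fintype F), 2 ≤ n ∧ Fintype.card F = 2 ^ n ∧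
        Nonempty (↥H ⧸ K ≃* Matrix.ProjectiveSpecialLinearGroup (Fin 2) F)) ∨
      (∃ (m : ℕ) (F : Type) (_ : Field F) (_ : Fintype F), 1 ≤ m ∧ Fintype.card F = 2 ^ (2 * m + 1) ∧
        Nonempty (↥H ⧸ K ≃* ↥(Cfsg.Lie.Sz F (2 ^ (m + 1))))) ∨
      (∃ (n : ℕ) (F : Type) (_ : Field F) (_ : Fintype F), 2 ≤ n ∧ Fintype.card F = 4 ^ n ∧
        Nonempty (↥H ⧸ K ≃* Cfsg.PSU 3 F (2 ^ n)))) :
    ∃ (F : Type) (_ : Field F) (_ : Fintype F), Fintype.card F = 4 ∧
      Nonempty (↥H ⧸ K ≃* Matrix.ProjectiveSpecialLinearGroup (Fin 2) F) := by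
  have hdiv : Nat.card (↥H ⧸ K) ∣ 9999360 := by
    refine (Subgroup.card_quotient_dvd_card K).trans ((Subgroup.card_subgroup_dvd_card H).trans ?_)
    rw [Matrix.card_GL_field, ZMod.card]
    simp [Fin.prod_univ_succ]
  rcases hX with ⟨n, F, _, _, hn, hF, ⟨e⟩⟩ | ⟨m, F, _, _, hm, hF, ⟨e⟩⟩ | ⟨n, F, _, _, hn, hF, ⟨e⟩⟩
  · have hcen : Nat.card (Subgroup.center (Matrix.SpecialLinearGroup (Fin 2) F)) = 1 := by
      rw [CfsgLib.SL2.card_center_eq_gcd, hF]
      have h2 : 2 ∣ 2 ^ n := dvd_pow_self 2 (by omega)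
      have hp := Nat.one_le_two_pow (n := n)
      exact (Nat.prime_two.coprime_iff_not_dvd.2 (by omega))
    have hc := CfsgLib.SL2.card_PSL_mul F
    rw [hcen, mul_one, ← Nat.card_congr e.toEquiv, hF] at hc
    rw [hc] at hdiv
    have hn10 : n ≤ 10 := exponent_le (dvd_mul_of_dvd_right ((dvd_mul_right _ _).trans hdiv) 3)
    interval_cases n
    · exact ⟨F, inferInstance, inferInstance, hF, ⟨e⟩⟩
    · have : CharP F 2 := charP_of_card_eq_prime_pow hF
      have : Fact (Nat.Prime 2) := ⟨Nat.prime_two⟩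
      obtain ⟨y, hy⟩ : (9 : ℕ) ∈ Set.range (orderOf : Matrix.ProjectiveSpecialLinearGroup (Fin 2) F → ℕ) := by
        rw [CfsgLib.SL2.range_orderOf_PSL 2]
        right; right; simp [hF]
      exact absurd ((orderOf_injective e.symm.toMonoidHom e.symm.injective y).trans hy) (orderOf_ne_nine _)
    all_goals norm_num at hdiv
  · have hc := CfsgLib.Sz.card_G (F := F) (m := m) ⟨hm, hF⟩
    rw [← Nat.card_congr e.toEquiv, hF] at hc
    rw [hc] at hdiv
    have h10 : (2 * m + 1) * 2 ≤ 10 := exponent_le (by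
      rw [pow_mul]; exact dvd_mul_of_dvd_right (((dvd_mul_right _ _).trans (dvd_mul_left _ _)).trans hdiv) 3)
    have : m ≤ 2 := by omega
    interval_cases m <;> norm_num at hdiv
  · have hF2 : Fintype.card F = (2 ^ n) ^ 2 := by rw [hF, ← pow_mul, mul_comm, pow_mul]; norm_num
    obtain ⟨C⟩ := CfsgLib.UGeom.nonempty_conj hF2
    have hc := CfsgLib.UGeom.card_PSU C (n := 3) (by norm_num)
    rw [← Nat.card_congr e.toEquiv] at hc
    simp only [Finset.prod_range_succ, Finset.prod_range_zero, Nat.not_even_one, if_false, if_true,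
      Even.zero, show Even 2 from ⟨1, rfl⟩, one_mul, zero_add, pow_one] at hc
    have hd2 : (2 ^ n) ^ 3 * ((2 ^ n + 1) * ((2 ^ n) ^ 2 - 1) * ((2 ^ n) ^ 3 + 1)) ∣
        3 * ((2 ^ n + 1) * 9999360) := by
      rw [show (3 : ℕ) * (3 - 1) / 2 = 3 by norm_num] at hc
      rw [← hc]
      exact Nat.mul_dvd_mul (Nat.gcd_dvd_left _ _) (Nat.mul_dvd_mul_left _ hdiv)
    have h10 : n * 3 ≤ 10 := exponent_le (by
      rw [pow_mul]
      have h1 := (dvd_mul_right _ _).trans hd2
      rw [mul_left_comm] at h1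
      refine (Nat.Coprime.dvd_mul_left ?_).1 h1
      refine Nat.Coprime.pow_left 3 ?_
      rw [Nat.coprime_self_add_right]
      exact Nat.coprime_one_right _)
    have : n ≤ 3 := by omega
    interval_cases n <;> norm_num at hd2

end Cfsg.Agent.S3179
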