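import Cfsg.Statements.S3180
import Mathlib.GroupTheory.Sylow

set_option autoImplicit false
open Cfsg

namespace Cfsg.Agent.S3180

/-- Let P be a Sylow p-subgroup of a finite group J and P₁ a subgroup of P that is weakly closed in P with respect to J. If J acts on a set and two points, each fixed by every element of P₁, lie in one J-orbit, then they lie in one orbit of the normalizer of P₁ in J. -/
theorem result {J : Type*} [Group J] [Finite J]
    {p : ℕ} [Fact p.Prime] (P : Sylow p J) (P₁ : Subgroup J) (hW : Cfsg.IsWeaklyClosed P₁ (P : Subgroup J))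
    {Ω : Type*} [MulAction J Ω] (x y : Ω) (hx : ∀ g ∈ P₁, g • x = x) (hy : ∀ g ∈ P₁, g • y = y)
    (hc : ∃ g : J, g • x = y) :
    ∃ g ∈ Subgroup.normalizer (P₁ : Set J), g • x = y := by
  obtain ⟨g, hg⟩ := hc
  set H := MulAction.stabilizer J y
  have h1 : P₁.map (MulAut.conj g).toMonoidHom ≤ H := by
    rintro _ ⟨a, ha, rfl⟩
    simp only [H, MulEquiv.coe_toMonoidHom, MulAut.conj_apply, MulAction.mem_stabilizer_iff, mul_smul]
    rw [← hg, inv_smul_smul, hx a ha]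
  have h2 : P₁ ≤ H := hy
  have hP1 : IsPGroup p ↥P₁ := P.isPGroup'.to_le hW.1
  obtain ⟨Q, hQ⟩ := (hP1.comap_of_injective H.subtype H.subtype_injective).exists_le_sylow
  obtain ⟨Q', hQ'⟩ := ((hP1.map (MulAut.conj g).toMonoidHom).comap_of_injective H.subtype
    H.subtype_injective).exists_le_sylow
  obtain ⟨h, hh⟩ := MulAction.exists_smul_eq H Q' Q
  obtain ⟨R, hR⟩ := (Q.isPGroup'.map H.subtype).exists_le_sylow
  obtain ⟨k, hk⟩ := MulAction.exists_smul_eq J R P
  have hkR : ∀ r ∈ (R : Subgroup J), k * r * k⁻¹ ∈ (P : Subgroup J) := by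
    intro r hr
    rw [← hk, Sylow.coe_subgroup_smul]
    exact Subgroup.mem_map.2 ⟨r, hr, rfl⟩
  have hPR : ∀ a ∈ P₁, a ∈ (R : Subgroup J) := fun a ha =>
    hR ⟨⟨a, h2 ha⟩, hQ (Subgroup.mem_comap.2 ha), rfl⟩
  have hgR : ∀ a ∈ P₁, (h : J) * g * a * ((h : J) * g)⁻¹ ∈ (R : Subgroup J) := by
    intro a ha
    have m : (⟨g * a * g⁻¹, h1 ⟨a, ha, rfl⟩⟩ : H) ∈ (Q' : Subgroup H) :=
      hQ' (Subgroup.mem_comap.2 ⟨a, ha, rfl⟩)
    have m2 : h * ⟨g * a * g⁻¹, h1 ⟨a, ha, rfl⟩⟩ * h⁻¹ ∈ (Q : Subgroup H) := by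
      rw [← hh, Sylow.coe_subgroup_smul]
      exact Subgroup.mem_map.2 ⟨_, m, rfl⟩
    have := hR ⟨_, m2, rfl⟩
    simpa [mul_assoc] using this
  have e : ∀ u : J, (∀ a ∈ P₁, u * a * u⁻¹ ∈ (P : Subgroup J)) → u ∈ Subgroup.normalizer (P₁ : Set J) := by
    intro u hu
    have := hW.2 u (by rintro _ ⟨a, ha, rfl⟩; exact hu a ha)
    rw [Subgroup.mem_normalizer_iff]
    intro a
    conv_rhs => rw [← this]
    constructor
    · intro ha; exact ⟨a, ha, rfl⟩
    · rintro ⟨b, hb, hb'⟩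
      simp only [MulEquiv.coe_toMonoidHom, MulAut.conj_apply, mul_left_inj, mul_right_inj] at hb'
      exact hb' ▸ hb
  have e1 : k ∈ Subgroup.normalizer (P₁ : Set J) := e k fun a ha => hkR a (hPR a ha)
  have e2 : k * ((h : J) * g) ∈ Subgroup.normalizer (P₁ : Set J) := e _ fun a ha => by
    have := hkR _ (hgR a ha)
    simpa [mul_assoc] using this
  refine ⟨(h : J) * g, ?_, ?_⟩
  · simpa [mul_assoc] using mul_mem (inv_mem e1) e2
  · rw [mul_smul, hg]; exact h.2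

end Cfsg.Agent.S3180
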