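import Cfsg.Statements.S3183
import Cfsg.Agent.SylowConj.Basic
import Mathlib.GroupTheory.Nilpotent

set_option autoImplicit false
open Cfsg

namespace Cfsg.Agent.S3183

/-- Let G be a finite group in which the intersection of any two distinct Sylow 2-subgroups is contained in the centre of some Sylow 2-subgroup, and let S be a Sylow 2-subgroup. Then for every x in S the centralizer of x in S is a Sylow 2-subgroup of the centralizer of x in G (no 2-subgroup centralizing x is larger), and for every other Sylow 2-subgroup T the intersection S ∩ T lies in both the centre of S and the centre of T. -/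
theorem result {G : Type*} [Group G] [Finite G]
    (hCI : ∀ S T : Sylow 2 G, S ≠ T → ∃ U : Sylow 2 G,
      (S : Subgroup G) ⊓ (T : Subgroup G) ≤ (Subgroup.center ↥(U : Subgroup G)).map (U : Subgroup G).subtype)
    (S : Sylow 2 G) :
    (∀ x ∈ (S : Subgroup G), ∀ P : Subgroup G, IsPGroup 2 ↥P → P ≤ Subgroup.centralizer ({x} : Set G) →
        Nat.card ↥P ≤ Nat.card ↥((S : Subgroup G) ⊓ Subgroup.centralizer ({x} : Set G))) ∧
    (∀ T : Sylow 2 G, T ≠ S →
        (S : Subgroup G) ⊓ (T : Subgroup G) ≤
          (Subgroup.center ↥(S : Subgroup G)).map (S : Subgroup G).subtype ⊓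
            (Subgroup.center ↥(T : Subgroup G)).map (T : Subgroup G).subtype) := by
  have : Fact (Nat.Prime 2) := ⟨Nat.prime_two⟩
  have hZ : ∀ (T : Sylow 2 G) (D : Subgroup G), D ≤ (Subgroup.center ↥(T : Subgroup G)).map (T : Subgroup G).subtype ↔
      D ≤ (T : Subgroup G) ∧ (T : Subgroup G) ≤ Subgroup.centralizer (D : Set G) := by
    intro T D
    constructor
    · intro h
      refine ⟨fun d hd => ?_, fun t ht => Subgroup.mem_centralizer_iff.2 fun d hd => ?_⟩
      · obtain ⟨v, _, rfl⟩ := h hd; exact v.2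
      · obtain ⟨v, hv, rfl⟩ := h hd
        exact (congrArg Subtype.val (Subgroup.mem_center_iff.1 hv ⟨t, ht⟩)).symm
    · intro h d hd
      exact ⟨⟨d, h.1 hd⟩, Subgroup.mem_center_iff.2 fun t =>
        Subtype.ext (Subgroup.mem_centralizer_iff.1 (h.2 t.2) d hd).symm, rfl⟩
  have main : ∀ k : ℕ, ∀ S T : Sylow 2 G, S ≠ T → Nat.card G ≤ Nat.card ↥((S : Subgroup G) ⊓ (T : Subgroup G)) + k →
      (S : Subgroup G) ⊓ (T : Subgroup G) ≤ (Subgroup.center ↥(S : Subgroup G)).map (S : Subgroup G).subtype := by
    intro k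
    induction k with
    | zero =>
      intro S T hne hk
      exfalso
      apply hne
      have : (S : Subgroup G) ⊓ (T : Subgroup G) = ⊤ := Subgroup.eq_top_of_card_eq _ (le_antisymm (Subgroup.card_le_card_group _) (by omega))
      rw [inf_eq_top_iff] at this
      exact Sylow.ext (this.1.trans this.2.symm)
    | succ k ih =>
      intro S T hne hk
      set D := (S : Subgroup G) ⊓ (T : Subgroup G)
      have step : ∀ V : Sylow 2 G, D ≤ (V : Subgroup G) → (V : Subgroup G) ≤ Subgroup.centralizer (D : Set G) →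
          ((V : Subgroup G) ≠ S → D ≠ (S : Subgroup G) ⊓ (V : Subgroup G)) →
          D ≤ (Subgroup.center ↥(S : Subgroup G)).map (S : Subgroup G).subtype := by
        intro V h1 h2 h3
        by_cases hV : (V : Subgroup G) = S
        · exact (hZ S D).2 ⟨inf_le_left, hV ▸ h2⟩
        · have hle : D ≤ (S : Subgroup G) ⊓ (V : Subgroup G) := le_inf inf_le_left h1
          refine hle.trans (ih S V (fun h => hV (h ▸ rfl)) ?_)
          have : Nat.card ↥D < Nat.card ↥((S : Subgroup G) ⊓ (V : Subgroup G)) := by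
            refine lt_of_le_of_ne (Subgroup.card_le_of_le hle) fun h => h3 hV ?_
            exact Subgroup.eq_of_le_of_card_ge hle h.ge
          omega
      obtain ⟨U, hU⟩ := hCI S T hne
      obtain ⟨hDU, hUC⟩ := (hZ U D).1 hU
      set R := (S : Subgroup G) ⊓ Subgroup.centralizer (D : Set G)
      have hR : IsPGroup 2 ↥R := S.isPGroup'.to_le inf_le_left
      obtain ⟨V, hRV, hVC⟩ := CfsgLib.SylowConj.exists_sylow_between _ U hUC R hR inf_le_right
      have hDR : D ≤ R := le_inf inf_le_left (hDU.trans hUC)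
      refine step V (hDR.trans hRV) hVC fun hVS heq => ?_
      have hRD : R ≤ D := heq.symm ▸ le_inf inf_le_left hRV
      have hDS : D.subgroupOf (S : Subgroup G) < ⊤ := by
        rw [lt_top_iff_ne_top, Ne, Subgroup.subgroupOf_eq_top]
        intro h
        exact hne (Sylow.ext (Subgroup.eq_of_le_of_card_ge (h.trans inf_le_right)
          (by rw [Sylow.card_eq_multiplicity, Sylow.card_eq_multiplicity])))
      obtain ⟨x, hx, hxD⟩ := SetLike.exists_of_lt
        (Group.normalizerCondition_of_isNilpotent (h := S.isPGroup'.isNilpotent) _ hDS)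
      have hxN : (x : G) ∈ Subgroup.normalizer (D : Set G) := by
        rw [Subgroup.mem_normalizer_iff]
        intro d
        by_cases hd : d ∈ (S : Subgroup G)
        · exact Subgroup.mem_normalizer_iff.1 hx ⟨d, hd⟩
        · refine ⟨fun h => absurd (inf_le_left (b := (T : Subgroup G)) h) hd, fun h => absurd ?_ hd⟩
          simpa [mul_assoc] using mul_mem (mul_mem (inv_mem x.2) (inf_le_left (b := (T : Subgroup G)) h)) x.2
      have hCN : Subgroup.centralizer (D : Set G) ≤ Subgroup.normalizer (D : Set G) := Subgroup.centralizer_le_normalizer _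
      have hxS : IsPGroup 2 ↥(Subgroup.zpowers (x : G)) := S.isPGroup'.to_le (Subgroup.zpowers_le.2 x.2)
      obtain ⟨h, hh, hc⟩ := CfsgLib.SylowConj.exists_conj_mem _ U (hUC.trans hCN) _ hxS (Subgroup.zpowers_le.2 hxN)
      have hxC : (x : G) ∈ Subgroup.centralizer (D : Set G) := by
        have h1 := hUC (hc _ (Subgroup.mem_zpowers _))
        rw [Subgroup.mem_centralizer_iff] at h1 ⊢
        intro d hd
        have := h1 _ ((Subgroup.mem_normalizer_iff.1 hh d).1 hd)
        exact mul_left_cancel (mul_right_cancel (b := h⁻¹) (a := h * (d * (x:G))) (c := h * ((x:G) * d))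
          (by simpa [mul_assoc] using this))
      exact hxD (hRD ⟨x.2, hxC⟩)
  have hcent : ∀ S T : Sylow 2 G, S ≠ T →
      (S : Subgroup G) ⊓ (T : Subgroup G) ≤ (Subgroup.center ↥(S : Subgroup G)).map (S : Subgroup G).subtype :=
    fun S T h => main (Nat.card G) S T h (by omega)
  refine ⟨fun x hx P hP hPC => ?_, fun T hT => le_inf (hcent S T hT.symm) (inf_comm (S : Subgroup G) T ▸ hcent T S hT)⟩
  set C := Subgroup.centralizer ({x} : Set G)
  have hQ : IsPGroup 2 ↥((S : Subgroup G) ⊓ C) := S.isPGroup'.to_le inf_le_left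
  obtain ⟨W, hW⟩ := (hQ.comap_of_injective C.subtype C.subtype_injective).exists_le_sylow
  obtain ⟨T, hT⟩ := (W.isPGroup'.map C.subtype).exists_le_sylow
  by_cases hTS : S = T
  · subst hTS
    obtain ⟨P', hP'⟩ := (hP.comap_of_injective C.subtype C.subtype_injective).exists_le_sylow
    calc Nat.card ↥P = Nat.card ↥(P.subgroupOf C) := (Nat.card_congr (Subgroup.subgroupOfEquivOfLe hPC).toEquiv).symm
      _ ≤ Nat.card ↥(P' : Subgroup C) := Subgroup.card_le_of_le hP'
      _ = Nat.card ↥(W : Subgroup C) := by rw [Sylow.card_eq_multiplicity, Sylow.card_eq_multiplicity]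
      _ = Nat.card ↥((W : Subgroup C).map C.subtype) := (Subgroup.card_map_of_injective C.subtype_injective).symm
      _ ≤ _ := Subgroup.card_le_of_le (le_inf hT (Subgroup.map_subtype_le _))
  · have hle : (S : Subgroup G) ⊓ C ≤ (S : Subgroup G) ⊓ (T : Subgroup G) := fun y hy =>
      ⟨hy.1, hT ⟨⟨y, hy.2⟩, hW (Subgroup.mem_comap.2 hy), rfl⟩⟩
    have hxZ := hle.trans (hcent S T hTS) (show x ∈ (S : Subgroup G) ⊓ C from
      ⟨hx, Subgroup.mem_centralizer_singleton_iff.2 rfl⟩)
    obtain ⟨v, hv, hvx⟩ := hxZ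
    have hSC : (S : Subgroup G) ≤ C := fun y hy => Subgroup.mem_centralizer_singleton_iff.2 (by
      rw [← hvx]; exact congrArg Subtype.val (Subgroup.mem_center_iff.1 hv ⟨y, hy⟩))
    rw [inf_eq_left.2 hSC]
    obtain ⟨P', hP'⟩ := hP.exists_le_sylow
    exact (Subgroup.card_le_of_le hP').trans (by rw [Sylow.card_eq_multiplicity, Sylow.card_eq_multiplicity])

end Cfsg.Agent.S3183
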