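import Cfsg.Statements.S3184
import Cfsg.Agent.ZStar.Main
import Cfsg.Agent.S3183
-- import your own Cfsg.Agent.* helpers here

set_option autoImplicit false
open Cfsg

namespace Cfsg.Agent.S3184

/-- Let G be a finite group in which the intersection of any two distinct Sylow 2-subgroups is contained in the centre of some Sylow 2-subgroup, and let S be a Sylow 2-subgroup. If C is a nontrivial cyclic characteristic subgroup of S, then the involution of C is central modulo the largest normal subgroup of odd order of G: each of its conjugates has the same image in G/O(G). -/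
theorem result {G : Type*} [Group G] [Finite G]
    (hCI : ∀ S T : Sylow 2 G, S ≠ T → ∃ U : Sylow 2 G,
      (S : Subgroup G) ⊓ (T : Subgroup G) ≤ (Subgroup.center ↥(U : Subgroup G)).map (U : Subgroup G).subtype)
    (S : Sylow 2 G) (C : Subgroup ↥(S : Subgroup G)) (hC : C ≠ ⊥) (hCc : IsCyclic ↥C) (hCh : C.Characteristic)
    (c : ↥(S : Subgroup G)) (hc : c ∈ C) (hc2 : orderOf c = 2) :
    ∀ g : G, (QuotientGroup.mk (s := Cfsg.oddCore G) (g * (c : G) * g⁻¹)) =
      QuotientGroup.mk (s := Cfsg.oddCore G) (c : G) := by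
  classical
  haveI := Fact.mk Nat.prime_two
  haveI : (Cfsg.pPrimeCore 2 G).Normal := Cfsg.pPrimeCore_normal 2 G
  haveI := hCc
  have huniq : ∀ x ∈ C, orderOf x = 2 → x = c := by
    intro x hx hx2
    haveI : Fintype C := Fintype.ofFinite C
    have hdvd : 2 ∣ Fintype.card C := by
      have h2 := orderOf_dvd_natCard (⟨c, hc⟩ : C)
      rwa [Subgroup.orderOf_mk, hc2, Nat.card_eq_fintype_card] at h2
    have h := IsCyclic.card_orderOf_eq_totient (α := C) hdvd
    rw [Nat.totient_two] at h
    have := Finset.card_le_one.1 h.le ⟨x, hx⟩ (by simp [Subgroup.orderOf_mk, hx2]) ⟨c, hc⟩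
      (by simp [Subgroup.orderOf_mk, hc2])
    exact congrArg Subtype.val this
  have haut : ∀ φ : ↥(S : Subgroup G) ≃* ↥(S : Subgroup G), φ c = c := fun φ => huniq _
    (by
      have h := (hCh.fixed φ).ge hc
      exact h) (by rw [MulEquiv.orderOf_eq]; exact hc2)
  have hnor : ∀ n ∈ Subgroup.normalizer ((S : Subgroup G) : Set G), n * (c : G) * n⁻¹ = c := by
    intro n hn
    let φ : ↥(S : Subgroup G) ≃* ↥(S : Subgroup G) :=
      { toFun := fun s => ⟨n * s * n⁻¹, (Subgroup.mem_normalizer_iff.1 hn _).1 s.2⟩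
        invFun := fun s => ⟨n⁻¹ * s * n, (Subgroup.mem_normalizer_iff''.1 hn _).1 s.2⟩
        left_inv := fun s => Subtype.ext (by show n⁻¹ * (n * s * n⁻¹) * n = s; group)
        right_inv := fun s => Subtype.ext (by show n * (n⁻¹ * s * n) * n⁻¹ = s; group)
        map_mul' := fun s t => Subtype.ext (by
          show n * ((s : G) * t) * n⁻¹ = n * s * n⁻¹ * (n * t * n⁻¹); group) }
    exact congrArg Subtype.val (haut φ)
  have hcen : (c : G) ∈ Subgroup.centralizer ((S : Subgroup G) : Set G) := by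
    rw [Subgroup.mem_centralizer_iff]
    intro s hs
    exact mul_inv_eq_iff_eq_mul.1 (hnor s (Subgroup.le_normalizer hs))
  have hc2' : orderOf (c : G) = 2 := by rw [Subgroup.orderOf_coe]; exact hc2
  have hiso := CfsgLib.ZStar.isolated_of_sylow S hc2' c.2 fun g hg => by
    set y := g * (c : G) * g⁻¹ with hy
    have hyC : g⁻¹⁻¹ * (c : G) * g⁻¹ ∈ Subgroup.centralizer ((S : Subgroup G) : Set G) := by
      rw [inv_inv]
      by_cases hT : g • S = S
      · have hn : g ∈ Subgroup.normalizer ((S : Subgroup G) : Set G) := Sylow.smul_eq_iff_mem_normalizer.1 hT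
        rw [hnor g hn]; exact hcen
      · have hmem : g * (c : G) * g⁻¹ ∈ (g • S : Sylow 2 G) :=
          Subgroup.smul_mem_pointwise_smul _ (MulAut.conj g) _ c.2
        have h := ((Cfsg.Agent.S3183.result hCI S).2 (g • S) hT ⟨hg, hmem⟩).1
        obtain ⟨v, hv, hvy⟩ := h
        rw [Subgroup.mem_centralizer_iff]
        intro s hs
        have hvy' : (v : G) = g * (c : G) * g⁻¹ := hvy
        rw [← hvy']
        exact congrArg Subtype.val (Subgroup.mem_center_iff.1 hv ⟨s, hs⟩)
    obtain ⟨n, hn, hny⟩ := S.conj_eq_normalizer_conj_of_mem_centralizer (c : G) g⁻¹ hcen hyC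
    rw [inv_inv] at hny
    rw [hy, hny]
    have h := hnor n⁻¹ (inv_mem hn)
    rwa [inv_inv] at h
  intro g
  have h := CfsgLib.ZStar.zstar_center hiso
  show ((g * (c : G) * g⁻¹ : G) : G ⧸ Cfsg.pPrimeCore 2 G) = ((c : G) : G ⧸ Cfsg.pPrimeCore 2 G)
  rw [QuotientGroup.mk_mul, QuotientGroup.mk_mul, QuotientGroup.mk_inv, Subgroup.mem_center_iff.1 h _,
    mul_inv_cancel_right]

end Cfsg.Agent.S3184
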