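import Cfsg.Statements.S3190
import Mathlib.GroupTheory.PGroup
import Mathlib.GroupTheory.SpecificGroups.KleinFour
import Mathlib.Tactic.Group

set_option autoImplicit false
open Cfsg

namespace Cfsg.Agent.S3190

/-- Let p be an odd prime and, inside a finite group, let P be a p-subgroup normalized by a Klein four-group T. Let R be a subgroup of P, normal in P and normalized by T, such that P is the product of R with the centralizer of T in P. If T centralizes the centre of P, then T centralizes the centre of R. -/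
theorem result {X : Type*} [Group X] [Finite X]
    {p : ℕ} (hp : p.Prime) (hodd : Odd p) (P T R : Subgroup X) (hP : IsPGroup p ↥P) (hT : IsKleinFour ↥T)
    (hTP : T ≤ Subgroup.normalizer (P : Set X)) (hRP : R ≤ P) (hRn : (R.subgroupOf P).Normal)
    (hTR : T ≤ Subgroup.normalizer (R : Set X)) (hfac : R ⊔ (P ⊓ Subgroup.centralizer (T : Set X)) = P)
    (hZ : T ≤ Subgroup.centralizer (((Subgroup.center ↥P).map P.subtype : Subgroup X) : Set X)) :
    T ≤ Subgroup.centralizer (((Subgroup.center ↥R).map R.subtype : Subgroup X) : Set X) := by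
  have : Fact p.Prime := ⟨hp⟩
  set ZR := (Subgroup.center ↥R).map R.subtype
  have hZmem : ∀ w, w ∈ ZR ↔ w ∈ R ∧ ∀ r ∈ R, r * w = w * r := by
    intro w
    constructor
    · rintro ⟨v, hv, rfl⟩
      exact ⟨v.2, fun r hr => congrArg Subtype.val (Subgroup.mem_center_iff.1 hv ⟨r, hr⟩)⟩
    · rintro ⟨hw, h⟩
      exact ⟨⟨w, hw⟩, Subgroup.mem_center_iff.2 fun r => Subtype.ext (h r r.2), rfl⟩
  intro t ht
  rw [Subgroup.mem_centralizer_iff]
  intro w hw
  have ht2 : t * t = 1 := congrArg Subtype.val (IsKleinFour.mul_self (⟨t, ht⟩ : T))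
  have htR : ∀ r, r ∈ R ↔ t * r * t⁻¹ ∈ R := fun r => Subgroup.mem_normalizer_iff.1 (hTR ht) r
  have htti : t⁻¹ = t := inv_eq_of_mul_eq_one_left ht2
  have hback : ∀ r, t * (t * r * t⁻¹) * t⁻¹ = r := by
    intro r
    simp only [htti, mul_assoc, ht2, mul_one]
    simp only [← mul_assoc, ht2, one_mul]
  have htZ : ∀ w ∈ ZR, t * w * t⁻¹ ∈ ZR := by
    intro w hw
    obtain ⟨h1, h2⟩ := (hZmem w).1 hw
    refine (hZmem _).2 ⟨(htR w).1 h1, fun r hr => ?_⟩
    have := h2 _ ((htR r).1 hr)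
    have h3 := congrArg (fun a => t * a * t⁻¹) this
    simp only [← conj_mul, hback] at h3
    exact h3
  let φ : ZR →* ZR := MonoidHom.mk' (fun a => a⁻¹ * ⟨_, htZ a a.2⟩) fun a b => by
    apply Subtype.ext
    have hR1 := (hZmem _).1 (inv_mem b.2)
    have e1 := hR1.2 _ ((hZmem _).1 (inv_mem a.2)).1
    have e2 := hR1.2 _ ((hZmem _).1 (htZ a a.2)).1
    show ((a : X) * b)⁻¹ * (t * (a * b) * t⁻¹) = (a:X)⁻¹ * (t * a * t⁻¹) * ((b:X)⁻¹ * (t * b * t⁻¹))
    rw [mul_inv_rev, ← e1, ← conj_mul]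
    exact Commute.mul_mul_mul_comm e2.symm _ _
  set V := φ.range.map ZR.subtype
  have hVR : ∀ v ∈ V, v ∈ ZR := by rintro _ ⟨v, _, rfl⟩; exact v.2
  have hVinv : ∀ v ∈ V, t * v * t⁻¹ = v⁻¹ := by
    rintro _ ⟨_, ⟨a, rfl⟩, rfl⟩
    show t * ((a:X)⁻¹ * (t * a * t⁻¹)) * t⁻¹ = ((a:X)⁻¹ * (t * a * t⁻¹))⁻¹
    rw [← conj_mul, hback, mul_inv_rev, inv_inv, ← conj_inv]
  have hPle : P ≤ Subgroup.normalizer (V : Set X) := by
    rw [← hfac]
    have hsub : ∀ S : Subgroup X, (∀ c ∈ S, ∀ v ∈ V, c * v * c⁻¹ ∈ V) → S ≤ Subgroup.normalizer (V : Set X) := by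
      intro S hS c hc
      refine Subgroup.mem_normalizer_iff.2 fun v => ⟨hS c hc v, fun h => ?_⟩
      simpa [mul_assoc] using hS c⁻¹ (inv_mem hc) _ h
    refine sup_le (hsub R fun c hc v hv => ?_) (hsub _ fun c hc v hv => ?_)
    · rw [((hZmem v).1 (hVR v hv)).2 c hc, mul_inv_cancel_right]; exact hv
    · obtain ⟨_, ⟨a, rfl⟩, rfl⟩ := hv
      obtain ⟨hcP, hcT⟩ := hc
      have hct : Commute t c := Subgroup.mem_centralizer_iff.1 hcT t ht
      have hc1 : ∀ r, r ∈ R → c * r * c⁻¹ ∈ R := fun r hr =>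
        hRn.conj_mem ⟨r, hRP hr⟩ hr ⟨c, hcP⟩
      have hc1' : ∀ r, r ∈ R → c⁻¹ * r * c ∈ R := fun r hr => by
        have := hRn.conj_mem ⟨r, hRP hr⟩ hr ⟨c⁻¹, inv_mem hcP⟩
        simpa [Subgroup.mem_subgroupOf] using this
      have hcZ : c * (a:X) * c⁻¹ ∈ ZR := by
        obtain ⟨h1, h2⟩ := (hZmem a).1 a.2
        refine (hZmem _).2 ⟨hc1 _ h1, fun r hr => ?_⟩
        have := congrArg (fun z => c * z * c⁻¹) (h2 _ (hc1' r hr))
        simpa [mul_assoc] using this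
      refine ⟨φ ⟨_, hcZ⟩, ⟨_, rfl⟩, ?_⟩
      show (c * a * c⁻¹)⁻¹ * (t * (c * a * c⁻¹) * t⁻¹) = c * ((a:X)⁻¹ * (t * a * t⁻¹)) * c⁻¹
      have e1 : t * (c * a * c⁻¹) * t⁻¹ = c * (t * a * t⁻¹) * c⁻¹ := by
        calc t * (c * a * c⁻¹) * t⁻¹ = (t * c) * a * (c⁻¹ * t⁻¹) := by simp only [mul_assoc]
          _ = (c * t) * a * (t⁻¹ * c⁻¹) := by rw [hct.eq, hct.inv_inv.symm.eq]
          _ = _ := by simp only [mul_assoc]
      rw [e1, conj_inv, conj_mul]
  have hVP : V ≤ P := fun v hv => hRP ((hZmem v).1 (hVR v hv)).1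
  have hVbot : V = ⊥ := by
    by_contra hne
    let W := V.subgroupOf P
    have hW : W.Normal := Subgroup.normal_subgroupOf_of_le_normalizer hPle
    have hWne : W ≠ ⊥ := by
      rw [Ne, Subgroup.subgroupOf_eq_bot, disjoint_iff, inf_of_le_left hVP]; exact hne
    let act : MulAction P W := MulAction.compHom W (MulAut.conjNormal (H := W))
    obtain ⟨n, hn⟩ := IsPGroup.iff_card.1 (hP.to_subgroup W)
    have hn0 : n ≠ 0 := by
      rintro rfl
      exact hWne ((Subgroup.card_eq_one).1 (by simpa using hn))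
    have h1fix : (1 : W) ∈ MulAction.fixedPoints P W := fun g => map_one (MulAut.conjNormal g)
    obtain ⟨b, hb, hb1⟩ := hP.exists_fixed_point_of_prime_dvd_card_of_fixed_point W
      (hn.symm ▸ dvd_pow_self p hn0) h1fix
    have hbV : ((b : P) : X) ∈ V := b.2
    have hbZ : ((b : P) : X) ∈ (Subgroup.center ↥P).map P.subtype := by
      refine ⟨(b : P), Subgroup.mem_center_iff.2 fun g => ?_, rfl⟩
      have h1 : MulAut.conjNormal g b = b := hb g
      have := congrArg Subtype.val h1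
      rw [MulAut.conjNormal_apply] at this
      exact mul_inv_eq_iff_eq_mul.1 this
    have h1 := Subgroup.mem_centralizer_iff.1 (hZ ht) _ hbZ
    have h2 := hVinv _ hbV
    rw [← h1, mul_inv_cancel_right, eq_inv_iff_mul_eq_one, ← pow_two] at h2
    have hb2 : (b : W) ^ 2 = 1 := Subtype.ext (Subtype.ext h2)
    have hcop : (Nat.card W).Coprime 2 := by
      rw [hn]; exact ((Nat.coprime_two_right).2 hodd).pow_left n
    exact hb1 (Nat.Coprime.pow_left_bijective hcop |>.1 (show (1:W) ^ 2 = b ^ 2 by rw [hb2, one_pow]))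
  have h1 : ((φ ⟨w, hw⟩ : ZR) : X) ∈ V := ⟨_, ⟨_, rfl⟩, rfl⟩
  rw [hVbot, Subgroup.mem_bot] at h1
  change w⁻¹ * (t * w * t⁻¹) = 1 at h1
  rw [inv_mul_eq_one] at h1
  calc w * t = t * w * t⁻¹ * t := by rw [← h1]
    _ = t * w := by simp

end Cfsg.Agent.S3190
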