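import Cfsg.Statements.S3195
import Cfsg.Agent.Subnormal.BaerSuzuki

set_option autoImplicit false
open Cfsg

namespace Cfsg.Agent.S3195

variable {G : Type*} [Group G]

theorem zpow_form {a r : G} (h : a * r * a = r⁻¹) (ha : a * a = 1) (k : ℤ) : a * r ^ k * a = r ^ (-k) := by
  have hi : a⁻¹ = a := inv_eq_of_mul_eq_one_right ha
  have : (a * r * a⁻¹) ^ k = a * r ^ k * a⁻¹ := conj_zpow
  rw [hi, h, inv_zpow, ← zpow_neg] at this
  exact this.symm

/-- two involutions with product of 2-power order generate a 2-group. -/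
theorem isPGroup_pair {a b : G} (ha : a * a = 1) (hb : b * b = 1) {k : ℕ} (hk : (a * b) ^ 2 ^ k = 1) :
    IsPGroup 2 ↥(Subgroup.closure ({a, b} : Set G)) := by
  have hr : a * (a * b) * a = (a * b)⁻¹ := by
    rw [mul_inv_rev, inv_eq_of_mul_eq_one_right ha, inv_eq_of_mul_eq_one_right hb, ← mul_assoc a a b, ha, one_mul]
  let D : Subgroup G :=
    { carrier := {w | ∃ i : ℤ, w = (a * b) ^ i ∨ w = a * (a * b) ^ i}
      one_mem' := ⟨0, Or.inl (by simp)⟩
      mul_mem' := by
        rintro _ _ ⟨i, rfl | rfl⟩ ⟨j, rfl | rfl⟩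
        · exact ⟨i + j, Or.inl (zpow_add _ _ _).symm⟩
        · refine ⟨-i + j, Or.inr ?_⟩
          rw [zpow_add, ← zpow_form hr ha i]
          simp only [← mul_assoc, ha, one_mul]
        · exact ⟨i + j, Or.inr (by rw [zpow_add, mul_assoc])⟩
        · refine ⟨-i + j, Or.inl ?_⟩
          rw [zpow_add, ← zpow_form hr ha i]
          simp only [← mul_assoc]
      inv_mem' := by
        rintro _ ⟨i, rfl | rfl⟩
        · exact ⟨-i, Or.inl (zpow_neg _ _).symm⟩
        · refine ⟨i, Or.inr ?_⟩
          rw [mul_inv_rev, inv_eq_of_mul_eq_one_right ha, ← zpow_neg, ← zpow_form hr ha i]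
          simp only [mul_assoc, ha, mul_one] }
  have hle : Subgroup.closure ({a, b} : Set G) ≤ D := by
    rw [Subgroup.closure_le]
    rintro w (rfl | rfl)
    · exact ⟨0, Or.inr (by simp)⟩
    · exact ⟨1, Or.inr (by rw [zpow_one, ← mul_assoc, ha, one_mul])⟩
  rintro ⟨w, hw⟩
  refine ⟨k + 1, Subtype.ext ?_⟩
  show w ^ 2 ^ (k + 1) = 1
  obtain ⟨i, rfl | rfl⟩ := hle hw
  · rw [pow_succ, pow_mul, show ((a * b) ^ i) ^ 2 ^ k = ((a * b) ^ 2 ^ k) ^ i by
        rw [← zpow_natCast, ← zpow_mul, mul_comm, zpow_mul, zpow_natCast], hk, one_zpow, one_pow]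
  · have h2 : (a * (a * b) ^ i) * (a * (a * b) ^ i) = 1 := by
      rw [← mul_assoc, zpow_form hr ha i, zpow_neg, inv_mul_cancel]
    rw [pow_succ', pow_mul, pow_two, h2, one_pow]

/-- an involution outside `O₂(G)` gives an element of odd order inverted by it and centralized by
another involution of `A`. -/
theorem exists_pattern [Finite G] (A : Subgroup G) (hsq : ∀ a ∈ A, a * a = 1)
    (h : ∀ a ∈ A, a ≠ 1 → ∀ g : G, A ⊓ Subgroup.centralizer ({g * a * g⁻¹} : Set G) ≠ ⊥)
    {a : G} (ha : a ∈ A) (ha1 : a ≠ 1) (hO : a ∉ Cfsg.pCore 2 G) :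
    ∃ x c : G, x ≠ 1 ∧ Odd (orderOf x) ∧ a * x * a = x⁻¹ ∧ c ∈ A ∧ c ≠ 1 ∧ c ≠ a ∧ c * x * c = x := by
  haveI : Fact (Nat.Prime 2) := ⟨Nat.prime_two⟩
  obtain ⟨g, hg⟩ : ∃ g : G, ¬ IsPGroup 2 ↥(Subgroup.closure ({a, g * a * g⁻¹} : Set G)) := by
    by_contra hcon
    push Not at hcon
    exact hO (CfsgLib.Subnormal.mem_pCore_of_forall_isPGroup hcon)
  set b := g * a * g⁻¹ with hb
  have haa := hsq a ha
  have hbb : b * b = 1 := by
    have e : b * b = g * (a * a) * g⁻¹ := by rw [hb]; group
    rw [e, haa]; group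
  obtain ⟨v, m, hm, hvm⟩ := Nat.exists_eq_two_pow_mul_odd (n := orderOf (a * b)) (orderOf_pos _).ne'
  have hm1 : m ≠ 1 := fun e => hg (isPGroup_pair haa hbb (k := v) (orderOf_dvd_iff_pow_eq_one.mp (by
    rw [hvm, e, mul_one])))
  have hox : orderOf ((a * b) ^ 2 ^ v) = m := by
    rw [orderOf_pow' _ (pow_ne_zero _ two_ne_zero), hvm, Nat.gcd_eq_right (dvd_mul_right _ _),
      Nat.mul_div_cancel_left _ (pow_pos two_pos v)]
  obtain ⟨⟨c, hcA, hcC⟩, hc1⟩ := Subgroup.ne_bot_iff_exists_ne_one.mp (h a ha ha1 g)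
  have hc1' : c ≠ 1 := fun e => hc1 (Subtype.ext e)
  have hcb : c * b = b * c := Subgroup.mem_centralizer_singleton_iff.mp hcC
  have hca : c * a = a * c := by
    have h1 := hsq (c * a) (A.mul_mem hcA ha)
    rw [eq_inv_of_mul_eq_one_left h1, mul_inv_rev, inv_eq_of_mul_eq_one_right haa,
      inv_eq_of_mul_eq_one_right (hsq c hcA)]
  refine ⟨(a * b) ^ 2 ^ v, c, ?_, hox ▸ hm, ?_, hcA, hc1', ?_, ?_⟩
  · intro e
    rw [e, orderOf_one] at hox
    exact hm1 hox.symm
  · have hr : a * (a * b) * a = (a * b)⁻¹ := by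
      rw [mul_inv_rev, inv_eq_of_mul_eq_one_right haa, inv_eq_of_mul_eq_one_right hbb, ← mul_assoc a a b,
        haa, one_mul]
    rw [← zpow_natCast, zpow_form hr haa, zpow_neg]
  · intro e
    subst e
    have h2 : (c * b) ^ 2 = 1 := by
      rw [pow_two, mul_assoc, ← mul_assoc b c b, ← hcb, mul_assoc c b b, hbb, mul_one, haa]
    have hd := orderOf_dvd_of_pow_eq_one h2
    rw [hvm] at hd
    rcases (Nat.dvd_prime Nat.prime_two).mp (dvd_trans (dvd_mul_left m _) hd) with e | e
    · exact hm1 e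
    · rw [e] at hm
      exact Nat.not_odd_iff_even.mpr even_two hm
  · have hcomm : Commute c (a * b) := Commute.mul_right hca hcb
    rw [(hcomm.pow_right _).eq, mul_assoc, hsq c hcA, mul_one]

theorem eq_one_of_sq {w : G} (hw : Odd (orderOf w)) (h2 : w * w = 1) : w = 1 := by
  rcases (Nat.dvd_prime Nat.prime_two).mp (orderOf_dvd_of_pow_eq_one (show w ^ 2 = 1 by rw [pow_two, h2]))
    with e | e
  · exact orderOf_eq_one_iff.mp e
  · rw [e] at hw
    exact absurd hw (Nat.not_odd_iff_even.mpr even_two)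

theorem odd_sq {w : G} (hw : Odd (orderOf w)) : Odd (orderOf (w * w)) := by
  rw [← pow_two]
  exact hw.of_dvd_nat (orderOf_pow_dvd 2)

theorem eq_one_of_four {w : G} (hw : Odd (orderOf w)) (h4 : (w * w) * (w * w) = 1) : w = 1 :=
  eq_one_of_sq hw (eq_one_of_sq (odd_sq hw) h4)

theorem commute_of_sq {w v : G} (hw : Odd (orderOf w)) (h : Commute (w * w) v) : Commute w v := by
  obtain ⟨k, hk⟩ := hw
  have e : w = (w * w) ^ (k + 1) := by
    rw [← pow_two, ← pow_mul, show 2 * (k + 1) = orderOf w + 1 by omega, pow_succ, pow_orderOf_eq_one, one_mul]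
  rw [e]
  exact h.pow_left _

theorem eq_one_of_inverts {w v : G} (hw : Odd (orderOf w)) (hv : Odd (orderOf v))
    (h : w * v * w⁻¹ = v⁻¹) : v = 1 := by
  have hc : Commute (w * w) v := by
    show w * w * v = v * (w * w)
    calc w * w * v = w * (w * v * w⁻¹) * w := by group
      _ = w * v⁻¹ * w := by rw [h]
      _ = (w * v * w⁻¹)⁻¹ * (w * w) := by group
      _ = v * (w * w) := by rw [h, inv_inv]
  have := commute_of_sq hw hc
  rw [this.eq, mul_inv_cancel_right] at h
  exact eq_one_of_sq hv (mul_eq_one_iff_eq_inv.mpr h)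

theorem fix_of_commute {e t p : G} (he : e * e = 1) (het : e * t = t * e) (h : e * (p * t) = (p * t) * e) :
    e * p * e = p := by
  have h1 : e * p = p * e := by
    apply mul_right_cancel (b := t)
    calc e * p * t = e * (p * t) := mul_assoc _ _ _
      _ = p * (t * e) := by rw [h, mul_assoc]
      _ = p * e * t := by rw [← het, mul_assoc]
  rw [h1, mul_assoc, he, mul_one]

theorem conj_mul' {e : G} (he : e * e = 1) (p q : G) : e * (p * q) * e = (e * p * e) * (e * q * e) := by
  calc e * (p * q) * e = e * p * (e * e) * q * e := by rw [he]; group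
    _ = _ := by group

theorem comm_of_fix {e w : G} (he : e * e = 1) (hw : e * w * e = w) : Commute e w := by
  show e * w = w * e
  calc e * w = (e * w * e) * e := by rw [mul_assoc, he, mul_one]
    _ = w * e := by rw [hw]

theorem push_inv {e w : G} (he : e * e = 1) (hw : e * w * e = w⁻¹) : e * w = w⁻¹ * e := by
  rw [← hw, mul_assoc, he, mul_one]

theorem push_inv' {e w : G} (he : e * e = 1) (hw : e * w * e = w⁻¹) : e * w⁻¹ = w * e := by
  calc e * w⁻¹ = e * (e * w * e) := by rw [hw]
    _ = w * e := by rw [← mul_assoc, ← mul_assoc, he, one_mul]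

/-- the key contradiction. -/
theorem two_patterns [Finite G] {a c x y : G} (ha : a * a = 1) (hc : c * c = 1) (hac : a * c = c * a)
    (hx1 : x ≠ 1) (hy1 : y ≠ 1) (hx : Odd (orderOf x)) (hy : Odd (orderOf y))
    (hax : a * x * a = x⁻¹) (hcx : c * x * c = x) (hcy : c * y * c = y⁻¹) (hay : a * y * a = y)
    (hh : ∀ t ∈ ({c, a * c} : Set G), ∀ g : G,
      ∃ e ∈ ({a, c, a * c} : Set G), e * (g * t * g⁻¹) = (g * t * g⁻¹) * e) :
    False := by
  have cy : Commute a y := comm_of_fix ha hay
  have cx : Commute c x := comm_of_fix hc hcx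
  have cac : Commute a c := hac
  obtain ⟨d, hd⟩ : ∃ d, d = a * c := ⟨_, rfl⟩
  have hdd : d * d = 1 := by
    subst hd
    calc a * c * (a * c) = a * (c * a) * c := by group
      _ = (a * a) * (c * c) := by rw [← hac]; group
      _ = 1 := by rw [ha, hc, one_mul]
  have had : Commute a d := hd ▸ (Commute.refl a).mul_right cac
  have hcd : Commute c d := hd ▸ cac.symm.mul_right (Commute.refl c)
  have hdx : d * x * d = x⁻¹ := by
    subst hd
    calc a * c * x * (a * c) = a * (c * x) * (a * c) := by group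
      _ = a * x * (c * (a * c)) := by rw [cx.eq]; group
      _ = x⁻¹ := by rw [hac, ← mul_assoc c c a, hc, one_mul, hax]
  have hdy : d * y * d = y⁻¹ := by
    subst hd
    calc a * c * y * (a * c) = a * c * y * (c * a) := by rw [← hac]
      _ = a * (c * y * c) * a := by group
      _ = a * y⁻¹ * a := by rw [hcy]
      _ = y⁻¹ := by rw [(cy.inv_right).eq, mul_assoc, ha, mul_one]
  -- `x` and `y` commute
  have hxy : Commute x y := by
    obtain ⟨e, he, heq⟩ := hh c (Or.inl rfl) (x⁻¹ * y)
    have hg : x⁻¹ * y * c * (x⁻¹ * y)⁻¹ = x⁻¹ * (y * y * c) * x := by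
      calc x⁻¹ * y * c * (x⁻¹ * y)⁻¹ = x⁻¹ * y * (c * y⁻¹) * x := by group
        _ = x⁻¹ * y * (y * c) * x := by rw [push_inv' hc hcy]
        _ = _ := by group
    rw [hg] at heq
    have heq' : (x * e * x⁻¹) * (y * y * c) = (y * y * c) * (x * e * x⁻¹) := by
      calc (x * e * x⁻¹) * (y * y * c) = x * (e * (x⁻¹ * (y * y * c) * x)) * x⁻¹ := by group
        _ = x * ((x⁻¹ * (y * y * c) * x) * e) * x⁻¹ := by rw [heq]
        _ = (y * y * c) * (x * e * x⁻¹) := by group
    simp only [Set.mem_insert_iff, Set.mem_singleton_iff, ← hd] at he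
    rcases he with h | h | h <;> rw [h] at heq'
    · -- `e = a`
      have h1 : x * a * x⁻¹ = x * x * a := by rw [mul_assoc, push_inv' ha hax, ← mul_assoc]
      rw [h1] at heq'
      have e1 : x * x * a * (y * y * c) = x * x * (y * y) * d := by
        rw [hd]
        calc x * x * a * (y * y * c) = x * x * (a * (y * y)) * c := by group
          _ = _ := by rw [(cy.mul_right cy).eq]; group
      have e2 : y * y * c * (x * x * a) = y * y * (x * x) * d := by
        rw [hd, hac]
        calc y * y * c * (x * x * a) = y * y * (c * (x * x)) * a := by group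
          _ = _ := by rw [(cx.mul_right cx).eq]; group
      rw [e1, e2] at heq'
      have h2 : Commute (x * x) (y * y) := mul_right_cancel heq'
      exact (commute_of_sq hy (commute_of_sq hx h2).symm).symm
    · -- `e = c`
      exfalso
      have h1 : x * c * x⁻¹ = c := by rw [← cx.eq, mul_inv_cancel_right]
      rw [h1] at heq'
      have h2 := fix_of_commute hc rfl heq'
      rw [conj_mul' hc, hcy] at h2
      refine hy1 (eq_one_of_four hy ?_)
      nth_rewrite 1 [← h2]
      group
    · -- `e = d`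
      exfalso
      have h1 : x * d * x⁻¹ = x * x * d := by rw [mul_assoc, push_inv' hdd hdx, ← mul_assoc]
      rw [h1] at heq'
      have e1 : x * x * d * (y * y * c) = x * x * (y⁻¹ * y⁻¹) * (d * c) := by
        calc x * x * d * (y * y * c) = x * x * ((d * y) * y) * c := by group
          _ = x * x * (y⁻¹ * (d * y)) * c := by rw [push_inv hdd hdy, mul_assoc y⁻¹ d y, push_inv hdd hdy]
          _ = _ := by rw [push_inv hdd hdy]; group
      have e2 : y * y * c * (x * x * d) = y * y * (x * x) * (d * c) := by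
        calc y * y * c * (x * x * d) = y * y * (c * (x * x)) * d := by group
          _ = y * y * (x * x) * (c * d) := by rw [(cx.mul_right cx).eq]; group
          _ = _ := by rw [hcd.eq]
      rw [e1, e2] at heq'
      have h2 := mul_right_cancel heq'
      have h3 : (x * x) * (y * y) * (x * x)⁻¹ = (y * y)⁻¹ := by
        have : (x * x) * (y⁻¹ * y⁻¹) * (x * x)⁻¹ = y * y := by rw [h2]; group
        have := congrArg (·⁻¹) this
        rw [← this]
        simp only [mul_inv_rev, inv_inv, ← mul_assoc]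
      have h4 := eq_one_of_inverts (odd_sq hx) (odd_sq hy) h3
      exact hy1 (eq_one_of_sq hy h4)
  -- second conjugate
  have hu : Odd (orderOf (x * y)) :=
    (hx.mul hy).of_dvd_nat hxy.orderOf_mul_dvd_mul_orderOf
  obtain ⟨e, he, heq⟩ := hh (a * c) (Or.inr rfl) (x * y)
  rw [← hd] at heq
  have hg : x * y * d * (x * y)⁻¹ = (x * y) * (x * y) * d := by
    calc x * y * d * (x * y)⁻¹ = x * y * (d * y⁻¹) * x⁻¹ := by group
      _ = x * y * y * (d * x⁻¹) := by rw [push_inv' hdd hdy]; group
      _ = x * y * (y * x) * d := by rw [push_inv' hdd hdx]; group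
      _ = _ := by rw [← hxy.eq]
  rw [hg] at heq
  simp only [Set.mem_insert_iff, Set.mem_singleton_iff, ← hd] at he
  rcases he with h | h | h <;> rw [h] at heq
  · have h2 := fix_of_commute ha had heq
    rw [conj_mul' ha, conj_mul' ha, hax, hay] at h2
    have h3 : x⁻¹ * x⁻¹ = x * x := by
      apply mul_right_cancel (b := y * y)
      calc x⁻¹ * x⁻¹ * (y * y) = x⁻¹ * (x⁻¹ * y) * y := by group
        _ = x⁻¹ * (y * x⁻¹) * y := by rw [hxy.inv_left.eq]
        _ = x * y * (x * y) := by rw [← h2]; group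
        _ = x * (x * y) * y := by rw [mul_assoc x y, ← mul_assoc y x y, ← hxy.eq]; group
        _ = _ := by group
    refine hx1 (eq_one_of_four hx ?_)
    nth_rewrite 1 [← h3]
    group
  · have h2 := fix_of_commute hc hcd heq
    rw [conj_mul' hc, conj_mul' hc, hcx, hcy] at h2
    have h3 : y⁻¹ * y⁻¹ = y * y := by
      apply mul_left_cancel (a := x * x)
      calc x * x * (y⁻¹ * y⁻¹) = x * (x * y⁻¹) * y⁻¹ := by group
        _ = x * (y⁻¹ * x) * y⁻¹ := by rw [hxy.inv_right.eq]
        _ = x * y * (x * y) := by rw [← h2]; group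
        _ = x * (x * y) * y := by rw [mul_assoc x y, ← mul_assoc y x y, ← hxy.eq]; group
        _ = _ := by group
    refine hy1 (eq_one_of_four hy ?_)
    nth_rewrite 1 [← h3]
    group
  · have h2 := fix_of_commute hdd rfl heq
    rw [conj_mul' hdd, conj_mul' hdd, hdx, hdy] at h2
    have h3 : (x * y)⁻¹ * (x * y)⁻¹ = (x * y) * (x * y) := by
      have e : x⁻¹ * y⁻¹ = (x * y)⁻¹ := by rw [hxy.eq, mul_inv_rev]
      rw [e] at h2
      exact h2
    have h4 : x * y = 1 := by
      refine eq_one_of_four hu ?_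
      nth_rewrite 1 [← h3]
      group
    have h5 := congrArg (fun w => a * w * a) h4
    simp only [conj_mul' ha, hax, hay, mul_one, ha] at h5
    have h6 : x = x⁻¹ := mul_right_cancel (h4.trans h5.symm)
    exact hx1 (eq_one_of_sq hx (mul_eq_one_iff_eq_inv.mpr h6))

/-- Let A be a Klein four-subgroup of a finite group G. If every G-conjugate of every involution of A commutes with some involution of A (its centralizer meets A nontrivially), then A meets the largest normal 2-subgroup O₂(G) nontrivially. -/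
theorem result {G : Type*} [Group G] [Finite G]
    (A : Subgroup G) (hA : IsKleinFour ↥A)
    (h : ∀ a ∈ A, a ≠ 1 → ∀ g : G, A ⊓ Subgroup.centralizer ({g * a * g⁻¹} : Set G) ≠ ⊥) :
    A ⊓ Cfsg.pCore 2 G ≠ ⊥ := by
  intro hbot
  haveI := hA
  have hsq : ∀ a ∈ A, a * a = 1 := fun a ha => congrArg Subtype.val (IsKleinFour.mul_self (⟨a, ha⟩ : ↥A))
  have hO : ∀ a ∈ A, a ≠ 1 → a ∉ Cfsg.pCore 2 G := fun a ha ha1 hc =>
    ha1 (Subgroup.mem_bot.mp (hbot ▸ Subgroup.mem_inf.mpr ⟨ha, hc⟩))
  obtain ⟨a, ha, ha1⟩ : ∃ a ∈ A, a ≠ 1 := by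
    by_contra hcon
    push Not at hcon
    have hb : A = ⊥ := (Subgroup.eq_bot_iff_forall A).mpr hcon
    have h4 := hA.card_four
    rw [hb, Subgroup.card_bot] at h4
    omega
  obtain ⟨x, c, hx1, hx, hax, hc, hc1, hca, hcx⟩ := exists_pattern A hsq h ha ha1 (hO a ha ha1)
  have haa := hsq a ha
  have hcc := hsq c hc
  have hmem : ∀ e ∈ A, e ≠ 1 → e = a ∨ e = c ∨ e = a * c := by
    intro e he he1
    by_cases h1 : e = a
    · exact Or.inl h1
    by_cases h2 : e = c
    · exact Or.inr (Or.inl h2)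
    refine Or.inr (Or.inr ?_)
    have := IsKleinFour.eq_mul_of_ne_all (G := ↥A) (x := ⟨a, ha⟩) (y := ⟨c, hc⟩) (z := ⟨e, he⟩)
      (fun e' => ha1 (congrArg Subtype.val e')) (fun e' => hc1 (congrArg Subtype.val e'))
      (fun e' => hca (congrArg Subtype.val e').symm) (fun e' => he1 (congrArg Subtype.val e'))
      (fun e' => h1 (congrArg Subtype.val e')) (fun e' => h2 (congrArg Subtype.val e'))
    exact congrArg Subtype.val this
  have comm : ∀ u ∈ A, ∀ v ∈ A, u * v = v * u := by
    intro u hu v hv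
    have := eq_inv_of_mul_eq_one_left (hsq (u * v) (A.mul_mem hu hv))
    rw [mul_inv_rev, inv_eq_of_mul_eq_one_right (hsq u hu), inv_eq_of_mul_eq_one_right (hsq v hv)] at this
    exact this
  have hd : a * c ∈ A := A.mul_mem ha hc
  have hd1 : a * c ≠ 1 := fun e => hca (mul_left_cancel (e.trans haa.symm))
  -- the hypothesis in elementwise form, for any generating pair
  have hgen : ∀ u ∈ A, u ≠ 1 → ∀ g : G,
      ∃ e ∈ ({a, c, a * c} : Set G), e * (g * u * g⁻¹) = (g * u * g⁻¹) * e := by
    intro u hu hu1 g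
    obtain ⟨⟨e, heA, heC⟩, he1⟩ := Subgroup.ne_bot_iff_exists_ne_one.mp (h u hu hu1 g)
    refine ⟨e, ?_, Subgroup.mem_centralizer_singleton_iff.mp heC⟩
    simp only [Set.mem_insert_iff, Set.mem_singleton_iff]
    exact hmem e heA (fun e' => he1 (Subtype.ext e'))
  obtain ⟨y, f, hy1, hy, hcy, hf, hf1, hfc, hfy⟩ := exists_pattern A hsq h hc hc1 (hO c hc hc1)
  rcases hmem f hf hf1 with e | e | e
  · subst e
    refine two_patterns haa hcc (comm f ha c hc) hx1 hy1 hx hy hax hcx hcy hfy ?_
    intro t ht g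
    rcases ht with ht | ht <;> subst ht
    · exact hgen t hc hc1 g
    · exact hgen _ hd hd1 g
  · exact hfc e
  · subst e
    obtain ⟨w, f, hw1, hw, hdw, hf', hf1', hfd, hfw⟩ := exists_pattern A hsq h hd hd1 (hO _ hd hd1)
    have hdd := hsq _ hd
    rcases hmem f hf' hf1' with e | e | e
    · subst e
      -- `a` centralizes `w`, so `c` inverts it
      have hcw : c * w * c = w⁻¹ := by
        have cw := comm_of_fix haa hfw
        calc c * w * c = c * (f * w * f) * c := by rw [hfw]
          _ = (c * f) * w * (f * c) := by group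
          _ = (f * c) * w * (f * c) := by rw [comm c hc f ha]
          _ = w⁻¹ := hdw
      refine two_patterns haa hcc (comm f ha c hc) hx1 hw1 hx hw hax hcx hcw hfw ?_
      intro t ht g
      rcases ht with ht | ht <;> subst ht
      · exact hgen t hc hc1 g
      · exact hgen _ hd hd1 g
    · subst e
      have e3 : a * f * f = a := by rw [mul_assoc, hcc, mul_one]
      refine two_patterns (a := a * f) (c := f) hdd hcc (comm _ hd _ hc) hw1 hy1 hw hy hdw hfw hcy hfy ?_
      intro t ht g
      have hset : ({a * f, f, a * f * f} : Set G) = {a, f, a * f} := by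
        rw [e3, Set.insert_comm (a * f), Set.pair_comm (a * f) a, Set.insert_comm f a]
      rw [hset]
      rcases ht with ht | ht <;> subst ht
      · exact hgen t hc hc1 g
      · rw [e3]
        exact hgen a ha ha1 g
    · exact hfd e

end Cfsg.Agent.S3195
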