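import Cfsg.Statements.S3196


set_option autoImplicit false
open Cfsg

namespace Cfsg.Agent.S3196

theorem mem_sup_zpowers {G : Type*} [Group G] {x y : G} (hc : Commute x y) {g : G}
    (hg : g ∈ Subgroup.zpowers x ⊔ Subgroup.zpowers y) : ∃ i j : ℤ, g = x ^ i * y ^ j := by
  have hle : Subgroup.zpowers x ⊔ Subgroup.zpowers y ≤
      ((zpowersHom G x).noncommCoprod (zpowersHom G y) (fun a b => by simpa using hc.zpow_zpow a.toAdd b.toAdd)).range := by
    rw [MonoidHom.noncommCoprod_range, Subgroup.range_zpowersHom, Subgroup.range_zpowersHom]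
  obtain ⟨⟨a, b⟩, hab⟩ := hle hg
  exact ⟨a.toAdd, b.toAdd, hab.symm⟩

/-- The geometric core: a commuting-closed family of elements of order `p` has an element commuting with all. -/
theorem exists_radical {G : Type*} [Group G] {p : ℕ} (hp : p.Prime) (P : G → Prop)
    (hord : ∀ x, P x → orderOf x = p)
    (hpow : ∀ x, P x → ∀ i : ℤ, x ^ i ≠ 1 → P (x ^ i))
    (hconj : ∀ x, P x → ∀ g : G, P (g * x * g⁻¹))
    (ha : ∀ x y, P x → P y → Commute x y → y ∉ Subgroup.zpowers x → ∀ i j : ℤ, x ^ i * y ^ j ≠ 1 → P (x ^ i * y ^ j))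
    (hb : ∀ x y, P x → P y → Commute x y → y ∉ Subgroup.zpowers x → ∀ w, P w →
      ∃ i j : ℤ, x ^ i * y ^ j ≠ 1 ∧ Commute (x ^ i * y ^ j) w)
    (hex : ∃ x y, P x ∧ P y ∧ Commute x y ∧ y ∉ Subgroup.zpowers x) :
    ∃ v, P v ∧ ∀ w, P w → Commute v w := by
  by_contra hno
  push Not at hno
  have hgen : ∀ x, P x → ∀ i : ℤ, x ^ i ≠ 1 → x ∈ Subgroup.zpowers (x ^ i) := by
    intro x hx i hi
    haveI := Fact.mk hp
    exact mem_zpowers_of_prime_card (G := Subgroup.zpowers x) (p := p) (g' := ⟨x, Subgroup.mem_zpowers x⟩)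
      (g := ⟨x ^ i, ⟨i, rfl⟩⟩) (by rw [Nat.card_zpowers, hord x hx]) (fun h => hi (congrArg Subtype.val h)) |>
      fun ⟨k, hk⟩ => ⟨k, congrArg Subtype.val hk⟩
  have hroot : ∀ x, P x → ∀ i : ℤ, x ^ i ≠ 1 → ∀ w, Commute (x ^ i) w → Commute x w := by
    intro x hx i hi w hw
    obtain ⟨k, hk⟩ := hgen x hx i hi
    rw [← hk]; exact hw.zpow_left k
  have hne : ∀ x, P x → x ≠ 1 := fun x hx h => by
    have := hord x hx; rw [h, orderOf_one] at this; exact hp.ne_one this.symm
  have hind : ∀ x y w, P x → P y → Commute y w → ¬ Commute x w → x ∉ Subgroup.zpowers y := by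
    intro x y w _ _ hyw hxw hmem
    obtain ⟨k, hk⟩ := hmem
    exact hxw (hk ▸ hyw.zpow_left k)
  -- replace a point of a line by one on it commuting with `t`
  have hproj : ∀ x z t, P x → P z → P t → Commute x z → z ∉ Subgroup.zpowers x → ¬ Commute z t →
      ∃ b : ℤ, P (x * z ^ b) ∧ Commute (x * z ^ b) t := by
    intro x z t hx hz ht hxz hzi hzt
    obtain ⟨i, j, hne', hc⟩ := hb x z hx hz hxz hzi t ht
    by_cases hxi : x ^ i = 1
    · exfalso
      rw [hxi, one_mul] at hc hne'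
      exact hzt (hroot z hz j hne' t hc)
    obtain ⟨k, hk⟩ := hgen x hx i hxi
    have hk' : (x ^ i) ^ k = x := hk
    have h2 : (x ^ i * z ^ j) ^ k = x * z ^ (j * k) := by
      rw [(hxz.zpow_zpow i j).mul_zpow, hk', zpow_mul]
    refine ⟨j * k, ?_, h2 ▸ hc.zpow_left k⟩
    have := ha x z hx hz hxz hzi 1 (j * k)
    rw [zpow_one] at this
    refine this fun h => hzi ?_
    by_cases hz1 : z ^ (j * k) = 1
    · rw [hz1, mul_one] at h; exact absurd h (hne x hx)
    · obtain ⟨l, hl⟩ := hgen z hz _ hz1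
      refine ⟨-l, ?_⟩
      rw [← hl, eq_inv_of_mul_eq_one_right h]
      simp [zpow_neg]
  -- a quadrangle
  obtain ⟨u, w, z, z', hu, hw, hz, hz', huz, hwz, huz', hwz', huw, hzz'⟩ : ∃ u w z z', P u ∧ P w ∧ P z ∧ P z' ∧
      Commute u z ∧ Commute w z ∧ Commute u z' ∧ Commute w z' ∧ ¬ Commute u w ∧ ¬ Commute z z' := by
    obtain ⟨x, y, hx, hy, hxy, hyi⟩ := hex
    obtain ⟨t, ht, hxt⟩ := hno x hx
    obtain ⟨b, hPb, hcb⟩ := hproj y x t hy hx ht hxy.symm (fun ⟨k, hk⟩ => hyi (by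
      obtain ⟨l, hl⟩ := hgen y hy k (by rw [show y ^ k = x from hk]; exact hne x hx)
      exact ⟨l, by rw [← hl, show y ^ k = x from hk]⟩)) hxt
    set z := y * x ^ b with hzdef
    have hxz : Commute x z := hxy.mul_right ((Commute.refl x).zpow_right b)
    obtain ⟨s, hs, hzs⟩ := hno z hPb
    have htz : z ∉ Subgroup.zpowers t := fun ⟨k, hk⟩ => hxt (by
      have h1 : Commute x (t ^ k) := by rw [show t ^ k = z from hk]; exact hxz
      have hk1 : t ^ k ≠ 1 := by rw [show t ^ k = z from hk]; exact hne z hPb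
      exact (hroot t ht k hk1 x h1.symm).symm)
    obtain ⟨a₁, hP1, hc1⟩ := hproj x z s hx hPb hs hxz (fun ⟨k, hk⟩ => hxt (by
      have hk1 : x ^ k ≠ 1 := by rw [show x ^ k = z from hk]; exact hne z hPb
      exact hroot x hx k hk1 t (by rw [show x ^ k = z from hk]; exact hcb))) hzs
    obtain ⟨a₂, hP2, hc2⟩ := hproj t z s ht hPb hs hcb.symm htz hzs
    refine ⟨x * z ^ a₁, t * z ^ a₂, z, s, hP1, hP2, hPb, hs, hxz.mul_left ((Commute.refl z).zpow_left _),
      hcb.symm.mul_left ((Commute.refl z).zpow_left _), hc1, hc2, fun h => hxt ?_, hzs⟩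
    have hzx : Commute (z ^ a₁) (t * z ^ a₂) :=
      (hcb.zpow_left a₁).mul_right ((Commute.refl z).zpow_zpow a₁ a₂)
    have h3 : Commute x (t * z ^ a₂) := by
      have := h.mul_left hzx.inv_left
      rwa [mul_inv_cancel_right] at this
    have h4 := h3.mul_right (hxz.zpow_right a₂).inv_right
    rwa [mul_inv_cancel_right] at h4
  -- the point `z u` projected on the line through `w` and `z'`
  have hzu : P (z * u) := by
    have := ha z u hz hu huz.symm (hind u z w hu hz hwz.symm huw) 1 1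
    rw [zpow_one, zpow_one] at this
    exact this fun h => huw (by rw [eq_inv_of_mul_eq_one_right h]; exact hwz.symm.inv_left)
  obtain ⟨i, j, hij, hm⟩ := hb w z' hw hz' hwz' (hind z' w z hz' hw hwz (fun h => hzz' h.symm)) (z * u) hzu
  set a := w ^ i with hadef
  set b := z' ^ j with hbdef
  have hau : a * u * a⁻¹ * u⁻¹ = (b * z * b⁻¹)⁻¹ * z := by
    have hza : Commute z a := (hwz.zpow_left i).symm
    have hub : Commute u b := huz'.zpow_right j
    have hab : Commute a b := hwz'.zpow_zpow i j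
    have hzb' : Commute a (b * z * b⁻¹) := (hab.mul_right hza.symm).mul_right hab.inv_right
    have h1 : (b * z * b⁻¹) * (a * u * a⁻¹) = z * u := by
      calc (b * z * b⁻¹) * (a * u * a⁻¹) = ((b * z * b⁻¹) * a) * u * a⁻¹ := by group
        _ = (a * (b * z * b⁻¹)) * u * a⁻¹ := by rw [hzb'.eq]
        _ = a * b * z * (b⁻¹ * u) * a⁻¹ := by group
        _ = a * b * z * (u * b⁻¹) * a⁻¹ := by rw [hub.inv_right.eq]
        _ = (a * b) * (z * u) * (a * b)⁻¹ := by group
        _ = z * u := by rw [hm.eq]; group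
    have h2 : a * u * a⁻¹ = (b * z * b⁻¹)⁻¹ * (z * u) := eq_inv_mul_of_mul_eq h1
    rw [h2]; group
  set c := a * u * a⁻¹ * u⁻¹ with hcdef
  -- `c` commutes with `u` and `a`
  have hcu : Commute c u := by
    rw [hau]
    exact (((huz'.zpow_right j).mul_right huz).mul_right (huz'.zpow_right j).inv_right).inv_right.mul_right huz |>.symm
  have hca : Commute c a := by
    rw [hau]
    have hab : Commute a b := hwz'.zpow_zpow i j
    have hza : Commute a z := hwz.zpow_left i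
    exact ((((hab.mul_right hza).mul_right hab.inv_right).inv_right).mul_right hza).symm
  have hc1 : c ≠ 1 := by
    intro h
    have ha1 : Commute a u := by
      show a * u = u * a
      rw [hcdef, mul_inv_eq_one, mul_inv_eq_iff_eq_mul] at h
      exact h
    have hai : a = 1 := by
      by_contra ha1'
      exact huw (hroot w hw i ha1' u ha1).symm
    rw [hai, one_mul] at hm
    have hb1 : b = 1 := by
      by_contra hb1
      have h3 := hroot z' hz' j hb1 _ hm
      have h4 := h3.mul_right huz'.symm.inv_right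
      rw [mul_inv_cancel_right] at h4
      exact hzz' h4.symm
    exact hij (by rw [hai, hb1, one_mul])
  have hw0 : ∀ g, Commute a g → Commute w g := fun g hg => hroot w hw i (fun h => hc1 (by
    rw [hcdef, show a = 1 from h]; group)) g hg
  have hcU : ∀ k : ℤ, u ^ k ≠ c := fun k hk => by
    have hk1 : u ^ k ≠ 1 := hk ▸ hc1
    exact huw (hw0 u ((hroot u hu k hk1 a (hk ▸ hca)).symm)).symm
  have hPau : P (a * u * a⁻¹) := hconj u hu a
  have hPc : P c := by
    have hcm : Commute u (a * u * a⁻¹) := by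
      rw [show a * u * a⁻¹ = c * u by rw [hcdef]; group]
      exact hcu.symm.mul_right (Commute.refl u)
    have := ha u (a * u * a⁻¹) hu hPau hcm (fun ⟨k, hk⟩ => hcU (k - 1) (by
      rw [hcdef, zpow_sub_one, show u ^ k = a * u * a⁻¹ from hk])) (-1) 1
    rw [zpow_neg_one, zpow_one, (hcm.inv_left).eq] at this
    exact this hc1
  obtain ⟨t, ht, hct⟩ := hno c hPc
  obtain ⟨k₁, -, h1⟩ := hproj u c t hu hPc ht hcu.symm (fun ⟨k, hk⟩ => hcU k hk) hct
  have hPa : P a := hpow w hw i fun h => hc1 (by rw [hcdef, show a = 1 from h]; group)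
  obtain ⟨k₂, -, h2⟩ := hproj a c t hPa hPc ht hca.symm (fun ⟨k, hk⟩ => hc1 (by
    have hk1 : a ^ k ≠ 1 := by rw [show a ^ k = c from hk]; intro h; exact hc1 h
    have := hroot a hPa k hk1 u (by rw [show a ^ k = c from hk]; exact hcu)
    rw [hcdef, this.eq]; group)) hct
  refine hct ?_
  have hkey : (a * c ^ k₂) * (u * c ^ k₁) * (a * c ^ k₂)⁻¹ * (u * c ^ k₁)⁻¹ = c := by
    have e1 : Commute (c ^ k₂) (u * c ^ k₁) := (hcu.zpow_left k₂).mul_right ((Commute.refl c).zpow_zpow k₂ k₁)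
    have e2 : Commute (c ^ k₁) a⁻¹ := (hca.zpow_left k₁).inv_right
    calc (a * c ^ k₂) * (u * c ^ k₁) * (a * c ^ k₂)⁻¹ * (u * c ^ k₁)⁻¹
        = a * (c ^ k₂ * (u * c ^ k₁)) * (c ^ k₂)⁻¹ * a⁻¹ * (c ^ k₁)⁻¹ * u⁻¹ := by group
      _ = a * ((u * c ^ k₁) * c ^ k₂) * (c ^ k₂)⁻¹ * a⁻¹ * (c ^ k₁)⁻¹ * u⁻¹ := by rw [e1.eq]
      _ = a * u * (c ^ k₁ * a⁻¹) * (c ^ k₁)⁻¹ * u⁻¹ := by group
      _ = a * u * (a⁻¹ * c ^ k₁) * (c ^ k₁)⁻¹ * u⁻¹ := by rw [e2.eq]
      _ = c := by rw [hcdef]; group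
  rw [← hkey]
  exact ((h2.mul_left h1).mul_left h2.inv_left).mul_left h1.inv_left

/-- Let p be a prime and K a set of subgroups of order p of a finite group G, closed under conjugation, such that at least two distinct members of K commute elementwise, and whenever two distinct members X, Y of K commute: every subgroup of order p of the group XY they generate belongs to K, and every member W of K has centralizer meeting XY nontrivially. Then some member V of K commutes elementwise with every member of K and lies in O_p(G); in particular G is not simple. -/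
theorem result {G : Type*} [Group G] [Finite G]
    {p : ℕ} (hp : p.Prime) (K : Set (Subgroup G)) (hK : ∀ X ∈ K, Nat.card ↥X = p)
    (hKc : ∀ X ∈ K, ∀ g : G, X.map (MulAut.conj g).toMonoidHom ∈ K)
    (hex : ∃ X ∈ K, ∃ Y ∈ K, X ≠ Y ∧ ∀ x ∈ X, ∀ y ∈ Y, x * y = y * x)
    (ha : ∀ X ∈ K, ∀ Y ∈ K, X ≠ Y → (∀ x ∈ X, ∀ y ∈ Y, x * y = y * x) →
      ∀ Z : Subgroup G, Z ≤ X ⊔ Y → Nat.card ↥Z = p → Z ∈ K)
    (hb : ∀ X ∈ K, ∀ Y ∈ K, X ≠ Y → (∀ x ∈ X, ∀ y ∈ Y, x * y = y * x) →
      ∀ W ∈ K, (X ⊔ Y) ⊓ Subgroup.centralizer (W : Set G) ≠ ⊥) :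
    (∃ V ∈ K, (∀ W ∈ K, ∀ v ∈ V, ∀ w ∈ W, v * w = w * v) ∧ V ≤ Cfsg.pCore p G) ∧ ¬ IsSimpleGroup G := by
  haveI := Fact.mk hp
  set P : G → Prop := fun x => x ≠ 1 ∧ Subgroup.zpowers x ∈ K with hPdef
  have hgen : ∀ X ∈ K, ∃ x, P x ∧ Subgroup.zpowers x = X := by
    intro X hX
    haveI : Nontrivial X := Finite.one_lt_card_iff_nontrivial.1 (hK X hX ▸ hp.one_lt)
    obtain ⟨⟨x, hx⟩, hx1⟩ := exists_ne (1 : X)
    have heq : Subgroup.zpowers x = X := Subgroup.eq_of_le_of_card_ge (Subgroup.zpowers_le.2 hx) (by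
      rw [Nat.card_zpowers, hK X hX, ← Subgroup.orderOf_mk x hx]
      exact le_of_eq (orderOf_eq_prime (by rw [← hK X hX]; exact pow_card_eq_one') hx1).symm)
    exact ⟨x, ⟨fun h => hx1 (Subtype.ext h), heq.symm ▸ hX⟩, heq⟩
  have hord : ∀ x, P x → orderOf x = p := fun x hx => by rw [← Nat.card_zpowers, hK _ hx.2]
  have hcomm : ∀ x y : G, Commute x y → ∀ a ∈ Subgroup.zpowers x, ∀ b ∈ Subgroup.zpowers y, a * b = b * a := by
    rintro x y h a ⟨i, rfl⟩ b ⟨j, rfl⟩
    exact h.zpow_zpow i j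
  have hneq : ∀ x y : G, y ∉ Subgroup.zpowers x → Subgroup.zpowers x ≠ Subgroup.zpowers y :=
    fun x y h e => h (e ▸ Subgroup.mem_zpowers y)
  obtain ⟨v, hv, hall⟩ := exists_radical hp P hord
    (fun x hx i hi => ⟨hi, by
      rw [Subgroup.eq_of_le_of_card_ge (Subgroup.zpowers_le.2 (zpow_mem (Subgroup.mem_zpowers x) i)) (by
        rw [Nat.card_zpowers, Nat.card_zpowers, hord x hx]
        exact le_of_eq (orderOf_eq_prime (by rw [← zpow_natCast, ← zpow_mul, mul_comm, zpow_mul, zpow_natCast,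
          ← hord x hx, pow_orderOf_eq_one, one_zpow]) hi).symm)]
      exact hx.2⟩)
    (fun x hx g => ⟨fun h => hx.1 (conj_eq_one_iff.1 h), by
      have := hKc _ hx.2 g
      rwa [MonoidHom.map_zpowers] at this⟩)
    (fun x y hx hy hc hi i j h1 => ⟨h1, by
      refine ha _ hx.2 _ hy.2 (hneq x y hi) (hcomm x y hc) _ ?_ ?_
      · exact Subgroup.zpowers_le.2 (mul_mem (Subgroup.mem_sup_left (zpow_mem (Subgroup.mem_zpowers x) i))
          (Subgroup.mem_sup_right (zpow_mem (Subgroup.mem_zpowers y) j)))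
      · rw [Nat.card_zpowers]
        refine orderOf_eq_prime ?_ h1
        rw [← zpow_natCast, (hc.zpow_zpow i j).mul_zpow, ← zpow_mul, ← zpow_mul, mul_comm i, mul_comm j, zpow_mul,
          zpow_mul, zpow_natCast, zpow_natCast]
        conv_lhs => arg 1; rw [← hord x hx, pow_orderOf_eq_one, one_zpow]
        conv_lhs => arg 2; rw [← hord y hy, pow_orderOf_eq_one, one_zpow]
        rw [one_mul]⟩)
    (fun x y hx hy hc hi w hw => by
      obtain ⟨⟨m, hm⟩, hm1⟩ := (Subgroup.ne_bot_iff_exists_ne_one).1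
        (hb _ hx.2 _ hy.2 (hneq x y hi) (hcomm x y hc) _ hw.2)
      obtain ⟨i, j, rfl⟩ := mem_sup_zpowers hc hm.1
      exact ⟨i, j, fun h => hm1 (Subtype.ext h),
        (Subgroup.mem_centralizer_iff.1 hm.2 w (Subgroup.mem_zpowers w)).symm⟩)
    (by
      obtain ⟨X, hX, Y, hY, hne, hc⟩ := hex
      obtain ⟨x, hx, hxe⟩ := hgen X hX
      obtain ⟨y, hy, hye⟩ := hgen Y hY
      refine ⟨x, y, hx, hy, hc x (hxe ▸ Subgroup.mem_zpowers x) y (hye ▸ Subgroup.mem_zpowers y), fun hmem => hne ?_⟩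
      rw [← hxe, ← hye]
      exact (Subgroup.eq_of_le_of_card_ge (Subgroup.zpowers_le.2 hmem) (by
        rw [Nat.card_zpowers, Nat.card_zpowers, hord x hx, hord y hy])).symm)
  have hallK : ∀ W ∈ K, ∀ a ∈ Subgroup.zpowers v, ∀ b ∈ W, a * b = b * a := by
    intro W hW a hav b hbW
    obtain ⟨w, hw, hwe⟩ := hgen W hW
    exact hcomm v w (hall w hw) a hav b (hwe.symm ▸ hbW)
  set V := Subgroup.normalClosure ({v} : Set G) with hV
  have hconjset : ∀ z ∈ Group.conjugatesOfSet ({v} : Set G), P z ∧ ∀ w, P w → Commute z w := by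
    intro z hz
    obtain ⟨a, ha', hz2⟩ := Group.mem_conjugatesOfSet_iff.1 hz
    rw [Set.mem_singleton_iff] at ha'
    rw [ha'] at hz2
    obtain ⟨g, rfl⟩ := isConj_iff.1 hz2
    refine ⟨⟨fun h => hv.1 (conj_eq_one_iff.1 h), ?_⟩, fun w hw => ?_⟩
    · have := hKc _ hv.2 g
      rwa [MonoidHom.map_zpowers] at this
    · have hw' : P (g⁻¹ * w * g) := ⟨fun h => hw.1 (by
        have := congrArg (fun t => g * t * g⁻¹) h
        simpa [mul_assoc] using this), by
        have := hKc _ hw.2 g⁻¹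
        rw [MonoidHom.map_zpowers] at this
        simpa using this⟩
      have h1 := (hall _ hw').map (MulAut.conj g).toMonoidHom
      simpa [mul_assoc] using h1
  haveI hVc : IsMulCommutative V := Subgroup.isMulCommutative_closure fun a ha b hb =>
    ((hconjset a ha).2 b (hconjset b hb).1).eq
  have hVp : IsPGroup p V := by
    intro ⟨a, ha⟩
    refine ⟨1, Subtype.ext ?_⟩
    show a ^ p ^ 1 = 1
    rw [pow_one]
    induction ha using Subgroup.closure_induction with
    | mem a ha => rw [← hord a (hconjset a ha).1, pow_orderOf_eq_one]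
    | one => exact one_pow _
    | mul a b ha hb iha ihb =>
      have hab : Commute a b := congrArg Subtype.val (mul_comm' (⟨a, ha⟩ : V) ⟨b, hb⟩)
      rw [hab.mul_pow, iha, ihb, one_mul]
    | inv a _ ih => rw [inv_pow, ih, inv_one]
  have hvV : Subgroup.zpowers v ≤ V := Subgroup.zpowers_le.2 (Subgroup.subset_normalClosure rfl)
  refine ⟨⟨Subgroup.zpowers v, hv.2, hallK, hvV.trans (le_sSup ⟨Subgroup.normalClosure_normal, hVp⟩)⟩, fun hs => ?_⟩
  haveI := hs
  have htop : V = ⊤ := (Subgroup.normalClosure_normal (s := ({v} : Set G))).eq_bot_or_eq_top.resolve_left fun h =>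
    hv.1 (Subgroup.mem_bot.1 (h ▸ hvV (Subgroup.mem_zpowers v)))
  have hvn : (Subgroup.zpowers v).Normal := ⟨fun n hn g => by
    have hcm : g * n = n * g := congrArg Subtype.val (mul_comm' (⟨g, htop ▸ Subgroup.mem_top g⟩ : V) ⟨n, hvV hn⟩)
    rwa [hcm, mul_inv_cancel_right]⟩
  obtain ⟨X, hX, Y, hY, hne, -⟩ := hex
  rcases hvn.eq_bot_or_eq_top with h | h
  · exact hv.1 (Subgroup.mem_bot.1 (h ▸ Subgroup.mem_zpowers v))
  · have hG : ∀ Z ∈ K, Z = ⊤ := fun Z hZ => Subgroup.eq_top_of_card_eq Z (by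
      rw [hK Z hZ, ← hord v hv, ← Nat.card_zpowers, h, Subgroup.card_top])
    exact hne ((hG X hX).trans (hG Y hY).symm)

end Cfsg.Agent.S3196
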