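import Cfsg.Statements.S3200
import Cfsg.Agent.CharBasics.Burnside
import Cfsg.Agent.Hall.Basic

set_option autoImplicit false
open Cfsg

namespace Cfsg.Agent.S3200

open scoped Pointwise

universe u

theorem relIndex_eq_of_le_mul {G : Type*} [Group G] {H T Y : Subgroup G} (hHY : H ≤ Y)
    (hY : ∀ y ∈ Y, ∃ h ∈ H, ∃ t ∈ T, y = h * t) : T.relIndex Y = T.relIndex H := by
  refine (Nat.card_congr (Equiv.ofBijective (Subgroup.quotientSubgroupOfEmbeddingOfLE T hHY)
    ⟨Function.Embedding.injective _, fun q => ?_⟩)).symm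
  induction q using QuotientGroup.induction_on with
  | H y =>
    obtain ⟨h, hh, t, ht, e⟩ := hY y y.2
    refine ⟨((⟨h, hh⟩ : H) : H ⧸ T.subgroupOf H), ?_⟩
    rw [Subgroup.quotientSubgroupOfEmbeddingOfLE_apply_mk]
    exact QuotientGroup.eq.2 (show h⁻¹ * (y : G) ∈ T by rwa [e, inv_mul_cancel_left])

def HasComp (K : Type u) [Group K] : Prop :=
  ∃ C : Subgroup K, IsMulCommutative C ∧ Odd (Nat.card C) ∧ ∃ k, C.index = 2 ^ k

theorem hasComp_normal {K : Type u} [Group K] [Finite K] (h : HasComp K) (N : Subgroup K) [N.Normal] :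
    HasComp N := by
  obtain ⟨C, hC, hodd, k, hk⟩ := h
  haveI := hC
  refine ⟨C.subgroupOf N, inferInstance, hodd.of_dvd_nat ?_, ?_⟩
  · exact Subgroup.card_comap_dvd_of_injective C N.subtype N.subtype_injective
  · have h1 : C.relIndex (N ⊔ C) = C.relIndex N := relIndex_eq_of_le_mul le_sup_left fun y hy => by
      rw [← SetLike.mem_coe, Subgroup.normal_mul] at hy
      obtain ⟨a, ha, b, hb, rfl⟩ := hy
      exact ⟨a, ha, b, hb, rfl⟩
    have h2 : C.relIndex N ∣ 2 ^ k := by
      rw [← hk, ← Subgroup.relIndex_mul_index (le_sup_right : C ≤ N ⊔ C), h1]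
      exact Dvd.intro _ rfl
    obtain ⟨j, -, hj⟩ := (Nat.dvd_prime_pow Nat.prime_two).1 h2
    exact ⟨j, hj⟩

theorem hasComp_quotient {K : Type u} [Group K] [Finite K] (h : HasComp K) (N : Subgroup K) [N.Normal] :
    HasComp (K ⧸ N) := by
  obtain ⟨C, hC, hodd, k, hk⟩ := h
  haveI := hC
  refine ⟨C.map (QuotientGroup.mk' N), inferInstance, hodd.of_dvd_nat (Subgroup.card_map_dvd _ _), ?_⟩
  have h2 := Subgroup.index_map_dvd C (QuotientGroup.mk'_surjective N)
  rw [hk] at h2
  obtain ⟨j, -, hj⟩ := (Nat.dvd_prime_pow Nat.prime_two).1 h2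
  exact ⟨j, hj⟩

theorem solvable_aux : ∀ (n : ℕ) (K : Type u) [Group K] [Finite K], Nat.card K = n → HasComp K →
    Group.IsSolvable K := by
  intro n
  induction n using Nat.strong_induction_on with
  | _ n ih =>
    intro K _ _ hcard h
    haveI : Fact (Nat.Prime 2) := ⟨Nat.prime_two⟩
    by_cases hcomm : ∀ x y : K, x * y = y * x
    · exact Group.isSolvable_of_comm hcomm
    haveI : Nontrivial K := by
      by_contra hh
      rw [not_nontrivial_iff_subsingleton] at hh
      exact hcomm fun x y => Subsingleton.elim _ _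
    obtain ⟨C, hC, hodd, k, hk⟩ := id h
    by_cases hC1 : C = ⊥
    · subst hC1
      rw [Subgroup.index_bot] at hk
      haveI := (IsPGroup.of_card hk : IsPGroup 2 K).isNilpotent
      infer_instance
    by_cases hs : IsSimpleGroup K
    · exfalso
      obtain ⟨x, hx, hx1⟩ := (C.ne_bot_iff_exists_ne_one.1 hC1 : ∃ x : C, x ≠ 1) |> fun ⟨x, hx⟩ =>
        (⟨x, x.2, fun e => hx (Subtype.ext e)⟩ : ∃ x : K, x ∈ C ∧ x ≠ 1)
      haveI := hC
      have hle : C ≤ Subgroup.centralizer ({x} : Set K) := fun c hc => by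
        rw [Subgroup.mem_centralizer_singleton_iff]
        exact congrArg Subtype.val (mul_comm' (⟨c, hc⟩ : C) ⟨x, hx⟩)
      obtain ⟨j, -, hj⟩ := (Nat.dvd_prime_pow Nat.prime_two).1 (hk ▸ Subgroup.index_dvd_of_le hle)
      rcases Nat.eq_zero_or_pos j with rfl | hj0
      · rw [pow_zero, Subgroup.index_eq_one] at hj
        have hxc : x ∈ Subgroup.center K := Subgroup.mem_center_iff.2 fun g =>
          Subgroup.mem_centralizer_singleton_iff.1 (hj ▸ Subgroup.mem_top g)
        rcases hs.eq_bot_or_eq_top_of_normal (Subgroup.center K) inferInstance with hZ | hZ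
        · exact hx1 (Subgroup.mem_bot.1 (hZ ▸ hxc))
        · exact hcomm fun a b => (Subgroup.mem_center_iff.1 (hZ ▸ Subgroup.mem_top b) a)
      · exact CfsgLib.CharBasics.not_isSimpleGroup_of_class_prime_pow Nat.prime_two x hj hj0 hs
    · obtain ⟨N, hN, hNb, hNt⟩ : ∃ N : Subgroup K, N.Normal ∧ N ≠ ⊥ ∧ N ≠ ⊤ := by
        by_contra hno
        push Not at hno
        exact hs ⟨fun N hN => or_iff_not_imp_left.mpr (hno N hN)⟩
      haveI := hN
      have h1 : Nat.card N < n := hcard ▸ lt_of_le_of_ne (Subgroup.card_le_card_group N)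
        (fun e => hNt (Subgroup.eq_top_of_card_eq N e))
      have h2 : Nat.card (K ⧸ N) < n := by
        rw [← hcard, Subgroup.card_eq_card_quotient_mul_card_subgroup N]
        exact lt_mul_of_one_lt_right Nat.card_pos (N.one_lt_card_iff_ne_bot.2 hNb)
      haveI := ih _ h1 N rfl (hasComp_normal h N)
      haveI := ih _ h2 (K ⧸ N) rfl (hasComp_quotient h N)
      exact solvable_of_ker_le_range N.subtype (QuotientGroup.mk' N) (by simp)


/-- Let H be a finite group in which a Sylow 2-subgroup has an abelian complement (an abelian subgroup meeting it trivially whose product with it is all of H). Then H is solvable, and every subgroup and every quotient group of H again has a Sylow 2-subgroup with an abelian complement. -/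
theorem result {H : Type*} [Group H] [Finite H]
    (S : Sylow 2 H) (C : Subgroup H) (hC : IsMulCommutative ↥C) (hSC : Subgroup.IsComplement' (S : Subgroup H) C) :
    Group.IsSolvable H ∧
    (∀ L : Subgroup H, ∃ (P : Sylow 2 ↥L) (D : Subgroup ↥L), IsMulCommutative ↥D ∧ Subgroup.IsComplement' (P : Subgroup ↥L) D) ∧
    (∀ (N : Subgroup H) [N.Normal], ∃ (P : Sylow 2 (H ⧸ N)) (D : Subgroup (H ⧸ N)),
      IsMulCommutative ↥D ∧ Subgroup.IsComplement' (P : Subgroup (H ⧸ N)) D) := by
  haveI : Fact (Nat.Prime 2) := ⟨Nat.prime_two⟩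
  have hmul := hSC.card_mul
  obtain ⟨e, he⟩ := IsPGroup.iff_card.1 S.2
  have hidx : C.index = 2 ^ e := by
    have h1 := Subgroup.card_mul_index C
    rw [← hmul, he, mul_comm (2 ^ e)] at h1
    exact Nat.eq_of_mul_eq_mul_left Nat.card_pos h1
  have hodd : Odd (Nat.card C) := by
    rw [← Nat.not_even_iff_odd, even_iff_two_dvd]
    intro h2
    apply S.not_dvd_index
    have h1 := Subgroup.card_mul_index (S : Subgroup H)
    rw [← hmul] at h1
    rwa [Nat.eq_of_mul_eq_mul_left Nat.card_pos h1]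
  haveI hsol : Group.IsSolvable H := solvable_aux _ H rfl ⟨C, hC, hodd, e, hidx⟩
  have hcopC : (Nat.card C).Coprime (2 ^ e) := (Nat.coprime_two_right.2 hodd).pow_right e
  refine ⟨hsol, fun L => ?_, fun N _ => ?_⟩
  · let P : Sylow 2 L := default
    obtain ⟨j, hj⟩ := IsPGroup.iff_card.1 P.2
    have hcop : (P : Subgroup L).index.Coprime (2 ^ j) :=
      (Nat.coprime_two_right.2 (Nat.not_even_iff_odd.1 fun h =>
        P.not_dvd_index (even_iff_two_dvd.1 h))).pow_right j
    have hLcard : Nat.card L = (P : Subgroup L).index * 2 ^ j := by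
      rw [← hj, mul_comm, Subgroup.card_mul_index]
    obtain ⟨D, hD⟩ := CfsgLib.Hall.exists_hall _ _ hLcard hcop
    refine ⟨P, D, ?_, Subgroup.isComplement'_of_coprime (by rw [hD, hj, mul_comm, ← hLcard])
      (by rw [hD, hj]; exact hcop.symm)⟩
    have hHcard : Nat.card H = Nat.card C * 2 ^ e := by rw [← hmul, he, mul_comm]
    obtain ⟨D', hD', hle⟩ := CfsgLib.Hall.exists_hall_ge _ _ hHcard hcopC (D.map L.subtype) (by
      refine Nat.Coprime.pow_right e (Nat.coprime_two_right.2 ?_)
      rw [Subgroup.card_map_of_injective L.subtype_injective, hD, ← Nat.not_even_iff_odd, even_iff_two_dvd]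
      exact P.not_dvd_index)
    obtain ⟨g, hg⟩ := CfsgLib.Hall.hall_conj _ _ hHcard hcopC C D' rfl hD'
    refine ⟨⟨fun a b => Subtype.ext (Subtype.ext ?_)⟩⟩
    have hm : ∀ x : D, ∃ c ∈ C, ((x : L) : H) = g * c * g⁻¹ := fun x => by
      have h1 : ((x : L) : H) ∈ MulAut.conj g • C := hg ▸ hle ⟨x, x.2, rfl⟩
      obtain ⟨c, hc, hcx⟩ := h1
      exact ⟨c, hc, hcx.symm⟩
    obtain ⟨c, hc, ec⟩ := hm a
    obtain ⟨d, hd, ed⟩ := hm b
    haveI := hC
    have h2 : c * d = d * c := congrArg Subtype.val (mul_comm' (⟨c, hc⟩ : C) ⟨d, hd⟩)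
    show ((a : L) : H) * ((b : L) : H) = ((b : L) : H) * ((a : L) : H)
    rw [ec, ed, show g * c * g⁻¹ * (g * d * g⁻¹) = g * (c * d) * g⁻¹ by group, h2]
    group
  · haveI := hC
    refine ⟨S.mapSurjective (QuotientGroup.mk'_surjective N), C.map (QuotientGroup.mk' N), inferInstance, ?_⟩
    rw [Sylow.coe_mapSurjective]
    refine Subgroup.isComplement'_of_disjoint_and_mul_eq_univ ?_ ?_
    · rw [disjoint_iff]
      refine Subgroup.inf_eq_bot_of_coprime (Nat.Coprime.coprime_dvd_left (Subgroup.card_map_dvd _ _)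
        (Nat.Coprime.coprime_dvd_right (Subgroup.card_map_dvd _ _) ?_))
      rw [he]
      exact hcopC.symm
    · rw [Set.eq_univ_iff_forall]
      intro x
      induction x using QuotientGroup.induction_on with
      | H y =>
        obtain ⟨⟨⟨a, ha⟩, ⟨b, hb⟩⟩, hab⟩ := hSC.2 y
        exact ⟨_, ⟨a, ha, rfl⟩, _, ⟨b, hb, rfl⟩, ((map_mul (QuotientGroup.mk' N) a b).symm.trans (congrArg (QuotientGroup.mk' N) hab))⟩

end Cfsg.Agent.S3200
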