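import Cfsg.Statements.S3201
import Cfsg.Agent.RankOneP.Basic

set_option autoImplicit false
open Cfsg

namespace Cfsg.Agent.S3201

/-- presentation of a nonabelian 2-group with a single involution. -/
theorem quaternion_facts {Q : Type*} [Group Q] [Finite Q] (hQ : IsPGroup 2 Q)
    (hnab : ¬ IsMulCommutative Q) (hu : ∃! x : Q, orderOf x = 2) :
    ∃ (a b : Q) (k : ℕ), 1 ≤ k ∧ orderOf a = 2 ^ (k + 1) ∧ b * a * b⁻¹ = a⁻¹ ∧
      (∀ x : Q, ∃ i : ℕ, x = a ^ i ∨ x = a ^ i * b) ∧
      (∀ x : Q, (∀ y, x * y = y * x) → x * x = 1) ∧ ¬ Commute b (a ^ 2 ^ (k - 1)) ∧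
      b * b = a ^ 2 ^ k := by
  haveI : Fact (Nat.Prime 2) := ⟨Nat.prime_two⟩
  obtain ⟨t, ht, htu⟩ := hu
  have h2 : CfsgLib.RankOneP.UniqueOrderP 2 Q := by
    intro x y hx hy hx1
    by_cases hy1 : y = 1
    · rw [hy1]; exact Subgroup.one_mem _
    · rw [htu y (orderOf_eq_prime hy hy1), ← htu x (orderOf_eq_prime hx hx1)]
      exact Subgroup.mem_zpowers _
  rcases CfsgLib.RankOneP.isCyclic_or_quaternion hQ h2 with hc | ⟨-, k, hk, ⟨e⟩⟩
  · exact absurd ⟨⟨fun x y => hc.commGroup.mul_comm x y⟩⟩ hnab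
  set a := e.symm (QuaternionGroup.a 1) with ha
  set b := e.symm (QuaternionGroup.xa 0) with hb
  have hoa : orderOf a = 2 ^ (k + 1) := by
    rw [ha, MulEquiv.orderOf_eq, QuaternionGroup.orderOf_a_one, pow_succ']
  have hba : b * a * b⁻¹ = a⁻¹ := by
    rw [mul_inv_eq_iff_eq_mul, eq_inv_mul_iff_mul_eq]
    apply e.injective
    simp only [map_mul, ha, hb, MulEquiv.apply_symm_apply]
    rw [QuaternionGroup.xa_mul_a, QuaternionGroup.a_mul_xa]
    simp
  have hbb : b * b = a ^ 2 ^ k := by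
    apply e.injective
    simp only [map_mul, map_pow, ha, hb, MulEquiv.apply_symm_apply]
    rw [QuaternionGroup.xa_mul_xa, QuaternionGroup.a_one_pow]
    simp
  have hgen : ∀ x : Q, ∃ i : ℕ, x = a ^ i ∨ x = a ^ i * b := by
    haveI : NeZero (2 * 2 ^ k) := ⟨by positivity⟩
    intro x
    obtain ⟨y, rfl⟩ := e.symm.surjective x
    cases y with
    | a i => exact ⟨i.val, Or.inl (by
        rw [ha, ← map_pow, QuaternionGroup.a_one_pow, ZMod.natCast_zmod_val])⟩
    | xa i => exact ⟨(-i).val, Or.inr (by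
        rw [ha, hb, ← map_pow, ← map_mul, QuaternionGroup.a_one_pow, ZMod.natCast_zmod_val,
          QuaternionGroup.a_mul_xa]
        simp)⟩
  have hconj : ∀ i : ℕ, b * a ^ i * b⁻¹ = (a ^ i)⁻¹ := fun i => by
    rw [← conj_pow, hba, inv_pow]
  refine ⟨a, b, k, hk, hoa, hba, hgen, ?_, ?_, hbb⟩
  · intro x hx
    obtain ⟨i, rfl | rfl⟩ := hgen x
    · have h1 := hconj i
      rw [← hx b, mul_inv_cancel_right] at h1
      nth_rewrite 2 [h1]
      exact mul_inv_cancel _
    · exfalso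
      have h1 : b * a = a * b := by
        have h' := hx a
        rw [← mul_assoc a, ← pow_succ', mul_assoc, pow_succ] at h'
        rw [mul_assoc] at h'
        exact mul_left_cancel h'
      rw [h1, mul_inv_cancel_right] at hba
      have : a ^ 2 = 1 := by rw [pow_two]; nth_rewrite 2 [hba]; exact mul_inv_cancel _
      have := Nat.le_of_dvd two_pos (hoa ▸ orderOf_dvd_of_pow_eq_one this)
      have : 2 ^ 2 ≤ 2 ^ (k + 1) := Nat.pow_le_pow_right (by norm_num) (by omega)
      omega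
  · intro hc
    have h1 := hconj (2 ^ (k - 1))
    rw [hc.eq, mul_inv_cancel_right] at h1
    have : a ^ (2 ^ (k - 1) * 2) = 1 := by
      rw [pow_mul, pow_two]; nth_rewrite 2 [h1]; exact mul_inv_cancel _
    have hd := orderOf_dvd_of_pow_eq_one this
    rw [hoa, ← pow_succ, Nat.pow_dvd_pow_iff_le_right (by norm_num)] at hd
    omega

/-- Let S be a finite 2-group whose centre Z(S) has n ≥ 2 distinct maximal subgroups C₁, …, Cₙ with trivial intersection such that each quotient S/Cᵢ is a non-abelian group with exactly one involution (a generalized quaternion group). Then S is the internal direct product of an elementary abelian subgroup and a non-abelian subgroup with exactly one involution. -/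
theorem result {S : Type*} [Group S] [Finite S]
    (hS : IsPGroup 2 S) (n : ℕ) (hn : 2 ≤ n) (C : Fin n → Subgroup ↥(Subgroup.center S))
    (hCmax : ∀ i, IsCoatom (C i)) (hCinj : Function.Injective C) (hCint : ⨅ i, C i = ⊥)
    (hCq : ∀ i, ∃ (_ : ((C i).map (Subgroup.center S).subtype).Normal),
      ¬ IsMulCommutative (S ⧸ (C i).map (Subgroup.center S).subtype) ∧
      ∃! x : S ⧸ (C i).map (Subgroup.center S).subtype, orderOf x = 2) :
    ∃ E Q : Subgroup S, Cfsg.IsInternalDirectProduct E Q ⊤ ∧ Cfsg.IsElementaryAbelian 2 E ∧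
      ¬ IsMulCommutative ↥Q ∧ ∃! x : ↥Q, orderOf x = 2 := by
  haveI : Fact (Nat.Prime 2) := ⟨Nat.prime_two⟩
  have hi2 : ∀ i, (C i).index = 2 := by
    intro i
    have hnt := (hS.to_subgroup (Subgroup.center S))
    haveI : (C i).Normal := ⟨fun x hx g => by rw [mul_comm' g x, mul_inv_cancel_right]; exact hx⟩
    have hq := hnt.to_quotient (C i)
    haveI : Nontrivial (Subgroup.center S ⧸ C i) := QuotientGroup.nontrivial_iff.mpr (hCmax i).1
    obtain ⟨j, hj0, hj⟩ := hq.nontrivial_iff_card.mp inferInstance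
    obtain ⟨x, hx⟩ := exists_prime_orderOf_dvd_card' 2 (hj ▸ dvd_pow_self 2 hj0.ne')
    have hlt : C i < (Subgroup.zpowers x).comap (QuotientGroup.mk' (C i)) := by
      refine lt_of_le_of_ne ?_ ?_
      · intro y hy
        rw [Subgroup.mem_comap, QuotientGroup.mk'_apply, (QuotientGroup.eq_one_iff y).mpr hy]
        exact Subgroup.one_mem _
      · intro e
        obtain ⟨y, rfl⟩ := QuotientGroup.mk_surjective x
        have : y ∈ C i := by rw [e]; exact Subgroup.mem_zpowers _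
        rw [(QuotientGroup.eq_one_iff y).mpr this, orderOf_one] at hx
        norm_num at hx
    have htop : Subgroup.zpowers x = ⊤ := Subgroup.comap_injective (QuotientGroup.mk'_surjective _)
      (((hCmax i).2 _ hlt).trans (Subgroup.comap_top _).symm)
    rw [Subgroup.index_eq_card, ← Subgroup.card_top (G := Subgroup.center S ⧸ C i), ← htop,
      Nat.card_zpowers, hx]
  have hCint' : ∀ x : Subgroup.center S, (∀ i, x ∈ C i) → x = 1 := by
    intro x hx
    have : x ∈ ⨅ i, C i := Subgroup.mem_iInf.mpr hx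
    rwa [hCint, Subgroup.mem_bot] at this
  have hsqZ : ∀ x ∈ Subgroup.center S, x * x = 1 := by
    intro x hx
    exact congrArg Subtype.val (hCint' (⟨x, hx⟩ * ⟨x, hx⟩)
      (fun i => Subgroup.mul_self_mem_of_index_two (hi2 i) _))
  -- the quotients
  let D : Fin n → Subgroup S := fun i => (C i).map (Subgroup.center S).subtype
  have hDn : ∀ i, (D i).Normal := fun i => (hCq i).choose
  have hDq : ∀ i, letI := hDn i
      ¬ IsMulCommutative (S ⧸ D i) ∧ ∃! x : S ⧸ D i, orderOf x = 2 := fun i => (hCq i).choose_spec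
  have hDZ : ∀ i, ∀ x ∈ D i, x ∈ Subgroup.center S := by
    rintro i _ ⟨x, -, rfl⟩; exact x.2
  have hmemD : ∀ i (x : S) (hx : x ∈ Subgroup.center S),
      (x ∈ D i ↔ (⟨x, hx⟩ : Subgroup.center S) ∈ C i) := fun i x hx => by
    constructor
    · rintro ⟨y, hy, e⟩
      rwa [show (⟨x, hx⟩ : Subgroup.center S) = y from Subtype.ext e.symm]
    · intro h; exact ⟨_, h, rfl⟩
  -- the preimage of the centre of each quotient is the centre
  have hpre : ∀ i, ∀ x : S, (∀ y, x⁻¹ * y⁻¹ * x * y ∈ D i) → x ∈ Subgroup.center S := by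
    intro i x hx
    haveI := hDn i
    obtain ⟨a, b, k, -, -, -, -, hcsq, -, -⟩ :=
      quaternion_facts (hS.to_quotient (D i)) (hDq i).1 (hDq i).2
    have hq : (x : S ⧸ D i) * (x : S ⧸ D i) = 1 := by
      refine hcsq _ fun y => ?_
      obtain ⟨y, rfl⟩ := QuotientGroup.mk_surjective y
      rw [← QuotientGroup.mk_mul, ← QuotientGroup.mk_mul, eq_comm, QuotientGroup.eq]
      have : (y * x)⁻¹ * (x * y) = x⁻¹ * y⁻¹ * x * y := by group
      rw [this]
      exact hx y
    by_cases hx1 : (x : S ⧸ D i) = 1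
    · exact hDZ i x ((QuotientGroup.eq_one_iff x).mp hx1)
    · obtain ⟨w, hw⟩ : ∃ w : Subgroup.center S, w ∉ C i := by
        by_contra h
        push Not at h
        have := hi2 i
        rw [(Subgroup.eq_top_iff' _).mpr h, Subgroup.index_top] at this
        norm_num at this
      have hw1 : ((w : S) : S ⧸ D i) ≠ 1 := fun h =>
        hw ((hmemD i w w.2).mp ((QuotientGroup.eq_one_iff _).mp h))
      have hw2 : ((w : S) : S ⧸ D i) * ((w : S) : S ⧸ D i) = 1 := by
        rw [← QuotientGroup.mk_mul, hsqZ _ w.2]; rfl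
      obtain ⟨t, -, htu⟩ := (hDq i).2
      have e := (htu _ (orderOf_eq_prime (by rw [pow_two, hq]) hx1)).trans
        (htu _ (orderOf_eq_prime (by rw [pow_two, hw2]) hw1)).symm
      rw [QuotientGroup.eq] at e
      have := Subgroup.mul_mem _ w.2 (Subgroup.inv_mem _ (hDZ i _ e))
      rwa [mul_inv_rev, inv_inv, ← mul_assoc, mul_inv_cancel, one_mul] at this
  have hsq : ∀ x : S, x ∉ Subgroup.center S → ∀ i, x * x ∉ D i := by
    intro x hx i h
    haveI := hDn i
    by_cases hx1 : (x : S ⧸ D i) = 1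
    · exact hx (hDZ i x ((QuotientGroup.eq_one_iff x).mp hx1))
    refine hx (hpre i x fun y => ?_)
    have ho : orderOf (x : S ⧸ D i) = 2 :=
      orderOf_eq_prime (by rw [pow_two, ← QuotientGroup.mk_mul, QuotientGroup.eq_one_iff]; exact h) hx1
    obtain ⟨t, -, htu⟩ := (hDq i).2
    have ho' : orderOf ((y⁻¹ * x * y : S) : S ⧸ D i) = 2 := by
      rw [QuotientGroup.mk_mul, QuotientGroup.mk_mul, QuotientGroup.mk_inv]
      rw [show ((y : S ⧸ D i))⁻¹ * (x : S ⧸ D i) * (y : S ⧸ D i) =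
        MulAut.conj (y : S ⧸ D i)⁻¹ (x : S ⧸ D i) by simp [MulAut.conj_apply], MulEquiv.orderOf_eq, ho]
    have e := (htu _ ho).trans (htu _ ho').symm
    rw [QuotientGroup.eq] at e
    have : x⁻¹ * y⁻¹ * x * y = x⁻¹ * (y⁻¹ * x * y) := by group
    rw [this]
    exact e
  -- work in the first quotient
  obtain ⟨i₀⟩ : Nonempty (Fin n) := ⟨⟨0, by omega⟩⟩
  haveI := hDn i₀
  obtain ⟨a₀, b₀, k, hk, hoa, hba, hgen, hcsq, hnc, hbb⟩ :=
    quaternion_facts (hS.to_quotient (D i₀)) (hDq i₀).1 (hDq i₀).2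
  obtain ⟨a, rfl⟩ := QuotientGroup.mk_surjective a₀
  obtain ⟨b, rfl⟩ := QuotientGroup.mk_surjective b₀
  set z := b * b with hz
  have hbZ : b ∉ Subgroup.center S := fun h => hnc (by
    show ((b : S) : S ⧸ D i₀) * _ = _
    rw [← QuotientGroup.mk_pow, ← QuotientGroup.mk_mul, ← QuotientGroup.mk_mul,
      Subgroup.mem_center_iff.mp h])
  have hcentre : ∀ x : S, (∀ y : S, ((x : S) : S ⧸ D i₀) * y = y * x) → x ∈ Subgroup.center S := by
    intro x hx
    refine hpre i₀ x fun y => ?_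
    have := hx y
    rw [← QuotientGroup.mk_mul, ← QuotientGroup.mk_mul, eq_comm, QuotientGroup.eq] at this
    have e : (y * x)⁻¹ * (x * y) = x⁻¹ * y⁻¹ * x * y := by group
    rwa [e] at this
  have hzc : z ∈ Subgroup.center S := by
    refine hcentre z fun y => ?_
    obtain ⟨i, hi | hi⟩ := hgen y <;> rw [hi, hz, QuotientGroup.mk_mul, hbb]
    · exact (Commute.pow_pow (Commute.refl _) _ _).eq
    · rw [← mul_assoc, ← pow_add, add_comm, pow_add, mul_assoc, mul_assoc, ← hbb]
      simp [mul_assoc]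
  have huniq : ∀ x : S, x ∉ Subgroup.center S → x * x ∈ Subgroup.center S → x * x = z := by
    intro x hx hxc
    have h1 : (⟨x * x, hxc⟩ : Subgroup.center S) * ⟨z, hzc⟩ = 1 := by
      refine hCint' _ fun i => ?_
      rw [Subgroup.mul_mem_iff_of_index_two (hi2 i)]
      exact iff_of_false (fun h => hsq x hx i ((hmemD i _ hxc).mpr h))
        (fun h => hsq b hbZ i ((hmemD i _ hzc).mpr h))
    have h2 := congrArg Subtype.val h1
    calc x * x = (x * x) * (z * z) := by rw [hsqZ z hzc, mul_one]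
      _ = ((x * x) * z) * z := by group
      _ = z := by rw [show x * x * z = 1 from h2, one_mul]
  set m := 2 ^ (k - 1) with hm
  have hm2 : 2 ^ k = m * 2 := by rw [hm, ← pow_succ, Nat.sub_add_cancel hk]
  have hamZ : a ^ m ∉ Subgroup.center S := fun h => hnc (by
    show ((b : S) : S ⧸ D i₀) * _ = _
    rw [← QuotientGroup.mk_pow, ← QuotientGroup.mk_mul, ← QuotientGroup.mk_mul,
      Subgroup.mem_center_iff.mp h])
  have hak : a ^ 2 ^ k = z := by
    rw [hm2, pow_mul, pow_two]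
    refine huniq _ hamZ (hcentre _ fun y => ?_)
    rw [← pow_two, ← pow_mul, ← hm2, QuotientGroup.mk_pow, ← hbb, ← QuotientGroup.mk_mul, ← hz,
      ← QuotientGroup.mk_mul, ← QuotientGroup.mk_mul, Subgroup.mem_center_iff.mp hzc]
  have hw : b * a * b⁻¹ = a⁻¹ := by
    have hwD : a * (b * a * b⁻¹) ∈ D i₀ := by
      rw [← QuotientGroup.eq_one_iff, QuotientGroup.mk_mul, QuotientGroup.mk_mul,
        QuotientGroup.mk_mul, QuotientGroup.mk_inv, hba, mul_inv_cancel]
    set w := a * (b * a * b⁻¹) with hwdef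
    have hwc := hDZ _ _ hwD
    have e1 : b * a * b⁻¹ = a⁻¹ * w := by rw [hwdef, inv_mul_cancel_left]
    have e2 : (b * a) * (b * a) = w * z := by
      calc (b * a) * (b * a) = (b * a * b⁻¹) * (b * b) * a := by group
        _ = a⁻¹ * w * z * a := by rw [e1]
        _ = a⁻¹ * (w * z) * a := by group
        _ = w * z := by
          rw [mul_assoc, ← Subgroup.mem_center_iff.mp ((Subgroup.center S).mul_mem hwc hzc) a,
            inv_mul_cancel_left]
    have hbaZ : b * a ∉ Subgroup.center S := by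
      intro h
      have h1 : ((b * a : S) : S ⧸ D i₀) * ((a : S) : S ⧸ D i₀) = ((a : S) : S ⧸ D i₀) * (b * a : S) := by
        rw [← QuotientGroup.mk_mul, ← QuotientGroup.mk_mul, Subgroup.mem_center_iff.mp h]
      rw [QuotientGroup.mk_mul, ← mul_assoc (a : S ⧸ D i₀)] at h1
      have h2 := mul_right_cancel h1
      rw [h2, mul_inv_cancel_right] at hba
      have h3 : ((a : S) : S ⧸ D i₀) ^ 2 = 1 := by
        rw [pow_two]; nth_rewrite 2 [hba]; exact mul_inv_cancel _
      have := Nat.le_of_dvd two_pos (hoa ▸ orderOf_dvd_of_pow_eq_one h3)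
      have : 2 ^ 2 ≤ 2 ^ (k + 1) := Nat.pow_le_pow_right (by norm_num) (by omega)
      omega
    have h3 := huniq _ hbaZ (by rw [e2]; exact (Subgroup.center S).mul_mem hwc hzc)
    rw [e2] at h3
    rw [e1, mul_eq_right.mp h3, mul_one]
  -- the subgroup `Q`
  let carrier : Set S := {x | ∃ i : ℕ, x = a ^ i ∨ x = a ^ i * b}
  set Q := Subgroup.closure ({a, b} : Set S) with hQdef
  have hoaS : a ^ (2 ^ (k + 1)) = 1 := by
    rw [pow_succ, pow_mul, hak, pow_two]; exact hsqZ z hzc
  have hba' : ∀ i : ℕ, b * a ^ i = a ^ ((2 ^ (k + 1) - 1) * i) * b := by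
    intro i
    have hinv : a⁻¹ = a ^ (2 ^ (k + 1) - 1) := by
      rw [inv_eq_iff_mul_eq_one, ← pow_succ', Nat.sub_add_cancel Nat.one_le_two_pow, hoaS]
    have : b * a ^ i * b⁻¹ = (a⁻¹) ^ i := by rw [← conj_pow, hw]
    rw [hinv, ← pow_mul] at this
    exact mul_inv_eq_iff_eq_mul.mp this
  have hcl : ∀ x ∈ Q, x ∈ carrier := by
    intro x hx
    rw [hQdef, ← Subgroup.mem_toSubmonoid, Subgroup.closure_toSubmonoid_of_finite] at hx
    refine Submonoid.closure_induction_left (motive := fun y _ => y ∈ carrier) ?_ ?_ hx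
    · exact ⟨0, Or.inl (pow_zero a).symm⟩
    · rintro s (rfl | rfl) y - ⟨i, rfl | rfl⟩
      · exact ⟨i + 1, Or.inl (by rw [pow_succ'])⟩
      · exact ⟨i + 1, Or.inr (by rw [← mul_assoc, pow_succ'])⟩
      · exact ⟨(2 ^ (k + 1) - 1) * i, Or.inr (hba' i)⟩
      · exact ⟨(2 ^ (k + 1) - 1) * i + 2 ^ k, Or.inl (by
          rw [← mul_assoc, hba' i, mul_assoc, ← hz, ← hak, ← pow_add])⟩
  have hQZ : ∀ x ∈ Q, x ∈ Subgroup.center S → x = 1 ∨ x = z := by
    intro x hx hxc
    have hc : ∀ y : S ⧸ D i₀, (x : S ⧸ D i₀) * y = y * x := fun y => by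
      obtain ⟨y, rfl⟩ := QuotientGroup.mk_surjective y
      rw [← QuotientGroup.mk_mul, ← QuotientGroup.mk_mul, Subgroup.mem_center_iff.mp hxc]
    have h2 := hcsq _ hc
    obtain ⟨i, rfl | rfl⟩ := hcl x hx
    · rw [QuotientGroup.mk_pow, ← pow_add, ← two_mul] at h2
      have hd := orderOf_dvd_of_pow_eq_one h2
      rw [hoa, pow_succ'] at hd
      obtain ⟨c, rfl⟩ := Nat.dvd_of_mul_dvd_mul_left two_pos hd
      rw [pow_mul, hak]
      rcases Nat.even_or_odd c with ⟨d, rfl⟩ | ⟨d, rfl⟩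
      · left; rw [← two_mul, pow_mul, pow_two, hsqZ z hzc, one_pow]
      · right; rw [pow_succ, pow_mul, pow_two, hsqZ z hzc, one_pow, one_mul]
    · exfalso
      have h1 := hc (a : S ⧸ D i₀)
      rw [QuotientGroup.mk_mul, QuotientGroup.mk_pow, ← mul_assoc, ← pow_succ', pow_succ, mul_assoc,
        mul_assoc] at h1
      have h2 := mul_left_cancel h1
      rw [h2, mul_inv_cancel_right] at hba
      have h3 : ((a : S) : S ⧸ D i₀) ^ 2 = 1 := by
        rw [pow_two]; nth_rewrite 2 [hba]; exact mul_inv_cancel _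
      have := Nat.le_of_dvd two_pos (hoa ▸ orderOf_dvd_of_pow_eq_one h3)
      have : 2 ^ 2 ≤ 2 ^ (k + 1) := Nat.pow_le_pow_right (by norm_num) (by omega)
      omega
  have haQ : a ∈ Q := Subgroup.subset_closure (by simp)
  have hbQ : b ∈ Q := Subgroup.subset_closure (by simp)
  have hzQ : z ∈ Q := Q.mul_mem hbQ hbQ
  have hz1 : z ≠ 1 := fun h => hsq b hbZ i₀ (by rw [← hz, h]; exact (D i₀).one_mem)
  refine ⟨D i₀, Q, ⟨le_top, le_top, ?_, ?_, ?_⟩, ⟨?_, ?_⟩, ?_, ?_⟩
  · intro x hx y _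
    exact (Subgroup.mem_center_iff.mp (hDZ _ _ hx) y).symm
  · rw [eq_bot_iff]
    intro x hx
    rcases hQZ x hx.2 (hDZ _ _ hx.1) with rfl | rfl
    · exact Subgroup.one_mem _
    · exact absurd hx.1 (hsq b hbZ i₀)
  · rw [eq_top_iff]
    intro x _
    have key : ∀ q ∈ Q, (x : S ⧸ D i₀) = q → x ∈ D i₀ ⊔ Q := fun q hq e => by
      have h1 : q⁻¹ * x ∈ D i₀ := QuotientGroup.eq.mp e.symm
      have := Subgroup.mul_mem (D i₀ ⊔ Q) (Subgroup.mem_sup_right hq) (Subgroup.mem_sup_left h1)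
      rwa [mul_inv_cancel_left] at this
    obtain ⟨i, hi | hi⟩ := hgen (x : S ⧸ D i₀)
    · exact key (a ^ i) (Q.pow_mem haQ i) (by rw [hi]; rfl)
    · exact key (a ^ i * b) (Q.mul_mem (Q.pow_mem haQ i) hbQ) (by rw [hi]; rfl)
  · exact ⟨⟨fun x y => Subtype.ext (Subgroup.mem_center_iff.mp (hDZ _ _ x.2) y).symm⟩⟩
  · intro x hx
    rw [pow_two]
    exact hsqZ x (hDZ _ _ hx)
  · intro hc
    refine hnc ?_
    have := congrArg Subtype.val (hc.is_comm.comm (⟨b, hbQ⟩ : Q) (⟨a ^ m, Q.pow_mem haQ m⟩ : Q))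
    show ((b : S) : S ⧸ D i₀) * _ = _
    rw [← QuotientGroup.mk_pow, ← QuotientGroup.mk_mul, ← QuotientGroup.mk_mul]
    exact congrArg _ this
  · refine ⟨⟨z, hzQ⟩, orderOf_eq_prime (Subtype.ext ?_) (fun h => hz1 (congrArg Subtype.val h)), ?_⟩
    · show z ^ 2 = 1
      rw [pow_two]; exact hsqZ z hzc
    · intro y hy
      obtain ⟨hy2, hy1⟩ := orderOf_eq_prime_iff.mp hy
      have hy2' : (y : S) * y = 1 := by rw [← pow_two]; exact congrArg Subtype.val hy2
      have hyc : (y : S) ∈ Subgroup.center S := by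
        by_contra h
        exact hsq _ h i₀ (by rw [hy2']; exact (D i₀).one_mem)
      rcases hQZ y y.2 hyc with e | e
      · exact absurd (Subtype.ext e) hy1
      · exact Subtype.ext e

end Cfsg.Agent.S3201
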