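import Cfsg.Statements.S3202
import Mathlib
import Cfsg.Agent.RankOneP.Basic

set_option autoImplicit false
open Cfsg
open scoped commutatorElement

namespace Cfsg.Agent.S3202

/-- Let S be a finite 2-group of 2-rank exactly 2 and D a maximal subgroup of the centre of S such that S/D is a non-abelian group with exactly one involution (a generalized quaternion group). Then S has a nontrivial cyclic characteristic subgroup. -/
theorem result {S : Type*} [Group S]
    [Finite S] (hS : IsPGroup 2 S) (hr2 : Cfsg.PRankLE 2 2 S) (hr1 : ¬ Cfsg.PRankLE 2 1 S)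
    (D : Subgroup ↥(Subgroup.center S)) (hD : IsCoatom D)
    (hq : ∃ (_ : (D.map (Subgroup.center S).subtype).Normal),
      ¬ IsMulCommutative (S ⧸ D.map (Subgroup.center S).subtype) ∧
      ∃! x : S ⧸ D.map (Subgroup.center S).subtype, orderOf x = 2) :
    ∃ C : Subgroup S, C ≠ ⊥ ∧ IsCyclic ↥C ∧ C.Characteristic := by
  classical
  obtain ⟨hN, hna, x₀, hx₀, hxu⟩ := hq
  haveI := hN
  set N := D.map (Subgroup.center S).subtype with hNdef
  have hNZ : N ≤ Subgroup.center S := Subgroup.map_subtype_le D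
  let π := QuotientGroup.mk' N
  have hQ : IsPGroup 2 (S ⧸ N) := hS.to_quotient N
  have hu : CfsgLib.RankOneP.UniqueOrderP 2 (S ⧸ N) := by
    intro u v hu hv hu1
    by_cases hv1 : v = 1
    · rw [hv1]; exact one_mem _
    rw [hxu u (orderOf_eq_prime hu hu1), hxu v (orderOf_eq_prime hv hv1)]
    exact Subgroup.mem_zpowers _
  rcases CfsgLib.RankOneP.isCyclic_or_quaternion hQ hu with hc | ⟨-, k, hk, ⟨e⟩⟩
  · exact absurd (⟨⟨fun u v => by
      obtain ⟨g, hg⟩ := hc.exists_generator
      obtain ⟨i, rfl⟩ := hg u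
      obtain ⟨j, rfl⟩ := hg v
      exact ((Commute.refl g).zpow_zpow i j).eq⟩⟩ : IsMulCommutative (S ⧸ N)) hna
  obtain ⟨a, ha⟩ := QuotientGroup.mk'_surjective N (e.symm (.a 1))
  obtain ⟨y, hy⟩ := QuotientGroup.mk'_surjective N (e.symm (.xa 0))
  set A := (Subgroup.zpowers (π a)).comap π with hA
  have hAform : ∀ s ∈ A, ∃ (i : ℤ) (d : S), d ∈ N ∧ s = a ^ i * d := by
    intro s hs
    obtain ⟨i, hi⟩ := Subgroup.mem_zpowers_iff.mp (Subgroup.mem_comap.mp hs)
    refine ⟨i, (a ^ i)⁻¹ * s, ?_, by group⟩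
    rw [← QuotientGroup.eq_one_iff]
    show π ((a ^ i)⁻¹ * s) = 1
    rw [map_mul, map_inv, map_zpow, hi, inv_mul_cancel]
  have hcomm : ∀ d ∈ N, ∀ s : S, s * d = d * s := fun d hd s =>
    Subgroup.mem_center_iff.mp (hNZ hd) s
  have hea : e (π a) = .a 1 := by
    show e (π a) = _
    rw [ha, e.apply_symm_apply]
  have hapow : ∀ m : ℕ, e (π (a ^ m)) = .a (m : ZMod (2 * 2 ^ k)) := fun m => by
    rw [map_pow, map_pow, hea, QuaternionGroup.a_one_pow]
  have hcases : ∀ s : S, s ∈ A ∨ s * y⁻¹ ∈ A := by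
    intro s
    rcases hes : e (π s) with i | i
    · left
      rw [hA, Subgroup.mem_comap]
      refine ⟨((i.val : ℕ) : ℤ), e.injective ?_⟩
      simp only [zpow_natCast]
      rw [← map_pow, hapow, ZMod.natCast_zmod_val, hes]
    · right
      rw [hA, Subgroup.mem_comap]
      refine ⟨(((-i).val : ℕ) : ℤ), e.injective ?_⟩
      simp only [zpow_natCast]
      have hey : e (π y) = .xa 0 := by
        show e (π y) = _
        rw [hy, e.apply_symm_apply]
      rw [← map_pow, hapow, ZMod.natCast_zmod_val, map_mul, map_mul, map_inv, map_inv, hes, hey,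
        eq_mul_inv_iff_mul_eq, QuaternionGroup.a_mul_xa, zero_sub, neg_neg]
  obtain ⟨j, d, hd, hj⟩ : ∃ (j : ℤ) (d : S), d ∈ N ∧ y * a * y⁻¹ = a ^ j * d := by
    refine hAform _ ?_
    rcases hcases (y * a * y⁻¹) with h | h
    · exact h
    · exfalso
      have hey : e (π y) = .xa 0 := by
        show e (π y) = _
        rw [hy, e.apply_symm_apply]
      rw [hA, Subgroup.mem_comap] at h
      obtain ⟨i, hi⟩ := h
      have hi' := congrArg e hi
      simp only [map_zpow, map_mul, map_inv, hea, hey] at hi'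
      have : (QuaternionGroup.xa 0 : QuaternionGroup (2 ^ k)) * .a 1 * (QuaternionGroup.xa 0)⁻¹ *
          (QuaternionGroup.xa 0)⁻¹ ∈ Subgroup.zpowers (QuaternionGroup.a 1) := ⟨i, hi'⟩
      obtain ⟨m, hm⟩ := Submonoid.mem_powers_iff _ _ |>.mp
        (mem_powers_iff_mem_zpowers.mpr this)
      rw [QuaternionGroup.a_one_pow, eq_mul_inv_iff_mul_eq, eq_mul_inv_iff_mul_eq] at hm
      simp [QuaternionGroup.a_mul_xa, QuaternionGroup.xa_mul_a, QuaternionGroup.xa_mul_xa] at hm
  set c := a * (y * a * y⁻¹)⁻¹ with hc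
  have hca : c = a ^ (1 - j) * d⁻¹ := by
    rw [hc, hj, mul_inv_rev, hcomm d⁻¹ (inv_mem hd) (a ^ j)⁻¹ |>.symm, ← mul_assoc, zpow_sub,
      zpow_one]
  have hcomd : ∀ i : ℤ, ∀ d ∈ N, Commute (a ^ i) d := fun i d hd => hcomm d hd _
  have hyc : y * c * y⁻¹ = c ^ j := by
    have h1 : y * c * y⁻¹ = (y * a * y⁻¹) ^ (1 - j) * d⁻¹ := by
      rw [hca, conj_zpow]
      have := hcomm d⁻¹ (inv_mem hd) y⁻¹
      simp only [mul_assoc]; rw [← this]
    rw [h1, hj, hca, (hcomd j d hd).mul_zpow, (hcomd (1 - j) d⁻¹ (inv_mem hd)).mul_zpow,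
      ← zpow_mul, ← zpow_mul, mul_comm j, inv_zpow', mul_assoc, ← zpow_neg_one d, ← zpow_add]
    congr 2
    ring
  set C := Subgroup.zpowers c with hC
  have hfix : ∀ g : S, g * c * g⁻¹ ∈ C → g ∈ Subgroup.normalizer (C : Set S) := by
    intro g hg
    have hle : C.map (MulAut.conj g).toMonoidHom ≤ C := by
      rintro _ ⟨x, hx, rfl⟩
      obtain ⟨i, rfl⟩ := hx
      simpa [conj_zpow] using zpow_mem hg i
    have heq := Subgroup.eq_of_le_of_card_ge hle
      (Subgroup.card_map_of_injective (MulAut.conj g).injective).ge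
    rw [Subgroup.mem_normalizer_iff]
    intro x
    conv_rhs => rw [← heq]
    exact (Subgroup.mem_map_iff_mem (f := (MulAut.conj g).toMonoidHom) (MulAut.conj g).injective).symm
  have hAc : ∀ s ∈ A, s * c * s⁻¹ = c := by
    intro s hs
    obtain ⟨i, e', he', rfl⟩ := hAform s hs
    rw [mul_inv_eq_iff_eq_mul, hca]
    have h1 := hcomd (1 - j) e' he'
    have h2 := hcomm d⁻¹ (inv_mem hd)
    calc a ^ i * e' * (a ^ (1 - j) * d⁻¹) = a ^ i * (e' * a ^ (1 - j)) * d⁻¹ := by group
    _ = a ^ (1 - j) * a ^ i * e' * d⁻¹ := by rw [← h1.eq]; group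
    _ = a ^ (1 - j) * d⁻¹ * (a ^ i * e') := by rw [mul_assoc _ _ d⁻¹, mul_assoc _ (a ^ i),
        ← mul_assoc _ _ d⁻¹, h2 (a ^ i * e')]; group
  have hCn : C.Normal := by
    rw [← Subgroup.normalizer_eq_top_iff, eq_top_iff]
    intro s _
    rcases hcases s with h | h
    · exact hfix s (by rw [hAc s h]; exact Subgroup.mem_zpowers c)
    · have h1 := hfix (s * y⁻¹) (by rw [hAc _ h]; exact Subgroup.mem_zpowers c)
      have h2 := hfix y (by rw [hyc]; exact zpow_mem (Subgroup.mem_zpowers c) j)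
      simpa using mul_mem h1 h2
  haveI := hCn
  let q := QuotientGroup.mk' C
  have hay : Commute (q a) (q y) := by
    have : q c = 1 := (QuotientGroup.eq_one_iff c).mpr (Subgroup.mem_zpowers c)
    rw [hc, map_mul, map_inv, mul_inv_eq_one, map_mul, map_mul, map_inv, eq_mul_inv_iff_mul_eq] at this
    exact this
  have hAA : ∀ s ∈ A, ∀ t ∈ A, Commute (q s) (q t) ∧ Commute (q s) (q y) := by
    intro s hs t ht
    obtain ⟨i, u, hu', rfl⟩ := hAform s hs
    obtain ⟨l, v, hv', rfl⟩ := hAform t ht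
    constructor
    · refine Commute.map ?_ q
      exact ((Commute.zpow_zpow_self a i l).mul_right (hcomd i v hv')).mul_left
        ((hcomd l u hu').symm.mul_right (hcomm v hv' u))
    · rw [map_mul, map_zpow]
      exact (hay.zpow_left i).mul_left ((Commute.map (show Commute u y from (hcomm u hu' y).symm) q))
  have hle : commutator S ≤ C := by
    rw [commutator_def, Subgroup.commutator_le]
    intro s _ t _
    rw [← QuotientGroup.eq_one_iff]
    show q ⁅s, t⁆ = 1
    rw [map_commutatorElement, commutatorElement_eq_one_iff_commute]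
    have split : ∀ s : S, (∃ s' ∈ A, q s = q s') ∨ (∃ s' ∈ A, q s = q s' * q y) := by
      intro s
      rcases hcases s with h | h
      · exact Or.inl ⟨s, h, rfl⟩
      · exact Or.inr ⟨_, h, by rw [← map_mul, inv_mul_cancel_right]⟩
    rcases split s with ⟨s', hs', es⟩ | ⟨s', hs', es⟩ <;>
      rcases split t with ⟨t', ht', et⟩ | ⟨t', ht', et⟩ <;> rw [es, et]
    · exact (hAA s' hs' t' ht').1
    · exact (hAA s' hs' t' ht').1.mul_right (hAA s' hs' t' ht').2
    · exact (hAA s' hs' t' ht').1.mul_left (hAA t' ht' s' hs').2.symm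
    · exact ((hAA s' hs' t' ht').1.mul_right (hAA s' hs' t' ht').2).mul_left
        ((hAA t' ht' s' hs').2.symm.mul_right (Commute.refl _))
  refine ⟨commutator S, ?_, isCyclic_of_injective (Subgroup.inclusion hle) (Subgroup.inclusion_injective hle),
    inferInstance⟩
  intro hbot
  apply hna
  refine ⟨⟨fun u v => ?_⟩⟩
  obtain ⟨s, rfl⟩ := QuotientGroup.mk'_surjective N u
  obtain ⟨t, rfl⟩ := QuotientGroup.mk'_surjective N v
  refine (Commute.map ?_ _).eq
  rw [← commutatorElement_eq_one_iff_commute, ← Subgroup.mem_bot, ← hbot]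
  exact Subgroup.commutator_mem_commutator (Subgroup.mem_top s) (Subgroup.mem_top t)

end Cfsg.Agent.S3202
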