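import Cfsg.Statements.S3208
import Mathlib.GroupTheory.Sylow
import Mathlib.GroupTheory.Nilpotent
import Mathlib.Tactic.IntervalCases

set_option autoImplicit false
open Cfsg

namespace Cfsg.Agent.S3208

/-- Let j be an involution of a finite group G, H a subgroup of G, and T a Sylow 2-subgroup of H ∩ C_G(j) containing j such that ⟨j⟩ is a characteristic subgroup of T. Then T is a Sylow 2-subgroup of H. -/
theorem result {G : Type*} [Group G] [Finite G]
    (j : G) (hj : orderOf j = 2) (H T : Subgroup G) (hT : T ≤ H ⊓ Subgroup.centralizer ({j} : Set G)) (h2 : IsPGroup 2 ↥T)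
    (hSyl : ¬ 2 ∣ T.relIndex (H ⊓ Subgroup.centralizer ({j} : Set G))) (hjT : j ∈ T)
    (hchar : ((Subgroup.zpowers j).subgroupOf T).Characteristic) :
    ¬ 2 ∣ T.relIndex H := by
  classical
  have : Fact (Nat.Prime 2) := ⟨Nat.prime_two⟩
  have hTC : T ≤ Subgroup.centralizer ({j} : Set G) := hT.trans inf_le_right
  have hp : IsPGroup 2 ↥(T.subgroupOf H) := h2.comap_of_injective H.subtype H.subtype_injective
  obtain ⟨P, hP⟩ := hp.exists_le_sylow
  have key : (T.subgroupOf H) = (P : Subgroup H) := by
    refine le_antisymm hP ?_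
    by_contra hne
    have hne' : (T.subgroupOf H).subgroupOf (P : Subgroup H) < ⊤ := by
      rw [lt_top_iff_ne_top, Ne, Subgroup.subgroupOf_eq_top]
      exact hne
    have : Finite ↥(P : Subgroup H) := inferInstance
    have hnc := Group.normalizerCondition_of_isNilpotent (h := P.isPGroup'.isNilpotent)
    obtain ⟨x, hx, hxT⟩ := SetLike.exists_of_lt (hnc _ hne')
    have hxnorm : ∀ t ∈ T, ((x : H) : G) * t * ((x : H) : G)⁻¹ ∈ T := by
      intro t ht
      have htH : t ∈ H := (hT ht).1
      have := (Subgroup.mem_normalizer_iff.1 hx ⟨⟨t, htH⟩, hP ht⟩).1 ht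
      exact this
    have hxC : ((x : H) : G) ∈ Subgroup.centralizer ({j} : Set G) := by
      set g : G := ((x : H) : G)
      have hm : T.map (MulAut.conj g).toMonoidHom = T := by
        apply Subgroup.eq_of_le_of_card_ge
        · rintro _ ⟨t, ht, rfl⟩; exact hxnorm t ht
        · rw [Subgroup.card_map_of_injective (MulEquiv.injective _)]
      let φ : T ≃* T := ((MulAut.conj g).subgroupMap T).trans (MulEquiv.subgroupCongr hm)
      have h1 : g * j * g⁻¹ ∈ Subgroup.zpowers j := by
        have h : (⟨j, hjT⟩ : T) ∈ ((Subgroup.zpowers j).subgroupOf T).comap φ.toMonoidHom := by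
          rw [hchar.fixed φ]; exact Subgroup.mem_zpowers j
        exact h
      rw [mem_zpowers_iff_mem_range_orderOf, hj] at h1
      simp only [Finset.mem_image, Finset.mem_range] at h1
      obtain ⟨i, hi, hi'⟩ := h1
      interval_cases i
      · have : j = 1 := by simpa [eq_comm, mul_inv_eq_one] using hi'
        rw [this, orderOf_one] at hj; omega
      · rw [pow_one, eq_mul_inv_iff_mul_eq] at hi'
        rw [Subgroup.mem_centralizer_singleton_iff]; exact hi'.symm
    apply hSyl
    set C := H ⊓ Subgroup.centralizer ({j} : Set G)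
    set U := ((P : Subgroup H).map H.subtype) ⊓ Subgroup.centralizer ({j} : Set G)
    have hU : IsPGroup 2 ↥U := (P.isPGroup'.map H.subtype).to_le inf_le_left
    have hTU : T ≤ U := fun t ht => ⟨⟨⟨t, (hT ht).1⟩, hP ht, rfl⟩, hTC ht⟩
    have hUC : U ≤ C := by
      rintro _ ⟨⟨u, _, rfl⟩, hu⟩; exact ⟨u.2, hu⟩
    rw [← Subgroup.relIndex_mul_relIndex T U C hTU hUC]
    apply dvd_mul_of_dvd_left
    obtain ⟨n, hn⟩ := (hU.index (T.subgroupOf U))
    rw [Subgroup.relIndex, hn]
    rcases n with _ | n
    · exfalso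
      have h1 : T.relIndex U = 1 := by rw [Subgroup.relIndex, hn, pow_zero]
      exact hxT ((Subgroup.relIndex_eq_one.1 h1) ⟨⟨(x : H), x.2, rfl⟩, hxC⟩)
    · exact dvd_pow_self _ (by omega)
  rw [Subgroup.relIndex, key]
  exact P.not_dvd_index

end Cfsg.Agent.S3208
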