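import Cfsg.Statements.S3209
import Cfsg.Agent.SLTwoSq.Basic
import Mathlib.GroupTheory.OrderOfElement

set_option autoImplicit false
open Cfsg

namespace Cfsg.Agent.S3209

theorem sl2_facts {G : Type*} [Group G] {F : Type*} [Field F] [Fintype F] (L : Subgroup G)
    (e : ↥L ≃* Matrix.SpecialLinearGroup (Fin 2) F) (h2 : (2 : F) ≠ 0) (j : G) (hjj : j * j = 1) (hj1 : j ≠ 1) (hjL' : j ∈ L) :
    (∃ a ∈ L, a * a = j) ∧ (∀ a ∈ L, a * a = 1 → a = 1 ∨ a = j) ∧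
      (∀ a ∈ L, ∀ b ∈ L, a * a = j → b * b = j → ∃ g ∈ L, g * a * g⁻¹ = b) := by
  have hej : e ⟨j, hjL'⟩ = CfsgLib.SLTwoSq.negOne F := by
    rcases CfsgLib.SLTwoSq.sq_eq_one h2 (e ⟨j, hjL'⟩) (by rw [← map_mul, show (⟨j, hjL'⟩ : L) * ⟨j, hjL'⟩ = 1 from Subtype.ext hjj, map_one]) with h | h
    · exact absurd (congrArg Subtype.val (e.injective (h.trans (map_one e).symm))) hj1
    · exact h
  refine ⟨?_, fun a ha haa => ?_, fun a ha b hb haa hbb => ?_⟩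
  · refine ⟨(e.symm (CfsgLib.SLTwoSq.rot F) : G), (e.symm _).2, ?_⟩
    have : e.symm (CfsgLib.SLTwoSq.rot F) * e.symm (CfsgLib.SLTwoSq.rot F) = ⟨j, hjL'⟩ := by
      apply e.injective
      rw [map_mul, e.apply_symm_apply, hej, CfsgLib.SLTwoSq.rot_sq]
    exact congrArg Subtype.val this
  · rcases CfsgLib.SLTwoSq.sq_eq_one h2 (e ⟨a, ha⟩) (by rw [← map_mul, show (⟨a, ha⟩ : L) * ⟨a, ha⟩ = 1 from Subtype.ext haa, map_one]) with h | h
    · exact Or.inl (congrArg Subtype.val (e.injective (h.trans (map_one e).symm)))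
    · exact Or.inr (congrArg Subtype.val (e.injective (h.trans hej.symm)))
  · obtain ⟨P, hP⟩ := CfsgLib.SLTwoSq.exists_conj_of_sq_eq_neg_one h2 (e ⟨a, ha⟩) (e ⟨b, hb⟩)
      (by rw [← map_mul, show (⟨a, ha⟩ : L) * ⟨a, ha⟩ = ⟨j, hjL'⟩ from Subtype.ext haa, hej])
      (by rw [← map_mul, show (⟨b, hb⟩ : L) * ⟨b, hb⟩ = ⟨j, hjL'⟩ from Subtype.ext hbb, hej])
    refine ⟨(e.symm P : G), (e.symm P).2, ?_⟩
    have : e.symm P * ⟨a, ha⟩ * (e.symm P)⁻¹ = ⟨b, hb⟩ := by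
      apply e.injective; rw [map_mul, map_mul, map_inv, e.apply_symm_apply, hP]
    exact congrArg Subtype.val this

/-- Let L₁ ≅ SL₂(q₁) and L₂ ≅ SL₂(q₂), q₁ and q₂ odd, be elementwise-commuting subgroups of a finite group meeting in ⟨j⟩ for an involution j. Then L₁L₂ has exactly two conjugacy classes of involutions: the central involution j, and one further class (there is an involution x ≠ j in L₁L₂, and every involution of L₁L₂ other than j is conjugate to x by an element of L₁L₂). -/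
theorem result {G : Type*} [Group G] [Finite G]
    {F₁ : Type*} [Field F₁] [Fintype F₁] {F₂ : Type*} [Field F₂] [Fintype F₂]
    (hF₁ : Odd (Fintype.card F₁)) (hF₂ : Odd (Fintype.card F₂)) (L₁ L₂ : Subgroup G)
    (e₁ : ↥L₁ ≃* Matrix.SpecialLinearGroup (Fin 2) F₁) (e₂ : ↥L₂ ≃* Matrix.SpecialLinearGroup (Fin 2) F₂)
    (hc : ∀ x ∈ L₁, ∀ y ∈ L₂, x * y = y * x) (j : G) (hj : orderOf j = 2) (hm : L₁ ⊓ L₂ = Subgroup.zpowers j) :
    ∃ x ∈ L₁ ⊔ L₂, orderOf x = 2 ∧ x ≠ j ∧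
      ∀ y ∈ L₁ ⊔ L₂, orderOf y = 2 → y = j ∨ ∃ g ∈ L₁ ⊔ L₂, g * x * g⁻¹ = y := by
  classical
  have h2F : (2 : F₁) ≠ 0 ∧ (2 : F₂) ≠ 0 := ⟨Ring.two_ne_zero (CfsgLib.SLTwoSq.ringChar_ne_two hF₁), Ring.two_ne_zero (CfsgLib.SLTwoSq.ringChar_ne_two hF₂)⟩
  have hjj : j * j = 1 := by rw [← pow_two, ← hj]; exact pow_orderOf_eq_one j
  have hj1 : j ≠ 1 := fun h => by rw [h, orderOf_one] at hj; omega
  have hjL : j ∈ L₁ ⊓ L₂ := hm ▸ Subgroup.mem_zpowers j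
  have hzp : ∀ x ∈ L₁ ⊓ L₂, x = 1 ∨ x = j := by
    intro x hx
    rw [hm, Subgroup.mem_zpowers_iff] at hx
    obtain ⟨i, rfl⟩ := hx
    rw [← zpow_mod_orderOf, hj]
    rcases (by omega : i % (2:ℕ) = 0 ∨ i % (2:ℕ) = 1) with h0 | h0 <;> rw [h0] <;> simp
  obtain ⟨⟨a₀, ha₀, haa⟩, hu₁, hc₁⟩ := sl2_facts L₁ e₁ h2F.1 j hjj hj1 hjL.1
  obtain ⟨⟨b₀, hb₀, hbb⟩, hu₂, hc₂⟩ := sl2_facts L₂ e₂ h2F.2 j hjj hj1 hjL.2
  have hsq : ∀ a ∈ L₁, ∀ b ∈ L₂, a * b * (a * b) = (a * a) * (b * b) := fun a ha b hb => by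
    simp only [mul_assoc]; rw [← mul_assoc b a b, ← hc a ha b hb]; simp only [mul_assoc]
  have hxne : a₀ * b₀ ≠ j ∧ a₀ * b₀ ≠ 1 := by
    have main : ∀ w ∈ L₁ ⊓ L₂, a₀ * b₀ ≠ w := by
      intro w hw h
      have hb1 : b₀ ∈ L₁ := by
        have : b₀ = a₀⁻¹ * w := by rw [← h, inv_mul_cancel_left]
        rw [this]; exact mul_mem (inv_mem ha₀) hw.1
      rcases hzp b₀ ⟨hb1, hb₀⟩ with h' | h' <;> rw [h'] at hbb
      · exact hj1 (by simpa using hbb.symm)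
      · rw [hjj] at hbb; exact hj1 hbb.symm
    exact ⟨main j hjL, main 1 (one_mem _)⟩
  refine ⟨a₀ * b₀, mul_mem (Subgroup.mem_sup_left ha₀) (Subgroup.mem_sup_right hb₀), ?_, hxne.1, ?_⟩
  · refine orderOf_eq_prime ?_ hxne.2
    rw [pow_two, hsq a₀ ha₀ b₀ hb₀, haa, hbb, hjj]
  intro z hz hz2
  obtain ⟨a, ha, b, hb, rfl⟩ : ∃ a ∈ L₁, ∃ b ∈ L₂, a * b = z := by
    rw [Subgroup.sup_eq_closure] at hz
    clear hz2
    induction hz using Subgroup.closure_induction with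
    | mem u hu =>
      rcases hu with hu | hu
      · exact ⟨u, hu, 1, one_mem _, mul_one u⟩
      · exact ⟨1, one_mem _, u, hu, one_mul u⟩
    | one => exact ⟨1, one_mem _, 1, one_mem _, one_mul 1⟩
    | mul u v _ _ hu hv =>
      obtain ⟨a, ha, b, hb, rfl⟩ := hu
      obtain ⟨c, hc', d, hd, rfl⟩ := hv
      refine ⟨a * c, mul_mem ha hc', b * d, mul_mem hb hd, ?_⟩
      simp only [mul_assoc]; rw [← mul_assoc c b d, hc c hc' b hb, mul_assoc]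
    | inv u _ hu =>
      obtain ⟨a, ha, b, hb, rfl⟩ := hu
      exact ⟨a⁻¹, inv_mem ha, b⁻¹, inv_mem hb, by rw [mul_inv_rev, hc _ (inv_mem ha) _ (inv_mem hb)]⟩
  have hone : (a * a) * (b * b) = 1 := by
    rw [← hsq a ha b hb, ← pow_two, ← hz2]; exact pow_orderOf_eq_one _
  have hbb' : b * b = (a * a)⁻¹ := eq_inv_of_mul_eq_one_right hone
  have hz1 : a * b ≠ 1 := fun h => by rw [h, orderOf_one] at hz2; omega
  rcases hzp (a * a) ⟨mul_mem ha ha, by show a * a ∈ L₂; rw [← inv_inv (a * a), ← hbb']; exact inv_mem (mul_mem hb hb)⟩ with h | h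
  · left
    rw [h, inv_one] at hbb'
    rcases hu₁ a ha h with rfl | rfl <;> rcases hu₂ b hb hbb' with rfl | rfl
    · exact absurd (one_mul 1) hz1
    · exact one_mul _
    · exact mul_one _
    · exact absurd hjj hz1
  · right
    rw [h, inv_eq_of_mul_eq_one_left hjj] at hbb'
    obtain ⟨g, hg, hga⟩ := hc₁ a₀ ha₀ a ha haa h
    obtain ⟨k, hk, hkb⟩ := hc₂ b₀ hb₀ b hb hbb hbb'
    refine ⟨g * k, mul_mem (Subgroup.mem_sup_left hg) (Subgroup.mem_sup_right hk), ?_⟩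
    have ck : ∀ u ∈ L₁, k * u * k⁻¹ = u := fun u hu => by rw [← hc u hu k hk, mul_inv_cancel_right]
    have cg : ∀ u ∈ L₂, g * u * g⁻¹ = u := fun u hu => by rw [hc g hg u hu, mul_inv_cancel_right]
    calc g * k * (a₀ * b₀) * (g * k)⁻¹ = g * ((k * a₀ * k⁻¹) * (k * b₀ * k⁻¹)) * g⁻¹ := by simp [mul_assoc]
      _ = (g * a₀ * g⁻¹) * (g * b * g⁻¹) := by rw [ck a₀ ha₀, hkb]; simp [mul_assoc]
      _ = a * b := by rw [hga, cg b hb]

end Cfsg.Agent.S3209
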