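import Cfsg.Statements.S3210
import Cfsg.Agent.SL2.PSL
import Cfsg.Agent.H29.Dickson.Solvable

set_option autoImplicit false
open Cfsg

namespace Cfsg.Agent.S3210

open Matrix

section Aux

variable {F : Type*} [Field F] [Fintype F]

theorem two_ne_zero_of_odd (h : Odd (Fintype.card F)) : (2 : F) ≠ 0 := by
  intro h2
  have hc : ringChar F = 2 := by
    have := (CharP.cast_eq_zero_iff F (ringChar F) 2).mp (by exact_mod_cast h2)
    rcases (Nat.dvd_prime Nat.prime_two).mp this with e | e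
    · exact absurd e (CharP.ringChar_ne_one)
    · exact e
  have := FiniteField.even_card_of_char_two hc
  rcases h with ⟨k, hk⟩
  omega

theorem center_PSL_eq_bot (h : Odd (Fintype.card F)) :
    Subgroup.center (ProjectiveSpecialLinearGroup (Fin 2) F) = ⊥ := by
  have h2 := two_ne_zero_of_odd h
  rw [eq_bot_iff]
  intro x hx
  obtain ⟨g, rfl⟩ := CfsgLib.SL2.proj_surjective x
  rw [Subgroup.mem_bot, CfsgLib.SL2.proj_eq_one_iff]
  have hz : ∀ u : F, u = -u → u = 0 := fun u hu => by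
    have : 2 * u = 0 := by linear_combination hu
    exact (mul_eq_zero.mp this).resolve_left h2
  have hu := CfsgLib.SL2.commute_proj_iff.mp (Subgroup.mem_center_iff.mp hx
    (CfsgLib.SL2.proj (CfsgLib.SL2.upperU 1)))
  have hl := CfsgLib.SL2.commute_proj_iff.mp (Subgroup.mem_center_iff.mp hx
    (CfsgLib.SL2.proj (CfsgLib.SL2.lowerU 1)))
  have hd := CfsgLib.SL2.det_eq g
  have key : g.1 1 0 = 0 ∧ g.1 0 1 = 0 ∧ g.1 0 0 = g.1 1 1 := by
    rcases hu with e | e
    · have e00 := congrArg (fun m : SpecialLinearGroup (Fin 2) F => m.1 0 0) e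
      have e01 := congrArg (fun m : SpecialLinearGroup (Fin 2) F => m.1 0 1) e
      simp [Matrix.mul_apply, Fin.sum_univ_two] at e00 e01
      rcases hl with e' | e'
      · have f00 := congrArg (fun m : SpecialLinearGroup (Fin 2) F => m.1 0 0) e'
        simp [Matrix.mul_apply, Fin.sum_univ_two] at f00
        exact ⟨e00, f00, by linear_combination -e01⟩
      · exfalso
        have f11 := congrArg (fun m : SpecialLinearGroup (Fin 2) F => m.1 1 1) e'
        have f01 := congrArg (fun m : SpecialLinearGroup (Fin 2) F => m.1 0 1) e'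
        simp [Matrix.mul_apply, Fin.sum_univ_two] at f11 f01
        have hb : g.1 0 1 = 0 := hz _ (by linear_combination f01)
        have ha : g.1 1 1 = 0 := hz _ (by linear_combination f11 - hb)
        exact one_ne_zero (hd.symm.trans (by rw [hb, ha]; ring))
    · exfalso
      have e00 := congrArg (fun m : SpecialLinearGroup (Fin 2) F => m.1 0 0) e
      have e10 := congrArg (fun m : SpecialLinearGroup (Fin 2) F => m.1 1 0) e
      simp [Matrix.mul_apply, Fin.sum_univ_two] at e00 e10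
      have hc : g.1 1 0 = 0 := hz _ (by linear_combination e10)
      have ha : g.1 0 0 = 0 := hz _ (by linear_combination e00 - hc)
      exact one_ne_zero (hd.symm.trans (by rw [hc, ha]; ring))
  exact CfsgLib.SL2.eq_one_or_neg_one_of_scalar g key.2.1 key.1 key.2.2

theorem card_center_two (h : Odd (Fintype.card F)) :
    Nat.card (Subgroup.center (SpecialLinearGroup (Fin 2) F)) = 2 := by
  rw [CfsgLib.SL2.card_center_eq_gcd]
  obtain ⟨k, hk⟩ := h
  exact Nat.gcd_eq_left ⟨k, by omega⟩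

theorem three_le_card (h : Odd (Fintype.card F)) : 3 ≤ Fintype.card F := by
  have := Fintype.one_lt_card (α := F)
  obtain ⟨k, hk⟩ := h
  omega

theorem card_SL_gt_two (h : Odd (Fintype.card F)) :
    2 < Nat.card (SpecialLinearGroup (Fin 2) F) := by
  rw [CfsgLib.SL2.card_SL2]
  have h3 := three_le_card h
  have : 8 ≤ Fintype.card F ^ 2 - 1 := by
    have : 9 ≤ Fintype.card F ^ 2 := by nlinarith
    omega
  nlinarith

theorem comm_of_card_lt_six {H : Type*} [Group H] [Finite H] (hne : Nat.card H < 6) (a b : H) :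
    a * b = b * a := by
  have h0 : 0 < Nat.card H := Nat.card_pos
  have hc : Nat.card H = 1 ∨ Nat.card H = 2 ∨ Nat.card H = 3 ∨ Nat.card H = 2 ^ 2 ∨ Nat.card H = 5 := by
    omega
  rcases hc with e | e | e | e | e
  · haveI := (Nat.card_eq_one_iff_unique.mp e).1
    exact Subsingleton.elim _ _
  · haveI := Fact.mk Nat.prime_two
    haveI : IsCyclic H := isCyclic_of_prime_card e
    exact mul_comm' a b
  · haveI := Fact.mk Nat.prime_three
    haveI : IsCyclic H := isCyclic_of_prime_card e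
    exact mul_comm' a b
  · haveI := Fact.mk Nat.prime_two
    haveI := IsPGroup.isMulCommutative_of_card_eq_prime_sq e
    exact mul_comm' a b
  · haveI := Fact.mk (show Nat.Prime 5 by norm_num)
    haveI : IsCyclic H := isCyclic_of_prime_card e
    exact mul_comm' a b

/-- `PSL₂(q)`, `q` odd, has no decomposition into commuting subgroups. -/
theorem psl_indecomposable (h : Odd (Fintype.card F))
    (A B : Subgroup (ProjectiveSpecialLinearGroup (Fin 2) F)) (hsup : A ⊔ B = ⊤)
    (hc : ∀ a ∈ A, ∀ b ∈ B, a * b = b * a) : A = ⊥ ∨ B = ⊥ := by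
  have hz := center_PSL_eq_bot h
  have hcent : ∀ g, (∀ a ∈ A, g * a = a * g) → (∀ b ∈ B, g * b = b * g) → g = 1 := by
    intro g hA hB
    have hg : g ∈ Subgroup.center (ProjectiveSpecialLinearGroup (Fin 2) F) := by
      rw [Subgroup.mem_center_iff]
      intro x
      have : A ⊔ B ≤ Subgroup.centralizer {g} := sup_le
        (fun a ha => Subgroup.mem_centralizer_singleton_iff.mpr (hA a ha).symm)
        (fun b hb => Subgroup.mem_centralizer_singleton_iff.mpr (hB b hb).symm)
      rw [hsup] at this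
      exact Subgroup.mem_centralizer_singleton_iff.mp (this (Subgroup.mem_top x))
    rwa [hz, Subgroup.mem_bot] at hg
  have hdisj : ∀ g ∈ A, g ∈ B → g = 1 := fun g hA hB =>
    hcent g (fun a ha => (hc a ha g hB).symm) (fun b hb => hc g hA b hb)
  by_cases h5 : 4 ≤ Fintype.card F
  · haveI := (CfsgLib.H29.Dickson.not_solvable_PSL h5).1
    haveI hAn : A.Normal := by
      rw [← Subgroup.normalizer_eq_top_iff, eq_top_iff, ← hsup]
      refine sup_le Subgroup.le_normalizer fun b hb => ?_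
      rw [Subgroup.mem_normalizer_iff]
      intro a
      constructor
      · intro ha; rw [← hc a ha b hb, mul_inv_cancel_right]; exact ha
      · intro ha
        have := hc _ ha b hb
        have e : b * a * b⁻¹ = a := by
          have h' : b⁻¹ * (b * a * b⁻¹ * b) = b⁻¹ * (b * (b * a * b⁻¹)) := by rw [this]
          have h'' : a = b * a * b⁻¹ := by
            calc a = b⁻¹ * (b * a * b⁻¹ * b) := by group
              _ = b⁻¹ * (b * (b * a * b⁻¹)) := h'
              _ = b * a * b⁻¹ := by group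
          exact h''.symm
        rwa [e] at ha
    rcases hAn.eq_bot_or_eq_top with e | e
    · exact Or.inl e
    · right
      rw [eq_bot_iff]
      intro b hb
      exact Subgroup.mem_bot.mpr (hdisj b (by rw [e]; trivial) hb)
  · by_contra hcon
    push Not at hcon
    obtain ⟨hA0, hB0⟩ := hcon
    have big : ∀ X Y : Subgroup (ProjectiveSpecialLinearGroup (Fin 2) F), X ⊔ Y = A ⊔ B →
        (∀ a ∈ X, ∀ b ∈ Y, a * b = b * a) → X ≠ ⊥ → 6 ≤ Nat.card X := by
      intro X Y hXY hcXY hX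
      by_contra hlt
      refine hX ((Subgroup.eq_bot_iff_forall _).mpr fun x hx => ?_)
      have hxc : x ∈ Subgroup.center (ProjectiveSpecialLinearGroup (Fin 2) F) := by
        rw [Subgroup.mem_center_iff]
        intro z
        have : X ⊔ Y ≤ Subgroup.centralizer {x} := sup_le
          (fun a ha => Subgroup.mem_centralizer_singleton_iff.mpr
            (congrArg Subtype.val (comm_of_card_lt_six (by omega) (⟨a, ha⟩ : X) ⟨x, hx⟩)))
          (fun b hb => Subgroup.mem_centralizer_singleton_iff.mpr (hcXY x hx b hb).symm)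
        rw [hXY, hsup] at this
        exact Subgroup.mem_centralizer_singleton_iff.mp (this (Subgroup.mem_top z))
      rwa [hz, Subgroup.mem_bot] at hxc
    have hA6 := big A B rfl hc hA0
    have hB6 := big B A (sup_comm _ _) (fun b hb a ha => (hc a ha b hb).symm) hB0
    have hle : Nat.card A * Nat.card B ≤ Nat.card (ProjectiveSpecialLinearGroup (Fin 2) F) := by
      rw [← Nat.card_prod]
      refine Nat.card_le_card_of_injective (fun x : A × B => (x.1 : ProjectiveSpecialLinearGroup (Fin 2) F) * x.2) ?_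
      rintro ⟨a, b⟩ ⟨a', b'⟩ e
      simp only at e
      have e2 : (a' : ProjectiveSpecialLinearGroup (Fin 2) F)⁻¹ * a = (b' : ProjectiveSpecialLinearGroup (Fin 2) F) * (b : ProjectiveSpecialLinearGroup (Fin 2) F)⁻¹ := by
        rw [eq_mul_inv_iff_mul_eq, mul_assoc, e, inv_mul_cancel_left]
      have h1 := hdisj _ (A.mul_mem (A.inv_mem a'.2) a.2) (by rw [e2]; exact B.mul_mem b'.2 (B.inv_mem b.2))
      have h3 : (a' : ProjectiveSpecialLinearGroup (Fin 2) F) = a := inv_mul_eq_one.mp h1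
      rw [h3] at e
      exact Prod.ext (Subtype.ext h3.symm) (Subtype.ext (mul_left_cancel e))
    have hq3 : Fintype.card F = 3 := by
      have := three_le_card h
      omega
    have hcard := CfsgLib.SL2.card_PSL_mul F
    rw [card_center_two h, hq3] at hcard
    have h36 : 36 ≤ Nat.card A * Nat.card B := Nat.mul_le_mul hA6 hB6
    norm_num at hcard
    omega

end Aux

/-- the intersection of the central product is the centre of each factor. -/
theorem meet_center {G : Type*} [Group G] {F : Type*} [Field F] (L L' : Subgroup G) (j : G)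
    (hjne : j ≠ 1) (e : ↥L ≃* SpecialLinearGroup (Fin 2) F)
    (hc : ∀ x ∈ L, ∀ y ∈ L', x * y = y * x) (hjL : j ∈ L ⊓ L') (x : G) (hx : x ∈ L) :
    x ∈ L' ↔ e ⟨x, hx⟩ ∈ Subgroup.center (SpecialLinearGroup (Fin 2) F) := by
  have hcen : ∀ y ∈ L', ∀ hy : y ∈ L,
      e ⟨y, hy⟩ ∈ Subgroup.center (SpecialLinearGroup (Fin 2) F) := by
    intro y hy hy'
    rw [Subgroup.mem_center_iff]
    intro g
    obtain ⟨l, rfl⟩ := e.surjective g
    rw [← map_mul, ← map_mul]
    exact congrArg e (Subtype.ext (hc l l.2 y hy))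
  refine ⟨fun h => hcen x h hx, fun h => ?_⟩
  rcases (CfsgLib.SL2.mem_center_iff _).mp h with h1 | h1
  · have : (⟨x, hx⟩ : L) = 1 := e.injective (h1.trans (map_one e).symm)
    rw [show x = 1 from congrArg Subtype.val this]
    exact L'.one_mem
  · rcases (CfsgLib.SL2.mem_center_iff _).mp (hcen j hjL.2 hjL.1) with hj' | hj'
    · exact absurd (congrArg Subtype.val (e.injective (hj'.trans (map_one e).symm))) hjne
    · rw [show x = j from congrArg Subtype.val (e.injective (h1.trans hj'.symm))]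
      exact hjL.2

/-- if `M₁, M₂` commute and generate a group containing `L ≅ SL₂` as a factor of a central
product, one of them lies in the other factor. -/
theorem le_other {G : Type*} [Group G] {F : Type*} [Field F] [Fintype F] (hF : Odd (Fintype.card F))
    (L L' M₁ M₂ : Subgroup G) (e : ↥L ≃* SpecialLinearGroup (Fin 2) F)
    (hc : ∀ x ∈ L, ∀ y ∈ L', x * y = y * x)
    (hcM : ∀ x ∈ M₁, ∀ y ∈ M₂, x * y = y * x)
    (hM : M₁ ⊔ M₂ = L ⊔ L')
    (hmeet : ∀ (x : G) (hx : x ∈ L), x ∈ L' ↔ e ⟨x, hx⟩ ∈ Subgroup.center (SpecialLinearGroup (Fin 2) F)) :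
    M₁ ≤ L' ∨ M₂ ≤ L' := by
  let π : L →* ProjectiveSpecialLinearGroup (Fin 2) F := CfsgLib.SL2.proj.comp e.toMonoidHom
  have hker : ∀ x : L, π x = 1 ↔ (x : G) ∈ L' := fun x => by
    rw [hmeet x x.2]
    show CfsgLib.SL2.proj (e x) = 1 ↔ e x ∈ _
    rw [CfsgLib.SL2.proj, QuotientGroup.mk'_apply, QuotientGroup.eq_one_iff]
  let A : Subgroup L := (M₁ ⊔ L').subgroupOf L
  let B : Subgroup L := (M₂ ⊔ L').subgroupOf L
  have hM1 : M₁ ≤ L ⊔ L' := hM ▸ le_sup_left
  have hM2 : M₂ ≤ L ⊔ L' := hM ▸ le_sup_right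
  have hsplit : ∀ x ∈ L ⊔ L', ∃ a ∈ L, ∃ b ∈ L', x = a * b := by
    intro x hx
    have hn : L ≤ Subgroup.normalizer (L' : Set G) := fun a ha => by
      rw [Subgroup.mem_normalizer_iff]
      intro y
      constructor
      · intro hy; rw [hc a ha y hy, mul_inv_cancel_right]; exact hy
      · intro hy
        have := hc a ha _ hy
        have e' : a * y * a⁻¹ = y := by
          calc a * y * a⁻¹ = a⁻¹ * (a * (a * y * a⁻¹)) := by group
            _ = a⁻¹ * ((a * y * a⁻¹) * a) := by rw [this]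
            _ = y := by group
        rwa [e'] at hy
    rw [← SetLike.mem_coe, Subgroup.coe_mul_of_left_le_normalizer_right L L' hn] at hx
    obtain ⟨a, ha, b, hb, rfl⟩ := hx
    exact ⟨a, ha, b, hb, rfl⟩
  have hrep : ∀ M : Subgroup G, ∀ x : L, (x : G) ∈ M ⊔ L' → M ≤ L ⊔ L' →
      ∃ m ∈ M, ∃ b ∈ L', (x : G) = m * b := by
    intro M x hx hle
    have hn : M ≤ Subgroup.normalizer (L' : Set G) := fun m hm => by
      obtain ⟨a, ha, b, hb, rfl⟩ := hsplit m (hle hm)
      refine Subgroup.mul_mem _ ?_ (Subgroup.le_normalizer hb)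
      rw [Subgroup.mem_normalizer_iff]
      intro y
      constructor
      · intro hy; rw [hc a ha y hy, mul_inv_cancel_right]; exact hy
      · intro hy
        have := hc a ha _ hy
        have e' : a * y * a⁻¹ = y := by
          calc a * y * a⁻¹ = a⁻¹ * (a * (a * y * a⁻¹)) := by group
            _ = a⁻¹ * ((a * y * a⁻¹) * a) := by rw [this]
            _ = y := by group
        rwa [e'] at hy
    rw [← SetLike.mem_coe, Subgroup.coe_mul_of_left_le_normalizer_right M L' hn] at hx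
    obtain ⟨m, hm, b, hb, hxe⟩ := hx
    exact ⟨m, hm, b, hb, hxe.symm⟩
  have hcom : ∀ a ∈ A, ∀ b ∈ B, π a * π b = π b * π a := by
    intro a ha b hb
    rw [← map_mul, ← map_mul, ← inv_mul_eq_one, ← map_inv, ← map_mul, hker]
    obtain ⟨m₁, hm₁, c, hc', hae⟩ := hrep M₁ a (Subgroup.mem_subgroupOf.mp ha) hM1
    obtain ⟨m₂, hm₂, d, hd, hbe⟩ := hrep M₂ b (Subgroup.mem_subgroupOf.mp hb) hM2
    have hcd : ∀ y ∈ L', Commute (a : G) y := fun y hy => hc a a.2 y hy
    have hcd' : ∀ y ∈ L', Commute (b : G) y := fun y hy => hc b b.2 y hy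
    have e₁ : m₁ = (a : G) * c⁻¹ := by rw [hae, mul_inv_cancel_right]
    have e₂ : m₂ = (b : G) * d⁻¹ := by rw [hbe, mul_inv_cancel_right]
    have hab : ((a : G) * b) * (c⁻¹ * d⁻¹) = ((b : G) * a) * (d⁻¹ * c⁻¹) := by
      calc ((a : G) * b) * (c⁻¹ * d⁻¹) = (a * c⁻¹) * (b * d⁻¹) := by
            rw [mul_assoc, ← mul_assoc (b : G), (hcd' _ (L'.inv_mem hc')).eq]; group
        _ = (b * d⁻¹) * (a * c⁻¹) := by rw [← e₁, ← e₂]; exact hcM m₁ hm₁ m₂ hm₂
        _ = ((b : G) * a) * (d⁻¹ * c⁻¹) := by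
            rw [mul_assoc (b : G) d⁻¹, ← mul_assoc d⁻¹, ← (hcd _ (L'.inv_mem hd)).eq]; group
    have : ((a * b)⁻¹ * (b * a) : L) = ((c⁻¹ * d⁻¹) * (d⁻¹ * c⁻¹)⁻¹ : G) := by
      push_cast
      calc ((a : G) * b)⁻¹ * ((b : G) * a)
          = ((a : G) * b)⁻¹ * (((b : G) * a) * (d⁻¹ * c⁻¹)) * (d⁻¹ * c⁻¹)⁻¹ := by group
        _ = (c⁻¹ * d⁻¹) * (d⁻¹ * c⁻¹)⁻¹ := by rw [← hab]; group
    rw [this]
    exact L'.mul_mem (L'.mul_mem (L'.inv_mem hc') (L'.inv_mem hd))
      (L'.inv_mem (L'.mul_mem (L'.inv_mem hd) (L'.inv_mem hc')))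
  have hsup : A.map π ⊔ B.map π = ⊤ := by
    rw [eq_top_iff]
    intro z _
    obtain ⟨g, rfl⟩ := CfsgLib.SL2.proj_surjective z
    obtain ⟨x, rfl⟩ : ∃ x, e x = g := e.surjective g
    have hx : (x : G) ∈ M₁ ⊔ M₂ := hM ▸ Subgroup.mem_sup_left x.2
    have hn : M₁ ≤ Subgroup.normalizer (M₂ : Set G) := fun a ha => by
      rw [Subgroup.mem_normalizer_iff]
      intro y
      constructor
      · intro hy; rw [hcM a ha y hy, mul_inv_cancel_right]; exact hy
      · intro hy
        have := hcM a ha _ hy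
        have e' : a * y * a⁻¹ = y := by
          calc a * y * a⁻¹ = a⁻¹ * (a * (a * y * a⁻¹)) := by group
            _ = a⁻¹ * ((a * y * a⁻¹) * a) := by rw [this]
            _ = y := by group
        rwa [e'] at hy
    rw [← SetLike.mem_coe, Subgroup.coe_mul_of_left_le_normalizer_right M₁ M₂ hn] at hx
    obtain ⟨m₁, hm₁, m₂, hm₂, hxe⟩ := hx
    obtain ⟨a₁, ha₁, b₁, hb₁, hm₁e⟩ := hsplit m₁ (hM1 hm₁)
    obtain ⟨a₂, ha₂, b₂, hb₂, hm₂e⟩ := hsplit m₂ (hM2 hm₂)
    have hA : (⟨a₁, ha₁⟩ : L) ∈ A := Subgroup.mem_subgroupOf.mpr (by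
      show a₁ ∈ M₁ ⊔ L'
      rw [show a₁ = m₁ * b₁⁻¹ by rw [hm₁e, mul_inv_cancel_right]]
      exact Subgroup.mul_mem _ (Subgroup.mem_sup_left hm₁) (Subgroup.mem_sup_right (L'.inv_mem hb₁)))
    have hB : (⟨a₂, ha₂⟩ : L) ∈ B := Subgroup.mem_subgroupOf.mpr (by
      show a₂ ∈ M₂ ⊔ L'
      rw [show a₂ = m₂ * b₂⁻¹ by rw [hm₂e, mul_inv_cancel_right]]
      exact Subgroup.mul_mem _ (Subgroup.mem_sup_left hm₂) (Subgroup.mem_sup_right (L'.inv_mem hb₂)))
    have hxa : π x = π ⟨a₁, ha₁⟩ * π ⟨a₂, ha₂⟩ := by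
      rw [← map_mul, eq_comm, ← inv_mul_eq_one, ← map_inv, ← map_mul, hker]
      show (a₁ * a₂)⁻¹ * (x : G) ∈ L'
      have : (a₁ * a₂)⁻¹ * (x : G) = b₁ * b₂ := by
        rw [← hxe, hm₁e, hm₂e, inv_mul_eq_iff_eq_mul]
        calc a₁ * b₁ * (a₂ * b₂) = a₁ * (b₁ * a₂) * b₂ := by group
          _ = a₁ * (a₂ * b₁) * b₂ := by rw [hc a₂ ha₂ b₁ hb₁]
          _ = a₁ * a₂ * (b₁ * b₂) := by group
      rw [this]
      exact L'.mul_mem hb₁ hb₂
    show π x ∈ A.map π ⊔ B.map π
    rw [hxa]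
    exact Subgroup.mul_mem _ (Subgroup.mem_sup_left (Subgroup.mem_map_of_mem π hA))
      (Subgroup.mem_sup_right (Subgroup.mem_map_of_mem π hB))
  have fin : ∀ M : Subgroup G, M ≤ L ⊔ L' → ((M ⊔ L').subgroupOf L).map π = ⊥ → M ≤ L' := by
    intro M hle h0 m hm
    obtain ⟨a, ha, b, hb, rfl⟩ := hsplit m (hle hm)
    have hA : (⟨a, ha⟩ : L) ∈ (M ⊔ L').subgroupOf L := Subgroup.mem_subgroupOf.mpr (by
      show a ∈ M ⊔ L'
      rw [show a = (a * b) * b⁻¹ by rw [mul_inv_cancel_right]]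
      exact Subgroup.mul_mem _ (Subgroup.mem_sup_left hm) (Subgroup.mem_sup_right (L'.inv_mem hb)))
    have := Subgroup.mem_map_of_mem π hA
    rw [h0, Subgroup.mem_bot, hker] at this
    exact L'.mul_mem this hb
  rcases psl_indecomposable hF (A.map π) (B.map π) hsup (by
      rintro _ ⟨a, ha, rfl⟩ _ ⟨b, hb, rfl⟩; exact hcom a ha b hb) with h0 | h0
  · exact Or.inl (fin M₁ hM1 h0)
  · exact Or.inr (fin M₂ hM2 h0)

/-- Let G be a finite group with subgroups L₁ ≅ SL₂(q₁) and L₂ ≅ SL₂(q₂), q₁ and q₂ odd prime powers, which commute elementwise and meet in ⟨j⟩ for an involution j, and suppose L₁L₂ has index 2 in C_G(j). Then every element n of C_G(j) outside L₁L₂ either normalizes both L₁ and L₂, or conjugates L₁ onto L₂; in the second case q₁ = q₂ and there is an element n′ of C_G(j) outside L₁L₂ conjugating L₁ onto L₂ with n′² ∈ ⟨j⟩. -/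
theorem result {G : Type*} [Group G] [Finite G]
    {F₁ : Type*} [Field F₁] [Fintype F₁] {F₂ : Type*} [Field F₂] [Fintype F₂]
    (hF₁ : Odd (Fintype.card F₁)) (hF₂ : Odd (Fintype.card F₂)) (L₁ L₂ : Subgroup G)
    (e₁ : ↥L₁ ≃* Matrix.SpecialLinearGroup (Fin 2) F₁) (e₂ : ↥L₂ ≃* Matrix.SpecialLinearGroup (Fin 2) F₂)
    (hc : ∀ x ∈ L₁, ∀ y ∈ L₂, x * y = y * x) (j : G) (hj : orderOf j = 2) (hm : L₁ ⊓ L₂ = Subgroup.zpowers j)
    (hle : L₁ ⊔ L₂ ≤ Subgroup.centralizer ({j} : Set G)) (hi : (L₁ ⊔ L₂).relIndex (Subgroup.centralizer ({j} : Set G)) = 2) (n : G) (hn : n ∈ Subgroup.centralizer ({j} : Set G)) (hn' : n ∉ L₁ ⊔ L₂) :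
    (L₁.map (MulAut.conj n).toMonoidHom = L₁ ∧ L₂.map (MulAut.conj n).toMonoidHom = L₂) ∨
      (L₁.map (MulAut.conj n).toMonoidHom = L₂ ∧ Fintype.card F₁ = Fintype.card F₂ ∧
        ∃ n' ∈ Subgroup.centralizer ({j} : Set G), n' ∉ L₁ ⊔ L₂ ∧ L₁.map (MulAut.conj n').toMonoidHom = L₂ ∧ n' ^ 2 ∈ Subgroup.zpowers j) := by
  set M := L₁ ⊔ L₂ with hMdef
  have hj1 : j ∈ L₁ ⊓ L₂ := hm ▸ Subgroup.mem_zpowers j
  have hj2 : j * j = 1 := by rw [← pow_two, ← hj, pow_orderOf_eq_one]
  have hjne : j ≠ 1 := fun h => by rw [h, orderOf_one] at hj; norm_num at hj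
  have hjc : n * j * n⁻¹ = j := by
    rw [Subgroup.mem_centralizer_singleton_iff] at hn
    rw [hn, mul_inv_cancel_right]
  have hzp : ∀ x ∈ Subgroup.zpowers j, x = 1 ∨ x = j := by
    intro x hx
    obtain ⟨k, rfl⟩ := Subgroup.mem_zpowers_iff.mp hx
    rw [← zpow_mod_orderOf, hj]
    rcases Int.emod_two_eq_zero_or_one k with e | e <;> simp [e]
  -- conjugates
  have hMn : ∀ x ∈ M, n * x * n⁻¹ ∈ M := by
    have hN : (M.subgroupOf (Subgroup.centralizer ({j} : Set G))).Normal :=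
      Subgroup.normal_of_index_eq_two hi
    intro x hx
    exact hN.conj_mem ⟨x, hle hx⟩ hx ⟨n, hn⟩
  set f := (MulAut.conj n).toMonoidHom with hf
  have hfinj : Function.Injective f := (MulAut.conj n).injective
  have hfM : L₁.map f ⊔ L₂.map f = M := by
    rw [← Subgroup.map_sup, ← hMdef]
    refine Subgroup.eq_of_le_of_card_ge ?_ (by rw [Subgroup.card_map_of_injective hfinj])
    rintro _ ⟨x, hx, rfl⟩
    exact hMn x hx
  have hcM : ∀ x ∈ L₁.map f, ∀ y ∈ L₂.map f, x * y = y * x := by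
    rintro _ ⟨x, hx, rfl⟩ _ ⟨y, hy, rfl⟩
    rw [← map_mul, ← map_mul, hc x hx y hy]
  have hc' : ∀ x ∈ L₂, ∀ y ∈ L₁, x * y = y * x := fun x hx y hy => (hc y hy x hx).symm
  have hm' : L₂ ⊓ L₁ = Subgroup.zpowers j := by rw [inf_comm, hm]
  have hA := le_other hF₁ L₁ L₂ (L₁.map f) (L₂.map f) e₁ hc hcM hfM (meet_center L₁ L₂ j hjne e₁ hc hj1)
  have hB := le_other hF₂ L₂ L₁ (L₁.map f) (L₂.map f) e₂ hc' hcM (hfM.trans (sup_comm _ _))
    (meet_center L₂ L₁ j hjne e₂ hc' ⟨hj1.2, hj1.1⟩)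
  have c1 : Nat.card L₁ = Nat.card (Matrix.SpecialLinearGroup (Fin 2) F₁) := Nat.card_congr e₁.toEquiv
  have c2 : Nat.card L₂ = Nat.card (Matrix.SpecialLinearGroup (Fin 2) F₂) := Nat.card_congr e₂.toEquiv
  have hsmall : ∀ L : Subgroup G, 2 < Nat.card L → L.map f ≤ L₁ → L.map f ≤ L₂ → False := by
    intro L hL h1 h2
    have := Subgroup.card_dvd_of_le (le_inf h1 h2)
    rw [Subgroup.card_map_of_injective hfinj, hm, Nat.card_zpowers, hj] at this
    exact absurd (Nat.le_of_dvd two_pos this) (by omega)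
  have g1 : 2 < Nat.card L₁ := c1 ▸ card_SL_gt_two hF₁
  have g2 : 2 < Nat.card L₂ := c2 ▸ card_SL_gt_two hF₂
  have hcase : (L₁.map f ≤ L₁ ∧ L₂.map f ≤ L₂) ∨ (L₁.map f ≤ L₂ ∧ L₂.map f ≤ L₁) := by
    rcases hA with a | a <;> rcases hB with b | b
    · exact absurd (hsmall L₁ g1 b a) not_false
    · exact Or.inr ⟨a, b⟩
    · exact Or.inl ⟨b, a⟩
    · exact absurd (hsmall L₂ g2 b a) not_false
  rcases hcase with ⟨a, b⟩ | ⟨a, b⟩
  · exact Or.inl ⟨Subgroup.eq_of_le_of_card_ge a (by rw [Subgroup.card_map_of_injective hfinj]),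
      Subgroup.eq_of_le_of_card_ge b (by rw [Subgroup.card_map_of_injective hfinj])⟩
  · right
    have l12 : Nat.card L₁ ≤ Nat.card L₂ := by
      rw [← Subgroup.card_map_of_injective (K := L₁) hfinj]
      exact Nat.le_of_dvd Nat.card_pos (Subgroup.card_dvd_of_le a)
    have l21 : Nat.card L₂ ≤ Nat.card L₁ := by
      rw [← Subgroup.card_map_of_injective (K := L₂) hfinj]
      exact Nat.le_of_dvd Nat.card_pos (Subgroup.card_dvd_of_le b)
    have e12 : L₁.map f = L₂ :=
      Subgroup.eq_of_le_of_card_ge a (by rw [Subgroup.card_map_of_injective hfinj]; exact l21)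
    refine ⟨e12, ?_, ?_⟩
    · have hq : ∀ u v : ℕ, 2 ≤ u → u < v → u * (u ^ 2 - 1) < v * (v ^ 2 - 1) := by
        intro u v hu huv
        have h1 : u ^ 2 - 1 ≤ v ^ 2 - 1 := by
          have : u ^ 2 ≤ v ^ 2 := Nat.pow_le_pow_left huv.le 2
          omega
        have h2 : 0 < v ^ 2 - 1 := by
          have : 2 ^ 2 ≤ v ^ 2 := Nat.pow_le_pow_left (by omega) 2
          omega
        calc u * (u ^ 2 - 1) ≤ u * (v ^ 2 - 1) := Nat.mul_le_mul_left u h1
          _ < v * (v ^ 2 - 1) := Nat.mul_lt_mul_of_pos_right huv h2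
      have e := le_antisymm l12 l21
      rw [c1, c2, CfsgLib.SL2.card_SL2, CfsgLib.SL2.card_SL2] at e
      have := three_le_card hF₁
      have := three_le_card hF₂
      rcases lt_trichotomy (Fintype.card F₁) (Fintype.card F₂) with h | h | h
      · have := hq _ _ (by omega) h; omega
      · exact h
      · have := hq _ _ (by omega) h; omega
    · have hn2 : n * n ∈ M := by
        have := Subgroup.mul_self_mem_of_index_two hi (⟨n, hn⟩ : Subgroup.centralizer ({j} : Set G))
        exact this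
      have hN1 : L₁ ≤ Subgroup.normalizer (L₂ : Set G) := fun l hl => by
        rw [Subgroup.mem_normalizer_iff]
        intro y
        constructor
        · intro hy; rw [hc l hl y hy, mul_inv_cancel_right]; exact hy
        · intro hy
          have := hc l hl _ hy
          have e' : l * y * l⁻¹ = y := by
            calc l * y * l⁻¹ = l⁻¹ * (l * (l * y * l⁻¹)) := by group
              _ = l⁻¹ * ((l * y * l⁻¹) * l) := by rw [this]
              _ = y := by group
          rwa [e'] at hy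
      rw [← SetLike.mem_coe, Subgroup.coe_mul_of_left_le_normalizer_right L₁ L₂ hN1] at hn2
      obtain ⟨l1, hl1, l2, hl2, hnn⟩ := hn2
      simp only at hnn
      have a1 : n * l1 * n⁻¹ ∈ L₂ := a ⟨l1, hl1, rfl⟩
      have b2 : n * l2 * n⁻¹ ∈ L₁ := b ⟨l2, hl2, rfl⟩
      have hsame : (n * l2 * n⁻¹) * (n * l1 * n⁻¹) = l1 * l2 := by
        calc (n * l2 * n⁻¹) * (n * l1 * n⁻¹) = n * (l2 * l1) * n⁻¹ := by group
          _ = n * (n * n) * n⁻¹ := by rw [← hc l1 hl1 l2 hl2, hnn]
          _ = n * n := by group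
          _ = l1 * l2 := hnn.symm
      have hz : l1⁻¹ * (n * l2 * n⁻¹) ∈ Subgroup.zpowers j := by
        rw [← hm]
        refine ⟨L₁.mul_mem (L₁.inv_mem hl1) b2, ?_⟩
        have : l1⁻¹ * (n * l2 * n⁻¹) = l2 * (n * l1 * n⁻¹)⁻¹ := by
          rw [eq_mul_inv_iff_mul_eq, mul_assoc, hsame, inv_mul_cancel_left]
        show l1⁻¹ * (n * l2 * n⁻¹) ∈ L₂
        rw [this]
        exact L₂.mul_mem hl2 (L₂.inv_mem a1)
      obtain ⟨z, hzz, hzeq⟩ : ∃ z, (z = 1 ∨ z = j) ∧ n * l2 * n⁻¹ = l1 * z :=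
        ⟨_, hzp _ hz, by group⟩
      have hzn : n * z * n⁻¹ = z := by
        rcases hzz with rfl | rfl
        · simp
        · exact hjc
      have hzc : ∀ x ∈ L₁, x * z = z * x := by
        intro x hx
        rcases hzz with rfl | rfl
        · simp
        · exact hc x hx z hj1.2
      have hzz' : z * z = 1 := by rcases hzz with rfl | rfl <;> simp [hj2]
      refine ⟨n * l1⁻¹, ?_, ?_, ?_, ?_⟩
      · exact Subgroup.mul_mem _ hn (Subgroup.inv_mem _ (hle (Subgroup.mem_sup_left hl1)))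
      · intro h
        apply hn'
        have := M.mul_mem h (Subgroup.mem_sup_left hl1)
        rwa [inv_mul_cancel_right] at this
      · rw [← e12]
        ext y
        constructor
        · rintro ⟨x, hx, rfl⟩
          refine ⟨l1⁻¹ * x * l1, L₁.mul_mem (L₁.mul_mem (L₁.inv_mem hl1) hx) hl1, ?_⟩
          simp only [hf, MulEquiv.coe_toMonoidHom, MulAut.conj_apply]
          group
        · rintro ⟨x, hx, rfl⟩
          refine ⟨l1 * x * l1⁻¹, L₁.mul_mem (L₁.mul_mem hl1 hx) (L₁.inv_mem hl1), ?_⟩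
          simp only [hf, MulEquiv.coe_toMonoidHom, MulAut.conj_apply]
          group
      · have k : (n * l1⁻¹) ^ 2 = z := by
          have e3 : l1 = (n * l2 * n⁻¹) * z := by
            rw [hzeq, mul_assoc, hzz', mul_one]
          have e4 : l1⁻¹ * n = n * (z * l2⁻¹) := by
            have hzi : z⁻¹ = z := inv_eq_of_mul_eq_one_left hzz'
            calc l1⁻¹ * n = z⁻¹ * (n * l2 * n⁻¹)⁻¹ * n := by rw [e3, _root_.mul_inv_rev]
              _ = z * n * l2⁻¹ := by rw [hzi]; group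
              _ = (n * z * n⁻¹) * n * l2⁻¹ := by rw [hzn]
              _ = n * (z * l2⁻¹) := by group
          calc (n * l1⁻¹) ^ 2 = n * (l1⁻¹ * n) * l1⁻¹ := by rw [pow_two]; group
            _ = (n * n) * (z * l2⁻¹) * l1⁻¹ := by rw [e4]; group
            _ = (l1 * l2) * (z * l2⁻¹) * l1⁻¹ := by rw [hnn]
            _ = l1 * (l2 * z * l2⁻¹) * l1⁻¹ := by group
            _ = z := by
              have hz2 : l2 * z * l2⁻¹ = z := by
                rcases hzz with rfl | rfl
                · simp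
                · rw [← hc z hj1.1 l2 hl2, mul_inv_cancel_right]
              rw [hz2, hzc l1 hl1, mul_inv_cancel_right]
        rw [k]
        rcases hzz with rfl | rfl
        · exact Subgroup.one_mem _
        · exact Subgroup.mem_zpowers _

end Cfsg.Agent.S3210
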