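import Cfsg.Statements.S3213
import Mathlib
import Cfsg.Agent.H29.SL25Sp4.Basic
import Cfsg.Agent.SL2.Basic

set_option autoImplicit false
open Cfsg

namespace Cfsg.Agent.S3213

/-- Let F be the field with 3 elements and K the field with 5 elements. For every injective homomorphism φ from SL₂(K) into the symplectic group Sp₄(F) (4 × 4 matrices g with g J gᵀ = J for the standard alternating matrix J) and every element x of order 3 of SL₂(K), the vectors of F⁴ fixed by φ(x) form a 2-dimensional subspace that is totally isotropic for the alternating form defined by J. -/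
theorem result {F : Type*} [Field F] [Fintype F] (hF : Fintype.card F = 3)
    {K : Type*} [Field K] [Fintype K] (hK : Fintype.card K = 5)
    (φ : Matrix.SpecialLinearGroup (Fin 2) K →* ↥(Matrix.symplecticGroup (Fin 2) F)) (hφ : Function.Injective φ)
    (x : Matrix.SpecialLinearGroup (Fin 2) K) (hx : orderOf x = 3) :
    Module.finrank F ↥(LinearMap.ker (Matrix.toLin' ((φ x : Matrix (Fin 2 ⊕ Fin 2) (Fin 2 ⊕ Fin 2) F)) - LinearMap.id)) = 2 ∧
      ∀ v w : Fin 2 ⊕ Fin 2 → F, (φ x : Matrix (Fin 2 ⊕ Fin 2) (Fin 2 ⊕ Fin 2) F).mulVec v = v →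
        (φ x : Matrix (Fin 2 ⊕ Fin 2) (Fin 2 ⊕ Fin 2) F).mulVec w = w →
          dotProduct v ((Matrix.J (Fin 2) F).mulVec w) = 0 := by
  classical
  set V := Fin 2 ⊕ Fin 2 → F
  let ψ : Matrix.SpecialLinearGroup (Fin 2) K →* Module.End F V :=
    (Matrix.toLinAlgEquiv' : Matrix (Fin 2 ⊕ Fin 2) (Fin 2 ⊕ Fin 2) F ≃ₐ[F] _).toMonoidHom.comp
      ((Matrix.symplecticGroup (Fin 2) F).subtype.comp φ)
  have hψ : Function.Injective ψ :=
    (Matrix.toLinAlgEquiv' : Matrix (Fin 2 ⊕ Fin 2) (Fin 2 ⊕ Fin 2) F ≃ₐ[F] _).injective.comp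
      (Subtype.val_injective.comp hφ)
  have hψv : ∀ g v, ψ g v = (φ g : Matrix (Fin 2 ⊕ Fin 2) (Fin 2 ⊕ Fin 2) F).mulVec v := fun g v => rfl
  have h3 : (3 : F) = 0 := by
    have := FiniteField.cast_card_eq_zero F
    rwa [hF, Nat.cast_ofNat] at this
  have h2 : (2 : F) ≠ 0 := fun h => one_ne_zero (α := F) (by linear_combination h3 - h)
  have hK2 : (2 : K) ≠ 0 := by
    intro h
    have h5 := FiniteField.cast_card_eq_zero K
    rw [hK, Nat.cast_ofNat] at h5
    exact one_ne_zero (α := K) (by linear_combination h5 - 2 * h)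
  have hdimV : Module.finrank F V = 4 := by simp [V, Module.finrank_pi]
  -- the central involution acts as minus one
  set Z := ψ (-1) with hZ
  have hZ2 : ∀ v, Z (Z v) = v := fun v => by
    rw [← Module.End.mul_apply, hZ, ← map_mul, neg_mul_neg, one_mul, map_one, Module.End.one_apply]
  have hne : (-1 : Matrix.SpecialLinearGroup (Fin 2) K) ≠ 1 := fun h => hK2 (by
    have := congrArg (fun z : Matrix.SpecialLinearGroup (Fin 2) K => z.1 0 0) h
    simp at this
    linear_combination -this)
  have hneg : ∀ v, Z v = -v := by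
    by_contra hcon
    push Not at hcon
    obtain ⟨v0, hv0⟩ := hcon
    obtain ⟨g, hg⟩ : ∃ g : Matrix.SpecialLinearGroup (Fin 2) K, orderOf g = 5 := by
      have := Fact.mk (show Nat.Prime 5 by norm_num)
      refine exists_prime_orderOf_dvd_card' 5 ?_
      rw [CfsgLib.SL2.card_SL2, hK]
      norm_num
    set A := LinearMap.ker (Z - 1) with hA
    set B := LinearMap.ker (Z + 1) with hB
    have hgZ : ∀ v, Z (ψ g v) = ψ g (Z v) := fun v => by
      rw [← Module.End.mul_apply, ← Module.End.mul_apply, hZ, ← map_mul, ← map_mul, neg_one_mul, mul_neg_one]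
    have hAinv : ∀ v ∈ A, ψ g v ∈ A := fun v hv => by
      rw [hA, LinearMap.mem_ker, LinearMap.sub_apply, Module.End.one_apply, sub_eq_zero] at hv ⊢
      rw [hgZ, hv]
    have hBinv : ∀ v ∈ B, ψ g v ∈ B := fun v hv => by
      rw [hB, LinearMap.mem_ker, LinearMap.add_apply, Module.End.one_apply] at hv ⊢
      rw [hgZ, ← map_add, hv, map_zero]
    have hAne : A ≠ ⊤ := fun h => hne (hψ (LinearMap.ext fun v => by
      have : v ∈ A := h ▸ Submodule.mem_top
      rw [hA, LinearMap.mem_ker, LinearMap.sub_apply, Module.End.one_apply, sub_eq_zero] at this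
      rw [map_one, Module.End.one_apply]; exact this))
    have hBne : B ≠ ⊤ := fun h => hv0 (by
      have : v0 ∈ B := h ▸ Submodule.mem_top
      rw [hB, LinearMap.mem_ker, LinearMap.add_apply, Module.End.one_apply] at this
      exact eq_neg_of_add_eq_zero_left this)
    have hgp : ψ g ^ 5 = 1 := by rw [← map_pow, ← hg, pow_orderOf_eq_one, map_one]
    have hA1 := CfsgLib.H29.SL25Sp4.trivial_of_small hF _ hgp A hAinv (by
      have := Submodule.finrank_lt hAne; omega)
    have hB1 := CfsgLib.H29.SL25Sp4.trivial_of_small hF _ hgp B hBinv (by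
      have := Submodule.finrank_lt hBne; omega)
    have hg1 : g = 1 := hψ (LinearMap.ext fun v => by
      have hp : v + Z v ∈ A := by
        rw [hA, LinearMap.mem_ker, LinearMap.sub_apply, Module.End.one_apply, map_add, hZ2]; abel
      have hm : v - Z v ∈ B := by
        rw [hB, LinearMap.mem_ker, LinearMap.add_apply, Module.End.one_apply, map_sub, hZ2]; abel
      have e : (2 : F) • v = (v + Z v) + (v - Z v) := by rw [two_smul]; abel
      have := congrArg (ψ g) e
      rw [map_smul, map_add, hA1 _ hp, hB1 _ hm, ← e] at this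
      rw [map_one, Module.End.one_apply]
      exact smul_right_injective V h2 this)
    rw [hg1, orderOf_one] at hg
    norm_num at hg
  -- the fixed space
  set N := ψ x - 1 with hN
  have hx3 : x ^ 3 = 1 := hx ▸ pow_orderOf_eq_one x
  have : CharP F 3 := CharP.of_ringHom_of_ne_zero (ZMod.ringEquivOfPrime F (by norm_num) hF).toRingHom 3 (by norm_num)
  have hN3 : ∀ v, N (N (N v)) = 0 := fun v => by
    have hx' : ψ x (ψ x (ψ x v)) = v := by
      rw [← Module.End.mul_apply, ← Module.End.mul_apply, ← map_mul, ← map_mul,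
        show x * x * x = x ^ 3 from (pow_three' x).symm, hx3, map_one, Module.End.one_apply]
    have h30 : ∀ w : V, (3 : F) • w = 0 := fun w => by rw [h3, zero_smul]
    simp only [hN, LinearMap.sub_apply, Module.End.one_apply, map_sub, hx']
    have e : v - ψ x (ψ x v) - (ψ x (ψ x v) - ψ x v) - (ψ x (ψ x v) - ψ x v - (ψ x v - v)) =
        (3 : F) • (ψ x v - ψ x (ψ x v)) := by module
    rw [e, h30]
  set W := LinearMap.ker N with hW
  have hWm : ∀ v, v ∈ W ↔ ψ x v = v := fun v => by
    rw [hW, LinearMap.mem_ker, hN, LinearMap.sub_apply, Module.End.one_apply, sub_eq_zero]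
  obtain ⟨y, hy2, hyx⟩ := CfsgLib.H29.SL25Sp4.exists_inverter hK x hx3
  have hWy : ∀ v ∈ W, ψ y v ∈ W := fun v hv => by
    rw [hWm] at hv ⊢
    have e : y = x * y * x := by rw [mul_assoc, hyx]; group
    conv_rhs => rw [e, map_mul, map_mul, Module.End.mul_apply, Module.End.mul_apply, hv]
  have hyy : ∀ v, ψ y (ψ y v) = -v := fun v => by
    rw [← Module.End.mul_apply, ← map_mul, hy2]; exact hneg v
  have hz : ∀ s : ZMod 3, s * s ≠ -1 := by decide
  have hsq : ∀ r : F, r * r ≠ -1 := fun r h => by
    have := Fact.mk (show Nat.Prime 3 by norm_num)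
    obtain ⟨s, rfl⟩ := (ZMod.ringEquivOfPrime F (by norm_num) hF).surjective r
    rw [← map_mul, ← map_one (ZMod.ringEquivOfPrime F (by norm_num) hF), ← map_neg] at h
    have := (ZMod.ringEquivOfPrime F (by norm_num) hF).injective h
    exact hz s this
  have hpair : ∀ v : V, v ≠ 0 → LinearIndependent F ![v, ψ y v] := fun v hv => by
    rw [LinearIndependent.pair_iff' hv]
    intro r hr
    have := congrArg (ψ y) hr
    rw [map_smul, hyy, ← hr, smul_smul, ← neg_one_smul F v] at this
    exact hsq r (smul_left_injective F hv this)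
  have hN0 : N ≠ 0 := fun h => by
    have : ψ x = 1 := sub_eq_zero.mp h
    rw [← map_one ψ] at this
    rw [hψ this, orderOf_one] at hx
    norm_num at hx
  obtain ⟨v, hvW, hv⟩ : ∃ v ∈ W, v ≠ 0 := by
    by_contra hcon
    push Not at hcon
    refine hN0 (LinearMap.ext fun u => ?_)
    have h1 : N (N u) = 0 := hcon _ (LinearMap.mem_ker.mpr (hN3 u))
    exact hcon _ (LinearMap.mem_ker.mpr h1)
  have hWtop : W ≠ ⊤ := fun h => hN0 (LinearMap.ext fun u => (h ▸ Submodule.mem_top : u ∈ W))
  have hW3 : Module.finrank F W < 4 := hdimV ▸ Submodule.finrank_lt hWtop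
  set S := Submodule.span F (Set.range ![v, ψ y v]) with hS
  have hS2 : Module.finrank F S = 2 := by
    rw [hS, finrank_span_eq_card (hpair v hv)]; rfl
  have hSW : S ≤ W := Submodule.span_le.mpr (by
    rintro _ ⟨i, rfl⟩; fin_cases i
    · exact hvW
    · exact hWy v hvW)
  have hWS : W = S := by
    refine le_antisymm (fun u hu => ?_) hSW
    by_contra huS
    -- then `u, y u` is independent modulo `S`
    have hli : LinearIndependent F ![v, ψ y v, u, ψ y u] := by
      rw [Fintype.linearIndependent_iff]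
      intro c hc
      simp [Fin.sum_univ_four] at hc
      have hSy : ∀ s ∈ S, ψ y s ∈ S := fun s hs => by
        rw [hS, Matrix.range_cons, Matrix.range_cons, Matrix.range_empty, Set.union_empty,
          Set.singleton_union, Submodule.mem_span_pair] at hs ⊢
        obtain ⟨a, b, rfl⟩ := hs
        exact ⟨-b, a, by rw [map_add, map_smul, map_smul, hyy]; module⟩
      have hv' : ∀ a b : F, a • v + b • ψ y v ∈ S := fun a b =>
        add_mem (S.smul_mem a (Submodule.subset_span ⟨0, rfl⟩)) (S.smul_mem b (Submodule.subset_span ⟨1, rfl⟩))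
      have hs : c 2 • u + c 3 • ψ y u ∈ S := by
        have : c 2 • u + c 3 • ψ y u = (-c 0) • v + (-c 1) • ψ y v := by
          linear_combination (norm := module) hc
        rw [this]; exact hv' _ _
      have h23 : c 2 = 0 ∧ c 3 = 0 := by
        by_contra hne23
        apply huS
        have hs' := hSy _ hs
        rw [map_add, map_smul, map_smul, hyy] at hs'
        have hd : c 2 * c 2 + c 3 * c 3 ≠ 0 := by
          intro h
          by_cases h3' : c 3 = 0
          · exact hne23 ⟨by simpa [h3'] using h, h3'⟩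
          · exact hsq (c 2 / c 3) (by field_simp; linear_combination h)
        have := S.sub_mem (S.smul_mem (c 2) hs) (S.smul_mem (c 3) hs')
        rw [show c 2 • (c 2 • u + c 3 • ψ y u) - c 3 • (c 2 • ψ y u + c 3 • -u) =
          (c 2 * c 2 + c 3 * c 3) • u by module] at this
        exact (Submodule.smul_mem_iff _ hd).mp this
      have h01 : c 0 = 0 ∧ c 1 = 0 := by
        rw [h23.1, h23.2] at hc
        simp at hc
        exact LinearIndependent.pair_iff.mp (hpair v hv) _ _ hc
      intro i
      fin_cases i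
      exacts [h01.1, h01.2, h23.1, h23.2]
    have hle : Submodule.span F (Set.range ![v, ψ y v, u, ψ y u]) ≤ W := Submodule.span_le.mpr (by
      rintro _ ⟨i, rfl⟩; fin_cases i
      exacts [hvW, hWy v hvW, hu, hWy u hu])
    have := Submodule.finrank_mono hle
    rw [finrank_span_eq_card hli, Fintype.card_fin] at this
    omega
  have hW2 : Module.finrank F W = 2 := by rw [hWS, hS2]
  refine ⟨hW2, fun a b ha hb => ?_⟩
  -- the form is invariant, so the fixed space is orthogonal to the image of `N`
  set J := Matrix.J (Fin 2) F with hJ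
  let ω : V → V → F := fun a b => dotProduct a (J.mulVec b)
  have hinv : ∀ a b, ω (ψ x a) (ψ x b) = ω a b := fun a b => by
    change dotProduct _ (J.mulVec _) = dotProduct _ (J.mulVec _)
    rw [hψv, hψv, Matrix.mulVec_mulVec, dotProduct_comm, ← Matrix.dotProduct_transpose_mulVec,
      Matrix.mulVec_mulVec, ← mul_assoc, SymplecticGroup.mem_iff'.mp (φ x).2]
  have hωN : ∀ a ∈ W, ∀ u, ω a (N u) = 0 := fun a ha u => by
    have h := hinv a u
    rw [(hWm a).mp ha] at h
    have e : N u = ψ x u - u := by rw [hN, LinearMap.sub_apply, Module.End.one_apply]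
    simp only [ω] at h ⊢
    rw [e, Matrix.mulVec_sub, dotProduct_sub, h, sub_self]
  by_contra hab
  have halt : ∀ z, ω z z = 0 := fun z => by
    have e : ω z z = -ω z z := by
      simp only [ω]
      conv_lhs => rw [← Matrix.dotProduct_transpose_mulVec, hJ, Matrix.J_transpose,
        Matrix.neg_mulVec, dotProduct_neg]
    have : (2 : F) * ω z z = 0 := by linear_combination e
    exact (mul_eq_zero.mp this).resolve_left h2
  have haW : a ∈ W := (hWm a).mpr ha
  have hbW : b ∈ W := (hWm b).mpr hb
  have hωb : ω a b ≠ 0 := hab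
  have hsmul : ∀ (r : F) p q, ω p (r • q) = r * ω p q := fun r p q =>
    (congrArg (dotProduct p) (Matrix.mulVec_smul J r q)).trans (dotProduct_smul r p _)
  have hadd : ∀ p q q', ω p (q + q') = ω p q + ω p q' := fun p q q' =>
    (congrArg (dotProduct p) (Matrix.mulVec_add J q q')).trans (dotProduct_add p _ _)
  have ha0 : a ≠ 0 := fun h => hωb (by simp [ω, h])
  have hli : LinearIndependent F ![a, b] := by
    rw [LinearIndependent.pair_iff' ha0]
    intro r hr
    exact hωb (by rw [← hr, hsmul, halt, mul_zero])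
  have hspan : Submodule.span F (Set.range ![a, b]) = W :=
    Submodule.eq_of_le_of_finrank_eq (Submodule.span_le.mpr (by
      rintro _ ⟨i, rfl⟩; fin_cases i
      exacts [haW, hbW])) (by rw [finrank_span_eq_card hli, hW2]; rfl)
  obtain ⟨u, hu, hu2⟩ : ∃ u, N u ≠ 0 ∧ N u ∈ W := by
    obtain ⟨u, hu⟩ : ∃ u, N u ≠ 0 := by
      by_contra h; push Not at h; exact hN0 (LinearMap.ext h)
    by_cases h : N (N u) = 0
    · exact ⟨u, hu, LinearMap.mem_ker.mpr h⟩
    · exact ⟨N u, h, LinearMap.mem_ker.mpr (hN3 u)⟩
  have hu3 := hspan.symm ▸ hu2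
  rw [Matrix.range_cons, Matrix.range_cons, Matrix.range_empty, Set.union_empty,
    Set.singleton_union, Submodule.mem_span_pair] at hu3
  obtain ⟨p, q, hpq⟩ := hu3
  have hba : ω b a ≠ 0 := fun h => hωb (by
    have := halt (a + b)
    rw [hadd] at this
    simp only [ω, add_dotProduct] at this h ⊢
    have e1 := halt a
    have e2 := halt b
    simp only [ω] at e1 e2
    linear_combination this - e1 - e2 - h)
  have h1 := hωN a haW u
  have h2' := hωN b hbW u
  rw [← hpq, hadd, hsmul, hsmul, halt, mul_zero, zero_add] at h1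
  rw [← hpq, hadd, hsmul, hsmul, halt, mul_zero, add_zero] at h2'
  refine hu ?_
  rw [← hpq, (mul_eq_zero.mp h1).resolve_right hωb, (mul_eq_zero.mp h2').resolve_right hba, zero_smul,
    zero_smul, add_zero]

end Cfsg.Agent.S3213
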