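import Cfsg.Statements.S3215
import Cfsg.Agent.PCore.AxB
import Cfsg.Agent.PCore.Basic
import Cfsg.Agent.Hall.Fitting
import Cfsg.Agent.Components.Cores
import Cfsg.Agent.Frob.Structure
import Cfsg.Agent.PReduced.Hom
import Mathlib.RingTheory.ZMod.UnitsCyclic

set_option autoImplicit false
set_option linter.style.haveILetI false
open Cfsg

namespace Cfsg.Agent.S3215

open scoped Pointwise

variable {H : Type*} [Group H] [Finite H]

private theorem eq_one_of_odd_of_two {x : H} {Q : Subgroup H} (hQ : IsPGroup 2 Q)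
    (hx : Odd (orderOf x)) (hxQ : x ∈ Q) : x = 1 := by
  obtain ⟨k, hk⟩ := (hQ.exists_card_eq : ∃ n, Nat.card Q = 2 ^ n)
  have h : orderOf x ∣ 2 ^ k := hk ▸ Subgroup.orderOf_dvd_natCard Q hxQ
  exact orderOf_eq_one_iff.1 (Nat.eq_one_of_dvd_coprimes
    (Nat.Coprime.pow_right k (Nat.coprime_two_right.2 hx)) dvd_rfl h)

variable (hI : ∀ t : H, orderOf t = 2 → Cfsg.HasNormalPComplement 2 ↥(Subgroup.centralizer ({t} : Set H)))

include hI in
theorem commute_centralizer_core {x t : H} (hx : Odd (orderOf x)) (ht : orderOf t = 2) (hxt : x * t = t * x)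
    {z : H} (hz : z ∈ Cfsg.pCore 2 H) (hzt : z * t = t * z) : x * z = z * x := by
  haveI : Fact (Nat.Prime 2) := ⟨Nat.prime_two⟩
  obtain ⟨P, N, hN, hc⟩ := hI t ht
  haveI := hN
  have hxC : x ∈ Subgroup.centralizer ({t} : Set H) :=
    Subgroup.mem_centralizer_singleton_iff.2 hxt
  have hzC : z ∈ Subgroup.centralizer ({t} : Set H) :=
    Subgroup.mem_centralizer_singleton_iff.2 hzt
  set x' : ↥(Subgroup.centralizer ({t} : Set H)) := ⟨x, hxC⟩
  set z' : ↥(Subgroup.centralizer ({t} : Set H)) := ⟨z, hzC⟩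
  obtain ⟨k, hk⟩ : ∃ k, N.index = 2 ^ k := by
    rw [(Subgroup.IsComplement'.symm hc).index_eq_card]
    exact P.isPGroup'.exists_card_eq
  have hNcard : Odd (Nat.card N) := by
    rw [← Nat.coprime_two_right]
    have := P.not_dvd_index
    rw [Subgroup.IsComplement'.index_eq_card hc] at this
    exact ((Nat.Prime.coprime_iff_not_dvd Nat.prime_two).2 this).symm
  have hxN : x' ∈ N := by
    rw [← QuotientGroup.eq_one_iff, ← orderOf_eq_one_iff]
    refine Nat.eq_one_of_dvd_coprimes (Nat.Coprime.pow_right k (Nat.coprime_two_right.2 hx)) ?_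
      (hk ▸ orderOf_dvd_natCard (QuotientGroup.mk x' : _ ⧸ N))
    exact (orderOf_map_dvd (QuotientGroup.mk' N) x').trans (Subgroup.orderOf_coe x').symm.dvd
  have h1 : x' * z' * x'⁻¹ * z'⁻¹ ∈ N := by
    rw [mul_assoc, mul_assoc]
    refine mul_mem hxN ?_
    rw [← mul_assoc]
    exact hN.conj_mem _ (inv_mem hxN) z'
  have h2 : x * z * x⁻¹ * z⁻¹ ∈ Cfsg.pCore 2 H := by
    haveI := CfsgLib.PCore.pCore_characteristic 2 H
    exact mul_mem (Subgroup.Normal.conj_mem inferInstance z hz x) (inv_mem hz)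
  have h3 : x * z * x⁻¹ * z⁻¹ = 1 := by
    apply eq_one_of_odd_of_two (CfsgLib.PCore.isPGroup_pCore 2 H) ?_ h2
    have h4 : orderOf (x' * z' * x'⁻¹ * z'⁻¹) ∣ Nat.card N := Subgroup.orderOf_dvd_natCard N h1
    rw [show x * z * x⁻¹ * z⁻¹ = ((x' * z' * x'⁻¹ * z'⁻¹ : ↥(Subgroup.centralizer ({t} : Set H))) : H) from rfl,
      Subgroup.orderOf_coe]
    exact hNcard.of_dvd_nat h4
  rw [mul_inv_eq_one, mul_inv_eq_iff_eq_mul] at h3
  exact h3

variable [Group.IsSolvable H] (hO : Cfsg.oddCore H = ⊥)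

include hI hO in
theorem fixed_point_free {x y : H} (hx : Odd (orderOf x)) (hy : y ∈ Cfsg.pCore 2 H) (hy1 : y ≠ 1)
    (hxy : x * y = y * x) : x = 1 := by
  haveI : Fact (Nat.Prime 2) := ⟨Nat.prime_two⟩
  have hQ := CfsgLib.PCore.isPGroup_pCore 2 H
  haveI := (CfsgLib.PCore.pCore_characteristic 2 H)
  obtain ⟨k, hk⟩ := hQ.exists_card_eq
  obtain ⟨j, hj, hj'⟩ : ∃ j, orderOf y = 2 ^ (j + 1) ∧ orderOf (y ^ 2 ^ j) = 2 := by
    obtain ⟨m, -, hm⟩ := (Nat.dvd_prime_pow Nat.prime_two).1 (hk ▸ Subgroup.orderOf_dvd_natCard _ hy)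
    obtain ⟨j, rfl⟩ := Nat.exists_eq_succ_of_ne_zero (n := m) (fun h => hy1 (by
      rw [h, pow_zero, orderOf_eq_one_iff] at hm; exact hm))
    refine ⟨j, hm, ?_⟩
    rw [orderOf_pow' _ (by positivity), hm, Nat.gcd_eq_right (pow_dvd_pow 2 (Nat.le_succ j)),
      Nat.pow_div (Nat.le_succ j) (by norm_num)]
    simp
  set t := y ^ 2 ^ j
  have hxt : x * t = t * x := (Commute.pow_right hxy _).eq
  have hC := CfsgLib.PCore.thompson_AxB (p := 2) (A := Subgroup.zpowers t) (B := Subgroup.zpowers x)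
    (K := Cfsg.pCore 2 H) (hQ.to_le (Subgroup.zpowers_le.2 (pow_mem hy _)))
    (by rw [Nat.card_zpowers]; exact Nat.coprime_two_right.2 hx) hQ
    (fun a ha b hb => by
      obtain ⟨i, rfl⟩ := Subgroup.mem_zpowers_iff.1 ha
      obtain ⟨l, rfl⟩ := Subgroup.mem_zpowers_iff.1 hb
      exact (Commute.zpow_zpow (show Commute t x from hxt.symm) i l).eq)
    (by rw [Subgroup.normalizer_eq_top]; exact le_top) (by rw [Subgroup.normalizer_eq_top]; exact le_top)
    (Subgroup.zpowers_le.2 (Subgroup.mem_centralizer_iff.2 fun z hz => ((commute_centralizer_core hI hx hj'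
      hxt hz.1 ((Subgroup.mem_centralizer_iff.1 hz.2 t (Subgroup.mem_zpowers t)).symm)).symm)))
  exact eq_one_of_odd_of_two hQ hx
    (CfsgLib.Hall.centralizer_pCore_le 2 hO (hC (Subgroup.mem_zpowers x)))

include hI hO in
theorem isCyclic_sylow (X : Subgroup H) (hXodd : Odd (Nat.card X)) (p : ℕ) [Fact p.Prime]
    (P : Sylow p ↥X) : IsCyclic ↥(P : Subgroup ↥X) := by
  haveI : Fact (Nat.Prime 2) := ⟨Nat.prime_two⟩
  have hQ := CfsgLib.PCore.isPGroup_pCore 2 H
  haveI := (CfsgLib.PCore.pCore_characteristic 2 H)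
  by_cases hX : X = ⊥
  · subst hX
    infer_instance
  set Q := Cfsg.pCore 2 H with hQdef
  have hoddx : ∀ x ∈ X, Odd (orderOf x) := fun x hx => hXodd.of_dvd_nat (Subgroup.orderOf_dvd_natCard X hx)
  have hQ1 : Q ≠ ⊥ := by
    intro h
    apply hX
    rw [Subgroup.eq_bot_iff_forall]
    intro x hx
    have h1 : x ∈ Q := CfsgLib.Hall.centralizer_pCore_le 2 hO
      (Subgroup.mem_centralizer_iff.2 fun z hz => by
        rw [← hQdef, h] at hz
        simp [Subgroup.mem_bot.1 hz])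
    exact eq_one_of_odd_of_two hQ (hoddx x hx) h1
  let L : Subgroup H := X ⊔ Q
  let X₁ : Subgroup L := X.subgroupOf L
  have hfc : Cfsg.IsFrobeniusComplement X₁ := by
    refine ⟨?_, ?_, ?_⟩
    · rw [Ne, Subgroup.subgroupOf_eq_bot, disjoint_iff, inf_eq_left.2 (le_sup_left : X ≤ L)]
      exact hX
    · rw [Ne, Subgroup.subgroupOf_eq_top]
      intro h
      apply hQ1
      rw [Subgroup.eq_bot_iff_forall]
      intro z hz
      exact eq_one_of_odd_of_two hQ (hoddx z (h (Subgroup.mem_sup_right hz))) hz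
    · intro g hg
      obtain ⟨a, ha, b, hb, hab⟩ := Subgroup.mem_sup_of_normal_right.1 g.2
      rw [Subgroup.eq_bot_iff_forall]
      rintro u ⟨hu1, hu2⟩
      change u ∈ MulAut.conj g • X₁ at hu2
      rw [Subgroup.mem_pointwise_smul_iff_inv_smul_mem] at hu2
      have hv : (g : H)⁻¹ * (u : H) * g ∈ X := by simpa [Subgroup.mem_subgroupOf, X₁] using hu2
      have hu : (u : H) ∈ X := hu1
      set w := a⁻¹ * (u : H) * a with hw
      have hwX : w ∈ X := mul_mem (mul_mem (inv_mem ha) hu) ha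
      have hv' : b⁻¹ * w * b ∈ X := by
        convert hv using 1
        rw [← hab, hw]; group
      have hcomm : w⁻¹ * (b⁻¹ * w * b) = 1 := by
        refine eq_one_of_odd_of_two hQ (hoddx _ (mul_mem (inv_mem hwX) hv')) ?_
        rw [show w⁻¹ * (b⁻¹ * w * b) = (w⁻¹ * b⁻¹ * w⁻¹⁻¹) * b by group]
        exact mul_mem (Subgroup.Normal.conj_mem inferInstance _ (inv_mem hb) _) hb
      have hb1 : b ≠ 1 := by
        rintro rfl
        apply hg
        rw [Subgroup.mem_subgroupOf, ← hab, mul_one]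
        exact ha
      have hw1 : w = 1 := by
        refine fixed_point_free hI hO (hoddx w hwX) hb hb1 ?_
        rw [inv_mul_eq_one] at hcomm
        calc w * b = b * (b⁻¹ * w * b) := by group
          _ = b * w := by rw [← hcomm]
      apply Subtype.ext
      rw [OneMemClass.coe_one, ← conj_eq_one_iff (a := a⁻¹), inv_inv, ← hw, hw1]
  have hlat := CfsgLib.Frob.latFpf_of_complement hfc
  let e : X₁ ≃* X := Subgroup.subgroupOfEquivOfLe le_sup_left
  rcases hlat.sylow_cyclic_or_quaternion (p := p) (P.isPGroup'.map e.symm.toMonoidHom) with h | ⟨rfl, -⟩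
  · exact isCyclic_of_surjective _
      ((P : Subgroup ↥X).equivMapOfInjective e.symm.toMonoidHom e.symm.injective).symm.surjective
  · obtain ⟨k, hk⟩ := P.isPGroup'.exists_card_eq
    haveI : Subsingleton ↥(P : Subgroup ↥X) := by
      rw [← Finite.card_le_one_iff_subsingleton, hk]
      have h2 := hXodd.of_dvd_nat (hk ▸ (P : Subgroup ↥X).card_subgroup_dvd_card)
      rcases k with _ | k
      · simp
      · exact absurd h2 (Nat.not_odd_iff_even.2 (even_two.pow_of_ne_zero (Nat.succ_ne_zero k)))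
    infer_instance

/-- Let H be a finite solvable group with no nontrivial normal subgroup of odd order in which the centralizer of every involution has a normal 2-complement. Let X be a Hall 2'-subgroup of H (odd order, index a power of 2) and Y = O₂(H). Then no non-identity element of X commutes with a non-identity element of Y (so for X ≠ 1 the group XY is a Frobenius group with kernel Y), every Sylow subgroup of X is cyclic, XY is normal in H, and H/XY is a cyclic 2-group. -/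
theorem result {H : Type*} [Group H] [Finite H] (hsol : Group.IsSolvable H)
    (hO : Cfsg.oddCore H = ⊥)
    (hI : ∀ t : H, orderOf t = 2 → Cfsg.HasNormalPComplement 2 ↥(Subgroup.centralizer ({t} : Set H)))
    (X : Subgroup H) (hXodd : Odd (Nat.card X)) (hXidx : ∃ k : ℕ, X.index = 2 ^ k) :
    (∀ x ∈ X, x ≠ 1 → ∀ y ∈ Cfsg.pCore 2 H, y ≠ 1 → x * y ≠ y * x) ∧
      (∀ (p : ℕ) [Fact p.Prime] (P : Sylow p ↥X), IsCyclic ↥(P : Subgroup ↥X)) ∧
      (X ⊔ Cfsg.pCore 2 H).Normal ∧
      ∀ hN : (X ⊔ Cfsg.pCore 2 H).Normal, IsCyclic (H ⧸ (X ⊔ Cfsg.pCore 2 H)) ∧ IsPGroup 2 (H ⧸ (X ⊔ Cfsg.pCore 2 H)) := by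
  haveI := hsol
  haveI : Fact (Nat.Prime 2) := ⟨Nat.prime_two⟩
  have hQ := CfsgLib.PCore.isPGroup_pCore 2 H
  haveI := (CfsgLib.PCore.pCore_characteristic 2 H)
  obtain ⟨kx, hkx⟩ := hXidx
  set Q := Cfsg.pCore 2 H with hQdef
  refine ⟨fun x hx hx1 y hy hy1 h => hx1 (fixed_point_free hI hO
    (hXodd.of_dvd_nat (Subgroup.orderOf_dvd_natCard X hx)) hy hy1 h),
    fun p hp P => isCyclic_sylow hI hO X hXodd p P, ?_⟩
  have hpg : ∀ hN : (X ⊔ Q).Normal, IsPGroup 2 (H ⧸ (X ⊔ Q)) := by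
    intro hN
    obtain ⟨l, -, hl⟩ := (Nat.dvd_prime_pow Nat.prime_two).1
      (hkx ▸ Subgroup.index_dvd_of_le (le_sup_left : X ≤ X ⊔ Q))
    exact IsPGroup.of_card (n := l) hl
  suffices h : (X ⊔ Q).Normal ∧ ∀ hN : (X ⊔ Q).Normal, IsCyclic (H ⧸ (X ⊔ Q)) from
    ⟨h.1, fun hN => ⟨h.2 hN, hpg hN⟩⟩
  -- the quotient by the 2-core
  set f := QuotientGroup.mk' Q with hf
  set Xb := X.map f with hXb
  by_cases htriv : Subsingleton (H ⧸ Q)
  · have hQtop : X ⊔ Q = ⊤ := by
      rw [eq_top_iff]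
      exact le_sup_of_le_right fun g _ => (QuotientGroup.eq_one_iff g).1 (Subsingleton.elim _ _)
    refine ⟨by rw [hQtop]; infer_instance, fun hN => ?_⟩
    haveI : Subsingleton (H ⧸ (X ⊔ Q)) := by
      rw [QuotientGroup.subsingleton_iff]
      exact hQtop
    infer_instance
  haveI : Nontrivial (H ⧸ Q) := not_subsingleton_iff_nontrivial.1 htriv
  have hO2 : Cfsg.pCore 2 (H ⧸ Q) = ⊥ := CfsgLib.PCore.pCore_quotient
  obtain ⟨p, hp, hC1⟩ : ∃ p : ℕ, p.Prime ∧ Cfsg.pCore p (H ⧸ Q) ≠ ⊥ := by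
    by_contra hcon
    push Not at hcon
    have hF : Cfsg.fittingSubgroup (H ⧸ Q) = ⊥ := by
      rw [CfsgLib.Components.fittingSubgroup_eq_iSup, iSup_eq_bot]
      exact fun q => hcon q (Nat.prime_of_mem_primeFactors q.2)
    have h := CfsgLib.Hall.centralizer_fitting_le (G := H ⧸ Q)
    rw [hF, le_bot_iff] at h
    exact (bot_ne_top (α := Subgroup (H ⧸ Q))) (by rw [← h]; simp)
  haveI := Fact.mk hp
  have hp2 : p ≠ 2 := fun h => hC1 (h ▸ hO2)
  set C := Cfsg.pCore p (H ⧸ Q) with hC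
  haveI := (CfsgLib.PCore.pCore_characteristic p (H ⧸ Q))
  have hCp := CfsgLib.PCore.isPGroup_pCore p (H ⧸ Q)
  have hCodd : Odd (Nat.card C) := by
    obtain ⟨m, hm⟩ := hCp.exists_card_eq
    rw [hm]
    exact (hp.odd_of_ne_two hp2).pow
  have hXbodd : Odd (Nat.card Xb) := hXodd.of_dvd_nat (Subgroup.card_map_dvd _ _)
  -- normal subgroups of odd order lie in `Xb`
  have hle : ∀ N : Subgroup (H ⧸ Q), N.Normal → Odd (Nat.card N) → N ≤ Xb := by
    intro N hN hNo
    haveI := hN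
    have h1 : Odd (Nat.card (N ⊔ Xb : Subgroup (H ⧸ Q))) :=
      (hXbodd.mul hNo).of_dvd_nat (sup_comm N Xb ▸ CfsgLib.PCore.card_sup_dvd N Xb)
    have h2 : Xb.relIndex (N ⊔ Xb) = 1 := by
      obtain ⟨l, -, hl⟩ := (Nat.dvd_prime_pow Nat.prime_two).1
        (hkx ▸ (Subgroup.index_map_dvd X (QuotientGroup.mk'_surjective Q)))
      have h3 : Xb.relIndex (N ⊔ Xb) ∣ 2 ^ l :=
        hl ▸ Dvd.intro _ (Subgroup.relIndex_mul_index (le_sup_right : Xb ≤ N ⊔ Xb))
      exact Nat.eq_one_of_dvd_coprimes (Nat.Coprime.pow_right l (Nat.coprime_two_right.2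
        (h1.of_dvd_nat (Subgroup.relIndex_dvd_card _ _)))) dvd_rfl h3
    exact le_sup_left.trans (Subgroup.relIndex_eq_one.1 h2)
  have hCcyc : IsCyclic C := by
    have hCX := hle C inferInstance hCodd
    let C' : Subgroup X := (C.comap f).subgroupOf X
    let g : C' →* C := (f.comp (X.subtype.comp C'.subtype)).codRestrict C fun c => c.2
    have hg : Function.Surjective g := by
      rintro ⟨c, hc⟩
      obtain ⟨x, hx, rfl⟩ := hCX hc
      exact ⟨⟨⟨x, hx⟩, hc⟩, rfl⟩
    have hg' : Function.Injective g := by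
      rw [injective_iff_map_eq_one]
      intro c hc
      have h1 : ((c : X) : H) ∈ Q := (QuotientGroup.eq_one_iff _).1 (congrArg Subtype.val hc)
      exact Subtype.ext (Subtype.ext (eq_one_of_odd_of_two hQ
        (hXodd.of_dvd_nat (Subgroup.orderOf_dvd_natCard X (c : X).2)) h1))
    have hC'p : IsPGroup p C' := hCp.of_injective g hg'
    obtain ⟨P, hP⟩ := hC'p.exists_le_sylow
    haveI := isCyclic_sylow hI hO X hXodd p P
    haveI : IsCyclic C' := isCyclic_of_injective (Subgroup.inclusion hP) (Subgroup.inclusion_injective hP)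
    exact isCyclic_of_surjective g hg
  haveI := hCcyc
  set φ : (H ⧸ Q) →* MulAut C := MulAut.conjNormal
  set Z := φ.ker with hZ
  have hcyc : IsCyclic (MulAut C) := by
    obtain ⟨m, hm⟩ := hCp.exists_card_eq
    haveI : IsCyclic (ZMod (Nat.card C))ˣ := by
      rw [hm]
      exact ZMod.isCyclic_units_of_prime_pow p hp hp2 m
    exact isCyclic_of_surjective _ (IsCyclic.mulAutMulEquiv C).symm.surjective
  have hZodd : Odd (Nat.card Z) := by
    rw [← Nat.not_even_iff_odd, even_iff_two_dvd]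
    intro hdvd
    obtain ⟨a, ha⟩ := exists_prime_orderOf_dvd_card' 2 hdvd
    set N₀ := C.comap f with hN₀
    let P : Sylow p N₀ := Classical.arbitrary _
    have hfr := Sylow.normalizer_sup_eq_top P
    set P₀ := (P : Subgroup N₀).map N₀.subtype with hP₀
    -- lift the involution to a 2-element normalizing `P₀`
    set M := (Subgroup.zpowers (a : H ⧸ Q)).comap f with hM
    have hM2 : IsPGroup 2 M := by
      obtain ⟨m, hm⟩ := hQ.exists_card_eq
      refine IsPGroup.of_card (n := 1 + m) ?_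
      rw [hM, hf, CfsgLib.PCore.card_comap_mk', Nat.card_zpowers, Subgroup.orderOf_coe, ha, hm, pow_add, pow_one, mul_comm]
    obtain ⟨g, hg⟩ := QuotientGroup.mk'_surjective Q (a : H ⧸ Q)
    obtain ⟨n, hn, q, hq, hnq⟩ := Subgroup.mem_sup_of_normal_right.1 (hfr ▸ Subgroup.mem_top g)
    -- decompose `q` further
    have hQN₀ : Q ≤ N₀ := fun z hz => by
      rw [hN₀, Subgroup.mem_comap, hf, QuotientGroup.mk'_apply, (QuotientGroup.eq_one_iff z).2 hz]
      exact one_mem _
    have hP₀N : P₀ ≤ N₀ := Subgroup.map_subtype_le _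
    have hN₀eq : P₀ ⊔ Q = N₀ := by
      refine Subgroup.eq_of_le_of_card_ge (sup_le hP₀N hQN₀) (Nat.le_of_dvd Nat.card_pos ?_)
      obtain ⟨m, hm⟩ := hQ.exists_card_eq
      obtain ⟨i, hi⟩ := hCp.exists_card_eq
      have hcN : Nat.card N₀ = p ^ i * 2 ^ m := by
        rw [hN₀, hf, CfsgLib.PCore.card_comap_mk', hi, hm, mul_comm]
      have hcP : Nat.card P₀ = p ^ i := by
        rw [hP₀, Subgroup.card_map_of_injective N₀.subtype_injective, P.card_eq_multiplicity, hcN,
          Nat.factorization_mul (pow_ne_zero _ hp.ne_zero) (by positivity), Finsupp.add_apply,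
          hp.factorization_pow, Finsupp.single_eq_same, Nat.factorization_eq_zero_of_not_dvd, add_zero]
        exact fun h => hp2 ((Nat.prime_dvd_prime_iff_eq hp Nat.prime_two).1 (hp.dvd_of_dvd_pow h))
      rw [hcN]
      refine Nat.Coprime.mul_dvd_of_dvd_of_dvd ((Nat.coprime_primes hp Nat.prime_two).2 hp2 |>.pow _ _)
        (hcP ▸ Subgroup.card_dvd_of_le le_sup_left) (hm ▸ Subgroup.card_dvd_of_le le_sup_right)
    obtain ⟨u, hu, v, hv, huv⟩ := Subgroup.mem_sup_of_normal_right.1 (hN₀eq.ge hq)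
    set n' := n * u with hn'
    have hn'N : n' ∈ Subgroup.normalizer (P₀ : Set H) := mul_mem hn (Subgroup.le_normalizer hu)
    have hn'a : f n' = a := by
      rw [← hg, ← hnq, ← huv, ← mul_assoc, ← hn']
      show f n' = f (n' * v)
      rw [map_mul f n' v, show f v = 1 from (QuotientGroup.eq_one_iff v).2 hv, mul_one]
    have hn'M : n' ∈ M := by
      rw [hM, Subgroup.mem_comap, hn'a]
      exact Subgroup.mem_zpowers _
    have hn'Q : n' ∉ Q := fun h => by
      have h1 : (a : H ⧸ Q) = 1 := hn'a ▸ (QuotientGroup.eq_one_iff n').2 h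
      rw [OneMemClass.coe_eq_one.1 h1, orderOf_one] at ha
      exact absurd ha (by norm_num)
    have hPodd : ∀ c ∈ P₀, Odd (orderOf c) := by
      intro c hc
      obtain ⟨m, hm⟩ := (P.isPGroup'.map N₀.subtype).exists_card_eq
      exact (hp.odd_of_ne_two hp2).pow.of_dvd_nat (hm ▸ Subgroup.orderOf_dvd_natCard _ hc)
    have hncomm : ∀ c ∈ P₀, n' * c = c * n' := by
      intro c hc
      have h1 : n' * c * n'⁻¹ * c⁻¹ ∈ P₀ :=
        mul_mem ((Subgroup.mem_normalizer_iff.1 hn'N c).1 hc) (inv_mem hc)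
      have h2 : n' * c * n'⁻¹ * c⁻¹ ∈ Q := by
        rw [← QuotientGroup.eq_one_iff, ← QuotientGroup.mk'_apply, ← hf, map_mul, map_mul, map_mul,
          map_inv, map_inv, hn'a]
        have hz := DFunLike.congr_fun (a.2 : φ (a : H ⧸ Q) = 1) ⟨f c, hP₀N hc⟩
        have hz' := congrArg Subtype.val hz
        simp only [φ, MulAut.conjNormal_apply, MulAut.one_apply] at hz'
        rw [hz', mul_inv_cancel]
      have h3 := eq_one_of_odd_of_two hQ (hPodd _ h1) h2
      rw [mul_inv_eq_one, mul_inv_eq_iff_eq_mul] at h3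
      exact h3
    obtain ⟨c, hc, hc1⟩ : ∃ c ∈ P₀, c ≠ 1 := by
      by_contra hcon
      push Not at hcon
      apply hC1
      rw [Subgroup.eq_bot_iff_forall]
      intro d hd
      obtain ⟨e, rfl⟩ := QuotientGroup.mk'_surjective Q d
      obtain ⟨u', hu', v', hv', huv'⟩ := Subgroup.mem_sup_of_normal_right.1 (hN₀eq.ge (hd : e ∈ N₀))
      rw [← huv', map_mul, hcon u' hu', map_one, one_mul]
      exact (QuotientGroup.eq_one_iff v').2 hv'
    have hn2 : n' ^ 2 = 1 := by
      by_contra h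
      refine hc1 (fixed_point_free hI hO (hPodd c hc) ?_ h ((Commute.pow_left (hncomm c hc) 2).eq.symm))
      rw [← QuotientGroup.eq_one_iff, ← QuotientGroup.mk'_apply, ← hf, map_pow, hn'a, ← Subgroup.coe_pow,
        show a ^ 2 = 1 from (congrArg (a ^ ·) ha).symm.trans (pow_orderOf_eq_one a)]
      rfl
    have hno : orderOf n' = 2 := orderOf_eq_prime hn2 fun h => hn'Q (h ▸ one_mem _)
    -- the involution has a nontrivial fixed point on `Q`
    obtain ⟨z, hz, hz1, hzn⟩ : ∃ z ∈ Q, z ≠ 1 ∧ z * n' = n' * z := by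
      have hM' : IsPGroup 2 M := hM2
      haveI : Nontrivial M := ⟨⟨⟨n', hn'M⟩, 1, fun h => hn'Q (by
        rw [show n' = 1 from congrArg Subtype.val h]; exact one_mem _)⟩⟩
      have hQM : Q ≤ M := fun w hw => by
        rw [hM, Subgroup.mem_comap, hf, QuotientGroup.mk'_apply, (QuotientGroup.eq_one_iff w).2 hw]
        exact one_mem _
      have hQ1 : Q.subgroupOf M ≠ ⊥ := by
        rw [Ne, Subgroup.subgroupOf_eq_bot, disjoint_iff, inf_eq_left.2 hQM]
        intro h
        refine hc1 (eq_one_of_odd_of_two hQ (hPodd c hc) (CfsgLib.Hall.centralizer_pCore_le 2 hO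
          (Subgroup.mem_centralizer_iff.2 fun w hw => ?_)))
        rw [← hQdef, h] at hw
        simp [Subgroup.mem_bot.1 hw]
      obtain ⟨⟨z, hz⟩, hz1⟩ := (Subgroup.ne_bot_iff_exists_ne_one).1
        (CfsgLib.PReduced.inf_center_ne_bot hM' hQ1)
      refine ⟨((z : M) : H), Subgroup.mem_subgroupOf.1 hz.1, fun h => hz1 (Subtype.ext (Subtype.ext h)), ?_⟩
      exact congrArg Subtype.val (Subgroup.mem_center_iff.1 hz.2 ⟨n', hn'M⟩).symm
    exact hc1 (fixed_point_free hI hO (hPodd c hc) hz hz1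
      (commute_centralizer_core hI (hPodd c hc) hno (hncomm c hc).symm hz hzn))
  have hZX : Z ≤ Xb := hle Z inferInstance hZodd
  have hXbn : Xb.Normal := by
    refine ⟨fun x hx g => ?_⟩
    have hab : ∀ s t : MulAut C, s * t = t * s := fun s t => IsCyclic.commGroup.mul_comm s t
    have h : g * x * g⁻¹ * x⁻¹ ∈ Z := by
      rw [hZ, MonoidHom.mem_ker, map_mul, map_mul, map_mul, map_inv, map_inv, hab (φ g), mul_inv_cancel_right,
        mul_inv_cancel]
    have := mul_mem (hZX h) hx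
    rwa [inv_mul_cancel_right] at this
  have hsup : X ⊔ Q = Xb.comap f := by
    rw [hXb, Subgroup.comap_map_eq, hf, QuotientGroup.ker_mk']
  refine ⟨by rw [hsup]; exact hXbn.comap f, fun hN => ?_⟩
  haveI : IsCyclic ((H ⧸ Q) ⧸ Z) :=
    isCyclic_of_injective (QuotientGroup.kerLift φ) (QuotientGroup.kerLift_injective φ)
  let π : H →* (H ⧸ Q) ⧸ Z := (QuotientGroup.mk' Z).comp f
  have hπ : Function.Surjective π := (QuotientGroup.mk'_surjective Z).comp (QuotientGroup.mk'_surjective Q)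
  have hker : π.ker ≤ X ⊔ Q := by
    intro g hg
    rw [hsup, Subgroup.mem_comap]
    exact hZX ((QuotientGroup.eq_one_iff (f g)).1 hg)
  haveI : IsCyclic (H ⧸ π.ker) :=
    isCyclic_of_injective (QuotientGroup.kerLift π) (QuotientGroup.kerLift_injective π)
  exact isCyclic_of_surjective (QuotientGroup.map π.ker (X ⊔ Q) (MonoidHom.id H) hker)
    (QuotientGroup.map_surjective_of_surjective π.ker (X ⊔ Q) (MonoidHom.id H) (QuotientGroup.mk'_surjective (X ⊔ Q)) hker)

end Cfsg.Agent.S3215
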