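import Cfsg.Statements.S3225
import Mathlib.GroupTheory.Transfer
import Mathlib.Algebra.GroupWithZero.Units.Fintype
import Mathlib.Algebra.Ring.Parity
import Mathlib.GroupTheory.Sylow
import Mathlib.Tactic.Positivity

set_option autoImplicit false
open Cfsg

namespace Cfsg.Agent.S3225

/-- Let G be a finite group of even order with no subgroup of index 2, S a Sylow 2-subgroup of G and M a subgroup of index 2 in S such that, for some n ≥ 1, every element of S outside M has order greater than 2^(n−1). Then every element of S of order 2ⁿ is conjugate in G to an element of M. -/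
theorem result {G : Type*} [Group G] [Finite G] (hev : Even (Nat.card G))
    (hG : ∀ H : Subgroup G, H.index ≠ 2) (S : Sylow 2 G) (M : Subgroup G) (hMS : M ≤ (S : Subgroup G)) (hM : M.relIndex (S : Subgroup G) = 2)
    (n : ℕ) (hn : 1 ≤ n) (hord : ∀ y ∈ (S : Subgroup G), y ∉ M → 2 ^ (n - 1) < orderOf y)
    (x : G) (hx : x ∈ (S : Subgroup G)) (hxn : orderOf x = 2 ^ n) :
    ∃ g : G, g * x * g⁻¹ ∈ M := by
  classical
  by_contra hcon
  push Not at hcon
  set P : Subgroup G := (S : Subgroup G)
  have hM2 : (M.subgroupOf P).index = 2 := hM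
  let φ : P →* ℤˣ := MonoidHom.mk' (fun y => if (y : G) ∈ M then 1 else -1) fun a b => by
    have h := Subgroup.mul_mem_iff_of_index_two hM2 (a := a) (b := b)
    simp only [Subgroup.mem_subgroupOf, Subgroup.coe_mul] at h
    by_cases ha : (a : G) ∈ M <;> by_cases hb : (b : G) ∈ M <;> simp [h, ha, hb]
  have hφ : ∀ y : P, φ y = if (y : G) ∈ M then 1 else -1 := fun _ => rfl
  have htriv : ∀ g : G, MonoidHom.transfer φ g = 1 := by
    intro g
    have h1 := Subgroup.index_ker (MonoidHom.transfer φ)
    have h2 := Subgroup.card_subgroup_dvd_card (MonoidHom.transfer φ).range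
    rw [Nat.card_eq_fintype_card (α := ℤˣ)] at h2
    have h3 : (MonoidHom.transfer φ).ker.index = 1 := by
      rcases (Nat.dvd_prime Nat.prime_two).1 (show (MonoidHom.transfer φ).ker.index ∣ 2 by rw [h1]; exact h2) with h | h
      · exact h
      · exact absurd h (hG _)
    exact (MonoidHom.mem_ker).1 (Subgroup.index_eq_one.1 h3 ▸ Subgroup.mem_top g)
  have hfin : Fintype (Quotient (MulAction.orbitRel (Subgroup.zpowers x) (G ⧸ P))) := Fintype.ofFinite _
  set r : Quotient (MulAction.orbitRel (Subgroup.zpowers x) (G ⧸ P)) → ℕ :=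
    fun q => Function.minimalPeriod (x • ·) q.out
  have hx1 : ∀ q, r q ∣ 2 ^ n := by
    intro q
    have : Function.IsPeriodicPt (x • ·) (2 ^ n) q.out := by
      simp only [Function.IsPeriodicPt, Function.IsFixedPt, smul_iterate, ← hxn, pow_orderOf_eq_one, one_smul]
    exact this.minimalPeriod_dvd
  have hfac : ∀ q : Quotient (MulAction.orbitRel (Subgroup.zpowers x) (G ⧸ P)),
      φ ⟨q.out.out⁻¹ * x ^ r q * q.out.out, QuotientGroup.out_conj_pow_minimalPeriod_mem P x q.out⟩ =
        (-1) ^ (r q) := by
    intro q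
    set y := q.out.out⁻¹ * x ^ r q * q.out.out with hy
    have hyS : y ∈ P := QuotientGroup.out_conj_pow_minimalPeriod_mem P x q.out
    rw [hφ]
    obtain ⟨i, hi, hri⟩ := (Nat.dvd_prime_pow Nat.prime_two).1 (hx1 q)
    rcases Nat.eq_zero_or_pos i with rfl | hi0
    · have hyM : y ∉ M := by
        rw [hy, hri, pow_zero, pow_one]
        have := hcon q.out.out⁻¹
        simpa using this
      rw [if_neg hyM, hri, pow_zero, pow_one]
    · have hyM : y ∈ M := by
        by_contra hyM
        have h1 := hord y hyS hyM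
        have h2 : orderOf y = orderOf (x ^ r q) := by
          rw [hy]; simpa using MulEquiv.orderOf_eq (MulAut.conj q.out.out⁻¹) (x ^ r q)
        rw [h2, orderOf_pow_of_dvd (by rw [hri]; positivity) (hxn ▸ hx1 q), hxn, hri, Nat.pow_div hi Nat.two_pos] at h1
        exact absurd h1 (not_lt.2 (Nat.pow_le_pow_right Nat.two_pos (by omega)))
      rw [if_pos hyM, hri]
      exact (Even.neg_one_pow (Even.pow_of_ne_zero even_two (by omega))).symm
  have hprod := MonoidHom.transfer_eq_prod_quotient_orbitRel_zpowers_quot φ x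
  rw [htriv, Finset.prod_congr rfl (fun q _ => hfac q), Finset.prod_pow_eq_pow_sum] at hprod
  have hsum : ∑ q, r q = P.index := by
    rw [Subgroup.index, Nat.card_congr (Subgroup.quotientEquivSigmaZMod P x), Nat.card_sigma]
    exact Finset.sum_congr rfl fun q _ => (Nat.card_zmod _).symm
  have hodd : Odd P.index := by
    rw [← Nat.not_even_iff_odd, even_iff_two_dvd]
    have : Fact (Nat.Prime 2) := ⟨Nat.prime_two⟩
    exact S.not_dvd_index
  rw [hsum, hodd.neg_one_pow] at hprod
  exact absurd hprod (by decide)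

end Cfsg.Agent.S3225
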