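import Cfsg.Statements.S3247
import Cfsg.Agent.PCore.Descent
import Cfsg.Agent.PCore.Basic
import Cfsg.Agent.PCore.PConstrained

set_option autoImplicit false
open Cfsg

namespace Cfsg.Agent.S3247

open CfsgLib in
theorem of_centralizer {K : Type*} [Group K] [Finite K] {p : ℕ} [Fact p.Prime] (Q : Subgroup K) [hQn : Q.Normal]
    (hQ : IsPGroup p Q) (hC : Cfsg.IsPConstrained p ↥(Subgroup.centralizer (Q : Set K))) :
    Cfsg.IsPConstrained p K := by
  haveI : (Cfsg.pPrimeCore p K).Normal := Cfsg.pPrimeCore_normal p K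
  set π := QuotientGroup.mk' (Cfsg.pPrimeCore p K) with hπ
  set C := Subgroup.centralizer (Q : Set K) with hCdef
  haveI hCn : C.Normal := Subgroup.normal_centralizer
  haveI : (C.map π).Normal := hCn.map π (QuotientGroup.mk'_surjective _)
  set f := π.subgroupMap C
  have hf : Function.Surjective f := MonoidHom.subgroupMap_surjective _ _
  have hker : f.ker = Cfsg.pPrimeCore p C := by
    ext x
    rw [MonoidHom.mem_ker, Subtype.ext_iff]
    show π (x : K) = 1 ↔ _
    rw [hπ, QuotientGroup.mk'_apply, QuotientGroup.eq_one_iff]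
    have h1 := PCore.map_pPrimeCore_normal (p := p) C
    constructor
    · intro hx
      obtain ⟨y, hy, e⟩ := (h1.symm ▸ ⟨hx, x.2⟩ : (x : K) ∈ (Cfsg.pPrimeCore p C).map C.subtype)
      exact (Subtype.ext e : y = x) ▸ hy
    · intro hx
      exact (h1 ▸ ⟨x, hx, rfl⟩ : (x : K) ∈ Cfsg.pPrimeCore p K ⊓ C).1
  let e : C ⧸ Cfsg.pPrimeCore p C ≃* ↥(C.map π) :=
    (QuotientGroup.quotientMulEquivOfEq hker.symm).trans (QuotientGroup.quotientKerEquivOfSurjective f hf)
  have hc' : Subgroup.centralizer (Cfsg.pCore p ↥(C.map π) : Set ↥(C.map π)) ≤ Cfsg.pCore p ↥(C.map π) := by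
    intro q hq
    have h1 : e.symm q ∈ Cfsg.pCore p (C ⧸ Cfsg.pPrimeCore p C) := PCore.isPConstrained_iff.1 hC
      (Subgroup.mem_centralizer_iff.2 fun y hy => e.injective (by
        rw [map_mul, map_mul, e.apply_symm_apply]
        exact Subgroup.mem_centralizer_iff.1 hq (e y) (by rw [← PCore.map_pCore_equiv e]; exact ⟨y, hy, rfl⟩)))
    rw [← PCore.map_pCore_equiv e]
    exact ⟨_, h1, e.apply_symm_apply q⟩
  rw [PCore.isPConstrained_iff]
  intro x hx
  have hQle : Q.map π ≤ Cfsg.pCore p (K ⧸ Cfsg.pPrimeCore p K) :=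
    PCore.le_pCore (hQn.map π (QuotientGroup.mk'_surjective _)) (hQ.map π)
  have hxC : x ∈ C.map π := by
    rw [hCdef, hπ, ← PCore.centralizer_map_eq _ (PCore.pPrimeCore_coprime p K) Q hQ]
    exact Subgroup.mem_centralizer_iff.2 fun y hy => Subgroup.mem_centralizer_iff.1 hx y (hQle hy)
  have h2 := PCore.map_pCore_normal (p := p) (C.map π)
  have h3 : (⟨x, hxC⟩ : ↥(C.map π)) ∈ Cfsg.pCore p ↥(C.map π) := hc' (Subgroup.mem_centralizer_iff.2 fun y hy => by
    have h4 : (y : K ⧸ Cfsg.pPrimeCore p K) ∈ Cfsg.pCore p (K ⧸ Cfsg.pPrimeCore p K) ⊓ C.map π := by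
      rw [← h2]; exact ⟨y, hy, rfl⟩
    exact Subtype.ext (Subgroup.mem_centralizer_iff.1 hx y h4.1))
  have h5 : x ∈ Cfsg.pCore p (K ⧸ Cfsg.pPrimeCore p K) ⊓ C.map π := by
    rw [← h2]; exact ⟨_, h3, rfl⟩
  exact h5.1


/-- Let G be a finite group and p a prime; here a p-local subgroup means the normalizer of a nontrivial p-subgroup, other than G itself. If every p-local subgroup of G that is maximal among p-local subgroups is p-constrained, or if the centralizer of every element of order p of G is p-constrained, then every p-local subgroup of G is p-constrained. -/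
theorem result {G : Type*} [Group G] [Finite G] (p : ℕ) [hp : Fact p.Prime]
    (h : (∀ M : Subgroup G, (∃ T : Subgroup G, IsPGroup p ↥T ∧ T ≠ ⊥ ∧ M = Subgroup.normalizer (T : Set G)) → M ≠ ⊤ →
        (∀ M' : Subgroup G, (∃ T' : Subgroup G, IsPGroup p ↥T' ∧ T' ≠ ⊥ ∧ M' = Subgroup.normalizer (T' : Set G)) → M' ≠ ⊤ → M ≤ M' → M = M') →
        Cfsg.IsPConstrained p ↥M) ∨
      (∀ x : G, orderOf x = p → Cfsg.IsPConstrained p ↥(Subgroup.centralizer ({x} : Set G))))
    (T : Subgroup G) (hT : IsPGroup p ↥T) (hT1 : T ≠ ⊥) (hTG : Subgroup.normalizer (T : Set G) ≠ ⊤) :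
    Cfsg.IsPConstrained p ↥(Subgroup.normalizer (T : Set G)) := by
  classical
  rcases h with h | h
  · let L : Set (Subgroup G) :=
      {M | (∃ T : Subgroup G, IsPGroup p ↥T ∧ T ≠ ⊥ ∧ M = Subgroup.normalizer (T : Set G)) ∧ M ≠ ⊤}
    obtain ⟨M, hTM, hM⟩ := (Set.toFinite L).exists_le_maximal (a := Subgroup.normalizer (T : Set G))
      ⟨⟨T, hT, hT1, rfl⟩, hTG⟩
    have hc := h M hM.1.1 hM.1.2 fun M' hM'1 hM'2 hle => le_antisymm hle (hM.2 ⟨hM'1, hM'2⟩ hle)
    have hTle : T ≤ M := Subgroup.le_normalizer.trans hTM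
    have hd := CfsgLib.PCore.isPConstrained_normalizer hc (P := T.subgroupOf M) hT.comap_subtype
    have e : Subgroup.normalizer ((T.subgroupOf M : Subgroup M) : Set M) =
        (Subgroup.normalizer (T : Set G)).subgroupOf M := by
      rw [Subgroup.subgroupOf_normalizer_eq hTle]
    rw [e] at hd
    exact CfsgLib.PCore.isPConstrained_of_equiv (Subgroup.subgroupOfEquivOfLe hTM) hd
  · haveI : Nontrivial T := (Subgroup.nontrivial_iff_ne_bot T).2 hT1
    haveI : Nontrivial (Subgroup.center T) := hT.center_nontrivial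
    have hd : p ∣ Nat.card (Subgroup.center T) := by
      obtain ⟨k, hk⟩ := IsPGroup.iff_card.1 (hT.to_subgroup (Subgroup.center T))
      have h1 := Finite.one_lt_card (α := Subgroup.center T)
      rw [hk] at h1 ⊢
      exact dvd_pow_self p (fun e => by rw [e, pow_zero] at h1; omega)
    obtain ⟨⟨x, hxc⟩, hx⟩ := exists_prime_orderOf_dvd_card' p hd
    rw [Subgroup.orderOf_mk] at hx
    have hc := h (x : G) (by rw [Subgroup.orderOf_coe]; exact hx)
    set N := Subgroup.normalizer (T : Set G) with hN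
    set D := Subgroup.centralizer ({(x : G)} : Set G) with hD
    have hle : Subgroup.centralizer (T : Set G) ≤ D := fun c hc' => by
      rw [hD, Subgroup.mem_centralizer_singleton_iff]
      exact (Subgroup.mem_centralizer_iff.1 hc' x x.2).symm
    refine of_centralizer (T.subgroupOf N) hT.comap_subtype ?_
    have hTN : T ≤ N := Subgroup.le_normalizer
    have h1 : Subgroup.centralizer ((T.subgroupOf N : Subgroup N) : Set N) =
        (Subgroup.centralizer (T : Set G)).subgroupOf N := by
      ext c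
      rw [Subgroup.mem_subgroupOf, Subgroup.mem_centralizer_iff, Subgroup.mem_centralizer_iff]
      exact ⟨fun h t ht => congrArg Subtype.val (h ⟨t, hTN ht⟩ ht), fun h t ht => Subtype.ext (h t ht)⟩
    rw [h1]
    refine CfsgLib.PCore.isPConstrained_of_equiv
      (Subgroup.subgroupOfEquivOfLe (Subgroup.centralizer_le_normalizer _)).symm ?_
    -- inside the centralizer of `x`
    have hd' := CfsgLib.PCore.isPConstrained_centralizer hc
      (P := (T ⊓ D).subgroupOf D) (hT.to_le inf_le_left).comap_subtype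
    have hTD : T ≤ D := fun t ht => by
      rw [hD, Subgroup.mem_centralizer_singleton_iff]
      exact congrArg Subtype.val (Subgroup.mem_center_iff.1 hxc ⟨t, ht⟩)
    rw [inf_eq_left.2 hTD] at hd'
    have h2 : Subgroup.centralizer ((T.subgroupOf D : Subgroup D) : Set D) =
        (Subgroup.centralizer (T : Set G)).subgroupOf D := by
      ext c
      rw [Subgroup.mem_subgroupOf, Subgroup.mem_centralizer_iff, Subgroup.mem_centralizer_iff]
      exact ⟨fun h t ht => congrArg Subtype.val (h ⟨t, hTD ht⟩ ht), fun h t ht => Subtype.ext (h t ht)⟩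
    rw [h2] at hd'
    exact CfsgLib.PCore.isPConstrained_of_equiv (Subgroup.subgroupOfEquivOfLe hle) hd'
end Cfsg.Agent.S3247
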