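import Cfsg.Statements.S3246
import Cfsg.Agent.CharTwoEarly.Main
import Cfsg.Agent.S3247
-- import your own Cfsg.Agent.* helpers here

set_option autoImplicit false
open Cfsg

namespace Cfsg.Agent.S3246

/-- Let G be a finite group whose Sylow 2-subgroup S has a self-centralizing normal subgroup of rank at least 3. Suppose that either every maximal 2-local subgroup of G is 2-constrained with no nontrivial normal subgroup of odd order, or the centralizer of every involution of G is 2-constrained with no nontrivial normal subgroup of odd order. Then S normalizes no nontrivial subgroup of G of odd order and every 2-local subgroup of G is 2-constrained. -/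
theorem result {G : Type*} [Group G] [Finite G]
    (S : Sylow 2 G) (A : Subgroup G) (hA : Cfsg.IsSCN (S : Subgroup G) A) (hA3 : ¬ Cfsg.PRankLE 2 2 ↥A)
    (h : (∀ M : Subgroup G, Cfsg.IsMaximalTwoLocal M → Cfsg.IsPConstrained 2 ↥M ∧ Cfsg.oddCore ↥M = ⊥) ∨
      (∀ t : G, orderOf t = 2 → Cfsg.IsPConstrained 2 ↥(Subgroup.centralizer ({t} : Set G)) ∧
        Cfsg.oddCore ↥(Subgroup.centralizer ({t} : Set G)) = ⊥)) :
    (∀ X : Subgroup G, Odd (Nat.card ↥X) → (S : Subgroup G) ≤ Subgroup.normalizer (X : Set G) → X = ⊥) ∧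
      (∀ T : Subgroup G, IsPGroup 2 ↥T → T ≠ ⊥ → Cfsg.IsPConstrained 2 ↥(Subgroup.normalizer (T : Set G))) := by
  haveI : Fact (Nat.Prime 2) := ⟨Nat.prime_two⟩
  have hex : ∀ N : Subgroup G, Cfsg.IsTwoLocal N → ∃ M, Cfsg.IsMaximalTwoLocal M ∧ N ≤ M := by
    intro N hN
    obtain ⟨M, hle, hM⟩ := (Set.toFinite {K : Subgroup G | Cfsg.IsTwoLocal K}).exists_le_maximal (a := N) hN
    exact ⟨M, ⟨hM.1, fun K hK hle' => le_antisymm (hM.2 hK hle') hle'⟩, hle⟩
  -- both hypotheses give the second one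
  have hcent : ∀ t : G, orderOf t = 2 → Cfsg.IsPConstrained 2 ↥(Subgroup.centralizer ({t} : Set G)) ∧
      Cfsg.oddCore ↥(Subgroup.centralizer ({t} : Set G)) = ⊥ := by
    intro t ht
    rcases h with h | h
    · have hp : IsPGroup 2 (Subgroup.zpowers t) := IsPGroup.of_card (n := 1) (by rw [Nat.card_zpowers, ht, pow_one])
      have hne : Subgroup.zpowers t ≠ ⊥ := by
        rw [Ne, Subgroup.zpowers_eq_bot]; intro e; rw [e, orderOf_one] at ht; omega
      obtain ⟨M, hM, hle⟩ := hex _ ⟨_, hp, hne, rfl⟩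
      obtain ⟨hMc, hMo⟩ := h M hM
      set C := Subgroup.centralizer ({t} : Set G) with hC
      have hCM : C ≤ M := by
        refine le_trans ?_ hle
        rw [hC, ← Subgroup.centralizer_closure, ← Subgroup.zpowers_eq_closure]
        exact Subgroup.centralizer_le_normalizer _
      have htM : t ∈ M := hCM (Subgroup.mem_centralizer_singleton_iff.mpr rfl)
      let P : Subgroup ↥M := Subgroup.zpowers ⟨t, htM⟩
      have hP : IsPGroup 2 P := IsPGroup.of_card (n := 1) (by
        rw [Nat.card_zpowers, Subgroup.orderOf_mk, ht, pow_one])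
      have e : Subgroup.centralizer (P : Set ↥M) = C.subgroupOf M := by
        ext c
        simp only [P, Subgroup.zpowers_eq_closure, Subgroup.centralizer_closure,
          Subgroup.mem_centralizer_singleton_iff, Subgroup.mem_subgroupOf, hC, Subtype.ext_iff, Subgroup.coe_mul]
      have h1 := CfsgLib.PCore.isPConstrained_centralizer hMc hP
      have h2 := CfsgLib.PCore.pPrimeCore_centralizer_le hMc hP
      rw [show Cfsg.pPrimeCore 2 ↥M = ⊥ from hMo, le_bot_iff, Subgroup.map_eq_bot_iff, Subgroup.ker_subtype,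
        le_bot_iff] at h2
      rw [e] at h1 h2
      refine ⟨CfsgLib.PCore.isPConstrained_of_equiv (Subgroup.subgroupOfEquivOfLe hCM) h1, ?_⟩
      show Cfsg.pPrimeCore 2 ↥C = ⊥
      rw [← CfsgLib.PCore.map_pPrimeCore_equiv (Subgroup.subgroupOfEquivOfLe hCM), h2, Subgroup.map_bot]
    · exact h t ht
  refine ⟨?_, fun T hT hT1 => ?_⟩
  swap
  · have hp := Nat.prime_two
    have h' : ∀ x : G, orderOf x = 2 → Cfsg.IsPConstrained 2 ↥(Subgroup.centralizer ({x} : Set G)) :=
      fun x hx => (hcent x hx).1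
    haveI : Nontrivial T := (Subgroup.nontrivial_iff_ne_bot T).2 hT1
    haveI : Nontrivial (Subgroup.center T) := hT.center_nontrivial
    have hd : 2 ∣ Nat.card (Subgroup.center T) := by
      obtain ⟨k, hk⟩ := IsPGroup.iff_card.1 (hT.to_subgroup (Subgroup.center T))
      have h1 := Finite.one_lt_card (α := Subgroup.center T)
      rw [hk] at h1 ⊢
      exact dvd_pow_self 2 (fun e => by rw [e, pow_zero] at h1; omega)
    obtain ⟨⟨x, hxc⟩, hx⟩ := exists_prime_orderOf_dvd_card' 2 hd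
    rw [Subgroup.orderOf_mk] at hx
    have hc := h' (x : G) (by rw [Subgroup.orderOf_coe]; exact hx)
    set N := Subgroup.normalizer (T : Set G) with hN
    set D := Subgroup.centralizer ({(x : G)} : Set G) with hD
    have hle : Subgroup.centralizer (T : Set G) ≤ D := fun c hc' => by
      rw [hD, Subgroup.mem_centralizer_singleton_iff]
      exact (Subgroup.mem_centralizer_iff.1 hc' x x.2).symm
    refine Cfsg.Agent.S3247.of_centralizer (T.subgroupOf N) hT.comap_subtype ?_
    have hTN : T ≤ N := Subgroup.le_normalizer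
    have h1 : Subgroup.centralizer ((T.subgroupOf N : Subgroup N) : Set N) =
        (Subgroup.centralizer (T : Set G)).subgroupOf N := by
      ext c
      rw [Subgroup.mem_subgroupOf, Subgroup.mem_centralizer_iff, Subgroup.mem_centralizer_iff]
      exact ⟨fun h t ht => congrArg Subtype.val (h ⟨t, hTN ht⟩ ht), fun h t ht => Subtype.ext (h t ht)⟩
    rw [h1]
    refine CfsgLib.PCore.isPConstrained_of_equiv
      (Subgroup.subgroupOfEquivOfLe (Subgroup.centralizer_le_normalizer _)).symm ?_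
    -- inside the centralizer of `x`
    have hd' := CfsgLib.PCore.isPConstrained_centralizer hc
      (P := (T ⊓ D).subgroupOf D) (hT.to_le inf_le_left).comap_subtype
    have hTD : T ≤ D := fun t ht => by
      rw [hD, Subgroup.mem_centralizer_singleton_iff]
      exact congrArg Subtype.val (Subgroup.mem_center_iff.1 hxc ⟨t, ht⟩)
    rw [inf_eq_left.2 hTD] at hd'
    have h2 : Subgroup.centralizer ((T.subgroupOf D : Subgroup D) : Set D) =
        (Subgroup.centralizer (T : Set G)).subgroupOf D := by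
      ext c
      rw [Subgroup.mem_subgroupOf, Subgroup.mem_centralizer_iff, Subgroup.mem_centralizer_iff]
      exact ⟨fun h t ht => congrArg Subtype.val (h ⟨t, hTD ht⟩ ht), fun h t ht => Subtype.ext (h t ht)⟩
    rw [h2] at hd'
    exact CfsgLib.PCore.isPConstrained_of_equiv (Subgroup.subgroupOfEquivOfLe hle) hd'
  intro X hX hSX
  have hAS := hA.1
  have hAab : ∀ a ∈ A, ∀ b ∈ A, a * b = b * a := by
    intro a ha b hb
    have : b ∈ (S : Subgroup G) ⊓ Subgroup.centralizer (A : Set G) := hA.2.2.symm ▸ hb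
    exact Subgroup.mem_centralizer_iff.1 this.2 a ha
  let E : Subgroup G :=
    { carrier := {a | a ∈ A ∧ a * a = 1}
      mul_mem' := fun {a b} ha hb => ⟨mul_mem ha.1 hb.1, by
        rw [show a * b * (a * b) = a * (b * a) * b by group, hAab b hb.1 a ha.1]
        rw [show a * (a * b) * b = a * a * (b * b) by group, ha.2, hb.2, one_mul]⟩
      one_mem' := ⟨one_mem _, one_mul 1⟩
      inv_mem' := fun {a} ha => ⟨A.inv_mem ha.1, by rw [← mul_inv_rev, ha.2, inv_one]⟩ }
  have hES : E ≤ (S : Subgroup G) := fun a ha => hAS ha.1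
  have hEc : ∀ a ∈ E, ∀ b ∈ E, a * b = b * a := fun a ha b hb => hAab a ha.1 b hb.1
  have hEbig : 4 < Nat.card E := by
    by_contra hle
    apply hA3
    intro B _ hB
    refine le_trans ?_ (le_of_not_gt hle)
    rw [Nat.card_congr (Subgroup.equivMapOfInjective B A.subtype A.subtype_injective).toEquiv]
    refine Subgroup.card_le_of_le ?_
    rintro _ ⟨b, hb, rfl⟩
    exact ⟨b.2, by have := hB b hb; rw [pow_two] at this; exact congrArg Subtype.val this⟩
  -- choice of `z` and `y`
  haveI hEn : (E.subgroupOf (S : Subgroup G)).Normal := ⟨fun a ha s => by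
    have h1 := (Subgroup.mem_normalizer_iff.1 (hA.2.1 s.2) (a : G)).1 ha.1
    refine ⟨h1, ?_⟩
    show (s : G) * a * (s : G)⁻¹ * ((s : G) * a * (s : G)⁻¹) = 1
    calc (s : G) * a * (s : G)⁻¹ * ((s : G) * a * (s : G)⁻¹) = s * ((a : G) * a) * (s : G)⁻¹ := by group
      _ = 1 := by rw [show (a : G) * a = 1 from ha.2]; group⟩
  have hcardE : Nat.card (E.subgroupOf (S : Subgroup G)) = Nat.card E :=
    Nat.card_congr (Subgroup.subgroupOfEquivOfLe hES).toEquiv
  have hEne : E.subgroupOf (S : Subgroup G) ≠ ⊥ := fun h => by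
    rw [h, Subgroup.card_bot] at hcardE; omega
  obtain ⟨⟨zs, hzs⟩, hzs1⟩ := (Subgroup.ne_bot_iff_exists_ne_one).1
    (CfsgLib.PReduced.inf_center_ne_bot S.2 hEne)
  set z : G := (zs : G) with hzdef
  have hzE : z ∈ E := hzs.1
  have hzz : z * z = 1 := hzE.2
  have hz1 : z ≠ 1 := fun h => hzs1 (Subtype.ext (Subtype.ext h))
  have hzS : z ∈ (S : Subgroup G) := hES hzE
  have hzc : ∀ s ∈ (S : Subgroup G), s * z = z * s := fun s hs =>
    congrArg Subtype.val (Subgroup.mem_center_iff.1 hzs.2 ⟨s, hs⟩)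
  have hzi : z⁻¹ = z := inv_eq_of_mul_eq_one_right hzz
  let Z : Subgroup (S : Subgroup G) :=
    { carrier := {a | (a : G) = 1 ∨ (a : G) = z}
      mul_mem' := by
        intro a b ha hb
        show (a : G) * b = 1 ∨ (a : G) * b = z
        rcases ha with ha | ha <;> rcases hb with hb | hb <;> rw [ha, hb]
        · exact Or.inl (one_mul 1)
        · exact Or.inr (one_mul z)
        · exact Or.inr (mul_one z)
        · exact Or.inl hzz
      one_mem' := Or.inl rfl
      inv_mem' := by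
        intro a ha
        show (a : G)⁻¹ = 1 ∨ (a : G)⁻¹ = z
        rcases ha with ha | ha <;> rw [ha]
        · exact Or.inl inv_one
        · exact Or.inr hzi }
  haveI : Z.Normal := ⟨fun a ha s => by
    rcases ha with ha | ha
    · left; simp [ha]
    · right; simp [ha, hzc _ s.2]⟩
  have hnle : ¬ E.subgroupOf (S : Subgroup G) ≤ Z := by
    intro h
    have h1 := Subgroup.card_le_of_le h
    rw [hcardE] at h1
    have : Nat.card Z ≤ 2 := by
      have hsub : (Z : Set (S : Subgroup G)) ⊆ {1, ⟨z, hzS⟩} := by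
        rintro a (ha | ha)
        · left; exact Subtype.ext ha
        · right; exact Subtype.ext ha
      calc Nat.card Z = (Z : Set (S : Subgroup G)).ncard := (Nat.card_coe_set_eq _)
        _ ≤ _ := Set.ncard_le_ncard hsub
        _ ≤ 2 := (Set.ncard_insert_le _ _).trans (by rw [Set.ncard_singleton])
    omega
  obtain ⟨ys, hys, hysZ, hyc⟩ := CfsgLib.CharTwoEarly.exists_central_mod S.2 (E.subgroupOf (S : Subgroup G)) Z hnle
  set y : G := (ys : G) with hydef
  have hyE : y ∈ E := hys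
  have hyy : y * y = 1 := hyE.2
  have hy1 : y ≠ 1 := fun h => hysZ (Or.inl h)
  have hyz : y ≠ z := fun h => hysZ (Or.inr h)
  have hyS : y ∈ (S : Subgroup G) := hES hyE
  have hyconj : ∀ s ∈ (S : Subgroup G), s * y * s⁻¹ = y ∨ s * y * s⁻¹ = z * y := by
    intro s hs
    rcases hyc ⟨s, hs⟩ with h | h
    · left; exact mul_inv_eq_one.1 h
    · right; exact mul_inv_eq_iff_eq_mul.1 h
  -- the three involutions act without fixed points
  have hzyE : z * y ∈ E := mul_mem hzE hyE
  have hzy1 : z * y ≠ 1 := fun h => hyz (by rw [eq_inv_of_mul_eq_one_right h, hzi])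
  have key : ∀ v : G, v * v = 1 → v ≠ 1 → v ∈ (S : Subgroup G) →
      2 * Nat.card ↥((S : Subgroup G) ⊓ Subgroup.centralizer ({v} : Set G)) ≥ Nat.card ↥(S : Subgroup G) →
      ∀ q ∈ X, v * q = q * v → q = 1 := by
    intro v hvv hv1 hvS hidx q hq hqv
    have hv : orderOf v = 2 := orderOf_eq_prime (by rw [pow_two, hvv]) hv1
    set C := Subgroup.centralizer ({v} : Set G) with hC
    obtain ⟨hCc, hCo⟩ := hcent v hv
    have hCc' := (CfsgLib.PCore.isPConstrained_iff_of_core_eq_bot hCo).1 hCc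
    set R := (Cfsg.pCore 2 ↥C).map C.subtype with hR
    have hRp : IsPGroup 2 R := (CfsgLib.PCore.isPGroup_pCore 2 ↥C).map _
    have hRC : R ≤ C := Subgroup.map_subtype_le _
    have hRn : C ≤ Subgroup.normalizer (R : Set G) := by
      intro m hm
      refine Subgroup.mem_normalizer_fintype ?_
      rintro t ⟨t0, ht0, rfl⟩
      exact ⟨⟨m, hm⟩ * t0 * ⟨m, hm⟩⁻¹, (Cfsg.pCore_normal 2 ↥C).conj_mem t0 ht0 _, rfl⟩
    set SC := (S : Subgroup G) ⊓ C with hSC
    have hqC : q ∈ C := Subgroup.mem_centralizer_singleton_iff.mpr hqv.symm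
    -- the part of `R` in `S` centralises `q`
    have hRS : ∀ r ∈ R, r ∈ (S : Subgroup G) → r * q = q * r := by
      intro r hr hrS
      have h1 : r * q * r⁻¹ * q⁻¹ ∈ X :=
        X.mul_mem ((Subgroup.mem_normalizer_iff.1 (hSX hrS) q).1 hq) (X.inv_mem hq)
      have h2 : r * q * r⁻¹ * q⁻¹ ∈ R := by
        rw [show r * q * r⁻¹ * q⁻¹ = r * (q * r⁻¹ * q⁻¹) by group]
        exact R.mul_mem hr ((Subgroup.mem_normalizer_iff.1 (hRn hqC) _).1 (R.inv_mem hr))
      obtain ⟨k, hk⟩ := hRp ⟨_, h2⟩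
      have h3 : orderOf (r * q * r⁻¹ * q⁻¹) ∣ 2 ^ k := orderOf_dvd_of_pow_eq_one (congrArg Subtype.val hk)
      have h4 : orderOf (r * q * r⁻¹ * q⁻¹) ∣ Nat.card X := by
        rw [← Subgroup.orderOf_mk _ h1]; exact orderOf_dvd_natCard _
      have h5 : orderOf (r * q * r⁻¹ * q⁻¹) ∣ 1 := by
        have hco : Nat.Coprime (2 ^ k) (Nat.card X) :=
          Nat.Coprime.pow_left _ (Nat.coprime_two_left.mpr hX)
        exact hco ▸ Nat.dvd_gcd h3 h4
      have h6 := orderOf_eq_one_iff.mp (Nat.dvd_one.mp h5)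
      calc r * q = (r * q * r⁻¹ * q⁻¹) * (q * r) := by group
        _ = q * r := by rw [h6, one_mul]
    -- which has index at most two in `R`
    have hle2 : ∀ a ∈ R, ∀ b ∈ R, a ∉ (S : Subgroup G) → b ∉ (S : Subgroup G) → a⁻¹ * b ∈ (S : Subgroup G) := by
      intro a ha b hb haS hbS
      by_contra hab
      have hjoin : IsPGroup 2 ↥(SC ⊔ R) :=
        (S.2.to_le inf_le_left).to_sup_of_normal_right' hRp (inf_le_right.trans hRn)
      obtain ⟨Q, hQ⟩ := hjoin.exists_le_sylow
      have hcard : Nat.card ↥(SC ⊔ R) ≤ Nat.card ↥(S : Subgroup G) :=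
        (Subgroup.card_le_of_le hQ).trans (le_of_eq (Nat.card_congr ((Q.equiv S).toEquiv)))
      have haS' : a ∉ SC := fun h => haS h.1
      have hbS' : b ∉ SC := fun h => hbS h.1
      have hab' : a⁻¹ * b ∉ SC := fun h => hab h.1
      have hdiv := Subgroup.card_mul_index (SC.subgroupOf (SC ⊔ R))
      have hi : (SC.subgroupOf (SC ⊔ R)).index ≤ 2 := by
        rw [Nat.card_congr (Subgroup.subgroupOfEquivOfLe le_sup_left).toEquiv] at hdiv
        have h1 : Nat.card SC * (SC.subgroupOf (SC ⊔ R)).index ≤ Nat.card SC * 2 := by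
          rw [hdiv, mul_comm]; exact hcard.trans hidx
        exact Nat.le_of_mul_le_mul_left h1 Nat.card_pos
      have h3 : 2 < (SC.subgroupOf (SC ⊔ R)).index := by
        rw [Subgroup.index_eq_card]
        have ha' : a ∈ SC ⊔ R := Subgroup.mem_sup_right ha
        have hb' : b ∈ SC ⊔ R := Subgroup.mem_sup_right hb
        let q₁ : ↥(SC ⊔ R) ⧸ SC.subgroupOf (SC ⊔ R) := ((1 : ↥(SC ⊔ R)) : ↥(SC ⊔ R) ⧸ SC.subgroupOf (SC ⊔ R))
        let q₂ : ↥(SC ⊔ R) ⧸ SC.subgroupOf (SC ⊔ R) := ((⟨a, ha'⟩ : ↥(SC ⊔ R)) : ↥(SC ⊔ R) ⧸ SC.subgroupOf (SC ⊔ R))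
        let q₃ : ↥(SC ⊔ R) ⧸ SC.subgroupOf (SC ⊔ R) := ((⟨b, hb'⟩ : ↥(SC ⊔ R)) : ↥(SC ⊔ R) ⧸ SC.subgroupOf (SC ⊔ R))
        have h12 : q₁ ≠ q₂ := fun h => haS' (by simpa [q₁, q₂, QuotientGroup.eq, Subgroup.mem_subgroupOf] using h)
        have h13 : q₁ ≠ q₃ := fun h => hbS' (by simpa [q₁, q₃, QuotientGroup.eq, Subgroup.mem_subgroupOf] using h)
        have h23 : q₂ ≠ q₃ := fun h => hab' (by simpa [q₂, q₃, QuotientGroup.eq, Subgroup.mem_subgroupOf] using h)
        classical
        haveI : Fintype (↥(SC ⊔ R) ⧸ SC.subgroupOf (SC ⊔ R)) := Fintype.ofFinite _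
        rw [Nat.card_eq_fintype_card]
        exact Fintype.two_lt_card_iff.mpr ⟨q₁, q₂, q₃, h12, h13, h23⟩
      omega
    -- so `q` centralises `R`
    have hall : ∀ r ∈ R, r * q = q * r := by
      intro r hr
      by_cases hrS : r ∈ (S : Subgroup G)
      · exact hRS r hr hrS
      have hqr : q * r * q⁻¹ ∈ R := (Subgroup.mem_normalizer_iff.1 (hRn hqC) r).1 hr
      have hnS : q * r * q⁻¹ ∉ (S : Subgroup G) := fun h => hrS (by
        have e : q * r * q⁻¹ = r := by
          calc q * r * q⁻¹ = q⁻¹ * (q * (q * r * q⁻¹)) := by group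
            _ = q⁻¹ * ((q * r * q⁻¹) * q) := by rw [hRS _ hqr h]
            _ = r := by group
        rwa [e] at h)
      set r₀ := r⁻¹ * (q * r * q⁻¹) with hr₀
      have hr₀R : r₀ ∈ R := R.mul_mem (R.inv_mem hr) hqr
      have hr₀q : r₀ * q = q * r₀ := hRS r₀ hr₀R (hle2 r hr _ hqr hrS hnS)
      have hpow : ∀ k : ℕ, q ^ k * r * (q ^ k)⁻¹ = r * r₀ ^ k := by
        intro k
        induction k with
        | zero => simp
        | succ k ih =>
          have h1 : q * r₀ ^ k = r₀ ^ k * q := ((show Commute q r₀ from hr₀q.symm).pow_right k).eq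
          calc q ^ (k + 1) * r * (q ^ (k + 1))⁻¹ = q * (q ^ k * r * (q ^ k)⁻¹) * q⁻¹ := by
                rw [pow_succ']; group
            _ = q * r * (r₀ ^ k * q⁻¹) := by rw [ih]; group
            _ = (q * r * q⁻¹) * r₀ ^ k := by
                rw [show r₀ ^ k * q⁻¹ = q⁻¹ * r₀ ^ k from ((show Commute q r₀ from hr₀q.symm).pow_right k).symm.inv_right.eq]
                group
            _ = r * r₀ ^ (k + 1) := by
                rw [pow_succ', ← mul_assoc r r₀, show r * r₀ = q * r * q⁻¹ by rw [hr₀]; group]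
      have hqn : q ^ Nat.card X = 1 := congrArg Subtype.val (pow_card_eq_one' : (⟨q, hq⟩ : X) ^ Nat.card X = 1)
      have h1 := hpow (Nat.card X)
      rw [hqn, one_mul, inv_one, mul_one, eq_comm, mul_eq_left] at h1
      obtain ⟨k, hk⟩ := hRp ⟨r₀, hr₀R⟩
      have h5 : orderOf r₀ ∣ 1 := by
        have hco : Nat.Coprime (2 ^ k) (Nat.card X) :=
          Nat.Coprime.pow_left _ (Nat.coprime_two_left.mpr hX)
        exact hco ▸ Nat.dvd_gcd (orderOf_dvd_of_pow_eq_one (congrArg Subtype.val hk)) (orderOf_dvd_of_pow_eq_one h1)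
      have h6 : r⁻¹ * (q * r * q⁻¹) = 1 := orderOf_eq_one_iff.mp (Nat.dvd_one.mp h5)
      calc r * q = r * (r⁻¹ * (q * r * q⁻¹)) * q := by rw [h6, mul_one]
        _ = q * r := by group
    have hmem : (⟨q, hqC⟩ : C) ∈ Cfsg.pCore 2 ↥C := hCc' (Subgroup.mem_centralizer_iff.2 fun r hr =>
      Subtype.ext (hall r ⟨r, hr, rfl⟩))
    obtain ⟨k, hk⟩ := CfsgLib.PCore.isPGroup_pCore 2 ↥C ⟨_, hmem⟩
    have h5 : orderOf q ∣ 1 := by
      have hco : Nat.Coprime (2 ^ k) (Nat.card X) := Nat.Coprime.pow_left _ (Nat.coprime_two_left.mpr hX)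
      refine hco ▸ Nat.dvd_gcd (orderOf_dvd_of_pow_eq_one ?_) ?_
      · exact congrArg (fun x : ↥(Cfsg.pCore 2 ↥C) => ((x : C) : G)) hk
      · rw [← Subgroup.orderOf_mk _ hq]; exact orderOf_dvd_natCard _
    exact orderOf_eq_one_iff.mp (Nat.dvd_one.mp h5)
  have hidxz : 2 * Nat.card ↥((S : Subgroup G) ⊓ Subgroup.centralizer ({z} : Set G)) ≥ Nat.card ↥(S : Subgroup G) := by
    rw [inf_eq_left.mpr fun s hs => Subgroup.mem_centralizer_singleton_iff.mpr (hzc s hs)]; omega
  have hidxy : ∀ v : G, v = y ∨ v = z * y →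
      2 * Nat.card ↥((S : Subgroup G) ⊓ Subgroup.centralizer ({v} : Set G)) ≥ Nat.card ↥(S : Subgroup G) := by
    intro v hv
    classical
    set D := (S : Subgroup G) ⊓ Subgroup.centralizer ({v} : Set G)
    by_cases hall : (S : Subgroup G) ≤ D
    · have := Subgroup.card_le_of_le hall; omega
    obtain ⟨f, hfS, hfD⟩ := SetLike.not_le_iff_exists.mp hall
    have hcj : ∀ s ∈ (S : Subgroup G), s * v * s⁻¹ = v ∨ s * v * s⁻¹ = z * v := by
      intro s hs
      rcases hv with e | e <;> rw [e]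
      · exact hyconj s hs
      · rcases hyconj s hs with h | h
        · left
          calc s * (z * y) * s⁻¹ = (s * z) * y * s⁻¹ := by group
            _ = z * (s * y * s⁻¹) := by rw [hzc s hs]; group
            _ = z * y := by rw [h]
        · right
          calc s * (z * y) * s⁻¹ = (s * z) * y * s⁻¹ := by group
            _ = z * (s * y * s⁻¹) := by rw [hzc s hs]; group
            _ = z * (z * y) := by rw [h]
    have hD : ∀ s ∈ (S : Subgroup G), s * v * s⁻¹ = v → s ∈ D := fun s hs h =>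
      ⟨hs, Subgroup.mem_centralizer_singleton_iff.mpr (mul_inv_eq_iff_eq_mul.1 h)⟩
    have hf' : f * v * f⁻¹ = z * v := (hcj f hfS).resolve_left fun h => hfD (hD f hfS h)
    let g : ↥D × Bool → ↥(S : Subgroup G) := fun p =>
      if p.2 then ⟨f * (p.1 : G), mul_mem hfS p.1.2.1⟩ else ⟨p.1, p.1.2.1⟩
    have : Function.Surjective g := by
      rintro ⟨s, hs⟩
      rcases hcj s hs with h | h
      · exact ⟨(⟨s, hD s hs h⟩, false), by simp [g]⟩
      · refine ⟨(⟨f⁻¹ * s, hD _ (mul_mem (inv_mem hfS) hs) ?_⟩, true), by simp [g]⟩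
        calc f⁻¹ * s * v * (f⁻¹ * s)⁻¹ = f⁻¹ * (s * v * s⁻¹) * f := by group
          _ = f⁻¹ * (f * v * f⁻¹) * f := by rw [h, hf']
          _ = v := by group
    have := Nat.card_le_card_of_surjective g this
    rwa [Nat.card_prod, Nat.card_eq_fintype_card (α := Bool), Fintype.card_bool, mul_comm] at this
  have hXn : ∀ s ∈ (S : Subgroup G), ∀ q ∈ X, s * q * s⁻¹ ∈ X := fun s hs q hq =>
    (Subgroup.mem_normalizer_iff.1 (hSX hs) q).1 hq
  have hzyS : z * y ∈ (S : Subgroup G) := mul_mem hzS hyS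
  have iz := (CfsgLib.CharTwoEarly.inverts hzz (hXn z hzS) (key z hzz hz1 hzS hidxz)).1
  have iy := (CfsgLib.CharTwoEarly.inverts hyy (hXn y hyS) (key y hyy hy1 hyS (hidxy y (Or.inl rfl)))).1
  rw [eq_bot_iff]
  intro q hq
  refine Subgroup.mem_bot.2 (key (z * y) hzyE.2 hzy1 hzyS (hidxy _ (Or.inr rfl)) q hq ?_)
  refine mul_inv_eq_iff_eq_mul.1 ?_
  calc z * y * q * (z * y)⁻¹ = z * (y * q * y⁻¹) * z⁻¹ := by group
    _ = (z * q * z⁻¹)⁻¹ := by rw [iy q hq]; group
    _ = q := by rw [iz q hq, inv_inv]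


end Cfsg.Agent.S3246
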