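import Cfsg.Statements.S3265
import Cfsg.Agent.H29.OddGraph.Graph
import Cfsg.Agent.H29.OddGraph.Absorb

set_option autoImplicit false
open Cfsg

namespace Cfsg.Agent.S3265

/-- Let n ≥ 5 and let X be a conjugacy class of involutions of the symmetric group of degree n. The graph on X joining two distinct involutions whose product has odd order is connected and has diameter exactly 2. -/
theorem result (n : ℕ) (hn : 5 ≤ n) (t : Equiv.Perm (Fin n)) (ht : orderOf t = 2) :
    (SimpleGraph.fromRel fun x y : {x : Equiv.Perm (Fin n) // IsConj t x} =>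
        Odd (orderOf (x.1 * y.1))).Connected ∧
      (SimpleGraph.fromRel fun x y : {x : Equiv.Perm (Fin n) // IsConj t x} =>
        Odd (orderOf (x.1 * y.1))).diam = 2 := by
  have h5 : 5 ≤ Fintype.card (Fin n) := by rw [Fintype.card_fin]; exact hn
  refine CfsgLib.H29.OddGraph.graph_diam_two' ht (fun s v hs hv hev => ?_)
    (CfsgLib.H29.OddGraph.exists_commuting_conj h5 ht)
  have ord : ∀ x, IsConj t x → orderOf x = 2 := fun x h => by
    obtain ⟨c, hc⟩ := isConj_iff.mp h
    rw [← hc, ← MulAut.conj_apply, ← ht]
    exact orderOf_injective (MulAut.conj c).toMonoidHom (MulAut.conj c).injective t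
  exact CfsgLib.H29.OddGraph.exists_between_perm h5 (ord s hs) (ord v hv) (hv.symm.trans hs)

end Cfsg.Agent.S3265
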