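import Cfsg.Statements.S3266
import Cfsg.Agent.H29.OddGraph.Graph
import Cfsg.Agent.H29.OddGraph.PSLTwo

set_option autoImplicit false
open Cfsg

namespace Cfsg.Agent.S3266

/-- Let F be a finite field with at least 4 elements and let X be a conjugacy class of involutions of PSL(2, F). The graph on X joining two distinct involutions whose product has odd order is connected and has diameter exactly 2. -/
theorem result {F : Type*} [Field F] [Fintype F] (hF : 4 ≤ Fintype.card F)
    (t : Matrix.ProjectiveSpecialLinearGroup (Fin 2) F) (ht : orderOf t = 2) :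
    (SimpleGraph.fromRel fun x y : {x : Matrix.ProjectiveSpecialLinearGroup (Fin 2) F // IsConj t x} =>
        Odd (orderOf (x.1 * y.1))).Connected ∧
      (SimpleGraph.fromRel fun x y : {x : Matrix.ProjectiveSpecialLinearGroup (Fin 2) F // IsConj t x} =>
        Odd (orderOf (x.1 * y.1))).diam = 2 := by
  set f := (Matrix.ProjectiveSpecialLinearGroup.toPGL :
    Matrix.ProjectiveSpecialLinearGroup (Fin 2) F →* CfsgLib.H29.Dickson.P2 F)
  have hf : Function.Injective f := Matrix.ProjectiveSpecialLinearGroup.toPGL_injective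
  have hW : ∀ x, f x ∈ CfsgLib.H29.Dickson.W F := fun x => by
    rw [← CfsgLib.H29.Dickson.range_toPGL]; exact ⟨x, rfl⟩
  have hinv : ∀ {x : Matrix.ProjectiveSpecialLinearGroup (Fin 2) F}, orderOf x = 2 →
      f x ≠ 1 ∧ f x * f x = 1 := by
    intro x hx
    refine ⟨fun e => ?_, by
      have h2 := pow_orderOf_eq_one x
      rw [hx, pow_two] at h2
      rw [← map_mul, h2, map_one]⟩
    rw [hf ((e.trans (map_one f).symm)), orderOf_one] at hx
    omega
  have hback : ∀ y ∈ CfsgLib.H29.Dickson.W F, y ≠ 1 → y * y = 1 →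
      ∃ x, f x = y ∧ orderOf x = 2 := by
    intro y hy hy1 hy2
    rw [← CfsgLib.H29.Dickson.range_toPGL] at hy
    obtain ⟨x, rfl⟩ := hy
    refine ⟨x, rfl, ?_⟩
    rw [← orderOf_injective f hf x]
    exact orderOf_eq_prime (by rw [pow_two]; exact hy2) hy1
  refine CfsgLib.H29.OddGraph.graph_diam_two ht (fun s v hs hv hev => ?_) ?_
  · obtain ⟨u, huW, hu1, hu2, ha, hb⟩ := CfsgLib.H29.OddGraph.exists_between hF (hW s) (hinv hs).1
      (hinv hs).2 (hW v) (hinv hv).1 (hinv hv).2
      (by rwa [← map_mul, orderOf_injective f hf])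
    obtain ⟨x, rfl, hx⟩ := hback u huW hu1 hu2
    rw [← map_mul, orderOf_injective f hf] at ha hb
    exact ⟨x, hx, ha, hb⟩
  · obtain ⟨y, hyW, hy1, hy2, hyt, hc⟩ := CfsgLib.H29.OddGraph.exists_commuting hF (hW t)
      (hinv ht).1 (hinv ht).2
    obtain ⟨x, rfl, hx⟩ := hback y hyW hy1 hy2
    exact ⟨x, hx, fun e => hyt (by rw [e]), hf (by rw [map_mul, map_mul, hc])⟩

end Cfsg.Agent.S3266
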