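import Cfsg.Statements.S3269
import Cfsg.Agent.ZStar.Main
import Cfsg.Agent.Transfer.Fusion

set_option autoImplicit false
open Cfsg

open scoped IsMulCommutative

namespace Cfsg.Agent.S3269

section

variable {P : Type*} [Group P]

/-- A quaternion direct factor. -/
def IsQFactor (Q R : Subgroup P) : Prop :=
  (∀ a ∈ Q, ∀ b ∈ R, a * b = b * a) ∧ Q ⊓ R = ⊥ ∧ Q ⊔ R = ⊤ ∧ ∃ n : ℕ, Nonempty (↥Q ≃* QuaternionGroup (2 ^ n))

theorem quat_invol {m : ℕ} [NeZero m] (w : QuaternionGroup m) (h : w * w = 1) (h1 : w ≠ 1) :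
    w = QuaternionGroup.a (m : ZMod (2 * m)) := by
  rcases w with i | i
  · rw [QuaternionGroup.a_mul_a, QuaternionGroup.one_def] at h
    have h2 : i + i = 0 := QuaternionGroup.a.inj h
    have hi : i ≠ 0 := by
      intro e
      exact h1 (by rw [e, QuaternionGroup.one_def])
    have hv : ((i.val + i.val : ℕ) : ZMod (2 * m)) = 0 := by
      rw [Nat.cast_add, ZMod.natCast_zmod_val, h2]
    rw [ZMod.natCast_eq_zero_iff] at hv
    have hlt := ZMod.val_lt i
    have hpos : i.val ≠ 0 := fun e => hi ((ZMod.val_eq_zero i).1 e)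
    obtain ⟨k, hk⟩ := hv
    have hk1 : k = 1 := by
      rcases k with _ | _ | k
      · omega
      · rfl
      · nlinarith
    subst hk1
    have : i.val = m := by omega
    conv_lhs => rw [← ZMod.natCast_zmod_val i, this]
  · exfalso
    rw [QuaternionGroup.xa_mul_xa, QuaternionGroup.one_def] at h
    have h2 : (m : ZMod (2 * m)) = 0 := by simpa using QuaternionGroup.a.inj h
    rw [ZMod.natCast_eq_zero_iff] at h2
    have := Nat.le_of_dvd (NeZero.pos m) h2
    have := NeZero.pos m
    omega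

theorem quat_nonabelian {n : ℕ} (hn : 1 ≤ n) :
    ∃ x y : QuaternionGroup (2 ^ n), x * y ≠ y * x := by
  refine ⟨QuaternionGroup.a 1, QuaternionGroup.xa 0, fun h => ?_⟩
  rw [QuaternionGroup.a_mul_xa, QuaternionGroup.xa_mul_a] at h
  have h2 : ((0 : ZMod (2 * 2 ^ n)) - 1) = 0 + 1 := by simpa using h
  have h3 : ((2 : ℕ) : ZMod (2 * 2 ^ n)) = 0 := by
    push_cast
    linear_combination -h2
  rw [ZMod.natCast_eq_zero_iff] at h3
  have := Nat.le_of_dvd (by norm_num) h3
  have : 2 ≤ 2 ^ n := Nat.le_self_pow (by omega) 2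
  omega

theorem IsQFactor.invol_unique {Q R : Subgroup P} (h : IsQFactor Q R) {u v : P} (hu : u ∈ Q) (hv : v ∈ Q)
    (hu2 : orderOf u = 2) (hv2 : orderOf v = 2) : u = v := by
  obtain ⟨-, -, -, n, ⟨e⟩⟩ := h
  have key : ∀ w : P, ∀ hw : w ∈ Q, orderOf w = 2 → e ⟨w, hw⟩ = QuaternionGroup.a ((2 ^ n : ℕ) : ZMod (2 * 2 ^ n)) := by
    intro w hw hw2
    apply quat_invol
    · rw [← map_mul, MulEquiv.map_eq_one_iff]
      refine Subtype.ext ?_
      show w * w = 1
      rw [← pow_two, ← hw2, pow_orderOf_eq_one]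
    · intro e1
      rw [MulEquiv.map_eq_one_iff] at e1
      have : w = 1 := congrArg Subtype.val e1
      rw [this, orderOf_one] at hw2
      omega
  have := (key u hu hu2).trans (key v hv hv2).symm
  exact congrArg Subtype.val (e.injective this)

variable [Finite P] (hP : IsPGroup 2 P) (hc : ∀ x : P, orderOf x = 2 → x ∈ Subgroup.center P)

include hP in
theorem disjoint_of_not_mem {Q R : Subgroup P} (h : IsQFactor Q R) {z : P} (hz : z ∈ Q) (hz2 : orderOf z = 2)
    (K : Subgroup P) (hzK : z ∉ K) : Q ⊓ K = ⊥ := by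
  by_contra hne
  haveI := Fact.mk Nat.prime_two
  haveI : Nontrivial ↥(Q ⊓ K) := (Subgroup.nontrivial_iff_ne_bot _).2 hne
  obtain ⟨k, hk, hcard⟩ := (hP.to_subgroup (Q ⊓ K)).nontrivial_iff_card.1 inferInstance
  obtain ⟨x, hx⟩ := exists_prime_orderOf_dvd_card' 2 (G := ↥(Q ⊓ K)) (hcard ▸ dvd_pow_self 2 hk.ne')
  rw [← Subgroup.orderOf_coe] at hx
  exact hzK (h.invol_unique hz x.2.1 hz2 hx ▸ x.2.2)

include hP in
theorem mem_or_mem {Q₁ R₁ Q₂ R₂ : Subgroup P} (h₁ : IsQFactor Q₁ R₁) (h₂ : IsQFactor Q₂ R₂)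
    (hna : ¬ ∀ x ∈ Q₂, ∀ y ∈ Q₂, x * y = y * x) {z : P} (hz : z ∈ Q₂) (hz2 : orderOf z = 2) :
    z ∈ Q₁ ∨ z ∈ R₁ := by
  have hnorm : ∀ {Q R : Subgroup P}, IsQFactor Q R → ∀ g : P, g ∈ Subgroup.normalizer (Q : Set P) ∧
      g ∈ Subgroup.normalizer (R : Set P) := by
    intro Q R h g
    have hQ : Q ≤ Subgroup.normalizer (Q : Set P) ⊓ Subgroup.normalizer (R : Set P) := by
      refine le_inf Subgroup.le_normalizer fun a ha => ?_
      rw [Subgroup.mem_normalizer_iff]
      intro b
      constructor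
      · intro hb
        rw [h.1 a ha b hb, mul_inv_cancel_right]
        exact hb
      · intro hb
        have e := h.1 a ha _ hb
        have : b = a * b * a⁻¹ := by
          calc b = a⁻¹ * (a * b * a⁻¹) * a := by group
            _ = a⁻¹ * (a * (a * b * a⁻¹)) := by rw [e]; group
            _ = a * b * a⁻¹ := by group
        rwa [this]
    have hR : R ≤ Subgroup.normalizer (Q : Set P) ⊓ Subgroup.normalizer (R : Set P) := by
      refine le_inf (fun a ha => ?_) Subgroup.le_normalizer
      rw [Subgroup.mem_normalizer_iff]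
      intro b
      constructor
      · intro hb
        rw [← h.1 b hb a ha, mul_inv_cancel_right]
        exact hb
      · intro hb
        have e := h.1 _ hb a ha
        have : b = a * b * a⁻¹ := by
          calc b = a⁻¹ * (a * b * a⁻¹ * a) := by group
            _ = a * b * a⁻¹ := by rw [e]; group
        rwa [this]
    have := sup_le hQ hR
    rw [h.2.2.1] at this
    exact this (Subgroup.mem_top g)
  by_contra hno
  push Not at hno
  apply hna
  have hcomm : ∀ K : Subgroup P, (∀ g : P, g ∈ Subgroup.normalizer (K : Set P)) → z ∉ K →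
      ∀ x ∈ Q₂, ∀ a ∈ K, a * x = x * a := by
    intro K hK hzK x hx a ha
    have hm1 : a * x * a⁻¹ * x⁻¹ ∈ K := by
      have h' := (Subgroup.mem_normalizer_iff.1 (hK x) a⁻¹).1 (inv_mem ha)
      have : a * x * a⁻¹ * x⁻¹ = a * (x * a⁻¹ * x⁻¹) := by group
      rw [this]
      exact mul_mem ha h'
    have hm2 : a * x * a⁻¹ * x⁻¹ ∈ Q₂ :=
      mul_mem ((Subgroup.mem_normalizer_iff.1 (hnorm h₂ a).1 x).1 hx) (inv_mem hx)
    have : a * x * a⁻¹ * x⁻¹ ∈ Q₂ ⊓ K := ⟨hm2, hm1⟩
    rw [disjoint_of_not_mem hP h₂ hz hz2 K hzK, Subgroup.mem_bot, mul_inv_eq_one, mul_inv_eq_iff_eq_mul] at this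
    exact this
  intro x hx y hy
  have hle : Q₁ ⊔ R₁ ≤ Subgroup.centralizer ({x} : Set P) := by
    refine sup_le (fun a ha => ?_) (fun a ha => ?_) <;> rw [Subgroup.mem_centralizer_singleton_iff]
    · exact hcomm Q₁ (fun g => (hnorm h₁ g).1) hno.1 x hx a ha
    · exact hcomm R₁ (fun g => (hnorm h₁ g).2) hno.2 x hx a ha
  rw [h₁.2.2.1] at hle
  have := Subgroup.mem_centralizer_singleton_iff.1 (hle (Subgroup.mem_top y))
  exact this.symm

include hP hc in
theorem exists_fixed {Q R : Subgroup P} (h : IsQFactor Q R) (hna : ¬ ∀ x ∈ Q, ∀ y ∈ Q, x * y = y * x) :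
    ∃ p : P, orderOf p = 2 ∧ p ∈ Subgroup.center P ∧ ∀ φ : P ≃* P, φ p = p := by
  classical
  haveI := Fact.mk Nat.prime_two
  haveI : Fintype P := Fintype.ofFinite P
  let Y : Finset (Subgroup.center P) := Finset.univ.filter fun z => orderOf (z : P) = 2 ∧
    ∃ Q' R' : Subgroup P, IsQFactor Q' R' ∧ (¬ ∀ x ∈ Q', ∀ y ∈ Q', x * y = y * x) ∧ (z : P) ∈ Q'
  have hQne : Q ≠ ⊥ := by
    intro e
    apply hna
    intro x hx y hy
    rw [e, Subgroup.mem_bot] at hx hy
    rw [hx, hy]
  haveI : Nontrivial ↥Q := (Subgroup.nontrivial_iff_ne_bot _).2 hQne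
  obtain ⟨k, hk, hcard⟩ := (hP.to_subgroup Q).nontrivial_iff_card.1 inferInstance
  obtain ⟨z₀, hz₀⟩ := exists_prime_orderOf_dvd_card' 2 (G := ↥Q) (hcard ▸ dvd_pow_self 2 hk.ne')
  rw [← Subgroup.orderOf_coe] at hz₀
  let z : Subgroup.center P := ⟨(z₀ : P), hc _ hz₀⟩
  have hzY : z ∈ Y := Finset.mem_filter.2 ⟨Finset.mem_univ _, hz₀, Q, R, h, hna, z₀.2⟩
  have hrest : ((∏ y ∈ Y.erase z, y : Subgroup.center P) : P) ∈ R := by
    have : (∏ y ∈ Y.erase z, y) ∈ R.subgroupOf (Subgroup.center P) := by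
      refine Subgroup.prod_mem _ fun y hy => ?_
      obtain ⟨hne, hy⟩ := Finset.mem_erase.1 hy
      obtain ⟨-, hy2, Q', R', h', hna', hyQ⟩ := Finset.mem_filter.1 hy
      rcases mem_or_mem hP h h' hna' hyQ hy2 with hm | hm
      · exact absurd (Subtype.ext (h.invol_unique hm z₀.2 hy2 hz₀)) hne
      · exact hm
    exact this
  have hne1 : (∏ y ∈ Y, y : Subgroup.center P) ≠ 1 := by
    intro e
    rw [← Finset.mul_prod_erase Y _ hzY, mul_eq_one_iff_eq_inv] at e
    have hm : (z₀ : P) ∈ Q ⊓ R := by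
      refine ⟨z₀.2, ?_⟩
      have := congrArg (fun w : Subgroup.center P => (w : P)) e
      simp only [Subgroup.coe_inv] at this
      show (z : P) ∈ R
      rw [this]
      exact inv_mem hrest
    rw [h.2.1, Subgroup.mem_bot] at hm
    rw [hm, orderOf_one] at hz₀
    omega
  have hsq : (∏ y ∈ Y, y : Subgroup.center P) ^ 2 = 1 := by
    rw [← Finset.prod_pow]
    refine Finset.prod_eq_one fun y hy => ?_
    obtain ⟨-, hy2, -⟩ := Finset.mem_filter.1 hy
    refine Subtype.ext ?_
    show (y : P) ^ 2 = 1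
    rw [← hy2, pow_orderOf_eq_one]
  refine ⟨((∏ y ∈ Y, y : Subgroup.center P) : P), ?_, SetLike.coe_mem _, fun φ => ?_⟩
  · rw [Subgroup.orderOf_coe]
    exact orderOf_eq_prime hsq hne1
  · have hmemc : ∀ (ψ : P ≃* P) (w : P), w ∈ Subgroup.center P → ψ w ∈ Subgroup.center P := by
      intro ψ w hw
      rw [Subgroup.mem_center_iff] at hw ⊢
      intro g
      have := congrArg ψ (hw (ψ.symm g))
      rwa [map_mul, map_mul, ψ.apply_symm_apply] at this
    let f : Subgroup.center P →* Subgroup.center P :=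
      { toFun := fun w => ⟨φ w, hmemc φ _ w.2⟩
        map_one' := Subtype.ext (map_one φ)
        map_mul' := fun a b => Subtype.ext (map_mul φ (a : P) (b : P)) }
    have hY : ∀ (ψ : P ≃* P) (w : Subgroup.center P), w ∈ Y →
        (⟨ψ w, hmemc ψ _ w.2⟩ : Subgroup.center P) ∈ Y := by
      intro ψ w hw
      obtain ⟨-, hw2, Q', R', h', hna', hwQ⟩ := Finset.mem_filter.1 hw
      refine Finset.mem_filter.2 ⟨Finset.mem_univ _, ?_, Q'.map ψ.toMonoidHom, R'.map ψ.toMonoidHom,
        ⟨?_, ?_, ?_, ?_⟩, ?_, ⟨w, hwQ, rfl⟩⟩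
      · exact (orderOf_injective ψ.toMonoidHom ψ.injective _).trans hw2
      · rintro _ ⟨a, ha, rfl⟩ _ ⟨b, hb, rfl⟩
        rw [← map_mul, h'.1 a ha b hb, map_mul]
      · rw [← Subgroup.map_inf _ _ _ ψ.injective, h'.2.1, Subgroup.map_bot]
      · rw [← Subgroup.map_sup, h'.2.2.1, Subgroup.map_top_of_surjective _ ψ.surjective]
      · obtain ⟨n, ⟨e⟩⟩ := h'.2.2.2
        exact ⟨n, ⟨(Q'.equivMapOfInjective ψ.toMonoidHom ψ.injective).symm.trans e⟩⟩
      · intro hab
        apply hna'
        intro x hx y hy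
        have := hab _ ⟨x, hx, rfl⟩ _ ⟨y, hy, rfl⟩
        rw [← map_mul, ← map_mul] at this
        exact ψ.injective this
    show ((f (∏ y ∈ Y, y) : Subgroup.center P) : P) = _
    congr 1
    rw [map_prod]
    refine Finset.prod_bij (fun w _ => f w) (fun w hw => hY φ w hw) ?_ ?_ (fun w _ => rfl)
    · intro a _ b _ hab
      exact Subtype.ext (φ.injective (congrArg Subtype.val hab))
    · intro b hb
      exact ⟨⟨φ.symm b, hmemc φ.symm _ b.2⟩, hY φ.symm b hb, Subtype.ext (φ.apply_symm_apply _)⟩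

end


/-- Let G be a finite group whose Sylow 2-subgroup S is an internal direct product Q × R with Q generalized quaternion (of order at least 8) and R a subgroup all of whose involutions are central in R. Then G is not simple. In particular no finite simple group has a Sylow 2-subgroup that is a direct product of one or more generalized quaternion groups. -/
theorem result {G : Type*} [Group G] [Finite G]
    (S : Sylow 2 G) (Q R : Subgroup G) (hQR : Cfsg.IsInternalDirectProduct Q R (S : Subgroup G))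
    (n : ℕ) (hn : 1 ≤ n) (eQ : ↥Q ≃* QuaternionGroup (2 ^ n))
    (hR : ∀ r ∈ R, orderOf r = 2 → ∀ s ∈ R, r * s = s * r) :
    ¬ IsSimpleGroup G := by
  haveI := Fact.mk Nat.prime_two
  intro hsimp
  obtain ⟨hQS, hRS, hcomm, hinf, hsup⟩ := hQR
  obtain ⟨x, y, hxy⟩ := quat_nonabelian hn
  let x' : G := (eQ.symm x : Q)
  let y' : G := (eQ.symm y : Q)
  have hxy' : x' * y' ≠ y' * x' := by
    intro e
    apply hxy
    apply eQ.symm.injective
    rw [map_mul, map_mul]
    exact Subtype.ext e
  let Q₀ : Subgroup (S : Subgroup G) := Q.subgroupOf (S : Subgroup G)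
  let R₀ : Subgroup (S : Subgroup G) := R.subgroupOf (S : Subgroup G)
  have h₀ : IsQFactor Q₀ R₀ := by
    refine ⟨fun a ha b hb => Subtype.ext (hcomm _ ha _ hb), ?_, ?_,
      n, ⟨(Subgroup.subgroupOfEquivOfLe hQS).trans eQ⟩⟩
    · refine (Subgroup.eq_bot_iff_forall _).2 fun a ha => Subtype.ext ?_
      have : (a : G) ∈ Q ⊓ R := ha
      rwa [hinf, Subgroup.mem_bot] at this
    · rw [← Subgroup.subgroupOf_sup hQS hRS, hsup, Subgroup.subgroupOf_self]
  have hna : ¬ ∀ a ∈ Q₀, ∀ b ∈ Q₀, a * b = b * a := fun h =>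
    hxy' (congrArg Subtype.val (h ⟨x', hQS (eQ.symm x).2⟩ (eQ.symm x).2 ⟨y', hQS (eQ.symm y).2⟩ (eQ.symm y).2))
  have hc : ∀ u : (S : Subgroup G), orderOf u = 2 → u ∈ Subgroup.center (S : Subgroup G) := by
    intro u hu
    rw [← Subgroup.orderOf_coe] at hu
    have hle : Q ⊔ R ≤ Subgroup.centralizer ({(u : G)} : Set G) := by
      have hmul : ∃ q ∈ Q, ∃ r ∈ R, q * r = (u : G) := by
        have hu' : u ∈ Q₀ ⊔ R₀ := by rw [h₀.2.2.1]; exact Subgroup.mem_top u
        haveI : R₀.Normal := ⟨fun b hb a => by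
          have hle : Q₀ ⊔ R₀ ≤ Subgroup.normalizer (R₀ : Set (S : Subgroup G)) := by
            refine sup_le (fun c hc' => ?_) Subgroup.le_normalizer
            refine Subgroup.centralizer_le_normalizer _ ?_
            rw [Subgroup.mem_centralizer_iff]
            exact fun d hd => (h₀.1 c hc' d hd).symm
          rw [h₀.2.2.1] at hle
          exact (Subgroup.mem_normalizer_iff.1 (hle (Subgroup.mem_top a)) b).1 hb⟩
        obtain ⟨q, hq, r, hr, e⟩ := Subgroup.mem_sup_of_normal_right.1 hu'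
        exact ⟨q, hq, r, hr, congrArg Subtype.val e⟩
      obtain ⟨q, hq, r, hr, e⟩ := hmul
      have h2 : q * q = 1 ∧ r * r = 1 := by
        have h1 : (q * r) * (q * r) = 1 := by rw [e, ← pow_two]; exact orderOf_dvd_iff_pow_eq_one.1 (dvd_of_eq hu)
        have h1' : q * q = (r * r)⁻¹ := by
          rw [eq_inv_iff_mul_eq_one, ← h1]
          have := hcomm q hq r hr
          calc q * q * (r * r) = q * (q * r) * r := by group
            _ = q * r * (q * r) := by nth_rewrite 1 [this]; group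
        have : q * q ∈ Q ⊓ R := ⟨mul_mem hq hq, by rw [h1']; exact R.inv_mem (R.mul_mem hr hr)⟩
        rw [hinf, Subgroup.mem_bot] at this
        refine ⟨this, ?_⟩
        rw [this] at h1'
        exact inv_eq_one.1 h1'.symm
      refine sup_le (fun a ha => ?_) (fun a ha => ?_) <;> rw [Subgroup.mem_centralizer_singleton_iff, ← e]
      · have hqa : q * a = a * q := by
          by_cases h1 : q = 1
          · rw [h1, one_mul, mul_one]
          haveI : NeZero (2 ^ n) := ⟨by positivity⟩
          have e1 := quat_invol (eQ ⟨q, hq⟩) (by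
            rw [← map_mul, MulEquiv.map_eq_one_iff]; exact Subtype.ext h2.1)
            (by rw [ne_eq, MulEquiv.map_eq_one_iff]; exact fun h' => h1 (congrArg Subtype.val h'))
          have : ∀ w : QuaternionGroup (2 ^ n), eQ ⟨q, hq⟩ * w = w * eQ ⟨q, hq⟩ := by
            rw [e1]
            rintro (i | i)
            · rw [QuaternionGroup.a_mul_a, QuaternionGroup.a_mul_a, add_comm]
            · rw [QuaternionGroup.a_mul_xa, QuaternionGroup.xa_mul_a]
              congr 1
              have h2 : ((2 * 2 ^ n : ℕ) : ZMod (2 * 2 ^ n)) = 0 := ZMod.natCast_self _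
              push_cast at h2 ⊢
              linear_combination -h2
          have := this (eQ ⟨a, ha⟩)
          rw [← map_mul, ← map_mul] at this
          exact congrArg Subtype.val (eQ.injective this)
        calc a * (q * r) = a * q * r := by group
          _ = q * a * r := by rw [hqa]
          _ = q * (a * r) := by group
          _ = q * (r * a) := by rw [hcomm a ha r hr]
          _ = q * r * a := by group
      · have hra : r * a = a * r := by
          by_cases h1 : r = 1
          · rw [h1, one_mul, mul_one]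
          exact hR r hr (orderOf_eq_prime (by rw [pow_two]; exact h2.2) h1) a ha
        calc a * (q * r) = a * q * r := by group
          _ = q * a * r := by rw [← hcomm q hq a ha]
          _ = q * (a * r) := by group
          _ = q * (r * a) := by rw [hra]
          _ = q * r * a := by group
    rw [hsup] at hle
    rw [Subgroup.mem_center_iff]
    intro g
    exact Subtype.ext (Subgroup.mem_centralizer_singleton_iff.1 (hle g.2))
  obtain ⟨p, hp2, hpc, hfix⟩ := exists_fixed S.2 hc h₀ hna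
  have hp2' : orderOf (p : G) = 2 := by rw [Subgroup.orderOf_coe]; exact hp2
  have hiso : ∀ g : G, g * (p : G) * g⁻¹ ∈ (S : Subgroup G) → g * (p : G) * g⁻¹ = (p : G) := by
    intro g hg
    have hgc : (⟨g * (p : G) * g⁻¹, hg⟩ : (S : Subgroup G)) ∈ Subgroup.center (S : Subgroup G) := by
      refine hc _ ?_
      rw [← Subgroup.orderOf_coe]
      exact (SemiconjBy.orderOf_eq g (by simp [SemiconjBy])).symm.trans hp2'
    have hcen : ∀ v : (S : Subgroup G), v ∈ Subgroup.center (S : Subgroup G) →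
        (S : Subgroup G) ≤ Subgroup.normalizer ({(v : G)} : Set G) := by
      intro v hv s hs
      have hsv : s * (v : G) = v * s :=
        congrArg Subtype.val (Subgroup.mem_center_iff.1 hv ⟨s, hs⟩)
      rw [Subgroup.mem_normalizer_iff_conj_image_eq, Set.image_singleton]; simp [MulAut.conj_apply, hsv]
    obtain ⟨m, hm, hme⟩ := CfsgLib.Transfer.burnside_fusion_image S (A := {(p : G)}) (g := g) (hcen p hpc)
      (by rw [Set.image_singleton]; exact hcen _ hgc)
    rw [Set.image_singleton, Set.image_singleton, Set.singleton_eq_singleton_iff] at hme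
    rw [← hme]
    have := hfix (Subgroup.normalizerMonoidHom (S : Subgroup G) ⟨m, hm⟩)
    exact congrArg Subtype.val this
  have hI := CfsgLib.ZStar.isolated_of_sylow S hp2' p.2 hiso
  have hK : Cfsg.pPrimeCore 2 G = ⊥ := by
    rcases (Cfsg.pPrimeCore_normal 2 G).eq_bot_or_eq_top with h | h
    · exact h
    · exact absurd (h ▸ Subgroup.mem_top (p : G)) (CfsgLib.ZStar.not_mem_pPrimeCore_of_orderOf_two hp2')
  have hpc' : (p : G) ∈ Subgroup.center G := by
    rw [Subgroup.mem_center_iff]
    intro g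
    have := CfsgLib.ZStar.zstar hI g
    rw [hK, Subgroup.mem_bot, mul_inv_eq_one, mul_inv_eq_iff_eq_mul] at this
    exact this.symm
  rcases (inferInstance : (Subgroup.center G).Normal).eq_bot_or_eq_top with h | h
  · rw [h, Subgroup.mem_bot] at hpc'
    rw [hpc', orderOf_one] at hp2'
    omega
  · exact hxy' (Subgroup.mem_center_iff.1 (h ▸ Subgroup.mem_top y') x')

end Cfsg.Agent.S3269
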