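import Cfsg.Statements.S3276
import Mathlib.Tactic.Group
import Mathlib.GroupTheory.OrderOfElement
import Mathlib.GroupTheory.Index
import Mathlib.Data.Set.Card
import Mathlib.Algebra.Ring.Parity

set_option autoImplicit false
open Cfsg

namespace Cfsg.Agent.S3276

/-- Let x and y be commuting, non-conjugate involutions of a finite group G, and suppose that for every involution u commuting with x, each conjugate of y that commutes with u also commutes with y. Then the normal closure of y is a proper, normal, elementary abelian 2-subgroup of G; and if y is the only involution of that normal closure commuting with x, it has order at most 4. -/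
theorem result {G : Type*} [Group G] [Finite G] (x y : G) (hx : orderOf x = 2) (hy : orderOf y = 2)
    (hxy : Commute x y) (hnc : ¬ IsConj x y)
    (hstar : ∀ u : G, orderOf u = 2 → Commute u x → ∀ g : G, Commute (g * y * g⁻¹) u → Commute (g * y * g⁻¹) y) :
    Subgroup.normalClosure ({y} : Set G) ≠ ⊤ ∧ Cfsg.IsElementaryAbelian 2 (Subgroup.normalClosure ({y} : Set G)) ∧
      ((∀ u ∈ Subgroup.normalClosure ({y} : Set G), orderOf u = 2 → Commute u x → u = y) →
        Nat.card ↥(Subgroup.normalClosure ({y} : Set G)) ≤ 4) := by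
  have sq : ∀ g : G, orderOf g = 2 → g * g = 1 := by
    intro g hg
    rw [← pow_two, ← hg]; exact pow_orderOf_eq_one g
  have key : ∀ w : G, orderOf w = 2 → ¬ IsConj x w → ∃ u : G, orderOf u = 2 ∧ Commute u x ∧ Commute u w := by
    intro w hw hn
    set r := x * w with hr
    have hinv : r⁻¹ = x * r * x⁻¹ := by
      rw [hr, mul_inv_rev, inv_eq_of_mul_eq_one_left (sq x hx), inv_eq_of_mul_eq_one_left (sq w hw)]
      simp only [← mul_assoc, sq x hx, one_mul]
    rcases Nat.even_or_odd (orderOf r) with he | ho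
    · obtain ⟨k, hk⟩ := he
      have hk0 : 0 < k := by have := orderOf_pos r; omega
      have h2 : orderOf (r ^ k) = 2 := by
        have := orderOf_pow_of_dvd (x := r) (n := k) (by omega) ⟨2, by omega⟩
        rw [this, hk, ← two_mul, Nat.mul_div_cancel _ hk0]
      have hc : Commute (r ^ k) x := by
        have h3 : (r ^ k)⁻¹ = r ^ k := inv_eq_of_mul_eq_one_left (sq _ h2)
        have : x * r ^ k * x⁻¹ = r ^ k := by rw [← conj_pow, ← hinv, inv_pow, h3]
        exact (mul_inv_eq_iff_eq_mul.1 this).symm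
      refine ⟨r ^ k, h2, hc, ?_⟩
      have : w = x⁻¹ * r := by simp [hr]
      rw [this]; exact hc.inv_right.mul_right ((Commute.refl r).pow_left k)
    · obtain ⟨k, hk⟩ := ho
      refine absurd (isConj_iff.2 ⟨r ^ k, ?_⟩) hn
      have h1 : r * r ^ k * r ^ k = 1 := by
        rw [mul_assoc, ← pow_add, ← pow_succ', ← two_mul, ← hk, pow_orderOf_eq_one]
      have h2 : (r ^ k)⁻¹ = x * r ^ k * x⁻¹ := by rw [← conj_pow, ← hinv, inv_pow]
      have h3 : r ^ k * r ^ k = r⁻¹ := eq_inv_of_mul_eq_one_right (by rw [← mul_assoc, h1])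
      calc r ^ k * x * (r ^ k)⁻¹ = r ^ k * x * (x * r ^ k * x⁻¹) := by rw [h2]
        _ = r ^ k * (x * x) * r ^ k * x⁻¹ := by simp only [mul_assoc]
        _ = r⁻¹ * x⁻¹ := by rw [sq x hx, mul_one, h3]
        _ = w⁻¹ * (x * x)⁻¹ := by simp [hr, mul_assoc]
        _ = w := by rw [sq x hx, inv_one, mul_one, inv_eq_of_mul_eq_one_left (sq w hw)]
  have ho : ∀ g : G, orderOf (g * y * g⁻¹) = 2 := fun g => by
    rw [← hy]; exact MulEquiv.orderOf_eq (MulAut.conj g) y
  have hcomm : ∀ g : G, Commute (g * y * g⁻¹) y := by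
    intro g
    obtain ⟨u, hu, hux, huy⟩ := key _ (ho g)
      (fun h => hnc (h.trans (isConj_iff.2 ⟨g⁻¹, by group⟩)))
    exact hstar u hu hux g huy.symm
  set N := Subgroup.normalClosure ({y} : Set G) with hNdef
  have hconj : ∀ a ∈ Group.conjugatesOfSet ({y} : Set G), ∃ g, a = g * y * g⁻¹ := by
    intro a ha
    rw [Group.mem_conjugatesOfSet_iff] at ha
    obtain ⟨b, rfl, hb⟩ := ha
    obtain ⟨g, rfl⟩ := isConj_iff.1 hb
    exact ⟨g, rfl⟩
  have hpair : ∀ a ∈ Group.conjugatesOfSet ({y} : Set G), ∀ b ∈ Group.conjugatesOfSet ({y} : Set G), a * b = b * a := by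
    intro a ha b hb
    obtain ⟨g, rfl⟩ := hconj a ha
    obtain ⟨k, rfl⟩ := hconj b hb
    have := (hcomm (k⁻¹ * g)).map (MulAut.conj k).toMonoidHom
    simp only [MulEquiv.coe_toMonoidHom, MulAut.conj_apply, mul_inv_rev, inv_inv] at this
    have e : k * (k⁻¹ * g * y * (g⁻¹ * k)) * k⁻¹ = g * y * g⁻¹ := by group
    rw [e] at this; exact this
  have hab : IsMulCommutative N := Subgroup.isMulCommutative_closure hpair
  have h21 : ∀ a ∈ N, a ^ 2 = 1 := by
    intro a ha
    induction ha using Subgroup.closure_induction with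
    | mem a h => obtain ⟨g, rfl⟩ := hconj a h; rw [pow_two, sq _ (ho g)]
    | one => simp
    | mul a b ha hb h1 h2 =>
      have : Commute a b := congrArg Subtype.val (hab.is_comm.comm (⟨a, ha⟩ : N) ⟨b, hb⟩)
      rw [this.mul_pow, h1, h2, one_mul]
    | inv a ha h1 => rw [inv_pow, h1, inv_one]
  have hyN : y ∈ N := Subgroup.subset_normalClosure rfl
  refine ⟨fun htop => ?_, ⟨hab, h21⟩, fun honly => ?_⟩
  · have hc : ∀ a b : G, a * b = b * a := fun a b =>
      congrArg Subtype.val (hab.is_comm.comm (⟨a, htop.symm ▸ Subgroup.mem_top a⟩ : N) ⟨b, htop.symm ▸ Subgroup.mem_top b⟩)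
    have hle : N ≤ Subgroup.zpowers y := by
      rw [hNdef, Subgroup.normalClosure, Subgroup.closure_le]
      intro a ha
      obtain ⟨g, rfl⟩ := hconj a ha
      rw [hc g y, mul_inv_cancel_right]; exact Subgroup.mem_zpowers y
    have hxy' : x ∈ Subgroup.zpowers y := hle (htop.symm ▸ Subgroup.mem_top x)
    obtain ⟨i, hi⟩ := Subgroup.mem_zpowers_iff.1 hxy'
    rw [← zpow_mod_orderOf, hy] at hi
    rcases (by omega : i % (2:ℕ) = 0 ∨ i % (2:ℕ) = 1) with h0 | h0 <;> rw [h0] at hi
    · rw [zpow_zero] at hi; rw [← hi, orderOf_one] at hx; omega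
    · rw [zpow_one] at hi; exact hnc (hi ▸ IsConj.refl _)
  · have hxN : ∀ a ∈ N, x * a * x⁻¹ ∈ N := fun a ha => Subgroup.normalClosure_normal.conj_mem a ha x
    have small : ∀ K : Subgroup N, (∀ v ∈ K, Commute (v : G) x) → Nat.card K ≤ 2 := by
      intro K hK
      have hs : (K : Set N) ⊆ {1, ⟨y, hyN⟩} := by
        intro v hv
        by_cases h1 : v = 1
        · exact Or.inl h1
        · refine Or.inr (Subtype.ext (honly v v.2 ?_ (hK v hv)))
          exact orderOf_eq_prime (h21 v v.2) (fun h => h1 (Subtype.ext h))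
      calc Nat.card K = (K : Set N).ncard := Nat.card_coe_set_eq _
        _ ≤ ({1, ⟨y, hyN⟩} : Set N).ncard := Set.ncard_le_ncard hs (Set.toFinite _)
        _ ≤ 2 := (Set.ncard_insert_le _ _).trans (by simp)
    let φ : N →* N := MonoidHom.mk' (fun a => a * ⟨_, hxN a a.2⟩) fun a b => by
      apply Subtype.ext
      have : Commute (b : G) (x * a * x⁻¹) := congrArg Subtype.val (hab.is_comm.comm b ⟨_, hxN a a.2⟩)
      show (a : G) * b * (x * (a * b) * x⁻¹) = a * (x * a * x⁻¹) * (b * (x * b * x⁻¹))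
      have e : x * ((a:G) * b) * x⁻¹ = (x * a * x⁻¹) * (x * b * x⁻¹) := by group
      rw [e, mul_assoc, ← mul_assoc (b:G), this.eq]; simp only [mul_assoc]
    have hk : Nat.card φ.ker ≤ 2 := small _ fun v hv => by
      have h1 : (v : G) * (x * v * x⁻¹) = 1 := congrArg Subtype.val hv
      have h2 : x * (v:G) * x⁻¹ = v := by
        have hv2 := h21 v v.2
        rw [pow_two] at hv2
        exact mul_left_cancel (h1.trans hv2.symm)
      exact (mul_inv_eq_iff_eq_mul.1 h2).symm
    have hr : Nat.card φ.range ≤ 2 := small _ (by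
      rintro _ ⟨a, rfl⟩
      have hxx : x⁻¹ = x := inv_eq_of_mul_eq_one_left (sq x hx)
      have : Commute (a : G) (x * a * x⁻¹) := congrArg Subtype.val (hab.is_comm.comm a ⟨_, hxN a a.2⟩)
      show (a : G) * (x * a * x⁻¹) * x = x * (a * (x * a * x⁻¹))
      conv_rhs => rw [this.eq]
      simp only [hxx, mul_assoc, sq x hx, mul_one]
      simp only [← mul_assoc, sq x hx, one_mul])
    rw [← Subgroup.card_mul_index φ.ker, Subgroup.index_ker]
    exact (Nat.mul_le_mul hk hr).trans (by norm_num)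

end Cfsg.Agent.S3276
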