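import Cfsg.Statements.S3277
import Cfsg.Agent.BSW.Four
import Cfsg.Agent.BSW.Recog
import Cfsg.Agent.S0253

set_option autoImplicit false
open Cfsg

namespace Cfsg.Agent.S3277

/-- Let G be a finite group containing an involution whose centralizer is elementary abelian of order 4. If G has no normal 2-complement and no normal elementary abelian 2-subgroup of order 2 or 4, then G is isomorphic to the alternating group of degree 5 (that is, to PSL(2, 5)). -/
theorem result {G : Type*} [Group G] [Finite G] (x : G) (hx : orderOf x = 2)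
    (hC4 : Nat.card ↥(Subgroup.centralizer ({x} : Set G)) = 4) (hCe : ∀ c ∈ Subgroup.centralizer ({x} : Set G), c ^ 2 = 1)
    (hnc : ¬ Cfsg.HasNormalPComplement 2 G)
    (hne : ∀ E : Subgroup G, E.Normal → Cfsg.IsElementaryAbelian 2 E → Nat.card ↥E ≠ 2 ∧ Nat.card ↥E ≠ 4) :
    Nonempty (G ≃* ↥(alternatingGroup (Fin 5))) := by
  haveI : Fact (Nat.Prime 2) := ⟨Nat.prime_two⟩
  haveI : Fact (Nat.Prime 5) := ⟨by norm_num⟩
  have hCe' : ∀ c ∈ CfsgLib.BSW.cz x, c * c = 1 := fun c hc => by rw [← pow_two]; exact hCe c hc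
  have hp : IsPGroup 2 ↥(CfsgLib.BSW.cz x) := IsPGroup.of_card (n := 2) (by rw [hC4]; norm_num)
  obtain ⟨S, hS⟩ := hp.exists_le_sylow
  by_cases hSe : CfsgLib.BSW.cz x = (S : Subgroup G)
  · rcases CfsgLib.BSW.four_sylow_cases hx hC4 hCe' hSe with h | ⟨hstr, hG, hN⟩
    · exact absurd h hnc
    rcases hG with hG | hG
    · exfalso
      have htop := Subgroup.eq_top_of_card_eq _ (hN.trans hG.symm)
      have hcomm : IsMulCommutative ↥(CfsgLib.BSW.cz x) := ⟨⟨fun a b => Subtype.ext (by
        have h := hCe' _ (mul_mem a.2 b.2)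
        show (a : G) * b = (b : G) * a
        calc (a : G) * b = (a : G) * ((a : G) * b * ((a : G) * b)) * b := by rw [h, mul_one]
          _ = ((a : G) * a) * ((b : G) * a) * ((b : G) * b) := by group
          _ = _ := by rw [hCe' _ a.2, hCe' _ b.2, one_mul, mul_one])⟩⟩
      exact (hne _ (Subgroup.normalizer_eq_top_iff.1 htop) ⟨hcomm, hCe⟩).2 hC4
    · obtain ⟨e1⟩ := hstr.nonempty_iso (F := ZMod 5) (by rw [hG, ZMod.card])
      obtain ⟨e2⟩ := Cfsg.Agent.S0253.result (F := ZMod 5) (ZMod.card 5)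
      exact ⟨e1.trans e2⟩
  · obtain ⟨E, hE, hEe, h | h⟩ := CfsgLib.BSW.exists_normal_small hx hC4 hS hSe
    · exact absurd h (hne E hE hEe).1
    · exact absurd h (hne E hE hEe).2

end Cfsg.Agent.S3277
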