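import Cfsg.Statements.S3279
import Cfsg.Agent.BSW.ThreeInvol

set_option autoImplicit false
open Cfsg

namespace Cfsg.Agent.S3279

/-- Let G be a finite simple group and x an involution of G whose centralizer contains at most three involutions. Then C_G(x) contains a Sylow 2-subgroup of G, and all involutions of G are conjugate. -/
theorem result {G : Type*} [Group G] [Finite G] [IsSimpleGroup G] (x : G) (hx : orderOf x = 2)
    (h3 : Nat.card {u : ↥(Subgroup.centralizer ({x} : Set G)) // orderOf u = 2} ≤ 3) :
    (∃ S : Sylow 2 G, (S : Subgroup G) ≤ Subgroup.centralizer ({x} : Set G)) ∧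
      ∀ u v : G, orderOf u = 2 → orderOf v = 2 → IsConj u v := by
  haveI : Fact (Nat.Prime 2) := ⟨Nat.prime_two⟩
  by_cases hna : ∃ a b : G, a * b ≠ b * a
  · exact CfsgLib.BSW.three_invol hna hx h3
  push Not at hna
  have htop : Subgroup.zpowers x = ⊤ := by
    have hn : (Subgroup.zpowers x).Normal := ⟨fun a ha g => by rw [hna g a, mul_inv_cancel_right]; exact ha⟩
    refine hn.eq_bot_or_eq_top.resolve_left fun h => ?_
    rw [Subgroup.zpowers_eq_bot] at h
    rw [h, orderOf_one] at hx
    omega
  refine ⟨?_, fun u v hu hv => ?_⟩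
  · obtain ⟨S⟩ : Nonempty (Sylow 2 G) := inferInstance
    exact ⟨S, fun s _ => Subgroup.mem_centralizer_singleton_iff.2 (hna s x)⟩
  · have hel : ∀ w : G, orderOf w = 2 → w = x := fun w hw => by
      obtain ⟨j, hj⟩ : w ∈ Subgroup.zpowers x := by rw [htop]; exact Subgroup.mem_top w
      have hxx := CfsgLib.Invol.mul_self_of_orderOf hx
      rcases Int.even_or_odd' j with ⟨a, rfl | rfl⟩
      · simp only [zpow_mul, zpow_two, hxx, one_zpow] at hj
        rw [← hj, orderOf_one] at hw; omega
      · simp only [zpow_add, zpow_mul, zpow_two, hxx, one_zpow, one_mul, zpow_one] at hj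
        exact hj.symm
    rw [hel u hu, hel v hv]

end Cfsg.Agent.S3279
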