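import Cfsg.Statements.S3299
import Cfsg.Agent.TransferEval.Basic

set_option autoImplicit false
open Cfsg

namespace Cfsg.Agent.S3299

/-- Let G be a finite group with no nontrivial 2-group quotient (O^2(G) = G), z an involution of G with H = C_G(z), and suppose E = O_2(H) is extraspecial with C_G(E) ≤ E and of order 2^(2n+1) with n ≥ 2. Then E is contained in every normal subgroup of H of index 2. -/
theorem result {G : Type*} [Group G] [Finite G] (hres : Cfsg.pResidual 2 G = ⊤) (z : G) (hz : orderOf z = 2)
    (E : Subgroup G) (hE : E = (Cfsg.pCore 2 ↥(Subgroup.centralizer ({z} : Set G))).map (Subgroup.centralizer ({z} : Set G)).subtype)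
    (hext : Cfsg.IsExtraspecial 2 ↥E) (hcent : Subgroup.centralizer (E : Set G) ≤ E) (n : ℕ) (hn : 2 ≤ n) (hcard : Nat.card ↥E = 2 ^ (2 * n + 1))
    (K : Subgroup G) (hKH : K ≤ Subgroup.centralizer ({z} : Set G))
    (hKn : ∀ h ∈ Subgroup.centralizer ({z} : Set G), K.map (MulAut.conj h).toMonoidHom = K)
    (hKi : K.relIndex (Subgroup.centralizer ({z} : Set G)) = 2) : E ≤ K := by
  classical
  haveI : Fintype G := Fintype.ofFinite G
  haveI : Fact (Nat.Prime 2) := ⟨Nat.prime_two⟩
  set H := Subgroup.centralizer ({z} : Set G) with hH
  have hhom : ∀ f : G →* ℤˣ, f = 1 := by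
    intro f
    have hle : Cfsg.pResidual 2 G ≤ f.ker := by
      rw [Cfsg.pResidual, Subgroup.closure_le]
      intro g hg
      simp only [Set.mem_setOf_eq] at hg
      have h1 : orderOf (f g) ∣ orderOf g := orderOf_map_dvd f g
      have h2 : orderOf (f g) ∣ 2 := orderOf_dvd_of_pow_eq_one (by rw [sq]; exact Int.units_mul_self (f g))
      have := Nat.dvd_gcd h1 h2
      rw [hg] at this
      exact orderOf_eq_one_iff.mp (Nat.dvd_one.mp this)
    rw [hres] at hle
    ext g; exact congrArg Units.val (MonoidHom.mem_ker.mp (hle (Subgroup.mem_top g)))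
  have hEH : E ≤ H := by rw [hE]; exact Subgroup.map_subtype_le _
  have hz1 : z ≠ 1 := by intro h; rw [h, orderOf_one] at hz; omega
  have hzz : z * z = 1 := by
    have := pow_orderOf_eq_one z; rwa [hz, sq] at this
  have hzc : ∀ h ∈ H, h * z = z * h := fun h hh => Subgroup.mem_centralizer_singleton_iff.mp hh
  obtain ⟨⟨hEp, hfr, hder⟩, hZ⟩ := hext
  -- centre of `E`
  have hzE : z ∈ E := hcent (fun e he => hzc e (hEH he))
  have hZmem : ∀ c ∈ E, (∀ e ∈ E, e * c = c * e) → c = 1 ∨ c = z := by
    intro c hc hcc
    by_contra h
    rw [not_or] at h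
    have h3 : ({1, z, c} : Finset G).card = 3 :=
      Finset.card_eq_three.mpr ⟨1, z, c, hz1.symm, Ne.symm h.1, Ne.symm h.2, rfl⟩
    have hsub : ({1, z, c} : Finset G) ⊆ ((Subgroup.center ↥E).map E.subtype : Set G).toFinite.toFinset := by
      intro y hy
      simp only [Finset.mem_insert, Finset.mem_singleton] at hy
      simp only [Set.Finite.mem_toFinset, SetLike.mem_coe, Subgroup.mem_map]
      rcases hy with rfl | rfl | rfl
      · exact ⟨1, one_mem _, rfl⟩
      · exact ⟨⟨y, hzE⟩, Subgroup.mem_center_iff.mpr fun g => Subtype.ext (hzc g (hEH g.2)), rfl⟩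
      · exact ⟨⟨y, hc⟩, Subgroup.mem_center_iff.mpr fun g => Subtype.ext (hcc g g.2), rfl⟩
    have := Finset.card_le_card hsub
    rw [h3, ← Set.ncard_eq_toFinset_card, ← Nat.card_coe_set_eq] at this
    change 3 ≤ Nat.card ((Subgroup.center ↥E).map E.subtype) at this
    rw [Subgroup.card_map_of_injective E.subtype_injective, hZ] at this
    omega
  have hcomm : ∀ a ∈ E, ∀ b ∈ E, a * b * a⁻¹ * b⁻¹ = 1 ∨ a * b * a⁻¹ * b⁻¹ = z := by
    intro a ha b hb
    have : (⟨a, ha⟩ * ⟨b, hb⟩ * ⟨a, ha⟩⁻¹ * ⟨b, hb⟩⁻¹ : ↥E) ∈ Subgroup.center ↥E := by
      rw [← hder, commutator_def, ← commutatorElement_def]; exact Subgroup.commutator_mem_commutator (Subgroup.mem_top _) (Subgroup.mem_top _)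
    refine hZmem _ (E.mul_mem (E.mul_mem (E.mul_mem ha hb) (E.inv_mem ha)) (E.inv_mem hb)) fun e he => ?_
    exact congrArg Subtype.val (Subgroup.mem_center_iff.mp this ⟨e, he⟩)
  have hab : ∀ a ∈ E, ∀ b ∈ E, a * b = b * a ∨ a * b = z * (b * a) := by
    intro a ha b hb
    rcases hcomm a ha b hb with h | h
    · left
      calc a * b = (a * b * a⁻¹ * b⁻¹) * (b * a) := by group
        _ = b * a := by rw [h, one_mul]
    · right
      calc a * b = (a * b * a⁻¹ * b⁻¹) * (b * a) := by group
        _ = z * (b * a) := by rw [h]
  have hsq : ∀ a ∈ E, a * a = 1 ∨ a * a = z := by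
    intro a ha
    refine hZmem _ (E.mul_mem ha ha) fun e he => ?_
    rcases hab e he a ha with h | h
    · calc e * (a * a) = (e * a) * a := by group
        _ = a * (e * a) := by rw [h, mul_assoc, h]
        _ = a * a * e := by rw [h, ← mul_assoc]
    · have hza := hzc a (hEH ha)
      calc e * (a * a) = (e * a) * a := by group
        _ = z * a * (e * a) := by (conv_lhs => rw [h]); group
        _ = z * (a * z) * a * e := by rw [h]; group
        _ = z * z * a * a * e := by rw [hza]; group
        _ = a * a * e := by rw [hzz, one_mul]
  by_contra hEK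
  obtain ⟨a, haE, haK⟩ := SetLike.not_le_iff_exists.mp hEK
  have hzK_of : ∀ b ∈ H, b * b ∈ K := fun b hb => Subgroup.mul_self_mem_of_index_two
    (H := K.subgroupOf H) hKi ⟨b, hb⟩
  -- in the centralizer in `E` of `x` some element squares to `z`
  have key : ∀ x ∈ E, x ∉ K → ∃ b, (b ∈ E ∧ b * x = x * b ∧ b * b = z ∧ b ∈ K) ∨ (b ∈ E ∧ b * x = x * b ∧ b * b = z ∧ b ∉ K) := by
    intro x hx hxK
    by_contra hno
    have hinv : ∀ b ∈ E, b * x = x * b → b * b = 1 := by
      intro b hb hbx
      rcases hsq b hb with h | h
      · exact h
      · exfalso; apply hno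
        by_cases hbK : b ∈ K
        · exact ⟨b, Or.inl ⟨hb, hbx, h, hbK⟩⟩
        · exact ⟨b, Or.inr ⟨hb, hbx, h, hbK⟩⟩
    let N : Subgroup G := E ⊓ Subgroup.centralizer ({x} : Set G)
    have hN : ∀ b ∈ N, b ∈ E ∧ b * x = x * b := fun b hb =>
      ⟨hb.1, Subgroup.mem_centralizer_singleton_iff.mp hb.2⟩
    have hNc : ∀ b ∈ N, ∀ c ∈ N, b * c = c * b := by
      intro b hb c hc
      have h1 := hinv b (hN b hb).1 (hN b hb).2
      have h2 := hinv c (hN c hc).1 (hN c hc).2
      have h3 := hinv (b * c) (hN _ (N.mul_mem hb hc)).1 (hN _ (N.mul_mem hb hc)).2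
      rw [← inv_eq_of_mul_eq_one_left h3, mul_inv_rev, inv_eq_of_mul_eq_one_left h1, inv_eq_of_mul_eq_one_left h2]
    obtain ⟨f, hf, hfx⟩ : ∃ f ∈ E, f * x ≠ x * f := by
      by_contra h; simp only [not_exists, not_and, not_not] at h
      rcases hZmem x hx h with rfl | rfl
      · exact hxK K.one_mem
      · obtain ⟨b, hb, hbb⟩ : ∃ b ∈ E, b * b = x := by
          by_contra h'; simp only [not_exists, not_and] at h'
          -- every element squares to one, so `E` is abelian
          have h1 : ∀ b ∈ E, b * b = 1 := fun b hb => (hsq b hb).resolve_right (h' b hb)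
          have hEc : ∀ b ∈ E, ∀ c ∈ E, b * c = c * b := by
            intro b hb c hc
            rw [← inv_eq_of_mul_eq_one_left (h1 _ (E.mul_mem hb hc)), mul_inv_rev,
              inv_eq_of_mul_eq_one_left (h1 b hb), inv_eq_of_mul_eq_one_left (h1 c hc)]
          have : Subgroup.center ↥E = ⊤ := Subgroup.eq_top_iff' _ |>.mpr fun b =>
            Subgroup.mem_center_iff.mpr fun c => Subtype.ext (hEc c c.2 b b.2)
          rw [this, Subgroup.card_top, hcard] at hZ
          have : 2 ^ 1 < 2 ^ (2 * n + 1) := Nat.pow_lt_pow_right (by norm_num) (by omega)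
          omega
        exact hxK (hbb ▸ hzK_of b (hEH hb))
    -- `E = N ∪ N f` and the elements of `N` commuting with `f` are central
    have hsplit : ∀ e ∈ E, e ∈ N ∨ e * f⁻¹ ∈ N := by
      intro e he
      rcases hab e he x hx with h | h
      · exact Or.inl ⟨he, Subgroup.mem_centralizer_singleton_iff.mpr h⟩
      · right
        refine ⟨E.mul_mem he (E.inv_mem hf), Subgroup.mem_centralizer_singleton_iff.mpr ?_⟩
        rcases hab f hf x hx with h' | h'
        · exact absurd h' hfx
        · calc e * f⁻¹ * x = e * (f⁻¹ * (z * (x * f)) * f⁻¹) * (z * 1) := by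
                rw [show z * (x * f) = z * x * f by group, ← hzc x (hEH hx)]
                rw [show f⁻¹ * (x * z * f) * f⁻¹ = f⁻¹ * x * z by group, mul_one, show e * (f⁻¹ * x * z) * z = e * f⁻¹ * x * (z * z) by group, hzz, mul_one]
            _ = e * x * f⁻¹ * z := by rw [← h']; group
            _ = z * (x * e) * f⁻¹ * z := by rw [h]
            _ = z * (x * (e * f⁻¹)) * z := by group
            _ = x * (e * f⁻¹) := by
                rw [mul_assoc z, hzc _ (H.mul_mem (hEH hx) (H.mul_mem (hEH he) (H.inv_mem (hEH hf)))),
                  ← mul_assoc, hzz, one_mul]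
    have hsmall : ∀ b ∈ N, b * f = f * b → b = 1 ∨ b = z := by
      intro b hb hbf
      refine hZmem b hb.1 fun e he => ?_
      rcases hsplit e he with h | h
      · exact hNc e h b hb
      · calc e * b = (e * f⁻¹) * (f * b) := by group
          _ = (e * f⁻¹) * b * f := by rw [← hbf]; group
          _ = b * (e * f⁻¹) * f := by rw [hNc _ h b hb]
          _ = b * e := by group
    -- so `N` has at most four elements
    let ψ : N → Bool := fun b => decide ((b : G) * f = f * b)
    have hfib : ∀ c : Bool, (Finset.univ.filter fun b : N => ψ b = c).card ≤ 2 := by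
      intro c
      rcases (Finset.univ.filter fun b : N => ψ b = c).eq_empty_or_nonempty with h | ⟨b₀, hb₀⟩
      · simp [h]
      · refine le_trans (Finset.card_le_card_of_injOn (fun b => ((b * b₀⁻¹ : N) : G)) (t := ({1, z} : Finset G)) ?_ ?_)
          Finset.card_le_two
        · intro b hb
          simp only [Finset.coe_filter, Finset.mem_univ, true_and, Set.mem_setOf_eq, Finset.mem_filter, ψ] at hb hb₀
          have hz' : ∀ u ∈ E, u * z = z * u := fun u hu => hzc u (hEH hu)
          have := hsmall _ (N.mul_mem b.2 (N.inv_mem b₀.2)) (by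
            cases c
            · simp only [decide_eq_false_iff_not] at hb hb₀
              have h1 := (hab _ b.2.1 f hf).resolve_left hb
              have h2 := (hab _ b₀.2.1 f hf).resolve_left hb₀
              calc (b : G) * (b₀ : G)⁻¹ * f = (b : G) * ((b₀ : G)⁻¹ * (z * (f * b₀)) * (b₀ : G)⁻¹) * z := by
                    rw [← mul_assoc z, ← hz' f hf,
                      show (b₀ : G)⁻¹ * (f * z * b₀) * (b₀ : G)⁻¹ = (b₀ : G)⁻¹ * f * z by group,
                      show (b : G) * ((b₀ : G)⁻¹ * f * z) * z = (b : G) * (b₀ : G)⁻¹ * f * (z * z) by group,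
                      hzz, mul_one]
                _ = (b : G) * f * (b₀ : G)⁻¹ * z := by rw [← h2]; group
                _ = z * (f * b) * (b₀ : G)⁻¹ * z := by rw [h1]
                _ = z * (f * (b * (b₀ : G)⁻¹)) * z := by group
                _ = f * ((b : G) * (b₀ : G)⁻¹) := by
                    rw [mul_assoc z, hz' _ (E.mul_mem hf (E.mul_mem b.2.1 (E.inv_mem b₀.2.1))), ← mul_assoc,
                      hzz, one_mul]
            · simp only [decide_eq_true_iff] at hb hb₀
              exact (Commute.mul_left hb (Commute.inv_left hb₀)).eq)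
          simpa using this
        · intro p _ q _ hpq
          simpa using hpq
    have hN4 : (Finset.univ : Finset N).card ≤ 2 * (Finset.univ.image ψ).card :=
      Finset.card_le_mul_card_image _ 2 fun c _ => hfib c
    have hN4' : Nat.card N ≤ 4 := by
      rw [Nat.card_eq_fintype_card, ← Finset.card_univ]
      have : (Finset.univ.image ψ).card ≤ 2 := by
        simpa using Finset.card_le_univ (Finset.univ.image ψ)
      omega
    have hE8 : Nat.card ↥E ≤ 2 * Nat.card N := by
      let g : N × Bool → ↥E := fun p => if p.2 then ⟨(p.1 : G) * f, E.mul_mem p.1.2.1 hf⟩ else ⟨p.1, p.1.2.1⟩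
      have : Function.Surjective g := by
        rintro ⟨e, he⟩
        rcases hsplit e he with h | h
        · exact ⟨(⟨e, h⟩, false), by simp [g]⟩
        · exact ⟨(⟨e * f⁻¹, h⟩, true), by simp [g]⟩
      have := Nat.card_le_card_of_surjective g this
      rwa [Nat.card_prod, Nat.card_eq_fintype_card (α := Bool), Fintype.card_bool, mul_comm] at this
    rw [hcard] at hE8
    have : 2 ^ 5 ≤ 2 ^ (2 * n + 1) := Nat.pow_le_pow_right (by norm_num) (by omega)
    omega
  have key' : ∀ x ∈ E, x ∉ K → ∃ b ∈ E, b * x = x * b ∧ b * b = z := by
    intro x hx hxK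
    obtain ⟨b, h | h⟩ := key x hx hxK
    · exact ⟨b, h.1, h.2.1, h.2.2.1⟩
    · exact ⟨b, h.1, h.2.1, h.2.2.1⟩
  -- an involution in `E` outside `K`
  obtain ⟨e, heE, heK, hee⟩ : ∃ e ∈ E, e ∉ K ∧ e * e = 1 := by
    by_contra hno
    simp only [not_exists, not_and] at hno
    have haa : a * a = z := (hsq a haE).resolve_left (hno a haE haK)
    obtain ⟨b, hb, hbK, hba, hbb⟩ : ∃ b ∈ E, b ∈ K ∧ b * a = a * b ∧ b * b = z := by
      by_contra hc
      simp only [not_exists, not_and] at hc
      -- `C_E(a) ∩ K` consists of involutions, so it is small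
      let M : Subgroup G := E ⊓ K ⊓ Subgroup.centralizer ({a} : Set G)
      have hM : ∀ b ∈ M, b * b = 1 := fun b hb => (hsq b hb.1.1).resolve_right
        (hc b hb.1.1 hb.1.2 (Subgroup.mem_centralizer_singleton_iff.mp hb.2))
      have hMc : ∀ b ∈ M, ∀ c ∈ M, b * c = c * b := by
        intro b hb c hc
        rw [← inv_eq_of_mul_eq_one_left (hM _ (M.mul_mem hb hc)), mul_inv_rev, inv_eq_of_mul_eq_one_left (hM b hb),
          inv_eq_of_mul_eq_one_left (hM c hc)]
      have hMa : ∀ b ∈ M, b * a = a * b := fun b hb => Subgroup.mem_centralizer_singleton_iff.mp hb.2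
      -- the centralizer of `a` in `E` is `M ∪ M a`
      have hcov : ∀ b ∈ E, b * a = a * b → b ∈ M ∨ b * a⁻¹ ∈ M := by
        intro b hb hba
        by_cases hbK : b ∈ K
        · exact Or.inl ⟨⟨hb, hbK⟩, Subgroup.mem_centralizer_singleton_iff.mpr hba⟩
        · right
          refine ⟨⟨E.mul_mem hb (E.inv_mem haE), ?_⟩, Subgroup.mem_centralizer_singleton_iff.mpr ?_⟩
          · have := (Subgroup.mul_mem_iff_of_index_two (H := K.subgroupOf H) hKi (a := ⟨b, hEH hb⟩)
              (b := ⟨a⁻¹, H.inv_mem (hEH haE)⟩)).mpr (by simp [Subgroup.mem_subgroupOf, hbK, haK])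
            simpa [Subgroup.mem_subgroupOf] using this
          · rw [mul_assoc, inv_mul_cancel, mul_one, ← mul_assoc, ← hba, mul_assoc, mul_inv_cancel, mul_one]
      have hcom : ∀ b ∈ E, b * a = a * b → ∀ c ∈ E, c * a = a * c → b * c = c * b := by
        have h0 : ∀ b ∈ E, b * a = a * b → ∃ m ∈ M, ∃ k : ℕ, b = m * a ^ k := by
          intro b hb hba
          rcases hcov b hb hba with h | h
          · exact ⟨b, h, 0, by simp⟩
          · exact ⟨_, h, 1, by simp⟩
        intro b hb hba c hcE hca
        obtain ⟨p, hp, i, rfl⟩ := h0 b hb hba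
        obtain ⟨r, hr, j, rfl⟩ := h0 c hcE hca
        have c1 : Commute (p * a ^ i) r :=
          Commute.mul_left (hMc p hp r hr) ((Commute.symm (hMa r hr)).pow_left i)
        have c2 : Commute (p * a ^ i) (a ^ j) :=
          Commute.mul_left (Commute.pow_right (hMa p hp) j) ((Commute.refl a).pow_pow i j)
        exact (c1.mul_right c2).eq
      -- then the centralizer of `a` is abelian of index at most two
      obtain ⟨f, hf, hfa⟩ : ∃ f ∈ E, f * a ≠ a * f := by
        by_contra h; simp only [not_exists, not_and, not_not] at h
        rcases hZmem a haE h with rfl | rfl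
        · exact haK K.one_mem
        · obtain ⟨b, hb, -, hbb⟩ := key' a haE haK
          exact haK (hbb ▸ hzK_of b (hEH hb))
      have hsub : ∀ b ∈ M, b * f = f * b → b = 1 ∨ b = z := by
        intro b hb hbf
        refine hZmem b hb.1.1 fun c hcE => ?_
        by_cases hca : c * a = a * c
        · exact hcom c hcE hca b hb.1.1 (hMa b hb)
        · have hc' : (c * f⁻¹) * a = a * (c * f⁻¹) := by
            have h1 := (hab c hcE a haE).resolve_left hca
            have h2 := (hab f hf a haE).resolve_left hfa
            have h2' : f⁻¹ * a = z * (a * f⁻¹) := by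
              calc f⁻¹ * a = f⁻¹ * (z * (z * (a * f))) * f⁻¹ := by
                    rw [← mul_assoc z z, hzz]; group
                _ = f⁻¹ * (z * (f * a)) * f⁻¹ := by rw [← h2]
                _ = f⁻¹ * (f * z) * a * f⁻¹ := by rw [hzc f (hEH hf)]; group
                _ = z * (a * f⁻¹) := by group
            calc c * f⁻¹ * a = c * (f⁻¹ * a) := by group
              _ = c * z * (a * f⁻¹) := by rw [h2']; group
              _ = z * (c * a) * f⁻¹ := by rw [hzc c (hEH hcE)]; group
              _ = (z * z) * (a * (c * f⁻¹)) := by rw [h1]; group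
              _ = a * (c * f⁻¹) := by rw [hzz, one_mul]
          have := hcom (c * f⁻¹) (E.mul_mem hcE (E.inv_mem hf)) hc' b hb.1.1 (hMa b hb)
          calc c * b = (c * f⁻¹) * (f * b) := by group
            _ = (c * f⁻¹) * b * f := by rw [← hbf]; group
            _ = b * (c * f⁻¹) * f := by rw [this]
            _ = b * c := by group
      -- counting
      let ψ : ↥E → Bool × Bool × Bool := fun c =>
        (decide ((c : G) * a = a * c), decide ((c : G) ∈ K), decide ((c : G) * f = f * c))
      have hfib : ∀ v, (Finset.univ.filter fun c : ↥E => ψ c = v).card ≤ 2 := by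
        intro v
        rcases (Finset.univ.filter fun c : ↥E => ψ c = v).eq_empty_or_nonempty with h | ⟨c₀, hc₀⟩
        · simp [h]
        · refine le_trans (Finset.card_le_card_of_injOn (fun c => ((c * c₀⁻¹ : ↥E) : G)) (t := ({1, z} : Finset G))
            ?_ ?_) Finset.card_le_two
          · intro c hcv
            simp only [Finset.coe_filter, Finset.mem_univ, true_and, Set.mem_setOf_eq, Finset.mem_filter, ψ] at hcv hc₀
            have hcomp := hcv.trans hc₀.symm
            simp only [Prod.mk.injEq, decide_eq_decide] at hcomp
            have hagree : ∀ y ∈ E, ((c : G) * y = y * c ↔ (c₀ : G) * y = y * c₀) →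
                ((c * c₀⁻¹ : ↥E) : G) * y = y * ((c * c₀⁻¹ : ↥E) : G) := by
              intro y hy hiff
              rw [Subgroup.coe_mul, Subgroup.coe_inv]
              by_cases h1 : (c : G) * y = y * c
              · exact (Commute.mul_left h1 (Commute.inv_left (hiff.mp h1))).eq
              · have h2 := fun h => h1 (hiff.mpr h)
                have e1 := (hab _ c.2 y hy).resolve_left h1
                have e2 := (hab _ c₀.2 y hy).resolve_left h2
                have e2' : (c₀ : G)⁻¹ * y = z * (y * (c₀ : G)⁻¹) := by
                  calc (c₀ : G)⁻¹ * y = (c₀ : G)⁻¹ * (z * (z * (y * c₀))) * (c₀ : G)⁻¹ := by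
                        rw [← mul_assoc z z, hzz]; group
                    _ = (c₀ : G)⁻¹ * (z * (c₀ * y)) * (c₀ : G)⁻¹ := by rw [← e2]
                    _ = (c₀ : G)⁻¹ * (c₀ * z) * y * (c₀ : G)⁻¹ := by rw [hzc _ (hEH c₀.2)]; group
                    _ = z * (y * (c₀ : G)⁻¹) := by group
                calc (c : G) * (c₀ : G)⁻¹ * y = c * ((c₀ : G)⁻¹ * y) := by group
                  _ = c * z * (y * (c₀ : G)⁻¹) := by rw [e2']; group
                  _ = z * (c * y) * (c₀ : G)⁻¹ := by rw [hzc _ (hEH c.2)]; group
                  _ = (z * z) * (y * (c * (c₀ : G)⁻¹)) := by rw [e1]; group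
                  _ = y * (c * (c₀ : G)⁻¹) := by rw [hzz, one_mul]
            have hK' : ((c * c₀⁻¹ : ↥E) : G) ∈ K := by
              have := (Subgroup.mul_mem_iff_of_index_two (H := K.subgroupOf H) hKi (a := ⟨c, hEH c.2⟩)
                (b := ⟨(c₀ : G)⁻¹, H.inv_mem (hEH c₀.2)⟩)).mpr
                (by simp [Subgroup.mem_subgroupOf, hcomp.2.1])
              simpa [Subgroup.mem_subgroupOf] using this
            have := hsub _ ⟨⟨(c * c₀⁻¹ : ↥E).2, hK'⟩,
              Subgroup.mem_centralizer_singleton_iff.mpr (hagree a haE hcomp.1)⟩ (hagree f hf hcomp.2.2)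
            simpa using this
          · intro p _ q _ hpq
            simpa using hpq
      have h16 : (Finset.univ : Finset ↥E).card ≤ 2 * (Finset.univ.image ψ).card :=
        Finset.card_le_mul_card_image _ 2 fun c _ => hfib c
      have : (Finset.univ.image ψ).card ≤ 8 := by simpa using Finset.card_le_univ (Finset.univ.image ψ)
      rw [Finset.card_univ, ← Nat.card_eq_fintype_card, hcard] at h16
      have : 2 ^ 5 ≤ 2 ^ (2 * n + 1) := Nat.pow_le_pow_right (by norm_num) (by omega)
      omega
    refine hno (a * b) (E.mul_mem haE hb) ?_ ?_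
    · intro h
      have := (Subgroup.mul_mem_iff_of_index_two (H := K.subgroupOf H) hKi (a := ⟨a, hEH haE⟩)
        (b := ⟨b, hEH hb⟩)).mp (by simpa [Subgroup.mem_subgroupOf] using h)
      simp [Subgroup.mem_subgroupOf, haK, hbK] at this
    · calc a * b * (a * b) = a * (b * a) * b := by group
        _ = (a * a) * (b * b) := by rw [hba]; group
        _ = 1 := by rw [haa, hbb, hzz]
  obtain ⟨b, hbE, hbe, hbb⟩ := key' e heE heK
  let D : Subgroup G := E ⊓ Subgroup.centralizer ({e} : Set G)
  have hD2 : IsPGroup 2 D := hEp.to_le inf_le_left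
  have heD : e ∈ D := ⟨heE, Subgroup.mem_centralizer_singleton_iff.mpr rfl⟩
  have hbD : b ∈ D := ⟨hbE, Subgroup.mem_centralizer_singleton_iff.mpr hbe⟩
  have hzD : z ∈ D := ⟨hzE, Subgroup.mem_centralizer_singleton_iff.mpr (hzc e (hEH heE)).symm⟩
  have hev := CfsgLib.TransferEval.even_card_fixed_bad hhom hKi (x := e) (by rw [sq]; exact hee) D hD2
    (fun d hd => Subgroup.mem_centralizer_singleton_iff.mp hd.2)
  -- exactly one coset is fixed
  have hone : {q : G ⧸ H | q ∈ CfsgLib.TransferEval.bad H K e ∧ ∀ d ∈ D, d • q = q} = {((1 : G) : G ⧸ H)} := by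
    apply Set.eq_singleton_iff_unique_mem.mpr
    refine ⟨⟨(CfsgLib.TransferEval.mem_bad hKi).mpr ⟨by simpa using hEH heE, by simpa using heK⟩, ?_⟩, ?_⟩
    · intro d hd
      change ((d * 1 : G) : G ⧸ H) = _
      rw [QuotientGroup.eq]; simpa using hEH hd.1
    · rintro q ⟨hq, hqD⟩
      obtain ⟨g, rfl, h1, h2⟩ := hq
      have hg : ∀ d ∈ D, g⁻¹ * d * g ∈ H := by
        intro d hd
        have := hqD d hd
        change ((d * g : G) : G ⧸ H) = g at this
        rw [QuotientGroup.eq, mul_inv_rev, ← inv_mem_iff] at this
        simpa [mul_assoc] using this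
      set w := g * z * g⁻¹ with hw
      have hwD : ∀ d ∈ D, d * w = w * d := by
        intro d hd
        have := hzc _ (hg d hd)
        calc d * w = g * (g⁻¹ * d * g * z) * g⁻¹ := by rw [hw]; group
          _ = g * (z * (g⁻¹ * d * g)) * g⁻¹ := by rw [this]
          _ = w * d := by rw [hw]; group
      have hwH : w ∈ H := Subgroup.mem_centralizer_singleton_iff.mpr (hwD z hzD).symm
      have hEn : ∀ u ∈ E, w * u * w⁻¹ ∈ E := by
        intro u hu
        rw [hE] at hu ⊢
        obtain ⟨⟨u', hu'H⟩, hu', rfl⟩ := hu
        haveI : (Cfsg.pCore 2 ↥H).Normal := by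
          unfold Cfsg.pCore
          exact Subgroup.sSup_normal _ (fun N hN => hN.1)
        exact ⟨_, Subgroup.Normal.conj_mem inferInstance _ hu' ⟨w, hwH⟩, rfl⟩
      -- `w` acts on `E` as a multiple of `e` or trivially
      have hwE : w ∈ E := by
        by_cases hcen : ∀ u ∈ E, u * w = w * u
        · exact hcent hcen
        · simp only [not_forall] at hcen
          obtain ⟨f, hf, hfw⟩ := hcen
          have hfe : f * e ≠ e * f := fun h =>
            hfw (hwD f ⟨hf, Subgroup.mem_centralizer_singleton_iff.mpr h⟩)
          set c := f⁻¹ * (w * f * w⁻¹) with hc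
          have hcE : c ∈ E := E.mul_mem (E.inv_mem hf) (hEn f hf)
          have hsplit : ∀ u ∈ E, u ∈ D ∨ u * f⁻¹ ∈ D := by
            intro u hu
            by_cases h : u * e = e * u
            · exact Or.inl ⟨hu, Subgroup.mem_centralizer_singleton_iff.mpr h⟩
            · right
              refine ⟨E.mul_mem hu (E.inv_mem hf), Subgroup.mem_centralizer_singleton_iff.mpr ?_⟩
              have e1 := (hab u hu e heE).resolve_left h
              have e2 := (hab f hf e heE).resolve_left hfe
              have e2' : f⁻¹ * e = z * (e * f⁻¹) := by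
                calc f⁻¹ * e = f⁻¹ * (z * (z * (e * f))) * f⁻¹ := by rw [← mul_assoc z z, hzz]; group
                  _ = f⁻¹ * (z * (f * e)) * f⁻¹ := by rw [← e2]
                  _ = f⁻¹ * (f * z) * e * f⁻¹ := by rw [hzc f (hEH hf)]; group
                  _ = z * (e * f⁻¹) := by group
              calc u * f⁻¹ * e = u * (f⁻¹ * e) := by group
                _ = u * z * (e * f⁻¹) := by rw [e2']; group
                _ = z * (u * e) * f⁻¹ := by rw [hzc u (hEH hu)]; group
                _ = (z * z) * (e * (u * f⁻¹)) := by rw [e1]; group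
                _ = e * (u * f⁻¹) := by rw [hzz, one_mul]
          have hwfix : ∀ d ∈ D, w * d * w⁻¹ = d := fun d hd => by rw [← hwD d hd]; group
          have hcD : ∀ d ∈ D, d * c = c * d := by
            intro d hd
            rcases hab f hf d hd.1 with h | h
            · have h' : w * f * w⁻¹ * d = d * (w * f * w⁻¹) := by
                conv_lhs => rw [← hwfix d hd]
                conv_rhs => rw [← hwfix d hd]
                rw [show w * f * w⁻¹ * (w * d * w⁻¹) = w * (f * d) * w⁻¹ by group, h]; group
              exact ((Commute.inv_right (Commute.symm h)).mul_right (Commute.symm h')).eq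
            · have h' : w * f * w⁻¹ * d = z * (d * (w * f * w⁻¹)) := by
                conv_lhs => rw [← hwfix d hd]
                rw [show w * f * w⁻¹ * (w * d * w⁻¹) = w * (f * d) * w⁻¹ by group, h, ← mul_assoc w,
                  ← hwD z hzD]
                conv_rhs => rw [← hwfix d hd]
                group
              rw [hc]
              calc d * (f⁻¹ * (w * f * w⁻¹)) = f⁻¹ * (f * d) * (f⁻¹ * (w * f * w⁻¹)) := by group
                _ = f⁻¹ * z * d * (w * f * w⁻¹) := by rw [h]; group
                _ = f⁻¹ * (z * (d * (w * f * w⁻¹))) := by group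
                _ = f⁻¹ * (w * f * w⁻¹) * d := by rw [← h']; group
          have hff : c = 1 ∨ c = z := by
            by_cases hcf : c * f = f * c
            · refine hZmem c hcE fun u hu => ?_
              rcases hsplit u hu with h | h
              · exact hcD u h
              · calc u * c = (u * f⁻¹) * (f * c) := by group
                  _ = (u * f⁻¹) * c * f := by rw [← hcf]; group
                  _ = c * (u * f⁻¹) * f := by rw [hcD _ h]
                  _ = c * u := by group
            · exfalso
              -- then `c e` is central, so `c` squares to one but inverting the square of `f`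
              have e1 := (hab c hcE f hf).resolve_left hcf
              have hce : c * e = e * c := (hcD e heD).symm
              have e2 := (hab f hf e heE).resolve_left hfe
              have h4 : e * f = z * (f * e) := by rw [e2, ← mul_assoc, hzz, one_mul]
              have hcef : c * e * f = f * (c * e) := by
                calc c * e * f = c * (e * f) := by group
                  _ = c * z * (f * e) := by rw [h4]; group
                  _ = z * (c * f) * e := by rw [hzc c (hEH hcE)]; group
                  _ = (z * z) * (f * (c * e)) := by rw [e1]; group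
                  _ = f * (c * e) := by rw [hzz, one_mul]
              have hcen : c * e = 1 ∨ c * e = z := by
                refine hZmem _ (E.mul_mem hcE heE) fun u hu => ?_
                have hD' : ∀ d ∈ D, d * (c * e) = c * e * d := fun d hd =>
                  (Commute.mul_right (hcD d hd) (Subgroup.mem_centralizer_singleton_iff.mp hd.2)).eq
                rcases hsplit u hu with h | h
                · exact hD' u h
                · calc u * (c * e) = (u * f⁻¹) * (f * (c * e)) := by group
                    _ = (u * f⁻¹) * (c * e) * f := by rw [← hcef]; group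
                    _ = (c * e) * (u * f⁻¹) * f := by rw [hD' _ h]
                    _ = c * e * u := by group
              have hcc : c * c = 1 := by
                rcases hcen with h | h
                · have : c = e := by rw [eq_inv_of_mul_eq_one_left h]; exact (inv_eq_of_mul_eq_one_left hee)
                  rw [this, hee]
                · have : c = z * e := by rw [← h, mul_assoc, hee, mul_one]
                  rw [this, mul_assoc, ← mul_assoc e z e, hzc e (hEH heE), mul_assoc z e e, hee, mul_one, hzz]
              have hsq2 : f * c * (f * c) = f * f := by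
                have hfc : f * c = w * f * w⁻¹ := by rw [hc]; group
                rw [hfc]
                rcases hsq f hf with h | h <;>
                  rw [show w * f * w⁻¹ * (w * f * w⁻¹) = w * (f * f) * w⁻¹ by group, h]
                · group
                · exact hwfix z hzD
              have : f * c * (f * c) = f * f * z := by
                calc f * c * (f * c) = f * (c * f) * c := by group
                  _ = f * z * f * (c * c) := by rw [e1]; group
                  _ = f * (z * f) := by rw [hcc]; group
                  _ = f * f * z := by rw [← hzc f (hEH hf)]; group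
              rw [hsq2] at this
              exact hz1 (mul_left_cancel (a := f * f) (by rw [mul_one]; exact this.symm))
          rcases hff with h | h
          · exfalso; apply hfw
            have : w * f * w⁻¹ = f := by
              calc w * f * w⁻¹ = f * c := by rw [hc]; group
                _ = f := by rw [h, mul_one]
            calc f * w = (w * f * w⁻¹) * w := by rw [this]
              _ = w * f := by group
          · -- `w e` centralizes `E`
            have h5 : w * f = z * (f * w) := by
              calc w * f = (f * c) * w := by rw [hc]; group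
                _ = z * (f * w) := by rw [h, hzc f (hEH hf)]; group
            have e2 := (hab f hf e heE).resolve_left hfe
            have hwe : w * e ∈ E := by
              apply hcent
              intro u hu
              have hD' : ∀ d ∈ D, d * (w * e) = w * e * d := fun d hd =>
                (Commute.mul_right (hwD d hd) (Subgroup.mem_centralizer_singleton_iff.mp hd.2)).eq
              have hfwe : f * (w * e) = w * e * f := by
                symm
                calc w * e * f = w * (z * z) * (e * f) := by rw [hzz]; group
                  _ = w * z * (z * (e * f)) := by group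
                  _ = w * z * (f * e) := by rw [← e2]
                  _ = z * (w * f) * e := by rw [← hwD z hzD]; group
                  _ = (z * z) * (f * (w * e)) := by rw [h5]; group
                  _ = f * (w * e) := by rw [hzz, one_mul]
              rcases hsplit u hu with h | h
              · exact hD' u h
              · calc u * (w * e) = (u * f⁻¹) * (f * (w * e)) := by group
                  _ = (u * f⁻¹) * (w * e) * f := by rw [hfwe]; group
                  _ = (w * e) * (u * f⁻¹) * f := by rw [hD' _ h]
                  _ = w * e * u := by group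
            have := E.mul_mem hwe (E.inv_mem heE)
            simpa using this
      -- elements of `E` centralizing `D`
      have hbz : g⁻¹ * z * g ∈ K := by
        have := hzK_of _ (hg b hbD)
        rwa [show g⁻¹ * b * g * (g⁻¹ * b * g) = g⁻¹ * (b * b) * g by group, hbb] at this
      by_cases hwc : ∀ u ∈ E, u * w = w * u
      · rcases hZmem w hwE hwc with h | h
        · exfalso
          apply hz1
          calc z = g⁻¹ * w * g := by rw [hw]; group
            _ = 1 := by rw [h]; group
        · rw [QuotientGroup.eq]
          simp only [mul_one, inv_mem_iff]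
          apply Subgroup.mem_centralizer_singleton_iff.mpr
          calc g * z = w * g := by rw [hw]; group
            _ = z * g := by rw [h]
      · exfalso
        simp only [not_forall] at hwc
        obtain ⟨f, hf, hfw⟩ := hwc
        have hfe : f * e ≠ e * f := fun h => hfw (hwD f ⟨hf, Subgroup.mem_centralizer_singleton_iff.mpr h⟩)
        have hwez : w * e = 1 ∨ w * e = z := by
          refine hZmem _ (E.mul_mem hwE heE) fun u hu => ?_
          by_cases hu' : u * e = e * u
          · exact (Commute.mul_right (hwD u ⟨hu, Subgroup.mem_centralizer_singleton_iff.mpr hu'⟩) hu').eq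
          · have e1 := (hab u hu e heE).resolve_left hu'
            have huw : ¬ u * w = w * u := by
              intro huw
              -- `u f⁻¹` centralizes `e`, hence `w`
              have e2 := (hab f hf e heE).resolve_left hfe
              have e2' : f⁻¹ * e = z * (e * f⁻¹) := by
                calc f⁻¹ * e = f⁻¹ * (z * (z * (e * f))) * f⁻¹ := by rw [← mul_assoc z z, hzz]; group
                  _ = f⁻¹ * (z * (f * e)) * f⁻¹ := by rw [← e2]
                  _ = f⁻¹ * (f * z) * e * f⁻¹ := by rw [hzc f (hEH hf)]; group
                  _ = z * (e * f⁻¹) := by group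
              have h6 : u * f⁻¹ * e = e * (u * f⁻¹) := by
                calc u * f⁻¹ * e = u * (f⁻¹ * e) := by group
                  _ = u * z * (e * f⁻¹) := by rw [e2']; group
                  _ = z * (u * e) * f⁻¹ := by rw [hzc u (hEH hu)]; group
                  _ = (z * z) * (e * (u * f⁻¹)) := by rw [e1]; group
                  _ = e * (u * f⁻¹) := by rw [hzz, one_mul]
              have h7 := hwD _ ⟨E.mul_mem hu (E.inv_mem hf), Subgroup.mem_centralizer_singleton_iff.mpr h6⟩
              apply hfw
              have : Commute ((u * f⁻¹)⁻¹ * u) w := Commute.mul_left (Commute.inv_left h7) huw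
              simpa using this.eq
            have e3 := (hab u hu w hwE).resolve_left huw
            calc u * (w * e) = (u * w) * e := by group
              _ = z * w * (u * e) := by rw [e3]; group
              _ = z * (w * z) * (e * u) := by rw [e1]; group
              _ = (z * z) * (w * e * u) := by rw [← hwD z hzD]; group
              _ = w * e * u := by rw [hzz, one_mul]
        apply h2
        rcases hwez with h | h
        · have hwe : w = e := by rw [eq_inv_of_mul_eq_one_left h]; exact inv_eq_of_mul_eq_one_left hee
          have : g⁻¹ * e * g = z := by rw [← hwe, hw]; group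
          rw [this, ← hbb]; exact hzK_of b (hEH hbE)
        · have hwe : e = w⁻¹ * z := by rw [← h]; group
          have : g⁻¹ * e * g = z⁻¹ * (g⁻¹ * z * g) := by rw [hwe, hw]; group
          rw [this]
          refine K.mul_mem (K.inv_mem ?_) hbz
          rw [← hbb]; exact hzK_of b (hEH hbE)
  rw [hone] at hev
  rw [Nat.card_coe_set_eq, Set.ncard_singleton] at hev
  exact absurd hev (by decide)

end Cfsg.Agent.S3299
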