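import Cfsg.Statements.S3300
import Cfsg.Agent.CocycleParity.Basic
import Cfsg.Agent.CocycleParity.Extraspecial
-- import your own Cfsg.Agent.* helpers here

set_option autoImplicit false
open Cfsg

namespace Cfsg.Agent.S3300

/-- Let G be a finite group with no nontrivial 2-group quotient (O^2(G) = G), z an involution of G with H = C_G(z), and suppose E = O_2(H) is extraspecial with C_G(E) ≤ E and of order 2^(2n+1) with n ≥ 3. If H has a normal subgroup of index 2, then z is conjugate in G to an element of E other than z. -/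
theorem result {G : Type*} [Group G] [Finite G] (hres : Cfsg.pResidual 2 G = ⊤) (z : G) (hz : orderOf z = 2)
    (E : Subgroup G) (hE : E = (Cfsg.pCore 2 ↥(Subgroup.centralizer ({z} : Set G))).map (Subgroup.centralizer ({z} : Set G)).subtype)
    (hext : Cfsg.IsExtraspecial 2 ↥E) (hcent : Subgroup.centralizer (E : Set G) ≤ E) (n : ℕ) (hn : 3 ≤ n) (hcard : Nat.card ↥E = 2 ^ (2 * n + 1))
    (K : Subgroup G) (hKH : K ≤ Subgroup.centralizer ({z} : Set G))
    (hKn : ∀ h ∈ Subgroup.centralizer ({z} : Set G), K.map (MulAut.conj h).toMonoidHom = K)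
    (hKi : K.relIndex (Subgroup.centralizer ({z} : Set G)) = 2) :
    ∃ g : G, g * z * g⁻¹ ∈ E ∧ g * z * g⁻¹ ≠ z := by
  classical
  haveI : Fintype G := Fintype.ofFinite G
  haveI : Fact (Nat.Prime 2) := ⟨Nat.prime_two⟩
  set H := Subgroup.centralizer ({z} : Set G) with hH
  by_contra hnoconj
  simp only [not_exists, not_and, not_not] at hnoconj
  have hV : ∀ v : ℤˣ, v * v = 1 := Int.units_mul_self
  let χ : ↥H →* ℤˣ := MonoidHom.mk' (fun h => if (h : G) ∈ K then 1 else -1) (by
    intro a b
    have := Subgroup.mul_mem_iff_of_index_two (H := K.subgroupOf H) hKi (a := a) (b := b)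
    simp only [Subgroup.mem_subgroupOf, Subgroup.coe_mul] at this
    by_cases ha : (a : G) ∈ K <;> by_cases hb : (b : G) ∈ K <;> simp [this, ha, hb])
  obtain ⟨h₁, hh₁⟩ : ∃ h, χ h ≠ 1 := by
    by_contra h
    simp only [not_exists, not_not] at h
    have : K.subgroupOf H = ⊤ := (Subgroup.eq_top_iff' _).mpr fun a => by
      by_contra ha
      have h' := h a
      simp only [χ, MonoidHom.mk'_apply, Subgroup.mem_subgroupOf.not.mp ha, if_false] at h'
      exact absurd h' (by decide)
    rw [Subgroup.relIndex, this, Subgroup.index_top] at hKi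
    omega
  -- a 2-element with non-trivial image
  obtain ⟨m, n₁, hn₁, hn⟩ := Nat.exists_eq_two_pow_mul_odd (orderOf_pos h₁).ne'
  obtain ⟨y, hyp, hyχ⟩ : ∃ y : ↥H, (∃ j, y ^ 2 ^ j = 1) ∧ χ y ≠ 1 := by
    refine ⟨h₁ ^ n₁, ⟨m, ?_⟩, ?_⟩
    · rw [← pow_mul, mul_comm, ← hn]; exact pow_orderOf_eq_one h₁
    · obtain ⟨i, rfl⟩ := hn₁
      rw [map_pow, pow_succ, pow_mul, sq, hV, one_pow, one_mul]; exact hh₁
  -- facts on `E`
  have hEH : E ≤ H := by rw [hE]; exact Subgroup.map_subtype_le _
  have hz1 : z ≠ 1 := by intro h; rw [h, orderOf_one] at hz; omega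
  have hzz : z * z = 1 := by
    have := pow_orderOf_eq_one z; rwa [hz, sq] at this
  have hzc : ∀ h ∈ H, h * z = z * h := fun h hh => Subgroup.mem_centralizer_singleton_iff.mp hh
  obtain ⟨⟨hEp, hfr, hder⟩, hZ⟩ := hext
  have hzE : z ∈ E := hcent (fun e he => hzc e (hEH he))
  have hZmem : ∀ c ∈ E, (∀ e ∈ E, e * c = c * e) → c = 1 ∨ c = z := by
    intro c hc hcc
    by_contra h
    rw [not_or] at h
    have h3 : ({1, z, c} : Finset G).card = 3 :=
      Finset.card_eq_three.mpr ⟨1, z, c, hz1.symm, Ne.symm h.1, Ne.symm h.2, rfl⟩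
    have hsub : ({1, z, c} : Finset G) ⊆ ((Subgroup.center ↥E).map E.subtype : Set G).toFinite.toFinset := by
      intro y hy
      simp only [Finset.mem_insert, Finset.mem_singleton] at hy
      simp only [Set.Finite.mem_toFinset, SetLike.mem_coe, Subgroup.mem_map]
      rcases hy with h0 | h0 | h0 <;> rw [h0]
      · exact ⟨1, one_mem _, rfl⟩
      · exact ⟨⟨z, hzE⟩, Subgroup.mem_center_iff.mpr fun g => Subtype.ext (hzc g (hEH g.2)), rfl⟩
      · exact ⟨⟨c, hc⟩, Subgroup.mem_center_iff.mpr fun g => Subtype.ext (hcc g g.2), rfl⟩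
    have := Finset.card_le_card hsub
    rw [h3, ← Set.ncard_eq_toFinset_card, ← Nat.card_coe_set_eq] at this
    change 3 ≤ Nat.card ((Subgroup.center ↥E).map E.subtype) at this
    rw [Subgroup.card_map_of_injective E.subtype_injective, hZ] at this
    omega
  have hcomm : ∀ a ∈ E, ∀ b ∈ E, a * b * a⁻¹ * b⁻¹ = 1 ∨ a * b * a⁻¹ * b⁻¹ = z := by
    intro a ha b hb
    have : (⟨a, ha⟩ * ⟨b, hb⟩ * ⟨a, ha⟩⁻¹ * ⟨b, hb⟩⁻¹ : ↥E) ∈ Subgroup.center ↥E := by
      rw [← hder, commutator_def, ← commutatorElement_def]; exact Subgroup.commutator_mem_commutator (Subgroup.mem_top _) (Subgroup.mem_top _)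
    refine hZmem _ (E.mul_mem (E.mul_mem (E.mul_mem ha hb) (E.inv_mem ha)) (E.inv_mem hb)) fun e he => ?_
    exact congrArg Subtype.val (Subgroup.mem_center_iff.mp this ⟨e, he⟩)
  have hab : ∀ a ∈ E, ∀ b ∈ E, a * b = b * a ∨ a * b = z * (b * a) := by
    intro a ha b hb
    rcases hcomm a ha b hb with h | h
    · left
      calc a * b = (a * b * a⁻¹ * b⁻¹) * (b * a) := by group
        _ = b * a := by rw [h, one_mul]
    · right
      calc a * b = (a * b * a⁻¹ * b⁻¹) * (b * a) := by group
        _ = z * (b * a) := by rw [h]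
  have hsq : ∀ a ∈ E, a * a = 1 ∨ a * a = z := by
    intro a ha
    refine hZmem _ (E.mul_mem ha ha) fun e he => ?_
    rcases hab e he a ha with h | h
    · calc e * (a * a) = (e * a) * a := by group
        _ = a * (e * a) := by rw [h, mul_assoc, h]
        _ = a * a * e := by rw [h, ← mul_assoc]
    · have hza := hzc a (hEH ha)
      calc e * (a * a) = (e * a) * a := by group
        _ = z * a * (e * a) := by (conv_lhs => rw [h]); group
        _ = z * (a * z) * a * e := by rw [h]; group
        _ = z * z * a * a * e := by rw [hza]; group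
        _ = a * a * e := by rw [hzz, one_mul]
  have hEcount : ∀ D : Subgroup ↥E, (⟨z, hzE⟩ : ↥E) ∈ D →
      Nat.card (Subgroup.centralizer (D : Set ↥E)) * Nat.card D = 2 * Nat.card ↥E :=
    CfsgLib.CocycleParity.card_centralizer_mul (⟨z, hzE⟩ : ↥E) (fun h => hz1 (congrArg Subtype.val h))
      (fun a => Subtype.ext (hzc a (hEH a.2)).symm) (Subtype.ext hzz)
      (fun a b => (hab a a.2 b b.2).imp (fun h => Subtype.ext h) (fun h => Subtype.ext h))
      (fun a ha => (hZmem a a.2 fun e he => congrArg Subtype.val (ha ⟨e, he⟩)).imp (fun h => Subtype.ext h)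
        (fun h => Subtype.ext h))
  -- the cocycle
  haveI : Fintype (G ⧸ H) := Fintype.ofFinite _
  have hmem : ∀ (g : G) (q : G ⧸ H), (g • q).out⁻¹ * g * q.out ∈ H := by
    intro g q
    rw [mul_assoc, ← QuotientGroup.eq, QuotientGroup.out_eq']
    conv_lhs => rw [← QuotientGroup.out_eq' q]
    rfl
  let c₀ : G → G ⧸ H → ℤˣ := fun g q => χ ⟨_, hmem g q⟩
  have hc₀ : ∀ g h q, c₀ (g * h) q = c₀ g (h • q) * c₀ h q := by
    intro g h q
    simp only [c₀, ← map_mul]
    congr 1
    apply Subtype.ext
    simp only [Subgroup.coe_mul, mul_smul]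
    group
  have htriv : ∀ f : G →* ℤˣ, f = 1 := by
    intro f
    have hle : Cfsg.pResidual 2 G ≤ f.ker := by
      rw [Cfsg.pResidual, Subgroup.closure_le]
      intro g hg
      simp only [Set.mem_setOf_eq] at hg
      have h1 : orderOf (f g) ∣ orderOf g := orderOf_map_dvd f g
      have h2 : orderOf (f g) ∣ 2 := orderOf_dvd_of_pow_eq_one (by rw [sq]; exact hV _)
      have := Nat.dvd_gcd h1 h2
      rw [hg] at this
      exact orderOf_eq_one_iff.mp (Nat.dvd_one.mp this)
    rw [hres] at hle
    exact MonoidHom.ext fun g => MonoidHom.mem_ker.mp (hle (Subgroup.mem_top g))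
  have htot : ∀ g, ∏ q : G ⧸ H, c₀ g q = 1 := by
    intro g
    have hmul : ∀ g h, ∏ q : G ⧸ H, c₀ (g * h) q = (∏ q : G ⧸ H, c₀ g q) * ∏ q : G ⧸ H, c₀ h q := by
      intro g h
      simp only [hc₀, Finset.prod_mul_distrib]
      congr 1
      exact Equiv.prod_comp (MulAction.toPerm h) (fun q => c₀ g q)
    exact DFunLike.congr_fun (htriv (MonoidHom.mk' (fun g => ∏ q : G ⧸ H, c₀ g q) hmul)) g
  have hfixH : ∀ (g : G) (q : G ⧸ H), g • q = q → q.out⁻¹ * g * q.out ∈ H := by
    intro g q hg; have := hmem g q; rwa [hg] at this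
  have hval : ∀ (g : G) (q : G ⧸ H) (hg : g • q = q), c₀ g q = χ ⟨_, hfixH g q hg⟩ := by
    intro g q hg
    simp only [c₀]; congr 1; apply Subtype.ext; simp only [hg]
  -- the 2-group
  have hEn : H ≤ Subgroup.normalizer (E : Set G) := by
    intro h hh
    haveI hn' : (Cfsg.pCore 2 ↥H).Normal := by
      unfold Cfsg.pCore
      exact Subgroup.sSup_normal _ (fun N hN => hN.1)
    rw [hE]
    exact Subgroup.le_normalizer_map H.subtype
      ⟨⟨h, hh⟩, by rw [Subgroup.normalizer_eq_top]; exact Subgroup.mem_top _, rfl⟩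
  set S : Subgroup G := Subgroup.zpowers (y : G) ⊔ E with hSdef
  have hSH : S ≤ H := sup_le (by rw [Subgroup.zpowers_le]; exact y.2) hEH
  have hS : IsPGroup 2 ↥S := by
    refine IsPGroup.to_sup_of_normal_right' ?_ hEp
      ((Subgroup.zpowers_le.mpr y.2).trans hEn)
    obtain ⟨j, hj⟩ := hyp
    have hj' : (y : G) ^ 2 ^ j = 1 := congrArg Subtype.val hj
    obtain ⟨i, -, hi⟩ := (Nat.dvd_prime_pow Nat.prime_two).mp (orderOf_dvd_of_pow_eq_one hj')
    exact IsPGroup.of_card (n := i) (by rw [Nat.card_zpowers, hi])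
  let E' : Subgroup ↥S := E.subgroupOf S
  haveI hE'n : E'.Normal := Subgroup.normal_subgroupOf_of_le_normalizer (hSH.trans hEn)
  let c : ↥S → G ⧸ H → ℤˣ := fun s q => c₀ (s : G) q
  have hc : CfsgLib.CocycleParity.IsCoc c := fun s t q => hc₀ s t q
  let q₀ : G ⧸ H := ((1 : G) : G ⧸ H)
  have hq₀ : ∀ h ∈ H, h • q₀ = q₀ := by
    intro h hh
    change ((h * 1 : G) : G ⧸ H) = _
    rw [QuotientGroup.eq]; simpa using hh
  let B : Finset (G ⧸ H) := Finset.univ.erase q₀
  have hB : ∀ s : ↥S, ∀ q ∈ B, s • q ∈ B := by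
    intro s q hq
    simp only [B, Finset.mem_erase, Finset.mem_univ, and_true] at hq ⊢
    intro h
    apply hq
    have := hq₀ _ (H.inv_mem (hSH s.2))
    rw [← h] at this
    change (s : G)⁻¹ • (s : G) • q = (s : G) • q at this
    rw [inv_smul_smul] at this
    exact this.trans h
  -- the conjugate of `z` belonging to a coset
  have hw : ∀ (q : G ⧸ H) (e : G), e • q = q → e * (q.out * z * q.out⁻¹) = (q.out * z * q.out⁻¹) * e := by
    intro q e he
    have := hzc _ (hfixH e q he)
    calc e * (q.out * z * q.out⁻¹) = q.out * ((q.out⁻¹ * e * q.out) * z) * q.out⁻¹ := by group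
      _ = q.out * (z * (q.out⁻¹ * e * q.out)) * q.out⁻¹ := by rw [this]
      _ = _ := by group
  have hwz : ∀ q ∈ B, q.out * z * q.out⁻¹ ≠ z ∧ q.out * z * q.out⁻¹ ≠ 1 := by
    intro q hq
    simp only [B, Finset.mem_erase, Finset.mem_univ, and_true] at hq
    refine ⟨fun h => hq ?_, fun h => hz1 ?_⟩
    · have hg : q.out ∈ H := Subgroup.mem_centralizer_singleton_iff.mpr (by
        calc q.out * z = q.out * z * q.out⁻¹ * q.out := by group
          _ = z * q.out := by rw [h])
      rw [← QuotientGroup.out_eq' q]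
      exact QuotientGroup.eq.mpr (by simpa using hg)
    · calc z = q.out⁻¹ * (q.out * z * q.out⁻¹) * q.out := by group
        _ = 1 := by rw [h]; group
  have hwE : ∀ q ∈ B, ∀ u, (∀ e ∈ E, e * u = u * e) → u = 1 ∨ u = z := fun q _ u hu =>
    hZmem u (hcent hu) hu
  have hmove : ∀ q ∈ B, ∃ e ∈ E', e • q ≠ q := by
    intro q hq
    by_contra hno
    simp only [not_exists, not_and, not_not] at hno
    rcases hwE q hq _ (fun e he => hw q e (hno ⟨e, le_sup_right (α := Subgroup G) he⟩ he)) with h | h
    · exact (hwz q hq).2 h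
    · exact (hwz q hq).1 h
  have hwnot : ∀ q ∈ B, q.out * z * q.out⁻¹ ∉ E := fun q hq h => (hwz q hq).1 (hnoconj _ h)
  have hzS : ∀ s : ↥S, (s : G) * z = z * (s : G) := fun s => hzc _ (hSH s.2)
  let easy : G ⧸ H → Prop := fun q => z • q = q → c₀ z q = 1
  have heasy : ∀ (s : ↥S) q, easy q → easy (s • q) := by
    intro s q hq hfix
    change z • ((s : G) • q) = (s : G) • q at hfix
    change c₀ z ((s : G) • q) = 1
    have hfix' : z • q = q := by
      rw [← mul_smul, ← hzS s, mul_smul] at hfix
      exact smul_left_cancel _ hfix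
    have h1 := hc₀ z (s : G) q
    rw [← hzS s, hc₀, hfix', hq hfix', mul_one] at h1
    exact mul_eq_right.mp h1.symm
  have hinv : ∀ q, easy q → ∀ i : G, (i = 1 ∨ i = z) → i • q = q → c₀ i q = 1 := by
    intro q hq i hi hfix
    rcases hi with rfl | rfl
    · rw [hval 1 q hfix]
      rw [show (⟨_, hfixH 1 q hfix⟩ : ↥H) = 1 from Subtype.ext (by simp), map_one]
    · exact hq hfix
  -- orbits of `E` have at least three points
  have hthree : ∀ q ∈ B, ∀ q', ∃ e ∈ E', e • q ≠ q ∧ e • q ≠ q' := by
    intro q hq q'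
    by_contra hno
    simp only [not_exists, not_and, not_not] at hno
    obtain ⟨⟨f, hfS⟩, hfE, hfq⟩ := hmove q hq
    change f ∈ E at hfE
    change ¬ f • q = q at hfq
    have htwo : ∀ e ∈ E, ¬ e • q = q → e • q = q' := fun e he hne =>
      hno ⟨e, le_sup_right (α := Subgroup G) he⟩ he hne
    have hsplit : ∀ e ∈ E, e • q = q ∨ (f⁻¹ * e) • q = q := by
      intro e he
      by_cases h : e • q = q
      · exact Or.inl h
      · right; rw [mul_smul, htwo e he h, ← htwo f hfE hfq, inv_smul_smul]
    by_cases hzq : z • q = q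
    swap
    · -- then `E` would be abelian
      have hDc : ∀ a ∈ E, a • q = q → ∀ b ∈ E, b • q = q → a * b = b * a := by
        intro a ha haq b hb hbq
        rcases hab a ha b hb with h | h
        · exact h
        · exfalso; apply hzq
          have h1 : z = a * b * a⁻¹ * b⁻¹ := by rw [h]; group
          have ha' : a⁻¹ • q = q := inv_smul_eq_iff.mpr haq.symm
          have hb' : b⁻¹ • q = q := inv_smul_eq_iff.mpr hbq.symm
          rw [h1, mul_smul, mul_smul, mul_smul, hb', ha', hbq, haq]
      have hsplit' : ∀ e ∈ E, e • q = q ∨ (z * e) • q = q := by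
        intro e he
        by_cases h : e • q = q
        · exact Or.inl h
        · right
          rw [mul_smul, htwo e he h, ← htwo z hzE hzq, ← mul_smul, hzz, one_smul]
      have hEc : ∀ a ∈ E, ∀ b ∈ E, a * b = b * a := by
        intro a ha b hb
        have hzz' : ∀ u ∈ E, z * u = u * z := fun u hu => (hzc u (hEH hu)).symm
        rcases hsplit' a ha with h | h <;> rcases hsplit' b hb with h' | h'
        · exact hDc a ha h b hb h'
        · have := hDc a ha h _ (E.mul_mem hzE hb) h'
          rw [← mul_assoc, ← hzz' a ha, mul_assoc, mul_assoc] at this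
          exact mul_left_cancel this
        · have := hDc _ (E.mul_mem hzE ha) h b hb h'
          rw [← mul_assoc b, ← hzz' b hb, mul_assoc, mul_assoc] at this
          exact mul_left_cancel this
        · have := hDc _ (E.mul_mem hzE ha) h _ (E.mul_mem hzE hb) h'
          calc a * b = (z * z) * (a * b) := by rw [hzz, one_mul]
            _ = z * a * (z * b) := by rw [mul_assoc z a, ← mul_assoc a z, ← hzz' a ha]; group
            _ = z * b * (z * a) := this
            _ = (z * z) * (b * a) := by rw [mul_assoc z b, ← mul_assoc b z, ← hzz' b hb]; group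
            _ = b * a := by rw [hzz, one_mul]
      have : Subgroup.center ↥E = ⊤ := (Subgroup.eq_top_iff' _).mpr fun a =>
        Subgroup.mem_center_iff.mpr fun b => Subtype.ext (hEc b b.2 a a.2)
      rw [this, Subgroup.card_top, hcard] at hZ
      have : 2 ^ 1 < 2 ^ (2 * n + 1) := Nat.pow_lt_pow_right (by norm_num) (by omega)
      omega
    set w := q.out * z * q.out⁻¹ with hwdef
    have hwD : ∀ a ∈ E, a • q = q → a * w = w * a := fun a _ haq => hw q a haq
    have hwH : w ∈ H := Subgroup.mem_centralizer_singleton_iff.mpr (hw q z hzq).symm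
    have hw2 : w * w = 1 := by
      calc w * w = q.out * (z * z) * q.out⁻¹ := by rw [hwdef]; group
        _ = 1 := by rw [hzz]; group
    -- the point stabiliser has index two and a non-central element centralising it
    let D : Subgroup ↥E := MulAction.stabilizer (↥E) q
    have hzD : (⟨z, hzE⟩ : ↥E) ∈ D := hzq
    have hD2 : Nat.card ↥E ≤ 2 * Nat.card D := by
      let g : ↥D × Bool → ↥E := fun p => if p.2 then ⟨f, hfE⟩ * (p.1 : ↥E) else p.1
      have : Function.Surjective g := by
        rintro ⟨e, he⟩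
        rcases hsplit e he with h | h
        · exact ⟨(⟨⟨e, he⟩, h⟩, false), by simp [g]⟩
        · exact ⟨(⟨⟨f⁻¹ * e, E.mul_mem (E.inv_mem hfE) he⟩, h⟩, true), by ext; simp [g]⟩
      have := Nat.card_le_card_of_surjective g this
      rwa [Nat.card_prod, Nat.card_eq_fintype_card (α := Bool), Fintype.card_bool, mul_comm] at this
    have hlt : Nat.card D < Nat.card ↥E := by
      refine lt_of_le_of_ne (Subgroup.card_le_card_group D) fun h => hfq ?_
      have : (⟨f, hfE⟩ : ↥E) ∈ D := by rw [Subgroup.eq_top_of_card_eq D h]; exact Subgroup.mem_top _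
      exact this
    have hmul := hEcount D hzD
    obtain ⟨e₀, he₀E, he₀1, he₀z, he₀D⟩ : ∃ e₀ ∈ E, e₀ ≠ 1 ∧ e₀ ≠ z ∧ ∀ a ∈ E, a • q = q → a * e₀ = e₀ * a := by
      by_contra hcon
      simp only [not_exists, not_and] at hcon
      have hsub : Nat.card (Subgroup.centralizer (D : Set ↥E)) ≤ 2 := by
        rw [Nat.card_eq_fintype_card, Fintype.card_subtype]
        refine (Finset.card_le_card (t := {1, ⟨z, hzE⟩}) ?_).trans Finset.card_le_two
        intro u hu
        simp only [Finset.mem_filter, Finset.mem_univ, true_and] at hu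
        simp only [Finset.mem_insert, Finset.mem_singleton]
        by_contra h
        rw [not_or] at h
        exact hcon u u.2 (fun h' => h.1 (Subtype.ext h')) (fun h' => h.2 (Subtype.ext h')) fun a ha haq =>
          congrArg Subtype.val (Subgroup.mem_centralizer_iff.mp hu ⟨a, ha⟩ haq)
      have : Nat.card (Subgroup.centralizer (D : Set ↥E)) * Nat.card D ≤ 2 * Nat.card D :=
        Nat.mul_le_mul_right _ hsub
      omega
    have hcen : ∀ u, (∀ a ∈ E, a • q = q → a * u = u * a) → f * u = u * f → u = 1 ∨ u = z := by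
      intro u h1 h2
      refine hwE q hq u fun e he => ?_
      rcases hsplit e he with h | h
      · exact h1 e he h
      · have h3 := h1 _ (E.mul_mem (E.inv_mem hfE) he) h
        calc e * u = f * (f⁻¹ * e * u) := by group
          _ = (f * u) * (f⁻¹ * e) := by rw [h3]; group
          _ = u * e := by rw [h2]; group
    have hnf : ¬ f * e₀ = e₀ * f := fun h => (hcen e₀ he₀D h).elim he₀1 he₀z
    have hDn : ∀ a ∈ E, a • q = q → (f * a * f⁻¹) • q = q := by
      intro a ha haq
      rcases hab f hfE a ha with h | h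
      · rw [show f * a * f⁻¹ = a by rw [h]; group]; exact haq
      · rw [show f * a * f⁻¹ = z * a by rw [h]; group, mul_smul, haq, hzq]
    have hwconj : ∀ u ∈ E, w * u * w⁻¹ ∈ E := fun u hu => (Subgroup.mem_normalizer_iff.mp (hEn hwH) u).mp hu
    have hcE : f⁻¹ * (w * f * w⁻¹) ∈ E := E.mul_mem (E.inv_mem hfE) (hwconj f hfE)
    have hcD : ∀ a ∈ E, a • q = q → a * (f⁻¹ * (w * f * w⁻¹)) = f⁻¹ * (w * f * w⁻¹) * a := by
      intro a ha haq
      have h1 := hwD _ (E.mul_mem (E.mul_mem hfE ha) (E.inv_mem hfE)) (hDn a ha haq)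
      have h2 : a * w⁻¹ = w⁻¹ * a := (Commute.inv_right (hwD a ha haq)).eq
      calc a * (f⁻¹ * (w * f * w⁻¹)) = f⁻¹ * ((f * a * f⁻¹) * w) * f * w⁻¹ := by group
        _ = f⁻¹ * w * f * (a * w⁻¹) := by rw [h1]; group
        _ = _ := by rw [h2]; group
    set u := f⁻¹ * (w * f * w⁻¹) with hu
    have huq : u • q = q := by
      by_contra hne
      rcases hsplit u hcE with h | h
      · exact hne h
      · have h1 : u * (f⁻¹ * u) = f⁻¹ * u * u := (hcD _ (E.mul_mem (E.inv_mem hfE) hcE) h).symm
        have h2 : u * f⁻¹ = f⁻¹ * u := by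
          rw [← mul_assoc] at h1; exact mul_right_cancel h1
        have h3 : f * u = u * f := by
          calc f * u = f * (u * f⁻¹) * f := by group
            _ = u * f := by rw [h2]; group
        rcases hcen u hcD h3 with h4 | h4 <;> apply hne
        · rw [h4, one_smul]
        · rw [h4, hzq]
    have h2 : w * f = f * u * w := by rw [hu]; group
    have hu2 : u * u = 1 := by
      have h1 : w * u = u * w := (hwD u hcE huq).symm
      have h3 : w * (w * f) = f * (u * u) * (w * w) := by
        calc w * (w * f) = (w * f) * u * w := by (conv_lhs => rw [h2]); group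
          _ = f * u * (w * u) * w := by rw [h2]; group
          _ = _ := by rw [h1]; group
      rw [← mul_assoc, hw2, one_mul, mul_one] at h3
      exact (mul_eq_left.mp h3.symm)
    have hfz : w * (f * f) = f * f * w := by
      rcases hsq f hfE with h | h <;> rw [h]
      · simp
      · exact hzc w hwH
    have huf : f * u = u * f := by
      have h3 : f * u * f * u = f * f := by
        calc f * u * f * u = (w * f * w⁻¹) * (w * f * w⁻¹) := by rw [hu]; group
          _ = w * (f * f) * w⁻¹ := by group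
          _ = f * f := by rw [hfz]; group
      have h4 : u * f * u = f := mul_left_cancel (a := f) (by rw [← h3]; group)
      calc f * u = (u * f * u) * u := by rw [h4]
        _ = u * f * (u * u) := by group
        _ = u * f := by rw [hu2, mul_one]
    rcases hcen u hcD huf with h | h
    · rcases hcen w hwD (by rw [h2, h, mul_one]) with h4 | h4
      · exact (hwz q hq).2 h4
      · exact (hwz q hq).1 h4
    · have hfe : f * e₀ = z * (e₀ * f) := (hab f hfE e₀ he₀E).resolve_left hnf
      have h5 : f * (e₀⁻¹ * w) = (e₀⁻¹ * w) * f := by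
        calc f * (e₀⁻¹ * w) = e₀⁻¹ * (e₀ * f) * (e₀⁻¹ * w) := by group
          _ = e₀⁻¹ * (z * (f * e₀)) * (e₀⁻¹ * w) := by rw [hfe, ← mul_assoc z z, hzz, one_mul]
          _ = e₀⁻¹ * (z * f) * w := by group
          _ = e₀⁻¹ * (f * u * w) := by rw [h, ← hzc f (hEH hfE)]; group
          _ = _ := by rw [← h2]; group
      have h6 : ∀ a ∈ E, a • q = q → a * (e₀⁻¹ * w) = (e₀⁻¹ * w) * a := fun a ha haq =>
        (Commute.mul_right ((show Commute a e₀ from he₀D a ha haq).inv_right) (hwD a ha haq)).eq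
      apply hwnot q hq
      rw [← hwdef, show w = e₀ * (e₀⁻¹ * w) by group]
      rcases hcen _ h6 h5 with h7 | h7 <;> rw [h7]
      · exact E.mul_mem he₀E E.one_mem
      · exact E.mul_mem he₀E hzE
  -- in the hard case the orbits have more than four points
  have hfive : ∀ q ∈ B, ¬ easy q → ∀ A : Finset (G ⧸ H), A.card ≤ 4 → ∃ e ∈ E', e • q ∉ A := by
    intro q hq hhard A hA
    by_contra hno
    simp only [not_exists, not_and, not_not] at hno
    simp only [easy, Classical.not_imp] at hhard
    obtain ⟨hzq, hzc'⟩ := hhard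
    let D : Subgroup ↥E := MulAction.stabilizer (↥E) q
    have hDc : D ≤ Subgroup.centralizer (D : Set ↥E) := by
      intro a ha
      rw [Subgroup.mem_centralizer_iff]
      intro b hb
      by_contra hne
      apply hzc'
      have hne' : ¬ (b : G) * a = a * b := fun h => hne (Subtype.ext h)
      have h1 : z = (b : G) * a * (b : G)⁻¹ * (a : G)⁻¹ := by
        rw [(hab _ b.2 _ a.2).resolve_left hne']; group
      rw [hval z q hzq]
      rw [show (⟨_, hfixH z q hzq⟩ : ↥H) = ⟨_, hfixH b q hb⟩ * ⟨_, hfixH a q ha⟩ * ⟨_, hfixH b q hb⟩⁻¹ *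
          ⟨_, hfixH a q ha⟩⁻¹ from Subtype.ext (by
            simp only [Subgroup.coe_mul, Subgroup.coe_inv]
            conv_lhs => rw [h1]
            group)]
      simp only [map_mul, map_inv]
      rw [mul_inv_cancel_comm, mul_inv_cancel]
    have hmul := hEcount D hzq
    have hle : Nat.card D ≤ Nat.card (Subgroup.centralizer (D : Set ↥E)) := Subgroup.card_le_of_le hDc
    have hidx : D.index ≤ 4 := by
      rw [Subgroup.index_eq_card, ← Nat.card_congr (MulAction.orbitEquivQuotientStabilizer (↥E) q)]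
      refine le_trans ?_ hA
      rw [← Nat.card_eq_finsetCard]
      exact Nat.card_le_card_of_injective (fun p => (⟨p.1, by
        obtain ⟨e, he⟩ := p.2
        rw [← he]
        exact hno ⟨e, le_sup_right (α := Subgroup G) e.2⟩ e.2⟩ : ↥A))
        (fun p p' h => Subtype.ext (Subtype.mk.inj h))
    have hmi := D.card_mul_index
    have h128 : 2 ^ 7 ≤ Nat.card ↥E := hcard ▸ Nat.pow_le_pow_right (by norm_num) (by omega)
    have h4 : Nat.card ↥E ≤ 4 * Nat.card D := by
      rw [← hmi, mul_comm 4]; exact Nat.mul_le_mul_left _ hidx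
    have hsq' : Nat.card D * Nat.card D ≤ 2 * Nat.card ↥E := (Nat.mul_le_mul_right _ hle).trans hmul.le
    have h8 : Nat.card D ≤ 8 := by
      refine Nat.le_of_mul_le_mul_left ?_ (Nat.card_pos (α := D))
      omega
    omega
  have hG1 : ∏ q ∈ B.filter easy, c ⟨y, le_sup_left (α := Subgroup G) (Subgroup.mem_zpowers (y : G))⟩ q = 1 :=
    CfsgLib.CocycleParity.prod_eq_one_of_three hV hS hc E' _
      (fun s q hq => Finset.mem_filter.mpr ⟨hB s q (Finset.mem_filter.mp hq).1, heasy s q (Finset.mem_filter.mp hq).2⟩)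
      (fun q hq => hthree q (Finset.mem_filter.mp hq).1)
      (fun q hq e he hfix => hinv q (Finset.mem_filter.mp hq).2 _ (hsq _ he) hfix)
      (fun q hq u hu v hv hfix => hinv q (Finset.mem_filter.mp hq).2 _ (hcomm _ hu _ hv) hfix) _
  have hcentral : ∀ i : G, (i = 1 ∨ i = z) → i * i = 1 ∧ ∀ f ∈ E, i * f = f * i := by
    intro i hi
    rcases hi with h | h <;> rw [h]
    · simp
    · exact ⟨hzz, fun f hf => (hzc f (hEH hf)).symm⟩
  have hG2 : ∏ q ∈ B.filter (fun q => ¬ easy q),
      c ⟨y, le_sup_left (α := Subgroup G) (Subgroup.mem_zpowers (y : G))⟩ q = 1 :=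
    CfsgLib.CocycleParity.prod_eq_one_of_five hV hS hc E' _
      (fun s q hq => by
        obtain ⟨h1, h2⟩ := Finset.mem_filter.mp hq
        exact Finset.mem_filter.mpr ⟨hB s q h1, fun h => h2 (by simpa using heasy s⁻¹ _ h)⟩)
      (fun q hq => hfive q (Finset.mem_filter.mp hq).1 (Finset.mem_filter.mp hq).2)
      (fun e he => ⟨Subtype.ext (hcentral _ (hsq _ he)).1, fun f hf => Subtype.ext ((hcentral _ (hsq _ he)).2 _ hf)⟩)
      (fun u hu v hv => ⟨Subtype.ext (hcentral _ (hcomm _ hu _ hv)).1,
        fun f hf => Subtype.ext ((hcentral _ (hcomm _ hu _ hv)).2 _ hf)⟩) _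
  have hall := htot (y : G)
  rw [← Finset.mul_prod_erase Finset.univ _ (Finset.mem_univ q₀)] at hall
  have hrest : ∏ q ∈ B, c₀ (y : G) q = 1 := by
    rw [← Finset.prod_filter_mul_prod_filter_not B easy]
    simp only [c] at hG1 hG2
    rw [hG1, hG2, one_mul]
  rw [hrest, mul_one, hval _ q₀ (hq₀ _ y.2)] at hall
  apply hyχ
  have hout : q₀.out ∈ H := by
    have := QuotientGroup.out_eq' q₀
    rw [QuotientGroup.eq] at this
    simpa using this
  have e : (⟨_, hfixH _ q₀ (hq₀ _ y.2)⟩ : ↥H) = ⟨q₀.out, hout⟩⁻¹ * y * ⟨q₀.out, hout⟩ := Subtype.ext rfl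
  rw [e, map_mul, map_mul, map_inv, mul_comm _ (χ y), mul_assoc, inv_mul_cancel, mul_one] at hall
  exact hall



end Cfsg.Agent.S3300
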