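import Cfsg.Statements.S3301
import Cfsg.Agent.CocycleParity.Basic
-- import your own Cfsg.Agent.* helpers here

set_option autoImplicit false
open Cfsg

namespace Cfsg.Agent.S3301

/-- Let G be a finite group with no nontrivial 2-group quotient (O^2(G) = G), z an involution of G with H = C_G(z), and suppose E = O_2(H) is extraspecial with C_G(E) ≤ E. Then the Sylow 2-subgroups of H/[H, H] are elementary abelian: every element of 2-power order of the abelianization of H has order at most 2. -/
theorem result {G : Type*} [Group G] [Finite G] (hres : Cfsg.pResidual 2 G = ⊤) (z : G) (hz : orderOf z = 2)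
    (E : Subgroup G) (hE : E = (Cfsg.pCore 2 ↥(Subgroup.centralizer ({z} : Set G))).map (Subgroup.centralizer ({z} : Set G)).subtype)
    (hext : Cfsg.IsExtraspecial 2 ↥E) (hcent : Subgroup.centralizer (E : Set G) ≤ E) :
    ∀ q : Abelianization ↥(Subgroup.centralizer ({z} : Set G)), (∃ k : ℕ, orderOf q = 2 ^ k) → q ^ 2 = 1 := by
  classical
  haveI : Fintype G := Fintype.ofFinite G
  haveI : Fact (Nat.Prime 2) := ⟨Nat.prime_two⟩
  set H := Subgroup.centralizer ({z} : Set G) with hH
  intro q₁ hq₁
  obtain ⟨k, hk⟩ := hq₁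
  by_contra hq2
  -- a quotient of exponent two killing the elements squaring to one
  let W : Subgroup (Abelianization ↥H) :=
    (powMonoidHom 2).ker ⊔ (powMonoidHom 2 : Abelianization ↥H →* Abelianization ↥H).range
  have hW : W ≠ ⊤ := by
    intro htop
    let Sq := (powMonoidHom 2 : Abelianization ↥H →* Abelianization ↥H).range
    let sq' : ↥Sq → ↥Sq := fun a => ⟨(a : Abelianization ↥H) ^ 2, (a : Abelianization ↥H), rfl⟩
    have hsurj : Function.Surjective sq' := by
      rintro ⟨_, b, rfl⟩
      have hb : b ∈ W := htop ▸ Subgroup.mem_top b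
      obtain ⟨i, hi, j, ⟨c, rfl⟩, rfl⟩ := Subgroup.mem_sup.mp hb
      refine ⟨⟨c ^ 2, c, rfl⟩, Subtype.ext ?_⟩
      simp only [MonoidHom.mem_ker, powMonoidHom_apply] at hi
      simp only [sq', powMonoidHom_apply, mul_pow, hi, one_mul]
    have hinj := Finite.injective_iff_surjective.mpr hsurj
    rcases k with _ | _ | k
    · rw [pow_zero, orderOf_eq_one_iff] at hk; simp [hk] at hq2
    · apply hq2; rw [← pow_one 2, ← hk]; exact pow_orderOf_eq_one q₁
    · have h1 : q₁ ^ 2 ^ (k + 1) = 1 := by
        have := @hinj ⟨q₁ ^ 2 ^ (k + 1), q₁ ^ 2 ^ k, by rw [powMonoidHom_apply, ← pow_mul, ← pow_succ]⟩ 1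
          (Subtype.ext (by
            simp only [sq', Subgroup.coe_one, one_pow, ← pow_mul, ← pow_succ]
            rw [← hk]; exact pow_orderOf_eq_one q₁))
        exact congrArg Subtype.val this
      have h2 := orderOf_dvd_of_pow_eq_one h1
      rw [hk, Nat.pow_dvd_pow_iff_le_right (by norm_num)] at h2
      omega
  obtain ⟨a₁, ha₁⟩ : ∃ a, a ∉ W := by
    by_contra h; simp only [not_exists, not_not] at h
    exact hW ((Subgroup.eq_top_iff' _).mpr h)
  have hV : ∀ v : Abelianization ↥H ⧸ W, v * v = 1 := by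
    intro v
    induction v using QuotientGroup.induction_on with
    | H a =>
      rw [← QuotientGroup.mk_mul, QuotientGroup.eq_one_iff]
      exact Subgroup.mem_sup_right ⟨a, by rw [powMonoidHom_apply, sq]⟩
  let χ : ↥H →* Abelianization ↥H ⧸ W := (QuotientGroup.mk' W).comp Abelianization.of
  have hker : ∀ h : ↥H, Abelianization.of (h * h) = 1 → χ h = 1 := by
    intro h hh
    change (QuotientGroup.mk' W) (Abelianization.of h) = 1
    rw [← MonoidHom.mem_ker, QuotientGroup.ker_mk']
    exact Subgroup.mem_sup_left (by rw [MonoidHom.mem_ker, powMonoidHom_apply, sq, ← map_mul]; exact hh)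
  obtain ⟨h₁, hh₁⟩ : ∃ h, χ h ≠ 1 := by
    obtain ⟨h, rfl⟩ : ∃ h : ↥H, Abelianization.of h = a₁ := by
      obtain ⟨h, hh⟩ := QuotientGroup.mk_surjective a₁; exact ⟨h, hh⟩
    refine ⟨h, fun hc => ha₁ ?_⟩
    change (QuotientGroup.mk' W) (Abelianization.of h) = 1 at hc
    rwa [← MonoidHom.mem_ker, QuotientGroup.ker_mk'] at hc
  -- a 2-element with non-trivial image
  obtain ⟨m, n₁, hn₁, hn⟩ := Nat.exists_eq_two_pow_mul_odd (orderOf_pos h₁).ne'
  obtain ⟨y, hyp, hyχ⟩ : ∃ y : ↥H, (∃ j, y ^ 2 ^ j = 1) ∧ χ y ≠ 1 := by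
    refine ⟨h₁ ^ n₁, ⟨m, ?_⟩, ?_⟩
    · rw [← pow_mul, mul_comm, ← hn]; exact pow_orderOf_eq_one h₁
    · obtain ⟨i, rfl⟩ := hn₁
      rw [map_pow, pow_succ, pow_mul, sq, hV, one_pow, one_mul]; exact hh₁
  -- facts on `E`
  have hEH : E ≤ H := by rw [hE]; exact Subgroup.map_subtype_le _
  have hz1 : z ≠ 1 := by intro h; rw [h, orderOf_one] at hz; omega
  have hzz : z * z = 1 := by
    have := pow_orderOf_eq_one z; rwa [hz, sq] at this
  have hzc : ∀ h ∈ H, h * z = z * h := fun h hh => Subgroup.mem_centralizer_singleton_iff.mp hh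
  obtain ⟨⟨hEp, hfr, hder⟩, hZ⟩ := hext
  have hzE : z ∈ E := hcent (fun e he => hzc e (hEH he))
  have hZmem : ∀ c ∈ E, (∀ e ∈ E, e * c = c * e) → c = 1 ∨ c = z := by
    intro c hc hcc
    by_contra h
    rw [not_or] at h
    have h3 : ({1, z, c} : Finset G).card = 3 :=
      Finset.card_eq_three.mpr ⟨1, z, c, hz1.symm, Ne.symm h.1, Ne.symm h.2, rfl⟩
    have hsub : ({1, z, c} : Finset G) ⊆ ((Subgroup.center ↥E).map E.subtype : Set G).toFinite.toFinset := by
      intro y hy
      simp only [Finset.mem_insert, Finset.mem_singleton] at hy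
      simp only [Set.Finite.mem_toFinset, SetLike.mem_coe, Subgroup.mem_map]
      rcases hy with h0 | h0 | h0 <;> rw [h0]
      · exact ⟨1, one_mem _, rfl⟩
      · exact ⟨⟨z, hzE⟩, Subgroup.mem_center_iff.mpr fun g => Subtype.ext (hzc g (hEH g.2)), rfl⟩
      · exact ⟨⟨c, hc⟩, Subgroup.mem_center_iff.mpr fun g => Subtype.ext (hcc g g.2), rfl⟩
    have := Finset.card_le_card hsub
    rw [h3, ← Set.ncard_eq_toFinset_card, ← Nat.card_coe_set_eq] at this
    change 3 ≤ Nat.card ((Subgroup.center ↥E).map E.subtype) at this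
    rw [Subgroup.card_map_of_injective E.subtype_injective, hZ] at this
    omega
  have hcomm : ∀ a ∈ E, ∀ b ∈ E, a * b * a⁻¹ * b⁻¹ = 1 ∨ a * b * a⁻¹ * b⁻¹ = z := by
    intro a ha b hb
    have : (⟨a, ha⟩ * ⟨b, hb⟩ * ⟨a, ha⟩⁻¹ * ⟨b, hb⟩⁻¹ : ↥E) ∈ Subgroup.center ↥E := by
      rw [← hder, commutator_def, ← commutatorElement_def]; exact Subgroup.commutator_mem_commutator (Subgroup.mem_top _) (Subgroup.mem_top _)
    refine hZmem _ (E.mul_mem (E.mul_mem (E.mul_mem ha hb) (E.inv_mem ha)) (E.inv_mem hb)) fun e he => ?_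
    exact congrArg Subtype.val (Subgroup.mem_center_iff.mp this ⟨e, he⟩)
  have hab : ∀ a ∈ E, ∀ b ∈ E, a * b = b * a ∨ a * b = z * (b * a) := by
    intro a ha b hb
    rcases hcomm a ha b hb with h | h
    · left
      calc a * b = (a * b * a⁻¹ * b⁻¹) * (b * a) := by group
        _ = b * a := by rw [h, one_mul]
    · right
      calc a * b = (a * b * a⁻¹ * b⁻¹) * (b * a) := by group
        _ = z * (b * a) := by rw [h]
  have hsq : ∀ a ∈ E, a * a = 1 ∨ a * a = z := by
    intro a ha
    refine hZmem _ (E.mul_mem ha ha) fun e he => ?_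
    rcases hab e he a ha with h | h
    · calc e * (a * a) = (e * a) * a := by group
        _ = a * (e * a) := by rw [h, mul_assoc, h]
        _ = a * a * e := by rw [h, ← mul_assoc]
    · have hza := hzc a (hEH ha)
      calc e * (a * a) = (e * a) * a := by group
        _ = z * a * (e * a) := by (conv_lhs => rw [h]); group
        _ = z * (a * z) * a * e := by rw [h]; group
        _ = z * z * a * a * e := by rw [hza]; group
        _ = a * a * e := by rw [hzz, one_mul]
  -- the cocycle
  haveI : Fintype (G ⧸ H) := Fintype.ofFinite _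
  have hmem : ∀ (g : G) (q : G ⧸ H), (g • q).out⁻¹ * g * q.out ∈ H := by
    intro g q
    rw [mul_assoc, ← QuotientGroup.eq, QuotientGroup.out_eq']
    conv_lhs => rw [← QuotientGroup.out_eq' q]
    rfl
  let c₀ : G → G ⧸ H → Abelianization ↥H ⧸ W := fun g q => χ ⟨_, hmem g q⟩
  have hc₀ : ∀ g h q, c₀ (g * h) q = c₀ g (h • q) * c₀ h q := by
    intro g h q
    simp only [c₀, ← map_mul]
    congr 1
    apply Subtype.ext
    simp only [Subgroup.coe_mul, mul_smul]
    group
  have htriv : ∀ f : G →* Abelianization ↥H ⧸ W, f = 1 := by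
    intro f
    have hle : Cfsg.pResidual 2 G ≤ f.ker := by
      rw [Cfsg.pResidual, Subgroup.closure_le]
      intro g hg
      simp only [Set.mem_setOf_eq] at hg
      have h1 : orderOf (f g) ∣ orderOf g := orderOf_map_dvd f g
      have h2 : orderOf (f g) ∣ 2 := orderOf_dvd_of_pow_eq_one (by rw [sq]; exact hV _)
      have := Nat.dvd_gcd h1 h2
      rw [hg] at this
      exact orderOf_eq_one_iff.mp (Nat.dvd_one.mp this)
    rw [hres] at hle
    exact MonoidHom.ext fun g => MonoidHom.mem_ker.mp (hle (Subgroup.mem_top g))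
  have htot : ∀ g, ∏ q : G ⧸ H, c₀ g q = 1 := by
    intro g
    have hmul : ∀ g h, ∏ q : G ⧸ H, c₀ (g * h) q = (∏ q : G ⧸ H, c₀ g q) * ∏ q : G ⧸ H, c₀ h q := by
      intro g h
      simp only [hc₀, Finset.prod_mul_distrib]
      congr 1
      exact Equiv.prod_comp (MulAction.toPerm h) (fun q => c₀ g q)
    exact DFunLike.congr_fun (htriv (MonoidHom.mk' (fun g => ∏ q : G ⧸ H, c₀ g q) hmul)) g
  have hfixH : ∀ (g : G) (q : G ⧸ H), g • q = q → q.out⁻¹ * g * q.out ∈ H := by
    intro g q hg; have := hmem g q; rwa [hg] at this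
  have hval : ∀ (g : G) (q : G ⧸ H) (hg : g • q = q), c₀ g q = χ ⟨_, hfixH g q hg⟩ := by
    intro g q hg
    simp only [c₀]; congr 1; apply Subtype.ext; simp only [hg]
  -- the 2-group
  have hEn : H ≤ Subgroup.normalizer (E : Set G) := by
    intro h hh
    haveI hn' : (Cfsg.pCore 2 ↥H).Normal := by
      unfold Cfsg.pCore
      exact Subgroup.sSup_normal _ (fun N hN => hN.1)
    rw [hE]
    exact Subgroup.le_normalizer_map H.subtype
      ⟨⟨h, hh⟩, by rw [Subgroup.normalizer_eq_top]; exact Subgroup.mem_top _, rfl⟩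
  set S : Subgroup G := Subgroup.zpowers (y : G) ⊔ E with hSdef
  have hSH : S ≤ H := sup_le (by rw [Subgroup.zpowers_le]; exact y.2) hEH
  have hS : IsPGroup 2 ↥S := by
    refine IsPGroup.to_sup_of_normal_right' ?_ hEp
      ((Subgroup.zpowers_le.mpr y.2).trans hEn)
    obtain ⟨j, hj⟩ := hyp
    have hj' : (y : G) ^ 2 ^ j = 1 := congrArg Subtype.val hj
    obtain ⟨i, -, hi⟩ := (Nat.dvd_prime_pow Nat.prime_two).mp (orderOf_dvd_of_pow_eq_one hj')
    exact IsPGroup.of_card (n := i) (by rw [Nat.card_zpowers, hi])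
  let E' : Subgroup ↥S := E.subgroupOf S
  haveI hE'n : E'.Normal := Subgroup.normal_subgroupOf_of_le_normalizer (hSH.trans hEn)
  let c : ↥S → G ⧸ H → Abelianization ↥H ⧸ W := fun s q => c₀ (s : G) q
  have hc : CfsgLib.CocycleParity.IsCoc c := fun s t q => hc₀ s t q
  let q₀ : G ⧸ H := ((1 : G) : G ⧸ H)
  have hq₀ : ∀ h ∈ H, h • q₀ = q₀ := by
    intro h hh
    change ((h * 1 : G) : G ⧸ H) = _
    rw [QuotientGroup.eq]; simpa using hh
  let B : Finset (G ⧸ H) := Finset.univ.erase q₀
  have hB : ∀ s : ↥S, ∀ q ∈ B, s • q ∈ B := by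
    intro s q hq
    simp only [B, Finset.mem_erase, Finset.mem_univ, and_true] at hq ⊢
    intro h
    apply hq
    have := hq₀ _ (H.inv_mem (hSH s.2))
    rw [← h] at this
    change (s : G)⁻¹ • (s : G) • q = (s : G) • q at this
    rw [inv_smul_smul] at this
    exact this.trans h
  -- the conjugate of `z` belonging to a coset
  have hw : ∀ (q : G ⧸ H) (e : G), e • q = q → e * (q.out * z * q.out⁻¹) = (q.out * z * q.out⁻¹) * e := by
    intro q e he
    have := hzc _ (hfixH e q he)
    calc e * (q.out * z * q.out⁻¹) = q.out * ((q.out⁻¹ * e * q.out) * z) * q.out⁻¹ := by group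
      _ = q.out * (z * (q.out⁻¹ * e * q.out)) * q.out⁻¹ := by rw [this]
      _ = _ := by group
  have hwz : ∀ q ∈ B, q.out * z * q.out⁻¹ ≠ z ∧ q.out * z * q.out⁻¹ ≠ 1 := by
    intro q hq
    simp only [B, Finset.mem_erase, Finset.mem_univ, and_true] at hq
    refine ⟨fun h => hq ?_, fun h => hz1 ?_⟩
    · have hg : q.out ∈ H := Subgroup.mem_centralizer_singleton_iff.mpr (by
        calc q.out * z = q.out * z * q.out⁻¹ * q.out := by group
          _ = z * q.out := by rw [h])
      rw [← QuotientGroup.out_eq' q]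
      exact QuotientGroup.eq.mpr (by simpa using hg)
    · calc z = q.out⁻¹ * (q.out * z * q.out⁻¹) * q.out := by group
        _ = 1 := by rw [h]; group
  have hwE : ∀ q ∈ B, ∀ u, (∀ e ∈ E, e * u = u * e) → u = 1 ∨ u = z := fun q _ u hu =>
    hZmem u (hcent hu) hu
  have hmove : ∀ q ∈ B, ∃ e ∈ E', e • q ≠ q := by
    intro q hq
    by_contra hno
    simp only [not_exists, not_and, not_not] at hno
    rcases hwE q hq _ (fun e he => hw q e (hno ⟨e, le_sup_right (α := Subgroup G) he⟩ he)) with h | h
    · exact (hwz q hq).2 h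
    · exact (hwz q hq).1 h
  let good : G ⧸ H → Prop := fun q => ∀ e ∈ E', e • q = q → c e q = 1
  have hgood : ∀ (s : ↥S) q, good q → good (s • q) := by
    intro s q hq e he hfix
    have hfix' : (s⁻¹ * e * s) • q = q := by rw [mul_smul, mul_smul, hfix, inv_smul_smul]
    have h1 := hc e s q
    have h2 := hc s (s⁻¹ * e * s) q
    rw [hfix', hq _ (by simpa using hE'n.conj_mem e he s⁻¹) hfix', mul_one,
      show s * (s⁻¹ * e * s) = e * s by group] at h2
    exact mul_eq_right.mp (h1.symm.trans h2)
  have hinv : ∀ i : G, (i = 1 ∨ i = z) → ∀ q, i • q = q → c₀ i q = 1 := by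
    intro i hi q hq
    rw [hval i q hq]
    apply hker
    rw [show (⟨_, hfixH i q hq⟩ : ↥H) * ⟨_, hfixH i q hq⟩ = 1 from Subtype.ext (by
      simp only [Subgroup.coe_mul, Subgroup.coe_one]
      calc q.out⁻¹ * i * q.out * (q.out⁻¹ * i * q.out) = q.out⁻¹ * (i * i) * q.out := by group
        _ = 1 := by rcases hi with rfl | rfl <;> simp [hzz]), map_one]
  -- in the bad case the orbits of `E` have at least three points
  have hthree : ∀ q ∈ B, ¬ good q → ∀ q', ∃ e ∈ E', e • q ≠ q ∧ e • q ≠ q' := by
    intro q hq hbad q'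
    by_contra hno
    simp only [not_exists, not_and, not_not] at hno
    simp only [good, not_forall] at hbad
    obtain ⟨⟨d, hdS⟩, hdE, hdq, hdc⟩ := hbad
    change d ∈ E at hdE
    change d • q = q at hdq
    change ¬ c₀ d q = 1 at hdc
    obtain ⟨⟨f, hfS⟩, hfE, hfq⟩ := hmove q hq
    change f ∈ E at hfE
    change ¬ f • q = q at hfq
    have htwo : ∀ e ∈ E, ¬ e • q = q → e • q = q' := fun e he hne =>
      hno ⟨e, le_sup_right (α := Subgroup G) he⟩ he hne
    have hd2 : d * d = z := by
      refine (hsq d hdE).resolve_left fun h => hdc ?_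
      rw [hval d q hdq]
      apply hker
      rw [show (⟨_, hfixH d q hdq⟩ : ↥H) * ⟨_, hfixH d q hdq⟩ = 1 from Subtype.ext (by
        simp only [Subgroup.coe_mul, Subgroup.coe_one]
        calc q.out⁻¹ * d * q.out * (q.out⁻¹ * d * q.out) = q.out⁻¹ * (d * d) * q.out := by group
          _ = 1 := by rw [h]; group), map_one]
    -- the point stabilizer is abelian
    have hDc : ∀ a ∈ E, a • q = q → ∀ b ∈ E, b • q = q → a * b = b * a := by
      intro a ha haq b hb hbq
      rcases hcomm a ha b hb with h | h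
      · calc a * b = (a * b * a⁻¹ * b⁻¹) * (b * a) := by group
          _ = b * a := by rw [h, one_mul]
      · exfalso
        apply hdc
        rw [hval d q hdq]
        apply hker
        rw [show (⟨_, hfixH d q hdq⟩ : ↥H) * ⟨_, hfixH d q hdq⟩ =
          ⟨_, hfixH a q haq⟩ * ⟨_, hfixH b q hbq⟩ * ⟨_, hfixH a q haq⟩⁻¹ * ⟨_, hfixH b q hbq⟩⁻¹ from Subtype.ext (by
            simp only [Subgroup.coe_mul, Subgroup.coe_inv]
            calc q.out⁻¹ * d * q.out * (q.out⁻¹ * d * q.out) = q.out⁻¹ * (a * b * a⁻¹ * b⁻¹) * q.out := by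
                  rw [h, ← hd2]; group
              _ = _ := by group)]
        simp only [map_mul, map_inv]
        rw [mul_inv_cancel_comm, mul_inv_cancel]
    have hsplit : ∀ e ∈ E, e • q = q ∨ (f⁻¹ * e) • q = q := by
      intro e he
      by_cases h : e • q = q
      · exact Or.inl h
      · right; rw [mul_smul, htwo e he h, ← htwo f hfE hfq, inv_smul_smul]
    have hcen : ∀ u, (∀ a ∈ E, a • q = q → a * u = u * a) → f * u = u * f → u = 1 ∨ u = z := by
      intro u h1 h2
      refine hwE q hq u fun e he => ?_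
      rcases hsplit e he with h | h
      · exact h1 e he h
      · have h3 := h1 _ (E.mul_mem (E.inv_mem hfE) he) h
        calc e * u = f * (f⁻¹ * e * u) := by group
          _ = (f * u) * (f⁻¹ * e) := by rw [h3]; group
          _ = u * e := by rw [h2]; group
    have hdf : d * f = z * (f * d) := by
      refine (hab d hdE f hfE).resolve_left fun h => ?_
      rcases hcen d (fun a ha haq => hDc a ha haq d hdE hdq) h.symm with h' | h'
      · rw [h', one_mul] at hd2; exact hz1 hd2.symm
      · rw [h', hzz] at hd2; exact hz1 hd2.symm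
    set w := q.out * z * q.out⁻¹ with hwdef
    have hwD : ∀ a ∈ E, a • q = q → a * w = w * a := fun a _ haq => hw q a haq
    have hzq : z • q = q := by rw [← hd2, mul_smul, hdq, hdq]
    have hwH : w ∈ H := Subgroup.mem_centralizer_singleton_iff.mpr (hw q z hzq).symm
    have hw2 : w * w = 1 := by
      calc w * w = q.out * (z * z) * q.out⁻¹ := by rw [hwdef]; group
        _ = 1 := by rw [hzz]; group
    have hwconj : ∀ u ∈ E, w * u * w⁻¹ ∈ E := fun u hu => (Subgroup.mem_normalizer_iff.mp (hEn hwH) u).mp hu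
    have hcE : f⁻¹ * (w * f * w⁻¹) ∈ E := E.mul_mem (E.inv_mem hfE) (hwconj f hfE)
    have hfd : ∀ a ∈ E, a • q = q → (f * a * f⁻¹) • q = q := by
      intro a ha haq
      rw [mul_smul, mul_smul]
      by_cases h : f⁻¹ • q = q
      · exact absurd (inv_smul_eq_iff.mp h).symm hfq
      · have h' := htwo _ (E.inv_mem hfE) h
        have hq'a : a • q' = q' := by
          by_contra hne
          have h4 : a • q' = q := by
            rw [← h', ← mul_smul]
            by_contra h5
            apply hne
            rw [← h', ← mul_smul, htwo _ (E.mul_mem ha (E.inv_mem hfE)) h5, h']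
          apply hfq
          have : q' = q := by rw [← haq] at h4; exact smul_left_cancel a h4
          rw [htwo f hfE hfq, this]
        rw [h', hq'a, ← h', smul_inv_smul]
    have hcD : ∀ a ∈ E, a • q = q → a * (f⁻¹ * (w * f * w⁻¹)) = f⁻¹ * (w * f * w⁻¹) * a := by
      intro a ha haq
      have h1 := hwD _ (E.mul_mem (E.mul_mem hfE ha) (E.inv_mem hfE)) (hfd a ha haq)
      have h2 : a * w⁻¹ = w⁻¹ * a := (Commute.inv_right (hwD a ha haq)).eq
      calc a * (f⁻¹ * (w * f * w⁻¹)) = f⁻¹ * ((f * a * f⁻¹) * w) * f * w⁻¹ := by group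
        _ = f⁻¹ * w * f * (a * w⁻¹) := by rw [h1]; group
        _ = _ := by rw [h2]; group
    set u := f⁻¹ * (w * f * w⁻¹) with hu
    have huq : u • q = q := by
      by_contra hne
      rcases hsplit u hcE with h | h
      · exact hne h
      · have h3 := hDc d hdE hdq _ (E.mul_mem (E.inv_mem hfE) hcE) h
        have h4 := hcD d hdE hdq
        have h5 : d * f⁻¹ = f⁻¹ * d := by
          have : d * f⁻¹ * u = f⁻¹ * d * u := by
            calc d * f⁻¹ * u = d * (f⁻¹ * u) := by group
              _ = f⁻¹ * (u * d) := by rw [h3]; group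
              _ = f⁻¹ * d * u := by rw [← h4]; group
          exact mul_right_cancel this
        have h6 : d * f = f * d := by
          have := (Commute.inv_right (show Commute d f⁻¹ from h5)).eq
          rwa [inv_inv] at this
        rw [hdf] at h6
        exact hz1 (mul_eq_right.mp h6)
    have hu2 : u * u = 1 := by
      have h1 : w * u = u * w := (hwD u hcE huq).symm
      have h2 : w * f = f * u * w := by rw [hu]; group
      have h3 : w * (w * f) = f * (u * u) * (w * w) := by
        calc w * (w * f) = (w * f) * u * w := by (conv_lhs => rw [h2]); group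
          _ = f * u * (w * u) * w := by rw [h2]; group
          _ = _ := by rw [h1]; group
      rw [← mul_assoc, hw2, one_mul, mul_one] at h3
      exact (mul_eq_left.mp h3.symm)
    -- so `u` is central and `w` acts as an inner automorphism
    rcases (hab u hcE f hfE) with huf | huf
    · rcases hcen u (fun a ha haq => hcD a ha haq) huf.symm with h | h
      · have h1 : f * w = w * f := by
          calc f * w = f * u * w := by rw [h, mul_one]
            _ = w * f := by rw [hu]; group
        rcases hcen w hwD h1 with h2 | h2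
        · exact (hwz q hq).2 h2
        · exact (hwz q hq).1 h2
      · have h1 : f * (d⁻¹ * w) = (d⁻¹ * w) * f := by
          calc f * (d⁻¹ * w) = d⁻¹ * (d * f) * d⁻¹ * w := by rw [hdf]; (conv_rhs => rw [show
                d⁻¹ * (z * (f * d)) * d⁻¹ * w = d⁻¹ * z * f * w by group]); (conv_lhs => rw [show
                f * (d⁻¹ * w) = d⁻¹ * (d * f) * d⁻¹ * w by group, hdf]); group
            _ = d⁻¹ * (z * f) * w := by rw [hdf]; group
            _ = d⁻¹ * (f * u * w) := by rw [h, ← hzc f (hEH hfE)]; group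
            _ = (d⁻¹ * w) * f := by rw [hu]; group
        have h2 : ∀ a ∈ E, a • q = q → a * (d⁻¹ * w) = (d⁻¹ * w) * a := fun a ha haq =>
          (Commute.mul_right ((show Commute a d from hDc a ha haq d hdE hdq).inv_right) (hwD a ha haq)).eq
        rcases hcen _ h2 h1 with h3 | h3
        · rw [inv_mul_eq_one] at h3
          rw [← h3, hd2] at hw2
          exact hz1 hw2
        · have h4 : w = d * z := by rw [← h3]; group
          rw [h4] at hw2
          have : d * d * (z * z) = 1 := by
            calc d * d * (z * z) = d * (d * z) * z := by group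
              _ = d * z * (d * z) := by
                rw [show d * z * (d * z) = d * (z * d) * z by group, ← hzc d (hEH hdE)]
              _ = 1 := hw2
          rw [hzz, mul_one, hd2] at this
          exact hz1 this
    · -- `u` has order two and does not commute with `f`
      have h1 : ∀ a ∈ E, a • q = q → a * (u * d) = (u * d) * a := fun a ha haq =>
        (Commute.mul_right (show Commute a u from hcD a ha haq) (show Commute a d from hDc a ha haq d hdE hdq)).eq
      have h2 : f * (u * d) = (u * d) * f := by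
        calc f * (u * d) = (z * z) * (f * u) * d := by rw [hzz]; group
          _ = z * (z * (f * u)) * d := by group
          _ = z * (u * f) * d := by rw [← huf]
          _ = z * u * (f * d) := by group
          _ = u * z * (f * d) := by rw [← hzc u (hEH hcE)]
          _ = _ := by rw [mul_assoc u z, ← hdf, ← mul_assoc]
      rcases hcen _ h1 h2 with h3 | h3
      · rw [mul_eq_one_iff_eq_inv] at h3
        rw [h3, ← mul_inv_rev, hd2, inv_eq_one] at hu2
        exact hz1 hu2
      · rw [← hd2] at h3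
        rw [mul_right_cancel h3, hd2] at hu2
        exact hz1 hu2
  have hG1 : ∏ q ∈ B.filter good, c ⟨y, le_sup_left (α := Subgroup G) (Subgroup.mem_zpowers (y : G))⟩ q = 1 :=
    CfsgLib.CocycleParity.prod_eq_one hV hc E' (hS.to_subgroup E') _
      (fun s q hq => Finset.mem_filter.mpr ⟨hB s q (Finset.mem_filter.mp hq).1, hgood s q (Finset.mem_filter.mp hq).2⟩)
      (fun q hq => hmove q (Finset.mem_filter.mp hq).1) (fun q hq => (Finset.mem_filter.mp hq).2) _
  have hG2 : ∏ q ∈ B.filter (fun q => ¬ good q),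
      c ⟨y, le_sup_left (α := Subgroup G) (Subgroup.mem_zpowers (y : G))⟩ q = 1 :=
    CfsgLib.CocycleParity.prod_eq_one_of_three hV hS hc E' _
      (fun s q hq => by
        obtain ⟨h1, h2⟩ := Finset.mem_filter.mp hq
        exact Finset.mem_filter.mpr ⟨hB s q h1, fun h => h2 (by simpa using hgood s⁻¹ _ h)⟩)
      (fun q hq => hthree q (Finset.mem_filter.mp hq).1 (Finset.mem_filter.mp hq).2)
      (fun q _ e he hfix => hinv _ (hsq _ he) q hfix)
      (fun q _ u hu v hv hfix => hinv _ (hcomm _ hu _ hv) q hfix) _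
  have hall := htot (y : G)
  rw [← Finset.mul_prod_erase Finset.univ _ (Finset.mem_univ q₀)] at hall
  have hrest : ∏ q ∈ B, c₀ (y : G) q = 1 := by
    rw [← Finset.prod_filter_mul_prod_filter_not B good]
    simp only [c] at hG1 hG2
    rw [hG1, hG2, one_mul]
  rw [hrest, mul_one, hval _ q₀ (hq₀ _ y.2)] at hall
  apply hyχ
  have hout : q₀.out ∈ H := by
    have := QuotientGroup.out_eq' q₀
    rw [QuotientGroup.eq] at this
    simpa using this
  have e : (⟨_, hfixH _ q₀ (hq₀ _ y.2)⟩ : ↥H) = ⟨q₀.out, hout⟩⁻¹ * y * ⟨q₀.out, hout⟩ := Subtype.ext rfl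
  rw [e, map_mul, map_mul, map_inv, mul_comm _ (χ y), mul_assoc, inv_mul_cancel, mul_one] at hall
  exact hall


end Cfsg.Agent.S3301
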