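import Cfsg.Statements.S3303
import Cfsg.Agent.SylowMeet.Basic
import Cfsg.Agent.SolvTwoCore.Basic

set_option autoImplicit false
open Cfsg

namespace Cfsg.Agent.S3303

/-- Let G be a finite solvable group in which the intersection of any two distinct Sylow 2-subgroups is cyclic. Then G/O(G) has a normal Sylow 2-subgroup, where O(G) is the largest normal subgroup of odd order. -/
theorem result {G : Type*} [Group G] [Finite G] (hs : Group.IsSolvable G)
    (hC : ∀ S T : Sylow 2 G, S ≠ T → IsCyclic ↥((S : Subgroup G) ⊓ (T : Subgroup G))) :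
    ∃ P : Sylow 2 (G ⧸ Cfsg.oddCore G), (P : Subgroup (G ⧸ Cfsg.oddCore G)).Normal := by
  classical
  haveI : Fact (Nat.Prime 2) := ⟨Nat.prime_two⟩
  haveI := (CfsgLib.SolvTwoCore.pPrimeCore_spec (G := G) 2).1
  haveI : Group.IsSolvable (G ⧸ Cfsg.oddCore G) := inferInstance
  set Q := G ⧸ Cfsg.oddCore G
  obtain ⟨P⟩ := Sylow.nonempty (p := 2) (G := Q)
  by_cases hall : ∀ T : Sylow 2 Q, T = P
  · haveI : Subsingleton (Sylow 2 Q) := ⟨fun a b => (hall a).trans (hall b).symm⟩
    exact ⟨P, Sylow.normal_of_subsingleton P⟩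
  · exfalso
    simp only [not_forall] at hall
    obtain ⟨T, hT⟩ := hall
    obtain ⟨S₀, T₀, X, hne₀, hX, hmap⟩ :=
      CfsgLib.SylowMeet.exists_lift (QuotientGroup.mk' (Cfsg.oddCore G)) (QuotientGroup.mk'_surjective _) P T (Ne.symm hT)
    set F := Cfsg.pCore 2 Q
    haveI hFn : F.Normal := CfsgLib.SolvTwoCore.pCore_normal 2
    have hFp : IsPGroup 2 F := CfsgLib.SolvTwoCore.isPGroup_pCore 2
    have hF : ∀ S : Sylow 2 Q, F ≤ (S : Subgroup Q) := fun S => by
      have := hFp.to_sup_of_normal_left S.isPGroup'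
      exact le_sup_left.trans (le_of_eq (S.3 this le_sup_right))
    haveI := hC S₀ T₀ hne₀
    haveI : IsCyclic X := isCyclic_of_injective (Subgroup.inclusion hX) (Subgroup.inclusion_injective hX)
    haveI : IsCyclic ↥((P : Subgroup Q) ⊓ (T : Subgroup Q)) := by
      rw [← hmap]
      exact isCyclic_of_surjective ((QuotientGroup.mk' (Cfsg.oddCore G)).subgroupMap X) (MonoidHom.subgroupMap_surjective _ X)
    haveI : IsCyclic F := isCyclic_of_injective (Subgroup.inclusion (le_inf (hF P) (hF T)))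
      (Subgroup.inclusion_injective _)
    have hcent := CfsgLib.SolvTwoCore.centralizer_pCore_le (G := Q) (p := 2)
      (CfsgLib.SolvTwoCore.pPrimeCore_quotient_trivial 2 (Cfsg.oddCore G) rfl)
    let φ : Q →* MulAut F := MulAut.conjNormal
    have hker : φ.ker ≤ F := fun x hx => hcent (by
      rw [Subgroup.mem_centralizer_iff]
      intro f hf
      have h1 := congrArg (fun e : MulAut F => ((e ⟨f, hf⟩ : F) : Q)) (MonoidHom.mem_ker.mp hx)
      simp only [φ, MulAut.conjNormal_apply, MulAut.one_apply] at h1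
      calc f * x = x * f * x⁻¹ * x := by rw [h1]
        _ = x * f := by group)
    obtain ⟨k, hk⟩ := IsPGroup.iff_card.mp hFp
    have haut : IsPGroup 2 (MulAut F) := by
      rcases Nat.eq_zero_or_pos k with rfl | hk0
      · exact IsPGroup.of_card (n := 0) (by rw [IsCyclic.card_mulAut, hk]; rfl)
      · exact IsPGroup.of_card (n := k - 1) (by
          rw [IsCyclic.card_mulAut, hk, Nat.totient_prime_pow Nat.prime_two hk0]; simp)
    have hQp : IsPGroup 2 Q := by
      intro x
      obtain ⟨i, hi⟩ := haut (φ x)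
      obtain ⟨j, hj⟩ := hFp ⟨x ^ 2 ^ i, hker (by rw [MonoidHom.mem_ker, map_pow, hi])⟩
      refine ⟨i + j, ?_⟩
      rw [pow_add, pow_mul]
      simpa using congrArg Subtype.val hj
    apply hT
    have htop : IsPGroup 2 (⊤ : Subgroup Q) := hQp.to_subgroup ⊤
    exact Sylow.ext ((T.3 htop le_top).symm.trans (P.3 htop le_top))

end Cfsg.Agent.S3303
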