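import Cfsg.Statements.S3309
import Cfsg.Agent.TransferEval.Basic
import Cfsg.Agent.SylowConj.Basic

set_option autoImplicit false
open Cfsg

namespace Cfsg.Agent.S3309

abbrev D := Multiplicative (ZMod 2) × DihedralGroup 4
abbrev zz : D := (1, DihedralGroup.r 2)
abbrev r1 : D := (1, DihedralGroup.r 1)
abbrev aa : D := (Multiplicative.ofAdd 1, 1)
abbrev az : D := (Multiplicative.ofAdd 1, DihedralGroup.r 2)

/-- representatives of the classes of non-central involutions -/
def p (c k : Bool) : D :=
  (if c then Multiplicative.ofAdd 1 else 1, DihedralGroup.sr (if k then 1 else 0))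

/-- four homomorphisms whose kernels are the maximal subgroups avoiding `aa` -/
def chr (i j : Bool) : D → ℤˣ := fun d =>
  (if d.1 = 1 then 1 else -1) *
    (match d.2 with
      | DihedralGroup.r k => if i then (-1) ^ k.val else 1
      | DihedralGroup.sr k => (if i then (-1) ^ k.val else 1) * (if j then -1 else 1))

set_option synthInstance.maxSize 1000
lemma chr_hom : ∀ i j, ∀ x y : D, chr i j (x * y) = chr i j x * chr i j y := by decide +kernel
lemma chr_aa : ∀ i j, chr i j aa = -1 := by decide +kernel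
lemma chr_az : ∀ i j, chr i j az = -1 := by decide +kernel
lemma squares : ∀ x : D, x * x ≠ 1 → x * x = zz := by decide +kernel
lemma central_cases : ∀ u : D, (∀ d, d * u = u * d) → u = 1 ∨ u = zz ∨ u = aa ∨ u = az := by decide +kernel
lemma comm_zz : ∀ d : D, d * zz = zz * d := by decide +kernel
lemma comm_aa : ∀ d : D, d * aa = aa * d := by decide +kernel
lemma comm_az : ∀ d : D, d * az = az * d := by decide +kernel
lemma comm_one : ∀ d : D, d * 1 = 1 * d := by decide +kernel
lemma inv_cases : ∀ y : D, y * y = 1 → (∀ d, d * y = y * d) ∨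
    ((∃ d : D, d * y * d⁻¹ = y * zz) ∧ ∃ c k, ∃ d : D, d * y * d⁻¹ = p c k) := by decide +kernel
lemma zz_ne : zz ≠ 1 := by decide +kernel
lemma aa_ne : aa ≠ 1 := by decide +kernel
lemma az_ne : az ≠ 1 := by decide +kernel
lemma aa_az : aa ≠ az := by decide +kernel
lemma zz_aa : zz ≠ aa := by decide +kernel
lemma zz_az : zz ≠ az := by decide +kernel
lemma az_eq : az = aa * zz := by decide +kernel
lemma az_zz : az * zz = aa := by decide +kernel
lemma aa_sq : aa * aa = 1 := by decide +kernel
lemma az_sq : az * az = 1 := by decide +kernel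
lemma zz_sq : zz * zz = 1 := by decide +kernel
lemma r1_sq : r1 * r1 = zz := by decide +kernel
lemma p_ne : ∀ c k, p c k ≠ aa := by decide +kernel
lemma key : ∀ A B : Bool → Bool → Bool, (∀ i j, ∃ c k, chr i j (p c k) = 1 ∧ A c k = true) →
    (∀ i j, ∃ c k, chr i j (p c k) = 1 ∧ B c k = true) → (∀ c k, ¬(A c k = true ∧ B c k = true)) →
    (∀ c k, A c k = true ∨ B c k = true) := by decide +kernel

theorem main {G : Type*} [Group G] [Finite G] (S : Sylow 2 G) (ι : D →* G) (hι : Function.Injective ι)
    (hr : ι.range = (S : Subgroup G)) (hG1 : ∀ f : G →* ℤˣ, f = 1) : False := by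
  classical
  haveI : Fact (Nat.Prime 2) := ⟨Nat.prime_two⟩
  have hmemS : ∀ d, ι d ∈ (S : Subgroup G) := fun d => hr.le ⟨d, rfl⟩
  have hdconj : ∀ d y : D, IsConj (ι y) (ι (d * y * d⁻¹)) := fun d x => isConj_iff.mpr ⟨ι d, by simp⟩
  have hne1 : ∀ {u y : D}, IsConj (ι u) (ι y) → u ≠ 1 → y ≠ 1 := by
    intro u y h hu hy
    rw [hy, map_one, isConj_one_left] at h
    exact hu (hι (h.trans (map_one ι).symm))
  have hinv : ∀ {u y : D}, IsConj (ι u) (ι y) → u * u = 1 → y * y = 1 := by
    intro u y h hu
    obtain ⟨g, hg⟩ := isConj_iff.mp h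
    apply hι
    rw [map_mul, map_one, ← hg, show g * ι u * g⁻¹ * (g * ι u * g⁻¹) = g * (ι u * ι u) * g⁻¹ by group, ← map_mul,
      hu, map_one]
    group
  -- Burnside: the central elements are pairwise non-conjugate
  have hcen : ∀ u v : D, (∀ d, d * u = u * d) → (∀ d, d * v = v * d) → IsConj (ι u) (ι v) → u = v := by
    intro u v hu hv huv
    have hc : ∀ d : D, (∀ x, x * d = d * x) → ι d ∈ Subgroup.centralizer ((S : Subgroup G) : Set G) := by
      intro d hd
      rw [Subgroup.mem_centralizer_iff]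
      intro y hy
      obtain ⟨x, rfl⟩ := hr.ge hy
      rw [← map_mul, ← map_mul, hd x]
    obtain ⟨g, hg⟩ := isConj_iff.mp huv
    have hgu : g⁻¹ * ι v * g = ι u := by rw [← hg]; group
    obtain ⟨n, hn, hgn⟩ :=
      Sylow.conj_eq_normalizer_conj_of_mem_centralizer S (ι v) g (hc v hv) (hgu ▸ hc u hu)
    have hnu : n⁻¹ * ι v * n = ι u := by rw [← hgn, hgu]
    have hmem : ∀ d, n * ι d * n⁻¹ ∈ ι.range := fun d => by
      rw [hr]; exact (Subgroup.mem_normalizer_iff.mp hn (ι d)).mp (hmemS d)
    choose α hα using hmem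
    have hmul : ∀ x y, α (x * y) = α x * α y := fun x y => hι (by rw [map_mul, hα, hα, hα, map_mul]; group)
    have hinj : Function.Injective α := fun x y h => hι (by
      have := congrArg ι h
      rw [hα, hα] at this
      exact mul_left_cancel (mul_right_cancel this))
    have hα1 : α 1 = 1 := hι (by rw [hα, map_one]; group)
    have hαz : α zz = zz := by
      have h1 : α zz = α r1 * α r1 := by rw [← hmul]; rfl
      rw [h1]
      apply squares
      rw [← h1, ← hα1]
      exact fun h => zz_ne (hinj h)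
    have hcent' : ∀ x, (∀ d, d * x = x * d) → ∀ d, d * α x = α x * d := by
      intro x hx d
      obtain ⟨d', rfl⟩ := Finite.surjective_of_injective hinj d
      rw [← hmul, ← hmul, hx d']
    have hαa : α aa = aa := by
      rcases central_cases _ (hcent' aa comm_aa) with h | h | h | h
      · exact absurd (hinj (h.trans hα1.symm)) aa_ne
      · exact absurd (hinj (h.trans hαz.symm)) zz_aa.symm
      · exact h
      · -- swapped by an element normalising the Sylow subgroup
        exfalso
        have h2 : α (α aa) = aa := by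
          rw [h, az_eq, hmul, h, hαz, az_zz]
        have c1 : Commute (n ^ 2) (ι aa) := by
          refine mul_inv_eq_iff_eq_mul.mp ?_
          calc n ^ 2 * ι aa * (n ^ 2)⁻¹ = n * (n * ι aa * n⁻¹) * n⁻¹ := by rw [pow_two, mul_inv_rev]; group
            _ = ι aa := by rw [← hα, ← hα, h2]
        obtain ⟨k, m, hm, hkm⟩ := Nat.exists_eq_two_pow_mul_odd (orderOf_pos n).ne'
        have c2 : Commute (n ^ m) (ι aa) := by
          have hnS : n ^ m ∈ (S : Subgroup G) := by
            refine CfsgLib.SylowConj.mem_of_mem_normalizer S (n ^ m) (Subgroup.pow_mem _ hn m) ?_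
            have hd : orderOf (n ^ m) ∣ 2 ^ k := orderOf_dvd_of_pow_eq_one (by
              rw [← pow_mul, mul_comm, ← hkm, pow_orderOf_eq_one])
            obtain ⟨i, -, hi⟩ := (Nat.dvd_prime_pow Nat.prime_two).mp hd
            exact IsPGroup.of_card (n := i) (by rw [Nat.card_zpowers, hi])
          obtain ⟨d, hd⟩ := hr.ge hnS
          rw [← hd, commute_iff_eq, ← map_mul, ← map_mul, comm_aa d]
        obtain ⟨j, rfl⟩ := hm
        have c3 : Commute n (ι aa) := by
          have e : n = ((n ^ 2) ^ j)⁻¹ * n ^ (2 * j + 1) := by rw [← pow_mul, pow_succ, inv_mul_cancel_left]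
          rw [e]; exact ((c1.pow_left j).inv_left).mul_left c2
        have : α aa = aa := hι (by rw [hα, c3.eq, mul_inv_cancel_right])
        exact absurd (h.symm.trans this) aa_az.symm
    have hfix : α u = u := by
      rcases central_cases u hu with rfl | rfl | rfl | rfl
      · exact hα1
      · exact hαz
      · exact hαa
      · rw [az_eq, hmul, hαa, hαz]
    exact hfix.symm.trans (hι (by rw [hα, ← hnu]; group))
  -- a non-central conjugate, inside each maximal subgroup, of `aa` and of `az`
  have hit : ∀ u : D, (∀ d, d * u = u * d) → u * u = 1 → u ≠ 1 → (∀ i j, chr i j u = -1) →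
      ∀ i j, ∃ c k, chr i j (p c k) = 1 ∧ IsConj (ι u) (ι (p c k)) := by
    intro u hu hu2 hu1 hneg i j
    let χ : D →* ℤˣ := MonoidHom.mk' (chr i j) (chr_hom i j)
    have hχu : χ u = -1 := hneg i j
    have hM : (χ.ker.map ι).relIndex (S : Subgroup G) = 2 := by
      rw [← hr, MonoidHom.range_eq_map, Subgroup.relIndex_map_map_of_injective _ _ hι, Subgroup.relIndex_top_right,
        Subgroup.index_eq_two_iff]
      refine ⟨u, fun b => ?_⟩
      simp only [MonoidHom.mem_ker, map_mul, hχu, xor_def]
      rcases Int.units_eq_one_or (χ b) with h | h <;> simp [h]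
    obtain ⟨g, y, hy, hyu⟩ := CfsgLib.TransferEval.thompson_transfer hG1 S hM (hmemS u)
      (by rw [sq, ← map_mul, hu2, map_one])
    have huy : IsConj (ι u) (ι y) := isConj_iff.mpr ⟨g⁻¹, by rw [hyu, inv_inv]⟩
    have hyk : χ y = 1 := hy
    rcases inv_cases y (hinv huy hu2) with hc | ⟨-, c, k, d, hd⟩
    · have := hcen u y hu hc huy
      rw [← this, hχu] at hyk
      exact absurd hyk (by decide)
    · refine ⟨c, k, ?_, hd ▸ huy.trans (hdconj d y)⟩
      have : χ (d * y * d⁻¹) = 1 := by simp [hyk]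
      rw [hd] at this
      exact this
  have hdisj : ∀ x : D, IsConj (ι aa) (ι x) → IsConj (ι az) (ι x) → False := fun x h1 h2 =>
    absurd (hcen aa az comm_aa comm_az (h1.trans h2.symm)) aa_az
  have hall : ∀ c k, IsConj (ι aa) (ι (p c k)) ∨ IsConj (ι az) (ι (p c k)) := by
    intro c k
    have := key (fun c k => decide (IsConj (ι aa) (ι (p c k)))) (fun c k => decide (IsConj (ι az) (ι (p c k))))
      (fun i j => by
        obtain ⟨c, k, h1, h2⟩ := hit aa comm_aa aa_sq aa_ne chr_aa i j
        exact ⟨c, k, h1, decide_eq_true h2⟩)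
      (fun i j => by
        obtain ⟨c, k, h1, h2⟩ := hit az comm_az az_sq az_ne chr_az i j
        exact ⟨c, k, h1, decide_eq_true h2⟩)
      (fun c k h => hdisj _ (of_decide_eq_true h.1) (of_decide_eq_true h.2)) c k
    simpa using this
  -- `zz` is isolated in the Sylow subgroup
  have hz : ∀ y : D, IsConj (ι zz) (ι y) → y = zz := by
    intro y hy
    rcases inv_cases y (hinv hy zz_sq) with hc | ⟨-, c, k, d, hd⟩
    · exact (hcen zz y comm_zz hc hy).symm
    · exfalso
      have hzp : IsConj (ι zz) (ι (p c k)) := hd ▸ hy.trans (hdconj d y)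
      rcases hall c k with h | h
      · exact absurd (hcen zz aa comm_zz comm_aa (hzp.trans h.symm)) zz_aa
      · exact absurd (hcen zz az comm_zz comm_az (hzp.trans h.symm)) zz_az
  obtain ⟨c, k, -, hak⟩ := hit aa comm_aa aa_sq aa_ne chr_aa false false
  obtain ⟨g, hg⟩ := isConj_iff.mp hak.symm
  set C := Subgroup.centralizer ({ι aa} : Set G)
  let V : Subgroup G := Subgroup.closure {g * ι zz * g⁻¹, g * ι aa * g⁻¹}
  have hcm : ∀ u : D, (∀ d, d * u = u * d) → g * ι u * g⁻¹ ∈ C := by
    intro u hu
    apply Subgroup.mem_centralizer_singleton_iff.mpr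
    rw [← hg, show g * ι u * g⁻¹ * (g * ι (p c k) * g⁻¹) = g * (ι u * ι (p c k)) * g⁻¹ by group, ← map_mul,
      ← hu, map_mul]
    group
  have hVC : V ≤ C := by
    rw [Subgroup.closure_le]
    rintro x (rfl | rfl)
    · exact hcm zz comm_zz
    · exact hcm aa comm_aa
  have hVp : IsPGroup 2 V := by
    refine (S.isPGroup'.map (MulAut.conj g).toMonoidHom).to_le ?_
    rw [Subgroup.closure_le]
    rintro x (rfl | rfl)
    · exact ⟨ι zz, hmemS zz, rfl⟩
    · exact ⟨ι aa, hmemS aa, rfl⟩
  have hSC : (S : Subgroup G) ≤ C := by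
    intro x hx
    obtain ⟨d, rfl⟩ := hr.ge hx
    apply Subgroup.mem_centralizer_singleton_iff.mpr
    rw [← map_mul, ← map_mul, comm_aa d]
  obtain ⟨h, hh, hconj⟩ := CfsgLib.SylowConj.exists_conj_mem C S hSC V hVp hVC
  obtain ⟨w, hw⟩ := hr.ge (hconj _ (Subgroup.subset_closure (Set.mem_insert _ _)))
  obtain ⟨y, hy⟩ := hr.ge (hconj _ (Subgroup.subset_closure (Set.mem_insert_of_mem _ rfl)))
  have hwz : w = zz := hz w (isConj_iff.mpr ⟨h * g, by rw [hw]; group⟩)
  rw [hwz] at hw
  have hyA : IsConj (ι aa) (ι y) := isConj_iff.mpr ⟨h * g, by rw [hy]; group⟩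
  have hyB : IsConj (ι az) (ι (y * zz)) := isConj_iff.mpr ⟨h * g, by
    rw [map_mul, hy, hw, az_eq, map_mul]; group⟩
  have hpa : h * (g * ι (p c k) * g⁻¹) * h⁻¹ = ι aa := by
    rw [hg, Subgroup.mem_centralizer_singleton_iff.mp hh, mul_inv_cancel_right]
  rcases inv_cases y (hinv hyA aa_sq) with hc | ⟨⟨d, hd⟩, -⟩
  · have := hcen aa y comm_aa hc hyA
    rw [← this] at hy
    apply p_ne c k
    apply hι
    calc ι (p c k) = g⁻¹ * (h⁻¹ * (h * (g * ι (p c k) * g⁻¹) * h⁻¹) * h) * g := by group
      _ = g⁻¹ * (h⁻¹ * (h * (g * ι aa * g⁻¹) * h⁻¹) * h) * g := by rw [hpa, ← hy]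
      _ = ι aa := by group
  · exact hdisj (y * zz) (hd ▸ hyA.trans (hdconj d y)) hyB

/-- A finite group whose Sylow 2-subgroups are isomorphic to the direct product of a group of order 2 and the dihedral group of order 8 is not a non-abelian simple group. -/
theorem result {G : Type*} [Group G] [Finite G] (S : Sylow 2 G) (hS : Nonempty (↥(S : Subgroup G) ≃* Multiplicative (ZMod 2) × DihedralGroup 4))
    [IsSimpleGroup G] (hG : ¬ IsMulCommutative G) : False := by
  classical
  obtain ⟨e⟩ := hS
  let ι : D →* G := (S : Subgroup G).subtype.comp e.symm.toMonoidHom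
  have hι : Function.Injective ι := Subtype.val_injective.comp e.symm.injective
  have hr : ι.range = (S : Subgroup G) := by
    ext g; constructor
    · rintro ⟨d, rfl⟩; exact (e.symm d).2
    · intro hg; exact ⟨e ⟨g, hg⟩, by simp [ι]⟩
  have hG1 : ∀ f : G →* ℤˣ, f = 1 := by
    intro f
    rcases (Subgroup.Normal.eq_bot_or_eq_top (H := f.ker) inferInstance) with h | h
    · exfalso; apply hG
      refine ⟨⟨fun a b => ?_⟩⟩
      exact ((MonoidHom.ker_eq_bot_iff f).mp h) (by rw [map_mul, map_mul, mul_comm])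
    · refine MonoidHom.ext fun g => ?_
      have hg : g ∈ f.ker := h ▸ Subgroup.mem_top g
      exact MonoidHom.mem_ker.mp hg
  exact main S ι hι hr hG1

end Cfsg.Agent.S3309
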