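import Cfsg.Statements.S3335
import Mathlib
import Cfsg.Agent.SymPresent.Cosets
import Cfsg.Agent.SymPresent.Perm
-- import your own Cfsg.Agent.* helpers here

set_option autoImplicit false
open Cfsg

namespace Cfsg.Agent.S3335

open CfsgLib.SymPresent

theorem braid_of_pow {G : Type*} [Group G] {a b : G} (ha : a * a = 1) (hb : b * b = 1) (h : (a * b) ^ 3 = 1) :
    a * b * a = b * a * b := by
  rw [pow_three] at h
  have e' : a * b * a * (b * a * b) = 1 := by rw [← h]; simp only [mul_assoc]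
  rw [eq_inv_of_mul_eq_one_left e', mul_inv_rev, mul_inv_rev, inv_eq_of_mul_eq_one_right ha,
    inv_eq_of_mul_eq_one_right hb, mul_assoc]

theorem comm_of_pow {G : Type*} [Group G] {a b : G} (ha : a * a = 1) (hb : b * b = 1) (h : (a * b) ^ 2 = 1) :
    Commute a b := by
  rw [pow_two] at h
  show a * b = b * a
  rw [eq_inv_of_mul_eq_one_left h, mul_inv_rev, inv_eq_of_mul_eq_one_right ha, inv_eq_of_mul_eq_one_right hb]

/-- The image of the `i`-th Carmichael generator. -/
def gen (n i : ℕ) : Equiv.Perm (Fin n) := adj n 0 * adj n (i + 1)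

theorem gen_zero_pow {n : ℕ} (hn : 3 ≤ n) : gen n 0 ^ 3 = 1 := adj_braid (by omega)

theorem gen_sq {n i : ℕ} (hi : 1 ≤ i) : gen n i ^ 2 = 1 := by
  rw [gen, (adj_comm (n := n) (i := 0) (j := i + 1) (by omega)).mul_pow, pow_two, pow_two, adj_sq, adj_sq, mul_one]

theorem gen_mul_succ {n i : ℕ} (hi : 1 ≤ i) (h : i + 3 < n) : (gen n i * gen n (i + 1)) ^ 3 = 1 := by
  rw [gen, gen, (adj_comm (n := n) (i := 0) (j := i + 1) (by omega)).eq, mul_assoc, ← mul_assoc (adj n 0),
    adj_sq, one_mul]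
  exact adj_braid h

theorem gen_zero_one {n : ℕ} (h : 3 < n) : (gen n 0 * gen n 1) ^ 3 = 1 := by
  have e : gen n 0 * gen n 1 =
      Equiv.swap (⟨0, by omega⟩ : Fin n) ⟨2, by omega⟩ * Equiv.swap ⟨2, by omega⟩ ⟨3, h⟩ := by
    rw [gen, gen, ← mul_assoc]
    congr 1
    · rw [adj_of_lt (by omega : 0 + 1 < n), adj_of_lt (by omega : 0 + 1 + 1 < n)]
      refine Equiv.ext fun x => ?_
      simp only [Equiv.Perm.mul_apply, Equiv.swap_apply_def]
      split_ifs <;> simp_all [Fin.ext_iff]
    · exact adj_of_lt h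
  rw [e, Equiv.swap_comm (⟨0, _⟩ : Fin n)]
  have h3 := Equiv.Perm.isThreeCycle_swap_mul_swap_same (a := (⟨2, by omega⟩ : Fin n)) (b := ⟨0, by omega⟩)
    (c := ⟨3, by omega⟩) (by simp [Fin.ext_iff]) (by simp [Fin.ext_iff]) (by simp [Fin.ext_iff])
  have h4 := pow_orderOf_eq_one (Equiv.swap (⟨2, by omega⟩ : Fin n) ⟨0, by omega⟩ * Equiv.swap ⟨2, by omega⟩ ⟨3, h⟩)
  rwa [h3.orderOf] at h4

theorem gen_mul_far {n i j : ℕ} (h : i + 1 < j) (hn : j + 2 < n) : (gen n i * gen n j) ^ 2 = 1 := by
  rcases Nat.eq_zero_or_pos i with rfl | hi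
  · have e : gen n 0 * gen n j = (adj n 0 * adj n 1 * adj n 0) * adj n (j + 1) := by
      simp only [gen, mul_assoc]
    have hc : Commute (adj n 0 * adj n 1 * adj n 0) (adj n (j + 1)) :=
      ((adj_comm (by omega)).mul_left (adj_comm (by omega))).mul_left (adj_comm (by omega))
    rw [e, hc.mul_pow, pow_two, pow_two, adj_sq, mul_one,
      show adj n 0 * adj n 1 * adj n 0 * (adj n 0 * adj n 1 * adj n 0) =
        adj n 0 * adj n 1 * (adj n 0 * adj n 0) * (adj n 1 * adj n 0) by simp only [mul_assoc],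
      adj_sq, mul_one, mul_assoc, ← mul_assoc (adj n 1), adj_sq, one_mul, adj_sq]
  · rw [gen, gen, (adj_comm (n := n) (i := 0) (j := i + 1) (by omega)).eq, mul_assoc, ← mul_assoc (adj n 0),
      adj_sq, one_mul, (adj_comm (n := n) (i := i + 1) (j := j + 1) (by omega)).mul_pow, pow_two, pow_two,
      adj_sq, adj_sq, mul_one]

/-- A presentation of the alternating group of degree n ≥ 3 on generators x_1, …, x_{n−2} (indexed here by 0, …, n−3): the first generator cubes to 1, every other generator squares to 1, the product of two consecutive generators has order dividing 3, and the product of two generators at distance at least 2 has order dividing 2. The group so presented is isomorphic to the alternating group of degree n. -/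
theorem result (n : ℕ) (hn : 3 ≤ n) :
    Nonempty (PresentedGroup
      ({g : FreeGroup (Fin (n - 2)) | ∃ i : Fin (n - 2), i.val = 0 ∧ g = FreeGroup.of i ^ 3} ∪
       {g | ∃ i : Fin (n - 2), 1 ≤ i.val ∧ g = FreeGroup.of i ^ 2} ∪
       {g | ∃ i j : Fin (n - 2), j.val = i.val + 1 ∧ g = (FreeGroup.of i * FreeGroup.of j) ^ 3} ∪
       {g | ∃ i j : Fin (n - 2), i.val + 1 < j.val ∧ g = (FreeGroup.of i * FreeGroup.of j) ^ 2})
      ≃* alternatingGroup (Fin n)) := by
  classical
  set rels : Set (FreeGroup (Fin (n - 2))) :=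
    ({g : FreeGroup (Fin (n - 2)) | ∃ i : Fin (n - 2), i.val = 0 ∧ g = FreeGroup.of i ^ 3} ∪
       {g | ∃ i : Fin (n - 2), 1 ≤ i.val ∧ g = FreeGroup.of i ^ 2} ∪
       {g | ∃ i j : Fin (n - 2), j.val = i.val + 1 ∧ g = (FreeGroup.of i * FreeGroup.of j) ^ 3} ∪
       {g | ∃ i j : Fin (n - 2), i.val + 1 < j.val ∧ g = (FreeGroup.of i * FreeGroup.of j) ^ 2}) with hrels
  let a : ℕ → PresentedGroup rels := fun i => if h : i < n - 2 then PresentedGroup.of ⟨i, h⟩ else 1
  have ha : ∀ i (h : i < n - 2), a i = PresentedGroup.of ⟨i, h⟩ := fun i h => dif_pos h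
  have hone : ∀ r ∈ rels, PresentedGroup.mk rels r = 1 := fun r hr =>
    (QuotientGroup.eq_one_iff _).mpr (Subgroup.subset_normalClosure hr)
  have h3 : 0 < n - 2 → a 0 ^ 3 = 1 := fun h => by
    rw [ha 0 h, PresentedGroup.of, ← map_pow]
    exact hone _ (Or.inl (Or.inl (Or.inl ⟨_, rfl, rfl⟩)))
  have h2 : ∀ i, 1 ≤ i → i < n - 2 → a i * a i = 1 := fun i h1 h => by
    rw [ha i h, PresentedGroup.of, ← pow_two, ← map_pow]
    exact hone _ (Or.inl (Or.inl (Or.inr ⟨_, h1, rfl⟩)))
  have hb3 : ∀ i, i + 1 < n - 2 → (a i * a (i + 1)) ^ 3 = 1 := fun i h => by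
    rw [ha i (by omega), ha (i + 1) h, PresentedGroup.of, PresentedGroup.of, ← map_mul, ← map_pow]
    exact hone _ (Or.inl (Or.inr ⟨_, _, rfl, rfl⟩))
  have hc2 : ∀ i j, i + 1 < j → j < n - 2 → (a i * a j) ^ 2 = 1 := fun i j h hj => by
    rw [ha i (by omega), ha j hj, PresentedGroup.of, PresentedGroup.of, ← map_mul, ← map_pow]
    exact hone _ (Or.inr ⟨_, _, h, rfl⟩)
  have hb : Braid a 1 (n - 2) :=
    ⟨h2, fun i h1 h => braid_of_pow (h2 i h1 (by omega)) (h2 (i + 1) (by omega) h) (hb3 i h),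
      fun i j h1 h hj => comm_of_pow (h2 i h1 (by omega)) (h2 j (by omega) hj) (hc2 i j h hj)⟩
  have h0j : ∀ j, 1 < j → j < n - 2 → a 0 * a j = a j * (a 0)⁻¹ := fun j h hj => by
    have e := hc2 0 j h hj
    rw [pow_two] at e
    rw [eq_inv_of_mul_eq_one_left e, mul_inv_rev, inv_eq_of_mul_eq_one_right (h2 j (by omega) hj)]
  obtain ⟨hfin, hcard⟩ := card_closure_alt (n - 2) hb h3 (fun h => hb3 0 h) h0j
  have htop : Subgroup.closure (a '' Set.Iio (n - 2)) = ⊤ := by
    rw [eq_top_iff, ← PresentedGroup.closure_range_of, Subgroup.closure_le]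
    rintro _ ⟨i, rfl⟩
    exact Subgroup.subset_closure ⟨i, i.2, ha i i.2⟩
  rw [htop] at hfin hcard
  rw [Subgroup.card_top, show n - 2 + 2 = n by omega] at hcard
  haveI : Finite (PresentedGroup rels) := Set.finite_univ_iff.1 (by simpa using hfin)
  have hmem : ∀ i : Fin (n - 2), gen n i ∈ alternatingGroup (Fin n) := fun i => by
    rw [Equiv.Perm.mem_alternatingGroup, gen, map_mul, sign_adj (by omega), sign_adj (by omega)]
    rfl
  let f : Fin (n - 2) → alternatingGroup (Fin n) := fun i => ⟨gen n i, hmem i⟩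
  have hf : ∀ r ∈ rels, FreeGroup.lift f r = 1 := by
    rintro r (((⟨i, hi, rfl⟩ | ⟨i, hi, rfl⟩) | ⟨i, j, hij, rfl⟩) | ⟨i, j, hij, rfl⟩) <;>
      refine Subtype.ext ?_ <;>
      simp only [map_pow, map_mul, FreeGroup.lift_apply_of, SubgroupClass.coe_pow, Subgroup.coe_mul, OneMemClass.coe_one, f]
    · rw [hi]; exact gen_zero_pow hn
    · exact gen_sq hi
    · have := j.2
      rw [hij]
      rcases Nat.eq_zero_or_pos (i : ℕ) with h | h
      · rw [h]; exact gen_zero_one (by omega)
      · exact gen_mul_succ h (by omega)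
    · have := j.2
      exact gen_mul_far hij (by omega)
  let φ : PresentedGroup rels →* alternatingGroup (Fin n) := PresentedGroup.toGroup hf
  let R : Subgroup (Equiv.Perm (Fin n)) := ((alternatingGroup (Fin n)).subtype.comp φ).range
  have hR : ∀ i, i + 1 < n → adj n 0 * adj n i ∈ R := fun i hi => by
    rcases Nat.eq_zero_or_pos i with rfl | h
    · rw [adj_sq]; exact one_mem _
    · obtain ⟨k, rfl⟩ : ∃ k, i = k + 1 := ⟨i - 1, by omega⟩
      refine ⟨PresentedGroup.of ⟨k, by omega⟩, ?_⟩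
      show ((φ (PresentedGroup.of ⟨k, by omega⟩) : alternatingGroup (Fin n)) : Equiv.Perm (Fin n)) = _
      simp only [φ, PresentedGroup.toGroup.of]
      rfl
  have hleA : R ≤ alternatingGroup (Fin n) := by
    rintro _ ⟨x, rfl⟩
    exact (φ x).2
  have hnorm : ∀ r ∈ R, adj n 0 * r * adj n 0 ∈ R := by
    rintro _ ⟨x, rfl⟩
    have hx : x ∈ Subgroup.closure (Set.range (PresentedGroup.of (rels := rels))) := by
      rw [PresentedGroup.closure_range_of]; trivial
    induction hx using Subgroup.closure_induction with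
    | mem y hy =>
      obtain ⟨i, rfl⟩ := hy
      show adj n 0 * ((φ (PresentedGroup.of i) : alternatingGroup (Fin n)) : Equiv.Perm (Fin n)) * adj n 0 ∈ R
      simp only [φ, PresentedGroup.toGroup.of]
      show adj n 0 * (adj n 0 * adj n (i + 1)) * adj n 0 ∈ R
      rw [← mul_assoc (adj n 0), adj_sq, one_mul]
      have := R.inv_mem (hR (i + 1) (by omega))
      rwa [mul_inv_rev, adj_inv, adj_inv] at this
    | one => rw [map_one, mul_one, adj_sq]; exact one_mem _
    | mul y z _ _ hy hz =>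
      have := R.mul_mem hy hz
      rw [map_mul]
      convert this using 1
      simp only [mul_assoc]
      rw [← mul_assoc (adj n 0) (adj n 0), adj_sq, one_mul]
    | inv y _ hy =>
      have := R.inv_mem hy
      rw [mul_inv_rev, mul_inv_rev, adj_inv, ← mul_assoc] at this
      rwa [map_inv]
  let C : Submonoid (Equiv.Perm (Fin n)) :=
    { carrier := {σ | σ ∈ R ∨ adj n 0 * σ ∈ R}
      one_mem' := Or.inl (one_mem _)
      mul_mem' := fun {σ τ} hσ hτ => by
        rcases hσ with hσ | hσ <;> rcases hτ with hτ | hτ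
        · exact Or.inl (R.mul_mem hσ hτ)
        · refine Or.inr ?_
          have := R.mul_mem (hnorm σ hσ) hτ
          rwa [mul_assoc, ← mul_assoc (adj n 0) (adj n 0), adj_sq, one_mul, mul_assoc] at this
        · refine Or.inr ?_
          rw [← mul_assoc]
          exact R.mul_mem hσ hτ
        · refine Or.inl ?_
          have := R.mul_mem (hnorm _ hσ) hτ
          rwa [← mul_assoc (adj n 0) (adj n 0), adj_sq, one_mul, mul_assoc, ← mul_assoc (adj n 0) (adj n 0),
            adj_sq, one_mul] at this }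
  have hC : C = ⊤ := exists_adj_induction C fun i hi => Or.inr (hR i hi)
  have hsurj : Function.Surjective φ := by
    rintro ⟨σ, hσ⟩
    have hc : σ ∈ C := by rw [hC]; trivial
    rcases hc with ⟨x, hx⟩ | h
    · exact ⟨x, Subtype.ext hx⟩
    · exfalso
      have h1 := hleA h
      rw [Equiv.Perm.mem_alternatingGroup, map_mul, sign_adj (by omega), Equiv.Perm.mem_alternatingGroup.1 hσ] at h1
      exact absurd h1 (by decide)
  haveI : Nontrivial (Fin n) := Fin.nontrivial_iff_two_le.2 (by omega)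
  refine ⟨MulEquiv.ofBijective φ (hsurj.bijective_of_nat_card_le ?_)⟩
  rw [nat_card_alternatingGroup, Nat.card_fin]
  exact (Nat.le_div_iff_mul_le (by norm_num)).2 hcard

end Cfsg.Agent.S3335
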