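import Cfsg.Statements.S3349
-- import your own Cfsg.Agent.* helpers here

set_option autoImplicit false
open Cfsg

namespace Cfsg.Agent.S3349

/-- Let Q be a finite extraspecial p-group and α an automorphism of Q fixing every element of some maximal abelian subgroup of Q. Then the order of α is a power of p. -/
theorem result {Q : Type*} [Group Q] [Finite Q]
    (p : ℕ) [Fact p.Prime] (hQ : Cfsg.IsExtraspecial p Q) (α : MulAut Q)
    (A : Subgroup Q) (hA : IsMulCommutative A) (hmax : ∀ B : Subgroup Q, A ≤ B → IsMulCommutative B → B = A)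
    (hfix : ∀ a ∈ A, α a = a) :
    ∃ k : ℕ, orderOf α = p ^ k := by
  obtain ⟨hsp, hZ⟩ := hQ
  obtain ⟨hpg, hfr, hder⟩ := hsp
  have hcomm : ∀ a ∈ A, ∀ b ∈ A, a * b = b * a := fun a ha b hb =>
    congrArg Subtype.val (hA.is_comm.comm (⟨a, ha⟩ : A) ⟨b, hb⟩)
  have hmem : ∀ c : Q, (∀ a ∈ A, c * a = a * c) → c ∈ A := by
    intro c hc
    have hB : IsMulCommutative ↥(Subgroup.closure (insert c (A : Set Q))) := by
      refine Subgroup.isMulCommutative_closure ?_
      rintro x (rfl | hx) y (rfl | hy)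
      · rfl
      · exact hc y hy
      · exact (hc x hx).symm
      · exact hcomm x hx y hy
    have := hmax _ (fun a ha => Subgroup.subset_closure (Set.mem_insert_of_mem _ ha)) hB
    rw [← this]; exact Subgroup.subset_closure (Set.mem_insert _ _)
  have hZA : Subgroup.center Q ≤ A := fun z hz => hmem z fun a _ => (Subgroup.mem_center_iff.mp hz a).symm
  have hAn : ∀ x : Q, ∀ a ∈ A, x * a * x⁻¹ ∈ A := by
    intro x a ha
    have h1 : x * a * x⁻¹ * a⁻¹ ∈ A := by
      apply hZA; rw [← hder]
      exact Subgroup.commutator_mem_commutator (Subgroup.mem_top x) (Subgroup.mem_top a)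
    simpa using A.mul_mem h1 ha
  have hd : ∀ x : Q, x⁻¹ * α x ∈ A := by
    intro x
    apply hmem
    intro a ha
    have h1 : α (x * a * x⁻¹) = x * a * x⁻¹ := hfix _ (hAn x a ha)
    rw [map_mul, map_mul, map_inv, hfix a ha] at h1
    have h2 : α x * a = x * a * x⁻¹ * α x := by rw [← h1]; group
    calc x⁻¹ * α x * a = x⁻¹ * (α x * a) := by group
      _ = a * (x⁻¹ * α x) := by rw [h2]; group
  have hpow : ∀ (n : ℕ) (x : Q), (α ^ n) x = x * (x⁻¹ * α x) ^ n := by
    intro n
    induction n with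
    | zero => simp
    | succ n ih =>
      intro x
      rw [pow_succ', MulAut.mul_apply, ih x, map_mul, hfix _ (A.pow_mem (hd x) n), pow_succ' _ n, ← mul_assoc x]
      group
  obtain ⟨k, hk⟩ := (IsPGroup.iff_card (p := p)).mp hpg
  have : orderOf α ∣ p ^ k := by
    apply orderOf_dvd_of_pow_eq_one
    ext x
    rw [hpow, ← hk, pow_card_eq_one']; simp
  obtain ⟨j, -, hj⟩ := (Nat.dvd_prime_pow (Fact.out : p.Prime)).mp this
  exact ⟨j, hj⟩

end Cfsg.Agent.S3349
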