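import Cfsg.Statements.S3366
import Cfsg.Agent.Order648.Embed

set_option autoImplicit false
open Cfsg

namespace Cfsg.Agent.S3366

/-- Let X be a finite group with O₃(X) extraspecial of order 27 and exponent 3, X/O₃(X) isomorphic to SL(2,3), O₂(X) = 1, and a Sylow 3-subgroup of X containing an elementary abelian subgroup of order 27. Then X is isomorphic to the centralizer in PSp(4,3) of a 3-central element of order 3 (an element of order 3 in the centre of a Sylow 3-subgroup). -/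
theorem result {X : Type*} [Group X] [Finite X]
    (hR : Cfsg.IsExtraspecial 3 (Cfsg.pCore 3 X)) (hRcard : Nat.card (Cfsg.pCore 3 X) = 27)
    (hRexp : ∀ r ∈ Cfsg.pCore 3 X, r ^ 3 = 1)
    (e : X ⧸ Cfsg.pCore 3 X ≃* Matrix.SpecialLinearGroup (Fin 2) (ZMod 3))
    (hO2 : Cfsg.pCore 2 X = ⊥)
    (hE : ∃ E : Subgroup X, IsMulCommutative E ∧ (∀ a ∈ E, a ^ 3 = 1) ∧ Nat.card E = 27)
    (F : Type*) [Field F] [Fintype F] (hF : Fintype.card F = 3) :
    ∃ (c : Cfsg.PSp 2 F) (S : Sylow 3 (Cfsg.PSp 2 F)), orderOf c = 3 ∧ c ∈ (S : Subgroup (Cfsg.PSp 2 F)) ∧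
      c ∈ Subgroup.centralizer ((S : Subgroup (Cfsg.PSp 2 F)) : Set (Cfsg.PSp 2 F)) ∧
      Nonempty (X ≃* Subgroup.centralizer ({c} : Set (Cfsg.PSp 2 F))) := by
  classical
  haveI : Fact (Nat.Prime 3) := ⟨Nat.prime_three⟩
  haveI hn : (Cfsg.pCore 3 X).Normal := Subgroup.sSup_normal _ fun _ h => h.1
  obtain ⟨hsp, hz3⟩ := hR
  obtain ⟨hp, hfr, hcomm⟩ := hsp
  let π : X →* Matrix.SpecialLinearGroup (Fin 2) (ZMod 3) := e.toMonoidHom.comp (QuotientGroup.mk' (Cfsg.pCore 3 X))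
  have hker : ∀ g, π g = 1 ↔ g ∈ Cfsg.pCore 3 X := fun g => by
    show e (QuotientGroup.mk' _ g) = 1 ↔ _
    rw [MulEquiv.map_eq_one_iff]
    exact QuotientGroup.eq_one_iff g
  have hnonab : ∃ a ∈ Cfsg.pCore 3 X, ∃ b ∈ Cfsg.pCore 3 X, a * b ≠ b * a := by
    by_contra hcon
    push Not at hcon
    have : Subgroup.center ↥(Cfsg.pCore 3 X) = ⊤ := eq_top_iff.2 fun r _ => Subgroup.mem_center_iff.2 fun s =>
      Subtype.ext (hcon s s.2 r r.2)
    rw [this, Subgroup.card_top] at hz3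
    omega
  have hbr : ∀ a ∈ Cfsg.pCore 3 X, ∀ b ∈ Cfsg.pCore 3 X, ∀ r ∈ Cfsg.pCore 3 X,
      Commute (a * b * a⁻¹ * b⁻¹) r := by
    intro a ha b hb r hr
    have hmem : (⟨a, ha⟩ * ⟨b, hb⟩ * ⟨a, ha⟩⁻¹ * ⟨b, hb⟩⁻¹ : ↥(Cfsg.pCore 3 X)) ∈ Subgroup.center ↥(Cfsg.pCore 3 X) := by
      rw [← hcomm, commutator_def]
      exact Subgroup.commutator_mem_commutator (Subgroup.mem_top _) (Subgroup.mem_top _)
    exact (congrArg Subtype.val (Subgroup.mem_center_iff.1 hmem ⟨r, hr⟩)).symm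
  have hzc : Nat.card {z : X // z ∈ Cfsg.pCore 3 X ∧ ∀ r ∈ Cfsg.pCore 3 X, Commute z r} = 3 := by
    refine Eq.trans (Nat.card_congr ?_) hz3
    exact
      { toFun := fun z => ⟨⟨z.1, z.2.1⟩, Subgroup.mem_center_iff.2 fun r => Subtype.ext (z.2.2 r r.2).symm.eq⟩
        invFun := fun z => ⟨z.1.1, z.1.2, fun r hr =>
          (congrArg Subtype.val (Subgroup.mem_center_iff.1 z.2 ⟨r, hr⟩)).symm⟩
        left_inv := fun z => rfl
        right_inv := fun z => rfl }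
  have hno : ∀ K : Subgroup X, K.Normal → IsPGroup 2 K → K = ⊥ := fun K hK1 hK2 => by
    rw [eq_bot_iff, ← hO2]
    exact le_sSup ⟨hK1, hK2⟩
  let Sh : CfsgLib.Order648.Shape X :=
    { R := Cfsg.pCore 3 X
      π := π
      surj := e.surjective.comp (QuotientGroup.mk'_surjective _)
      ker := hker
      card := hRcard
      exp := hRexp
      nonab := hnonab
      brack := hbr
      zcard := hzc
      noTwo := hno
      bigE := hE }
  obtain ⟨Fr, -⟩ := Sh.exists_frame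
  exact CfsgLib.Order648.main Fr hF

end Cfsg.Agent.S3366
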