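import Cfsg.Statements.S3389
-- import your own Cfsg.Agent.* helpers here

set_option autoImplicit false
open Cfsg

namespace Cfsg.Agent.S3389

/-- Let G be a finite group acting faithfully and transitively on a finite set Ω with fixity k ≥ 1: every non-identity element fixes at most k points and some non-identity element fixes exactly k points. Then |Z(G)| divides k; if k = 2 then |G| is even; and for every prime p > k dividing |G| and every point α, either p does not divide |G_α| or G_α contains a Sylow p-subgroup of G. -/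
theorem result {G : Type*} [Group G] [Finite G] {Ω : Type*} [Fintype Ω] [MulAction G Ω] [FaithfulSMul G Ω]
    (htr : MulAction.IsPretransitive G Ω) (k : ℕ) (hk : 1 ≤ k)
    (hfix : ∀ g : G, g ≠ 1 → Nat.card (MulAction.fixedBy Ω g) ≤ k) (hex : ∃ g : G, g ≠ 1 ∧ Nat.card (MulAction.fixedBy Ω g) = k) :
    Nat.card (Subgroup.center G) ∣ k ∧ (k = 2 → 2 ∣ Nat.card G) ∧
      ∀ (p : ℕ), p.Prime → k < p → p ∣ Nat.card G → ∀ α : Ω,
        ¬ p ∣ Nat.card (MulAction.stabilizer G α) ∨ ¬ p ∣ (MulAction.stabilizer G α).index := by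
  classical
  obtain ⟨g₀, hg₀, hg₀k⟩ := hex
  haveI := htr
  refine ⟨?_, ?_, ?_⟩
  · letI : MulAction (Subgroup.center G) (MulAction.fixedBy Ω g₀) :=
      { smul := fun z x => ⟨(z : G) • (x : Ω), by
          show g₀ • (z : G) • (x : Ω) = (z : G) • (x : Ω)
          rw [← mul_smul, Subgroup.mem_center_iff.1 z.2 g₀, mul_smul, x.2]⟩
        one_smul := fun x => Subtype.ext (one_smul _ _)
        mul_smul := fun y z x => Subtype.ext (mul_smul _ _ _) }
    have hfree : ∀ (x : MulAction.fixedBy Ω g₀) (y z : Subgroup.center G), y • x = z • x → y = z := by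
      intro x y z h
      have h' : (y : G) • (x : Ω) = (z : G) • (x : Ω) := congrArg Subtype.val h
      refine Subtype.ext (FaithfulSMul.eq_of_smul_eq_smul (α := Ω) fun w => ?_)
      obtain ⟨c, rfl⟩ := MulAction.exists_smul_eq G (x : Ω) w
      rw [← mul_smul, ← Subgroup.mem_center_iff.1 y.2 c, mul_smul, h', ← mul_smul, Subgroup.mem_center_iff.1 z.2 c,
        mul_smul]
    rw [← hg₀k, Nat.card_congr (MulAction.selfEquivSigmaOrbits (Subgroup.center G) (MulAction.fixedBy Ω g₀))]
    haveI := Fintype.ofFinite (MulAction.orbitRel.Quotient (Subgroup.center G) (MulAction.fixedBy Ω g₀))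
    rw [Nat.card_sigma]
    refine Finset.dvd_sum fun i _ => ?_
    rw [← Nat.card_congr (Equiv.ofBijective
      (fun z : Subgroup.center G => (⟨z • i.out, MulAction.mem_orbit _ _⟩ :
        MulAction.orbit (Subgroup.center G) i.out))
      ⟨fun y z h => hfree _ y z (congrArg Subtype.val h), fun ⟨w, z, hz⟩ => ⟨z, Subtype.ext hz⟩⟩)]
  · intro hk2
    by_contra hodd
    obtain ⟨a, b, hab, hset⟩ : ∃ a b : Ω, a ≠ b ∧ MulAction.fixedBy Ω g₀ = {a, b} :=
      Set.ncard_eq_two.1 (by rw [← Nat.card_coe_set_eq, hg₀k, hk2])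
    have hga : g₀ • a = a := hset.ge (Or.inl rfl)
    have hgb : g₀ • b = b := hset.ge (Or.inr rfl)
    have htwo : ∀ g : G, g ≠ 1 → ∀ u v w : Ω, g • u = u → g • v = v → g • w = w → u ≠ v → u ≠ w → v = w := by
      intro g hg u v w hu hv hw huv huw
      by_contra hvw
      have h3 : ({u, v, w} : Set Ω).ncard = 3 := Set.ncard_eq_three.2 ⟨u, v, w, huv, huw, hvw, rfl⟩
      have h4 : ({u, v, w} : Set Ω).ncard ≤ (MulAction.fixedBy Ω g).ncard := Set.ncard_le_ncard (by
        rintro x (rfl | rfl | rfl) <;> assumption) (Set.toFinite _)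
      have := hfix g hg
      rw [Nat.card_coe_set_eq] at this
      omega
    obtain ⟨x, hx⟩ : ∃ x : G, x • b = a ∧ x • a = b := by
      obtain ⟨g, hg⟩ := MulAction.exists_smul_eq G a b
      set H := MulAction.stabilizer G a
      -- `c := g⁻¹ • a` lies on the suborbit of `b`
      suffices hc : ∃ h ∈ H, h • b = g⁻¹ • a by
        obtain ⟨h, hh, hhb⟩ := hc
        exact ⟨g * h, by rw [mul_smul, hhb, smul_inv_smul], by
          rw [mul_smul, show h • a = a from hh, hg]⟩
      by_contra hno
      push Not at hno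
      set c := g⁻¹ • a with hc
      have hca : c ≠ a := fun h => hab (by rw [hc, inv_smul_eq_iff, hg] at h; exact h)
      let y : H := ⟨g⁻¹ * g₀ * g, by
        rw [MulAction.mem_stabilizer_iff, mul_smul, mul_smul, hg, hgb, ← hg, inv_smul_smul]⟩
      have hyc : y • c = c := by
        show (g⁻¹ * g₀ * g) • c = c
        rw [hc, mul_smul, smul_inv_smul, mul_smul, hga]
      have hy1 : y ≠ 1 := fun h => hg₀ (by
        have h1 : g⁻¹ * g₀ * g = 1 := congrArg Subtype.val h
        calc g₀ = g * (g⁻¹ * g₀ * g) * g⁻¹ := by group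
          _ = 1 := by rw [h1]; group)
      let z : H := ⟨g₀, hga⟩
      -- pairs `(point, non-trivial element of the stabiliser fixing it)` on a suborbit
      let F : Ω → Type _ := fun w => Σ u : MulAction.orbit H w, {h : H // h ≠ 1 ∧ h • (u : Ω) = (u : Ω)}
      have hne : ∀ w, w ≠ a → ∀ u : MulAction.orbit H w, (u : Ω) ≠ a := by
        rintro w hw ⟨_, h, rfl⟩ e
        have e' : (h : G) • w = a := e
        exact hw (smul_left_cancel (h : G) (e'.trans h.2.symm))
      have hbig : ∀ w, (∃ h : H, h ≠ 1 ∧ h • w = w) → 3 * Nat.card (F w) ≥ 2 * Nat.card H := by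
        intro w ⟨h, hh1, hhw⟩
        have hst : ∀ u : MulAction.orbit H w, Nat.card {h : H // h ≠ 1 ∧ h • (u : Ω) = (u : Ω)} + 1 =
            Nat.card (MulAction.stabilizer H w) := by
          rintro ⟨_, t, rfl⟩
          have e1 : Nat.card (MulAction.stabilizer H (t • w)) = Nat.card (MulAction.stabilizer H w) :=
            Nat.card_congr (MulAction.stabilizerEquivStabilizer (g := t⁻¹) (by rw [inv_smul_smul])).toEquiv
          have e2 : Nat.card {h : H // h ≠ 1 ∧ h • (t • w) = t • w} =
              Nat.card {x : MulAction.stabilizer H (t • w) // x ≠ 1} :=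
            Nat.card_congr ⟨fun x => ⟨⟨x, x.2.2⟩, fun e => x.2.1 (congrArg Subtype.val e)⟩,
              fun x => ⟨x.1, fun e => x.2 (Subtype.ext e), x.1.2⟩, fun _ => rfl, fun _ => rfl⟩
          haveI := Fintype.ofFinite (MulAction.stabilizer H (t • w))
          show Nat.card {h : H // h ≠ 1 ∧ h • (t • w) = t • w} + 1 = _
          rw [e2, ← e1, Nat.card_eq_fintype_card, Nat.card_eq_fintype_card, Fintype.card_subtype_compl,
            Fintype.card_subtype_eq, Nat.sub_add_cancel Fintype.card_pos]
        have hF : Nat.card (F w) = Nat.card (MulAction.orbit H w) * (Nat.card (MulAction.stabilizer H w) - 1) := by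
          haveI := Fintype.ofFinite (MulAction.orbit H w)
          rw [Nat.card_sigma, Finset.sum_congr rfl fun u _ => (Nat.eq_sub_of_add_eq (hst u)), Finset.sum_const,
            Finset.card_univ, smul_eq_mul, Nat.card_eq_fintype_card (α := MulAction.orbit H w)]
        have hmul : Nat.card (MulAction.orbit H w) * Nat.card (MulAction.stabilizer H w) = Nat.card H := by
          rw [← Nat.card_prod]; exact Nat.card_congr (MulAction.orbitProdStabilizerEquivGroup H w)
        have h3 : 3 ≤ Nat.card (MulAction.stabilizer H w) := by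
          haveI : Nontrivial (MulAction.stabilizer H w) := ⟨⟨h, hhw⟩, 1, fun e => hh1 (congrArg Subtype.val e)⟩
          have h1 : 1 < Nat.card (MulAction.stabilizer H w) := Finite.one_lt_card
          by_contra h2
          refine hodd (dvd_trans ?_ ((Subgroup.card_subgroup_dvd_card (MulAction.stabilizer H w)).trans
            (Subgroup.card_subgroup_dvd_card H)))
          rw [show Nat.card (MulAction.stabilizer H w) = 2 by omega]
        rw [hF, ← hmul, ← mul_assoc, ← mul_assoc, mul_comm 3, mul_comm 2, mul_assoc, mul_assoc]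
        exact Nat.mul_le_mul_left _ (by omega)
      let Φ : F b ⊕ F c → H := Sum.elim (fun s => s.2.1) (fun s => s.2.1)
      have hΦ : Function.Injective Φ := by
        have key : ∀ (w w' : Ω), w ≠ a → w' ≠ a → ∀ (s : F w) (s' : F w'), (s.2.1 : H) = s'.2.1 →
            (s.1 : Ω) = s'.1 := by
          intro w w' hw hw' s s' e
          refine htwo ((s.2.1 : H) : G) (fun e' => s.2.2.1 (Subtype.ext e')) a _ _ s.2.1.2 s.2.2.2 ?_
            (hne w hw s.1).symm (hne w' hw' s'.1).symm
          rw [e]; exact s'.2.2.2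
        have same : ∀ w, w ≠ a → ∀ s s' : F w, (s.2.1 : H) = s'.2.1 → s = s' := by
          intro w hw s s' e
          obtain ⟨u, hu⟩ := s
          obtain ⟨u', hu'⟩ := s'
          obtain rfl : u = u' := Subtype.ext (key w w hw hw ⟨u, hu⟩ ⟨u', hu'⟩ e)
          exact Sigma.ext rfl (heq_of_eq (Subtype.ext e))
        rintro (s | s) (s' | s') e
        · exact congrArg Sum.inl (same b hab.symm s s' e)
        · exfalso
          obtain ⟨⟨_, t, rfl⟩, _⟩ := s
          obtain ⟨⟨_, t', rfl⟩, _⟩ := s'
          have h1 := key b c hab.symm hca _ _ e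
          refine hno _ (t'⁻¹ * t).2 ?_
          show (t'⁻¹ * t) • b = c
          rw [mul_smul, show t • b = t' • c from h1, inv_smul_smul]
        · exfalso
          obtain ⟨⟨_, t, rfl⟩, _⟩ := s'
          obtain ⟨⟨_, t', rfl⟩, _⟩ := s
          have h1 := key c b hca hab.symm _ _ e
          refine hno _ (t'⁻¹ * t).2 ?_
          show (t'⁻¹ * t) • b = c
          rw [mul_smul, show t • b = t' • c from h1.symm, inv_smul_smul]
        · exact congrArg Sum.inr (same c hca s s' e)
      have h1 := Nat.card_le_card_of_injective Φ hΦ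
      rw [Nat.card_sum] at h1
      have h2 := hbig b ⟨z, fun e => hg₀ (congrArg Subtype.val e), hgb⟩
      have h3 := hbig c ⟨y, hy1, hyc⟩
      have : 0 < Nat.card H := Nat.card_pos
      omega
    obtain ⟨j, hj⟩ : ∃ j, orderOf x = 2 * j + 1 := by
      rcases Nat.even_or_odd (orderOf x) with h | h
      · exact absurd ((even_iff_two_dvd.1 h).trans (orderOf_dvd_natCard x)) hodd
      · exact h
    have hfixa : x * x ∈ MulAction.stabilizer G a := by rw [MulAction.mem_stabilizer_iff, mul_smul, hx.2, hx.1]
    have hxx : x = (x * x) ^ (j + 1) := by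
      rw [← sq, ← pow_mul, show 2 * (j + 1) = orderOf x + 1 by omega, pow_succ, pow_orderOf_eq_one, one_mul]
    have : x • a = a := by rw [hxx]; exact pow_mem hfixa _
    exact hab (this.symm.trans hx.2)
  · intro p hp hkp hpG α
    by_contra hcon
    push Not at hcon
    obtain ⟨h1, h2⟩ := hcon
    haveI : Fact p.Prime := ⟨hp⟩
    obtain ⟨P⟩ : Nonempty (Sylow p (MulAction.stabilizer G α)) := inferInstance
    set P' : Subgroup G := (P : Subgroup (MulAction.stabilizer G α)).map (MulAction.stabilizer G α).subtype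
    have hP' : IsPGroup p P' := P.2.map _
    have h3 := hP'.card_modEq_card_fixedPoints (α := Ω)
    rw [MulAction.index_stabilizer_of_transitive] at h2
    have hα : α ∈ MulAction.fixedPoints P' Ω := by
      rintro ⟨_, u, hu, rfl⟩
      exact u.2
    obtain ⟨u, hu⟩ := exists_prime_orderOf_dvd_card' (G := (P : Subgroup (MulAction.stabilizer G α))) p (P.dvd_card_of_dvd_card h1)
    have hu1 : ((u : MulAction.stabilizer G α) : G) ≠ 1 := fun e => by
      rw [← Subgroup.orderOf_coe, ← Subgroup.orderOf_coe, e, orderOf_one] at hu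
      exact hp.ne_one hu.symm
    have h4 : Nat.card (MulAction.fixedPoints P' Ω) ≤ k := le_trans
      (Nat.card_mono (Set.toFinite _) fun w hw =>
        hw ⟨((u : MulAction.stabilizer G α) : G), ⟨u.1, u.2, rfl⟩⟩)
      (hfix _ hu1)
    haveI : Nonempty (MulAction.fixedPoints P' Ω) := ⟨⟨α, hα⟩⟩
    have h5 : 0 < Nat.card (MulAction.fixedPoints P' Ω) := Nat.card_pos
    have h6 : p ∣ Nat.card (MulAction.fixedPoints P' Ω) :=
      Nat.modEq_zero_iff_dvd.1 (h3.symm.trans (Nat.modEq_zero_iff_dvd.2 h2))
    have := Nat.le_of_dvd h5 h6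
    omega

end Cfsg.Agent.S3389
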