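import Cfsg.Statements.S3391
import Cfsg.Agent.Sz.FixityTwo
-- import your own Cfsg.Agent.* helpers here

set_option autoImplicit false
open Cfsg

namespace Cfsg.Agent.S3391

/-- Let q = 2^{2m+1} ≥ 8 and let G be isomorphic to the Suzuki group Sz(q). If G acts faithfully and transitively on a finite set Ω with fixity 2 (every non-identity element fixes at most two points, and some fixes exactly two), then either |Ω| = q² + 1 and the action is 2-transitive, or |Ω| = q²(q² + 1) and the point stabilizers have order q − 1. -/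
theorem result {G : Type*} [Group G] [Finite G] (F : Type) [Field F] [Fintype F] (m : ℕ) (hm : 1 ≤ m) (hF : Fintype.card F = 2 ^ (2 * m + 1))
    (e : G ≃* ↥(Cfsg.Lie.Sz F (2 ^ (m + 1)))) {Ω : Type*} [Fintype Ω] [MulAction G Ω] [FaithfulSMul G Ω] (htr : MulAction.IsPretransitive G Ω)
    (hfix : ∀ g : G, g ≠ 1 → Nat.card (MulAction.fixedBy Ω g) ≤ 2) (hex : ∃ g : G, g ≠ 1 ∧ Nat.card (MulAction.fixedBy Ω g) = 2) :
    (Fintype.card Ω = Fintype.card F ^ 2 + 1 ∧ MulAction.IsMultiplyPretransitive G Ω 2) ∨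
    (Fintype.card Ω = Fintype.card F ^ 2 * (Fintype.card F ^ 2 + 1) ∧ ∀ α : Ω, Nat.card (MulAction.stabilizer G α) = Fintype.card F - 1) := by
  classical
  have h : CfsgLib.Sz.Hyp F m := ⟨hm, hF⟩
  letI A : MulAction ↥(Cfsg.Lie.Sz F (2 ^ (m + 1))) Ω := MulAction.compHom Ω e.symm.toMonoidHom
  have hsm : ∀ (g : ↥(Cfsg.Lie.Sz F (2 ^ (m + 1)))) (ω : Ω), g • ω = e.symm g • ω := fun _ _ => rfl
  have hfix' : ∀ g : ↥(Cfsg.Lie.Sz F (2 ^ (m + 1))), g ≠ 1 → Nat.card (MulAction.fixedBy Ω g) ≤ 2 := fun g hg =>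
    hfix (e.symm g) (fun h0 => hg (e.symm.injective (h0.trans (map_one _).symm)))
  obtain ⟨g0, hg0, hg02⟩ := hex
  haveI : Nonempty Ω := by
    by_contra hne
    rw [not_nonempty_iff] at hne
    rw [Nat.card_of_isEmpty] at hg02
    omega
  have htr' : ∀ x y : Ω, ∃ g : ↥(Cfsg.Lie.Sz F (2 ^ (m + 1))), g • x = y := fun x y => by
    obtain ⟨g, hg⟩ := htr.exists_smul_eq x y
    exact ⟨e g, by rw [hsm, e.symm_apply_apply, hg]⟩
  haveI : MulAction.IsPretransitive ↥(Cfsg.Lie.Sz F (2 ^ (m + 1))) Ω := ⟨htr'⟩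
  have key : ∀ α : Ω,
      (∃ k, MulAction.stabilizer ↥(Cfsg.Lie.Sz F (2 ^ (m + 1))) α = (CfsgLib.Sz.borel h).map (MulAut.conj k).toMonoidHom) ∨
        Nat.card (MulAction.stabilizer ↥(Cfsg.Lie.Sz F (2 ^ (m + 1))) α) = Fintype.card F - 1 := by
    intro α
    refine CfsgLib.Sz.stab_dichotomy h hfix' (fun htop => ?_) (fun hbot => ?_)
    · refine hg0 (eq_of_smul_eq_smul (α := Ω) fun ω => ?_)
      obtain ⟨x, rfl⟩ := htr'  α ω
      have h1 : ∀ g, g • α = α := fun g => MulAction.mem_stabilizer_iff.mp (htop ▸ Subgroup.mem_top g)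
      rw [one_smul, show g0 • x • α = e g0 • x • α by rw [hsm (e g0), e.symm_apply_apply], h1, h1]
    · obtain ⟨⟨ω, hω⟩⟩ : Nonempty (MulAction.fixedBy Ω g0) := (Nat.card_pos_iff.mp (by omega)).1
      obtain ⟨x, rfl⟩ := htr' α ω
      have h1 : (x⁻¹ * e g0 * x) • α = α := by
        rw [mul_smul, mul_smul, inv_smul_eq_iff, hsm (e g0), e.symm_apply_apply]
        exact hω
      have h2 := MulAction.mem_stabilizer_iff.mpr h1
      rw [hbot, Subgroup.mem_bot] at h2
      refine hg0 (e.injective ?_)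
      rw [map_one]
      calc e g0 = x * (x⁻¹ * e g0 * x) * x⁻¹ := by group
        _ = 1 := by rw [h2]; group
  have hcard : ∀ α : Ω, Fintype.card Ω = (MulAction.stabilizer ↥(Cfsg.Lie.Sz F (2 ^ (m + 1))) α).index := fun α => by
    rw [MulAction.index_stabilizer_of_transitive, Nat.card_eq_fintype_card]
  obtain ⟨α⟩ := ‹Nonempty Ω›
  by_cases hb : ∃ β : Ω, ∃ k, MulAction.stabilizer ↥(Cfsg.Lie.Sz F (2 ^ (m + 1))) β = (CfsgLib.Sz.borel h).map (MulAut.conj k).toMonoidHom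
  · obtain ⟨β0, k, hk⟩ := hb
    set β := k⁻¹ • β0 with hβ
    have hst : MulAction.stabilizer ↥(Cfsg.Lie.Sz F (2 ^ (m + 1))) β = CfsgLib.Sz.borel h := by
      rw [hβ, MulAction.stabilizer_smul_eq_stabilizer_map_conj, hk, Subgroup.map_map]
      conv_rhs => rw [← Subgroup.map_id (CfsgLib.Sz.borel h)]
      congr 1
      ext x
      simp [MulAut.conj_apply, mul_assoc]
    refine Or.inl ⟨by rw [hcard β, hst, CfsgLib.Sz.index_borel], ?_⟩
    rw [MulAction.is_two_pretransitive_iff]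
    intro a b c d hab hcd
    haveI := CfsgLib.Sz.quot_two_transitive h
    have lift : ∀ ω : Ω, ∃ x : ↥(Cfsg.Lie.Sz F (2 ^ (m + 1))), x • β = ω := htr' β
    obtain ⟨xa, rfl⟩ := lift a
    obtain ⟨xb, rfl⟩ := lift b
    obtain ⟨xc, rfl⟩ := lift c
    obtain ⟨xd, rfl⟩ := lift d
    have hmk : ∀ x y : ↥(Cfsg.Lie.Sz F (2 ^ (m + 1))),
        ((x : ↥(Cfsg.Lie.Sz F (2 ^ (m + 1))) ⧸ CfsgLib.Sz.borel h) = y) ↔ x • β = y • β := fun x y => by
      rw [QuotientGroup.eq, ← hst, MulAction.mem_stabilizer_iff, mul_smul, inv_smul_eq_iff, eq_comm]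
    obtain ⟨g, g1, g2⟩ := MulAction.is_two_pretransitive_iff.mp (CfsgLib.Sz.quot_two_transitive h)
      (fun h0 => hab ((hmk xa xb).mp h0)) (fun h0 => hcd ((hmk xc xd).mp h0))
    refine ⟨e.symm g, ?_, ?_⟩
    · show g • xa • β = xc • β
      rw [← mul_smul]; exact (hmk _ _).mp g1
    · show g • xb • β = xd • β
      rw [← mul_smul]; exact (hmk _ _).mp g2
  · push Not at hb
    have hall : ∀ β : Ω, Nat.card (MulAction.stabilizer ↥(Cfsg.Lie.Sz F (2 ^ (m + 1))) β) = Fintype.card F - 1 :=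
      fun β => (key β).resolve_left fun ⟨k, hk⟩ => hb β k hk
    refine Or.inr ⟨?_, fun β => ?_⟩
    · have h1 := Subgroup.card_mul_index (MulAction.stabilizer ↥(Cfsg.Lie.Sz F (2 ^ (m + 1))) α)
      rw [hall α, ← hcard α, CfsgLib.Sz.card_G h] at h1
      have := h.q_ge
      refine Nat.eq_of_mul_eq_mul_left (show 0 < Fintype.card F - 1 by omega) ?_
      rw [h1]; ring
    · rw [← hall β]
      refine Nat.card_congr (e.toEquiv.subtypeEquiv fun g => ?_)
      show g • β = β ↔ e g • β = β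
      rw [hsm, e.symm_apply_apply]

end Cfsg.Agent.S3391
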