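import Cfsg.Statements.S3488
import Cfsg.Agent.PGL2Spec.F4Affine

set_option autoImplicit false
open Cfsg

namespace Cfsg.Agent.S3488

/-- Let F be the field with four elements. The affine group F² ⋊ SL(2,F), realised as the subgroup of SL(3,F) of matrices with last row (0, 0, 1), has exactly the same set of element orders as the alternating group of degree 6 (namely {1, 2, 3, 4, 5}); so the alternating group of degree 6 is not determined by its element orders. -/
theorem result {F : Type*} [Field F] [Fintype F] (hF : Fintype.card F = 4) :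
    Set.range (orderOf : Subgroup.closure {M : Matrix.SpecialLinearGroup (Fin 3) F |
        (M : Matrix (Fin 3) (Fin 3) F) 2 0 = 0 ∧ (M : Matrix (Fin 3) (Fin 3) F) 2 1 = 0 ∧ (M : Matrix (Fin 3) (Fin 3) F) 2 2 = 1} → ℕ) =
      Set.range (orderOf : alternatingGroup (Fin 6) → ℕ) := by
  classical
  obtain ⟨h2, -, w, hw⟩ := CfsgLib.PGL2Spec.field_four hF 0
  rw [CfsgLib.PGL2Spec.range_A6]
  set S := {M : Matrix.SpecialLinearGroup (Fin 3) F |
        (M : Matrix (Fin 3) (Fin 3) F) 2 0 = 0 ∧ (M : Matrix (Fin 3) (Fin 3) F) 2 1 = 0 ∧ (M : Matrix (Fin 3) (Fin 3) F) 2 2 = 1} with hS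
  have hmem : ∀ M ∈ Subgroup.closure S, M ∈ S := by
    intro M hM
    have hM' : M ∈ Submonoid.closure S := by
      rw [← Subgroup.closure_toSubmonoid_of_finite]; exact hM
    clear hM
    induction hM' using Submonoid.closure_induction with
    | mem x hx => exact hx
    | one => simp [S]
    | mul x y _ _ hx hy =>
      obtain ⟨a, b, c⟩ := hx
      obtain ⟨a', b', c'⟩ := hy
      simp [S, Matrix.mul_apply, Fin.sum_univ_three, a, b, c, a', b', c']
  have mk : ∀ (K : ℕ) (A : Matrix (Fin 3) (Fin 3) F) (hd : A.det = 1), A 2 0 = 0 → A 2 1 = 0 → A 2 2 = 1 →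
      (A ^ K = 1) → (∀ m < K, 0 < m → A ^ m ≠ 1) → 0 < K →
      ∃ x : Subgroup.closure S, orderOf x = K := by
    intro K A hd h0 h1 h2' hK hlt hpos
    refine ⟨⟨(⟨A, hd⟩ : Matrix.SpecialLinearGroup (Fin 3) F), Subgroup.subset_closure ⟨h0, h1, h2'⟩⟩, ?_⟩
    refine (Subgroup.orderOf_mk _ _).trans ?_
    refine (orderOf_eq_iff hpos).2 ?_
    refine ⟨Subtype.ext ((Matrix.SpecialLinearGroup.coe_pow _ _).trans hK), fun m hm hm0 h => hlt m hm hm0 ?_⟩
    exact (Matrix.SpecialLinearGroup.coe_pow _ _).symm.trans (congrArg Subtype.val h)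
  suffices hall : ∀ x : Subgroup.closure S, x ^ 4 = 1 ∨ x ^ 3 = 1 ∨ x ^ 5 = 1 by
    refine CfsgLib.PGL2Spec.range_orderOf_upto_five hall ?_ ?_ ?_
    · refine mk 4 !![1, 1, 0; 0, 1, 1; 0, 0, 1] (by simp [Matrix.det_fin_three]) (by simp) (by simp) (by simp) ?_ ?_ (by norm_num)
      · ext i j
        fin_cases i <;> fin_cases j <;> simp [pow_succ, Matrix.mul_apply, Fin.sum_univ_three] <;>
          first | linear_combination (2 : F) * h2 | linear_combination (3 : F) * h2
      · intro m hm hm0 h
        have hf02 := congrFun (congrFun h 0) 2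
        have hf01 := congrFun (congrFun h 0) 1
        interval_cases m <;> simp [pow_succ, Matrix.mul_apply, Fin.sum_univ_three] at hf02 hf01
        all_goals first
          | exact one_ne_zero (show (1 : F) = 0 by linear_combination hf01 - h2)
          | exact one_ne_zero (show (1 : F) = 0 by linear_combination hf02)
    · refine mk 3 !![0, 1, 0; 1, 1, 0; 0, 0, 1] (by simp [Matrix.det_fin_three]; linear_combination -h2)
        (by simp) (by simp) (by simp) ?_ ?_ (by norm_num)
      · ext i j
        fin_cases i <;> fin_cases j <;> simp [pow_succ, Matrix.mul_apply, Fin.sum_univ_three] <;>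
          first | linear_combination h2 | linear_combination (2 : F) * h2
      · intro m hm hm0 h
        have hf01 := congrFun (congrFun h 0) 1
        interval_cases m <;> simp [pow_succ, Matrix.mul_apply, Fin.sum_univ_three] at hf01
    · have hd : (!![0, 1, 0; 1, w, 0; 0, 0, 1] : Matrix (Fin 3) (Fin 3) F).det = 1 := by
        simp [Matrix.det_fin_three]; linear_combination -h2
      let x : Subgroup.closure S :=
        ⟨(⟨_, hd⟩ : Matrix.SpecialLinearGroup (Fin 3) F),
          Subgroup.subset_closure ⟨by simp, by simp, by simp⟩⟩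
      have hne : ∀ m : ℕ, ((!![0, 1, 0; 1, w, 0; 0, 0, 1] : Matrix (Fin 3) (Fin 3) F) ^ m ≠ 1) →
          x ^ m ≠ 1 := fun m hm h => hm
        ((Matrix.SpecialLinearGroup.coe_pow _ _).symm.trans
          (congrArg (fun y : Subgroup.closure S => (y.1 : Matrix (Fin 3) (Fin 3) F)) h))
      have h1 : x ^ 1 ≠ 1 := hne 1 (fun h => by
        have := congrFun (congrFun h 0) 1; simp at this)
      have h3 : x ^ 3 ≠ 1 := hne 3 (fun h => by
        have := congrFun (congrFun h 0) 0
        simp [pow_succ, Matrix.mul_apply, Fin.sum_univ_three] at this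
        exact one_ne_zero (show (1 : F) = 0 by linear_combination hw - (w + 2) * this - h2))
      have h4 : x ^ 4 ≠ 1 := hne 4 (fun h => by
        have := congrFun (congrFun h 0) 1
        simp [pow_succ, Matrix.mul_apply, Fin.sum_univ_three] at this
        exact one_ne_zero (show (1 : F) = 0 by
          linear_combination this - w * h2 - (w - 1) * hw))
      refine ⟨x, ?_⟩
      haveI : Fact (Nat.Prime 5) := ⟨by norm_num⟩
      exact orderOf_eq_prime (((hall x).resolve_left h4).resolve_left h3) (by simpa using h1)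
  intro x
  · obtain ⟨h20, h21, h22⟩ := hmem x.1 x.2
    set M := (x.1 : Matrix (Fin 3) (Fin 3) F) with hMdef
    have hd : M.det = 1 := x.1.2
    rw [Matrix.det_fin_three, h20, h21, h22] at hd
    obtain ⟨-, ht, -⟩ := CfsgLib.PGL2Spec.field_four hF (M 0 0 + M 1 1)
    have hfree : (M - 1) * (M * M - (M 0 0 + M 1 1) • M + 1) = 0 := by
      ext i j
      fin_cases i <;> fin_cases j <;>
        simp [Matrix.mul_apply, Fin.sum_univ_three, h20, h21, h22]
      · linear_combination (-(M 0 0 - 1)) * hd
      · linear_combination (-(M 0 1)) * hd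
      · linear_combination (-(M 0 2)) * hd
      · linear_combination (-(M 1 0)) * hd
      · linear_combination (-(M 1 1 - 1)) * hd
      · linear_combination (-(M 1 2)) * hd
    have hneg : ∀ X : Matrix (Fin 3) (Fin 3) F, -X = X := fun X => by
      ext i j; rw [Matrix.neg_apply]; linear_combination (-(X i j)) * h2
    have hrel : (M + 1) * (M * M + (M 0 0 + M 1 1) • M + 1) = 0 := by
      rw [sub_eq_add_neg, sub_eq_add_neg, hneg, hneg] at hfree
      exact hfree
    rcases CfsgLib.PGL2Spec.pow_eq_one_of_relation h2 ht M hrel with h | h | h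
    · exact Or.inl (Subtype.ext (Subtype.ext (by simpa [Matrix.SpecialLinearGroup.coe_pow] using h)))
    · exact Or.inr (Or.inl (Subtype.ext (Subtype.ext (by simpa [Matrix.SpecialLinearGroup.coe_pow] using h))))
    · exact Or.inr (Or.inr (Subtype.ext (Subtype.ext (by simpa [Matrix.SpecialLinearGroup.coe_pow] using h))))

end Cfsg.Agent.S3488
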