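import Cfsg.Statements.S3495
import Cfsg.Agent.Extremely.Basic

set_option autoImplicit false
open Cfsg

namespace Cfsg.Agent.S3495

/-- Let a finite group G act faithfully and primitively on a finite set Ω with non-trivial point stabilizers, each acting primitively on every one of its orbits (an extremely primitive group), and suppose G has an elementary abelian normal p-subgroup N acting regularly on Ω (affine type). Then every non-trivial subgroup M of a point stabilizer G_α that is normal in G_α has the same orbits on Ω as G_α, and normalizes no subgroup of N other than 1 and N. -/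
theorem result {G : Type*} [Group G] [Finite G] {Ω : Type*} [Fintype Ω] [MulAction G Ω] [FaithfulSMul G Ω] (hprim : MulAction.IsPreprimitive G Ω) (hH : ∀ α : Ω, MulAction.stabilizer G α ≠ ⊥) (hep : ∀ (α : Ω) (ω : Ω), MulAction.IsPreprimitive (MulAction.stabilizer G α) (MulAction.orbit (MulAction.stabilizer G α) ω))
    (N : Subgroup G) [N.Normal] (hNc : IsMulCommutative N) (p : ℕ) (hp : p.Prime) (hNp : ∀ n ∈ N, n ^ p = 1)
    (hNtr : MulAction.IsPretransitive N Ω) (hNreg : ∀ ω : Ω, MulAction.stabilizer N ω = ⊥) (α : Ω) (M : Subgroup G) (hM : M ≠ ⊥) (hMle : M ≤ MulAction.stabilizer G α)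
    (hMn : MulAction.stabilizer G α ≤ Subgroup.normalizer (M : Set G)) :
    (∀ ω : Ω, MulAction.orbit M ω = MulAction.orbit (MulAction.stabilizer G α) ω) ∧
    (∀ L : Subgroup G, L ≤ N → M ≤ Subgroup.normalizer (L : Set G) → L = ⊥ ∨ L = N) := by
  classical
  haveI : MulAction.IsPretransitive G Ω := hprim.toIsPretransitive
  have hMn' : ∀ h ∈ MulAction.stabilizer G α, ∀ m ∈ M, h * m * h⁻¹ ∈ M := fun h hh m hm =>
    ((Subgroup.mem_normalizer_iff.1 (hMn hh)) m).1 hm
  have horb : ∀ ω : Ω, MulAction.orbit M ω = MulAction.orbit (MulAction.stabilizer G α) ω := by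
    intro ω
    refine Set.Subset.antisymm ?_ ?_
    · rintro x ⟨m, rfl⟩
      exact ⟨⟨m, hMle m.2⟩, rfl⟩
    · intro x hx
      rcases eq_or_ne ω α with rfl | hω
      · obtain ⟨a, rfl⟩ := hx
        exact ⟨1, (one_smul _ _).trans a.2.symm⟩
      rcases CfsgLib.Extremely.fix_or_transitive (hep α ω) M hMle hMn'
        (MulAction.mem_orbit_self ω) with hf | ht
      · obtain ⟨m, hm, hm1⟩ := M.bot_or_exists_ne_one.resolve_left hM
        exact absurd (CfsgLib.Extremely.manning hprim hep α ω hω m (hMle hm)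
          fun g hg => hf (g • ω) ⟨⟨g, hg⟩, rfl⟩ m hm) hm1
      · obtain ⟨m, hm, e⟩ := ht x hx
        exact ⟨⟨m, hm⟩, e⟩
  refine ⟨horb, fun L hL hLM => ?_⟩
  have hinj : ∀ a ∈ N, ∀ b ∈ N, a • α = b • α → a = b := by
    intro a ha b hb e
    have h1 : (⟨b⁻¹ * a, N.mul_mem (N.inv_mem hb) ha⟩ : N) ∈ MulAction.stabilizer N α := by
      show (b⁻¹ * a) • α = α
      rw [mul_smul, e, inv_smul_smul]
    rw [hNreg, Subgroup.mem_bot] at h1
    exact (inv_mul_eq_one.1 (congrArg Subtype.val h1)).symm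
  have hconjH : ∀ h ∈ MulAction.stabilizer G α, ∀ n ∈ L, h * n * h⁻¹ ∈ L := by
    intro h hh n hn
    have hn' : (h * n * h⁻¹) • α = h • n • α := by
      rw [mul_smul, mul_smul, inv_smul_eq_iff.2 hh.symm]
    have : h • n • α ∈ MulAction.orbit M (n • α) := by
      rw [horb]; exact ⟨⟨h, hh⟩, rfl⟩
    obtain ⟨m, hm⟩ := this
    have hm' : (m : G) • n • α = h • n • α := hm
    have hmn : ((m : G) * n * (m : G)⁻¹) ∈ L := ((Subgroup.mem_normalizer_iff.1 (hLM m.2)) n).1 hn
    have e : h * n * h⁻¹ = (m : G) * n * (m : G)⁻¹ := by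
      refine hinj _ (Subgroup.Normal.conj_mem inferInstance n (hL hn) h) _ (hL hmn) ?_
      rw [hn', mul_smul, mul_smul, inv_smul_eq_iff.2 (MulAction.mem_stabilizer_iff.1 (hMle m.2)).symm, hm']
    rw [e]; exact hmn
  have hnormal : L.Normal := by
    refine ⟨fun n hn g => ?_⟩
    obtain ⟨a, ha⟩ := MulAction.exists_smul_eq N α (g • α)
    have ha' : (a : G) • α = g • α := ha
    have hst : (a : G)⁻¹ * g ∈ MulAction.stabilizer G α := by
      show ((a : G)⁻¹ * g) • α = α
      rw [mul_smul, ← ha', inv_smul_smul]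
    have h1 := hconjH _ hst n hn
    set l := ((a : G)⁻¹ * g) * n * ((a : G)⁻¹ * g)⁻¹ with hl
    have hc : (a : G) * l * (a : G)⁻¹ = l := by
      have := hNc.is_comm.comm a ⟨l, hL h1⟩
      have := congrArg Subtype.val this
      simp only [Subgroup.coe_mul] at this
      rw [this]; group
    have : g * n * g⁻¹ = (a : G) * l * (a : G)⁻¹ := by rw [hl]; group
    rw [this, hc]; exact h1
  let B : Set Ω := {x | ∃ l ∈ L, l • α = x}
  have hB : MulAction.IsBlock G B := by
    have : B = MulAction.orbit L α := by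
      ext x; exact ⟨fun ⟨l, hl, e⟩ => ⟨⟨l, hl⟩, e⟩, fun ⟨l, e⟩ => ⟨l, l.2, e⟩⟩
    rw [this]; exact MulAction.IsBlock.orbit_of_normal α
  rcases hprim.isTrivialBlock_of_isBlock hB with hs | hu
  · left
    rw [Subgroup.eq_bot_iff_forall]
    intro l hl
    exact hinj l (hL hl) 1 N.one_mem
      ((hs ⟨l, hl, rfl⟩ ⟨1, L.one_mem, rfl⟩).trans rfl)
  · right
    refine le_antisymm hL fun n hn => ?_
    obtain ⟨l, hl, e⟩ : n • α ∈ B := hu ▸ Set.mem_univ _
    exact hinj l (hL hl) n hn e ▸ hl

end Cfsg.Agent.S3495
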