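import Cfsg.Statements.S3496
import Cfsg.Agent.Extremely.Suborbit
import Cfsg.Agent.Extremely.Solvable
import Cfsg.Agent.S0043

set_option autoImplicit false
open Cfsg

namespace Cfsg.Agent.S3496

/-- The soluble extremely primitive groups. Let a finite solvable group G act faithfully and primitively on a finite set Ω with p ^ d points (p prime), with non-trivial point stabilizers each acting primitively on every one of its orbits. Then there is a prime q such that every orbit of a point stabilizer G_α other than {α} has exactly q points, q divides p ^ d − 1 but no p ^ i − 1 with 0 < i < d, and G_α has a normal subgroup T of order q with G_α generated by T and one further element and the order of G_α dividing q·d (so G_α is cyclic of order q, or an extension of T by a cyclic group of order dividing d). -/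
theorem result {G : Type*} [Group G] [Finite G] {Ω : Type*} [Fintype Ω] [MulAction G Ω] [FaithfulSMul G Ω] [Group.IsSolvable G] (p d : ℕ) (hp : p.Prime) (hcard : Fintype.card Ω = p ^ d)
    (hprim : MulAction.IsPreprimitive G Ω) (hH : ∀ α : Ω, MulAction.stabilizer G α ≠ ⊥) (hep : ∀ (α : Ω) (ω : Ω), MulAction.IsPreprimitive (MulAction.stabilizer G α) (MulAction.orbit (MulAction.stabilizer G α) ω)) (α : Ω) :
    ∃ q : ℕ, q.Prime ∧ (∀ ω : Ω, ω ≠ α → Nat.card (MulAction.orbit (MulAction.stabilizer G α) ω) = q) ∧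
      q ∣ p ^ d - 1 ∧ (∀ i : ℕ, 0 < i → i < d → ¬ q ∣ p ^ i - 1) ∧
      ∃ T : Subgroup G, T ≤ MulAction.stabilizer G α ∧ MulAction.stabilizer G α ≤ Subgroup.normalizer (T : Set G) ∧ Nat.card T = q ∧
        (∃ h : G, MulAction.stabilizer G α = T ⊔ Subgroup.zpowers h) ∧ Nat.card (MulAction.stabilizer G α) ∣ q * d := by
  classical
  haveI : Fact p.Prime := ⟨hp⟩
  have hΩ : Nat.card Ω = p ^ d := Nat.card_eq_fintype_card.trans hcard
  obtain ⟨ω, hω⟩ := CfsgLib.Extremely.exists_ne_point (Ω := Ω) (hH α)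
  haveI : Nontrivial Ω := ⟨⟨ω, α, hω⟩⟩
  have hd : 0 < d := Nat.pos_of_ne_zero fun h => by
    have h1 := Finite.one_lt_card (α := Ω)
    rw [hΩ, h, pow_zero] at h1
    omega
  haveI : MulAction.IsPretransitive G Ω := hprim.toIsPretransitive
  have hGne : (⊤ : Subgroup G) ≠ ⊥ := fun h => hH α (le_bot_iff.1 (h ▸ le_top))
  obtain ⟨N, ⟨hNn, hNne⟩, hNmin⟩ :=
    (Set.toFinite {N : Subgroup G | N.Normal ∧ N ≠ ⊥}).exists_minimal ⟨⊤, inferInstance, hGne⟩
  haveI := hNn
  have hmin : ∀ K : Subgroup G, K.Normal → K ≤ N → K = ⊥ ∨ K = N := fun K h1 h2 => by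
    by_cases hK : K = ⊥
    · exact Or.inl hK
    · exact Or.inr (le_antisymm h2 (hNmin ⟨h1, hK⟩ h2))
  obtain ⟨hNc, p', hp', hNexp⟩ := Cfsg.Agent.S0043.result N hNne hmin
  haveI : MulAction.IsPretransitive N Ω := by
    refine MulAction.IsQuasiPreprimitive.isPretransitive_of_normal (G := G) fun hfix => hNne ?_
    rw [Subgroup.eq_bot_iff_forall]
    intro n hn
    refine FaithfulSMul.eq_of_smul_eq_smul (α := Ω) fun x => ?_
    rw [one_smul]
    exact (hfix ▸ Set.mem_univ x : x ∈ MulAction.fixedPoints N Ω) ⟨n, hn⟩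
  have hreg : ∀ (n : N) (x : Ω), n • x = x → n = 1 := fun n x hn => by
    refine Subtype.ext (FaithfulSMul.eq_of_smul_eq_smul (α := Ω) fun y => ?_)
    obtain ⟨m, rfl⟩ := MulAction.exists_smul_eq N x y
    rw [Subgroup.coe_one, one_smul]
    show n • m • x = m • x
    rw [← mul_smul, hNc.is_comm.comm n m, mul_smul, hn]
  let e : N ≃ Ω := Equiv.ofBijective (fun n : N => n • α) ⟨fun a b h => by
    have : (b⁻¹ * a) • α = α := by rw [mul_smul, show a • α = b • α from h, inv_smul_smul]
    exact (inv_mul_eq_one.1 (hreg _ α this)).symm, fun x => MulAction.exists_smul_eq N α x⟩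
  have hNcard : Nat.card N = p ^ d := (Nat.card_congr e).trans hΩ
  haveI : Nontrivial N := (Subgroup.nontrivial_iff_ne_bot _).2 hNne
  have hpp : p' = p := by
    obtain ⟨n, hn⟩ := exists_prime_orderOf_dvd_card' (G := N) p (hNcard ▸ dvd_pow_self p hd.ne')
    have h1 : orderOf n ∣ p' := orderOf_dvd_of_pow_eq_one (Subtype.ext (hNexp n n.2))
    rw [hn] at h1
    exact ((Nat.prime_dvd_prime_iff_eq hp hp').1 h1).symm
  subst hpp
  set H := MulAction.stabilizer G α with hHdef
  have hfixα : ∀ h : H, (h : G) • α = α := fun h => h.2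
  have hequiv : ∀ (h : H) (n : N), ((MulAut.conjNormal (h : G) n : N)) • α = h • n • α := fun h n => by
    show ((MulAut.conjNormal (h : G) n : N) : G) • α = (h : G) • (n : G) • α
    rw [MulAut.conjNormal_apply, mul_smul, mul_smul, inv_smul_eq_iff.2 (hfixα h).symm]
  -- the abelian normal subgroup of the stabiliser
  haveI : Nontrivial H := (Subgroup.nontrivial_iff_ne_bot _).2 (hH α)
  haveI : Group.IsSolvable H := inferInstance
  obtain ⟨A, ⟨hAn, hAne⟩, hAmin⟩ := (Set.toFinite {A : Subgroup H | A.Normal ∧ A ≠ ⊥}).exists_minimal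
    ⟨⊤, inferInstance, top_ne_bot⟩
  haveI := hAn
  obtain ⟨hAc, q, hq, hAexp⟩ := Cfsg.Agent.S0043.result A hAne fun K h1 h2 => by
    by_cases hK : K = ⊥
    · exact Or.inl hK
    · exact Or.inr (le_antisymm h2 (hAmin ⟨h1, hK⟩ h2))
  haveI : Fact q.Prime := ⟨hq⟩
  have hAab : ∀ a ∈ A, ∀ b ∈ A, a * b = b * a := fun a ha b hb =>
    congrArg Subtype.val (hAc.is_comm.comm ⟨a, ha⟩ ⟨b, hb⟩)
  letI : CommGroup N := { (inferInstance : Group N) with mul_comm := hNc.is_comm.comm }
  haveI : Finite (Additive N) := inferInstanceAs (Finite N)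
  have hzero : ∀ x : Additive N, p' • x = 0 := fun x => by
    rw [← ofMul_toMul x, ← ofMul_pow]
    exact congrArg Additive.ofMul (Subtype.ext (hNexp _ x.toMul.2))
  let ρ : H →* AddMonoid.End (Additive N) :=
    { toFun := fun h => MonoidHom.toAdditive (MulAut.conjNormal (h : G) : N ≃* N).toMonoidHom
      map_one' := by
        refine AddMonoidHom.ext fun x => ?_
        show Additive.ofMul ((MulAut.conjNormal ((1 : H) : G) : N ≃* N) x.toMul) = x
        rw [Subgroup.coe_one, map_one]; rfl
      map_mul' := fun g h => by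
        refine AddMonoidHom.ext fun x => ?_
        show Additive.ofMul ((MulAut.conjNormal ((g * h : H) : G) : N ≃* N) x.toMul) =
          Additive.ofMul ((MulAut.conjNormal (g : G) : N ≃* N) ((MulAut.conjNormal (h : G) : N ≃* N) x.toMul))
        rw [Subgroup.coe_mul, map_mul]; rfl }
  have hρ : ∀ (h : H) (v : Additive N), (ρ h v).toMul • α = h • v.toMul • α := fun h v => hequiv h v.toMul
  have hne : ∀ v : Additive N, v ≠ 0 → v.toMul • α ≠ α := fun v hv h => hv (congrArg Additive.ofMul (hreg _ α h))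
  have hzeroα : (0 : Additive N).toMul • α = α := by rw [toMul_zero, one_smul]
  have key := @CfsgLib.Extremely.semilinear' H (Additive N) _ _ _ _ p' d q _ _
    (AddCommGroup.zmodModule hzero) ((Nat.card_congr Additive.toMul).trans hNcard) hd ρ A _ hAne hAab hAexp
    (CfsgLib.Extremely.abelian_normal hprim hep hω A hAne hAab).2
    (fun h hh => by
      refine Subtype.ext (FaithfulSMul.eq_of_smul_eq_smul (α := Ω) fun x => ?_)
      obtain ⟨n, rfl⟩ := MulAction.exists_smul_eq N α x
      rw [Subgroup.coe_one, one_smul]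
      have h1 := hρ h (Additive.ofMul n)
      rw [hh, toMul_ofMul] at h1
      exact h1.symm)
    (fun a ha v hv h => by
      have h1 := hρ a v
      rw [h] at h1
      exact CfsgLib.Extremely.eq_one_of_centralizes hprim hep (hne v hv) A hAne
        (Subgroup.mem_centralizer_iff.2 fun b hb => hAab b hb a ha) h1.symm)
    (fun h v => by
      by_cases hv : v = 0
      · exact ⟨1, A.one_mem, by rw [hv, map_zero, map_zero]⟩
      obtain ⟨a, ha, h1⟩ := CfsgLib.Extremely.transitive_of_normal hprim hep (hne v hv) A hAne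
        (MulAction.mem_orbit_self _) (MulAction.mem_orbit _ h)
      refine ⟨a, ha, Additive.toMul.injective (e.injective ?_)⟩
      show (ρ h v).toMul • α = (ρ a v).toMul • α
      rw [hρ, hρ]; exact h1.symm)
    (fun W hW => by
      let S : Subgroup G := (AddSubgroup.toSubgroup' W).map N.subtype
      have hSN : S ≤ N := Subgroup.map_subtype_le _
      have hSn : S.Normal := by
        refine ⟨?_⟩
        rintro _ ⟨m, hm, rfl⟩ g
        obtain ⟨n, hn⟩ : ∃ n : N, n • α = g • α := MulAction.exists_smul_eq N α (g • α)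
        have hh : (n : G)⁻¹ * g ∈ H := by
          rw [hHdef, MulAction.mem_stabilizer_iff, mul_smul, ← show (n : G) • α = g • α from hn, inv_smul_smul]
        have h1 := hW ⟨_, hh⟩ (Additive.ofMul m) hm
        refine ⟨(ρ ⟨_, hh⟩ (Additive.ofMul m)).toMul, h1, ?_⟩
        show ((MulAut.conjNormal ((n : G)⁻¹ * g) m : N) : G) = g * (m : G) * g⁻¹
        have hc : ((n⁻¹ : N) : G) * ((MulAut.conjNormal g m : N) : G) =
            ((MulAut.conjNormal g m : N) : G) * ((n⁻¹ : N) : G) :=
          congrArg Subtype.val (hNc.is_comm.comm _ _)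
        rw [MulAut.conjNormal_apply, Subgroup.coe_inv] at hc
        rw [MulAut.conjNormal_apply]
        calc (n : G)⁻¹ * g * m * ((n : G)⁻¹ * g)⁻¹ = ((n : G)⁻¹ * (g * m * g⁻¹)) * n := by group
          _ = (g * m * g⁻¹ * (n : G)⁻¹) * n := by rw [hc]
          _ = g * m * g⁻¹ := by group
      rcases hmin S hSn hSN with h | h
      · left
        ext x
        rw [AddSubgroup.mem_bot]
        refine ⟨fun hx => ?_, fun hx => hx ▸ W.zero_mem⟩
        have h1 : (x.toMul : G) ∈ S := ⟨x.toMul, hx, rfl⟩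
        rw [h, Subgroup.mem_bot] at h1
        exact congrArg Additive.ofMul (Subtype.ext h1 : x.toMul = 1)
      · right
        ext x
        refine iff_of_true ?_ (AddSubgroup.mem_top x)
        obtain ⟨y, hy, hxy⟩ := h.ge x.toMul.2
        rw [Subtype.ext hxy] at hy
        exact hy)
  obtain ⟨hAq, ⟨h, hgen⟩, hdvd, hq1, hord⟩ := key
  refine ⟨q, hq, fun x hx => ?_, hq1, hord, A.map H.subtype, Subgroup.map_subtype_le _, ?_, ?_, ⟨(h : G), ?_⟩, hdvd⟩
  · rw [(CfsgLib.Extremely.abelian_normal hprim hep hx A hAne hAab).1, hAq]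
  · intro g hg
    rw [Subgroup.mem_normalizer_iff]
    have hc : ∀ k : H, ∀ y ∈ A.map H.subtype, (k : G) * y * (k : G)⁻¹ ∈ A.map H.subtype := by
      rintro k _ ⟨a, ha, rfl⟩
      exact ⟨k * a * k⁻¹, hAn.conj_mem a ha k, rfl⟩
    refine fun y => ⟨hc ⟨g, hg⟩ y, fun hy => ?_⟩
    have := hc (⟨g, hg⟩⁻¹) _ hy
    simpa [mul_assoc] using this
  · rw [Subgroup.card_map_of_injective H.subtype_injective, hAq]
  · have h1 := congrArg (Subgroup.map H.subtype) hgen
    rw [Subgroup.map_sup, MonoidHom.map_zpowers, ← MonoidHom.range_eq_map, Subgroup.range_subtype] at h1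
    exact h1.symm

end Cfsg.Agent.S3496
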