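import Cfsg.Statements.S3498
-- import your own Cfsg.Agent.* helpers here

set_option autoImplicit false
open Cfsg

namespace Cfsg.Agent.S3498

/-- A maximal subgroup of a finite almost simple group does not have prime order. Here G is almost simple in the sense that it has a non-abelian simple normal subgroup T with trivial centralizer. -/
theorem result {G : Type*} [Group G] [Finite G] (T : Subgroup G) [T.Normal] (hT : IsSimpleGroup T) (hTc : ¬ IsMulCommutative T)
    (hC : Subgroup.centralizer (T : Set G) = ⊥) (H : Subgroup G) (hmax : IsCoatom H) : ¬ (Nat.card H).Prime := by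
  classical
  intro hp
  set p := Nat.card H with hpdef
  haveI : Fact p.Prime := ⟨hp⟩
  haveI := hT
  haveI : IsCyclic H := isCyclic_of_prime_card (p := p) rfl
  letI : CommGroup H := IsCyclic.commGroup
  have hTne : T ≠ ⊥ := by
    rw [← Subgroup.nontrivial_iff_ne_bot]; infer_instance
  have hTle : ¬ T ≤ H := fun hle => hTc ⟨⟨fun a b => Subtype.ext
    (congrArg (fun z : H => (z : G)) (mul_comm (⟨a, hle a.2⟩ : H) ⟨b, hle b.2⟩))⟩⟩
  have hHne : H ≠ ⊥ := fun h => hp.ne_one (by rw [hpdef, h, Subgroup.card_bot])
  have hnotnormal : ¬ H.Normal := by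
    intro hn
    haveI := hn
    haveI : (H.subgroupOf T).Normal := Subgroup.Normal.subgroupOf hn T
    rcases Subgroup.Normal.eq_bot_or_eq_top (H := H.subgroupOf T) inferInstance with h | h
    · refine hHne (le_bot_iff.1 (hC ▸ fun x hx => ?_))
      rw [Subgroup.mem_centralizer_iff]
      intro y hy
      exact Subgroup.commute_of_normal_of_disjoint T H inferInstance hn
        (Subgroup.subgroupOf_eq_bot.1 h).symm y x hy hx
    · exact hTle (Subgroup.subgroupOf_eq_top.1 h)
  have hN : Subgroup.normalizer (H : Set G) = H :=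
    (hmax.le_iff.1 Subgroup.le_normalizer).resolve_left
      fun h => hnotnormal (Subgroup.normalizer_eq_top_iff.1 h)
  obtain ⟨P, hP⟩ := (IsPGroup.of_card (G := H) (n := 1) (p := p) (pow_one p).symm).exists_le_sylow
  have hPH : (P : Subgroup G) = H := by
    rcases hmax.le_iff.1 hP with h | h
    · exfalso
      have hG : IsPGroup p G := by
        have := P.2
        rw [h] at this
        exact this.of_equiv Subgroup.topEquiv
      haveI := hG.isNilpotent
      exact hnotnormal (Subgroup.NormalizerCondition.normal_of_coatom H Group.normalizerCondition_of_isNilpotent hmax)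
    · exact h
  have hcop : ¬ p ∣ H.index := hPH ▸ P.not_dvd_index
  by_cases hle : H ≤ T
  · have hTtop : T = ⊤ := (hmax.le_iff.1 hle).resolve_right fun h => hTle h.le
    have hNC : Subgroup.normalizer ((P : Subgroup G) : Set G) ≤
        Subgroup.centralizer ((P : Subgroup G) : Set G) := by
      rw [hPH, hN]
      intro x hx
      rw [Subgroup.mem_centralizer_iff]
      exact fun y hy => congrArg (fun z : H => (z : G)) (mul_comm (⟨y, hy⟩ : H) ⟨x, hx⟩)
    have hcompl := MonoidHom.ker_transferSylow_isComplement' P hNC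
    set K := (MonoidHom.transferSylow P hNC).ker with hK
    haveI : (K.subgroupOf T).Normal := Subgroup.Normal.subgroupOf inferInstance T
    rcases Subgroup.Normal.eq_bot_or_eq_top (H := K.subgroupOf T) inferInstance with h | h
    · have : K = ⊥ := by
        have := Subgroup.subgroupOf_eq_bot.1 h
        rw [hTtop] at this
        exact disjoint_top.1 this
      rw [this, Subgroup.isComplement'_bot_left, hPH] at hcompl
      exact hmax.1 hcompl
    · have : K = ⊤ := top_le_iff.1 (hTtop ▸ Subgroup.subgroupOf_eq_top.1 h)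
      rw [this, Subgroup.isComplement'_top_left, hPH] at hcompl
      exact hHne hcompl
  have hinf : T ⊓ H = ⊥ := by
    rcases (Nat.dvd_prime hp).1 (Subgroup.card_dvd_of_le (inf_le_right : T ⊓ H ≤ H)) with h | h
    · exact Subgroup.eq_bot_of_card_eq _ h
    · exact absurd ((Subgroup.eq_of_le_of_card_ge inf_le_right h.ge) ▸ inf_le_left) hle
  have hTH : T ⊔ H = ⊤ :=
    (hmax.le_iff.1 le_sup_right).resolve_right fun h => hTle (h ▸ le_sup_left)
  have hTindex : T.index = p := by
    rw [← Subgroup.relIndex_top_right, ← hTH, Subgroup.relIndex_sup_left, ← Subgroup.inf_relIndex_right,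
      hinf, Subgroup.relIndex_bot_left]
  have hcardT : Nat.card T = H.index := by
    have e1 := T.card_mul_index
    have e2 := H.card_mul_index
    rw [hTindex] at e1
    refine Nat.eq_of_mul_eq_mul_right hp.pos ?_
    rw [e1, ← e2, mul_comm]
  set q := (Nat.card T).minFac with hq
  have hT1 : Nat.card T ≠ 1 := fun h => hTne (Subgroup.eq_bot_of_card_eq _ h)
  haveI : Fact q.Prime := ⟨Nat.minFac_prime hT1⟩
  have hqT : q ∣ Nat.card T := Nat.minFac_dvd _
  have hqp : q ≠ p := fun h => hcop (hcardT ▸ h ▸ hqT)
  obtain ⟨Q⟩ : Nonempty (Sylow q T) := inferInstance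
  set Q' := (Q : Subgroup T).map T.subtype with hQ'
  have hQcard : Nat.card Q' = Nat.card (Q : Subgroup T) :=
    (Nat.card_congr (Subgroup.equivMapOfInjective _ _ T.subtype_injective).toEquiv).symm
  have hQne : (Q : Subgroup T) ≠ ⊥ := Q.ne_bot_of_dvd_card hqT
  have hfr := Sylow.normalizer_sup_eq_top Q
  set N := Subgroup.normalizer (Q' : Set G) with hNdef
  have hpN : p ∣ Nat.card N := by
    rw [← hTindex, ← Subgroup.relIndex_top_right, ← hfr, Subgroup.relIndex_sup_right]
    exact Subgroup.relIndex_dvd_card _ _
  obtain ⟨x, hx⟩ := exists_prime_orderOf_dvd_card' p hpN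
  set Z := Subgroup.zpowers (x : G) with hZ
  have hZcard : Nat.card Z = p := by rw [Nat.card_zpowers, Subgroup.orderOf_coe, hx]
  obtain ⟨P', hP'⟩ := (IsPGroup.of_card (G := Z) (n := 1) (p := p)
    (by rw [hZcard, pow_one])).exists_le_sylow
  obtain ⟨g, hg⟩ := MulAction.exists_smul_eq G P' P
  have hP'card : Nat.card (P' : Subgroup G) = p := by
    rw [Nat.card_congr (Sylow.equiv P' P).toEquiv, hPH]
  have hZP : Z = (P' : Subgroup G) := Subgroup.eq_of_le_of_card_ge hP' (by rw [hZcard, hP'card])
  set e := (MulAut.conj g).mapSubgroup with he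
  have hmax' : IsCoatom (P' : Subgroup G) := by
    rw [← OrderIso.isCoatom_iff e]
    have : e (P' : Subgroup G) = H := by
      rw [← hPH, ← hg]; rfl
    rwa [this]
  have hZN : (P' : Subgroup G) ≤ N := hZP ▸ Subgroup.zpowers_le.2 x.2
  rcases hmax'.le_iff.1 hZN with h | h
  · have hQn : Q'.Normal := Subgroup.normalizer_eq_top_iff.1 h
    have : (Q : Subgroup T).Normal := by
      have := hQn.subgroupOf T
      rwa [hQ', Subgroup.subgroupOf, Subgroup.comap_map_eq_self_of_injective T.subtype_injective]
        at this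
    have hQtop : (Q : Subgroup T) = ⊤ := (this.eq_bot_or_eq_top).resolve_left hQne
    have hqgroup : IsPGroup q T := by
      have := Q.2
      rw [hQtop] at this
      exact this.of_equiv Subgroup.topEquiv
    haveI : Nontrivial (Subgroup.center T) := hqgroup.center_nontrivial
    have hc : Subgroup.center T = ⊤ :=
      (Subgroup.Normal.eq_bot_or_eq_top inferInstance).resolve_left
        ((Subgroup.nontrivial_iff_ne_bot _).1 inferInstance)
    exact hTc ⟨⟨fun a b => (Subgroup.mem_center_iff.1 (hc ▸ Subgroup.mem_top b) a)⟩⟩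
  · have h1 : Nat.card Q' ∣ Nat.card N := Subgroup.card_dvd_of_le Subgroup.le_normalizer
    rw [h, hP'card, hQcard, Q.card_eq_multiplicity] at h1
    rcases (Nat.dvd_prime hp).1 h1 with h2 | h2
    · exact hQne (Subgroup.eq_bot_of_card_eq _ (by rw [Q.card_eq_multiplicity, h2]))
    · have : q ∣ p := h2 ▸ dvd_pow_self q (by
        intro h3; rw [h3, pow_zero] at h2; exact hp.ne_one h2.symm)
      exact hqp ((Nat.prime_dvd_prime_iff_eq Fact.out hp).1 this)

end Cfsg.Agent.S3498
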