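import Cfsg.Statements.S3504
-- import your own Cfsg.Agent.* helpers here

set_option autoImplicit false
open Cfsg

namespace Cfsg.Agent.S3504

/-- For n ≥ 5, the fixed-point-free permutations of prime order in the symmetric group of degree n form a single conjugacy class if and only if n is a prime power. -/
theorem result (n : ℕ) (hn : 5 ≤ n) :
    Nat.card {c : ConjClasses (Equiv.Perm (Fin n)) // ∃ g : Equiv.Perm (Fin n), ConjClasses.mk g = c ∧ (orderOf g).Prime ∧ ∀ i : Fin n, g i ≠ i} = 1 ↔ IsPrimePow n := by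
  classical
  have hfix : ∀ g : Equiv.Perm (Fin n), (∀ i, g i ≠ i) → g.cycleType.sum = n := by
    intro g hg
    rw [Equiv.Perm.sum_cycleType, Finset.eq_univ_of_forall (fun i => Equiv.Perm.mem_support.2 (hg i)),
      Finset.card_univ, Fintype.card_fin]
  have hex : ∀ p : n.primeFactors, ∃ g : Equiv.Perm (Fin n),
      g.cycleType = Multiset.replicate (n / p) (p : ℕ) := by
    intro p
    obtain ⟨hp, hpn, -⟩ := Nat.mem_primeFactors.1 p.2
    refine (Equiv.Perm.exists_with_cycleType_iff _).2 ⟨?_, fun a ha => ?_⟩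
    · rw [Multiset.sum_replicate, smul_eq_mul, Fintype.card_fin]
      exact Nat.div_mul_le_self n p
    · rw [Multiset.eq_of_mem_replicate ha]
      exact hp.two_le
  choose g hg using hex
  have hord : ∀ p : n.primeFactors, orderOf (g p) = p ∧ ∀ i, g p i ≠ i := by
    intro p
    obtain ⟨hp, hpn, hn0⟩ := Nat.mem_primeFactors.1 p.2
    have hne : n / (p : ℕ) ≠ 0 := (Nat.div_pos (Nat.le_of_dvd (by omega) hpn) hp.pos).ne'
    constructor
    · rw [← Equiv.Perm.lcm_cycleType, hg]
      obtain ⟨j, hj⟩ := Nat.exists_eq_succ_of_ne_zero hne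
      rw [hj]
      apply dvd_antisymm
      · exact Multiset.lcm_dvd.2 fun a ha => (Multiset.eq_of_mem_replicate ha).symm ▸ dvd_rfl
      · exact Multiset.dvd_lcm (Multiset.mem_replicate.2 ⟨by omega, rfl⟩)
    · intro i
      have h : (g p).support = Finset.univ := Finset.eq_univ_of_card _ (by
        rw [← Equiv.Perm.sum_cycleType, hg, Multiset.sum_replicate, smul_eq_mul, Fintype.card_fin,
          Nat.div_mul_cancel hpn])
      exact Equiv.Perm.mem_support.1 (h ▸ Finset.mem_univ i)
  have hp : ∀ p : n.primeFactors, Nat.Prime p := fun p => (Nat.mem_primeFactors.1 p.2).1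
  let F : n.primeFactors → {c : ConjClasses (Equiv.Perm (Fin n)) // ∃ g : Equiv.Perm (Fin n),
      ConjClasses.mk g = c ∧ (orderOf g).Prime ∧ ∀ i : Fin n, g i ≠ i} :=
    fun p => ⟨ConjClasses.mk (g p), g p, rfl, (hord p).1.symm ▸ hp p, (hord p).2⟩
  have hF : Function.Bijective F := by
    constructor
    · intro p q h
      have h1 := Equiv.Perm.isConj_iff_cycleType_eq.1 (ConjClasses.mk_eq_mk_iff_isConj.1 (congrArg Subtype.val h))
      refine Subtype.ext ?_
      rw [← (hord p).1, ← (hord q).1, ← Equiv.Perm.lcm_cycleType, ← Equiv.Perm.lcm_cycleType, h1]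
    · rintro ⟨c, x, rfl, hx, hxf⟩
      obtain ⟨j, hj⟩ := Equiv.Perm.cycleType_prime_order hx
      have hs := hfix x hxf
      rw [hj, Multiset.sum_replicate, smul_eq_mul] at hs
      have hmem : orderOf x ∈ n.primeFactors := Nat.mem_primeFactors.2 ⟨hx, ⟨j + 1, by rw [mul_comm, hs]⟩, by omega⟩
      refine ⟨⟨_, hmem⟩, Subtype.ext (ConjClasses.mk_eq_mk_iff_isConj.2 (Equiv.Perm.isConj_iff_cycleType_eq.2 ?_))⟩
      rw [hg, hj]
      congr 1
      exact Nat.div_eq_of_eq_mul_left hx.pos hs.symm
  rw [← Nat.card_congr (Equiv.ofBijective F hF), Nat.card_eq_fintype_card, Fintype.card_coe,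
    isPrimePow_iff_card_primeFactors_eq_one]

end Cfsg.Agent.S3504
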