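import Cfsg.Statements.S3508
-- import your own Cfsg.Agent.* helpers here

set_option autoImplicit false
open Cfsg

namespace Cfsg.Agent.S3508


lemma lin {M : Type*} [AddCommGroup M] [Finite M] (p m k r : ℕ) [hp : Fact p.Prime]
    [Module (ZMod p) M] (hcard : Nat.card M = p ^ m) (f : M →+ M) (hf : ∀ x, f^[p ^ r] x = x)
    (hk : m < p ^ k) : (∀ x, f^[p ^ k] x = x) ∧ ∀ x, ∑ i ∈ Finset.range (p ^ k), f^[i] x = 0 := by
  haveI : Module.Finite (ZMod p) M := Module.Finite.of_finite
  have hdim : Module.finrank (ZMod p) M = m := by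
    have h := Module.natCard_eq_pow_finrank (K := ZMod p) (V := M)
    rw [hcard, Nat.card_zmod] at h
    exact (Nat.pow_right_injective hp.out.two_le h).symm
  let A : Module.End (ZMod p) M := f.toZModLinearMap p
  have hA : ∀ (i : ℕ) (x : M), (A ^ i) x = f^[i] x := fun i x => Module.End.pow_apply A i x
  have hgeom : ∀ t : ℕ, (∑ i ∈ Finset.range (p ^ t), A ^ i) = (A - 1) ^ (p ^ t - 1) ∧
      A ^ p ^ t - 1 = (A - 1) ^ p ^ t := by
    intro t
    have h1 : ((Polynomial.X : Polynomial (ZMod p)) - 1) ^ p ^ t = Polynomial.X ^ p ^ t - 1 := by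
      rw [sub_pow_char_pow, one_pow]
    have hne : ((Polynomial.X : Polynomial (ZMod p)) - 1) ≠ 0 := Polynomial.X_sub_C_ne_zero 1
    have h2 : (∑ i ∈ Finset.range (p ^ t), (Polynomial.X : Polynomial (ZMod p)) ^ i) =
        (Polynomial.X - 1) ^ (p ^ t - 1) := by
      apply mul_right_cancel₀ hne
      rw [geom_sum_mul, ← pow_succ, Nat.sub_add_cancel (Nat.one_le_pow _ _ hp.out.pos), h1]
    have e1 := congrArg (Polynomial.aeval A) h2
    have e2 := congrArg (Polynomial.aeval A) h1
    simp at e1 e2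
    exact ⟨e1, e2.symm⟩
  have hone : A ^ p ^ r = 1 := by ext x; rw [hA, hf]; rfl
  have hnil : IsNilpotent (A - 1) := ⟨p ^ r, by rw [← (hgeom r).2, hone, sub_self]⟩
  have hm0 : (A - 1) ^ m = 0 := by
    have h := LinearMap.aeval_self_charpoly (A - 1)
    rw [IsNilpotent.charpoly_eq_X_pow_finrank hnil, hdim] at h
    simpa using h
  have hpow : ∀ j, m ≤ j → (A - 1) ^ j = 0 := fun j hj => pow_eq_zero_of_le hj hm0
  refine ⟨fun x => ?_, fun x => ?_⟩
  · have h := sub_eq_zero.1 ((hgeom k).2.trans (hpow _ hk.le))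
    rw [← hA, h]; rfl
  · have h := (hgeom k).1.trans (hpow _ (by omega))
    have := LinearMap.congr_fun h x
    simpa [LinearMap.coe_sum, hA] using this

open MulAction in
lemma key {G : Type*} [Group G] {Ω : Type*} [Fintype Ω] [MulAction G Ω] [FaithfulSMul G Ω]
    (p m k : ℕ) (hp : p.Prime) (hcard : Fintype.card Ω = p ^ m) (N : Subgroup G) [N.Normal]
    (hNc : IsMulCommutative N) (hNp : ∀ n ∈ N, n ^ p = 1) (hNtr : IsPretransitive N Ω)
    (hNreg : ∀ ω : Ω, stabilizer N ω = ⊥) (g : G) (r : ℕ) (hg : g ^ p ^ r = 1) (hk : m < p ^ k) :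
    g ^ p ^ k = 1 := by
  classical
  haveI : Fact p.Prime := ⟨hp⟩
  haveI : Nonempty Ω := Fintype.card_pos_iff.1 (hcard ▸ pow_pos hp.pos m)
  obtain ⟨α⟩ := ‹Nonempty Ω›
  letI : CommGroup N := { (inferInstance : Group N) with mul_comm := hNc.is_comm.comm }
  have hpzero : ∀ x : Additive N, p • x = 0 := fun x => by
    rw [← ofMul_toMul x, ← ofMul_pow]
    exact congrArg Additive.ofMul (Subtype.ext (hNp _ x.toMul.2))
  let e : N ≃ Ω := Equiv.ofBijective (fun n : N => n • α) ⟨fun a b h => by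
      have h1 : b⁻¹ * a ∈ stabilizer N α := by
        rw [mem_stabilizer_iff, mul_smul, show a • α = b • α from h, inv_smul_smul]
      rw [hNreg α, Subgroup.mem_bot] at h1
      exact (inv_mul_eq_one.1 h1).symm, fun x => exists_smul_eq N α x⟩
  haveI : Finite N := Finite.of_equiv Ω e.symm
  haveI : Finite (Additive N) := inferInstanceAs (Finite N)
  have hVcard : Nat.card (Additive N) = p ^ m := by
    rw [← hcard, ← Nat.card_eq_fintype_card]; exact Nat.card_congr (Additive.toMul.trans e)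
  let f : Additive N →+ Additive N :=
    MonoidHom.toAdditive (MulAut.conjNormal g : N ≃* N).toMonoidHom
  have hA : ∀ (j : ℕ) (v : Additive N), f^[j] v = Additive.ofMul (MulAut.conjNormal (g ^ j) v.toMul) := by
    intro j
    induction j with
    | zero => intro v; simp
    | succ j ih =>
      intro v
      rw [Function.iterate_succ_apply', ih, pow_succ', map_mul]
      rfl
  have hfr : ∀ v, f^[p ^ r] v = v := fun v => by rw [hA, hg]; simp
  obtain ⟨hfk, hsum⟩ := @lin _ _ _ p m k r _ (AddCommGroup.zmodModule hpzero) hVcard f hfr hk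
  obtain ⟨n, hn⟩ : ∃ n : N, n • α = g • α := exists_smul_eq N α (g • α)
  have hfix : ((n : G)⁻¹ * g) • α = α := by
    rw [mul_smul, ← show (n : G) • α = g • α from hn, inv_smul_smul]
  have hcconj : ∀ v : N, ((n : G)⁻¹ * g) * v * ((n : G)⁻¹ * g)⁻¹ = g * v * g⁻¹ := by
    intro v
    have h1 := congrArg Subtype.val (hNc.is_comm.comm (n⁻¹) (MulAut.conjNormal g v))
    push_cast [MulAut.conjNormal_apply] at h1
    calc ((n : G)⁻¹ * g) * v * ((n : G)⁻¹ * g)⁻¹ = ((n : G)⁻¹ * (g * v * g⁻¹)) * n := by group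
      _ = (g * v * g⁻¹ * (n : G)⁻¹) * n := by rw [h1]
      _ = g * v * g⁻¹ := by group
  have hformula : ∀ j : ℕ, g ^ j =
      (((∑ i ∈ Finset.range j, f^[i] (Additive.ofMul n)).toMul : N) : G) * ((n : G)⁻¹ * g) ^ j := by
    intro j
    induction j with
    | zero => simp
    | succ j ih =>
      have hstep : ∑ i ∈ Finset.range (j + 1), f^[i] (Additive.ofMul n) =
          Additive.ofMul n + f (∑ i ∈ Finset.range j, f^[i] (Additive.ofMul n)) := by
        rw [Finset.sum_range_succ', map_sum, add_comm]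
        refine congrArg₂ _ (by simp) (Finset.sum_congr rfl fun i _ => ?_)
        rw [Function.iterate_succ_apply']
      rw [hstep]
      generalize (∑ i ∈ Finset.range j, f^[i] (Additive.ofMul n)) = S at ih ⊢
      show g ^ (j + 1) = (n : G) * ((MulAut.conjNormal g S.toMul : N) : G) * _
      rw [MulAut.conjNormal_apply, ← hcconj S.toMul, pow_succ' g, ih, pow_succ' ((n : G)⁻¹ * g)]
      generalize hb : ((n : G)⁻¹ * g) ^ j = b
      group
  have hh : ((n : G)⁻¹ * g) ^ p ^ k = 1 := by
    refine FaithfulSMul.eq_of_smul_eq_smul (α := Ω) fun x => ?_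
    rw [one_smul]
    obtain ⟨v, rfl⟩ := exists_smul_eq N α x
    have hfixj : ∀ j : ℕ, ((n : G)⁻¹ * g) ^ j • α = α := by
      intro j
      induction j with
      | zero => simp
      | succ j ih => rw [pow_succ, mul_smul, hfix, ih]
    have hconjj : ∀ j : ℕ, ((n : G)⁻¹ * g) ^ j * v * (((n : G)⁻¹ * g) ^ j)⁻¹ = g ^ j * v * (g ^ j)⁻¹ := by
      intro j
      induction j with
      | zero => simp
      | succ j ih =>
        have h2 := hcconj (MulAut.conjNormal (g ^ j) v)
        rw [MulAut.conjNormal_apply] at h2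
        have key : ∀ a b : G, (a * b) * v * (a * b)⁻¹ = a * (b * v * b⁻¹) * a⁻¹ := fun a b => by group
        rw [pow_succ' g, pow_succ' ((n : G)⁻¹ * g), key, ih, h2, ← key]
    have h1 := congrArg (fun w => (w.toMul : G)) (hA (p ^ k) (Additive.ofMul v))
    rw [hfk] at h1
    simp [← map_pow] at h1
    have h3 := (hconjj (p ^ k)).trans h1.symm
    rw [mul_inv_eq_iff_eq_mul] at h3
    show ((n : G)⁻¹ * g) ^ p ^ k • (v : G) • α = (v : G) • α
    rw [← mul_smul, h3, mul_smul, hfixj]
  have hz := hsum (Additive.ofMul n)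
  rw [hformula, hz, hh]
  simp

/-- Let a finite group G act faithfully on a set Ω with p ^ m points (p prime) and have an elementary abelian normal p-subgroup N acting regularly on Ω (so G is a group of affine transformations of an m-dimensional space over the field with p elements). If G contains an element of order p ^ r with r ≥ 1, then p ^ (r − 1) ≤ m. In particular an element of order p ^ m forces m ≤ 2, and m ≤ 1 when p is odd. -/
theorem result {G : Type*} [Group G] [Finite G] {Ω : Type*} [Fintype Ω] [MulAction G Ω] [FaithfulSMul G Ω] (p m : ℕ) (hp : p.Prime) (hcard : Fintype.card Ω = p ^ m)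
    (N : Subgroup G) [N.Normal] (hNc : IsMulCommutative N) (hNp : ∀ n ∈ N, n ^ p = 1)
    (hNtr : MulAction.IsPretransitive N Ω) (hNreg : ∀ ω : Ω, MulAction.stabilizer N ω = ⊥)
    (g : G) (r : ℕ) (hr : 1 ≤ r) (hg : orderOf g = p ^ r) :
    p ^ (r - 1) ≤ m ∧ (r = m → m ≤ 2 ∧ (2 < p → m ≤ 1)) := by
  have hle : p ^ (r - 1) ≤ m := by
    by_contra hlt
    have h := key p m (r - 1) hp hcard N hNc hNp hNtr hNreg g r (hg ▸ pow_orderOf_eq_one g) (by omega)
    have h2 := (Nat.pow_dvd_pow_iff_le_right hp.one_lt).1 (hg ▸ orderOf_dvd_of_pow_eq_one h)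
    omega
  refine ⟨hle, ?_⟩
  rintro rfl
  have h3 : ∀ j : ℕ, j + 1 ≤ p ^ j := fun j => Nat.lt_pow_self hp.one_lt
  constructor
  · by_contra hlt
    obtain ⟨s, rfl⟩ : ∃ s, r = s + 3 := ⟨r - 3, by omega⟩
    have h4 : p * (p * (s + 1)) ≤ p ^ (s + 3 - 1) := by
      rw [show s + 3 - 1 = s + 1 + 1 by omega, pow_succ', pow_succ']
      exact Nat.mul_le_mul_left _ (Nat.mul_le_mul_left _ (h3 s))
    nlinarith [hp.two_le, Nat.mul_le_mul hp.two_le (Nat.mul_le_mul hp.two_le (le_refl (s+1)))]
  · intro hp2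
    by_contra hlt
    obtain ⟨s, rfl⟩ : ∃ s, r = s + 2 := ⟨r - 2, by omega⟩
    have h4 : p * (s + 1) ≤ p ^ (s + 2 - 1) := by
      rw [show s + 2 - 1 = s + 1 by omega, pow_succ']
      exact Nat.mul_le_mul_left _ (h3 s)
    nlinarith [Nat.mul_le_mul (show 3 ≤ p from hp2) (le_refl (s+1))]

end Cfsg.Agent.S3508
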