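import Cfsg.Statements.S3511
-- import your own Cfsg.Agent.* helpers here

set_option autoImplicit false
open Cfsg

namespace Cfsg.Agent.S3511

/-- Let a finite group G act faithfully on a set Ω. If every element of G of square-free order has a regular cycle (an orbit of the cyclic group it generates with trivial stabilizer), then every element of G has a regular cycle. -/
theorem result {G : Type*} [Group G] [Finite G] {Ω : Type*} [MulAction G Ω] [FaithfulSMul G Ω]
    (h : ∀ g : G, Squarefree (orderOf g) → ∃ ω : Ω, MulAction.stabilizer (Subgroup.zpowers g) ω = ⊥) (g : G) :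
    ∃ ω : Ω, MulAction.stabilizer (Subgroup.zpowers g) ω = ⊥ := by
  classical
  have hn : orderOf g ≠ 0 := (orderOf_pos g).ne'
  set r := ∏ q ∈ (orderOf g).primeFactors, q with hr
  have hrd : r ∣ orderOf g := Nat.prod_primeFactors_dvd _
  have hsq : Squarefree r := by
    rw [hr]
    exact Finset.squarefree_prod_of_pairwise_isCoprime
      (fun a ha b hb hab => (Nat.coprime_iff_isRelPrime.1 ((Nat.coprime_primes (Nat.prime_of_mem_primeFactors ha) (Nat.prime_of_mem_primeFactors hb)).2 hab)))
      (fun a ha => (Nat.prime_of_mem_primeFactors ha).squarefree)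
  have ho : orderOf (g ^ (orderOf g / r)) = r := orderOf_pow_orderOf_div hn hrd
  obtain ⟨ω, hω⟩ := h (g ^ (orderOf g / r)) (by rw [ho]; exact hsq)
  refine ⟨ω, ?_⟩
  rw [Subgroup.eq_bot_iff_forall]
  rintro ⟨x, hx⟩ hxω
  by_contra hne
  obtain ⟨q, hq, hqd⟩ := Nat.exists_prime_and_dvd (n := orderOf x) (by
    intro h1; exact hne (Subtype.ext (orderOf_eq_one_iff.1 h1)))
  have hy : orderOf (x ^ (orderOf x / q)) = q := orderOf_pow_orderOf_div (orderOf_pos x).ne' hqd
  have hymem : x ^ (orderOf x / q) ∈ Subgroup.zpowers g := Subgroup.pow_mem _ hx _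
  obtain ⟨a, ha⟩ := mem_powers_iff_mem_zpowers.2 hymem
  simp only at ha
  have h1 : g ^ (a * q) = 1 := by
    have := pow_orderOf_eq_one (x ^ (orderOf x / q))
    rwa [hy, ← ha, ← pow_mul] at this
  have hqn : q ∣ orderOf g := by
    rw [← hy, ← ha]; exact orderOf_pow_dvd a
  have hqr : q ∣ r := Finset.dvd_prod_of_mem _ (Nat.mem_primeFactors.2 ⟨hq, hqn, hn⟩)
  have hdiv : orderOf g / r ∣ a := by
    have h2 := orderOf_dvd_of_pow_eq_one h1
    obtain ⟨u, hu⟩ := hqr
    obtain ⟨v, hv⟩ := hrd
    have hr0 : 0 < r := Nat.pos_of_ne_zero hsq.ne_zero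
    rw [hv, hu] at h2
    rw [hv, Nat.mul_div_cancel_left _ hr0]
    have : q * (u * v) ∣ q * a := by rwa [← mul_assoc, mul_comm q a]
    exact (dvd_mul_left v u).trans ((Nat.mul_dvd_mul_iff_left hq.pos).1 this)
  obtain ⟨w, hw⟩ := hdiv
  have hmem : x ^ (orderOf x / q) ∈ Subgroup.zpowers (g ^ (orderOf g / r)) := by
    rw [← ha, hw, pow_mul]; exact Subgroup.npow_mem_zpowers _ _
  have hfix : x ^ (orderOf x / q) ∈ MulAction.stabilizer G ω :=
    Subgroup.pow_mem _ (by simpa [MulAction.mem_stabilizer_iff] using hxω) _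
  have : (⟨_, hmem⟩ : Subgroup.zpowers (g ^ (orderOf g / r))) ∈ MulAction.stabilizer (Subgroup.zpowers (g ^ (orderOf g / r))) ω := by
    simpa [MulAction.mem_stabilizer_iff] using hfix
  rw [hω, Subgroup.mem_bot] at this
  have h3 : x ^ (orderOf x / q) = 1 := congrArg Subtype.val this
  rw [h3, orderOf_one] at hy
  exact hq.ne_one hy.symm

end Cfsg.Agent.S3511
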