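import Cfsg.Statements.S3514
-- import your own Cfsg.Agent.* helpers here

set_option autoImplicit false
open Cfsg

namespace Cfsg.Agent.S3514

theorem relIndex_dvd {X : Type*} [Group X] [Finite X] (S K H : Subgroup X) (hK : K ≤ H)
    (hn : H ≤ Subgroup.normalizer (K : Set X)) : S.relIndex K ∣ S.relIndex H := by
  haveI : (K.subgroupOf H).Normal := Subgroup.normal_subgroupOf_of_le_normalizer hn
  have e : S.relIndex K = (S.subgroupOf H).relIndex (K.subgroupOf H) :=
    (Subgroup.relIndex_subgroupOf hK).symm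
  rw [e, Subgroup.relIndex.eq_def S H]
  set S' := S.subgroupOf H
  set K' := K.subgroupOf H
  refine ⟨(S' ⊔ K').index, ?_⟩
  have a1 := S'.card_mul_index
  have a2 := (S' ⊔ K').card_mul_index
  have a3 := (K'.subgroupOf (S' ⊔ K')).card_mul_index
  rw [Nat.card_congr (Subgroup.subgroupOfEquivOfLe (le_sup_right : K' ≤ S' ⊔ K')).toEquiv,
    ← Subgroup.relIndex.eq_def, Subgroup.relIndex_sup_right] at a3
  have a4 := (S'.subgroupOf K').card_mul_index
  rw [← Subgroup.relIndex.eq_def] at a4
  have a5 := (K'.subgroupOf S').card_mul_index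
  rw [← Subgroup.relIndex.eq_def] at a5
  have a6 : Nat.card (S'.subgroupOf K') = Nat.card (K'.subgroupOf S') := by
    rw [← Subgroup.inf_subgroupOf_right, ← Subgroup.inf_subgroupOf_right K',
      Nat.card_congr (Subgroup.subgroupOfEquivOfLe (inf_le_right : S' ⊓ K' ≤ K')).toEquiv,
      Nat.card_congr (Subgroup.subgroupOfEquivOfLe (inf_le_right : K' ⊓ S' ≤ S')).toEquiv, inf_comm]
  refine Nat.eq_of_mul_eq_mul_left (Nat.card_pos (α := S')) ?_
  rw [a1, ← a2, ← a3, ← a4, ← a5, a6]
  ring

theorem relIndex_sup_dvd {X : Type*} [Group X] [Finite X] (S N H : Subgroup X)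
    (hn : H ≤ Subgroup.normalizer (N : Set X)) :
    S.relIndex (N ⊔ H) ∣ Nat.card N * S.relIndex H := by
  haveI : (N.subgroupOf (N ⊔ H)).Normal :=
    Subgroup.normal_subgroupOf_of_le_normalizer (sup_le Subgroup.le_normalizer hn)
  set L := N ⊔ H
  have hN : N ≤ L := le_sup_left
  have hH : H ≤ L := le_sup_right
  have d1 : Nat.card L ∣ Nat.card N * Nat.card H := by
    rw [← (N.subgroupOf L).card_mul_index, Nat.card_congr (Subgroup.subgroupOfEquivOfLe hN).toEquiv,
      ← Subgroup.relIndex_top_right]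
    refine mul_dvd_mul_left _ ?_
    have htop : (⊤ : Subgroup L) = H.subgroupOf L ⊔ N.subgroupOf L := by
      rw [← Subgroup.subgroupOf_sup hH hN, sup_comm, Subgroup.subgroupOf_self]
    rw [htop, Subgroup.relIndex_sup_right]
    exact (Subgroup.relIndex_dvd_card _ _).trans
      (Nat.card_congr (Subgroup.subgroupOfEquivOfLe hH).toEquiv).dvd
  have d2 : Nat.card (S.subgroupOf H) ∣ Nat.card (S.subgroupOf L) := by
    rw [← Subgroup.inf_subgroupOf_right, ← Subgroup.inf_subgroupOf_right S L,
      Nat.card_congr (Subgroup.subgroupOfEquivOfLe (inf_le_right : S ⊓ H ≤ H)).toEquiv,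
      Nat.card_congr (Subgroup.subgroupOfEquivOfLe (inf_le_right : S ⊓ L ≤ L)).toEquiv]
    exact Subgroup.card_dvd_of_le (inf_le_inf_left _ hH)
  have a1 := (S.subgroupOf L).card_mul_index
  have a2 := (S.subgroupOf H).card_mul_index
  rw [← Subgroup.relIndex.eq_def] at a1 a2
  refine Nat.dvd_of_mul_dvd_mul_left (Nat.card_pos (α := S.subgroupOf H)) ?_
  calc Nat.card (S.subgroupOf H) * S.relIndex L ∣ Nat.card (S.subgroupOf L) * S.relIndex L :=
        mul_dvd_mul_right d2 _
    _ = Nat.card L := a1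
    _ ∣ Nat.card N * Nat.card H := d1
    _ = Nat.card (S.subgroupOf H) * (Nat.card N * S.relIndex H) := by rw [← a2]; ring

/-- Let p be a prime, V a finite vector space over the field with p elements, and H a group of linear transformations of V all of whose orbits on V have size coprime to p. (i) Every normal subgroup K of H has all its orbits on V of size coprime to p. (ii) If N is a group of linear transformations of V of order coprime to p that is normalized by H, then the group generated by N and H has all its orbits on V of size coprime to p. -/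
theorem result (p : ℕ) [Fact p.Prime] {V : Type*} [AddCommGroup V] [Module (ZMod p) V] [Finite V]
    (H : Subgroup (V ≃ₗ[ZMod p] V)) (hH : ∀ v : V, ¬ p ∣ Nat.card {u : V | ∃ h ∈ H, h v = u}) :
    (∀ K : Subgroup (V ≃ₗ[ZMod p] V), K ≤ H → H ≤ Subgroup.normalizer (K : Set (V ≃ₗ[ZMod p] V)) →
        ∀ v : V, ¬ p ∣ Nat.card {u : V | ∃ k ∈ K, k v = u}) ∧
    (∀ N : Subgroup (V ≃ₗ[ZMod p] V), ¬ p ∣ Nat.card N → H ≤ Subgroup.normalizer (N : Set (V ≃ₗ[ZMod p] V)) →
        ∀ v : V, ¬ p ∣ Nat.card {u : V | ∃ x ∈ N ⊔ H, x v = u}) := by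
  classical
  have hset : ∀ (K : Subgroup (V ≃ₗ[ZMod p] V)) (v : V),
      Nat.card {u : V | ∃ k ∈ K, k v = u} =
        (MulAction.stabilizer (V ≃ₗ[ZMod p] V) v).relIndex K := by
    intro K v
    have e : {u : V | ∃ k ∈ K, k v = u} = MulAction.orbit K v :=
      Set.ext fun u => ⟨fun ⟨k, hk, hu⟩ => ⟨⟨k, hk⟩, hu⟩, fun ⟨k, hu⟩ => ⟨k, k.2, hu⟩⟩
    rw [e, Subgroup.relIndex, Nat.card_coe_set_eq, ← MulAction.index_stabilizer]
    rfl
  haveI : Finite (V ≃ₗ[ZMod p] V) := Finite.of_injective _ DFunLike.coe_injective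
  refine ⟨fun K hK hKn v hdvd => ?_, fun N hN hHN v hdvd => ?_⟩
  · have hdvd' := hdvd
    rw [hset] at hdvd'
    apply hH v
    rw [hset]
    exact hdvd'.trans (relIndex_dvd _ _ _ hK hKn)
  · rw [hset] at hdvd
    have h1 := hdvd.trans (relIndex_sup_dvd _ N H hHN)
    rcases (Fact.out : p.Prime).dvd_mul.1 h1 with h | h
    · exact hN h
    · exact hH v (by rw [hset]; exact h)

end Cfsg.Agent.S3514
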