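import Cfsg.Statements.S3515
import Cfsg.Agent.ThreeClosure.Basic

set_option autoImplicit false
open Cfsg

namespace Cfsg.Agent.S3515

theorem zmod_two_cases : ∀ z : ZMod 2, z = 0 ∨ z = 1 := by decide

/-- Every primitive affine permutation group of degree p² is 3-closed. Let p be a prime and G a group of permutations of the plane V = F_p² consisting of affine maps x ↦ Ax + b, containing all translations, and acting primitively on V. Then any permutation σ of V that agrees on every triple of points with some element of G (σ preserves every G-orbit on ordered triples) already lies in G. -/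
theorem result (p : ℕ) [Fact p.Prime] (G : Subgroup (Equiv.Perm (Fin 2 → ZMod p)))
    (haff : (G : Set (Equiv.Perm (Fin 2 → ZMod p))) ⊆ {τ : Equiv.Perm (Fin 2 → ZMod p) | ∃ (A : (Fin 2 → ZMod p) ≃ₗ[ZMod p] (Fin 2 → ZMod p)) (b : Fin 2 → ZMod p), ∀ x, τ x = A x + b})
    (htrans : ∀ b : Fin 2 → ZMod p, ∃ g ∈ G, ∀ x, g x = x + b) (hprim : MulAction.IsPreprimitive G (Fin 2 → ZMod p))
    (σ : Equiv.Perm (Fin 2 → ZMod p)) (hσ : (∀ t : Fin 3 → (Fin 2 → ZMod p), ∃ g ∈ G, ∀ i, σ (t i) = g (t i))) : σ ∈ G := by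
  classical
  let t : Fin 3 → (Fin 2 → ZMod p) := ![0, Pi.single 0 1, Pi.single 1 1]
  obtain ⟨g, hg, hgt⟩ := hσ t
  suffices h : ∀ x, σ x = g x by rwa [Equiv.ext h]
  by_cases hp : p = 2
  · subst hp
    intro x
    by_contra hne
    have hcov : ∀ y : Fin 2 → ZMod 2, y = t 0 ∨ y = t 1 ∨ y = t 2 ∨
        y = ![(1 : ZMod 2), 1] := by
      have h22 := zmod_two_cases
      intro y
      rcases h22 (y 0) with h0 | h0 <;> rcases h22 (y 1) with h1 | h1
      · exact Or.inl (by ext i; fin_cases i <;> simp [t, h0, h1])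
      · exact Or.inr (Or.inr (Or.inl (by ext i; fin_cases i <;> simp [t, h0, h1])))
      · exact Or.inr (Or.inl (by ext i; fin_cases i <;> simp [t, h0, h1]))
      · exact Or.inr (Or.inr (Or.inr (by ext i; fin_cases i <;> simp [h0, h1])))
    have hfix : ∀ i, (g⁻¹ * σ) (t i) = t i := fun i => by
      rw [Equiv.Perm.mul_apply, hgt i]; exact g.symm_apply_apply _
    have hxne : (g⁻¹ * σ) x ≠ x := fun h => hne (by
      exact (Equiv.Perm.inv_eq_iff_eq.1 h))
    have hxi : ∀ i, x ≠ t i := fun i h => hxne (h ▸ hfix i)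
    have hyi : ∀ i, (g⁻¹ * σ) x ≠ t i := fun i h =>
      hxi i ((g⁻¹ * σ).injective (h.trans (hfix i).symm))
    have e1 : x = ![(1 : ZMod 2), 1] := (((hcov x).resolve_left (hxi 0)).resolve_left (hxi 1)).resolve_left (hxi 2)
    have e2 : (g⁻¹ * σ) x = ![(1 : ZMod 2), 1] :=
      (((hcov _).resolve_left (hyi 0)).resolve_left (hyi 1)).resolve_left (hyi 2)
    exact hxne (e2.trans e1.symm)
  obtain ⟨A, b, hA⟩ := haff hg
  obtain ⟨B, c, hB⟩ := CfsgLib.ThreeClosure.isAffine_of_triples hp G (fun k hk => haff hk) σ hσ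
  have e0 := hgt 0
  have e1 := hgt 1
  have e2 := hgt 2
  simp only [t, Matrix.cons_val_zero, Matrix.cons_val_one, Matrix.cons_val, hA, hB, map_zero,
    zero_add] at e0 e1 e2
  subst e0
  intro x
  rw [hA, hB, show x = x 0 • Pi.single 0 1 + x 1 • Pi.single 1 1 by
    ext i; fin_cases i <;> simp]
  simp only [map_add, map_smul]
  rw [add_right_cancel e1, add_right_cancel e2]

end Cfsg.Agent.S3515
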