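import Cfsg.Statements.S3516
import Cfsg.Agent.ThreeClosure.Basic

set_option autoImplicit false
open Cfsg

namespace Cfsg.Agent.S3516

/-- Let p be an odd prime, d ≥ 3, and G a group of affine permutations x ↦ Ax + b of V = F_p^d containing all translations and all maps x ↦ Ax with A of determinant 1. Then the 3-closure of G is the full affine group: a permutation σ of V agrees on every triple of points with some element of G if and only if σ is an affine map. -/
theorem result (p : ℕ) [Fact p.Prime] (hp : p ≠ 2) (d : ℕ) (hd : 3 ≤ d) (G : Subgroup (Equiv.Perm (Fin d → ZMod p)))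
    (haff : (G : Set (Equiv.Perm (Fin d → ZMod p))) ⊆ {τ : Equiv.Perm (Fin d → ZMod p) | ∃ (A : (Fin d → ZMod p) ≃ₗ[ZMod p] (Fin d → ZMod p)) (b : Fin d → ZMod p), ∀ x, τ x = A x + b})
    (htrans : ∀ b : Fin d → ZMod p, ∃ g ∈ G, ∀ x, g x = x + b)
    (hsl : ∀ A : (Fin d → ZMod p) ≃ₗ[ZMod p] (Fin d → ZMod p), LinearMap.det (A : (Fin d → ZMod p) →ₗ[ZMod p] (Fin d → ZMod p)) = 1 → ∃ g ∈ G, ∀ x, g x = A x)
    (σ : Equiv.Perm (Fin d → ZMod p)) :
    (∀ t : Fin 3 → (Fin d → ZMod p), ∃ g ∈ G, ∀ i, σ (t i) = g (t i)) ↔ σ ∈ {τ : Equiv.Perm (Fin d → ZMod p) | ∃ (A : (Fin d → ZMod p) ≃ₗ[ZMod p] (Fin d → ZMod p)) (b : Fin d → ZMod p), ∀ x, τ x = A x + b} := by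
  classical
  constructor
  · exact fun h => CfsgLib.ThreeClosure.isAffine_of_triples hp G (fun k hk => haff hk) σ h
  rintro ⟨A, b, hA⟩ t
  let W : Submodule (ZMod p) (Fin d → ZMod p) :=
    Submodule.span (ZMod p) (Set.range ![t 1 - t 0, t 2 - t 0])
  have hW : W < ⊤ := lt_top_iff_ne_top.2 fun h => by
    have h1 := finrank_range_le_card (R := ZMod p) ![t 1 - t 0, t 2 - t 0]
    rw [Set.finrank] at h1
    simp only [W] at h
    rw [h, finrank_top, Module.finrank_fin_fun, Fintype.card_fin] at h1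
    omega
  obtain ⟨f, hf, hfW⟩ := Submodule.exists_dual_map_eq_bot_of_lt_top hW inferInstance
  have hfW' : ∀ x ∈ W, f x = 0 := fun x hx => by
    have : f x ∈ Submodule.map f W := Submodule.mem_map_of_mem hx
    rwa [hfW, Submodule.mem_bot] at this
  obtain ⟨e, he⟩ : ∃ e, f e ≠ 0 := by
    by_contra hh; push_neg at hh; exact hf (LinearMap.ext fun x => hh x)
  set dt := LinearMap.det (A : (Fin d → ZMod p) →ₗ[ZMod p] (Fin d → ZMod p)) with hdt
  have hdt0 : dt ≠ 0 := (LinearEquiv.isUnit_det' A).ne_zero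
  set v := ((dt⁻¹ - 1) / f e) • e with hv
  have hfv : 1 + f v = dt⁻¹ := by
    rw [hv, map_smul, smul_eq_mul, div_mul_cancel₀ _ he]; ring
  have hu : IsUnit (1 + f v) := by rw [hfv]; exact (isUnit_iff_ne_zero.2 (inv_ne_zero hdt0))
  let C : (Fin d → ZMod p) ≃ₗ[ZMod p] (Fin d → ZMod p) := LinearEquiv.dilatransvection hu
  have hC : (C : (Fin d → ZMod p) →ₗ[ZMod p] (Fin d → ZMod p)) = LinearMap.transvection f v :=
    LinearMap.ext fun x => rfl
  have hCW : ∀ x ∈ W, C x = x := fun x hx => by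
    show x + f x • v = x
    rw [hfW' x hx, zero_smul, add_zero]
  obtain ⟨g₁, hg₁, hg₁e⟩ := hsl (C.trans A) (by
    rw [LinearEquiv.coe_trans, LinearMap.det_comp, hC, LinearMap.transvection.det, hfv, ← hdt,
      mul_inv_cancel₀ hdt0])
  obtain ⟨g₂, hg₂, hg₂e⟩ := htrans (σ (t 0) - (C.trans A) (t 0))
  refine ⟨g₂ * g₁, G.mul_mem hg₂ hg₁, fun i => ?_⟩
  rw [Equiv.Perm.mul_apply, hg₂e, hg₁e]
  have hi : C (t i - t 0) = t i - t 0 := hCW _ (by
    fin_cases i
    · simp
    · exact Submodule.subset_span ⟨0, rfl⟩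
    · exact Submodule.subset_span ⟨1, rfl⟩)
  have key : (C.trans A) (t i) - (C.trans A) (t 0) = A (t i) - A (t 0) := by
    rw [← map_sub, LinearEquiv.trans_apply, hi, map_sub]
  rw [show (C.trans A) (t i) + (σ (t 0) - (C.trans A) (t 0))
    = ((C.trans A) (t i) - (C.trans A) (t 0)) + σ (t 0) by abel, key, hA, hA]
  abel

end Cfsg.Agent.S3516
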