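import Cfsg.Statements.S3517
import Cfsg.Agent.ThreeClosure.Basic

set_option autoImplicit false
open Cfsg

namespace Cfsg.Agent.S3517

theorem eq_of_sum : ∀ x y z : ZMod 2, x - z + (y - z) = 0 → x = y := by decide

/-- For d ≥ 3, the 3-closure of the affine group AGL_d(2) acting on F_2^d is the full symmetric group: every permutation of F_2^d agrees on every ordered triple of points with some affine map (AGL_d(2) is 3-transitive). -/
theorem result (d : ℕ) (hd : 3 ≤ d) (σ : Equiv.Perm (Fin d → ZMod 2)) (t : Fin 3 → (Fin d → ZMod 2)) :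
    ∃ (A : (Fin d → ZMod 2) ≃ₗ[ZMod 2] (Fin d → ZMod 2)) (b : Fin d → ZMod 2), ∀ i, σ (t i) = A (t i) + b := by
  classical
  obtain ⟨s, hs, hts⟩ : ∃ s : Fin 3 → (Fin d → ZMod 2), Function.Injective s ∧ ∀ i, ∃ j, t i = s j := by
    obtain ⟨T, hT1, -, hT3⟩ := Finset.exists_subsuperset_card_eq (n := 3)
      (Finset.subset_univ (Finset.univ.image t))
      (le_trans Finset.card_image_le (by simp))
      (by
        rw [Finset.card_univ, Fintype.card_fun, ZMod.card, Fintype.card_fin]
        calc 3 ≤ 2 ^ 3 := by norm_num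
          _ ≤ 2 ^ d := Nat.pow_le_pow_right (by norm_num) hd)
    let E := (Finset.equivFinOfCardEq hT3).symm
    exact ⟨fun i => (E i : _), Subtype.val_injective.comp E.injective, fun i =>
      ⟨E.symm ⟨t i, hT1 (Finset.mem_image_of_mem _ (Finset.mem_univ i))⟩, by simp⟩⟩
  have hind : ∀ w : Fin 3 → (Fin d → ZMod 2), Function.Injective w →
      LinearIndependent (ZMod 2) ![w 1 - w 0, w 2 - w 0] := by
    intro w hw
    rw [LinearIndependent.pair_iff]
    intro a b hab
    have h2 : ∀ z : ZMod 2, z = 0 ∨ z = 1 := by decide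
    rcases h2 a with rfl | rfl <;> rcases h2 b with rfl | rfl <;>
      simp only [zero_smul, one_smul, zero_add, add_zero] at hab
    · exact ⟨rfl, rfl⟩
    · exact absurd (hw (sub_eq_zero.1 hab)) (by decide)
    · exact absurd (hw (sub_eq_zero.1 hab)) (by decide)
    · refine absurd (hw (a₁ := 1) (a₂ := 2) ?_) (by decide)
      ext k
      have := congrFun hab k
      simp only [Pi.add_apply, Pi.sub_apply, Pi.zero_apply] at this
      revert this
      generalize w 1 k = x; generalize w 2 k = y; generalize w 0 k = z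
      exact eq_of_sum x y z
  obtain ⟨A, hA⟩ := CfsgLib.ThreeClosure.exists_equiv_extend _ _ (hind s hs)
    (hind (σ ∘ s) (σ.injective.comp hs))
  refine ⟨A, σ (s 0) - A (s 0), fun i => ?_⟩
  obtain ⟨j, hj⟩ := hts i
  rw [hj]
  have h1 := hA 0
  have h2 := hA 1
  simp only [Matrix.cons_val_zero, Matrix.cons_val_one, Function.comp_apply, map_sub] at h1 h2
  fin_cases j
  · show σ (s 0) = A (s 0) + (σ (s 0) - A (s 0))
    abel
  · show σ (s 1) = A (s 1) + (σ (s 0) - A (s 0))
    rw [eq_add_of_sub_eq' h1]; abel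
  · show σ (s 2) = A (s 2) + (σ (s 0) - A (s 0))
    rw [eq_add_of_sub_eq' h2]; abel

end Cfsg.Agent.S3517
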