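import Cfsg.Statements.S3518
-- import your own Cfsg.Agent.* helpers here

set_option autoImplicit false
open Cfsg

namespace Cfsg.Agent.S3518


open Polynomial in
/-- Few directions force an affine map (Rédei). -/
theorem redei (p : ℕ) [hp : Fact p.Prime] (h3 : 3 ≤ p) (f : ZMod p → ZMod p) (S : Finset (ZMod p))
    (hS : (p + 1) / 2 ≤ S.card) (hbij : ∀ c ∈ S, Function.Bijective fun x => f x - c * x) :
    ∃ a b : ZMod p, ∀ x, f x = a * x + b := by
  classical
  obtain ⟨m, rfl⟩ : ∃ m, p = 2 * m + 1 := by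
    rcases hp.out.eq_two_or_odd with h | h
    · omega
    · exact ⟨p / 2, by omega⟩
  let P : (ZMod (2 * m + 1))[X] := Lagrange.interpolate Finset.univ id f
  have hP : ∀ x, P.eval x = f x := fun x =>
    Lagrange.eval_interpolate_at_node f Function.injective_id.injOn (Finset.mem_univ x)
  have hdeg : P.natDegree < 2 * m + 1 := by
    by_cases h0 : P = 0
    · rw [h0, natDegree_zero]; omega
    have h := Lagrange.degree_interpolate_lt f (v := id) (s := (Finset.univ : Finset (ZMod (2 * m + 1))))
      Function.injective_id.injOn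
    rw [Finset.card_univ, ZMod.card, degree_eq_natDegree h0] at h
    exact_mod_cast h
  have hlow : ∀ i < 2 * m, ∑ x : ZMod (2 * m + 1), x ^ i = 0 := fun i hi => by
    refine FiniteField.sum_pow_lt_card_sub_one _ i ?_
    rw [ZMod.card]; omega
  have hzero : ∀ a b : ℕ, 1 ≤ b → a + b ≤ m + 1 → a + b < 2 * m →
      ∑ x : ZMod (2 * m + 1), x ^ a * f x ^ b = 0 := by
    intro a b hb hab hab2
    set j := a + b with hj
    let T : ℕ → ZMod (2 * m + 1) := fun i => ∑ x : ZMod (2 * m + 1), x ^ i * f x ^ (j - i)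
    let Q : (ZMod (2 * m + 1))[X] :=
      ∑ i ∈ Finset.range j, monomial i ((j.choose i : ZMod (2 * m + 1)) * (-1) ^ i * T i)
    have heval : ∀ c ∈ S, Q.eval c = 0 := by
      intro c hc
      have h1 : ∑ x : ZMod (2 * m + 1), (f x - c * x) ^ j = 0 :=
        (Function.Bijective.sum_comp (hbij c hc) fun y => y ^ j).trans (hlow j hab2)
      have h2 : ∀ x : ZMod (2 * m + 1), (f x - c * x) ^ j =
          ∑ i ∈ Finset.range (j + 1), (j.choose i : ZMod (2 * m + 1)) * (-1) ^ i * (x ^ i * f x ^ (j - i)) * c ^ i := by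
        intro x
        rw [show f x - c * x = (-1) * c * x + f x by ring, add_pow]
        refine Finset.sum_congr rfl fun i _ => ?_
        rw [mul_pow, mul_pow]; ring
      rw [Finset.sum_congr rfl (fun x _ => h2 x), Finset.sum_comm, Finset.sum_range_succ] at h1
      have hlast : ∑ x : ZMod (2 * m + 1), (j.choose j : ZMod (2 * m + 1)) * (-1) ^ j * (x ^ j * f x ^ (j - j)) * c ^ j = 0 := by
        simp only [Nat.sub_self, pow_zero, mul_one]
        rw [← Finset.sum_mul, ← Finset.mul_sum, hlow j hab2, mul_zero, zero_mul]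
      rw [hlast, add_zero] at h1
      rw [eval_finset_sum, ← h1]
      refine Finset.sum_congr rfl fun i _ => ?_
      rw [eval_monomial, Finset.mul_sum, Finset.sum_mul]
    have hQ : Q = 0 := by
      refine eq_zero_of_natDegree_lt_card_of_eval_eq_zero' Q S heval (lt_of_lt_of_le ?_ hS)
      have : Q.natDegree ≤ j - 1 := natDegree_sum_le_of_forall_le _ _ fun i hi =>
        (natDegree_monomial_le _).trans (by have := Finset.mem_range.1 hi; omega)
      omega
    have hc := congrArg (fun q : (ZMod (2 * m + 1))[X] => q.coeff a) hQ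
    simp only [Q, finset_sum_coeff, coeff_monomial, coeff_zero, Finset.sum_ite_eq', Finset.mem_range,
      if_pos (show a < j by omega)] at hc
    rcases mul_eq_zero.1 hc with h | h
    · rcases mul_eq_zero.1 h with h | h
      · exfalso
        rw [ZMod.natCast_eq_zero_iff] at h
        have h1 : 2 * m + 1 ∣ j.factorial := by
          rw [← Nat.choose_mul_factorial_mul_factorial (show a ≤ j by omega), mul_assoc]
          exact Dvd.dvd.mul_right h _
        have := (Nat.Prime.dvd_factorial hp.out).1 h1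
        omega
      · exact absurd h (pow_ne_zero _ (neg_ne_zero.2 one_ne_zero))
    · simpa [T, hj] using h
  have htop : ∀ Q : (ZMod (2 * m + 1))[X], Q.natDegree ≤ 2 * m →
      ∑ x : ZMod (2 * m + 1), Q.eval x = - Q.coeff (2 * m) := by
    intro Q hQ
    simp only [eval_eq_sum_range' (show Q.natDegree < 2 * m + 1 by omega)]
    rw [Finset.sum_comm, Finset.sum_range_succ, Finset.sum_eq_zero (fun i hi => by
      rw [← Finset.mul_sum, hlow i (Finset.mem_range.1 hi), mul_zero]), zero_add, ← Finset.mul_sum]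
    have hsum : ∑ x : ZMod (2 * m + 1), x ^ (2 * m) = -1 := by
      have h1 : ∀ x : ZMod (2 * m + 1), x ^ (2 * m) = if x = 0 then 0 else 1 := by
        intro x
        split_ifs with h
        · rw [h, zero_pow (by omega)]
        · simpa using ZMod.pow_card_sub_one_eq_one h
      simp_rw [h1]
      rw [Finset.sum_ite, Finset.sum_const_zero, zero_add, Finset.sum_const, nsmul_eq_mul, mul_one,
        Finset.filter_ne', Finset.card_erase_of_mem (Finset.mem_univ _), Finset.card_univ, ZMod.card,
        show 2 * m + 1 - 1 = 2 * m by omega, eq_neg_iff_add_eq_zero,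
        ← Nat.cast_one (R := ZMod (2 * m + 1)), ← Nat.cast_add, ZMod.natCast_self]
    rw [hsum, mul_neg, mul_one]
  by_cases hk : P.natDegree ≤ 1
  · obtain ⟨a, b, hab⟩ := exists_eq_X_add_C_of_natDegree_le_one hk
    exact ⟨a, b, fun x => by rw [← hP, hab]; simp⟩
  exfalso
  set k := P.natDegree with hk'
  set b := 2 * m / k with hb
  set a := 2 * m % k with ha
  have hsplit : a + k * b = 2 * m := Nat.mod_add_div _ _
  have hb1 : 1 ≤ b := Nat.div_pos (by omega) (by omega)
  have hak : a < k := Nat.mod_lt _ (by omega)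
  have hbound : a + b ≤ m + 1 := by
    by_contra hc
    rcases eq_or_lt_of_le (show 2 ≤ k by omega) with h | h
    · rw [← h] at hsplit hak; omega
    · rcases eq_or_lt_of_le hb1 with h' | h'
      · rw [← h', mul_one] at hsplit; omega
      · nlinarith [Nat.mul_le_mul (show 3 ≤ k from h) (show 2 ≤ b from h')]
  have hlt : a + b < 2 * m := by
    have : 2 * b ≤ k * b := Nat.mul_le_mul_right b (show 2 ≤ k by omega)
    omega
  have hP0 : P ≠ 0 := fun h => hk (by rw [hk', h, natDegree_zero]; norm_num)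
  have hQdeg : (X ^ a * P ^ b).natDegree = 2 * m := by
    rw [natDegree_mul (pow_ne_zero _ X_ne_zero) (pow_ne_zero _ hP0), natDegree_X_pow, natDegree_pow, ← hk',
      mul_comm b k, hsplit]
  have h1 := htop _ hQdeg.le
  simp only [eval_mul, eval_pow, eval_X, hP, hzero a b hb1 hbound hlt] at h1
  have h2 : (X ^ a * P ^ b).leadingCoeff = 0 := by
    rw [leadingCoeff, hQdeg]; exact neg_eq_zero.1 h1.symm
  exact mul_ne_zero (pow_ne_zero _ X_ne_zero) (pow_ne_zero _ hP0) (leadingCoeff_eq_zero.1 h2)

/-- Closures of subgroups of the one-dimensional affine group. Let p be a prime and G a group of permutations of F_p lying in the affine group AGL₁(p) = {x ↦ ax + b, a ≠ 0} and containing all translations. (1) If G is a proper subgroup of AGL₁(p), then G is 2-closed: a permutation of F_p agreeing on every ordered pair of points with some element of G lies in G. (2) Every permutation of F_p agrees on every ordered pair with some element of AGL₁(p) (the 2-closure of AGL₁(p) is the symmetric group). (3) AGL₁(p)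 is 3-closed: a permutation agreeing on every ordered triple with some affine map is affine. -/
theorem result (p : ℕ) [Fact p.Prime] (G : Subgroup (Equiv.Perm (ZMod p))) (hG : G ≤ Cfsg.affineGroup (ZMod p))
    (htrans : ∀ b : ZMod p, ∃ g ∈ G, ∀ x, g x = x + b) :
    (G ≠ Cfsg.affineGroup (ZMod p) → ∀ σ : Equiv.Perm (ZMod p), (∀ t : Fin 2 → ZMod p, ∃ g ∈ G, ∀ i, σ (t i) = g (t i)) → σ ∈ G) ∧
    (∀ σ : Equiv.Perm (ZMod p), (∀ t : Fin 2 → ZMod p, ∃ g ∈ Cfsg.affineGroup (ZMod p), ∀ i, σ (t i) = g (t i))) ∧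
    (∀ σ : Equiv.Perm (ZMod p), (∀ t : Fin 3 → ZMod p, ∃ g ∈ Cfsg.affineGroup (ZMod p), ∀ i, σ (t i) = g (t i)) → σ ∈ Cfsg.affineGroup (ZMod p)) := by
  classical
  have haff : ∀ (a : (ZMod p)ˣ) (b : ZMod p), ∃ g ∈ Cfsg.affineGroup (ZMod p), ∀ x, g x = (a : ZMod p) * x + b :=
    fun a b => ⟨(Units.mulLeft a).trans (Equiv.addRight b), ⟨a, b, fun x => rfl⟩, fun x => rfl⟩
  refine ⟨?_, ?_, ?_⟩
  · intro hne σ hσ
    let M : Subgroup (ZMod p)ˣ :=
      { carrier := {a | ∃ g ∈ G, ∃ b, ∀ x, g x = (a : ZMod p) * x + b}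
        one_mem' := ⟨1, G.one_mem, 0, fun x => by simp⟩
        mul_mem' := by
          rintro a c ⟨g, hg, b, hgb⟩ ⟨h, hh, d, hhd⟩
          exact ⟨g * h, G.mul_mem hg hh, (a : ZMod p) * d + b, fun x => by
            rw [Equiv.Perm.mul_apply, hgb, hhd, Units.val_mul]; ring⟩
        inv_mem' := by
          rintro a ⟨g, hg, b, hgb⟩
          refine ⟨g⁻¹, G.inv_mem hg, -((a⁻¹ : (ZMod p)ˣ) : ZMod p) * b, fun x => ?_⟩
          apply g.injective
          rw [Equiv.Perm.inv_def, Equiv.apply_symm_apply, hgb, mul_add, ← mul_assoc, Units.mul_inv, one_mul,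
            ← mul_assoc, mul_neg, Units.mul_inv, neg_one_mul, add_assoc, neg_add_cancel, add_zero] }
    have hM : M ≠ ⊤ := by
      intro htop
      refine hne (le_antisymm hG ?_)
      rintro τ ⟨a, b, hτ⟩
      obtain ⟨g, hg, d, hgd⟩ := (htop.symm ▸ Subgroup.mem_top a : a ∈ M)
      obtain ⟨t, ht, htr⟩ := htrans (b - d)
      have : τ = t * g := Equiv.ext fun x => by rw [Equiv.Perm.mul_apply, htr, hgd, hτ]; ring
      rw [this]
      exact G.mul_mem ht hg
    have hp3 : 3 ≤ p := by
      have := (Fact.out : p.Prime).two_le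
      by_contra hp3
      obtain rfl : p = 2 := by omega
      exact hM (eq_top_iff.2 fun a _ => by
        obtain rfl : a = 1 := Subsingleton.elim _ _
        exact M.one_mem)
    have hcardM : 2 * Nat.card M ≤ p - 1 := by
      have h1 := Subgroup.card_mul_index M
      rw [Nat.card_units, Nat.card_zmod] at h1
      have h2 : 1 < M.index := Nat.one_lt_iff_ne_zero_and_ne_one.2
        ⟨Subgroup.index_ne_zero_of_finite, fun h => hM (Subgroup.index_eq_one.1 h)⟩
      rw [← h1, mul_comm 2]
      exact Nat.mul_le_mul_left _ h2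
    let S : Finset (ZMod p) := Finset.univ \ (Finset.univ.filter (· ∈ M)).image Units.val
    have hS : (p + 1) / 2 ≤ S.card := by
      rw [Finset.card_univ_diff, ZMod.card, Finset.card_image_of_injective _ Units.val_injective]
      have : (Finset.univ.filter (· ∈ M)).card = Nat.card M := by
        rw [Nat.card_eq_fintype_card]
        exact (Fintype.card_of_subtype (p := fun a : (ZMod p)ˣ => a ∈ M) _ (fun a => by simp)).symm
      rw [this]
      omega
    have hpair : ∀ x y : ZMod p, x ≠ y → ∃ a ∈ M, σ x - σ y = ((a : (ZMod p)ˣ) : ZMod p) * (x - y) := by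
      intro x y _
      obtain ⟨g, hg, hgi⟩ := hσ ![x, y]
      obtain ⟨a, b, hab⟩ := hG hg
      have e1 : σ x = g x := hgi 0
      have e2 : σ y = g y := hgi 1
      exact ⟨a, ⟨g, hg, b, hab⟩, by rw [e1, e2, hab, hab]; ring⟩
    obtain ⟨a, b, hab⟩ := redei p hp3 σ S hS fun c hc => Finite.injective_iff_bijective.1 fun x y hxy => by
      by_contra hne'
      obtain ⟨a, ha, e⟩ := hpair x y hne'
      have h1 : σ x - c * x = σ y - c * y := hxy
      have hc' : c = (a : ZMod p) := mul_right_cancel₀ (sub_ne_zero.2 hne') (by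
        linear_combination e - h1)
      exact (Finset.mem_sdiff.1 hc).2 (Finset.mem_image.2 ⟨a, by simp [ha], hc'.symm⟩)
    obtain ⟨u, hu, hu'⟩ := hpair 1 0 one_ne_zero
    rw [hab, hab] at hu'
    have hau : a = u := by linear_combination hu'
    obtain ⟨g, hg, d, hgd⟩ := hu
    obtain ⟨t, ht, htr⟩ := htrans (b - d)
    have : σ = t * g := Equiv.ext fun x => by rw [Equiv.Perm.mul_apply, htr, hgd, hab, hau]; ring
    rw [this]
    exact G.mul_mem ht hg
  · intro σ t
    by_cases h : t 0 = t 1
    · obtain ⟨g, hg, hgx⟩ := haff 1 (σ (t 0) - t 0)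
      refine ⟨g, hg, fun i => ?_⟩
      rw [hgx, Units.val_one]
      fin_cases i
      · simp
      · simp [← h]
    · have h1 : (σ (t 0) - σ (t 1)) / (t 0 - t 1) ≠ 0 :=
        div_ne_zero (sub_ne_zero.2 fun e => h (σ.injective e)) (sub_ne_zero.2 h)
      obtain ⟨g, hg, hgx⟩ := haff (Units.mk0 _ h1) (σ (t 0) - (σ (t 0) - σ (t 1)) / (t 0 - t 1) * t 0)
      refine ⟨g, hg, fun i => ?_⟩
      rw [hgx, Units.val_mk0]
      have h2 := div_mul_cancel₀ (σ (t 0) - σ (t 1)) (sub_ne_zero.2 h)
      fin_cases i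
      · simp
      · simp only [Fin.mk_one, Fin.isValue]
        linear_combination h2
  · intro σ hσ
    obtain ⟨g, hg, hgi⟩ := hσ ![0, 1, 0]
    suffices σ = g by rw [this]; exact hg
    refine Equiv.ext fun x => ?_
    obtain ⟨h, hh, hhi⟩ := hσ ![0, 1, x]
    obtain ⟨a, b, hab⟩ := hg
    obtain ⟨c, d, hcd⟩ := hh
    have e0 : g 0 = h 0 := (hgi 0).symm.trans (hhi 0)
    have e1 : g 1 = h 1 := (hgi 1).symm.trans (hhi 1)
    have e2 : σ x = h x := hhi 2
    rw [hab, hcd] at e0 e1
    rw [e2, hab, hcd]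
    linear_combination (x - 1) * e0 - x * e1

end Cfsg.Agent.S3518
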