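import Cfsg.Statements.S3532
import Cfsg.Agent.SL2.PSLData
import Cfsg.Agent.AffineLine.Spectrum
-- import your own Cfsg.Agent.* helpers here

set_option autoImplicit false
open Cfsg

namespace Cfsg.Agent.S3532

/-- Let q ≥ 4 be a prime power and L = PSL(2,q). There is a finite solvable group with the same set of element orders as L × L (so L × L is not determined by its spectrum). -/
theorem result {F : Type*} [Field F] [Fintype F] (hF : 4 ≤ Fintype.card F) :
    ∃ (H : Type) (_ : Group H) (_ : Finite H), Group.IsSolvable H ∧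
      Set.range (orderOf : H → ℕ) = Set.range (orderOf : Matrix.ProjectiveSpecialLinearGroup (Fin 2) F × Matrix.ProjectiveSpecialLinearGroup (Fin 2) F → ℕ) := by
  classical
  set p := ringChar F with hp
  haveI : CharP F p := ringChar.charP F
  obtain ⟨n, hpp, hn⟩ := FiniteField.card F p
  haveI : Fact p.Prime := ⟨hpp⟩
  haveI : NeZero (2 * (n : ℕ)) := ⟨by have := n.pos; omega⟩
  let K := GaloisField p (2 * (n : ℕ))
  haveI := Fintype.ofFinite K
  have hK : Nat.card Kˣ = Fintype.card F * Fintype.card F - 1 := by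
    rw [Nat.card_units, GaloisField.card p _ (NeZero.ne _), hn, ← pow_add, ← two_mul]
  set q := Fintype.card F
  set d := Nat.gcd 2 (q - 1)
  have hd1 : d ∣ q - 1 := Nat.gcd_dvd_right _ _
  have hd2 : d ∣ q + 1 := by
    rw [show q + 1 = (q - 1) + 2 by omega]
    exact Nat.dvd_add hd1 (Nat.gcd_dvd_left _ _)
  have hunits : q * q - 1 = (q - 1) * (q + 1) := by
    obtain ⟨k, hk⟩ : ∃ k, q = k + 1 := ⟨q - 1, by omega⟩
    rw [hk, Nat.add_sub_cancel]; ring_nf; omega
  have mk : ∀ m : ℕ, m ∣ q * q - 1 → ∃ u : Kˣ, orderOf u = m := by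
    intro m hm
    obtain ⟨g, hg⟩ := IsCyclic.exists_ofOrder_eq_natCard (α := Kˣ)
    rw [hK] at hg
    obtain ⟨c, hc⟩ := hm
    have hc0 : c ≠ 0 := fun h => by
      rw [h, mul_zero] at hc
      have := (orderOf_pos g)
      omega
    exact ⟨g ^ c, by rw [orderOf_pow_of_dvd hc0 (hg ▸ Dvd.intro_left _ hc.symm), hg, hc,
      Nat.mul_div_cancel _ (Nat.pos_of_ne_zero hc0)]⟩
  obtain ⟨u₁, hu₁⟩ := mk ((q - 1) / d) (by rw [hunits]; exact Dvd.dvd.mul_right (Nat.div_dvd_of_dvd hd1) _)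
  obtain ⟨u₂, hu₂⟩ := mk ((q + 1) / d) (by rw [hunits]; exact Dvd.dvd.mul_left (Nat.div_dvd_of_dvd hd2) _)
  haveI := CfsgLib.AffineLine.finite (Subgroup.zpowers u₁)
  haveI := CfsgLib.AffineLine.finite (Subgroup.zpowers u₂)
  haveI := CfsgLib.AffineLine.isSolvable (Subgroup.zpowers u₁)
  haveI := CfsgLib.AffineLine.isSolvable (Subgroup.zpowers u₂)
  refine ⟨CfsgLib.AffineLine.Grp (Subgroup.zpowers u₁) × CfsgLib.AffineLine.Grp (Subgroup.zpowers u₂),
    inferInstance, inferInstance, inferInstance, ?_⟩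
  have h1 := CfsgLib.AffineLine.range_orderOf p u₁
  have h2 := CfsgLib.AffineLine.range_orderOf p u₂
  have hL := CfsgLib.SL2.range_orderOf_PSL (F := F) p
  rw [hu₁] at h1
  rw [hu₂] at h2
  ext m
  constructor
  · rintro ⟨⟨a, b⟩, rfl⟩
    have ha : orderOf a ∈ Set.range (orderOf : Matrix.ProjectiveSpecialLinearGroup (Fin 2) F → ℕ) := by
      rw [hL]
      exact (h1.subset ⟨a, rfl⟩).elim Or.inl (fun h => Or.inr (Or.inl h))
    have hb : orderOf b ∈ Set.range (orderOf : Matrix.ProjectiveSpecialLinearGroup (Fin 2) F → ℕ) := by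
      rw [hL]
      exact (h2.subset ⟨b, rfl⟩).elim Or.inl (fun h => Or.inr (Or.inr h))
    obtain ⟨x, hx⟩ := ha
    obtain ⟨y, hy⟩ := hb
    exact ⟨(x, y), by rw [Prod.orderOf_mk, Prod.orderOf_mk, hx, hy]⟩
  · rintro ⟨⟨x, y⟩, rfl⟩
    have key : ∀ a b : ℕ, (a ∣ p ∨ a ∣ (q - 1) / d) → (b ∣ p ∨ b ∣ (q + 1) / d) →
        Nat.lcm a b ∈ Set.range (orderOf : CfsgLib.AffineLine.Grp (Subgroup.zpowers u₁) ×
          CfsgLib.AffineLine.Grp (Subgroup.zpowers u₂) → ℕ) := by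
      intro a b ha hb
      obtain ⟨g, hg⟩ := h1.symm.subset ha
      obtain ⟨h, hh⟩ := h2.symm.subset hb
      exact ⟨(g, h), by rw [Prod.orderOf_mk, hg, hh]⟩
    rw [Prod.orderOf_mk]
    have one_l : ∀ c : ℕ, Nat.lcm c 1 = c := fun c => Nat.lcm_one_right c
    have hx := hL.subset ⟨x, rfl⟩
    have hy := hL.subset ⟨y, rfl⟩
    rcases hx with ha | ha | ha <;> rcases hy with hb | hb | hb
    · rw [← one_l (Nat.lcm _ _)]; exact key _ _ (Or.inl (Nat.lcm_dvd ha hb)) (Or.inl (one_dvd _))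
    · rw [Nat.lcm_comm]; exact key _ _ (Or.inr hb) (Or.inl ha)
    · exact key _ _ (Or.inl ha) (Or.inr hb)
    · exact key _ _ (Or.inr ha) (Or.inl hb)
    · rw [← one_l (Nat.lcm _ _)]; exact key _ _ (Or.inr (Nat.lcm_dvd ha hb)) (Or.inl (one_dvd _))
    · exact key _ _ (Or.inr ha) (Or.inr hb)
    · rw [Nat.lcm_comm]; exact key _ _ (Or.inl hb) (Or.inr ha)
    · rw [Nat.lcm_comm]; exact key _ _ (Or.inr hb) (Or.inr ha)
    · rw [← one_l (Nat.lcm _ _), Nat.lcm_comm]; exact key _ _ (Or.inl (one_dvd _)) (Or.inr (Nat.lcm_dvd ha hb))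

end Cfsg.Agent.S3532
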