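import Cfsg.Statements.S3547
import Cfsg.Agent.Derange.Basic

set_option autoImplicit false
open Cfsg

namespace Cfsg.Agent.S3547

/-- Let G act faithfully and transitively on a finite set Ω, let D be the subgroup generated by the derangements, and let r_G and r_D be the numbers of orbits of G and of D on ordered pairs of points (the permutation ranks). Then r_D − 1 = (r_G − 1)·[G : D]. -/
theorem result {G Ω : Type*} [Group G] [Finite G] [MulAction G Ω] [FaithfulSMul G Ω] [Finite Ω]
    (htrans : MulAction.IsPretransitive G Ω) :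
    Nat.card (MulAction.orbitRel.Quotient ↥(Subgroup.closure {g : G | ∀ ω : Ω, g • ω ≠ ω}) (Ω × Ω)) - 1 =
      (Nat.card (MulAction.orbitRel.Quotient G (Ω × Ω)) - 1) * (Subgroup.closure {g : G | ∀ ω : Ω, g • ω ≠ ω}).index := by
  have h := CfsgLib.Derange.rank_eq (Subgroup.closure {g : G | ∀ ω : Ω, g • ω ≠ ω}) (fun g hg => Subgroup.subset_closure hg)
  set a := Nat.card (MulAction.orbitRel.Quotient ↥(Subgroup.closure {g : G | ∀ ω : Ω, g • ω ≠ ω}) (Ω × Ω))
  set b := Nat.card (MulAction.orbitRel.Quotient G (Ω × Ω))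
  set i := (Subgroup.closure {g : G | ∀ ω : Ω, g • ω ≠ ω}).index with hi
  have hipos : i ≠ 0 := Subgroup.index_ne_zero_of_finite
  rcases Nat.eq_zero_or_pos b with hb | hb
  · rw [hb] at h ⊢; simp only [zero_mul, zero_tsub] at h ⊢; omega
  · obtain ⟨c, hc⟩ : ∃ c, b = c + 1 := ⟨b - 1, by omega⟩
    rw [hc, add_mul, one_mul] at h
    rw [hc, Nat.add_sub_cancel]; omega

end Cfsg.Agent.S3547
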