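import Cfsg.Statements.S3548
import Cfsg.Agent.Derange.Basic

set_option autoImplicit false
open Cfsg

namespace Cfsg.Agent.S3548

/-- Let G act faithfully and transitively on a finite set with n ≥ 2 points and let D be the subgroup generated by the derangements. Then the index of D in G divides n − 1, and if it equals n − 1 then n is a prime power. -/
theorem result {G Ω : Type*} [Group G] [Finite G] [MulAction G Ω] [FaithfulSMul G Ω] [Finite Ω]
    (htrans : MulAction.IsPretransitive G Ω) (hΩ : 2 ≤ Nat.card Ω) :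
    (Subgroup.closure {g : G | ∀ ω : Ω, g • ω ≠ ω}).index ∣ Nat.card Ω - 1 ∧
    ((Subgroup.closure {g : G | ∀ ω : Ω, g • ω ≠ ω}).index = Nat.card Ω - 1 → IsPrimePow (Nat.card Ω)) := by
  classical
  set D := Subgroup.closure {g : G | ∀ ω : Ω, g • ω ≠ ω} with hD
  have hE : ∀ g : G, (∀ ω : Ω, g • ω ≠ ω) → g ∈ D := fun g hg => Subgroup.subset_closure hg
  refine ⟨CfsgLib.Derange.index_dvd_card_sub_one D hE, fun heq => ?_⟩
  have : Nonempty Ω := (Nat.card_pos_iff.1 (by omega : 0 < Nat.card Ω)).1
  obtain ⟨a⟩ := this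
  have hT := (CfsgLib.Derange.main D hE).1
  have hidx : 0 < D.index := Nat.pos_of_ne_zero Subgroup.index_ne_zero_of_finite
  have hnt : Nontrivial Ω := Finite.one_lt_card_iff_nontrivial.1 (by omega)
  -- each non-trivial suborbit is everything
  have horb : ∀ x y : Ω, y ≠ x → (MulAction.orbit (MulAction.stabilizer G x) y).ncard = Nat.card Ω - 1 := by
    intro x y hxy
    have h1 := CfsgLib.Derange.index_dvd_orbit D hE hxy
    have h2 : (MulAction.orbit (MulAction.stabilizer G x) y).ncard ≤ Nat.card Ω - 1 := by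
      have : MulAction.orbit (MulAction.stabilizer G x) y ⊆ {x}ᶜ := by
        rintro _ ⟨g, rfl⟩ h
        simp only [Set.mem_singleton_iff] at h
        exact hxy (smul_left_cancel g.1 (h.trans g.2.symm))
      have := Set.ncard_le_ncard this
      rwa [Set.ncard_compl, Set.ncard_singleton] at this
    have h3 : 0 < (MulAction.orbit (MulAction.stabilizer G x) y).ncard :=
      (Set.ncard_pos).2 ⟨y, MulAction.mem_orbit_self y⟩
    have := Nat.le_of_dvd h3 h1
    omega
  -- D is semiregular
  have hfree : ∀ d ∈ D, d • a = a → d = 1 := by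
    intro d hd hda
    apply FaithfulSMul.eq_of_smul_eq_smul (α := Ω)
    intro b
    rw [one_smul]
    rcases eq_or_ne b a with rfl | hb
    · exact hda
    have hG : Nat.card (MulAction.stabilizer G a) * Nat.card Ω = Nat.card G := by
      have e := (MulAction.stabilizer G a).index_mul_card
      rw [MulAction.index_stabilizer, MulAction.orbit_eq_univ G a, Set.ncard_univ] at e
      rw [mul_comm]; exact e
    have hDa := CfsgLib.Derange.card_stab_sub D hT a
    have e := (MulAction.stabilizer (MulAction.stabilizer G a) b).index_mul_card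
    rw [MulAction.index_stabilizer, horb a b hb] at e
    rw [← e, ← D.index_mul_card, ← hDa, heq] at hG
    have hn : 0 < Nat.card Ω := by omega
    have hcard : Nat.card (MulAction.stabilizer (MulAction.stabilizer G a) b) = Nat.card (MulAction.stabilizer D a) := by
      rw [mul_assoc] at hG
      exact Nat.eq_of_mul_eq_mul_right hn (Nat.eq_of_mul_eq_mul_left (by omega) hG)
    let ι : MulAction.stabilizer (MulAction.stabilizer G a) b → MulAction.stabilizer D a :=
      fun g => ⟨⟨g.1.1, CfsgLib.Derange.mem_of_fix_two D hE hb g.2 g.1.2⟩, g.1.2⟩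
    have hι : Function.Injective ι := fun x y h => by
      have h' : ((ι x).1.1 : G) = (ι y).1.1 := by rw [h]
      exact Subtype.ext (Subtype.ext h')
    have hsur := ((Nat.bijective_iff_injective_and_card ι).2 ⟨hι, hcard⟩).2
    obtain ⟨g, hg⟩ := hsur ⟨⟨d, hd⟩, hda⟩
    have h' : ((ι g).1.1 : G) = d := by rw [hg]
    rw [← h']; exact g.2
  -- card D = n
  have hcardD : Nat.card D = Nat.card Ω := by
    rw [← CfsgLib.Derange.card_stab_sub D hT a]
    have : MulAction.stabilizer D a = ⊥ := by
      rw [Subgroup.eq_bot_iff_forall]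
      exact fun d hd => Subtype.ext (hfree d.1 d.2 hd)
    rw [this, Subgroup.card_bot, one_mul]
  have hnorm : ∀ (g : G), ∀ d ∈ D, g * d * g⁻¹ ∈ D := by
    intro g d hd
    refine Subgroup.closure_induction (p := fun x _ => g * x * g⁻¹ ∈ D) ?_ ?_ ?_ ?_ hd
    · intro x hx
      refine hE _ fun ω hω => hx (g⁻¹ • ω) ?_
      rw [mul_smul, mul_smul] at hω
      exact (eq_inv_smul_iff).2 hω
    · simp
    · intro x y _ _ hx hy; rw [← conj_mul]; exact D.mul_mem hx hy
    · intro x _ hx; rw [← conj_inv]; exact D.inv_mem hx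
  obtain ⟨p, hp, hpd⟩ := Nat.exists_prime_and_dvd (n := Nat.card D) (by omega)
  have : Fact p.Prime := ⟨hp⟩
  obtain ⟨⟨d₀, hd₀⟩, hd₀o⟩ := exists_prime_orderOf_dvd_card' p hpd
  rw [Subgroup.orderOf_mk] at hd₀o
  have hd₀a : d₀ • a ≠ a := fun h => by
    rw [hfree d₀ hd₀ h, orderOf_one] at hd₀o; exact hp.ne_one hd₀o.symm
  have hP : IsPGroup p D := by
    rintro ⟨d, hd⟩
    refine ⟨1, ?_⟩
    rcases eq_or_ne d 1 with rfl | hd1
    · exact one_pow _
    have hda : d • a ≠ a := fun h => hd1 (hfree d hd h)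
    have hmem : d • a ∈ MulAction.orbit (MulAction.stabilizer G a) (d₀ • a) := by
      have hsub : MulAction.orbit (MulAction.stabilizer G a) (d₀ • a) ⊆ {a}ᶜ := by
        rintro _ ⟨g, rfl⟩ h
        simp only [Set.mem_singleton_iff] at h
        exact hd₀a (smul_left_cancel g.1 (h.trans g.2.symm))
      have := Set.eq_of_subset_of_ncard_le hsub (by
        rw [horb a _ hd₀a, Set.ncard_compl, Set.ncard_singleton])
      rw [this]; exact hda
    obtain ⟨g, hg⟩ := hmem
    have e : d = g.1 * d₀ * g.1⁻¹ := by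
      have h1 : (g.1 * d₀ * g.1⁻¹) • a = d • a := by
        rw [mul_smul, mul_smul, (inv_smul_eq_iff).2 g.2.symm]
        exact hg
      have := hfree _ (D.mul_mem (D.inv_mem hd) (hnorm g.1 d₀ hd₀)) (by rw [mul_smul, h1, inv_smul_smul])
      exact (inv_mul_eq_one.1 this)
    apply Subtype.ext
    show d ^ p ^ 1 = 1
    rw [e, pow_one, conj_pow, ← hd₀o, pow_orderOf_eq_one, mul_one, mul_inv_cancel]
  obtain ⟨k, hk⟩ := hP.exists_card_eq
  rw [← hcardD, hk]
  exact hp.isPrimePow.pow (by rintro rfl; rw [pow_zero] at hk; omega)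

end Cfsg.Agent.S3548
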