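import Cfsg.Statements.S3549
import Cfsg.Agent.Derange.Basic

set_option autoImplicit false
open Cfsg

namespace Cfsg.Agent.S3549

open scoped Pointwise
/-- Let G act faithfully, transitively but imprimitively on a finite set with n points, and let D be the subgroup generated by the derangements. Then the index of D in G is at most √n − 1. -/
theorem result {G Ω : Type*} [Group G] [Finite G] [MulAction G Ω] [FaithfulSMul G Ω] [Finite Ω]
    (htrans : MulAction.IsPretransitive G Ω) (himp : ¬ MulAction.IsPreprimitive G Ω) :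
    ((Subgroup.closure {g : G | ∀ ω : Ω, g • ω ≠ ω}).index : ℝ) ≤ Real.sqrt (Nat.card Ω) - 1 := by
  classical
  set D := Subgroup.closure {g : G | ∀ ω : Ω, g • ω ≠ ω} with hD
  have hE : ∀ g : G, (∀ ω : Ω, g • ω ≠ ω) → g ∈ D := fun g hg => Subgroup.subset_closure hg
  obtain ⟨B, hB, hBnt⟩ : ∃ B : Set Ω, MulAction.IsBlock G B ∧ ¬ MulAction.IsTrivialBlock B := by
    by_contra hc
    push_neg at hc
    exact himp { isTrivialBlock_of_isBlock := fun {B} hB => hc B hB }
  simp only [MulAction.IsTrivialBlock, not_or] at hBnt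
  obtain ⟨hsub, huniv⟩ := hBnt
  obtain ⟨a, ha⟩ : B.Nonempty := Set.nonempty_iff_ne_empty.2 (fun h => hsub (h ▸ Set.subsingleton_empty))
  have hcount := hB.ncard_block_mul_ncard_orbit_eq ⟨a, ha⟩
  have hb2 : 2 ≤ B.ncard := by
    by_contra h
    exact hsub (Set.ncard_le_one_iff_subsingleton.1 (by omega))
  have hbn : B.ncard < Nat.card Ω := Set.ncard_lt_card huniv
  have h1 : D.index ∣ B.ncard - 1 := by
    have h := CfsgLib.Derange.index_dvd_ncard D hE a (B \ {a}) (by simp) (fun g hg x hx => ⟨?_, ?_⟩)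
    · rwa [Set.ncard_diff_singleton_of_mem ha] at h
    · have := hB.smul_eq_of_mem ha (by rw [MulAction.mem_stabilizer_iff.1 hg]; exact ha)
      rw [← this]; exact Set.smul_mem_smul_set hx.1
    · exact fun h => hx.2 (smul_left_cancel g (h.trans (MulAction.mem_stabilizer_iff.1 hg).symm))
  have h2 : D.index ∣ Nat.card (MulAction.orbit G B) - 1 := by
    refine CfsgLib.Derange.index_dvd_card_sub_one (Ω := MulAction.orbit G B) D fun g hg => ?_
    refine hE g fun ω hω => ?_
    obtain ⟨t, rfl⟩ := MulAction.exists_smul_eq G a ω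
    refine hg ⟨t • B, MulAction.mem_orbit B t⟩ (Subtype.ext ?_)
    show g • t • B = t • B
    have hBt : MulAction.IsBlock G (t • B) := hB.translate t
    exact hBt.smul_eq_of_mem (Set.smul_mem_smul_set ha) (by rw [hω]; exact Set.smul_mem_smul_set ha)
  rw [Nat.card_coe_set_eq] at h2
  set i := D.index
  set b := B.ncard
  set m := (MulAction.orbit G B).ncard
  have hm2 : 2 ≤ m := by
    by_contra h
    interval_cases m <;> omega
  have hi : i + 1 ≤ b := by have := Nat.le_of_dvd (by omega) h1; omega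
  have hi' : i + 1 ≤ m := by have := Nat.le_of_dvd (by omega) h2; omega
  rw [le_sub_iff_add_le]
  apply Real.le_sqrt_of_sq_le
  rw [← hcount]
  push_cast
  have e1 : ((i : ℝ) + 1) ≤ b := by exact_mod_cast hi
  have e2 : ((i : ℝ) + 1) ≤ m := by exact_mod_cast hi'
  have e3 : (0 : ℝ) ≤ (i : ℝ) + 1 := by positivity
  calc ((i : ℝ) + 1) ^ 2 = ((i : ℝ) + 1) * ((i : ℝ) + 1) := sq _
    _ ≤ b * m := mul_le_mul e1 e2 e3 (by positivity)

end Cfsg.Agent.S3549
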