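import Cfsg.Statements.S3559
import Mathlib
import Cfsg.Agent.CyclicBGroup

set_option autoImplicit false
open Cfsg

namespace Cfsg.Agent.S3559

/-- Let G act faithfully and transitively on a finite set whose number of points n ≥ 2 is not a prime power, and suppose G has a cyclic subgroup acting regularly (transitively with trivial point stabilizers). Then G is imprimitive or doubly transitive. -/
theorem result {G Ω : Type*} [Group G] [Finite G] [MulAction G Ω] [FaithfulSMul G Ω] [Finite Ω]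
    (htrans : MulAction.IsPretransitive G Ω) (hn : 2 ≤ Nat.card Ω) (hnp : ¬ IsPrimePow (Nat.card Ω))
    (C : Subgroup G) (hcyc : IsCyclic ↥C) (hC : MulAction.IsPretransitive ↥C Ω ∧ ∀ a : Ω, MulAction.stabilizer ↥C a = ⊥) :
    ¬ MulAction.IsPreprimitive G Ω ∨ MulAction.IsMultiplyPretransitive G Ω 2 := by
  classical
  by_cases h2 : MulAction.IsMultiplyPretransitive G Ω 2
  · exact Or.inr h2
  refine Or.inl fun hprim => ?_
  set n := Nat.card Ω with hn'
  haveI : NeZero n := ⟨by omega⟩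
  obtain ⟨g, hg⟩ := Subgroup.isCyclic_iff_exists_zpowers_eq_top C |>.1 hcyc
  haveI := hC.1
  haveI : Nonempty Ω := Finite.card_pos_iff.1 (by omega)
  let x₀ : Ω := Classical.arbitrary Ω
  have hbij : Function.Bijective (fun c : C => c • x₀) := by
    refine ⟨fun a b h => ?_, fun y => hC.1.exists_smul_eq x₀ y⟩
    have h1 : a⁻¹ * b ∈ MulAction.stabilizer C x₀ := by
      rw [MulAction.mem_stabilizer_iff, mul_smul, inv_smul_eq_iff]; exact h.symm
    rw [hC.2 x₀, Subgroup.mem_bot] at h1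
    exact inv_mul_eq_one.1 h1
  have hgo : orderOf g = n := by
    rw [hn', ← Nat.card_eq_of_bijective _ hbij, ← Nat.card_zpowers, hg]
  let ψ : ZMod n → Ω := fun i => g ^ i.val • x₀
  have hψbij : Function.Bijective ψ := by
    letI := Fintype.ofFinite Ω
    refine (Fintype.bijective_iff_injective_and_card ψ).2 ⟨fun i j h => ?_, by rw [ZMod.card, ← Nat.card_eq_fintype_card]⟩
    have hgC : g ∈ C := hg ▸ Subgroup.mem_zpowers g
    have h1 : (⟨g ^ i.val, pow_mem hgC _⟩ : C) = ⟨g ^ j.val, pow_mem hgC _⟩ := hbij.1 h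
    have h2 : g ^ i.val = g ^ j.val := congrArg Subtype.val h1
    rw [pow_eq_pow_iff_modEq, hgo, ← ZMod.natCast_eq_natCast_iff, ZMod.natCast_zmod_val, ZMod.natCast_zmod_val] at h2
    exact h2
  let e : ZMod n ≃ Ω := Equiv.ofBijective ψ hψbij
  let ρ : G →* Equiv.Perm (ZMod n) := (e.symm.permCongrHom).toMonoidHom.comp (MulAction.toPermHom G Ω)
  have hρ : ∀ (σ : G) u, e (ρ σ u) = σ • e u := fun σ u => by
    show e (e.symm (MulAction.toPermHom G Ω σ (e.symm.symm u))) = _
    rw [Equiv.apply_symm_apply, Equiv.symm_symm]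
    rfl
  have ht : CfsgLib.CyclicBGroup.HasTransl ρ := fun c => ⟨g ^ c.val, fun u => by
    apply e.injective
    rw [hρ]
    show g ^ c.val • (g ^ u.val • x₀) = g ^ (u + c).val • x₀
    rw [← mul_smul, ← pow_add]
    congr 1
    rw [pow_eq_pow_iff_modEq, hgo, ← ZMod.natCast_eq_natCast_iff]
    push_cast
    rw [ZMod.natCast_zmod_val, ZMod.natCast_zmod_val, ZMod.natCast_zmod_val, add_comm]⟩
  have hnt : ∃ x y : ZMod n, x ≠ 0 ∧ y ≠ 0 ∧ ¬ CfsgLib.CyclicBGroup.Rel ρ x y := by
    by_contra h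
    push Not at h
    apply h2
    rw [MulAction.is_two_pretransitive_iff]
    intro a b c d hab hcd
    obtain ⟨σa, hσa⟩ := ht (e.symm c)
    obtain ⟨σb, hσb⟩ := ht (-(e.symm a))
    obtain ⟨τ, h0, hτ⟩ := h (e.symm b - e.symm a) (e.symm d - e.symm c)
      (sub_ne_zero.2 fun h1 => hab (e.symm.injective h1).symm)
      (sub_ne_zero.2 fun h1 => hcd (e.symm.injective h1).symm)
    refine ⟨σa * τ * σb, ?_, ?_⟩
    · rw [show a = e (e.symm a) from (e.apply_symm_apply a).symm, ← hρ]
      rw [map_mul, map_mul, Equiv.Perm.mul_apply, Equiv.Perm.mul_apply, hσb, add_neg_cancel, h0, hσa,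
        zero_add, e.apply_symm_apply]
    · rw [show b = e (e.symm b) from (e.apply_symm_apply b).symm, ← hρ]
      rw [map_mul, map_mul, Equiv.Perm.mul_apply, Equiv.Perm.mul_apply, hσb, ← sub_eq_add_neg, hτ, hσa,
        sub_add_cancel, e.apply_symm_apply]
  have hpn : n.minFac < n := by
    rcases lt_or_eq_of_le (Nat.minFac_le (show 0 < n by omega)) with h | h
    · exact h
    · exact absurd (h ▸ Nat.minFac_prime (show n ≠ 1 by omega)).isPrimePow hnp
  obtain ⟨H, hH0, hHT, hHinv⟩ :=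
    CfsgLib.CyclicBGroup.exists_block ht (Nat.minFac_prime (show n ≠ 1 by omega)) (Nat.minFac_dvd n) hpn hnt
  have hHmove : ∀ (σ : G) u v, v - u ∈ H → ρ σ v - ρ σ u ∈ H := fun σ u v h =>
    hHinv _ _ (CfsgLib.CyclicBGroup.move ht σ u v) h
  let B : Set Ω := e '' (H : Set (ZMod n))
  have hB : MulAction.IsBlock G B := by
    rw [MulAction.isBlock_iff_smul_eq_of_nonempty]
    intro σ hne
    obtain ⟨_, ⟨_, ⟨u, hu, rfl⟩, rfl⟩, ⟨v, hv, hveq⟩⟩ := hne
    have huv : ρ σ u = v := e.injective ((hρ σ u).trans hveq.symm)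
    apply Set.eq_of_subset_of_ncard_le ?_ ?_ (Set.toFinite _)
    · rintro _ ⟨_, ⟨w, hw, rfl⟩, rfl⟩
      refine ⟨ρ σ w, ?_, hρ σ w⟩
      have h1 := hHmove σ u w (sub_mem hw hu)
      rw [huv] at h1
      have h2 := add_mem h1 hv
      rwa [sub_add_cancel] at h2
    · rw [Set.ncard_smul_set]
  rcases MulAction.IsPreprimitive.isTrivialBlock_of_isBlock (G := G) hB with h | h
  · apply hH0
    rw [eq_bot_iff]
    intro u hu
    have h1 : e u = e 0 := h ⟨u, hu, rfl⟩ ⟨0, zero_mem H, rfl⟩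
    exact (AddSubgroup.mem_bot).2 (e.injective h1)
  · apply hHT
    rw [eq_top_iff]
    intro u _
    have h1 : e u ∈ B := by rw [h]; trivial
    obtain ⟨w, hw, hwu⟩ := h1
    rwa [← e.injective hwu]

end Cfsg.Agent.S3559
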