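import Cfsg.Statements.S3560
import Mathlib.GroupTheory.GroupAction.Primitive
import Mathlib.InformationTheory.Hamming
import Mathlib.GroupTheory.GroupAction.MultipleTransitivity
-- import your own Cfsg.Agent.* helpers here

set_option autoImplicit false
open Cfsg

namespace Cfsg.Agent.S3560

/-- Let K be a finite group isomorphic to a direct product of r ≥ 2 groups all of the same order m ≥ 3. Then K is not a B-group: there is a primitive but not doubly transitive permutation group (on some finite set) containing a regular subgroup isomorphic to K. -/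
theorem result {K : Type*} [Group K] [Finite K] {ι : Type*} [Fintype ι] (F : ι → Type*) [∀ i, Group (F i)]
    (hr : 2 ≤ Fintype.card ι) (m : ℕ) (hm : 3 ≤ m) (hcard : ∀ i, Nat.card (F i) = m) (e : K ≃* (∀ i, F i)) :
    ∃ (n : ℕ) (G R : Subgroup (Equiv.Perm (Fin n))), R ≤ G ∧ Nonempty (↥R ≃* K) ∧
      MulAction.IsPretransitive ↥R (Fin n) ∧ (∀ a : Fin n, MulAction.stabilizer ↥R a = ⊥) ∧
      MulAction.IsPreprimitive ↥G (Fin n) ∧ ¬ MulAction.IsMultiplyPretransitive ↥G (Fin n) 2 := by
  classical
  haveI : ∀ i, Finite (F i) := fun i => Nat.finite_of_card_ne_zero (by rw [hcard i]; omega)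
  haveI : ∀ i, Fintype (F i) := fun i => Fintype.ofFinite _
  let ψ : Fin (Fintype.card (∀ i, F i)) ≃ ∀ i, F i := (Fintype.equivFin _).symm
  set n := Fintype.card (∀ i, F i) with hn
  let dd : Fin n → Fin n → ℕ := fun a b => hammingDist (ψ a) (ψ b)
  let G : Subgroup (Equiv.Perm (Fin n)) :=
    { carrier := {g | ∀ a b, dd (g a) (g b) = dd a b}
      one_mem' := fun _ _ => rfl
      mul_mem' := fun {g h} hg hh a b => (hg (h a) (h b)).trans (hh a b)
      inv_mem' := fun {g} hg a b => by
        have h := hg (g⁻¹ a) (g⁻¹ b)
        simp only [← Equiv.Perm.mul_apply, mul_inv_cancel, Equiv.Perm.coe_one, id_eq] at h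
        exact h.symm }
  let lift : Equiv.Perm (∀ i, F i) → Equiv.Perm (Fin n) := fun f => (ψ.trans f).trans ψ.symm
  have hlift : ∀ f a, ψ (lift f a) = f (ψ a) := fun f a => ψ.apply_symm_apply _
  have hliftG : ∀ f : Equiv.Perm (∀ i, F i), (∀ x y, hammingDist (f x) (f y) = hammingDist x y) → lift f ∈ G :=
    fun f hf a b => by
      show hammingDist (ψ (lift f a)) (ψ (lift f b)) = _
      rw [hlift, hlift, hf]
  let tr : (∀ i, F i) →* Equiv.Perm (Fin n) :=
    { toFun := fun k => lift (Equiv.mulLeft k)
      map_one' := by ext a; simp [lift]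
      map_mul' := fun k l => by ext a; simp [lift, mul_assoc] }
  have htrG : ∀ k, tr k ∈ G := fun k => hliftG _ fun x y => by
    simp [hammingDist]
  have htrinj : Function.Injective tr := fun k l h => by
    have h1 := congrArg (fun g : Equiv.Perm (Fin n) => ψ (g (ψ.symm 1))) h
    simpa [tr, hlift] using h1
  haveI hGt : MulAction.IsPretransitive G (Fin n) := ⟨fun a b => ⟨⟨tr (ψ b * (ψ a)⁻¹), htrG _⟩, by
    apply ψ.injective
    show ψ (tr (ψ b * (ψ a)⁻¹) a) = ψ b
    simp [tr, hlift]⟩⟩
  obtain ⟨i₀, j₀, hij⟩ := Fintype.exists_pair_of_one_lt_card (α := ι) (by omega)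
  have hthird : ∀ i (u v : F i), ∃ w, w ≠ u ∧ w ≠ v := fun i u v => by
    have h : ({u, v} : Finset (F i)) ≠ Finset.univ := fun h => by
      have h2 := congrArg Finset.card h
      rw [Finset.card_univ, ← Nat.card_eq_fintype_card, hcard i] at h2
      have := Finset.card_le_two (a := u) (b := v)
      omega
    by_contra hne
    push Not at hne
    exact h (Finset.eq_univ_iff_forall.2 fun w => by
      rcases eq_or_ne w u with rfl | h'
      · simp
      · simp [hne w h'])
  refine ⟨n, G, tr.range, ?_, ⟨(MonoidHom.ofInjective htrinj).symm.trans e.symm⟩, ?_, ?_, ?_, ?_⟩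
  · rintro _ ⟨k, rfl⟩; exact htrG k
  · refine ⟨fun a b => ⟨⟨tr (ψ b * (ψ a)⁻¹), _, rfl⟩, ?_⟩⟩
    apply ψ.injective
    show ψ (tr (ψ b * (ψ a)⁻¹) a) = ψ b
    simp [tr, hlift]
  · intro a
    rw [Subgroup.eq_bot_iff_forall]
    rintro ⟨_, k, rfl⟩ hk
    have h1 : ψ (tr k a) = ψ a := congrArg ψ hk
    simp [tr, hlift] at h1
    subst h1
    exact Subtype.ext (map_one tr)
  · -- primitivity
    refine MulAction.IsPreprimitive.of_isTrivialBlock_base (ψ.symm 1) fun {B} h1B hB => ?_
    by_cases hsub : B.Subsingleton
    · exact Or.inl hsub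
    refine Or.inr ?_
    set S : Set (∀ i, F i) := ψ '' B with hS
    -- adjacency within a block
    let R : (∀ i, F i) → (∀ i, F i) → Prop := fun x y => ∀ g : G, g • ψ.symm x ∈ B → g • ψ.symm y ∈ B
    have hRof : ∀ x y, ψ.symm x ∈ B → ψ.symm y ∈ B → R x y := by
      intro x y hx hy g hg
      have := hB.smul_eq_of_nonempty (g := g) ⟨g • ψ.symm x, Set.smul_mem_smul_set hx, hg⟩
      rw [← this]
      exact Set.smul_mem_smul_set hy
    have hRmap : ∀ f : Equiv.Perm (∀ i, F i), (∀ x y, hammingDist (f x) (f y) = hammingDist x y) →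
        ∀ x y, R x y → R (f x) (f y) := by
      intro f hf x y h g hg
      have hmv : ∀ z, g • ψ.symm (f z) = (g * ⟨lift f, hliftG f hf⟩) • ψ.symm z := fun z => by
        rw [mul_smul]
        congr 1
        show ψ.symm (f z) = lift f (ψ.symm z)
        simp [lift]
      rw [hmv] at hg ⊢
      exact h _ hg
    have hswap : ∀ (i : ι) (u v : F i) (x y : ∀ i, F i),
        hammingDist (Function.update x i (Equiv.swap u v (x i))) (Function.update y i (Equiv.swap u v (y i))) =
          hammingDist x y := fun i u v x y => by
      simp only [hammingDist]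
      congr 1
      ext k
      rcases eq_or_ne k i with rfl | hk
      · simp
      · simp [hk]
    let sw : ∀ i, F i → F i → Equiv.Perm (∀ i, F i) := fun i u v =>
      Function.Involutive.toPerm (fun x => Function.update x i (Equiv.swap u v (x i))) fun x => by simp
    have hsw : ∀ i u v x, sw i u v x = Function.update x i (Equiv.swap u v (x i)) := fun i u v x => rfl
    -- some edge
    obtain ⟨x, hx, y, hy, hxy⟩ := Set.not_subsingleton_iff.1 hsub
    have hne : ψ x ≠ ψ y := fun h => hxy (ψ.injective h)
    obtain ⟨i, hi⟩ := Function.ne_iff.1 hne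
    obtain ⟨w, hwx, hwy⟩ := hthird i (ψ x i) (ψ y i)
    have hR1 : R (ψ x) (ψ y) := hRof _ _ (by simpa using hx) (by simpa using hy)
    have hR2 : R (ψ x) (Function.update (ψ y) i w) := by
      have h := hRmap (sw i (ψ y i) w) (fun a b => hswap i _ _ a b) _ _ hR1
      simpa [hsw, Equiv.swap_apply_of_ne_of_ne hi (Ne.symm hwx)] using h
    have hedge : R (ψ y) (Function.update (ψ y) i w) := hRof _ _ (by simpa using hy) (by
      simpa using hR2 1 (by simpa using hx))
    -- all edges
    have hnat : ∀ k, Fintype.card (F k) = m := fun k => by rw [← Nat.card_eq_fintype_card, hcard k]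
    let φ : ∀ k, F k ≃ Fin m := fun k => Fintype.equivFinOfCardEq (hnat k)
    have hall : ∀ (j : ι) (z : ∀ i, F i) (v : F j), R z (Function.update z j v) := by
      intro j z v
      rcases eq_or_ne v (z j) with rfl | hv
      · intro g hg; simpa using hg
      let π : Equiv.Perm ι := Equiv.swap i j
      let P : Equiv.Perm (∀ i, F i) :=
        { toFun := fun a k => (φ k).symm (φ (π k) (a (π k)))
          invFun := fun a k => (φ k).symm (φ (π k) (a (π k)))
          left_inv := fun a => funext fun k => by
            have e : π (π k) = k := Equiv.swap_apply_self i j k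
            have : ∀ {k' : ι}, k' = k → (φ k).symm (φ k' (a k')) = a k := fun {k'} h => by subst h; simp
            simpa using this e
          right_inv := fun a => funext fun k => by
            have e : π (π k) = k := Equiv.swap_apply_self i j k
            have : ∀ {k' : ι}, k' = k → (φ k).symm (φ k' (a k')) = a k := fun {k'} h => by subst h; simp
            simpa using this e }
      have hP : ∀ a b, hammingDist (P a) (P b) = hammingDist a b := fun a b => by
        simp only [hammingDist]
        refine Finset.card_bij' (fun k _ => π k) (fun k _ => π k) ?_ ?_ ?_ ?_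
        · intro k hk; simpa [P] using hk
        · intro k hk
          have e : π (π k) = k := Equiv.swap_apply_self i j k
          have : ∀ {k' : ι}, k' = k → a k' ≠ b k' := fun {k'} h => by subst h; simpa using hk
          simpa [P] using this e
        · intro k _; exact Equiv.swap_apply_self i j k
        · intro k _; exact Equiv.swap_apply_self i j k
      -- the image of the edge, moved to `z`
      have h1 := hRmap P hP _ _ hedge
      set y' := P (ψ y) with hy'
      have e1 : P (Function.update (ψ y) i w) = Function.update y' j ((φ j).symm (φ i w)) := by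
        funext k
        rcases eq_or_ne k j with rfl | hk
        · have : ∀ {k' : ι}, k' = i → (φ k).symm (φ k' (Function.update (ψ y) i w k')) = (φ k).symm (φ i w) :=
            fun {k'} h => by subst h; simp
          simpa [P] using this (Equiv.swap_apply_right i k)
        · have : π k ≠ i := fun h => hk (π.injective (h.trans (Equiv.swap_apply_right i j).symm))
          simp [P, hy', hk, this]
      rw [e1] at h1
      set w' := (φ j).symm (φ i w)
      have hw' : w' ≠ y' j := by
        have : ∀ {k' : ι}, k' = i → (φ j).symm (φ k' (ψ y k')) = (φ j).symm (φ i (ψ y i)) :=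
          fun {k'} h => by subst h; simp
        intro h
        have h2 : y' j = (φ j).symm (φ i (ψ y i)) := by simpa [P, hy'] using this (Equiv.swap_apply_right i j)
        rw [h2] at h
        exact hwy ((φ i).injective ((φ j).symm.injective h))
      have h2 := hRmap (Equiv.mulLeft (z * y'⁻¹)) (fun a b => by simp [hammingDist]) _ _ h1
      simp only [Equiv.coe_mulLeft, inv_mul_cancel_right] at h2
      set w'' := z j * (y' j)⁻¹ * w' with hw''
      have e2 : z * y'⁻¹ * Function.update y' j w' = Function.update z j w'' := by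
        funext k
        rcases eq_or_ne k j with rfl | hk
        · simp [hw'']
        · simp [hk]
      rw [e2] at h2
      have hne'' : w'' ≠ z j := fun h => hw' (by
        rw [hw'', mul_assoc, mul_eq_left, inv_mul_eq_one] at h
        exact h.symm)
      have h3 := hRmap (sw j w'' v) (fun a b => hswap j _ _ a b) _ _ h2
      simpa [hsw, Equiv.swap_apply_of_ne_of_ne hne''.symm (Ne.symm hv)] using h3
    rw [Set.eq_univ_iff_forall]
    suffices ∀ (d : ℕ) (z : ∀ i, F i), hammingDist (ψ (ψ.symm 1)) z ≤ d → ψ.symm z ∈ B by
      intro a; simpa using this _ (ψ a) le_rfl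
    intro d
    induction d with
    | zero =>
      intro z hz
      have : ψ (ψ.symm 1) = z := eq_of_hammingDist_eq_zero (Nat.le_zero.1 hz)
      rw [← this, Equiv.symm_apply_apply]; exact h1B
    | succ d ih =>
      intro z hz
      by_cases hz1 : z = 1
      · rw [hz1]; exact h1B
      obtain ⟨j, hj⟩ := Function.ne_iff.1 hz1
      simp only [Equiv.apply_symm_apply] at hz ih
      have hlt : hammingDist 1 (Function.update z j 1) < hammingDist 1 z := by
        simp only [hammingDist]
        refine Finset.card_lt_card ⟨fun k hk => ?_, fun hsup => ?_⟩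
        · rcases eq_or_ne k j with rfl | hkj
          · simp at hk
          · simpa [hkj] using hk
        · have := hsup (show j ∈ _ by simpa using Ne.symm hj)
          simp at this
      have h := hall j (Function.update z j 1) (z j) 1 (by simpa using ih _ (by omega))
      simpa using h
  · intro h2t
    rw [MulAction.is_two_pretransitive_iff] at h2t
    obtain ⟨u, hu, -⟩ := hthird i₀ 1 1
    obtain ⟨v, hv, -⟩ := hthird j₀ 1 1
    let a : ∀ i, F i := Function.update 1 i₀ u
    let b : ∀ i, F i := Function.update a j₀ v
    have ha : (1 : ∀ i, F i) ≠ a := fun h => hu (by simpa [a] using (congrFun h i₀).symm)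
    have hb : (1 : ∀ i, F i) ≠ b := fun h => hv (by simpa [b] using (congrFun h j₀).symm)
    obtain ⟨g, hg1, hg2⟩ := h2t (ψ.symm.injective.ne ha) (ψ.symm.injective.ne hb)
    have h := g.2 (ψ.symm 1) (ψ.symm a)
    rw [show (g : Equiv.Perm (Fin n)) (ψ.symm 1) = ψ.symm 1 from hg1,
      show (g : Equiv.Perm (Fin n)) (ψ.symm a) = ψ.symm b from hg2] at h
    simp only [dd, Equiv.apply_symm_apply, hammingDist] at h
    have e1 : (Finset.univ.filter fun k => (1 : ∀ i, F i) k ≠ a k) = {i₀} := by
      ext k
      rcases eq_or_ne k i₀ with rfl | hk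
      · simp [a, Ne.symm hu]
      · simp [a, hk]
    have e2 : (Finset.univ.filter fun k => (1 : ∀ i, F i) k ≠ b k) = {i₀, j₀} := by
      ext k
      rcases eq_or_ne k j₀ with rfl | hkj
      · simp [b, Ne.symm hv]
      rcases eq_or_ne k i₀ with rfl | hk
      · simp [b, a, Ne.symm hu, hkj]
      · simp [b, a, hk, hkj]
    rw [e1, e2, Finset.card_singleton, Finset.card_pair hij] at h
    omega

end Cfsg.Agent.S3560
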