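import Cfsg.Statements.S3571
import Cfsg.Agent.AltDerange.Core
import Cfsg.Agent.AltDerange.Six
import Cfsg.Agent.S2119

set_option autoImplicit false
open Cfsg

namespace Cfsg.Agent.S3571

/-- Let G be an almost simple group whose socle is an alternating group of degree m ≥ 5 (G has a normal subgroup T isomorphic to that alternating group with trivial centralizer), acting faithfully and primitively on a finite set Ω with at least two points, and let r be the largest prime divisor of the number of points. Then G contains an element of order r fixing no point. -/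
theorem result {G Ω : Type*} [Group G] [Finite G] [MulAction G Ω] [FaithfulSMul G Ω] [Finite Ω]
    (T : Subgroup G) (hT : T.Normal) (hTc : Subgroup.centralizer (T : Set G) = ⊥) (m : ℕ) (hm : 5 ≤ m)
    (eT : ↥T ≃* ↥(alternatingGroup (Fin m))) (hprim : MulAction.IsPreprimitive G Ω) (hΩ : 2 ≤ Nat.card Ω)
    (r : ℕ) (hr : r.Prime) (hrd : r ∣ Nat.card Ω) (hmax : ∀ s : ℕ, s.Prime → s ∣ Nat.card Ω → s ≤ r) :
    ∃ g : G, orderOf g = r ∧ ∀ ω : Ω, g • ω ≠ ω := by
  classical
  haveI := hT
  haveI := hprim
  haveI hnt : Nontrivial Ω := Finite.one_lt_card_iff_nontrivial.1 hΩ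
  have hT1 : T ≠ ⊥ := by
    intro h
    have hc : Nat.card T = 1 := by rw [h]; exact Subgroup.card_bot
    rw [Nat.card_congr eT.toEquiv] at hc
    haveI : Nontrivial (Fin m) := Fin.nontrivial_iff_two_le.2 (by omega)
    have h2 := two_mul_nat_card_alternatingGroup (α := Fin m)
    rw [hc, Nat.card_perm, Nat.card_fin] at h2
    have : (5 : ℕ).factorial ≤ m.factorial := Nat.factorial_le hm
    rw [← h2] at this
    norm_num [Nat.factorial] at this
  have hfix : MulAction.fixedPoints T Ω ≠ Set.univ := by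
    intro h
    refine hT1 ((Subgroup.eq_bot_iff_forall _).2 fun t ht => ?_)
    refine FaithfulSMul.eq_of_smul_eq_smul fun a : Ω => ?_
    rw [one_smul]
    exact (Set.eq_univ_iff_forall.1 h a) ⟨t, ht⟩
  haveI hTt : MulAction.IsPretransitive T Ω := MulAction.IsQuasiPreprimitive.isPretransitive_of_normal hfix
  obtain ⟨ω⟩ : Nonempty Ω := inferInstance
  set H : Subgroup T := MulAction.stabilizer T ω
  set K : Subgroup (alternatingGroup (Fin m)) := H.map eT.toMonoidHom
  have hKi : K.index = Nat.card Ω := by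
    rw [← MulAction.index_stabilizer_of_transitive T ω]
    exact Subgroup.index_map_equiv H eT
  have hmemK : ∀ t : T, eT t ∈ K ↔ t • ω = ω := fun t => by
    constructor
    · rintro ⟨s, hs, e⟩
      rw [← eT.injective e]
      exact hs
    · exact fun h => ⟨t, h, rfl⟩
  -- the reduction
  have main : (∃ a : alternatingGroup (Fin m), orderOf a = r ∧ ∀ σ : alternatingGroup (Fin m), σ * a * σ⁻¹ ∉ K) →
      ∃ g : G, orderOf g = r ∧ ∀ ω : Ω, g • ω ≠ ω := by
    rintro ⟨a, ha, hno⟩
    obtain ⟨t, rfl⟩ := eT.surjective a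
    refine ⟨(t : G), by rw [Subgroup.orderOf_coe, ← MulEquiv.orderOf_eq eT t]; exact ha, fun ω' h => ?_⟩
    obtain ⟨s, rfl⟩ := MulAction.exists_smul_eq T ω ω'
    refine hno (eT s⁻¹) ?_
    rw [← map_inv eT, ← map_mul, ← map_mul, hmemK, inv_inv, mul_smul, mul_smul]
    rw [show t • s • ω = s • ω from h, inv_smul_smul]
  apply main
  rw [← hKi] at hrd hmax
  have hKtop : K ≠ ⊤ := by
    intro h
    rw [h, Subgroup.index_top] at hKi
    omega
  by_cases h6 : m = 6
  · subst h6
    exact CfsgLib.AltDerange.six hKtop hr hrd hmax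
  -- embed `G` in the symmetric group
  have hbij := Cfsg.Agent.S2119.result m (by omega) h6
  let ρ : G →* Equiv.Perm (Fin m) :=
    (MulEquiv.ofBijective _ hbij).symm.toMonoidHom.comp ((MulAut.congr eT).toMonoidHom.comp MulAut.conjNormal)
  have hρ : ∀ g : G, MulAut.conjNormal (ρ g) = MulAut.congr eT (MulAut.conjNormal g) := fun g =>
    (MulEquiv.ofBijective _ hbij).apply_symm_apply _
  have hρT : ∀ t : T, ρ (t : G) = (eT t : Equiv.Perm (Fin m)) := by
    intro t
    refine hbij.1 ((hρ _).trans (MulEquiv.ext fun x => Subtype.ext ?_))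
    obtain ⟨y, rfl⟩ := eT.surjective x
    simp only [MulAut.congr_apply, MulEquiv.trans_apply, MulEquiv.symm_apply_apply, MulAut.conjNormal_apply]
    rw [show (MulAut.conjNormal (t : G) y : T) = t * y * t⁻¹ from Subtype.ext (MulAut.conjNormal_apply _ _)]
    simp
  have hρinj : Function.Injective ρ := by
    rw [injective_iff_map_eq_one]
    intro g hg
    have h1 : MulAut.conjNormal g = (1 : MulAut T) := by
      apply (MulAut.congr eT).injective
      rw [← hρ, hg, map_one, map_one]
    have h2 : g ∈ Subgroup.centralizer (T : Set G) := by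
      rw [Subgroup.mem_centralizer_iff]
      intro y hy
      have := congrArg Subtype.val (DFunLike.congr_fun h1 ⟨y, hy⟩)
      simp only [MulAut.conjNormal_apply, MulAut.one_apply] at this
      calc y * g = g * y * g⁻¹ * g := by rw [this]
        _ = g * y := by group
    rwa [hTc, Subgroup.mem_bot] at h2
  set I := ρ.range
  set M := (MulAction.stabilizer G ω).map ρ
  have hAI : alternatingGroup (Fin m) ≤ I := fun x hx => by
    obtain ⟨t, ht⟩ := eT.surjective ⟨x, hx⟩
    exact ⟨(t : G), by rw [hρT, ht]⟩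
  have hKM : M.subgroupOf (alternatingGroup (Fin m)) = K := by
    ext x
    obtain ⟨t, rfl⟩ := eT.surjective x
    rw [hmemK, Subgroup.mem_subgroupOf, ← hρT]
    constructor
    · rintro ⟨g, hg, e⟩
      have hge := hρinj e
      rw [hge] at hg
      exact hg
    · exact fun h => ⟨(t : G), h, rfl⟩
  have hco : IsCoatom (MulAction.stabilizer G ω) := MulAction.IsPreprimitive.isCoatom_stabilizer_of_isPreprimitive G ω
  have hmaxM : ∀ L : Subgroup (Equiv.Perm (Fin m)), M ≤ L → L ≤ I → L = M ∨ L = I := by
    intro L hML hLI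
    have h1 : MulAction.stabilizer G ω ≤ L.comap ρ := Subgroup.map_le_iff_le_comap.1 hML
    have h2 : (L.comap ρ).map ρ = L := by rw [Subgroup.map_comap_eq, inf_eq_right.2 hLI]
    rcases h1.eq_or_lt with h | h
    · left; rw [← h2, ← h]
    · right; rw [← h2, hco.2 _ h, ← MonoidHom.range_eq_map]
  have hA : ¬ alternatingGroup (Fin m) ≤ M := fun h => hKtop (by rw [← hKM, Subgroup.subgroupOf_eq_top.2 h])
  have := CfsgLib.AltDerange.core hm hAI (Subgroup.map_le_range ρ _) hmaxM hA hr
    (hKM.symm ▸ hrd) (hKM.symm ▸ hmax)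
  simp only [CfsgLib.AltDerange.MeetsAll, not_forall, not_exists, not_and] at this
  obtain ⟨a, haA, hao, hno⟩ := this
  refine ⟨⟨a, haA⟩, by rw [← Subgroup.orderOf_coe]; exact hao, fun σ h => hno σ σ.2 ?_⟩
  rw [← hKM, Subgroup.mem_subgroupOf] at h
  exact ⟨h, Subgroup.mul_mem _ (Subgroup.mul_mem _ σ.2 haA) (Subgroup.inv_mem _ σ.2)⟩

end Cfsg.Agent.S3571
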