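import Cfsg.Statements.S3573
import Mathlib

set_option autoImplicit false
open Cfsg

namespace Cfsg.Agent.S3573

theorem fix_iff (n k r : ℕ) (hkn : k ≤ n) (hr : r.Prime) (hrn : r ≤ n) :
    (∀ σ : Equiv.Perm (Fin n), orderOf σ = r → ∃ s : Finset (Fin n), s.card = k ∧ s.image σ = s) ↔ k % r ≤ n % r := by
  classical
  haveI : Fact r.Prime := ⟨hr⟩
  constructor
  · intro h
    obtain ⟨σ, hσ⟩ := (Equiv.Perm.exists_with_cycleType_iff (α := Fin n) (m := Multiset.replicate (n / r) r)).2
      ⟨by rw [Multiset.sum_replicate, smul_eq_mul, Fintype.card_fin]; exact Nat.div_mul_le_self n r,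
        fun a ha => by rw [Multiset.eq_of_mem_replicate ha]; exact hr.two_le⟩
    have hpow : σ ^ r = 1 := by
      rw [← orderOf_dvd_iff_pow_eq_one, ← Equiv.Perm.lcm_cycleType, hσ, Multiset.lcm_dvd]
      intro a ha
      rw [Multiset.eq_of_mem_replicate ha]
    have hne : σ ≠ 1 := by
      intro e
      have h1 := congrArg Multiset.card hσ
      rw [e, Equiv.Perm.cycleType_one, Multiset.card_zero, Multiset.card_replicate] at h1
      exact absurd h1.symm (Nat.div_pos hrn hr.pos).ne'
    obtain ⟨s, hs, hinv⟩ := h σ (orderOf_eq_prime hpow hne)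
    have hmem : ∀ x, σ x ∈ s ↔ x ∈ s := by
      intro x
      conv_lhs => rw [← hinv]
      simp
    set τ := σ.subtypePerm hmem with hτ
    have hτr : τ ^ r ^ 1 = 1 := by
      rw [pow_one]
      refine Equiv.ext fun x => Subtype.ext ?_
      rw [Equiv.Perm.subtypePerm_pow, Equiv.Perm.subtypePerm_apply]
      show (σ ^ r) (x : Fin n) = x
      rw [hpow]; rfl
    have h1 := Equiv.Perm.card_compl_support_modEq hτr
    rw [Fintype.card_coe, hs] at h1
    have h2 : τ.supportᶜ.card ≤ σ.supportᶜ.card := by
      refine Finset.card_le_card_of_injOn (fun x => (x : Fin n)) (fun x hx => ?_) (fun a _ b _ e => Subtype.ext e)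
      simp only [Finset.coe_compl, Set.mem_compl_iff, Finset.mem_coe, Equiv.Perm.mem_support, not_not] at hx ⊢
      exact congrArg Subtype.val hx
    rw [Finset.card_compl σ.support, Fintype.card_fin, ← σ.sum_cycleType, hσ, Multiset.sum_replicate, smul_eq_mul] at h2
    have h4 := Nat.div_add_mod n r
    rw [mul_comm] at h4
    unfold Nat.ModEq at h1
    rw [← h1]
    exact (Nat.mod_le _ _).trans (by omega)
  · intro hkr σ hσ
    have hpow : σ ^ r = 1 := hσ ▸ pow_orderOf_eq_one σ
    have hct := Equiv.Perm.cycleType_of_pow_prime_eq_one hpow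
    set j := Multiset.card σ.cycleType with hj
    have hjcard : σ.cycleFactorsFinset.card = j := by
      rw [hj, Equiv.Perm.cycleType_def, Multiset.card_map]; rfl
    have hsupp : σ.support.card = r * j := by
      rw [← σ.sum_cycleType, hct, Multiset.sum_replicate, smul_eq_mul, mul_comm]
    have hrj : r * j ≤ n := by
      rw [← hsupp]; exact (Finset.card_le_univ _).trans_eq (Fintype.card_fin n)
    set i := min j (k / r) with hi
    obtain ⟨T, hT, hTc⟩ := Finset.exists_subset_card_eq (show i ≤ σ.cycleFactorsFinset.card by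
      rw [hjcard]; exact min_le_left _ _)
    have hcyc : ∀ c ∈ T, c.support.card = r := by
      intro c hc
      have h1 : c.support.card ∈ σ.cycleType := by
        rw [Equiv.Perm.cycleType_def]
        exact Multiset.mem_map_of_mem _ (hT hc)
      rw [hct] at h1
      exact Multiset.eq_of_mem_replicate h1
    set U := T.biUnion fun c => c.support with hU
    have hUc : U.card = r * i := by
      rw [hU, Finset.card_biUnion, Finset.sum_congr rfl hcyc, Finset.sum_const, hTc, smul_eq_mul, mul_comm]
      intro a ha b hb hne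
      exact (σ.cycleFactorsFinset_pairwise_disjoint (hT ha) (hT hb) hne).disjoint_support
    have hroom : k - r * i ≤ σ.supportᶜ.card := by
      rw [Finset.card_compl, Fintype.card_fin, hsupp]
      have h4 := Nat.div_add_mod k r
      rcases le_total j (k / r) with h | h
      · rw [hi, min_eq_left h]; omega
      · rw [hi, min_eq_right h]
        have h5 : (n - r * j) % r = n % r := Nat.sub_mul_mod hrj
        have := Nat.mod_le (n - r * j) r
        omega
    obtain ⟨L, hL, hLc⟩ := Finset.exists_subset_card_eq hroom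
    have hUs : U ⊆ σ.support := by
      rw [hU, Finset.biUnion_subset]
      exact fun c hc => Equiv.Perm.mem_cycleFactorsFinset_support_le (hT hc)
    have hdisj : Disjoint U L := Finset.disjoint_of_subset_left hUs (Finset.disjoint_of_subset_right hL disjoint_compl_right)
    refine ⟨U ∪ L, ?_, ?_⟩
    · rw [Finset.card_union_of_disjoint hdisj, hUc, hLc]
      have h4 := Nat.div_add_mod k r
      have : r * i ≤ r * (k / r) := Nat.mul_le_mul_left r (min_le_right _ _)
      omega
    · refine Finset.eq_of_subset_of_card_le ?_ (Finset.card_image_of_injective _ σ.injective).ge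
      intro y hy
      obtain ⟨x, hx, rfl⟩ := Finset.mem_image.1 hy
      rcases Finset.mem_union.1 hx with h | h
      · obtain ⟨c, hc, hxc⟩ := Finset.mem_biUnion.1 h
        refine Finset.mem_union_left _ (Finset.mem_biUnion.2 ⟨c, hc, ?_⟩)
        rw [← (Equiv.Perm.mem_cycleFactorsFinset_iff.1 (hT hc)).2 x hxc, Equiv.Perm.apply_mem_support]
        exact hxc
      · have := hL h
        rw [Finset.mem_compl, Equiv.Perm.notMem_support] at this
        rw [this]
        exact Finset.mem_union_right _ h

/-- Let 1 ≤ k with 2k < n and consider the symmetric group of degree n acting on the k-subsets of an n-set. Let r be a prime dividing the number C(n,k) of k-subsets. If r is odd, then every permutation of order r fixes some k-subset if and only if r ≤ k and the remainder of k modulo r is at most the remainder of n modulo r. If r = 2, then every involution fixes some k-subset if and only if k is even or n is odd. -/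
theorem result (n k : ℕ) (hk : 1 ≤ k) (hkn : 2 * k < n) (r : ℕ) (hr : r.Prime) (hrd : r ∣ Nat.choose n k) :
    (r ≠ 2 → ((∀ σ : Equiv.Perm (Fin n), orderOf σ = r → ∃ s : Finset (Fin n), s.card = k ∧ s.image σ = s) ↔
      (r ≤ k ∧ k % r ≤ n % r))) ∧
    (r = 2 → ((∀ σ : Equiv.Perm (Fin n), orderOf σ = 2 → ∃ s : Finset (Fin n), s.card = k ∧ s.image σ = s) ↔
      (Even k ∨ Odd n))) := by
  have hrn : r ≤ n := by
    have h1 := Nat.choose_mul_factorial_mul_factorial (show k ≤ n by omega)
    exact hr.dvd_factorial.1 (hrd.trans ⟨_, (by rw [← h1, mul_assoc])⟩)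
  refine ⟨fun hr2 => ?_, fun hr2 => ?_⟩
  · rw [fix_iff n k r (by omega) hr hrn]
    refine ⟨fun h => ⟨?_, h⟩, fun h => h.2⟩
    by_contra hkr
    push Not at hkr
    haveI : Fact r.Prime := ⟨hr⟩
    rw [Nat.mod_eq_of_lt hkr] at h
    have h1 := (Choose.choose_modEq_choose_mod_mul_choose_div_nat (n := n) (k := k) (p := r))
    rw [Nat.mod_eq_of_lt hkr, Nat.div_eq_of_lt hkr, Nat.choose_zero_right, mul_one] at h1
    have h2 : r ∣ Nat.choose (n % r) k := Nat.modEq_zero_iff_dvd.1 (h1.symm.trans (Nat.modEq_zero_iff_dvd.2 hrd))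
    have h3 := hr.dvd_factorial.1 (h2.trans ⟨_, by rw [← Nat.choose_mul_factorial_mul_factorial h, mul_assoc]⟩)
    exact absurd h3 (not_le.2 (Nat.mod_lt n hr.pos))
  · subst hr2
    rw [fix_iff n k 2 (by omega) hr hrn, Nat.even_iff, Nat.odd_iff]
    omega

end Cfsg.Agent.S3573
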