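import Cfsg.Statements.S3575
import Cfsg.Agent.UnifPart.Basic
-- import your own Cfsg.Agent.* helpers here

set_option autoImplicit false
open Cfsg

namespace Cfsg.Agent.S3575

/-- Let a, b ≥ 2 and consider the symmetric group of degree a·b acting on the partitions of an (a·b)-set into b parts of size a (encoded as maps onto a b-element set all of whose fibres have a elements; a permutation fixes such a partition when it permutes the fibres). Let r be a prime dividing the number (ab)!/((a!)^b·b!) of such partitions, and let ℓ and k be the remainders of a and b modulo r. Then every permutation of order r fixes some such partition if and only if r ≤ a and one of the following holds: ℓ = 0; or k = 0 and ℓ = 1; or ℓ and k are non-zero, k·ℓ < r, and either b < r or (k + r)·ℓ ≤ k·a + r. -/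
theorem result (a b : ℕ) (ha : 2 ≤ a) (hb : 2 ≤ b) (r : ℕ) (hr : r.Prime)
    (hrd : r ∣ (a * b).factorial / (a.factorial ^ b * b.factorial)) :
    (∀ σ : Equiv.Perm (Fin (a * b)), orderOf σ = r →
        ∃ f : Fin (a * b) → Fin b, (∀ j : Fin b, Nat.card {x : Fin (a * b) // f x = j} = a) ∧
          ∃ π : Equiv.Perm (Fin b), ∀ x : Fin (a * b), f (σ x) = π (f x)) ↔
      (r ≤ a ∧ (a % r = 0 ∨ (b % r = 0 ∧ a % r = 1) ∨
        (a % r ≠ 0 ∧ b % r ≠ 0 ∧ (b % r) * (a % r) < r ∧ (b < r ∨ (b % r + r) * (a % r) ≤ (b % r) * a + r)))) := by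
  classical
  have hfact : r ∣ (a * b).factorial := hrd.trans (Nat.div_dvd_of_dvd ⟨Nat.uniformBell b a, by
    have h := Nat.uniformBell_mul_eq b (n := a) (by omega)
    rw [mul_comm a b, ← h]
    ring⟩)
  have hab : r ≤ a * b := hr.dvd_factorial.1 hfact
  rw [← CfsgLib.UnifPart.arith ha (by omega) hr.two_le hab]
  have hn : Nat.card (Fin (a * b)) = a * b := Nat.card_fin _
  constructor
  · intro h m hm hmr
    obtain ⟨τ, hτ, hfix⟩ := CfsgLib.UnifPart.exists_cycles (Fin (a * b)) hr (x := m) (by rwa [hn])
    rw [hn] at hfix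
    have hord : orderOf τ = r := by
      have : Fact r.Prime := ⟨hr⟩
      refine orderOf_eq_prime hτ fun h1 => ?_
      have : CfsgLib.UnifPart.fixCount τ = a * b := by
        rw [CfsgLib.UnifPart.fixCount]
        refine Eq.trans ?_ hn
        exact Nat.card_congr (Equiv.subtypeUnivEquiv fun x => by simp [h1])
      nlinarith [hr.two_le]
    obtain ⟨f, hf⟩ := h τ hord
    obtain ⟨c, hc1, hc2, hc3⟩ := CfsgLib.UnifPart.necessary hr (by omega) τ hτ hf
    refine ⟨c, hc1, ?_, by linarith⟩
    have : c * a * r ≤ m * r := by linarith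
    exact Nat.le_of_mul_le_mul_right this hr.pos
  · intro h σ hord
    have hσ : σ ^ r = 1 := hord ▸ pow_orderOf_eq_one σ
    obtain ⟨-, m, hm⟩ := CfsgLib.UnifPart.cycleType_eq hr σ hσ
    have hsum := CfsgLib.UnifPart.fixCount_add_support σ
    rw [Fintype.card_fin, hm, mul_comm r m] at hsum
    have hm1 : 1 ≤ m := by
      rcases Nat.eq_zero_or_pos m with h0 | h0
      · subst h0
        rw [mul_zero, Finset.card_eq_zero, Equiv.Perm.support_eq_empty_iff] at hm
        rw [hm, orderOf_one] at hord
        exact absurd hord hr.ne_one.symm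
      · exact h0
    obtain ⟨c, hc1, hc2, hc3⟩ := h m hm1 (by omega)
    obtain ⟨M, rfl⟩ : ∃ M, m = c * a + M := ⟨m - c * a, by omega⟩
    refine CfsgLib.UnifPart.sufficient (M := M) hr hn hc1 ?_ σ hσ (by linarith)
    obtain ⟨d, rfl⟩ : ∃ d, b = c * r + d := ⟨b - c * r, by omega⟩
    rw [Nat.add_sub_cancel_left]
    have hA := Nat.div_add_mod' a r
    generalize a / r = A at hA ⊢
    generalize a % r = l at hA hc3
    subst hA
    have : M * r ≤ d * A * r := by linarith
    exact Nat.le_of_mul_le_mul_right this hr.pos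

end Cfsg.Agent.S3575
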