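import Cfsg.Statements.S3580
import Cfsg.Agent.SylowRatio.Orbits
-- import your own Cfsg.Agent.* helpers here

set_option autoImplicit false
open Cfsg

namespace Cfsg.Agent.S3580

/-- Let G act faithfully and transitively on a finite set Ω, let p be an odd prime dividing the order of G and P a Sylow p-subgroup of G. Then the number of orbits of P on Ω is at most (p/(2p − 1))·(number of points). -/
theorem result {G Ω : Type*} [Group G] [Finite G] [MulAction G Ω] [FaithfulSMul G Ω] [Finite Ω]
    (htrans : MulAction.IsPretransitive G Ω) (p : ℕ) [Fact p.Prime] (hp2 : p ≠ 2) (hpG : p ∣ Nat.card G)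
    (P : Sylow p G) :
    (2 * p - 1) * Nat.card (MulAction.orbitRel.Quotient ↥(P : Subgroup G) Ω) ≤ p * Nat.card Ω := by
  classical
  have := htrans
  have hp := (Fact.out : p.Prime).two_le
  have hM := SylowRatio.full_core_top (G := G) (p := p)
  have hP : P ∈ SylowRatio.syl p (SylowRatio.core p (⊤ : Subgroup G)) := by
    rw [SylowRatio.syl_core]; exact SylowRatio.mem_syl.mpr le_top
  have h1 := SylowRatio.fixed_bound hM hP (SylowRatio.core_top_moves (X := Ω) hpG)
  have h2 := SylowRatio.orbits_le (X := Ω) (P := (P : Subgroup G)) P.isPGroup'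
  refine Nat.le_of_mul_le_mul_left ?_ (show 0 < p by omega)
  obtain ⟨q, rfl⟩ : ∃ q, p = q + 1 := ⟨p - 1, by omega⟩
  rw [show 2 * (q + 1) - 1 = 2 * q + 1 by omega] at h1 ⊢
  rw [Nat.add_sub_cancel] at h1 h2
  nlinarith [Nat.mul_le_mul_left (2 * q + 1) h2, Nat.mul_le_mul_left q h1]

end Cfsg.Agent.S3580
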