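import Cfsg.Statements.S3590
import Cfsg.Agent.SpecEight.Model

set_option autoImplicit false
open Cfsg

namespace Cfsg.Agent.S3590

/-- Let F be a finite field of characteristic 2. Then PSp(8,F) is not determined by its set of element orders, not even up to finitely many groups: for every bound there is a finite group of larger order with exactly the same set of element orders as PSp(8,F). -/
theorem result {F : Type*} [Field F] [Fintype F]
    [CharP F 2] (M : ℕ) :
    ∃ (H : Type) (_ : Group H) (_ : Fintype H), M < Fintype.card H ∧ Set.range (orderOf : H → ℕ) = Set.range (orderOf : Cfsg.PSp 4 F → ℕ) := by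
  obtain ⟨m, _, hcard⟩ := FiniteField.card F 2
  have hK : Nat.card (GaloisField 2 (m : ℕ)) = Nat.card F := by
    rw [GaloisField.card 2 (m : ℕ) m.2.ne', Nat.card_eq_fintype_card, hcard]
  have : Finite (GaloisField 2 (m : ℕ)) :=
    Nat.finite_of_card_ne_zero (by rw [hK]; exact Nat.card_pos.ne')
  obtain ⟨H, i1, i2, h1, h2⟩ := CfsgLib.SpecEight.exists_isospectral' (K := GaloisField 2 (m : ℕ)) M
  exact ⟨H, i1, i2, h1, by rw [h2, hK, CfsgLib.SpecEight.range_psp]⟩

end Cfsg.Agent.S3590
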