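import Cfsg.Statements.S3599
import Cfsg.Agent.MinFrob.Basic

set_option autoImplicit false
open Cfsg

namespace Cfsg.Agent.S3599

/-- A finite group is critical with respect to a set Ω of natural numbers when its set of element orders is Ω while no proper section H/N (H a subgroup, N normal in H, (H, N) ≠ (whole group, 1)) has Ω as its set of element orders. Let s ≥ 1 and let p(j,0), p(j,1) (j < s) be 2s pairwise distinct primes, and let Ω be the set of all products c(0)·…·c(s−1) with each c(j) ∈ {1, p(j,0), p(j,1)}. Then there are 2^s pairwise non-isomorphic finite groups critical with respect to Ω. -/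
theorem result (s : ℕ) (hs : 1 ≤ s) (p : Fin s → Fin 2 → ℕ)
    (hp : ∀ j i, (p j i).Prime) (hinj : ∀ j i j' i', p j i = p j' i' → j = j' ∧ i = i') :
    ∃ (G : Fin (2 ^ s) → Type) (_ : ∀ a, Group (G a)) (_ : ∀ a, Fintype (G a)),
      (∀ a b, a ≠ b → ¬ Nonempty (G a ≃* G b)) ∧
      ∀ a, Set.range (orderOf : (G a) → ℕ) = {m : ℕ | ∃ c : Fin s → ℕ, (∀ j, c j = 1 ∨ c j = p j 0 ∨ c j = p j 1) ∧ m = ∏ j, c j} ∧
      ∀ (H : Subgroup (G a)) (N : Subgroup ↥H) [N.Normal], (H ≠ ⊤ ∨ N ≠ ⊥) → Set.range (orderOf : (↥H ⧸ N) → ℕ) ≠ {m : ℕ | ∃ c : Fin s → ℕ, (∀ j, c j = 1 ∨ c j = p j 0 ∨ c j = p j 1) ∧ m = ∏ j, c j} := by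
  classical
  have hne : ∀ j, p j 0 ≠ p j 1 := fun j h => by have := (hinj j 0 j 1 h).2; simp at this
  have hex : ∀ (j : Fin s) (i : Fin 2), ∃ (F : Type) (_ : Group F) (_ : Fintype F),
      Set.range (orderOf : F → ℕ) = {m | m = 1 ∨ m = p j i ∨ m = p j (1 - i)} ∧
      (∀ H : Subgroup F, (∃ x ∈ H, orderOf x = p j i) → (∃ x ∈ H, orderOf x = p j (1 - i)) → H = ⊤) ∧
      (∀ N : Subgroup F, N.Normal → N ≠ ⊥ → ¬ p j i ∣ N.index) ∧
      Subgroup.center F = ⊥ ∧
      (∀ x y : F, x ^ p j i = 1 → y ^ p j i = 1 → (x * y) ^ p j i = 1) ∧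
      (∃ x y : F, x ^ p j (1 - i) = 1 ∧ y ^ p j (1 - i) = 1 ∧ (x * y) ^ p j (1 - i) ≠ 1) := by
    intro j i
    haveI : Fact (p j i).Prime := ⟨hp j i⟩
    haveI : Fact (p j (1 - i)).Prime := ⟨hp j _⟩
    exact CfsgLib.MinFrob.exists_group _ _ (fun h => by
      have := (hinj _ _ _ _ h).2; fin_cases i <;> simp at this)
  choose F grp fin hrange hgen hnorm hcen hclosed hnot using hex
  let e : Fin (2 ^ s) → Fin s → Fin 2 := fun a => finFunctionFinEquiv.symm a
  refine ⟨fun a => ∀ j, F j (e a j), fun a => inferInstance, fun a => inferInstance, ?_, ?_⟩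
  · intro a b hab ⟨φ⟩
    obtain ⟨j, hj⟩ : ∃ j, e a j ≠ e b j := by
      by_contra h
      push Not at h
      exact hab (finFunctionFinEquiv.symm.injective (funext h))
    obtain ⟨x, y, hx, hy, hxy⟩ := hnot j (e b j)
    have hi : 1 - e b j = e a j := by
      revert hj; generalize e a j = u; generalize e b j = v; revert u v; decide
    rw [hi] at hx hy hxy
    have hcl : ∀ (t : Fin s) (g h : F t (e a t)), g ^ p j (e a j) = 1 → h ^ p j (e a j) = 1 →
        (g * h) ^ p j (e a j) = 1 := by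
      intro t g h hg hh
      by_cases ht : t = j
      · subst ht; exact hclosed _ _ g h hg hh
      · have h1 : ∀ u : F t (e a t), u ^ p j (e a j) = 1 → u = 1 := by
          intro u hu
          rw [← orderOf_eq_one_iff]
          have hd := orderOf_dvd_of_pow_eq_one hu
          rcases (Nat.dvd_prime (hp j _)).1 hd with h' | h'
          · exact h'
          · have hm : orderOf u ∈ Set.range (orderOf : F t (e a t) → ℕ) := ⟨u, rfl⟩
            rw [hrange] at hm
            rcases hm with h'' | h'' | h''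
            · exact h''
            · exact absurd (hinj _ _ _ _ (h''.symm.trans h')).1 ht
            · exact absurd (hinj _ _ _ _ (h''.symm.trans h')).1 ht
        rw [h1 g hg, h1 h hh, one_mul, one_pow]
    have hsingle : ∀ u : F j (e b j), u ^ p j (e a j) = 1 →
        (φ.symm (Pi.mulSingle j u)) ^ p j (e a j) = 1 := fun u hu => by
      rw [← map_pow, ← Pi.mulSingle_pow, hu, Pi.mulSingle_one, map_one]
    apply hxy
    have hprod : (φ.symm (Pi.mulSingle j x) * φ.symm (Pi.mulSingle j y)) ^ p j (e a j) = 1 :=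
      funext fun t => hcl t _ _ (congrFun (hsingle x hx) t) (congrFun (hsingle y hy) t)
    rw [← map_mul, ← Pi.mulSingle_mul, ← map_pow, ← Pi.mulSingle_pow, MulEquiv.map_eq_one_iff] at hprod
    simpa using congrFun hprod j
  intro a
  set F' : Fin s → Type := fun j => F j (e a j)
  have hcop : ∀ (u v : Fin s) (m n : ℕ), u ≠ v → (m = 1 ∨ m = p u 0 ∨ m = p u 1) →
      (n = 1 ∨ n = p v 0 ∨ n = p v 1) → m.Coprime n := by
    intro u v m n huv hm hn
    rcases hm with rfl | rfl | rfl <;> rcases hn with rfl | rfl | rfl <;>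
      first
      | exact Nat.coprime_one_left _
      | exact Nat.coprime_one_right _
      | exact (Nat.coprime_primes (hp _ _) (hp _ _)).2 fun h => huv (hinj _ _ _ _ h).1
  have hcases : ∀ (j : Fin s) (i : Fin 2) (m : ℕ),
      (m = 1 ∨ m = p j i ∨ m = p j (1 - i)) ↔ (m = 1 ∨ m = p j 0 ∨ m = p j 1) := by
    intro j i m
    fin_cases i <;> simp [or_comm (a := m = p j 0)]
  have hordF : ∀ (j : Fin s) (u : F j (e a j)), orderOf u = 1 ∨ orderOf u = p j 0 ∨ orderOf u = p j 1 := by
    intro j u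
    have hm : orderOf u ∈ Set.range (orderOf : F j (e a j) → ℕ) := ⟨u, rfl⟩
    rw [hrange] at hm
    exact (hcases j _ _).1 hm
  have hord : ∀ x : (∀ j, F j (e a j)), orderOf x = ∏ j, orderOf (x j) := by
    intro x
    rw [Pi.orderOf]
    exact Finset.lcm_eq_prod fun u _ v _ huv => hcop u v _ _ huv (hordF u _) (hordF v _)
  have hspec : Set.range (orderOf : (∀ j, F j (e a j)) → ℕ) =
      {m : ℕ | ∃ c : Fin s → ℕ, (∀ j, c j = 1 ∨ c j = p j 0 ∨ c j = p j 1) ∧ m = ∏ j, c j} := by
    ext m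
    constructor
    · rintro ⟨x, rfl⟩
      exact ⟨fun j => orderOf (x j), fun j => hordF j _, hord x⟩
    · rintro ⟨c, hc, rfl⟩
      have : ∀ j, ∃ u : F j (e a j), orderOf u = c j := by
        intro j
        have hm : c j ∈ Set.range (orderOf : F j (e a j) → ℕ) := by
          rw [hrange]; exact (hcases j _ _).2 (hc j)
        exact hm
      choose u hu using this
      exact ⟨u, by rw [hord]; simp [hu]⟩
  refine ⟨hspec, ?_⟩
  intro H N _ hHN heq
  have hprime : ∀ j i, ∃ y : ↥H ⧸ N, orderOf y = p j i := by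
    intro j i
    have hm : p j i ∈ Set.range (orderOf : (↥H ⧸ N) → ℕ) := by
      rw [heq]
      refine ⟨Function.update (fun _ => 1) j (p j i), fun t => ?_, ?_⟩
      · by_cases ht : t = j
        · subst ht
          rw [Function.update_self]
          fin_cases i
          · exact Or.inr (Or.inl rfl)
          · exact Or.inr (Or.inr rfl)
        · rw [Function.update_of_ne ht]; exact Or.inl rfl
      · rw [Finset.prod_update_of_mem (Finset.mem_univ j)]; simp
    exact hm
  have hsingleH : ∀ (j : Fin s) (u : F j (e a j)), Pi.mulSingle j u ∈ H := by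
    intro j
    have hK : ∀ i, ∃ u ∈ H.comap (MonoidHom.mulSingle (fun j => F j (e a j)) j), orderOf u = p j i := by
      intro i
      obtain ⟨y, hy⟩ := hprime j i
      have hd : p j i ∣ Nat.card ↥H :=
        (hy ▸ orderOf_dvd_natCard y).trans (Subgroup.card_quotient_dvd_card N)
      haveI : Fact (p j i).Prime := ⟨hp j i⟩
      obtain ⟨⟨x, hxH⟩, hxo⟩ := exists_prime_orderOf_dvd_card' (G := ↥H) (p j i) hd
      rw [← Subgroup.orderOf_coe] at hxo
      change orderOf x = p j i at hxo
      have hx : x = Pi.mulSingle j (x j) := by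
        funext t
        by_cases ht : t = j
        · subst ht; rw [Pi.mulSingle_eq_same]
        · rw [Pi.mulSingle_eq_of_ne ht, ← orderOf_eq_one_iff]
          have h1 : orderOf (x t) ∣ p j i := hxo ▸ orderOf_map_dvd (Pi.evalMonoidHom _ t) x
          exact Nat.eq_one_of_dvd_coprimes (hcop t j _ _ ht (hordF t _) (by
            fin_cases i
            · exact Or.inr (Or.inl rfl)
            · exact Or.inr (Or.inr rfl))) dvd_rfl h1
      refine ⟨x j, ?_, ?_⟩
      · show Pi.mulSingle j (x j) ∈ H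
        rw [← hx]; exact hxH
      · rw [← orderOf_injective (MonoidHom.mulSingle (fun j => F j (e a j)) j)
          (fun u v h => by simpa using congrFun h j) (x j)]
        show orderOf (Pi.mulSingle j (x j) : ∀ t, F t (e a t)) = p j i
        rw [← hx, hxo]
    have htop := hgen j (e a j) _ (hK _) (hK _)
    intro u
    exact (htop ▸ Subgroup.mem_top u : u ∈ H.comap (MonoidHom.mulSingle (fun j => F j (e a j)) j))
  have hHtop : H = ⊤ := eq_top_iff.2 fun x _ => Subgroup.pi_mem_of_mulSingle_mem x fun j => hsingleH j _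
  have hN : N ≠ ⊥ := hHN.resolve_left (fun h => h hHtop)
  subst hHtop
  obtain ⟨n, hn⟩ := (Subgroup.ne_bot_iff_exists_ne_one).1 hN
  set N' := N.map (⊤ : Subgroup (∀ j, F j (e a j))).subtype with hN'
  have hN'n : N'.Normal := ⟨by
    rintro _ ⟨x, hx, rfl⟩ g
    exact ⟨⟨g, Subgroup.mem_top g⟩ * x * ⟨g, Subgroup.mem_top g⟩⁻¹,
      Subgroup.Normal.conj_mem ‹_› x hx _, rfl⟩⟩
  set x : (∀ j, F j (e a j)) := ((n : ↥(⊤ : Subgroup (∀ j, F j (e a j)))) : ∀ j, F j (e a j)) with hx
  have hxN : x ∈ N' := ⟨n, n.2, rfl⟩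
  obtain ⟨j, hj⟩ : ∃ j, x j ≠ 1 := by
    by_contra h
    push Not at h
    exact hn (Subtype.ext (Subtype.ext (funext h)))
  obtain ⟨f, hf⟩ : ∃ f : F j (e a j), f * x j ≠ x j * f := by
    by_contra h
    push Not at h
    have : x j ∈ Subgroup.center (F j (e a j)) := Subgroup.mem_center_iff.2 h
    rw [hcen] at this
    exact hj (Subgroup.mem_bot.1 this)
  set Nj := N'.comap (MonoidHom.mulSingle (fun j => F j (e a j)) j) with hNj
  have hNjn : Nj.Normal := hN'n.comap _
  have hNj1 : Nj ≠ ⊥ := by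
    intro h
    have hm : f * x j * f⁻¹ * (x j)⁻¹ ∈ Nj := by
      show Pi.mulSingle j (f * x j * f⁻¹ * (x j)⁻¹) ∈ N'
      have heq : Pi.mulSingle j (f * x j * f⁻¹ * (x j)⁻¹) = Pi.mulSingle j f * x * (Pi.mulSingle j f)⁻¹ * x⁻¹ := by
        funext t
        by_cases ht : t = j
        · subst ht; simp
        · simp [Pi.mulSingle_eq_of_ne ht]
      rw [heq]
      exact mul_mem (hN'n.conj_mem x hxN _) (inv_mem hxN)
    rw [h, Subgroup.mem_bot, mul_inv_eq_one, mul_inv_eq_iff_eq_mul] at hm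
    exact hf hm
  obtain ⟨y, hy⟩ := hprime j (e a j)
  have hd : p j (e a j) ∣ N'.index := by
    rw [hN', Subgroup.index_map_subtype, Subgroup.index_top, mul_one]
    exact hy ▸ orderOf_dvd_natCard y
  have hcard1 : Nat.card Nj ∣ Nat.card N' :=
    (Nat.card_congr (Subgroup.equivMapOfInjective Nj (MonoidHom.mulSingle (fun j => F j (e a j)) j)
      (fun u v h => by simpa using congrFun h j)).toEquiv) ▸ Subgroup.card_dvd_of_le (Subgroup.map_comap_le _ _)
  have hprod : Nat.card (∀ t, F t (e a t)) =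
      Nat.card Nj * (Nj.index * ∏ t ∈ Finset.univ.erase j, Nat.card (F t (e a t))) := by
    rw [Nat.card_pi, ← mul_assoc, Subgroup.card_mul_index, ← Finset.mul_prod_erase Finset.univ (fun t => Nat.card (F t (e a t))) (Finset.mem_univ j)]
  have hdvd : p j (e a j) ∣ Nj.index * ∏ t ∈ Finset.univ.erase j, Nat.card (F t (e a t)) := by
    apply Nat.dvd_of_mul_dvd_mul_left (Nat.card_pos (α := Nj))
    rw [← hprod, ← N'.card_mul_index]
    exact Nat.mul_dvd_mul hcard1 hd
  rcases (hp j _).dvd_mul.1 hdvd with h | h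
  · exact hnorm j _ Nj hNjn hNj1 h
  · obtain ⟨t, ht, hdt⟩ := ((hp j _).prime.dvd_finset_prod_iff _).1 h
    haveI : Fact (p j (e a j)).Prime := ⟨hp j _⟩
    obtain ⟨u, hu⟩ := exists_prime_orderOf_dvd_card' (G := F t (e a t)) _ hdt
    rcases hordF t u with h' | h' | h'
    · exact (hp j _).one_lt.ne (h'.symm.trans hu)
    · exact (Finset.ne_of_mem_erase ht) (hinj _ _ _ _ (h'.symm.trans hu)).1
    · exact (Finset.ne_of_mem_erase ht) (hinj _ _ _ _ (h'.symm.trans hu)).1

end Cfsg.Agent.S3599
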