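import Cfsg.Statements.S3619
import Mathlib

set_option autoImplicit false
open Cfsg

namespace Cfsg.Agent.S3619

/-- Let G act faithfully on a finite set in such a way that every non-trivial normal subgroup of G is transitive (G is quasiprimitive). Let Γ be a subset with more than one point and not the whole set, such that the pointwise stabilizer of the complement of Γ acts transitively on Γ (a Jordan set). If that pointwise stabilizer acts primitively on Γ, then G is k-fold transitive where k is one more than the number of points outside Γ (the Jordan set is a trivial one). -/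
theorem result {G Ω : Type*} [Group G] [Finite G] [MulAction G Ω] [FaithfulSMul G Ω] [Finite Ω]
    (hqp : ∀ N : Subgroup G, N.Normal → N ≠ ⊥ → MulAction.IsPretransitive ↥N Ω)
    (Γ : Set Ω) (hΓ1 : 1 < Γ.ncard) (hΓ2 : Γ.ncard < Nat.card Ω)
    (hJ : MulAction.IsPretransitive ↥(fixingSubgroup G Γᶜ) ↥(SubMulAction.ofFixingSubgroup G Γᶜ))
    (hJp : MulAction.IsPreprimitive ↥(fixingSubgroup G Γᶜ) ↥(SubMulAction.ofFixingSubgroup G Γᶜ)) :
    MulAction.IsMultiplyPretransitive G Ω (Nat.card Ω - Γ.ncard + 1) := by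
  classical
  open scoped Pointwise in
  have hmemX : ∀ x : Ω, x ∈ SubMulAction.ofFixingSubgroup G Γᶜ ↔ x ∈ Γ := fun x => by
    rw [SubMulAction.mem_ofFixingSubgroup_iff, Set.notMem_compl_iff]
  obtain ⟨γ, hγ, γ', hγ', hne⟩ := (Set.one_lt_ncard).mp hΓ1
  obtain ⟨h₀, hh₀⟩ := hJ.exists_smul_eq ⟨γ, (hmemX γ).mpr hγ⟩ ⟨γ', (hmemX γ').mpr hγ'⟩
  have hh₀' : (h₀ : G) • γ = γ' := congrArg Subtype.val hh₀
  have hGne : (⊤ : Subgroup G) ≠ ⊥ := fun h => by
    have hm : (h₀ : G) ∈ (⊤ : Subgroup G) := Subgroup.mem_top _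
    rw [h, Subgroup.mem_bot] at hm
    rw [hm, one_smul] at hh₀'
    exact hne hh₀'
  have htop := hqp ⊤ inferInstance hGne
  haveI hG : MulAction.IsPretransitive G Ω := ⟨fun a b => by
    obtain ⟨g, hg⟩ := htop.exists_smul_eq a b
    exact ⟨g, hg⟩⟩
  have hfix : ∀ h : fixingSubgroup G Γᶜ, ∀ z ∉ Γ, (h : G) • z = z := fun h z hz =>
    (mem_fixingSubgroup_iff G).mp h.2 z hz
  open scoped Pointwise in
  have hprim : MulAction.IsPreprimitive G Ω := by
    refine { exists_smul_eq := hG.exists_smul_eq, isTrivialBlock_of_isBlock := fun {B} hB => ?_ }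
    by_cases hA : ∃ g : G, Γ ⊆ g • B
    · obtain ⟨g, hg⟩ := hA
      have hB' : MulAction.IsBlock G (g • B) := hB.translate g
      refine Or.inr ?_
      by_contra hU
      obtain ⟨x, hx⟩ : ∃ x, x ∉ g • B := by
        by_contra h
        push Not at h
        have huniv : g • B = Set.univ := Set.eq_univ_of_forall h
        exact hU (by rw [← inv_smul_smul g B, huniv, Set.smul_set_univ])
      let K : Subgroup G := ⨅ c : G, MulAction.stabilizer G (c • g • B)
      have hmemK : ∀ y, y ∈ K ↔ ∀ c : G, y • c • g • B = c • g • B := fun y => by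
        simp [K, Subgroup.mem_iInf]
      have hKn : K.Normal := ⟨fun y hy d => (hmemK _).mpr fun c => by
        have h := (hmemK y).mp hy (d⁻¹ * c)
        rw [mul_smul d⁻¹ c] at h
        rw [mul_smul, mul_smul, h, smul_inv_smul]⟩
      have hHK : ∀ h : fixingSubgroup G Γᶜ, (h : G) ∈ K := fun h => (hmemK _).mpr fun c => by
        have hblk : (h : G) • g • B = g • B := by
          refine MulAction.IsBlock.smul_eq_of_mem hB' (hg hγ) ?_
          by_cases hz : (h : G) • γ ∈ Γ
          · exact hg hz
          · have := hfix h _ hz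
            rw [smul_left_cancel (h : G) this] at hz
            exact absurd hγ hz
        by_cases hmeet : ∃ z ∈ c • g • B, z ∈ Γ
        · obtain ⟨z, hz, hzΓ⟩ := hmeet
          have heq : c • g • B = g • B := by
            rcases (MulAction.isBlock_iff_smul_eq_or_disjoint.mp hB') c with h' | h'
            · exact h'
            · exact absurd (hg hzΓ) (Set.disjoint_left.mp h' hz)
          rw [heq, hblk]
        · push Not at hmeet
          ext z
          constructor
          · rintro ⟨w, hw, rfl⟩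
            show (h : G) • w ∈ c • g • B
            rwa [hfix h w (hmeet w hw)]
          · intro hz
            exact ⟨z, hz, hfix h z (hmeet z hz)⟩
      have hKne : K ≠ ⊥ := fun h => by
        have hm := hHK h₀
        rw [h, Subgroup.mem_bot] at hm
        rw [hm, one_smul] at hh₀'
        exact hne hh₀'
      obtain ⟨⟨k, hk⟩, hkx⟩ := (hqp K hKn hKne).exists_smul_eq γ x
      have hk1 := (hmemK k).mp hk 1
      rw [one_smul] at hk1
      apply hx
      rw [← hk1]
      exact ⟨γ, hg hγ, hkx⟩
    · push Not at hA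
      refine Or.inl fun a ha b hb => ?_
      by_contra hab
      obtain ⟨g, hg⟩ := hG.exists_smul_eq a γ
      have hγB : γ ∈ g • B := ⟨a, ha, hg⟩
      have hzB : g • b ∈ g • B := Set.smul_mem_smul_set hb
      have hzne : g • b ≠ γ := fun h => hab (smul_left_cancel g (h.trans hg.symm)).symm
      let B₁ : Set (SubMulAction.ofFixingSubgroup G Γᶜ) := Subtype.val ⁻¹' (g • B)
      have hB₁ : MulAction.IsBlock (fixingSubgroup G Γᶜ) B₁ :=
        MulAction.IsBlock.subtype_val_preimage (hB.translate g).subgroup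
      rcases hJp.isTrivialBlock_of_isBlock hB₁ with hsub | huniv
      · by_cases hzΓ : g • b ∈ Γ
        · exact hzne (congrArg Subtype.val (hsub
            (show (⟨g • b, (hmemX _).mpr hzΓ⟩ : SubMulAction.ofFixingSubgroup G Γᶜ) ∈ B₁ from hzB)
            (show (⟨γ, (hmemX γ).mpr hγ⟩ : SubMulAction.ofFixingSubgroup G Γᶜ) ∈ B₁ from hγB)))
        · have heq : (h₀ : G) • g • B = g • B :=
            MulAction.IsBlock.smul_eq_of_mem (hB.translate g) hzB (by rw [hfix h₀ _ hzΓ]; exact hzB)
          have hγ'B : γ' ∈ g • B := heq ▸ ⟨γ, hγB, hh₀'⟩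
          exact hne (congrArg Subtype.val (hsub
            (show (⟨γ, (hmemX γ).mpr hγ⟩ : SubMulAction.ofFixingSubgroup G Γᶜ) ∈ B₁ from hγB)
            (show (⟨γ', (hmemX γ').mpr hγ'⟩ : SubMulAction.ofFixingSubgroup G Γᶜ) ∈ B₁ from hγ'B)))
      · exact hA g fun y hy => (huniv.ge (Set.mem_univ ⟨y, (hmemX y).mpr hy⟩) :)
  have hcompl : Γᶜ.ncard = Nat.card Ω - Γ.ncard := by
    rw [Set.ncard_compl]
  obtain ⟨n, hn⟩ := Nat.exists_eq_add_of_le' (show 1 ≤ Nat.card Ω - Γ.ncard by omega)
  have h := hprim.isMultiplyPreprimitive (s := Γᶜ) (n := n) (hcompl.trans hn) (by omega) hJp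
  rw [hn]
  exact h.isMultiplyPretransitive

end Cfsg.Agent.S3619
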