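import Cfsg.Statements.S3620
import Cfsg.Agent.JordanSet.Quasi

set_option autoImplicit false
open Cfsg

namespace Cfsg.Agent.S3620

/-- Let G act faithfully on a finite set in such a way that every non-trivial normal subgroup of G is transitive (G is quasiprimitive). Let Γ be a subset with more than one point and fewer than half of the points, such that the pointwise stabilizer of the complement of Γ acts transitively on Γ. Then G induces every even permutation of the set (G is the alternating or the symmetric group). -/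
theorem result {G Ω : Type*} [Group G] [Finite G] [MulAction G Ω] [FaithfulSMul G Ω] [Fintype Ω] [DecidableEq Ω]
    (hqp : ∀ N : Subgroup G, N.Normal → N ≠ ⊥ → MulAction.IsPretransitive ↥N Ω)
    (Γ : Set Ω) (hΓ1 : 1 < Γ.ncard) (hΓ2 : 2 * Γ.ncard < Fintype.card Ω)
    (hJ : MulAction.IsPretransitive ↥(fixingSubgroup G Γᶜ) ↥(SubMulAction.ofFixingSubgroup G Γᶜ)) :
    ∀ σ : Equiv.Perm Ω, Equiv.Perm.sign σ = 1 → ∃ x : G, (MulAction.toPerm x : Equiv.Perm Ω) = σ := by
  classical
  intro σ hσ
  let Δ : Finset Ω := Γ.toFinset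
  have hmem : ∀ x, x ∈ Δ ↔ x ∈ Γ := fun x => Set.mem_toFinset
  have hc : Δ.card = Γ.ncard := (Set.ncard_eq_toFinset_card' Γ).symm
  have htr : ∀ x ∈ Δ, ∀ y ∈ Δ, ∃ g : G, (∀ z ∉ Δ, g • z = z) ∧ g • x = y := by
    intro x hx y hy
    obtain ⟨g, hg⟩ := MulAction.exists_smul_eq (fixingSubgroup G Γᶜ)
      (⟨x, fun h => h ((hmem x).1 hx)⟩ : SubMulAction.ofFixingSubgroup G Γᶜ)
      ⟨y, fun h => h ((hmem y).1 hy)⟩
    exact ⟨g.1, fun z hz => (mem_fixingSubgroup_iff G).1 g.2 z fun h => hz ((hmem z).2 h),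
      congrArg Subtype.val hg⟩
  haveI := CfsgLib.JordanSet.isPreprimitive_of_quasiprimitive hqp Δ (by omega) (by omega) htr
  let π := MulAction.toPermHom G Ω
  have hP : MulAction.IsPreprimitive π.range Ω :=
    MulAction.IsPreprimitive.of_surjective (f := ({ toFun := id, map_smul' := fun _ _ => rfl } :
      Ω →ₑ[π.rangeRestrict] Ω)) Function.surjective_id
  have hle : alternatingGroup Ω ≤ π.range :=
    CfsgLib.JordanSet.alternatingGroup_le hP (Γ := Δ) (by omega) (by omega) fun x hx y hy => by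
      obtain ⟨g, hg, hgx⟩ := htr x hx y hy
      exact ⟨π g, ⟨g, rfl⟩, hg, hgx⟩
  obtain ⟨x, hx⟩ := hle hσ
  exact ⟨x, hx⟩

end Cfsg.Agent.S3620
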