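import Cfsg.Statements.S3622
-- import your own Cfsg.Agent.* helpers here

set_option autoImplicit false
open Cfsg

namespace Cfsg.Agent.S3622

/-- Let G be a group of permutations of a finite set, m ≥ 2, and α a point. Say a permutation σ is k-approximated by a set S of permutations if for every k points there is a member of S agreeing with σ at those points. Suppose every permutation that is (m-1)-approximated by the stabilizer of α in G lies in that stabilizer (the stabilizer is (m-1)-closed). Then every permutation that is m-approximated by G lies in G (G is m-closed). -/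
theorem result {Ω : Type*} [Finite Ω] (G : Subgroup (Equiv.Perm Ω)) (m : ℕ) (hm : 2 ≤ m) (α : Ω)
    (hclosed : ∀ σ : Equiv.Perm Ω,
      (∀ t : Fin (m - 1) → Ω, ∃ g ∈ MulAction.stabilizer ↥G α, ∀ i, (g : Equiv.Perm Ω) (t i) = σ (t i)) →
      σ ∈ G ∧ σ α = α) :
    ∀ σ : Equiv.Perm Ω, (∀ t : Fin m → Ω, ∃ g ∈ G, ∀ i, g (t i) = σ (t i)) → σ ∈ G := by
  intro σ hσ
  obtain ⟨j, rfl⟩ : ∃ j, m = j + 1 := ⟨m - 1, by omega⟩
  obtain ⟨g₀, hg₀, h₀⟩ := hσ (fun _ => α)
  have h00 : g₀ α = σ α := h₀ 0
  have key := hclosed (g₀⁻¹ * σ) (fun t => by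
    obtain ⟨g, hg, h⟩ := hσ (Fin.cons α t)
    refine ⟨⟨g₀⁻¹ * g, G.mul_mem (G.inv_mem hg₀) hg⟩, ?_, fun i => ?_⟩
    · have := h 0
      rw [Fin.cons_zero] at this
      show (g₀⁻¹ * g) α = α
      rw [Equiv.Perm.mul_apply, this, ← h00]
      exact g₀.symm_apply_apply _
    · have := h (Fin.succ i)
      rw [Fin.cons_succ] at this
      show (g₀⁻¹ * g) (t i) = (g₀⁻¹ * σ) (t i)
      rw [Equiv.Perm.mul_apply, Equiv.Perm.mul_apply, this])
  have := G.mul_mem hg₀ key.1
  rwa [mul_inv_cancel_left] at this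

end Cfsg.Agent.S3622
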