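import Cfsg.Statements.S3626
import Cfsg.Agent.ReeCube.Model
import Cfsg.Agent.Chev.Ree.Orders

set_option autoImplicit false
open Cfsg

namespace Cfsg.Agent.S3626

universe v

/-- A model in the lowest universe. -/
theorem exists_small {G : Type v} [Group G] [Finite G] :
    ∃ (R : Type) (_ : Group R) (_ : Finite R), Nonempty (G ≃* R) := by
  obtain ⟨n, ⟨e⟩⟩ := Finite.exists_equiv_fin G
  let f : G →* Equiv.Perm (Fin n) := e.permCongrHom.toMonoidHom.comp (MulAction.toPermHom G G)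
  have hf : Function.Injective f := e.permCongrHom.injective.comp MulAction.toPerm_injective
  exact ⟨↥f.range, inferInstance, inferInstance, ⟨MonoidHom.ofInjective hf⟩⟩

/-- Three numbers dividing one of two numbers: two of them divide the same one. -/
theorem three_two {a b c C D : ℕ} (ha : a ∣ C ∨ a ∣ D) (hb : b ∣ C ∨ b ∣ D) (hc : c ∣ C ∨ c ∣ D) :
    ∃ x y : ℕ, (x ∣ C ∨ x ∣ D) ∧ (y ∣ C ∨ y ∣ D) ∧ Nat.lcm a (Nat.lcm b c) = Nat.lcm x y := by
  have e1 : Nat.lcm a (Nat.lcm b c) = Nat.lcm (Nat.lcm a b) c := (Nat.lcm_assoc a b c).symm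
  have e2 : Nat.lcm a (Nat.lcm b c) = Nat.lcm (Nat.lcm a c) b := by rw [Nat.lcm_comm b c, Nat.lcm_assoc]
  rcases ha with ha | ha <;> rcases hb with hb | hb <;> rcases hc with hc | hc
  all_goals first
    | exact ⟨_, _, Or.inl (Nat.lcm_dvd ha hb), by tauto, e1⟩
    | exact ⟨_, _, Or.inr (Nat.lcm_dvd ha hb), by tauto, e1⟩
    | exact ⟨_, _, Or.inl (Nat.lcm_dvd ha hc), by tauto, e2⟩
    | exact ⟨_, _, Or.inr (Nat.lcm_dvd ha hc), by tauto, e2⟩
    | exact ⟨a, _, by tauto, Or.inl (Nat.lcm_dvd hb hc), rfl⟩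
    | exact ⟨a, _, by tauto, Or.inr (Nat.lcm_dvd hb hc), rfl⟩

/-- Let R be the small Ree group over the field with q = 3^(2m+1) ≥ 27 elements. Then there are finite groups of arbitrarily large order with exactly the same set of element orders as R × R × R. -/
theorem result {K : Type*} [Field K] [Fintype K] {m : ℕ} (hm : 1 ≤ m) (hK : Fintype.card K = 3 ^ (2 * m + 1)) (N : ℕ) :
    ∃ (H : Type) (_ : Group H) (_ : Fintype H), N < Fintype.card H ∧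
      Set.range (orderOf : H → ℕ) = Set.range (orderOf : ↥(Cfsg.Lie.twistedG2 K (3 ^ m)) × ↥(Cfsg.Lie.twistedG2 K (3 ^ m)) × ↥(Cfsg.Lie.twistedG2 K (3 ^ m)) → ℕ) := by
  classical
  have hcard : Nat.card K = 3 ^ (2 * m + 1) := by rw [Nat.card_eq_fintype_card, hK]
  haveI : CharP K 3 := by
    obtain ⟨p, hp⟩ := CharP.exists K
    obtain ⟨n, hp', hn⟩ := FiniteField.card K p
    have := (Nat.prime_dvd_prime_iff_eq hp' Nat.prime_three).1
      (hp'.dvd_of_dvd_pow (show p ∣ 3 ^ (2 * m + 1) by rw [← hK, hn]; exact dvd_pow_self p n.pos.ne'))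
    exact this ▸ hp
  haveI : Fact (Nat.Prime 3) := ⟨Nat.prime_three⟩
  let F := GaloisField 3 (2 * m + 1)
  haveI : Fintype F := Fintype.ofFinite F
  have hF : Fintype.card F = 3 ^ (2 * m + 1) := by
    rw [← Nat.card_eq_fintype_card, GaloisField.card 3 _ (by omega)]
  set q := 3 ^ (2 * m + 1) with hqdef
  have hq8 : q % 8 = 3 := by
    rw [hqdef, pow_succ, pow_mul, Nat.mul_mod, Nat.pow_mod]
    simp
  have hq3 : q % 3 = 0 := by
    rw [hqdef, pow_succ]; exact Nat.mul_mod_left _ _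
  have hA2 : q - 1 = 2 * ((q - 1) / 2) := by omega
  have hA6 : ((q - 1) / 2).Coprime 6 := by
    rw [show (6 : ℕ) = 2 * 3 from rfl, Nat.coprime_mul_iff_right]
    exact ⟨Nat.coprime_two_right.2 (Nat.odd_iff.2 (by omega)),
      (Nat.prime_three.coprime_iff_not_dvd.2 (by omega)).symm⟩
  haveI : Finite (CfsgLib.TwistTensor.Ext F) := Finite.of_equiv _ SemidirectProduct.equivProd.symm
  have hP : ∀ d, d ∈ Set.range (orderOf : ↥(CfsgLib.ReeCube.Big F N) → ℕ) ↔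
      d ∣ 6 ∨ d ∣ 9 ∨ d ∣ q - 1 ∨ d ∣ (q + 1) / 2 := fun d => by
    rw [CfsgLib.ReeCube.range_eq N, CfsgLib.ReeCube.spectrum (A := (q - 1) / 2) (B := (q + 1) / 2)
      (by rw [hF]; exact hA2) hA6 (by rw [hF]; omega) (by omega)
      ((Nat.prime_three.coprime_iff_not_dvd.2 (by omega)).symm) (by omega), ← hA2]
  obtain ⟨R, _, _, ⟨e⟩⟩ := exists_small (G := ↥(Cfsg.Lie.twistedG2 K (3 ^ m)))
  have hR := CfsgLib.Chev.Ree.element_orders (K := K) m hcard hm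
  have toR : ∀ d, (d ∣ 6 ∨ d ∣ 9 ∨ d ∣ q - 1 ∨ d ∣ (q + 1) / 2) → ∃ g : ↥(Cfsg.Lie.twistedG2 K (3 ^ m)), orderOf g = d :=
    fun d h => (hR d).2 (by rcases h with h | h | h | h <;> simp [← hqdef, h])
  refine ⟨R × R × ↥(CfsgLib.ReeCube.Big F N), inferInstance, Fintype.ofFinite _, ?_, ?_⟩
  · rw [show @Fintype.card _ (Fintype.ofFinite _) = Nat.card (R × R × ↥(CfsgLib.ReeCube.Big F N)) from
      (@Nat.card_eq_fintype_card _ (Fintype.ofFinite _)).symm, Nat.card_prod, Nat.card_prod]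
    calc N < Nat.card ↥(CfsgLib.ReeCube.Big F N) := CfsgLib.ReeCube.lt_card N
      _ ≤ _ := le_trans (Nat.le_mul_of_pos_left _ Nat.card_pos) (Nat.le_mul_of_pos_left _ Nat.card_pos)
  ext d
  constructor
  · rintro ⟨⟨a, b, f⟩, rfl⟩
    obtain ⟨c, hc⟩ := toR _ ((hP _).1 ⟨f, rfl⟩)
    exact ⟨(e.symm a, e.symm b, c), by simp [Prod.orderOf, hc]⟩
  · rintro ⟨⟨a, b, c⟩, rfl⟩
    have key : ∀ (x y : ↥(Cfsg.Lie.twistedG2 K (3 ^ m))) (k : ℕ), (k ∣ 6 ∨ k ∣ 9 ∨ k ∣ q - 1 ∨ k ∣ (q + 1) / 2) →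
        Nat.lcm (orderOf x) (Nat.lcm (orderOf y) k) ∈
          Set.range (orderOf : R × R × ↥(CfsgLib.ReeCube.Big F N) → ℕ) := by
      intro x y k hk
      obtain ⟨f, hf⟩ := (hP k).2 hk
      exact ⟨(e x, e y, f), by simp [Prod.orderOf, hf]⟩
    simp only [Prod.orderOf]
    by_cases hc : orderOf c ∣ 6 ∨ orderOf c ∣ 9 ∨ orderOf c ∣ q - 1 ∨ orderOf c ∣ (q + 1) / 2
    · exact key a b _ hc
    by_cases hb : orderOf b ∣ 6 ∨ orderOf b ∣ 9 ∨ orderOf b ∣ q - 1 ∨ orderOf b ∣ (q + 1) / 2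
    · rw [Nat.lcm_comm (orderOf b) (orderOf c)]; exact key a c _ hb
    by_cases ha : orderOf a ∣ 6 ∨ orderOf a ∣ 9 ∨ orderOf a ∣ q - 1 ∨ orderOf a ∣ (q + 1) / 2
    · rw [Nat.lcm_comm (orderOf a), Nat.lcm_assoc]; exact key b c _ ha
    have cd : ∀ g : ↥(Cfsg.Lie.twistedG2 K (3 ^ m)),
        ¬ (orderOf g ∣ 6 ∨ orderOf g ∣ 9 ∨ orderOf g ∣ q - 1 ∨ orderOf g ∣ (q + 1) / 2) →
        orderOf g ∣ q - 3 ^ (m + 1) + 1 ∨ orderOf g ∣ q + 3 ^ (m + 1) + 1 := fun g hg => by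
      have := (hR _).1 ⟨g, rfl⟩
      rw [← hqdef] at this
      tauto
    obtain ⟨x, y, hx, hy, exy⟩ := three_two (cd a ha) (cd b hb) (cd c hc)
    obtain ⟨gx, hgx⟩ := (hR x).2 (by rw [← hqdef]; tauto)
    obtain ⟨gy, hgy⟩ := (hR y).2 (by rw [← hqdef]; tauto)
    have := key gx gy 1 (Or.inl (one_dvd 6))
    rwa [hgx, hgy, Nat.lcm_one_right, ← exy] at this

end Cfsg.Agent.S3626
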