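import Cfsg.Statements.S3633
import Cfsg.Agent.H29.PG.Triangle

set_option autoImplicit false
open Cfsg

namespace Cfsg.Agent.S3633

/-- Let G be a finite group and ρ a set of at least three prime divisors of the order of G that are pairwise non-adjacent in the prime graph (no element of order rs for distinct r, s ∈ ρ). Then at most one prime of ρ divides the order of any given solvable normal subgroup of G; in particular G is not solvable. -/
theorem result {G : Type*} [Group G] [Finite G] (ρ : Finset ℕ) (hρ : 3 ≤ ρ.card) (hc : ((∀ r ∈ ρ, r.Prime ∧ r ∣ Nat.card G) ∧ (∀ r ∈ ρ, ∀ s ∈ ρ, r ≠ s → ¬ ∃ x : G, orderOf x = r * s)))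
    (K : Subgroup G) [K.Normal] (hK : Group.IsSolvable ↥K) :
    (∀ r ∈ ρ, ∀ s ∈ ρ, r ∣ Nat.card ↥K → s ∣ Nat.card ↥K → r = s) ∧ ¬ Group.IsSolvable G := by
  refine ⟨fun r hr s hs hrK hsK => CfsgLib.H29.PG.at_most_one ρ hρ hc.1 hc.2 K hr hs hrK hsK,
    fun hG => ?_⟩
  obtain ⟨r, hr, s, hs, hrs⟩ := Finset.one_lt_card.mp (show 1 < ρ.card by omega)
  refine hrs (CfsgLib.H29.PG.at_most_one ρ hρ hc.1 hc.2 (⊤ : Subgroup G) hr hs ?_ ?_) <;>
    rw [Subgroup.card_top]
  · exact (hc.1 r hr).2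
  · exact (hc.1 s hs).2

end Cfsg.Agent.S3633
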