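import Cfsg.Statements.S3639
import Cfsg.Agent.PrimeGraph.Ext
import Cfsg.Agent.SzVec.Basic

set_option autoImplicit false
open Cfsg

namespace Cfsg.Agent.S3639

/-- Let S be the Suzuki group over the field with q = 2^(2m+1) ≥ 8 elements. Then there are finite groups of arbitrarily large order with the same prime graph as S. -/
theorem result {F : Type*} [Field F] [Fintype F] {m : ℕ} (hm : 1 ≤ m) (hF : Fintype.card F = 2 ^ (2 * m + 1)) (N : ℕ) :
    ∃ (H : Type) (_ : Group H) (_ : Fintype H), N < Fintype.card H ∧ ((∀ r : ℕ, r.Prime → (r ∣ Nat.card ↥(Cfsg.Lie.Sz F (2 ^ (m + 1))) ↔ r ∣ Nat.card H)) ∧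
      (∀ r s : ℕ, r.Prime → s.Prime → r ≠ s → ((∃ x : ↥(Cfsg.Lie.Sz F (2 ^ (m + 1))), orderOf x = r * s) ↔ (∃ y : H, orderOf y = r * s)))) := by
  classical
  have : CharP F 2 := charP_of_card_eq_prime_pow hF
  set e := m + 1 with he
  let ρ : ↥(Cfsg.Lie.Sz F (2 ^ e)) →* AddMonoid.End (Fin 4 → F) :=
    { toFun := fun g => (Matrix.mulVecLin ((g : GL (Fin 4) F) : Matrix (Fin 4) (Fin 4) F)).toAddMonoidHom
      map_one' := AddMonoidHom.ext fun v => by simp; rfl
      map_mul' := fun g h => AddMonoidHom.ext fun v => (Matrix.mulVec_mulVec v _ _).symm }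
  refine CfsgLib.PrimeGraph.exists_unbounded ρ 2 Nat.prime_two ?_ ?_ ?_ N
  · intro v
    funext i
    rw [Pi.smul_apply, nsmul_eq_mul, CharP.cast_eq_zero F 2, zero_mul, Pi.zero_apply]
  · -- an involution
    let A : Matrix (Fin 4) (Fin 4) F := !![1, 0, 1, 1; 0, 1, 0, 1; 0, 0, 1, 0; 0, 0, 0, 1]
    have h2 : (2 : F) = 0 := CharP.cast_eq_zero F 2
    have hA : A * A = 1 := by
      ext i j
      fin_cases i <;> fin_cases j <;> simp [A, Matrix.mul_apply, Fin.sum_univ_four, one_add_one_eq_two, h2]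
    let g : GL (Fin 4) F := ⟨A, A, hA, hA⟩
    have hg : g ∈ Cfsg.Lie.Sz F (2 ^ e) := by
      refine Subgroup.subset_closure ⟨?_, ?_⟩
      · intro u v
        simp only [Units.coeHom_apply, g, A, Cfsg.Lie.altForm4, Matrix.mulVec, dotProduct, Fin.sum_univ_four]
        simp
        linear_combination (u 2 * v 3 + u 3 * v 2 + u 3 * v 3) * h2
      · show Cfsg.Lie.star4 A = A.map _
        ext p r
        simp only [Cfsg.Lie.star4, Matrix.of_apply, Matrix.map_apply]
        fin_cases p <;> fin_cases r <;> simp [A, Cfsg.Lie.pairOf, CharTwo.neg_eq]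
    have ho : orderOf (⟨g, hg⟩ : ↥(Cfsg.Lie.Sz F (2 ^ e))) = 2 := by
      apply orderOf_eq_prime
      · exact Subtype.ext (Units.ext (by simpa [sq, g] using hA))
      · intro h
        have h' : A = 1 := congrArg (fun x : ↥(Cfsg.Lie.Sz F (2 ^ e)) => ((x : GL (Fin 4) F) : Matrix (Fin 4) (Fin 4) F)) h
        have h02 := congrFun (congrFun h' 0) 2
        simp [A] at h02
    have h := orderOf_dvd_natCard (⟨g, hg⟩ : ↥(Cfsg.Lie.Sz F (2 ^ e)))
    rwa [ho] at h
  · intro g v hv hfix r hr hr2 hord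
    have h4 : (g : GL (Fin 4) F) ^ 4 = 1 := CfsgLib.SzVec.pow_four_eq_one e g.2 hv hfix
    have h4' : r ∣ 2 ^ 2 := by
      rw [← hord, show (2 : ℕ) ^ 2 = 4 from rfl]
      exact orderOf_dvd_of_pow_eq_one (show g ^ 4 = 1 from Subtype.ext h4)
    exact hr2 ((Nat.prime_dvd_prime_iff_eq hr Nat.prime_two).1 (hr.dvd_of_dvd_pow h4'))

end Cfsg.Agent.S3639
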