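import Cfsg.Statements.S3660
import Cfsg.Agent.PrimeGraph.Ext

set_option autoImplicit false
open Cfsg

namespace Cfsg.Agent.S3660

/-- The prime graph of a finite group has the prime divisors of its order as vertices, two distinct primes p, q being joined when the group has an element of order pq; two groups have the same prime graph when they have the same prime divisors and the same joined pairs. Let F be a finite field of characteristic 2 with at least 4 elements. Then there are finite groups of arbitrarily large order with the same prime graph as PSL(2,F); in particular PSL(2,F) is not determined by its prime graph. -/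
theorem result {F : Type*} [Field F] [Fintype F] [CharP F 2] (hF : 4 ≤ Fintype.card F) (N : ℕ) :
    ∃ (H : Type) (_ : Group H) (_ : Finite H), N < Nat.card H ∧
      ((∀ p : ℕ, p.Prime → (p ∣ Nat.card (Matrix.ProjectiveSpecialLinearGroup (Fin 2) F) ↔ p ∣ Nat.card H)) ∧
      (∀ p q : ℕ, p.Prime → q.Prime → p ≠ q → ((∃ g : (Matrix.ProjectiveSpecialLinearGroup (Fin 2) F), orderOf g = p * q) ↔ (∃ g : H, orderOf g = p * q)))) := by
  classical
  have h2 : (2 : F) = 0 := CharP.cast_eq_zero F 2
  let ρ₀ : Matrix.SpecialLinearGroup (Fin 2) F →* AddMonoid.End (Fin 2 → F) :=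
    { toFun := fun g => (Matrix.mulVecLin (g : Matrix (Fin 2) (Fin 2) F)).toAddMonoidHom
      map_one' := AddMonoidHom.ext fun v => by simp; rfl
      map_mul' := fun g h => AddMonoidHom.ext fun v => (Matrix.mulVec_mulVec v _ _).symm }
  have hcen : ∀ z ∈ Subgroup.center (Matrix.SpecialLinearGroup (Fin 2) F), z = 1 := by
    intro z hz
    obtain ⟨c, hc, hz'⟩ := Matrix.SpecialLinearGroup.mem_center_iff.1 hz
    apply Matrix.SpecialLinearGroup.ext
    have hc1 : c = 1 := by
      rw [Fintype.card_fin] at hc
      have : (c - 1) ^ 2 = 0 := by linear_combination hc + (1 - c) * h2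
      exact sub_eq_zero.1 ((pow_eq_zero_iff (by norm_num)).1 this)
    intro i j
    rw [← hz', hc1, map_one]
    rfl
  let ρ : Matrix.ProjectiveSpecialLinearGroup (Fin 2) F →* AddMonoid.End (Fin 2 → F) :=
    QuotientGroup.lift _ ρ₀ (fun z hz => by rw [hcen z hz]; exact ρ₀.ker.one_mem)
  obtain ⟨H, iG, iF, hN, h⟩ := CfsgLib.PrimeGraph.exists_unbounded ρ 2 Nat.prime_two (fun v => by
      funext i
      rw [Pi.smul_apply, nsmul_eq_mul, CharP.cast_eq_zero F 2, zero_mul, Pi.zero_apply]) (by
      let A : Matrix.SpecialLinearGroup (Fin 2) F := ⟨!![1, 1; 0, 1], by simp [Matrix.det_fin_two]⟩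
      have ho : orderOf (QuotientGroup.mk A : Matrix.ProjectiveSpecialLinearGroup (Fin 2) F) = 2 := by
        apply orderOf_eq_prime
        · rw [← QuotientGroup.mk_pow, sq, show A * A = 1 from ?_, QuotientGroup.mk_one]
          apply Matrix.SpecialLinearGroup.ext
          intro i j
          rw [Matrix.SpecialLinearGroup.coe_mul]
          fin_cases i <;> fin_cases j <;> simp [A, Matrix.mul_apply, Fin.sum_univ_two, one_add_one_eq_two, h2]
        · intro h
          have hA := hcen A ((QuotientGroup.eq_one_iff A).1 h)
          have := congrFun (congrFun (congrArg Subtype.val hA) 0) 1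
          simp [A] at this
      have h := orderOf_dvd_natCard (QuotientGroup.mk A : Matrix.ProjectiveSpecialLinearGroup (Fin 2) F)
      rwa [ho] at h) (fun g v hv hfix r hr hr2 hord => by
      obtain ⟨A, rfl⟩ := QuotientGroup.mk_surjective g
      set M := (A : Matrix (Fin 2) (Fin 2) F)
      have hfix' : M.mulVec v = v := hfix
      have hdet : M.det = 1 := A.2
      rw [Matrix.det_fin_two] at hdet
      have h0 : (M - 1).det = 0 := Matrix.exists_mulVec_eq_zero_iff.1
        ⟨v, hv, by rw [Matrix.sub_mulVec, hfix', Matrix.one_mulVec, sub_self]⟩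
      rw [Matrix.det_fin_two] at h0
      simp at h0
      have ht : M 0 0 + M 1 1 = 0 := by linear_combination hdet - h0 + h2
      have hsq : A ^ 2 = 1 := by
        apply Matrix.SpecialLinearGroup.ext
        intro i j
        rw [sq, Matrix.SpecialLinearGroup.coe_mul]
        fin_cases i <;> fin_cases j <;> simp [Matrix.mul_apply, Fin.sum_univ_two]
        · linear_combination M 0 0 * ht - hdet + h2 * 0 + (-1 : F) * h2 + 0 * h2
        · linear_combination M 0 1 * ht
        · linear_combination M 1 0 * ht
        · linear_combination M 1 1 * ht - hdet + (-1 : F) * h2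
      have : r ∣ 2 := by
        rw [← hord]; exact orderOf_dvd_of_pow_eq_one (by rw [← QuotientGroup.mk_pow, hsq, QuotientGroup.mk_one])
      exact hr2 ((Nat.prime_dvd_prime_iff_eq hr Nat.prime_two).1 this)) N
  exact ⟨H, iG, inferInstance, by rwa [Nat.card_eq_fintype_card], h⟩

end Cfsg.Agent.S3660
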