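import Cfsg.Prelude.Def_DegreeGraph
import Cfsg.Prelude.Def_Classical
import Mathlib.GroupTheory.Solvable
import Cfsg.Agent.DegGraph.U33Geom

set_option autoImplicit false

namespace Cfsg.Agent.S3670

open CfsgLib.CharBasics CfsgLib.UGeom CfsgLib.DegGraph

theorem triangle_of_surjective {G : Type*} [Group G] [Finite G] {K : Type*} [Group K] [Finite K]
    (f : K →* G) (hf : Function.Bijective f) (h : HasTriangle K) : HasTriangle G := by
  have hd : ∀ d ∈ Cfsg.charDegrees K, d ∈ Cfsg.charDegrees G := by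
    rintro d ⟨χ, rfl⟩
    let e := MulEquiv.ofBijective f hf
    refine ⟨⟨_, irr_comp_of_surjective χ.2 e.symm.toMonoidHom e.symm.surjective⟩, ?_⟩
    show Cfsg.charDegree (fun x => (χ : K → ℂ) (e.symm x)) = _
    unfold Cfsg.charDegree
    simp
  obtain ⟨⟨a, ha, a6⟩, ⟨b, hb, b14⟩, ⟨c, hc, c21⟩⟩ := h
  exact ⟨⟨a, hd a ha, a6⟩, ⟨b, hd b hb, b14⟩, ⟨c, hd c hc, c21⟩⟩

theorem result {F : Type*} [Field F] [Fintype F] (hF : Fintype.card F = 9) :
    ∃ (H : Type) (_ : Group H) (_ : Fintype H), Group.IsSolvable H ∧ Nat.card H = 6048 ∧ Cfsg.degreePrimes H = Cfsg.degreePrimes (Cfsg.PSU 3 F 3) ∧ Cfsg.degreeGraph H = Cfsg.degreeGraph (Cfsg.PSU 3 F 3) := by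
  obtain ⟨C⟩ := nonempty_conj (F := F) (q := 3) (by rw [hF]; norm_num)
  obtain ⟨D⟩ := exists_UData C
  haveI : Fintype (Cfsg.SU 3 F 3) := Fintype.ofFinite _
  have hT := D.triangle hF
  have hz : Subgroup.center (Cfsg.SU 3 F 3) = ⊥ :=
    Subgroup.card_eq_one.1 (by rw [card_center_SU C (by norm_num)]; norm_num)
  have hb : Function.Bijective (QuotientGroup.mk' (Subgroup.center (Cfsg.SU 3 F 3))) := by
    refine ⟨?_, QuotientGroup.mk'_surjective _⟩
    rw [← MonoidHom.ker_eq_bot_iff, QuotientGroup.ker_mk', hz]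
  have hT' : HasTriangle (Cfsg.PSU 3 F 3) := triangle_of_surjective _ hb hT
  have hcP : Nat.card (Cfsg.PSU 3 F 3) = 6048 := by rw [← Nat.card_congr (Equiv.ofBijective _ hb), D.card]
  obtain ⟨H, hG, hFin, hsol, hc, hTH⟩ := exists_model
  obtain ⟨e1, e2⟩ := degreeGraph_eq hc hTH hcP hT'
  exact ⟨H, hG, hFin, hsol, hc, e1, e2⟩

end Cfsg.Agent.S3670
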