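import Cfsg.Statements.S3678
import Cfsg.Agent.S3660
import Cfsg.Agent.SL2.PSLData
-- import your own Cfsg.Agent.* helpers here

set_option autoImplicit false
open Cfsg

namespace Cfsg.Agent.S3678

theorem mem_range_iff (G : Type*) [Group G] [Finite G] (r : ℕ) (hr : r.Prime) :
    r ∣ Nat.card G ↔ r ∈ Set.range (orderOf : G → ℕ) := by
  haveI := Fact.mk hr
  refine ⟨fun h => exists_prime_orderOf_dvd_card' r h, ?_⟩
  rintro ⟨g, rfl⟩
  exact orderOf_dvd_natCard g


/-- The prime graph of a finite group has the prime divisors of its order as vertices, two distinct primes p, q being joined when the group has an element of order pq; two groups have the same prime graph when they have the same prime divisors and the same joined pairs. Let F be the field with 7 elements. There are finite groups of arbitrarily large order with the same prime graph as PSL(2,F) (the graph on {2, 3, 7} with no edges, which is also the prime graph of PSL(2,8)). -/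
theorem result {F : Type*} [Field F] [Fintype F] (hF : Fintype.card F = 7) (N : ℕ) :
    ∃ (H : Type) (_ : Group H) (_ : Finite H), N < Nat.card H ∧
      ((∀ p : ℕ, p.Prime → (p ∣ Nat.card (Matrix.ProjectiveSpecialLinearGroup (Fin 2) F) ↔ p ∣ Nat.card H)) ∧
      (∀ p q : ℕ, p.Prime → q.Prime → p ≠ q → ((∃ g : (Matrix.ProjectiveSpecialLinearGroup (Fin 2) F), orderOf g = p * q) ↔ (∃ g : H, orderOf g = p * q)))) := by
  classical
  haveI : Fact (Nat.Prime 7) := ⟨by norm_num⟩
  haveI : CharP F 7 := charP_of_card_eq_prime hF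
  let K := GaloisField 2 3
  haveI : Fintype K := Fintype.ofFinite K
  have hK : Fintype.card K = 8 := by
    rw [← Nat.card_eq_fintype_card, GaloisField.card 2 3 (by norm_num)]
    norm_num
  obtain ⟨H, iG, iF, hN, h1, h2⟩ := Cfsg.Agent.S3660.result (F := K) (by omega) N
  have r7 := CfsgLib.SL2.range_orderOf_PSL (F := F) 7
  have r8 := CfsgLib.SL2.range_orderOf_PSL (F := K) 2
  rw [hF, show (7 - 1) / Nat.gcd 2 (7 - 1) = 3 by decide, show (7 + 1) / Nat.gcd 2 (7 - 1) = 4 by decide] at r7
  rw [hK, show (8 - 1) / Nat.gcd 2 (8 - 1) = 7 by decide, show (8 + 1) / Nat.gcd 2 (8 - 1) = 9 by decide] at r8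
  have small : ∀ m : ℕ, (m ∣ 7 ∨ m ∣ 3 ∨ m ∣ 4) ∨ (m ∣ 2 ∨ m ∣ 7 ∨ m ∣ 9) → m ≤ 9 := by
    rintro m ((h | h | h) | (h | h | h)) <;> have := Nat.le_of_dvd (by norm_num) h <;> omega
  refine ⟨H, iG, iF, hN, fun r hr => ?_, fun r s hr hs hrs => ?_⟩
  · rw [← h1 r hr, mem_range_iff _ r hr, mem_range_iff _ r hr, r7, r8]
    refine ⟨fun h => ?_, fun h => ?_⟩
    · have := small r (Or.inl h)
      revert h
      simp only [Set.mem_ofPred_eq]
      interval_cases r <;> first | decide | norm_num at hr
    · have := small r (Or.inr h)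
      revert h
      simp only [Set.mem_ofPred_eq]
      interval_cases r <;> first | decide | norm_num at hr
  · rw [← h2 r s hr hs hrs]
    have hm : ∀ m, m = r * s → (m ∣ 7 ∨ m ∣ 3 ∨ m ∣ 4) ∨ (m ∣ 2 ∨ m ∣ 7 ∨ m ∣ 9) → False := by
      intro m e h
      have := small m h
      have hr2 := hr.two_le
      have hs2 := hs.two_le
      have : r ≤ 4 := by nlinarith
      have : s ≤ 4 := by nlinarith
      subst e
      interval_cases r <;> interval_cases s <;> norm_num at *
    refine iff_of_false ?_ ?_
    · rintro ⟨g, hg⟩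
      have : orderOf g ∈ Set.range (orderOf : _ → ℕ) := ⟨g, rfl⟩
      rw [r7] at this
      exact hm _ hg (Or.inl this)
    · rintro ⟨g, hg⟩
      have : orderOf g ∈ Set.range (orderOf : _ → ℕ) := ⟨g, rfl⟩
      rw [r8] at this
      exact hm _ hg (Or.inr this)

end Cfsg.Agent.S3678
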