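import Cfsg.Statements.S3680
import Cfsg.Agent.MinNormal.Factors

set_option autoImplicit false
open Cfsg

namespace Cfsg.Agent.S3680

/-- The socle of a finite primitive permutation group. Let a finite group G act faithfully and primitively on a set Ω, and let N be the subgroup generated by the minimal normal subgroups of G. Then either N is an elementary abelian p-group for some prime p and acts regularly on Ω (transitively with trivial point stabilizers), or N is isomorphic to a direct product of m ≥ 1 copies of a non-abelian simple group. -/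
theorem result {G Ω : Type*} [Group G] [Finite G] [MulAction G Ω] [FaithfulSMul G Ω] [Finite Ω]
    (hprim : MulAction.IsPreprimitive G Ω) (N : Subgroup G)
    (hN : N = sSup {V : Subgroup G | V.Normal ∧ V ≠ ⊥ ∧ ∀ M : Subgroup G, M.Normal → M ≤ V → M = ⊥ ∨ M = V}) :
    (∃ p : ℕ, p.Prime ∧ IsMulCommutative N ∧ (∀ x : N, x ^ p = 1) ∧
      MulAction.IsPretransitive N Ω ∧ ∀ ω : Ω, MulAction.stabilizer N ω = ⊥) ∨
    (∃ (T : Type) (_ : Group T) (m : ℕ), 1 ≤ m ∧ IsSimpleGroup T ∧ ¬ IsMulCommutative T ∧ Nonempty (N ≃* (Fin m → T))) := by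
  classical
  have : Finite (Set.univ : Set Ω) := Subtype.finite
  -- nontrivial normal subgroups are transitive
  have htrans : ∀ M : Subgroup G, M.Normal → M ≠ ⊥ → MulAction.IsPretransitive M Ω := fun M hM hne => by
    haveI := hM
    haveI := hprim
    refine MulAction.IsQuasiPreprimitive.isPretransitive_of_normal fun h => ?_
    apply hne
    rw [Subgroup.eq_bot_iff_forall]
    intro m hm
    refine FaithfulSMul.eq_of_smul_eq_smul (α := Ω) fun a => ?_
    rw [one_smul]
    have hma : a ∈ MulAction.fixedPoints M Ω := h ▸ Set.mem_univ a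
    exact hma ⟨m, hm⟩
  -- commuting transitive subgroup forces semiregularity
  have semireg : ∀ M C : Subgroup G, MulAction.IsPretransitive M Ω →
      (∀ m ∈ M, ∀ c ∈ C, c * m = m * c) → ∀ c ∈ C, ∀ ω : Ω, c • ω = ω → c = 1 := by
    intro M C hM hc c hcC ω hfix
    refine FaithfulSMul.eq_of_smul_eq_smul (α := Ω) fun a => ?_
    obtain ⟨⟨m, hm⟩, rfl⟩ := hM.exists_smul_eq ω a
    rw [one_smul]
    show c • (m • ω) = m • ω
    rw [← mul_smul, hc m hm c hcC, mul_smul, hfix]
  let S : Set (Subgroup G) :=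
    {V : Subgroup G | V.Normal ∧ V ≠ ⊥ ∧ ∀ M : Subgroup G, M.Normal → M ≤ V → M = ⊥ ∨ M = V}
  have hcommS : ∀ V ∈ S, ∀ W ∈ S, V ≠ W → W ≤ Subgroup.centralizer (V : Set G) := by
    intro V hV W hW hne w hw
    refine Subgroup.mem_centralizer_iff.mpr fun v hv => ?_
    haveI := hV.1; haveI := hW.1
    have hbot : V ⊓ W = ⊥ := by
      by_contra h
      have h1 := (hV.2.2 (V ⊓ W) inferInstance inf_le_left).resolve_left h
      have h2 := (hW.2.2 (V ⊓ W) inferInstance inf_le_right).resolve_left h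
      exact hne (h1.symm.trans h2)
    exact Subgroup.commute_of_normal_of_disjoint V W hV.1 hW.1 (disjoint_iff.mpr hbot) v w hv hw
  have leaf : ∀ V ∈ S, ∀ C : Subgroup G, (∀ v ∈ V, ∀ c ∈ C, c * v = v * c) →
      MulAction.IsPretransitive C Ω → ∀ ω : Ω, ∀ v ∈ V, v • ω = ω → v = 1 :=
    fun V _ C hc hC ω v hv h => semireg C V hC (fun c hc' v' hv' => (hc v' hv' c hc').symm) v hv ω h
  by_cases hne : S.Nonempty
  swap
  · -- the trivial group has no minimal normal subgroup
    rw [Set.not_nonempty_iff_eq_empty] at hne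
    have hGbot : (⊤ : Subgroup G) = ⊥ := by
      by_contra htop
      obtain ⟨V, hV⟩ := (Set.toFinite {V : Subgroup G | V.Normal ∧ V ≠ ⊥}).exists_minimal
        ⟨⊤, inferInstance, htop⟩
      have hVS : V ∈ S := ⟨hV.prop.1, hV.prop.2, fun M hM hle => by
        by_cases hMb : M = ⊥
        · exact Or.inl hMb
        · exact Or.inr (le_antisymm hle (hV.2 ⟨hM, hMb⟩ hle))⟩
      rw [hne] at hVS
      exact hVS
    have hG : ∀ g : G, g = 1 := fun g => by
      have hg : g ∈ (⊤ : Subgroup G) := Subgroup.mem_top g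
      rwa [hGbot, Subgroup.mem_bot] at hg
    have hΩ : ∀ a b : Ω, a = b := fun a b => by
      obtain ⟨g, hg⟩ := hprim.toIsPretransitive.exists_smul_eq a b
      rwa [hG g, one_smul] at hg
    refine Or.inl ⟨2, Nat.prime_two, ⟨⟨fun a b => Subtype.ext (by rw [hG (a * b : N), hG (b * a : N)])⟩⟩,
      fun x => Subtype.ext (hG _), ⟨fun a b => ⟨1, hΩ _ _⟩⟩, fun ω => ?_⟩
    rw [Subgroup.eq_bot_iff_forall]
    exact fun v _ => Subtype.ext (hG _)
  obtain ⟨V, hVmem⟩ := hne
  obtain ⟨hVn, hVne, hVmin⟩ := hVmem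
  haveI := hVn
  have hVS : V ∈ S := ⟨hVn, hVne, hVmin⟩
  have hVt := htrans V hVn hVne
  set C := Subgroup.centralizer (V : Set G) with hC
  haveI hCn : C.Normal := by
    refine ⟨fun c hc g => Subgroup.mem_centralizer_iff.mpr fun v hv => ?_⟩
    have h := Subgroup.mem_centralizer_iff.mp hc (g⁻¹ * v * g⁻¹⁻¹) (hVn.conj_mem v hv g⁻¹)
    have := congrArg (fun x => g * x * g⁻¹) h
    simpa [mul_assoc] using this
  have hcV : ∀ v ∈ V, ∀ c ∈ C, c * v = v * c := fun v hv c hc =>
    (Subgroup.mem_centralizer_iff.mp hc v hv).symm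
  by_cases hCb : C = ⊥
  · -- unique minimal normal subgroup, non-abelian
    have hNV : N = V := by
      rw [hN]
      refine le_antisymm (sSup_le fun W hW => ?_) (le_sSup hVS)
      by_contra hle
      have hWne : W ≠ V := fun h => hle (h ▸ le_rfl)
      exact hW.2.1 (le_bot_iff.mp (hCb ▸ hcommS V hVS W hW hWne.symm))
    subst hNV
    right
    obtain ⟨T, hT, m, hTs, hm, ⟨e⟩⟩ := CfsgLib.MinNormal.exists_mulEquiv_pi N hVne hVmin
    refine ⟨T, hT, m, hm, hTs, fun hcom => hVne ?_, ⟨e⟩⟩
    have : N ≤ C := fun v hv => Subgroup.mem_centralizer_iff.mpr fun w hw => by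
      have : e ⟨w, hw⟩ * e ⟨v, hv⟩ = e ⟨v, hv⟩ * e ⟨w, hw⟩ := funext fun i => hcom.is_comm.comm _ _
      rw [← map_mul, ← map_mul] at this
      exact congrArg Subtype.val (e.injective this)
    rw [hCb] at this
    exact le_bot_iff.mp this
  have hCt := htrans C hCn hCb
  have hCs : ∀ ω : Ω, ∀ c ∈ C, c • ω = ω → c = 1 := fun ω c hc h => semireg V C hVt hcV c hc ω h
  have hVs : ∀ ω : Ω, ∀ v ∈ V, v • ω = ω → v = 1 := leaf V hVS C hcV hCt
  -- regular subgroups have the cardinality of the set
  have hreg : ∀ (M : Subgroup G), MulAction.IsPretransitive M Ω →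
      (∀ ω : Ω, ∀ v ∈ M, v • ω = ω → v = 1) → ∀ ω : Ω,
      Function.Bijective fun v : M => (v : G) • ω := by
    intro M hM hs ω
    refine ⟨fun a b hab => ?_, fun a => hM.exists_smul_eq ω a⟩
    have : ((b : G)⁻¹ * a) • ω = ω := by
      rw [mul_smul]; exact (congrArg ((b : G)⁻¹ • ·) hab).trans (inv_smul_smul _ _)
    exact Subtype.ext (inv_mul_eq_one.mp (hs ω _ (M.mul_mem (M.inv_mem b.2) a.2) this)).symm
  obtain ⟨ω₀⟩ : Nonempty Ω := by
    by_contra h
    rw [not_nonempty_iff] at h
    apply hVne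
    rw [Subgroup.eq_bot_iff_forall]
    exact fun v _ => FaithfulSMul.eq_of_smul_eq_smul (α := Ω) fun a => isEmptyElim a
  have sameCard : ∀ M : Subgroup G, MulAction.IsPretransitive M Ω →
      (∀ ω : Ω, ∀ v ∈ M, v • ω = ω → v = 1) → Nat.card M = Nat.card Ω :=
    fun M hM hs => Nat.card_congr (Equiv.ofBijective _ (hreg M hM hs ω₀))
  have hCmin : C ∈ S := by
    refine ⟨hCn, hCb, fun M hM hle => ?_⟩
    by_cases hMb : M = ⊥
    · exact Or.inl hMb
    · right
      refine Subgroup.eq_of_le_of_card_ge hle (le_of_eq ?_)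
      rw [sameCard C hCt hCs, sameCard M (htrans M hM hMb) fun ω v hv h => hCs ω v (hle hv) h]
  by_cases hab : V ≤ C
  · -- abelian case
    left
    have hVC : V = C := Subgroup.eq_of_le_of_card_ge hab
      (le_of_eq (by rw [sameCard C hCt hCs, sameCard V hVt hVs]))
    have hNV : N = V := by
      rw [hN]
      refine le_antisymm (sSup_le fun W hW => ?_) (le_sSup hVS)
      by_cases hWV : W = V
      · exact hWV.le
      · exact hVC ▸ hcommS V hVS W hW (Ne.symm hWV)
    subst hNV
    obtain ⟨T, hT, m, hTs, hm, ⟨e⟩⟩ := CfsgLib.MinNormal.exists_mulEquiv_pi N hVne hVmin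
    have hcomN : ∀ a b : N, a * b = b * a := fun a b => Subtype.ext (hcV b b.2 a (hab a.2))
    have hcomT : ∀ a b : T, a * b = b * a := fun a b => by
      have h := congrArg e (hcomN (e.symm fun _ => a) (e.symm fun _ => b))
      rw [map_mul, map_mul, MulEquiv.apply_symm_apply, MulEquiv.apply_symm_apply] at h
      exact congrFun h ⟨0, hm⟩
    haveI := hTs
    have : Finite T := Finite.of_injective (fun t : T => e.symm (fun _ => t)) fun a b h =>
      congrFun (e.symm.injective h) ⟨0, hm⟩
    letI : CommGroup T := { hT with mul_comm := hcomT }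
    have hp : (Nat.card T).Prime := IsSimpleGroup.prime_card
    refine ⟨Nat.card T, hp, ⟨⟨hcomN⟩⟩, fun x => e.injective ?_, hVt, fun ω => ?_⟩
    · rw [map_pow, map_one]
      funext i
      simp only [Pi.pow_apply, Pi.one_apply, pow_card_eq_one']
    · rw [Subgroup.eq_bot_iff_forall]
      intro v hv
      exact Subtype.ext (hVs ω v v.2 hv)
  · -- two non-abelian minimal normal subgroups
    right
    have hVC : V ≠ C := fun h => hab h.le
    have hNsup : N = V ⊔ C := by
      rw [hN]
      refine le_antisymm (sSup_le fun W hW => ?_) (sup_le (le_sSup hVS) (le_sSup hCmin))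
      by_cases hWV : W = V
      · exact hWV.le.trans le_sup_left
      · exact (hcommS V hVS W hW (Ne.symm hWV)).trans le_sup_right
    -- the anti-isomorphism between the two regular subgroups
    let f := Equiv.ofBijective _ (hreg C hCt hCs ω₀)
    let ψ : V → C := fun v => f.symm ((v : G) • ω₀)
    have hψ : ∀ v : V, ((ψ v : C) : G) • ω₀ = (v : G) • ω₀ := fun v => f.apply_symm_apply _
    let φ : V →* C := MonoidHom.mk' (fun v => (ψ v)⁻¹) fun a b => by
      show (ψ (a * b))⁻¹ = (ψ a)⁻¹ * (ψ b)⁻¹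
      rw [← mul_inv_rev, inv_inj]
      apply (hreg C hCt hCs ω₀).1
      show ((ψ (a * b) : C) : G) • ω₀ = ((ψ b * ψ a : C) : G) • ω₀
      rw [hψ, Subgroup.coe_mul, Subgroup.coe_mul, mul_smul, mul_smul, hψ a, ← hψ b, ← mul_smul,
        ← mul_smul, hcV a a.2 _ (ψ b).2]
    have hφ : Function.Bijective φ := by
      constructor
      · intro a b hab'
        have h1 : ψ a = ψ b := inv_injective hab'
        exact (hreg V hVt hVs ω₀).1 (show (a : G) • ω₀ = (b : G) • ω₀ by rw [← hψ, ← hψ, h1])
      · intro c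
        obtain ⟨v, hv⟩ := (hreg V hVt hVs ω₀).2 (((c⁻¹ : C) : G) • ω₀)
        refine ⟨v, ?_⟩
        show (ψ v)⁻¹ = c
        rw [inv_eq_iff_eq_inv]
        exact (hreg C hCt hCs ω₀).1 (show ((ψ v : C) : G) • ω₀ = ((c⁻¹ : C) : G) • ω₀ by rw [hψ]; exact hv)
    let eVC : V ≃* C := MulEquiv.ofBijective φ hφ
    obtain ⟨T, hT, m, hTs, hm, ⟨e⟩⟩ := CfsgLib.MinNormal.exists_mulEquiv_pi V hVne hVmin
    have hdisj : Disjoint V C := disjoint_iff.mpr (by
      by_contra h
      have h1 := (hVmin (V ⊓ C) inferInstance inf_le_left).resolve_left h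
      exact hab (inf_eq_left.mp h1))
    let Φ : V × C →* G := MonoidHom.noncommCoprod V.subtype C.subtype fun v c => (hcV v v.2 c c.2).symm
    have hΦ : Function.Injective Φ := by
      exact (MonoidHom.noncommCoprod_injective _ _ _).mpr
        ⟨V.subtype_injective, C.subtype_injective, by rwa [V.range_subtype, C.range_subtype]⟩
    have hΦr : Φ.range = N := by
      rw [hNsup]
      refine (MonoidHom.noncommCoprod_range _ _ _).trans ?_
      rw [V.range_subtype, C.range_subtype]
    refine ⟨T, hT, m + m, by omega, hTs, fun hcom => hab fun v hv => ?_, ⟨?_⟩⟩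
    · refine Subgroup.mem_centralizer_iff.mpr fun w hw => ?_
      have : e ⟨w, hw⟩ * e ⟨v, hv⟩ = e ⟨v, hv⟩ * e ⟨w, hw⟩ := funext fun i => hcom.is_comm.comm _ _
      rw [← map_mul, ← map_mul] at this
      exact congrArg Subtype.val (e.injective this)
    · refine ((MulEquiv.subgroupCongr hΦr).symm.trans (MonoidHom.ofInjective hΦ).symm).trans
        ((e.prodCongr (eVC.symm.trans e)).trans ?_)
      exact MulEquiv.mk' (Fin.appendEquiv m m) (fun x y => funext fun i => by
        refine Fin.addCases (fun j => ?_) (fun j => ?_) i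
        · simp only [Fin.appendEquiv, Equiv.coe_fn_mk, Pi.mul_apply, Fin.append_left, Prod.fst_mul]
        · simp only [Fin.appendEquiv, Equiv.coe_fn_mk, Pi.mul_apply, Fin.append_right, Prod.snd_mul])

end Cfsg.Agent.S3680
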