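import Cfsg.Statements.S3681

set_option autoImplicit false
open Cfsg

namespace Cfsg.Agent.S3681

private theorem comm_threeCycle {Ω : Type*} [Fintype Ω] [DecidableEq Ω] (g h : Equiv.Perm Ω) (a : Ω)
    (hga : g a ≠ a) (hha : h a ≠ a) (hd : ∀ x, g x ≠ x → h x ≠ x → x = a) :
    (g * h * g⁻¹ * h⁻¹).IsThreeCycle := by
  have hu : g (h a) = h a := by
    by_contra hc
    exact hha (hd (h a) hc (fun e => hha (h.injective e)))
  have hv : h (g a) = g a := by
    by_contra hc
    exact hga (hd (g a) (fun e => hga (g.injective e)) hc)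
  have huv : h a ≠ g a := fun e => hga (g.injective (by rw [← e, hu, e]))
  have key : g * h * g⁻¹ * h⁻¹ = Equiv.swap a (h a) * Equiv.swap a (g a) := by
    have gi : ∀ y z, g z = y → g⁻¹ y = z := fun y z e => by rw [← e]; simp
    have hi : ∀ y z, h z = y → h⁻¹ y = z := fun y z e => by rw [← e]; simp
    ext x
    simp only [Equiv.Perm.mul_apply]
    by_cases hxa : x = a
    · subst hxa
      have hz : h⁻¹ x ≠ x := fun e => hha (by conv_lhs => rw [← e]; simp)
      have h1 : g (h⁻¹ x) = h⁻¹ x := by
        by_contra hc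
        exact hz (hd _ hc (by simpa using hz.symm))
      rw [gi _ _ h1, Equiv.swap_apply_left, Equiv.swap_apply_of_ne_of_ne hga huv.symm]
      simp
    by_cases hxv : x = g a
    · subst hxv
      rw [hi _ _ hv, gi _ _ rfl, hu, Equiv.swap_apply_right, Equiv.swap_apply_left]
    rw [Equiv.swap_apply_of_ne_of_ne hxa hxv]
    by_cases hxu : x = h a
    · subst hxu
      rw [hi _ _ rfl, Equiv.swap_apply_right]
      have hw : g⁻¹ a ≠ a := fun e => hga (by conv_lhs => rw [← e]; simp)
      have h1 : h (g⁻¹ a) = g⁻¹ a := by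
        by_contra hc
        exact hw (hd _ (by simpa using hw.symm) hc)
      rw [h1]; simp
    rw [Equiv.swap_apply_of_ne_of_ne hxa hxu]
    by_cases hxh : h x = x
    · rw [hi _ _ hxh]
      by_cases hxg : g x = x
      · rw [gi _ _ hxg, hxh, hxg]
      · have h2 : g⁻¹ x ≠ a := fun e => hxv (by rw [← e]; simp)
        have h3 : h (g⁻¹ x) = g⁻¹ x := by
          by_contra hc
          refine h2 (hd _ (fun e => hxg ?_) hc)
          rw [Equiv.Perm.coe_inv, Equiv.apply_symm_apply] at e
          conv_lhs => rw [e]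
          simp
        rw [h3]; simp
    · have hy : h⁻¹ x ≠ a := fun e => hxu (by rw [← e]; simp)
      have hym : h (h⁻¹ x) ≠ h⁻¹ x := fun e => by
        rw [Equiv.Perm.coe_inv, Equiv.apply_symm_apply] at e
        apply hxh
        conv_lhs => rw [e]
        simp
      have hyg : g (h⁻¹ x) = h⁻¹ x := by
        by_contra hc
        exact hy (hd _ hc hym)
      have hxg : g x = x := by
        by_contra hc
        exact hxa (hd _ hc hxh)
      rw [gi _ _ hyg]
      simpa using hxg
  rw [key]
  exact Equiv.Perm.isThreeCycle_swap_mul_swap_same hha.symm hga.symm huv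

/-- Bochert's bound for primitive groups. Let a finite group G act faithfully and primitively on a finite set Ω with n elements, and suppose the image of G in the symmetric group of Ω does not contain the alternating group of Ω. Then |G| · ⌊(n + 1)/2⌋! ≤ n!, that is, the index of G in the symmetric group is at least ⌊(n + 1)/2⌋!. -/
theorem result {G Ω : Type*} [Group G] [Finite G] [MulAction G Ω] [FaithfulSMul G Ω] [Fintype Ω] [DecidableEq Ω]
    (hprim : MulAction.IsPreprimitive G Ω) (hA : ¬ alternatingGroup Ω ≤ (MulAction.toPermHom G Ω).range) :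
    Nat.card G * Nat.factorial ((Fintype.card Ω + 1) / 2) ≤ Nat.factorial (Fintype.card Ω) := by
  classical
  set K := (MulAction.toPermHom G Ω).range with hK
  haveI := hprim
  have hinj : Function.Injective (MulAction.toPermHom G Ω) := MulAction.toPerm_injective
  have hcard : Nat.card G = Nat.card K :=
    Nat.card_congr (MonoidHom.ofInjective hinj).toEquiv
  have hKprim : MulAction.IsPreprimitive K Ω :=
    MulAction.IsPreprimitive.of_surjective
      (φ := fun g : G => (⟨MulAction.toPermHom G Ω g, g, rfl⟩ : K))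
      (f := { toFun := id, map_smul' := fun _ _ => rfl }) Function.surjective_id
  set S : Finset (Finset Ω) :=
    Finset.univ.filter (fun Δ => ∀ g ∈ K, (∀ x ∈ Δ, g x = x) → g = 1) with hS
  have hne : S.Nonempty := ⟨Finset.univ, by
    simp only [hS, Finset.mem_filter, Finset.mem_univ, true_and]
    intro g _ hg
    ext x
    exact hg x trivial⟩
  obtain ⟨Δ, hΔ, hmin⟩ := Finset.exists_min_image S Finset.card hne
  simp only [hS, Finset.mem_filter, Finset.mem_univ, true_and] at hΔ hmin
  have hk : 2 * Δ.card ≤ Fintype.card Ω := by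
    by_contra hc
    have hcc := Finset.card_compl Δ
    have h1 : ¬ ∀ g ∈ K, (∀ x ∈ Δᶜ, g x = x) → g = 1 := fun h => by
      have := hmin _ h
      omega
    push Not at h1
    obtain ⟨g, hgK, hgΓ, hg1⟩ := h1
    obtain ⟨a, ha⟩ : ∃ a, g a ≠ a := by
      by_contra hh
      push Not at hh
      exact hg1 (Equiv.ext hh)
    have haΔ : a ∈ Δ := by
      by_contra hh
      exact ha (hgΓ a (Finset.mem_compl.2 hh))
    have h2 : ¬ ∀ g ∈ K, (∀ x ∈ Δ.erase a, g x = x) → g = 1 := fun h => by
      have := hmin _ h
      rw [Finset.card_erase_of_mem haΔ] at this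
      have := Finset.card_pos.2 ⟨a, haΔ⟩
      omega
    push Not at h2
    obtain ⟨h, hhK, hhE, hh1⟩ := h2
    have hha : h a ≠ a := by
      intro e
      refine hh1 (hΔ h hhK fun x hx => ?_)
      rcases eq_or_ne x a with rfl | hxa
      · exact e
      · exact hhE x (Finset.mem_erase.2 ⟨hxa, hx⟩)
    have h3 := comm_threeCycle g h a ha hha (fun x hxg hxh => by
      by_contra hxa
      refine hxh (hhE x (Finset.mem_erase.2 ⟨hxa, ?_⟩))
      by_contra hxΔ
      exact hxg (hgΓ x (Finset.mem_compl.2 hxΔ)))
    exact hA (Equiv.Perm.alternatingGroup_le_of_isPreprimitive_of_isThreeCycle_mem hKprim h3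
      (mul_mem (mul_mem (mul_mem hgK hhK) (inv_mem hgK)) (inv_mem hhK)))
  set T := {x : Ω // x ∉ Δ}
  let F : K × Equiv.Perm T → Equiv.Perm Ω := fun q => (q.1 : Equiv.Perm Ω) * Equiv.Perm.ofSubtype q.2
  have hF : Function.Injective F := by
    rintro ⟨k, s⟩ ⟨k', s'⟩ he
    simp only [F] at he
    have e1 : (k' : Equiv.Perm Ω)⁻¹ * k = Equiv.Perm.ofSubtype (s' * s⁻¹) := by
      rw [map_mul, map_inv, eq_mul_inv_iff_mul_eq, mul_assoc, he, inv_mul_cancel_left]
    have e2 : (k' : Equiv.Perm Ω)⁻¹ * k = 1 := hΔ _ (mul_mem (inv_mem k'.2) k.2) fun x hx => by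
      rw [e1]
      exact Equiv.Perm.ofSubtype_apply_of_not_mem _ (not_not.2 hx)
    have e3 : k = k' := Subtype.ext (inv_mul_eq_one.1 e2).symm
    subst e3
    exact Prod.ext rfl (Equiv.Perm.ofSubtype_injective (mul_left_cancel he))
  have hle := Nat.card_le_card_of_injective F hF
  rw [Nat.card_prod, Nat.card_perm, Nat.card_perm, Nat.card_eq_fintype_card (α := Ω), Nat.card_eq_fintype_card (α := T), ← hcard] at hle
  refine le_trans (Nat.mul_le_mul_left _ (Nat.factorial_le ?_)) hle
  simp only [T, Fintype.card_subtype_compl, Fintype.card_coe]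
  omega

end Cfsg.Agent.S3681
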