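import Cfsg.Statements.S3683

set_option autoImplicit false
open Cfsg

namespace Cfsg.Agent.S3683

/-- Let a finite group G act faithfully and primitively on a set Ω, and suppose the stabilizer of a point a fixes a second point b ≠ a (a suborbit of length 1 other than {a}). Then the stabilizer of a is trivial and G is cyclic of prime order. -/
theorem result {G Ω : Type*} [Group G] [Finite G] [MulAction G Ω] [FaithfulSMul G Ω] [Finite Ω]
    (hprim : MulAction.IsPreprimitive G Ω) (a b : Ω) (hab : a ≠ b) (hfix : ∀ g : G, g • a = a → g • b = b) :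
    MulAction.stabilizer G a = ⊥ ∧ IsCyclic G ∧ (Nat.card G).Prime := by
  classical
  haveI := hprim
  haveI : Nontrivial Ω := ⟨⟨a, b, hab⟩⟩
  have hA : IsCoatom (MulAction.stabilizer G a) :=
    MulAction.IsPreprimitive.isCoatom_stabilizer_of_isPreprimitive (G := G) a
  have hB : IsCoatom (MulAction.stabilizer G b) :=
    MulAction.IsPreprimitive.isCoatom_stabilizer_of_isPreprimitive (G := G) b
  have hle : MulAction.stabilizer G a ≤ MulAction.stabilizer G b := fun g hg => hfix g hg
  have heq : MulAction.stabilizer G b = MulAction.stabilizer G a :=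
    (hA.le_iff.1 hle).resolve_left hB.1
  obtain ⟨g, hg⟩ := MulAction.exists_smul_eq G a b
  have hgN : g ∈ Subgroup.normalizer (MulAction.stabilizer G a : Set G) := by
    rw [Subgroup.mem_normalizer_iff]
    intro x
    have h1 : g * x * g⁻¹ ∈ MulAction.stabilizer G a ↔ g * x * g⁻¹ ∈ MulAction.stabilizer G b := by rw [heq]
    rw [h1, MulAction.mem_stabilizer_iff, MulAction.mem_stabilizer_iff, ← hg]
    simp [mul_smul]
  have hN : Subgroup.normalizer (MulAction.stabilizer G a : Set G) = ⊤ := by
    rcases hA.le_iff.1 Subgroup.le_normalizer with h | h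
    · exact h
    · rw [h, MulAction.mem_stabilizer_iff, hg] at hgN
      exact absurd hgN hab.symm
  have hbot : MulAction.stabilizer G a = ⊥ := by
    rw [Subgroup.eq_bot_iff_forall]
    intro x hx
    apply FaithfulSMul.eq_of_smul_eq_smul (α := Ω)
    intro w
    obtain ⟨k, hk⟩ := MulAction.exists_smul_eq G a w
    have hk' : k⁻¹ * x * k ∈ MulAction.stabilizer G a := by
      have hn : k⁻¹ ∈ Subgroup.normalizer (MulAction.stabilizer G a : Set G) := by rw [hN]; trivial
      have := (Subgroup.mem_normalizer_iff.1 hn x).1 hx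
      simpa using this
    rw [MulAction.mem_stabilizer_iff, mul_smul, mul_smul, inv_smul_eq_iff, hk] at hk'
    rw [hk', one_smul]
  refine ⟨hbot, ?_⟩
  rw [hbot] at hA
  have hnt : 1 < Nat.card G := by
    rw [Finite.one_lt_card_iff_nontrivial]
    refine ⟨⟨g, 1, ?_⟩⟩
    rintro rfl
    exact hab (by simpa using hg)
  obtain ⟨p, hp, hpd⟩ := Nat.exists_prime_and_dvd hnt.ne'
  haveI : Fact p.Prime := ⟨hp⟩
  obtain ⟨x, hx⟩ := exists_prime_orderOf_dvd_card' p hpd
  have hx1 : x ≠ 1 := by
    rintro rfl
    rw [orderOf_one] at hx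
    exact hp.ne_one hx.symm
  have hz : Subgroup.zpowers x = ⊤ := by
    rcases (eq_or_ne (Subgroup.zpowers x) ⊥) with h | h
    · exact absurd (Subgroup.zpowers_eq_bot.1 h) hx1
    · exact hA.2 _ (lt_of_le_of_ne bot_le h.symm)
  have hc : Nat.card G = p := by
    rw [← hx, ← Nat.card_zpowers, hz, Subgroup.card_top]
  exact ⟨⟨x, fun y => by have : y ∈ Subgroup.zpowers x := by rw [hz]; trivial
                         exact this⟩, hc ▸ hp⟩

end Cfsg.Agent.S3683
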