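import Cfsg.Statements.S3684
import Mathlib

set_option autoImplicit false
open Cfsg

namespace Cfsg.Agent.S3684

private theorem dihedral_prime_of_coatom {n : ℕ} (hn : 2 ≤ n)
    (h : ∀ L : Subgroup (DihedralGroup n), DihedralGroup.sr 0 ∈ L →
      (∀ x ∈ L, x = 1 ∨ x = DihedralGroup.sr 0) ∨ L = ⊤) : n.Prime := by
  obtain ⟨p, hp, hpd⟩ := Nat.exists_prime_and_dvd (show n ≠ 1 by omega)
  let c : ZMod n →+* ZMod p := ZMod.castHom hpd (ZMod p)
  let ψ : DihedralGroup n →* DihedralGroup p :=
    MonoidHom.mk' (fun x => match x with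
      | .r i => .r (c i)
      | .sr i => .sr (c i)) (by
        rintro (i | i) (j | j) <;>
          simp [DihedralGroup.r_mul_r, DihedralGroup.r_mul_sr, DihedralGroup.sr_mul_r, DihedralGroup.sr_mul_sr])
  let L := (Subgroup.zpowers (DihedralGroup.sr (0 : ZMod p))).comap ψ
  have hmem : ∀ y ∈ Subgroup.zpowers (DihedralGroup.sr (0 : ZMod p)), y = 1 ∨ y = DihedralGroup.sr 0 := by
    rintro y ⟨k, rfl⟩
    rcases Int.even_or_odd k with ⟨m, rfl⟩ | ⟨m, rfl⟩
    · left
      change DihedralGroup.sr (0 : ZMod p) ^ (m + m) = 1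
      rw [← two_mul, zpow_mul, zpow_two, DihedralGroup.sr_mul_self, one_zpow]
    · right
      change DihedralGroup.sr (0 : ZMod p) ^ (2 * m + 1) = _
      rw [zpow_add, zpow_mul, zpow_two, DihedralGroup.sr_mul_self, one_zpow, one_mul, zpow_one]
  rcases h L (by simp [L, ψ, Subgroup.mem_zpowers]) with hL | hL
  · have hp0 : DihedralGroup.r (p : ZMod n) ∈ L := by
      simp only [L, Subgroup.mem_comap, ψ, MonoidHom.mk'_apply, map_natCast, ZMod.natCast_self]
      exact one_mem _
    rcases hL _ hp0 with e | e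
    · rw [DihedralGroup.one_def] at e
      have : (p : ZMod n) = 0 := DihedralGroup.r.inj e
      rw [ZMod.natCast_eq_zero_iff] at this
      rwa [← Nat.dvd_antisymm hpd this]
    · simp at e
  · exfalso
    have h1 : DihedralGroup.r (1 : ZMod n) ∈ L := hL ▸ Subgroup.mem_top _
    haveI : Fact p.Prime := ⟨hp⟩
    rcases hmem (ψ (DihedralGroup.r 1)) h1 with e | e
    · simp only [ψ, MonoidHom.mk'_apply, map_one, DihedralGroup.one_def] at e
      exact one_ne_zero (DihedralGroup.r.inj e)
    · simp [ψ] at e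

/-- Let a finite group G act faithfully and primitively on a set Ω, and suppose the stabilizer of a point a has an orbit of length 2. Then the stabilizer of a has order 2 and G is isomorphic to the dihedral group of order 2p for some prime p. -/
theorem result {G Ω : Type*} [Group G] [Finite G] [MulAction G Ω] [FaithfulSMul G Ω] [Finite Ω]
    (hprim : MulAction.IsPreprimitive G Ω) (a b : Ω) (h2 : Nat.card (MulAction.orbit (MulAction.stabilizer G a) b) = 2) :
    Nat.card (MulAction.stabilizer G a) = 2 ∧ ∃ p : ℕ, p.Prime ∧ Nonempty (G ≃* DihedralGroup p) := by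
  classical
  haveI := hprim
  have hnd : a ≠ b := by
    rintro rfl
    have : Subsingleton (MulAction.orbit (MulAction.stabilizer G a) a) := ⟨by
      rintro ⟨_, ⟨g, rfl⟩⟩ ⟨_, ⟨k, rfl⟩⟩
      exact Subtype.ext ((MulAction.mem_stabilizer_iff.1 g.2).trans (MulAction.mem_stabilizer_iff.1 k.2).symm)⟩
    have := Finite.card_le_one_iff_subsingleton.2 this
    omega
  haveI : Nontrivial Ω := ⟨⟨a, b, hnd⟩⟩
  set A := MulAction.stabilizer G a with hA
  set B := MulAction.stabilizer G b with hB
  have hAc : IsCoatom A := MulAction.IsPreprimitive.isCoatom_stabilizer_of_isPreprimitive (G := G) a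
  set H := A ⊓ B with hH
  obtain ⟨g, hg⟩ := MulAction.exists_smul_eq G a b
  have hcard : Nat.card A = Nat.card B := by
    have : B = A.map (MulAut.conj g).toMonoidHom := by
      rw [hB, ← hg, MulAction.stabilizer_smul_eq_stabilizer_map_conj]
    rw [this, Subgroup.card_map_of_injective (f := (MulAut.conj g).toMonoidHom) (MulAut.conj g).injective]
  have hidx : (H.subgroupOf A).index = 2 := by
    have e : H.subgroupOf A = MulAction.stabilizer A b := by
      ext x
      simp [hH, Subgroup.mem_subgroupOf, hB, MulAction.mem_stabilizer_iff]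
      exact Iff.rfl
    rw [e, MulAction.index_stabilizer]
    rw [← Nat.card_coe_set_eq, h2]
  have hcA : Nat.card A = 2 * Nat.card H := by
    rw [← Subgroup.index_mul_card (H.subgroupOf A), hidx,
      Nat.card_congr (Subgroup.subgroupOfEquivOfLe (inf_le_left : H ≤ A)).toEquiv]
  have hidx' : (H.subgroupOf B).index = 2 := by
    have := Subgroup.index_mul_card (H.subgroupOf B)
    rw [Nat.card_congr (Subgroup.subgroupOfEquivOfLe (inf_le_right : H ≤ B)).toEquiv, ← hcard, hcA] at this
    exact Nat.eq_of_mul_eq_mul_right Nat.card_pos this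
  have hn1 : A ≤ Subgroup.normalizer (H : Set G) := by
    haveI := Subgroup.normal_of_index_eq_two hidx
    exact (Subgroup.normal_subgroupOf_iff_le_normalizer inf_le_left).1 inferInstance
  have hn2 : B ≤ Subgroup.normalizer (H : Set G) := by
    haveI := Subgroup.normal_of_index_eq_two hidx'
    exact (Subgroup.normal_subgroupOf_iff_le_normalizer inf_le_right).1 inferInstance
  have normal_bot : ∀ K : Subgroup G, K.Normal → K ≤ A → K = ⊥ := by
    intro K hK hKA
    rw [Subgroup.eq_bot_iff_forall]
    intro x hx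
    apply FaithfulSMul.eq_of_smul_eq_smul (α := Ω)
    intro w
    obtain ⟨k, rfl⟩ := MulAction.exists_smul_eq G a w
    have := MulAction.mem_stabilizer_iff.1 (hKA (hK.conj_mem x hx k⁻¹))
    rw [inv_inv, mul_smul, mul_smul, inv_smul_eq_iff] at this
    rw [this, one_smul]
  have hAB : ¬ B ≤ A := by
    intro hle
    have hBA : B = A := Subgroup.eq_of_le_of_card_ge hle hcard.le
    have : H.subgroupOf A = ⊤ := by rw [Subgroup.subgroupOf_eq_top, hH, hBA, inf_idem]
    rw [this, Subgroup.index_top] at hidx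
    omega
  have hHbot : H = ⊥ := by
    refine normal_bot H (Subgroup.normalizer_eq_top_iff.1 ?_) inf_le_left
    exact (hAc.le_iff.1 hn1).resolve_right (fun e => hAB (hn2.trans e.le))
  have hA2 : Nat.card A = 2 := by rw [hcA, hHbot, Subgroup.card_bot]
  refine ⟨hA2, ?_⟩
  obtain ⟨⟨t, ht⟩, ht1, htu⟩ := (Nat.card_eq_two_iff' (1 : A)).1 hA2
  obtain ⟨⟨s, hs⟩, hs1, -⟩ := (Nat.card_eq_two_iff' (1 : B)).1 (hcard ▸ hA2)
  replace ht1 : t ≠ 1 := fun e => ht1 (Subtype.ext e)
  replace hs1 : s ≠ 1 := fun e => hs1 (Subtype.ext e)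
  have hAt : ∀ x ∈ A, x = 1 ∨ x = t := fun x hx => by
    rcases eq_or_ne x 1 with h | h
    · exact Or.inl h
    · exact Or.inr (congrArg Subtype.val (htu ⟨x, hx⟩ (fun e => h (congrArg Subtype.val e))))
  have sq : ∀ K : Subgroup G, Nat.card K = 2 → ∀ x ∈ K, x * x = 1 := fun K hK x hx => by
    have := pow_card_eq_one' (x := (⟨x, hx⟩ : K))
    rw [hK, pow_two] at this
    exact congrArg Subtype.val this
  have htt := sq A hA2 t ht
  have hss := sq B (hcard ▸ hA2) s hs
  have hti : t⁻¹ = t := inv_eq_of_mul_eq_one_right htt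
  have hsi : s⁻¹ = s := inv_eq_of_mul_eq_one_right hss
  set c := t * s with hc
  set n := orderOf c with hn
  have hsA : s ∉ A := fun h => hAB fun x hx => by
    rcases eq_or_ne x 1 with rfl | h1
    · exact one_mem A
    · obtain ⟨y, hy, hyu⟩ := (Nat.card_eq_two_iff' (1 : B)).1 (hcard ▸ hA2)
      have e1 := hyu ⟨x, hx⟩ (fun e => h1 (congrArg Subtype.val e))
      have e2 := hyu ⟨s, hs⟩ (fun e => hs1 (congrArg Subtype.val e))
      have e3 : x = s := congrArg Subtype.val (e1.trans e2.symm)
      rw [e3]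
      exact h
  have hgenG : Subgroup.closure {t, s} = ⊤ := by
    refine hAc.2 _ (lt_of_le_of_ne (fun x hx => ?_) (fun e => hsA (e ▸ Subgroup.subset_closure (by simp))))
    rcases hAt x hx with rfl | rfl
    · exact one_mem _
    · exact Subgroup.subset_closure (by simp)
  have htct : t * c * t = c⁻¹ := by
    rw [hc, mul_inv_rev, hti, hsi, ← mul_assoc, htt, one_mul]
  have hct : ∀ i : ℤ, t * c ^ i = c ^ (-i) * t := by
    intro i
    have : (MulAut.conj t) (c ^ i) = c ^ (-i) := by
      rw [map_zpow, MulAut.conj_apply, hti, htct, inv_zpow, zpow_neg]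
    rw [MulAut.conj_apply, hti] at this
    rw [← this, mul_assoc, htt, mul_one]
  have hnt : ¬ Commute t c := by
    intro hcm
    have hK : (Subgroup.zpowers t).Normal := by
      rw [← Subgroup.normalizer_eq_top_iff, ← top_le_iff, ← hgenG, Subgroup.closure_le]
      have hst : Commute t s := by
        have h2 : t * (t * s) = (t * s) * t := hcm.eq
        have : t * (t * s) = t * (s * t) := by rw [h2, mul_assoc]
        exact mul_left_cancel this
      intro y hy
      apply Subgroup.centralizer_le_normalizer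
      rw [Subgroup.mem_centralizer_iff]
      rintro _ ⟨k, rfl⟩
      rcases hy with rfl | rfl
      · exact (Commute.refl y).zpow_left k |>.eq
      · exact (hst.zpow_left k).eq
    have := normal_bot _ hK (Subgroup.zpowers_le.2 ht)
    exact ht1 (Subgroup.zpowers_eq_bot.1 this)
  have hnp : 0 < n := orderOf_pos c
  haveI : NeZero n := ⟨hnp.ne'⟩
  have hcast : ∀ i j : ℤ, (i : ZMod n) = (j : ZMod n) → c ^ i = c ^ j := by
    intro i j h
    rw [zpow_eq_zpow_iff_modEq]
    exact (ZMod.intCast_eq_intCast_iff _ _ _).1 h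
  let φ : DihedralGroup n →* G :=
    MonoidHom.mk' (fun x => match x with
      | .r i => c ^ (i.cast : ℤ)
      | .sr i => t * c ^ (i.cast : ℤ)) (by
        rintro (i | i) (j | j) <;>
          simp only [DihedralGroup.r_mul_r, DihedralGroup.r_mul_sr, DihedralGroup.sr_mul_r, DihedralGroup.sr_mul_sr]
        · rw [← zpow_add]; exact hcast _ _ (by simp)
        · rw [show c ^ (i.cast : ℤ) * (t * c ^ (j.cast : ℤ)) = t * (c ^ (-(i.cast : ℤ)) * c ^ (j.cast : ℤ)) from by
            rw [← mul_assoc t, hct (-(i.cast : ℤ)), neg_neg, mul_assoc], ← zpow_add]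
          congr 1
          exact hcast _ _ (by simp [sub_eq_neg_add])
        · rw [mul_assoc, ← zpow_add]
          congr 1
          exact hcast _ _ (by simp)
        · rw [hct, mul_assoc, ← mul_assoc t, htt, one_mul, ← zpow_add]
          exact hcast _ _ (by simp [sub_eq_neg_add]))
  have hinj : Function.Injective φ := by
    rw [injective_iff_map_eq_one]
    rintro (i | i) hi
    · have h1 : c ^ (i.cast : ℤ) = c ^ (0 : ℤ) := by simpa [φ] using hi
      rw [zpow_eq_zpow_iff_modEq, ← ZMod.intCast_eq_intCast_iff] at h1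
      simp only [ZMod.intCast_zmod_cast, Int.cast_zero] at h1
      rw [h1, DihedralGroup.r_zero]
    · exfalso
      have h1 : t * c ^ (i.cast : ℤ) = 1 := by simpa [φ] using hi
      have : t = (c ^ (i.cast : ℤ))⁻¹ := eq_inv_of_mul_eq_one_left h1
      exact hnt (by rw [this]; exact ((Commute.refl c).zpow_left _).inv_left)
  have hsur : Function.Surjective φ := by
    rw [← MonoidHom.range_eq_top, ← top_le_iff, ← hgenG, Subgroup.closure_le]
    rintro x (rfl | rfl)
    · exact ⟨.sr 0, by simp [φ]⟩
    · refine ⟨.sr 1, ?_⟩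
      have : c ^ ((1 : ZMod n).cast : ℤ) = c ^ (1 : ℤ) := hcast _ _ (by simp)
      simp only [φ, MonoidHom.mk'_apply, this, zpow_one]
      rw [hc, ← mul_assoc, htt, one_mul]
  refine ⟨n, dihedral_prime_of_coatom ?_ ?_, ⟨(MulEquiv.ofBijective φ ⟨hinj, hsur⟩).symm⟩⟩
  · by_contra hlt
    have : c = 1 := orderOf_eq_one_iff.1 (by omega)
    exact hnt (this ▸ Commute.one_right t)
  · intro L hL
    have ht0 : φ (.sr 0) = t := by simp [φ]
    have hle : A ≤ L.map φ := fun x hx => by
      rcases hAt x hx with rfl | rfl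
      · exact one_mem _
      · exact ⟨_, hL, ht0⟩
    rcases hAc.le_iff.1 hle with h | h
    · exact Or.inr (Subgroup.map_injective hinj (by rw [h, Subgroup.map_top_of_surjective φ hsur]))
    · left
      intro x hx
      rcases hAt (φ x) (h ▸ Subgroup.mem_map_of_mem φ hx) with e | e
      · exact Or.inl (hinj (e.trans (map_one φ).symm))
      · exact Or.inr (hinj (e.trans ht0.symm))

end Cfsg.Agent.S3684
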