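import Cfsg.Statements.S3696
import Cfsg.Agent.AbelianPermBound.Basic

set_option autoImplicit false
open Cfsg

namespace Cfsg.Agent.S3696

/-- Let p be a prime, Ω a finite set with n ≥ p elements, and A an abelian p-subgroup of the symmetric group on Ω whose elements of order dividing p number p^k (so k is the rank of A). Then |A| · k^k ≤ n^k, that is, |A| ≤ (n/k)^k. -/
theorem result {Ω : Type*} [Fintype Ω] [DecidableEq Ω]
    (p : ℕ) (hp : p.Prime) (hn : p ≤ Fintype.card Ω) (A : Subgroup (Equiv.Perm Ω)) (hA : IsPGroup p A) (hab : IsMulCommutative A)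
    (k : ℕ) (hk : Nat.card {x : A // x ^ p = 1} = p ^ k) :
    Nat.card A * k ^ k ≤ Fintype.card Ω ^ k := by
  classical
  haveI : Fact p.Prime := ⟨hp⟩
  haveI := hab
  let W : Subgroup A :=
    { carrier := {x | x ^ p = 1}
      one_mem' := one_pow _
      mul_mem' := fun {a b} ha hb => by
        show (a * b) ^ p = 1
        rw [(show Commute a b from hab.is_comm.comm a b).mul_pow, show a ^ p = 1 from ha, show b ^ p = 1 from hb, one_mul]
      inv_mem' := fun {a} ha => by show a⁻¹ ^ p = 1; rw [inv_pow, show a ^ p = 1 from ha, inv_one] }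
  have hWc : Nat.card W = p ^ k := hk
  obtain ⟨T, hTk, hTm, hTd, hTp⟩ := CfsgLib.AbelianPermBound.exists_points A hA W (fun x => Iff.rfl) k ⊤
    (by rw [top_inf_eq, hWc])
  rw [Subgroup.card_top] at hTp
  set L := T.toList.map (fun a => Nat.card (MulAction.orbit A a)) with hL
  have hpk : p ^ k ≤ L.prod := by
    rw [hL, Finset.prod_map_toList, ← hWc]
    exact (Subgroup.card_le_card_group W).trans hTp
  have hform : ∀ x ∈ L, ∃ e, 1 ≤ e ∧ x = p ^ e := by
    intro x hx
    obtain ⟨a, ha, rfl⟩ := List.mem_map.1 hx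
    rw [Finset.mem_toList] at ha
    obtain ⟨e, he⟩ := hA.card_orbit a
    refine ⟨e, Nat.pos_of_ne_zero fun h0 => ?_, he⟩
    rw [h0, pow_zero, Nat.card_eq_one_iff_unique] at he
    haveI := he.1
    obtain ⟨b, -, hb⟩ := hTm a ha
    exact hb (congrArg Subtype.val (Subsingleton.elim (⟨b • a, MulAction.mem_orbit a b⟩ : MulAction.orbit A a)
      ⟨a, MulAction.mem_orbit_self a⟩))
  obtain ⟨L', hlen, hprod, hsum⟩ := CfsgLib.AbelianPermBound.exists_split hp.two_le (k - L.length) L
    (by rw [hL, List.length_map, Finset.length_toList]; omega) hform hpk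
  have hbd : L.sum ≤ Fintype.card Ω := by
    rw [hL, Finset.sum_map_toList]
    calc ∑ a ∈ T, Nat.card (MulAction.orbit A a) = ∑ a ∈ T, (MulAction.orbit A a).toFinset.card :=
          Finset.sum_congr rfl fun a _ => by rw [Nat.card_eq_fintype_card, Set.toFinset_card]
      _ = (T.biUnion fun a => (MulAction.orbit A a).toFinset).card := by
          rw [Finset.card_biUnion]
          intro a ha c hc hne
          rw [Function.onFun, Set.disjoint_toFinset]
          exact hTd a ha c hc hne
      _ ≤ Fintype.card Ω := Finset.card_le_univ _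
  have h := CfsgLib.AbelianPermBound.prod_mul_pow_le L'
  rw [hlen, hprod] at h
  calc Nat.card A * k ^ k ≤ L.prod * k ^ k := Nat.mul_le_mul_right _ (by rw [hL, Finset.prod_map_toList]; exact hTp)
    _ ≤ L'.sum ^ k := h
    _ ≤ Fintype.card Ω ^ k := Nat.pow_le_pow_left (hsum.trans hbd) k


end Cfsg.Agent.S3696
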