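import Cfsg.Statements.S3703
import Cfsg.Agent.H29.PG.SplitAut
import Cfsg.Agent.Frob.Basic

set_option autoImplicit false
open Cfsg
open scoped Pointwise

namespace Cfsg.Agent.S3703

/-- Let N be a normal subgroup of the finite group G such that G/N is a Frobenius group with kernel F and cyclic complement H, where the order of F is coprime to that of N and F is not contained in the image of C_G(N) in G/N. Then G has an element of order p·#H for some prime p dividing the order of N. (A standard tool in recognising groups by their element orders.) -/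
theorem result {G : Type*} [Group G] [Finite G] (N : Subgroup G) [N.Normal]
    (Fb Hb : Subgroup (G ⧸ N)) [Fb.Normal] (hHb : Cfsg.IsFrobeniusComplement Hb) (hker : Cfsg.frobeniusKernel Hb = (Fb : Set (G ⧸ N)))
    (hcyc : IsCyclic Hb) (hcop : (Nat.card Fb).Coprime (Nat.card N))
    (hnot : ¬ Fb ≤ (Subgroup.centralizer (N : Set G)).map (QuotientGroup.mk' N)) :
    ∃ p : ℕ, p.Prime ∧ p ∣ Nat.card N ∧ ∃ g : G, orderOf g = p * Nat.card Hb := by
  classical
  set π := QuotientGroup.mk' N with hπ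
  have hFc : Nat.card Fb = Hb.index := by
    rw [← CfsgLib.Frob.card_kernel hHb, hker]
    rfl
  have hHF : (Nat.card Hb).Coprime (Nat.card Fb) := hFc ▸ CfsgLib.Frob.coprime_card_index hHb
  have hFi : Fb.index = Nat.card Hb := by
    have h1 := Fb.card_mul_index
    have h2 := Hb.card_mul_index
    rw [hFc, ← h2, mul_comm (Nat.card Hb)] at h1
    exact Nat.eq_of_mul_eq_mul_left (Nat.pos_of_ne_zero Subgroup.index_ne_zero_of_finite) h1
  -- Sylow subgroups for primes of the kernel map isomorphically into the kernel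
  have hRN : ∀ r : ℕ, [Fact r.Prime] → r ∣ Nat.card Fb → ∀ R : Sylow r G,
      (∀ x ∈ (R : Subgroup G), x ∈ N → x = 1) ∧ (∀ x ∈ (R : Subgroup G), π x ∈ Fb) := by
    intro r _ hr R
    have hrN : ¬ r ∣ Nat.card N := fun h =>
      (Fact.out : r.Prime).ne_one (Nat.eq_one_of_dvd_coprimes hcop hr h)
    have hrH : ¬ r ∣ Nat.card Hb := fun h =>
      (Fact.out : r.Prime).ne_one (Nat.eq_one_of_dvd_coprimes hHF h hr)
    refine ⟨fun x hx hxN => ?_, fun x hx => ?_⟩
    · obtain ⟨j, hj⟩ := IsPGroup.iff_orderOf.mp R.isPGroup' ⟨x, hx⟩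
      rw [Subgroup.orderOf_mk] at hj
      exact orderOf_eq_one_iff.mp (Nat.eq_one_of_dvd_coprimes
        (Nat.Coprime.pow_left j (((Fact.out : r.Prime).coprime_iff_not_dvd).mpr hrN)) hj.dvd
        (Subgroup.orderOf_dvd_natCard _ hxN))
    · obtain ⟨j, hj⟩ := IsPGroup.iff_orderOf.mp R.isPGroup' ⟨x, hx⟩
      rw [Subgroup.orderOf_mk] at hj
      rw [← QuotientGroup.eq_one_iff, ← orderOf_eq_one_iff]
      refine Nat.eq_one_of_dvd_coprimes
        (Nat.Coprime.pow_left j (((Fact.out : r.Prime).coprime_iff_not_dvd).mpr hrH)) ?_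
        (hFi ▸ orderOf_dvd_natCard _)
      rw [← hj]
      exact (orderOf_map_dvd ((QuotientGroup.mk' Fb).comp π) x)
  have hexP : ∀ r : ℕ, [Fact r.Prime] → r ∣ Nat.card Fb → ∀ p : ℕ, [Fact p.Prime] → ∀ R : Sylow r G,
      ∃ P : Sylow p N, (R : Subgroup G) ≤
        Subgroup.normalizer (((P : Subgroup N).map N.subtype : Subgroup G) : Set G) := by
    intro r _ hr p _ R
    have hrN : ¬ r ∣ Nat.card N := fun h =>
      (Fact.out : r.Prime).ne_one (Nat.eq_one_of_dvd_coprimes hcop hr h)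
    obtain ⟨P₀⟩ : Nonempty (Sylow p N) := inferInstance
    set M₀ := Subgroup.normalizer (((P₀ : Subgroup N).map N.subtype : Subgroup G) : Set G) with hM₀
    have hidx : ¬ r ∣ M₀.index := by
      have h1 : M₀.index ∣ Nat.card N := by
        have hsup : N ⊔ M₀ = ⊤ := by rw [sup_comm]; exact P₀.normalizer_sup_eq_top
        have h2 : M₀.index = M₀.relIndex N := by
          have h3 := Subgroup.relIndex_mul_relIndex (N ⊓ M₀) M₀ ⊤ inf_le_right le_top
          have h4 := Subgroup.relIndex_mul_relIndex (N ⊓ M₀) N ⊤ inf_le_left le_top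
          rw [Subgroup.relIndex_top_right] at h3 h4
          rw [Subgroup.inf_relIndex_left] at h4
          rw [Subgroup.inf_relIndex_right] at h3
          have h5 : N.relIndex M₀ = N.index := by
            rw [← Subgroup.relIndex_top_right N, ← hsup, sup_comm, Subgroup.relIndex_sup_right]
          rw [h5, ← h4, mul_comm] at h3
          exact Nat.eq_of_mul_eq_mul_right (Nat.pos_of_ne_zero Subgroup.index_ne_zero_of_finite) h3
        rw [h2]
        exact Subgroup.index_dvd_card _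
      exact fun h => hrN (h.trans h1)
    obtain ⟨R₀⟩ : Nonempty (Sylow r M₀) := inferInstance
    have hR₀ : IsPGroup r ((R₀ : Subgroup M₀).map M₀.subtype) := R₀.isPGroup'.map _
    obtain ⟨R₁, hR₁⟩ := hR₀.exists_le_sylow
    have hR₁M : (R₁ : Subgroup G) ≤ M₀ := by
      have heq : (R₀ : Subgroup M₀).map M₀.subtype = R₁ := by
        refine Subgroup.eq_of_le_of_card_ge hR₁ (le_of_eq ?_)
        rw [Subgroup.card_map_of_injective M₀.subtype_injective, R₁.card_eq_multiplicity, R₀.card_eq_multiplicity,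
          ← M₀.card_mul_index, Nat.factorization_mul Nat.card_pos.ne' Subgroup.index_ne_zero_of_finite,
          Finsupp.add_apply, Nat.factorization_eq_zero_of_not_dvd hidx, add_zero]
      exact heq ▸ Subgroup.map_subtype_le _
    obtain ⟨g, hg⟩ := MulAction.exists_smul_eq G R₁ R
    refine ⟨(MulAut.conjNormal g : MulAut N) • P₀, ?_⟩
    intro x hx
    rw [← hg, Sylow.coe_subgroup_smul] at hx
    obtain ⟨z, hz, rfl⟩ := hx
    have hz' := hR₁M hz
    have hmem : ∀ w : G, w ∈ ((((MulAut.conjNormal g : MulAut N) • P₀ : Sylow p N) : Subgroup N).map N.subtype) ↔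
        g⁻¹ * w * g ∈ (P₀ : Subgroup N).map N.subtype := by
      intro w
      constructor
      · rintro ⟨_, ⟨u, hu, rfl⟩, rfl⟩
        refine ⟨u, hu, ?_⟩
        simp [MulAut.conjNormal_apply, mul_assoc]
      · rintro ⟨u, hu, hue⟩
        refine ⟨MulAut.conjNormal g u, ⟨u, hu, rfl⟩, ?_⟩
        show g * (u : G) * g⁻¹ = w
        rw [show (u : G) = g⁻¹ * w * g from hue]; group
    refine Subgroup.mem_normalizer_iff.mpr fun w => ?_
    rw [hmem, hmem]
    have := Subgroup.mem_normalizer_iff.mp hz' (g⁻¹ * w * g)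
    convert this using 2
    simp [MulAut.smul_def, mul_assoc]
  obtain ⟨r, hrp, hr, R, p, hp, P, hRP, hne⟩ : ∃ r, r.Prime ∧ r ∣ Nat.card Fb ∧ ∃ R : Sylow r G, ∃ p, p.Prime ∧
      ∃ P : Sylow p N, (R : Subgroup G) ≤ Subgroup.normalizer (((P : Subgroup N).map N.subtype : Subgroup G) : Set G) ∧
      ¬ (R : Subgroup G) ≤ Subgroup.centralizer (((P : Subgroup N).map N.subtype : Subgroup G) : Set G) := by
    by_contra hcon
    push Not at hcon
    apply hnot
    set I := (Subgroup.centralizer (N : Set G)).map π with hI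
    have hd : Nat.card Fb ∣ Nat.card ↥(Fb ⊓ I) := by
      rw [Nat.dvd_iff_prime_pow_dvd_dvd]
      intro r k hrp hrk
      rcases Nat.eq_zero_or_pos k with rfl | hk
      · simp
      haveI := Fact.mk hrp
      have hr : r ∣ Nat.card Fb := (dvd_pow_self r hk.ne').trans hrk
      obtain ⟨R⟩ : Nonempty (Sylow r G) := inferInstance
      have hRC : (R : Subgroup G) ≤ Subgroup.centralizer (N : Set G) := by
        have hd' : Nat.card N ∣ Nat.card ↥((Subgroup.centralizer ((R : Subgroup G) : Set G)).subgroupOf N) := by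
          rw [Nat.dvd_iff_prime_pow_dvd_dvd]
          intro p l hpp hpl
          haveI := Fact.mk hpp
          obtain ⟨P, hP⟩ := hexP r hr p R
          have hPC : (P : Subgroup N) ≤ (Subgroup.centralizer ((R : Subgroup G) : Set G)).subgroupOf N := fun u hu => by
            rw [Subgroup.mem_subgroupOf, Subgroup.mem_centralizer_iff]
            intro x hx
            exact (Subgroup.mem_centralizer_iff.mp (hcon r hrp hr R p hpp P hP hx) u ⟨u, hu, rfl⟩).symm
          exact (P.pow_dvd_card_of_pow_dvd_card hpl).trans (Subgroup.card_dvd_of_le hPC)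
        have htop := Subgroup.eq_top_of_le_card _ (Nat.le_of_dvd Nat.card_pos hd')
        intro x hx
        refine Subgroup.mem_centralizer_iff.mpr fun u hu => ?_
        have hm : (⟨u, hu⟩ : N) ∈ (Subgroup.centralizer ((R : Subgroup G) : Set G)).subgroupOf N :=
          htop ▸ Subgroup.mem_top _
        exact (Subgroup.mem_centralizer_iff.mp (Subgroup.mem_subgroupOf.mp hm) x hx).symm
      have hinj : Function.Injective (π.comp (R : Subgroup G).subtype) := by
        rw [injective_iff_map_eq_one]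
        intro x hx
        exact Subtype.ext ((hRN r hr R).1 x x.2 ((QuotientGroup.eq_one_iff _).mp hx))
      have h1 : Nat.card ↥(R : Subgroup G) ∣ Nat.card ↥(Fb ⊓ I) := by
        refine (dvd_of_eq (Nat.card_congr (MonoidHom.ofInjective hinj).toEquiv)).trans
          (Subgroup.card_dvd_of_le ?_)
        rintro _ ⟨x, rfl⟩
        exact ⟨(hRN r hr R).2 x x.2, Subgroup.mem_map_of_mem π (hRC x.2)⟩
      refine (R.pow_dvd_card_of_pow_dvd_card ?_).trans h1
      exact hrk.trans ((Subgroup.card_subgroup_dvd_card Fb).trans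
        (Subgroup.card_quotient_dvd_card N))
    exact (Subgroup.eq_of_le_of_card_ge inf_le_left (Nat.le_of_dvd Nat.card_pos hd)).ge.trans inf_le_right
  haveI := Fact.mk hrp
  haveI := Fact.mk hp
  set P' := (P : Subgroup N).map N.subtype with hP'
  set M := Subgroup.normalizer (P' : Set G) with hM
  have hfrat : M ⊔ N = ⊤ := P.normalizer_sup_eq_top
  set K := Fb.comap π with hK
  have hRK : (R : Subgroup G) ≤ K := (hRN r hr R).2
  obtain ⟨h0, hh0⟩ := hcyc.exists_generator
  obtain ⟨g0, hg0⟩ := QuotientGroup.mk'_surjective N (h0 : G ⧸ N)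
  -- a lift of a generator normalising `R` and `P'`
  obtain ⟨y, hyM, hyR, f, hf, hy⟩ : ∃ y ∈ M, y ∈ Subgroup.normalizer ((R : Subgroup G) : Set G) ∧
      ∃ f ∈ Fb, π y = f * (h0 : G ⧸ N) := by
    let Rm : Sylow r M := R.subtype hRP
    haveI hKn : K.Normal := ‹Fb.Normal›.comap π
    haveI : (K.subgroupOf M).Normal := hKn.comap M.subtype
    have hfr := Rm.normalizer_sup_eq_top' (N := K.subgroupOf M) (fun x hx => hRK hx)
    have hg : g0 ∈ M ⊔ N := hfrat.symm ▸ Subgroup.mem_top _
    obtain ⟨m, hm, n, hn, hmn⟩ := Subgroup.mem_sup_of_normal_right.mp hg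
    have hm' : (⟨m, hm⟩ : M) ∈ Subgroup.normalizer ((Rm : Subgroup M) : Set M) ⊔ K.subgroupOf M :=
      hfr.symm ▸ Subgroup.mem_top _
    obtain ⟨w, hw, k, hk, hwk⟩ := Subgroup.mem_sup_of_normal_right.mp hm'
    refine ⟨(w : G), w.2, ?_, (h0 : G ⧸ N) * (π (k : G))⁻¹ * (h0 : G ⧸ N)⁻¹, ?_, ?_⟩
    · refine Subgroup.mem_normalizer_iff.mpr fun x => ⟨fun hx => ?_, fun hx => ?_⟩
      · exact (Subgroup.mem_normalizer_iff.mp hw ⟨x, hRP hx⟩).mp hx
      · have hxM : x ∈ M := by
          have := M.mul_mem (M.mul_mem (M.inv_mem w.2) (hRP hx)) w.2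
          simpa [mul_assoc] using this
        exact (Subgroup.mem_normalizer_iff.mp hw ⟨x, hxM⟩).mpr hx
    · exact ‹Fb.Normal›.conj_mem _ (Fb.inv_mem hk) _
    · have hπn : π n = 1 := (QuotientGroup.eq_one_iff n).mpr hn
      have hm2 : m = (w : G) * (k : G) := (congrArg Subtype.val hwk).symm
      rw [inv_mul_cancel_right, ← hg0, ← hmn, hm2]
      rw [map_mul, map_mul, show (QuotientGroup.mk' N) n = 1 from hπn, mul_one, mul_inv_cancel_right]
  -- fixed-point-freeness in the quotient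
  have hfree : ∀ x ∈ Fb, ∀ b ∈ Hb, b ≠ 1 → x * b = b * x → x = 1 := by
    intro x hx b hb hb1 hc
    have hxk : x ∈ Cfsg.frobeniusKernel Hb := hker ▸ hx
    exact CfsgLib.Frob.kernel_inter hxk
      (CfsgLib.Frob.centralizer_le hHb hb hb1 (Subgroup.mem_centralizer_singleton_iff.mpr hc))
  have hHb1 : 1 < Nat.card Hb := (Subgroup.one_lt_card_iff_ne_bot _).mpr hHb.1
  have hh0o : orderOf (h0 : G ⧸ N) = Nat.card Hb := by
    rw [Subgroup.orderOf_coe]; exact orderOf_eq_card_of_forall_mem_zpowers hh0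
  have hh01 : (h0 : G ⧸ N) ≠ 1 := fun h => by rw [h, orderOf_one] at hh0o; omega
  -- `π y` is a conjugate of the generator
  obtain ⟨c, hcF, hyc⟩ : ∃ c ∈ Fb, π y = c * (h0 : G ⧸ N) * c⁻¹ := by
    let φ : Fb → Fb := fun c => ⟨(c : G ⧸ N) * ((h0 : G ⧸ N) * (c : G ⧸ N)⁻¹ * (h0 : G ⧸ N)⁻¹),
      Fb.mul_mem c.2 (‹Fb.Normal›.conj_mem _ (Fb.inv_mem c.2) _)⟩
    have hφ : Function.Surjective φ := by
      refine Finite.injective_iff_surjective.mp fun a b hab => ?_
      have h1 : (a : G ⧸ N) * ((h0 : G ⧸ N) * (a : G ⧸ N)⁻¹ * (h0 : G ⧸ N)⁻¹) =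
          (b : G ⧸ N) * ((h0 : G ⧸ N) * (b : G ⧸ N)⁻¹ * (h0 : G ⧸ N)⁻¹) := congrArg Subtype.val hab
      have h2 : ((b : G ⧸ N)⁻¹ * a) * (h0 : G ⧸ N) = (h0 : G ⧸ N) * ((b : G ⧸ N)⁻¹ * a) := by
        have := congrArg (fun z => (b : G ⧸ N)⁻¹ * z * (h0 : G ⧸ N) * a) h1
        simpa [mul_assoc] using this
      exact Subtype.ext (inv_mul_eq_one.mp
        (hfree _ (Fb.mul_mem (Fb.inv_mem b.2) a.2) _ h0.2 hh01 h2)).symm
    obtain ⟨c, hc⟩ := hφ ⟨f, hf⟩
    refine ⟨c, c.2, ?_⟩
    rw [hy, ← show (c : G ⧸ N) * ((h0 : G ⧸ N) * (c : G ⧸ N)⁻¹ * (h0 : G ⧸ N)⁻¹) = f from congrArg Subtype.val hc]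
    group
  by_contra hcon
  -- every norm is trivial
  have hsplit : ∀ v ∈ P', (v * y) ^ Nat.card Hb = 1 := by
    intro v hv
    by_contra hne1
    have hvN : v ∈ N := Subgroup.map_subtype_le _ hv
    have hπv : π (v * y) = π y := by
      rw [map_mul, show π v = 1 from (QuotientGroup.eq_one_iff v).mpr hvN, one_mul]
    have hord : orderOf (π (v * y)) = Nat.card Hb := by
      rw [hπv, hyc, show c * (h0 : G ⧸ N) * c⁻¹ = MulAut.conj c (h0 : G ⧸ N) from rfl, MulEquiv.orderOf_eq, hh0o]
    have hd : Nat.card Hb ∣ orderOf (v * y) := hord ▸ orderOf_map_dvd π _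
    have hpowN : (v * y) ^ Nat.card Hb ∈ N := by
      rw [← QuotientGroup.eq_one_iff]
      show π _ = 1
      rw [map_pow, ← hord, pow_orderOf_eq_one]
    have ho1 : orderOf ((v * y) ^ Nat.card Hb) = orderOf (v * y) / Nat.card Hb :=
      orderOf_pow_of_dvd (by omega) hd
    obtain ⟨s, hs, hsd⟩ := Nat.exists_prime_and_dvd (fun h => hne1 (orderOf_eq_one_iff.mp h) :
      orderOf ((v * y) ^ Nat.card Hb) ≠ 1)
    apply hcon
    refine ⟨s, hs, hsd.trans (Subgroup.orderOf_dvd_natCard _ hpowN),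
      (v * y) ^ (orderOf (v * y) / (s * Nat.card Hb)), ?_⟩
    rw [ho1] at hsd
    have hd' : s * Nat.card Hb ∣ orderOf (v * y) := by
      rw [mul_comm]; exact Nat.mul_dvd_of_dvd_div hd hsd
    rw [orderOf_pow_of_dvd (Nat.ne_of_gt (Nat.div_pos (Nat.le_of_dvd (orderOf_pos _) hd')
      (Nat.mul_pos hs.pos (by omega)))) (Nat.div_dvd_of_dvd hd'), Nat.div_div_self hd' (orderOf_pos _).ne']
  apply hne
  -- transfer to the normaliser of `P'`
  have hP'M : P' ≤ M := Subgroup.le_normalizer
  have hcopR : (Nat.card ((R : Subgroup G).subgroupOf M)).Coprime (Nat.card (P'.subgroupOf M)) := by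
    obtain ⟨j, hj⟩ := R.isPGroup'.exists_card_eq
    rw [Nat.card_congr (Subgroup.subgroupOfEquivOfLe hRP).toEquiv,
      Nat.card_congr (Subgroup.subgroupOfEquivOfLe hP'M).toEquiv, hj]
    refine Nat.Coprime.pow_left j ((hrp.coprime_iff_not_dvd).mpr fun h => ?_)
    exact hrp.ne_one (Nat.eq_one_of_dvd_coprimes hcop hr
      (h.trans (Subgroup.card_dvd_of_le (Subgroup.map_subtype_le _))))
  intro x hx
  refine Subgroup.mem_centralizer_iff.mpr fun v hv => ?_
  have := CfsgLib.H29.PG.centralizes_of_splitting p _ (P'.subgroupOf M) ((R : Subgroup G).subgroupOf M) rfl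
    Subgroup.normal_in_normalizer
    ((P.isPGroup'.map N.subtype).of_equiv (Subgroup.subgroupOfEquivOfLe hP'M).symm)
    ⟨y, hyM⟩ (Nat.card Hb) (by omega)
    (Subgroup.mem_normalizer_iff.mpr fun z => Subgroup.mem_normalizer_iff.mp hyR (z : G))
    (fun a ha i hi0 hih hc => by
      have h1 : (a : G) * y ^ i = y ^ i * (a : G) := by
        simpa using congrArg Subtype.val hc
      have h2 := congrArg π h1
      rw [map_mul, map_mul, map_pow, hyc, conj_pow] at h2
      have h3 : (c⁻¹ * π (a : G) * c) * (h0 : G ⧸ N) ^ i = (h0 : G ⧸ N) ^ i * (c⁻¹ * π (a : G) * c) := by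
        have := congrArg (fun z => c⁻¹ * z * c) h2
        simpa [mul_assoc] using this
      have h4 := hfree _ (by
          have := ‹Fb.Normal›.conj_mem _ ((hRN r hr R).2 a ha) c⁻¹
          simpa using this)
        _ (Subgroup.pow_mem _ h0.2 i) (fun he => by
          have := Nat.le_of_dvd hi0 (orderOf_dvd_of_pow_eq_one he)
          omega) h3
      have h5 : π (a : G) = 1 := by
        have := congrArg (fun z => c * z * c⁻¹) h4
        simpa [mul_assoc] using this
      exact Subtype.ext ((hRN r hr R).1 a ha ((QuotientGroup.eq_one_iff _).mp h5)))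
    (fun v hv => Subtype.ext (by simpa using hsplit v hv)) hcopR
    ⟨x, hRP hx⟩ hx ⟨v, hP'M hv⟩ hv
  exact (congrArg Subtype.val this).symm

end Cfsg.Agent.S3703
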