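import Cfsg.Statements.S3713
import Cfsg.Agent.Chev.SpSlim.Amalgam

set_option autoImplicit false
open Cfsg

namespace Cfsg.Agent.S3713

open CfsgLib.Chev.SpSlim CfsgLib.SpGeom Matrix

/-- A presentation of the symplectic group as the universal completion of an amalgam of small subgroups. Let F be a field with more than two elements, n ≥ 2, and Sp the group of 2n × 2n matrices over F preserving the standard alternating form, acting on column vectors; write e_k, f_k for the standard basis vectors of the two halves (a hyperbolic basis). For each k let S_k be the subgroup of Sp fixing e_l and f_l for all l ≠ k (a copy of SL(2, F) on the plane of e_k, f_k), and for each i with i + 1 < n let M_i be the subgroup fixing every e_l and fixing f_l for all l other than i, i+1 (an abelian group isomorphic to the additive group of F³). Then Sp is the universal completion of the amalgam formed by the S_k, the M_i and the subgroups generated by two of them: for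 every group H and homomorphisms σ_k : S_k → H, μ_i : M_i → H such that for each pair of these subgroups some homomorphism on the subgroup they generate restricts to the given ones, there is exactly one homomorphism Sp → H restricting to every σ_k and μ_i. -/
theorem result
    (F : Type*) [Field F] (hF : ∃ a : F, a ≠ 0 ∧ a ≠ 1) (n : ℕ) (hn : 2 ≤ n)
    (S M : Fin n → Subgroup ↥(Matrix.symplecticGroup (Fin n) F))
    (hS : ∀ j : Fin n, S j = Subgroup.closure {A : ↥(Matrix.symplecticGroup (Fin n) F) | ∀ k : Fin n, k ≠ j →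
      ((A : ↥(Matrix.symplecticGroup (Fin n) F)) : Matrix (Fin n ⊕ Fin n) (Fin n ⊕ Fin n) F).mulVec (Pi.single (Sum.inl k) (1 : F)) = (Pi.single (Sum.inl k) (1 : F)) ∧ ((A : ↥(Matrix.symplecticGroup (Fin n) F)) : Matrix (Fin n ⊕ Fin n) (Fin n ⊕ Fin n) F).mulVec (Pi.single (Sum.inr k) (1 : F)) = (Pi.single (Sum.inr k) (1 : F))})
    (hM : ∀ i : Fin n, (i : ℕ) + 1 < n → M i = Subgroup.closure {A : ↥(Matrix.symplecticGroup (Fin n) F) |
      (∀ k : Fin n, ((A : ↥(Matrix.symplecticGroup (Fin n) F)) : Matrix (Fin n ⊕ Fin n) (Fin n ⊕ Fin n) F).mulVec (Pi.single (Sum.inl k) (1 : F)) = (Pi.single (Sum.inl k) (1 : F))) ∧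
        ∀ k : Fin n, (k : ℕ) ≠ i → (k : ℕ) ≠ (i : ℕ) + 1 → ((A : ↥(Matrix.symplecticGroup (Fin n) F)) : Matrix (Fin n ⊕ Fin n) (Fin n ⊕ Fin n) F).mulVec (Pi.single (Sum.inr k) (1 : F)) = (Pi.single (Sum.inr k) (1 : F))})
    {H : Type*} [Group H] (σ : ∀ j : Fin n, ↥(S j) →* H) (μ : ∀ i : Fin n, ↥(M i) →* H)
    (hSS : ∀ j l : Fin n, j ≠ l → ∃ Ψ : ↥(S j ⊔ S l) →* H,
      (∀ (g : ↥(Matrix.symplecticGroup (Fin n) F)) (hg : g ∈ S j), Ψ ⟨g, Subgroup.mem_sup_left hg⟩ = σ j ⟨g, hg⟩) ∧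
        (∀ (g : ↥(Matrix.symplecticGroup (Fin n) F)) (hg : g ∈ S l), Ψ ⟨g, Subgroup.mem_sup_right hg⟩ = σ l ⟨g, hg⟩))
    (hMM : ∀ i i' : Fin n, i ≠ i' → (i : ℕ) + 1 < n → (i' : ℕ) + 1 < n → ∃ Ψ : ↥(M i ⊔ M i') →* H,
      (∀ (g : ↥(Matrix.symplecticGroup (Fin n) F)) (hg : g ∈ M i), Ψ ⟨g, Subgroup.mem_sup_left hg⟩ = μ i ⟨g, hg⟩) ∧
        (∀ (g : ↥(Matrix.symplecticGroup (Fin n) F)) (hg : g ∈ M i'), Ψ ⟨g, Subgroup.mem_sup_right hg⟩ = μ i' ⟨g, hg⟩))
    (hMS : ∀ i j : Fin n, (i : ℕ) + 1 < n → ∃ Ψ : ↥(M i ⊔ S j) →* H,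
      (∀ (g : ↥(Matrix.symplecticGroup (Fin n) F)) (hg : g ∈ M i), Ψ ⟨g, Subgroup.mem_sup_left hg⟩ = μ i ⟨g, hg⟩) ∧
        (∀ (g : ↥(Matrix.symplecticGroup (Fin n) F)) (hg : g ∈ S j), Ψ ⟨g, Subgroup.mem_sup_right hg⟩ = σ j ⟨g, hg⟩)) :
    ∃! Φ : ↥(Matrix.symplecticGroup (Fin n) F) →* H,
      (∀ (j : Fin n) (g : ↥(Matrix.symplecticGroup (Fin n) F)) (hg : g ∈ S j), Φ g = σ j ⟨g, hg⟩) ∧
        (∀ (i : Fin n), (i : ℕ) + 1 < n → ∀ (g : ↥(Matrix.symplecticGroup (Fin n) F)) (hg : g ∈ M i), Φ g = μ i ⟨g, hg⟩) := by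
  classical
  -- the generators are the sets themselves
  have hSm : ∀ (j : Fin n) g, g ∈ S j ↔ g ∈ supp n F (fun l => l = j) := fun j g => by
    rw [hS j]
    exact ⟨fun h => (Subgroup.closure_le (supp n F (fun l => l = j))).2 (fun A (hA : ∀ k : Fin n, k ≠ j → _) l hl => hA l hl) h,
      fun h => Subgroup.subset_closure (fun l hl => h l hl)⟩
  have hMm : ∀ (i : Fin n), (i : ℕ) + 1 < n → ∀ g, g ∈ M i ↔ g ∈ upSub n F i := fun i hi g => by
    rw [hM i hi]
    exact ⟨fun h => (Subgroup.closure_le (upSub n F i)).2 (fun A hA => ⟨hA.1, fun l h1 h2 => hA.2 l h1 h2⟩) h,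
      fun h => Subgroup.subset_closure ⟨h.1, fun l h1 h2 => h.2 l h1 h2⟩⟩
  let ΓS : Fin n → Subgroup (↥(Matrix.symplecticGroup (Fin n) F) × H) := fun j => ((S j).subtype.prod (σ j)).range
  let ΓM : Fin n → Subgroup (↥(Matrix.symplecticGroup (Fin n) F) × H) := fun i => ((M i).subtype.prod (μ i)).range
  have graphS : ∀ j, IsGraph (ΓS j) := fun j => by
    rintro _ ⟨w, rfl⟩ h
    have : w = 1 := Subtype.ext h
    subst this; simp
  have pairSS : ∀ j l, j ≠ l → ∃ Γ, IsGraph Γ ∧ ΓS j ≤ Γ ∧ ΓS l ≤ Γ := fun j l hjl => by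
    obtain ⟨Ψ, p1, p2⟩ := hSS j l hjl
    refine ⟨((S j ⊔ S l).subtype.prod Ψ).range, ?_, ?_, ?_⟩
    · rintro _ ⟨w, rfl⟩ h
      have : w = 1 := Subtype.ext h
      subst this; simp
    · rintro _ ⟨w, rfl⟩
      exact ⟨⟨w.1, Subgroup.mem_sup_left w.2⟩, Prod.ext rfl (p1 w.1 w.2)⟩
    · rintro _ ⟨w, rfl⟩
      exact ⟨⟨w.1, Subgroup.mem_sup_right w.2⟩, Prod.ext rfl (p2 w.1 w.2)⟩
  have pairMM : ∀ i i' : Fin n, i ≠ i' → (i : ℕ) + 1 < n → (i' : ℕ) + 1 < n →
      ∃ Γ, IsGraph Γ ∧ ΓM i ≤ Γ ∧ ΓM i' ≤ Γ := fun i i' h a b => by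
    obtain ⟨Ψ, p1, p2⟩ := hMM i i' h a b
    refine ⟨((M i ⊔ M i').subtype.prod Ψ).range, ?_, ?_, ?_⟩
    · rintro _ ⟨w, rfl⟩ h
      have : w = 1 := Subtype.ext h
      subst this; simp
    · rintro _ ⟨w, rfl⟩
      exact ⟨⟨w.1, Subgroup.mem_sup_left w.2⟩, Prod.ext rfl (p1 w.1 w.2)⟩
    · rintro _ ⟨w, rfl⟩
      exact ⟨⟨w.1, Subgroup.mem_sup_right w.2⟩, Prod.ext rfl (p2 w.1 w.2)⟩
  have pairMS : ∀ i j : Fin n, (i : ℕ) + 1 < n → ∃ Γ, IsGraph Γ ∧ ΓM i ≤ Γ ∧ ΓS j ≤ Γ := fun i j a => by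
    obtain ⟨Ψ, p1, p2⟩ := hMS i j a
    refine ⟨((M i ⊔ S j).subtype.prod Ψ).range, ?_, ?_, ?_⟩
    · rintro _ ⟨w, rfl⟩ h
      have : w = 1 := Subtype.ext h
      subst this; simp
    · rintro _ ⟨w, rfl⟩
      exact ⟨⟨w.1, Subgroup.mem_sup_left w.2⟩, Prod.ext rfl (p1 w.1 w.2)⟩
    · rintro _ ⟨w, rfl⟩
      exact ⟨⟨w.1, Subgroup.mem_sup_right w.2⟩, Prod.ext rfl (p2 w.1 w.2)⟩
  have fstS : ∀ j x, x ∈ ΓS j → x.1 ∈ supp n F (fun l => l = j) := fun j x hx => by
    obtain ⟨w, rfl⟩ := hx; exact (hSm j _).1 w.2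
  have fstM : ∀ i : Fin n, (i : ℕ) + 1 < n → ∀ x, x ∈ ΓM i → x.1 ∈ upSub n F i := fun i hi x hx => by
    obtain ⟨w, rfl⟩ := hx; exact (hMm i hi _).1 w.2
  have liftS : ∀ (j : Fin n) g, g ∈ supp n F (fun l => l = j) → ∃ x ∈ ΓS j, x.1 = g := fun j g hg =>
    ⟨_, ⟨⟨g, (hSm j g).2 hg⟩, rfl⟩, rfl⟩
  have liftM : ∀ i : Fin n, (i : ℕ) + 1 < n → ∀ g, g ∈ upSub n F i → ∃ x ∈ ΓM i, x.1 = g := fun i hi g hg =>
    ⟨_, ⟨⟨g, (hMm i hi g).2 hg⟩, rfl⟩, rfl⟩
  let Γ : ℕ → Subgroup (↥(Matrix.symplecticGroup (Fin n) F) × H) := fun m =>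
    Subgroup.closure {x | (∃ j : Fin n, (j : ℕ) < m ∧ x ∈ ΓS j) ∨
      ∃ i : Fin n, (i : ℕ) + 1 < m ∧ (i : ℕ) + 1 < n ∧ x ∈ ΓM i}
  have tS : ∀ (j : Fin n) (c : F), tv (eV j : Fin n ⊕ Fin n → F) c ∈ supp n F (fun l => l = j) :=
    fun j c => tv_mem_supp (fun l hl => by simp [eV, hl]) c
  have tS' : ∀ (j : Fin n) (c : F), tv (fV j : Fin n ⊕ Fin n → F) c ∈ supp n F (fun l => l = j) :=
    fun j c => tv_mem_supp (fun l hl => by simp [fV, hl]) c
  have main : ∀ m, m ≤ n → IsGraph (Γ m) ∧ ∀ g, g ∈ lev n F m ↔ ∃ x ∈ Γ m, x.1 = g := by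
    intro m
    induction m using Nat.strong_induction_on with
    | _ m ih =>
      intro hmn
      rcases m with _ | m
      · have hbot : Γ 0 = ⊥ := by
          refine eq_bot_iff.2 ((Subgroup.closure_le _).2 ?_)
          rintro x (⟨j, hj, -⟩ | ⟨i, hi, -⟩) <;> omega
        rw [hbot, lev_zero]
        exact ⟨fun x hx _ => by rw [Subgroup.mem_bot.1 hx]; rfl,
          fun g => ⟨fun hg => ⟨1, one_mem _, (Subgroup.mem_bot.1 hg).symm⟩,
            fun ⟨x, hx, e⟩ => by rw [← e, Subgroup.mem_bot.1 hx]; exact one_mem _⟩⟩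
      rcases m with _ | m
      · set z : Fin n := ⟨0, by omega⟩
        have h1 : Γ 1 = ΓS z := by
          refine le_antisymm ((Subgroup.closure_le _).2 ?_)
            (fun x hx => Subgroup.subset_closure (Or.inl ⟨z, Nat.one_pos, hx⟩))
          rintro x (⟨j, hj, hx⟩ | ⟨i, hi, -⟩)
          · obtain rfl : j = z := Fin.ext (by simp [z]; omega)
            exact hx
          · omega
        rw [h1]
        refine ⟨graphS z, fun g => ⟨fun hg => liftS z g (fun l hl => hg l ?_), ?_⟩⟩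
        · have : (l : ℕ) ≠ 0 := fun e => hl (Fin.ext e)
          omega
        · rintro ⟨x, hx, rfl⟩ l hl
          exact fstS z x hx l (fun e => by subst e; simp [z] at hl)
      -- the step
      let k : Fin n := ⟨m + 1, by omega⟩
      let j : Fin n := ⟨m, by omega⟩
      have hjn : (j : ℕ) + 1 < n := hmn
      have hjk : (k : ℕ) = (j : ℕ) + 1 := rfl
      obtain ⟨gK, fK⟩ := ih (m + 1) (by omega) (by omega)
      obtain ⟨gJ, fJ⟩ := ih m (by omega) (by omega)
      obtain ⟨ΓP, gP, pM, pS⟩ := pairMS j k hjn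
      obtain ⟨ΓQ, gQ, qM, qS⟩ := pairMS j j hjn
      choose te hte hte1 using fun c => liftS k _ (tS k c)
      choose tf htf htf1 using fun c => liftS k _ (tS' k c)
      choose eb heb heb1 using fun t => liftM j hjn _ (Eich_mem_upSub hjk t)
      have teM : ∀ c, te c ∈ ΓM j := fun c => by
        obtain ⟨y, hy, hy1⟩ := liftM j hjn _ (tv_mem_upSub (i := j) (l := k) (Or.inr hjk) c)
        rwa [gP.eq (pS (hte c)) (pM hy) (by rw [hte1, hy1])]
      have SK : ∀ l : Fin n, (l : ℕ) < m + 1 → ΓS l ≤ Γ (m + 1) := fun l hl x hx =>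
        Subgroup.subset_closure (Or.inl ⟨l, hl, hx⟩)
      have MK : ∀ i : Fin n, (i : ℕ) + 1 < m + 1 → (i : ℕ) + 1 < n → ΓM i ≤ Γ (m + 1) := fun i hi hi' x hx =>
        Subgroup.subset_closure (Or.inr ⟨i, hi, hi', hx⟩)
      have JK : Γ m ≤ Γ (m + 1) := by
        refine (Subgroup.closure_le _).2 ?_
        rintro x (⟨l, hl, hx⟩ | ⟨i, hi, hi', hx⟩)
        exacts [SK l (by omega) hx, MK i (by omega) hi' hx]
      have tbM : ∀ (c : F), ∀ x ∈ Γ (m + 1), x.1 = tv (eV j) c → x ∈ ΓM j := by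
        intro c x hx e
        obtain ⟨y, hy, hy1⟩ := liftS j _ (tS j c)
        obtain ⟨y', hy', hy'1⟩ := liftM j hjn _ (tv_mem_upSub (i := j) (l := j) (Or.inl rfl) c)
        rwa [gK.eq hx (SK j (Nat.lt_succ_self _) hy) (by rw [e, hy1]),
          gQ.eq (qS hy) (qM hy') (by rw [hy1, hy'1])]
      have hjne : ∀ l : Fin n, (l : ℕ) < m + 1 → l ≠ k := fun l hl e => by subst e; simp [k] at hl
      have hcommS : ∀ y ∈ ΓS k, ∀ x ∈ Γ (m + 1), x * y = y * x := by
        intro y hy x hx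
        refine Subgroup.mem_centralizer_singleton_iff.1 ((Subgroup.closure_le (Subgroup.centralizer {y})).2 ?_ hx)
        rintro z (⟨l, hl, hz⟩ | ⟨i, hi, hi', hz⟩) <;>
          rw [SetLike.mem_coe, Subgroup.mem_centralizer_singleton_iff]
        · obtain ⟨Γ', g', a, b⟩ := pairSS l k (hjne l hl)
          exact g'.comm (a hz) (b hy)
            (supp_commute (fstS l z hz) (fstS k y hy) (fun q hq hq' => hjne l hl (hq.symm.trans hq')))
        · obtain ⟨Γ', g', a, b⟩ := pairMS i k hi'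
          refine g'.comm (a hz) (b hy)
            (supp_commute (upSub_le_supp i (fstM i hi' z hz)) (fstS k y hy) (fun q hq hq' => ?_))
          subst hq'
          simp only [k] at hq
          omega
      let C : Subgroup (↥(Matrix.symplecticGroup (Fin n) F) × H) :=
        Γ (m + 1) ⊓ Subgroup.centralizer (Set.range eb)
      have memC : ∀ x, x ∈ Γ (m + 1) → (∀ t, x * eb t = eb t * x) → x ∈ C := fun x hx h =>
        ⟨hx, Subgroup.mem_centralizer_iff.2 (by rintro _ ⟨t, rfl⟩; exact (h t).symm)⟩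
      have MC : ∀ i : Fin n, (i : ℕ) + 1 < m + 1 → (i : ℕ) + 1 < n → ΓM i ≤ C := fun i hi hi' x hx => by
        refine memC x (MK i hi hi' hx) fun t => ?_
        obtain ⟨Γ', g', a, b⟩ := pairMM i j (fun e => by subst e; simp [j] at hi) hi' hjn
        exact g'.comm (a hx) (b (heb t)) (upSub_commute (fstM i hi' x hx) (fstM j hjn _ (heb t)))
      have JC : Γ m ≤ C := by
        refine (Subgroup.closure_le _).2 ?_
        rintro x (⟨l, hl, hx⟩ | ⟨i, hi, hi', hx⟩)
        · refine memC x (SK l (by omega) hx) fun t => ?_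
          obtain ⟨Γ', g', a, b⟩ := pairMS j l hjn
          refine g'.comm (b hx) (a (heb t))
            (supp_commute (fstS l x hx) (upSub_le_supp j (fstM j hjn _ (heb t))) (fun q hq hq' => ?_))
          subst hq
          simp only [j] at hq'
          omega
        · exact MC i (by omega) hi' hx
      have bC : ∀ c : F, ∃ y ∈ C, y.1 = tv (eV j) c := fun c => by
        obtain ⟨x, hx, hx1⟩ := (fK _).1 (tv_mem_lev (m := m + 1) (eV_mem (k := j) (Nat.lt_succ_self m)) c)
        refine ⟨x, memC x hx fun t => ?_, hx1⟩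
        exact gQ.comm (qM (tbM c x hx hx1)) (qM (heb t))
          (upSub_commute (fstM j hjn _ (tbM c x hx hx1)) (fstM j hjn _ (heb t)))
      have pC : ∀ p ∈ headSub n F m, ∃ y ∈ C, y.1 = Eich (eV j) p := by
        intro p hp
        by_cases hp0 : p = 0
        · subst hp0; exact ⟨1, one_mem _, by rw [Eich_zero]; rfl⟩
        have hm0 : m ≠ 0 := fun e => hp0 (funext fun l => by
          subst e
          rcases l with l | l
          exacts [(hp l (Nat.zero_le _)).1, (hp l (Nat.zero_le _)).2])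
        let i : Fin n := ⟨m - 1, by omega⟩
        have hi : (i : ℕ) + 1 < n := by simp only [i]; omega
        have hij : (j : ℕ) = (i : ℕ) + 1 := by simp only [i, j]; omega
        obtain ⟨g, hg, hgp⟩ := exists_move_vec (m := m) (v := (eV i : Fin n ⊕ Fin n → F))
          (eV_mem (by simp only [i]; omega)) (Step.eV_ne_zero i) hp hp0
        obtain ⟨x, hx, hx1⟩ := (fJ g).1 hg
        obtain ⟨y, hy, hy1⟩ := liftM i hi _ (Eich_mem_upSub hij (1 : F))
        refine ⟨x * y * x⁻¹, mul_mem (mul_mem (JC hx) (MC i (by simp only [i]; omega) hi hy)) (inv_mem (JC hx)), ?_⟩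
        rw [Prod.fst_mul, Prod.fst_mul, Prod.fst_inv, hx1, hy1, Eich_conj, one_smul, hgp,
          (hg j (le_refl m)).1]
      let D : Step n F H :=
        { k := k
          j := j
          hjk := hjk
          ΓK := Γ (m + 1)
          ΓP := ΓP
          ΓQ := ΓQ
          hK := gK
          hP := gP
          hQ := gQ
          hKfst := fK
          Te := te
          Tf := tf
          Eb := eb
          hTe := hte1
          hTf := htf1
          hEb := heb1
          hTeP := fun c => pS (hte c)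
          hTfP := fun c => pS (htf c)
          hEbP := fun t => pM (heb t)
          hTeQ := fun c => qM (teM c)
          hEbQ := fun t => qM (heb t)
          hTbP := fun c x hx e => pM (tbM c x hx e)
          hTbQ := fun c x hx e => by
            rcases e with e | e
            · exact qM (tbM c x hx e)
            · obtain ⟨y, hy, hy1⟩ := liftS j _ (tS' j c)
              rw [gK.eq hx (SK j (Nat.lt_succ_self _) hy) (by rw [e, hy1])]
              exact qS hy
          hcomm := fun x hx c => ⟨hcommS _ (hte c) x hx, hcommS _ (htf c) x hx⟩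
          hstab := fun x hx he t => by
            have hxl : x.1 ∈ lev n F ((j : ℕ) + 1) := (fK x.1).2 ⟨x, hx, rfl⟩
            set v := ap x.1 (fV j) with hvdef
            have hv : v ∈ headSub n F ((j : ℕ) + 1) := lev_maps hxl (fV_mem (Nat.lt_succ_self _))
            have hbv : bo (eV j) v = 1 := by rw [hvdef]; conv_lhs => rw [← he, bo_ap, bo_eV_fV]
            set p := v - bo v (fV j) • eV j - bo (eV j) v • fV j with hpdef
            have hp : p ∈ headSub n F (j : ℕ) := headSub_split hv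
            obtain ⟨yp, hyp, hyp1⟩ := pC p hp
            obtain ⟨yb, hyb, hyb1⟩ := bC (bo v (fV j))
            set q := yp * yb
            have hq : q ∈ C := mul_mem hyp hyb
            obtain ⟨o1, o2⟩ := headSub_orth (le_refl (j : ℕ)) hp
            have qe : ap q.1 (eV j) = eV j := by
              rw [Prod.fst_mul, ap_mul, hyp1, hyb1, ap_tv_fix _ _ (bo_self _),
                ap_Eich_fix o1 (bo_self _) (by rw [bo_skew, o1, neg_zero])]
            have qf : ap q.1 (fV j) = v := by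
              have o2' : bo p (fV j) = 0 := by rw [bo_skew, o2, neg_zero]
              have o1' : bo p (eV j) = 0 := by rw [bo_skew, o1, neg_zero]
              rw [Prod.fst_mul, ap_mul, hyp1, hyb1, ap_tv, bo_eV_fV, mul_one, ap_Eich o1,
                bo_add_right, bo_add_right, bo_smul_right, bo_smul_right, bo_eV_fV, bo_self, o2', o1', hpdef,
                hbv]
              module
            have hql : q.1 ∈ lev n F ((j : ℕ) + 1) := (fK q.1).2 ⟨q, hq.1, rfl⟩
            obtain ⟨z, hz, hz1⟩ := (fJ (q.1⁻¹ * x.1)).1 (lev_pred (mul_mem (inv_mem hql) hxl)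
              (by rw [ap_mul, he, ap_inv_of _ qe]) (by rw [ap_mul, ← hvdef, ap_inv_of _ qf]))
            have hxq : x = q * z := gK.eq hx (mul_mem hq.1 (JK hz))
              (by rw [Prod.fst_mul, hz1, mul_inv_cancel_left])
            rw [hxq]
            exact (Subgroup.mem_centralizer_iff.1 (mul_mem hq (JC hz)).2 _ ⟨t, rfl⟩).symm
          hF := hF }
      have hnext : Γ (m + 1 + 1) = D.next := by
        refine le_antisymm ((Subgroup.closure_le _).2 ?_) ((Subgroup.closure_le _).2 ?_)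
        · rintro x (⟨l, hl, hx⟩ | ⟨i, hi, hi', hx⟩)
          · by_cases hlm : (l : ℕ) < m + 1
            · exact D.K_le_next (SK l hlm hx)
            obtain rfl : l = k := Fin.ext (by simp only [k]; omega)
            let Hs := (ΓS k ⊓ D.next).map (MonoidHom.fst _ _)
            have := supp_one_le Hs (fun c => ⟨te c, ⟨hte c, D.Te_next c⟩, hte1 c⟩)
              (fun c => ⟨tf c, ⟨htf c, D.Tf_next c⟩, htf1 c⟩) (fstS k x hx)
            obtain ⟨y, hy, hy1⟩ := this
            rw [(graphS k).eq hx hy.1 hy1.symm]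
            exact hy.2
          · by_cases him : (i : ℕ) + 1 < m + 1
            · exact D.K_le_next (MK i him hi' hx)
            obtain rfl : i = j := Fin.ext (by simp only [j]; omega)
            obtain ⟨a, c, t, e⟩ := upSub_decomp hjk (fstM j hi' x hx)
            obtain ⟨ya, hya, hya1⟩ := (fK _).1 (tv_mem_lev (m := m + 1) (eV_mem (k := j) (Nat.lt_succ_self m)) a)
            rw [gQ.eq (qM hx) (qM (mul_mem (mul_mem (tbM a ya hya hya1) (teM c)) (heb t)))
              (by rw [e, Prod.fst_mul, Prod.fst_mul, hya1, hte1, heb1])]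
            exact mul_mem (mul_mem (D.K_le_next hya) (D.Te_next c)) (D.Eb_next t)
        · rintro x (hx | ⟨c, rfl | rfl | rfl⟩)
          · refine (Subgroup.closure_le (Γ (m + 1 + 1))).2 ?_ hx
            rintro z (⟨l, hl, hz⟩ | ⟨i, hi, hi', hz⟩)
            · exact Subgroup.subset_closure (Or.inl ⟨l, by omega, hz⟩)
            · exact Subgroup.subset_closure (Or.inr ⟨i, by omega, hi', hz⟩)
          · exact Subgroup.subset_closure (Or.inl ⟨k, Nat.lt_succ_self _, hte c⟩)
          · exact Subgroup.subset_closure (Or.inl ⟨k, Nat.lt_succ_self _, htf c⟩)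
          · exact Subgroup.subset_closure (Or.inr ⟨j, Nat.lt_succ_self _, hjn, heb c⟩)
      rw [hnext]
      exact ⟨D.next_graph, fun g => D.next_fst g⟩
  obtain ⟨gN, fN⟩ := main n le_rfl
  have hall : ∀ g, ∃ x ∈ Γ n, x.1 = g := fun g => (fN g).1 (by rw [lev_top le_rfl]; trivial)
  choose s hs hs1 using hall
  let Φ : ↥(Matrix.symplecticGroup (Fin n) F) →* H := MonoidHom.mk' (fun g => (s g).2) fun a b => by
    rw [gN.eq (hs (a * b)) (mul_mem (hs a) (hs b)) (by rw [Prod.fst_mul, hs1, hs1, hs1])]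
    rfl
  refine ⟨Φ, ⟨fun j g hg => ?_, fun i hi g hg => ?_⟩, fun Φ' hΦ' => ?_⟩
  · have hx : ((g, σ j ⟨g, hg⟩) : _ × H) ∈ Γ n :=
      Subgroup.subset_closure (Or.inl ⟨j, j.isLt, ⟨⟨g, hg⟩, rfl⟩⟩)
    exact congrArg Prod.snd (gN.eq (hs g) hx (hs1 g))
  · have hx : ((g, μ i ⟨g, hg⟩) : _ × H) ∈ Γ n :=
      Subgroup.subset_closure (Or.inr ⟨i, hi, hi, ⟨⟨g, hg⟩, rfl⟩⟩)
    exact congrArg Prod.snd (gN.eq (hs g) hx (hs1 g))
  · refine MonoidHom.ext fun g => ?_
    have key : ∀ x ∈ Γ n, Φ' x.1 = x.2 := by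
      intro x hx
      induction hx using Subgroup.closure_induction with
      | mem y hy =>
        rcases hy with ⟨j, -, w, rfl⟩ | ⟨i, -, hi, w, rfl⟩
        · exact hΦ'.1 j w.1 w.2
        · exact hΦ'.2 i hi w.1 w.2
      | one => simp
      | mul a b _ _ ha hb => rw [Prod.fst_mul, Prod.snd_mul, map_mul, ha, hb]
      | inv a _ ha => rw [Prod.fst_inv, Prod.snd_inv, map_inv, ha]
    have := key _ (hs g)
    rwa [hs1] at this

end Cfsg.Agent.S3713
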