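import Cfsg.Statements.S3781
import Mathlib
-- import your own Cfsg.Agent.* helpers here

set_option autoImplicit false
open Cfsg

namespace Cfsg.Agent.S3781

open scoped commutatorElement

variable {G : Type*} [Group G]

theorem three_subgroup (L A B C : Subgroup G) [L.Normal] (h1 : ⁅⁅B, C⁆, A⁆ ≤ L) (h2 : ⁅⁅C, A⁆, B⁆ ≤ L) :
    ⁅⁅A, B⁆, C⁆ ≤ L := by
  rw [← QuotientGroup.ker_mk' L, ← Subgroup.map_eq_bot_iff, Subgroup.map_commutator, Subgroup.map_commutator] at *
  exact Subgroup.commutator_commutator_eq_bot_of_rotate h1 h2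

/-- The descending series of a normal subgroup under commutation with the whole group. -/
def desc (H : Subgroup G) : ℕ → Subgroup G
  | 0 => H
  | j + 1 => ⁅desc H j, (⊤ : Subgroup G)⁆

theorem desc_normal (H : Subgroup G) [H.Normal] : ∀ j, (desc H j).Normal
  | 0 => inferInstanceAs H.Normal
  | j + 1 => by
    haveI := desc_normal H j
    exact Subgroup.commutator_normal _ _

theorem desc_succ_le (H : Subgroup G) [H.Normal] (j : ℕ) : desc H (j + 1) ≤ desc H j := by
  haveI := desc_normal H j
  exact Subgroup.commutator_le_left _ _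

theorem commutator_lcs_le (H : Subgroup G) [H.Normal] : ∀ k m, ⁅desc H m, (⊤ : Subgroup G).lowerCentralSeries k⁆ ≤ desc H (m + k + 1) := by
  intro k
  induction k with
  | zero => intro m; exact le_rfl
  | succ k ih =>
    intro m
    haveI := desc_normal H (m + (k + 1) + 1)
    rw [Subgroup.commutator_comm, Subgroup.lowerCentralSeries_succ]
    refine three_subgroup _ _ _ _ ?_ ?_
    · rw [Subgroup.commutator_comm (⊤ : Subgroup G)]
      refine (ih (m + 1)).trans_eq ?_
      congr 1
      omega
    · exact (Subgroup.commutator_mono (ih m) le_rfl).trans_eq (by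
        show desc H (m + k + 1 + 1) = _
        congr 1)

theorem pow_le_relIndex [Finite G] {p : ℕ} [Fact p.Prime] (hG : IsPGroup p G) (H : Subgroup G) [H.Normal] :
    ∀ j, desc H j ≠ ⊥ → p ^ j ≤ (desc H j).relIndex H := by
  haveI := hG.isNilpotent
  intro j
  induction j with
  | zero => intro _; rw [pow_zero]; exact Nat.one_le_iff_ne_zero.2 Subgroup.index_ne_zero_of_finite
  | succ j ih =>
    intro hne
    have hj : desc H j ≠ ⊥ := fun h => hne (le_bot_iff.1 (h ▸ desc_succ_le H j))
    have hle : desc H j ≤ H := by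
      clear ih hne hj
      induction j with
      | zero => exact le_rfl
      | succ j ih => exact (desc_succ_le H j).trans ih
    have hlt : ¬ desc H j ≤ desc H (j + 1) := by
      intro h
      apply hj
      obtain ⟨c, hc⟩ := Subgroup.nilpotent_iff_lowerCentralSeries.1 (inferInstance : Group.IsNilpotent G)
      refine le_bot_iff.1 (hc ▸ ?_)
      clear hc
      induction c with
      | zero => exact le_top
      | succ c ihc => exact h.trans (Subgroup.commutator_mono ihc le_rfl)
    have hp : p ≤ (desc H (j + 1)).relIndex (desc H j) := by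
      obtain ⟨e, he⟩ := (hG.to_subgroup (desc H j)).index ((desc H (j + 1)).subgroupOf (desc H j))
      rw [Subgroup.relIndex, he]
      refine Nat.le_self_pow ?_ p
      rintro rfl
      rw [pow_zero, Subgroup.index_eq_one, Subgroup.subgroupOf_eq_top] at he
      exact hlt he
    rw [← Subgroup.relIndex_mul_relIndex _ _ _ (desc_succ_le H j) hle, pow_succ']
    exact Nat.mul_le_mul hp (ih hj)

end Cfsg.Agent.S3781

namespace Cfsg.Agent.S3781

/-- Let G be a finite p-group and n ≥ 1, and write γ_1(G) = G, γ_{k+1}(G) = [γ_k(G), G], and likewise γ_k(N) for a subgroup N. Let N be a normal subgroup of G contained in γ_n(G). If i > 1 and γ_{i+1}(N) ≠ 1, then |γ_i(N) : γ_{i+1}(N)| ≥ p^n. -/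
theorem result {G : Type*} [Group G] [Finite G] {p : ℕ} [Fact p.Prime] (hG : IsPGroup p G) (n : ℕ) (hn : 1 ≤ n) (N : Subgroup G) [N.Normal] (hN : N ≤ (⊤ : Subgroup G).lowerCentralSeries (n - 1)) (i : ℕ) (hi : 1 < i) (hne : N.lowerCentralSeries i ≠ ⊥) : p ^ n ≤ (N.lowerCentralSeries i).relIndex (N.lowerCentralSeries (i - 1)) := by
  obtain ⟨j, rfl⟩ : ∃ j, i = j + 1 := ⟨i - 1, by omega⟩
  rw [Nat.add_sub_cancel]
  have hnormal : ∀ k, (N.lowerCentralSeries k).Normal := by
    intro k
    induction k with
    | zero => exact ‹N.Normal›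
    | succ k ih => exact @Subgroup.commutator_normal G _ _ _ ih ‹N.Normal›
  haveI := hnormal j
  have h1 : N.lowerCentralSeries (j + 1) ≤ desc (N.lowerCentralSeries j) n := by
    refine (Subgroup.commutator_mono le_rfl hN).trans ?_
    refine (commutator_lcs_le (N.lowerCentralSeries j) (n - 1) 0).trans_eq ?_
    congr 1
    omega
  refine (pow_le_relIndex hG _ n (fun h => hne (le_bot_iff.1 (h ▸ h1)))).trans ?_
  exact Nat.le_of_dvd (Nat.pos_of_ne_zero Subgroup.index_ne_zero_of_finite) (Subgroup.relIndex_dvd_of_le_left _ h1)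

end Cfsg.Agent.S3781
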