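import Cfsg.Statements.S3802
import Cfsg.Agent.Subnormal.Basic

set_option autoImplicit false
open Cfsg

namespace Cfsg.Agent.S3802

/-- Let G be a finite group, M a maximal subgroup of G and N a subnormal subgroup of G contained in M. Then N is contained in every conjugate of M, that is, N lies in the core of M in G. -/
theorem result {G : Type*} [Group G] [Finite G] (M N : Subgroup G) (hM : IsCoatom M) (hN : N.IsSubnormal) (hNM : N ≤ M) :
    N ≤ Subgroup.normalCore M := by
  set T : Subgroup G := sSup {H | H.IsSubnormal ∧ H ≤ M} with hT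
  have hTs : T.IsSubnormal := CfsgLib.Subnormal.isSubnormal_sSup _ fun H hH => hH.1
  have hTM : T ≤ M := sSup_le fun H hH => hH.2
  refine le_trans (le_sSup (show N ∈ {H | H.IsSubnormal ∧ H ≤ M} from ⟨hN, hNM⟩)) ?_
  have hMN : M ≤ Subgroup.normalizer (T : Set G) := by
    intro m hm
    have hle : ∀ y ∈ M, T.map (MulAut.conj y).toMonoidHom ≤ T := by
      intro y hy
      refine le_sSup ⟨CfsgLib.Subnormal.isSubnormal_conj hTs y, ?_⟩
      rintro _ ⟨t, ht, rfl⟩
      exact mul_mem (mul_mem hy (hTM ht)) (inv_mem hy)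
    refine CfsgLib.Subnormal.conj_eq_self_iff.1 (le_antisymm (hle m hm) ?_)
    rw [CfsgLib.Subnormal.le_conj_iff]
    exact hle _ (inv_mem hm)
  rcases hM.le_iff.1 hMN with h | h
  · haveI := Subgroup.normalizer_eq_top_iff.1 h
    exact Subgroup.normal_le_normalCore.2 hTM
  · exfalso
    rcases Subgroup.IsSubnormal.iff_eq_top_or_exists.1 hTs with e | ⟨K, hlt, hK, hKn⟩
    · exact hM.1 (top_le_iff.1 (e ▸ hTM))
    · exact hlt.not_ge (le_sSup ⟨hK, ((Subgroup.normal_subgroupOf_iff_le_normalizer hlt.le).1 hKn).trans h.le⟩)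

end Cfsg.Agent.S3802
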