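import Cfsg.Statements.S3803
import Cfsg.Agent.Transfer.Blackburn
import Cfsg.Agent.CoprimeAction.Basic
import Cfsg.Agent.PGroup.Basic

set_option autoImplicit false
open Cfsg

namespace Cfsg.Agent.S3803

section
variable {X : Type*} [Group X] [Finite X] {A : Subgroup X} (hA : Odd (Nat.card A))
include hA

/-- An odd order group normalizing a cyclic 2-group centralizes it. -/
theorem centralizes_cyclic {x : X} (hx : IsPGroup 2 (Subgroup.zpowers x))
    (hn : A ≤ Subgroup.normalizer (Subgroup.zpowers x : Set X)) : x ∈ Subgroup.centralizer (A : Set X) := by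
  set K := Subgroup.zpowers x with hK
  let f : A →* MulAut K := K.normalizerMonoidHom.comp (Subgroup.inclusion hn)
  have : Fact (Nat.Prime 2) := ⟨Nat.prime_two⟩
  obtain ⟨i, hi⟩ := IsPGroup.iff_card.mp hx
  have haut : Nat.card (MulAut K) ∣ 2 ^ i := by
    rw [Nat.card_congr (IsCyclic.mulAutMulEquiv K).toEquiv, hi]
    have : NeZero (2 ^ i) := ⟨by positivity⟩
    rw [Nat.card_eq_fintype_card, ZMod.card_units_eq_totient]
    cases i with
    | zero => simp
    | succ j => rw [Nat.totient_prime_pow Nat.prime_two (Nat.succ_pos j)]; simp [pow_succ]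
  have h1 : Nat.card f.range = 1 := Nat.eq_one_of_dvd_coprimes
    ((Nat.coprime_two_right.mpr hA).pow_right i) (Subgroup.card_range_dvd f)
    ((Subgroup.card_subgroup_dvd_card _).trans haut)
  have hbot := Subgroup.eq_bot_of_card_eq _ h1
  rw [Subgroup.mem_centralizer_iff]
  intro a ha
  have : f ⟨a, ha⟩ = 1 := by
    rw [← Subgroup.mem_bot, ← hbot]; exact ⟨_, rfl⟩
  have e := congrArg (fun e : MulAut K => ((e ⟨x, Subgroup.mem_zpowers x⟩ : K) : X)) this
  simp [f, Subgroup.normalizerMonoidHom] at e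
  exact mul_inv_eq_iff_eq_mul.mp e

/-- An odd order group normalizing a 2-group and all its maximal subgroups centralizes it. -/
theorem centralizes_of_maximal {F : Subgroup X} (hF : IsPGroup 2 F) (hn : A ≤ Subgroup.normalizer (F : Set X))
    (hmax : ∀ M : Subgroup X, M ≤ F → 2 * Nat.card M = Nat.card F → A ≤ Subgroup.normalizer (M : Set X)) :
    A ≤ Subgroup.centralizer (F : Set X) := by
  have : Fact (Nat.Prime 2) := ⟨Nat.prime_two⟩
  obtain ⟨i, hi⟩ := IsPGroup.iff_card.mp (hF.to_subgroup (frattini F))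
  refine CfsgLib.CoprimeAction.le_centralizer_of_frattini (hi ▸ (Nat.coprime_two_right.mpr hA).pow_right i) ?_
  intro a ha k hk
  have hconj : a * k * a⁻¹ ∈ F := Subgroup.le_normalizer_iff.mp hn a ha k hk
  refine ⟨⟨a * k * a⁻¹, hconj⟩ * ⟨k, hk⟩⁻¹, ?_, rfl⟩
  rw [show frattini F = Order.radical (Subgroup F) from rfl, Order.radical]
  refine Subgroup.mem_iInf.mpr fun M => Subgroup.mem_iInf.mpr fun hM => ?_
  obtain ⟨-, hidx⟩ := CfsgLib.PGroup.index_coatom hF hM
  have hc : 2 * Nat.card (M.map F.subtype) = Nat.card F := by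
    rw [Subgroup.card_map_of_injective F.subtype_injective, ← hidx, mul_comm, Subgroup.card_mul_index]
  have hMn := hmax (M.map F.subtype) (Subgroup.map_subtype_le _) hc
  have key : (⟨a * k * a⁻¹, hconj⟩ : F) ∈ M ↔ (⟨k, hk⟩ : F) ∈ M := by
    have h2 := (Subgroup.mem_normalizer_iff.mp (hMn ha) k)
    have e : ∀ (y : X) (hy : y ∈ F), (⟨y, hy⟩ : F) ∈ M ↔ y ∈ M.map F.subtype := fun y hy =>
      ⟨fun h => ⟨_, h, rfl⟩, fun ⟨z, hz, hzy⟩ => by rwa [show (⟨y, hy⟩ : F) = z from Subtype.ext hzy.symm]⟩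
    rw [e, e]
    exact h2.symm
  rw [Subgroup.mul_mem_iff_of_index_two hidx, inv_mem_iff]
  exact key

omit hA in
/-- A subgroup with two maximal subgroups in it is their join. -/
theorem normalizes_of_two {F : Subgroup X} {x : X} (hxF : x ∈ F) (hF : IsPGroup 2 F) (hnc : ¬ IsCyclic F)
    (hmax : ∀ M : Subgroup X, M ≤ F → 2 * Nat.card M = Nat.card F → A ≤ Subgroup.normalizer (M : Set X)) :
    A ≤ Subgroup.normalizer (F : Set X) := by
  have : Fact (Nat.Prime 2) := ⟨Nat.prime_two⟩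
  rw [Subgroup.le_normalizer_iff]
  intro a ha g hg
  by_cases hgen : Subgroup.zpowers (⟨g, hg⟩ : F) = ⊤
  · exact absurd ⟨⟨⟨g, hg⟩, fun y => by rw [← Subgroup.mem_zpowers_iff, hgen]; trivial⟩⟩ hnc
  · obtain ⟨M, hM, hle⟩ := (eq_top_or_exists_le_coatom (Subgroup.zpowers (⟨g, hg⟩ : F))).resolve_left hgen
    obtain ⟨-, hidx⟩ := CfsgLib.PGroup.index_coatom hF hM
    have hc : 2 * Nat.card (M.map F.subtype) = Nat.card F := by
      rw [Subgroup.card_map_of_injective F.subtype_injective, ← hidx, mul_comm, Subgroup.card_mul_index]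
    exact Subgroup.map_subtype_le M (Subgroup.le_normalizer_iff.mp (hmax _ (Subgroup.map_subtype_le _) hc) a ha g
      ⟨⟨g, hg⟩, hle (Subgroup.mem_zpowers _), rfl⟩)

end

/-- Let P be a 2-subgroup and A a subgroup of odd order of a finite group, with A normalizing P. Let D ≤ P with 1 < |D| < |P|. If every subgroup of P of order |D|, and also every subgroup of P of order 4 in case |D| = 2, is normalized by A, then A centralizes P. -/
theorem result {X : Type*} [Group X] [Finite X] (P A D : Subgroup X) (hP : IsPGroup 2 P) (hA : Odd (Nat.card A))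
    (hAP : A ≤ Subgroup.normalizer (P : Set X)) (hDP : D ≤ P) (hD1 : 1 < Nat.card D) (hD2 : Nat.card D < Nat.card P)
    (hinv : ∀ E : Subgroup X, E ≤ P → (Nat.card E = Nat.card D ∨ (Nat.card D = 2 ∧ Nat.card E = 4)) → A ≤ Subgroup.normalizer (E : Set X)) :
    A ≤ Subgroup.centralizer (P : Set X) := by
  have : Fact (Nat.Prime 2) := ⟨Nat.prime_two⟩
  obtain ⟨d, hd⟩ := IsPGroup.iff_card.mp (hP.to_le hDP)
  obtain ⟨n, hn⟩ := IsPGroup.iff_card.mp hP
  have hdn : d < n := (Nat.pow_lt_pow_iff_right (by norm_num)).mp (hd ▸ hn ▸ hD2)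
  have hd0 : d ≠ 0 := by rintro rfl; rw [hd] at hD1; norm_num at hD1
  -- elements whose order divides `|D|`
  have key : ∀ x ∈ P, orderOf x ∣ 2 ^ d → x ∈ Subgroup.centralizer (A : Set X) := by
    intro x hx hxd
    obtain ⟨j, hj, hxj⟩ := (Nat.dvd_prime_pow Nat.prime_two).mp hxd
    have hxP : Subgroup.zpowers x ≤ P := Subgroup.zpowers_le.mpr hx
    obtain ⟨F', hF'c, hxF'⟩ := Sylow.exists_subgroup_card_pow_prime_le (G := P) 2
      (n := j) (m := d + 1) (by rw [hn]; exact pow_dvd_pow 2 hdn) ((Subgroup.zpowers x).subgroupOf P)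
      (by rw [Nat.card_congr (Subgroup.subgroupOfEquivOfLe hxP).toEquiv, Nat.card_zpowers, hxj]) (by omega)
    set F := F'.map P.subtype with hFdef
    have hFP : F ≤ P := Subgroup.map_subtype_le _
    have hFc : Nat.card F = 2 ^ (d + 1) := by
      rw [hFdef, Subgroup.card_map_of_injective P.subtype_injective, hF'c]
    have hxF : x ∈ F := ⟨⟨x, hx⟩, hxF' (Subgroup.mem_zpowers x), rfl⟩
    have hmax : ∀ M : Subgroup X, M ≤ F → 2 * Nat.card M = Nat.card F → A ≤ Subgroup.normalizer (M : Set X) :=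
      fun M hM hc => hinv M (hM.trans hFP) (Or.inl (by rw [hd]; rw [hFc, pow_succ] at hc; omega))
    by_cases hcyc : IsCyclic F
    · obtain ⟨y, hy⟩ := hcyc.exists_generator
      have hy2 : orderOf ((y : X) ^ 2) = 2 ^ d := by
        have : orderOf (y : X) = 2 ^ (d + 1) := by
          rw [Subgroup.orderOf_coe, ← hFc, orderOf_eq_card_of_forall_mem_zpowers hy]
        rw [orderOf_pow_of_dvd (by norm_num) (by rw [this]; exact dvd_pow_self 2 (Nat.succ_ne_zero d)), this,
          pow_succ, Nat.mul_div_cancel _ (by norm_num)]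
      have hy2P : Subgroup.zpowers ((y : X) ^ 2) ≤ P := Subgroup.zpowers_le.mpr (pow_mem (hFP y.2) 2)
      have hyc := centralizes_cyclic hA (hP.to_le hy2P) (hinv _ hy2P (Or.inl (by rw [Nat.card_zpowers, hy2, hd])))
      obtain ⟨k, hk⟩ := Subgroup.mem_zpowers_iff.mp (hy ⟨x, hxF⟩)
      have hk' : (y : X) ^ k = x := congrArg Subtype.val hk
      have hyo : orderOf (y : X) = 2 ^ (d + 1) := by
        rw [Subgroup.orderOf_coe, ← hFc, orderOf_eq_card_of_forall_mem_zpowers hy]
      have hone : (y : X) ^ (k * 2 ^ d) = 1 := by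
        rw [zpow_mul, hk', show (2 : ℤ) ^ d = ((2 ^ d : ℕ) : ℤ) by norm_num, zpow_natCast]
        exact orderOf_dvd_iff_pow_eq_one.mp hxd
      have hdvd := orderOf_dvd_iff_zpow_eq_one.mpr hone
      rw [hyo, Nat.cast_pow, Nat.cast_ofNat, pow_succ, mul_comm k] at hdvd
      obtain ⟨l, rfl⟩ := Int.dvd_of_mul_dvd_mul_left (by positivity) hdvd
      rw [← hk', zpow_mul, show (2 : ℤ) = ((2 : ℕ) : ℤ) from rfl, zpow_natCast]
      exact zpow_mem hyc l
    · have hFn := normalizes_of_two (A := A) hxF (hP.to_le hFP) hcyc hmax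
      exact Subgroup.le_centralizer_iff.mp (centralizes_of_maximal hA (hP.to_le hFP) hFn hmax) hxF
  refine CfsgLib.Transfer.le_centralizer_of_fixes_four hP (Nat.coprime_two_right.mpr hA) hAP fun x hx hx4 => ?_
  rcases Nat.lt_or_ge d 2 with h2 | h2
  · obtain rfl : d = 1 := by omega
    obtain ⟨j, hj, hxj⟩ := (Nat.dvd_prime_pow Nat.prime_two).mp
      (orderOf_dvd_iff_pow_eq_one.mpr (show x ^ 2 ^ 2 = 1 from hx4))
    rcases Nat.lt_or_ge j 2 with hj2 | hj2
    · exact key x hx (hxj ▸ pow_dvd_pow 2 (by omega))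
    · obtain rfl : j = 2 := by omega
      exact centralizes_cyclic hA (hP.to_le (Subgroup.zpowers_le.mpr hx))
        (hinv _ (Subgroup.zpowers_le.mpr hx) (Or.inr ⟨by rw [hd]; norm_num, by rw [Nat.card_zpowers, hxj]; norm_num⟩))
  · exact key x hx ((orderOf_dvd_iff_pow_eq_one.mpr hx4).trans (pow_dvd_pow 2 h2))

end Cfsg.Agent.S3803
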