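import Cfsg.Statements.S3815

set_option autoImplicit false
open Cfsg

namespace Cfsg.Agent.S3815

/-- Let G be a finite group, p a prime and d ∈ G an element of order prime to p. If dg has order prime to p for every element g ∈ G of order prime to p, then d ∈ O_{p'}(G). -/
theorem result {G : Type*} [Group G] [Finite G] {p : ℕ} [Fact p.Prime]
    (d : G) (hd : (orderOf d).Coprime p)
    (h : ∀ g : G, (orderOf g).Coprime p → (orderOf (d * g)).Coprime p) :
    d ∈ Cfsg.pPrimeCore p G := by
  classical
  have hpow : ∀ (x : G), (∀ g : G, (orderOf g).Coprime p → (orderOf (x * g)).Coprime p) →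
      ∀ n : ℕ, ∀ g : G, (orderOf g).Coprime p → (orderOf (x ^ n * g)).Coprime p := by
    intro x hx n
    induction n with
    | zero => simp
    | succ n ih =>
      intro g hg
      rw [pow_succ, mul_assoc]
      exact ih _ (hx g hg)
  let D : Subgroup G :=
    { carrier := {x | ∀ g : G, (orderOf g).Coprime p → (orderOf (x * g)).Coprime p}
      mul_mem' := fun {x y} hx hy g hg => by rw [mul_assoc]; exact hx _ (hy g hg)
      one_mem' := fun g hg => by simpa using hg
      inv_mem' := fun {x} hx g hg => by
        have hx' : x⁻¹ = x ^ (orderOf x - 1) := by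
          rw [inv_eq_iff_mul_eq_one, ← pow_succ', Nat.sub_add_cancel (orderOf_pos x), pow_orderOf_eq_one]
        rw [hx']
        exact hpow x hx _ g hg }
  haveI hDn : D.Normal := ⟨fun x hx y g hg => by
    have h1 : (orderOf (y⁻¹ * g * y)).Coprime p := by
      have := MulEquiv.orderOf_eq (MulAut.conj y⁻¹) g
      simp only [MulAut.conj_apply, inv_inv] at this
      rwa [this]
    have h2 := hx _ h1
    have := MulEquiv.orderOf_eq (MulAut.conj y) (x * (y⁻¹ * g * y))
    simp only [MulAut.conj_apply] at this
    rw [← this] at h2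
    simpa [mul_assoc] using h2⟩
  have hDe : ∀ x ∈ D, (orderOf x).Coprime p := fun x hx => by
    have := hx 1 (by simp)
    simpa using this
  have hc : (Nat.card D).Coprime p := by
    rw [Nat.coprime_comm, (Fact.out : p.Prime).coprime_iff_not_dvd]
    intro hdvd
    obtain ⟨x, hx⟩ := exists_prime_orderOf_dvd_card' p hdvd
    have := hDe x.1 x.2
    rw [Subgroup.orderOf_coe, hx, Nat.coprime_self] at this
    exact (Fact.out : p.Prime).ne_one this
  exact (le_sSup (show D ∈ {N : Subgroup G | N.Normal ∧ (Nat.card N).Coprime p} from ⟨hDn, hc⟩)) h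

end Cfsg.Agent.S3815
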