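import Cfsg.Statements.S3816
import Cfsg.Agent.CommFixed.Main
import Cfsg.Agent.CoprimeAction.Action
-- import your own Cfsg.Agent.* helpers here

set_option autoImplicit false
open Cfsg
open scoped commutatorElement

namespace Cfsg.Agent.S3816

/-- Let p be an odd prime, H a finite solvable group of order prime to p, and x an automorphism of H of order p (so P = ⟨x⟩ has prime order p > 2 and acts coprimely on H). For h ∈ H let [h, P] be the subgroup generated by the commutators h⁻¹·xⁱ(h), and let [H, P] be the subgroup generated by all of these. Then the fixed points of x in [H, P] are generated by the fixed points of x in the subgroups [h, P], h ∈ H. -/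
theorem result {H : Type*} [Group H] [Finite H]
    [Group.IsSolvable H] {p : ℕ} [Fact p.Prime] (hp : p ≠ 2) (hcop : (Nat.card H).Coprime p)
    (x : MulAut H) (hx : orderOf x = p) :
    Subgroup.closure {c : H | ∃ h : H, ∃ i : ℕ, c = h⁻¹ * (x ^ i) h} ⊓ (x : H →* H).eqLocus (MonoidHom.id H) =
      ⨆ h : H, Subgroup.closure {c : H | ∃ i : ℕ, c = h⁻¹ * (x ^ i) h} ⊓ (x : H →* H).eqLocus (MonoidHom.id H) := by
  classical
  refine le_antisymm ?_ (iSup_le fun h => inf_le_inf ((Subgroup.closure_le _).2 ?_) le_rfl)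
  swap
  · rintro c ⟨i, hc⟩
    exact Subgroup.subset_closure ⟨h, i, hc⟩
  set φ : ↥(Subgroup.zpowers x) →* MulAut H := (Subgroup.zpowers x).subtype with hφ
  set A : Subgroup (H ⋊[φ] ↥(Subgroup.zpowers x)) := CfsgLib.CoprimeAction.actA φ with hA
  set Hs : Subgroup (H ⋊[φ] ↥(Subgroup.zpowers x)) := CfsgLib.CoprimeAction.actK φ ⊤ with hHs
  have hA' : Nat.card A = p := by
    rw [hA, CfsgLib.CoprimeAction.card_actA, Nat.card_zpowers, hx]
  have hH' : Nat.card Hs = Nat.card H := by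
    rw [hHs, CfsgLib.CoprimeAction.card_actK, Subgroup.card_top]
  have hsol : Group.IsSolvable Hs := by
    haveI := CfsgLib.CoprimeAction.solvable_top (G := H) inferInstance
    exact Group.isSolvable_of_surjective
      (MonoidHom.subgroupMap_surjective (SemidirectProduct.inl : H →* H ⋊[φ] ↥(Subgroup.zpowers x)) ⊤)
  have hmain := CfsgLib.CommFixed.fixed_le_fixJoin (Nat.card Hs) _ p A Hs le_rfl Fact.out hp hA'
    (CfsgLib.CoprimeAction.actA_le_normalizer φ fun _ _ _ => trivial) (by rw [hA', hH']; exact hcop.symm) hsol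
  have hcomm : ∀ (h : H) (a : ↥(Subgroup.zpowers x)),
      ⁅(SemidirectProduct.inl h : H ⋊[φ] ↥(Subgroup.zpowers x))⁻¹, (SemidirectProduct.inr a : H ⋊[φ] ↥(Subgroup.zpowers x))⁆ =
        SemidirectProduct.inl (h⁻¹ * (a : MulAut H) h) := by
    intro h a
    rw [commutatorElement_def, inv_inv, map_mul, map_inv]
    show _ = (SemidirectProduct.inl h)⁻¹ * SemidirectProduct.inl (φ a h)
    rw [← CfsgLib.CoprimeAction.inr_mul_inl]
    group
  have hfix : ∀ c : H, c ∈ (x : H →* H).eqLocus (MonoidHom.id H) ↔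
      (SemidirectProduct.inl c : H ⋊[φ] ↥(Subgroup.zpowers x)) ∈ Subgroup.centralizer (A : Set _) := by
    intro c
    rw [hA, CfsgLib.CoprimeAction.mem_centralizer_actA_iff]
    constructor
    · intro hc a
      have hc' : x c = c := hc
      obtain ⟨n, hn⟩ := Submonoid.mem_powers_iff _ _ |>.1
        ((isOfFinOrder_of_finite x).mem_powers_iff_mem_zpowers.2 a.2)
      show (a : MulAut H) c = c
      rw [← hn]
      clear hn
      induction n with
      | zero => rfl
      | succ n ih => rw [pow_succ]; show (x ^ n) (x c) = c; rw [hc']; exact ih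
    · intro hc
      exact hc ⟨x, Subgroup.mem_zpowers x⟩
  rintro c ⟨hc, hcx⟩
  have hle : Subgroup.closure {c : H | ∃ h : H, ∃ i : ℕ, c = h⁻¹ * (x ^ i) h} ≤
      (⁅Hs, A⁆ : Subgroup _).comap (SemidirectProduct.inl : H →* H ⋊[φ] ↥(Subgroup.zpowers x)) := by
    rw [Subgroup.closure_le]
    rintro _ ⟨h, i, rfl⟩
    have h1 := hcomm h ⟨x ^ i, pow_mem (Subgroup.mem_zpowers x) i⟩
    show SemidirectProduct.inl (h⁻¹ * (x ^ i) h) ∈ ⁅Hs, A⁆
    rw [show ((⟨x ^ i, pow_mem (Subgroup.mem_zpowers x) i⟩ : ↥(Subgroup.zpowers x)) : MulAut H) = x ^ i from rfl] at h1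
    rw [← h1]
    exact Subgroup.commutator_mem_commutator (inv_mem ⟨h, trivial, rfl⟩) ⟨_, rfl⟩
  have h2 := hmain ⟨hle hc, (hfix c).1 hcx⟩
  have h3 : CfsgLib.CommFixed.fixJoin A Hs ≤
      (⨆ h : H, Subgroup.closure {c : H | ∃ i : ℕ, c = h⁻¹ * (x ^ i) h} ⊓
        (x : H →* H).eqLocus (MonoidHom.id H)).map SemidirectProduct.inl := by
    refine iSup_le ?_
    rintro ⟨_, h, _, rfl⟩ z hzz
    have hz : z ∈ CfsgLib.CommFixed.commOf A (SemidirectProduct.inl h) := (Subgroup.mem_inf.1 hzz).1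
    have hzA : z ∈ Subgroup.centralizer (A : Set _) := (Subgroup.mem_inf.1 hzz).2
    have hle2 : CfsgLib.CommFixed.commOf A (SemidirectProduct.inl h) ≤
        (Subgroup.closure {c : H | ∃ i : ℕ, c = h⁻¹ * (x ^ i) h}).map SemidirectProduct.inl := by
      refine (Subgroup.closure_le _).2 ?_
      rintro _ ⟨_, ⟨a, rfl⟩, rfl⟩
      rw [hcomm]
      obtain ⟨n, hn⟩ := Submonoid.mem_powers_iff _ _ |>.1
        ((isOfFinOrder_of_finite x).mem_powers_iff_mem_zpowers.2 a.2)
      exact ⟨_, Subgroup.subset_closure ⟨n, by rw [hn]⟩, rfl⟩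
    obtain ⟨d, hd, hde⟩ := Subgroup.mem_map.1 (hle2 hz)
    subst hde
    exact ⟨d, Subgroup.mem_iSup_of_mem h ⟨hd, (hfix d).2 hzA⟩, rfl⟩
  obtain ⟨d, hd, e⟩ := h3 h2
  exact SemidirectProduct.inl_injective e ▸ hd

end Cfsg.Agent.S3816
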