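import Cfsg.Statements.S3818
import Cfsg.Agent.FixedHalf.Main

set_option autoImplicit false
open Cfsg

namespace Cfsg.Agent.S3818

open CfsgLib.FixedHalf in
theorem fixed_half {G : Type*} [Group G] [Finite G] [Group.IsSolvable G] {k : Type*} [Field k] {ℓ : ℕ}
    [Fact ℓ.Prime] [CharP k ℓ] {V : Type*} [AddCommGroup V] [Module k V] [FiniteDimensional k V]
    (ρ : G →* Module.End k V) (hfaith : Function.Injective ρ)
    (hirr : ∀ W : Submodule k V, (∀ h : G, ∀ w ∈ W, ρ h w ∈ W) → W = ⊥ ∨ W = ⊤)
    {p : ℕ} [Fact p.Prime] (hp5 : 5 ≤ p) {g : G} (hg : g ^ p = 1) (hg1 : g ≠ 1)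
    (hgen : ∀ H : Subgroup G, H.Normal → g ∈ H → H = ⊤) :
    2 * Module.finrank k (LinearMap.ker (ρ g - 1)) < Module.finrank k V := by
  classical
  haveI : Nontrivial V := by
    by_contra h
    rw [not_nontrivial_iff_subsingleton] at h
    exact hg1 (hfaith (LinearMap.ext fun v => Subsingleton.elim _ _))
  haveI : CharP (Module.End k V) ℓ := charP_of_injective_algebraMap (algebraMap k (Module.End k V)).injective ℓ
  haveI := Fintype.ofFinite G
  let K := AlgebraicClosure k
  haveI : CharP K ℓ := charP_of_injective_algebraMap (algebraMap k K).injective ℓ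
  let L := Module.End.baseChangeHom k K V
  let ρK : G →* Module.End K (TensorProduct k K V) := (L : Module.End k V →* _).comp ρ
  have hzs : HasZeroSums ρK := by
    intro N hN hne
    obtain ⟨M, ⟨hM, hMN, hMne⟩, hmin⟩ := (Set.toFinite {M : Subgroup G | M.Normal ∧ M ≤ N ∧ M ≠ ⊥}).exists_minimal
      ⟨N, hN, le_rfl, hne⟩
    haveI := hM
    have hmin' : ∀ A : Subgroup G, A.Normal → A ≤ M → A ≠ ⊥ → M ≤ A := fun A h1 h2 h3 =>
      hmin ⟨h1, h2.trans hMN, h3⟩ h2
    have hMM : ⁅M, M⁆ = ⊥ := by
      by_contra h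
      exact (Group.IsSolvable.commutator_lt_of_ne_bot hMne).not_ge (hmin' _ inferInstance (Subgroup.commutator_le_self M) h)
    have hcomm : ∀ a ∈ M, ∀ b ∈ M, Commute a b := fun a ha b hb =>
      commutatorElement_eq_one_iff_commute.1 (Subgroup.mem_bot.1 (hMM ▸ Subgroup.commutator_mem_commutator ha hb))
    have hfixM : ∀ v : V, (∀ m ∈ M, ρ m v = v) → v = 0 := by
      intro v hv
      let F : Submodule k V := ⨅ m : M, LinearMap.ker (ρ m - 1)
      have hF : ∀ w, w ∈ F ↔ ∀ m : M, ρ m w = w := fun w => by simp [F, sub_eq_zero]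
      rcases hirr F (fun h w hw => by
        rw [hF] at hw ⊢
        intro m
        have h1 := hw ⟨_, hM.conj_mem _ m.2 h⁻¹⟩
        rw [show ρ (m : G) (ρ h w) = (ρ m * ρ h) w from rfl, ← map_mul,
          show (m : G) * h = h * (h⁻¹ * m * h⁻¹⁻¹) by group, map_mul]
        show ρ h (ρ (h⁻¹ * m * h⁻¹⁻¹) w) = ρ h w
        rw [h1]) with h | h
      · rw [← Submodule.mem_bot k, ← h, hF]
        exact fun m => hv m m.2
      · exfalso
        apply hMne
        rw [Subgroup.eq_bot_iff_forall]
        intro m hm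
        apply hfaith
        rw [map_one]
        exact LinearMap.ext fun w => (hF w).1 (by rw [h]; trivial) ⟨m, hm⟩
    have hcop : ∀ m ∈ M, m ^ ℓ = 1 → m = 1 := by
      intro m hm hml
      let P : Subgroup G :=
        { carrier := {a | a ∈ M ∧ a ^ ℓ = 1}
          one_mem' := ⟨M.one_mem, one_pow _⟩
          mul_mem' := fun {a b} ha hb => ⟨M.mul_mem ha.1 hb.1, by rw [(hcomm a ha.1 b hb.1).mul_pow, ha.2, hb.2, one_mul]⟩
          inv_mem' := fun {a} ha => ⟨M.inv_mem ha.1, by rw [inv_pow, ha.2, inv_one]⟩ }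
      have hP : P.Normal := ⟨fun a ha b => ⟨hM.conj_mem a ha.1 b, by rw [conj_pow, ha.2, mul_one, mul_inv_cancel]⟩⟩
      by_contra hm1
      have hMP : M ≤ P := hmin' P hP (fun a ha => ha.1)
        (fun h => hm1 (Subgroup.mem_bot.1 (h ▸ (⟨hm, hml⟩ : m ∈ P))))
      obtain ⟨v, hv, hfix⟩ := exists_common_fixed (fun a : M => ρ a) (fun a b => (hcomm a a.2 b b.2).map ρ) ℓ
        (fun a => by
          rw [sub_pow_char_of_commute (p := ℓ) (Commute.one_right _), ← map_pow, (hMP a.2).2, map_one, one_pow,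
            sub_self])
      exact hv (hfixM v fun a ha => hfix ⟨a, ha⟩)
    refine ⟨Finset.univ.filter (· ∈ M), fun m hm => hMN (Finset.mem_filter.1 hm).2, ?_, ?_⟩
    · intro h0
      rw [CharP.cast_eq_zero_iff K ℓ, ← Fintype.card_subtype, ← Nat.card_eq_fintype_card] at h0
      obtain ⟨y, hy⟩ := exists_prime_orderOf_dvd_card' (G := M) ℓ h0
      have h1 : (y : G) = 1 := hcop y y.2 (by rw [← Subgroup.coe_pow, ← hy, pow_orderOf_eq_one, Subgroup.coe_one])
      rw [show y = 1 from Subtype.ext h1, orderOf_one] at hy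
      exact (Fact.out : ℓ.Prime).one_lt.ne hy
    · have h0 : ∑ m ∈ Finset.univ.filter (· ∈ M), ρ m = 0 := LinearMap.ext fun v => hfixM _ fun a ha => by
        rw [← Module.End.mul_apply, Finset.mul_sum]
        congr 1
        refine Finset.sum_equiv (Equiv.mulLeft a) (fun i => ?_) (fun i _ => (map_mul ρ a i).symm)
        simp only [Finset.mem_filter, Finset.mem_univ, true_and, Equiv.coe_mulLeft]
        exact ⟨fun hi => M.mul_mem ha hi, fun hi => by simpa using M.mul_mem (M.inv_mem ha) hi⟩
      show ∑ m ∈ Finset.univ.filter (· ∈ M), L (ρ m) = 0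
      rw [← map_sum, h0, map_zero]
  have hbase := fixed_half_aux (ℓ := ℓ) hp5 hg hg1 hgen _ ρK hzs rfl
    (by rw [Module.finrank_baseChange]; exact Module.finrank_pos)
  rw [Module.finrank_baseChange] at hbase
  refine lt_of_le_of_lt (Nat.mul_le_mul_left 2 ?_) hbase
  set F := LinearMap.ker (ρ g - 1)
  have hinjF : Function.Injective (F.subtype.baseChange K) := by
    rw [LinearMap.baseChange_eq_ltensor]
    exact Module.Flat.lTensor_preserves_injective_linearMap _ F.injective_subtype
  rw [← Module.finrank_baseChange (R := K) (S := k) (M' := F), ← LinearMap.finrank_range_of_inj hinjF]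
  apply Submodule.finrank_mono
  rw [LinearMap.range_le_ker_iff]
  refine TensorProduct.AlgebraTensorModule.ext fun c w => ?_
  show c ⊗ₜ[k] (ρ g (w : V)) - c ⊗ₜ[k] (w : V) = 0
  rw [sub_eq_zero.1 (show ρ g (w : V) - (w : V) = 0 from w.2), sub_self]

/-- Let G be a finite solvable group and P a subgroup of G of prime order p > 3 whose conjugates generate G. Let V be a faithful irreducible representation of G over a field of positive characteristic, finite-dimensional. Then the subspace of V fixed by P has dimension less than half the dimension of V. -/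
theorem result {G : Type*} [Group G] [Finite G] [Group.IsSolvable G]
    {p : ℕ} [Fact p.Prime] (hp : 3 < p) (P : Subgroup G) (hP : Nat.card P = p) (hgen : Subgroup.normalClosure (P : Set G) = ⊤)
    {k : Type*} [Field k] (ℓ : ℕ) [Fact ℓ.Prime] [CharP k ℓ]
    {V : Type*} [AddCommGroup V] [Module k V] [FiniteDimensional k V]
    (ρ : Representation k G V) [ρ.IsIrreducible] (hfaith : Function.Injective ρ) :
    2 * Module.finrank k ↥(⨅ g : ↥P, LinearMap.ker (ρ (g : G) - LinearMap.id)) < Module.finrank k V := by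
  have hpp : p.Prime := Fact.out
  have hp5 : 5 ≤ p := by
    by_contra hh
    have h4 : p = 4 := by omega
    rw [h4] at hpp
    norm_num at hpp
  have hPne : P ≠ ⊥ := fun h => by
    rw [h, Subgroup.card_bot] at hP
    exact hpp.one_lt.ne hP
  obtain ⟨g, hgP, hg1⟩ : ∃ g ∈ P, g ≠ 1 := by
    by_contra hh
    push_neg at hh
    exact hPne ((Subgroup.eq_bot_iff_forall P).2 hh)
  have hg : g ^ p = 1 := by
    have h := pow_card_eq_one' (x := (⟨g, hgP⟩ : P))
    rw [hP] at h
    exact congrArg Subtype.val h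
  have hgen' : ∀ H : Subgroup G, H.Normal → g ∈ H → H = ⊤ := by
    intro H hH hgH
    rw [eq_top_iff, ← hgen]
    haveI := hH
    apply Subgroup.normalClosure_le_normal
    have hz : Subgroup.zpowers g = P := by
      refine Subgroup.eq_of_le_of_card_ge (Subgroup.zpowers_le.2 hgP) ?_
      rw [Nat.card_zpowers, hP, orderOf_eq_prime hg hg1]
    rw [← hz]
    exact Subgroup.zpowers_le.2 hgH
  refine lt_of_le_of_lt (Nat.mul_le_mul_left 2 (Submodule.finrank_mono (iInf_le _ (⟨g, hgP⟩ : P)))) ?_
  refine fixed_half (ℓ := ℓ) ρ hfaith (fun W hW => ?_) hp5 hg hg1 hgen'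
  rcases IsSimpleOrder.eq_bot_or_eq_top (⟨W, fun h w hw => hW h w hw⟩ : Subrepresentation ρ) with h | h
  · exact Or.inl (congrArg Subrepresentation.toSubmodule h)
  · exact Or.inr (congrArg Subrepresentation.toSubmodule h)

end Cfsg.Agent.S3818
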