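import Cfsg.Statements.S3820
import Mathlib

set_option autoImplicit false
open Cfsg

namespace Cfsg.Agent.S3820

/-- Call a subgroup H of G pronormal if H and gHg⁻¹ are conjugate inside ⟨H, gHg⁻¹⟩ for every g ∈ G. Let S ≤ H ≤ G be subgroups of a finite group with S pronormal in G (for instance S a Sylow subgroup). Then H is pronormal in G if and only if H and gHg⁻¹ are conjugate inside ⟨H, gHg⁻¹⟩ for every g ∈ N_G(S). In particular H is pronormal whenever N_G(S) ≤ H. -/
theorem result {G : Type*} [Group G] [Finite G] (S H : Subgroup G) (hSH : S ≤ H)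
    (hS : Cfsg.IsPronormal S) :
    Cfsg.IsPronormal H ↔
      ∀ g ∈ Subgroup.normalizer (S : Set G), ∃ w ∈ H ⊔ H.map (MulAut.conj g).toMonoidHom,
        H.map (MulAut.conj g).toMonoidHom = H.map (MulAut.conj w).toMonoidHom := by
  constructor
  · intro hH g _
    exact hH g
  · intro h g
    obtain ⟨y, hy, hye⟩ := hS g
    set J := H ⊔ H.map (MulAut.conj g).toMonoidHom with hJ
    have hSJ : S ⊔ S.map (MulAut.conj g).toMonoidHom ≤ J := sup_le_sup hSH (Subgroup.map_mono hSH)
    have comp : ∀ a b : G, (H.map (MulAut.conj b).toMonoidHom).map (MulAut.conj a).toMonoidHom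
        = H.map (MulAut.conj (a * b)).toMonoidHom := by
      intro a b
      rw [Subgroup.map_map]
      congr 1
      ext; simp [mul_assoc]
    have hn : y⁻¹ * g ∈ Subgroup.normalizer (S : Set G) := by
      rw [Subgroup.mem_normalizer_iff_map_conj_eq]
      have e := congrArg (Subgroup.map (MulAut.conj y⁻¹).toMonoidHom) hye
      rw [Subgroup.map_map, Subgroup.map_map] at e
      have e1 : (MulAut.conj y⁻¹).toMonoidHom.comp (MulAut.conj g).toMonoidHom = (MulAut.conj (y⁻¹ * g)).toMonoidHom := by
        ext; simp [mul_assoc]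
      have e2 : (MulAut.conj y⁻¹).toMonoidHom.comp (MulAut.conj y).toMonoidHom = MonoidHom.id G := by
        ext; simp [mul_assoc]
      rw [e1, e2, Subgroup.map_id] at e
      exact e
    obtain ⟨w, hw, hwe⟩ := h _ hn
    have hle : H ⊔ H.map (MulAut.conj (y⁻¹ * g)).toMonoidHom ≤ J := by
      refine sup_le le_sup_left ?_
      rintro _ ⟨k, hk, rfl⟩
      have h1 : g * k * g⁻¹ ∈ J := Subgroup.mem_sup_right ⟨k, hk, rfl⟩
      have : y⁻¹ * (g * k * g⁻¹) * y ∈ J := mul_mem (mul_mem (inv_mem (hSJ hy)) h1) (hSJ hy)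
      simpa [mul_assoc] using this
    refine ⟨y * w, mul_mem (hSJ hy) (hle hw), ?_⟩
    rw [← comp, ← hwe, comp, mul_inv_cancel_left]

end Cfsg.Agent.S3820
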