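import Cfsg.Statements.S3821

set_option autoImplicit false
open Cfsg

namespace Cfsg.Agent.S3821

/-- Let A be a normal subgroup of the finite group G and H a subgroup of A. Then H is pronormal in G (H and gHg⁻¹ conjugate inside ⟨H, gHg⁻¹⟩ for every g ∈ G) if and only if H is pronormal in A and G = A · N_G(H). -/
theorem result {G : Type*} [Group G] [Finite G] (A H : Subgroup G) [A.Normal] (hHA : H ≤ A) :
    Cfsg.IsPronormal H ↔ (Cfsg.IsPronormal (H.subgroupOf A) ∧ A ⊔ Subgroup.normalizer (H : Set G) = ⊤) := by
  classical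
  constructor
  · intro hH
    refine ⟨?_, ?_⟩
    · intro g
      obtain ⟨x, hx, hxe⟩ := hH g
      have hsub : (H ⊔ H.map (MulAut.conj (g : G)).toMonoidHom) ≤ A := by
        refine sup_le hHA ?_
        rintro _ ⟨h, hh, rfl⟩
        exact mul_mem (mul_mem g.2 (hHA hh)) (inv_mem g.2)
      have hmap : ∀ a : A, ((H.subgroupOf A).map (MulAut.conj a).toMonoidHom).map A.subtype
          = H.map (MulAut.conj (a : G)).toMonoidHom := by
        intro a
        rw [Subgroup.map_map]
        have : A.subtype.comp (MulAut.conj a).toMonoidHom = (MulAut.conj (a : G)).toMonoidHom.comp A.subtype := by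
          ext; simp
        rw [this, ← Subgroup.map_map, Subgroup.map_subgroupOf_eq_of_le hHA]
      refine ⟨⟨x, hsub hx⟩, ?_, ?_⟩
      · rw [← Subgroup.mem_map_iff_mem (f := A.subtype) Subtype.val_injective, Subgroup.map_sup, hmap,
          Subgroup.map_subgroupOf_eq_of_le hHA]
        exact hx
      · apply Subgroup.map_injective (f := A.subtype) Subtype.val_injective
        rw [hmap, hmap]
        exact hxe
    · rw [eq_top_iff]
      intro g _
      obtain ⟨x, hx, hxe⟩ := hH g
      have hxA : x ∈ A := by
        refine (sup_le hHA ?_ : H ⊔ H.map (MulAut.conj g).toMonoidHom ≤ A) hx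
        rintro _ ⟨h, hh, rfl⟩
        exact Subgroup.Normal.conj_mem inferInstance h (hHA hh) g
      have hn : x⁻¹ * g ∈ Subgroup.normalizer (H : Set G) := by
        rw [Subgroup.mem_normalizer_iff_map_conj_eq]
        have := congrArg (Subgroup.map (MulAut.conj x⁻¹).toMonoidHom) hxe
        rw [Subgroup.map_map, Subgroup.map_map] at this
        have e1 : (MulAut.conj x⁻¹).toMonoidHom.comp (MulAut.conj g).toMonoidHom = (MulAut.conj (x⁻¹ * g)).toMonoidHom := by
          ext; simp [mul_assoc]
        have e2 : (MulAut.conj x⁻¹).toMonoidHom.comp (MulAut.conj x).toMonoidHom = MonoidHom.id G := by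
          ext; simp [mul_assoc]
        rw [e1, e2, Subgroup.map_id] at this
        exact this
      have : g = x * (x⁻¹ * g) := by group
      rw [this]
      exact Subgroup.mul_mem_sup hxA hn
  · rintro ⟨hA, htop⟩ g
    have hg : g ∈ A ⊔ Subgroup.normalizer (H : Set G) := by rw [htop]; trivial
    obtain ⟨a, ha, n, hn, rfl⟩ := Subgroup.mem_sup_of_normal_left.1 hg
    have e : H.map (MulAut.conj (a * n)).toMonoidHom = H.map (MulAut.conj a).toMonoidHom := by
      have e1 : (MulAut.conj (a * n)).toMonoidHom = (MulAut.conj a).toMonoidHom.comp (MulAut.conj n).toMonoidHom := by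
        ext; simp [mul_assoc]
      rw [e1, ← Subgroup.map_map]
      congr 1
      exact Subgroup.mem_normalizer_iff_map_conj_eq.1 hn
    rw [e]
    obtain ⟨x, hx, hxe⟩ := hA ⟨a, ha⟩
    have hmap : ∀ a : A, ((H.subgroupOf A).map (MulAut.conj a).toMonoidHom).map A.subtype
        = H.map (MulAut.conj (a : G)).toMonoidHom := by
      intro a
      rw [Subgroup.map_map]
      have : A.subtype.comp (MulAut.conj a).toMonoidHom = (MulAut.conj (a : G)).toMonoidHom.comp A.subtype := by
        ext; simp
      rw [this, ← Subgroup.map_map, Subgroup.map_subgroupOf_eq_of_le hHA]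
    refine ⟨x, ?_, ?_⟩
    · have := Subgroup.mem_map_of_mem A.subtype hx
      rwa [Subgroup.map_sup, hmap, Subgroup.map_subgroupOf_eq_of_le hHA] at this
    · have := congrArg (Subgroup.map A.subtype) hxe
      rwa [hmap, hmap] at this

end Cfsg.Agent.S3821
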