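import Cfsg.Statements.S3825
import Mathlib

set_option autoImplicit false
open Cfsg

namespace Cfsg.Agent.S3825

open scoped commutatorElement

/-- Let U be a subgroup of a finite group H and w an involution of H normalizing U and commuting with exactly two elements of U, the identity and y. If V is a non-cyclic elementary abelian 2-subgroup of U containing y which is normal in U and invariant under w, then V is a Sylow 2-subgroup of U, V has order 4, and U/V is abelian. -/
theorem result {H : Type*} [Group H] [Finite H] (U : Subgroup H) (w : H) (hw : orderOf w = 2)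
    (hwU : w ∈ Subgroup.normalizer (U : Set H)) (y : H) (hy : y ≠ 1) (hyU : y ∈ U)
    (hfix : ∀ u ∈ U, w * u * w⁻¹ = u ↔ (u = 1 ∨ u = y))
    (V : Subgroup H) (hVU : V ≤ U) (hVn : (V.subgroupOf U).Normal) (hVw : ∀ v ∈ V, w * v * w⁻¹ ∈ V)
    (hVe : Cfsg.IsElementaryAbelian 2 V) (hVc : ¬ IsCyclic ↥V) (hyV : y ∈ V) :
    ¬ 2 ∣ V.relIndex U ∧ Nat.card ↥V = 4 ∧ ⁅U, U⁆ ≤ V := by
  classical
  haveI : Fact (Nat.Prime 2) := ⟨Nat.prime_two⟩
  have hw2 : w * w = 1 := by rw [← pow_two, ← hw]; exact pow_orderOf_eq_one w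
  set σ := MulAut.conj w with hσ
  have hσ2 : ∀ u, σ (σ u) = u := fun u => by
    rw [hσ, ← MulAut.mul_apply, ← map_mul, hw2, map_one]; rfl
  have hVs : ∀ v ∈ V, σ v ∈ V := hVw
  have hV2 : ∀ v ∈ V, v⁻¹ = v := fun v hv => inv_eq_of_mul_eq_one_right (by rw [← pow_two]; exact hVe.2 v hv)
  have hVc' : ∀ a ∈ V, ∀ b ∈ V, a * b = b * a := fun a ha b hb => by
    exact congrArg Subtype.val (hVe.1.is_comm.comm (⟨a, ha⟩ : V) ⟨b, hb⟩)
  have hyo : orderOf y = 2 := orderOf_eq_prime (hVe.2 y hyV) hy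
  have hfix' : ∀ u ∈ U, σ u = u → u ∈ Subgroup.zpowers y := by
    intro u hu h
    rcases (hfix u hu).1 h with rfl | rfl
    · exact one_mem _
    · exact Subgroup.mem_zpowers _
  have hyVle : Subgroup.zpowers y ≤ V := Subgroup.zpowers_le.2 hyV
  let f : V →* H := MonoidHom.mk' (fun v => (v : H) * σ v) fun a b => by
    simp only [Subgroup.coe_mul, map_mul]
    rw [mul_assoc, ← mul_assoc (b : H), hVc' b b.2 _ (hVs a a.2), mul_assoc, ← mul_assoc]
  have hr : f.range ≤ Subgroup.zpowers y := by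
    rintro _ ⟨v, rfl⟩
    refine hfix' _ (hVU (mul_mem v.2 (hVs v v.2))) ?_
    show σ ((v : H) * σ v) = _
    rw [map_mul, hσ2]; exact hVc' _ (hVs v v.2) v v.2
  have hk : f.ker.map V.subtype ≤ Subgroup.zpowers y := by
    rintro _ ⟨v, hv, rfl⟩
    refine hfix' _ (hVU v.2) ?_
    have h : (v : H) * σ v = 1 := hv
    show σ (v : H) = (v : H)
    rw [← inv_eq_of_mul_eq_one_right h, hV2 v v.2]
  have hcr : Nat.card f.range ≤ 2 := hyo ▸ Nat.card_zpowers y ▸ Nat.le_of_dvd Nat.card_pos (Subgroup.card_dvd_of_le hr)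
  have hck : Nat.card f.ker ≤ 2 := by
    rw [← Subgroup.card_map_of_injective V.subtype_injective, ← hyo, ← Nat.card_zpowers y]
    exact Nat.le_of_dvd Nat.card_pos (Subgroup.card_dvd_of_le hk)
  have hprod : Nat.card f.range * Nat.card f.ker = Nat.card V := by
    rw [← Nat.card_congr (QuotientGroup.quotientKerEquivRange f).toEquiv]
    exact (Subgroup.card_eq_card_quotient_mul_card_subgroup _).symm
  have hV4 : Nat.card V = 4 := by
    have hVp : IsPGroup 2 V := fun v => ⟨1, Subtype.ext (by rw [SubgroupClass.coe_pow, pow_one]; exact hVe.2 v v.2)⟩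
    obtain ⟨n, hn⟩ := IsPGroup.iff_card.1 hVp
    have hle : Nat.card V ≤ 4 := by rw [← hprod]; exact (Nat.mul_le_mul hcr hck).trans (by norm_num)
    have hn2 : 2 ≤ n := by
      by_contra hlt
      apply hVc
      interval_cases n
      · haveI : Subsingleton V := (Nat.card_eq_one_iff_unique.1 (by simpa using hn)).1
        infer_instance
      · exact isCyclic_of_prime_card (p := 2) (by simpa using hn)
    have : n ≤ 2 := by
      rw [hn] at hle
      exact (Nat.pow_le_pow_iff_right (le_refl 2)).1 hle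
    rw [hn, show n = 2 by omega]; norm_num
  obtain ⟨v0, hv0, hv0y⟩ : ∃ v ∈ V, v⁻¹ * σ v = y := by
    have h2 : f.range = Subgroup.zpowers y := by
      refine Subgroup.eq_of_le_of_card_ge hr ?_
      rw [Nat.card_zpowers, hyo]
      by_contra hlt
      have : Nat.card f.range * Nat.card f.ker ≤ 1 * 2 := Nat.mul_le_mul (by omega) hck
      omega
    obtain ⟨v, hv⟩ : y ∈ f.range := h2 ▸ Subgroup.mem_zpowers y
    exact ⟨v, v.2, by rw [hV2 _ v.2]; exact hv⟩
  have hW : ∀ u ∈ U, u⁻¹ * σ u ∈ V → u ∈ V := by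
    intro u hu hd
    have hds : σ (u⁻¹ * σ u) = u⁻¹ * σ u := by
      rw [map_mul, map_inv, hσ2]
      calc (σ u)⁻¹ * u = (u⁻¹ * σ u)⁻¹ := by group
        _ = u⁻¹ * σ u := hV2 _ hd
    have hdU : u⁻¹ * σ u ∈ U := hVU hd
    rcases (hfix _ hdU).1 hds with h | h
    · exact hyVle (hfix' u hu (inv_mul_eq_one.1 h).symm)
    · have h2 : σ (u * v0⁻¹) = u * v0⁻¹ := by
        have e1 : σ u = u * y := by rw [← h, mul_inv_cancel_left]
        have e2 : σ v0 = v0 * y := by rw [← hv0y, mul_inv_cancel_left]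
        rw [map_mul, map_inv, e1, e2]; group
      have h3 := hyVle (hfix' _ (mul_mem hu (inv_mem (hVU hv0))) h2)
      have := mul_mem h3 hv0
      rwa [inv_mul_cancel_right] at this
  have hσU : ∀ u ∈ U, σ u ∈ U := fun u hu => (Subgroup.mem_normalizer_iff.1 hwU u).1 hu
  haveI := hVn
  let τ : U →* U := MonoidHom.mk' (fun u => ⟨σ u, hσU u u.2⟩) fun a b => Subtype.ext (map_mul σ _ _)
  let τb : ↥U ⧸ V.subgroupOf U →* ↥U ⧸ V.subgroupOf U :=
    QuotientGroup.map _ _ τ fun u hu => hVs _ hu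
  have hfpf : ∀ q, τb q = q → q = 1 := by
    intro q h
    obtain ⟨u, rfl⟩ := QuotientGroup.mk_surjective q
    refine (QuotientGroup.eq_one_iff u).2 (hW u u.2 ?_)
    exact (QuotientGroup.eq (a := u) (b := τ u)).1 h.symm
  have hτ2 : ∀ q, τb (τb q) = q := by
    intro q
    obtain ⟨u, rfl⟩ := QuotientGroup.mk_surjective q
    exact congrArg QuotientGroup.mk (Subtype.ext (hσ2 u))
  have hinv : ∀ q, τb q = q⁻¹ := by
    intro s
    have hinj : Function.Injective (fun q => q⁻¹ * τb q) := by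
      intro a b h
      have h' : τb (b * a⁻¹) = b * a⁻¹ := by
        have h1 : a⁻¹ * τb a = b⁻¹ * τb b := h
        rw [map_mul, map_inv]
        calc τb b * (τb a)⁻¹ = b * (b⁻¹ * τb b) * (τb a)⁻¹ := by group
          _ = b * (a⁻¹ * τb a) * (τb a)⁻¹ := by rw [h1]
          _ = _ := by group
      exact (mul_inv_eq_one.1 (hfpf _ h')).symm
    obtain ⟨q, hq⟩ := Finite.surjective_of_injective hinj s
    rw [← hq]
    simp only [map_mul, map_inv, hτ2, mul_inv_rev, inv_inv]
  refine ⟨fun hd => ?_, hV4, ?_⟩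
  · obtain ⟨q, hq⟩ := exists_prime_orderOf_dvd_card' (G := ↥U ⧸ V.subgroupOf U) 2 hd
    have h2 : q * q = 1 := by rw [← pow_two, ← hq]; exact pow_orderOf_eq_one q
    have := hfpf q (by rw [hinv, inv_eq_of_mul_eq_one_right h2])
    rw [this, orderOf_one] at hq
    norm_num at hq
  · rw [Subgroup.commutator_le]
    intro a ha b hb
    have hc : ∀ p q : ↥U ⧸ V.subgroupOf U, p * q = q * p := fun p q => by
      have h := map_mul τb p q
      rw [hinv, hinv, hinv, ← mul_inv_rev] at h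
      exact inv_injective (by rw [h]) 
    have h := hc ((⟨a, ha⟩ : U) : ↥U ⧸ V.subgroupOf U) ((⟨b, hb⟩ : U) : ↥U ⧸ V.subgroupOf U)
    rw [← commutatorElement_eq_one_iff_mul_comm] at h
    have h2 : ((⁅(⟨a, ha⟩ : U), ⟨b, hb⟩⁆ : U) : ↥U ⧸ V.subgroupOf U) = 1 := h
    have h3 := (QuotientGroup.eq_one_iff _).1 h2
    exact h3


end Cfsg.Agent.S3825
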