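import Cfsg.Statements.S3838
import Cfsg.Agent.Transfer.Tate
import Cfsg.Agent.Transfer.Focal
import Cfsg.Agent.Transfer.FrattiniP

set_option autoImplicit false
open Cfsg
open scoped commutatorElement

namespace Cfsg.Agent.S3838

/-- Let G be a finite group with Sylow p-subgroup P such that N_G(P) has a normal p-complement. Then N_G(Q) has a normal p-complement for every subgroup Q with [P, P] ≤ Q ≤ Φ(P). -/
theorem result {G : Type*} [Group G] [Finite G] {p : ℕ} [Fact p.Prime] (P : Sylow p G) (hN : Cfsg.HasNormalPComplement p ↥(Subgroup.normalizer ((P : Subgroup G) : Set G))) (Q : Subgroup G) (h1 : (commutator ↥(P : Subgroup G)).map (P : Subgroup G).subtype ≤ Q) (h2 : Q ≤ (frattini ↥(P : Subgroup G)).map (P : Subgroup G).subtype) : Cfsg.HasNormalPComplement p ↥(Subgroup.normalizer (Q : Set G)) := by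
  have hQP : Q ≤ (P : Subgroup G) := h2.trans (Subgroup.map_subtype_le _)
  rw [Subgroup.map_subtype_commutator] at h1
  have hcm : ∀ a ∈ (P : Subgroup G), ∀ b ∈ (P : Subgroup G), ⁅a, b⁆ ∈ Q := fun a ha b hb =>
    h1 (Subgroup.commutator_mem_commutator ha hb)
  have hPQ : (P : Subgroup G) ≤ Subgroup.normalizer (Q : Set G) := fun s hs => by
    refine Subgroup.mem_normalizer_fintype (S := (Q : Set G)) fun q hq => ?_
    have e : s * q * s⁻¹ = ⁅s, q⁆ * q := by rw [commutatorElement_def]; group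
    rw [e]
    exact mul_mem (hcm s hs q (hQP hq)) hq
  set M := Subgroup.normalizer (Q : Set G) with hM
  let PM : Sylow p M := P.subtype hPQ
  -- the coset of an element of `P` is normalised by `P`
  have hcoset : ∀ x : M, x ∈ PM → (PM : Subgroup M) ≤ Subgroup.normalizer {z : M | (x : G)⁻¹ * z ∈ Q} := by
    intro x hx s hs
    refine Subgroup.mem_normalizer_fintype fun z (hz : (x : G)⁻¹ * z ∈ Q) => ?_
    show (x : G)⁻¹ * ((s : G) * z * (s : G)⁻¹) ∈ Q
    have hxP : (x : G) ∈ (P : Subgroup G) := hx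
    have hsP : (s : G) ∈ (P : Subgroup G) := hs
    have e : (x : G)⁻¹ * ((s : G) * z * (s : G)⁻¹) = ⁅(x : G)⁻¹, (s : G)⁆ * ((s : G) * ((x : G)⁻¹ * z) * (s : G)⁻¹) := by
      rw [commutatorElement_def]; group
    rw [e]
    exact mul_mem (hcm _ (inv_mem hxP) _ hsP) ((Subgroup.mem_normalizer_iff.1 (hPQ hsP) _).1 hz)
  -- fusion modulo `Q` is trivial
  have hfus : ∀ (g x : M), x ∈ PM → g * x * g⁻¹ ∈ PM → (x : G)⁻¹ * ((g * x * g⁻¹ : M) : G) ∈ Q := by
    intro g x hx hgx
    have himg : (fun a => g * a * g⁻¹) '' {z : M | (x : G)⁻¹ * z ∈ Q} =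
        {z : M | ((g * x * g⁻¹ : M) : G)⁻¹ * z ∈ Q} := by
      ext z
      constructor
      · rintro ⟨a, ha, rfl⟩
        show _ ∈ Q
        have e : ((g * x * g⁻¹ : M) : G)⁻¹ * ((g * a * g⁻¹ : M) : G) = (g : G) * ((x : G)⁻¹ * a) * (g : G)⁻¹ := by
          push_cast; group
        rw [e]
        exact (Subgroup.mem_normalizer_iff.1 g.2 _).1 ha
      · intro hz
        refine ⟨g⁻¹ * z * g, ?_, by group⟩
        show _ ∈ Q
        refine (Subgroup.mem_normalizer_iff.1 g.2 _).2 ?_
        have hz' : ((g * x * g⁻¹ : M) : G)⁻¹ * z ∈ Q := hz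
        simpa [mul_assoc] using hz'
    obtain ⟨n, hn, hne⟩ := CfsgLib.Transfer.burnside_fusion_image PM (hcoset x hx) (g := g)
      (by rw [himg]; exact hcoset _ hgx)
    have h3 : n * x * n⁻¹ ∈ {z : M | ((g * x * g⁻¹ : M) : G)⁻¹ * z ∈ Q} :=
      himg ▸ hne ▸ ⟨x, by simp, rfl⟩
    have hnP : (n : G) ∈ Subgroup.normalizer ((P : Subgroup G) : Set G) := by
      refine Subgroup.mem_normalizer_fintype (S := ((P : Subgroup G) : Set G)) fun s hs => ?_
      exact (Subgroup.mem_normalizer_iff.1 hn ⟨s, hPQ hs⟩).1 hs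
    set N := Subgroup.normalizer ((P : Subgroup G) : Set G) with hNdef
    let PN : Sylow p N := P.subtype Subgroup.le_normalizer
    have hloc := CfsgLib.Transfer.locallyTrivial_of_hasNormalPComplement hN (PN : Subgroup N) PN.isPGroup'
    have : (Cfsg.pResidual p N).Normal := CfsgLib.Transfer.pResidual_normal
    obtain ⟨r, hr, s, hs, hrs⟩ := Subgroup.mem_sup_of_normal_left.mp
      (show (⟨(n : G), hnP⟩ : N) ∈ Cfsg.pResidual p N ⊔ (PN : Subgroup N) by
        rw [CfsgLib.Transfer.pResidual_sup_sylow]; trivial)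
    have hrc : r ∈ Subgroup.centralizer ((PN : Subgroup N) : Set N) := by
      have hnorm : (PN : Subgroup N).Normal := Subgroup.normal_in_normalizer
      clear hrs
      induction hr using Subgroup.closure_induction with
      | mem a ha => exact hloc a (by rw [Subgroup.normalizer_eq_top]; trivial) ha
      | one => exact one_mem _
      | mul a b _ _ ha hb => exact mul_mem ha hb
      | inv a _ ha => exact inv_mem ha
    have hsx : (s : G) * x * (s : G)⁻¹ ∈ (P : Subgroup G) := mul_mem (mul_mem hs hx) (inv_mem hs)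
    have hnx : (n : G) * x * (n : G)⁻¹ = (s : G) * x * (s : G)⁻¹ := by
      have h4 : (r : G) * (s : G) = n := congrArg Subtype.val hrs
      have h5 : (⟨_, Subgroup.le_normalizer hsx⟩ : N) * r = r * ⟨_, Subgroup.le_normalizer hsx⟩ :=
        Subgroup.mem_centralizer_iff.1 hrc _ hsx
      have h6 : (s : G) * x * (s : G)⁻¹ * r = r * ((s : G) * x * (s : G)⁻¹) := congrArg Subtype.val h5
      calc (n : G) * x * (n : G)⁻¹ = (r : G) * ((s : G) * x * (s : G)⁻¹) * (r : G)⁻¹ := by rw [← h4]; group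
        _ = _ := by rw [← h6, mul_inv_cancel_right]
    have h7 : ((g * x * g⁻¹ : M) : G)⁻¹ * ((n : G) * x * (n : G)⁻¹) ∈ Q := h3
    rw [hnx] at h7
    have h8 := mul_mem (hcm (x : G)⁻¹ (inv_mem hx) _ hs) (inv_mem h7)
    have e : ⁅(x : G)⁻¹, (s : G)⁆ * (((g * x * g⁻¹ : M) : G)⁻¹ * ((s : G) * x * (s : G)⁻¹))⁻¹ =
        (x : G)⁻¹ * ((g * x * g⁻¹ : M) : G) := by rw [commutatorElement_def]; group
    exact e ▸ h8
  refine CfsgLib.Transfer.tate_residual PM fun y hy => ?_
  have h3 : (y : M) ∈ (PM : Subgroup M).focalSubgroup := CfsgLib.Transfer.inf_pResidual_le_focal PM ⟨y.2, hy⟩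
  have h4 : (PM : Subgroup M).focalSubgroup ≤ Q.subgroupOf M :=
    CfsgLib.Transfer.focalSubgroup_le_of_forall fun x hx g hg => by
      have := mul_mem (hcm _ hx _ (mul_mem (hx : (x : G) ∈ (P : Subgroup G)) (inv_mem hx))) (inv_mem (hfus g x hx hg))
      have h5 := (Subgroup.mem_normalizer_iff.1 x.2 _).1 (inv_mem (hfus g x hx hg))
      simpa [Subgroup.mem_subgroupOf, mul_assoc] using h5
  obtain ⟨z, hz, hze⟩ := h2 (h4 h3)
  let e : (P : Subgroup G) ≃* (PM : Subgroup M) := (Subgroup.subgroupOfEquivOfLe hPQ).symm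
  have he : e z = y := Subtype.ext (Subtype.ext hze)
  rw [← he]
  exact (frattini_le_comap_frattini_of_surjective e.surjective : frattini _ ≤ (frattini (PM : Subgroup M)).comap e.toMonoidHom) hz

end Cfsg.Agent.S3838
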