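import Cfsg.Statements.S3857
import Cfsg.Agent.TwoFrobenius.Main
import Cfsg.Agent.ZJ.Fpf
import Mathlib

set_option autoImplicit false
open Cfsg

namespace Cfsg.Agent.S3857

open scoped commutatorElement
open CfsgLib.Frob

/-- All prime divisors of the order of `M` lie in `A`. -/
def Pure (A : Set ℕ) (M : Type*) : Prop := ∀ r : ℕ, r.Prime → r ∣ Nat.card M → r ∈ A

/-- There is no element whose order is a product of a prime in `A` and a prime outside `A`. -/
def Split (A : Set ℕ) (G : Type*) [Group G] : Prop :=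
  ∀ p q : ℕ, p.Prime → q.Prime → p ∈ A → q ∉ A → ∀ g : G, orderOf g ≠ p * q

theorem Split.compl {A : Set ℕ} {G : Type*} [Group G] (h : Split A G) : Split Aᶜ G :=
  fun p q hp hq hpA hqA g hg => h q p hq hp (not_not.mp hqA) hpA g (by rw [hg, mul_comm])

theorem Split.subgroup {A : Set ℕ} {G : Type*} [Group G] (h : Split A G) (K : Subgroup G) : Split A ↥K :=
  fun p q hp hq hpA hqA g hg => h p q hp hq hpA hqA (g : G) (by rw [Subgroup.orderOf_coe, hg])

theorem Split.quotient {A : Set ℕ} {G : Type*} [Group G] [Finite G] (h : Split A G) (N : Subgroup G)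
    [N.Normal] : Split A (G ⧸ N) := by
  intro p q hp hq hpA hqA g hg
  obtain ⟨x, rfl⟩ := QuotientGroup.mk'_surjective N g
  obtain ⟨y, hy⟩ := TwoFrobenius.exists_orderOf_of_map (QuotientGroup.mk' N) x hg.symm.dvd
  exact h p q hp hq hpA hqA y hy

/-- Commuting elements cannot have orders on both sides. -/
theorem Split.not_commute {A : Set ℕ} {G : Type*} [Group G] [Finite G] (h : Split A G) {x y : G}
    (hxy : Commute x y) {p q : ℕ} (hp : p.Prime) (hq : q.Prime) (hpA : p ∈ A) (hqA : q ∉ A)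
    (hpx : p ∣ orderOf x) (hqy : q ∣ orderOf y) : False := by
  have hne : p ≠ q := fun e => hqA (e ▸ hpA)
  have hsub : ∀ (z : G) (r : ℕ), r ∣ orderOf z → orderOf (z ^ (orderOf z / r)) = r := fun z r hr =>
    orderOf_pow_orderOf_div (orderOf_pos z).ne' hr
  refine h p q hp hq hpA hqA (x ^ (orderOf x / p) * y ^ (orderOf y / q)) ?_
  rw [(hxy.pow_pow _ _).orderOf_mul_eq_mul_orderOf_of_coprime
    (by rw [hsub x p hpx, hsub y q hqy]; exact (Nat.coprime_primes hp hq).mpr hne),
    hsub x p hpx, hsub y q hqy]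

theorem pure_of_comm {A : Set ℕ} {G : Type*} [Group G] [Finite G] (h : Split A G) (D : Subgroup G)
    [IsMulCommutative D] : Pure A D ∨ Pure Aᶜ D := by
  by_contra hc
  simp only [Pure, not_or, not_forall] at hc
  obtain ⟨⟨q, hq, hqd, hqA⟩, ⟨p, hp, hpd, hpA⟩⟩ := hc
  haveI := Fact.mk hp
  haveI := Fact.mk hq
  obtain ⟨x, hx⟩ := exists_prime_orderOf_dvd_card' p hpd
  obtain ⟨y, hy⟩ := exists_prime_orderOf_dvd_card' q hqd
  exact (h.subgroup D).not_commute (mul_comm' x y : Commute x y) hp hq (not_not.mp hpA) hqA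
    hx.symm.dvd hy.symm.dvd

theorem fpf_of_pure {A : Set ℕ} {G : Type*} [Group G] [Finite G] (h : Split A G) {M K : Subgroup G}
    (hM : Pure A M) (hK : Pure Aᶜ K) {x y : G} (hx : x ∈ M) (hy : y ∈ K) (hc : Commute x y) :
    x = 1 ∨ y = 1 := by
  by_contra hne
  rw [not_or] at hne
  obtain ⟨p, hp, hpx⟩ := Nat.exists_prime_and_dvd (fun e => hne.1 (orderOf_eq_one_iff.mp e))
  obtain ⟨q, hq, hqy⟩ := Nat.exists_prime_and_dvd (fun e => hne.2 (orderOf_eq_one_iff.mp e))
  exact h.not_commute hc hp hq (hM p hp (hpx.trans (M.orderOf_dvd_natCard hx)))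
    (hK q hq (hqy.trans (K.orderOf_dvd_natCard hy))) hpx hqy

theorem exists_abelian_normal {G : Type*} [Group G] [Finite G] [Group.IsSolvable G] [Nontrivial G] :
    ∃ D : Subgroup G, D ≠ ⊥ ∧ D.Normal ∧ IsMulCommutative D := by
  obtain ⟨N, hN⟩ := Group.IsSolvable.solvable (G := G)
  induction N with
  | zero =>
    rw [derivedSeries_zero] at hN
    exact absurd hN top_ne_bot
  | succ N ih =>
    by_cases h : derivedSeries G N = ⊥
    · exact ih h
    · refine ⟨_, h, inferInstance, ⟨⟨fun x y => ?_⟩⟩⟩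
      have hxy : ⁅(x : G), (y : G)⁆ ∈ derivedSeries G (N + 1) := by
        rw [derivedSeries_succ]
        exact Subgroup.commutator_mem_commutator x.2 y.2
      rw [hN, Subgroup.mem_bot, commutatorElement_eq_one_iff_mul_comm] at hxy
      exact Subtype.ext hxy

/-- A normal subgroup with a fixed-point-free complement is the Frobenius kernel of that complement. -/
theorem kernel_eq {X : Type*} [Group X] [Finite X] (N B : Subgroup X) [N.Normal]
    (hc : Subgroup.IsComplement' N B) (hN : N ≠ ⊥) (hB : B ≠ ⊥)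
    (hfpf : ∀ h ∈ B, ∀ k ∈ N, h * k = k * h → h = 1 ∨ k = 1) :
    ∃ h : Cfsg.IsFrobeniusComplement B, kernel h = N := by
  have hF := isFrobeniusComplement_of_fpf N B hc.disjoint.eq_bot hc.sup_eq_top hN hB hfpf
  refine ⟨hF, (Subgroup.eq_of_le_of_card_ge (fun x hx => (mem_kernel_iff_pow hF).mpr ?_) ?_).symm⟩
  · rw [hc.index_eq_card]
    exact congrArg Subtype.val (pow_card_eq_one' (x := (⟨x, hx⟩ : N)))
  · rw [card_kernel_subgroup hF, hc.index_eq_card]

theorem pure_trans {A : Set ℕ} {X : Type*} [Group X] [Finite X] (N : Subgroup X) [N.Normal]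
    (hN : Pure A N) (hQ : Pure A (X ⧸ N)) : Pure A X := fun r hr hrd => by
  rw [Subgroup.card_eq_card_quotient_mul_card_subgroup N] at hrd
  rcases hr.dvd_mul.mp hrd with h | h
  · exact hQ r hr h
  · exact hN r hr h

theorem pure_comap {A : Set ℕ} {X : Type*} [Group X] [Finite X] (N : Subgroup X) [N.Normal]
    (hN : Pure A N) (M : Subgroup (X ⧸ N)) (hM : Pure A M) :
    Pure A ↥(M.comap (QuotientGroup.mk' N)) := by
  intro r hr hrd
  set L := M.comap (QuotientGroup.mk' N)
  have hNL : N ≤ L := fun x hx => by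
    show QuotientGroup.mk' N x ∈ M
    rw [show QuotientGroup.mk' N x = 1 from (QuotientGroup.eq_one_iff x).mpr hx]
    exact one_mem M
  rw [← (N.subgroupOf L).card_mul_index] at hrd
  rcases hr.dvd_mul.mp hrd with h | h
  · rw [Nat.card_congr (Subgroup.subgroupOfEquivOfLe hNL).toEquiv] at h
    exact hN r hr h
  · refine hM r hr ?_
    have e : (N.subgroupOf L).index = Nat.card M := by
      have hker : ((QuotientGroup.mk' N).comp L.subtype).ker = N.subgroupOf L := by
        ext x
        exact QuotientGroup.eq_one_iff (x : X)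
      rw [← hker, Subgroup.index_ker, MonoidHom.range_comp, Subgroup.range_subtype,
        Subgroup.map_comap_eq_self_of_surjective (QuotientGroup.mk'_surjective N)]
    rwa [e] at h

theorem coprime_of_pure {A : Set ℕ} {M K : Type*} (hM : Pure A M) (hK : Pure Aᶜ K) :
    (Nat.card M).Coprime (Nat.card K) :=
  Nat.coprime_of_dvd fun r hr h1 h2 => hK r hr h2 (hM r hr h1)

theorem exists_max_normal {X : Type*} [Group X] [Finite X] (P : Subgroup X → Prop) (M₀ : Subgroup X)
    (h₀ : M₀.Normal) (hP₀ : P M₀) :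
    ∃ M : Subgroup X, M₀ ≤ M ∧ M.Normal ∧ P M ∧ ∀ M' : Subgroup X, M'.Normal → P M' → M ≤ M' → M' = M := by
  obtain ⟨M, hle, hM⟩ := Set.Finite.exists_le_maximal
    (Set.toFinite {M : Subgroup X | M.Normal ∧ P M}) (a := M₀) ⟨h₀, hP₀⟩
  exact ⟨M, hle, hM.prop.1, hM.prop.2, fun M' h1 h2 h3 => le_antisymm (hM.le_of_ge ⟨h1, h2⟩ h3) h3⟩

set_option maxHeartbeats 1000000 in
theorem main {G : Type*} [Group G] [Finite G] (A : Set ℕ) (hsplit : Split A G) (hsol : Group.IsSolvable G)
    (hb : ∃ b : ℕ, b ∉ A ∧ b.Prime ∧ b ∣ Nat.card G)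
    (D : Subgroup G) [hDn : D.Normal] (hD : D ≠ ⊥) (hDA : Pure A D) :
    (∃ C : Subgroup G, Cfsg.IsFrobeniusComplement C) ∨
    (∃ (H K : Subgroup G) (_ : H.Normal), K.Normal ∧ H < K ∧
      (∃ C : Subgroup ↥K, Cfsg.IsFrobeniusComplement C ∧ Cfsg.frobeniusKernel C = (H.subgroupOf K : Set ↥K)) ∧
      (∃ C : Subgroup (G ⧸ H), Cfsg.IsFrobeniusComplement C ∧
        Cfsg.frobeniusKernel C = (K.map (QuotientGroup.mk' H) : Set (G ⧸ H)))) := by
  obtain ⟨N, hDN, hNn, hNA, hNmax⟩ := exists_max_normal (fun M => Pure A M) D hDn hDA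
  haveI := hNn
  have hN1 : N ≠ ⊥ := fun e => hD (le_bot_iff.mp (e ▸ hDN))
  set π := QuotientGroup.mk' N with hπ
  have hπs := QuotientGroup.mk'_surjective N
  have hQsplit := hsplit.quotient N
  by_cases hQA : Pure Aᶜ (G ⧸ N)
  · -- Frobenius
    left
    have hco : (Nat.card N).Coprime N.index := by
      rw [Subgroup.index_eq_card]; exact coprime_of_pure hNA hQA
    obtain ⟨B, hB⟩ := Subgroup.exists_right_complement'_of_coprime hco
    have hBpure : Pure Aᶜ B := fun r hr hrd => hQA r hr (by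
      rwa [← Subgroup.index_eq_card, ← hB.symm.index_eq_card.trans rfl] at *)
    refine ⟨B, (kernel_eq N B hB hN1 (fun e => ?_) fun x hx y hy hxy => ?_).1⟩
    · have h1 : N.index = Nat.card B := hB.symm.index_eq_card
      rw [e, Subgroup.card_bot, Subgroup.index_eq_one] at h1
      obtain ⟨b, hbA, hbp, hbd⟩ := hb
      exact hbA (hNA b hbp (by rw [h1, Subgroup.card_top]; exact hbd))
    · exact (fpf_of_pure hsplit hNA hBpure hy hx (Commute.symm hxy)).symm
  · right
    simp only [Pure, not_forall] at hQA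
    obtain ⟨d, hdp, hdd, hdA⟩ := hQA
    rw [Set.notMem_compl_iff] at hdA
    haveI := Fact.mk hdp
    obtain ⟨y, hy⟩ := exists_prime_orderOf_dvd_card' d hdd
    have hy1 : y ≠ 1 := fun e => hdp.ne_one (by rw [← hy, e, orderOf_one])
    haveI : Nontrivial (G ⧸ N) := ⟨⟨y, 1, hy1⟩⟩
    haveI := hsol
    haveI : Group.IsSolvable (G ⧸ N) := solvable_of_surjective hπs
    obtain ⟨A₀, hA₀1, hA₀n, hA₀c⟩ := exists_abelian_normal (G := G ⧸ N)
    have hA₀ : Pure Aᶜ A₀ := by
      refine (pure_of_comm hQsplit A₀).resolve_left fun h => hA₀1 ?_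
      have h1 := hNmax _ (hA₀n.comap π) (pure_comap N hNA A₀ h) (by
        intro x hx
        show π x ∈ A₀
        rw [show π x = 1 from (QuotientGroup.eq_one_iff x).mpr hx]
        exact one_mem _)
      rw [eq_bot_iff]
      intro z hz
      obtain ⟨x, rfl⟩ := hπs z
      exact Subgroup.mem_bot.mpr ((QuotientGroup.eq_one_iff x).mpr (h1 ▸ (hz : x ∈ A₀.comap π)))
    obtain ⟨M, hAM, hMn, hMA, hMmax⟩ := exists_max_normal (fun M : Subgroup (G ⧸ N) => Pure Aᶜ M) A₀ hA₀n hA₀
    haveI := hMn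
    have hM1 : M ≠ ⊥ := fun e => hA₀1 (le_bot_iff.mp (e ▸ hAM))
    set L : Subgroup G := M.comap π with hL
    have hNL : N ≤ L := fun x hx => by
      show π x ∈ M
      rw [show π x = 1 from (QuotientGroup.eq_one_iff x).mpr hx]
      exact one_mem _
    set N' : Subgroup ↥L := N.subgroupOf L with hN'
    have hN'c : Nat.card N' = Nat.card N := Nat.card_congr (Subgroup.subgroupOfEquivOfLe hNL).toEquiv
    have hN'A : Pure A N' := fun r hr hrd => hNA r hr (hN'c ▸ hrd)
    let φ : ↥L →* ↥M := (π.comp L.subtype).codRestrict M fun x => x.2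
    have hφs : Function.Surjective φ := by
      rintro ⟨z, hz⟩
      obtain ⟨x, rfl⟩ := hπs z
      exact ⟨⟨x, hz⟩, rfl⟩
    have hφk : φ.ker = N' := by
      ext x
      rw [MonoidHom.mem_ker, Subgroup.mem_subgroupOf, ← QuotientGroup.eq_one_iff (N := N) (x : G)]
      exact Subtype.ext_iff
    have hN'i : N'.index = Nat.card M := by
      rw [← hφk, Subgroup.index_ker, MonoidHom.range_eq_top.mpr hφs, Subgroup.card_top]
    obtain ⟨B, hB⟩ := Subgroup.exists_right_complement'_of_coprime (N := N') (by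
      rw [hN'i, hN'c]; exact coprime_of_pure hNA hMA)
    let ψ : B →* M := φ.comp B.subtype
    have hψ : Function.Bijective ψ := by
      refine ⟨(injective_iff_map_eq_one ψ).mpr fun x hx => ?_, fun z => ?_⟩
      · exact Subtype.ext (Subgroup.disjoint_def.mp hB.disjoint (hφk ▸ MonoidHom.mem_ker.mpr hx) x.2)
      · obtain ⟨x, rfl⟩ := hφs z
        obtain ⟨⟨n, c⟩, rfl⟩ := hB.surjective x
        refine ⟨c, ?_⟩
        show φ (c : ↥L) = φ ((n : ↥L) * c)
        rw [map_mul, MonoidHom.mem_ker.mp (hφk.symm ▸ n.2 : (n : ↥L) ∈ φ.ker), one_mul]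
    let e := MulEquiv.ofBijective ψ hψ
    have hBA : Pure Aᶜ B := fun r hr hrd => hMA r hr (Nat.card_congr e.toEquiv ▸ hrd)
    have hB1 : B ≠ ⊥ := fun h => hM1 (Subgroup.eq_bot_of_card_eq M (by
      rw [← Nat.card_congr e.toEquiv, h, Subgroup.card_bot]))
    obtain ⟨hFB, hker⟩ := kernel_eq N' B hB (fun h => hN1 (Subgroup.eq_bot_of_card_eq N (by
      rw [← hN'c, h, Subgroup.card_bot]))) hB1
      (fun x hx z hz hxz => (fpf_of_pure (hsplit.subgroup L) hN'A hBA hz hx (Commute.symm hxz)).symm)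
    -- the middle layer is cyclic
    have hyM : ∀ z ∈ M, Commute y z → z = 1 := by
      intro z hz hc
      by_contra hz1
      obtain ⟨q, hq, hqz⟩ := Nat.exists_prime_and_dvd (fun e => hz1 (orderOf_eq_one_iff.mp e))
      exact hQsplit.not_commute hc hdp hq hdA (hMA q hq (hqz.trans (M.orderOf_dvd_natCard hz)))
        hy.symm.dvd hqz
    let α : MulAut ↥M := MulAut.conjNormal y
    have hαf : MonoidHom.FixedPointFree (α : ↥M → ↥M) := fun z hz => Subtype.ext
      (hyM z z.2 (mul_inv_eq_iff_eq_mul.mp (congrArg Subtype.val hz : y * (z : G ⧸ N) * y⁻¹ = z)))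
    haveI hMnil : Group.IsNilpotent ↥M := CfsgLib.ZJ.isNilpotent_of_fixedPointFree hdp hαf (by
      show (MulAut.conjNormal y) ^ d = 1
      rw [← map_pow, ← hy, pow_orderOf_eq_one, map_one])
    have hlat : LatFpf ↥M :=
      CfsgLib.Frob.LatFpf.comp (latFpf_of_complement hFB) e.symm.toMonoidHom e.symm.injective
    have hodd : ¬ 2 ∣ Nat.card ↥M := by
      intro h2
      haveI : Fact (Nat.Prime 2) := ⟨Nat.prime_two⟩
      obtain ⟨z, hz⟩ := exists_prime_orderOf_dvd_card' 2 h2
      obtain ⟨S, hS⟩ := (IsPGroup.of_card (n := 1) (by rw [Nat.card_zpowers, hz, pow_one]) :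
        IsPGroup 2 (Subgroup.zpowers z)).exists_le_sylow
      haveI hSn := TwoFrobenius.sylow_normal hMnil S
      haveI := Sylow.unique_of_normal S hSn
      have hαz : α z ∈ (S : Subgroup ↥M) := by
        obtain ⟨T, hT⟩ := (IsPGroup.of_card (n := 1)
          (by rw [Nat.card_zpowers, MulEquiv.orderOf_eq, hz, pow_one]) :
          IsPGroup 2 (Subgroup.zpowers (α z))).exists_le_sylow
        exact (Subsingleton.elim T S) ▸ hT (Subgroup.mem_zpowers _)
      have hz1 : (⟨z, hS (Subgroup.mem_zpowers z)⟩ : (S : Subgroup ↥M)) ≠ 1 := fun h => by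
        rw [show z = 1 from congrArg Subtype.val h, orderOf_one] at hz
        omega
      obtain ⟨k, hk⟩ := hlat.uniqueOrderP S.isPGroup' ⟨z, hS (Subgroup.mem_zpowers z)⟩ ⟨α z, hαz⟩
        (Subtype.ext (orderOf_dvd_iff_pow_eq_one.1 hz.dvd))
        (Subtype.ext (orderOf_dvd_iff_pow_eq_one.1 (by rw [MulEquiv.orderOf_eq, hz]))) hz1
      have hk' : z ^ k = α z := congrArg Subtype.val hk
      rcases Int.emod_two_eq_zero_or_one k with h0 | h0
      · rw [← zpow_mod_orderOf, hz, Nat.cast_ofNat, h0, zpow_zero] at hk'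
        have : z = 1 := α.injective (hk'.symm.trans (map_one α).symm)
        rw [this, orderOf_one] at hz
        omega
      · rw [← zpow_mod_orderOf, hz, Nat.cast_ofNat, h0, zpow_one] at hk'
        have := hαf z hk'.symm
        rw [this, orderOf_one] at hz
        omega
    haveI hMc : IsCyclic ↥M := TwoFrobenius.isCyclic_of_latFpf hlat (Or.inl hodd)
    -- the centraliser of the middle layer
    set Q := G ⧸ N
    let κ : Q →* MulAut ↥M := MulAut.conjNormal
    have hκ : κ.ker = M := by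
      refine hMmax _ inferInstance (fun r hr hrd => ?_) fun x hx => ?_
      · intro hrA
        haveI := Fact.mk hr
        obtain ⟨x, hx⟩ := exists_prime_orderOf_dvd_card' r hrd
        obtain ⟨z, hz, hz1⟩ := (Subgroup.bot_or_exists_ne_one M).resolve_left hM1
        obtain ⟨q, hq, hqz⟩ := Nat.exists_prime_and_dvd (fun e => hz1 (orderOf_eq_one_iff.mp e))
        have hc : Commute (x : Q) z := mul_inv_eq_iff_eq_mul.mp
          (congrArg Subtype.val (DFunLike.congr_fun (MonoidHom.mem_ker.mp x.2) (⟨z, hz⟩ : M)))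
        exact hQsplit.not_commute hc hr hq hrA (hMA q hq (hqz.trans (M.orderOf_dvd_natCard hz)))
          (by rw [Subgroup.orderOf_coe, hx]) hqz
      · refine MonoidHom.mem_ker.mpr (MulEquiv.ext fun z => Subtype.ext ?_)
        letI := IsCyclic.commGroup (α := ↥M)
        show x * (z : Q) * x⁻¹ = z
        rw [show x * (z : Q) = z * x from congrArg Subtype.val (mul_comm (⟨x, hx⟩ : ↥M) z),
          mul_inv_cancel_right]
    have hQc : ∀ a b : Q, a * b * (b * a)⁻¹ ∈ M := by
      intro a b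
      rw [← hκ, MonoidHom.mem_ker, map_mul, map_inv, map_mul, map_mul, mul_inv_eq_one]
      obtain ⟨g, hg⟩ := IsCyclic.exists_generator (α := ↥M)
      obtain ⟨m, hm⟩ := Subgroup.mem_zpowers_iff.1 (hg (κ a g))
      obtain ⟨l, hl⟩ := Subgroup.mem_zpowers_iff.1 (hg (κ b g))
      refine MulEquiv.ext fun x => ?_
      obtain ⟨i, rfl⟩ := Subgroup.mem_zpowers_iff.1 (hg x)
      simp only [MulAut.mul_apply, map_zpow]
      rw [← hl, ← hm, map_zpow, map_zpow, ← hl, ← hm, ← zpow_mul, ← zpow_mul, ← zpow_mul, ← zpow_mul]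
      congr 1
      ring
    haveI : IsMulCommutative (Q ⧸ M) := ⟨⟨fun a b => by
      obtain ⟨a, rfl⟩ := QuotientGroup.mk'_surjective M a
      obtain ⟨b, rfl⟩ := QuotientGroup.mk'_surjective M b
      rw [← map_mul, ← map_mul]
      refine mul_inv_eq_one.mp ?_
      rw [← map_inv, ← map_mul]
      exact (QuotientGroup.eq_one_iff _).mpr (hQc a b)⟩⟩
    have hQM : Pure A (Q ⧸ M) := by
      intro r hr hrd
      by_contra hrA
      haveI := Fact.mk hr
      obtain ⟨x, hx⟩ := exists_prime_orderOf_dvd_card' r hrd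
      haveI hxn : (Subgroup.zpowers x).Normal := ⟨fun n hn g => by
        rwa [show g * n = n * g from mul_comm' g n, mul_inv_cancel_right]⟩
      have hpure : Pure Aᶜ ↥(Subgroup.zpowers x) := fun s hs hsd => by
        rw [Nat.card_zpowers, hx, Nat.prime_dvd_prime_iff_eq hs hr] at hsd
        exact hsd ▸ hrA
      have h1 := hMmax _ (hxn.comap (QuotientGroup.mk' M)) (pure_comap M hMA _ hpure) (fun z hz => by
        show QuotientGroup.mk' M z ∈ Subgroup.zpowers x
        rw [show QuotientGroup.mk' M z = 1 from (QuotientGroup.eq_one_iff z).mpr hz]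
        exact one_mem _)
      obtain ⟨z, rfl⟩ := QuotientGroup.mk'_surjective M x
      have h2 : z ∈ M := h1 ▸ (Subgroup.mem_zpowers _ : QuotientGroup.mk' M z ∈ Subgroup.zpowers _)
      rw [show QuotientGroup.mk' M z = 1 from (QuotientGroup.eq_one_iff z).mpr h2, orderOf_one] at hx
      exact hr.ne_one hx.symm
    obtain ⟨E, hE⟩ := Subgroup.exists_right_complement'_of_coprime (N := M) (by
      rw [Subgroup.index_eq_card]; exact (coprime_of_pure hQM hMA).symm)
    have hEA : Pure A E := fun r hr hrd => hQM r hr (by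
      rwa [← Subgroup.index_eq_card, hE.symm.index_eq_card])
    have hE1 : E ≠ ⊥ := fun h => by
      have h1 : M.index = Nat.card E := hE.symm.index_eq_card
      rw [h, Subgroup.card_bot, Subgroup.index_eq_one] at h1
      exact hMA d hdp (by rw [h1, Subgroup.card_top]; exact hdd) hdA
    obtain ⟨hFE, hkerE⟩ := kernel_eq M E hE hM1 hE1
      (fun x hx z hz hxz => fpf_of_pure hQsplit hEA hMA hx hz hxz)
    refine ⟨N, L, hNn, hMn.comap π, lt_of_le_of_ne hNL fun h => hM1 ?_,
      ⟨B, hFB, by rw [← coe_kernel hFB, hker]⟩, ⟨E, hFE, ?_⟩⟩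
    · rw [eq_bot_iff]
      intro z hz
      obtain ⟨x, rfl⟩ := hπs z
      exact Subgroup.mem_bot.mpr ((QuotientGroup.eq_one_iff x).mpr (h ▸ (hz : x ∈ L)))
    · rw [← coe_kernel hFE, hkerE, Subgroup.map_comap_eq_self_of_surjective hπs]

/-- A finite solvable group whose prime graph (prime divisors of the order, two distinct primes joined when there is an element of order their product) is disconnected is a Frobenius group or a 2-Frobenius group (it has normal subgroups H < K with K a Frobenius group with kernel H and G/H a Frobenius group with kernel K/H). -/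
theorem result {G : Type*} [Group G] [Finite G] (hsol : Group.IsSolvable G)
    (hdisc : (∃ A : Set ℕ, (∃ a ∈ A, a.Prime ∧ a ∣ Nat.card G) ∧ (∃ b ∉ A, b.Prime ∧ b ∣ Nat.card G) ∧
      ∀ a ∈ A, ∀ b ∉ A, a.Prime → b.Prime → a ∣ Nat.card G → b ∣ Nat.card G → ¬ ∃ g : G, orderOf g = a * b)) :
    (∃ C : Subgroup G, Cfsg.IsFrobeniusComplement C) ∨
    (∃ (H K : Subgroup G) (_ : H.Normal), K.Normal ∧ H < K ∧
      (∃ C : Subgroup ↥K, Cfsg.IsFrobeniusComplement C ∧ Cfsg.frobeniusKernel C = (H.subgroupOf K : Set ↥K)) ∧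
      (∃ C : Subgroup (G ⧸ H), Cfsg.IsFrobeniusComplement C ∧ Cfsg.frobeniusKernel C = (K.map (QuotientGroup.mk' H) : Set (G ⧸ H)))) := by
  obtain ⟨A, ⟨a, haA, hap, had⟩, ⟨b, hbA, hbp, hbd⟩, hno⟩ := hdisc
  have : Nontrivial G := Finite.one_lt_card_iff_nontrivial.mp
    (lt_of_lt_of_le hap.one_lt (Nat.le_of_dvd Nat.card_pos had))
  obtain ⟨D, hD1, hDn, hDc⟩ := exists_abelian_normal (G := G)
  have hmix : Split A G := fun p q hp hq hpA hqA g hg => hno p hpA q hqA hp hq
    (((dvd_mul_right p q).trans hg.symm.dvd).trans (orderOf_dvd_natCard g))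
    (((dvd_mul_left q p).trans hg.symm.dvd).trans (orderOf_dvd_natCard g)) ⟨g, hg⟩
  rcases pure_of_comm hmix D with h | h
  · exact main A hmix hsol ⟨b, hbA, hbp, hbd⟩ D hD1 h
  · exact main Aᶜ hmix.compl hsol ⟨a, fun h' => h' haA, hap, had⟩ D hD1 h

end Cfsg.Agent.S3857
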