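import Cfsg.Statements.S3858

set_option autoImplicit false
open Cfsg

namespace Cfsg.Agent.S3858

private theorem no_normal {G : Type*} [Group G] [Finite G] (T : Subgroup G) (hT : IsSimpleGroup T)
    (hna : ¬ IsMulCommutative T) {r : ℕ} [Fact r.Prime] (R : Subgroup G) (hR : IsPGroup r R) (hR0 : R ⊓ T ≠ ⊥) :
    ¬ (R ⊓ T).Normal := by
  intro hn
  have h1 : ((R ⊓ T).subgroupOf T).Normal := Subgroup.Normal.subgroupOf hn T
  rcases h1.eq_bot_or_eq_top with h | h
  · rw [Subgroup.subgroupOf_eq_bot, disjoint_iff, inf_assoc, inf_idem] at h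
    exact hR0 h
  · rw [Subgroup.subgroupOf_eq_top] at h
    have hTr : IsPGroup r T := hR.to_le (le_trans h inf_le_left)
    haveI := hT.toNontrivial
    haveI : Nontrivial (Subgroup.center T) := hTr.center_nontrivial
    rcases (inferInstance : (Subgroup.center T).Normal).eq_bot_or_eq_top with h2 | h2
    · exact (Subgroup.nontrivial_iff_ne_bot _).1 inferInstance h2
    · exact hna ⟨⟨fun a b => (Subgroup.mem_center_iff.1 (h2 ▸ Subgroup.mem_top b : b ∈ Subgroup.center T) a)⟩⟩

private theorem conj_coatom {G : Type*} [Group G] (M : Subgroup G) (g : G) (hM : IsCoatom M) :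
    IsCoatom (M.map (MulAut.conj g).toMonoidHom) :=
  (OrderIso.isCoatom_iff (MulAut.conj g).mapSubgroup M).2 hM

private theorem conj_dvd {G : Type*} [Group G] (M : Subgroup G) (g : G) :
    (M.map (MulAut.conj g).toMonoidHom).index = M.index := by
  rw [Subgroup.index_map_of_bijective]
  exact (MulAut.conj g).bijective

private theorem sylow_in {G : Type*} [Group G] [Finite G] {r : ℕ} [Fact r.Prime] (R : Sylow r G)
    (M : Subgroup G) (hM : ¬ r ∣ M.index) : ∃ g : G, (R : Subgroup G).map (MulAut.conj g).toMonoidHom ≤ M := by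
  obtain ⟨S⟩ : Nonempty (Sylow r M) := inferInstance
  have hd : ¬ r ∣ ((S : Subgroup M).map M.subtype).index := by
    rw [Subgroup.index_map_subtype]
    intro h
    rcases (Fact.out : r.Prime).dvd_mul.1 h with h | h
    · exact S.not_dvd_index h
    · exact hM h
  let Q : Sylow r G := (S.2.map M.subtype).toSylow hd
  obtain ⟨g, hg⟩ := MulAction.exists_smul_eq G R Q
  refine ⟨g, ?_⟩
  have e : (R : Subgroup G).map (MulAut.conj g).toMonoidHom = (Q : Subgroup G) := by
    rw [← hg, Sylow.coe_subgroup_smul]; rfl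
  rw [e]
  exact Subgroup.map_subtype_le _

/-- Let G be a finite group with a normal non-abelian simple subgroup T whose centralizer is trivial (G almost simple with socle T), r a prime and R a Sylow r-subgroup of G meeting T nontrivially. Then R lies in exactly one maximal subgroup of G if and only if G has exactly one conjugacy class of maximal subgroups whose index is prime to r. -/
theorem result {G : Type*} [Group G] [Finite G] (T : Subgroup G) [T.Normal] (hT : IsSimpleGroup T) (hna : ¬ IsMulCommutative T)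
    (hC : Subgroup.centralizer (T : Set G) = ⊥) {r : ℕ} [Fact r.Prime] (R : Sylow r G) (hR0 : (R : Subgroup G) ⊓ T ≠ ⊥) :
    (∃! M : Subgroup G, IsCoatom M ∧ (R : Subgroup G) ≤ M) ↔
      ((∃ M : Subgroup G, IsCoatom M ∧ ¬ r ∣ M.index) ∧
        ∀ M₁ M₂ : Subgroup G, IsCoatom M₁ → ¬ r ∣ M₁.index → IsCoatom M₂ → ¬ r ∣ M₂.index → ∃ g : G, M₂ = M₁.map (MulAut.conj g).toMonoidHom) := by
  classical
  have hidx : ∀ M : Subgroup G, (R : Subgroup G) ≤ M → ¬ r ∣ M.index := fun M hle h =>
    R.not_dvd_index (dvd_trans h (Subgroup.index_dvd_of_le hle))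
  constructor
  · rintro ⟨M, ⟨hM, hRM⟩, huniq⟩
    have key : ∀ N : Subgroup G, IsCoatom N → ¬ r ∣ N.index → ∃ g : G, N = M.map (MulAut.conj g).toMonoidHom := by
      intro N hN hd
      obtain ⟨g, hg⟩ := sylow_in R N hd
      refine ⟨g, ?_⟩
      have hle : (R : Subgroup G) ≤ N.map (MulAut.conj g⁻¹).toMonoidHom := fun x hx =>
        ⟨g * x * g⁻¹, hg ⟨x, hx, rfl⟩, by simp [mul_assoc]⟩
      rw [← huniq _ ⟨conj_coatom N g⁻¹ hN, hle⟩, Subgroup.map_map]
      convert (Subgroup.map_id N).symm using 2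
      ext; simp [mul_assoc]
    refine ⟨⟨M, hM, hidx M hRM⟩, fun M₁ M₂ h1 h1' h2 h2' => ?_⟩
    obtain ⟨g₁, rfl⟩ := key M₁ h1 h1'
    obtain ⟨g₂, rfl⟩ := key M₂ h2 h2'
    refine ⟨g₂ * g₁⁻¹, ?_⟩
    rw [Subgroup.map_map]
    congr 1
    ext; simp [mul_assoc]
  · rintro ⟨-, hconj⟩
    have hne : Subgroup.normalizer ((R : Subgroup G) : Set G) ≠ ⊤ := by
      intro h
      haveI := Subgroup.normalizer_eq_top_iff.1 h
      exact no_normal T hT hna _ R.2 hR0 inferInstance
    obtain ⟨M, hM, hNM⟩ := (eq_top_or_exists_le_coatom (Subgroup.normalizer ((R : Subgroup G) : Set G))).resolve_left hne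
    have hRM : (R : Subgroup G) ≤ M := le_trans Subgroup.le_normalizer hNM
    refine ⟨M, ⟨hM, hRM⟩, fun N ⟨hN, hRN⟩ => ?_⟩
    obtain ⟨g, rfl⟩ := hconj M N hM (hidx M hRM) hN (hidx N hRN)
    have hle : (R : Subgroup G).map (MulAut.conj g⁻¹).toMonoidHom ≤ M := by
      rintro _ ⟨x, hx, rfl⟩
      obtain ⟨m, hm, rfl⟩ := hRN hx
      simpa [mul_assoc] using hm
    have hd : ¬ r ∣ ((R : Subgroup G).subgroupOf M).index := fun h =>
      R.not_dvd_index (dvd_trans h (Subgroup.relIndex_dvd_index_of_le hRM))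
    have hP1 : IsPGroup r ((R : Subgroup G).subgroupOf M) :=
      R.2.of_equiv (Subgroup.subgroupOfEquivOfLe hRM).symm
    have hP2 : IsPGroup r (((R : Subgroup G).map (MulAut.conj g⁻¹).toMonoidHom).subgroupOf M) :=
      (R.2.map _).of_equiv (Subgroup.subgroupOfEquivOfLe hle).symm
    obtain ⟨S, hS⟩ := hP2.exists_le_sylow
    obtain ⟨m, hm⟩ := MulAction.exists_smul_eq M (hP1.toSylow hd) S
    have hle2 : (R : Subgroup G).map (MulAut.conj g⁻¹).toMonoidHom ≤ (R : Subgroup G).map (MulAut.conj (m : G)).toMonoidHom := by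
      intro q hq
      have h1 : (⟨q, hle hq⟩ : M) ∈ (S : Subgroup M) := hS hq
      rw [← hm, Sylow.coe_subgroup_smul, Subgroup.mem_smul_pointwise_iff_exists] at h1
      obtain ⟨z, hz, hz2⟩ := h1
      refine ⟨z, hz, ?_⟩
      simpa using congrArg Subtype.val hz2
    have heq := Subgroup.eq_of_le_of_card_ge hle2 (by
      rw [Subgroup.card_map_of_injective (f := (MulAut.conj g⁻¹).toMonoidHom) (MulAut.conj g⁻¹).injective,
        Subgroup.card_map_of_injective (f := (MulAut.conj (m : G)).toMonoidHom) (MulAut.conj (m : G)).injective])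
    have hgm : g * (m : G) ∈ Subgroup.normalizer ((R : Subgroup G) : Set G) := by
      rw [Subgroup.mem_normalizer_iff_map_conj_eq]
      have e1 : (MulAut.conj (g * (m : G))).toMonoidHom = (MulAut.conj g).toMonoidHom.comp (MulAut.conj (m : G)).toMonoidHom := by
        ext; simp [mul_assoc]
      change (R : Subgroup G).map (MulAut.conj (g * (m : G))).toMonoidHom = _
      rw [e1, ← Subgroup.map_map, ← heq, Subgroup.map_map]
      convert Subgroup.map_id _ using 2
      ext; simp [mul_assoc]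
    have hg : g ∈ M := by simpa using mul_mem (hNM hgm) (inv_mem m.2)
    exact Subgroup.mem_normalizer_iff_map_conj_eq.1 (Subgroup.le_normalizer hg)

end Cfsg.Agent.S3858
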