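import Cfsg.Statements.S3859

set_option autoImplicit false
open Cfsg

namespace Cfsg.Agent.S3859

private theorem no_normal {G : Type*} [Group G] [Finite G] (T : Subgroup G) (hT : IsSimpleGroup T)
    (hna : ¬ IsMulCommutative T) {r : ℕ} [Fact r.Prime] (R : Subgroup G) (hR : IsPGroup r R) (hR0 : R ⊓ T ≠ ⊥) :
    ¬ (R ⊓ T).Normal := by
  intro hn
  have h1 : ((R ⊓ T).subgroupOf T).Normal := Subgroup.Normal.subgroupOf hn T
  rcases h1.eq_bot_or_eq_top with h | h
  · rw [Subgroup.subgroupOf_eq_bot, disjoint_iff, inf_assoc, inf_idem] at h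
    exact hR0 h
  · rw [Subgroup.subgroupOf_eq_top] at h
    have hTr : IsPGroup r T := hR.to_le (le_trans h inf_le_left)
    haveI := hT.toNontrivial
    haveI : Nontrivial (Subgroup.center T) := hTr.center_nontrivial
    rcases (inferInstance : (Subgroup.center T).Normal).eq_bot_or_eq_top with h2 | h2
    · exact (Subgroup.nontrivial_iff_ne_bot _).1 inferInstance h2
    · exact hna ⟨⟨fun a b => (Subgroup.mem_center_iff.1 (h2 ▸ Subgroup.mem_top b : b ∈ Subgroup.center T) a)⟩⟩

/-- Let G be a finite group with a normal non-abelian simple subgroup T whose centralizer is trivial (G almost simple with socle T), r a prime and R a Sylow r-subgroup of G meeting T nontrivially. If R lies in exactly one maximal subgroup of G, then G/T is an r-group. -/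
theorem result {G : Type*} [Group G] [Finite G] (T : Subgroup G) [T.Normal] (hT : IsSimpleGroup T) (hna : ¬ IsMulCommutative T)
    (hC : Subgroup.centralizer (T : Set G) = ⊥) {r : ℕ} [Fact r.Prime] (R : Sylow r G) (hR0 : (R : Subgroup G) ⊓ T ≠ ⊥)
    (huniq : ∃! M : Subgroup G, IsCoatom M ∧ (R : Subgroup G) ≤ M) : IsPGroup r (G ⧸ T) := by
  classical
  by_cases htop : (R : Subgroup G) ⊔ T = ⊤
  · have : Function.Surjective ((QuotientGroup.mk' T).comp (R : Subgroup G).subtype) := by
      intro q
      obtain ⟨g, rfl⟩ := QuotientGroup.mk'_surjective T q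
      obtain ⟨x, hx, t, ht, rfl⟩ := Subgroup.mem_sup_of_normal_right.1 (htop ▸ Subgroup.mem_top g : g ∈ (R : Subgroup G) ⊔ T)
      refine ⟨⟨x, hx⟩, ?_⟩
      simp [(QuotientGroup.eq_one_iff t).2 ht]
    exact R.2.of_surjective _ this
  · exfalso
    obtain ⟨M, hM, hle⟩ := (eq_top_or_exists_le_coatom _).resolve_left htop
    set R0 := (R : Subgroup G) ⊓ T with hR0d
    have hRN : (R : Subgroup G) ≤ Subgroup.normalizer (R0 : Set G) := by
      intro x hx
      rw [Subgroup.mem_normalizer_iff]
      intro y
      rw [hR0d, Subgroup.mem_inf, Subgroup.mem_inf, Subgroup.Normal.mem_comm_iff (inferInstance : T.Normal) (a := x * y) (b := x⁻¹),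
        inv_mul_cancel_left]
      refine and_congr_left fun _ => ?_
      exact (Subgroup.mul_mem_cancel_right _ (inv_mem hx)).trans (Subgroup.mul_mem_cancel_left _ hx) |>.symm
    have hne : Subgroup.normalizer (R0 : Set G) ≠ ⊤ := fun h =>
      no_normal T hT hna _ R.2 hR0 (Subgroup.normalizer_eq_top_iff.1 h)
    obtain ⟨M', hM', hle'⟩ := (eq_top_or_exists_le_coatom _).resolve_left hne
    have hMM : M' = M := huniq.unique ⟨hM', le_trans hRN hle'⟩ ⟨hM, le_trans le_sup_left hle⟩
    have hp0 : IsPGroup r (R0.subgroupOf T) :=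
      (R.2.to_le inf_le_left).of_equiv (Subgroup.subgroupOfEquivOfLe inf_le_right).symm
    obtain ⟨S, hS⟩ := hp0.exists_le_sylow
    have hSmap : (S : Subgroup T).map T.subtype = R0 := by
      obtain ⟨Q, hQ⟩ := (S.2.map T.subtype).exists_le_sylow
      obtain ⟨g, hg⟩ := MulAction.exists_smul_eq G R Q
      have h1 : (S : Subgroup T).map T.subtype ≤ R0.map (MulAut.conj g).toMonoidHom := by
        intro y hy
        have hyQ := hQ hy
        rw [← hg, Sylow.coe_subgroup_smul, Subgroup.mem_smul_pointwise_iff_exists] at hyQ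
        obtain ⟨z, hz, rfl⟩ := hyQ
        have hyT : MulAut.conj g • z ∈ T := Subgroup.map_subtype_le _ hy
        refine ⟨z, ⟨hz, ?_⟩, rfl⟩
        have := Subgroup.Normal.conj_mem inferInstance _ hyT g⁻¹
        simpa [mul_assoc] using this
      have h2 : R0 ≤ (S : Subgroup T).map T.subtype := by
        intro y hy
        exact ⟨⟨y, hy.2⟩, hS hy, rfl⟩
      refine (Subgroup.eq_of_le_of_card_ge h2 ?_).symm
      refine le_trans (Subgroup.card_le_of_le h1) ?_
      rw [Subgroup.card_map_of_injective (MulAut.conj g).injective]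
    have hfr := Sylow.normalizer_sup_eq_top S
    rw [hSmap] at hfr
    exact hM.1 (top_le_iff.1 (hfr.ge.trans (sup_le (hle'.trans hMM.le) (le_trans le_sup_right hle))))

end Cfsg.Agent.S3859
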