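import Cfsg.Statements.S3862
import Cfsg.Agent.Transfer.SmallElements

set_option autoImplicit false
open Cfsg

namespace Cfsg.Agent.S3862

/-- If every 2-element of the finite group G that is conjugate to its inverse lies in the centre of G, then G has a normal 2-complement. -/
theorem result {G : Type*} [Group G] [Finite G] (h : ∀ x : G, (∃ j : ℕ, orderOf x = 2 ^ j) → IsConj x x⁻¹ → x ∈ Subgroup.center G) : Cfsg.HasNormalPComplement 2 G := by
  refine CfsgLib.Transfer.frobenius_normal_complement fun Q hQ g hg hgo =>
    CfsgLib.Transfer.le_centralizer_of_real_central h hQ (Q := Subgroup.zpowers g) ?_ ?_ (Subgroup.mem_zpowers g)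
  · rwa [Nat.card_zpowers]
  · exact Subgroup.zpowers_le.2 hg

end Cfsg.Agent.S3862
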