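import Cfsg.Statements.S3863
import Mathlib

set_option autoImplicit false
open Cfsg

namespace Cfsg.Agent.S3863

/-- Let x be an element of the finite group G that is conjugate to its inverse. Then some 2-element conjugates x to its inverse; if the conjugacy class of x has odd size then x ^ 2 = 1; and x lies in, and is conjugate to its inverse inside, every normal subgroup of odd index. -/
theorem result {G : Type*} [Group G] [Finite G] (x : G) (hx : IsConj x x⁻¹) : (∃ t : G, (∃ j : ℕ, orderOf t = 2 ^ j) ∧ t * x * t⁻¹ = x⁻¹) ∧ (Odd (Subgroup.centralizer ({x} : Set G)).index → x ^ 2 = 1) ∧ ∀ (N : Subgroup G) [N.Normal], Odd N.index → ∃ hxN : x ∈ N, IsConj (⟨x, hxN⟩ : N) (⟨x, hxN⟩ : N)⁻¹ := by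
  classical
  obtain ⟨g, hg⟩ := isConj_iff.1 hx
  obtain ⟨k, m, hm, hgo⟩ := Nat.exists_eq_two_pow_mul_odd (orderOf_pos g).ne'
  obtain ⟨l, rfl⟩ := hm
  set t := g ^ (2 * l + 1) with ht
  have h2 : ∀ j : ℕ, g ^ (2 * j) * x * (g ^ (2 * j))⁻¹ = x := by
    intro j
    induction j with
    | zero => simp
    | succ j ih =>
      have e : g * (g * x * g⁻¹) * g⁻¹ = x := by
        rw [hg]
        have := congrArg (·⁻¹) hg
        simp only [mul_inv_rev, inv_inv] at this
        rw [← mul_assoc] at this
        exact this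
      rw [mul_add, mul_one, pow_add, pow_two, mul_inv_rev, mul_inv_rev]
      calc g ^ (2 * j) * (g * g) * x * (g⁻¹ * g⁻¹ * (g ^ (2 * j))⁻¹)
          = g ^ (2 * j) * (g * (g * x * g⁻¹) * g⁻¹) * (g ^ (2 * j))⁻¹ := by simp only [mul_assoc]
        _ = x := by rw [e, ih]
  have htx : t * x * t⁻¹ = x⁻¹ := by
    rw [ht, pow_succ, mul_inv_rev]
    have : g ^ (2 * l) * g * x * (g⁻¹ * (g ^ (2 * l))⁻¹) = g ^ (2 * l) * (g * x * g⁻¹) * (g ^ (2 * l))⁻¹ := by
      simp only [mul_assoc]
    rw [this, hg]
    have := congrArg (·⁻¹) (h2 l)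
    simp only [mul_inv_rev, inv_inv] at this
    rw [mul_assoc]
    exact this
  have hto : orderOf t = 2 ^ k := by
    rw [ht, orderOf_pow' _ (by omega), hgo, Nat.gcd_eq_right (Dvd.intro_left _ rfl), Nat.mul_div_cancel _ (by omega)]
  refine ⟨⟨t, ⟨k, hto⟩, htx⟩, fun hodd => ?_, fun N _ hN => ?_⟩
  · by_contra hsq
    have hxx : x⁻¹ ≠ x := fun e => hsq (by rw [pow_two]; nth_rewrite 1 [← e]; exact inv_mul_cancel x)
    let K : Subgroup G :=
      { carrier := {y | y * x * y⁻¹ = x ∨ y * x * y⁻¹ = x⁻¹}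
        one_mem' := by simp
        mul_mem' := by
          intro a b ha hb
          simp only [Set.mem_setOf_eq] at ha hb ⊢
          have e : a * b * x * (a * b)⁻¹ = a * (b * x * b⁻¹) * a⁻¹ := by simp only [mul_inv_rev, mul_assoc]
          have ei : a * x⁻¹ * a⁻¹ = (a * x * a⁻¹)⁻¹ := by simp only [mul_inv_rev, inv_inv, mul_assoc]
          rw [e]
          rcases hb with hb | hb <;> rw [hb]
          · exact ha
          · rw [ei]
            rcases ha with ha | ha <;> rw [ha] <;> simp
        inv_mem' := by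
          intro a ha
          simp only [Set.mem_setOf_eq, inv_inv] at ha ⊢
          rcases ha with ha | ha
          · left
            conv_lhs => rw [← ha]
            simp [mul_assoc]
          · right
            have ei : a * x⁻¹ * a⁻¹ = x := by
              have := congrArg (·⁻¹) ha
              simpa only [mul_inv_rev, inv_inv, mul_assoc] using this
            conv_lhs => rw [← ei]
            simp [mul_assoc] }
    set C := Subgroup.centralizer ({x} : Set G)
    have hC : ∀ y, y ∈ C ↔ y * x * y⁻¹ = x := fun y => by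
      rw [Subgroup.mem_centralizer_singleton_iff, mul_inv_eq_iff_eq_mul]
    have hCK : C ≤ K := fun y hy => Or.inl ((hC y).1 hy)
    have hgC : g ∉ C := fun h => hxx (by rw [← hg, (hC g).1 h])
    have h2i : C.relIndex K = 2 := by
      rw [Subgroup.relIndex, Subgroup.index_eq_two_iff]
      refine ⟨⟨g, Or.inr hg⟩, fun b => ?_⟩
      simp only [Subgroup.mem_subgroupOf, Subgroup.coe_mul, hC]
      have e : (b : G) * g * x * ((b : G) * g)⁻¹ = ((b : G) * x * (b : G)⁻¹)⁻¹ := by
        have : (b : G) * g * x * ((b : G) * g)⁻¹ = (b : G) * (g * x * g⁻¹) * (b : G)⁻¹ := by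
          simp only [mul_inv_rev, mul_assoc]
        rw [this, hg]; simp only [mul_inv_rev, inv_inv, mul_assoc]
      rcases b.2 with hb | hb
      · refine Or.inr ⟨hb, ?_⟩
        rw [e, hb]; exact hxx
      · refine Or.inl ⟨by rw [e, hb, inv_inv], ?_⟩
        rw [hb]; exact hxx
    have := Subgroup.relIndex_mul_index hCK
    rw [h2i] at this
    rw [← this] at hodd
    exact (Nat.not_odd_iff_even.2 (even_two_mul _)) hodd
  · have hcop : ∀ q : G ⧸ N, Nat.Coprime (orderOf q) 2 := fun q => by
      refine Nat.Coprime.coprime_dvd_left ?_ (Nat.coprime_two_right.2 hN)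
      exact orderOf_dvd_natCard q
    have htN : t ∈ N := by
      rw [← QuotientGroup.eq_one_iff, ← orderOf_eq_one_iff]
      have h1 : orderOf (t : G ⧸ N) ∣ 2 ^ k := hto ▸ orderOf_map_dvd (QuotientGroup.mk' N) t
      exact Nat.eq_one_of_dvd_coprimes ((hcop _).pow_right k) dvd_rfl h1
    have hxN : x ∈ N := by
      rw [← QuotientGroup.eq_one_iff, ← orderOf_eq_one_iff]
      have e := congrArg (QuotientGroup.mk (s := N)) htx
      simp only [QuotientGroup.mk_mul, QuotientGroup.mk_inv, (QuotientGroup.eq_one_iff t).2 htN] at e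
      simp only [one_mul, inv_one, mul_one] at e
      have h1 : orderOf (x : G ⧸ N) ∣ 2 := orderOf_dvd_of_pow_eq_one (by
        rw [pow_two]; nth_rewrite 1 [e]; exact inv_mul_cancel _)
      exact Nat.eq_one_of_dvd_coprimes (hcop _) dvd_rfl h1
    exact ⟨hxN, isConj_iff.2 ⟨⟨t, htN⟩, Subtype.ext htx⟩⟩

end Cfsg.Agent.S3863
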