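import Cfsg.Statements.S3866
import Mathlib.Tactic.Group
import Mathlib.GroupTheory.Index

set_option autoImplicit false
open Cfsg

namespace Cfsg.Agent.S3866

/-- Let A be a commutative normal subgroup of the finite group G with G generated by A and an element x. Then a ↦ x a x⁻¹ a⁻¹ is a surjective homomorphism from A onto the commutator subgroup of G whose kernel is the centralizer of x in A; in particular the commutator subgroup has order equal to the index in A of that centralizer. -/
theorem result {G : Type*} [Group G] [Finite G] (A : Subgroup G) [A.Normal] (hA : IsMulCommutative A) (x : G) (hgen : A ⊔ Subgroup.zpowers x = ⊤) : (∀ a ∈ A, x * a * x⁻¹ * a⁻¹ ∈ commutator G) ∧ (∀ c ∈ commutator G, ∃ a ∈ A, x * a * x⁻¹ * a⁻¹ = c) ∧ (∀ a ∈ A, ∀ b ∈ A, x * (a * b) * x⁻¹ * (a * b)⁻¹ = (x * a * x⁻¹ * a⁻¹) * (x * b * x⁻¹ * b⁻¹)) ∧ Nat.card (commutator G) * Nat.card ↥(A ⊓ Subgroup.centralizer ({x} : Set G)) = Nat.card A := by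
  have hcomm : ∀ a ∈ A, ∀ b ∈ A, a * b = b * a := fun a ha b hb => by
    have := hA.is_comm.comm (⟨a, ha⟩ : A) ⟨b, hb⟩
    exact congrArg Subtype.val this
  have hmemA : ∀ a ∈ A, x * a * x⁻¹ * a⁻¹ ∈ A := fun a ha =>
    mul_mem (Subgroup.Normal.conj_mem inferInstance a ha x) (inv_mem ha)
  have hhom : ∀ a ∈ A, ∀ b ∈ A,
      x * (a * b) * x⁻¹ * (a * b)⁻¹ = (x * a * x⁻¹ * a⁻¹) * (x * b * x⁻¹ * b⁻¹) := by
    intro a ha b hb
    rw [← hcomm (x * b * x⁻¹ * b⁻¹) (hmemA b hb) (x * a * x⁻¹ * a⁻¹) (hmemA a ha)]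
    have h1 : (x * b * x⁻¹) * (x * a * x⁻¹) = (x * a * x⁻¹) * (x * b * x⁻¹) :=
      hcomm _ (Subgroup.Normal.conj_mem inferInstance b hb x) _ (Subgroup.Normal.conj_mem inferInstance a ha x)
    calc x * (a * b) * x⁻¹ * (a * b)⁻¹
        = ((x * a * x⁻¹) * (x * b * x⁻¹)) * (b⁻¹ * a⁻¹) := by group
      _ = ((x * b * x⁻¹) * (x * a * x⁻¹)) * (b⁻¹ * a⁻¹) := by rw [h1]
      _ = (x * b * x⁻¹) * ((x * a * x⁻¹) * b⁻¹) * a⁻¹ := by group
      _ = (x * b * x⁻¹) * (b⁻¹ * (x * a * x⁻¹)) * a⁻¹ := by
          rw [hcomm (x * a * x⁻¹) (Subgroup.Normal.conj_mem inferInstance a ha x) b⁻¹ (inv_mem hb)]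
      _ = (x * b * x⁻¹ * b⁻¹) * (x * a * x⁻¹ * a⁻¹) := by group
  have hin : ∀ a ∈ A, x * a * x⁻¹ * a⁻¹ ∈ commutator G := fun a _ =>
    Subgroup.commutator_mem_commutator (Subgroup.mem_top x) (Subgroup.mem_top a)
  let φ : A →* G := MonoidHom.mk' (fun a => x * (a : G) * x⁻¹ * (a : G)⁻¹) (fun a b => hhom a a.2 b b.2)
  have hnorm : φ.range.Normal := by
    rw [← Subgroup.normalizer_eq_top_iff, ← top_le_iff, ← hgen, sup_le_iff]
    have hAK : ∀ k ∈ φ.range, k ∈ A := by rintro _ ⟨a, rfl⟩; exact hmemA a a.2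
    refine ⟨fun a ha => ?_, ?_⟩
    · rw [Subgroup.mem_normalizer_iff]
      intro k
      constructor
      · intro hk
        rwa [hcomm a ha k (hAK k hk), mul_inv_cancel_right]
      · intro hk
        have e := hcomm a ha _ (hAK _ hk)
        have : a * k * a⁻¹ = k := mul_left_cancel (a := a) (by rw [e]; group)
        rwa [this] at hk
    · rw [Subgroup.zpowers_le, Subgroup.mem_normalizer_iff_map_conj_eq]
      ext k
      simp only [Subgroup.mem_map, MonoidHom.mem_range]
      constructor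
      · rintro ⟨_, ⟨a, rfl⟩, rfl⟩
        refine ⟨⟨x * a * x⁻¹, Subgroup.Normal.conj_mem inferInstance _ a.2 x⟩, ?_⟩
        simp [φ, mul_assoc]
      · rintro ⟨a, rfl⟩
        refine ⟨φ ⟨x⁻¹ * a * x, ?_⟩, ⟨_, rfl⟩, ?_⟩
        · simpa using Subgroup.Normal.conj_mem inferInstance _ a.2 x⁻¹
        · simp [φ, mul_assoc]
  have hle : commutator G ≤ φ.range := by
    rw [commutator_eq_closure, Subgroup.closure_le]
    rintro _ ⟨g, k, rfl⟩
    have key : ∀ u v : G, Commute (QuotientGroup.mk' φ.range u) (QuotientGroup.mk' φ.range v) := by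
      set q := QuotientGroup.mk' φ.range
      have hxA : ∀ a ∈ A, Commute (q x) (q a) := fun a ha => by
        have h1 : q (x * a * x⁻¹ * a⁻¹) = 1 := (QuotientGroup.eq_one_iff _).2 ⟨⟨a, ha⟩, rfl⟩
        rw [map_mul, map_mul, map_mul, map_inv, map_inv, mul_inv_eq_one, mul_inv_eq_iff_eq_mul] at h1
        exact h1
      let S : Finset G → Prop := fun _ => True
      have hgenle : (⊤ : Subgroup G) ≤ (Subgroup.centralizer
          ((Subgroup.map q ⊤ : Subgroup (G ⧸ φ.range)) : Set (G ⧸ φ.range))).comap q := by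
        have hA' : ∀ a ∈ A, ∀ v : G, Commute (q a) (q v) := by
          intro a ha v
          have : (⊤ : Subgroup G) ≤ (Subgroup.centralizer {q a}).comap q := by
            rw [← hgen, sup_le_iff, Subgroup.zpowers_le]
            refine ⟨fun b hb => ?_, ?_⟩
            · rw [Subgroup.mem_comap, Subgroup.mem_centralizer_singleton_iff, ← map_mul, ← map_mul, hcomm b hb a ha]
            · rw [Subgroup.mem_comap, Subgroup.mem_centralizer_singleton_iff]
              exact hxA a ha
          exact (Subgroup.mem_centralizer_singleton_iff.1 (this (Subgroup.mem_top v))).symm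
        rw [← hgen, sup_le_iff, Subgroup.zpowers_le]
        refine ⟨fun a ha => ?_, ?_⟩
        · rw [Subgroup.mem_comap, Subgroup.mem_centralizer_iff]
          rintro _ ⟨v, -, rfl⟩
          exact (hA' a ha v).symm.eq
        · rw [Subgroup.mem_comap, Subgroup.mem_centralizer_iff]
          rintro _ ⟨v, -, rfl⟩
          have : (⊤ : Subgroup G) ≤ (Subgroup.centralizer {q x}).comap q := by
            rw [← hgen, sup_le_iff, Subgroup.zpowers_le]
            refine ⟨fun b hb => ?_, ?_⟩
            · rw [Subgroup.mem_comap, Subgroup.mem_centralizer_singleton_iff]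
              exact (hxA b hb).symm
            · rw [Subgroup.mem_comap, Subgroup.mem_centralizer_singleton_iff]
          exact Subgroup.mem_centralizer_singleton_iff.1 (this (Subgroup.mem_top v))
      intro u v
      exact (Subgroup.mem_centralizer_iff.1 (hgenle (Subgroup.mem_top u)) _ ⟨v, trivial, rfl⟩).symm
    rw [SetLike.mem_coe, ← QuotientGroup.eq_one_iff]
    have := (key g k).eq
    simp only [QuotientGroup.mk'_apply] at this
    simp [commutatorElement_def, this]
  refine ⟨hin, fun c hc => ?_, hhom, ?_⟩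
  · obtain ⟨a, ha⟩ := hle hc
    exact ⟨a, a.2, ha⟩
  · have heq : commutator G = φ.range := le_antisymm hle (by rintro _ ⟨a, rfl⟩; exact hin a a.2)
    have hker : Nat.card φ.ker = Nat.card ↥(A ⊓ Subgroup.centralizer ({x} : Set G)) := by
      have : φ.ker = (A ⊓ Subgroup.centralizer ({x} : Set G)).subgroupOf A := by
        ext a
        rw [MonoidHom.mem_ker, Subgroup.mem_subgroupOf, Subgroup.mem_inf, Subgroup.mem_centralizer_singleton_iff]
        simp only [φ, MonoidHom.mk'_apply, SetLike.coe_mem, true_and]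
        rw [mul_inv_eq_one, mul_inv_eq_iff_eq_mul]
        exact eq_comm
      rw [this]
      exact Nat.card_congr (Subgroup.subgroupOfEquivOfLe inf_le_left).toEquiv
    rw [heq, ← hker, ← Subgroup.index_ker, Subgroup.index_mul_card]

end Cfsg.Agent.S3866
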