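import Cfsg.Statements.S3878
import Cfsg.Agent.Hall.Pi
import Cfsg.Agent.CharBasics.Burnside
import Mathlib.GroupTheory.GroupAction.Jordan
import Mathlib.GroupTheory.Perm.Cycle.Type
import Mathlib.RingTheory.IntegralDomain

set_option autoImplicit false
set_option linter.style.haveILetI false
open Cfsg

namespace Cfsg.Agent.S3878

open scoped Pointwise

variable {π : Set ℕ}

/-- A Hall subgroup contains a conjugate of every subgroup of prime-power order for a prime of π. -/
theorem exists_conj_mem {G : Type*} [Group G] [Finite G] {H : Subgroup G} (hH : Cfsg.IsPiHall π H)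
    {p : ℕ} [hp : Fact p.Prime] (hpπ : p ∈ π) {K : Subgroup G} (hK : IsPGroup p K) :
    ∃ g : G, ∀ k ∈ K, g * k * g⁻¹ ∈ H := by
  obtain ⟨P, hP⟩ := hK.exists_le_sylow
  let Q : Sylow p H := Classical.arbitrary _
  have hQ : IsPGroup p ((Q : Subgroup H).map H.subtype) := Q.isPGroup'.map _
  obtain ⟨R, hR⟩ := hQ.exists_le_sylow
  have hcardQ : Nat.card ((Q : Subgroup H).map H.subtype) = Nat.card R := by
    rw [Subgroup.card_map_of_injective H.subtype_injective, Q.card_eq_multiplicity,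
      R.card_eq_multiplicity, ← H.card_mul_index]
    congr 1
    rw [Nat.factorization_mul Nat.card_pos.ne' Subgroup.index_ne_zero_of_finite]
    rw [Finsupp.add_apply, Nat.factorization_eq_zero_of_not_dvd (hH.2 p hp.out hpπ), add_zero]
  have hRH : (R : Subgroup G) ≤ H := by
    rw [← Subgroup.eq_of_le_of_card_ge hR hcardQ.ge]
    exact Subgroup.map_subtype_le _
  obtain ⟨g, hg⟩ := MulAction.exists_smul_eq G P R
  refine ⟨g, fun k hk => hRH ?_⟩
  rw [← hg]
  exact Subgroup.mem_map.2 ⟨k, hP hk, rfl⟩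

theorem exists_conj_mem_elt {G : Type*} [Group G] [Finite G] {H : Subgroup G} (hH : Cfsg.IsPiHall π H)
    {p : ℕ} [hp : Fact p.Prime] (hpπ : p ∈ π) {x : G} {k : ℕ} (hx : orderOf x ∣ p ^ k) :
    ∃ g : G, g * x * g⁻¹ ∈ H := by
  obtain ⟨j, -, hj⟩ := (Nat.dvd_prime_pow hp.out).1 hx
  have hK : IsPGroup p (Subgroup.zpowers x) :=
    IsPGroup.of_card (n := j) (by rw [Nat.card_zpowers, hj])
  obtain ⟨g, hg⟩ := exists_conj_mem hH hpπ hK
  exact ⟨g, hg x (Subgroup.mem_zpowers x)⟩

/-- 2 and an odd prime `q` in π, a prime `r` outside: no Hall π-subgroup in a large symmetric group. -/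
theorem case_two {q r : ℕ} (hq : q.Prime) (hq2 : q ≠ 2) (hr : r.Prime) (h2π : 2 ∈ π) (hqπ : q ∈ π)
    (hrπ : r ∉ π) : ∃ (G : Type) (_ : Group G) (_ : Finite G), ¬ Cfsg.IsEPiGroup π G := by
  set m := q ^ r with hm
  haveI := Fact.mk hq
  haveI : Fact (Nat.Prime 2) := ⟨Nat.prime_two⟩
  haveI : NeZero m := ⟨(pow_pos hq.pos r).ne'⟩
  have hmr : r ≤ m := (Nat.lt_pow_self hq.one_lt).le
  refine ⟨Equiv.Perm (Option (ZMod m)), inferInstance, inferInstance, ?_⟩
  rintro ⟨H, hH⟩
  let c : Equiv.Perm (Option (ZMod m)) := Equiv.optionCongr (Equiv.addRight (1 : ZMod m))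
  have hc : ∀ (k : ℕ) (x : ZMod m), (c ^ k) (some x) = some (x + k) ∧ (c ^ k) none = none := by
    intro k x
    induction k with
    | zero => simp
    | succ k ih =>
      rw [pow_succ', Equiv.Perm.mul_apply, Equiv.Perm.mul_apply, ih.1, ih.2]
      refine ⟨?_, rfl⟩
      simp only [c, Equiv.optionCongr_apply, Option.map_some, Equiv.coe_addRight]
      push_cast
      rw [add_assoc]
  have hco : orderOf c ∣ q ^ r := by
    apply orderOf_dvd_of_pow_eq_one
    ext1 z
    cases z with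
    | none => rw [(hc _ 0).2]; rfl
    | some x => rw [(hc _ x).1, ← hm, ZMod.natCast_self, add_zero]; rfl
  obtain ⟨g, hg⟩ := exists_conj_mem_elt hH hqπ hco
  let t : Equiv.Perm (Option (ZMod m)) :=
    Equiv.swap none (some 0) * Equiv.optionCongr (Equiv.neg (ZMod m))
  have hodd : Odd m := (hq.odd_of_ne_two hq2).pow
  have hneg : ∀ x : ZMod m, -x = x → x = 0 := by
    intro x hx
    exact ZMod.neg_eq_self_iff x |>.1 hx |>.resolve_right (by
      intro h2
      exact (Nat.not_even_iff_odd.2 hodd) ⟨x.val, by omega⟩)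
  have htfp : ∀ z, t z ≠ z := by
    intro z
    cases z with
    | none => simp [t]
    | some x =>
      by_cases h0 : x = 0
      · subst h0; simp [t]
      · simp only [t, Equiv.Perm.mul_apply, Equiv.optionCongr_apply, Option.map_some, Equiv.neg_apply]
        rw [Equiv.swap_apply_of_ne_of_ne (by simp) (by simpa using h0)]
        simpa using fun h => h0 (hneg x h)
  have hto : orderOf t ∣ 2 ^ 1 := by
    apply orderOf_dvd_of_pow_eq_one
    ext1 z
    rw [pow_one, pow_two, Equiv.Perm.mul_apply]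
    cases z with
    | none => simp [t]
    | some x =>
      by_cases h0 : x = 0
      · subst h0; simp [t]
      · have hx' : -x ≠ 0 := neg_ne_zero.2 h0
        simp [t, Equiv.swap_apply_of_ne_of_ne, h0, hx']
  obtain ⟨g', hg'⟩ := exists_conj_mem_elt hH h2π hto
  set w := g none with hw
  -- the stabilizer of `w` in `H` is transitive on the other points
  have hstab : ∀ a b : Option (ZMod m), a ≠ w → b ≠ w → ∃ h ∈ H, h w = w ∧ h a = b := by
    intro a b ha hb
    obtain ⟨x, hx⟩ : ∃ x, g⁻¹ a = some x := by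
      cases hc' : g⁻¹ a with
      | none => exact absurd (by rw [hw, ← hc']; simp) ha
      | some x => exact ⟨x, rfl⟩
    obtain ⟨y, hy⟩ : ∃ y, g⁻¹ b = some y := by
      cases hc' : g⁻¹ b with
      | none => exact absurd (by rw [hw, ← hc']; simp) hb
      | some x => exact ⟨x, rfl⟩
    refine ⟨(g * c * g⁻¹) ^ (y - x).val, pow_mem hg _, ?_, ?_⟩
    · rw [conj_pow, Equiv.Perm.mul_apply, Equiv.Perm.mul_apply, hw]
      simp [(hc _ 0).2]
    · rw [conj_pow, Equiv.Perm.mul_apply, Equiv.Perm.mul_apply, hx, (hc _ x).1, ZMod.natCast_val,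
        ZMod.cast_id, add_sub_cancel, ← hy]
      simp
  -- transitivity
  have hmove : (g' * t * g'⁻¹) w ≠ w := by
    intro h
    apply htfp (g'⁻¹ w)
    apply g'.injective
    simpa [Equiv.Perm.mul_apply] using h
  have htrans : ∀ a, ∃ h ∈ H, h a = w := by
    intro a
    by_cases ha : a = w
    · exact ⟨1, one_mem _, by simp [ha]⟩
    obtain ⟨h, hh, -, h2⟩ := hstab ((g' * t * g'⁻¹) w) a hmove ha
    refine ⟨(h * (g' * t * g'⁻¹))⁻¹, inv_mem (mul_mem hh hg'), ?_⟩
    rw [Equiv.Perm.inv_eq_iff_eq, Equiv.Perm.mul_apply, h2]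
  have hprim : MulAction.IsPreprimitive H (Option (ZMod m)) := by
    apply MulAction.isPreprimitive_of_is_two_pretransitive
    rw [MulAction.is_two_pretransitive_iff]
    intro a b d e hab hde
    obtain ⟨u, hu, hua⟩ := htrans a
    obtain ⟨v, hv, hvd⟩ := htrans d
    obtain ⟨s, hs, hsw, hse⟩ := hstab (u b) (v e) (fun h => hab (u.injective (hua.trans h.symm)))
      (fun h => hde (v.injective (hvd.trans h.symm)))
    refine ⟨⟨v⁻¹ * s * u, mul_mem (mul_mem (inv_mem hv) hs) hu⟩, ?_, ?_⟩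
    · show v⁻¹ (s (u a)) = d
      rw [hua, hsw, ← hvd]; simp
    · show v⁻¹ (s (u b)) = e
      rw [hse]; simp
  classical
  obtain ⟨g'', hg''⟩ := exists_conj_mem_elt hH h2π (x := Equiv.swap (none : Option (ZMod m)) (some 0))
    (k := 1) (by rw [pow_one]; exact orderOf_dvd_of_pow_eq_one (by rw [pow_two, Equiv.swap_mul_self]))
  have hswap : Equiv.Perm.IsSwap (g'' * Equiv.swap (none : Option (ZMod m)) (some 0) * g''⁻¹) := by
    refine ⟨g'' none, g'' (some 0), fun h => Option.some_ne_none _ (g''.injective h).symm, ?_⟩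
    rw [Equiv.swap_apply_apply]
  have htop := Equiv.Perm.subgroup_eq_top_of_isPreprimitive_of_isSwap_mem hprim _ hswap hg''
  apply hrπ
  apply hH.1 r hr
  rw [htop, Subgroup.card_top, Nat.card_perm]
  exact hr.dvd_factorial.2 (by simp; omega)

/-- Two odd primes in π, the smallest ones: no Hall π-subgroup in `Sym q`. -/
theorem case_odd {p q : ℕ} (hp : p.Prime) (hq : q.Prime) (hp2 : p ≠ 2) (hpq : p < q) (hpπ : p ∈ π)
    (hqπ : q ∈ π) (hmin : ∀ s : ℕ, s.Prime → s ∈ π → s ≤ q → s = p ∨ s = q) :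
    ∃ (G : Type) (_ : Group G) (_ : Finite G), ¬ Cfsg.IsEPiGroup π G := by
  haveI := Fact.mk hp
  haveI := Fact.mk hq
  refine ⟨Equiv.Perm (Fin q), inferInstance, inferInstance, ?_⟩
  rintro ⟨H, hH⟩
  classical
  have hcardG : Nat.card (Equiv.Perm (Fin q)) = q.factorial := by
    rw [Nat.card_perm, Nat.card_fin]
  have hHdvd : Nat.card H ∣ q.factorial := hcardG ▸ H.card_subgroup_dvd_card
  obtain ⟨c₀, hc₀⟩ := exists_prime_orderOf_dvd_card' (G := Equiv.Perm (Fin q)) q
    (hcardG ▸ Nat.dvd_factorial hq.pos le_rfl)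
  obtain ⟨g, hg⟩ := exists_conj_mem_elt hH hqπ (x := c₀) (k := 1) (by rw [hc₀, pow_one])
  set c := g * c₀ * g⁻¹ with hcdef
  have hc : orderOf c = q :=
    (orderOf_injective (MulAut.conj g).toMonoidHom (MulAut.conj g).injective c₀).trans hc₀
  have hcyc : c.IsCycle :=
    Equiv.Perm.isCycle_of_prime_order'' (by simpa using hq) (by simpa using hc)
  have hsupp : c.support = Finset.univ := by
    apply Finset.eq_univ_of_card
    rw [← hcyc.orderOf, hc, Fintype.card_fin]
  have htr : ∀ a b : Fin q, ∃ k : ℤ, (c ^ k) a = b := fun a b =>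
    hcyc.sameCycle (Equiv.Perm.mem_support.1 (by rw [hsupp]; exact Finset.mem_univ _))
      (Equiv.Perm.mem_support.1 (by rw [hsupp]; exact Finset.mem_univ _))
  have hcent : ∀ x : Equiv.Perm (Fin q), Commute x c → x ∈ Subgroup.zpowers c := by
    intro x hx
    obtain ⟨k, hk⟩ := htr ⟨0, hq.pos⟩ (x ⟨0, hq.pos⟩)
    refine ⟨k, ?_⟩
    ext1 b
    obtain ⟨l, rfl⟩ := htr ⟨0, hq.pos⟩ b
    show (c ^ k) ((c ^ l) ⟨0, hq.pos⟩) = x ((c ^ l) ⟨0, hq.pos⟩)
    rw [← Equiv.Perm.mul_apply x, (hx.zpow_right l).eq, Equiv.Perm.mul_apply, ← hk,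
      ← Equiv.Perm.mul_apply, ← Equiv.Perm.mul_apply, (Commute.zpow_zpow_self c k l).eq]
  let c' : H := ⟨c, hg⟩
  have hc' : orderOf c' = q := (Subgroup.orderOf_coe c').symm.trans hc
  haveI : Group.IsSolvable H := by
    refine CfsgLib.CharBasics.isSolvable_two_primes p q fun s hs hsd => ?_
    exact hmin s hs (hH.1 s hs hsd) (hs.dvd_factorial.1 (hsd.trans hHdvd))
  haveI : Nontrivial H := ⟨⟨c', 1, fun h => hq.ne_one (by rw [← hc', h, orderOf_one])⟩⟩
  obtain ⟨A, hAn, hA, hAab⟩ : ∃ A : Subgroup H, A.Normal ∧ A ≠ ⊥ ∧ ∀ x ∈ A, ∀ y ∈ A, x * y = y * x := by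
    have hex : ∃ n, derivedSeries H n = ⊥ := Group.IsSolvable.solvable
    obtain ⟨n, hn⟩ : ∃ n, Nat.find hex = n + 1 := by
      refine Nat.exists_eq_succ_of_ne_zero fun h0 => ?_
      have := Nat.find_spec hex
      rw [h0, derivedSeries_zero] at this
      exact top_ne_bot this
    refine ⟨derivedSeries H n, inferInstance, Nat.find_min hex (by omega), fun x hx y hy => ?_⟩
    have := Nat.find_spec hex
    rw [hn, derivedSeries_succ] at this
    have h1 := Subgroup.commutator_mem_commutator hx hy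
    rw [this, Subgroup.mem_bot, commutatorElement_eq_one_iff_mul_comm] at h1
    exact h1
  haveI := hAn
  have hqA : q ∣ Nat.card A := by
    by_contra hcon
    have hAp : IsPGroup p A := by
      obtain ⟨k, hk⟩ : ∃ k, Nat.card A = p ^ k := by
        refine ⟨_, Nat.eq_prime_pow_of_unique_prime_dvd Nat.card_pos.ne' ?_⟩
        intro s hs hsd
        have h2 : s ∣ Nat.card H := hsd.trans A.card_subgroup_dvd_card
        rcases hmin s hs (hH.1 s hs h2) (hs.dvd_factorial.1 (h2.trans hHdvd)) with h | h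
        · exact h
        · exact absurd (h ▸ hsd) hcon
      exact IsPGroup.of_card hk
    have hmod := hAp.card_modEq_card_fixedPoints (Fin q)
    have hne : (MulAction.fixedPoints A (Fin q)).Nonempty := by
      by_contra he
      rw [Set.not_nonempty_iff_eq_empty] at he
      rw [he, Nat.card_fin] at hmod
      simp only [Nat.card_of_isEmpty] at hmod
      exact hpq.ne ((Nat.prime_dvd_prime_iff_eq hp hq).1 (Nat.modEq_zero_iff_dvd.1 hmod))
    obtain ⟨w, hw⟩ := hne
    apply hA
    rw [Subgroup.eq_bot_iff_forall]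
    intro a ha
    apply Subtype.ext
    apply Equiv.ext
    intro b
    obtain ⟨k, rfl⟩ := htr w b
    have hmem : (c' ^ k)⁻¹ * a * (c' ^ k) ∈ A := by
      simpa using hAn.conj_mem a ha (c' ^ k)⁻¹
    have h1 : ((c' ^ k)⁻¹ * a * (c' ^ k) : H).1 w = w := hw ⟨_, hmem⟩
    simp only [Subgroup.coe_mul, Subgroup.coe_inv, SubgroupClass.coe_zpow, Equiv.Perm.mul_apply] at h1
    rw [Equiv.Perm.inv_eq_iff_eq] at h1
    exact h1
  have hcA : c' ∈ A := by
    by_contra hcon
    have hinf : A ⊓ Subgroup.zpowers c' = ⊥ := by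
      rw [Subgroup.eq_bot_iff_forall]
      intro x hx
      by_contra hx1
      obtain ⟨j, hj⟩ := Subgroup.mem_zpowers_iff.1 hx.2
      have hox : orderOf x = q := by
        have hd : orderOf x ∣ q := (orderOf_dvd_of_mem_zpowers hx.2).trans hc'.dvd
        exact ((Nat.dvd_prime hq).1 hd).resolve_left fun h => hx1 (orderOf_eq_one_iff.1 h)
      have hz : Subgroup.zpowers x = Subgroup.zpowers c' :=
        Subgroup.eq_of_le_of_card_ge (Subgroup.zpowers_le.2 hx.2)
          (by rw [Nat.card_zpowers, Nat.card_zpowers, hox, hc'])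
      exact hcon (Subgroup.zpowers_le.2 hx.1 (hz ▸ Subgroup.mem_zpowers c'))
    have hcs := CfsgLib.Hall.card_sup_mul_card_inf A (Subgroup.zpowers c')
    rw [hinf, Subgroup.card_bot, mul_one, Nat.card_zpowers, hc'] at hcs
    have h2 : q * q ∣ q.factorial :=
      (Nat.mul_dvd_mul_right hqA q).trans
        (hcs ▸ (Subgroup.card_subgroup_dvd_card _).trans hHdvd)
    rw [← Nat.mul_factorial_pred hq.ne_zero] at h2
    have h3 := Nat.dvd_of_mul_dvd_mul_left hq.pos h2
    have := hq.dvd_factorial.1 h3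
    omega
  have hnorm : ∀ h ∈ H, h * c * h⁻¹ ∈ Subgroup.zpowers c := by
    intro h hh
    apply hcent
    have := hAab _ (hAn.conj_mem c' hcA ⟨h, hh⟩) _ hcA
    exact congrArg Subtype.val this
  let Z : Subgroup H := Subgroup.zpowers c'
  haveI hZn : Z.Normal := ⟨fun x hx h => by
    obtain ⟨j, rfl⟩ := Subgroup.mem_zpowers_iff.1 hx
    rw [← conj_zpow]
    apply zpow_mem
    obtain ⟨i, hi⟩ := Subgroup.mem_zpowers_iff.1 (hnorm h.1 h.2)
    exact ⟨i, Subtype.ext (by simpa [c'] using hi)⟩⟩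
  have hZcard : Nat.card Z = q := by rw [Nat.card_zpowers, hc']
  haveI : IsCyclic (MulAut Z) := by
    haveI : IsCyclic (ZMod (Nat.card Z))ˣ := by rw [hZcard]; infer_instance
    exact isCyclic_of_surjective _ (IsCyclic.mulAutMulEquiv Z).symm.surjective
  have hinj : ∀ x : H, orderOf x ∣ p → MulAut.conjNormal (H := Z) x = 1 → x = 1 := by
    intro x hxp hx1
    have hcom : Commute x.1 c := by
      have h1 := DFunLike.congr_fun hx1 ⟨c', Subgroup.mem_zpowers c'⟩
      have h2 := congrArg (fun z : Z => ((z : H) : Equiv.Perm (Fin q))) h1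
      simp only [MulAut.conjNormal_apply, Subgroup.coe_mul, Subgroup.coe_inv, MulAut.one_apply] at h2
      exact mul_inv_eq_iff_eq_mul.1 h2
    have h3 : orderOf x ∣ q := (Subgroup.orderOf_coe x).symm.dvd.trans
      ((orderOf_dvd_of_mem_zpowers (hcent _ hcom)).trans hc.dvd)
    have h4 := Nat.dvd_gcd hxp h3
    rw [Nat.coprime_primes hp hq |>.2 hpq.ne, Nat.dvd_one] at h4
    exact orderOf_eq_one_iff.1 h4
  have hautcard : Nat.card (MulAut Z) = q - 1 := by
    rw [IsCyclic.card_mulAut, hZcard, Nat.totient_prime hq]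
  by_cases h2p : 2 * p ≤ q
  · -- two disjoint `p`-cycles
    let e : ((ZMod p ⊕ ZMod p) ⊕ Fin (q - 2 * p)) ≃ Fin q := Fintype.equivFinOfCardEq (by simp; omega)
    let T : Multiplicative (ZMod p) →* Equiv.Perm (ZMod p) :=
      { toFun := fun a => Equiv.addRight a.toAdd
        map_one' := by ext; simp
        map_mul' := fun a b => by ext; simp [add_comm, add_left_comm] }
    have hTinj : Function.Injective T := fun a b h => by
      simpa [T] using DFunLike.congr_fun h 0
    let f : Multiplicative (ZMod p) × Multiplicative (ZMod p) →* Equiv.Perm (Fin q) :=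
      e.permCongrHom.toMonoidHom.comp ((Equiv.Perm.sumCongrHom _ (Fin (q - 2 * p))).comp
        ((MonoidHom.inl _ _).comp ((Equiv.Perm.sumCongrHom _ _).comp (MonoidHom.prodMap T T))))
    have hfinj : Function.Injective f := by
      intro a b h
      have h1 := Equiv.Perm.sumCongrHom_injective (e.permCongrHom.injective h)
      have h2 := Equiv.Perm.sumCongrHom_injective (congrArg Prod.fst h1)
      exact Prod.ext (hTinj (congrArg Prod.fst h2)) (hTinj (congrArg Prod.snd h2))
    have hfp : ∀ a, a ^ p = (1 : Multiplicative (ZMod p) × Multiplicative (ZMod p)) := by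
      intro a
      have : ∀ b : Multiplicative (ZMod p), b ^ p = 1 := fun b => by
        apply Multiplicative.toAdd.injective
        simp
      exact Prod.ext (this a.1) (this a.2)
    have hfrange : IsPGroup p f.range := by
      refine IsPGroup.of_card (n := 2) ?_
      rw [← Nat.card_congr (MonoidHom.ofInjective hfinj).toEquiv, Nat.card_prod]
      simp [pow_two]
    obtain ⟨g₁, hg₁⟩ := exists_conj_mem hH hpπ hfrange
    let F : Multiplicative (ZMod p) × Multiplicative (ZMod p) →* H :=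
      ((MulAut.conj g₁).toMonoidHom.comp f).codRestrict H (fun a => hg₁ _ ⟨a, rfl⟩)
    let Φ := (MulAut.conjNormal (H := Z)).comp F
    have hΦ : Function.Injective Φ := by
      rw [injective_iff_map_eq_one]
      intro a ha
      have h1 : F a = 1 := hinj _ (orderOf_dvd_of_pow_eq_one (by rw [← map_pow, hfp, map_one])) ha
      have h2 : g₁ * f a * g₁⁻¹ = 1 := congrArg Subtype.val h1
      exact hfinj (by rw [map_one]; exact conj_eq_one_iff.1 h2)
    haveI : IsCyclic (Multiplicative (ZMod p) × Multiplicative (ZMod p)) :=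
      isCyclic_of_injective Φ hΦ
    have h5 := IsCyclic.exponent_eq_card (α := Multiplicative (ZMod p) × Multiplicative (ZMod p))
    have h6 : Monoid.exponent (Multiplicative (ZMod p) × Multiplicative (ZMod p)) ∣ p :=
      Monoid.exponent_dvd_of_forall_pow_eq_one hfp
    rw [h5, Nat.card_prod] at h6
    simp only [Nat.card_eq_fintype_card, Fintype.card_multiplicative, ZMod.card] at h6
    have := Nat.le_of_dvd hp.pos h6
    nlinarith [hp.two_le]
  · -- `p` divides `q - 1`
    obtain ⟨x, hx⟩ := exists_prime_orderOf_dvd_card' (G := Equiv.Perm (Fin q)) p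
      (hcardG ▸ Nat.dvd_factorial hp.pos hpq.le)
    obtain ⟨g₁, hg₁⟩ := exists_conj_mem_elt hH hpπ (x := x) (k := 1) (by rw [hx, pow_one])
    have hy : orderOf (⟨g₁ * x * g₁⁻¹, hg₁⟩ : H) = p := by
      rw [← Subgroup.orderOf_coe, ← hx]
      exact orderOf_injective (MulAut.conj g₁).toMonoidHom (MulAut.conj g₁).injective x
    have hord : orderOf (MulAut.conjNormal (H := Z) (⟨g₁ * x * g₁⁻¹, hg₁⟩ : H)) = p := by
      refine ((Nat.dvd_prime hp).1 (hy ▸ orderOf_map_dvd _ _)).resolve_left fun h => ?_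
      have := hinj _ hy.dvd (orderOf_eq_one_iff.1 h)
      rw [this, orderOf_one] at hy
      exact hp.ne_one hy.symm
    have hdvd : p ∣ q - 1 := hautcard ▸ hord ▸ orderOf_dvd_natCard _
    obtain ⟨k, hk⟩ := hdvd
    have hk1 : k = 1 := by
      rcases k with _ | _ | k
      · omega
      · rfl
      · have : 2 * p ≤ p * (k + 1 + 1) := by rw [mul_comm 2 p]; exact Nat.mul_le_mul le_rfl (by omega)
        omega
    subst hk1
    obtain ⟨a, ha⟩ := hp.odd_of_ne_two hp2
    obtain ⟨b, hb⟩ := hq.odd_of_ne_two (by omega)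
    omega

theorem hall_or (π : Set ℕ) (h : ∀ (G : Type) [Group G] [Finite G], Cfsg.IsEPiGroup π G) :
    (∀ p q : ℕ, p.Prime → q.Prime → p ∈ π → q ∈ π → p = q) ∨ ∀ p : ℕ, p.Prime → p ∈ π := by
  classical
  by_contra hcon
  push Not at hcon
  obtain ⟨⟨a, b, ha, hb, haπ, hbπ, hab⟩, r, hr, hrπ⟩ := hcon
  have key : ∃ (G : Type) (_ : Group G) (_ : Finite G), ¬ Cfsg.IsEPiGroup π G := by
    by_cases h2 : 2 ∈ π
    · obtain ⟨q, hq, hqπ, hq2⟩ : ∃ q, q.Prime ∧ q ∈ π ∧ q ≠ 2 := by
        by_cases ha2 : a = 2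
        · exact ⟨b, hb, hbπ, by omega⟩
        · exact ⟨a, ha, haπ, ha2⟩
      exact case_two hq hq2 hr h2 hqπ hrπ
    · have hex : ∃ p, p.Prime ∧ p ∈ π := ⟨a, ha, haπ⟩
      obtain ⟨hp, hpπ⟩ := Nat.find_spec hex
      set p := Nat.find hex
      have hex2 : ∃ q, q.Prime ∧ q ∈ π ∧ q ≠ p := by
        by_cases hap : a = p
        · exact ⟨b, hb, hbπ, by omega⟩
        · exact ⟨a, ha, haπ, hap⟩
      obtain ⟨hq, hqπ, hqp⟩ := Nat.find_spec hex2
      set q := Nat.find hex2
      have hpq : p < q := lt_of_le_of_ne (Nat.find_min' hex ⟨hq, hqπ⟩) (Ne.symm hqp)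
      refine case_odd hp hq (fun h => h2 (h ▸ hpπ)) hpq hpπ hqπ fun s hs hsπ hsq => ?_
      by_cases hsp : s = p
      · exact Or.inl hsp
      · exact Or.inr (le_antisymm hsq (Nat.find_min' hex2 ⟨hs, hsπ, hsp⟩))
  obtain ⟨G, i1, i2, hG⟩ := key
  exact hG (@h G i1 i2)

theorem ePi_of (π : Set ℕ)
    (h : (∀ p q : ℕ, p.Prime → q.Prime → p ∈ π → q ∈ π → p = q) ∨ ∀ p : ℕ, p.Prime → p ∈ π)
    (G : Type) [Group G] [Finite G] : Cfsg.IsEPiGroup π G := by
  rcases h with h | h
  · by_cases hex : ∃ p, p.Prime ∧ p ∈ π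
    · obtain ⟨p, hp, hpπ⟩ := hex
      haveI := Fact.mk hp
      let P : Sylow p G := Classical.arbitrary _
      refine ⟨P, CfsgLib.Hall.isPiSubgroup_of_isPGroup hp hpπ P.isPGroup', fun q hq hqπ => ?_⟩
      rw [h q p hq hp hqπ hpπ]
      exact P.not_dvd_index
    · push Not at hex
      exact ⟨⊥, CfsgLib.Hall.isPiSubgroup_bot, fun q hq hqπ => absurd hqπ (hex q hq)⟩
  · exact ⟨⊤, fun p hp _ => h p hp, fun p hp _ => by simpa using hp.not_dvd_one⟩

theorem ePi_of_dPi (π : Set ℕ) (G : Type) [Group G] [Finite G] (h : Cfsg.IsDPiGroup π G) :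
    Cfsg.IsEPiGroup π G := by
  have hfin : {K : Subgroup G | Cfsg.IsPiSubgroup π K}.Finite := Set.toFinite _
  obtain ⟨H, -, hH⟩ := hfin.exists_le_maximal (a := ⊥) CfsgLib.Hall.isPiSubgroup_bot
  refine ⟨H, hH.1, fun p hp hpπ hd => ?_⟩
  haveI := Fact.mk hp
  let P : Sylow p G := Classical.arbitrary _
  obtain ⟨K, hPK, hK⟩ := hfin.exists_le_maximal (a := (P : Subgroup G))
    (CfsgLib.Hall.isPiSubgroup_of_isPGroup hp hpπ P.isPGroup')
  obtain ⟨g, rfl⟩ := h H K hH hK
  have h2 : (H.map (MulAut.conj g).toMonoidHom).index = H.index :=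
    Subgroup.index_map_equiv H (MulAut.conj g)
  exact P.not_dvd_index (hd.trans (h2 ▸ Subgroup.index_dvd_of_le hPK))

theorem dPi_of (π : Set ℕ)
    (h : (∀ p q : ℕ, p.Prime → q.Prime → p ∈ π → q ∈ π → p = q) ∨ ∀ p : ℕ, p.Prime → p ∈ π)
    (G : Type) [Group G] [Finite G] : Cfsg.IsDPiGroup π G := by
  intro H K hH hK
  rcases h with h | h
  · by_cases hex : ∃ p, p.Prime ∧ p ∈ π
    · obtain ⟨p, hp, hpπ⟩ := hex
      haveI := Fact.mk hp
      have aux : ∀ L : Subgroup G, Maximal (Cfsg.IsPiSubgroup π) L → ∃ P : Sylow p G, L = P := by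
        intro L hL
        have hLp : IsPGroup p L := IsPGroup.of_card
          (Nat.eq_prime_pow_of_unique_prime_dvd Nat.card_pos.ne'
            fun {s} hs hsd => h s p hs hp (hL.1 s hs hsd) hpπ)
        obtain ⟨P, hP⟩ := hLp.exists_le_sylow
        exact ⟨P, le_antisymm hP (hL.2 (CfsgLib.Hall.isPiSubgroup_of_isPGroup hp hpπ P.isPGroup') hP)⟩
      obtain ⟨P, rfl⟩ := aux H hH
      obtain ⟨Q, rfl⟩ := aux K hK
      obtain ⟨g, rfl⟩ := MulAction.exists_smul_eq G P Q
      exact ⟨g, rfl⟩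
    · push Not at hex
      have aux : ∀ L : Subgroup G, Cfsg.IsPiSubgroup π L → L = ⊥ := by
        intro L hL
        rw [← Subgroup.card_eq_one]
        by_contra h1
        obtain ⟨s, hs, hsd⟩ := Nat.exists_prime_and_dvd h1
        exact hex s hs (hL s hs hsd)
      exact ⟨1, by rw [aux H hH.1, aux K hK.1, Subgroup.map_bot]⟩
  · have aux : ∀ L : Subgroup G, Maximal (Cfsg.IsPiSubgroup π) L → L = ⊤ := fun L hL =>
      top_le_iff.1 (hL.2 (fun p hp _ => h p hp) le_top)
    refine ⟨1, ?_⟩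
    rw [aux H hH, aux K hK, Subgroup.map_top_of_surjective _ (MulAut.conj (1 : G)).surjective]

/-- For a set of primes π the following are equivalent: every finite group has a Hall π-subgroup; in every finite group the maximal π-subgroups are pairwise conjugate; π contains at most one prime or contains every prime. -/
theorem result (π : Set ℕ) :
    ((∀ (G : Type) [Group G] [Finite G], Cfsg.IsEPiGroup π G) ↔
      ((∀ p q : ℕ, p.Prime → q.Prime → p ∈ π → q ∈ π → p = q) ∨ ∀ p : ℕ, p.Prime → p ∈ π)) ∧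
    ((∀ (G : Type) [Group G] [Finite G], Cfsg.IsDPiGroup π G) ↔
      ((∀ p q : ℕ, p.Prime → q.Prime → p ∈ π → q ∈ π → p = q) ∨ ∀ p : ℕ, p.Prime → p ∈ π)) :=
  ⟨⟨hall_or π, fun h G _ _ => ePi_of π h G⟩,
    ⟨fun h => hall_or π fun G _ _ => ePi_of_dPi π G (h G), fun h G _ _ => dPi_of π h G⟩⟩

end Cfsg.Agent.S3878
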