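import Cfsg.Statements.S3880
import Mathlib
import Cfsg.Agent.Metacyclic.Basic

set_option autoImplicit false
open Cfsg

namespace Cfsg.Agent.S3880

/-- Let p be an odd prime and G a finite metacyclic p-group (G has a cyclic normal subgroup with cyclic quotient). Then a subgroup L of G is abelian if and only if |L| ≤ |G : G'|, and L is a maximal abelian subgroup of G if and only if |L| = |G : G'|. -/
theorem result {G : Type*} [Group G] [Finite G] {p : ℕ} [Fact p.Prime] (hp : p ≠ 2) (hG : IsPGroup p G) (hmc : Cfsg.IsMetacyclic G) (L : Subgroup G) :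
    (IsMulCommutative ↥L ↔ Nat.card ↥L ≤ (commutator G).index) ∧
      (Maximal (fun K : Subgroup G => IsMulCommutative ↥K) L ↔ Nat.card ↥L = (commutator G).index) := by
  classical
  obtain ⟨N, hN, hNc, hQ⟩ := hmc
  obtain ⟨D⟩ := CfsgLib.Metacyclic.exists_data hp hG N hNc hQ
  have hm := D.n_le_m
  have he := D.n_le_e
  have hidx : (commutator G).index = p ^ (D.m + D.e - D.n) := by
    have h := (commutator G).card_mul_index
    rw [D.card_commutator, D.card_eq, show D.m + D.e = D.n + (D.m + D.e - D.n) by omega, pow_add] at h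
    exact Nat.eq_of_mul_eq_mul_left (pow_pos D.hp.pos _) h
  have hab : ∀ K : Subgroup G, IsMulCommutative ↥K ↔ Nat.card ↥K ≤ (commutator G).index := by
    intro K
    obtain ⟨P⟩ := D.exists_params K
    rw [P.isMulCommutative_iff, P.card_eq, hidx, Nat.pow_le_pow_iff_right D.hp.one_lt]
    have := P.hα
    have := P.hβ
    omega
  refine ⟨hab L, ⟨fun hmax => ?_, fun h => ⟨(hab L).2 h.le, fun K hK hLK => ?_⟩⟩⟩
  · obtain ⟨q, hq⟩ := IsPGroup.iff_card.1 (hG.to_subgroup L)
    have hle := (hab L).1 hmax.1
    rw [hidx, hq] at hle ⊢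
    have hle' := (Nat.pow_le_pow_iff_right D.hp.one_lt).1 hle
    by_contra hne
    have hlt : q < D.m + D.e - D.n := lt_of_le_of_ne hle' fun h => hne (by rw [h])
    obtain ⟨K, hK, hLK⟩ := Sylow.exists_subgroup_card_pow_succ
      (by rw [D.card_eq]; exact pow_dvd_pow p (by omega : q + 1 ≤ D.m + D.e)) hq
    have hKab : IsMulCommutative ↥K := (hab K).2 (by
      rw [hK, hidx]; exact Nat.pow_le_pow_right D.hp.pos (by omega))
    have := Subgroup.card_le_of_le (hmax.2 hKab hLK)
    rw [hK, hq, Nat.pow_le_pow_iff_right D.hp.one_lt] at this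
    omega
  · exact (Subgroup.eq_of_le_of_card_ge hLK (((hab K).1 hK).trans h.ge)).ge

end Cfsg.Agent.S3880
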