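import Cfsg.Statements.S3881
import Mathlib
import Cfsg.Agent.Metacyclic.Basic

set_option autoImplicit false
open Cfsg

namespace Cfsg.Agent.S3881

/-- Let p be an odd prime and G a finite metacyclic p-group (G has a cyclic normal subgroup with cyclic quotient). Suppose G is non-abelian with |G'| = p^n. Then for 1 ≤ i ≤ n the number of elements of G whose conjugacy class has exactly p^i elements is |Z(G)| · (p^(2i) − p^(2i−2)). -/
theorem result {G : Type*} [Group G] [Finite G] {p : ℕ} [Fact p.Prime] (hp : p ≠ 2) (hG : IsPGroup p G) (hmc : Cfsg.IsMetacyclic G) (n : ℕ) (hn : n ≠ 0) (hGn : Nat.card ↥(commutator G) = p ^ n) (i : ℕ) (hi : 1 ≤ i) (hin : i ≤ n) :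
    Nat.card {g : G // (Subgroup.centralizer ({g} : Set G)).index = p ^ i} =
      Nat.card ↥(Subgroup.center G) * (p ^ (2 * i) - p ^ (2 * i - 2)) := by
  classical
  obtain ⟨N, hN, hNc, hQ⟩ := hmc
  obtain ⟨D⟩ := CfsgLib.Metacyclic.exists_data hp hG N hNc hQ
  have hnn : n = D.n := Nat.pow_right_injective D.hp.two_le (hGn.symm.trans D.card_commutator)
  subst hnn
  have key : ∀ g : G, (Subgroup.centralizer ({g} : Set G)).index = p ^ i ↔
      g ∈ D.Q (D.n - i) ∧ g ∉ D.Q (D.n - i + 1) := by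
    intro g
    rw [D.mem_Q_iff hG (by omega), D.mem_Q_iff hG (by omega), show D.n - (D.n - i) = i by omega,
      show D.n - (D.n - i + 1) = i - 1 by omega]
    obtain ⟨q, hq⟩ := hG.index (Subgroup.centralizer ({g} : Set G))
    rw [hq, Nat.pow_le_pow_iff_right D.hp.one_lt, Nat.pow_le_pow_iff_right D.hp.one_lt,
      (Nat.pow_right_injective D.hp.two_le).eq_iff]
    omega
  have hle : D.Q (D.n - i + 1) ≤ D.Q (D.n - i) := by
    rintro g ⟨u, v, hu, hv, rfl⟩
    exact ⟨u, v, dvd_trans (pow_dvd_pow _ (by omega)) hu, dvd_trans (pow_dvd_pow _ (by omega)) hv, rfl⟩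
  have e1 : Nat.card {g : G // (Subgroup.centralizer ({g} : Set G)).index = p ^ i} =
      Nat.card (D.Q (D.n - i)) - Nat.card (D.Q (D.n - i + 1)) := by
    change _ = Nat.card ((D.Q (D.n - i) : Set G) : Type _) - Nat.card ((D.Q (D.n - i + 1) : Set G) : Type _)
    rw [Nat.card_coe_set_eq, Nat.card_coe_set_eq, ← Set.ncard_sdiff hle (Set.toFinite _), ← Nat.card_coe_set_eq]
    exact Nat.card_congr (Equiv.subtypeEquivRight key)
  rw [e1]
  have hG2 : ∀ s, s ≤ D.n → Nat.card (D.Q s) * p ^ (2 * s) = Nat.card (Subgroup.center G) * p ^ (2 * D.n) := by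
    intro s hs
    rw [← D.index_Q hG hs, Subgroup.card_mul_index, ← D.index_Q hG le_rfl, D.center_eq hG, Subgroup.card_mul_index]
  have h1 : Nat.card (D.Q (D.n - i)) = Nat.card (Subgroup.center G) * p ^ (2 * i) := by
    refine Nat.eq_of_mul_eq_mul_right (pow_pos D.hp.pos (2 * (D.n - i))) ?_
    rw [hG2 _ (by omega), mul_assoc, ← pow_add]; congr 2; omega
  have h2 : Nat.card (D.Q (D.n - i + 1)) = Nat.card (Subgroup.center G) * p ^ (2 * i - 2) := by
    refine Nat.eq_of_mul_eq_mul_right (pow_pos D.hp.pos (2 * (D.n - i + 1))) ?_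
    rw [hG2 _ (by omega), mul_assoc, ← pow_add]; congr 2; omega
  rw [h1, h2, Nat.mul_sub]

end Cfsg.Agent.S3881
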