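import Cfsg.Statements.S3882
import Mathlib
import Cfsg.Agent.Metacyclic.Basic

set_option autoImplicit false
open Cfsg

namespace Cfsg.Agent.S3882

/-- Let p be an odd prime and G a finite metacyclic p-group (G has a cyclic normal subgroup with cyclic quotient). Suppose |G'| = p^n and 0 ≤ s ≤ n. Then an element g lies in the subgroup generated by the p^s-th powers if and only if its conjugacy class has at most p^(n−s) elements; in particular the subgroup generated by the p^n-th powers is the center of G. -/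
theorem result {G : Type*} [Group G] [Finite G] {p : ℕ} [Fact p.Prime] (hp : p ≠ 2) (hG : IsPGroup p G) (hmc : Cfsg.IsMetacyclic G) (n : ℕ) (hGn : Nat.card ↥(commutator G) = p ^ n) (s : ℕ) (hs : s ≤ n) (g : G) :
    (g ∈ Subgroup.closure {x : G | ∃ y : G, y ^ p ^ s = x} ↔ (Subgroup.centralizer ({g} : Set G)).index ≤ p ^ (n - s)) ∧
      Subgroup.closure {x : G | ∃ y : G, y ^ p ^ n = x} = Subgroup.center G := by
  classical
  obtain ⟨N, hN, hNc, hQ⟩ := hmc
  obtain ⟨D⟩ := CfsgLib.Metacyclic.exists_data hp hG N hNc hQ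
  have hnn : n = D.n := Nat.pow_right_injective D.hp.two_le (hGn.symm.trans D.card_commutator)
  subst hnn
  have key : ∀ s, Subgroup.closure {x : G | ∃ y : G, y ^ p ^ s = x} = D.Q s := by
    intro s
    apply le_antisymm
    · rw [Subgroup.closure_le]
      rintro x ⟨y, rfl⟩
      obtain ⟨i, j, rfl⟩ := D.hgen y
      rw [D.pow_rule]
      refine ⟨_, _, dvd_mul_of_dvd_right ?_ i, dvd_mul_left _ j, rfl⟩
      exact (CfsgLib.Metacyclic.pow_dvd_geo_iff D.hp D.hp2
        (dvd_trans D.r_sub_one (sub_one_dvd_pow_sub_one D.r j)) s _).2 dvd_rfl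
    · rintro x ⟨i, j, ⟨i', rfl⟩, ⟨j', rfl⟩, rfl⟩
      refine mul_mem (Subgroup.subset_closure ⟨D.a ^ i', ?_⟩) (Subgroup.subset_closure ⟨D.b ^ j', ?_⟩)
      · rw [← zpow_natCast, ← zpow_mul, mul_comm, Nat.cast_pow]
      · rw [← pow_mul, mul_comm]
  exact ⟨by rw [key, D.mem_Q_iff hG hs], by rw [key, D.center_eq hG]⟩

end Cfsg.Agent.S3882
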