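import Cfsg.Statements.S3883
import Mathlib
import Cfsg.Agent.Metacyclic.Basic

set_option autoImplicit false
open Cfsg

namespace Cfsg.Agent.S3883

/-- Let p be an odd prime and G a finite metacyclic p-group (G has a cyclic normal subgroup with cyclic quotient). Suppose G is non-abelian. Then an element g of G lies outside the Frattini subgroup if and only if its centralizer C_G(g) is abelian. -/
theorem result {G : Type*} [Group G] [Finite G] {p : ℕ} [Fact p.Prime] (hp : p ≠ 2) (hG : IsPGroup p G) (hmc : Cfsg.IsMetacyclic G) (hna : ¬ IsMulCommutative G) (g : G) :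
    g ∉ frattini G ↔ IsMulCommutative ↥(Subgroup.centralizer ({g} : Set G)) := by
  classical
  obtain ⟨N, hN, hNc, hQ⟩ := hmc
  obtain ⟨D⟩ := CfsgLib.Metacyclic.exists_data hp hG N hNc hQ
  have hm := D.n_le_m
  have he := D.n_le_e
  have hidx : (commutator G).index = p ^ (D.m + D.e - D.n) := by
    have h := (commutator G).card_mul_index
    rw [D.card_commutator, D.card_eq, show D.m + D.e = D.n + (D.m + D.e - D.n) by omega, pow_add] at h
    exact Nat.eq_of_mul_eq_mul_left (pow_pos D.hp.pos _) h
  have hab : ∀ K : Subgroup G, IsMulCommutative ↥K ↔ Nat.card ↥K ≤ (commutator G).index := by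
    intro K
    obtain ⟨P⟩ := D.exists_params K
    rw [P.isMulCommutative_iff, P.card_eq, hidx, Nat.pow_le_pow_iff_right D.hp.one_lt]
    have := P.hα
    have := P.hβ
    omega
  have hn1 : 1 ≤ D.n := by
    by_contra h
    have h2 := (hab ⊤).2 (by rw [Subgroup.card_top, D.card_eq, hidx, show D.n = 0 by omega, Nat.sub_zero])
    exact hna ⟨⟨fun x y => congrArg Subtype.val (h2.is_comm.comm (⟨x, trivial⟩ : (⊤ : Subgroup G)) ⟨y, trivial⟩)⟩⟩
  have hncyc : ∀ z : G, Subgroup.zpowers z ≠ ⊤ := by
    intro z hz
    refine hna ⟨⟨fun x y => ?_⟩⟩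
    obtain ⟨i, rfl⟩ : x ∈ Subgroup.zpowers z := hz ▸ Subgroup.mem_top x
    obtain ⟨j, rfl⟩ : y ∈ Subgroup.zpowers z := hz ▸ Subgroup.mem_top y
    exact (Commute.zpow_zpow_self z i j).eq
  haveI : Group.IsNilpotent G := hG.isNilpotent
  have hfr : ∀ g : G, g ∈ frattini G ↔ g ∈ D.Q 1 := by
    intro g
    constructor
    · intro hg
      obtain ⟨i, j, rfl⟩ := D.hgen g
      have hgo : ∀ z : G, (∀ x : G, x ∈ Subgroup.zpowers z ⊔ frattini G) → False := fun z hz =>
        hncyc z (frattini_nongenerating (eq_top_iff.2 fun x _ => hz x))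
      refine ⟨i, j, ?_, ?_, rfl⟩ <;> rw [pow_one] <;> by_contra hndvd
      · -- then `a` is generated by `g` and `b`
        refine hgo D.b fun x => ?_
        have hb : D.b ∈ Subgroup.zpowers D.b ⊔ frattini G := Subgroup.mem_sup_left (Subgroup.mem_zpowers _)
        have hai : D.a ^ i ∈ Subgroup.zpowers D.b ⊔ frattini G := by
          simpa using mul_mem (Subgroup.mem_sup_right hg : _ ∈ Subgroup.zpowers D.b ⊔ frattini G)
            (inv_mem (pow_mem hb j))
        obtain ⟨u, v, huv⟩ := ((D.hpZ.coprime_iff_not_dvd.2 hndvd).pow_left (m := D.m))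
        have ha : D.a ∈ Subgroup.zpowers D.b ⊔ frattini G := by
          have := zpow_mem hai v
          rwa [← zpow_mul, show D.a ^ (i * v) = D.a ^ (1 : ℤ) by
            rw [D.zpow_eq_iff]; exact ⟨-u, by linear_combination huv⟩, zpow_one] at this
        obtain ⟨k, l, rfl⟩ := D.hgen x
        exact mul_mem (zpow_mem ha k) (pow_mem hb l)
      · refine hgo D.a fun x => ?_
        have ha : D.a ∈ Subgroup.zpowers D.a ⊔ frattini G := Subgroup.mem_sup_left (Subgroup.mem_zpowers _)
        have hbj : D.b ^ j ∈ Subgroup.zpowers D.a ⊔ frattini G := by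
          simpa using mul_mem (inv_mem (zpow_mem ha i))
            (Subgroup.mem_sup_right hg : _ ∈ Subgroup.zpowers D.a ⊔ frattini G)
        obtain ⟨M, hM⟩ := hG D.b
        have hb : D.b ∈ Subgroup.zpowers D.a ⊔ frattini G := by
          obtain ⟨v, hv⟩ := exists_pow_eq_self_of_coprime (x := D.b) (n := j)
            (Nat.Coprime.coprime_dvd_right (orderOf_dvd_of_pow_eq_one hM)
              ((D.hp.coprime_iff_not_dvd.2 hndvd).symm.pow_right M))
          rw [← hv]
          exact pow_mem hbj v
        obtain ⟨k, l, rfl⟩ := D.hgen x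
        exact mul_mem (zpow_mem ha k) (pow_mem hb l)
    · rintro ⟨i, j, ⟨i', rfl⟩, ⟨j', rfl⟩, rfl⟩
      have hpow : ∀ y : G, y ^ p ∈ frattini G := by
        intro y
        simp only [frattini, Order.radical, Subgroup.mem_iInf]
        intro M hM
        have hMc : IsCoatom M := hM
        haveI : M.Normal := Subgroup.NormalizerCondition.normal_of_coatom M Group.normalizerCondition_of_isNilpotent hMc
        obtain ⟨q, hq⟩ := hG.index M
        have hq1 : q = 1 := by
          rcases Nat.lt_trichotomy q 1 with h | h | h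
          · exfalso; rw [show q = 0 by omega, pow_zero] at hq; exact hMc.1 (Subgroup.index_eq_one.1 hq)
          · exact h
          · exfalso
            obtain ⟨M', hM'⟩ := Sylow.exists_subgroup_card_pow_prime (G := G ⧸ M) p (n := 1)
              (by rw [← Subgroup.index_eq_card, hq]; exact pow_dvd_pow _ h.le)
            have hne : M < M'.comap (QuotientGroup.mk' M) := by
              refine lt_of_le_of_ne (fun x hx => by simp [(QuotientGroup.eq_one_iff x).2 hx]) fun e => ?_
              have : M' = ⊥ := by
                have := congrArg (Subgroup.map (QuotientGroup.mk' M)) e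
                rwa [Subgroup.map_comap_eq_self_of_surjective (QuotientGroup.mk'_surjective _),
                  QuotientGroup.map_mk'_self, eq_comm] at this
              rw [this, Subgroup.card_bot, pow_one] at hM'
              exact D.hp.ne_one hM'.symm
            have htop := hMc.2 _ hne
            have : M' = ⊤ := by
              rw [← Subgroup.map_comap_eq_self_of_surjective (QuotientGroup.mk'_surjective M) M', htop,
                Subgroup.map_top_of_surjective _ (QuotientGroup.mk'_surjective M)]
            rw [this, Subgroup.card_top, ← Subgroup.index_eq_card, hq,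
              (Nat.pow_right_injective D.hp.two_le).eq_iff] at hM'
            omega
        have := M.pow_index_mem y
        rwa [hq, hq1, pow_one] at this
      rw [pow_one, pow_one, mul_comm (p : ℤ), zpow_mul, zpow_natCast, mul_comm p, pow_mul]
      exact mul_mem (hpow _) (hpow _)
  rw [hfr, hab, hidx]
  have hC := (Subgroup.centralizer ({g} : Set G)).card_mul_index
  obtain ⟨q, hq⟩ := hG.index (Subgroup.centralizer ({g} : Set G))
  have hqn : q ≤ D.n := by
    obtain ⟨i, j, rfl⟩ := D.hgen g
    have := D.centralizer_index_le (s := 0) (i := i) (j := j) (by simp) (by simp)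
    rw [hq] at this
    exact (Nat.pow_le_pow_iff_right D.hp.one_lt).1 this
  rw [D.mem_Q_iff hG hn1, hq, Nat.pow_le_pow_iff_right D.hp.one_lt]
  rw [hq, D.card_eq, show D.m + D.e = (D.m + D.e - q) + q by omega, pow_add] at hC
  rw [Nat.eq_of_mul_eq_mul_right (pow_pos D.hp.pos _) hC, Nat.pow_le_pow_iff_right D.hp.one_lt]
  omega

end Cfsg.Agent.S3883
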