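import Cfsg.Statements.S3884
import Mathlib
import Cfsg.Agent.Metacyclic.Basic

set_option autoImplicit false
open Cfsg

namespace Cfsg.Agent.S3884

/-- Let p be an odd prime and G a finite metacyclic p-group (G has a cyclic normal subgroup with cyclic quotient). Then G is the product of two cyclic subgroups with trivial intersection: there are cyclic subgroups A and B with A ∩ B = 1 and |A| · |B| = |G|. -/
theorem result {G : Type*} [Group G] [Finite G] {p : ℕ} [Fact p.Prime] (hp : p ≠ 2) (hG : IsPGroup p G) (hmc : Cfsg.IsMetacyclic G) : ∃ A B : Subgroup G, IsCyclic ↥A ∧ IsCyclic ↥B ∧ A ⊓ B = ⊥ ∧ Nat.card ↥A * Nat.card ↥B = Nat.card G := by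
  classical
  obtain ⟨N, hN, hNc, hQ⟩ := hmc
  obtain ⟨D⟩ := CfsgLib.Metacyclic.exists_data hp hG N hNc hQ
  have hpZ := D.hpZ
  have hfin : ∀ (x y : G), Subgroup.zpowers x ⊓ Subgroup.zpowers y = ⊥ → orderOf x * orderOf y = Nat.card G →
      ∃ A B : Subgroup G, IsCyclic ↥A ∧ IsCyclic ↥B ∧ A ⊓ B = ⊥ ∧ Nat.card ↥A * Nat.card ↥B = Nat.card G :=
    fun x y h1 h2 => ⟨_, _, Subgroup.isCyclic_zpowers x, Subgroup.isCyclic_zpowers y, h1,
      by rw [Nat.card_zpowers, Nat.card_zpowers]; exact h2⟩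
  obtain ⟨γ, c0, hγ, hc0, hc⟩ : ∃ (γ : ℕ) (c0 : ℤ), γ ≤ D.m ∧ ¬ (p : ℤ) ∣ c0 ∧
      D.b ^ p ^ D.e = D.a ^ ((p : ℤ) ^ γ * c0) := by
    by_cases h : (p : ℤ) ^ D.m ∣ D.c
    · exact ⟨D.m, 1, le_rfl, D.hpZ.not_dvd_one, by
        rw [D.hc, (D.zpow_eq_one_iff _).2 h, (D.zpow_eq_one_iff _).2 (dvd_mul_right _ _)]⟩
    · have hex : ∃ s : ℕ, ¬ (p : ℤ) ^ s ∣ D.c := ⟨_, h⟩
      have h0 : Nat.find hex ≠ 0 := fun e => by simpa [e] using Nat.find_spec hex
      obtain ⟨c0, hc0⟩ := not_not.1 (Nat.find_min hex (show Nat.find hex - 1 < Nat.find hex by omega))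
      have hc1 := Nat.find_spec hex
      refine ⟨Nat.find hex - 1, c0, ?_, fun hd => ?_, D.hc.trans (congrArg (D.a ^ ·) hc0)⟩
      · have := Nat.find_min' hex h; omega
      · apply hc1
        refine Eq.mpr (congrArg _ hc0) ?_
        have := mul_dvd_mul_left ((p : ℤ) ^ (Nat.find hex - 1)) hd
        rwa [← pow_succ, Nat.sub_add_cancel (Nat.pos_of_ne_zero h0)] at this
  rcases le_or_gt D.e γ with hge | hlt
  · obtain ⟨w, hw, hgeo⟩ := CfsgLib.Metacyclic.geo_prime_pow_unit D.hp D.hp2 D.r_sub_one D.e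
    obtain ⟨u, v, huv⟩ := ((hpZ.coprime_iff_not_dvd.2 hw).pow_left (m := D.m))
    set i : ℤ := -v * (p : ℤ) ^ (γ - D.e) * c0 with hi
    set y := D.a ^ i * D.b ^ 1 with hy
    have hye : y ^ p ^ D.e = 1 := by
      rw [hy, D.pow_rule, one_mul, hc, ← zpow_add, D.zpow_eq_one_iff, pow_one, hgeo,
        show (p : ℤ) ^ γ = (p : ℤ) ^ D.e * (p : ℤ) ^ (γ - D.e) by rw [← pow_add, Nat.add_sub_cancel' hge]]
      exact ⟨(p : ℤ) ^ D.e * (p : ℤ) ^ (γ - D.e) * c0 * u,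
        by rw [hi]; linear_combination (-((p : ℤ) ^ D.e * (p : ℤ) ^ (γ - D.e) * c0)) * huv⟩
    have hmem : ∀ k : ℕ, y ^ k ∈ Subgroup.zpowers D.a ↔ p ^ D.e ∣ k := by
      intro k
      rw [hy, D.pow_rule, one_mul, Subgroup.mul_mem_cancel_left _ (zpow_mem (Subgroup.mem_zpowers _) _),
        ← D.hbe k, Subgroup.mem_zpowers_iff]
      exact exists_congr fun i => eq_comm
    refine hfin D.a y ?_ ?_
    · rw [eq_bot_iff]
      rintro x ⟨hx1, hx2⟩
      replace hx2 : x ∈ Subgroup.zpowers y := hx2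
      rw [← mem_powers_iff_mem_zpowers] at hx2
      obtain ⟨k, rfl⟩ := hx2
      obtain ⟨q, rfl⟩ := (hmem k).1 hx1
      simp [pow_mul, hye]
    · rw [D.ha, D.card_eq, pow_add, Nat.dvd_antisymm (orderOf_dvd_of_pow_eq_one hye)
        ((hmem _).1 (by rw [pow_orderOf_eq_one]; exact one_mem _))]
  · set q := p ^ (D.e - γ) with hq
    have hsol : ∀ k : ℕ, ∃ l : ℕ, (p : ℤ) ^ (γ + k) ∣
        CfsgLib.Metacyclic.geo (p ^ γ) (D.r ^ (q * l)) + (p : ℤ) ^ γ * c0 * l := by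
      intro k
      induction k with
      | zero =>
        refine ⟨0, ?_⟩
        rw [mul_zero, pow_zero, CfsgLib.Metacyclic.geo_one]; simp
      | succ k ih =>
        obtain ⟨l, h, hl⟩ := ih
        obtain ⟨u, v, huv⟩ := hpZ.coprime_iff_not_dvd.2 hc0
        set δ : ℕ := ((-h * v) % (p : ℤ)).toNat with hδ
        have hδ' : (δ : ℤ) = (-h * v) % (p : ℤ) :=
          Int.toNat_of_nonneg (Int.emod_nonneg _ (by exact_mod_cast D.hp.ne_zero))
        refine ⟨l + p ^ k * δ, ?_⟩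
        have hd : (p : ℤ) ^ (k + 1) ∣ D.r ^ (q * (l + p ^ k * δ)) - D.r ^ (q * l) := by
          rw [Nat.mul_add, pow_add D.r, show D.r ^ (q * l) * D.r ^ (q * (p ^ k * δ)) - D.r ^ (q * l) =
            D.r ^ (q * l) * (D.r ^ (q * (p ^ k * δ)) - 1) by ring]
          refine dvd_mul_of_dvd_right (dvd_trans (pow_dvd_pow _ (by have := D.ht; omega))
            (D.dvd_rpow_sub_one (s := k) (Dvd.intro (q * δ) (by ring)))) _
        have h2 : (p : ℤ) ^ (k + 1 + γ) ∣ CfsgLib.Metacyclic.geo (p ^ γ) (D.r ^ (q * (l + p ^ k * δ))) -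
            CfsgLib.Metacyclic.geo (p ^ γ) (D.r ^ (q * l)) :=
          CfsgLib.Metacyclic.geo_pow_congr D.hp D.hp2
            (dvd_trans D.r_sub_one (sub_one_dvd_pow_sub_one D.r _))
            (dvd_trans D.r_sub_one (sub_one_dvd_pow_sub_one D.r _)) hd γ
        have h3 : (p : ℤ) ∣ h + c0 * δ := by
          refine ⟨h * u - c0 * ((-h * v) / (p : ℤ)), ?_⟩
          rw [hδ', Int.emod_def]
          linear_combination (-h) * huv
        obtain ⟨z, hz⟩ := h3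
        have h4 : (p : ℤ) ^ (γ + (k + 1)) ∣ (p : ℤ) ^ γ * c0 * (p ^ k * δ : ℕ) + (p : ℤ) ^ (γ + k) * h :=
          ⟨z, by push_cast; linear_combination ((p : ℤ) ^ (γ + k)) * hz⟩
        rw [show k + 1 + γ = γ + (k + 1) by omega] at h2
        rw [show CfsgLib.Metacyclic.geo (p ^ γ) (D.r ^ (q * (l + p ^ k * δ))) +
            (p : ℤ) ^ γ * c0 * ((l + p ^ k * δ : ℕ) : ℤ) =
          (CfsgLib.Metacyclic.geo (p ^ γ) (D.r ^ (q * (l + p ^ k * δ))) -
            CfsgLib.Metacyclic.geo (p ^ γ) (D.r ^ (q * l))) +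
          ((p : ℤ) ^ γ * c0 * (p ^ k * δ : ℕ) + (p : ℤ) ^ (γ + k) * h) by push_cast; linear_combination hl]
        exact dvd_add h2 h4
    obtain ⟨l, hl⟩ := hsol (D.m - γ)
    rw [Nat.add_sub_cancel' hγ] at hl
    set x := D.a ^ (1 : ℤ) * D.b ^ (q * l) with hx
    have hxγ : x ^ p ^ γ = 1 := by
      rw [hx, D.pow_rule, one_mul, show q * l * p ^ γ = p ^ D.e * l by
        rw [hq, mul_comm, ← mul_assoc, ← pow_add, Nat.add_sub_cancel' hlt.le], pow_mul D.b, hc, ← zpow_natCast,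
        ← zpow_mul, ← zpow_add, D.zpow_eq_one_iff]
      exact hl
    have hb : ∀ z : ℤ, D.a ^ z ∈ Subgroup.zpowers D.b → (p : ℤ) ^ γ ∣ z := by
      intro z hz
      rw [← mem_powers_iff_mem_zpowers] at hz
      obtain ⟨k, hk⟩ := hz
      obtain ⟨k', rfl⟩ := (D.hbe k).1 ⟨z, hk⟩
      change D.b ^ (p ^ D.e * k') = _ at hk
      rw [pow_mul, hc, ← zpow_natCast, ← zpow_mul, D.zpow_eq_iff] at hk
      have := dvd_trans (pow_dvd_pow _ hγ) hk
      rwa [mul_assoc, dvd_sub_right (dvd_mul_right _ _)] at this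
    have hxk : ∀ k : ℕ, x ^ k ∈ Subgroup.zpowers D.b → p ^ γ ∣ k := by
      intro k hk
      rw [hx, D.pow_rule, one_mul,
        Subgroup.mul_mem_cancel_right _ (pow_mem (Subgroup.mem_zpowers _) _)] at hk
      exact (CfsgLib.Metacyclic.pow_dvd_geo_iff D.hp D.hp2
        (dvd_trans D.r_sub_one (sub_one_dvd_pow_sub_one D.r _)) γ k).1 (hb _ hk)
    refine hfin x D.b ?_ ?_
    · rw [eq_bot_iff]
      rintro y ⟨hy1, hy2⟩
      replace hy1 : y ∈ Subgroup.zpowers x := hy1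
      rw [← mem_powers_iff_mem_zpowers] at hy1
      obtain ⟨k, rfl⟩ := hy1
      obtain ⟨d, rfl⟩ := hxk k hy2
      simp [pow_mul, hxγ]
    · rw [Nat.dvd_antisymm (orderOf_dvd_of_pow_eq_one hxγ) (hxk _ (by rw [pow_orderOf_eq_one]; exact one_mem _)),
        D.card_eq]
      have hob : orderOf D.b = p ^ (D.e + (D.m - γ)) := by
        apply Nat.dvd_antisymm
        · rw [orderOf_dvd_iff_pow_eq_one, pow_add, pow_mul, hc, ← zpow_natCast, ← zpow_mul, D.zpow_eq_one_iff]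
          exact ⟨c0, by push_cast; rw [mul_right_comm, ← pow_add, Nat.add_sub_cancel' hγ]⟩
        · have h1 : p ^ D.e ∣ orderOf D.b := (D.hbe _).1 ⟨0, by rw [pow_orderOf_eq_one, zpow_zero]⟩
          obtain ⟨d, hd⟩ := h1
          have h2 := pow_orderOf_eq_one D.b
          rw [hd, pow_mul, hc, ← zpow_natCast, ← zpow_mul, D.zpow_eq_one_iff,
            show (p : ℤ) ^ D.m = (p : ℤ) ^ γ * (p : ℤ) ^ (D.m - γ) by rw [← pow_add, Nat.add_sub_cancel' hγ],
            mul_assoc, mul_dvd_mul_iff_left (pow_ne_zero _ hpZ.ne_zero)] at h2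
          have h3 := hpZ.pow_dvd_of_dvd_mul_left _ hc0 h2
          rw [hd, pow_add]
          exact mul_dvd_mul_left _ (by exact_mod_cast h3)
      rw [hob, ← pow_add]; congr 1; omega

end Cfsg.Agent.S3884
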