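import Cfsg.Statements.S3886
import Mathlib
import Cfsg.Agent.Metacyclic.Basic

set_option autoImplicit false
open Cfsg

namespace Cfsg.Agent.S3886

/-- Let p be an odd prime and G a finite metacyclic p-group (G has a cyclic normal subgroup with cyclic quotient). Then the largest value of |R| · |Z(R)| over subgroups R of G is |G : G'|², and the subgroups attaining it (the centrally large subgroups) are exactly the non-abelian subgroups together with the maximal abelian subgroups of G. -/
theorem result {G : Type*} [Group G] [Finite G] {p : ℕ} [Fact p.Prime] (hp : p ≠ 2) (hG : IsPGroup p G) (hmc : Cfsg.IsMetacyclic G) : Cfsg.maxCentralProduct G = (commutator G).index ^ 2 ∧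
    ∀ R : Subgroup G, Cfsg.IsCentrallyLarge R ↔ (¬ IsMulCommutative ↥R ∨ Maximal (fun K : Subgroup G => IsMulCommutative ↥K) R) := by
  classical
  obtain ⟨N, hN, hNc, hQ⟩ := hmc
  obtain ⟨D⟩ := CfsgLib.Metacyclic.exists_data hp hG N hNc hQ
  have hm := D.n_le_m
  have he := D.n_le_e
  have hidx : (commutator G).index = p ^ (D.m + D.e - D.n) := by
    have h := (commutator G).card_mul_index
    rw [D.card_commutator, D.card_eq, show D.m + D.e = D.n + (D.m + D.e - D.n) by omega, pow_add] at h
    exact Nat.eq_of_mul_eq_mul_left (pow_pos D.hp.pos _) h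
  have hab : ∀ K : Subgroup G, IsMulCommutative ↥K ↔ Nat.card ↥K ≤ (commutator G).index := by
    intro K
    obtain ⟨P⟩ := D.exists_params K
    rw [P.isMulCommutative_iff, P.card_eq, hidx, Nat.pow_le_pow_iff_right D.hp.one_lt]
    have := P.hα
    have := P.hβ
    omega
  have hbound : ∀ R : Subgroup G, IsMulCommutative ↥R →
      Nat.card R * Nat.card (Subgroup.center R) = Nat.card R ^ 2 := by
    intro R hR
    have e : Subgroup.center R = ⊤ :=
      eq_top_iff.2 fun x _ => Subgroup.mem_center_iff.2 fun g => hR.is_comm.comm g x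
    rw [e, Subgroup.card_top, pow_two]
  have hna' : ∀ R : Subgroup G, ¬ IsMulCommutative ↥R →
      Nat.card R * Nat.card (Subgroup.center R) = (commutator G).index ^ 2 := by
    intro R hR
    obtain ⟨P⟩ := D.exists_params R
    rw [P.isMulCommutative_iff, not_le] at hR
    have hb : D.b ^ p ^ D.n ∈ R := by
      have h1 := pow_mem P.ymem (p ^ (D.n - P.β))
      rw [D.pow_rule, ← pow_add, Nat.add_sub_cancel' (by omega)] at h1
      refine (Subgroup.mul_mem_cancel_left R ((P.memA _).2 (dvd_mul_of_dvd_right ?_ _))).1 h1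
      exact (CfsgLib.Metacyclic.pow_dvd_geo_iff D.hp D.hp2
        (dvd_trans D.r_sub_one (sub_one_dvd_pow_sub_one D.r _)) _ _).2 (pow_dvd_pow _ (by omega))
    have hZ : Subgroup.center G ≤ R := by
      rw [D.center_eq hG]
      rintro x ⟨i, j, hi, ⟨j', rfl⟩, rfl⟩
      refine mul_mem ((P.memA i).2 (dvd_trans (pow_dvd_pow _ (by omega)) hi)) ?_
      rw [pow_mul]; exact pow_mem hb j'
    have h1 := D.card_mul_card_centralizer hG hZ
    have h2 := (Subgroup.center G).card_mul_index
    rw [D.center_eq hG, D.index_Q hG le_rfl, D.card_eq] at h2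
    rw [D.card_eq, D.center_eq hG] at h1
    have h3 : Nat.card R * Nat.card (Subgroup.centralizer (R : Set G)) = (commutator G).index ^ 2 := by
      refine Nat.eq_of_mul_eq_mul_right (pow_pos D.hp.pos (2 * D.n)) ?_
      rw [h1, mul_assoc, h2, hidx, ← pow_mul, ← pow_add, ← pow_add]; congr 1; omega
    have hCab : IsMulCommutative ↥(Subgroup.centralizer (R : Set G)) := by
      rw [hab]
      by_contra hlt
      have hR' : (commutator G).index < Nat.card R := by
        by_contra hle
        have := (hab R).2 (not_lt.1 hle)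
        rw [P.isMulCommutative_iff] at this
        omega
      have := Nat.mul_lt_mul_of_lt_of_lt hR' (not_le.1 hlt)
      rw [h3, pow_two] at this
      exact lt_irrefl _ this
    have hCR : Subgroup.centralizer (R : Set G) ≤ R := by
      intro x hx
      rw [← D.centralizer_centralizer hG hZ, Subgroup.mem_centralizer_iff]
      exact fun y hy => congrArg Subtype.val (hCab.is_comm.comm ⟨y, hy⟩ ⟨x, hx⟩)
    rw [← h3]
    congr 1
    have e : (Subgroup.center R).map R.subtype = Subgroup.centralizer (R : Set G) := by
      ext x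
      constructor
      · rintro ⟨y, hy, rfl⟩
        exact Subgroup.mem_centralizer_iff.2 fun z hz =>
          congrArg Subtype.val (Subgroup.mem_center_iff.1 hy ⟨z, hz⟩)
      · intro hx
        exact ⟨⟨x, hCR hx⟩, Subgroup.mem_center_iff.2 fun z =>
          Subtype.ext (Subgroup.mem_centralizer_iff.1 hx z z.2), rfl⟩
    rw [← e, Subgroup.card_map_of_injective R.subtype_injective]
  have hmax : Cfsg.maxCentralProduct G = (commutator G).index ^ 2 := by
    refine IsGreatest.csSup_eq ⟨?_, ?_⟩
    · by_cases h : IsMulCommutative ↥(⊤ : Subgroup G)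
      · refine ⟨⊤, ?_⟩
        rw [hbound _ h]
        have := (hab ⊤).1 h
        rw [Subgroup.card_top] at this ⊢
        rw [le_antisymm this (Nat.le_of_dvd Nat.card_pos (Subgroup.index_dvd_card _))]
      · exact ⟨⊤, hna' _ h⟩
    · rintro k ⟨R, rfl⟩
      by_cases h : IsMulCommutative ↥R
      · rw [hbound _ h]; exact Nat.pow_le_pow_left ((hab R).1 h) 2
      · exact (hna' R h).le
  refine ⟨hmax, fun R => ?_⟩
  rw [Cfsg.IsCentrallyLarge, hmax]
  by_cases h : IsMulCommutative ↥R
  · rw [hbound R h, (Nat.pow_left_injective two_ne_zero).eq_iff]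
    constructor
    · intro e
      exact Or.inr ⟨h, fun K hK hRK =>
        (Subgroup.eq_of_le_of_card_ge hRK (((hab K).1 hK).trans e.ge)).ge⟩
    · intro hor
      have hm' := hor.resolve_left (not_not.2 h)
      obtain ⟨q, hq⟩ := IsPGroup.iff_card.1 (hG.to_subgroup R)
      have hle := (hab R).1 h
      rw [hidx, hq] at hle ⊢
      have hle' := (Nat.pow_le_pow_iff_right D.hp.one_lt).1 hle
      by_contra hne
      have hlt : q < D.m + D.e - D.n := lt_of_le_of_ne hle' fun h => hne (by rw [h])
      obtain ⟨K, hK, hRK⟩ := Sylow.exists_subgroup_card_pow_succ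
        (by rw [D.card_eq]; exact pow_dvd_pow p (by omega : q + 1 ≤ D.m + D.e)) hq
      have hKab : IsMulCommutative ↥K := (hab K).2 (by
        rw [hK, hidx]; exact Nat.pow_le_pow_right D.hp.pos (by omega))
      have := Subgroup.card_le_of_le (hm'.2 hKab hRK)
      rw [hK, hq, Nat.pow_le_pow_iff_right D.hp.one_lt] at this
      omega
  · exact ⟨fun _ => Or.inl h, fun _ => hna' R h⟩

end Cfsg.Agent.S3886
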