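import Cfsg.Statements.S3887
import Mathlib
import Cfsg.Agent.Metacyclic.Basic

set_option autoImplicit false
open Cfsg

namespace Cfsg.Agent.S3887

/-- Let p be an odd prime and G a finite metacyclic p-group (G has a cyclic normal subgroup with cyclic quotient). Then a subgroup R of G maximizes |R| · |C_G(R)| over all subgroups of G if and only if R contains the center of G. -/
theorem result {G : Type*} [Group G] [Finite G] {p : ℕ} [Fact p.Prime] (hp : p ≠ 2) (hG : IsPGroup p G) (hmc : Cfsg.IsMetacyclic G) (R : Subgroup G) : Cfsg.IsCentralizerLarge R ↔ Subgroup.center G ≤ R := by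
  classical
  obtain ⟨N, hN, hNc, hQ⟩ := hmc
  obtain ⟨D⟩ := CfsgLib.Metacyclic.exists_data hp hG N hNc hQ
  have hle : ∀ R : Subgroup G, Nat.card R * Nat.card (Subgroup.centralizer (R : Set G)) ≤
      Nat.card G * Nat.card (Subgroup.center G) ∧
      (Nat.card R * Nat.card (Subgroup.centralizer (R : Set G)) = Nat.card G * Nat.card (Subgroup.center G) →
        Subgroup.center G ≤ R) := by
    intro R
    have h1 := D.card_mul_card_centralizer hG (R := R ⊔ Subgroup.center G) le_sup_right
    have hC : Subgroup.centralizer ((R ⊔ Subgroup.center G : Subgroup G) : Set G) =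
        Subgroup.centralizer (R : Set G) := by
      refine le_antisymm (Subgroup.centralizer_le (le_sup_left : R ≤ R ⊔ Subgroup.center G))
        (Subgroup.le_centralizer_iff.1 (sup_le (Subgroup.le_centralizer_iff.1 le_rfl) ?_))
      exact Subgroup.center_le_centralizer _
    rw [hC] at h1
    refine ⟨h1 ▸ Nat.mul_le_mul_right _ (Subgroup.card_le_of_le le_sup_left), fun e => ?_⟩
    have h2 : Nat.card R = Nat.card (R ⊔ Subgroup.center G : Subgroup G) :=
      Nat.eq_of_mul_eq_mul_right Nat.card_pos (e.trans h1.symm)
    exact le_sup_right.trans (Subgroup.eq_of_le_of_card_ge le_sup_left h2.ge).ge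
  have hmax : Cfsg.maxCentralizerProduct G = Nat.card G * Nat.card (Subgroup.center G) :=
    IsGreatest.csSup_eq ⟨⟨⊤, D.card_mul_card_centralizer hG le_top⟩, by rintro k ⟨R, rfl⟩; exact (hle R).1⟩
  rw [Cfsg.IsCentralizerLarge, hmax]
  exact ⟨(hle R).2, fun h => D.card_mul_card_centralizer hG h⟩

end Cfsg.Agent.S3887
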