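import Cfsg.Statements.S3895
import Cfsg.Agent.ClassesPi.Basic
import Cfsg.Agent.ClassesPi.Coset
import Cfsg.Agent.ZStar.Closed
import Cfsg.Prelude.Def_Transfer

set_option autoImplicit false
open Cfsg

namespace Cfsg.Agent.S3895

universe u

open CfsgLib.ClassesPi

variable {G : Type*} [Group G] [Finite G]

/-- A class meeting `P` in one element only gives an element all of whose powers are closed. -/
lemma closed_of_single {P : Sylow 2 G} {x : G} (hxP : x ∈ P) (h : ∀ g : G, g * x * g⁻¹ ∈ P → g * x * g⁻¹ = x) :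
    CfsgLib.ZStar.ClosedElt P x := by
  haveI : Fact (Nat.Prime 2) := ⟨Nat.prime_two⟩
  have hcen : ∀ s ∈ P, Commute s x := fun s hs =>
    mul_inv_eq_iff_eq_mul.1 (h s ((P : Subgroup G).mul_mem ((P : Subgroup G).mul_mem hs hxP) ((P : Subgroup G).inv_mem hs)))
  refine ⟨hxP, fun j g hg => ?_⟩
  set v := g * x ^ j * g⁻¹ with hv
  let C := Subgroup.centralizer ({v} : Set G)
  have hxC : x ∈ C := Subgroup.mem_centralizer_singleton_iff.2 ((hcen v hg).eq.symm)
  have hyC : g * x * g⁻¹ ∈ C := Subgroup.mem_centralizer_singleton_iff.2 (by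
    rw [hv, ← MulAut.conj_apply, ← MulAut.conj_apply, ← map_mul, ← map_mul]
    exact congrArg _ ((Commute.self_pow x j).eq))
  obtain ⟨k, hk⟩ := P.2 ⟨x, hxP⟩
  have hxk : x ^ 2 ^ k = 1 := congrArg Subtype.val hk
  have hp1 : IsPGroup 2 ↥(Subgroup.zpowers (⟨x, hxC⟩ : ↥C)) := by
    obtain ⟨m, -, hm⟩ := (Nat.dvd_prime_pow Nat.prime_two).1 (orderOf_dvd_of_pow_eq_one hxk)
    exact IsPGroup.of_card (n := m) (by rw [Nat.card_zpowers, Subgroup.orderOf_mk, hm])
  have hp2 : IsPGroup 2 ↥(Subgroup.zpowers (⟨g * x * g⁻¹, hyC⟩ : ↥C)) := by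
    obtain ⟨m, -, hm⟩ := (Nat.dvd_prime_pow Nat.prime_two).1 (orderOf_dvd_of_pow_eq_one hxk)
    refine IsPGroup.of_card (n := m) ?_
    rw [Nat.card_zpowers, Subgroup.orderOf_mk, ← MulAut.conj_apply, MulEquiv.orderOf_eq, hm]
  obtain ⟨R, hR⟩ := hp1.exists_le_sylow
  obtain ⟨R', hR'⟩ := hp2.exists_le_sylow
  obtain ⟨c, hc⟩ := MulAction.exists_smul_eq ↥C R' R
  have hmem : c * (⟨g * x * g⁻¹, hyC⟩ : ↥C) * c⁻¹ ∈ R := by
    rw [← hc]
    exact ⟨_, hR' (Subgroup.mem_zpowers _), rfl⟩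
  obtain ⟨P', hP'⟩ := (R.2.map C.subtype).exists_le_sylow
  obtain ⟨k', hk'⟩ := MulAction.exists_smul_eq G P P'
  have hx' : x ∈ P' := hP' ⟨⟨x, hxC⟩, hR (Subgroup.mem_zpowers _), rfl⟩
  have hy' : ((c : G) * g) * x * ((c : G) * g)⁻¹ ∈ P' := by
    rw [show ((c : G) * g) * x * ((c : G) * g)⁻¹ = (c : G) * (g * x * g⁻¹) * (c : G)⁻¹ by group]
    exact hP' ⟨_, hmem, rfl⟩
  rw [← hk'] at hx' hy'
  obtain ⟨a, ha, hax⟩ := hx'
  obtain ⟨b, hb, hbx⟩ := hy'
  have hax' : k' * a * k'⁻¹ = x := hax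
  have hbx' : k' * b * k'⁻¹ = (c : G) * g * x * ((c : G) * g)⁻¹ := hbx
  have e1 : a = x := by
    have h1 : a = k'⁻¹ * x * k'⁻¹⁻¹ := by rw [← hax']; group
    rw [h1]; exact h _ (h1 ▸ ha)
  have e2 : b = x := by
    have h1 : b = (k'⁻¹ * ((c : G) * g)) * x * (k'⁻¹ * ((c : G) * g))⁻¹ := by
      rw [show (k'⁻¹ * ((c : G) * g)) * x * (k'⁻¹ * ((c : G) * g))⁻¹ = k'⁻¹ * ((c : G) * g * x * ((c : G) * g)⁻¹) * k' by group,
        ← hbx']
      group
    rw [h1]; exact h _ (h1 ▸ hb)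
  rw [e1] at hax'
  rw [e2, hax'] at hbx'
  have hcv : (c : G) * v = v * c := Subgroup.mem_centralizer_singleton_iff.1 c.2
  have hfin : ((c : G) * g) * x ^ j * ((c : G) * g)⁻¹ = x ^ j := by
    conv_rhs => rw [hbx']
    rw [conj_pow]
  rw [show ((c : G) * g) * x ^ j * ((c : G) * g)⁻¹ = (c : G) * v * (c : G)⁻¹ by rw [hv]; group, hcv, mul_inv_cancel_right] at hfin
  exact hfin

lemma complement_of_odd (N : Subgroup G) [N.Normal] (hodd : Odd (Nat.card ↥N)) (hidx : ∃ k, N.index = 2 ^ k) :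
    Cfsg.HasNormalPComplement 2 G := by
  haveI : Fact (Nat.Prime 2) := ⟨Nat.prime_two⟩
  obtain ⟨k, hk⟩ := hidx
  obtain ⟨P⟩ : Nonempty (Sylow 2 G) := inferInstance
  refine ⟨P, N, inferInstance, Subgroup.isComplement'_of_coprime ?_ ?_⟩
  · rw [P.card_eq_multiplicity, ← N.card_mul_index, Nat.factorization_mul Nat.card_pos.ne' N.index_ne_zero_of_finite,
      Finsupp.add_apply, Nat.factorization_eq_zero_of_not_dvd hodd.not_two_dvd_nat, hk, zero_add,
      Nat.Prime.factorization_pow Nat.prime_two, Finsupp.single_eq_same]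
  · obtain ⟨m, hm⟩ := IsPGroup.iff_card.1 P.2
    rw [hm]
    exact (Nat.coprime_two_right.2 hodd).pow_right m

lemma two_mul_le [Fact (Nat.Prime 2)] (P : Sylow 2 G) (hP1 : Nat.card ↥(P : Subgroup G) ≠ 1)
    (hno : ∀ x ∈ P, x ≠ 1 → ∃ g : G, g * x * g⁻¹ ∈ P ∧ g * x * g⁻¹ ≠ x) :
    2 * kPi ({2} : Set ℕ) G ≤ Nat.card ↥(P : Subgroup G) := by
  classical
  haveI : Fintype ↥(P : Subgroup G) := Fintype.ofFinite _
  let T := {c : ConjClasses G // ∃ y, ConjClasses.mk y = c ∧ IsPiElt ({2} : Set ℕ) y}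
  haveI : Fintype T := Fintype.ofFinite T
  have hT : kPi ({2} : Set ℕ) G = Fintype.card T := Nat.card_eq_fintype_card (α := T)
  obtain ⟨m, hm⟩ := IsPGroup.iff_card.1 P.2
  have key : ∀ t : T, 2 ≤ (Finset.univ.filter (fun x => pClass P x = t)).card + (if t = pClass P 1 then 1 else 0) := by
    intro t
    obtain ⟨x, hx⟩ := pClass_surjective P t
    split
    · have : 0 < (Finset.univ.filter (fun x => pClass P x = t)).card := Finset.card_pos.2 ⟨x, by simp [hx]⟩
      omega
    · rename_i ht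
      obtain ⟨g, hgP, hne⟩ := hno x x.2 (fun e => ht (by rw [← hx]; congr 1; exact Subtype.ext e))
      refine le_add_right (Finset.one_lt_card.2 ⟨x, by simp [hx], ⟨_, hgP⟩, ?_, fun e => hne (congrArg Subtype.val e).symm⟩)
      simp only [Finset.mem_filter, Finset.mem_univ, true_and]
      rw [← hx]
      exact Subtype.ext (ConjClasses.mk_eq_mk_iff_isConj.2 (isConj_iff.2 ⟨g, rfl⟩).symm)
  have hs := Finset.sum_le_sum (s := (Finset.univ : Finset T)) fun t _ => key t
  rw [Finset.sum_const, smul_eq_mul, Finset.card_univ, Finset.sum_add_distrib,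
    ← Finset.card_eq_sum_card_fiberwise (fun x _ => Finset.mem_univ (pClass P x)),
    Finset.card_univ, Finset.sum_ite_eq' Finset.univ (pClass P 1) (fun _ => 1), if_pos (Finset.mem_univ _),
    ← Nat.card_eq_fintype_card (α := ↥(P : Subgroup G))] at hs
  rw [hT]
  rcases m with - | m
  · exact absurd (by simpa using hm) hP1
  · rw [hm, pow_succ] at hs ⊢
    omega

theorem main : ∀ (n : ℕ) (G : Type u) [Group G] [Finite G], Nat.card G ≤ n → ∀ P : Sylow 2 G,
    Nat.card ↥(P : Subgroup G) < 2 * kPi ({2} : Set ℕ) G → Cfsg.HasNormalPComplement 2 G := by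
  intro n
  induction n using Nat.strong_induction_on with
  | _ n IH =>
  intro G _ _ hn P h
  haveI : Fact (Nat.Prime 2) := ⟨Nat.prime_two⟩
  by_cases hP1 : Nat.card ↥(P : Subgroup G) = 1
  · refine complement_of_odd (⊤ : Subgroup G) ?_ ⟨0, by simp⟩
    rw [Subgroup.card_top, Nat.odd_iff, Nat.two_dvd_ne_zero.symm.trans (Iff.rfl)]
    intro h2
    have := P.card_eq_multiplicity
    rw [hP1] at this
    have := Nat.Prime.factorization_pos_of_dvd Nat.prime_two Nat.card_pos.ne' h2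
    exact absurd ‹1 = 2 ^ _› (Nat.one_lt_two_pow this.ne').ne
  obtain ⟨x, hxP, hx1, hsing⟩ : ∃ x ∈ P, x ≠ 1 ∧ ∀ g : G, g * x * g⁻¹ ∈ P → g * x * g⁻¹ = x := by
    by_contra hno
    push Not at hno
    exact absurd (two_mul_le P hP1 hno) (by omega)
  have hcl := closed_of_single hxP hsing
  -- an involution among the powers of `x`
  obtain ⟨k, hk⟩ := P.2 ⟨x, hxP⟩
  obtain ⟨e, -, he⟩ := (Nat.dvd_prime_pow Nat.prime_two).1 (orderOf_dvd_of_pow_eq_one (congrArg Subtype.val hk : x ^ 2 ^ k = 1))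
  have he0 : e ≠ 0 := by rintro rfl; exact hx1 (orderOf_eq_one_iff.1 (by simpa using he))
  set u := x ^ 2 ^ (e - 1) with hu
  have hu2 : orderOf u = 2 := by
    rw [hu, orderOf_pow' _ (Nat.two_pow_pos _).ne', he, Nat.gcd_eq_right (Nat.pow_dvd_pow 2 (by omega)),
      Nat.pow_div (by omega) two_pos, show e - (e - 1) = 1 by omega, pow_one]
  have hucl : CfsgLib.ZStar.ClosedElt P u := ⟨(P : Subgroup G).pow_mem hxP _, fun j g hg => by
    rw [hu, ← pow_mul] at hg ⊢; exact hcl.2 _ g hg⟩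
  set O := Cfsg.pPrimeCore 2 G
  haveI hOn : O.Normal := Cfsg.pPrimeCore_normal 2 G
  have hcen := CfsgLib.ZStar.closed_central hucl
  haveI hZn : (Subgroup.zpowers (u : G ⧸ O)).Normal  := ⟨fun a ha g => by
    rw [Subgroup.mem_center_iff.1 ((Subgroup.zpowers_le.2 hcen) ha) g, mul_inv_cancel_right]
    exact ha⟩
  let K : Subgroup G := (Subgroup.zpowers (u : G ⧸ O)).comap (QuotientGroup.mk' O)
  haveI hKn : K.Normal := hZn.comap _
  have hOodd : Odd (Nat.card ↥O) := Nat.coprime_two_right.1 (CfsgLib.PCore.pPrimeCore_coprime 2 G)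
  have hZ2 : Nat.card ↥(Subgroup.zpowers (u : G ⧸ O)) = 2 := by
    rw [Nat.card_zpowers]
    refine orderOf_eq_prime (by rw [← QuotientGroup.mk_pow, ← hu2, pow_orderOf_eq_one]; rfl) fun e => ?_
    have huO := (QuotientGroup.eq_one_iff u).1 e
    exact hOodd.not_two_dvd_nat (hu2 ▸ O.orderOf_dvd_natCard huO)
  have hKc : Nat.card ↥K = 2 * Nat.card ↥O := by
    have h1 := Subgroup.card_mul_index K
    have h2 := Subgroup.card_mul_index (Subgroup.zpowers (u : G ⧸ O))
    rw [Subgroup.index_comap_of_surjective _ (QuotientGroup.mk'_surjective O)] at h1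
    rw [hZ2, ← Subgroup.index_eq_card] at h2
    rw [← O.card_mul_index, ← h2] at h1
    exact Nat.eq_of_mul_eq_mul_right (Nat.pos_of_ne_zero Subgroup.index_ne_zero_of_finite) (h1.trans (by ring))
  obtain ⟨PK⟩ : Nonempty (Sylow 2 ↥K) := inferInstance
  have hPK : Nat.card ↥(PK : Subgroup ↥K) = 2 := by
    rw [PK.card_eq_multiplicity, hKc, Nat.factorization_mul two_ne_zero Nat.card_pos.ne', Finsupp.add_apply,
      Nat.factorization_eq_zero_of_not_dvd hOodd.not_two_dvd_nat, Nat.prime_two.factorization_self]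
    rfl
  let P' := P.mapSurjective (QuotientGroup.mk'_surjective K)
  have hP' : Nat.card ↥(P : Subgroup G) = 2 * Nat.card ↥(P' : Subgroup (G ⧸ K)) := by
    rw [P.card_eq_multiplicity, P'.card_eq_multiplicity, ← K.card_mul_index, Subgroup.index_eq_card, hKc,
      Nat.factorization_mul (mul_ne_zero two_ne_zero Nat.card_pos.ne') Nat.card_pos.ne',
      Nat.factorization_mul two_ne_zero Nat.card_pos.ne']
    simp only [Finsupp.add_apply, Nat.factorization_eq_zero_of_not_dvd hOodd.not_two_dvd_nat, Nat.prime_two.factorization_self]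
    rw [add_zero, pow_add, pow_one]
  have hlt : Nat.card (G ⧸ K) < n := by
    refine lt_of_lt_of_le ?_ hn
    rw [← Subgroup.index_eq_card, ← K.card_mul_index]
    exact lt_mul_of_one_lt_left (Nat.pos_of_ne_zero Subgroup.index_ne_zero_of_finite) (by
      rw [hKc]; have := Nat.card_pos (α := ↥O); omega)
  haveI := Fintype.ofFinite G
  have hle := kPi_le_kPi_mul_kPi ({2} : Set ℕ) K
  have hle2 := (kPi_prime_le_card PK).trans_eq hPK
  obtain ⟨Q, W, hWn, hW⟩ := IH _ hlt (G ⧸ K) le_rfl P' (by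
    have := Nat.mul_le_mul_right (kPi ({2} : Set ℕ) (G ⧸ K)) hle2
    omega)
  -- the preimage has Sylow 2-subgroups of order 2
  let M : Subgroup G := W.comap (QuotientGroup.mk' K)
  haveI hMn : M.Normal := hWn.comap _
  have hWi : W.index = Nat.card ↥(Q : Subgroup (G ⧸ K)) :=
    mul_left_cancel₀ (Nat.card_pos (α := W)).ne' (W.card_mul_index.trans hW.card_mul.symm)
  have hWodd : Odd (Nat.card ↥W) := by
    have hWc : Nat.card ↥W = (Q : Subgroup (G ⧸ K)).index :=
      mul_left_cancel₀ (Nat.card_pos (α := ↥(Q : Subgroup (G ⧸ K)))).ne'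
        ((mul_comm _ _).trans (hW.card_mul.trans (Q : Subgroup (G ⧸ K)).card_mul_index.symm))
    rw [hWc, Nat.odd_iff, ← Nat.two_dvd_ne_zero]
    exact Q.not_dvd_index
  have hMi : ∃ k, M.index = 2 ^ k := by
    obtain ⟨m, hm⟩ := IsPGroup.iff_card.1 Q.2
    exact ⟨m, by rw [Subgroup.index_comap_of_surjective _ (QuotientGroup.mk'_surjective K), hWi, hm]⟩
  have hMc : Nat.card ↥M = Nat.card ↥K * Nat.card ↥W := by
    have h1 := Subgroup.card_mul_index M
    rw [Subgroup.index_comap_of_surjective _ (QuotientGroup.mk'_surjective K), ← K.card_mul_index, Subgroup.index_eq_card K,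
      ← W.card_mul_index] at h1
    exact Nat.eq_of_mul_eq_mul_right (Nat.pos_of_ne_zero Subgroup.index_ne_zero_of_finite) (h1.trans (by ring))
  obtain ⟨PM⟩ : Nonempty (Sylow 2 ↥M) := inferInstance
  have hPM : Nat.card ↥(PM : Subgroup ↥M) = 2 := by
    rw [PM.card_eq_multiplicity, hMc, hKc, Nat.factorization_mul (mul_ne_zero two_ne_zero Nat.card_pos.ne') Nat.card_pos.ne',
      Nat.factorization_mul two_ne_zero Nat.card_pos.ne']
    simp only [Finsupp.add_apply, Nat.factorization_eq_zero_of_not_dvd hOodd.not_two_dvd_nat,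
      Nat.factorization_eq_zero_of_not_dvd hWodd.not_two_dvd_nat, Nat.prime_two.factorization_self]
    rfl
  have hNC : Subgroup.normalizer ((PM : Subgroup ↥M) : Set ↥M) ≤ Subgroup.centralizer ((PM : Subgroup ↥M) : Set ↥M) := by
    obtain ⟨a, ha, hall⟩ := (Nat.card_eq_two_iff' (1 : ↥(PM : Subgroup ↥M))).1 hPM
    intro g hg
    refine Subgroup.mem_centralizer_iff.2 fun y hy => ?_
    by_cases hy1 : y = 1
    · subst hy1; simp
    have h2 := (Subgroup.mem_normalizer_iff.1 hg y).1 hy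
    have e1 := hall ⟨y, hy⟩ (fun e => hy1 (congrArg Subtype.val e))
    have e2 := hall ⟨g * y * g⁻¹, h2⟩ (fun e => hy1 (by simpa using congrArg Subtype.val e))
    exact (mul_inv_eq_iff_eq_mul.1 (congrArg Subtype.val (e2.trans e1.symm))).symm
  have hcomp := MonoidHom.ker_transferSylow_isComplement' PM hNC
  set W0 := (MonoidHom.transferSylow PM hNC).ker
  have hW0i : W0.index = 2 := by
    have := mul_left_cancel₀ (Nat.card_pos (α := W0)).ne' (W0.card_mul_index.trans hcomp.card_mul.symm)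
    rw [this, hPM]
  have hW0odd : Odd (Nat.card ↥W0) := by
    have h4 := W0.card_mul_index
    rw [hW0i, hMc, hKc] at h4
    have h3 : Nat.card ↥W0 = Nat.card ↥O * Nat.card ↥W := Nat.eq_of_mul_eq_mul_left two_pos (by linarith)
    rw [h3]; exact hOodd.mul hWodd
  -- it is the odd core of `M`
  have hchar : ∀ g : G, ∀ a ∈ W0.map M.subtype, g * a * g⁻¹ ∈ W0.map M.subtype := by
    rintro g _ ⟨a, ha, rfl⟩
    refine ⟨⟨g * a * g⁻¹, hMn.conj_mem _ a.2 g⟩, ?_, rfl⟩
    show _ ∈ W0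
    rw [← QuotientGroup.eq_one_iff, ← orderOf_eq_one_iff]
    refine Nat.eq_one_of_dvd_coprimes (Nat.coprime_two_left.2 hW0odd) ?_ ((orderOf_map_dvd (QuotientGroup.mk' W0) _).trans ?_)
    · exact (orderOf_dvd_natCard _).trans (dvd_of_eq ((Subgroup.index_eq_card W0).symm.trans hW0i))
    · rw [← Subgroup.orderOf_coe]
      show orderOf (MulAut.conj g (a : G)) ∣ _
      rw [MulEquiv.orderOf_eq]
      show orderOf (a : G) ∣ _
      rw [Subgroup.orderOf_coe]
      exact W0.orderOf_dvd_natCard ha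
  haveI : (W0.map M.subtype).Normal := ⟨fun a ha g => hchar g a ha⟩
  refine complement_of_odd (W0.map M.subtype) (by rwa [Subgroup.card_map_of_injective M.subtype_injective]) ?_
  obtain ⟨m, hm⟩ := hMi
  exact ⟨m + 1, by rw [Subgroup.index_map_subtype, hW0i, hm, pow_succ']⟩

/-- Let G be a finite group with Sylow 2-subgroup P, and write k₂(G) for the number of conjugacy classes of G consisting of 2-elements (elements of 2-power order, the identity included). Then k₂(G) > |P|/2 if and only if G has a normal 2-complement and P has more than |P|/2 conjugacy classes. -/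
theorem result {G : Type*} [Group G] [Finite G] (P : Sylow 2 G) :
    Nat.card ↥(P : Subgroup G) < 2 * Nat.card {c : ConjClasses G // ∀ x ∈ c.carrier, ∃ k : ℕ, orderOf x = 2 ^ k} ↔
      Cfsg.HasNormalPComplement 2 G ∧ Nat.card ↥(P : Subgroup G) < 2 * Nat.card (ConjClasses ↥(P : Subgroup G)) := by
  haveI : Fact (Nat.Prime 2) := ⟨Nat.prime_two⟩
  have hk : Nat.card {c : ConjClasses G // ∀ x ∈ c.carrier, ∃ k : ℕ, orderOf x = 2 ^ k} = kPi ({2} : Set ℕ) G := by
    rw [← card_carrier_eq_kPi]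
    exact Nat.card_congr (Equiv.subtypeEquivRight fun c => by simp only [isPiElt_singleton_iff Nat.prime_two])
  rw [hk]
  refine ⟨fun h => ⟨main _ G le_rfl P h, lt_of_lt_of_le h (Nat.mul_le_mul_left _ (kPi_prime_le_card_conjClasses P))⟩, ?_⟩
  rintro ⟨⟨Q, N, hN, hNQ⟩, h⟩
  refine lt_of_lt_of_le h (Nat.mul_le_mul_left _ ?_)
  -- fusion in `P` is controlled by `P`
  have hodd : (Nat.card ↥N).Coprime (Nat.card ↥(P : Subgroup G)) := by
    have hWc : Nat.card ↥N = (Q : Subgroup G).index :=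
      mul_left_cancel₀ (Nat.card_pos (α := ↥(Q : Subgroup G))).ne'
        ((mul_comm _ _).trans (hNQ.card_mul.trans (Q : Subgroup G).card_mul_index.symm))
    rw [hWc, P.card_eq_multiplicity, ← Q.card_eq_multiplicity]
    exact Q.card_coprime_index.symm
  let f : ↥(P : Subgroup G) →* G ⧸ N := (QuotientGroup.mk' N).comp (P : Subgroup G).subtype
  have hinj : Function.Injective f := by
    rw [← MonoidHom.ker_eq_bot_iff, eq_bot_iff]
    intro a ha
    exact Subgroup.mem_bot.2 (Subtype.ext (orderOf_eq_one_iff.1 (Nat.eq_one_of_dvd_coprimes hodd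
      (N.orderOf_dvd_natCard ((QuotientGroup.eq_one_iff _).1 ha)) ((P : Subgroup G).orderOf_dvd_natCard a.2))))
  have hbij : Function.Bijective f := by
    rw [Nat.bijective_iff_injective_and_card]
    refine ⟨hinj, mul_left_cancel₀ (Nat.card_pos (α := N)).ne' ?_⟩
    rw [P.card_eq_multiplicity, ← Q.card_eq_multiplicity, hNQ.card_mul, ← Subgroup.index_eq_card, N.card_mul_index]
  refine Nat.card_le_card_of_injective
    (fun c : ConjClasses ↥(P : Subgroup G) => pClass P c.out) fun c d hcd => ?_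
  rw [← Quotient.out_eq c, ← Quotient.out_eq d]
  obtain ⟨g, hg⟩ := isConj_iff.1 (ConjClasses.mk_eq_mk_iff_isConj.1 (congrArg Subtype.val hcd))
  obtain ⟨z, hz⟩ := hbij.2 (QuotientGroup.mk' N g)
  refine Quotient.sound (isConj_iff.2 ⟨z, hbij.1 ?_⟩)
  rw [map_mul, map_mul, map_inv, hz]
  show QuotientGroup.mk' N g * QuotientGroup.mk' N (c.out : G) * (QuotientGroup.mk' N g)⁻¹ = QuotientGroup.mk' N (d.out : G)
  rw [← hg, map_mul, map_mul, map_inv]

end Cfsg.Agent.S3895
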