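import Cfsg.Statements.S3897
import Cfsg.Agent.ClassesPi.Nilpotent

set_option autoImplicit false
open Cfsg

namespace Cfsg.Agent.S3897

/-- Let p be an odd prime and G a finite group with Sylow p-subgroup P, and write k_p(G) for the number of conjugacy classes of G consisting of p-elements (elements of p-power order, the identity included). Then k_p(G) > (p + 1)|P|/(2p) if and only if G has a normal p-complement and P is abelian. -/
theorem result {G : Type*} [Group G] [Finite G] {p : ℕ} [Fact p.Prime] (hp : p ≠ 2) (P : Sylow p G) :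
    (p + 1) * Nat.card ↥(P : Subgroup G) < 2 * p * Nat.card {c : ConjClasses G // ∀ x ∈ c.carrier, ∃ k : ℕ, orderOf x = p ^ k} ↔
      Cfsg.HasNormalPComplement p G ∧ IsMulCommutative ↥(P : Subgroup G) := by
  rw [show Nat.card {c : ConjClasses G // ∀ x ∈ c.carrier, ∃ k : ℕ, orderOf x = p ^ k} =
      CfsgLib.ClassesPi.kPi ({p} : Set ℕ) G from ?_]
  · constructor
    · exact fun h => CfsgLib.ClassesPi.nilpotent_of_many hp P h
    · rintro ⟨⟨Q, N, hN, hNQ⟩, hab⟩
      rw [CfsgLib.ClassesPi.kPi_eq_card P hab Q N hN hNQ]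
      refine Nat.mul_lt_mul_of_pos_right ?_ Nat.card_pos
      have := (Fact.out : p.Prime).two_le
      omega
  · rw [← CfsgLib.ClassesPi.card_carrier_eq_kPi]
    exact Nat.card_congr (Equiv.subtypeEquivRight fun c =>
      forall₂_congr fun x _ => (CfsgLib.ClassesPi.isPiElt_singleton_iff Fact.out x).symm)

end Cfsg.Agent.S3897
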