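import Cfsg.Statements.S3898
import Cfsg.Agent.S3895
import Cfsg.Agent.ClassesPi.OddOrder
import Cfsg.Agent.ClassesPi.Coset

set_option autoImplicit false
open Cfsg

namespace Cfsg.Agent.S3898

open CfsgLib.ClassesPi

lemma aux {G : Type*} [Group G] [Finite G] (π : Finset ℕ) (hπ : ∀ r ∈ π, r.Prime) (h2 : 2 ∈ π)
    (hk : π.prod (fun r => r ^ (Nat.card G).factorization r) < 2 * kPi (↑π : Set ℕ) G) :
    (∃ N : Subgroup G, N.Normal ∧ (∀ r : ℕ, r.Prime → r ∣ Nat.card ↥N → r ∉ π) ∧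
      ∀ r : ℕ, r.Prime → r ∣ N.index → r ∈ π) ∧
      ∃ H : Subgroup G, Cfsg.IsPiHall ((↑π : Set ℕ) \ {2}) H ∧ IsMulCommutative ↥H := by
  classical
  haveI : Fact (Nat.Prime 2) := ⟨Nat.prime_two⟩
  haveI := Fintype.ofFinite G
  obtain ⟨P⟩ : Nonempty (Sylow 2 G) := inferInstance
  have h2k : Nat.card ↥(P : Subgroup G) < 2 * kPi ({2} : Set ℕ) G := by
    refine Nat.lt_of_mul_lt_mul_right (a := (π.erase 2).prod (fun q => q ^ (Nat.card G).factorization q)) ?_
    rw [P.card_eq_multiplicity, mul_assoc]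
    rw [Finset.mul_prod_erase π (fun q => q ^ (Nat.card G).factorization q) h2]
    exact lt_of_lt_of_le hk (Nat.mul_le_mul_left _ (kPi_le_prime_mul π hπ h2))
  have hiff := Cfsg.Agent.S3895.main _ G le_rfl P h2k
  obtain ⟨Q, N, hNn, hNQ⟩ := hiff
  have hNi : N.index = Nat.card ↥(Q : Subgroup G) :=
    mul_left_cancel₀ (Nat.card_pos (α := N)).ne' (N.card_mul_index.trans hNQ.card_mul.symm)
  obtain ⟨a, ha⟩ := IsPGroup.iff_card.1 Q.2
  rw [ha] at hNi
  have hNodd : Odd (Nat.card ↥N) := by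
    have hWc : Nat.card ↥N = (Q : Subgroup G).index :=
      mul_left_cancel₀ (Nat.card_pos (α := ↥(Q : Subgroup G))).ne'
        ((mul_comm _ _).trans (hNQ.card_mul.trans (Q : Subgroup G).card_mul_index.symm))
    rw [hWc, Nat.odd_iff, ← Nat.two_dvd_ne_zero]
    exact Q.not_dvd_index
  set ρ := π.erase 2 with hρ
  have hρN : kPi (↑π : Set ℕ) ↥N = kPi (↑ρ : Set ℕ) ↥N := kPi_congr fun x => by
    refine ⟨fun h r hr hd => ?_, fun h r hr hd => Finset.mem_of_mem_erase (h r hr hd)⟩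
    refine Finset.mem_erase.2 ⟨?_, h r hr hd⟩
    rintro rfl
    exact hNodd.not_two_dvd_nat (hd.trans (orderOf_dvd_natCard x))
  have hprod : π.prod (fun r => r ^ (Nat.card G).factorization r) =
      2 ^ a * ρ.prod (fun r => r ^ (Nat.card ↥N).factorization r) := by
    rw [← Finset.mul_prod_erase π _ h2, ← N.card_mul_index, hNi,
      Nat.factorization_mul Nat.card_pos.ne' (pow_ne_zero _ two_ne_zero)]
    simp only [Finsupp.add_apply, Nat.Prime.factorization_pow Nat.prime_two]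
    congr 1
    · rw [Nat.factorization_eq_zero_of_not_dvd hNodd.not_two_dvd_nat, Finsupp.single_eq_same, zero_add]
    · refine Finset.prod_congr rfl fun r hr => ?_
      rw [Finsupp.single_eq_of_ne (Finset.ne_of_mem_erase hr), add_zero]
  have hq : kPi (↑π : Set ℕ) (G ⧸ N) ≤ 2 ^ a := by
    calc kPi (↑π : Set ℕ) (G ⧸ N) ≤ Nat.card (ConjClasses (G ⧸ N)) := Finite.card_subtype_le _
      _ ≤ Nat.card (G ⧸ N) := Nat.card_le_card_of_surjective _ ConjClasses.mk_surjective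
      _ = 2 ^ a := by rw [← Subgroup.index_eq_card, hNi]
  have hkN : ρ.prod (fun r => r ^ (Nat.card ↥N).factorization r) < 2 * kPi (↑ρ : Set ℕ) ↥N := by
    refine Nat.lt_of_mul_lt_mul_left (a := 2 ^ a) ?_
    rw [← hprod, ← hρN]
    refine hk.trans_le ?_
    calc 2 * kPi (↑π : Set ℕ) G ≤ 2 * (kPi (↑π : Set ℕ) ↥N * kPi (↑π : Set ℕ) (G ⧸ N)) :=
          Nat.mul_le_mul_left _ (kPi_le_kPi_mul_kPi _ N)
      _ ≤ 2 * (kPi (↑π : Set ℕ) ↥N * 2 ^ a) := Nat.mul_le_mul_left _ (Nat.mul_le_mul_left _ hq)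
      _ = 2 ^ a * (2 * kPi (↑π : Set ℕ) ↥N) := by ring
  obtain ⟨⟨L, hLn, hL1, hL2⟩, H, hH, hHab⟩ :=
    complement_odd ρ (fun r hr => hπ r (Finset.mem_of_mem_erase hr)) (Finset.notMem_erase 2 π) hNodd hkN
  refine ⟨⟨L.map N.subtype, ⟨?_⟩, ?_, ?_⟩, H.map N.subtype, ⟨?_, ?_⟩, ?_⟩
  · rintro _ ⟨x, hx, rfl⟩ g
    refine ⟨⟨g * x * g⁻¹, hNn.conj_mem _ x.2 g⟩, ?_, rfl⟩
    show _ ∈ L
    rw [← QuotientGroup.eq_one_iff, ← orderOf_eq_one_iff]
    have hco : (Nat.card ↥L).Coprime L.index :=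
      Nat.coprime_of_dvd fun r hr h1 h2 => hL1 r hr h1 (hL2 r hr h2)
    refine Nat.eq_one_of_dvd_coprimes hco.symm ((orderOf_dvd_natCard _).trans (dvd_of_eq (Subgroup.index_eq_card L).symm))
      ((orderOf_map_dvd (QuotientGroup.mk' L) _).trans ?_)
    rw [← Subgroup.orderOf_coe]
    show orderOf (MulAut.conj g (x : G)) ∣ _
    rw [MulEquiv.orderOf_eq]
    show orderOf (x : G) ∣ _
    rw [Subgroup.orderOf_coe]
    exact L.orderOf_dvd_natCard hx
  · intro r hr hd hrπ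
    rw [Subgroup.card_map_of_injective N.subtype_injective] at hd
    refine hL1 r hr hd (Finset.mem_erase.2 ⟨?_, hrπ⟩)
    rintro rfl
    exact hNodd.not_two_dvd_nat (hd.trans (Subgroup.card_subgroup_dvd_card L))
  · intro r hr hd
    rw [Subgroup.index_map_subtype, hNi] at hd
    rcases hr.dvd_mul.1 hd with h | h
    · exact Finset.mem_of_mem_erase (hL2 r hr h)
    · rw [(Nat.prime_dvd_prime_iff_eq hr Nat.prime_two).1 (hr.dvd_of_dvd_pow h)]; exact h2
  · intro r hr hd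
    rw [Subgroup.card_map_of_injective N.subtype_injective] at hd
    have := hH.1 r hr hd
    simpa [hρ, and_comm] using this
  · intro r hr hrπ hd
    rw [Subgroup.index_map_subtype, hNi] at hd
    have hr2 : r ≠ 2 := by simpa using hrπ.2
    rcases hr.dvd_mul.1 hd with h | h
    · exact hH.2 r hr (by simp [hρ, hr2, Finset.mem_coe.1 hrπ.1]) h
    · exact hr2 ((Nat.prime_dvd_prime_iff_eq hr Nat.prime_two).1 (hr.dvd_of_dvd_pow h))
  · exact ⟨⟨by
      rintro ⟨_, a, ha, rfl⟩ ⟨_, b, hb, rfl⟩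
      exact Subtype.ext (congrArg N.subtype (congrArg Subtype.val (hHab.is_comm.comm ⟨a, ha⟩ ⟨b, hb⟩)))⟩⟩

/-- Let π be a finite set of primes containing 2 and G a finite group. Write k_π(G) for the number of conjugacy classes of G consisting of π-elements (elements all of whose order's prime divisors lie in π) and |G|_π for the π-part of the order of G. If k_π(G) > |G|_π/2, then G has a normal π-complement (a normal subgroup of order prime to π whose index is a π-number) and an abelian Hall subgroup for the set of odd primes in π. -/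
theorem result {G : Type*} [Group G] [Finite G] (π : Finset ℕ) (hπ : ∀ r ∈ π, r.Prime) (h2 : 2 ∈ π)
    (hk : π.prod (fun r => r ^ (Nat.card G).factorization r) < 2 * Nat.card {c : ConjClasses G // ∀ x ∈ c.carrier, ∀ r : ℕ, r.Prime → r ∣ orderOf x → r ∈ π}) :
    (∃ N : Subgroup G, N.Normal ∧ (∀ r : ℕ, r.Prime → r ∣ Nat.card ↥N → r ∉ π) ∧ ∀ r : ℕ, r.Prime → r ∣ N.index → r ∈ π) ∧ ∃ H : Subgroup G, Cfsg.IsPiHall ((↑π : Set ℕ) \ {2}) H ∧ IsMulCommutative ↥H := by
  exact aux π hπ h2 (by rw [← card_carrier_eq_kPi]; exact hk)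

end Cfsg.Agent.S3898
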