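import Cfsg.Statements.S3901
import Cfsg.Agent.CPOutside.Main

set_option autoImplicit false
open Cfsg

namespace Cfsg.Agent.S3901

/-- Let N be a non-trivial normal subgroup of the finite group G such that every element of G outside N has prime power order. If N is not solvable, then G/N is solvable. -/
theorem result {G : Type*} [Group G] [Finite G] (N : Subgroup G) [N.Normal] (hN : N ≠ ⊥) (hns : ¬ Group.IsSolvable ↥N)
    (h : ∀ x : G, x ∉ N → IsPrimePow (orderOf x)) : Group.IsSolvable (G ⧸ N) :=
  CfsgLib.CPOutside.isSolvable_of_no_normalise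
    fun _ _ _ _ hqs _ hT hT1 _ hx hxT => CfsgLib.CPOutside.no_normalise hns h hqs hT hT1 hx hxT

end Cfsg.Agent.S3901
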