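import Cfsg.Statements.S3903
import Mathlib

set_option autoImplicit false
open Cfsg

namespace Cfsg.Agent.S3903

section
variable {G : Type*} [Group G] [Finite G]

/-- The centraliser of an element outside `N` is a `p`-group. -/
theorem centralizer_pGroup {p : ℕ} [hp : Fact p.Prime] (N : Subgroup G)
    (h : ∀ x : G, x ∉ N → IsPrimePow (orderOf x)) {x : G} (hx : x ∉ N) {k : ℕ} (hk : orderOf x = p ^ k) :
    IsPGroup p (Subgroup.centralizer ({x} : Set G)) := by
  haveI : Finite (Subgroup.centralizer ({x} : Set G)) := inferInstance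
  have hk0 : k ≠ 0 := by
    rintro rfl
    rw [pow_zero, orderOf_eq_one_iff] at hk
    exact hx (hk ▸ N.one_mem)
  refine IsPGroup.of_card (n := (Nat.card (Subgroup.centralizer ({x} : Set G))).factorization p) ?_
  refine Nat.eq_pow_of_factorization_eq_single ?_ ?_ |>.trans rfl
  · exact Nat.card_pos.ne'
  · ext q
    by_cases hqp : q = p
    · subst hqp; simp
    rw [Finsupp.single_eq_of_ne hqp]
    by_contra hne
    have hq : q.Prime := Nat.prime_of_mem_primeFactors (Nat.support_factorization _ ▸ Finsupp.mem_support_iff.2 hne)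
    haveI := Fact.mk hq
    obtain ⟨y, hy⟩ := exists_prime_orderOf_dvd_card' (G := Subgroup.centralizer ({x} : Set G)) q
      (Nat.dvd_of_factorization_pos hne)
    rw [← Subgroup.orderOf_coe] at hy
    have hc : Commute x (y : G) := (Subgroup.mem_centralizer_singleton_iff.1 y.2).symm
    have hcop : (orderOf x).Coprime (orderOf (y : G)) := by
      rw [hy, hk]
      exact Nat.Coprime.pow_left _ ((Nat.coprime_primes hp.out hq).2 (Ne.symm hqp))
    have hxy : x * (y : G) ∉ N := by
      intro hmem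
      have h1 := N.pow_mem hmem (orderOf (y : G))
      rw [hc.mul_pow, pow_orderOf_eq_one, mul_one] at h1
      obtain ⟨m, hm⟩ := exists_pow_eq_self_of_coprime hcop.symm
      exact hx (hm ▸ N.pow_mem h1 m)
    obtain ⟨r, j, hr, hj, hrj⟩ := h _ hxy
    rw [hc.orderOf_mul_eq_mul_orderOf_of_coprime hcop, hy, hk] at hrj
    have hr' := hr.nat_prime
    have h1 : p ∣ r ^ j := hrj ▸ (dvd_pow_self p hk0).mul_right _
    have h2 : q ∣ r ^ j := hrj ▸ dvd_mul_left _ _
    exact hqp (((Nat.prime_dvd_prime_iff_eq hq hr').1 (hq.dvd_of_dvd_pow h2)).trans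
      ((Nat.prime_dvd_prime_iff_eq hp.out hr').1 (hp.out.dvd_of_dvd_pow h1)).symm)

/-- A `p`-subgroup outside `N` is normalised by no element of order prime to `p` of `N`. -/
theorem normalizer_pGroup {p : ℕ} [hp : Fact p.Prime] (N : Subgroup G) [N.Normal]
    (hidx : ∀ q : ℕ, q.Prime → q ≠ p → ∀ y : G, orderOf y = q → y ∈ N)
    (hcent : ∀ z : G, z ∉ N → (∃ k : ℕ, orderOf z = p ^ k) → IsPGroup p (Subgroup.centralizer ({z} : Set G)))
    {D : Subgroup G} (hD : IsPGroup p D) (hDN : ¬ D ≤ N) :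
    IsPGroup p (Subgroup.normalizer (D : Set G)) := by
  refine IsPGroup.of_card (n := (Nat.card (Subgroup.normalizer (D : Set G))).factorization p) ?_
  refine Nat.eq_pow_of_factorization_eq_single ?_ ?_ |>.trans rfl
  · exact Nat.card_pos.ne'
  · ext q
    by_cases hqp : q = p
    · subst hqp; simp
    rw [Finsupp.single_eq_of_ne hqp]
    by_contra hne
    have hq : q.Prime := Nat.prime_of_mem_primeFactors (Nat.support_factorization _ ▸ Finsupp.mem_support_iff.2 hne)
    haveI := Fact.mk hq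
    obtain ⟨y, hy⟩ := exists_prime_orderOf_dvd_card' (G := Subgroup.normalizer (D : Set G)) q
      (Nat.dvd_of_factorization_pos hne)
    rw [← Subgroup.orderOf_coe] at hy
    have hyN := hidx q hq hqp _ hy
    obtain ⟨w, hwD, hwN⟩ := SetLike.not_le_iff_exists.1 hDN
    let E : Subgroup G := D ⊓ N
    have hnorm : ∀ (a : Subgroup.zpowers (y : G)) (d : G), d ∈ D → (a : G) * d * (a : G)⁻¹ ∈ D := fun a d hd =>
      (Subgroup.mem_normalizer_iff.1 (Subgroup.zpowers_le.2 y.2 a.2) d).1 hd
    let X := {d : D // (w : G)⁻¹ * d ∈ N}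
    have key : ∀ (a : Subgroup.zpowers (y : G)) (d : X),
        (w : G)⁻¹ * ((a : G) * (d.1 : G) * (a : G)⁻¹) ∈ N := fun a d => by
      have ha : (a : G) ∈ N := Subgroup.zpowers_le.2 hyN a.2
      have h1 : (d.1 : G)⁻¹ * ((a : G) * (d.1 : G)) ∈ N := by
        have := Subgroup.Normal.conj_mem inferInstance (a : G) ha (d.1 : G)⁻¹
        rwa [inv_inv, mul_assoc] at this
      have h2 := N.mul_mem (N.mul_mem d.2 h1) (N.inv_mem ha)
      simpa [mul_assoc] using h2
    letI : MulAction (Subgroup.zpowers (y : G)) X :=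
      { smul := fun a d => ⟨⟨(a : G) * (d.1 : G) * (a : G)⁻¹, hnorm a _ d.1.2⟩, key a d⟩
        one_smul := fun d => Subtype.ext (Subtype.ext (by
          show ((1 : Subgroup.zpowers (y : G)) : G) * (d.1 : G) * ((1 : Subgroup.zpowers (y : G)) : G)⁻¹ = _
          simp))
        mul_smul := fun a b d => Subtype.ext (Subtype.ext (by
          show ((a * b : Subgroup.zpowers (y : G)) : G) * (d.1 : G) * ((a * b : Subgroup.zpowers (y : G)) : G)⁻¹ =
            (a : G) * ((b : G) * (d.1 : G) * (b : G)⁻¹) * (a : G)⁻¹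
          simp [mul_assoc])) }
    have hQ : IsPGroup q (Subgroup.zpowers (y : G)) := IsPGroup.of_card (n := 1) (by rw [Nat.card_zpowers, hy, pow_one])
    have hcard : Nat.card X = Nat.card (N.subgroupOf D) := by
      refine Nat.card_congr
        { toFun := fun d => ⟨(⟨w, hwD⟩ : D)⁻¹ * d.1, by
            show ((((⟨w, hwD⟩ : D)⁻¹ * d.1 : D) : G)) ∈ N
            simpa using d.2⟩
          invFun := fun e => ⟨(⟨w, hwD⟩ : D) * e.1, by
            show w⁻¹ * (w * ((e.1 : D) : G)) ∈ N
            rw [inv_mul_cancel_left]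
            exact e.2⟩
          left_inv := fun d => Subtype.ext (mul_inv_cancel_left _ _)
          right_inv := fun e => Subtype.ext (inv_mul_cancel_left _ _) }
    obtain ⟨m, hm⟩ := IsPGroup.iff_card.1 (hD.to_subgroup (N.subgroupOf D))
    have hnd : ¬ q ∣ Nat.card X := by
      rw [hcard, hm]
      exact fun hd => hqp ((Nat.prime_dvd_prime_iff_eq hq hp.out).1 (hq.dvd_of_dvd_pow hd))
    obtain ⟨d, hd⟩ := hQ.nonempty_fixed_point_of_prime_not_dvd_card X hnd
    have hdN : (d.1 : G) ∉ N := fun hm => hwN (by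
      have := N.mul_mem hm (N.inv_mem d.2)
      simpa using this)
    have hdy : (y : G) * (d.1 : G) * (y : G)⁻¹ = (d.1 : G) :=
      congrArg (fun u : X => ((u.1 : D) : G)) (hd ⟨y, Subgroup.mem_zpowers _⟩)
    have hyC : (y : G) ∈ Subgroup.centralizer ({(d.1 : G)} : Set G) :=
      Subgroup.mem_centralizer_singleton_iff.2 (mul_inv_eq_iff_eq_mul.1 hdy)
    obtain ⟨j, hj⟩ := IsPGroup.iff_orderOf.1 (hcent _ hdN (by
      obtain ⟨i, hi⟩ := IsPGroup.iff_orderOf.1 hD d.1
      exact ⟨i, by rw [Subgroup.orderOf_coe]; exact hi⟩)) ⟨y, hyC⟩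
    rw [← Subgroup.orderOf_coe, hy] at hj
    exact hqp ((Nat.prime_dvd_prime_iff_eq hq hp.out).1 (hq.dvd_of_dvd_pow (dvd_of_eq hj)))

end

/-- Let N be a proper normal subgroup of the finite group G such that every element x of G outside N has prime power order and has centralizer C_G(x) a maximal subgroup of G. Then N is solvable. -/
theorem result {G : Type*} [Group G] [Finite G] (N : Subgroup G) [N.Normal] (hN : N ≠ ⊤)
    (h : ∀ x : G, x ∉ N → IsPrimePow (orderOf x) ∧ IsCoatom (Subgroup.centralizer ({x} : Set G))) : Group.IsSolvable ↥N := by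
  classical
  by_contra hns
  obtain ⟨x, hx⟩ : ∃ x, x ∉ N := by
    by_contra hc
    push Not at hc
    exact hN (eq_top_iff.2 fun g _ => hc g)
  obtain ⟨p, k, hp', -, hk⟩ := (h x hx).1
  haveI := Fact.mk hp'.nat_prime
  have hGns : ¬ IsPGroup p G := fun hP => hns (by
    haveI := (hP.to_subgroup N).isNilpotent
    infer_instance)
  -- each centraliser outside is a maximal Sylow subgroup
  have hsyl : ∀ z : G, z ∉ N → (∃ i : ℕ, orderOf z = p ^ i) →
      ∃ P : Sylow p G, (P : Subgroup G) = Subgroup.centralizer ({z} : Set G) := by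
    rintro z hz ⟨i, hi⟩
    obtain ⟨P, hP⟩ := (centralizer_pGroup N (fun w hw => (h w hw).1) hz hi).exists_le_sylow
    refine ⟨P, ?_⟩
    rcases hP.eq_or_lt with e | l
    · exact e.symm
    · have := (h z hz).2.2 _ l
      exact absurd (IsPGroup.of_equiv (this ▸ P.2) Subgroup.topEquiv) hGns
  obtain ⟨P, hP⟩ := hsyl x hx ⟨k, hk.symm⟩
  have hPco : IsCoatom (P : Subgroup G) := hP ▸ (h x hx).2
  have hxP : x ∈ (P : Subgroup G) := hP ▸ Subgroup.mem_centralizer_singleton_iff.2 rfl
  -- the quotient is a `p`-group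
  have hPN : (P : Subgroup G) ⊔ N = ⊤ := by
    refine hPco.2 _ (lt_of_le_of_ne le_sup_left fun e => hns ?_)
    have hle : N ≤ (P : Subgroup G) := e.ge.trans' le_sup_right
    haveI := (P.2.to_le hle).isNilpotent
    infer_instance
  have hidx : ∀ q : ℕ, q.Prime → q ≠ p → ∀ y : G, orderOf y = q → y ∈ N := by
    intro q hq hqp y hy
    haveI := Fact.mk hq
    obtain ⟨a, ha, b, hb, rfl⟩ := Subgroup.mem_sup_of_normal_right.1 (hPN ▸ Subgroup.mem_top y : y ∈ (P : Subgroup G) ⊔ N)
    have hq' : IsPGroup p ((P : Subgroup G).map (QuotientGroup.mk' N)) := P.2.map _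
    obtain ⟨i, hi⟩ := IsPGroup.iff_orderOf.1 hq' ⟨QuotientGroup.mk' N a, a, ha, rfl⟩
    rw [← Subgroup.orderOf_coe] at hi
    have h1 : QuotientGroup.mk' N (a * b) = QuotientGroup.mk' N a := by
      rw [map_mul, show QuotientGroup.mk' N b = 1 from (QuotientGroup.eq_one_iff b).2 hb, mul_one]
    have h2 := orderOf_map_dvd (QuotientGroup.mk' N) (a * b)
    rw [h1, hi, hy] at h2
    rcases (Nat.dvd_prime hq).1 h2 with e | e
    · rw [← QuotientGroup.eq_one_iff, ← orderOf_eq_one_iff]
      show orderOf (QuotientGroup.mk' N (a * b)) = 1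
      rw [h1, hi, e]
    · exact absurd ((Nat.prime_dvd_prime_iff_eq hq hp'.nat_prime).1 (hq.dvd_of_dvd_pow (e ▸ dvd_rfl : q ∣ p ^ i))) hqp
  have hcent : ∀ z : G, z ∉ N → (∃ i : ℕ, orderOf z = p ^ i) → IsPGroup p (Subgroup.centralizer ({z} : Set G)) :=
    fun z hz ⟨i, hi⟩ => centralizer_pGroup N (fun w hw => (h w hw).1) hz hi
  -- Sylow subgroups meet inside `N`
  have hTI : ∀ A B : Sylow p G, ¬ ((A : Subgroup G) ⊓ B ≤ N) → A = B := by
    by_contra hc
    push Not at hc
    obtain ⟨A₀, B₀, hAB₀, hne₀⟩ := hc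
    let S : Finset (Sylow p G × Sylow p G) := @Finset.univ _ (Fintype.ofFinite _) |>.filter
      fun u => ¬ ((u.1 : Subgroup G) ⊓ u.2 ≤ N) ∧ u.1 ≠ u.2
    obtain ⟨⟨A, B⟩, hmem, hmax⟩ := S.exists_max_image (fun u => Nat.card ↥((u.1 : Subgroup G) ⊓ u.2))
      ⟨(A₀, B₀), by simp [S, hAB₀, hne₀]⟩
    simp only [S, Finset.mem_filter, Finset.mem_univ, true_and] at hmem
    set D := (A : Subgroup G) ⊓ B with hD
    obtain ⟨C, hC⟩ := (normalizer_pGroup N hidx hcent (A.2.to_le (inf_le_left : D ≤ A)) hmem.1).exists_le_sylow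
    have hbig : ∀ A' : Sylow p G, D ≤ A' → D ≠ (A' : Subgroup G) → A' = C := by
      intro A' hle hne
      by_contra hA'
      haveI := A'.2.isNilpotent
      have hlt := Group.normalizerCondition_of_isNilpotent (D.subgroupOf (A' : Subgroup G))
        (lt_top_iff_ne_top.2 fun e => hne (le_antisymm hle (Subgroup.subgroupOf_eq_top.1 e)))
      obtain ⟨a, ha, haD⟩ := SetLike.exists_of_lt hlt
      have haN : (a : G) ∈ Subgroup.normalizer (D : Set G) := by
        rw [Subgroup.mem_normalizer_iff]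
        intro d
        constructor
        · intro hd
          exact (Subgroup.mem_normalizer_iff.1 ha ⟨d, hle hd⟩).1 hd
        · intro hd
          have hd' : d ∈ (A' : Subgroup G) := by
            have := (A' : Subgroup G).mul_mem ((A' : Subgroup G).mul_mem ((A' : Subgroup G).inv_mem a.2) (hle hd)) a.2
            simpa [mul_assoc] using this
          exact (Subgroup.mem_normalizer_iff.1 ha ⟨d, hd'⟩).2 hd
      have hDC : D < (A' : Subgroup G) ⊓ C := by
        refine lt_of_le_of_ne (le_inf hle (Subgroup.le_normalizer.trans hC)) fun e => haD ?_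
        show (a : G) ∈ D
        rw [e]
        exact ⟨a.2, hC haN⟩
      have := hmax (A', C) (by
        simp only [S, Finset.mem_filter, Finset.mem_univ, true_and]
        exact ⟨fun l => hmem.1 (hDC.le.trans l), hA'⟩)
      exact hDC.not_ge (Subgroup.eq_of_le_of_card_ge hDC.le this).ge
    have hnA : D ≠ (A : Subgroup G) := fun e => hmem.2
      (Sylow.ext (Subgroup.eq_of_le_of_card_ge (e ▸ inf_le_right : (A : Subgroup G) ≤ B)
        (le_of_eq (Sylow.card_eq_multiplicity B |>.trans (Sylow.card_eq_multiplicity A).symm))))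
    have hnB : D ≠ (B : Subgroup G) := fun e => hmem.2
      (Sylow.ext (Subgroup.eq_of_le_of_card_ge (e ▸ inf_le_left : (B : Subgroup G) ≤ A)
        (le_of_eq (Sylow.card_eq_multiplicity A |>.trans (Sylow.card_eq_multiplicity B).symm))).symm)
    exact hmem.2 ((hbig A inf_le_left hnA).trans (hbig B inf_le_right hnB).symm)
  -- abelian
  have hzC : ∀ z ∈ (P : Subgroup G), z ∉ N → ∀ g ∈ (P : Subgroup G), g * z = z * g := by
    intro z hzP hz g hg
    obtain ⟨i, hi⟩ := IsPGroup.iff_orderOf.1 P.2 ⟨z, hzP⟩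
    rw [← Subgroup.orderOf_coe] at hi
    obtain ⟨P', hP'⟩ := hsyl z hz ⟨i, hi⟩
    have hzP' : z ∈ (P' : Subgroup G) := hP' ▸ Subgroup.mem_centralizer_singleton_iff.2 rfl
    obtain rfl : P = P' := hTI P P' fun l => hz (l ⟨hzP, hzP'⟩)
    exact Subgroup.mem_centralizer_singleton_iff.1 (hP' ▸ hg)
  have hab : ∀ u ∈ (P : Subgroup G), ∀ v ∈ (P : Subgroup G), u * v = v * u := by
    intro u hu v hv
    by_cases huN : u ∈ N
    · have hxu : x * u ∉ N := fun hm => hx (by simpa using N.mul_mem hm (N.inv_mem huN))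
      have h1 := hzC _ ((P : Subgroup G).mul_mem hxP hu) hxu v hv
      have h2 := hzC x hxP hx v hv
      calc u * v = x⁻¹ * ((x * u) * v) := by group
        _ = x⁻¹ * (v * (x * u)) := by rw [h1]
        _ = x⁻¹ * (v * x) * u := by group
        _ = x⁻¹ * (x * v) * u := by rw [h2]
        _ = v * u := by group
    · exact (hzC u hu huN v hv).symm
  have hNP : Subgroup.normalizer ((P : Subgroup G) : Set G) ≤ Subgroup.centralizer ((P : Subgroup G) : Set G) := by
    have hPn : ¬ ((P : Subgroup G) ≤ N) := fun l => hx (l hxP)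
    rw [P.3 (normalizer_pGroup N hidx hcent P.2 hPn) Subgroup.le_normalizer]
    intro u hu
    rw [Subgroup.mem_centralizer_iff]
    exact fun v hv => hab v hv u hu
  set f := MonoidHom.transferSylow P hNP with hf
  have hK : ¬ p ∣ Nat.card f.ker := MonoidHom.not_dvd_card_ker_transferSylow P hNP
  have hKn : ∀ (r : ℕ) [Fact r.Prime] (R : Sylow r f.ker), (R : Subgroup f.ker).Normal := by
    intro r _ R
    set R' := (R : Subgroup f.ker).map f.ker.subtype with hR'
    have hsup : Subgroup.normalizer (R' : Set G) ⊔ f.ker = ⊤ := Sylow.normalizer_sup_eq_top R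
    have hd : p ^ (Nat.card G).factorization p ∣ Nat.card (Subgroup.normalizer (R' : Set G)) := by
      refine dvd_trans ?_ (Subgroup.relIndex_dvd_card f.ker (Subgroup.normalizer (R' : Set G)))
      refine (Nat.Coprime.pow_left _ (hp'.nat_prime.coprime_iff_not_dvd.2 hK)).dvd_of_dvd_mul_left ?_
      rw [← Subgroup.relIndex_sup_right, hsup, Subgroup.relIndex_top_right, Subgroup.card_mul_index]
      exact Nat.ordProj_dvd _ _
    obtain ⟨Q, hQ⟩ := Sylow.exists_subgroup_card_pow_prime p hd
    let P₁ : Sylow p G := Sylow.ofCard (Q.map (Subgroup.normalizer (R' : Set G)).subtype) (by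
      rw [Subgroup.card_map_of_injective (Subgroup.subtype_injective _), hQ])
    have hP₁ : (P₁ : Subgroup G) ≤ Subgroup.normalizer (R' : Set G) := Subgroup.map_subtype_le _
    obtain ⟨z, hz, hzN⟩ : ∃ z ∈ (P₁ : Subgroup G), z ∉ N := SetLike.not_le_iff_exists.1 fun l => by
      obtain ⟨g, hg⟩ := MulAction.exists_smul_eq G P₁ P
      rw [← hg, Sylow.coe_subgroup_smul, Subgroup.mem_pointwise_smul_iff_inv_smul_mem] at hxP
      have h1 := Subgroup.Normal.conj_mem inferInstance _ (l hxP) g
      simp [MulAut.smul_def, mul_assoc] at h1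
      exact hx h1
    obtain ⟨i, hi⟩ := IsPGroup.iff_orderOf.1 P₁.2 ⟨z, hz⟩
    rw [← Subgroup.orderOf_coe] at hi
    obtain ⟨P₂, hP₂⟩ := hsyl z hzN ⟨i, hi⟩
    have hzP₂ : z ∈ (P₂ : Subgroup G) := hP₂ ▸ Subgroup.mem_centralizer_singleton_iff.2 rfl
    obtain rfl : P₁ = P₂ := hTI P₁ P₂ fun l => hzN (l ⟨hz, hzP₂⟩)
    have hco : IsCoatom (P₁ : Subgroup G) := hP₂ ▸ (h z hzN).2
    have htop : Subgroup.normalizer (R' : Set G) = ⊤ := by
      rcases hP₁.eq_or_lt with e | l
      swap
      · exact hco.2 _ l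
      exfalso
      have h1 : R' ≤ (P₁ : Subgroup G) := Subgroup.le_normalizer.trans e.ge
      have hbot : R' = ⊥ := by
        obtain ⟨j, hj⟩ := IsPGroup.iff_card.1 (P₁.2.to_le h1)
        rcases j.eq_zero_or_pos with j0 | j0
        · exact Subgroup.card_eq_one.1 (by rw [hj, j0, pow_zero])
        · exact absurd ((dvd_pow_self p j0.ne').trans (hj ▸ Subgroup.card_dvd_of_le (Subgroup.map_subtype_le _ :
            R' ≤ f.ker))) hK
      refine hco.1 (e.trans ?_)
      rw [hbot]
      exact Subgroup.normalizer_eq_top_iff.2 inferInstance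
    have hn : R'.Normal := Subgroup.normalizer_eq_top_iff.1 htop
    have := Subgroup.normal_subgroupOf (H := f.ker) (N := R')
    rwa [hR', Subgroup.subgroupOf, Subgroup.comap_map_eq_self_of_injective f.ker.subtype_injective] at this
  haveI : Group.IsNilpotent f.ker := (Group.isNilpotent_of_finite_tfae.out 0 3).2 hKn
  haveI : Group.IsSolvable (P : Subgroup G) := by
    haveI := P.2.isNilpotent
    infer_instance
  haveI : Group.IsSolvable G := solvable_of_ker_le_range f.ker.subtype f (by rw [Subgroup.range_subtype])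
  exact hns inferInstance

end Cfsg.Agent.S3903
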