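import Cfsg.Statements.S3908
import Cfsg.Agent.RankOneP.Basic
import Mathlib

set_option autoImplicit false
open Cfsg

namespace Cfsg.Agent.S3908

/-- Either no element of order `p ^ 2`, or at most one subgroup of order `p`. -/
theorem dichotomy {G : Type*} [Group G] [Finite G]
    (hB : ∀ A B : Subgroup G, IsMulCommutative ↥A → IsMulCommutative ↥B → Nat.card ↥A = Nat.card ↥B →
      ∃ g : G, B = A.map (MulAut.conj g).toMonoidHom) (p : ℕ) [Fact p.Prime] (P : Sylow p G) :
    (∀ x ∈ (P : Subgroup G), x ^ p = 1) ∨ CfsgLib.RankOneP.UniqueOrderP p ↥(P : Subgroup G) := by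
  have hp : p.Prime := Fact.out
  refine or_iff_not_imp_left.2 fun hne => ?_
  push Not at hne
  obtain ⟨x, hx, hxp⟩ := hne
  obtain ⟨k, hk⟩ := IsPGroup.iff_orderOf.1 P.2 ⟨x, hx⟩
  rw [← Subgroup.orderOf_coe] at hk
  have hk2 : 2 ≤ k := by
    by_contra h
    apply hxp
    rw [← orderOf_dvd_iff_pow_eq_one, hk]
    exact (pow_dvd_pow p (show k ≤ 1 by omega)).trans (by rw [pow_one])
  let y := x ^ p ^ (k - 2)
  have hy : orderOf y = p ^ 2 := by
    rw [orderOf_pow' x (pow_ne_zero _ hp.ne_zero), hk, Nat.gcd_eq_right (pow_dvd_pow p (by omega)),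
      Nat.pow_div (by omega) hp.pos]
    congr 1; omega
  refine CfsgLib.RankOneP.unique_of_rank_le_one P.2 fun A hA hexp => ?_
  by_contra hlt
  obtain ⟨j, hj⟩ := IsPGroup.iff_card.1 (P.2.to_subgroup A)
  have hj2 : 2 ≤ j := by
    by_contra h
    apply hlt
    rw [hj]
    exact (Nat.pow_le_pow_right hp.pos (show j ≤ 1 by omega)).trans_eq (pow_one p)
  obtain ⟨E0, hE0⟩ := Sylow.exists_subgroup_card_pow_prime (G := A) p (n := 2) (hj ▸ pow_dvd_pow p hj2)
  let E : Subgroup G := (E0.map A.subtype).map (P : Subgroup G).subtype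
  have hEc : Nat.card E = p ^ 2 := by
    rw [Subgroup.card_map_of_injective (P : Subgroup G).subtype_injective,
      Subgroup.card_map_of_injective A.subtype_injective, hE0]
  obtain ⟨g, hg⟩ := hB E (Subgroup.zpowers y) (IsPGroup.isMulCommutative_of_card_eq_prime_sq hEc)
    inferInstance (by rw [hEc, Nat.card_zpowers, hy])
  have hy' : y ∈ E.map (MulAut.conj g).toMonoidHom := hg ▸ Subgroup.mem_zpowers y
  obtain ⟨e, he, hey⟩ := Subgroup.mem_map.1 hy'
  obtain ⟨e1, he1, rfl⟩ := Subgroup.mem_map.1 he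
  obtain ⟨e0, -, rfl⟩ := Subgroup.mem_map.1 he1
  have h1 : y ^ p = 1 := by
    rw [← hey, ← map_pow, ← map_pow, show (A.subtype e0) ^ p = 1 from hexp _ e0.2, map_one, map_one]
  have h2 := orderOf_dvd_of_pow_eq_one h1
  rw [hy] at h2
  have := Nat.le_of_dvd hp.pos h2
  have := hp.two_le
  nlinarith


/-- Let G be a finite group in which any two abelian subgroups of the same order are conjugate. Then a Sylow 2-subgroup of G is cyclic, elementary abelian or generalized quaternion, and for an odd prime p a Sylow p-subgroup of G is cyclic or has exponent dividing p. -/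
theorem result {G : Type*} [Group G] [Finite G] (hB : ∀ A B : Subgroup G, IsMulCommutative ↥A → IsMulCommutative ↥B → Nat.card ↥A = Nat.card ↥B → ∃ g : G, B = A.map (MulAut.conj g).toMonoidHom) :
    (∀ P : Sylow 2 G, IsCyclic ↥(P : Subgroup G) ∨ Cfsg.IsElementaryAbelian 2 (P : Subgroup G) ∨ ∃ k : ℕ, Nonempty (↥(P : Subgroup G) ≃* QuaternionGroup (2 ^ k))) ∧
    ∀ (p : ℕ) [Fact p.Prime], p ≠ 2 → ∀ P : Sylow p G, IsCyclic ↥(P : Subgroup G) ∨ ∀ x ∈ (P : Subgroup G), x ^ p = 1 := by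
  refine ⟨fun P => ?_, fun p _ hp2 P => ?_⟩
  · have := Fact.mk Nat.prime_two
    rcases dichotomy hB 2 P with h | h
    · refine Or.inr (Or.inl ⟨⟨⟨fun a b => Subtype.ext ?_⟩⟩, h⟩)
      have hab := h _ (mul_mem a.2 b.2)
      have ha := h _ a.2
      have hb := h _ b.2
      rw [sq] at hab ha hb
      calc (a : G) * b = ((a : G) * b)⁻¹ := eq_inv_of_mul_eq_one_left hab
        _ = (b : G)⁻¹ * (a : G)⁻¹ := mul_inv_rev _ _
        _ = b * a := by rw [← eq_inv_of_mul_eq_one_left ha, ← eq_inv_of_mul_eq_one_left hb]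
    · rcases CfsgLib.RankOneP.isCyclic_or_quaternion P.2 h with h' | ⟨-, k, -, h'⟩
      · exact Or.inl h'
      · exact Or.inr (Or.inr ⟨k, h'⟩)
  · rcases dichotomy hB p P with h | h
    · exact Or.inr h
    · exact Or.inl (CfsgLib.RankOneP.isCyclic_of_odd hp2 P.2 h)

end Cfsg.Agent.S3908
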