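import Cfsg.Statements.S3909
import Mathlib

set_option autoImplicit false
open Cfsg

namespace Cfsg.Agent.S3909

/-- Let G be a finite group in which any two abelian subgroups of the same order are conjugate. Let M be a normal subgroup of G. If M contains an element of the same order as a ∈ G, then a ∈ M; and if M is elementary abelian of order p^t with p prime and t ≥ 2, then M is the unique Sylow p-subgroup of G. -/
theorem result {G : Type*} [Group G] [Finite G] (hB : ∀ A B : Subgroup G, IsMulCommutative ↥A → IsMulCommutative ↥B → Nat.card ↥A = Nat.card ↥B → ∃ g : G, B = A.map (MulAut.conj g).toMonoidHom) (M : Subgroup G) [M.Normal] :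
    (∀ a : G, (∃ m ∈ M, orderOf m = orderOf a) → a ∈ M) ∧
    ∀ (p t : ℕ) [Fact p.Prime], 2 ≤ t → Nat.card ↥M = p ^ t → Cfsg.IsElementaryAbelian p M → ∀ P : Sylow p G, (P : Subgroup G) = M := by
  have key : ∀ a : G, (∃ m ∈ M, orderOf m = orderOf a) → a ∈ M := by
    rintro a ⟨m, hm, hma⟩
    obtain ⟨g, hg⟩ := hB (Subgroup.zpowers m) (Subgroup.zpowers a) inferInstance inferInstance
      (by rw [Nat.card_zpowers, Nat.card_zpowers, hma])
    obtain ⟨y, hy, hya⟩ := Subgroup.mem_map.1 (hg ▸ Subgroup.mem_zpowers a : a ∈ (Subgroup.zpowers m).map _)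
    rw [← hya]
    exact (inferInstance : M.Normal).conj_mem y (Subgroup.zpowers_le.2 hm hy) g
  refine ⟨key, fun p t _ ht hM hel P => ?_⟩
  have hp : p.Prime := Fact.out
  have hMp : IsPGroup p M := IsPGroup.of_card hM
  obtain ⟨S, hS⟩ := hMp.exists_le_sylow
  obtain ⟨g, hg⟩ := MulAction.exists_smul_eq G S P
  have hMP : M ≤ (P : Subgroup G) := by
    intro x hx
    rw [← hg, Sylow.coe_subgroup_smul, Subgroup.mem_pointwise_smul_iff_inv_smul_mem]
    refine hS ?_
    change (MulAut.conj g)⁻¹ x ∈ M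
    rw [MulAut.conj_inv_apply]
    simpa using (inferInstance : M.Normal).conj_mem x hx g⁻¹
  obtain ⟨m, hm⟩ := exists_prime_orderOf_dvd_card' p (G := M) (hM ▸ dvd_pow_self p (by omega))
  refine le_antisymm (fun y hy => ?_) hMP
  by_cases hyp : y ^ p = 1
  · by_cases hy1 : y = 1
    · exact hy1 ▸ M.one_mem
    · exact key y ⟨m, m.2, by rw [Subgroup.orderOf_coe, hm, orderOf_eq_prime hyp hy1]⟩
  · exfalso
    obtain ⟨k, hk⟩ := IsPGroup.iff_orderOf.1 P.2 ⟨y, hy⟩
    rw [← Subgroup.orderOf_coe] at hk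
    have hk2 : 2 ≤ k := by
      by_contra h
      apply hyp
      rw [← orderOf_dvd_iff_pow_eq_one, hk]
      exact (pow_dvd_pow p (show k ≤ 1 by omega)).trans (by rw [pow_one])
    set z := y ^ p ^ (k - 2) with hz
    have hzo : orderOf z = p ^ 2 := by
      rw [hz, orderOf_pow' y (pow_ne_zero _ hp.ne_zero), hk, Nat.gcd_eq_right (pow_dvd_pow p (by omega)),
        Nat.pow_div (by omega) hp.pos]
      congr 1; omega
    obtain ⟨E0, hE0⟩ := Sylow.exists_subgroup_card_pow_prime (G := M) p (n := 2) (hM ▸ pow_dvd_pow p ht)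
    have hEc : Nat.card (E0.map M.subtype) = p ^ 2 := by
      rw [Subgroup.card_map_of_injective M.subtype_injective, hE0]
    obtain ⟨c, hc⟩ := hB (E0.map M.subtype) (Subgroup.zpowers z)
      (IsPGroup.isMulCommutative_of_card_eq_prime_sq hEc) inferInstance (by rw [hEc, Nat.card_zpowers, hzo])
    obtain ⟨e, he, hez⟩ := Subgroup.mem_map.1 (hc ▸ Subgroup.mem_zpowers z : z ∈ (E0.map M.subtype).map _)
    obtain ⟨e0, -, rfl⟩ := Subgroup.mem_map.1 he
    have h1 : z ^ p = 1 := by
      rw [← hez, ← map_pow, show (M.subtype e0) ^ p = 1 from hel.2 _ e0.2, map_one]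
    have h2 := Nat.le_of_dvd hp.pos (hzo ▸ orderOf_dvd_of_pow_eq_one h1)
    have := hp.two_le
    nlinarith

end Cfsg.Agent.S3909
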