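import Cfsg.Statements.S3911
import Cfsg.Agent.Hall.StructBatch2
import Cfsg.Agent.PReduced.Basic

set_option autoImplicit false
set_option linter.style.haveILetI false
open Cfsg
open scoped commutatorElement

namespace Cfsg.Agent.S3911

variable {G : Type*} [Group G] [Finite G]

/-- A Sylow subgroup meets a normal subgroup in a subgroup whose order is the full `p`-part. -/
theorem card_inf_normal {p : ℕ} [Fact p.Prime] (T : Sylow p G) (C : Subgroup G) [C.Normal] :
    Nat.card ↥((T : Subgroup G) ⊓ C) = p ^ (Nat.card ↥C).factorization p := by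
  obtain ⟨P, hP⟩ := CfsgLib.PReduced.exists_sylow_inf T C
  rw [← P.card_eq_multiplicity, hP]
  exact (Nat.card_congr (Subgroup.subgroupOfEquivOfLe inf_le_right).toEquiv).symm

theorem cyclic_sylow
    (hB : ∀ A B : Subgroup G, IsMulCommutative ↥A → IsMulCommutative ↥B → Nat.card ↥A = Nat.card ↥B → ∃ g : G, B = A.map (MulAut.conj g).toMonoidHom)
    (M : Subgroup G) [M.Normal] (hM : Odd (Nat.card ↥M)) {p : ℕ} [Fact p.Prime]
    (hpM : p ∣ Nat.card M) {a : G ⧸ M} (ha : orderOf a = p) (S : Sylow p G) : IsCyclic S := by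
  have hp : p.Prime := Fact.out
  have hp2 : p ≠ 2 := by rintro rfl; exact (Nat.not_even_iff_odd.2 hM) (even_iff_two_dvd.2 hpM)
  obtain ⟨g, rfl⟩ := QuotientGroup.mk'_surjective M a
  obtain ⟨k, m, hm, hgo⟩ := Nat.exists_eq_pow_mul_and_not_dvd (orderOf_pos g).ne' p hp.ne_one
  have hm0 : m ≠ 0 := by rintro rfl; exact hm (dvd_zero p)
  have hxo : orderOf (g ^ m) = p ^ k := by
    rw [orderOf_pow_of_dvd hm0 (hgo ▸ dvd_mul_left m _), hgo, Nat.mul_div_cancel _ (Nat.pos_of_ne_zero hm0)]
  set x := g ^ m with hx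
  have hxM : x ∉ M := by
    intro h
    have h1 : (QuotientGroup.mk' M g) ^ m = 1 := by
      rw [← map_pow]; exact (QuotientGroup.eq_one_iff x).2 h
    exact hm (ha ▸ orderOf_dvd_of_pow_eq_one h1)
  -- some subgroup of order `p` lies in `M`
  obtain ⟨y, hy⟩ := exists_prime_orderOf_dvd_card' (G := M) p hpM
  have hk : 2 ≤ k := by
    by_contra hk
    have hxp : orderOf x = p := by
      interval_cases k
      · simp at hxo; exact absurd (hxo ▸ M.one_mem) hxM
      · simpa using hxo
    obtain ⟨h, hh⟩ := hB (Subgroup.zpowers (y : G)) (Subgroup.zpowers x) inferInstance inferInstance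
      (by rw [Nat.card_zpowers, Nat.card_zpowers, hxp, Subgroup.orderOf_coe, hy])
    have : x ∈ Subgroup.zpowers x := Subgroup.mem_zpowers x
    rw [hh] at this
    obtain ⟨z, hz, hz'⟩ := this
    have hzM : z ∈ M := Subgroup.zpowers_le.2 y.2 hz
    exact hxM (hz' ▸ ‹M.Normal›.conj_mem z hzM h)
  have hc : orderOf (x ^ p ^ (k - 2)) = p ^ 2 := by
    rw [orderOf_pow_of_dvd (pow_ne_zero _ hp.ne_zero) (hxo ▸ Nat.pow_dvd_pow p (Nat.sub_le k 2)), hxo,
      Nat.pow_div (Nat.sub_le k 2) hp.pos]
    congr 1; omega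
  by_contra hnc
  have hS : IsPGroup p S := S.isPGroup'
  haveI : Nontrivial S := by
    by_contra h
    rw [not_nontrivial_iff_subsingleton] at h
    exact hnc isCyclic_of_subsingleton
  obtain ⟨z, hz⟩ := exists_prime_orderOf_dvd_card' (G := Subgroup.center S) p (by
    haveI := hS.center_nontrivial
    obtain ⟨n, hn⟩ := (hS.to_subgroup (Subgroup.center S)).exists_card_eq
    have hn0 : n ≠ 0 := by
      rintro rfl
      have := Finite.one_lt_card (α := Subgroup.center S)
      rw [hn, pow_zero] at this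
      exact lt_irrefl _ this
    rw [hn]; exact dvd_pow_self p hn0)
  obtain ⟨w, hwo, hwz⟩ : ∃ w : S, orderOf w = p ∧ w ∉ Subgroup.zpowers (z : S) := by
    by_contra hall
    push Not at hall
    have hu : ∀ H K : Subgroup S, Nat.card H = p → Nat.card K = p → H = K := by
      have key : ∀ H : Subgroup S, Nat.card H = p → H = Subgroup.zpowers (z : S) := by
        intro H hH
        refine Subgroup.eq_of_le_of_card_ge (fun u hu => ?_) (by rw [Nat.card_zpowers, Subgroup.orderOf_coe, hz, hH])
        rcases eq_or_ne u 1 with rfl | hu1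
        · exact one_mem _
        refine hall u ?_
        have h1 : orderOf u ∣ p := by
          have := orderOf_dvd_natCard (⟨u, hu⟩ : H)
          rwa [Subgroup.orderOf_mk, hH] at this
        exact ((Nat.dvd_prime hp).1 h1).resolve_left (by simpa using hu1)
      intro H K hH hK; rw [key H hH, key K hK]
    exact hnc ((CfsgLib.Hall.Struct.cyclic_or_quaternion_of_unique p hS hu).resolve_right fun h => hp2 h.1)
  have hzw : Commute ((z : S) : G) (w : G) := by
    have := Subgroup.mem_center_iff.1 z.2 w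
    exact (congrArg Subtype.val this).symm
  let E : Subgroup G := Subgroup.closure {((z : S) : G), (w : G)}
  have hEc : IsMulCommutative E := by
    refine Subgroup.isMulCommutative_closure fun u hu v hv => ?_
    rcases hu with rfl | rfl <;> rcases hv with rfl | rfl
    · rfl
    · exact hzw
    · exact hzw.symm
    · rfl
  have hEexp : ∀ u ∈ E, u ^ p = 1 := by
    intro u hu
    induction hu using Subgroup.closure_induction with
    | mem v hv =>
      rcases hv with rfl | rfl
      · have : orderOf ((z : S) : G) = p := by rw [Subgroup.orderOf_coe, Subgroup.orderOf_coe, hz]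
        exact orderOf_dvd_iff_pow_eq_one.1 this.dvd
      · have : orderOf (w : G) = p := by rw [Subgroup.orderOf_coe, hwo]
        exact orderOf_dvd_iff_pow_eq_one.1 this.dvd
    | one => simp
    | mul u v hu hv h1 h2 =>
      rw [Commute.mul_pow (hEc.is_comm.comm ⟨u, hu⟩ ⟨v, hv⟩ |> congrArg Subtype.val), h1, h2, one_mul]
    | inv u _ h => rw [inv_pow, h, inv_one]
  have hEp : IsPGroup p E := fun u => ⟨1, Subtype.ext (by simpa using hEexp u u.2)⟩
  obtain ⟨n, hn⟩ := hEp.exists_card_eq
  have hn2 : 2 ≤ n := by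
    by_contra hlt
    have hle : Subgroup.zpowers ((z : S) : G) ≤ E := Subgroup.zpowers_le.2 (Subgroup.subset_closure (Or.inl rfl))
    have := Subgroup.eq_of_le_of_card_ge hle (by
      rw [Nat.card_zpowers, Subgroup.orderOf_coe, Subgroup.orderOf_coe, hz, hn]
      exact (Nat.pow_le_pow_right hp.pos (by omega : n ≤ 1)).trans_eq (pow_one p))
    have hwE : (w : G) ∈ E := Subgroup.subset_closure (Or.inr rfl)
    rw [← this, Subgroup.mem_zpowers_iff] at hwE
    obtain ⟨i, hi⟩ := hwE
    exact hwz ⟨i, Subtype.ext (by simpa using hi)⟩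
  obtain ⟨F, hF⟩ := Sylow.exists_subgroup_card_pow_prime (G := E) p (n := 2) (hn ▸ Nat.pow_dvd_pow p hn2)
  obtain ⟨h, hh⟩ := hB (F.map E.subtype) (Subgroup.zpowers (x ^ p ^ (k - 2))) inferInstance inferInstance
    (by rw [Nat.card_zpowers, hc, Subgroup.card_map_of_injective E.subtype_injective, hF])
  have hmem := Subgroup.mem_zpowers (x ^ p ^ (k - 2))
  rw [hh] at hmem
  obtain ⟨u, hu, hu'⟩ := hmem
  have h1 : (x ^ p ^ (k - 2)) ^ p = 1 := by
    rw [← hu', ← map_pow, hEexp u (Subgroup.map_subtype_le F hu), map_one]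
  have := orderOf_dvd_of_pow_eq_one h1
  rw [hc] at this
  nlinarith [Nat.le_of_dvd hp.pos this, hp.two_le]

/-- Subgroups of a cyclic group are ordered by divisibility of their orders. -/
theorem le_of_card_dvd_of_isCyclic {U V S : Subgroup G} [IsCyclic S]
    (hU : U ≤ S) (hV : V ≤ S) (h : Nat.card U ∣ Nat.card V) : U ≤ V := by
  classical
  haveI := Fintype.ofFinite G
  haveI := Fintype.ofFinite S
  haveI := Fintype.ofFinite V
  intro u hu
  let T : Finset S := Finset.univ.filter fun s => s ^ Nat.card V = 1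
  let I : Finset S := Finset.univ.image (fun v : V => (⟨(v : G), hV v.2⟩ : S))
  have hIT : I ⊆ T := by
    intro s hs
    obtain ⟨v, -, rfl⟩ := Finset.mem_image.1 hs
    refine Finset.mem_filter.2 ⟨Finset.mem_univ _, Subtype.ext ?_⟩
    have h1 : ((v ^ Nat.card V : V) : G) = ((1 : V) : G) := by rw [pow_card_eq_one']
    rw [Subgroup.coe_pow, Subgroup.coe_one] at h1
    exact h1
  have hI : I.card = Nat.card V := by
    show (Finset.univ.image _).card = _
    rw [Finset.card_image_of_injective, Finset.card_univ, Nat.card_eq_fintype_card]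
    exact fun v w h => Subtype.ext (congrArg (fun t : S => (t : G)) h)
  have hT : T.card ≤ I.card := hI.symm ▸ IsCyclic.card_pow_eq_one_le Nat.card_pos
  have heq := Finset.eq_of_subset_of_card_le hIT hT
  have hmem : (⟨u, hU hu⟩ : S) ∈ T := by
    refine Finset.mem_filter.2 ⟨Finset.mem_univ _, Subtype.ext ?_⟩
    have h1 : (⟨u, hu⟩ : U) ^ Nat.card V = 1 :=
      orderOf_dvd_iff_pow_eq_one.1 ((orderOf_dvd_natCard _).trans h)
    simpa using congrArg Subtype.val h1
  rw [← heq] at hmem
  obtain ⟨v, -, hv⟩ := Finset.mem_image.1 hmem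
  have : (v : G) = u := congrArg (fun t : S => (t : G)) hv
  exact this ▸ v.2

theorem exists_lift
    (hB : ∀ A B : Subgroup G, IsMulCommutative ↥A → IsMulCommutative ↥B → Nat.card ↥A = Nat.card ↥B → ∃ g : G, B = A.map (MulAut.conj g).toMonoidHom)
    (M : Subgroup G) [M.Normal] (hM : Odd (Nat.card ↥M)) (A : Subgroup (G ⧸ M)) (hA : IsMulCommutative A) :
    ∃ H : Subgroup G, IsMulCommutative H ∧ H.map (QuotientGroup.mk' M) = A ∧
      ∃ c, c ≠ 0 ∧ Nat.card H = Nat.card A * c ∧
        ∀ p, p.Prime → c.factorization p = if p ∣ Nat.card A then (Nat.card M).factorization p else 0 := by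
  classical
  set f := QuotientGroup.mk' M with hf
  obtain ⟨H, hHA, hmin⟩ := Set.Finite.exists_minimal (s := {H : Subgroup G | H.map f = A}) (Set.toFinite _)
    ⟨A.comap f, Subgroup.map_comap_eq_self_of_surjective (QuotientGroup.mk'_surjective M) A⟩
  simp only [Set.mem_ofPred_eq] at hHA hmin
  let N : Subgroup H := M.subgroupOf H
  let φ : H →* G ⧸ M := f.comp H.subtype
  have hker : φ.ker = N := by
    rw [← MonoidHom.comap_ker, hf, QuotientGroup.ker_mk']; rfl
  have hran : φ.range = A := by
    rw [MonoidHom.range_comp, Subgroup.range_subtype, hHA]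
  have hsupp : ∀ L : Subgroup H, L ⊔ N = ⊤ → L = ⊤ := by
    intro L hL
    have h1 : (L.map H.subtype).map f = A := by
      rw [Subgroup.map_map, ← hran, MonoidHom.range_eq_map, ← hL, Subgroup.map_sup]
      have : N.map φ = ⊥ := by rw [Subgroup.map_eq_bot_iff, hker]
      rw [this, sup_bot_eq]
    have h2 : H ≤ L.map H.subtype := hmin h1 (Subgroup.map_subtype_le L)
    exact eq_top_iff.2 fun x _ => by
      obtain ⟨y, hy, hyx⟩ := h2 x.2
      exact Subtype.ext hyx ▸ hy
  have hcomm : ∀ x y : H, ⁅x, y⁆ ∈ N := by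
    intro x y
    rw [← hker, MonoidHom.mem_ker, map_commutatorElement, commutatorElement_eq_one_iff_mul_comm]
    have hx : φ x ∈ A := hran ▸ ⟨x, rfl⟩
    have hy : φ y ∈ A := hran ▸ ⟨y, rfl⟩
    exact congrArg Subtype.val (hA.is_comm.comm ⟨_, hx⟩ ⟨_, hy⟩)
  have hmax : ∀ L : Subgroup H, IsCoatom L → L.Normal := by
    intro L hL
    by_cases hN : N ≤ L
    · refine ⟨fun n hn g => ?_⟩
      have := L.mul_mem (hN (hcomm g n)) hn
      simpa [commutatorElement_def] using this
    · exact absurd (hsupp L (hL.2 _ (left_lt_sup.2 hN))) hL.1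
  have hnorm : ∀ (p : ℕ) (_hp : Fact p.Prime) (P : Sylow p H), (↑P : Subgroup H).Normal :=
    (Group.isNilpotent_of_finite_tfae (G := H)).out 2 3 |>.1 hmax
  have hcardA : Nat.card A = N.index := by
    rw [← hker, Subgroup.index_ker, hran]
  have hcard : Nat.card H = Nat.card A * Nat.card N := by
    rw [hcardA, mul_comm, Subgroup.card_mul_index]
  -- facts for each prime
  have key : ∀ (p : ℕ) (_hp : Fact p.Prime) (P : Sylow p H),
      IsMulCommutative P ∧ Nat.card ↥((P : Subgroup H) ⊓ N) =
        p ^ (if p ∣ Nat.card A then (Nat.card M).factorization p else 0) := by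
    intro p hpf P
    haveI := hnorm p hpf P
    haveI : (↑P : Subgroup H).Normal := hnorm p hpf P
    by_cases hpA : p ∣ Nat.card A
    swap
    · have hPN : (P : Subgroup H) ≤ N := by
        rw [← hker, ← Subgroup.map_eq_bot_iff]
        refine Subgroup.eq_bot_of_card_eq _ ?_
        obtain ⟨n, hn⟩ := IsPGroup.exists_card_eq (P.isPGroup'.map φ)
        have hdvd : Nat.card ((P : Subgroup H).map φ) ∣ Nat.card A :=
          hran ▸ Subgroup.card_dvd_of_le (Subgroup.map_le_range φ P)
        rcases Nat.eq_zero_or_pos n with rfl | hn0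
        · simpa using hn
        · exact absurd ((hn ▸ dvd_pow_self p hn0.ne').trans hdvd) hpA
      obtain ⟨K, hK⟩ := Subgroup.exists_right_complement'_of_coprime P.card_coprime_index
      have hKtop : K = ⊤ := hsupp K (by
        rw [eq_top_iff, ← hK.sup_eq_top]
        exact sup_le (hPN.trans le_sup_right) le_sup_left)
      have hPbot : (P : Subgroup H) = ⊥ := by
        have := hK.disjoint
        rwa [hKtop, disjoint_top] at this
      rw [if_neg hpA, hPbot, bot_inf_eq, Subgroup.card_bot, pow_zero]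
      exact ⟨inferInstance, rfl⟩
    rw [if_pos hpA]
    obtain ⟨S, hS⟩ := (P.isPGroup'.map H.subtype).exists_le_sylow
    by_cases hpM : p ∣ Nat.card M
    swap
    · have hzero : (Nat.card M).factorization p = 0 := Nat.factorization_eq_zero_of_not_dvd hpM
      rw [hzero, pow_zero]
      have hbot : (P : Subgroup H) ⊓ N = ⊥ := by
        refine Subgroup.inf_eq_bot_of_coprime ?_
        obtain ⟨n, hn⟩ := P.isPGroup'.exists_card_eq
        rw [hn]
        refine Nat.Coprime.pow_left n ((hpf.out.coprime_iff_not_dvd).2 fun h => hpM (h.trans ?_))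
        exact Subgroup.card_dvd_of_injective ((H.subtype.comp N.subtype).codRestrict M fun u => u.2)
          fun u v h => Subtype.ext (Subtype.ext (congrArg (fun w : M => (w : G)) h : ((u : H) : G) = ((v : H) : G)))
      refine ⟨⟨⟨fun x y => ?_⟩⟩, by rw [hbot, Subgroup.card_bot]⟩
      have h1 : ⁅(x : H), (y : H)⁆ ∈ (P : Subgroup H) ⊓ N :=
        ⟨by rw [commutatorElement_def]; exact Subgroup.mul_mem _ (Subgroup.mul_mem _ (Subgroup.mul_mem _ x.2 y.2) (Subgroup.inv_mem _ x.2)) (Subgroup.inv_mem _ y.2), hcomm _ _⟩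
      rw [hbot, Subgroup.mem_bot, commutatorElement_eq_one_iff_mul_comm] at h1
      exact Subtype.ext h1
    obtain ⟨a, hao⟩ := exists_prime_orderOf_dvd_card' (G := A) p hpA
    haveI := cyclic_sylow hB M hM hpM (a := (a : G ⧸ M)) (by rw [Subgroup.orderOf_coe, hao]) S
    haveI : IsCyclic P := isCyclic_of_injective ((Subgroup.inclusion hS).comp
      ((P : Subgroup H).equivMapOfInjective H.subtype H.subtype_injective).toMonoidHom)
      ((Subgroup.inclusion_injective hS).comp (MulEquiv.injective _))
    refine ⟨inferInstance, ?_⟩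
    have hPN : Nat.card ↥((P : Subgroup H) ⊓ N) = Nat.card ↥((P : Subgroup H).map H.subtype ⊓ M) := by
      rw [← Subgroup.card_map_of_injective H.subtype_injective (K := (P : Subgroup H) ⊓ N),
        Subgroup.map_inf _ _ _ H.subtype_injective, Subgroup.subgroupOf_map_subtype,
        inf_comm M H, ← inf_assoc, inf_eq_left.2 (Subgroup.map_subtype_le (P : Subgroup H))]
    rw [hPN, ← card_inf_normal S M]
    -- subgroups of the cyclic group `S` are comparable
    have hcmp : (P : Subgroup H).map H.subtype ≤ (S : Subgroup G) ⊓ M ∨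
        (S : Subgroup G) ⊓ M ≤ (P : Subgroup H).map H.subtype := by
      obtain ⟨i, hi⟩ := (S.isPGroup'.to_le hS).exists_card_eq
      obtain ⟨j, hj⟩ := (S.isPGroup'.to_le (inf_le_left : (S : Subgroup G) ⊓ M ≤ S)).exists_card_eq
      rcases le_total i j with h | h
      · exact Or.inl (le_of_card_dvd_of_isCyclic hS inf_le_left (hi ▸ hj ▸ Nat.pow_dvd_pow p h))
      · exact Or.inr (le_of_card_dvd_of_isCyclic inf_le_left hS (hi ▸ hj ▸ Nat.pow_dvd_pow p h))
    rcases hcmp with h | h
    · exfalso
      have hle : (P : Subgroup H) ≤ N := fun u hu => (h (Subgroup.mem_map_of_mem _ hu)).2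
      exact P.not_dvd_index ((hcardA ▸ hpA).trans (Subgroup.index_dvd_of_le hle))
    · congr 2
      exact le_antisymm (inf_le_inf_right _ hS) (le_inf h inf_le_right)
  refine ⟨H, ?_, hHA, Nat.card N, Nat.card_pos.ne', hcard, fun p hp => ?_⟩
  · have hpc : ∀ (p : (Nat.card H).primeFactors) (P : Sylow p H), IsMulCommutative P := fun p P =>
      (key p ⟨Nat.prime_of_mem_primeFactors p.2⟩ P).1
    have e := Sylow.directProductOfNormal (G := H) fun {p hp P} => hnorm p hp P
    refine ⟨⟨fun x y => e.symm.injective ?_⟩⟩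
    rw [map_mul, map_mul]
    funext p P
    exact (hpc p P).is_comm.comm _ _
  · haveI := Fact.mk hp
    obtain ⟨P⟩ := (inferInstance : Nonempty (Sylow p H))
    haveI := hnorm p ⟨hp⟩ P
    haveI : N.Normal := hker ▸ inferInstance
    have := (key p ⟨hp⟩ P).2
    rw [card_inf_normal P N] at this
    exact Nat.pow_right_injective hp.two_le this

/-- Let G be a finite group in which any two abelian subgroups of the same order are conjugate. If M is a normal subgroup of G of odd order, then any two abelian subgroups of G/M of the same order are conjugate in G/M. -/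
theorem result {G : Type*} [Group G] [Finite G] (hB : ∀ A B : Subgroup G, IsMulCommutative ↥A → IsMulCommutative ↥B → Nat.card ↥A = Nat.card ↥B → ∃ g : G, B = A.map (MulAut.conj g).toMonoidHom) (M : Subgroup G) [M.Normal] (hM : Odd (Nat.card ↥M)) :
    ∀ A B : Subgroup (G ⧸ M), IsMulCommutative ↥A → IsMulCommutative ↥B → Nat.card ↥A = Nat.card ↥B →
      ∃ g : G ⧸ M, B = A.map (MulAut.conj g).toMonoidHom := by
  intro A B hA hBc hAB
  obtain ⟨H, hHc, hHA, c, hc0, hHcard, hcf⟩ := exists_lift hB M hM A hA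
  obtain ⟨K, hKc, hKB, d, hd0, hKcard, hdf⟩ := exists_lift hB M hM B hBc
  have hcd : c = d := by
    refine Nat.eq_of_factorization_eq hc0 hd0 fun p => ?_
    by_cases hp : p.Prime
    · rw [hcf p hp, hdf p hp, hAB]
    · rw [Nat.factorization_eq_zero_of_not_prime _ hp, Nat.factorization_eq_zero_of_not_prime _ hp]
  obtain ⟨g, hg⟩ := hB H K hHc hKc (by rw [hHcard, hKcard, hAB, hcd])
  refine ⟨QuotientGroup.mk' M g, ?_⟩
  rw [← hKB, ← hHA, hg, Subgroup.map_map, Subgroup.map_map]
  congr 1

end Cfsg.Agent.S3911
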