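import Cfsg.Statements.S3917

set_option autoImplicit false
open Cfsg

namespace Cfsg.Agent.S3917

theorem cyclic_exponent_le {G : Type*} [CommGroup G] [Finite G] {p : ℕ} (hp : p.Prime)
    (K : Subgroup G) (hK : IsCyclic ↥K) (h : ∀ x ∈ K, x ^ p = 1) : Nat.card ↥K ≤ p := by
  obtain ⟨g, hg⟩ := hK.exists_generator
  have : orderOf g = Nat.card ↥K := orderOf_eq_card_of_forall_mem_zpowers hg
  rw [← this]
  exact Nat.le_of_dvd hp.pos (orderOf_dvd_of_pow_eq_one (Subtype.ext (h g g.2)))

/-- Say that a group has self-centralizing non-cyclic subgroups when every non-cyclic subgroup H satisfies C_G(H) ≤ H. A finite abelian group with self-centralizing non-cyclic subgroups is cyclic or elementary abelian of order p² for a prime p. -/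
theorem result {G : Type*} [CommGroup G] [Finite G] (hX : (∀ H : Subgroup G, ¬ IsCyclic ↥H → Subgroup.centralizer (H : Set G) ≤ H)) :
    IsCyclic G ∨ ∃ p : ℕ, p.Prime ∧ Nat.card G = p ^ 2 ∧ Monoid.exponent G = p := by
  by_cases hc : IsCyclic G
  · exact Or.inl hc
  right
  have top : ∀ H : Subgroup G, ¬ IsCyclic ↥H → H = ⊤ := fun H hH => eq_top_iff.2
    fun x _ => hX H hH (Subgroup.mem_centralizer_iff.2 fun y _ => mul_comm y x)
  have hN : Nat.card G ≠ 1 := fun h => hc (by
    haveI := (Nat.card_eq_one_iff_unique.1 h).1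
    infer_instance)
  obtain ⟨p, hp, hpd⟩ := Nat.exists_prime_and_dvd hN
  haveI : Fact p.Prime := ⟨hp⟩
  obtain ⟨k₀, hk₀⟩ := exists_prime_orderOf_dvd_card' p hpd
  let f : G →* G := powMonoidHom p
  have hKmem : ∀ x, x ∈ f.ker ↔ x ^ p = 1 := fun x => Iff.rfl
  have hK : f.ker = ⊤ := by
    by_contra hne
    have hcyc : IsCyclic ↥f.ker := by_contra fun h => hne (top _ h)
    have hcard := cyclic_exponent_le hp _ hcyc fun x hx => (hKmem x).1 hx
    have hkne : f.ker ≠ ⊥ := fun h => by
      have : k₀ ∈ f.ker := (hKmem k₀).2 (by rw [← hk₀]; exact pow_orderOf_eq_one k₀)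
      rw [h, Subgroup.mem_bot] at this
      rw [this, orderOf_one] at hk₀
      exact hp.one_lt.ne hk₀
    have hidx : Nat.card f.range * Nat.card f.ker = Nat.card G := by
      rw [← Subgroup.index_ker, mul_comm, Subgroup.card_mul_index]
    have hr : f.range ≠ ⊤ := fun h => by
      rw [h, Subgroup.card_top] at hidx
      have := (Subgroup.one_lt_card_iff_ne_bot _).2 hkne
      nlinarith [Nat.card_pos (α := G)]
    obtain ⟨⟨_, g, rfl⟩, hgen⟩ := (by_contra fun h => hr (top _ h) : IsCyclic ↥f.range).exists_generator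
    have hord : orderOf (g ^ p) = Nat.card f.range := by
      rw [← orderOf_eq_card_of_forall_mem_zpowers hgen, ← Subgroup.orderOf_coe]
      rfl
    obtain ⟨g', hg', hpg⟩ : ∃ g' : G, g' ^ p = g ^ p ∧ p ∣ orderOf g' := by
      by_cases hd : p ∣ orderOf g
      · exact ⟨g, rfl, hd⟩
      · refine ⟨g * k₀, by rw [mul_pow, ← hk₀, pow_orderOf_eq_one, mul_one], ?_⟩
        rw [(Commute.all g k₀).orderOf_mul_eq_mul_orderOf_of_coprime
          (by rw [hk₀]; exact ((hp.coprime_iff_not_dvd).2 hd).symm), hk₀]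
        exact dvd_mul_left _ _
    rw [← hg', orderOf_pow_of_dvd hp.ne_zero hpg] at hord
    have : Nat.card G ≤ orderOf g' := by
      rw [← hidx, ← hord]
      calc orderOf g' / p * Nat.card f.ker ≤ orderOf g' / p * p := Nat.mul_le_mul_left _ hcard
        _ = _ := Nat.div_mul_cancel hpg
    exact hc (isCyclic_of_orderOf_eq_card g' (le_antisymm (orderOf_le_card) this))
  have hexp : ∀ x : G, x ^ p = 1 := fun x => (hKmem x).1 (hK ▸ Subgroup.mem_top x)
  have hG : IsPGroup p G := fun x => ⟨1, by rw [pow_one, hexp]⟩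
  obtain ⟨k, hk⟩ := IsPGroup.iff_card.1 hG
  have hk2 : 2 ≤ k := by
    by_contra h
    rcases (show k = 0 ∨ k = 1 by omega) with rfl | rfl
    · exact hN (by simpa using hk)
    · exact hc (isCyclic_of_prime_card (by rw [hk, pow_one] : Nat.card G = p))
  obtain ⟨H, hH⟩ := Sylow.exists_subgroup_card_pow_prime (G := G) p (n := 2)
    (hk ▸ pow_dvd_pow p hk2)
  have hHnc : ¬ IsCyclic ↥H := fun h => by
    have := cyclic_exponent_le hp H h fun x _ => hexp x
    rw [hH] at this
    nlinarith [hp.two_le]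
  rw [top H hHnc, Subgroup.card_top] at hH
  refine ⟨p, hp, hH, ?_⟩
  have hdvd : Monoid.exponent G ∣ p := Monoid.exponent_dvd_of_forall_pow_eq_one hexp
  rcases (Nat.dvd_prime hp).1 hdvd with h | h
  · exact absurd ((Monoid.exp_eq_one_iff.1 h) ) (fun hs => hN (by simp))
  · exact h
end Cfsg.Agent.S3917
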