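import Cfsg.Statements.S3918
import Mathlib
import Cfsg.Agent.S0519
import Cfsg.Agent.S1337
import Cfsg.Agent.Hall.StructBatch2

set_option autoImplicit false
open Cfsg

namespace Cfsg.Agent.S3918

/-- Say that a group has self-centralizing non-cyclic subgroups when every non-cyclic subgroup H satisfies C_G(H) ≤ H. For an odd prime p, a finite non-abelian p-group has self-centralizing non-cyclic subgroups if and only if it has order p³. -/
theorem result {G : Type*} [Group G] [Finite G] {p : ℕ} [Fact p.Prime] (hp : p ≠ 2) (hG : IsPGroup p G) (hna : ¬ IsMulCommutative G) :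
    (∀ H : Subgroup G, ¬ IsCyclic ↥H → Subgroup.centralizer (H : Set G) ≤ H) ↔ Nat.card G = p ^ 3 := by
  classical
  have hpp : p.Prime := Fact.out
  have hnc : ¬ IsCyclic G := fun h => hna (by letI := h; exact ⟨⟨fun a b => (IsCyclic.commGroup (α := G)).mul_comm a b⟩⟩)
  obtain ⟨n, hn⟩ := IsPGroup.iff_card.1 hG
  have h3 : 3 ≤ n := by
    by_contra h
    have hle : n = 0 ∨ n = 1 ∨ n = 2 := by omega
    rcases hle with rfl | rfl | rfl
    · exact hnc (by
        haveI : Subsingleton G := (Nat.card_eq_one_iff_unique.1 (by simpa using hn)).1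
        infer_instance)
    · exact hnc (isCyclic_of_prime_card (p := p) (by simpa using hn))
    · exact hna ⟨⟨fun a b => IsPGroup.commutative_of_card_eq_prime_sq hn a b⟩⟩
  haveI : Nontrivial G := not_subsingleton_iff_nontrivial.1 fun h => hnc (by infer_instance)
  constructor
  · intro hsc
    obtain ⟨z, hz, hzo⟩ : ∃ z ∈ Subgroup.center G, orderOf z = p := by
      haveI := hG.center_nontrivial
      have h1 : p ∣ Nat.card (Subgroup.center G) := by
        obtain ⟨m, hm⟩ := IsPGroup.iff_card.1 (hG.to_subgroup (Subgroup.center G))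
        have h2 : 1 < Nat.card (Subgroup.center G) := Finite.one_lt_card
        rw [hm] at h2 ⊢
        exact dvd_pow_self p fun h0 => by simp [h0] at h2
      obtain ⟨z, hz⟩ := exists_prime_orderOf_dvd_card' p h1
      exact ⟨z, z.2, by rw [Subgroup.orderOf_coe]; exact hz⟩
    obtain ⟨x, hxo, hxz⟩ : ∃ x : G, orderOf x = p ∧ x ∉ Subgroup.zpowers z := by
      by_contra hcon
      push Not at hcon
      have key : ∀ H : Subgroup G, Nat.card H = p → H = Subgroup.zpowers z := fun H hH => by
        refine Subgroup.eq_of_le_of_card_ge (fun y hy => ?_) (le_of_eq (by rw [Nat.card_zpowers, hzo, hH]))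
        rcases eq_or_ne y 1 with rfl | hy1
        · exact one_mem _
        · refine hcon y (orderOf_eq_prime ?_ hy1)
          rw [← hH]
          exact congrArg Subtype.val (pow_card_eq_one' (x := (⟨y, hy⟩ : H)))
      rcases CfsgLib.Hall.Struct.cyclic_or_quaternion_of_unique p hG (fun H K hH hK => (key H hH).trans (key K hK).symm) with h | h
      · exact hnc h
      · exact hp h.1
    have hcl : Subgroup.closure ({z, x} : Set G) ≤ Subgroup.centralizer {x} := by
      rw [Subgroup.closure_le]
      rintro y (rfl | rfl)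
      · exact Subgroup.mem_centralizer_singleton_iff.2 (Subgroup.mem_center_iff.1 hz x).symm
      · exact Subgroup.mem_centralizer_singleton_iff.2 rfl
    have hBab : IsMulCommutative ↥(Subgroup.closure ({z, x} : Set G)) :=
      Subgroup.isMulCommutative_closure (by
        rintro a (rfl | rfl) b (rfl | rfl)
        · rfl
        · exact (Subgroup.mem_center_iff.1 hz _).symm
        · exact Subgroup.mem_center_iff.1 hz _
        · rfl)
    have hBnc : ¬ IsCyclic ↥(Subgroup.closure ({z, x} : Set G)) := by
      intro h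
      set z' : ↥(Subgroup.closure ({z, x} : Set G)) := ⟨z, Subgroup.subset_closure (Or.inl rfl)⟩
      set x' : ↥(Subgroup.closure ({z, x} : Set G)) := ⟨x, Subgroup.subset_closure (Or.inr rfl)⟩
      haveI : Fintype ↥(Subgroup.closure ({z, x} : Set G)) := Fintype.ofFinite _
      have h1 : x' ∈ Subgroup.zpowers z' := by
        by_contra hx'
        have hzp : ∀ a ∈ Subgroup.zpowers z', a ^ p = 1 := by
          intro a ha
          have h : orderOf a ∣ p := (Subgroup.orderOf_dvd_natCard _ ha).trans (by rw [Nat.card_zpowers, Subgroup.orderOf_mk, hzo])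
          exact orderOf_dvd_iff_pow_eq_one.1 h
        have hsub : insert x' ((Finset.univ.filter fun a => a ∈ Subgroup.zpowers z')) ⊆ Finset.univ.filter fun a : ↥(Subgroup.closure ({z, x} : Set G)) => a ^ p = 1 := by
          intro a ha
          rcases Finset.mem_insert.1 ha with rfl | ha
          · refine Finset.mem_filter.2 ⟨Finset.mem_univ _, Subtype.ext ?_⟩
            show x ^ p = 1
            rw [← hxo, pow_orderOf_eq_one]
          · exact Finset.mem_filter.2 ⟨Finset.mem_univ _, hzp a (Finset.mem_filter.1 ha).2⟩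
        have h2 := (Finset.card_le_card hsub).trans (IsCyclic.card_pow_eq_one_le hpp.pos)
        have h3 : (Finset.univ.filter fun a => a ∈ Subgroup.zpowers z').card = p := by
          rw [← Fintype.card_subtype, ← Nat.card_eq_fintype_card]
          exact (Nat.card_zpowers z').trans (by rw [Subgroup.orderOf_mk, hzo])
        rw [Finset.card_insert_of_notMem (fun h => hx' (Finset.mem_filter.1 h).2), h3] at h2
        omega
      obtain ⟨k, hk⟩ := h1
      exact hxz ⟨k, congrArg Subtype.val hk⟩
    obtain ⟨A, hAn, hAab, hAnc⟩ : ∃ A : Subgroup G, A.Normal ∧ IsMulCommutative A ∧ ¬ IsCyclic A := by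
      by_contra hcon
      push Not at hcon
      exact hp (Cfsg.Agent.S0519.result p hG hcon ⟨_, hBab, hBnc⟩).1
    haveI := hAn
    let E : Subgroup G :=
      { carrier := {a | a ∈ A ∧ a ^ p = 1}
        one_mem' := ⟨one_mem _, one_pow _⟩
        mul_mem' := fun {a b} ha hb => ⟨mul_mem ha.1 hb.1, by
          have hc : Commute a b := congrArg Subtype.val (hAab.is_comm.comm (⟨a, ha.1⟩ : A) ⟨b, hb.1⟩)
          rw [hc.mul_pow, ha.2, hb.2, one_mul]⟩
        inv_mem' := fun {a} ha => ⟨inv_mem ha.1, by rw [inv_pow, ha.2, inv_one]⟩ }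
    haveI hEn : E.Normal := ⟨fun a ha g => ⟨hAn.conj_mem a ha.1 g, by rw [conj_pow, ha.2]; group⟩⟩
    have hEcard : p ^ 2 ≤ Nat.card E := by
      obtain ⟨m, hm⟩ := IsPGroup.iff_card.1 (hG.to_subgroup E)
      rw [hm]
      refine Nat.pow_le_pow_right hpp.pos ?_
      by_contra hlt
      have hEc : IsCyclic E := by
        have h01 : m = 0 ∨ m = 1 := by omega
        rcases h01 with rfl | rfl
        · haveI : Subsingleton E := (Nat.card_eq_one_iff_unique.1 (by simpa using hm)).1
          infer_instance
        · exact isCyclic_of_prime_card (p := p) (by simpa using hm)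
      have huni : ∀ H K : Subgroup A, Nat.card H = p → Nat.card K = p → H = K := by
        intro H K hH hK
        have key : ∀ H : Subgroup A, Nat.card H = p → H.map A.subtype = E := fun H hH => by
          refine Subgroup.eq_of_le_of_card_ge ?_ ?_
          · rintro _ ⟨⟨a, ha⟩, haH, rfl⟩
            refine ⟨ha, ?_⟩
            have h1 : (⟨⟨a, ha⟩, haH⟩ : H) ^ p = 1 := hH ▸ pow_card_eq_one'
            exact congrArg (fun w : H => ((w : A) : G)) h1
          · rw [Subgroup.card_map_of_injective A.subtype_injective, hH, hm]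
            exact (Nat.pow_le_pow_right hpp.pos (by omega)).trans (pow_one p).le
        exact Subgroup.map_injective A.subtype_injective ((key H hH).trans (key K hK).symm)
      rcases CfsgLib.Hall.Struct.cyclic_or_quaternion_of_unique p (hG.to_subgroup A) huni with h | h
      · exact hAnc h
      · exact hp h.1
    obtain ⟨U, hUn, hUE, hUc⟩ := Cfsg.Agent.S1337.exists_normal_sq hG E hEcard
    haveI := hUn
    have hUexp : ∀ a ∈ U, a ^ p = 1 := fun a ha => (hUE ha).2
    have hUnc : ¬ IsCyclic U := by
      intro h
      obtain ⟨g, hg⟩ := h.exists_generator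
      have h1 : orderOf g = p ^ 2 := by
        rw [orderOf_eq_card_of_forall_mem_zpowers hg, hUc]
      have h2 : orderOf g ∣ p := orderOf_dvd_of_pow_eq_one (Subtype.ext (hUexp g g.2))
      rw [h1] at h2
      have := Nat.le_of_dvd hpp.pos h2
      nlinarith [hpp.two_le]
    have hUab : U ≤ Subgroup.centralizer (U : Set G) := fun a ha b hb =>
      congrArg Subtype.val (hAab.is_comm.comm (⟨b, (hUE hb).1⟩ : A) ⟨a, (hUE ha).1⟩)
    have hCU : Subgroup.centralizer (U : Set G) = U := le_antisymm (hsc U hUnc) hUab
    obtain ⟨z₁, ⟨hz₁U, hz₁c⟩, hz₁1⟩ : ∃ z₁, z₁ ∈ U ⊓ Subgroup.center G ∧ z₁ ≠ 1 := by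
      have hne : U ≠ ⊥ := by
        intro h
        rw [h] at hUnc
        exact hUnc inferInstance
      obtain ⟨⟨w, hw⟩, hw1⟩ := Subgroup.ne_bot_iff_exists_ne_one.1 (CfsgLib.PReduced.inf_center_ne_bot hG hne)
      exact ⟨w, hw, fun h => hw1 (Subtype.ext h)⟩
    have hzU : Subgroup.zpowers z₁ ≤ U := Subgroup.zpowers_le.2 hz₁U
    have hzc1 : Nat.card (Subgroup.zpowers z₁) = p := by
      rw [Nat.card_zpowers]; exact orderOf_eq_prime (hUexp _ hz₁U) hz₁1
    obtain ⟨u, huU, hu⟩ : ∃ u ∈ U, u ∉ Subgroup.zpowers z₁ := by
      by_contra hcon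
      push Not at hcon
      have := Subgroup.card_le_of_le (show U ≤ Subgroup.zpowers z₁ from hcon)
      rw [hUc, hzc1] at this
      nlinarith [hpp.two_le]
    have hgen : U ≤ Subgroup.zpowers z₁ ⊔ Subgroup.zpowers u := by
      have hle : Subgroup.zpowers z₁ ⊔ Subgroup.zpowers u ≤ U := sup_le hzU (Subgroup.zpowers_le.2 huU)
      obtain ⟨m, hm⟩ := IsPGroup.iff_card.1 (hG.to_subgroup (Subgroup.zpowers z₁ ⊔ Subgroup.zpowers u))
      have hlt : Subgroup.zpowers z₁ < Subgroup.zpowers z₁ ⊔ Subgroup.zpowers u :=
        lt_of_le_of_ne le_sup_left fun e => hu (e ▸ Subgroup.mem_sup_right (Subgroup.mem_zpowers u))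
      have h1 : p < p ^ m := by
        rw [← hm, ← hzc1]
        exact lt_of_le_of_ne (Subgroup.card_le_of_le hlt.le) fun e => hlt.ne (Subgroup.eq_of_le_of_card_ge hlt.le e.ge)
      have h2 : 2 ≤ m := by
        by_contra h
        have := Nat.pow_le_pow_right hpp.pos (show m ≤ 1 by omega)
        rw [pow_one] at this
        omega
      exact (Subgroup.eq_of_le_of_card_ge hle (by rw [hUc, hm]; exact Nat.pow_le_pow_right hpp.pos h2)).ge
    have hstab : Subgroup.centralizer {u} = U := by
      refine le_antisymm ?_ ?_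
      · refine fun g hg => hCU ▸ ?_
        have h1 : Subgroup.zpowers z₁ ⊔ Subgroup.zpowers u ≤ Subgroup.centralizer {g} :=
          sup_le (Subgroup.zpowers_le.2 (Subgroup.mem_centralizer_singleton_iff.2 (Subgroup.mem_center_iff.1 hz₁c g).symm))
            (Subgroup.zpowers_le.2 (Subgroup.mem_centralizer_singleton_iff.2 (Subgroup.mem_centralizer_singleton_iff.1 hg).symm))
        exact fun b hb => Subgroup.mem_centralizer_singleton_iff.1 (h1 (hgen hb))
      · exact hCU.ge.trans (Subgroup.centralizer_le (Set.singleton_subset_iff.2 huU))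
    have hidx : U.index < p ^ 2 := by
      rw [← hUc, Subgroup.index, ← hstab]
      have hwd : ∀ a b : G, a⁻¹ * b ∈ Subgroup.centralizer {u} → a * u * a⁻¹ = b * u * b⁻¹ := fun a b h => by
        have h' := Subgroup.mem_centralizer_singleton_iff.1 h
        calc a * u * a⁻¹ = a * (u * (a⁻¹ * b)) * b⁻¹ := by group
          _ = a * ((a⁻¹ * b) * u) * b⁻¹ := by rw [h']
          _ = b * u * b⁻¹ := by group
      let f : G ⧸ Subgroup.centralizer {u} → {v : U // (v : G) ≠ 1} :=
        Quotient.lift (fun g => ⟨⟨g * u * g⁻¹, hUn.conj_mem u huU g⟩, fun h => hu (by rw [conj_eq_one_iff.1 h]; exact one_mem _)⟩)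
          (fun a b h => Subtype.ext (Subtype.ext (hwd a b (QuotientGroup.leftRel_apply.1 h))))
      have hf : Function.Injective f := by
        intro a b
        induction a using Quotient.inductionOn with
        | h a =>
          induction b using Quotient.inductionOn with
          | h b =>
            intro h
            have h' : a * u * a⁻¹ = b * u * b⁻¹ := congrArg (fun v : {v : U // (v : G) ≠ 1} => ((v : U) : G)) h
            refine Quotient.sound (QuotientGroup.leftRel_apply.2 (Subgroup.mem_centralizer_singleton_iff.2 ?_))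
            calc a⁻¹ * b * u = a⁻¹ * (b * u * b⁻¹) * b := by group
              _ = a⁻¹ * (a * u * a⁻¹) * b := by rw [h']
              _ = u * (a⁻¹ * b) := by group
      refine lt_of_le_of_lt (Nat.card_le_card_of_injective f hf) ?_
      rw [hstab]
      exact Finite.card_subtype_lt (x := (1 : U)) (fun h => h rfl)
    have hmul := U.card_mul_index
    rw [hUc, hn] at hmul
    obtain ⟨i, hi, hie⟩ := (Nat.dvd_prime_pow hpp).1 (Dvd.intro_left _ hmul)
    rw [hie] at hidx hmul
    have hi2 : i < 2 := (Nat.pow_lt_pow_iff_right hpp.one_lt).1 hidx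
    rw [← pow_add] at hmul
    have := Nat.pow_right_injective hpp.two_le hmul
    rw [hn]
    congr 1
    omega
  · intro h H hH
    obtain ⟨j, hj⟩ := IsPGroup.iff_card.1 (hG.to_subgroup H)
    have hj2 : 2 ≤ j := by
      by_contra hlt
      have h01 : j = 0 ∨ j = 1 := by omega
      rcases h01 with rfl | rfl
      · haveI : Subsingleton H := (Nat.card_eq_one_iff_unique.1 (by simpa using hj)).1
        exact hH inferInstance
      · exact hH (isCyclic_of_prime_card (p := p) (by simpa using hj))
    have hdvd : ∀ K : Subgroup G, H ≤ K → K = H ∨ K = ⊤ := by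
      intro K hK
      obtain ⟨k, hk⟩ := IsPGroup.iff_card.1 (hG.to_subgroup K)
      rcases le_or_gt k j with hle | hlt
      · exact Or.inl (Subgroup.eq_of_le_of_card_ge hK (by rw [hj, hk]; exact Nat.pow_le_pow_right hpp.pos hle)).symm
      · refine Or.inr (Subgroup.eq_top_of_le_card K ?_)
        rw [h, hk]
        exact Nat.pow_le_pow_right hpp.pos (by omega)
    intro g hg
    rcases hdvd (H ⊔ Subgroup.zpowers g) le_sup_left with e | e
    · exact e ▸ Subgroup.mem_sup_right (Subgroup.mem_zpowers g)
    · by_contra hgH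
      have hH' : H ≤ Subgroup.centralizer (H : Set G) ∨ H = ⊤ := by
        by_cases hj3 : j = 2
        · left
          subst hj3
          intro a ha b hb
          exact congrArg Subtype.val (IsPGroup.commutative_of_card_eq_prime_sq (G := H) hj ⟨b, hb⟩ ⟨a, ha⟩)
        · right
          refine Subgroup.eq_top_of_le_card H ?_
          rw [h, hj]
          exact Nat.pow_le_pow_right hpp.pos (by omega)
      rcases hH' with hab | rfl
      · have htop : Subgroup.centralizer (H : Set G) = ⊤ := by
          rw [eq_top_iff, ← e]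
          exact sup_le hab (Subgroup.zpowers_le.2 hg)
        have hHZ : H ≤ Subgroup.center G := Subgroup.centralizer_eq_top_iff_subset.1 htop
        refine hna ?_
        have hcyc : IsCyclic (G ⧸ Subgroup.center G) := by
          have h1 := (Subgroup.center G).card_mul_index
          obtain ⟨c, hc⟩ := IsPGroup.iff_card.1 (hG.to_subgroup (Subgroup.center G))
          have h2 : j ≤ c := (Nat.pow_le_pow_iff_right hpp.one_lt).1 (hj ▸ hc ▸ Subgroup.card_le_of_le hHZ)
          obtain ⟨i, hi, hie⟩ := (Nat.dvd_prime_pow hpp).1 (show (Subgroup.center G).index ∣ p ^ 3 from h ▸ Subgroup.index_dvd_card _)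
          rw [hc, hie, h, ← pow_add] at h1
          have h4 := Nat.pow_right_injective hpp.two_le h1
          have h5 : i = 0 ∨ i = 1 := by omega
          rcases h5 with rfl | rfl
          · haveI : Subsingleton (G ⧸ Subgroup.center G) := (Nat.card_eq_one_iff_unique.1 (by simpa [Subgroup.index] using hie)).1
            infer_instance
          · exact isCyclic_of_prime_card (p := p) (by simpa [Subgroup.index] using hie)
        haveI := hcyc
        exact ⟨⟨commutative_of_cyclic_center_quotient (QuotientGroup.mk' (Subgroup.center G)) (by rw [QuotientGroup.ker_mk'])⟩⟩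
      · exact hgH trivial


end Cfsg.Agent.S3918
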