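import Cfsg.Statements.S3920
import Cfsg.Agent.DihedralSub.Basic

set_option autoImplicit false
open Cfsg

namespace Cfsg.Agent.S3920

/-- Say that a group has self-centralizing non-cyclic subgroups when every non-cyclic subgroup H satisfies C_G(H) ≤ H. For n ≥ 3, the dihedral group of order 2n has self-centralizing non-cyclic subgroups if and only if n is odd or a power of 2. -/
theorem result (n : ℕ) (hn : 3 ≤ n) : (∀ H : Subgroup (DihedralGroup n), ¬ IsCyclic ↥H → Subgroup.centralizer (H : Set (DihedralGroup n)) ≤ H) ↔ (Odd n ∨ ∃ k : ℕ, n = 2 ^ k) := by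
  haveI : NeZero n := ⟨by omega⟩
  constructor
  · intro h
    by_contra hc
    push Not at hc
    obtain ⟨hodd, hpow⟩ := hc
    obtain ⟨m, hm⟩ := even_iff_two_dvd.1 (Nat.not_odd_iff_even.1 hodd)
    obtain ⟨p, hp, hpn, hp2⟩ : ∃ p : ℕ, p.Prime ∧ p ∣ n ∧ p ≠ 2 := by
      by_contra hcon
      push Not at hcon
      exact hpow _ (Nat.eq_prime_pow_of_unique_prime_dvd (NeZero.ne n) fun {d} hd hdn => hcon d hd hdn)
    obtain ⟨c, hc'⟩ := hpn
    set A := AddSubgroup.zmultiples ((c : ℕ) : ZMod n)
    have hcc : ((c : ℕ) : ZMod n) + (c : ℕ) ≠ 0 := by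
      intro h0
      rw [← Nat.cast_add, ZMod.natCast_eq_zero_iff, hc'] at h0
      have hc0 : 0 < c := Nat.pos_of_ne_zero fun e => by subst e; simp at hc'; omega
      have := Nat.le_of_dvd (by omega) h0
      have := hp.two_le
      have : 3 ≤ p := by omega
      nlinarith
    have hnc : ¬ IsCyclic (CfsgLib.DihedralSub.evenSub A) := CfsgLib.DihedralSub.not_cyclic_of_not_commutative
      (CfsgLib.DihedralSub.not_commutative_evenSub (AddSubgroup.mem_zmultiples _) hcc)
    have hm0 : ((m : ℕ) : ZMod n) + (m : ℕ) = 0 := by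
      rw [← Nat.cast_add, show m + m = n by omega]; exact ZMod.natCast_self n
    have hneg : -((m : ℕ) : ZMod n) = (m : ℕ) := neg_eq_of_add_eq_zero_left hm0
    have hcen : DihedralGroup.r ((m : ℕ) : ZMod n) ∈ Subgroup.centralizer ((CfsgLib.DihedralSub.evenSub A : Subgroup _) : Set (DihedralGroup n)) := by
      rw [Subgroup.mem_centralizer_iff]
      rintro _ ⟨i, -, rfl | rfl⟩
      · rw [DihedralGroup.r_mul_r, DihedralGroup.r_mul_r, add_comm]
      · rw [DihedralGroup.r_mul_sr, DihedralGroup.sr_mul_r, sub_eq_add_neg, hneg]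
    have hmem := CfsgLib.DihedralSub.r_mem_evenSub.1 (h _ hnc hcen)
    obtain ⟨k, hk⟩ := hmem
    have hpm : (p : ℕ) • ((m : ℕ) : ZMod n) = 0 := by
      rw [← hk]
      simp only [zsmul_eq_mul, nsmul_eq_mul]
      have : ((p : ℕ) : ZMod n) * (c : ℕ) = 0 := by rw [← Nat.cast_mul, ← hc']; exact ZMod.natCast_self n
      linear_combination (k : ZMod n) * this
    rw [nsmul_eq_mul, ← Nat.cast_mul, ZMod.natCast_eq_zero_iff, hm] at hpm
    have : 2 ∣ p := Nat.dvd_of_mul_dvd_mul_right (by omega) hpm
    exact hp2 ((Nat.prime_dvd_prime_iff_eq Nat.prime_two hp).1 this).symm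
  · intro hcase H hH x hx
    obtain ⟨a, ha⟩ := CfsgLib.DihedralSub.exists_sr hH
    -- elements killed by two
    have key : ∀ i : ZMod n, i + i = 0 → DihedralGroup.r i ∈ H := by
      intro i hi
      by_cases hi0 : i = 0
      · rw [hi0, DihedralGroup.r_zero]; exact one_mem H
      rcases hcase with ⟨m, hm⟩ | ⟨k, hk⟩
      · exfalso
        apply hi0
        have h5 : ((2 * m + 1 : ℕ) : ZMod n) = 0 := by rw [← hm]; exact ZMod.natCast_self n
        push_cast at h5
        linear_combination i * h5 - (m : ZMod n) * hi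
      · -- `H` has a nontrivial rotation
        obtain ⟨j, hj, hj0⟩ : ∃ j, DihedralGroup.r j ∈ H ∧ j ≠ 0 := by
          by_contra hcon
          push Not at hcon
          apply hH
          have hle : H ≤ Subgroup.zpowers (DihedralGroup.sr a) := by
            intro y hy
            cases y with
            | r j => rw [hcon j hy, DihedralGroup.r_zero]; exact one_mem _
            | sr b =>
              have h1 := hcon _ (DihedralGroup.sr_mul_sr a b ▸ mul_mem ha hy)
              rw [sub_eq_zero.1 h1]; exact Subgroup.mem_zpowers _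
          exact Subgroup.isCyclic_of_le hle
        -- descend to an element killed by two
        have hdesc : ∀ d : ℕ, (2 ^ d : ℕ) • j = 0 → ∃ l, DihedralGroup.r l ∈ H ∧ l ≠ 0 ∧ l + l = 0 := by
          intro d
          induction d with
          | zero => intro h0; simp at h0; exact absurd h0 hj0
          | succ d ih =>
            intro h0
            by_cases hd : (2 ^ d : ℕ) • j = 0
            · exact ih hd
            refine ⟨(2 ^ d : ℕ) • j, ?_, hd, by rw [← two_nsmul, smul_smul, ← pow_succ']; exact h0⟩
            rw [nsmul_eq_mul, mul_comm, ← DihedralGroup.r_pow]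
            exact pow_mem hj _
        obtain ⟨l, hl, hl0, hl2⟩ := hdesc k (by rw [← hk, nsmul_eq_mul, ZMod.natCast_self, zero_mul])
        have huniq : ∀ z : ZMod n, z ≠ 0 → z + z = 0 → z.val + z.val = n := by
          intro z hz hzz
          have h1 : ((z.val + z.val : ℕ) : ZMod n) = 0 := by push_cast; rw [ZMod.natCast_zmod_val]; exact hzz
          obtain ⟨t, ht⟩ := (ZMod.natCast_eq_zero_iff _ _).1 h1
          have h2 := ZMod.val_lt z
          have h3 : z.val ≠ 0 := fun e => hz ((ZMod.val_eq_zero z).1 e)
          rcases Nat.lt_or_ge t 2 with ht2 | ht2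
          · interval_cases t <;> omega
          · nlinarith
        have : i = l := ZMod.val_injective n (by have := huniq i hi0 hi; have := huniq l hl0 hl2; omega)
        exact this ▸ hl
    have hcomm := Subgroup.mem_centralizer_iff.1 hx _ ha
    cases x with
    | r i =>
      rw [DihedralGroup.r_mul_sr, DihedralGroup.sr_mul_r, DihedralGroup.sr.injEq] at hcomm
      exact key i (by linear_combination hcomm)
    | sr b =>
      rw [DihedralGroup.sr_mul_sr, DihedralGroup.sr_mul_sr, DihedralGroup.r.injEq] at hcomm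
      have h1 := key (b - a) (by linear_combination hcomm)
      have h2 := mul_mem ha h1
      rwa [DihedralGroup.sr_mul_r, add_sub_cancel] at h2


end Cfsg.Agent.S3920
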