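import Cfsg.Statements.S3937
import Cfsg.Agent.Subnormal.BaerSuzuki
import Cfsg.Agent.Components.Cores
import Mathlib

set_option autoImplicit false
open Cfsg

namespace Cfsg.Agent.S3937

open scoped commutatorElement

section
open scoped IsMulCommutative

theorem zpowers_isNilpotent {G : Type*} [Group G] (g : G) : Group.IsNilpotent (Subgroup.zpowers g) :=
  inferInstance

end

/-- The sequence of iterated commutators. -/
theorem fold_succ {H : Type*} [Group H] (g x : H) (n : ℕ) :
    (List.replicate (n + 1) g).foldl (fun a b => a * b * a⁻¹ * b⁻¹) x =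
      (List.replicate n g).foldl (fun a b => a * b * a⁻¹ * b⁻¹) (x * g * x⁻¹ * g⁻¹) := rfl

theorem fold_map {H K : Type*} [Group H] [Group K] (f : H →* K) (g x : H) (n : ℕ) :
    f ((List.replicate n g).foldl (fun a b => a * b * a⁻¹ * b⁻¹) x) =
      (List.replicate n (f g)).foldl (fun a b => a * b * a⁻¹ * b⁻¹) (f x) := by
  induction n generalizing x with
  | zero => rfl
  | succ n ih => rw [fold_succ, fold_succ, ih, map_mul, map_mul, map_mul, map_inv, map_inv]

theorem fold_mem_lcs {H : Type*} [Group H] (g : H) : ∀ (n k : ℕ) (x : H), x ∈ (⊤ : Subgroup H).lowerCentralSeries k →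
    (List.replicate n g).foldl (fun a b => a * b * a⁻¹ * b⁻¹) x ∈ (⊤ : Subgroup H).lowerCentralSeries (k + n) := by
  intro n
  induction n with
  | zero => intro k x hx; exact hx
  | succ n ih =>
    intro k x hx
    rw [fold_succ, show k + (n + 1) = (k + 1) + n by omega]
    refine ih (k + 1) _ ?_
    rw [Subgroup.lowerCentralSeries_succ]
    exact Subgroup.commutator_mem_commutator hx (Subgroup.mem_top g)

theorem engel_subnormal {G : Type*} [Group G] [Finite G] (g : G)
    (h : ∀ x : G, ∃ n : ℕ, (List.replicate n g).foldl (fun a b => a * b * a⁻¹ * b⁻¹) x = 1) :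
    (Subgroup.zpowers g).IsSubnormal := by
  induction hc : Nat.card G using Nat.strong_induction_on generalizing G with
  | _ c ih =>
  subst hc
  have hsub : ∀ K : Subgroup G, K ≠ ⊤ → Subgroup.zpowers g ≤ K →
      ((Subgroup.zpowers g).subgroupOf K).IsSubnormal := by
    intro K hK hgK
    have hlt : Nat.card K < Nat.card G :=
      lt_of_le_of_ne (Subgroup.card_le_card_group K) fun e => hK (Subgroup.eq_top_of_card_eq K e)
    have hg : g ∈ K := hgK (Subgroup.mem_zpowers g)
    have := ih _ hlt (G := K) ⟨g, hg⟩ (fun x => by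
      obtain ⟨n, hn⟩ := h (x : G)
      refine ⟨n, K.subtype_injective ?_⟩
      rw [fold_map, map_one]
      exact hn) rfl
    have e : Subgroup.zpowers (⟨g, hg⟩ : K) = (Subgroup.zpowers g).subgroupOf K := by
      apply Subgroup.map_injective K.subtype_injective
      rw [MonoidHom.map_zpowers, Subgroup.map_subgroupOf_eq_of_le hgK]
      rfl
    rwa [← e]
  by_contra hnot
  obtain ⟨M, ⟨hM, hgM⟩, huniq⟩ := CfsgLib.Subnormal.zipper hsub hnot
  have hgM' : g ∈ M := hgM (Subgroup.mem_zpowers g)
  by_cases hMn : M.Normal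
  · exact hnot (Subgroup.IsSubnormal.trans hgM (hsub M hM.1 hgM) (Subgroup.Normal.isSubnormal hMn))
  have hnorm : Subgroup.normalizer (M : Set G) = M := by
    refine ((hM.le_iff).1 Subgroup.le_normalizer).resolve_left fun e => hMn ?_
    exact Subgroup.normalizer_eq_top_iff.1 e
  have step : ∀ y : G, y * g * y⁻¹ * g⁻¹ ∈ M → y ∈ M := by
    intro y hy
    have hy' : y * g * y⁻¹ ∈ M := by simpa using M.mul_mem hy hgM'
    have hM' : IsCoatom (M.map (MulAut.conj y⁻¹).toMonoidHom) :=
      ((MulAut.conj y⁻¹).mapSubgroup.isCoatom_iff M).2 hM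
    have hgM2 : Subgroup.zpowers g ≤ M.map (MulAut.conj y⁻¹).toMonoidHom := by
      refine Subgroup.zpowers_le.2 ⟨y * g * y⁻¹, hy', ?_⟩
      simp [mul_assoc]
    have e := huniq _ ⟨hM', hgM2⟩
    have := CfsgLib.Subnormal.conj_eq_self_iff.1 e
    rw [hnorm] at this
    simpa using this
  have hall : ∀ (n : ℕ) (x : G), (List.replicate n g).foldl (fun a b => a * b * a⁻¹ * b⁻¹) x ∈ M → x ∈ M := by
    intro n
    induction n with
    | zero => intro x hx; exact hx
    | succ n ihn =>
      intro x hx
      rw [fold_succ] at hx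
      exact step x (ihn _ hx)
  refine hM.1 (eq_top_iff.2 fun x _ => ?_)
  obtain ⟨n, hn⟩ := h x
  exact hall n x (hn ▸ M.one_mem)


/-- Baer's characterization of the Fitting subgroup: in a finite group G, an element g lies in the Fitting subgroup if and only if g is a left Engel element, that is, for every x there is n with [x, g, g, …, g] = 1 (n entries g, [a, b] = aba⁻¹b⁻¹). -/
theorem result {G : Type*} [Group G] [Finite G] (g : G) :
    g ∈ Cfsg.fittingSubgroup G ↔ ∀ x : G, ∃ n : ℕ, (List.replicate n g).foldl (fun a b => a * b * a⁻¹ * b⁻¹) x = 1 := by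
  constructor
  · intro hg x
    set F := Cfsg.fittingSubgroup G with hF
    have hFn : F.Normal := CfsgLib.Components.fittingSubgroup_normal
    have hnil : Group.IsNilpotent F := CfsgLib.Components.fittingSubgroup_isNilpotent
    obtain ⟨n, hn⟩ := (Subgroup.isNilpotent_iff_lowerCentralSeries (⊤ : Subgroup F)).1 ((Group.isNilpotent_congr Subgroup.topEquiv).2 hnil)
    have hy : x * g * x⁻¹ * g⁻¹ ∈ F := F.mul_mem (hFn.conj_mem g hg x) (F.inv_mem hg)
    refine ⟨n + 1, ?_⟩
    rw [fold_succ]
    have h1 := fold_mem_lcs (⟨g, hg⟩ : F) n 0 ⟨_, hy⟩ (Subgroup.mem_top _)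
    rw [Nat.zero_add, hn, Subgroup.mem_bot] at h1
    have h2 := congrArg F.subtype h1
    rw [fold_map, map_one] at h2
    exact h2
  · intro h
    exact CfsgLib.Subnormal.le_fitting_of_isSubnormal (engel_subnormal g h) (zpowers_isNilpotent g) (Subgroup.mem_zpowers g)

end Cfsg.Agent.S3937
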