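import Cfsg.Statements.S3941

set_option autoImplicit false
open Cfsg

namespace Cfsg.Agent.S3941

open Equiv Equiv.Perm

theorem order_witness {n p : ℕ} (hp3 : 3 ≤ p) (hp : p.Prime) (hlt : p < n) (hn : 5 ≤ n) :
    ∃ c d : Perm (Fin n), orderOf c = p ∧ orderOf d = p ∧ Perm.sign c = 1 ∧ Perm.sign d = 1 ∧
      c ⟨n - 1, by omega⟩ = ⟨n - 1, by omega⟩ ∧ d ⟨n - 1, by omega⟩ = ⟨n - 1, by omega⟩ ∧
      ∃ m : ℕ, 1 < orderOf (c * d) ∧ orderOf (c * d) ∣ m ∧ m.Coprime p ∨
        1 < orderOf (d * c⁻¹) ∧ orderOf (d * c⁻¹) ∣ m ∧ m.Coprime p := by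
  have hne : p ≠ 2 := by omega
  have hodd := hp.odd_of_ne_two hne
  by_cases h3 : p = 3 ∧ 5 ≤ n
  · obtain ⟨rfl, h5⟩ := h3
    let e : Fin 4 ↪ Fin n := ⟨Fin.castLE (by omega), Fin.castLE_injective _⟩
    have hinj := Perm.viaEmbeddingHom_injective e
    set φ := Perm.viaEmbeddingHom e
    let c0 : Perm (Fin 4) := swap 0 1 * swap 1 2
    let d0 : Perm (Fin 4) := swap 0 1 * swap 1 3
    have hc0 : orderOf c0 = 3 := orderOf_eq_prime (by decide) (by decide)
    have hd0 : orderOf d0 = 3 := orderOf_eq_prime (by decide) (by decide)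
    have hfix : ∀ x : Perm (Fin 4), φ x ⟨n - 1, by omega⟩ = ⟨n - 1, by omega⟩ := fun x =>
      Perm.viaEmbedding_apply_of_notMem x e _ (by
        rintro ⟨i, hi⟩
        have := congrArg Fin.val hi
        simp [e] at this
        omega)
    have hsign : ∀ x : Perm (Fin 4), orderOf x = 3 → Perm.sign (φ x) = 1 := fun x hx => by
      have h1 : Perm.sign (φ x) ^ 3 = 1 := by
        rw [← map_pow, ← map_pow, ← hx, pow_orderOf_eq_one, map_one, map_one]
      rcases Int.units_eq_one_or (Perm.sign (φ x)) with h | h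
      · exact h
      · rw [h] at h1; exact absurd h1 (by decide)
    refine ⟨φ c0, φ d0, by rw [orderOf_injective φ hinj, hc0], by rw [orderOf_injective φ hinj, hd0],
      hsign _ hc0, hsign _ hd0, hfix _, hfix _, 2, Or.inl ?_⟩
    rw [← map_mul, orderOf_injective φ hinj,
      orderOf_eq_prime (p := 2) (by decide : (c0 * d0) ^ 2 = 1) (by decide)]
    exact ⟨by norm_num, dvd_rfl, by norm_num⟩
  · have hn0 : NeZero n := ⟨by omega⟩
    let i : Fin n := ⟨p - 1, by omega⟩
    let c : Perm (Fin n) := Fin.cycleRange i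
    have hi : i ≠ 0 := fun h => by
      have := congrArg Fin.val h
      simp [i] at this
      omega
    have hct : c.cycleType = {p} := by
      rw [Fin.cycleType_cycleRange hi]; simp [i]; omega
    have hc : orderOf c = p := by rw [← Perm.lcm_cycleType, hct]; simp
    have hsc : Perm.sign c = 1 := by
      rw [Fin.sign_cycleRange]
      obtain ⟨k, hk⟩ := hodd
      rw [show ((i : Fin n) : ℕ) = 2 * k by simp [i]; omega, pow_mul]
      simp
    let a : Fin n := ⟨0, by omega⟩
    let b : Fin n := ⟨1, by omega⟩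
    let q : Fin n := ⟨2, by omega⟩
    have ha : c a = b := Fin.ext (by
      rw [Fin.coe_cycleRange_of_lt (show a < i from by simp [a, i, Fin.lt_def]; omega)])
    have hb : c b = q := Fin.ext (by
      rw [Fin.coe_cycleRange_of_lt (show b < i from by simp [b, i, Fin.lt_def]; omega)])
    have hlast : c ⟨n - 1, by omega⟩ = ⟨n - 1, by omega⟩ :=
      Fin.cycleRange_of_gt (by simp [i, Fin.lt_def]; omega)
    have hab : a ≠ b := by simp [a, b]
    have haq : a ≠ q := by simp [a, q]
    have hbq : b ≠ q := by simp [b, q]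
    let d : Perm (Fin n) := swap a b * c * (swap a b)⁻¹
    have hd : orderOf d = p := by
      rw [show d = MulAut.conj (swap a b) c from rfl, MulEquiv.orderOf_eq, hc]
    have hfixs : swap a b (⟨n - 1, by omega⟩ : Fin n) = ⟨n - 1, by omega⟩ :=
      swap_apply_of_ne_of_ne (by simp [a]; omega) (by simp [b]; omega)
    refine ⟨c, d, hc, hd, hsc, by simp [d, hsc, sign_swap hab], hlast, ?_, 3, Or.inr ?_⟩
    · simp [d, Perm.mul_apply, hfixs, hlast]
    · have hdc : d * c⁻¹ = swap a b * swap b q := by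
        have hcs : c * swap a b * c⁻¹ = swap b q := by
          rw [Equiv.mul_swap_eq_swap_mul, mul_inv_cancel_right, ha, hb]
        rw [← hcs]
        simp only [d, swap_inv, mul_assoc]
      have ho : orderOf (d * c⁻¹) = 3 := by
        refine orderOf_eq_prime ?_ ?_
        · rw [hdc]
          have hs : swap a b * swap b q * swap a b = swap a q := by
            ext x; simp only [Perm.mul_apply, swap_apply_def]; split_ifs <;> simp_all
          have hs' : swap b q * swap a b * swap b q = swap a q := by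
            ext x; simp only [Perm.mul_apply, swap_apply_def]; split_ifs <;> simp_all
          calc (swap a b * swap b q) ^ 3
              = (swap a b * swap b q * swap a b) * (swap b q * swap a b * swap b q) := by
                simp [pow_succ, mul_assoc]
            _ = 1 := by rw [hs, hs', swap_mul_self]
        · intro h1
          have := congrArg (fun f : Perm (Fin n) => f b) (hdc ▸ h1)
          simp [swap_apply_def, hab, haq, hbq, hab.symm, haq.symm, hbq.symm] at this
      rw [ho]
      refine ⟨by norm_num, dvd_rfl, (Nat.coprime_primes Nat.prime_three hp).2 fun h => ?_⟩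
      exact h3 ⟨h.symm, by omega⟩

/-- Let n ≥ 5 and p an odd prime with p ≤ n, and suppose that every proper subgroup of the alternating group of degree n whose order is divisible by p has a normal Sylow p-subgroup. Then n = p. -/
theorem result (n p : ℕ) (hn : 5 ≤ n) [Fact p.Prime] (hp : p ≠ 2) (hpn : p ≤ n)
    (h : ∀ H : Subgroup ↥(alternatingGroup (Fin n)), H ≠ ⊤ → p ∣ Nat.card ↥H → Cfsg.IsPClosed p ↥H) : n = p := by
  by_contra hne
  have hp' : p.Prime := Fact.out
  have hp3 : 3 ≤ p := by have := hp'.two_le; omega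
  obtain ⟨c, d, hc, hd, hsc, hsd, hfc, hfd, m, hm⟩ := order_witness hp3 hp' (show p < n by omega) hn
  let last : Fin n := ⟨n - 1, by omega⟩
  let H : Subgroup ↥(alternatingGroup (Fin n)) := MulAction.stabilizer _ last
  let c' : ↥H := ⟨⟨c, mem_alternatingGroup.2 hsc⟩, hfc⟩
  let d' : ↥H := ⟨⟨d, mem_alternatingGroup.2 hsd⟩, hfd⟩
  have hoc : orderOf c' = p := by
    rw [← Subgroup.orderOf_coe, ← Subgroup.orderOf_coe]; exact hc
  have hod : orderOf d' = p := by
    rw [← Subgroup.orderOf_coe, ← Subgroup.orderOf_coe]; exact hd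
  have hH : H ≠ ⊤ := by
    intro hH
    let x : Fin n := ⟨0, by omega⟩
    let y : Fin n := ⟨1, by omega⟩
    have hxy : x ≠ y := by simp [x, y]
    have hlx : last ≠ x := by simp [last, x]; omega
    have hly : last ≠ y := by simp [last, y]; omega
    let g : ↥(alternatingGroup (Fin n)) := ⟨swap last x * swap x y, mem_alternatingGroup.2 (by
      simp [sign_swap hlx, sign_swap hxy])⟩
    have : g ∈ H := hH ▸ Subgroup.mem_top g
    have h1 : (swap last x * swap x y) last = last := this
    rw [Perm.mul_apply, swap_apply_of_ne_of_ne hlx hly, swap_apply_left] at h1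
    exact hlx h1.symm
  have hcl := h H hH (hoc ▸ orderOf_dvd_natCard c')
  obtain ⟨P⟩ : Nonempty (Sylow p ↥H) := inferInstance
  haveI := Sylow.unique_of_normal P (hcl P)
  have mem : ∀ z : ↥H, orderOf z = p → z ∈ (P : Subgroup ↥H) := fun z hz => by
    have hp1 : IsPGroup p (Subgroup.zpowers z) :=
      IsPGroup.of_card (n := 1) (by rw [Nat.card_zpowers, hz, pow_one])
    obtain ⟨Q, hQ⟩ := hp1.exists_le_sylow
    exact Subsingleton.elim Q P ▸ hQ (Subgroup.mem_zpowers z)
  have key : ∀ z : ↥H, z ∈ (P : Subgroup ↥H) → ∀ w : Perm (Fin n), ((z : ↥(alternatingGroup (Fin n))) : Perm (Fin n)) = w →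
      1 < orderOf w → orderOf w ∣ m → m.Coprime p → False := by
    intro z hz w hw h1 h2 h3
    obtain ⟨k, hk⟩ := P.2 ⟨z, hz⟩
    have h4 : orderOf w ∣ p ^ k := orderOf_dvd_of_pow_eq_one (by
      rw [← hw, ← SubgroupClass.coe_pow, ← SubgroupClass.coe_pow]
      exact congrArg (fun u : ↥(P : Subgroup ↥H) => (((u : ↥H) : ↥(alternatingGroup (Fin n))) : Perm (Fin n))) hk)
    exact h1.ne' (Nat.dvd_one.1 ((h3.pow_right k) ▸ Nat.dvd_gcd h2 h4))
  rcases hm with ⟨h1, h2, h3⟩ | ⟨h1, h2, h3⟩
  · exact key (c' * d') (mul_mem (mem c' hoc) (mem d' hod)) _ rfl h1 h2 h3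
  · exact key (d' * c'⁻¹) (mul_mem (mem d' hod) (inv_mem (mem c' hoc))) _ rfl h1 h2 h3
end Cfsg.Agent.S3941
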