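import Cfsg.Statements.S3947
import Cfsg.Agent.H29.Zipper

set_option autoImplicit false
open Cfsg

namespace Cfsg.Agent.S3947

/-- Let G be a finite group and A a proper subgroup of G whose normal closure is G. Let Y be the join of all proper subgroups H of G that contain A and are generated by their own conjugates of A (the normal closure of A in H is H). Then either Y = G, or A is contained in exactly one maximal subgroup of G. -/
theorem result {G : Type*} [Group G] [Finite G] (A : Subgroup G) (hA : Subgroup.normalClosure (A : Set G) = ⊤) (hAG : A ≠ ⊤) :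
    sSup {H : Subgroup G | A ≤ H ∧ H ≠ ⊤ ∧ Subgroup.normalClosure ((A.subgroupOf H : Subgroup ↥H) : Set ↥H) = ⊤} = ⊤ ∨
      ∃! M : Subgroup G, IsCoatom M ∧ A ≤ M := by
  classical
  by_cases hY : H29.Zipper.fullJoin A = ⊤
  · left
    refine Eq.trans ?_ hY
    rw [H29.Zipper.fullJoin]
    congr 1
    ext H
    refine ⟨fun h => ⟨h.2.1, (H29.Zipper.full_iff A H h.1).1 h.2.2⟩,
      fun h => ⟨h.2.1, h.1, (H29.Zipper.full_iff A H h.2.1).2 h.2⟩⟩
  · right
    obtain ⟨M, hM, hAM⟩ := H29.Zipper.exists_coatom hAG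
    exact ⟨M, ⟨hM, hAM⟩, fun M' h =>
      H29.Zipper.main _ A rfl ⟨hA, hAG, hY⟩ M' M h.1 hM h.2 hAM⟩

end Cfsg.Agent.S3947
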