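import Cfsg.Statements.S3949
import Mathlib

set_option autoImplicit false
open Cfsg

namespace Cfsg.Agent.S3949

/-- Let G be a finite group and α an automorphism of G of order 2 such that the elements g·α(g)⁻¹ generate G. Let j be a positive integer such that 2^j divides the order of no element inverted by α. Then the set of values of the j-th iterate of the map c ↦ c·α(c)⁻¹ is exactly the set of elements of odd order inverted by α. -/
theorem result {G : Type*} [Group G] [Finite G] (α : MulAut G) (hα : orderOf α = 2) (hG : Subgroup.closure (Set.range (fun c : G => c * (α c)⁻¹)) = ⊤)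
    (j : ℕ) (hj : ∀ g : G, α g = g⁻¹ → ¬ 2 ^ j ∣ orderOf g) :
    Set.range ((fun c : G => c * (α c)⁻¹)^[j]) = {g : G | Odd (orderOf g) ∧ α g = g⁻¹} := by
  have hinv2 : ∀ c : G, α (α c) = c := fun c => by
    rw [← MulAut.mul_apply, ← sq, ← hα, pow_orderOf_eq_one, MulAut.one_apply]
  have hfi : ∀ c : G, α (c * (α c)⁻¹) = (c * (α c)⁻¹)⁻¹ := fun c => by
    rw [map_mul, map_inv, hinv2, mul_inv_rev, inv_inv]
  have hiter : ∀ (i : ℕ) (u : G), α u = u⁻¹ → (fun c : G => c * (α c)⁻¹)^[i] u = u ^ 2 ^ i := by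
    intro i
    induction i with
    | zero => intro u _; simp
    | succ i ih =>
      intro u hu
      rw [Function.iterate_succ_apply', ih u hu]
      change u ^ 2 ^ i * (α (u ^ 2 ^ i))⁻¹ = _
      rw [map_pow, hu, inv_pow, inv_inv, ← pow_add, pow_succ, mul_two]
  obtain ⟨i, rfl⟩ : ∃ i, j = i + 1 := by
    refine ⟨j - 1, ?_⟩
    by_contra h
    refine hj 1 (by simp) ?_
    rw [show j = 0 by omega, pow_zero]
    exact one_dvd _
  ext v
  constructor
  · rintro ⟨c, rfl⟩
    rw [Function.iterate_succ_apply, hiter i _ (hfi c)]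
    refine ⟨?_, by rw [map_pow, hfi, inv_pow]⟩
    set u := c * (α c)⁻¹ with hu
    by_contra hodd
    rw [Nat.not_odd_iff_even, even_iff_two_dvd, orderOf_pow' u (by positivity)] at hodd
    refine hj u (hfi c) ?_
    have h1 : 2 * (orderOf u).gcd (2 ^ i) ∣ orderOf u :=
      Nat.mul_dvd_of_dvd_div (Nat.gcd_dvd_left _ _) hodd |> fun h => by rwa [mul_comm]
    obtain ⟨t, ht, htg⟩ := (Nat.dvd_prime_pow Nat.prime_two).1 (Nat.gcd_dvd_right (orderOf u) (2 ^ i))
    have h3 : 2 ^ (t + 1) ∣ orderOf u := by rwa [pow_succ, mul_comm, ← htg]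
    by_cases hti : t = i
    · rw [← hti]; exact h3
    · exfalso
      have h4 : 2 ^ (t + 1) ∣ (orderOf u).gcd (2 ^ i) := Nat.dvd_gcd h3 (pow_dvd_pow 2 (by omega))
      rw [htg] at h4
      exact absurd ((Nat.pow_dvd_pow_iff_le_right one_lt_two).1 h4) (by omega)
  · rintro ⟨hodd, hv⟩
    obtain ⟨s, hs⟩ := exists_pow_eq_self_of_coprime (x := v) (n := 2 ^ (i + 1))
      ((Nat.coprime_two_left.2 hodd).pow_left _)
    have hvs : α (v ^ s) = (v ^ s)⁻¹ := by rw [map_pow, hv, inv_pow]
    refine ⟨v ^ s, ?_⟩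
    rw [hiter _ _ hvs, ← pow_mul, mul_comm, pow_mul]
    exact hs

end Cfsg.Agent.S3949
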