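import Cfsg.Statements.S3982
import Cfsg.Agent.LocalLemmas.Basic
import Cfsg.Agent.CoprimeAction.Invariant

set_option autoImplicit false
open Cfsg

namespace Cfsg.Agent.S3982

/-- Let p be an odd prime and G a finite group of even order divisible by p in which the centralizer of every non-identity p-element has odd order. If some nontrivial p-subgroup of G has a normalizer of even order, then the normalizer of every Sylow p-subgroup of G has even order. -/
theorem result {G : Type*} [Group G] [Finite G] (p : ℕ) [Fact p.Prime] (hp2 : p ≠ 2) (hpG : p ∣ Nat.card G) (h2G : 2 ∣ Nat.card G) (hC : ∀ g : G, g ≠ 1 → (∃ k : ℕ, orderOf g = p ^ k) → Odd (Nat.card ↥(Subgroup.centralizer ({g} : Set G)))) (Q : Subgroup G) (hQ : IsPGroup p ↥Q) (hQ1 : Q ≠ ⊥) (hev : Even (Nat.card ↥(Subgroup.normalizer (Q : Set G)))) (P : Sylow p G) : Even (Nat.card ↥(Subgroup.normalizer ((P : Subgroup G) : Set G))) := by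
  classical
  haveI : Fact (Nat.Prime 2) := ⟨Nat.prime_two⟩
  obtain ⟨y0, hy0⟩ := exists_prime_orderOf_dvd_card' (G := ↥(Subgroup.normalizer (Q : Set G))) 2 hev.two_dvd
  set y : G := (y0 : G)
  have hyo : orderOf y = 2 := by rw [Subgroup.orderOf_coe]; exact hy0
  have hy2 : y * y = 1 := by rw [← pow_two, ← hyo]; exact pow_orderOf_eq_one y
  have hyi : y⁻¹ = y := inv_eq_of_mul_eq_one_right hy2
  obtain ⟨R, ⟨hRp, hQR, hyR⟩, hmax⟩ := (Set.toFinite {R : Subgroup G | IsPGroup p R ∧ Q ≤ R ∧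
    y ∈ Subgroup.normalizer (R : Set G)}).exists_maximal ⟨Q, hQ, le_rfl, y0.2⟩
  have hpel : ∀ r ∈ R, r ≠ 1 → ¬ Commute y r := by
    intro r hr hr1 hc
    obtain ⟨k, hk⟩ := IsPGroup.iff_orderOf.1 hRp ⟨r, hr⟩
    rw [Subgroup.orderOf_mk] at hk
    have hodd := hC r hr1 ⟨k, hk⟩
    have hd : orderOf y ∣ Nat.card ↥(Subgroup.centralizer ({r} : Set G)) :=
      Nat.card_zpowers y ▸ Subgroup.card_dvd_of_le
        (Subgroup.zpowers_le.2 (Subgroup.mem_centralizer_singleton_iff.2 hc.eq))
    rw [hyo] at hd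
    exact (Nat.not_even_iff_odd.2 hodd) (even_iff_two_dvd.2 hd)
  have hconjR : ∀ r ∈ R, y * r * y ∈ R := fun r hr => by
    have := (Subgroup.mem_normalizer_iff.1 hyR r).1 hr
    rwa [hyi] at this
  have hinvert : ∀ r ∈ R, y * r * y = r⁻¹ := by
    intro s hs
    let f : R → R := fun r => ⟨(r : G)⁻¹ * (y * r * y), mul_mem (inv_mem r.2) (hconjR _ r.2)⟩
    have hinj : Function.Injective f := by
      intro a b hab
      have h1 : (a : G)⁻¹ * (y * a * y) = (b : G)⁻¹ * (y * b * y) := congrArg Subtype.val hab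
      by_contra hne
      refine hpel ((b : G) * (a : G)⁻¹) (mul_mem b.2 (inv_mem a.2))
        (fun e => hne (Subtype.ext (mul_inv_eq_one.1 e).symm)) ?_
      have h2 : (b : G) * (a : G)⁻¹ = y * ((b : G) * (a : G)⁻¹) * y := by
        calc (b : G) * (a : G)⁻¹ = b * ((a : G)⁻¹ * (y * a * y)) * (y * a * y)⁻¹ := by group
          _ = b * ((b : G)⁻¹ * (y * b * y)) * (y * a * y)⁻¹ := by rw [h1]
          _ = y * b * y * y⁻¹ * (a : G)⁻¹ * y⁻¹ := by group
          _ = _ := by rw [mul_inv_cancel_right, hyi]; group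
      show y * _ = _ * y
      conv_lhs => rw [h2]
      rw [← mul_assoc, ← mul_assoc, hy2, one_mul]
    obtain ⟨r, hr⟩ := Finite.surjective_of_injective hinj ⟨s, hs⟩
    have hr' : (r : G)⁻¹ * (y * r * y) = s := congrArg Subtype.val hr
    rw [← hr']
    calc y * ((r : G)⁻¹ * (y * r * y)) * y = y * (r : G)⁻¹ * y * r * (y * y) := by group
      _ = _ := by rw [hy2, mul_inv_rev, mul_inv_rev, mul_inv_rev, hyi, inv_inv]; group
  have hab : ∀ a ∈ R, ∀ b ∈ R, a * b = b * a := by
    intro a ha b hb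
    have h1 : a⁻¹ * b⁻¹ = (a * b)⁻¹ := by
      rw [← hinvert a ha, ← hinvert b hb, ← hinvert _ (mul_mem ha hb)]
      calc y * a * y * (y * b * y) = y * a * (y * y) * b * y := by group
        _ = _ := by rw [hy2]; group
    have := congrArg (fun w => w⁻¹) h1
    simpa using this.symm
  set Cn := Subgroup.centralizer (R : Set G) with hCn
  have hRC : R ≤ Cn := fun a ha => Subgroup.mem_centralizer_iff.2 fun b hb => hab b hb a ha
  have hR1 : R ≠ ⊥ := fun h => hQ1 (le_bot_iff.1 (h ▸ hQR))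
  obtain ⟨⟨r0, hr0⟩, hr0'⟩ := Subgroup.ne_bot_iff_exists_ne_one.1 hR1
  have hr01 : r0 ≠ 1 := fun e => hr0' (Subtype.ext e)
  have hCodd : Odd (Nat.card Cn) := by
    obtain ⟨k, hk⟩ := IsPGroup.iff_orderOf.1 hRp ⟨r0, hr0⟩
    rw [Subgroup.orderOf_mk] at hk
    exact (hC r0 hr01 ⟨k, hk⟩).of_dvd_nat (Subgroup.card_dvd_of_le
      (Subgroup.centralizer_le (Set.singleton_subset_iff.2 hr0)))
  have hNC : ∀ n ∈ Subgroup.normalizer (R : Set G), ∀ c ∈ Cn, n * c * n⁻¹ ∈ Cn := by
    intro n hn c hc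
    rw [hCn, Subgroup.mem_centralizer_iff]
    intro r hr
    have h1 : n⁻¹ * r * n ∈ R := by
      have := (Subgroup.mem_normalizer_iff.1 (inv_mem hn) r).1 hr
      rwa [inv_inv] at this
    have h2 := Subgroup.mem_centralizer_iff.1 hc _ h1
    calc r * (n * c * n⁻¹) = n * ((n⁻¹ * r * n) * c) * n⁻¹ := by group
      _ = n * (c * (n⁻¹ * r * n)) * n⁻¹ := by rw [h2]
      _ = _ := by group
  have hyC : Subgroup.zpowers y ≤ Subgroup.normalizer (Cn : Set G) := by
    rw [Subgroup.zpowers_le, Subgroup.mem_normalizer_iff]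
    intro h
    refine ⟨hNC y hyR h, fun hh => ?_⟩
    have := hNC y hyR _ hh
    rw [hyi] at this
    rwa [show y * (y * h * y) * y = (y * y) * h * (y * y) by group, hy2, one_mul, mul_one] at this
  have hcop : (Nat.card (Subgroup.zpowers y)).Coprime (Nat.card Cn) := by
    rw [Nat.card_zpowers, hyo]; exact hCodd.coprime_two_left
  obtain ⟨L0, hRL, hLy⟩ := CfsgLib.CoprimeAction.exists_invariant_sylow_ge (p := p) hyC hcop
    (Or.inl inferInstance) hRC hRp (Subgroup.zpowers_le.2 hyR)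
  have hL : (L0 : Subgroup Cn).map Cn.subtype = R :=
    le_antisymm (hmax ⟨L0.isPGroup'.map _, hQR.trans hRL, hLy (Subgroup.mem_zpowers y)⟩ hRL) hRL
  -- p-elements of `N(R)` centralize `R`
  have hpN : ∀ n ∈ Subgroup.normalizer (R : Set G), (∃ k, n ^ p ^ k = 1) → n ∈ Cn := by
    rintro n hn ⟨k, hk⟩
    set t := n * y * n⁻¹ with ht
    have ht2 : t * t = 1 := by
      rw [ht, show n * y * n⁻¹ * (n * y * n⁻¹) = n * (y * y) * n⁻¹ by group, hy2]; group
    have htR : ∀ r ∈ R, t * r * t = r⁻¹ := by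
      intro r hr
      have h1 : n⁻¹ * r * n ∈ R := by
        have := (Subgroup.mem_normalizer_iff.1 (inv_mem hn) r).1 hr
        rwa [inv_inv] at this
      calc t * r * t = n * (y * (n⁻¹ * r * n) * y) * n⁻¹ := by rw [ht]; group
        _ = r⁻¹ := by rw [hinvert _ h1]; group
    set d := t * y with hd
    have hdC : d ∈ Cn := by
      rw [hCn, Subgroup.mem_centralizer_iff]
      intro r hr
      have h1 : y * r⁻¹ * y = r := by rw [hinvert _ (inv_mem hr), inv_inv]
      calc r * d = (y * r⁻¹ * y) * (t * y) := by rw [h1]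
        _ = (t * r * t) ⁻¹ * (t * y) := by rw [htR r hr, inv_inv, h1]
        _ = t⁻¹ * r⁻¹ * y := by group
        _ = t * r⁻¹ * y := by rw [inv_eq_of_mul_eq_one_right ht2]
        _ = t * (y * r * y) * y := by rw [hinvert r hr]
        _ = t * y * r * (y * y) := by group
        _ = d * r := by rw [hy2, mul_one]
    obtain ⟨j, hj⟩ : Odd (orderOf d) :=
      hCodd.of_dvd_nat (Subgroup.orderOf_mk d hdC ▸ orderOf_dvd_natCard _)
    set c := d ^ (j + 1) with hc
    have hyd : y * d * y = d⁻¹ := by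
      rw [hd, mul_inv_rev, hyi, inv_eq_of_mul_eq_one_right ht2,
        show y * (t * y) * y = y * t * (y * y) by group, hy2, mul_one]
    have hyc : y * c⁻¹ * y = c := by
      have h1 : y * d ^ (j + 1) * y = (d ^ (j + 1))⁻¹ := by
        have := conj_pow (i := j + 1) (a := y) (b := d)
        rw [hyi, hyd, inv_pow] at this
        exact this.symm
      have := congrArg (fun w => w⁻¹) h1
      simpa [hyi, mul_assoc] using this
    have hcy : c * y * c⁻¹ = t := by
      calc c * y * c⁻¹ = c * (y * c⁻¹ * y) * y⁻¹ := by group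
        _ = c * c * y := by rw [hyc, hyi]
        _ = d ^ (orderOf d + 1) * y := by rw [hc, ← pow_add, hj]; congr 2; omega
        _ = t := by rw [pow_succ, pow_orderOf_eq_one, one_mul, hd, mul_assoc, hy2, mul_one]
    set w := c⁻¹ * n with hw
    have hwy : Commute w y := by
      show w * y = y * w
      calc w * y = c⁻¹ * (n * y * n⁻¹) * n := by rw [hw]; group
        _ = c⁻¹ * (c * y * c⁻¹) * n := by rw [← ht, hcy]
        _ = y * w := by rw [hw]; group
    have hwm : ¬ p ∣ orderOf w := by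
      intro hdvd
      have hz : orderOf (w ^ (orderOf w / p)) = p := orderOf_pow_orderOf_div (orderOf_pos w).ne' hdvd
      have hz1 : w ^ (orderOf w / p) ≠ 1 := fun e => by
        rw [e, orderOf_one] at hz; exact (Fact.out : p.Prime).ne_one hz.symm
      have hodd := hC _ hz1 ⟨1, by rw [hz, pow_one]⟩
      have hd2 : orderOf y ∣ Nat.card ↥(Subgroup.centralizer ({w ^ (orderOf w / p)} : Set G)) := by
        rw [← Subgroup.orderOf_mk y (Subgroup.mem_centralizer_singleton_iff.2 (hwy.symm.pow_right (orderOf w / p)).eq)]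
        exact orderOf_dvd_natCard _
      rw [hyo] at hd2
      exact (Nat.not_even_iff_odd.2 hodd) (even_iff_two_dvd.2 hd2)
    -- conjugation by `n` and by `w` agree modulo `Cn`
    have hwn : ∀ i : ℕ, (n ^ i)⁻¹ * w ^ i ∈ Cn := by
      intro i
      induction i with
      | zero => simp
      | succ i ih =>
        have h1 : (n ^ (i + 1))⁻¹ * w ^ (i + 1) = (n⁻¹ * ((n ^ i)⁻¹ * w ^ i) * n) * (n⁻¹ * w) := by
          rw [pow_succ, pow_succ]; group
        rw [h1]
        refine mul_mem ?_ ?_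
        · have := hNC n⁻¹ (inv_mem hn) _ ih
          rwa [inv_inv] at this
        · rw [hw, show n⁻¹ * (c⁻¹ * n) = n⁻¹ * c⁻¹ * n⁻¹⁻¹ by group]
          exact hNC n⁻¹ (inv_mem hn) _ (inv_mem (pow_mem hdC _))
    have hnm : n ^ orderOf w ∈ Cn := by
      have := hwn (orderOf w)
      rw [pow_orderOf_eq_one, mul_one] at this
      exact inv_mem_iff.1 this
    have hcp : (orderOf n).Coprime (orderOf w) := by
      refine Nat.Coprime.coprime_dvd_left (orderOf_dvd_of_pow_eq_one hk) ?_
      exact ((Fact.out : p.Prime).coprime_iff_not_dvd.2 hwm).pow_left k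
    obtain ⟨e, he⟩ := exists_pow_eq_self_of_coprime hcp.symm
    rw [← he]
    exact pow_mem hnm e
  obtain ⟨S, hRS⟩ := hRp.exists_le_sylow
  have hSR : (S : Subgroup G) = R := by
    by_contra hne
    obtain ⟨n, hnS, hnR, hnN⟩ := CfsgLib.LocalLemmas.exists_mem_normalizer_not_mem S.isPGroup'
      (lt_of_le_of_ne hRS (Ne.symm hne))
    set T := ((S : Subgroup G) ⊓ Subgroup.normalizer (R : Set G)) with hT
    have hTC : T ≤ Cn := fun m hm => hpN m hm.2 (by
      obtain ⟨k, hk⟩ := S.isPGroup' ⟨m, hm.1⟩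
      exact ⟨k, congrArg Subtype.val hk⟩)
    have hle : (L0 : Subgroup Cn) ≤ T.subgroupOf Cn := by
      intro x hx
      have hxR : (x : G) ∈ R := hL ▸ Subgroup.mem_map_of_mem _ hx
      exact ⟨hRS hxR, Subgroup.le_normalizer hxR⟩
    have hTp : IsPGroup p (T.subgroupOf Cn) :=
      (S.isPGroup'.to_le inf_le_left).comap_of_injective Cn.subtype Cn.subtype_injective
    have heq := L0.is_maximal' hTp hle
    apply hnR
    rw [← hL]
    exact ⟨⟨n, hTC ⟨hnS, hnN⟩⟩, heq.le (show (⟨n, hTC ⟨hnS, hnN⟩⟩ : Cn) ∈ T.subgroupOf Cn from ⟨hnS, hnN⟩), rfl⟩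
  have hevS : Even (Nat.card ↥(Subgroup.normalizer ((S : Subgroup G) : Set G))) := by
    rw [hSR, even_iff_two_dvd, ← hyo, ← Subgroup.orderOf_mk y hyR]
    exact orderOf_dvd_natCard _
  obtain ⟨g, hg⟩ := MulAction.exists_smul_eq G S P
  have h1 : (Subgroup.normalizer ((S : Subgroup G) : Set G)).index =
      (Subgroup.normalizer ((P : Subgroup G) : Set G)).index := by
    rw [Sylow.coe_coe, Sylow.coe_coe, ← Sylow.card_eq_index_normalizer S, Sylow.card_eq_index_normalizer P]
  have h2 := (Subgroup.normalizer ((S : Subgroup G) : Set G)).card_mul_index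
  have h3 := (Subgroup.normalizer ((P : Subgroup G) : Set G)).card_mul_index
  rw [← h3, h1] at h2
  rwa [← Nat.eq_of_mul_eq_mul_right (Nat.pos_of_ne_zero Subgroup.index_ne_zero_of_finite) h2]


end Cfsg.Agent.S3982
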