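import Cfsg.Statements.S3983
import Mathlib


set_option autoImplicit false
open scoped Pointwise
open Cfsg
open scoped Pointwise

namespace Cfsg.Agent.S3983

/-- Two Sylow subgroups that meet nontrivially are equal. -/
theorem ti_eq {G : Type*} [Group G] [Finite G] {p : ℕ} [Fact p.Prime] (P : Sylow p G)
    (hTI : ∀ g : G, g ∉ Subgroup.normalizer ((P : Subgroup G) : Set G) →
      (P : Subgroup G) ⊓ (MulAut.conj g • (P : Subgroup G)) = ⊥) (R S : Sylow p G) {z : G}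
    (h1 : z ∈ R) (h2 : z ∈ S) (hz : z ≠ 1) : R = S := by
  obtain ⟨g, rfl⟩ := MulAction.exists_smul_eq G P R
  obtain ⟨h, rfl⟩ := MulAction.exists_smul_eq G P S
  have hmem : ∀ (k : G), z ∈ k • P → k⁻¹ * z * k ∈ (P : Subgroup G) := by
    rintro k ⟨y, hy, rfl⟩
    show k⁻¹ * (k * y * k⁻¹) * k ∈ (P : Subgroup G)
    rw [show k⁻¹ * (k * y * k⁻¹) * k = y by group]
    exact hy
  by_cases hn : g⁻¹ * h ∈ Subgroup.normalizer ((P : Subgroup G) : Set G)
  · rw [show h • P = g • ((g⁻¹ * h) • P) by rw [smul_smul, mul_inv_cancel_left], Sylow.smul_eq_iff_mem_normalizer.2 hn]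
  · exfalso
    have : g⁻¹ * z * g ∈ (P : Subgroup G) ⊓ (MulAut.conj (g⁻¹ * h) • (P : Subgroup G)) := by
      refine ⟨hmem g h1, h⁻¹ * z * h, hmem h h2, ?_⟩
      show g⁻¹ * h * (h⁻¹ * z * h) * (g⁻¹ * h)⁻¹ = g⁻¹ * z * g
      group
    rw [hTI _ hn, Subgroup.mem_bot] at this
    exact hz (by rw [show z = g * (g⁻¹ * z * g) * g⁻¹ by group, this]; group)


/-- Let P be a Sylow p-subgroup of the finite group G that meets each conjugate g P g⁻¹ with g outside N_G(P) trivially, and let U be a subgroup of G of order divisible by p. Then a Sylow p-subgroup Q of U has the same property inside U: Q meets each conjugate u Q u⁻¹ with u ∈ U outside N_U(Q) trivially. -/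
theorem result {G : Type*} [Group G] [Finite G] (p : ℕ) [Fact p.Prime] (P : Sylow p G) (hTI : ∀ g : G, g ∉ Subgroup.normalizer ((P : Subgroup G) : Set G) → (P : Subgroup G) ⊓ (MulAut.conj g • (P : Subgroup G)) = ⊥) (U : Subgroup G) (hU : p ∣ Nat.card ↥U) (Q : Sylow p ↥U) : ∀ u : ↥U, u ∉ Subgroup.normalizer ((Q : Subgroup ↥U) : Set ↥U) → (Q : Subgroup ↥U) ⊓ (MulAut.conj u • (Q : Subgroup ↥U)) = ⊥ := by
  intro u hu
  by_contra hne
  obtain ⟨z, ⟨hzQ, w, hwQ, hwz⟩, hz1⟩ := (Subgroup.bot_or_exists_ne_one _).resolve_left hne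
  obtain ⟨R, hR⟩ := (Q.2.map U.subtype).exists_le_sylow
  have hwz' : (u : G) * w * (u : G)⁻¹ = z := congrArg Subtype.val hwz
  have heq : R = (u : G) • R := ti_eq P hTI R ((u : G) • R) (z := (z : G)) (hR ⟨z, hzQ, rfl⟩)
    ⟨(w : G), hR ⟨w, hwQ, rfl⟩, hwz'⟩ fun e => hz1 (Subtype.ext e)
  have hle : (u • Q : Sylow p U).1 ≤ (R : Subgroup G).subgroupOf U := by
    rintro _ ⟨v, hv, rfl⟩
    show (u : G) * v * (u : G)⁻¹ ∈ R
    rw [heq]
    exact ⟨(v : G), hR ⟨v, hv, rfl⟩, rfl⟩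
  have h1 := Q.3 (R.2.comap_of_injective U.subtype U.subtype_injective) (fun v hv => hR ⟨v, hv, rfl⟩)
  have h2 := (u • Q : Sylow p U).3 (R.2.comap_of_injective U.subtype U.subtype_injective) hle
  exact hu (Sylow.smul_eq_iff_mem_normalizer.1 (Sylow.ext (h2.symm.trans h1)))

end Cfsg.Agent.S3983
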