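import Cfsg.Statements.S3984
import Mathlib
import Cfsg.Agent.PCore.PSolvable

set_option autoImplicit false
open scoped Pointwise
open Cfsg
open scoped Pointwise

namespace Cfsg.Agent.S3984

/-- Two Sylow subgroups that meet nontrivially are equal. -/
theorem ti_eq {G : Type*} [Group G] [Finite G] {p : ℕ} [Fact p.Prime] (P : Sylow p G)
    (hTI : ∀ g : G, g ∉ Subgroup.normalizer ((P : Subgroup G) : Set G) →
      (P : Subgroup G) ⊓ (MulAut.conj g • (P : Subgroup G)) = ⊥) (R S : Sylow p G) {z : G}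
    (h1 : z ∈ R) (h2 : z ∈ S) (hz : z ≠ 1) : R = S := by
  obtain ⟨g, rfl⟩ := MulAction.exists_smul_eq G P R
  obtain ⟨h, rfl⟩ := MulAction.exists_smul_eq G P S
  have hmem : ∀ (k : G), z ∈ k • P → k⁻¹ * z * k ∈ (P : Subgroup G) := by
    rintro k ⟨y, hy, rfl⟩
    show k⁻¹ * (k * y * k⁻¹) * k ∈ (P : Subgroup G)
    rw [show k⁻¹ * (k * y * k⁻¹) * k = y by group]
    exact hy
  by_cases hn : g⁻¹ * h ∈ Subgroup.normalizer ((P : Subgroup G) : Set G)
  · rw [show h • P = g • ((g⁻¹ * h) • P) by rw [smul_smul, mul_inv_cancel_left], Sylow.smul_eq_iff_mem_normalizer.2 hn]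
  · exfalso
    have : g⁻¹ * z * g ∈ (P : Subgroup G) ⊓ (MulAut.conj (g⁻¹ * h) • (P : Subgroup G)) := by
      refine ⟨hmem g h1, h⁻¹ * z * h, hmem h h2, ?_⟩
      show g⁻¹ * h * (h⁻¹ * z * h) * (g⁻¹ * h)⁻¹ = g⁻¹ * z * g
      group
    rw [hTI _ hn, Subgroup.mem_bot] at this
    exact hz (by rw [show z = g * (g⁻¹ * z * g) * g⁻¹ by group, this]; group)


/-- Let P be a Sylow p-subgroup of the finite group G that meets each conjugate g P g⁻¹ with g outside N_G(P) trivially, and let N be a normal subgroup of G of order prime to p. Then every Sylow p-subgroup Q of G ⧸ N meets each conjugate x Q x⁻¹ with x outside its normalizer trivially. -/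
theorem result {G : Type*} [Group G] [Finite G] (p : ℕ) [Fact p.Prime] (P : Sylow p G) (hTI : ∀ g : G, g ∉ Subgroup.normalizer ((P : Subgroup G) : Set G) → (P : Subgroup G) ⊓ (MulAut.conj g • (P : Subgroup G)) = ⊥) (N : Subgroup G) [N.Normal] (hN : (Nat.card ↥N).Coprime p) (Q : Sylow p (G ⧸ N)) : ∀ x : G ⧸ N, x ∉ Subgroup.normalizer ((Q : Subgroup (G ⧸ N)) : Set (G ⧸ N)) → (Q : Subgroup (G ⧸ N)) ⊓ (MulAut.conj x • (Q : Subgroup (G ⧸ N))) = ⊥ := by
  intro x hx
  by_contra hne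
  obtain ⟨z, ⟨hzQ, w, hwQ, hwz⟩, hz1⟩ := (Subgroup.bot_or_exists_ne_one _).resolve_left hne
  have hsurj := QuotientGroup.mk'_surjective N
  obtain ⟨R, rfl⟩ := Sylow.mapSurjective_surjective hsurj p Q
  obtain ⟨g, rfl⟩ := hsurj x
  obtain ⟨a, haR, rfl⟩ := hzQ
  obtain ⟨c, hcR, rfl⟩ := hwQ
  let A := Subgroup.zpowers a
  let H := A ⊔ N
  have hdvd : Nat.card H ∣ Nat.card N * Nat.card A := by
    show Nat.card (A ⊔ N : Subgroup G) ∣ _
    rw [mul_comm]
    exact CfsgLib.PCore.card_sup_dvd N A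
  have hAH : A ≤ H := le_sup_left
  have hidx : ¬ p ∣ (A.subgroupOf H).index := by
    intro hd
    rw [← (A.subgroupOf H).index_mul_card, Nat.card_congr (Subgroup.subgroupOfEquivOfLe hAH).toEquiv] at hdvd
    have h1 := hd.trans (Nat.dvd_of_mul_dvd_mul_right Nat.card_pos hdvd)
    exact (Fact.out : p.Prime).coprime_iff_not_dvd.1 hN.symm h1
  have hAp : IsPGroup p A := R.2.to_le (Subgroup.zpowers_le.2 haR)
  let SA : Sylow p H := (hAp.comap_of_injective H.subtype H.subtype_injective).toSylow hidx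
  have hSA : (SA : Subgroup H) = A.subgroupOf H := rfl
  let b := g * c * g⁻¹
  have hab : a⁻¹ * b ∈ N := by
    rw [← QuotientGroup.eq]
    exact hwz.symm.trans (by rfl)
  have hbH : b ∈ H := by
    have := H.mul_mem (hAH (Subgroup.mem_zpowers a)) (le_sup_right (a := A) hab)
    rwa [mul_inv_cancel_left] at this
  have hbS : b ∈ g • R := ⟨c, hcR, rfl⟩
  obtain ⟨SB, hSB⟩ := (((g • R).2.to_le (Subgroup.zpowers_le.2 hbS) : IsPGroup p (Subgroup.zpowers b)).comap_of_injective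
    H.subtype H.subtype_injective).exists_le_sylow
  obtain ⟨⟨h, hh⟩, hhS⟩ := MulAction.exists_smul_eq H SA SB
  have hb' : (⟨b, hbH⟩ : H) ∈ (SB : Subgroup H) := hSB (Subgroup.mem_zpowers b)
  rw [← hhS] at hb'
  obtain ⟨v, hv, hvb⟩ := hb'
  obtain ⟨n, hn, a', ha', rfl⟩ := Subgroup.mem_sup_of_normal_left.1 ((sup_comm A N).le hh : h ∈ N ⊔ A)
  have hvb' : n * a' * (v : G) * (n * a')⁻¹ = b := congrArg Subtype.val hvb
  have hvA : (v : G) ∈ A := hv
  have hbn : b ∈ n • R := ⟨a' * v * a'⁻¹, Subgroup.zpowers_le.2 haR (A.mul_mem (A.mul_mem ha' hvA) (A.inv_mem ha')), by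
    show n * (a' * (v : G) * a'⁻¹) * n⁻¹ = b
    rw [← hvb']; group⟩
  have hb1 : b ≠ 1 := by
    intro e
    refine hz1 ?_
    show (QuotientGroup.mk' N) a = 1
    rw [QuotientGroup.mk'_apply, QuotientGroup.eq_one_iff]
    have := N.inv_mem hab
    rwa [e, mul_one, inv_inv] at this
  have heq := ti_eq P hTI (g • R) (n • R) hbS hbn hb1
  refine hx ?_
  rw [Sylow.coe_mapSurjective, Subgroup.mem_normalizer_iff_map_conj_eq]
  have h1 := congrArg (fun S : Sylow p G => (S : Subgroup G).map (QuotientGroup.mk' N)) heq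
  have hn1 : (QuotientGroup.mk' N) n = 1 := (QuotientGroup.eq_one_iff n).2 hn
  have hconj : ∀ (k : G) (y : G), (QuotientGroup.mk' N) (k * y * k⁻¹) =
      (QuotientGroup.mk' N) k * (QuotientGroup.mk' N) y * ((QuotientGroup.mk' N) k)⁻¹ := fun k y => by
    rw [map_mul, map_mul, map_inv]
  have hm : ∀ k : G, ((k • R : Sylow p G) : Subgroup G).map (QuotientGroup.mk' N) =
      ((R : Subgroup G).map (QuotientGroup.mk' N)).map (MulAut.conj ((QuotientGroup.mk' N) k)).toMonoidHom := by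
    intro k
    ext q
    constructor
    · rintro ⟨_, ⟨y, hy, rfl⟩, rfl⟩
      exact ⟨_, ⟨y, hy, rfl⟩, (hconj k y).symm⟩
    · rintro ⟨_, ⟨y, hy, rfl⟩, rfl⟩
      exact ⟨_, ⟨y, hy, rfl⟩, hconj k y⟩
  simp only [hm, hn1] at h1
  refine h1.trans ?_
  ext q
  simp

end Cfsg.Agent.S3984
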