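import Cfsg.Statements.S3985
import Cfsg.Agent.Transfer.AbelianSylow

set_option autoImplicit false
open scoped Pointwise
open Cfsg
open scoped commutatorElement IsMulCommutative Pointwise

namespace Cfsg.Agent.S3985

/-- Let P be a cyclic Sylow p-subgroup of the finite group G. Then P meets each conjugate g P g⁻¹ with g outside N_G(P) trivially if and only if P is weakly self-centralizing: C_G(x) = C_G(P) for every non-identity x ∈ P. -/
theorem result {G : Type*} [Group G] [Finite G] (p : ℕ) [Fact p.Prime] (P : Sylow p G) (hcyc : IsCyclic ↥(P : Subgroup G)) : (∀ g : G, g ∉ Subgroup.normalizer ((P : Subgroup G) : Set G) → (P : Subgroup G) ⊓ (MulAut.conj g • (P : Subgroup G)) = ⊥) ↔ ∀ x : G, x ∈ (P : Subgroup G) → x ≠ 1 → Subgroup.centralizer ({x} : Set G) = Subgroup.centralizer ((P : Subgroup G) : Set G) := by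
  have hcm : IsMulCommutative (P : Subgroup G) := hcyc.isMulCommutative
  have hPP : ∀ a ∈ (P : Subgroup G), ∀ b ∈ (P : Subgroup G), a * b = b * a := fun a ha b hb =>
    congrArg Subtype.val (mul_comm' (⟨a, ha⟩ : (P : Subgroup G)) ⟨b, hb⟩)
  constructor
  · intro hTI x hx hx1
    refine le_antisymm (fun c hc => ?_) (Subgroup.centralizer_le (by intro y hy; rw [Set.mem_singleton_iff.1 hy]; exact hx))
    have hcx := Subgroup.mem_centralizer_singleton_iff.1 hc
    have hcN : c ∈ Subgroup.normalizer ((P : Subgroup G) : Set G) := by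
      by_contra h
      have h1 : x ∈ (P : Subgroup G) ⊓ (MulAut.conj c • (P : Subgroup G)) := by
        refine ⟨hx, ?_⟩
        have := Subgroup.smul_mem_pointwise_smul x (MulAut.conj c) _ hx
        rwa [MulAut.smul_def, MulAut.conj_apply, hcx, mul_inv_cancel_right] at this
      rw [hTI c h, Subgroup.mem_bot] at h1
      exact hx1 h1
    obtain ⟨a, b, hab, -, ⟨k, hk⟩, hbp, han, hbn⟩ := CfsgLib.Transfer.exists_pPart_mul (p := p) c
    have haP : a ∈ (P : Subgroup G) := by
      have hg : IsPGroup p (Subgroup.zpowers a) := IsPGroup.of_card (n := k) (by rw [Nat.card_zpowers, hk])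
      have h1 : (Subgroup.zpowers a ⊔ (P : Subgroup G) : Subgroup G) = P :=
        P.3 (hg.to_sup_of_normal_right' P.isPGroup' (Subgroup.zpowers_le.mpr (Subgroup.zpowers_le.2 hcN han))) le_sup_right
      exact h1 ▸ Subgroup.mem_sup_left (Subgroup.mem_zpowers a)
    have hA : Subgroup.zpowers b ≤ Subgroup.normalizer ((P : Subgroup G) : Set G) :=
      Subgroup.zpowers_le.2 (Subgroup.zpowers_le.2 hcN hbn)
    obtain ⟨j, hj⟩ := IsPGroup.iff_card.1 P.isPGroup'
    have hcop : (Nat.card (Subgroup.zpowers b)).Coprime (Nat.card (P : Subgroup G)) := by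
      rw [Nat.card_zpowers, hj]; exact hbp.pow_right j
    have h1 := CfsgLib.CoprimeAction.centralizer_inf_commutator_eq_bot hA hcop
    have h2 := CfsgLib.CoprimeAction.commutator_sup_centralizer hA hcop
      (Or.inr (by have := P.isPGroup'.isNilpotent; infer_instance))
    have hxb : x ∈ (P : Subgroup G) ⊓ Subgroup.centralizer (Subgroup.zpowers b : Set G) := by
      refine ⟨hx, Subgroup.mem_centralizer_iff.2 fun y hy => ?_⟩
      have hy' : y ∈ Subgroup.centralizer ({x} : Set G) := Subgroup.zpowers_le.2 (Subgroup.zpowers_le.2 hc hbn) hy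
      exact Subgroup.mem_centralizer_singleton_iff.1 hy'
    rcases CfsgLib.Transfer.eq_bot_or_eq_bot_of_cyclic P.isPGroup' hcyc inf_le_left (le_sup_left.trans h2.le) h1 with h | h
    · rw [h, Subgroup.mem_bot] at hxb
      exact absurd hxb hx1
    · rw [h, bot_sup_eq] at h2
      rw [hab]
      exact mul_mem (Subgroup.mem_centralizer_iff.2 fun y hy => hPP y hy a haP)
        (Subgroup.le_centralizer_iff.1 (h2.ge.trans inf_le_right) (Subgroup.mem_zpowers b))
  · intro h g hg
    rw [eq_bot_iff]
    rintro x ⟨hx, hxg⟩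
    by_contra hx1
    refine hg ?_
    set C := Subgroup.centralizer ({x} : Set G) with hC
    have hPC : (P : Subgroup G) ≤ C := fun y hy => Subgroup.mem_centralizer_singleton_iff.2 (hPP y hy x hx)
    obtain ⟨z, hz, hzx⟩ := (Subgroup.mem_smul_pointwise_iff_exists x (MulAut.conj g) _).1 hxg
    have hgPC : ((g • P : Sylow p G) : Subgroup G) ≤ C := fun y hy => by
      have hy' := CfsgLib.Transfer.mem_smul_sylow_iff.1 hy
      refine Subgroup.mem_centralizer_singleton_iff.2 ?_
      rw [← hzx, MulAut.smul_def, MulAut.conj_apply]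
      calc y * (g * z * g⁻¹) = g * ((g⁻¹ * y * g) * z) * g⁻¹ := by group
        _ = g * (z * (g⁻¹ * y * g)) * g⁻¹ := by rw [hPP _ hy' z hz]
        _ = g * z * g⁻¹ * y := by group
    obtain ⟨c, hc⟩ := MulAction.exists_smul_eq C (P.subtype hPC) ((g • P).subtype hgPC)
    simp_rw [Sylow.smul_subtype, Subgroup.smul_def] at hc
    have hc' : (c : G) • P = g • P := Sylow.subtype_injective hc
    have hcP : (c : G) • P = P := by
      rw [Sylow.smul_eq_iff_mem_normalizer]
      have hc2 : (c : G) ∈ Subgroup.centralizer ((P : Subgroup G) : Set G) :=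
        h x hx (by simpa using hx1) ▸ c.2
      exact Subgroup.centralizer_le_normalizer _ hc2
    rw [hcP, eq_comm, Sylow.smul_eq_iff_mem_normalizer] at hc'
    exact hc'

end Cfsg.Agent.S3985
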