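import Cfsg.Statements.S3987
import Mathlib
import Cfsg.Agent.S3986

set_option autoImplicit false
open Cfsg

namespace Cfsg.Agent.S3987

/-- Let p be a prime and G a finite group. Then some Sylow p-subgroup of G is a direct factor of G (normal with a normal complement) if and only if for every element x of p-power order and every element y whose order is a power of a prime other than p, the conjugacy class of x y has as many elements as the product of the sizes of the classes of x and of y. -/
theorem result {G : Type*} [Group G] [Finite G] (p : ℕ) [Fact p.Prime] : (∃ (P : Sylow p G) (K : Subgroup G), (P : Subgroup G).Normal ∧ K.Normal ∧ (P : Subgroup G) ⊓ K = ⊥ ∧ (P : Subgroup G) ⊔ K = ⊤) ↔ ∀ x y : G, (∃ a : ℕ, orderOf x = p ^ a) → (∃ q b : ℕ, q.Prime ∧ q ≠ p ∧ orderOf y = q ^ b) → (Subgroup.centralizer ({x * y} : Set G)).index = (Subgroup.centralizer ({x} : Set G)).index * (Subgroup.centralizer ({y} : Set G)).index := by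
  have comm_of : (∃ (P : Sylow p G) (K : Subgroup G), (P : Subgroup G).Normal ∧ K.Normal ∧
      (P : Subgroup G) ⊓ K = ⊥ ∧ (P : Subgroup G) ⊔ K = ⊤) ↔ ∀ x y : G, (∃ a : ℕ, orderOf x = p ^ a) →
      (∃ q b : ℕ, q.Prime ∧ q ≠ p ∧ orderOf y = q ^ b) → x * y = y * x := Cfsg.Agent.S3986.result p
  constructor
  · rintro hsplit x y ⟨a, ha⟩ ⟨q, b, hq, hqp, hb⟩
    obtain ⟨P, K, hP, hK, hd, hs⟩ := hsplit
    haveI := hP
    haveI := hK
    have hc := comm_of.1 ⟨P, K, hP, hK, hd, hs⟩
    have hxy : Commute x y := hc x y ⟨a, ha⟩ ⟨q, b, hq, hqp, hb⟩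
    have hcop : (orderOf x).Coprime (orderOf y) := by
      rw [ha, hb]
      exact Nat.Coprime.pow _ _ ((Nat.coprime_primes (Fact.out : p.Prime) hq).2 (Ne.symm hqp))
    have hinf : Subgroup.centralizer ({x * y} : Set G) =
        Subgroup.centralizer ({x} : Set G) ⊓ Subgroup.centralizer ({y} : Set G) := by
      ext g
      simp only [Subgroup.mem_inf, Subgroup.mem_centralizer_singleton_iff]
      constructor
      · intro hg
        have hg' : Commute g (x * y) := hg
        have key : ∀ {u v : G} (n : ℕ), Commute u v → Commute g (u * v) → v ^ n = 1 →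
            (orderOf u).Coprime n → Commute g u := by
          intro u v n huv hguv hv hun
          have h1 : Commute g (u ^ n) := by
            have := hguv.pow_right n
            rwa [huv.mul_pow, hv, mul_one] at this
          obtain ⟨m, hm⟩ := exists_pow_eq_self_of_coprime hun.symm
          rw [← hm]
          exact h1.pow_right m
        refine ⟨(key (orderOf y) hxy hg' (pow_orderOf_eq_one y) hcop).eq,
          (key (orderOf x) hxy.symm (hxy.eq ▸ hg') (pow_orderOf_eq_one x) hcop.symm).eq⟩
      · rintro ⟨h1, h2⟩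
        exact ((show Commute g x from h1).mul_right h2).eq
    rw [hinf]
    set A := Subgroup.centralizer ({x} : Set G)
    set B := Subgroup.centralizer ({y} : Set G)
    have hAB : ∀ g : G, ∃ a ∈ A, ∃ b ∈ B, g = a * b := by
      intro g
      obtain ⟨k, hk, u, hu, rfl⟩ := Subgroup.mem_sup_of_normal_left.1
        ((sup_comm K (P : Subgroup G)).trans hs ▸ Subgroup.mem_top g : g ∈ K ⊔ (P : Subgroup G))
      have hxP : x ∈ (P : Subgroup G) := by
        obtain ⟨Q, hQ⟩ := (IsPGroup.of_card (p := p) (n := a) (by rw [Nat.card_zpowers, ha]) :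
          IsPGroup p (Subgroup.zpowers x)).exists_le_sylow
        haveI : Unique (Sylow p G) := Sylow.unique_of_normal P hP
        rw [Subsingleton.elim P Q]
        exact hQ (Subgroup.mem_zpowers x)
      refine ⟨k, Subgroup.mem_centralizer_singleton_iff.2
        (Subgroup.commute_of_normal_of_disjoint _ _ hP hK (disjoint_iff.2 hd) x k hxP hk).symm.eq, u,
        Subgroup.mem_centralizer_singleton_iff.2 ?_, rfl⟩
      obtain ⟨i, hi⟩ := IsPGroup.iff_orderOf.1 P.2 ⟨u, hu⟩
      exact hc u y ⟨i, by rw [← hi, Subgroup.orderOf_mk]⟩ ⟨q, b, hq, hqp, hb⟩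
    rw [Subgroup.index, Subgroup.index, Subgroup.index, ← Nat.card_prod]
    refine Nat.card_congr (Equiv.ofBijective
      (fun c => (Subgroup.quotientMapOfLE inf_le_left c, Subgroup.quotientMapOfLE inf_le_right c)) ⟨?_, ?_⟩)
    · intro u v h
      induction u using QuotientGroup.induction_on with
      | _ u =>
      induction v using QuotientGroup.induction_on with
      | _ v =>
      simp only [Subgroup.quotientMapOfLE_apply_mk, Prod.mk.injEq, QuotientGroup.eq] at h
      exact QuotientGroup.eq.2 h
    · rintro ⟨u, v⟩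
      induction u using QuotientGroup.induction_on with
      | _ u =>
      induction v using QuotientGroup.induction_on with
      | _ v =>
      obtain ⟨a', ha', b', hb', he⟩ := hAB (u⁻¹ * v)
      refine ⟨((u * a' : G) : G ⧸ A ⊓ B), ?_⟩
      simp only [Subgroup.quotientMapOfLE_apply_mk, Prod.mk.injEq, QuotientGroup.eq]
      refine ⟨by simpa [mul_assoc] using A.inv_mem ha', ?_⟩
      rw [show (u * a')⁻¹ * v = a'⁻¹ * (u⁻¹ * v) by group, he, inv_mul_cancel_left]
      exact hb'
  · intro h
    refine comm_of.2 fun x y hx hy => ?_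
    have hcard : ∀ t : G, Nat.card (Set.range fun g : G => g * t * g⁻¹) = (Subgroup.centralizer ({t} : Set G)).index := by
      intro t
      have hmem : ∀ u v : G, u⁻¹ * v ∈ Subgroup.centralizer ({t} : Set G) ↔ u * t * u⁻¹ = v * t * v⁻¹ := by
        intro u v
        rw [Subgroup.mem_centralizer_singleton_iff]
        constructor
        · intro e
          calc u * t * u⁻¹ = u * (t * (u⁻¹ * v)) * v⁻¹ := by group
            _ = u * ((u⁻¹ * v) * t) * v⁻¹ := by rw [e]
            _ = v * t * v⁻¹ := by group
        · intro e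
          calc u⁻¹ * v * t = u⁻¹ * (v * t * v⁻¹) * v := by group
            _ = t * (u⁻¹ * v) := by rw [← e]; group
      rw [Subgroup.index]
      symm
      refine Nat.card_congr (Equiv.ofBijective (Quotient.lift (fun g => (⟨g * t * g⁻¹, g, rfl⟩ : Set.range fun g : G => g * t * g⁻¹))
        fun u v e => Subtype.ext ((hmem u v).1 (QuotientGroup.leftRel_apply.1 e))) ⟨?_, ?_⟩)
      · intro u v e
        induction u using QuotientGroup.induction_on with
        | _ u =>
        induction v using QuotientGroup.induction_on with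
        | _ v =>
        exact QuotientGroup.eq.2 ((hmem u v).2 (congrArg Subtype.val e))
      · rintro ⟨_, g, rfl⟩
        exact ⟨(g : G ⧸ _), rfl⟩
    let Kx := Set.range fun g : G => g * x * g⁻¹
    let Ky := Set.range fun g : G => g * y * g⁻¹
    let Kxy := Set.range fun g : G => g * (x * y) * g⁻¹
    choose gc hgc using fun c : Kxy => c.2
    let s : Kxy → Kx × Ky := fun c => (⟨gc c * x * (gc c)⁻¹, gc c, rfl⟩, ⟨gc c * y * (gc c)⁻¹, gc c, rfl⟩)
    have hs : ∀ c, ((s c).1 : G) * (s c).2 = c := fun c => by
      show gc c * x * (gc c)⁻¹ * (gc c * y * (gc c)⁻¹) = c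
      rw [← hgc c]
      group
    have hinj : Function.Injective s := fun c d e => Subtype.ext (by rw [← hs c, ← hs d, e])
    have hbij : Function.Bijective s := (Nat.bijective_iff_injective_and_card s).2 ⟨hinj, by
      rw [Nat.card_prod, hcard, hcard, hcard]; exact h x y hx hy⟩
    have hμ : ∀ d d' : Kx × Ky, (d.1 : G) * d.2 = d'.1 * d'.2 → d = d' := by
      intro d d' e
      obtain ⟨c, rfl⟩ := hbij.2 d
      obtain ⟨c', rfl⟩ := hbij.2 d'
      rw [hs, hs] at e
      rw [Subtype.ext e]
    have e := hμ (⟨x, 1, by simp⟩, ⟨x⁻¹ * y * x, x⁻¹, by simp⟩) (⟨y * x * y⁻¹, y, rfl⟩, ⟨y, 1, by simp⟩)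
      (by show x * (x⁻¹ * y * x) = y * x * y⁻¹ * y; group)
    have e1 : x = y * x * y⁻¹ := congrArg (fun d : Kx × Ky => (d.1 : G)) e
    exact mul_inv_eq_iff_eq_mul.1 e1.symm |>.symm

end Cfsg.Agent.S3987
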