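import Cfsg.Statements.S4009
import Mathlib
import Cfsg.Agent.S3781

set_option autoImplicit false
open Cfsg

namespace Cfsg.Agent.S4009

open scoped commutatorElement
open Cfsg.Agent.S3781 (desc desc_normal desc_succ_le commutator_lcs_le pow_le_relIndex)

variable {G : Type*} [Group G]

theorem desc_shift (N : Subgroup G) : ∀ j, desc (desc N 1) j = desc N (j + 1)
  | 0 => rfl
  | j + 1 => by
    show ⁅desc (desc N 1) j, (⊤ : Subgroup G)⁆ = _
    rw [desc_shift N j]; rfl

theorem desc_top : ∀ j, desc (⊤ : Subgroup G) j = (⊤ : Subgroup G).lowerCentralSeries j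
  | 0 => rfl
  | j + 1 => by
    show ⁅desc (⊤ : Subgroup G) j, (⊤ : Subgroup G)⁆ = _
    rw [desc_top j]; rfl

theorem lcs_comm_le (a b : ℕ) : ⁅(⊤ : Subgroup G).lowerCentralSeries a, (⊤ : Subgroup G).lowerCentralSeries b⁆ ≤
    (⊤ : Subgroup G).lowerCentralSeries (a + b + 1) := by
  have h := commutator_lcs_le (⊤ : Subgroup G) b a
  rwa [desc_top, desc_top] at h

theorem normal_of_central_between {L K : Subgroup G} (hLK : L ≤ K) (hc : ⁅K, (⊤ : Subgroup G)⁆ ≤ L) : K.Normal := by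
  refine ⟨fun k hk g => ?_⟩
  have h : ⁅k, g⁆ ∈ L := hc (Subgroup.commutator_mem_commutator hk (Subgroup.mem_top g))
  have e : g * k * g⁻¹ = (⁅k, g⁆)⁻¹ * k := by rw [commutatorElement_def]; group
  rw [e]
  exact K.mul_mem (K.inv_mem (hLK h)) hk

/-- Modulo a normal subgroup, a group generated by commuting pieces is commutative. -/
theorem comm_le_of_gen (K A B N : Subgroup G) [K.Normal] (hN : N ≤ A ⊔ B) (hA : ⁅A, A⁆ ≤ K) (hAB : ⁅A, B⁆ ≤ K)
    (hB : ⁅B, B⁆ ≤ K) : ⁅N, N⁆ ≤ K := by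
  refine (Subgroup.commutator_mono hN hN).trans ?_
  rw [← QuotientGroup.ker_mk' K, ← Subgroup.map_eq_bot_iff, Subgroup.map_commutator] at hA hAB hB ⊢
  rw [Subgroup.map_sup]
  rw [Subgroup.commutator_eq_bot_iff_le_centralizer] at hA hAB hB ⊢
  exact sup_le (Subgroup.le_centralizer_iff.1 (sup_le hA (Subgroup.le_centralizer_iff.1 hAB)))
    (Subgroup.le_centralizer_iff.1 (sup_le hAB hB))

theorem comm_zpowers_le (K : Subgroup G) [K.Normal] (x y : G) (h : ⁅x, y⁆ ∈ K) :
    ⁅Subgroup.zpowers x, Subgroup.zpowers y⁆ ≤ K := by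
  have h' : Commute (QuotientGroup.mk' K x) (QuotientGroup.mk' K y) := by
    rw [← commutatorElement_eq_one_iff_commute, ← map_commutatorElement]
    exact (QuotientGroup.eq_one_iff _).2 h
  rw [Subgroup.commutator_le]
  rintro a ⟨i, rfl⟩ b ⟨j, rfl⟩
  refine (QuotientGroup.eq_one_iff _).1 ?_
  show QuotientGroup.mk' K ⁅x ^ i, y ^ j⁆ = 1
  rw [map_commutatorElement, map_zpow, map_zpow, commutatorElement_eq_one_iff_commute]
  exact h'.zpow_zpow i j

/-- `N` is cyclic modulo `[N, G]`. -/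
def Cyc (N : Subgroup G) : Prop := ∃ x ∈ N, N ≤ Subgroup.zpowers x ⊔ desc N 1

theorem derived_le_desc (N : Subgroup G) [N.Normal] {t : ℕ} (ht : 1 ≤ t)
    (hN : N ≤ (⊤ : Subgroup G).lowerCentralSeries (t - 1)) :
    ⁅N, N⁆ ≤ desc N t ∧ ⁅N, desc N 1⁆ ≤ desc N (t + 1) := by
  refine ⟨?_, ?_⟩
  · refine (Subgroup.commutator_mono le_rfl hN).trans ((commutator_lcs_le N (t - 1) 0).trans_eq ?_)
    congr 1; omega
  · rw [Subgroup.commutator_comm]
    refine (Subgroup.commutator_mono le_rfl hN).trans ((commutator_lcs_le N (t - 1) 1).trans_eq ?_)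
    congr 1; omega

theorem derived_le_of_cyc (N : Subgroup G) [N.Normal] (hc : Cyc N) : ⁅N, N⁆ ≤ ⁅N, desc N 1⁆ := by
  haveI := desc_normal N 1
  obtain ⟨x, hx, hN⟩ := hc
  refine comm_le_of_gen _ (Subgroup.zpowers x) (desc N 1) N hN (comm_zpowers_le _ x x (by simp))
    (Subgroup.commutator_mono (Subgroup.zpowers_le.2 hx) le_rfl)
    (Subgroup.commutator_mono (desc_succ_le N 0) le_rfl)

variable [Finite G] {p : ℕ} [Fact p.Prime] (hG : IsPGroup p G)

include hG in
theorem p_le_relIndex {A B : Subgroup G} (h : ¬ B ≤ A) : p ≤ A.relIndex B := by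
  obtain ⟨e, he⟩ := (hG.to_subgroup B).index (A.subgroupOf B)
  rw [Subgroup.relIndex, he]
  refine Nat.le_self_pow ?_ p
  rintro rfl
  rw [pow_zero, Subgroup.index_eq_one, Subgroup.subgroupOf_eq_top] at he
  exact h he

include hG in
theorem two_le_relIndex (N : Subgroup G) [N.Normal] (hN1 : desc N 1 < N) (hc : ¬ Cyc N) :
    p ^ 2 ≤ (desc N 1).relIndex N ∧
      ((∀ x ∈ N, ∀ y ∈ N, ¬ N ≤ Subgroup.zpowers y ⊔ (Subgroup.zpowers x ⊔ desc N 1)) →
        p ^ 3 ≤ (desc N 1).relIndex N) := by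
  obtain ⟨x, hxN, hx⟩ := SetLike.exists_of_lt hN1
  have hK : Subgroup.zpowers x ⊔ desc N 1 ≤ N := sup_le (Subgroup.zpowers_le.2 hxN) hN1.le
  have e1 := Subgroup.relIndex_mul_relIndex (desc N 1) _ N le_sup_right hK
  have h1 : p ≤ (desc N 1).relIndex (Subgroup.zpowers x ⊔ desc N 1) :=
    p_le_relIndex hG (fun h => hx (h (le_sup_left (b := desc N 1) (Subgroup.mem_zpowers x))))
  have hne : ¬ N ≤ Subgroup.zpowers x ⊔ desc N 1 := fun h => hc ⟨x, hxN, h⟩
  refine ⟨?_, fun h3 => ?_⟩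
  · rw [← e1, pow_two]
    exact Nat.mul_le_mul h1 (p_le_relIndex hG hne)
  · obtain ⟨y, hyN, hy⟩ := SetLike.not_le_iff_exists.1 hne
    have hK2 : Subgroup.zpowers y ⊔ (Subgroup.zpowers x ⊔ desc N 1) ≤ N := sup_le (Subgroup.zpowers_le.2 hyN) hK
    have e2 := Subgroup.relIndex_mul_relIndex (Subgroup.zpowers x ⊔ desc N 1) _ N le_sup_right hK2
    rw [← e1, ← e2, pow_succ', pow_two]
    exact Nat.mul_le_mul h1 (Nat.mul_le_mul
      (p_le_relIndex hG (fun h => hy (h (le_sup_left (b := Subgroup.zpowers x ⊔ desc N 1) (Subgroup.mem_zpowers y)))))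
      (p_le_relIndex hG (h3 x hxN y hyN)))

include hG in
/-- One step in the derived series. -/
theorem step (N : Subgroup G) [N.Normal] (t : ℕ) (ht : 1 ≤ t)
    (hN : N ≤ (⊤ : Subgroup G).lowerCentralSeries (t - 1)) (hne : ⁅N, N⁆ ≠ ⊥) :
    p ^ (t + 1) ≤ (⁅N, N⁆).relIndex N ∧
    ⁅N, N⁆ ≤ (⊤ : Subgroup G).lowerCentralSeries (2 * t - 1) ∧
    (Cyc N → ⁅N, N⁆ ≤ (⊤ : Subgroup G).lowerCentralSeries (2 * t)) ∧
    (¬ Cyc N → p ^ (t + 2) ≤ (⁅N, N⁆).relIndex N ∨ Cyc ⁅N, N⁆) := by
  haveI := desc_normal N 1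
  haveI := desc_normal N t
  haveI := desc_normal N (t + 1)
  obtain ⟨hd0, hd1⟩ := derived_le_desc N ht hN
  have hdesc1 : desc N 1 ≤ (⊤ : Subgroup G).lowerCentralSeries t :=
    (Subgroup.commutator_mono hN le_rfl).trans_eq
      ((Subgroup.lowerCentralSeries_succ (⊤ : Subgroup G) (t - 1)).symm.trans (by congr 1; omega))
  have hpos : 0 < (⁅N, N⁆).relIndex N := Nat.pos_of_ne_zero Subgroup.index_ne_zero_of_finite
  have hneT : desc N t ≠ ⊥ := fun h => hne (le_bot_iff.1 (h ▸ hd0))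
  refine ⟨?_, ?_, ?_, ?_⟩
  · by_cases hc : Cyc N
    · have hle : ⁅N, N⁆ ≤ desc N (t + 1) := (derived_le_of_cyc N hc).trans hd1
      exact (pow_le_relIndex hG N (t + 1) (fun h => hne (le_bot_iff.1 (h ▸ hle)))).trans
        (Nat.le_of_dvd hpos (Subgroup.relIndex_dvd_of_le_left _ hle))
    · have h1 : p ^ (t - 1) ≤ (desc N t).relIndex (desc N 1) := by
        have := pow_le_relIndex hG (desc N 1) (t - 1) (by rw [desc_shift, Nat.sub_add_cancel ht]; exact hneT)
        rwa [desc_shift, Nat.sub_add_cancel ht] at this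
      have hlt : desc N 1 < N := by
        refine lt_of_le_of_ne (desc_succ_le N 0) (fun h => hc ⟨1, N.one_mem, h.ge.trans le_sup_right⟩)
      have hle : desc N t ≤ desc N 1 := by
        have : ∀ j, desc N (j + 1) ≤ desc N 1 := by
          intro j; induction j with
          | zero => exact le_rfl
          | succ j ih => exact (desc_succ_le N (j + 1)).trans ih
        have h := this (t - 1); rwa [Nat.sub_add_cancel ht] at h
      have e := Subgroup.relIndex_mul_relIndex _ _ N hle hlt.le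
      refine le_trans ?_ (Nat.le_of_dvd hpos (Subgroup.relIndex_dvd_of_le_left _ hd0))
      rw [← e, show t + 1 = (t - 1) + 2 by omega, pow_add]
      exact Nat.mul_le_mul h1 (two_le_relIndex hG N hlt hc).1
  · refine (Subgroup.commutator_mono hN hN).trans ((lcs_comm_le _ _).trans ?_)
    apply Subgroup.lowerCentralSeries_antitone; omega
  · intro hc
    refine (derived_le_of_cyc N hc).trans ((Subgroup.commutator_mono hN hdesc1).trans ((lcs_comm_le _ _).trans ?_))
    apply Subgroup.lowerCentralSeries_antitone; omega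
  · intro hc
    by_contra hcon
    rw [not_or, Nat.not_le] at hcon
    obtain ⟨hsmall, hnc⟩ := hcon
    have hlt : desc N 1 < N := by
      refine lt_of_le_of_ne (desc_succ_le N 0) (fun h => hc ⟨1, N.one_mem, h.ge.trans le_sup_right⟩)
    have hle : desc N t ≤ desc N 1 := by
      have : ∀ j, desc N (j + 1) ≤ desc N 1 := by
        intro j; induction j with
        | zero => exact le_rfl
        | succ j ih => exact (desc_succ_le N (j + 1)).trans ih
      have h := this (t - 1); rwa [Nat.sub_add_cancel ht] at h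
    have h1 : p ^ (t - 1) ≤ (desc N t).relIndex (desc N 1) := by
      have := pow_le_relIndex hG (desc N 1) (t - 1) (by rw [desc_shift, Nat.sub_add_cancel ht]; exact hneT)
      rwa [desc_shift, Nat.sub_add_cancel ht] at this
    have e := Subgroup.relIndex_mul_relIndex _ _ N hle hlt.le
    have e2 := Subgroup.relIndex_mul_relIndex _ _ N hd0 (hle.trans hlt.le)
    have hEq : desc N t ≤ ⁅N, N⁆ := by
      by_contra h
      refine absurd hsmall (Nat.not_lt.2 ?_)
      rw [← e2, ← e, show t + 2 = 1 + ((t - 1) + 2) by omega, pow_add, pow_add, pow_one]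
      exact Nat.mul_le_mul (p_le_relIndex hG h) (Nat.mul_le_mul h1 (two_le_relIndex hG N hlt hc).1)
    obtain ⟨x, hx, y, hy, hgen⟩ : ∃ x ∈ N, ∃ y ∈ N, N ≤ Subgroup.zpowers y ⊔ (Subgroup.zpowers x ⊔ desc N 1) := by
      by_contra h
      push_neg at h
      refine absurd hsmall (Nat.not_lt.2 ?_)
      refine le_trans ?_ (Nat.le_of_dvd hpos (Subgroup.relIndex_dvd_of_le_left _ hd0))
      rw [← e, show t + 2 = (t - 1) + 3 by omega, pow_add]
      exact Nat.mul_le_mul h1 ((two_le_relIndex hG N hlt hc).2 h)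
    have hz : ⁅x, y⁆ ∈ ⁅N, N⁆ := Subgroup.commutator_mem_commutator hx hy
    have hnext : desc ⁅N, N⁆ 1 = desc N (t + 1) := by
      show ⁅⁅N, N⁆, (⊤ : Subgroup G)⁆ = ⁅desc N t, (⊤ : Subgroup G)⁆
      rw [le_antisymm hd0 hEq]
    refine hnc ⟨⁅x, y⁆, hz, ?_⟩
    rw [hnext]
    let K : Subgroup G := Subgroup.zpowers ⁅x, y⁆ ⊔ desc N (t + 1)
    haveI : K.Normal := normal_of_central_between (L := desc N (t + 1)) le_sup_right
      (Subgroup.commutator_mono (sup_le (Subgroup.zpowers_le.2 (hd0 hz)) (desc_succ_le N t)) le_rfl)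
    have hxy : ⁅x, y⁆ ∈ K := le_sup_left (b := desc N (t + 1)) (Subgroup.mem_zpowers _)
    have hn1 : ∀ z ∈ N, ⁅Subgroup.zpowers z, desc N 1⁆ ≤ K := fun z hz =>
      (Subgroup.commutator_mono (Subgroup.zpowers_le.2 hz) le_rfl).trans (hd1.trans le_sup_right)
    have hin : ⁅Subgroup.zpowers x ⊔ desc N 1, Subgroup.zpowers x ⊔ desc N 1⁆ ≤ K :=
      comm_le_of_gen K (Subgroup.zpowers x) (desc N 1) _ le_rfl (comm_zpowers_le K x x (by simp)) (hn1 x hx)
        ((Subgroup.commutator_mono (desc_succ_le N 0) le_rfl).trans (hd1.trans le_sup_right))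
    refine comm_le_of_gen K (Subgroup.zpowers y) (Subgroup.zpowers x ⊔ desc N 1) N hgen
      (comm_zpowers_le K y y (by simp)) ?_ hin
    have h2 : ⁅Subgroup.zpowers y, Subgroup.zpowers x⁆ ≤ K :=
      comm_zpowers_le K y x (by rw [← commutatorElement_inv]; exact K.inv_mem hxy)
    rw [← QuotientGroup.ker_mk' K, ← Subgroup.map_eq_bot_iff, Subgroup.map_commutator] at h2 ⊢
    have h3 := hn1 y hy
    rw [← QuotientGroup.ker_mk' K, ← Subgroup.map_eq_bot_iff, Subgroup.map_commutator] at h3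
    rw [Subgroup.map_sup, Subgroup.commutator_eq_bot_iff_le_centralizer, Subgroup.le_centralizer_iff]
    exact sup_le (Subgroup.le_centralizer_iff.1 (Subgroup.commutator_eq_bot_iff_le_centralizer.1 h2))
      (Subgroup.le_centralizer_iff.1 (Subgroup.commutator_eq_bot_iff_le_centralizer.1 h3))

/-- Let P be a finite p-group of order p^n whose derived length is exactly k + 1 (the k-th derived subgroup is nontrivial and the (k+1)-st is trivial). Then n ≥ 2^k + 2k − 2. -/
theorem result {P : Type*} [Group P] [Finite P] (p : ℕ) [Fact p.Prime] (n k : ℕ) (hcard : Nat.card P = p ^ n) (hk : derivedSeries P k ≠ ⊥) (hk' : derivedSeries P (k + 1) = ⊥) : 2 ^ k + 2 * k ≤ n + 2 := by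
  have hP : IsPGroup p P := IsPGroup.of_card hcard
  have hp := (Fact.out : p.Prime)
  rcases Nat.eq_zero_or_pos k with rfl | hk1
  · simp
  have hanti : Antitone (derivedSeries P) := derivedSeries_antitone P
  have hnz : ∀ i, i ≤ k → derivedSeries P i ≠ ⊥ := fun i hi h => hk (le_bot_iff.1 (h ▸ hanti hi))
  have key : ∀ i, 1 ≤ i → i ≤ k → ∃ m, p ^ m ≤ (derivedSeries P i).index ∧
      derivedSeries P i ≤ (⊤ : Subgroup P).lowerCentralSeries (2 ^ i - 1) ∧
      ((derivedSeries P i ≤ (⊤ : Subgroup P).lowerCentralSeries (2 ^ i) ∧ 2 ^ i + 2 * i ≤ m + 3) ∨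
        (Cyc (derivedSeries P i) ∧ 2 ^ i + 2 * i ≤ m + 2) ∨ 2 ^ i + 2 * i ≤ m + 1) := by
    intro i hi
    induction i, hi using Nat.le_induction with
    | base =>
      intro h1k
      have h1 : derivedSeries P 1 = ⁅(⊤ : Subgroup P), ⊤⁆ := rfl
      obtain ⟨ha, hb, hcA, hcB⟩ := step hP (⊤ : Subgroup P) 1 le_rfl (by simp) (h1 ▸ hnz 1 h1k)
      rw [← h1] at ha hb hcA hcB
      rw [Subgroup.relIndex_top_right] at ha hcB
      by_cases hc : Cyc (⊤ : Subgroup P)
      · exact ⟨2, ha, by simpa using hb, Or.inl ⟨by simpa using hcA hc, by norm_num⟩⟩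
      · rcases hcB hc with h | h
        · exact ⟨3, h, by simpa using hb, Or.inr (Or.inr (by norm_num))⟩
        · exact ⟨2, ha, by simpa using hb, Or.inr (Or.inl ⟨h, by norm_num⟩)⟩
    | succ i hi ih =>
      intro hik
      obtain ⟨m, hm, hsub, hstate⟩ := ih (by omega)
      haveI : (derivedSeries P i).Normal := derivedSeries_normal P i
      have hs : derivedSeries P (i + 1) = ⁅derivedSeries P i, derivedSeries P i⁆ := rfl
      have hle : derivedSeries P (i + 1) ≤ derivedSeries P i := hanti (Nat.le_succ i)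
      have hidx : ∀ l, p ^ l ≤ (derivedSeries P (i + 1)).relIndex (derivedSeries P i) →
          p ^ (m + l) ≤ (derivedSeries P (i + 1)).index := fun l hl => by
        rw [← Subgroup.relIndex_mul_index hle, pow_add, mul_comm (p ^ m)]
        exact Nat.mul_le_mul hl hm
      have h2i : 1 ≤ 2 ^ i := Nat.one_le_two_pow
      have hpow : 2 ^ (i + 1) = 2 * 2 ^ i := by ring
      have hne : ⁅derivedSeries P i, derivedSeries P i⁆ ≠ ⊥ := hs ▸ hnz (i + 1) hik
      obtain ⟨ha, hb, hcA, hcB⟩ := step hP (derivedSeries P i) (2 ^ i) h2i hsub hne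
      rw [← hs] at ha hb hcA hcB
      rw [← hpow] at hb hcA
      rcases hstate with ⟨hH, hx⟩ | hrest
      · obtain ⟨ha', hb', -, -⟩ := step hP (derivedSeries P i) (2 ^ i + 1) (by omega) (by simpa using hH) hne
        rw [← hs] at ha' hb'
        exact ⟨m + (2 ^ i + 1 + 1), hidx _ ha', hb,
          Or.inl ⟨hb'.trans (Subgroup.lowerCentralSeries_antitone _ (by omega)), by omega⟩⟩
      · by_cases hc : Cyc (derivedSeries P i)
        · exact ⟨m + (2 ^ i + 1), hidx _ ha, hb,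
            Or.inl ⟨hcA hc, by rcases hrest with ⟨-, h⟩ | h <;> omega⟩⟩
        · have hx : 2 ^ i + 2 * i ≤ m + 1 := hrest.elim (fun h => absurd h.1 hc) id
          rcases hcB hc with h | h
          · exact ⟨m + (2 ^ i + 2), hidx _ h, hb, Or.inr (Or.inr (by omega))⟩
          · exact ⟨m + (2 ^ i + 1), hidx _ ha, hb, Or.inr (Or.inl ⟨h, by omega⟩)⟩
  obtain ⟨m, hm, -, hstate⟩ := key k hk1 le_rfl
  have hm1 : m + 1 ≤ n := by
    rw [← Nat.pow_le_pow_iff_right hp.one_lt, ← hcard,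
      ← Subgroup.card_mul_index (derivedSeries P k), pow_succ']
    refine Nat.mul_le_mul ?_ hm
    have := p_le_relIndex hP (A := (⊥ : Subgroup P)) (B := derivedSeries P k) (fun h => hk (le_bot_iff.1 h))
    rwa [Subgroup.relIndex_bot_left] at this
  rcases hstate with ⟨-, h⟩ | ⟨-, h⟩ | h <;> omega

end Cfsg.Agent.S4009
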