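import Cfsg.Statements.S4013
import Mathlib

set_option autoImplicit false
open Cfsg

namespace Cfsg.Agent.S4013

/-- Let G be a finite p-group (p prime) and N < M normal subgroups of G such that for some g ∈ M ∖ N the conjugacy class of g is exactly M ∖ N. Then p = 2 and N has index 2 in M. -/
theorem result {G : Type*} [Group G] [Finite G] (p : ℕ) [Fact p.Prime] (hG : IsPGroup p G) (N M : Subgroup G) [N.Normal] [M.Normal] (hNM : N < M) (g : G) (hgM : g ∈ M) (hgN : g ∉ N) (hcl : {h : G | IsConj g h} = (M : Set G) \ (N : Set G)) : p = 2 ∧ N.relIndex M = 2 := by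
  have hp : p.Prime := Fact.out
  have hMN : (M : Set G) \ (N : Set G) = MulAction.orbit (ConjAct G) g := by
    rw [← hcl]
    ext h
    rw [ConjAct.mem_orbit_conjAct]
    exact isConj_comm
  obtain ⟨i, hi⟩ := IsPGroup.iff_card.1 hG
  obtain ⟨r, -, hr⟩ : ∃ r ≤ i, ((M : Set G) \ (N : Set G)).ncard = p ^ r := by
    refine (Nat.dvd_prime_pow hp).1 ?_
    rw [hMN, ← MulAction.index_stabilizer, ← hi]
    exact (MulAction.stabilizer (ConjAct G) g).index_dvd_card.trans
      (dvd_of_eq (Nat.card_congr ConjAct.ofConjAct.toEquiv))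
  have hcN : Nat.card N * N.relIndex M = Nat.card M := by
    rw [← Subgroup.relIndex_bot_left (H := N), ← Subgroup.relIndex_bot_left (H := M)]
    exact Subgroup.relIndex_mul_relIndex _ _ _ bot_le hNM.le
  rw [Set.ncard_diff (SetLike.coe_subset_coe.2 hNM.le)] at hr
  change Nat.card M - Nat.card N = p ^ r at hr
  obtain ⟨k, -, hk⟩ : ∃ k ≤ i, N.relIndex M = p ^ k := by
    refine (Nat.dvd_prime_pow hp).1 ?_
    rw [← hi]
    exact (Dvd.intro_left _ hcN).trans M.card_subgroup_dvd_card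
  have hk0 : k ≠ 0 := fun h0 => by
    rw [h0, pow_zero, Subgroup.relIndex_eq_one] at hk
    exact hNM.not_ge hk
  rw [hk] at hcN ⊢
  have hd : p ^ k - 1 ∣ p ^ r := by
    refine Dvd.intro_left (Nat.card N) ?_
    rw [Nat.mul_sub, mul_one, hcN, hr]
  obtain ⟨t, -, ht⟩ := (Nat.dvd_prime_pow hp).1 hd
  have h2 : 2 ≤ p ^ k := hp.two_le.trans (Nat.le_self_pow hk0 p)
  have ht0 : t = 0 := by
    by_contra h0
    have h3 : p ∣ 1 := by
      rw [show 1 = p ^ k - (p ^ k - 1) by omega]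
      exact Nat.dvd_sub (dvd_pow_self p hk0) (ht ▸ dvd_pow_self p h0)
    exact hp.ne_one (Nat.eq_one_of_dvd_one h3)
  rw [ht0, pow_zero] at ht
  have hk2 : p ^ k = 2 := by omega
  exact ⟨(Nat.prime_dvd_prime_iff_eq hp Nat.prime_two).1 (hk2 ▸ dvd_pow_self p hk0), hk2⟩

end Cfsg.Agent.S4013
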