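import Cfsg.Statements.S4020
import Cfsg.Agent.EqOrderConj.Main

set_option autoImplicit false
open Cfsg
open scoped Pointwise

namespace Cfsg.Agent.S4020

open CfsgLib.EqOrderConj in
theorem iso_by_order {G : Type*} [Group G] [Finite G]
    (hD : ∀ p : ℕ, p.Prime → ∀ H K : Subgroup G, IsPGroup p H → IsPGroup p K → Nat.card H = Nat.card K →
      ∃ g : G, K = H.map (MulAut.conj g).toMonoidHom) {p : ℕ} [hp : Fact p.Prime] (P : Sylow p G) :
    IsoByOrder (P : Subgroup G) := by
  intro H K h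
  have hm : ∀ L : Subgroup (P : Subgroup G), IsPGroup p (L.map (P : Subgroup G).subtype) :=
    fun L => (P.2.to_subgroup L).map _
  obtain ⟨g, hg⟩ := hD p hp.out _ _ (hm H) (hm K)
    (by rw [Subgroup.card_map_of_injective (P : Subgroup G).subtype_injective,
      Subgroup.card_map_of_injective (P : Subgroup G).subtype_injective, h])
  exact ⟨((H.equivMapOfInjective _ (P : Subgroup G).subtype_injective).trans
    ((Subgroup.equivMapOfInjective _ _ (MulAut.conj g).injective).trans (MulEquiv.subgroupCongr hg.symm))).trans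
    (K.equivMapOfInjective _ (P : Subgroup G).subtype_injective).symm⟩

theorem false_of_cube {G : Type*} [Group G] [Finite G]
    (hD : ∀ p : ℕ, p.Prime → ∀ H K : Subgroup G, IsPGroup p H → IsPGroup p K → Nat.card H = Nat.card K →
      ∃ g : G, K = H.map (MulAut.conj g).toMonoidHom) {p : ℕ} [hp : Fact p.Prime] (P : Sylow p G) (hp2 : p ≠ 2)
    (hexp : ∀ x : (P : Subgroup G), x ^ p = 1) (hnc : ¬ IsMulCommutative (P : Subgroup G))
    (hcard : Nat.card (P : Subgroup G) = p ^ 3) : False := by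
  classical
  haveI := Fact.mk Nat.prime_two
  have hexp' : ∀ x ∈ (P : Subgroup G), x ^ p = 1 := fun x hx => congrArg Subtype.val (hexp ⟨x, hx⟩)
  -- centre of order p
  obtain ⟨m, hm⟩ := (P.2.to_subgroup (Subgroup.center (P : Subgroup G))).exists_card_eq
  have hm1 : m = 1 := by
    have h1 := CfsgLib.EqOrderConj.card_center_lt hnc
    rw [hm, hcard] at h1
    have h1' : m < 3 := (Nat.pow_lt_pow_iff_right hp.out.one_lt).1 h1
    have h2 := CfsgLib.EqOrderConj.card_center_ne_prime_pred hp.out hnc hcard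
    rw [hm] at h2
    have h3 : 1 < Nat.card (Subgroup.center (P : Subgroup G)) := by
      haveI : Nontrivial (P : Subgroup G) := Finite.one_lt_card_iff_nontrivial.1 (by
        rw [hcard]; exact Nat.one_lt_pow (by norm_num) hp.out.one_lt)
      haveI := P.2.center_nontrivial
      exact Finite.one_lt_card
    rw [hm] at h3
    rcases m with _ | _ | _ | _
    · simp at h3
    · rfl
    · exact absurd rfl h2
    · omega
  subst hm1
  rw [pow_one] at hm
  set Z := Subgroup.center (P : Subgroup G) with hZ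
  have hzgen : ∀ z ∈ Z, z ≠ 1 → ∀ w ∈ Z, ∃ a : ℤ, w = z ^ a := by
    intro z hz hz1 w hw
    have he : Subgroup.zpowers z = Z := Subgroup.eq_of_le_of_card_ge (Subgroup.zpowers_le.2 hz)
      (by rw [hm, Nat.card_zpowers, orderOf_eq_prime (hexp z) hz1])
    rw [← he] at hw
    obtain ⟨a, ha⟩ := hw
    exact ⟨a, ha.symm⟩
  -- transvection inside P
  have htr : ∀ x z : G, x ∈ (P : Subgroup G) → z ∈ (P : Subgroup G) → x ≠ 1 →
      (∀ y ∈ (P : Subgroup G), y * x = x * y) → ¬ (∀ y ∈ (P : Subgroup G), y * z = z * y) →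
      ∃ u ∈ (P : Subgroup G), u * x = x * u ∧ ∃ a : ℤ, ¬ (p : ℤ) ∣ a ∧ u * z * u⁻¹ = z * x ^ a := by
    intro x z hx hz hx1 hxc hzc
    push_neg at hzc
    obtain ⟨u, hu, huz⟩ := hzc
    refine ⟨u, hu, hxc u hu, ?_⟩
    set U : (P : Subgroup G) := ⟨u, hu⟩
    set Zz : (P : Subgroup G) := ⟨z, hz⟩
    set X : (P : Subgroup G) := ⟨x, hx⟩
    have hX : X ∈ Z := Subgroup.mem_center_iff.2 fun y => Subtype.ext (hxc y y.2)
    have hq : Nat.card ((P : Subgroup G) ⧸ Z) = p ^ 2 := by
      have h := Subgroup.card_eq_card_quotient_mul_card_subgroup Z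
      rw [hcard, hm, pow_succ] at h
      exact (Nat.eq_of_mul_eq_mul_right hp.out.pos h).symm
    have hc : Zz⁻¹ * (U * Zz * U⁻¹) ∈ Z := by
      rw [← QuotientGroup.eq_one_iff]
      simp only [QuotientGroup.mk_mul, QuotientGroup.mk_inv]
      rw [(IsPGroup.commutative_of_card_eq_prime_sq hq) (U : (P : Subgroup G) ⧸ Z) (Zz : (P : Subgroup G) ⧸ Z),
        mul_inv_cancel_right, inv_mul_cancel]
    obtain ⟨a, ha⟩ := hzgen X hX (fun e => hx1 (congrArg Subtype.val e)) _ hc
    have ha' : z⁻¹ * (u * z * u⁻¹) = x ^ a := by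
      have := congrArg Subtype.val ha
      simpa [U, Zz, X] using this
    refine ⟨a, ?_, by rw [← ha', mul_inv_cancel_left]⟩
    rintro ⟨q, rfl⟩
    rw [zpow_mul, zpow_natCast, hexp' x hx, one_zpow, inv_mul_eq_one, eq_mul_inv_iff_mul_eq] at ha'
    exact huz ha'.symm
  -- the configuration around any noncentral element
  have hcfg : ∀ z x : G, z ∈ (P : Subgroup G) → x ∈ (P : Subgroup G) → z ≠ 1 →
      (∀ y ∈ (P : Subgroup G), y * z = z * y) → ¬ (∀ y ∈ (P : Subgroup G), y * x = x * y) →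
      ∃ r : G, (∃ k : ℕ, r ^ 2 ^ k = 1) ∧
        (∀ N : Subgroup G, N.Normal → (P : Subgroup G) ≤ N → r ∈ N) ∧
        (r * r) * z * (r * r)⁻¹ = z⁻¹ ∧ ∃ g : G, ∃ k : ℤ, g * x * g⁻¹ = z ^ k := by
    intro z x hz hx hz1 hzc hxc
    have hx1 : x ≠ 1 := fun h => hxc (fun y _ => by rw [h, mul_one, one_mul])
    obtain ⟨u, huP, huz, a, ha, hux⟩ := htr z x hz hx hz1 hzc hxc
    have hzo := orderOf_eq_prime (hexp' z hz) hz1
    have hxo := orderOf_eq_prime (hexp' x hx) hx1
    obtain ⟨g, hg⟩ := hD p hp.out (Subgroup.zpowers z) (Subgroup.zpowers x)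
      (IsPGroup.of_card (n := 1) (by rw [Nat.card_zpowers, hzo, pow_one]))
      (IsPGroup.of_card (n := 1) (by rw [Nat.card_zpowers, hxo, pow_one]))
      (by rw [Nat.card_zpowers, Nat.card_zpowers, hzo, hxo])
    have hxg : ∃ k : ℤ, g⁻¹ * x * g = z ^ k := by
      have hxm : x ∈ (Subgroup.zpowers z).map (MulAut.conj g).toMonoidHom := hg ▸ Subgroup.mem_zpowers x
      obtain ⟨w, ⟨k, rfl⟩, hw⟩ := hxm
      refine ⟨k, ?_⟩
      rw [← hw]; simp [MulAut.conj_apply, mul_assoc]
    -- a Sylow subgroup centralizing x containing z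
    set C := Subgroup.centralizer ({x} : Set G) with hC
    have hzC : z ∈ C := Subgroup.mem_centralizer_singleton_iff.2 (hzc x hx).symm
    have hxC : x ∈ C := Subgroup.mem_centralizer_singleton_iff.2 rfl
    obtain ⟨Q, hQ⟩ := IsPGroup.exists_le_sylow (p := p) (P := ((P : Subgroup G) ⊓ C).subgroupOf C)
      ((P.2.to_le inf_le_left).of_equiv (Subgroup.subgroupOfEquivOfLe inf_le_right).symm)
    have hPg : (P : Subgroup G).map (MulAut.conj g).toMonoidHom ≤ C := by
      obtain ⟨k, hk⟩ := hxg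
      rintro _ ⟨y, hy, rfl⟩
      rw [hC, Subgroup.mem_centralizer_singleton_iff]
      have hyk : Commute y (z ^ k) := Commute.zpow_right (hzc y hy) k
      have hxe : x = g * z ^ k * g⁻¹ := by rw [← hk]; group
      show g * y * g⁻¹ * x = x * (g * y * g⁻¹)
      rw [hxe]
      calc g * y * g⁻¹ * (g * z ^ k * g⁻¹) = g * (y * z ^ k) * g⁻¹ := by group
        _ = g * (z ^ k * y) * g⁻¹ := by rw [hyk.eq]
        _ = _ := by group
    have hQc : p ^ 3 ≤ Nat.card (Q : Subgroup C) := by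
      obtain ⟨R, hR⟩ := IsPGroup.exists_le_sylow (p := p) (P := ((P : Subgroup G).map (MulAut.conj g).toMonoidHom).subgroupOf C)
        ((P.2.map _).of_equiv (Subgroup.subgroupOfEquivOfLe hPg).symm)
      have h1 := Subgroup.card_le_of_le hR
      rw [Nat.card_congr (Subgroup.subgroupOfEquivOfLe hPg).toEquiv,
        Subgroup.card_map_of_injective (MulAut.conj g).injective, hcard] at h1
      refine h1.trans_eq ?_
      rw [R.card_eq_multiplicity, Q.card_eq_multiplicity]
    set QG := (Q : Subgroup C).map C.subtype with hQG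
    obtain ⟨R, hR⟩ := IsPGroup.exists_le_sylow (Q.2.map C.subtype)
    have hQR : QG = (R : Subgroup G) := by
      refine Subgroup.eq_of_le_of_card_ge hR ?_
      rw [R.card_eq_multiplicity, ← P.card_eq_multiplicity, hcard, Subgroup.card_map_of_injective C.subtype_injective]
      exact hQc
    obtain ⟨h, hh⟩ := MulAction.exists_smul_eq G P R
    have hmem : ∀ y : G, y ∈ (R : Subgroup G) ↔ h⁻¹ * y * h ∈ (P : Subgroup G) := by
      intro y
      rw [← hh]
      show y ∈ MulAut.conj h • (P : Subgroup G) ↔ _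
      rw [Subgroup.mem_pointwise_smul_iff_inv_smul_mem, ← map_inv, MulAut.smul_def, MulAut.conj_apply, inv_inv]
    have hxR : x ∈ (R : Subgroup G) := hR ⟨⟨x, hxC⟩, hQ (⟨hx, hxC⟩ : x ∈ (P : Subgroup G) ⊓ C), rfl⟩
    have hzR : z ∈ (R : Subgroup G) := hR ⟨⟨z, hzC⟩, hQ (⟨hz, hzC⟩ : z ∈ (P : Subgroup G) ⊓ C), rfl⟩
    have hRc : ∀ y ∈ (R : Subgroup G), y * x = x * y := by
      intro y hy
      rw [← hQR] at hy
      obtain ⟨⟨y', hy'⟩, -, rfl⟩ := hy
      exact Subgroup.mem_centralizer_singleton_iff.1 hy'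
    have hx' : ∀ y ∈ (P : Subgroup G), y * (h⁻¹ * x * h) = (h⁻¹ * x * h) * y := by
      intro y hy
      have hyR : h * y * h⁻¹ ∈ (R : Subgroup G) := (hmem _).2 (by simpa [mul_assoc] using hy)
      calc y * (h⁻¹ * x * h) = h⁻¹ * ((h * y * h⁻¹) * x) * h := by group
        _ = h⁻¹ * (x * (h * y * h⁻¹)) * h := by rw [hRc _ hyR]
        _ = _ := by group
    have hz' : ¬ ∀ y ∈ (P : Subgroup G), y * (h⁻¹ * z * h) = (h⁻¹ * z * h) * y := by
      intro hall
      obtain ⟨c, hc⟩ := hzgen ⟨h⁻¹ * x * h, (hmem x).1 hxR⟩ (Subgroup.mem_center_iff.2 fun y => Subtype.ext (hx' y y.2))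
        (fun e => hx1 (by
          have := congrArg Subtype.val e
          simpa [inv_mul_eq_one, mul_assoc] using this))
        ⟨h⁻¹ * z * h, (hmem z).1 hzR⟩ (Subgroup.mem_center_iff.2 fun y => Subtype.ext (hall y y.2))
      have hc' : h⁻¹ * z * h = (h⁻¹ * x * h) ^ c := congrArg Subtype.val hc
      have hzx : z = x ^ c := by
        have e : (h⁻¹ * x * h) ^ c = h⁻¹ * x ^ c * h := by
          have := conj_zpow (a := h⁻¹) (b := x) (i := c)
          rwa [inv_inv] at this
        rw [e, mul_left_inj, mul_right_inj] at hc'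
        exact hc'
      -- hence x is a power of z, so central
      have hle : Subgroup.zpowers z = Subgroup.zpowers x := Subgroup.eq_of_le_of_card_ge
        (Subgroup.zpowers_le.2 ⟨c, hzx.symm⟩) (by rw [Nat.card_zpowers, Nat.card_zpowers, hzo, hxo])
      obtain ⟨d, hd⟩ : x ∈ Subgroup.zpowers z := hle ▸ Subgroup.mem_zpowers x
      apply hxc
      intro y hy
      rw [← hd]
      exact Commute.zpow_right (hzc y hy) d
    obtain ⟨v, hvP, hvx, b, hb, hvz⟩ := htr (h⁻¹ * x * h) (h⁻¹ * z * h) ((hmem x).1 hxR) ((hmem z).1 hzR)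
      (fun e => hx1 (by simpa [inv_mul_eq_one, mul_assoc] using e)) hx' hz'
    obtain ⟨r, hr1, hr2, hr3⟩ := CfsgLib.EqOrderConj.exists_two_element (p := p) (u := u) (v := h * v * h⁻¹)
      (hexp' x hx) (hexp' z hz) (show Commute x z from hzc x hx) ha hb huz hux
      (show h * v * h⁻¹ * x = x * (h * v * h⁻¹) by
        calc h * v * h⁻¹ * x = h * (v * (h⁻¹ * x * h)) * h⁻¹ := by group
          _ = _ := by rw [hvx]; group)
      (by
        have e : (h⁻¹ * x * h) ^ b = h⁻¹ * x ^ b * h := by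
          have := conj_zpow (a := h⁻¹) (b := x) (i := b)
          rwa [inv_inv] at this
        calc h * v * h⁻¹ * z * (h * v * h⁻¹)⁻¹ = h * (v * (h⁻¹ * z * h) * v⁻¹) * h⁻¹ := by group
          _ = z * x ^ b := by rw [hvz, e]; group)
    refine ⟨r, hr1, fun N hN hPN => hr2 N (hPN huP) (hN.conj_mem v (hPN hvP) h), hr3, g⁻¹, ?_⟩
    rw [inv_inv]; exact hxg
  -- a central and a noncentral element
  obtain ⟨x₀, hx₀P, hx₀⟩ : ∃ x ∈ (P : Subgroup G), ¬ ∀ y ∈ (P : Subgroup G), y * x = x * y := by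
    by_contra hall
    push_neg at hall
    exact hnc ⟨⟨fun a b => Subtype.ext (hall b b.2 a a.2)⟩⟩
  obtain ⟨⟨⟨z₀, hz₀P⟩, hz₀c⟩, hz₀1⟩ : ∃ z : Z, z ≠ 1 := by
    haveI : Nontrivial Z := Finite.one_lt_card_iff_nontrivial.1 (by rw [hm]; exact hp.out.one_lt)
    exact exists_ne 1
  have hz₀ne : z₀ ≠ 1 := fun e => hz₀1 (Subtype.ext (Subtype.ext e))
  have hz₀ : ∀ y ∈ (P : Subgroup G), y * z₀ = z₀ * y := fun y hy =>
    congrArg Subtype.val (Subgroup.mem_center_iff.1 hz₀c ⟨y, hy⟩)
  obtain ⟨r₀, hr₀2, hr₀N, hr₀z, -⟩ := hcfg z₀ x₀ hz₀P hx₀P hz₀ne hz₀ hx₀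
  have hzz : ¬ z₀⁻¹ = z₀ := by
    intro e
    have h2 : z₀ ^ 2 = 1 := by rw [pow_two]; exact inv_eq_iff_mul_eq_one.1 e
    have := (orderOf_eq_prime (hexp' z₀ hz₀P) hz₀ne) ▸ orderOf_dvd_of_pow_eq_one h2
    exact hp2 ((Nat.prime_dvd_prime_iff_eq hp.out Nat.prime_two).1 this)
  -- no normal subgroup of odd order contains P
  have hfin : ∀ K : Subgroup G, K.Normal → Odd (Nat.card K) → (P : Subgroup G) ≤ K → False := by
    intro K hK hodd hPK
    have hr := hr₀N K hK hPK
    obtain ⟨k, hk⟩ := hr₀2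
    have h1 : orderOf r₀ ∣ 2 ^ k := orderOf_dvd_of_pow_eq_one hk
    have h2 : orderOf r₀ ∣ Nat.card K := Subgroup.orderOf_dvd_natCard K hr
    have h3 : orderOf r₀ = 1 :=
      Nat.eq_one_of_dvd_coprimes ((Nat.coprime_two_left.2 hodd).pow_left k) h1 h2
    rw [orderOf_eq_one_iff.1 h3] at hr₀z
    simp at hr₀z
    exact hzz hr₀z.symm
  let S : Sylow 2 G := default
  have hS : ∀ r : G, (∃ k : ℕ, r ^ 2 ^ k = 1) → ∃ h : G, h⁻¹ * r * h ∈ (S : Subgroup G) := by
    rintro r ⟨k, hk⟩
    obtain ⟨R, hR⟩ := IsPGroup.exists_le_sylow (p := 2) (P := Subgroup.zpowers r) (by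
      rintro ⟨w, n, rfl⟩
      refine ⟨k, Subtype.ext ?_⟩
      show (r ^ n) ^ 2 ^ k = 1
      rw [← zpow_natCast, ← zpow_mul, mul_comm, zpow_mul, zpow_natCast, hk, one_zpow])
    obtain ⟨h, hh⟩ := MulAction.exists_smul_eq G S R
    refine ⟨h, ?_⟩
    have hr : r ∈ MulAut.conj h • (S : Subgroup G) := by
      have := hR (Subgroup.mem_zpowers r)
      rw [← hh] at this
      exact this
    rwa [Subgroup.mem_pointwise_smul_iff_inv_smul_mem, ← map_inv, MulAut.smul_def, MulAut.conj_apply, inv_inv] at hr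
  rcases CfsgLib.EqOrderConj.structure_of_iso S.2 (iso_by_order hD S) with hc | ⟨-, hel⟩ | ⟨⟨e⟩⟩ | ⟨h22, -⟩
  · -- cyclic Sylow 2-subgroup
    by_cases hev : 2 ∣ Nat.card G
    · have hmin : (Nat.card G).minFac = 2 := (Nat.minFac_eq_two_iff _).2 hev
      have hcompl := IsCyclic.isComplement' (p := 2) (P := S) hmin hc
      set K := (MonoidHom.transferSylow S (IsCyclic.normalizer_le_centralizer (P := S) hmin hc)).ker with hK
      have hKc : K.index = Nat.card (S : Subgroup G) := hcompl.symm.index_eq_card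
      refine hfin K inferInstance ?_ ?_
      · rw [← hcompl.index_eq_card]
        exact Nat.odd_iff.2 (Nat.two_dvd_ne_zero.1 S.not_dvd_index)
      · intro y hy
        rw [← QuotientGroup.eq_one_iff, ← orderOf_eq_one_iff]
        refine Nat.eq_one_of_dvd_coprimes (a := p) (b := Nat.card (S : Subgroup G)) ?_ ?_ ?_
        · obtain ⟨j, hj⟩ := S.2.exists_card_eq
          rw [hj]
          exact Nat.Coprime.pow_right j ((Nat.coprime_primes hp.out Nat.prime_two).2 hp2)
        · refine orderOf_dvd_of_pow_eq_one ?_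
          rw [← QuotientGroup.mk_pow, hexp' y hy, QuotientGroup.mk_one]
        · rw [← hKc]; exact orderOf_dvd_natCard _
    · exact hfin ⊤ inferInstance (by rw [Subgroup.card_top]; exact Nat.odd_iff.2 (by omega)) le_top
  · -- elementary abelian Sylow 2-subgroup
    obtain ⟨h, hh⟩ := hS r₀ hr₀2
    have h2 : (h⁻¹ * r₀ * h) ^ 2 = 1 := congrArg Subtype.val (hel ⟨_, hh⟩)
    have : r₀ * r₀ = 1 := by
      calc r₀ * r₀ = h * (h⁻¹ * r₀ * h) ^ 2 * h⁻¹ := by rw [pow_two]; group
        _ = 1 := by rw [h2]; group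
    rw [this] at hr₀z
    simp at hr₀z
    exact hzz hr₀z.symm
  · -- quaternion Sylow 2-subgroup
    set t : G := ((e.symm (QuaternionGroup.a 2) : (S : Subgroup G)) : G) with ht
    have hsq : ∀ q : QuaternionGroup 2, q * q = 1 ∨ q * q = QuaternionGroup.a 2 := by decide
    have ht2 : orderOf t = 2 := by
      rw [ht, Subgroup.orderOf_coe, MulEquiv.orderOf_eq]
      exact orderOf_eq_prime (by decide) (by decide)
    have huniq : ∀ y : G, y ∈ (S : Subgroup G) → orderOf y = 2 → y = t := by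
      intro y hy hy2
      have h2 : orderOf (e ⟨y, hy⟩) = 2 := by rw [MulEquiv.orderOf_eq, Subgroup.orderOf_mk, hy2]
      have h3 : (e ⟨y, hy⟩ : QuaternionGroup 2) = QuaternionGroup.a 2 :=
        CfsgLib.ZStar.eq_a_n_of_orderOf_two h2
      rw [ht, ← h3, MulEquiv.symm_apply_apply]
    have hiso : Cfsg.IsIsolatedInvolution t := by
      refine CfsgLib.ZStar.isolated_of_sylow S ht2 (SetLike.coe_mem _) fun g hg => huniq _ hg ?_
      rw [← ht2]; exact (orderOf_injective (MulAut.conj g).toMonoidHom (MulAut.conj g).injective t)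
    set K := Cfsg.pPrimeCore 2 G with hK
    haveI hKn : K.Normal := Cfsg.pPrimeCore_normal 2 G
    have hsK : ∀ r z : G, (∃ k : ℕ, r ^ 2 ^ k = 1) → (r * r) * z * (r * r)⁻¹ = z⁻¹ → z⁻¹ ≠ z → z ^ p = 1 → z ∈ K := by
      intro r z hr hrz hne hzp
      obtain ⟨h, hh⟩ := hS r hr
      rcases hsq (e ⟨_, hh⟩) with h1 | h1
      · exfalso
        have h1' : (h⁻¹ * r * h) * (h⁻¹ * r * h) = 1 := by
          have := congrArg e.symm h1
          rw [map_mul, MulEquiv.symm_apply_apply, map_one] at this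
          exact congrArg Subtype.val this
        have : r * r = 1 := by
          calc r * r = h * ((h⁻¹ * r * h) * (h⁻¹ * r * h)) * h⁻¹ := by group
            _ = 1 := by rw [h1']; group
        rw [this] at hrz
        exact hne (by simpa using hrz.symm)
      · have h1' : (h⁻¹ * r * h) * (h⁻¹ * r * h) = t := by
          have := congrArg e.symm h1
          rw [map_mul, MulEquiv.symm_apply_apply] at this
          exact congrArg Subtype.val this
        have hk := hKn.conj_mem _ (CfsgLib.ZStar.zstar hiso (h⁻¹ * z * h)) h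
        have he : h * (t * (h⁻¹ * z * h) * t⁻¹ * (h⁻¹ * z * h)⁻¹) * h⁻¹ = z⁻¹ * z⁻¹ := by
          rw [← h1']
          calc _ = (r * r) * z * (r * r)⁻¹ * z⁻¹ := by group
            _ = _ := by rw [hrz]
        rw [he] at hk
        have hk2 : z ^ 2 ∈ K := by
          rw [pow_two]
          simpa using K.inv_mem hk
        obtain ⟨q, hq⟩ : ∃ q, p = 2 * q + 1 := by
          obtain ⟨q, hq⟩ := hp.out.odd_of_ne_two hp2
          exact ⟨q, hq⟩
        have : z = z ^ p * ((z ^ 2) ^ q)⁻¹ := by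
          rw [hq, pow_succ', pow_mul, mul_assoc, mul_inv_cancel, mul_one]
        rw [this, hzp, one_mul]
        exact K.inv_mem (K.pow_mem hk2 q)
    have hz₀K : z₀ ∈ K := hsK r₀ z₀ hr₀2 hr₀z hzz (hexp' z₀ hz₀P)
    refine hfin K hKn (Nat.coprime_two_right.1 (CfsgLib.PCore.pPrimeCore_coprime 2 G)) fun y hy => ?_
    by_cases hyc : ∀ w ∈ (P : Subgroup G), w * y = y * w
    · obtain ⟨c, hc⟩ := hzgen ⟨z₀, hz₀P⟩ hz₀c (fun e => hz₀ne (congrArg Subtype.val e)) ⟨y, hy⟩
        (Subgroup.mem_center_iff.2 fun w => Subtype.ext (hyc w w.2))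
      have : y = z₀ ^ c := congrArg Subtype.val hc
      rw [this]; exact K.zpow_mem hz₀K c
    · obtain ⟨-, -, -, -, g, k, hg⟩ := hcfg z₀ y hz₀P hy hz₀ne hz₀ hyc
      have := hKn.conj_mem _ (K.zpow_mem hz₀K k) g⁻¹
      rw [← hg] at this
      simpa [mul_assoc] using this
  · exact h22 rfl

/-- Let G be a finite group in which, for every prime p, any two p-subgroups of the same order are conjugate. Then every Sylow subgroup of G is cyclic, elementary abelian, or a quaternion group of order 8. -/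
theorem result {G : Type*} [Group G] [Finite G]
    (hD : ∀ p : ℕ, p.Prime → ∀ H K : Subgroup G, IsPGroup p H → IsPGroup p K → Nat.card H = Nat.card K →
      ∃ g : G, K = H.map (MulAut.conj g).toMonoidHom) {p : ℕ} [Fact p.Prime] (P : Sylow p G) :
    IsCyclic P ∨ Cfsg.IsElementaryAbelian p (P : Subgroup G) ∨ Nonempty ((P : Subgroup G) ≃* QuaternionGroup 2) := by
  rcases CfsgLib.EqOrderConj.structure_of_iso P.2 (iso_by_order hD P) with h | ⟨h1, h2⟩ | h | ⟨hp2, hexp, hnc, hcard⟩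
  · exact Or.inl h
  · exact Or.inr (Or.inl ⟨h1, fun a ha => congrArg Subtype.val (h2 ⟨a, ha⟩)⟩)
  · exact Or.inr (Or.inr h)
  · exact (false_of_cube hD P hp2 hexp hnc hcard).elim

end Cfsg.Agent.S4020
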