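import Cfsg.Statements.S4023
import Mathlib
import Cfsg.Agent.ConjPSub

set_option autoImplicit false
open Cfsg

namespace Cfsg.Agent.S4023

/-- Let p be a prime and G a finite group in which any two p-subgroups of the same order are conjugate, with Sylow p-subgroup P. Then P is cyclic, or elementary abelian, or p = 2 and P is a quaternion group of order 8, or p is odd and P is non-abelian of order p³ and exponent p. -/
theorem result {G : Type*} [Group G] [Finite G]
    {p : ℕ} [Fact p.Prime] (hC : ∀ H K : Subgroup G, IsPGroup p H → IsPGroup p K → Nat.card H = Nat.card K →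
      ∃ g : G, K = H.map (MulAut.conj g).toMonoidHom) (P : Sylow p G) :
    IsCyclic P ∨ Cfsg.IsElementaryAbelian p (P : Subgroup G) ∨
      (p = 2 ∧ Nonempty ((P : Subgroup G) ≃* QuaternionGroup 2)) ∨
      (p ≠ 2 ∧ ¬ IsMulCommutative P ∧ Nat.card P = p ^ 3 ∧ Monoid.exponent P = p) := by
  classical
  have hp := (Fact.out : p.Prime)
  have hiso : ∀ H K : Subgroup ↥(P : Subgroup G), Nat.card H = Nat.card K → Nonempty (H ≃* K) := by
    intro H K h
    have hinj := (P : Subgroup G).subtype_injective
    obtain ⟨g, hg⟩ := hC (H.map (P : Subgroup G).subtype) (K.map (P : Subgroup G).subtype)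
      ((P.2.to_subgroup H).map _) ((P.2.to_subgroup K).map _)
      (by rw [Subgroup.card_map_of_injective hinj, Subgroup.card_map_of_injective hinj, h])
    exact ⟨(H.equivMapOfInjective _ hinj).trans
      (((H.map (P : Subgroup G).subtype).equivMapOfInjective _ (MulAut.conj g).injective).trans
        ((MulEquiv.subgroupCongr hg.symm).trans (K.equivMapOfInjective _ hinj).symm))⟩
  rcases CfsgLib.ConjPSub.main P.2 hiso with h | ⟨h1, h2⟩ | h | h
  · exact Or.inl h
  · exact Or.inr (Or.inl ⟨h1, fun a ha => congrArg Subtype.val (h2 ⟨a, ha⟩)⟩)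
  · exact Or.inr (Or.inr (Or.inl h))
  · exact Or.inr (Or.inr (Or.inr h))

end Cfsg.Agent.S4023
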