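import Cfsg.Statements.S4024
import Mathlib
import Cfsg.Agent.ConjPSub
import Cfsg.Agent.PCore.PSolvable

set_option autoImplicit false
open Cfsg

namespace Cfsg.Agent.S4024

/-- Let p be an odd prime and G a finite group in which any two p-subgroups of the same order are conjugate, with Sylow p-subgroup P. If H is a normal p-solvable subgroup of G whose order is divisible by p, then P is abelian, and either P ≤ H or P is cyclic. -/
theorem result {G : Type*} [Group G] [Finite G]
    {p : ℕ} [Fact p.Prime] (hp : p ≠ 2) (hC : ∀ H K : Subgroup G, IsPGroup p H → IsPGroup p K → Nat.card H = Nat.card K →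
      ∃ g : G, K = H.map (MulAut.conj g).toMonoidHom) (P : Sylow p G)
    (H : Subgroup G) [H.Normal] (hsolv : Cfsg.IsPSolvable p H) (hdiv : p ∣ Nat.card H) :
    IsMulCommutative P ∧ ((P : Subgroup G) ≤ H ∨ IsCyclic P) := by
  classical
  have hpp := (Fact.out : p.Prime)
  have hiso : ∀ A B : Subgroup ↥(P : Subgroup G), Nat.card A = Nat.card B → Nonempty (A ≃* B) := by
    intro A B h
    have hinj := (P : Subgroup G).subtype_injective
    obtain ⟨g, hg⟩ := hC (A.map (P : Subgroup G).subtype) (B.map (P : Subgroup G).subtype)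
      ((P.2.to_subgroup A).map _) ((P.2.to_subgroup B).map _)
      (by rw [Subgroup.card_map_of_injective hinj, Subgroup.card_map_of_injective hinj, h])
    exact ⟨(A.equivMapOfInjective _ hinj).trans
      (((A.map (P : Subgroup G).subtype).equivMapOfInjective _ (MulAut.conj g).injective).trans
        ((MulEquiv.subgroupCongr hg.symm).trans (B.equivMapOfInjective _ hinj).symm))⟩
  set K := Cfsg.pPrimeCore p G with hKdef
  haveI := CfsgLib.PCore.pPrimeCore_characteristic p G
  let π := QuotientGroup.mk' K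
  have hπ : Function.Surjective π := QuotientGroup.mk'_surjective K
  set Hb := H.map π with hHb
  haveI hHbn : Hb.Normal := Subgroup.Normal.map inferInstance _ hπ
  have hKco : (Nat.card K).Coprime p := CfsgLib.PCore.pPrimeCore_coprime p G
  have hne : Hb ≠ ⊥ := by
    intro h0
    rw [hHb, Subgroup.map_eq_bot_iff, QuotientGroup.ker_mk'] at h0
    exact hpp.coprime_iff_not_dvd.1 hKco.symm (hdiv.trans (Subgroup.card_dvd_of_le h0))
  haveI : Nontrivial Hb := (Subgroup.nontrivial_iff_ne_bot _).2 hne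
  have hHs : Cfsg.IsPSolvable p Hb :=
    CfsgLib.PCore.isPSolvable_map hsolv (π.subgroupMap H) (π.subgroupMap_surjective H)
  have hnp : Cfsg.pPrimeCore p Hb = ⊥ := by
    have h1 := CfsgLib.PCore.map_pPrimeCore_normal (p := p) Hb
    rw [CfsgLib.PCore.pPrimeCore_quotient, bot_inf_eq] at h1
    exact (Subgroup.map_eq_bot_iff_of_injective _ Subtype.val_injective).1 h1
  have hpc : Cfsg.pCore p Hb ≠ ⊥ := (CfsgLib.PCore.cores_ne_bot hHs).resolve_right (fun h => h hnp)
  haveI := CfsgLib.PCore.pCore_characteristic p ↥Hb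
  set Tb := (Cfsg.pCore p Hb).map Hb.subtype with hTb
  haveI hTbn : Tb.Normal := ConjAct.normal_of_characteristic_of_normal
  have hTbne : Tb ≠ ⊥ := fun h => hpc ((Subgroup.map_eq_bot_iff_of_injective _ Subtype.val_injective).1 h)
  have hTbp : IsPGroup p Tb := (CfsgLib.PCore.isPGroup_pCore p _).map _
  set N := Tb.comap π ⊓ H with hN
  have hNsurj : Tb ≤ N.map π := by
    intro t ht
    obtain ⟨h, hh, rfl⟩ := Subgroup.map_subtype_le _ ht
    exact ⟨h, ⟨ht, hh⟩, rfl⟩
  have hpN : p ∣ Nat.card N := by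
    obtain ⟨m, hm⟩ := IsPGroup.iff_card.1 hTbp
    have hm0 : m ≠ 0 := fun h => hTbne (Subgroup.eq_bot_of_card_eq _ (by rw [hm, h, pow_zero]))
    exact ((dvd_pow_self p hm0).trans (hm ▸ Subgroup.card_dvd_of_le hNsurj)).trans (N.card_map_dvd π)
  obtain ⟨⟨a, haN⟩, hao⟩ := exists_prime_orderOf_dvd_card' (G := N) p hpN
  rw [Subgroup.orderOf_mk] at hao
  have hclosure : ∀ x : G, x ^ p = 1 → x ∈ N := by
    intro x hx
    by_cases hx1 : x = 1
    · rw [hx1]; exact one_mem _
    obtain ⟨g, hg⟩ := hC (Subgroup.zpowers a) (Subgroup.zpowers x)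
      (IsPGroup.of_card (n := 1) (by rw [Nat.card_zpowers, hao, pow_one]))
      (IsPGroup.of_card (n := 1) (by rw [Nat.card_zpowers, orderOf_eq_prime hx hx1, pow_one]))
      (by rw [Nat.card_zpowers, Nat.card_zpowers, hao, orderOf_eq_prime hx hx1])
    obtain ⟨b, hb, hbx⟩ := (hg ▸ Subgroup.mem_zpowers x : x ∈ (Subgroup.zpowers a).map (MulAut.conj g).toMonoidHom)
    rw [← hbx]
    exact (inferInstance : N.Normal).conj_mem b (Subgroup.zpowers_le.2 haN hb) g
  rcases CfsgLib.ConjPSub.main P.2 hiso with h | ⟨h1, h2⟩ | ⟨h, -⟩ | ⟨-, hnc, hcard, hexp⟩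
  · exact ⟨⟨⟨fun u v => by letI := h.commGroup; exact mul_comm u v⟩⟩, Or.inr h⟩
  · exact ⟨h1, Or.inl fun x hx => (hclosure x (congrArg Subtype.val (h2 ⟨x, hx⟩))).2⟩
  · exact absurd h hp
  exfalso
  apply hnc
  have hexp' : ∀ u : ↥(P : Subgroup G), u ^ p = 1 := fun u => by
    have := Monoid.pow_exponent_eq_one u
    rwa [show Monoid.exponent ↥(P : Subgroup G) = p from hexp] at this
  have hPN : (P : Subgroup G) ≤ N := fun x hx => hclosure x (congrArg Subtype.val (hexp' ⟨x, hx⟩))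
  -- the image of `P` is the normal subgroup `Tb`
  let Pb : Sylow p (G ⧸ K) := P.mapSurjective hπ
  have hPbT : (Pb : Subgroup (G ⧸ K)) = Tb := by
    refine le_antisymm ?_ (hTbp.le_sylow_of_normal Pb)
    rintro _ ⟨x, hx, rfl⟩
    exact (hPN hx).1
  refine ⟨⟨fun u v => ?_⟩⟩
  haveI : Nontrivial ↥(P : Subgroup G) := Finite.one_lt_card_iff_nontrivial.1
    (by rw [show Nat.card ↥(P : Subgroup G) = p ^ 3 from hcard]; exact Nat.one_lt_pow (by norm_num) hpp.one_lt)
  haveI := P.2.center_nontrivial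
  obtain ⟨⟨z, hzc⟩, hz1⟩ := exists_ne (1 : Subgroup.center ↥(P : Subgroup G))
  have hz1' : z ≠ 1 := fun h => hz1 (Subtype.ext h)
  have hu : u ∈ Subgroup.center ↥(P : Subgroup G) := by
    by_cases hu1 : u = 1
    · rw [hu1]; exact one_mem _
    have hzo : orderOf (z : G) = p := by rw [Subgroup.orderOf_coe]; exact orderOf_eq_prime (hexp' z) hz1'
    have huo : orderOf (u : G) = p := by rw [Subgroup.orderOf_coe]; exact orderOf_eq_prime (hexp' u) hu1
    obtain ⟨g, hg⟩ := hC (Subgroup.zpowers (z : G)) (Subgroup.zpowers (u : G))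
      (IsPGroup.of_card (n := 1) (by rw [Nat.card_zpowers, hzo, pow_one]))
      (IsPGroup.of_card (n := 1) (by rw [Nat.card_zpowers, huo, pow_one]))
      (by rw [Nat.card_zpowers, Nat.card_zpowers, hzo, huo])
    obtain ⟨b, hb, hbu⟩ :=
      (hg ▸ Subgroup.mem_zpowers (u : G) : (u : G) ∈ (Subgroup.zpowers (z : G)).map (MulAut.conj g).toMonoidHom)
    obtain ⟨i, rfl⟩ := Subgroup.mem_zpowers_iff.1 hb
    rw [Subgroup.mem_center_iff]
    intro w
    have hc1 : ∀ q ∈ (Pb : Subgroup (G ⧸ K)), Commute q (π ((z : G) ^ i)) := by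
      rintro _ ⟨r, hr, rfl⟩
      have h3 : Commute (⟨r, hr⟩ : ↥(P : Subgroup G)) (z ^ i) :=
        Subgroup.mem_center_iff.1 (zpow_mem hzc i) _
      exact Commute.map (congrArg Subtype.val h3 : r * (z : G) ^ i = (z : G) ^ i * r) π
    have hwb : (π g)⁻¹ * π w * π g ∈ (Pb : Subgroup (G ⧸ K)) := by
      rw [hPbT]
      have h4 : π w ∈ Tb := hPbT ▸ ⟨(w : G), w.2, rfl⟩
      have h11 := hTbn.conj_mem _ h4 (π g)⁻¹
      rwa [inv_inv] at h11
    have h5 := (hc1 _ hwb).eq
    have h6 : π ((w : G) * u) = π (u * w) := by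
      have h7 : π (u : G) = π g * π ((z : G) ^ i) * (π g)⁻¹ := by
        rw [← map_inv, ← map_mul, ← map_mul]; exact congrArg π hbu.symm
      rw [map_mul, map_mul, h7]
      calc π w * (π g * π ((z : G) ^ i) * (π g)⁻¹)
          = π g * ((π g)⁻¹ * π w * π g * π ((z : G) ^ i)) * (π g)⁻¹ := by group
        _ = π g * (π ((z : G) ^ i) * ((π g)⁻¹ * π w * π g)) * (π g)⁻¹ := by rw [h5]
        _ = π g * π ((z : G) ^ i) * (π g)⁻¹ * π w := by group
    have h8 : ((u * w)⁻¹ * (w * u) : ↥(P : Subgroup G)).1 ∈ K := by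
      rw [← QuotientGroup.eq_one_iff (N := K)]
      show π (((u : G) * w)⁻¹ * ((w : G) * u)) = 1
      rw [map_mul, map_inv, h6, inv_mul_cancel]
    have h9 : (P : Subgroup G) ⊓ K = ⊥ := by
      refine Subgroup.inf_eq_bot_of_coprime ?_
      rw [show Nat.card ↥(P : Subgroup G) = p ^ 3 from hcard]
      exact hKco.symm.pow_left 3
    have h10 : ((u * w)⁻¹ * (w * u) : ↥(P : Subgroup G)).1 ∈ (P : Subgroup G) ⊓ K :=
      Subgroup.mem_inf.2 ⟨Subtype.prop _, h8⟩
    rw [h9, Subgroup.mem_bot] at h10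
    exact (inv_mul_eq_one.1 (Subtype.ext h10)).symm
  exact (Subgroup.mem_center_iff.1 hu v).symm

end Cfsg.Agent.S4024
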