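import Cfsg.Statements.S4025
import Cfsg.Agent.EqualSubAffine.Main
import Cfsg.Agent.PCore.Basic
import Cfsg.Agent.SylowConj.Basic

set_option autoImplicit false
open Cfsg

namespace Cfsg.Agent.S4025

/-- The image of a self-centralizing-up-to-`O_{p'}` abelian normal Sylow subgroup is self-centralizing. -/
theorem mem_map_of_commute {N : Type*} [Group N] [Finite N] {p n : ℕ} [hp : Fact p.Prime] (V : Subgroup N) [V.Normal]
    (hVc : IsMulCommutative V) (hcard : Nat.card V = p ^ n) (hcop : (Nat.card V).Coprime V.index)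
    (hdisj : Cfsg.pPrimeCore p N ⊓ V = ⊥) (hpp : ¬ p ∣ V.index) (m : N)
    (hm : ∀ v ∈ V, (QuotientGroup.mk m : N ⧸ Cfsg.pPrimeCore p N) * QuotientGroup.mk v = QuotientGroup.mk v * QuotientGroup.mk m) :
    ∃ v ∈ V, (QuotientGroup.mk v : N ⧸ Cfsg.pPrimeCore p N) = QuotientGroup.mk m := by
  haveI := Cfsg.pPrimeCore_normal p N
  let C := Subgroup.centralizer (V : Set N)
  have hmC : m ∈ C := Subgroup.mem_centralizer_iff.2 fun v hv => by
    have h1 : m * v * m⁻¹ * v⁻¹ ∈ Cfsg.pPrimeCore p N ⊓ V := by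
      refine Subgroup.mem_inf.2 ⟨?_, mul_mem (Subgroup.Normal.conj_mem inferInstance v hv m) (inv_mem hv)⟩
      refine (QuotientGroup.eq_one_iff _).1 ?_
      rw [QuotientGroup.mk_mul, QuotientGroup.mk_mul, QuotientGroup.mk_mul, QuotientGroup.mk_inv,
        QuotientGroup.mk_inv, hm v hv, mul_inv_cancel_right, mul_inv_cancel]
    rw [hdisj, Subgroup.mem_bot, mul_inv_eq_one, mul_inv_eq_iff_eq_mul] at h1
    exact h1.symm
  have hVC : V ≤ C := fun v hv => Subgroup.mem_centralizer_iff.2 fun w hw =>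
    congrArg Subtype.val (hVc.is_comm.comm (⟨w, hw⟩ : V) ⟨v, hv⟩)
  let V' := V.subgroupOf C
  have hV'card : Nat.card V' = Nat.card V := Nat.card_congr (Subgroup.subgroupOfEquivOfLe hVC).toEquiv
  have hV'idx : V'.index ∣ V.index := Subgroup.relIndex_dvd_index_of_le hVC
  haveI : V'.Normal := Subgroup.normal_subgroupOf
  obtain ⟨L, hL⟩ := Subgroup.exists_right_complement'_of_coprime (N := V')
    (hV'card ▸ hcop.coprime_dvd_right hV'idx)
  have hLcard : Nat.card L = V'.index := (hL.symm.index_eq_card).symm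
  have hLp : ¬ p ∣ Nat.card L := fun h => hpp (h.trans (hLcard ▸ hV'idx))
  have hcen : ∀ (v : V') (c : C), Commute (v : C) c := fun v c =>
    Subtype.ext (Subgroup.mem_centralizer_iff.1 c.2 _ v.2)
  have hdec : ∀ c : C, ∃ v : V', ∃ l : L, c = (v : C) * l := fun c => by
    obtain ⟨⟨v, l⟩, h⟩ := hL.2 c
    exact ⟨v, l, h.symm⟩
  -- `L` is the set of `p'`-elements of `C`
  have hchar : ∀ c : C, c ∈ L ↔ c ^ Nat.card L = 1 := by
    intro c
    refine ⟨fun hc => congrArg Subtype.val (pow_card_eq_one' (x := (⟨c, hc⟩ : L))), fun hc => ?_⟩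
    obtain ⟨v, l, rfl⟩ := hdec c
    rw [(hcen v l).mul_pow, ← Subgroup.coe_pow L, pow_card_eq_one', Subgroup.coe_one, mul_one, ← Subgroup.coe_pow] at hc
    have hv : v = 1 := by
      refine orderOf_eq_one_iff.1 (Nat.eq_one_of_dvd_coprimes ?_ (orderOf_dvd_natCard v)
        (orderOf_dvd_of_pow_eq_one (Subtype.ext hc)))
      rw [hV'card, hLcard]
      exact hcop.coprime_dvd_right hV'idx
    subst hv
    simp
  have hLN : (L.map C.subtype).Normal := by
    constructor
    rintro _ ⟨l, hl, rfl⟩ g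
    refine ⟨⟨g * (l : N) * g⁻¹, (inferInstance : C.Normal).conj_mem _ l.2 g⟩, (hchar _).2 (Subtype.ext ?_), rfl⟩
    rw [Subgroup.coe_pow]
    show (g * (l : N) * g⁻¹) ^ Nat.card L = 1
    rw [conj_pow, ← Subgroup.coe_pow, (hchar l).1 hl, Subgroup.coe_one, mul_one, mul_inv_cancel]
  have hLK : L.map C.subtype ≤ Cfsg.pPrimeCore p N := CfsgLib.PCore.le_pPrimeCore_of_not_dvd hLN
    (by rwa [Subgroup.card_map_of_injective C.subtype_injective])
  obtain ⟨v, l, hvl⟩ := hdec ⟨m, hmC⟩
  refine ⟨((v : C) : N), v.2, ?_⟩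
  rw [show m = ((v : C) : N) * ((l : C) : N) from congrArg Subtype.val hvl, QuotientGroup.mk_mul,
    (QuotientGroup.eq_one_iff ((l : C) : N)).2 (hLK ⟨_, l.2, rfl⟩), mul_one]


/-- Let p be a prime and G a finite group in which any two p-subgroups of the same order are conjugate, and suppose a Sylow p-subgroup P of G is elementary abelian of order pⁿ with n ≥ 3. Let N be the normalizer of P and K the largest normal subgroup of N of order prime to p, and assume N/K is solvable. Then either n = 3 and N/K embeds in the one-dimensional semi-affine group over the field with p³ elements (and for p = 2 it is isomorphic to the affine or the semi-affine group over the field with 8 elements), or n = 5, p = 2 and N/K is isomorphic to the one-dimensional semi-affine group over the field with 32 elements. -/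
theorem result {G : Type*} [Group G] [Finite G]
    {p : ℕ} [Fact p.Prime] (hC : ∀ H K : Subgroup G, IsPGroup p H → IsPGroup p K → Nat.card H = Nat.card K →
      ∃ g : G, K = H.map (MulAut.conj g).toMonoidHom) (P : Sylow p G) (n : ℕ) (hn : 3 ≤ n)
    (hel : Cfsg.IsElementaryAbelian p (P : Subgroup G)) (hcard : Nat.card P = p ^ n)
    (N : Subgroup G) (hN : N = Subgroup.normalizer ((P : Subgroup G) : Set G))
    (hsolv : Group.IsSolvable (↥N ⧸ Cfsg.pPrimeCore p ↥N)) :
    (n = 3 ∧ (∃ f : ↥N ⧸ Cfsg.pPrimeCore p ↥N →* ↥(Cfsg.semiaffineGroup (GaloisField p 3)), Function.Injective f) ∧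
      (p = 2 → Nonempty (↥N ⧸ Cfsg.pPrimeCore p ↥N ≃* Cfsg.semiaffineGroup (GaloisField 2 3)) ∨
               Nonempty (↥N ⧸ Cfsg.pPrimeCore p ↥N ≃* Cfsg.affineGroup (GaloisField 2 3)))) ∨
    (n = 5 ∧ p = 2 ∧ Nonempty (↥N ⧸ Cfsg.pPrimeCore p ↥N ≃* Cfsg.semiaffineGroup (GaloisField 2 5))) := by
  subst hN
  set N := Subgroup.normalizer ((P : Subgroup G) : Set G) with hN
  set K := Cfsg.pPrimeCore p ↥N with hK
  haveI : K.Normal := Cfsg.pPrimeCore_normal p _
  have hPN : (P : Subgroup G) ≤ N := Subgroup.le_normalizer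
  let V := (P : Subgroup G).subgroupOf N
  haveI hVn : V.Normal := Subgroup.normal_in_normalizer
  have hVcard : Nat.card V = p ^ n := (Nat.card_congr (Subgroup.subgroupOfEquivOfLe hPN).toEquiv).trans hcard
  have hVidx : V.index ∣ (P : Subgroup G).index := Subgroup.relIndex_dvd_index_of_le hPN
  have hpidx : ¬ p ∣ V.index := fun h => P.not_dvd_index (h.trans hVidx)
  have hcop : (Nat.card V).Coprime V.index := by
    rw [hVcard]
    exact ((Fact.out : p.Prime).coprime_iff_not_dvd.2 hpidx).pow_left n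
  have hVc : IsMulCommutative V := ⟨⟨fun a b => by
    refine Subtype.ext (Subtype.ext ?_)
    show ((a : N) : G) * ((b : N) : G) = ((b : N) : G) * ((a : N) : G)
    exact congrArg Subtype.val (hel.1.is_comm.comm (⟨_, a.2⟩ : (P : Subgroup G)) ⟨_, b.2⟩)⟩⟩
  have hdisj : K ⊓ V = ⊥ := Subgroup.inf_eq_bot_of_coprime (by
    rw [hVcard]; exact (CfsgLib.PCore.pPrimeCore_coprime p _).pow_right n)
  let π := QuotientGroup.mk' K
  have hinj : Set.InjOn π (V : Set N) := fun a ha b hb hab => by
    have : a⁻¹ * b ∈ K ⊓ V := Subgroup.mem_inf.2 ⟨QuotientGroup.eq.1 hab, mul_mem (inv_mem ha) hb⟩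
    rw [hdisj, Subgroup.mem_bot, inv_mul_eq_one] at this
    exact this
  have hcardmap : ∀ U : Subgroup N, U ≤ V → Nat.card (U.map π) = Nat.card U := fun U hU =>
    (Nat.card_congr (Equiv.Set.imageOfInjOn π (U : Set N) (hinj.mono hU))).symm
  let A := V.map π
  haveI : A.Normal := hVn.map π (QuotientGroup.mk'_surjective K)
  have hAcard : Nat.card A = p ^ n := (hcardmap V le_rfl).trans hVcard
  refine CfsgLib.EqualSubAffine.main hn A ?_ ?_ hAcard ?_ hsolv ?_ ?_
  · refine ⟨⟨?_⟩⟩
    rintro ⟨_, a, ha, rfl⟩ ⟨_, b, hb, rfl⟩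
    refine Subtype.ext ?_
    show π a * π b = π b * π a
    rw [← map_mul, ← map_mul]
    exact congrArg π (congrArg Subtype.val (hVc.is_comm.comm (⟨a, ha⟩ : V) ⟨b, hb⟩))
  · rintro _ ⟨a, ha, rfl⟩
    rw [← map_pow, show a ^ p = 1 from Subtype.ext (by rw [Subgroup.coe_pow]; exact hel.2 _ ha), map_one]
  · rw [hAcard, ← hVcard]
    exact hcop.coprime_dvd_right (Subgroup.index_map_dvd V (QuotientGroup.mk'_surjective K))
  · intro q hq
    obtain ⟨m, rfl⟩ := QuotientGroup.mk_surjective q
    obtain ⟨v, hv, he⟩ := mem_map_of_commute V hVc hVcard hcop hdisj hpidx m (fun v hv => hq _ ⟨v, hv, rfl⟩)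
    exact ⟨v, hv, he⟩
  · intro W W' hW hW' hWW
    have hpre : ∀ W : Subgroup (↥N ⧸ K), W ≤ A → (W.comap π ⊓ V).map π = W := by
      intro W hW
      refine le_antisymm ((Subgroup.map_mono inf_le_left).trans (Subgroup.map_comap_le π W)) fun x hx => ?_
      obtain ⟨v, hv, rfl⟩ := hW hx
      exact ⟨v, ⟨hx, hv⟩, rfl⟩
    let U := W.comap π ⊓ V
    let U' := W'.comap π ⊓ V
    have hle : ∀ U : Subgroup N, U ≤ V → U.map N.subtype ≤ (P : Subgroup G) := by
      rintro U hU _ ⟨u, hu, rfl⟩; exact hU hu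
    have hnorm : ∀ U : Subgroup N, U ≤ V →
        (P : Subgroup G) ≤ Subgroup.normalizer ((U.map N.subtype : Subgroup G) : Set G) := by
      intro U hU x hx
      refine Subgroup.centralizer_le_normalizer _ (Subgroup.mem_centralizer_iff.2 fun y hy => ?_)
      exact congrArg Subtype.val (hel.1.is_comm.comm (⟨y, hle U hU hy⟩ : (P : Subgroup G)) ⟨x, hx⟩)
    obtain ⟨g, hg⟩ := hC (U.map N.subtype) (U'.map N.subtype) (P.isPGroup'.to_le (hle U inf_le_right))
      (P.isPGroup'.to_le (hle U' inf_le_right)) (by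
        rw [Subgroup.card_map_of_injective N.subtype_injective, Subgroup.card_map_of_injective N.subtype_injective,
          ← hcardmap U inf_le_right, ← hcardmap U' inf_le_right, hpre W hW, hpre W' hW', hWW])
    obtain ⟨m, hm, hmeq⟩ := CfsgLib.SylowConj.conj_normal_subgroup P _ _ (hnorm U inf_le_right)
      (hnorm U' inf_le_right) g hg.symm
    refine ⟨π ⟨m, hm⟩, ?_⟩
    rw [← hpre W hW, ← hpre W' hW']
    show _ = U'.map π
    rw [← (show U.map (MulAut.conj (⟨m, hm⟩ : N)).toMonoidHom = U' from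
      Subgroup.map_injective N.subtype_injective (by rw [← hmeq, Subgroup.map_map, Subgroup.map_map]; rfl)),
      Subgroup.map_map, Subgroup.map_map]
    congr 1

end Cfsg.Agent.S4025
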