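import Cfsg.Statements.S4028
import Mathlib


set_option autoImplicit false
open Cfsg

namespace Cfsg.Agent.S4028

/-- Let G be a finite group with Sylow 2-subgroup P. Then N_G(⟨x⟩) = C_G(x) holds for every 2-element x of G if and only if N_P(⟨y⟩) = C_P(y) holds for every y ∈ P (computed inside P). -/
theorem result {G : Type*} [Group G] [Finite G] (P : Sylow 2 G) :
    (∀ x : G, (∀ r : ℕ, r.Prime → r ∣ orderOf x → r = 2) →
      Subgroup.normalizer ((Subgroup.zpowers x : Subgroup G) : Set G) ≤ Subgroup.centralizer {x}) ↔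
    (∀ y : ↥(P : Subgroup G), Subgroup.normalizer ((Subgroup.zpowers y : Subgroup ↥(P : Subgroup G)) : Set ↥(P : Subgroup G)) ≤
        Subgroup.centralizer {y}) := by
  haveI : Fact (Nat.Prime 2) := ⟨Nat.prime_two⟩
  constructor
  · intro h y n hn
    rw [Subgroup.mem_centralizer_singleton_iff]
    refine Subtype.ext ?_
    refine Subgroup.mem_centralizer_singleton_iff.1 (h (y : G) ?_ ?_)
    · intro r hr hd
      obtain ⟨k, hk⟩ := IsPGroup.iff_orderOf.1 P.2 y
      rw [Subgroup.orderOf_coe, hk] at hd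
      exact (Nat.prime_dvd_prime_iff_eq hr Nat.prime_two).1 (hr.dvd_of_dvd_pow hd)
    · have he : (Subgroup.zpowers y).map (P : Subgroup G).subtype = Subgroup.zpowers (y : G) :=
        MonoidHom.map_zpowers _ _
      rw [← he]
      exact Subgroup.le_normalizer_map (P : Subgroup G).subtype ⟨n, hn, rfl⟩
  · intro h x hx g hg
    classical
    obtain ⟨a, ha⟩ : ∃ a, orderOf x = 2 ^ a :=
      ⟨_, Nat.eq_prime_pow_of_unique_prime_dvd (orderOf_pos x).ne' fun {r} hr hd => hx r hr hd⟩
    obtain ⟨e, m, hm, hem⟩ := Nat.exists_eq_two_pow_mul_odd (orderOf_pos g).ne'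
    have hnorm : ∀ u ∈ Subgroup.normalizer ((Subgroup.zpowers x : Subgroup G) : Set G),
        ∃ k : ℕ, u * x * u⁻¹ = x ^ k := by
      intro u hu
      have := (Subgroup.mem_normalizer_iff.1 hu x).1 (Subgroup.mem_zpowers x)
      obtain ⟨k, -, hk⟩ := (IsOfFinOrder.mem_zpowers_iff_mem_range_orderOf (isOfFinOrder_of_finite x)).1 this |>
        Finset.mem_image.1
      exact ⟨k, hk.symm⟩
    -- the odd part
    have hgm : ∀ u ∈ Subgroup.normalizer ((Subgroup.zpowers x : Subgroup G) : Set G), ∀ t : ℕ, Odd t → u ^ t = 1 →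
        u * x = x * u := by
      intro u hu t ht hut
      obtain ⟨k, hk⟩ := hnorm u hu
      have hiter : ∀ i : ℕ, u ^ i * x * (u ^ i)⁻¹ = x ^ (k ^ i) := by
        intro i
        induction i with
        | zero => simp
        | succ i ih =>
          rw [pow_succ', show u * u ^ i * x * (u * u ^ i)⁻¹ = u * (u ^ i * x * (u ^ i)⁻¹) * u⁻¹ by group, ih,
            ← conj_pow, hk, ← pow_mul, pow_succ']
      have h1 : x ^ (k ^ t) = x := by rw [← hiter, hut]; simp
      have hmod : ((k : ZMod (orderOf x)) ^ t) = 1 := by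
        have := (pow_eq_pow_iff_modEq (x := x) (n := k ^ t) (m := 1)).1 (by rw [pow_one]; exact h1)
        rw [← ZMod.natCast_eq_natCast_iff] at this
        push_cast at this
        exact this
      have hk1 : (k : ZMod (orderOf x)) = 1 := by
        rcases Nat.eq_zero_or_pos a with h0 | h0
        · have : orderOf x = 1 := by rw [ha, h0, pow_zero]
          haveI : Subsingleton (ZMod (orderOf x)) := by rw [this]; infer_instance
          exact Subsingleton.elim _ _
        let v : (ZMod (orderOf x))ˣ := Units.ofPowEqOne _ t hmod ht.pos.ne'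
        have hv : orderOf v ∣ t := orderOf_dvd_of_pow_eq_one (Units.ext (by simpa [v] using hmod))
        haveI : NeZero (orderOf x) := ⟨(orderOf_pos x).ne'⟩
        have hv2 : orderOf v ∣ 2 ^ (a - 1) := by
          have hd := orderOf_dvd_card (x := v)
          rw [ZMod.card_units_eq_totient] at hd
          have ht : (orderOf x).totient = 2 ^ (a - 1) := by
            rw [ha, Nat.totient_prime_pow Nat.prime_two h0]; simp
          rwa [ht] at hd
        have : orderOf v = 1 := Nat.eq_one_of_dvd_coprimes (Nat.Coprime.pow_left _ ht.coprime_two_left) hv2 hv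
        have := congrArg Units.val (orderOf_eq_one_iff.1 this)
        simpa [v] using this
      have h2 : x ^ k = x := by
        conv_rhs => rw [← pow_one x]
        rw [pow_eq_pow_iff_modEq, ← ZMod.natCast_eq_natCast_iff, hk1, Nat.cast_one]
      rw [h2] at hk
      exact mul_inv_eq_iff_eq_mul.1 hk
    rw [Subgroup.mem_centralizer_singleton_iff]
    -- the two-part
    have hg2 : ∀ u ∈ Subgroup.normalizer ((Subgroup.zpowers x : Subgroup G) : Set G), ∀ s : ℕ, u ^ (2 ^ s) = 1 →
        u * x = x * u := by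
      intro u hu s hus
      have hU : IsPGroup 2 (Subgroup.zpowers u) := by
        obtain ⟨i, -, hi⟩ := (Nat.dvd_prime_pow Nat.prime_two).1 (orderOf_dvd_of_pow_eq_one hus)
        exact IsPGroup.of_card (n := i) (by rw [Nat.card_zpowers, hi])
      have hX : IsPGroup 2 (Subgroup.zpowers x) := IsPGroup.of_card (n := a) (by rw [Nat.card_zpowers, ha])
      obtain ⟨R, hR⟩ := (hU.to_sup_of_normal_right' hX (Subgroup.zpowers_le.2 hu)).exists_le_sylow
      obtain ⟨c, hc⟩ := MulAction.exists_smul_eq G R P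
      have hmem : ∀ v ∈ Subgroup.zpowers u ⊔ Subgroup.zpowers x, c * v * c⁻¹ ∈ (P : Subgroup G) := fun v hv => by
        rw [← hc]; exact ⟨v, hR hv, rfl⟩
      have hxm := hmem x (Subgroup.mem_sup_right (Subgroup.mem_zpowers x))
      have hum := hmem u (Subgroup.mem_sup_left (Subgroup.mem_zpowers u))
      have hn : (⟨_, hum⟩ : P) ∈ Subgroup.normalizer ((Subgroup.zpowers (⟨_, hxm⟩ : P) : Subgroup P) : Set P) := by
        refine Subgroup.mem_normalizer_iff.2 fun k => ?_
        have hz : ∀ (q : P), q ∈ Subgroup.zpowers (⟨_, hxm⟩ : P) ↔ c⁻¹ * (q : G) * c ∈ Subgroup.zpowers x := by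
          intro q
          constructor
          · rintro ⟨i, rfl⟩
            refine ⟨i, ?_⟩
            show x ^ i = c⁻¹ * ((c * x * c⁻¹) ^ i) * c
            rw [conj_zpow]; group
          · rintro ⟨i, hi⟩
            refine ⟨i, Subtype.ext ?_⟩
            show (c * x * c⁻¹) ^ i = (q : G)
            have hi' : x ^ i = c⁻¹ * (q : G) * c := hi
            rw [conj_zpow, hi']; group
        rw [hz, hz]
        show c⁻¹ * (k : G) * c ∈ Subgroup.zpowers x ↔ c⁻¹ * ((c * u * c⁻¹) * (k : G) * (c * u * c⁻¹)⁻¹) * c ∈ Subgroup.zpowers x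
        rw [show c⁻¹ * (c * u * c⁻¹ * (k : G) * (c * u * c⁻¹)⁻¹) * c = u * (c⁻¹ * k * c) * u⁻¹ by group]
        exact Subgroup.mem_normalizer_iff.1 hu _
      have := congrArg Subtype.val (Subgroup.mem_centralizer_singleton_iff.1 (h _ hn))
      simp only [Subgroup.coe_mul] at this
      calc u * x = c⁻¹ * ((c * u * c⁻¹) * (c * x * c⁻¹)) * c := by group
        _ = c⁻¹ * ((c * x * c⁻¹) * (c * u * c⁻¹)) * c := by rw [this]
        _ = x * u := by group
    have hgn : ∀ i : ℕ, g ^ i ∈ Subgroup.normalizer ((Subgroup.zpowers x : Subgroup G) : Set G) :=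
      fun i => Subgroup.pow_mem _ hg i
    have h1 : Commute (g ^ m) x := hg2 _ (hgn m) e (by rw [← pow_mul, mul_comm, ← hem, pow_orderOf_eq_one])
    have h2 : Commute (g ^ 2 ^ e) x := hgm _ (hgn _) m hm (by rw [← pow_mul, ← hem, pow_orderOf_eq_one])
    have hgmem : g ∈ Subgroup.centralizer ({x} : Set G) := by
      have hb := Int.gcd_eq_gcd_ab (m : ℤ) ((2 : ℤ) ^ e)
      have hc1 : Int.gcd (m : ℤ) ((2 : ℤ) ^ e) = 1 := by
        rw [show ((2 : ℤ) ^ e) = ((2 ^ e : ℕ) : ℤ) by push_cast; rfl, Int.gcd_natCast_natCast]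
        exact Nat.Coprime.pow_right _ hm.coprime_two_right
      rw [hc1, Nat.cast_one] at hb
      rw [← zpow_one g, hb, zpow_add, zpow_mul, zpow_mul, zpow_natCast,
        show ((2 : ℤ) ^ e) = ((2 ^ e : ℕ) : ℤ) by push_cast; rfl, zpow_natCast]
      refine Subgroup.mul_mem _ ?_ ?_ <;> rw [Subgroup.mem_centralizer_singleton_iff]
      · exact (h1.zpow_left _).eq
      · exact (h2.zpow_left _).eq
    exact Subgroup.mem_centralizer_singleton_iff.1 hgmem

end Cfsg.Agent.S4028
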