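import Cfsg.Statements.S4029
import Cfsg.Agent.S0160
import Cfsg.Agent.Clifford.RepBasic
import Cfsg.Agent.CharBasics.Ortho
import Cfsg.Agent.CoprimeAction.Frattini
import Mathlib

set_option autoImplicit false
set_option linter.style.haveILetI false
open Cfsg

namespace Cfsg.Agent.S4029

open scoped commutatorElement

/-- Let P be a finite 2-group in which N_P(⟨y⟩) = C_P(y) for every y ∈ P. If s is the number of conjugacy classes of involutions of P, then #(P/Φ(P)) ≤ s + 1; in particular the subgroup generated by the involutions of P has order at least #(P/Φ(P)). -/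
theorem result {P : Type*} [Group P] [Finite P] (hP : IsPGroup 2 P)
    (hirr : ∀ y : P, Subgroup.normalizer ((Subgroup.zpowers y : Subgroup P) : Set P) ≤ Subgroup.centralizer {y}) :
    Nat.card (P ⧸ frattini P) ≤ Nat.card {c : ConjClasses P // ∃ y : P, ConjClasses.mk y = c ∧ orderOf y = 2} + 1 ∧
    Nat.card (P ⧸ frattini P) ≤ Nat.card (Subgroup.closure {y : P | orderOf y = 2}) := by
  classical
  haveI : Fact (Nat.Prime 2) := ⟨Nat.prime_two⟩
  set s := Nat.card {c : ConjClasses P // ∃ y : P, ConjClasses.mk y = c ∧ orderOf y = 2} with hs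
  -- a real class consists of elements of order at most two
  have hreal : ∀ g : P, IsConj g g⁻¹ → g = 1 ∨ orderOf g = 2 := by
    intro g hg
    obtain ⟨h, hh⟩ := isConj_iff.1 hg
    have hn : h ∈ Subgroup.normalizer ((Subgroup.zpowers g : Subgroup P) : Set P) := by
      rw [Subgroup.mem_normalizer_iff]
      have hmap : (Subgroup.zpowers g).map (MulAut.conj h).toMonoidHom = Subgroup.zpowers g := by
        rw [MonoidHom.map_zpowers]
        show Subgroup.zpowers (h * g * h⁻¹) = _
        rw [hh, Subgroup.zpowers_inv]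
      intro z
      conv_rhs => rw [← hmap]
      exact (Subgroup.mem_map_iff_mem (f := (MulAut.conj h).toMonoidHom) (MulAut.conj h).injective).symm
    have hc := Subgroup.mem_centralizer_singleton_iff.1 (hirr g hn)
    have h2 : g * g = 1 := by
      have : g = g⁻¹ := by rw [← hh, hc, mul_inv_cancel_right]
      exact (eq_inv_iff_mul_eq_one.1 this)
    rcases eq_or_ne g 1 with rfl | h1
    · exact Or.inl rfl
    · exact Or.inr (orderOf_eq_prime (by rw [pow_two, h2]) h1)
  have hcls : Nat.card {C : ConjClasses P // ∀ g : P, ConjClasses.mk g = C → IsConj g g⁻¹} ≤ s + 1 := by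
    rw [hs, ← Finite.card_option]
    refine Nat.card_le_card_of_injective (fun C =>
      if h : ∃ y : P, ConjClasses.mk y = C.1 ∧ orderOf y = 2 then some ⟨C.1, h⟩ else none) ?_
    have key : ∀ C : {C : ConjClasses P // ∀ g : P, ConjClasses.mk g = C → IsConj g g⁻¹},
        ¬ (∃ y : P, ConjClasses.mk y = C.1 ∧ orderOf y = 2) → C.1 = ConjClasses.mk 1 := by
      rintro ⟨C, hC⟩ hno
      obtain ⟨y, rfl⟩ := ConjClasses.exists_rep C
      rcases hreal y (hC y rfl) with rfl | h
      · rfl
      · exact absurd ⟨y, rfl, h⟩ hno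
    intro C D hCD
    simp only at hCD
    split_ifs at hCD with h1 h2 h2
    · have h' := Option.some.inj hCD
      exact Subtype.ext (congrArg Subtype.val h' :)
    · exact Subtype.ext ((key C h1).trans (key D h2).symm)
  -- the linear characters of `P / Φ(P)` are real
  have hlin : Nat.card (P ⧸ frattini P) ≤
      Nat.card {χ : Cfsg.IrrCharacter P // ∀ g : P, ((χ : P → ℂ) g).im = 0} := by
    letI : CommGroup (P ⧸ frattini P) :=
      { (inferInstance : Group (P ⧸ frattini P)) with
        mul_comm := by
          intro a b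
          obtain ⟨a, rfl⟩ := QuotientGroup.mk_surjective a
          obtain ⟨b, rfl⟩ := QuotientGroup.mk_surjective b
          rw [← QuotientGroup.mk_mul, ← QuotientGroup.mk_mul, QuotientGroup.eq]
          refine CfsgLib.CoprimeAction.commutator_le_frattini' hP ?_
          have h : (a * b)⁻¹ * (b * a) = ⁅b⁻¹, a⁻¹⁆ := by rw [commutatorElement_def]; group
          rw [h]
          exact Subgroup.commutator_mem_commutator (Subgroup.mem_top _) (Subgroup.mem_top _) }
    obtain ⟨e⟩ := CommGroup.monoidHom_mulEquiv_of_hasEnoughRootsOfUnity (P ⧸ frattini P) ℂ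
    let μ : P ⧸ frattini P → P →* ℂ := fun q =>
      ((Units.coeHom ℂ).comp (e.symm q)).comp (QuotientGroup.mk' (frattini P))
    have him : ∀ q g, (μ q g).im = 0 := by
      intro q g
      have h2 : (QuotientGroup.mk g : P ⧸ frattini P) ^ 2 = 1 := by
        rw [← QuotientGroup.mk_pow, QuotientGroup.eq_one_iff]
        exact CfsgLib.CoprimeAction.pow_mem_frattini hP g
      have h3 : μ q g * μ q g = 1 := by
        show ((e.symm q (QuotientGroup.mk g) : ℂˣ) : ℂ) * (e.symm q (QuotientGroup.mk g) : ℂˣ) = 1
        rw [← Units.val_mul, ← pow_two, ← map_pow, h2, map_one, Units.val_one]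
      rcases mul_self_eq_one_iff.1 h3 with h | h <;> rw [h] <;> simp
    have hirrμ : ∀ q, Cfsg.IsIrrCharacter P (fun g => μ q g) := by
      intro q
      simpa using CfsgLib.Clifford.isIrrCharacter_linear_mul CfsgLib.CharBasics.isIrrCharacter_one (μ q)
    haveI := CfsgLib.CharBasics.finite_irrCharacter (G := P)
    refine Nat.card_le_card_of_injective (fun q => ⟨⟨fun g => μ q g, hirrμ q⟩, him q⟩) ?_
    intro q q' h
    apply e.symm.injective
    refine MonoidHom.ext fun x => ?_
    obtain ⟨g, rfl⟩ := QuotientGroup.mk_surjective x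
    exact Units.ext (congrFun (congrArg Subtype.val (congrArg Subtype.val h)) g)
  have h1 : Nat.card (P ⧸ frattini P) ≤ s + 1 :=
    hlin.trans ((Cfsg.Agent.S0160.result (G := P)).le.trans hcls)
  refine ⟨h1, h1.trans ?_⟩
  rw [hs, ← Finite.card_option]
  refine Nat.card_le_card_of_injective (fun o => o.elim 1 fun C =>
    ⟨C.2.choose, Subgroup.subset_closure C.2.choose_spec.2⟩) ?_
  have hne : ∀ C : {c : ConjClasses P // ∃ y : P, ConjClasses.mk y = c ∧ orderOf y = 2},
      C.2.choose ≠ 1 := fun C e => by
    have h := C.2.choose_spec.2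
    rw [e, orderOf_one] at h
    exact absurd h (by norm_num)
  rintro (_ | C) (_ | D) h
  · rfl
  · exact absurd (congrArg Subtype.val h).symm (hne D)
  · exact absurd (congrArg Subtype.val h) (hne C)
  · have h' : C.2.choose = D.2.choose := congrArg Subtype.val h
    exact congrArg some (Subtype.ext (by rw [← C.2.choose_spec.1, ← D.2.choose_spec.1, h']))

end Cfsg.Agent.S4029
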