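import Cfsg.Statements.S4032
import Mathlib
import Cfsg.Agent.RankOneP.Basic

set_option autoImplicit false
open Cfsg

namespace Cfsg.Agent.S4032

private theorem prime_case {G : Type*} [Group G] [Finite G] (π : Set ℕ)
    (hirr : ∀ x : G, (∀ r : ℕ, r.Prime → r ∣ orderOf x → r ∈ π) →
      Subgroup.normalizer ((Subgroup.zpowers x : Subgroup G) : Set G) ≤ Subgroup.centralizer {x})
    (N : Subgroup G) [N.Normal] (hN : ∀ r : ℕ, r.Prime → r ∣ Nat.card N → r ∉ π)
    {q : ℕ} [Fact q.Prime] (hq : q ∈ π) {k : ℕ} (z g : G ⧸ N) (hz : orderOf z = q ^ k)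
    (hg : g * z * g⁻¹ ∈ Subgroup.zpowers z) : Commute g z := by
  classical
  have hqp := (Fact.out : q.Prime)
  have hcop0 : Nat.Coprime q (Nat.card N) := hqp.coprime_iff_not_dvd.2 fun hd => hN q hqp hd hq
  have hcop : Nat.Coprime (Nat.card N) (q ^ k) := hcop0.symm.pow_right k
  obtain ⟨c, hc⟩ := exists_pow_eq_self_of_coprime (x := z) (hz ▸ hcop : Nat.Coprime (Nat.card N) (orderOf z))
  obtain ⟨x0, hx0⟩ := QuotientGroup.mk_surjective (z ^ c)
  set x := x0 ^ Nat.card N with hx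
  have hxbar : (x : G ⧸ N) = z := by
    rw [hx, QuotientGroup.mk_pow, hx0, ← pow_mul, mul_comm, pow_mul, hc]
  have hxq : x ^ q ^ k = 1 := by
    have h1 : x0 ^ q ^ k ∈ N := by
      rw [← QuotientGroup.eq_one_iff, QuotientGroup.mk_pow, hx0, ← pow_mul, mul_comm, pow_mul, ← hz, pow_orderOf_eq_one, one_pow]
    have h2 := pow_card_eq_one' (x := (⟨x0 ^ q ^ k, h1⟩ : N))
    rw [hx, ← pow_mul, mul_comm, pow_mul]
    exact congrArg Subtype.val h2
  obtain ⟨k', hk', hxo⟩ := (Nat.dvd_prime_pow hqp).1 (orderOf_dvd_of_pow_eq_one hxq)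
  set H : Subgroup G := N ⊔ Subgroup.zpowers x with hH
  have hxH : x ∈ H := Subgroup.mem_sup_right (Subgroup.mem_zpowers x)
  set X : Subgroup H := Subgroup.zpowers ⟨x, hxH⟩ with hX
  have hXc : Nat.card X = q ^ k' := by rw [hX, Nat.card_zpowers, Subgroup.orderOf_mk, hxo]
  have hmapX : X.map H.subtype = Subgroup.zpowers x := by rw [hX, MonoidHom.map_zpowers]; rfl
  have hd : ¬ q ∣ X.index := by
    intro hdv
    have e : X.index = (Subgroup.zpowers x).relIndex H := by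
      rw [Subgroup.relIndex, ← hmapX, Subgroup.subgroupOf,
        Subgroup.comap_map_eq_self_of_injective H.subtype_injective]
    rw [e, hH, sup_comm] at hdv
    have h1 : (Subgroup.zpowers x).relIndex (Subgroup.zpowers x ⊔ N) ∣ Nat.card N := by
      have e1 := Subgroup.relIndex_mul_relIndex (⊥ : Subgroup G) (Subgroup.zpowers x) (Subgroup.zpowers x ⊔ N) bot_le le_sup_left
      rw [Subgroup.relIndex_bot_left, Subgroup.relIndex_bot_left] at e1
      have e2 := Subgroup.relIndex_mul_relIndex (⊥ : Subgroup G) N (Subgroup.zpowers x ⊔ N) bot_le le_sup_right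
      rw [Subgroup.relIndex_bot_left, Subgroup.relIndex_bot_left, Subgroup.relIndex_sup_right] at e2
      have e3 : N.relIndex (Subgroup.zpowers x) ∣ Nat.card (Subgroup.zpowers x) := Subgroup.relIndex_dvd_card _ _
      refine Nat.dvd_of_mul_dvd_mul_left (Nat.card_pos (α := Subgroup.zpowers x)) ?_
      rw [e1, ← e2, mul_comm (Nat.card (Subgroup.zpowers x))]
      exact mul_dvd_mul_left _ e3
    exact hqp.ne_one (Nat.eq_one_of_dvd_coprimes hcop0 dvd_rfl (dvd_trans hdv h1))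
  let P : Sylow q H := (IsPGroup.of_card hXc : IsPGroup q X).toSylow hd
  obtain ⟨g, rfl⟩ := QuotientGroup.mk_surjective g
  have hyH : g * x * g⁻¹ ∈ H := by
    obtain ⟨i, hi⟩ := hg
    have h1 : g * x * g⁻¹ * (x ^ i)⁻¹ ∈ N := by
      rw [← QuotientGroup.eq_one_iff]
      simp only [QuotientGroup.mk_mul, QuotientGroup.mk_inv, QuotientGroup.mk_zpow, hxbar]
      rw [mul_inv_eq_one]
      exact hi.symm
    have := mul_mem (Subgroup.mem_sup_left h1 : _ ∈ H) (zpow_mem hxH i)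
    simpa using this
  have hgo : orderOf (g * x * g⁻¹) = q ^ k' := by rw [← hxo]; exact MulEquiv.orderOf_eq (MulAut.conj g) x
  have hyq : IsPGroup q (Subgroup.zpowers (⟨g * x * g⁻¹, hyH⟩ : H)) := by
    refine IsPGroup.of_card (n := k') ?_
    rw [Nat.card_zpowers, Subgroup.orderOf_mk, hgo]
  obtain ⟨Q, hQ⟩ := hyq.exists_le_sylow
  obtain ⟨h, hh⟩ := MulAction.exists_smul_eq H P Q
  have hmem : (⟨g * x * g⁻¹, hyH⟩ : H) ∈ (Q : Subgroup H) := hQ (Subgroup.mem_zpowers _)
  rw [← hh, Sylow.coe_subgroup_smul, Subgroup.mem_smul_pointwise_iff_exists] at hmem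
  obtain ⟨z', hz', hz2⟩ := hmem
  replace hz' : z' ∈ Subgroup.zpowers (⟨x, hxH⟩ : H) := hz'
  obtain ⟨i, rfl⟩ := hz'
  have hz3 : (h : G) * x ^ i * (h : G)⁻¹ = g * x * g⁻¹ := by simpa using congrArg Subtype.val hz2
  have hconj : ((h : G)⁻¹ * g) * x * ((h : G)⁻¹ * g)⁻¹ = x ^ i := by
    calc ((h : G)⁻¹ * g) * x * ((h : G)⁻¹ * g)⁻¹ = (h : G)⁻¹ * (g * x * g⁻¹) * h := by
          simp only [mul_inv_rev, inv_inv, mul_assoc]
      _ = x ^ i := by rw [← hz3]; simp only [mul_assoc, inv_mul_cancel, mul_one, inv_mul_cancel_left]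
  have hgn : (h : G)⁻¹ * g ∈ Subgroup.normalizer ((Subgroup.zpowers x : Subgroup G) : Set G) := by
    rw [Subgroup.mem_normalizer_iff_map_conj_eq]
    change (Subgroup.zpowers x).map (MulAut.conj ((h : G)⁻¹ * g)).toMonoidHom = _
    refine Subgroup.eq_of_le_of_card_ge ?_ (by
      rw [Subgroup.card_map_of_injective (f := (MulAut.conj ((h : G)⁻¹ * g)).toMonoidHom) (MulAut.conj _).injective])
    rw [MonoidHom.map_zpowers, Subgroup.zpowers_le]
    exact ⟨i, hconj.symm⟩
  have hπ : ∀ r : ℕ, r.Prime → r ∣ orderOf x → r ∈ π := fun r hr hrd => by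
    rw [hxo] at hrd
    rw [(Nat.prime_dvd_prime_iff_eq hr hqp).1 (hr.dvd_of_dvd_pow hrd)]
    exact hq
  have hc1 : Commute ((h : G)⁻¹ * g) x := Subgroup.mem_centralizer_singleton_iff.1 (hirr x hπ hgn)
  have hc2 : Commute ((h : G) : G ⧸ N) z := by
    have h1 : H ≤ (Subgroup.centralizer {z}).comap (QuotientGroup.mk' N) := by
      rw [hH, sup_le_iff, Subgroup.zpowers_le]
      refine ⟨fun n hn => ?_, ?_⟩
      · rw [Subgroup.mem_comap, Subgroup.mem_centralizer_singleton_iff, QuotientGroup.mk'_apply,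
          (QuotientGroup.eq_one_iff n).2 hn, mul_one, one_mul]
      · rw [Subgroup.mem_comap, Subgroup.mem_centralizer_singleton_iff, QuotientGroup.mk'_apply, hxbar]
    exact Subgroup.mem_centralizer_singleton_iff.1 (h1 h.2)
  have hc3 : Commute (((h : G)⁻¹ * g : G) : G ⧸ N) z := by
    rw [← hxbar]
    exact hc1.map (QuotientGroup.mk' N)
  have := hc2.mul_left hc3
  rwa [← QuotientGroup.mk_mul, mul_inv_cancel_left] at this

/-- Let π be a set of primes and G a finite group in which N_G(⟨x⟩) = C_G(x) for every π-element x. If N is a normal subgroup of G whose order is divisible by no prime of π, then G/N has the same property: N_{G/N}(⟨y⟩) = C_{G/N}(y) for every π-element y of G/N. -/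
theorem result {G : Type*} [Group G] [Finite G] (π : Set ℕ)
    (hirr : ∀ x : G, (∀ r : ℕ, r.Prime → r ∣ orderOf x → r ∈ π) →
      Subgroup.normalizer ((Subgroup.zpowers x : Subgroup G) : Set G) ≤ Subgroup.centralizer {x})
    (N : Subgroup G) [N.Normal] (hN : ∀ r : ℕ, r.Prime → r ∣ Nat.card N → r ∉ π) :
    ∀ y : G ⧸ N, (∀ r : ℕ, r.Prime → r ∣ orderOf y → r ∈ π) →
      Subgroup.normalizer ((Subgroup.zpowers y : Subgroup (G ⧸ N)) : Set (G ⧸ N)) ≤ Subgroup.centralizer {y} := by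
  classical
  intro y hy g hg
  rw [Subgroup.mem_centralizer_singleton_iff]
  set Y := Subgroup.zpowers y with hY
  let S : Subgroup Y := (Subgroup.centralizer {g}).subgroupOf Y
  suffices h : S = ⊤ by
    have h1 : (⟨y, Subgroup.mem_zpowers y⟩ : Y) ∈ S := h ▸ Subgroup.mem_top _
    exact (Subgroup.mem_centralizer_singleton_iff.1 h1).symm
  apply Subgroup.eq_top_of_card_eq
  refine Nat.dvd_antisymm (Subgroup.card_subgroup_dvd_card S) ?_
  rw [Nat.dvd_iff_prime_pow_dvd_dvd]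
  intro q k hq hd
  haveI : Fact q.Prime := ⟨hq⟩
  rcases k with _ | k
  · simp
  have hqπ : q ∈ π := by
    refine hy q hq ?_
    rw [← Nat.card_zpowers]
    exact dvd_trans (dvd_pow_self q (by omega)) hd
  obtain ⟨Q, hQ⟩ := Sylow.exists_subgroup_card_pow_prime q hd
  rw [← hQ]
  refine Subgroup.card_dvd_of_le fun z hz => ?_
  obtain ⟨j, hj⟩ := (IsPGroup.iff_orderOf.1 (IsPGroup.of_card hQ)) ⟨z, hz⟩
  rw [Subgroup.orderOf_mk] at hj
  rw [Subgroup.mem_subgroupOf, Subgroup.mem_centralizer_singleton_iff]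
  refine (prime_case π hirr N hN hqπ (z : G ⧸ N) g (k := j) (by rw [Subgroup.orderOf_coe, hj]) ?_).symm
  have hmem : g * (z : G ⧸ N) * g⁻¹ ∈ Y := (Subgroup.mem_normalizer_iff.1 hg _).1 z.2
  have hsub : Subgroup.zpowers (g * (z : G ⧸ N) * g⁻¹) = Subgroup.zpowers (z : G ⧸ N) := by
    haveI : IsCyclic Y := ⟨⟨⟨y, Subgroup.mem_zpowers y⟩, fun w => by
      obtain ⟨i, hi⟩ := w.2
      exact ⟨i, Subtype.ext hi⟩⟩⟩
    have h2 := congrArg (Subgroup.map Y.subtype) (CfsgLib.RankOneP.zpowers_eq_of_orderOf_eq (a := (⟨g * (z : G ⧸ N) * g⁻¹, hmem⟩ : Y)) (b := z) (by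
      rw [Subgroup.orderOf_mk, ← Subgroup.orderOf_coe z]
      exact MulEquiv.orderOf_eq (MulAut.conj g) (z : G ⧸ N)))
    rw [MonoidHom.map_zpowers, MonoidHom.map_zpowers] at h2
    exact h2
  rw [← hsub]
  exact Subgroup.mem_zpowers _

end Cfsg.Agent.S4032
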