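import Cfsg.Statements.S4034
import Cfsg.Agent.ClassSize.PPowerIndex

set_option autoImplicit false
open Cfsg

namespace Cfsg.Agent.S4034

/-- Let G be a finite group and p a prime. Every conjugacy class of p-regular elements of G (elements of order prime to p) has p-power size if and only if G has an abelian p-complement, i.e. an abelian subgroup of order prime to p and p-power index. -/
theorem result {G : Type*} [Group G] [Finite G] {p : ℕ} (hp : p.Prime) :
    (∀ x : G, (orderOf x).Coprime p → ∃ k : ℕ, (ConjClasses.mk x).carrier.ncard = p ^ k) ↔
    (∃ H : Subgroup G, IsMulCommutative H ∧ ¬ p ∣ Nat.card H ∧ ∃ k : ℕ, H.index = p ^ k) := by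
  constructor
  · intro h
    exact CfsgLib.ClassSize.exists_abelian_complement hp fun x hx => by
      simpa [CfsgLib.ClassSize.index_centralizer_eq_ncard] using h x hx
  · rintro ⟨H, hH, -, k, hk⟩ x hx
    haveI := hH
    simpa [CfsgLib.ClassSize.index_centralizer_eq_ncard] using
      CfsgLib.ClassSize.pRegPPow_of_complement hp H hk x hx

end Cfsg.Agent.S4034
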