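import Cfsg.Statements.S4036
import Mathlib


set_option autoImplicit false
open Cfsg

namespace Cfsg.Agent.S4036

/-- Let P be a finite abelian p-group and K a group of automorphisms of P (a subgroup of Aut P) whose order is divisible by p. If all non-identity elements of K have the same fixed-point subgroup on P, then K has no non-trivial normal subgroup of order prime to p. -/
theorem result {P : Type*} [CommGroup P] [Finite P] {p : ℕ}
    [Fact p.Prime] (hP : IsPGroup p P) (K : Subgroup (MulAut P)) (hK : p ∣ Nat.card K)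
    (hfix : ∀ x y : MulAut P, x ∈ K → y ∈ K → x ≠ 1 → y ≠ 1 → ∀ v : P, x v = v ↔ y v = v) :
    ∀ N : Subgroup ↥K, N.Normal → ¬ p ∣ Nat.card N → N = ⊥ := by
  intro N hN hNp
  classical
  have := Fintype.ofFinite N
  let π : P →* P :=
    { toFun := fun v => ∏ n : N, (n.1 : MulAut P) v
      map_one' := Finset.prod_eq_one fun n _ => map_one _
      map_mul' := fun v w => by simp only [map_mul, Finset.prod_mul_distrib] }
  have hπ : ∀ v, π v = ∏ n : N, (n.1 : MulAut P) v := fun v => rfl
  have hinvar : ∀ (x : K) (v : P), π v = 1 → π ((x : MulAut P) v) = 1 := by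
    intro x v hv
    let c : N ≃ N :=
      { toFun := fun n => ⟨x * n * x⁻¹, hN.conj_mem _ n.2 x⟩
        invFun := fun n => ⟨x⁻¹ * n * x, by simpa using hN.conj_mem _ n.2 x⁻¹⟩
        left_inv := fun n => Subtype.ext (show x⁻¹ * (x * n * x⁻¹) * x = n by group)
        right_inv := fun n => Subtype.ext (show x * (x⁻¹ * n * x) * x⁻¹ = n by group) }
    have h1 : (x : MulAut P) (π v) = π ((x : MulAut P) v) := by
      rw [hπ, hπ, map_prod]
      refine Fintype.prod_equiv c _ _ fun n => ?_
      show (x : MulAut P) ((n.1 : MulAut P) v) = ((x * n * x⁻¹ : K) : MulAut P) ((x : MulAut P) v)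
      simp [MulAut.mul_apply]
    rw [← h1, hv, map_one]
  by_contra hne
  obtain ⟨n, hnN, hn1⟩ := (Subgroup.bot_or_exists_ne_one N).resolve_left hne
  have hn1' : (n : MulAut P) ≠ 1 := fun e => hn1 (Subtype.ext e)
  obtain ⟨w, hw⟩ : ∃ w, (n : MulAut P) w ≠ w := by
    by_contra hall
    push Not at hall
    exact hn1' (MulEquiv.ext hall)
  -- no element of the kernel is fixed by `N`
  have hkerfix : ∀ v, π v = 1 → (∀ m : N, (m.1 : MulAut P) v = v) → v = 1 := by
    intro v hv hfv
    rw [hπ, Finset.prod_congr rfl (fun m _ => hfv m), Finset.prod_const, Finset.card_univ,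
      ← Nat.card_eq_fintype_card] at hv
    obtain ⟨k, hk⟩ := IsPGroup.iff_orderOf.1 hP v
    have h1 : orderOf v ∣ Nat.card N := orderOf_dvd_of_pow_eq_one hv
    rw [hk] at h1
    rcases Nat.eq_zero_or_pos k with h0 | h0
    · rw [h0, pow_zero] at hk; exact orderOf_eq_one_iff.1 hk
    · exact absurd ((dvd_pow_self p h0.ne').trans h1) hNp
  have hMne : w * ((n : MulAut P) w)⁻¹ ≠ 1 := fun e => hw (mul_inv_eq_one.1 e).symm
  have hMmem : π (w * ((n : MulAut P) w)⁻¹) = 1 := by
    rw [map_mul, map_inv, mul_inv_eq_one]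
    refine (Fintype.prod_equiv (Equiv.mulRight (⟨n, hnN⟩ : N)) (fun m : N => (m.1 : MulAut P) ((n : MulAut P) w))
      (fun m : N => (m.1 : MulAut P) w) fun m => rfl).symm
  obtain ⟨x, hx⟩ := exists_prime_orderOf_dvd_card' p hK
  have hxp : IsPGroup p (Subgroup.zpowers x) := IsPGroup.of_card (n := 1) (by rw [Nat.card_zpowers, hx, pow_one])
  let M := π.ker
  letI act : MulAction (Subgroup.zpowers x) M :=
    { smul := fun k v => ⟨((k.1 : K) : MulAut P) v, hinvar k.1 v v.2⟩
      one_smul := fun v => Subtype.ext rfl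
      mul_smul := fun k l v => Subtype.ext rfl }
  have hMp : p ∣ Nat.card M := by
    obtain ⟨k, hk⟩ := (hP.to_subgroup M).exists_card_eq
    rcases Nat.eq_zero_or_pos k with h0 | h0
    · exfalso
      rw [h0, pow_zero, Subgroup.card_eq_one] at hk
      exact hMne (Subgroup.mem_bot.1 (hk ▸ (MonoidHom.mem_ker.2 hMmem : _ ∈ M)))
    · exact hk ▸ dvd_pow_self p h0.ne'
  obtain ⟨b, hb, hb1⟩ := hxp.exists_fixed_point_of_prime_dvd_card_of_fixed_point M hMp
    (a := (1 : M)) (fun k => Subtype.ext (map_one _))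
  have hx1 : (x : MulAut P) ≠ 1 := fun e => by
    have : x = 1 := Subtype.ext e
    rw [this, orderOf_one] at hx
    exact (Fact.out : p.Prime).ne_one hx.symm
  refine hb1 (Subtype.ext (hkerfix b b.2 fun m => ?_).symm)
  by_cases hm : (m.1 : MulAut P) = 1
  · rw [hm]; rfl
  · exact (hfix _ _ x.2 m.1.2 hx1 hm b).1 (congrArg Subtype.val (hb ⟨x, Subgroup.mem_zpowers x⟩))

end Cfsg.Agent.S4036
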