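import Cfsg.Statements.S4039
import Cfsg.Agent.ZJ.NilpotentMaximal
-- import your own Cfsg.Agent.* helpers here

set_option autoImplicit false
open Cfsg

namespace Cfsg.Agent.S4039

/-- A finite group possessing a maximal subgroup that is nilpotent of class at most 2 is solvable. -/
theorem result {G : Type*} [Group G] [Finite G]
    (M : Subgroup G) (hmax : IsCoatom M) (hnil : Group.IsNilpotent M) (hcl : Group.nilpotencyClass ↥M ≤ 2) :
    Group.IsSolvable G := CfsgLib.ZJ.isSolvable_of_nilpotent_maximal_class_two hmax hnil hcl

end Cfsg.Agent.S4039
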