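import Cfsg.Statements.S4043
import Mathlib
import Cfsg.Agent.CoprimeAction.Conjugacy

set_option autoImplicit false
open Cfsg

namespace Cfsg.Agent.S4043

open scoped Pointwise

/-- The normal `p`-complement of a complement, as a subgroup of the whole group. -/
theorem pcomplement_data {G : Type*} [Group G] [Finite G] {p : ℕ} [hp : Fact p.Prime] (A : Subgroup G)
    (hA : Cfsg.HasNormalPComplement p A) :
    ∃ K : Subgroup G, K ≤ A ∧ A ≤ Subgroup.normalizer (K : Set G) ∧ ¬ p ∣ Nat.card K ∧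
      ∃ a : ℕ, Nat.card A = Nat.card K * p ^ a ∧ ∀ x ∈ A, x ^ p ^ a ∈ K := by
  obtain ⟨P, Kc, hKn, hc⟩ := hA
  obtain ⟨a, ha⟩ := IsPGroup.iff_card.mp P.isPGroup'
  have hcard := hc.card_mul
  have hidx : Kc.index = p ^ a := by rw [← ha]; exact hc.symm.index_eq_card
  refine ⟨Kc.map A.subtype, Subgroup.map_subtype_le _, ?_, ?_, a, ?_, fun x hx => ?_⟩
  · intro x hx
    rw [Subgroup.mem_normalizer_iff_map_conj_eq]
    have h := congrArg (Subgroup.map A.subtype)
      (Subgroup.mem_normalizer_iff_map_conj_eq.mp (by rw [Subgroup.normalizer_eq_top Kc]; trivial :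
        (⟨x, hx⟩ : A) ∈ Subgroup.normalizer (Kc : Set A)))
    rw [Subgroup.map_map] at h ⊢
    exact h
  · rw [Subgroup.card_map_of_injective A.subtype_injective]
    intro hd
    apply P.not_dvd_index
    rw [hc.index_eq_card]
    exact hd
  · rw [Subgroup.card_map_of_injective A.subtype_injective, ← ha, hcard]
  · refine ⟨⟨x, hx⟩ ^ p ^ a, ?_, by simp⟩
    rw [← hidx]
    exact Kc.pow_index_mem _

/-- The product of the `p`-complement with `N`. -/
theorem sup_data {G : Type*} [Group G] [Finite G] {p : ℕ} [hp : Fact p.Prime] (N : Subgroup G) [N.Normal]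
    (hN : IsPGroup p N) (A K : Subgroup G) (hA : A.IsComplement' N) (hKA : K ≤ A)
    (hAK : A ≤ Subgroup.normalizer (K : Set G)) (hpK : ¬ p ∣ Nat.card K) {a : ℕ}
    (hAcard : Nat.card A = Nat.card K * p ^ a) :
    (K ⊔ N).Normal ∧ (K ⊔ N).index = p ^ a ∧ (Nat.card K).Coprime (Nat.card N) := by
  have hco : (Nat.card K).Coprime (Nat.card N) := by
    obtain ⟨n, hn⟩ := IsPGroup.iff_card.mp hN
    rw [hn]
    exact (hp.out.coprime_iff_not_dvd.mpr hpK).symm.pow_right n
  have hnorm : (K ⊔ N).Normal := by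
    rw [← Subgroup.normalizer_eq_top_iff, ← top_le_iff, ← hA.sup_eq_top, sup_le_iff]
    refine ⟨?_, le_sup_right.trans Subgroup.le_normalizer⟩
    intro x hx
    rw [Subgroup.mem_normalizer_iff_map_conj_eq, Subgroup.map_sup,
      Subgroup.mem_normalizer_iff_map_conj_eq.mp (hAK hx)]
    congr 1
    exact Subgroup.mem_normalizer_iff_map_conj_eq.mp (by rw [Subgroup.normalizer_eq_top N]; trivial)
  have hcard : Nat.card ↥(K ⊔ N) = Nat.card K * Nat.card N := by
    have hc : (K.subgroupOf (K ⊔ N)).IsComplement' (N.subgroupOf (K ⊔ N)) := by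
      refine Subgroup.isComplement'_of_disjoint_and_mul_eq_univ ?_ ?_
      · rw [disjoint_iff, Subgroup.eq_bot_iff_forall]
        intro x hx
        exact Subtype.ext (Subgroup.mem_bot.mp ((Subgroup.inf_eq_bot_of_coprime hco) ▸ (⟨hx.1, hx.2⟩ : (x : G) ∈ K ⊓ N)))
      · refine Set.eq_univ_of_forall fun x => ?_
        obtain ⟨k, hk, n, hn, e⟩ := Subgroup.mem_sup_of_normal_right.mp x.2
        exact ⟨⟨k, Subgroup.mem_sup_left hk⟩, hk, ⟨n, Subgroup.mem_sup_right hn⟩, hn, Subtype.ext e⟩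
    rw [← hc.card_mul, Nat.card_congr (Subgroup.subgroupOfEquivOfLe le_sup_left).toEquiv,
      Nat.card_congr (Subgroup.subgroupOfEquivOfLe le_sup_right).toEquiv]
  refine ⟨hnorm, ?_, hco⟩
  have h := (K ⊔ N).card_mul_index
  rw [hcard, ← hA.card_mul, hAcard] at h
  refine Nat.eq_of_mul_eq_mul_left (Nat.mul_pos (Nat.card_pos (α := K)) (Nat.card_pos (α := N))) (h.trans ?_)
  ring

/-- Let G be a finite group that is the semidirect product of a normal p-subgroup N by a subgroup A, and also of N by a subgroup A₁, where p is a prime and A and A₁ both have normal p-complements. If C_N(A) = C_N(A₁) = 1, then A₁ is conjugate to A by an element of N. -/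
theorem result {G : Type*} [Group G] [Finite G] {p : ℕ}
    [Fact p.Prime] (N : Subgroup G) [N.Normal] (hN : IsPGroup p N) (A A₁ : Subgroup G)
    (hA : A.IsComplement' N) (hA₁ : A₁.IsComplement' N)
    (hAp : Cfsg.HasNormalPComplement p A) (hA₁p : Cfsg.HasNormalPComplement p A₁)
    (hC : ∀ n : G, n ∈ N → (∀ a : G, a ∈ A → a * n * a⁻¹ = n) → n = 1)
    (hC₁ : ∀ n : G, n ∈ N → (∀ a : G, a ∈ A₁ → a * n * a⁻¹ = n) → n = 1) :
    ∃ n : G, n ∈ N ∧ A₁ = A.map (MulAut.conj n).toMonoidHom := by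
  classical
  have hp := (Fact.out : p.Prime)
  obtain ⟨K, hKA, hAK, hpK, a, hAcard, hApow⟩ := pcomplement_data A hAp
  obtain ⟨K₁, hK₁A, hA₁K, hpK₁, a₁, hA₁card, hA₁pow⟩ := pcomplement_data A₁ hA₁p
  obtain ⟨hMn, hMi, hco⟩ := sup_data N hN A K hA hKA hAK hpK hAcard
  obtain ⟨hM₁n, hM₁i, hco₁⟩ := sup_data N hN A₁ K₁ hA₁ hK₁A hA₁K hpK₁ hA₁card
  set M := K ⊔ N with hM
  have hle : K₁ ≤ M := by
    intro x hx
    haveI := hMn
    have h1 : (x : G ⧸ M) ^ p ^ a = 1 := by
      rw [← QuotientGroup.mk_pow, QuotientGroup.eq_one_iff, ← hMi]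
      exact M.pow_index_mem x
    have h2 : (x : G ⧸ M) ^ Nat.card K₁ = 1 := by
      rw [← QuotientGroup.mk_pow, show x ^ Nat.card K₁ = 1 from
        congrArg Subtype.val (pow_card_eq_one' (G := K₁) (x := ⟨x, hx⟩)), QuotientGroup.mk_one]
    have h3 := Nat.eq_one_of_dvd_coprimes ((hp.coprime_iff_not_dvd.mpr hpK₁).pow_left a)
      (orderOf_dvd_of_pow_eq_one h1) (orderOf_dvd_of_pow_eq_one h2)
    rwa [orderOf_eq_one_iff, QuotientGroup.eq_one_iff] at h3
  have hcardeq : Nat.card K₁ = Nat.card K := by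
    have h : Nat.card K * p ^ a = Nat.card K₁ * p ^ a₁ := by
      rw [← hAcard, ← hA₁card]
      have h1 := hA.card_mul
      rw [← hA₁.card_mul] at h1
      exact Nat.eq_of_mul_eq_mul_right Nat.card_pos h1
    refine Nat.dvd_antisymm ?_ ?_
    · exact ((hp.coprime_iff_not_dvd.mpr hpK₁).pow_left a).symm.dvd_of_dvd_mul_right (h ▸ dvd_mul_right _ _)
    · exact ((hp.coprime_iff_not_dvd.mpr hpK).pow_left a₁).symm.dvd_of_dvd_mul_right (h ▸ dvd_mul_right _ _)
  -- conjugate the complements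
  obtain ⟨n, hn, hnK⟩ : ∃ n ∈ N, MulAut.conj n • K = K₁ := by
    have hNc : (Nat.card (N.subgroupOf M)) = Nat.card N := Nat.card_congr (Subgroup.subgroupOfEquivOfLe le_sup_right).toEquiv
    have hidx : (N.subgroupOf M).index = Nat.card K := by
      show N.relIndex (K ⊔ N) = _
      rw [Subgroup.relIndex_sup_right, ← Subgroup.inf_relIndex_right, Subgroup.inf_eq_bot_of_coprime hco.symm,
        Subgroup.relIndex_bot_left]
    have hcomp : ∀ L : Subgroup G, L ≤ M → Nat.card L = Nat.card K →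
        (N.subgroupOf M).IsComplement' (L.subgroupOf M) := by
      intro L hL hc
      have hLc : Nat.card (L.subgroupOf M) = Nat.card K :=
        (Nat.card_congr (Subgroup.subgroupOfEquivOfLe hL).toEquiv).trans hc
      refine Subgroup.isComplement'_of_coprime ?_ ?_
      · rw [hLc, ← hidx, Subgroup.card_mul_index]
      · rw [hLc, hNc]; exact hco.symm
    haveI : Group.IsNilpotent (N.subgroupOf M) := (hN.of_equiv (Subgroup.subgroupOfEquivOfLe le_sup_right).symm).isNilpotent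
    obtain ⟨⟨n, hnM⟩, hn, he⟩ := CfsgLib.CoprimeAction.complement_conj' (N.subgroupOf M)
      (by rw [hNc, hidx]; exact hco.symm) (Or.inl inferInstance) (hcomp K le_sup_left rfl) (hcomp K₁ hle hcardeq)
    refine ⟨n, hn, Subgroup.eq_of_le_of_card_ge ?_ ?_⟩
    · rintro _ ⟨k, hk, rfl⟩
      have hkm : (⟨k, Subgroup.mem_sup_left hk⟩ : M) ∈ K.subgroupOf M := hk
      have := Subgroup.smul_mem_pointwise_smul _ (MulAut.conj (⟨n, hnM⟩ : M)) _ hkm
      rw [he] at this
      exact this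
    · rw [hcardeq]
      exact (Subgroup.card_map_of_injective (MulAut.conj n).injective).ge
  -- the normalizer of the complement
  set K' := MulAut.conj n • K with hK'
  set A' := MulAut.conj n • A with hA'
  have hA'K : A' ≤ Subgroup.normalizer (K' : Set G) := by
    rintro _ ⟨x, hx, rfl⟩
    exact (Subgroup.le_normalizer_map (MulAut.conj n).toMonoidHom) ⟨x, hAK hx, rfl⟩
  have hdisj : ∀ x ∈ N, x ∈ K₁ → x = 1 := fun x hx hx' =>
    Subgroup.disjoint_def.mp hA₁.disjoint (hK₁A hx') hx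
  set D : Subgroup G := N ⊓ Subgroup.centralizer (K₁ : Set G) with hD
  have hND : ∀ x ∈ N, x ∈ Subgroup.normalizer (K₁ : Set G) → x ∈ D := by
    intro x hxN hx
    refine ⟨hxN, Subgroup.mem_centralizer_iff.mpr fun k hk => ?_⟩
    have h1 : x * k * x⁻¹ * k⁻¹ ∈ K₁ := mul_mem ((Subgroup.mem_normalizer_iff.mp hx k).mp hk) (inv_mem hk)
    have h2 : x * k * x⁻¹ * k⁻¹ ∈ N := by
      have e : x * k * x⁻¹ * k⁻¹ = x * (k * x⁻¹ * k⁻¹) := by group
      rw [e]; exact mul_mem hxN ((inferInstance : N.Normal).conj_mem _ (inv_mem hxN) k)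
    have h3 := hdisj _ h2 h1
    rw [mul_inv_eq_one, mul_inv_eq_iff_eq_mul] at h3
    exact h3.symm
  have hfix : ∀ x : G, x ∈ N → (∀ b : G, b ∈ A' → b * x * b⁻¹ = x) → x = 1 := by
    intro x hx hb
    have e := hC (n⁻¹ * x * n) (by simpa using (inferInstance : N.Normal).conj_mem x hx n⁻¹) (fun b hb' => by
      have h1 := hb (n * b * n⁻¹) ⟨b, hb', rfl⟩
      calc b * (n⁻¹ * x * n) * b⁻¹ = n⁻¹ * ((n * b * n⁻¹) * x * (n * b * n⁻¹)⁻¹) * n := by group
        _ = n⁻¹ * x * n := by rw [h1])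
    calc x = n * (n⁻¹ * x * n) * n⁻¹ := by group
      _ = 1 := by rw [e]; group
  have hA'N : ∀ b ∈ A', ∀ x ∈ D, b * x * b⁻¹ ∈ D := by
    intro b hb x hx
    refine ⟨(inferInstance : N.Normal).conj_mem x hx.1 b, Subgroup.mem_centralizer_iff.mpr fun k hk => ?_⟩
    have hk' : b⁻¹ * k * b ∈ K₁ := by
      rw [← hnK] at hk ⊢
      exact (Subgroup.mem_normalizer_iff''.mp (hA'K hb) k).mp hk
    have h := Subgroup.mem_centralizer_iff.mp hx.2 _ hk'
    calc k * (b * x * b⁻¹) = b * ((b⁻¹ * k * b) * x) * b⁻¹ := by group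
      _ = b * (x * (b⁻¹ * k * b)) * b⁻¹ := by rw [h]
      _ = _ := by group
  letI : MulAction A' D :=
    { smul := fun b x => ⟨(b : G) * x * (b : G)⁻¹, hA'N b b.2 x x.2⟩
      one_smul := fun x => Subtype.ext (by show (1 : G) * x * (1 : G)⁻¹ = x; simp)
      mul_smul := fun b c x => Subtype.ext (by
        show ((b : G) * c) * x * ((b : G) * c)⁻¹ = (b : G) * ((c : G) * x * (c : G)⁻¹) * (b : G)⁻¹
        group) }
  have hD1 : D = ⊥ := by
    let act : A' →* Equiv.Perm D := MulAction.toPermHom A' D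
    have hrange : IsPGroup p act.range := by
      rintro ⟨_, ⟨⟨_, b, hb, rfl⟩, rfl⟩⟩
      refine ⟨a, Subtype.ext ?_⟩
      rw [Subgroup.coe_pow, ← map_pow]
      refine Equiv.ext fun x => Subtype.ext ?_
      show ((MulAut.conj n b) ^ p ^ a) * (x : G) * ((MulAut.conj n b) ^ p ^ a)⁻¹ = x
      have hmem : (MulAut.conj n b) ^ p ^ a ∈ K₁ := by
        rw [← map_pow, ← hnK]
        exact ⟨_, hApow b hb, rfl⟩
      exact mul_inv_eq_iff_eq_mul.mpr (Subgroup.mem_centralizer_iff.mp x.2.2 _ hmem)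
    by_contra hne
    have hdvd : p ∣ Nat.card D := by
      obtain ⟨k, hk⟩ := IsPGroup.iff_card.mp (hN.to_le (inf_le_left : D ≤ N))
      rcases k with _ | k
      · exact absurd (Subgroup.card_eq_one.mp (hk.trans (pow_zero p))) hne
      · exact hk ▸ dvd_pow_self p (Nat.succ_ne_zero k)
    obtain ⟨x, hx, hx1⟩ := hrange.exists_fixed_point_of_prime_dvd_card_of_fixed_point D hdvd
      (a := (1 : D)) (fun f => by
        obtain ⟨_, b, rfl⟩ := f
        exact Subtype.ext (by show (b : G) * 1 * (b : G)⁻¹ = 1; simp))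
    apply hx1
    refine Subtype.ext (hfix x x.2.1 fun b hb => ?_).symm
    exact congrArg Subtype.val (hx ⟨act ⟨b, hb⟩, ⟨_, rfl⟩⟩)
  refine ⟨n, hn, ?_⟩
  have hle' : A₁ ≤ A' := by
    intro x hx
    have hcompl : A'.IsComplement' N := by
      refine Subgroup.isComplement'_of_disjoint_and_mul_eq_univ ?_ ?_
      · rw [disjoint_iff, Subgroup.eq_bot_iff_forall]
        rintro _ ⟨⟨b, hb, rfl⟩, hbN⟩
        have hbN' : n * b * n⁻¹ ∈ N := hbN
        have hbN2 : b ∈ N := by
          have := (inferInstance : N.Normal).conj_mem _ hbN' n⁻¹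
          simpa [mul_assoc] using this
        show n * b * n⁻¹ = 1
        rw [Subgroup.disjoint_def.mp hA.disjoint hb hbN2, mul_one, mul_inv_cancel]
      · refine Set.eq_univ_of_forall fun g => ?_
        obtain ⟨b, hb, m, hm, e⟩ : n⁻¹ * g * n ∈ ((A : Set G) * (N : Set G)) := by rw [hA.mul_eq]; trivial
        refine ⟨n * b * n⁻¹, ⟨b, hb, rfl⟩, n * m * n⁻¹, (inferInstance : N.Normal).conj_mem m hm n, ?_⟩
        show n * b * n⁻¹ * (n * m * n⁻¹) = g
        calc n * b * n⁻¹ * (n * m * n⁻¹) = n * (b * m) * n⁻¹ := by group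
          _ = n * (n⁻¹ * g * n) * n⁻¹ := by rw [show b * m = n⁻¹ * g * n from e]
          _ = g := by group
    obtain ⟨b, hb, m, hm, e⟩ : x ∈ ((A' : Set G) * (N : Set G)) := by rw [hcompl.mul_eq]; trivial
    have hmK : m ∈ Subgroup.normalizer (K₁ : Set G) := by
      have : m = b⁻¹ * x := by rw [← e]; simp
      rw [this]
      exact mul_mem (inv_mem (hnK ▸ hA'K hb)) (hA₁K hx)
    have hm1 := hND m hm hmK
    rw [hD1, Subgroup.mem_bot] at hm1
    rw [← e]
    show b * m ∈ A'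
    rw [hm1, mul_one]
    exact hb
  refine Subgroup.eq_of_le_of_card_ge hle' ?_
  rw [Subgroup.card_map_of_injective (MulAut.conj n).injective]
  have h1 := hA.card_mul
  rw [← hA₁.card_mul] at h1
  exact (Nat.eq_of_mul_eq_mul_right Nat.card_pos h1).le

end Cfsg.Agent.S4043
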