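import Cfsg.Statements.S4051
import Cfsg.Agent.Hall.Pi
import Cfsg.Agent.CoprimeAction.Invariant
import Cfsg.Agent.Components.Cores
import Cfsg.Agent.PCore.Basic
import Mathlib

set_option autoImplicit false
open Cfsg

namespace Cfsg.Agent.S4051

open scoped Pointwise

/-- A number whose prime divisors lie in `π`. -/
def PiNum (π : Set ℕ) (n : ℕ) : Prop := ∀ q : ℕ, q.Prime → q ∣ n → q ∈ π

/-- A number with no prime divisor in `π`. -/
def PiNum' (π : Set ℕ) (n : ℕ) : Prop := ∀ q : ℕ, q.Prime → q ∣ n → q ∉ π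

theorem piNum_coprime {π : Set ℕ} {a b : ℕ} (ha : PiNum π a) (hb : PiNum' π b) : a.Coprime b :=
  Nat.coprime_of_dvd fun q hq h1 h2 => hb q hq h2 (ha q hq h1)

/-- The `π`-part of an element. -/
theorem exists_pi_pow {π : Set ℕ} {G : Type*} [Group G] [Finite G] (y : G) :
    ∃ m : ℕ, PiNum π (orderOf (y ^ m)) ∧ ∀ {H : Type*} [Group H] (f : G →* H), PiNum π (orderOf (f y)) →
      f (y ^ m) = f y := by
  obtain ⟨a, b, hab, hco, ha, hb⟩ := CfsgLib.Hall.exists_pi_split π (orderOf y) (orderOf_pos y).ne'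
  obtain ⟨m, hm1, hm0⟩ := Nat.chineseRemainder hco 1 0
  obtain ⟨c, hc⟩ := Nat.modEq_zero_iff_dvd.1 hm0
  refine ⟨m, fun q hq hd => ha q hq (hd.trans ?_), fun {H} _ f hf => ?_⟩
  · refine orderOf_dvd_of_pow_eq_one ?_
    rw [← pow_mul, hc, show b * c * a = a * b * c by ring, ← hab, pow_mul, pow_orderOf_eq_one, one_pow]
  · have h1 : orderOf (f y) ∣ a :=
      (piNum_coprime hf (fun q hq hd hqπ => hb q hq hqπ hd) : (orderOf (f y)).Coprime b).dvd_of_dvd_mul_right
        (hab ▸ orderOf_map_dvd f y)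
    rw [map_pow]
    conv_rhs => rw [← pow_one (f y)]
    exact pow_eq_pow_iff_modEq.2 (Nat.ModEq.of_dvd h1 hm1)

/-- Local homogeneity, elementwise. -/
def Hom' (π : Set ℕ) (G : Type*) [Group G] : Prop :=
  ∀ U : Subgroup G, U ≠ ⊥ → PiNum' π (Nat.card U) → ∀ y ∈ Subgroup.normalizer (U : Set G),
    PiNum π (orderOf y) → y ∈ Subgroup.centralizer (U : Set G)

/-- The π-elements form a subgroup. -/
def Closed (π : Set ℕ) (G : Type*) [Group G] : Prop :=
  ∃ L : Subgroup G, ∀ x : G, x ∈ L ↔ ∀ p : ℕ, p.Prime → p ∣ orderOf x → p ∈ π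

theorem hom'_of_relIndex {π : Set ℕ} {G : Type*} [Group G] [Finite G]
    (hhom : ∀ H : Subgroup G, H ≠ ⊥ → (∀ p : ℕ, p.Prime → p ∣ Nat.card ↥H → p ∉ π) →
        ∀ p : ℕ, p.Prime → p ∣ (Subgroup.centralizer (H : Set G)).relIndex (Subgroup.normalizer (H : Set G)) → p ∉ π) :
    Hom' π G := by
  intro U hU hUπ y hy hypi
  have hn : ((Subgroup.centralizer (U : Set G)).subgroupOf (Subgroup.normalizer (U : Set G))).Normal := by
    rw [← Subgroup.normalizerMonoidHom_ker]
    infer_instance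
  have h1 := orderOf_map_dvd (QuotientGroup.mk' ((Subgroup.centralizer (U : Set G)).subgroupOf
    (Subgroup.normalizer (U : Set G)))) ⟨y, hy⟩
  rw [← Subgroup.orderOf_coe] at h1
  have h2 : orderOf ((⟨y, hy⟩ : Subgroup.normalizer (U : Set G)) : Subgroup.normalizer (U : Set G) ⧸
      (Subgroup.centralizer (U : Set G)).subgroupOf (Subgroup.normalizer (U : Set G))) = 1 := by
    refine Nat.eq_one_of_dvd_coprimes (piNum_coprime hypi (hhom U hU hUπ)) h1 ((orderOf_dvd_natCard _).trans ?_)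
    rw [← Subgroup.index_eq_card]
    rfl
  exact (QuotientGroup.eq_one_iff (⟨y, hy⟩ : Subgroup.normalizer (U : Set G))).1 (orderOf_eq_one_iff.1 h2)

theorem closed_step {π : Set ℕ} {G : Type*} [Group G] [Finite G] (hhom : Hom' π G) (K : Subgroup G) [K.Normal]
    (hK : Closed π K) (hQ : Closed π (G ⧸ K)) : Closed π G := by
  classical
  obtain ⟨LK, hLK⟩ := hK
  obtain ⟨LQ, hLQ⟩ := hQ
  set L : Subgroup G := LK.map K.subtype with hL
  have hLmem : ∀ x : G, x ∈ L ↔ x ∈ K ∧ PiNum π (orderOf x) := by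
    intro x
    constructor
    · rintro ⟨z, hz, rfl⟩
      exact ⟨z.2, by rw [Subgroup.subtype_apply, Subgroup.orderOf_coe]; exact (hLK z).1 hz⟩
    · rintro ⟨hx, hp⟩
      exact ⟨⟨x, hx⟩, (hLK _).2 (by rw [← Subgroup.orderOf_coe]; exact hp), rfl⟩
  have hLn : L.Normal := ⟨fun x hx g => by
    obtain ⟨h1, h2⟩ := (hLmem x).1 hx
    refine (hLmem _).2 ⟨(inferInstance : K.Normal).conj_mem x h1 g, ?_⟩
    change PiNum π (orderOf (MulAut.conj g x))
    rwa [show orderOf (MulAut.conj g x) = orderOf x from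
      orderOf_injective (MulAut.conj g).toMonoidHom (MulAut.conj g).injective x]⟩
  have hLK' : L ≤ K := fun x hx => ((hLmem x).1 hx).1
  have hLπ : PiNum π (Nat.card L) := fun q hq hd => by
    have := Fact.mk hq
    obtain ⟨x, hx⟩ := exists_prime_orderOf_dvd_card' q hd
    refine ((hLmem x).1 x.2).2 q hq ?_
    rw [Subgroup.orderOf_coe, hx]
  let f : G →* G ⧸ L := QuotientGroup.mk' L
  set Kb : Subgroup (G ⧸ L) := K.map f with hKb
  set Mb : Subgroup (G ⧸ L) := (LQ.comap (QuotientGroup.mk' K)).map f with hMb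
  have hKbn : Kb.Normal := (inferInstance : K.Normal).map f (QuotientGroup.mk'_surjective L)
  have hKbπ : PiNum' π (Nat.card Kb) := fun q hq hd hqπ => by
    have := Fact.mk hq
    obtain ⟨x, hx⟩ := exists_prime_orderOf_dvd_card' q hd
    obtain ⟨k, hk, hkx⟩ := Subgroup.mem_map.1 x.2
    obtain ⟨m, hm1, hm2⟩ := exists_pi_pow (π := π) k
    have h2 := hm2 f (by
      rw [hkx, Subgroup.orderOf_coe, hx]
      intro r hr hrd
      rwa [(Nat.prime_dvd_prime_iff_eq hr hq).1 hrd])
    have h3 : f (k ^ m) = 1 := (QuotientGroup.eq_one_iff _).2 ((hLmem _).2 ⟨K.pow_mem hk m, hm1⟩)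
    rw [h3, hkx] at h2
    have : orderOf x = 1 := orderOf_eq_one_iff.2 (Subtype.ext h2.symm)
    exact hq.ne_one (hx.symm.trans this)
  -- π-elements of the quotient centralise `Kb` and lie in `Mb`
  have hlift : ∀ x : G ⧸ L, PiNum π (orderOf x) → ∃ g : G, PiNum π (orderOf g) ∧ f g = x := fun x hx => by
    obtain ⟨g, rfl⟩ := QuotientGroup.mk'_surjective L x
    obtain ⟨m, hm1, hm2⟩ := exists_pi_pow (π := π) g
    exact ⟨_, hm1, hm2 f hx⟩
  have hMmem : ∀ g : G, PiNum π (orderOf g) → g ∈ LQ.comap (QuotientGroup.mk' K) := fun g hg => by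
    refine (hLQ _).2 fun q hq hd => hg q hq (hd.trans ?_)
    exact orderOf_map_dvd (QuotientGroup.mk' K) g
  have hcent : ∀ x : G ⧸ L, PiNum π (orderOf x) → x ∈ Subgroup.centralizer (Kb : Set (G ⧸ L)) := by
    intro x hx
    suffices h : Kb ≤ Subgroup.centralizer ({x} : Set (G ⧸ L)) by
      exact Subgroup.mem_centralizer_iff.2 fun k hk => Subgroup.mem_centralizer_singleton_iff.1 (h hk)
    suffices h : (Subgroup.centralizer ({x} : Set (G ⧸ L))).subgroupOf Kb = ⊤ from Subgroup.subgroupOf_eq_top.1 h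
    rw [← Subgroup.index_eq_one]
    by_contra hne
    obtain ⟨q, hq, hdvd⟩ := Nat.exists_prime_and_dvd hne
    have := Fact.mk hq
    suffices h : ∃ T : Sylow q Kb, (T : Subgroup Kb) ≤ (Subgroup.centralizer ({x} : Set (G ⧸ L))).subgroupOf Kb by
      obtain ⟨T, hT⟩ := h
      exact T.not_dvd_index (hdvd.trans (Subgroup.index_dvd_of_le hT))
    obtain ⟨T, hT⟩ := CfsgLib.CoprimeAction.exists_invariant_sylow (A := Subgroup.zpowers x) (K := Kb)
      (by rw [Subgroup.normalizer_eq_top]; exact le_top)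
      (by rw [Nat.card_zpowers]; exact piNum_coprime hx hKbπ) (Or.inl inferInstance) q
    refine ⟨T, fun t ht => Subgroup.mem_centralizer_singleton_iff.2 ?_⟩
    set Qb : Subgroup (G ⧸ L) := (T : Subgroup Kb).map Kb.subtype with hQb
    have htQ : (t : G ⧸ L) ∈ Qb := ⟨t, ht, rfl⟩
    change (t : G ⧸ L) * x = x * (t : G ⧸ L)
    by_cases ht1 : (t : G ⧸ L) = 1
    · rw [ht1, one_mul, mul_one]
    set R : Subgroup G := Qb.comap f with hR
    obtain ⟨Q⟩ : Nonempty (Sylow q R) := inferInstance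
    set Qg : Subgroup G := (Q : Subgroup R).map R.subtype with hQg
    have hqπ : q ∉ π := by
      refine hKbπ q hq ?_
      have h := (T : Subgroup Kb).orderOf_dvd_natCard ht
      obtain ⟨j, hj⟩ := IsPGroup.iff_card.1 T.2
      have hj0 : j ≠ 0 := fun h0 => by
        rw [hj, h0, pow_zero, Nat.dvd_one, orderOf_eq_one_iff] at h
        exact ht1 (by rw [h]; rfl)
      exact ((dvd_pow_self q hj0).trans (dvd_of_eq hj.symm)).trans (Subgroup.card_subgroup_dvd_card _)
    -- `Qg` covers `Qb`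
    have hmap : Qg.map f = Qb := by
      refine Subgroup.eq_of_le_of_card_ge ?_ ?_
      · rintro _ ⟨_, ⟨z, -, rfl⟩, rfl⟩; exact z.2
      obtain ⟨j, hj⟩ := IsPGroup.iff_card.1 (T.2.map Kb.subtype)
      have hinj : Function.Injective (f.comp Qg.subtype) := by
        rw [← MonoidHom.ker_eq_bot_iff, eq_bot_iff]
        intro z hz
        obtain ⟨i, hi⟩ := IsPGroup.iff_orderOf.1 (Q.2.map R.subtype) z
        have hzL : (z : G) ∈ L := (QuotientGroup.eq_one_iff _).1 hz
        rw [← Subgroup.orderOf_coe] at hi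
        by_cases hi0 : i = 0
        · rw [hi0, pow_zero, orderOf_eq_one_iff] at hi
          exact Subgroup.mem_bot.2 (Subtype.ext hi)
        exact absurd (hLπ q hq ((dvd_pow_self q hi0).trans (hi ▸ L.orderOf_dvd_natCard hzL))) hqπ
      have e : Nat.card (Qg.map f) = Nat.card Qg := by
        have := (Nat.card_congr (MonoidHom.ofInjective hinj).toEquiv).symm
        rwa [MonoidHom.range_comp, Subgroup.range_subtype] at this
      rw [e, hQg, Subgroup.card_map_of_injective R.subtype_injective, Q.card_eq_multiplicity, hj]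
      refine Nat.pow_le_pow_right hq.pos ((hq.pow_dvd_iff_le_factorization Nat.card_pos.ne').1 ?_)
      rw [← hj, hR, CfsgLib.PCore.card_comap_mk' L Qb]
      exact dvd_mul_left _ _
    have hQπ : PiNum' π (Nat.card Qg) := fun r hr hd => by
      obtain ⟨i, hi⟩ := IsPGroup.iff_card.1 (Q.2.map R.subtype)
      rw [hQg, hi] at hd
      rwa [(Nat.prime_dvd_prime_iff_eq hr hq).1 (hr.dvd_of_dvd_pow hd)]
    have hQne : Qg ≠ ⊥ := fun h => ht1 (Subgroup.mem_bot.1 (by
      rw [← hmap, h, Subgroup.map_bot] at htQ; exact htQ))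
    -- a π-element over `x` normalising `Qg`
    obtain ⟨g, -, hgx⟩ := hlift x hx
    have hgR : MulAut.conj g • R = R := by
      ext z
      rw [Subgroup.mem_pointwise_smul_iff_inv_smul_mem]
      change f ((MulAut.conj g)⁻¹ z) ∈ Qb ↔ f z ∈ Qb
      rw [MulAut.conj_inv_apply, map_mul, map_mul, map_inv, hgx]
      exact ((Subgroup.mem_normalizer_iff''.1 (hT (Subgroup.mem_zpowers x))) (f z)).symm
    obtain ⟨Q', hQ'⟩ := CfsgLib.CoprimeAction.exists_sylow_map (K := R) (H := MulAut.conj g • Qg)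
      (hgR ▸ Subgroup.pointwise_smul_le_pointwise_smul_iff.2 (Subgroup.map_subtype_le _))
      (by
        rw [show Nat.card ↥(MulAut.conj g • Qg) = Nat.card Qg from
          (Nat.card_congr (Subgroup.equivSMul (MulAut.conj g) Qg).toEquiv).symm, hQg,
          CfsgLib.CoprimeAction.card_sylow_map])
    obtain ⟨r, hr⟩ := MulAction.exists_smul_eq R Q' Q
    have hy : MulAut.conj ((r : G) * g) • Qg = Qg := by
      rw [map_mul, mul_smul, ← hQ', ← CfsgLib.CoprimeAction.sylow_map_conj, hr]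
    have hr' : f r ∈ Qg.map f := by rw [hmap]; exact r.2
    obtain ⟨q0, hq0, hq0r⟩ := Subgroup.mem_map.1 hr'
    set y : G := q0⁻¹ * ((r : G) * g) with hy_def
    have hyN : y ∈ Subgroup.normalizer (Qg : Set G) := by
      refine mul_mem (inv_mem (Subgroup.le_normalizer hq0)) ?_
      rw [Subgroup.mem_normalizer_iff_map_conj_eq]
      exact hy
    have hyx : f y = x := by
      rw [hy_def, map_mul, map_mul, map_inv, hq0r, hgx, inv_mul_cancel_left]
    obtain ⟨m, hm1, hm2⟩ := exists_pi_pow (π := π) y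
    have hc := hhom Qg hQne hQπ (y ^ m) (Subgroup.pow_mem _ hyN m) hm1
    rw [← hmap] at htQ
    obtain ⟨t0, ht0, ht0t⟩ := Subgroup.mem_map.1 htQ
    rw [← ht0t, ← hyx, ← hm2 f (hyx.symm ▸ hx), ← map_mul, ← map_mul, Subgroup.mem_centralizer_iff.1 hc t0 ht0]
  -- Schur–Zassenhaus in the centraliser
  set C : Subgroup (G ⧸ L) := Mb ⊓ Subgroup.centralizer (Kb : Set (G ⧸ L)) with hC
  set Z : Subgroup C := Kb.subgroupOf C with hZ
  have hZn : Z.Normal := hKbn.subgroupOf C
  have hZπ : PiNum' π (Nat.card Z) := fun q hq hd => hKbπ q hq (hd.trans (CfsgLib.PCore.card_subgroupOf_dvd Kb C))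
  have hZi : PiNum π Z.index := fun q hq hd => by
    have := Fact.mk hq
    rw [Subgroup.index_eq_card] at hd
    obtain ⟨w, hw⟩ := exists_prime_orderOf_dvd_card' q hd
    obtain ⟨c, rfl⟩ := QuotientGroup.mk_surjective w
    obtain ⟨g, hg, hgc⟩ := Subgroup.mem_map.1 c.2.1
    have hj : orderOf ((g : G) : G ⧸ K) = orderOf (QuotientGroup.mk' K g) := rfl
    refine (hLQ _).1 hg q hq ?_
    rw [← hw, orderOf_dvd_iff_pow_eq_one, ← QuotientGroup.mk_pow, QuotientGroup.eq_one_iff, hZ,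
      Subgroup.mem_subgroupOf, SubmonoidClass.coe_pow, ← hgc, ← map_pow]
    refine Subgroup.mem_map_of_mem f ((QuotientGroup.eq_one_iff _).1 ?_)
    rw [QuotientGroup.mk_pow]
    exact pow_orderOf_eq_one _
  obtain ⟨T, hT⟩ := Subgroup.exists_right_complement'_of_coprime (N := Z) (piNum_coprime hZi hZπ).symm
  have hZc : Z ≤ Subgroup.center C := fun z hz => Subgroup.mem_center_iff.2 fun c =>
    Subtype.ext ((Subgroup.mem_centralizer_iff.1 c.2.2 _ hz).symm)
  have hTn : T.Normal := ⟨fun t ht c => by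
    obtain ⟨⟨z, t'⟩, hzt⟩ := hT.2 c
    rw [show c = (z : C) * (t' : C) from hzt.symm]
    have hzc := fun w => Subgroup.mem_center_iff.1 (hZc z.2) w
    have : (z : C) * (t' : C) * t * ((z : C) * (t' : C))⁻¹ = (t' : C) * t * (t' : C)⁻¹ := by
      rw [show (z : C) * (t' : C) * t * ((z : C) * (t' : C))⁻¹ = (z : C) * ((t' : C) * t * (t' : C)⁻¹) * (z : C)⁻¹ by group,
        ← hzc, mul_inv_cancel_right]
    rw [this]
    exact mul_mem (mul_mem t'.2 ht) (inv_mem t'.2)⟩
  refine ⟨(T.map C.subtype).comap f, fun g => ⟨fun hg => ?_, fun hg => ?_⟩⟩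
  · have hdvd : Nat.card ((T.map C.subtype).comap f) = Nat.card L * Nat.card (T.map C.subtype) :=
      CfsgLib.PCore.card_comap_mk' L _
    intro q hq hd
    have h := hd.trans (((T.map C.subtype).comap f).orderOf_dvd_natCard hg)
    rw [hdvd] at h
    rcases hq.dvd_mul.1 h with h | h
    · exact hLπ q hq h
    · rw [Subgroup.card_map_of_injective C.subtype_injective, ← hT.symm.index_eq_card] at h
      exact hZi q hq h
  · have hx : PiNum π (orderOf (f g)) := fun q hq hd => hg q hq (hd.trans (orderOf_map_dvd f g))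
    have hC' : f g ∈ C := ⟨Subgroup.mem_map_of_mem f (hMmem g hg), hcent _ hx⟩
    refine ⟨⟨f g, hC'⟩, ?_, rfl⟩
    rw [SetLike.mem_coe, ← QuotientGroup.eq_one_iff, ← orderOf_eq_one_iff]
    refine Nat.eq_one_of_dvd_coprimes (piNum_coprime hx hZπ) ?_ ((orderOf_dvd_natCard _).trans (dvd_of_eq ?_))
    · refine (orderOf_map_dvd (QuotientGroup.mk' T) _).trans ?_
      rw [← Subgroup.orderOf_coe]
    · rw [← Subgroup.index_eq_card]
      exact hT.index_eq_card


/-- Let π be a set of primes and G a finite group such that N_G(H)/C_G(H) is a π'-group for every nontrivial π'-subgroup H of G. If K is a normal subgroup of G such that the π-elements of K form a subgroup and the π-elements of G/K form a subgroup, then the π-elements of G form a subgroup. -/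
theorem result {G : Type*} [Group G] [Finite G] (π : Set ℕ)
    (hπ : ∀ p ∈ π, p.Prime) (hhom : (∀ H : Subgroup G, H ≠ ⊥ → (∀ p : ℕ, p.Prime → p ∣ Nat.card ↥H → p ∉ π) →
        ∀ p : ℕ, p.Prime → p ∣ (Subgroup.centralizer (H : Set G)).relIndex (Subgroup.normalizer (H : Set G)) → p ∉ π))
    (K : Subgroup G) [K.Normal]
    (hK : ∃ L : Subgroup ↥K, ∀ x : ↥K, x ∈ L ↔ ∀ p : ℕ, p.Prime → p ∣ orderOf x → p ∈ π)
    (hQ : ∃ L : Subgroup (G ⧸ K), ∀ x : G ⧸ K, x ∈ L ↔ ∀ p : ℕ, p.Prime → p ∣ orderOf x → p ∈ π) :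
    (∃ K : Subgroup G, ∀ x : G, x ∈ K ↔ ∀ p : ℕ, p.Prime → p ∣ orderOf x → p ∈ π) := by
  exact closed_step (hom'_of_relIndex hhom) K hK hQ

end Cfsg.Agent.S4051
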