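import Cfsg.Statements.S4050
import Cfsg.Agent.S4051
import Mathlib

set_option autoImplicit false
open Cfsg

namespace Cfsg.Agent.S4050

open Cfsg.Agent.S4051

theorem hom'_subgroup {π : Set ℕ} {G : Type*} [Group G] (h : Hom' π G) (H : Subgroup G) : Hom' π H := by
  intro U hU hUπ y hy hypi
  have hUG : U.map H.subtype ≠ ⊥ := fun e => hU ((U.map_eq_bot_iff_of_injective H.subtype_injective).1 e)
  have h1 := h (U.map H.subtype) hUG (by rwa [Subgroup.card_map_of_injective H.subtype_injective]) (y : G)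
    ((Subgroup.le_normalizer_map H.subtype) ⟨y, hy, rfl⟩) (by rwa [Subgroup.orderOf_coe])
  exact Subgroup.mem_centralizer_iff.2 fun u hu =>
    Subtype.ext (Subgroup.mem_centralizer_iff.1 h1 (u : G) ⟨u, hu, rfl⟩)

theorem closed_of_chain {π : Set ℕ} {G : Type*} [Group G] [Finite G] (hhom : Hom' π G) {n : ℕ}
    (H : Fin (n + 1) → Subgroup G) (h0 : H 0 = ⊥) (hmono : Monotone H) (hnorm : ∀ i, (H i).Normal)
    (hfac : ∀ i : Fin n, (∀ q : ℕ, q.Prime → q ∣ (H i.castSucc).relIndex (H i.succ) → q ∈ π) ∨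
        (∀ q : ℕ, q.Prime → q ∣ (H i.castSucc).relIndex (H i.succ) → q ∉ π)) :
    ∀ i, Closed π (H i) := by
  intro i
  induction i using Fin.induction with
  | zero =>
    refine ⟨⊤, fun x => ⟨fun _ p hp hd => ?_, fun _ => Subgroup.mem_top x⟩⟩
    have hx : (x : G) = 1 := Subgroup.mem_bot.1 (h0 ▸ x.2)
    rw [← Subgroup.orderOf_coe, hx, orderOf_one, Nat.dvd_one] at hd
    exact absurd hd hp.ne_one
  | succ i ih =>
    have hle : H i.castSucc ≤ H i.succ := hmono i.castSucc_le_succ
    have hn : ((H i.castSucc).subgroupOf (H i.succ)).Normal := (hnorm _).subgroupOf _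
    refine closed_step (hom'_subgroup hhom _) ((H i.castSucc).subgroupOf (H i.succ)) ?_ ?_
    · obtain ⟨L, hL⟩ := ih
      refine ⟨L.comap (Subgroup.subgroupOfEquivOfLe hle).toMonoidHom, fun x => ?_⟩
      rw [Subgroup.mem_comap, hL]
      change (∀ p : ℕ, p.Prime → p ∣ orderOf (Subgroup.subgroupOfEquivOfLe hle x) → p ∈ π) ↔ _
      rw [show orderOf (Subgroup.subgroupOfEquivOfLe hle x) = orderOf x from
        orderOf_injective (Subgroup.subgroupOfEquivOfLe hle).toMonoidHom (Subgroup.subgroupOfEquivOfLe hle).injective x]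
    · have hcard : Nat.card (H i.succ ⧸ (H i.castSucc).subgroupOf (H i.succ)) =
          (H i.castSucc).relIndex (H i.succ) := rfl
      rcases hfac i with h | h
      · refine ⟨⊤, fun x => ⟨fun _ p hp hd => h p hp ?_, fun _ => Subgroup.mem_top x⟩⟩
        exact hd.trans ((orderOf_dvd_natCard x).trans (dvd_of_eq hcard))
      · refine ⟨⊥, fun x => ⟨fun hx p hp hd => ?_, fun hx => ?_⟩⟩
        · rw [Subgroup.mem_bot.1 hx, orderOf_one, Nat.dvd_one] at hd
          exact absurd hd hp.ne_one
        · rw [Subgroup.mem_bot, ← orderOf_eq_one_iff]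
          exact Nat.eq_one_of_dvd_coprimes (piNum_coprime hx h) dvd_rfl
            ((orderOf_dvd_natCard x).trans (dvd_of_eq hcard))


/-- Let π be a set of primes and G a finite group. The π-elements of G (elements whose order is divisible only by primes of π) form a subgroup if and only if G is π-separable (it has a chain of normal subgroups from 1 to G with each successive index divisible only by primes in π or only by primes outside π) and N_G(H)/C_G(H) is a π'-group for every nontrivial π'-subgroup H of G. -/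
theorem result {G : Type*} [Group G] [Finite G] (π : Set ℕ)
    (hπ : ∀ p ∈ π, p.Prime) :
    (∃ K : Subgroup G, ∀ x : G, x ∈ K ↔ ∀ p : ℕ, p.Prime → p ∣ orderOf x → p ∈ π) ↔
    ((∃ (n : ℕ) (H : Fin (n + 1) → Subgroup G), H 0 = ⊥ ∧ H (Fin.last n) = ⊤ ∧ Monotone H ∧ (∀ i, (H i).Normal) ∧
      ∀ i : Fin n, (∀ q : ℕ, q.Prime → q ∣ (H i.castSucc).relIndex (H i.succ) → q ∈ π) ∨
        (∀ q : ℕ, q.Prime → q ∣ (H i.castSucc).relIndex (H i.succ) → q ∉ π)) ∧
     (∀ H : Subgroup G, H ≠ ⊥ → (∀ p : ℕ, p.Prime → p ∣ Nat.card ↥H → p ∉ π) →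
        ∀ p : ℕ, p.Prime → p ∣ (Subgroup.centralizer (H : Set G)).relIndex (Subgroup.normalizer (H : Set G)) → p ∉ π)) := by
  constructor
  · rintro ⟨K, hK⟩
    have hKn : K.Normal := ⟨fun x hx g => by
      rw [hK]
      rw [show orderOf (g * x * g⁻¹) = orderOf x from
        orderOf_injective (MulAut.conj g).toMonoidHom (MulAut.conj g).injective x]
      exact (hK x).1 hx⟩
    have hKπ : ∀ q : ℕ, q.Prime → q ∣ Nat.card K → q ∈ π := fun q hq hd => by
      have := Fact.mk hq
      obtain ⟨x, hx⟩ := exists_prime_orderOf_dvd_card' q hd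
      exact (hK x).1 x.2 q hq (by rw [Subgroup.orderOf_coe, hx])
    have hQ : ∀ q : ℕ, q.Prime → q ∣ K.index → q ∉ π := fun q hq hd hqπ => by
      have := Fact.mk hq
      rw [Subgroup.index_eq_card] at hd
      obtain ⟨x, hx⟩ := exists_prime_orderOf_dvd_card' q hd
      obtain ⟨g, rfl⟩ := QuotientGroup.mk'_surjective K x
      obtain ⟨m, hm1, hm2⟩ := Cfsg.Agent.S4051.exists_pi_pow (π := π) g
      have h2 := hm2 (QuotientGroup.mk' K) (by
        rw [hx]
        intro r hr hrd
        rwa [(Nat.prime_dvd_prime_iff_eq hr hq).1 hrd])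
      have h3 : QuotientGroup.mk' K (g ^ m) = 1 := (QuotientGroup.eq_one_iff _).2 ((hK _).2 hm1)
      rw [h3] at h2
      rw [← h2, orderOf_one] at hx
      exact hq.ne_one hx.symm
    refine ⟨⟨2, ![⊥, K, ⊤], rfl, rfl, ?_, ?_, ?_⟩, ?_⟩
    · intro i j hij
      fin_cases i <;> fin_cases j <;> first | exact le_rfl | exact bot_le | exact le_top | exact absurd hij (by decide)
    · intro i
      fin_cases i
      · exact Subgroup.normal_bot
      · exact hKn
      · exact Subgroup.normal_top
    · intro i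
      fin_cases i
      · left
        intro q hq hd
        exact hKπ q hq (hd.trans (dvd_of_eq (Subgroup.relIndex_bot_left (H := K))))
      · right
        intro q hq hd
        exact hQ q hq (hd.trans (dvd_of_eq (Subgroup.relIndex_top_right (H := K))))
    intro U _ hUπ p hp hd hpπ
    have := Fact.mk hp
    have hn : ((Subgroup.centralizer (U : Set G)).subgroupOf (Subgroup.normalizer (U : Set G))).Normal := by
      rw [← Subgroup.normalizerMonoidHom_ker]
      infer_instance
    rw [Subgroup.relIndex, Subgroup.index_eq_card] at hd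
    obtain ⟨w, hw⟩ := exists_prime_orderOf_dvd_card' p hd
    obtain ⟨y, rfl⟩ := QuotientGroup.mk'_surjective _ w
    obtain ⟨m, hm1, hm2⟩ := Cfsg.Agent.S4051.exists_pi_pow (π := π) y
    have h2 := hm2 (QuotientGroup.mk' _) (by
      rw [hw]
      intro r hr hrd
      rwa [(Nat.prime_dvd_prime_iff_eq hr hp).1 hrd])
    have hyK : ((y ^ m : Subgroup.normalizer (U : Set G)) : G) ∈ K :=
      (hK _).2 (by rw [Subgroup.orderOf_coe]; exact hm1)
    have hdisj : U ⊓ K = ⊥ := Subgroup.inf_eq_bot_of_coprime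
      (Cfsg.Agent.S4051.piNum_coprime hKπ hUπ).symm
    have hc : y ^ m ∈ (Subgroup.centralizer (U : Set G)).subgroupOf (Subgroup.normalizer (U : Set G)) := by
      refine Subgroup.mem_centralizer_iff.2 fun u hu => ?_
      set a : G := ((y ^ m : Subgroup.normalizer (U : Set G)) : G) with ha
      have h1 : a * u * a⁻¹ * u⁻¹ ∈ U ⊓ K := by
        refine ⟨U.mul_mem ((Subgroup.mem_normalizer_iff.1 (y ^ m).2 u).1 hu) (U.inv_mem hu), ?_⟩
        rw [mul_assoc, mul_assoc]
        exact K.mul_mem hyK (by rw [← mul_assoc]; exact hKn.conj_mem _ (K.inv_mem hyK) u)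
      rw [hdisj, Subgroup.mem_bot, mul_inv_eq_one, mul_inv_eq_iff_eq_mul] at h1
      exact h1.symm
    rw [show QuotientGroup.mk' _ (y ^ m) = 1 from (QuotientGroup.eq_one_iff _).2 hc] at h2
    rw [← h2, orderOf_one] at hw
    exact hp.ne_one hw.symm
  · rintro ⟨⟨n, H, h0, hn, hmono, hnorm, hfac⟩, hhom⟩
    obtain ⟨L, hL⟩ := closed_of_chain (Cfsg.Agent.S4051.hom'_of_relIndex hhom) H h0 hmono hnorm hfac (Fin.last n)
    refine ⟨L.map (H (Fin.last n)).subtype, fun x => ?_⟩
    have hx : x ∈ H (Fin.last n) := hn ▸ Subgroup.mem_top x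
    constructor
    · rintro ⟨z, hz, rfl⟩
      rw [Subgroup.subtype_apply, Subgroup.orderOf_coe]
      exact (hL z).1 hz
    · intro h
      exact ⟨⟨x, hx⟩, (hL _).2 (by rw [← Subgroup.orderOf_coe]; exact h), rfl⟩

end Cfsg.Agent.S4050
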