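import Cfsg.Statements.S4057
import Cfsg.Agent.PRankBound.Basic

set_option autoImplicit false
open Cfsg

namespace Cfsg.Agent.S4057

/-- Let p be an odd prime and P a finite p-group in which every normal abelian subgroup can be generated by k elements. Then every subgroup of P can be generated by at most ⌊k(k+4)/4⌋ elements. -/
theorem result {P : Type*} [Group P] [Finite P] {p : ℕ} [Fact p.Prime]
    (hp : p ≠ 2) (hP : IsPGroup p P) (k : ℕ)
    (hab : ∀ A : Subgroup P, A.Normal → IsMulCommutative A → ∃ S : Finset P, S.card ≤ k ∧ Subgroup.closure (S : Set P) = A) :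
    ∀ H : Subgroup P, ∃ S : Finset P, S.card ≤ k * (k + 4) / 4 ∧ Subgroup.closure (S : Set P) = H := by
  classical
  intro H
  obtain ⟨A, hAn, hA, hΩ⟩ := CfsgLib.PLocalBasics.exists_max_normal_el hP hp
  haveI := hAn
  obtain ⟨a, ha⟩ := IsPGroup.iff_card.1 (hP.to_subgroup A)
  have hak : a ≤ k := by
    obtain ⟨S, hS, hSA⟩ := hab A hAn hA.1
    have key : ∀ T : Finset P, (T : Set P) ⊆ A → Nat.card (Subgroup.closure (T : Set P)) ≤ p ^ T.card := by
      intro T
      induction T using Finset.induction_on with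
      | empty => intro; simp
      | insert x T hx ih =>
        intro hT
        rw [Finset.coe_insert, Set.insert_subset_iff] at hT
        rw [Finset.coe_insert, Set.insert_eq, Subgroup.closure_union, ← Subgroup.zpowers_eq_closure,
          Finset.card_insert_of_notMem hx, pow_succ']
        have hle : Subgroup.zpowers x ≤ Subgroup.normalizer (Subgroup.closure (T : Set P) : Set P) := by
          refine le_trans ?_ (Subgroup.centralizer_le_normalizer _)
          refine Subgroup.zpowers_le.2 (Subgroup.mem_centralizer_iff.2 fun y hy => ?_)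
          have hyA : y ∈ A := (Subgroup.closure_le A).2 hT.2 hy
          exact congrArg Subtype.val (hA.1.is_comm.comm (⟨y, hyA⟩ : A) ⟨x, hT.1⟩)
        have h1 := CfsgLib.ZJ.card_sup_mul_card_inf_of_le_normalizer hle
        refine le_trans (Nat.le_mul_of_pos_right _ Nat.card_pos) (h1.le.trans (Nat.mul_le_mul ?_ (ih hT.2)))
        rw [Nat.card_zpowers]
        exact Nat.le_of_dvd (Fact.out : p.Prime).pos (orderOf_dvd_of_pow_eq_one (hA.2 x hT.1))
    have h2 := key S (fun y hy => hSA ▸ Subgroup.subset_closure hy)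
    rw [hSA, ha] at h2
    exact ((Nat.pow_le_pow_iff_right (Fact.out : p.Prime).one_lt).1 h2).trans hS
  set C := Subgroup.centralizer (A : Set P)
  set K := H ⊓ C
  have hzA : ∀ z : K, z ^ p = 1 → (z : P) ∈ A := fun z hz => hΩ _ z.2.2 (by simpa using congrArg Subtype.val hz)
  obtain ⟨S₀, hS₀, hS₀g⟩ := CfsgLib.PRankBound.generated_of_central (p := p) hp (hP.to_subgroup K)
    (fun z hz => Subgroup.mem_center_iff.2 fun g => Subtype.ext
      (Subgroup.mem_centralizer_iff.1 g.2.2 _ (hzA z hz)).symm) a (ha ▸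
    Nat.card_le_card_of_injective (fun z : {z : K // z ^ p = 1} => (⟨((z : K) : P), hzA z z.2⟩ : A))
      fun z w e => Subtype.ext (Subtype.ext (by simpa using congrArg Subtype.val e)))
  obtain ⟨f, hfr, hfk⟩ := CfsgLib.PRankBound.exists_uni_hom hP A hA a ha
  obtain ⟨S₁, hS₁, hS₁g⟩ := CfsgLib.PRankBound.generated_uni (H.map f)
    (le_trans (Subgroup.map_le_range f H) hfr)
  have hpre : ∀ y : {y // y ∈ S₁}, ∃ x ∈ H, f x = y := fun y =>
    (hS₁g ▸ Subgroup.subset_closure y.2 : (y : Matrix.SpecialLinearGroup (Fin a) (ZMod p)) ∈ H.map f)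
  choose g hgH hgf using hpre
  refine ⟨S₀.image (fun z : K => (z : P)) ∪ S₁.attach.image g, ?_, le_antisymm ?_ ?_⟩
  · refine (Finset.card_union_le _ _).trans ((Nat.add_le_add (Finset.card_image_le.trans hS₀)
      (Finset.card_image_le.trans (Finset.card_attach.trans_le hS₁))).trans ?_)
    have h2 : a ^ 2 ≤ k ^ 2 := Nat.pow_le_pow_left hak 2
    rw [show k * (k + 4) = k ^ 2 + k * 4 by ring, Nat.add_mul_div_right _ _ (by norm_num)]
    have := Nat.div_le_div_right (c := 4) h2
    omega
  · refine (Subgroup.closure_le H).2 fun x hx => ?_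
    simp only [Finset.coe_union, Finset.coe_image, Set.mem_union, Set.mem_image] at hx
    rcases hx with ⟨z, -, rfl⟩ | ⟨y, -, rfl⟩
    · exact z.2.1
    · exact hgH y
  · intro x hx
    set W := Subgroup.closure ((S₀.image (fun z : K => (z : P)) ∪ S₁.attach.image g : Finset P) : Set P) with hW
    have hWH : W ≤ H := (Subgroup.closure_le H).2 fun x hx => by
      simp only [Finset.coe_union, Finset.coe_image, Set.mem_union, Set.mem_image] at hx
      rcases hx with ⟨z, -, rfl⟩ | ⟨y, -, rfl⟩
      · exact z.2.1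
      · exact hgH y
    have hKW : ∀ z : P, z ∈ K → z ∈ W := by
      intro z hz
      have : (⟨z, hz⟩ : K) ∈ W.comap K.subtype := by
        refine ((Subgroup.closure_le _).2 fun s hs => ?_) (hS₀g.ge (Subgroup.mem_top _))
        exact Subgroup.subset_closure (Finset.mem_coe.2 (Finset.mem_union_left _ (Finset.mem_image.2 ⟨s, hs, rfl⟩)))
      exact this
    have hfx : f x ∈ W.map f := by
      refine ((Subgroup.closure_le _).2 fun y hy => ?_) (hS₁g.ge (Subgroup.mem_map_of_mem f hx))
      exact ⟨g ⟨y, hy⟩, Subgroup.subset_closure (Finset.mem_coe.2 (Finset.mem_union_right _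
        (Finset.mem_image.2 ⟨⟨y, hy⟩, Finset.mem_attach _ _, rfl⟩))), hgf ⟨y, hy⟩⟩
    obtain ⟨w, hw, hwx⟩ := hfx
    have hm : w⁻¹ * x ∈ K := Subgroup.mem_inf.2 ⟨mul_mem (inv_mem (hWH hw)) hx, by
      show w⁻¹ * x ∈ C
      rw [show C = f.ker from hfk.symm, MonoidHom.mem_ker, map_mul, map_inv, hwx, inv_mul_cancel]⟩
    have := mul_mem hw (hKW _ hm)
    rwa [mul_inv_cancel_left] at this

end Cfsg.Agent.S4057
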