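import Cfsg.Statements.S4058
import Cfsg.Agent.BrauerInd.FSCount
import Cfsg.Agent.CharBasics.Central
import Cfsg.Agent.PGroup.Basic

set_option autoImplicit false
open Cfsg

namespace Cfsg.Agent.S4058

open scoped ComplexConjugate
open CfsgLib

/-- The dual of the quotient by a normal subgroup containing all squares, of exponent two. -/
theorem dual_sq {G : Type*} [Group G] (N : Subgroup G) [N.Normal] (hN : ∀ x : G, x ^ 2 ∈ N)
    (l : (G ⧸ N) →* ℂˣ) (g : G) : (l (g : G ⧸ N) : ℂ) * (l (g : G ⧸ N) : ℂ) = 1 := by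
  rw [← Units.val_mul, ← map_mul, ← QuotientGroup.mk_mul, ← pow_two,
    (QuotientGroup.eq_one_iff _).2 (hN g), map_one, Units.val_one]

theorem twist_irr {G : Type*} [Group G] [Finite G] (N : Subgroup G) [N.Normal]
    (hN : ∀ x : G, x ^ 2 ∈ N) (l : (G ⧸ N) →* ℂˣ) (χ : Cfsg.IrrCharacter G) :
    Cfsg.IsIrrCharacter G (fun g : G => (l (g : G ⧸ N) : ℂ) * (χ : G → ℂ) g) := by
  haveI := Fintype.ofFinite G
  have hl : Cfsg.IsCharacter G (fun g : G => (l (g : G ⧸ N) : ℂ)) := by
    let m := l.comp (QuotientGroup.mk' N)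
    let ρ : Representation ℂ G ℂ :=
      { toFun := fun g => (m g : ℂ) • LinearMap.id
        map_one' := by ext; simp
        map_mul' := fun a b => by ext; simp [mul_comm] }
    have : ρ.character = fun g : G => (l (g : G ⧸ N) : ℂ) := by
      funext g
      show LinearMap.trace ℂ ℂ ((m g : ℂ) • LinearMap.id) = _
      rw [map_smul, LinearMap.trace_id, Module.finrank_self]
      simp [m]
    exact this ▸ CharBasics.isCharacter_rep ρ
  refine CharBasics.isIrr_of_norm_one (CharBasics.isCharacter_mul hl (CharBasics.isCharacter_of_irr χ.2)) ?_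
  rw [← CharBasics.classInner_self χ.2, CharBasics.classInner_eq, CharBasics.classInner_eq]
  congr 1
  refine Finset.sum_congr rfl fun g _ => ?_
  have h := dual_sq N hN l g
  have hreal : conj (l (g : G ⧸ N) : ℂ) = (l (g : G ⧸ N) : ℂ) := by
    rcases mul_self_eq_one_iff.1 h with e | e <;> rw [e] <;> simp
  rw [map_mul, hreal]
  linear_combination ((χ : G → ℂ) g * conj ((χ : G → ℂ) g)) * h

/-- At most `χ(1)²` of these linear characters fix `χ`. -/
theorem fix_le_sq {G : Type*} [Group G] [Finite G] (N : Subgroup G) [N.Normal]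
    (hN : ∀ x : G, x ^ 2 ∈ N) (χ : Cfsg.IrrCharacter G) :
    Nat.card {l : (G ⧸ N) →* ℂˣ // ∀ g : G, (l (g : G ⧸ N) : ℂ) * (χ : G → ℂ) g = (χ : G → ℂ) g} ≤
      Cfsg.charDegree (χ : G → ℂ) ^ 2 := by
  classical
  haveI := Fintype.ofFinite G
  have hc := CharBasics.isCharacter_of_irr χ.2
  obtain ⟨r, ψ, hψ, hsum⟩ :=
    CharBasics.exists_decomp (CharBasics.isCharacter_mul hc (CharBasics.isCharacter_star hc))
  have hlin : ∀ l : (G ⧸ N) →* ℂˣ, Cfsg.IsIrrCharacter G (fun g : G => (l (g : G ⧸ N) : ℂ)) := by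
    intro l
    have h := twist_irr N hN l ⟨_, CharBasics.isIrrCharacter_one⟩
    simpa using h
  have hex : ∀ l : {l : (G ⧸ N) →* ℂˣ //
      ∀ g : G, (l (g : G ⧸ N) : ℂ) * (χ : G → ℂ) g = (χ : G → ℂ) g},
      ∃ i, ψ i = fun g : G => (l.1 (g : G ⧸ N) : ℂ) := by
    intro l
    by_contra hne
    push Not at hne
    have h0 : Cfsg.classInner ((χ : G → ℂ) * fun g => conj ((χ : G → ℂ) g))
        (fun g : G => (l.1 (g : G ⧸ N) : ℂ)) = 0 := by
      rw [hsum, CharBasics.classInner_sum_left]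
      exact Finset.sum_eq_zero fun i _ => CharBasics.classInner_ne (hψ i) (hlin l.1) (hne i)
    have h1 : Cfsg.classInner ((χ : G → ℂ) * fun g => conj ((χ : G → ℂ) g))
        (fun g : G => (l.1 (g : G ⧸ N) : ℂ)) = 1 := by
      rw [← CharBasics.classInner_self χ.2, CharBasics.classInner_eq, CharBasics.classInner_eq]
      congr 1
      refine Finset.sum_congr rfl fun g _ => ?_
      simp only [Pi.mul_apply]
      rw [mul_assoc, ← map_mul, mul_comm ((χ : G → ℂ) g) (l.1 _ : ℂ), l.2 g]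
    exact one_ne_zero (h1.symm.trans h0)
  choose f hf using hex
  have hinj : Function.Injective f := by
    intro a b hab
    have h := (hf a).symm.trans ((congrArg ψ hab).trans (hf b))
    refine Subtype.ext (MonoidHom.ext fun q => ?_)
    induction q using QuotientGroup.induction_on with
    | H g => exact Units.ext (congrFun h g)
  have hr : r ≤ Cfsg.charDegree (χ : G → ℂ) ^ 2 := by
    have h1 := congrFun hsum 1
    simp only [Pi.mul_apply, Finset.sum_apply, CharBasics.apply_one hc, Complex.conj_natCast,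
      CharBasics.apply_one (CharBasics.isCharacter_of_irr (hψ _))] at h1
    rw [← Nat.cast_mul, ← Nat.cast_sum, Nat.cast_inj] at h1
    rw [pow_two, h1]
    calc r = ∑ _i : Fin r, 1 := by simp
      _ ≤ _ := Finset.sum_le_sum fun i _ => CharBasics.charDegree_pos (hψ i)
  calc _ ≤ Nat.card (Fin r) := Nat.card_le_card_of_injective f hinj
    _ = r := by simp
    _ ≤ _ := hr

theorem main_dvd {G : Type*} [Group G] [Finite G] (N : Subgroup G) [N.Normal]
    (hG : IsPGroup 2 G) (hN : ∀ x : G, x ^ 2 ∈ N) (k : ℕ)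
    (hgen : 2 ^ (2 * k + 1) ≤ Nat.card (G ⧸ N)) :
    2 ^ (k + 1) ∣ Nat.card {x : G // x ^ 2 = 1} := by
  classical
  haveI := Fintype.ofFinite G
  haveI := Fintype.ofFinite (Cfsg.IrrCharacter G)
  have hsq : ∀ a : G ⧸ N, a * a = 1 := by
    intro a
    induction a using QuotientGroup.induction_on with
    | H g => rw [← QuotientGroup.mk_mul, ← pow_two, (QuotientGroup.eq_one_iff _).2 (hN g)]
  letI mc : CommGroup (G ⧸ N) :=
    { (inferInstance : Group (G ⧸ N)) with
      mul_comm := fun a b => by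
        have hinv : ∀ x : G ⧸ N, x⁻¹ = x := fun x => inv_eq_of_mul_eq_one_right (hsq x)
        rw [← hinv (a * b), mul_inv_rev, hinv, hinv] }
  let L := (G ⧸ N) →* ℂˣ
  have hLcard : Nat.card L = Nat.card (G ⧸ N) :=
    CommGroup.card_monoidHom_of_hasEnoughRootsOfUnity (G ⧸ N) ℂ
  obtain ⟨d, hd⟩ := IsPGroup.iff_card.1 (hG.to_quotient N)
  have hdk : 2 * k + 1 ≤ d := by
    rw [hd] at hgen
    exact (Nat.pow_le_pow_iff_right (by norm_num)).1 hgen
  haveI : Finite L := Nat.finite_of_card_ne_zero (by rw [hLcard, hd]; positivity)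
  letI act : MulAction L (Cfsg.IrrCharacter G) :=
    { smul := fun l χ => ⟨fun g : G => (l (g : G ⧸ N) : ℂ) * (χ : G → ℂ) g, twist_irr N hN l χ⟩
      one_smul := fun χ => Subtype.ext (funext fun g => one_mul _)
      mul_smul := fun l m χ => Subtype.ext (funext fun g => mul_assoc _ _ _) }
  have hsmul : ∀ (l : L) (χ : Cfsg.IrrCharacter G) (g : G),
      ((l • χ : Cfsg.IrrCharacter G) : G → ℂ) g = (l (g : G ⧸ N) : ℂ) * (χ : G → ℂ) g :=
    fun _ _ _ => rfl
  have hz : ∀ χ : Cfsg.IrrCharacter G, ∃ z : ℤ, BrauerInd.ind (χ : G → ℂ) = (z : ℂ) := fun χ => by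
    rcases (BrauerInd.fs_trichotomy χ.2).1 with h | h | h
    · exact ⟨0, by simp [h]⟩
    · exact ⟨1, by simp [h]⟩
    · exact ⟨-1, by simp [h]⟩
  choose z hz using hz
  let f : Cfsg.IrrCharacter G → ℤ := fun χ => z χ * (Cfsg.charDegree (χ : G → ℂ) : ℤ)
  have hinv : ∀ (l : L) (χ : Cfsg.IrrCharacter G), f (l • χ) = f χ := by
    intro l χ
    have h1 : BrauerInd.ind ((l • χ : Cfsg.IrrCharacter G) : G → ℂ) = BrauerInd.ind (χ : G → ℂ) := by
      unfold BrauerInd.ind
      congr 1
      refine Finset.sum_congr rfl fun s _ => ?_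
      rw [hsmul, ← pow_two, (QuotientGroup.eq_one_iff _).2 (hN s), map_one, Units.val_one, one_mul]
    have h2 : (Cfsg.charDegree ((l • χ : Cfsg.IrrCharacter G) : G → ℂ) : ℂ) =
        (Cfsg.charDegree (χ : G → ℂ) : ℂ) := by
      rw [← CharBasics.apply_one (CharBasics.isCharacter_of_irr (l • χ).2),
        ← CharBasics.apply_one (CharBasics.isCharacter_of_irr χ.2), hsmul, QuotientGroup.mk_one,
        map_one, Units.val_one, one_mul]
    have h3 : (z (l • χ) : ℂ) = (z χ : ℂ) := by rw [← hz, ← hz, h1]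
    show z (l • χ) * _ = z χ * _
    rw [Int.cast_inj.1 h3, Nat.cast_inj.1 h2]
  have horb : ∀ χ : Cfsg.IrrCharacter G, (2 : ℤ) ^ (k + 1) ∣
      (Nat.card (MulAction.orbit L χ) : ℤ) * f χ := by
    intro χ
    obtain ⟨e, he⟩ := IsPGroup.iff_card.1 hG
    obtain ⟨a, -, ha⟩ := (Nat.dvd_prime_pow Nat.prime_two).1 (he ▸ CharBasics.degree_dvd χ)
    have hmul := MulAction.index_stabilizer L χ
    have hidx := (MulAction.stabilizer L χ).card_mul_index
    rw [hmul, ← Nat.card_coe_set_eq, hLcard, hd] at hidx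
    obtain ⟨s, -, hs⟩ := (Nat.dvd_prime_pow Nat.prime_two).1 (Dvd.intro _ hidx)
    have hs2 : s ≤ 2 * a := by
      have h1 : Nat.card (MulAction.stabilizer L χ) ≤ Cfsg.charDegree (χ : G → ℂ) ^ 2 := by
        refine le_trans (le_of_eq (Nat.card_congr (Equiv.subtypeEquivRight fun l => ?_))) (fix_le_sq N hN χ)
        rw [MulAction.mem_stabilizer_iff, Subtype.ext_iff, funext_iff]
        rfl
      rw [hs, ha, ← pow_mul] at h1
      have := (Nat.pow_le_pow_iff_right (by norm_num)).1 h1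
      omega
    rw [hs] at hidx
    have hsd : s ≤ d := (Nat.pow_dvd_pow_iff_le_right (by norm_num)).1 (Dvd.intro _ hidx)
    have hO : Nat.card (MulAction.orbit L χ) = 2 ^ (d - s) := by
      refine Nat.eq_of_mul_eq_mul_left (pow_pos (by norm_num : 0 < 2) s) ?_
      rw [hidx, ← pow_add]
      congr 1
      omega
    have hk1 : 2 ^ (k + 1) ∣ 2 ^ (d - s) * 2 ^ a := by
      rw [← pow_add]
      exact pow_dvd_pow 2 (by omega)
    have : f χ = ((2 ^ a : ℕ) : ℤ) * z χ := by
      show z χ * _ = _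
      rw [ha, mul_comm]
    rw [hO, this, ← mul_assoc]
    refine Dvd.dvd.mul_right ?_ _
    exact_mod_cast hk1
  have hsum : (2 : ℤ) ^ (k + 1) ∣ ∑ χ : Cfsg.IrrCharacter G, f χ := by
    rw [← Finset.sum_fiberwise_of_maps_to (g := fun χ => MulAction.orbit L χ)
      (t := Finset.univ.image fun χ => MulAction.orbit L χ)
      (fun χ hχ => Finset.mem_image_of_mem _ hχ)]
    refine Finset.dvd_sum fun O hO => ?_
    obtain ⟨χ, -, rfl⟩ := Finset.mem_image.1 hO
    rw [Finset.sum_congr rfl (g := fun _ => f χ) (fun ψ hψ => ?_), Finset.sum_const, nsmul_eq_mul]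
    · have hcard : (Finset.univ.filter fun ψ => MulAction.orbit L ψ = MulAction.orbit L χ).card =
          Nat.card (MulAction.orbit L χ) := by
        rw [← Fintype.card_subtype, ← Nat.card_eq_fintype_card]
        exact Nat.card_congr (Equiv.subtypeEquivRight fun ψ => MulAction.orbit_eq_iff)
      rw [hcard]
      exact horb χ
    · obtain ⟨l, rfl⟩ := MulAction.orbit_eq_iff.1 (Finset.mem_filter.1 hψ).2
      exact hinv l χ
  have hcount : (∑ χ : Cfsg.IrrCharacter G, f χ) = (Nat.card {x : G // x ^ 2 = 1} : ℤ) := by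
    have h := BrauerInd.sum_ind_mul_degree (G := G)
    simp only [hz] at h
    exact_mod_cast h
  rw [hcount] at hsum
  exact_mod_cast hsum

/-- Let G be a finite 2-group with #(G/Φ(G)) ≥ 2^(2k+1). Then the number of elements x of G with x² = 1 is divisible by 2^(k+1). -/
theorem result {G : Type*} [Group G] [Finite G] (hG : IsPGroup 2 G) (k : ℕ)
    (hgen : 2 ^ (2 * k + 1) ≤ Nat.card (G ⧸ frattini G)) :
    2 ^ (k + 1) ∣ Nat.card {x : G // x ^ 2 = 1} := by
  exact main_dvd (frattini G) hG (fun x => CfsgLib.PGroup.pow_mem_frattini hG x) k hgen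

end Cfsg.Agent.S4058
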