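import Cfsg.Statements.S4065
import Cfsg.Agent.SL2.PSL
-- import your own Cfsg.Agent.* helpers here

set_option autoImplicit false
open Cfsg

namespace Cfsg.Agent.S4065

/-- Let F be a finite field with 2ⁿ elements, n ≥ 2. In PSL₂(F) the centralizer of every element meets each of its conjugates by elements outside its normalizer trivially. -/
theorem result (n : ℕ) (hn : 2 ≤ n)
    (x : Matrix.ProjectiveSpecialLinearGroup (Fin 2) (GaloisField 2 n)) :
    Cfsg.IsTISubset (Subgroup.centralizer ({x} : Set (Matrix.ProjectiveSpecialLinearGroup (Fin 2) (GaloisField 2 n))) :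
      Set (Matrix.ProjectiveSpecialLinearGroup (Fin 2) (GaloisField 2 n))) := by
  intro g hg y hy hgy
  by_contra hy1
  have h2 : (2 : GaloisField 2 n) = 0 := CharTwo.two_eq_zero
  have key : ∀ u v w : (Matrix.ProjectiveSpecialLinearGroup (Fin 2) (GaloisField 2 n)), v ≠ 1 → u * v = v * u → w * v = v * w → u * w = w * u := by
    intro u v w hv hu hw
    obtain ⟨a, rfl⟩ := CfsgLib.SL2.proj_surjective u
    obtain ⟨b, rfl⟩ := CfsgLib.SL2.proj_surjective v
    obtain ⟨c, rfl⟩ := CfsgLib.SL2.proj_surjective w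
    have hab := CfsgLib.SL2.commute_proj_iff.mp hu
    have hcb := CfsgLib.SL2.commute_proj_iff.mp hw
    have e : ∀ z : Matrix.SpecialLinearGroup (Fin 2) (GaloisField 2 n), -z = z := fun z => by
      rw [← neg_one_mul, CfsgLib.SL2.neg_one_eq_one h2, one_mul]
    rw [e, or_self] at hab hcb
    exact CfsgLib.SL2.commute_proj_iff.mpr
      (Or.inl (CfsgLib.SL2.centralizer_comm (CfsgLib.SL2.not_center_of_proj_ne_one hv) hab hcb))
  rcases eq_or_ne x 1 with rfl | hx1
  · apply hg
    have hall : ∀ z : (Matrix.ProjectiveSpecialLinearGroup (Fin 2) (GaloisField 2 n)), z ∈ Subgroup.centralizer ({(1 : (Matrix.ProjectiveSpecialLinearGroup (Fin 2) (GaloisField 2 n)))} : Set (Matrix.ProjectiveSpecialLinearGroup (Fin 2) (GaloisField 2 n))) := fun z => by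
      simp [Subgroup.mem_centralizer_singleton_iff]
    rw [Subgroup.mem_normalizer_iff]
    exact fun z => ⟨fun _ => hall _, fun _ => hall _⟩
  · have hCy : ∀ v : (Matrix.ProjectiveSpecialLinearGroup (Fin 2) (GaloisField 2 n)), v ≠ 1 → v * x = x * v → ∀ z : (Matrix.ProjectiveSpecialLinearGroup (Fin 2) (GaloisField 2 n)), (z * x = x * z ↔ z * v = v * z) :=
      fun v hv hvx z => ⟨fun hz => key z x v hx1 hz hvx, fun hz => key z v x hv hz hvx.symm⟩
    have hyx : y * x = x * y := Subgroup.mem_centralizer_singleton_iff.mp hy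
    have hgyx : g * y * g⁻¹ * x = x * (g * y * g⁻¹) := Subgroup.mem_centralizer_singleton_iff.mp hgy
    have hgy1 : g * y * g⁻¹ ≠ 1 := fun h => hy1 (conj_eq_one_iff.mp h)
    apply hg
    rw [Subgroup.mem_normalizer_iff]
    intro z
    rw [Subgroup.mem_centralizer_singleton_iff, Subgroup.mem_centralizer_singleton_iff,
      hCy y hy1 hyx z, hCy (g * y * g⁻¹) hgy1 hgyx (g * z * g⁻¹)]
    constructor <;> intro h
    · calc g * z * g⁻¹ * (g * y * g⁻¹) = g * (z * y) * g⁻¹ := by group
        _ = g * (y * z) * g⁻¹ := by rw [h]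
        _ = g * y * g⁻¹ * (g * z * g⁻¹) := by group
    · calc z * y = g⁻¹ * (g * z * g⁻¹ * (g * y * g⁻¹)) * g := by group
        _ = g⁻¹ * (g * y * g⁻¹ * (g * z * g⁻¹)) * g := by rw [h]
        _ = y * z := by group

end Cfsg.Agent.S4065
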