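import Cfsg.Statements.S4066
import Cfsg.Agent.PCore.Basic

set_option autoImplicit false
open Cfsg

namespace Cfsg.Agent.S4066

/-- Let G be a finite group in which the centralizer of every element meets each of its conjugates by elements outside its normalizer trivially. Then any two distinct Sylow p-subgroups of G, for any prime p, intersect trivially. -/
theorem result {G : Type*} [Group G] [Finite G] (hTI : ∀ x : G, Cfsg.IsTISubset (Subgroup.centralizer ({x} : Set G) : Set G))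
    {p : ℕ} [Fact p.Prime] (P Q : Sylow p G) (hPQ : P ≠ Q) : (P : Subgroup G) ⊓ (Q : Subgroup G) = ⊥ := by
  classical
  by_contra hne
  obtain ⟨⟨w, hw⟩, hw'⟩ := Subgroup.ne_bot_iff_exists_ne_one.1 hne
  have hw1 : w ≠ 1 := fun e => hw' (Subtype.ext e)
  have hTI' : ∀ x a b : G, a ≠ 1 → a ∈ Subgroup.centralizer ({x} : Set G) → b * a = a * b →
      b ∈ Subgroup.normalizer (Subgroup.centralizer ({x} : Set G) : Set G) := by
    intro x a b ha hax hba
    by_contra hb
    exact ha (hTI x b hb a hax (by rw [hba, mul_inv_cancel_right]; exact hax))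
  suffices gen : ∀ w : G, w ≠ 1 → ∃ O : Subgroup G, (∀ v : G, v * w = w * v → (∃ n, orderOf v = p ^ n) → v ∈ O) ∧
      ∀ S : Sylow p G, w ∈ S → O ≤ (S : Subgroup G) ∧
      ∃ z, z ∈ S ∧ z ≠ 1 ∧ z * w = w * z ∧ (∃ n, orderOf z = p ^ n) ∧ ∀ s ∈ S, s * z = z * s by
    obtain ⟨O, hmemO, main⟩ := gen w hw1
    obtain ⟨-, z, hzP, hz1, hzw, hzp, hzc⟩ := main P hw.1
    obtain ⟨hOQ, -⟩ := main Q hw.2
    have hzQ : z ∈ Q := hOQ (hmemO z hzw hzp)
    obtain ⟨O', hmemO', main'⟩ := gen z hz1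
    refine hPQ (Sylow.ext (le_antisymm ?_ ?_))
    · intro s hs
      obtain ⟨n, hn⟩ := IsPGroup.iff_orderOf.1 P.isPGroup' ⟨s, hs⟩
      exact (main' Q hzQ).1 (hmemO' s (hzc s hs) ⟨n, by rwa [Subgroup.orderOf_mk] at hn⟩)
    · refine (P.is_maximal' Q.isPGroup' ?_).le
      intro s hs
      obtain ⟨n, hn⟩ := IsPGroup.iff_orderOf.1 P.isPGroup' ⟨s, hs⟩
      exact (main' Q hzQ).1 (hmemO' s (hzc s hs) ⟨n, by rwa [Subgroup.orderOf_mk] at hn⟩)
  clear hw hw' hw1 hne w
  intro w hw1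
  set K := Subgroup.centralizer ({w} : Set G) with hK
  -- the conjugates of an element inside `K` commute
  have hcomm : ∀ x ∈ K, ∀ k ∈ K, Commute (k * x * k⁻¹) x := by
    intro x hx k hk
    have hwx : w ∈ Subgroup.centralizer ({x} : Set G) :=
      Subgroup.mem_centralizer_singleton_iff.2 (Subgroup.mem_centralizer_singleton_iff.1 hx).symm
    have := hTI' x w k hw1 hwx (Subgroup.mem_centralizer_singleton_iff.1 hk)
    have h1 := (Subgroup.mem_normalizer_iff.1 this x).1 (Subgroup.mem_centralizer_singleton_iff.2 rfl)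
    exact Subgroup.mem_centralizer_singleton_iff.1 h1
  have hpel : ∀ x : K, (∃ n, orderOf x = p ^ n) → x ∈ Cfsg.pCore p K := by
    rintro x ⟨n, hn⟩
    have hA : IsPGroup p (Subgroup.normalClosure ({x} : Set K)) := by
      rw [Subgroup.normalClosure, Group.conjugatesOfSet]
      have hS : ∀ y ∈ (⋃ a ∈ ({x} : Set K), conjugatesOf a), ∃ k : K, k * x * k⁻¹ = y := by
        intro y hy
        simp only [Set.mem_singleton_iff, Set.iUnion_iUnion_eq_left] at hy
        exact isConj_iff.1 hy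
      generalize hSdef : (⋃ a ∈ ({x} : Set K), conjugatesOf a) = S at hS ⊢
      haveI : IsMulCommutative (Subgroup.closure S) := by
        refine Subgroup.isMulCommutative_closure fun a ha b hb => ?_
        obtain ⟨i, rfl⟩ := hS a ha
        obtain ⟨j, rfl⟩ := hS b hb
        have h1 := hcomm x x.2 ((j⁻¹ * i : K) : G) (j⁻¹ * i : K).2
        have h2 : Commute (j⁻¹ * i * x * (j⁻¹ * i)⁻¹) x := Subtype.ext h1.eq
        have h3 := (Commute.conj_iff j).2 h2
        rw [show j * (j⁻¹ * i * x * (j⁻¹ * i)⁻¹) * j⁻¹ = i * x * i⁻¹ by group] at h3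
        exact h3.eq
      intro y
      refine ⟨n, ?_⟩
      refine Subgroup.closure_induction (k := S) (p := fun z hz => (⟨z, hz⟩ : Subgroup.closure S) ^ p ^ n = 1)
        (fun z hz => ?_) (one_pow _) (fun a b ha hb iha ihb => ?_) (fun a ha iha => ?_) y.2
      · obtain ⟨k, rfl⟩ := hS z hz
        apply Subtype.ext
        show (k * x * k⁻¹) ^ p ^ n = 1
        rw [conj_pow, ← hn, pow_orderOf_eq_one, mul_one, mul_inv_cancel]
      · rw [← MulMemClass.mk_mul_mk _ a b ha hb, Commute.mul_pow, iha, ihb, one_mul]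
        exact IsMulCommutative.is_comm.comm _ _
      · rw [show (⟨a⁻¹, Subgroup.inv_mem _ ha⟩ : Subgroup.closure S) = ⟨a, ha⟩⁻¹ from rfl, inv_pow, iha, inv_one]
    exact CfsgLib.PCore.le_pCore Subgroup.normalClosure_normal hA
      (Subgroup.subset_normalClosure (Set.mem_singleton x))
  set O := (Cfsg.pCore p K).map K.subtype with hO
  have hOp : IsPGroup p O := (CfsgLib.PCore.isPGroup_pCore p K).map _
  have hmemO : ∀ v : G, v * w = w * v → (∃ n, orderOf v = p ^ n) → v ∈ O := by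
    rintro v hv ⟨n, hn⟩
    exact ⟨⟨v, Subgroup.mem_centralizer_singleton_iff.2 hv⟩, hpel _ ⟨n, by rw [Subgroup.orderOf_mk]; exact hn⟩, rfl⟩
  -- every Sylow subgroup containing `w` contains all `p`-elements centralizing `w`
  have main : ∀ S : Sylow p G, w ∈ S → O ≤ (S : Subgroup G) ∧
      ∃ z, z ∈ S ∧ z ≠ 1 ∧ z * w = w * z ∧ (∃ n, orderOf z = p ^ n) ∧ ∀ s ∈ S, s * z = z * s := by
    intro S hwS
    haveI : Nontrivial (S : Subgroup G) := ⟨⟨⟨w, hwS⟩, 1, fun e => hw1 (congrArg Subtype.val e)⟩⟩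
    haveI := S.isPGroup'.center_nontrivial
    obtain ⟨⟨⟨z, hzS⟩, hzc⟩, hz1⟩ := exists_ne (1 : Subgroup.center (S : Subgroup G))
    have hzcomm : ∀ s ∈ S, s * z = z * s := fun s hs =>
      congrArg Subtype.val (Subgroup.mem_center_iff.1 hzc ⟨s, hs⟩)
    have hz : z ≠ 1 := fun e => hz1 (Subtype.ext (Subtype.ext e))
    have hzp : ∃ n, orderOf z = p ^ n := by
      obtain ⟨n, hn⟩ := IsPGroup.iff_orderOf.1 S.isPGroup' ⟨z, hzS⟩
      exact ⟨n, by rwa [Subgroup.orderOf_mk] at hn⟩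
    have hzw : z * w = w * z := (hzcomm w hwS).symm
    have hSK : (S : Subgroup G) ≤ Subgroup.normalizer (O : Set G) := by
      intro s hs
      have hsN := hTI' w z s hz (Subgroup.mem_centralizer_singleton_iff.2 hzw) (hzcomm s hs)
      have hf : ∀ s : G, s ∈ Subgroup.normalizer (K : Set G) → ∀ v ∈ O, s * v * s⁻¹ ∈ O := by
        rintro s hs' _ ⟨v, hv, rfl⟩
        refine hmemO _ (Subgroup.mem_centralizer_singleton_iff.1 ((Subgroup.mem_normalizer_iff.1 hs' _).1 v.2)) ?_
        obtain ⟨n, hn⟩ := IsPGroup.iff_orderOf.1 (CfsgLib.PCore.isPGroup_pCore p K) ⟨v, hv⟩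
        refine ⟨n, ?_⟩
        rw [← MulAut.conj_apply, MulEquiv.orderOf_eq, Subgroup.coe_subtype, Subgroup.orderOf_coe]
        rwa [Subgroup.orderOf_mk] at hn
      rw [Subgroup.mem_normalizer_iff]
      intro v
      refine ⟨hf s hsN v, fun hv => ?_⟩
      have := hf s⁻¹ (inv_mem hsN) _ hv
      simpa [mul_assoc] using this
    have heq := S.is_maximal' (IsPGroup.to_sup_of_normal_left' hOp S.isPGroup' hSK) le_sup_right
    exact ⟨le_sup_left.trans heq.le, z, hzS, hz, hzw, hzp, hzcomm⟩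
  exact ⟨O, hmemO, main⟩

end Cfsg.Agent.S4066
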