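import Cfsg.Statements.S4068
import Cfsg.Agent.FourOrbits.Count
import Cfsg.Agent.FourOrbits.Arith
import Cfsg.Agent.FourOrbits.Exclude
import Cfsg.Agent.S0494

set_option autoImplicit false
set_option linter.style.haveILetI false
open Cfsg

namespace Cfsg.Agent.S4068

open CfsgLib.FourOrbits

theorem isSolvable_of_card_primeFactors {K : Type*} [Group K] [Finite K]
    (h : (Nat.card K).primeFactors.card ≤ 2) : Group.IsSolvable K := by
  obtain ⟨a, b, hab⟩ : ∃ a b : ℕ, (Nat.card K).primeFactors ⊆ {a, b} := by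
    rcases Nat.lt_or_ge (Nat.card K).primeFactors.card 2 with h' | h'
    · obtain ⟨a, ha⟩ := Finset.card_le_one_iff_subset_singleton.mp (Nat.le_of_lt_succ h')
      exact ⟨a, a, ha.trans (by simp)⟩
    · obtain ⟨a, b, -, hab⟩ := Finset.card_eq_two.mp (le_antisymm h h')
      exact ⟨a, b, hab.le⟩
  refine CfsgLib.CharBasics.isSolvable_two_primes a b fun r hr hrd => ?_
  simpa using hab (Nat.mem_primeFactors.mpr ⟨hr, hrd, Nat.card_pos.ne'⟩)

theorem orbit_facts {G : Type*} [Group G] [Finite G] (hns : ¬ Group.IsSolvable G)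
    (h4 : Nat.card (MulAction.orbitRel.Quotient (MulAut G) G) = 4) :
    PrimeOrders G ∧ Homogeneous G ∧ (Nat.card G).primeFactors.card = 3 := by
  classical
  set π := (Nat.card G).primeFactors with hπ
  let φ : MulAction.orbitRel.Quotient (MulAut G) G → ℕ :=
    Quotient.lift (fun g : G => orderOf g) (fun a b h => by
      obtain ⟨e, rfl⟩ := MulAction.orbitRel_apply.mp h
      exact e.orderOf_eq b)
  haveI : Fintype (MulAction.orbitRel.Quotient (MulAut G) G) := Fintype.ofFinite _
  have hsub : insert 1 π ⊆ Finset.univ.image φ := by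
    intro t ht
    rw [Finset.mem_image]
    rcases Finset.mem_insert.mp ht with rfl | ht
    · exact ⟨Quotient.mk'' 1, Finset.mem_univ _, orderOf_one⟩
    · haveI := Fact.mk (Nat.prime_of_mem_primeFactors ht)
      obtain ⟨x, hx⟩ := exists_prime_orderOf_dvd_card' t (Nat.dvd_of_mem_primeFactors ht)
      exact ⟨Quotient.mk'' x, Finset.mem_univ _, hx⟩
  have h1 : 1 ∉ π := fun h => Nat.not_prime_one (Nat.prime_of_mem_primeFactors h)
  have h3 : 3 ≤ π.card := by
    by_contra h
    exact hns (isSolvable_of_card_primeFactors (Nat.le_of_lt_succ (not_le.mp h)))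
  have hle : (Finset.univ.image φ).card ≤ 4 := by
    refine Finset.card_image_le.trans (le_of_eq ?_)
    rw [Finset.card_univ, ← Nat.card_eq_fintype_card, h4]
  have hcard := Finset.card_le_card hsub
  rw [Finset.card_insert_of_notMem h1] at hcard
  have heq : insert 1 π = Finset.univ.image φ := Finset.eq_of_subset_of_card_le hsub (by
    rw [Finset.card_insert_of_notMem h1]; omega)
  have hinj : Function.Injective φ := by
    have h : (Finset.univ.image φ).card = (Finset.univ : Finset (MulAction.orbitRel.Quotient (MulAut G) G)).card := by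
      rw [Finset.card_univ, ← Nat.card_eq_fintype_card, h4]; omega
    intro a b hab
    exact Finset.card_image_iff.mp h (Finset.mem_coe.mpr (Finset.mem_univ a)) (Finset.mem_coe.mpr (Finset.mem_univ b)) hab
  refine ⟨fun g hg => ?_, fun x y hxy => ?_, by omega⟩
  · have hmem : φ (Quotient.mk'' g) ∈ insert 1 π := heq ▸ Finset.mem_image_of_mem φ (Finset.mem_univ _)
    rcases Finset.mem_insert.mp hmem with h | h
    · exact absurd (orderOf_eq_one_iff.mp h) hg
    · exact Nat.prime_of_mem_primeFactors h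
  · obtain ⟨e, he⟩ := MulAction.orbitRel_apply.mp (Quotient.exact (hinj
      (show φ (Quotient.mk'' y) = φ (Quotient.mk'' x) from hxy.symm)))
    exact ⟨e, he⟩

theorem isSimple_sixty {G : Type*} [Group G] [Finite G] (hns : ¬ Group.IsSolvable G) (hG : PrimeOrders G)
    (h60 : Nat.card G = 60)
    (hN : ∀ P : Sylow 2 G, (P : Subgroup G).relIndex (Subgroup.normalizer ((P : Subgroup G) : Set G)) = 3) :
    IsSimpleGroup G := by
  classical
  haveI : Nontrivial G := Finite.one_lt_card_iff_nontrivial.mp (by rw [h60]; norm_num)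
  refine ⟨fun N hNn => ?_⟩
  by_contra hc
  rw [not_or] at hc
  haveI := hNn
  have hfac : (60 : ℕ).primeFactors = {2, 3, 5} := by
    rw [show (60 : ℕ) = 2 ^ 2 * (3 * 5) by norm_num, Nat.primeFactors_mul (by norm_num) (by norm_num),
      Nat.primeFactors_mul (by norm_num) (by norm_num), Nat.primeFactors_prime_pow (by norm_num) Nat.prime_two,
      Nat.prime_three.primeFactors, (by norm_num : (5 : ℕ).Prime).primeFactors]
    rfl
  have key : ∀ t : ℕ, t.Prime → t ∣ Nat.card N → ¬ t ∣ N.index := by
    intro t ht htN hti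
    haveI := Fact.mk ht
    obtain ⟨x, hx⟩ := exists_prime_orderOf_dvd_card' t htN
    rw [← Subgroup.orderOf_coe] at hx
    obtain ⟨P, hP⟩ := (IsPGroup.of_card (n := 1) (by rw [Nat.card_zpowers, hx, pow_one]) :
      IsPGroup t (Subgroup.zpowers (x : G))).exists_le_sylow
    suffices h : (P : Subgroup G) ≤ N from P.not_dvd_index (hti.trans (Subgroup.index_dvd_of_le h))
    have hcardP : Nat.card P = t ^ (60 : ℕ).factorization t := h60 ▸ P.card_eq_multiplicity
    have htmem : t ∈ (60 : ℕ).primeFactors :=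
      Nat.mem_primeFactors.mpr ⟨ht, h60 ▸ htN.trans N.card_subgroup_dvd_card, by norm_num⟩
    rw [hfac] at htmem
    set D : Subgroup G := (P : Subgroup G) ⊓ N with hD
    have hxD : (x : G) ∈ D := ⟨hP (Subgroup.mem_zpowers _), x.2⟩
    have hDt : t ∣ Nat.card D := hx ▸ D.orderOf_dvd_natCard hxD
    suffices h : Nat.card P ≤ Nat.card D by
      exact (Subgroup.eq_of_le_of_card_ge (inf_le_left : D ≤ (P : Subgroup G)) h) ▸ inf_le_right
    rcases eq_or_ne t 2 with rfl | ht2
    · have hP4 : Nat.card P = 4 := by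
        rw [hcardP, show (60 : ℕ) = 2 ^ 2 * 15 by norm_num, Nat.factorization_mul (by norm_num) (by norm_num),
          Finsupp.add_apply, Nat.prime_two.factorization_pow, Finsupp.single_eq_same,
          Nat.factorization_eq_zero_of_not_dvd (by norm_num)]
        rfl
      have hD4 : Nat.card D ∣ 4 := hP4 ▸ Subgroup.card_dvd_of_le inf_le_left
      by_contra hlt
      have hD2 : Nat.card D = 2 := by
        have h1 : Nat.card D ≤ 4 := Nat.le_of_dvd (by norm_num) hD4
        have h2 : 0 < Nat.card D := Nat.card_pos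
        omega
      set M := Subgroup.normalizer ((P : Subgroup G) : Set G)
      obtain ⟨y, hy⟩ := (Fact.mk Nat.prime_three).elim |> fun h3 => @exists_prime_orderOf_dvd_card' M _ _ 3 ⟨h3⟩
        (by rw [← hN P]; exact Subgroup.index_dvd_card ((P : Subgroup G).subgroupOf M))
      rw [← Subgroup.orderOf_coe] at hy
      have hmem : (y : G) * x * (y : G)⁻¹ ∈ D :=
        ⟨(Subgroup.mem_normalizer_iff.mp y.2 _).mp hxD.1, hNn.conj_mem _ x.2 _⟩
      obtain ⟨d, -, huniq⟩ := (Nat.card_eq_two_iff' (1 : D)).mp hD2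
      have hx1 : (x : G) ≠ 1 := fun e => by rw [e, orderOf_one] at hx; norm_num at hx
      have h5 : (⟨_, hmem⟩ : D) = ⟨x, hxD⟩ := (huniq _ (fun e => hx1 (by
        have h := congrArg Subtype.val e
        exact conj_eq_one_iff.mp h))).trans (huniq _ (fun e => hx1 (congrArg Subtype.val e))).symm
      have h6 := hG.orderOf_eq_of_commute (mul_inv_eq_iff_eq_mul.mp (congrArg Subtype.val h5))
        (fun e => by rw [e, orderOf_one] at hy; norm_num at hy) hx1
      omega
    · refine Nat.le_of_dvd Nat.card_pos ?_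
      rw [hcardP]
      simp only [Finset.mem_insert, Finset.mem_singleton] at htmem
      have h1 : (60 : ℕ).factorization t = 1 := by
        rcases htmem with rfl | rfl | rfl
        · exact absurd rfl ht2
        · rw [show (60 : ℕ) = 3 * 20 by norm_num, Nat.factorization_mul (by norm_num) (by norm_num),
            Finsupp.add_apply, Nat.prime_three.factorization_self, Nat.factorization_eq_zero_of_not_dvd (by norm_num)]
        · rw [show (60 : ℕ) = 5 * 12 by norm_num, Nat.factorization_mul (by norm_num) (by norm_num),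
            Finsupp.add_apply, (by norm_num : (5 : ℕ).Prime).factorization_self, Nat.factorization_eq_zero_of_not_dvd (by norm_num)]
      rw [h1, pow_one]
      exact hDt
  have hA : ∀ n : ℕ, n ∣ 60 → ∀ t, t.Prime → t ∣ 60 → ¬ t ∣ n → n.primeFactors.card ≤ 2 := by
    intro n hn t ht ht60 htn
    have h1 : n.primeFactors ⊆ (60 : ℕ).primeFactors.erase t := fun r hr => Finset.mem_erase.mpr
      ⟨fun e => htn (e ▸ Nat.dvd_of_mem_primeFactors hr), Nat.primeFactors_mono hn (by norm_num) hr⟩
    have h2 := Finset.card_le_card h1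
    rw [Finset.card_erase_of_mem (Nat.mem_primeFactors.mpr ⟨ht, ht60, by norm_num⟩), hfac] at h2
    simpa using h2
  apply hns
  refine CfsgLib.Hall.isSolvable_of_normal N (isSolvable_of_card_primeFactors ?_)
    (isSolvable_of_card_primeFactors ?_)
  · obtain ⟨t, ht, hti⟩ := Nat.exists_prime_and_dvd (fun h => hc.2 (Subgroup.index_eq_one.mp h))
    exact hA _ (h60 ▸ N.card_subgroup_dvd_card) t ht (h60 ▸ hti.trans N.index_dvd_card)
      (fun h => key t ht h hti)
  · obtain ⟨t, ht, htN⟩ := Nat.exists_prime_and_dvd (fun h => hc.1 (Subgroup.card_eq_one.mp h))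
    rw [← Subgroup.index_eq_card]
    exact hA _ (h60 ▸ N.index_dvd_card) t ht (h60 ▸ htN.trans N.card_subgroup_dvd_card) (key t ht htN)

theorem main {G : Type*} [Group G] [Finite G] (hns : ¬ Group.IsSolvable G) (hG : PrimeOrders G)
    (hH : Homogeneous G) (hcard : (Nat.card G).primeFactors.card = 3) :
    Nonempty (G ≃* alternatingGroup (Fin 5)) := by
  classical
  haveI := Fintype.ofFinite G
  set π := (Nat.card G).primeFactors with hπ
  -- the data at each prime
  have hdata : ∀ t ∈ π, ∃ e : ℕ, e.Prime ∧ e ≠ t ∧ e ∈ π ∧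
      e ∣ t ^ (Nat.card G).factorization t - 1 ∧
      (e : ℤ) * (t : ℤ) ^ (Nat.card G).factorization t * Nat.card {x : G // orderOf x = t} =
        (Nat.card G : ℤ) * ((t : ℤ) ^ (Nat.card G).factorization t - 1) ∧
      ∀ P : Sylow t G, (P : Subgroup G).relIndex (Subgroup.normalizer ((P : Subgroup G) : Set G)) = e := by
    intro t ht
    haveI := Fact.mk (Nat.prime_of_mem_primeFactors ht)
    obtain ⟨P⟩ : Nonempty (Sylow t G) := inferInstance
    obtain ⟨h1, h2, h3, h4⟩ := relIndex_normalizer hG hH P hns hcard.le (Nat.dvd_of_mem_primeFactors ht)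
    have hP : Nat.card P = t ^ (Nat.card G).factorization t := P.card_eq_multiplicity
    rw [hP] at h4
    have h5 : ∀ Q : Sylow t G, Nat.card {x : G // orderOf x = t} * (t ^ (Nat.card G).factorization t *
        (Q : Subgroup G).relIndex (Subgroup.normalizer ((Q : Subgroup G) : Set G))) =
        Nat.card G * (t ^ (Nat.card G).factorization t - 1) := fun Q => by
      have h := card_orderOf_mul hG Q
      rw [show Nat.card Q = t ^ (Nat.card G).factorization t from Q.card_eq_multiplicity] at h
      exact h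
    refine ⟨_, h1, h2, h3, h4, ?_, fun Q => ?_⟩
    · have h := congrArg (Nat.cast : ℕ → ℤ) (h5 P)
      push_cast [Nat.cast_sub (Nat.one_le_pow _ _ (Nat.pos_of_ne_zero (Fact.out : t.Prime).ne_zero))] at h
      linear_combination h
    · have h := (h5 Q).trans (h5 P).symm
      haveI : Nonempty {x : G // orderOf x = t} := by
        obtain ⟨x, hx⟩ := exists_prime_orderOf_dvd_card' (G := G) t (Nat.dvd_of_mem_primeFactors ht)
        exact ⟨⟨x, hx⟩⟩
      exact Nat.eq_of_mul_eq_mul_left (pow_pos (Fact.out : t.Prime).pos _)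
        (Nat.eq_of_mul_eq_mul_left Nat.card_pos h)
  choose! e he hne hemem hediv heq heQ using hdata
  have hpos : ∀ t ∈ π, 1 ≤ (Nat.card G).factorization t := fun t ht =>
    (Nat.prime_of_mem_primeFactors ht).factorization_pos_of_dvd Nat.card_pos.ne' (Nat.dvd_of_mem_primeFactors ht)
  have hprod : ∀ {x y z : ℕ}, x ≠ y → x ≠ z → y ≠ z → π = {x, y, z} →
      Nat.card G = x ^ (Nat.card G).factorization x * y ^ (Nat.card G).factorization y * z ^ (Nat.card G).factorization z ∧
      Nat.card G = 1 + Nat.card {g : G // orderOf g = x} + Nat.card {g : G // orderOf g = y} +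
        Nat.card {g : G // orderOf g = z} := by
    intro x y z hxy hxz hyz hset
    constructor
    · conv_lhs => rw [← Nat.factorization_prod_pow_eq_self (n := Nat.card G) Nat.card_pos.ne']
      rw [Finsupp.prod, Nat.support_factorization, ← hπ, hset, Finset.prod_insert (by simp [hxy, hxz]),
        Finset.prod_pair hyz, mul_assoc]
    · have hmaps : ∀ g ∈ (Finset.univ : Finset G), orderOf g ∈ ({1, x, y, z} : Finset ℕ) := fun g _ => by
        rcases eq_or_ne g 1 with rfl | hg
        · simp
        · rw [show ({1, x, y, z} : Finset ℕ) = insert 1 π by rw [hset]]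
          exact Finset.mem_insert_of_mem (Nat.mem_primeFactors.mpr ⟨hG g hg, orderOf_dvd_natCard g, Nat.card_pos.ne'⟩)
      have hone : ∀ w ∈ π, (1 : ℕ) ≠ w := fun w hw => (Nat.prime_of_mem_primeFactors hw).ne_one.symm
      have hx' := hone x (by rw [hset]; simp)
      have hy' := hone y (by rw [hset]; simp)
      have hz' := hone z (by rw [hset]; simp)
      rw [Nat.card_eq_fintype_card, ← Finset.card_univ, Finset.card_eq_sum_card_fiberwise hmaps,
        Finset.sum_insert (by simp [hx', hy', hz']), Finset.sum_insert (by simp [hxy, hxz]),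
        Finset.sum_pair hyz]
      simp only [Nat.card_eq_fintype_card, Fintype.card_subtype]
      have : (Finset.univ.filter fun g : G => orderOf g = 1).card = 1 := by
        rw [Finset.card_eq_one]; exact ⟨1, by ext g; simp⟩
      omega
  have h2mem : 2 ∈ π := by
    by_contra h2
    obtain ⟨x, y, z, hxy, hxz, hyz, hset⟩ := Finset.card_eq_three.mp hcard
    have hx : x ∈ π := by rw [hset]; simp
    have hy : y ∈ π := by rw [hset]; simp
    have hz : z ∈ π := by rw [hset]; simp
    have h3 : ∀ w ∈ π, (3 : ℤ) ≤ e w := fun w hw => by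
      have := (he w hw).two_le
      have : e w ≠ 2 := fun h => h2 (h ▸ hemem w hw)
      omega
    obtain ⟨hpr, hsum⟩ := hprod hxy hxz hyz hset
    have ge2 : ∀ w ∈ π, (2 : ℤ) ≤ (w : ℤ) ^ (Nat.card G).factorization w := fun w hw => by
      exact_mod_cast (Nat.prime_of_mem_primeFactors hw).two_le.trans
        (Nat.le_self_pow (by have := hpos w hw; omega) w)
    have hprZ := congrArg (Nat.cast : ℕ → ℤ) hpr
    have hsumZ := congrArg (Nat.cast : ℕ → ℤ) hsum
    push_cast at hprZ hsumZ
    have e1 := heq x hx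
    have e2 := heq y hy
    have e3 := heq z hz
    set A := (x : ℤ) ^ (Nat.card G).factorization x
    set B := (y : ℤ) ^ (Nat.card G).factorization y
    set C := (z : ℤ) ^ (Nat.card G).factorization z
    have k1 : (e x : ℤ) * Nat.card {g : G // orderOf g = x} = B * C * (A - 1) :=
      mul_left_cancel₀ (show A ≠ 0 by have := ge2 x hx; omega) (by rw [hprZ] at e1; linear_combination e1)
    have k2 : (e y : ℤ) * Nat.card {g : G // orderOf g = y} = A * C * (B - 1) :=
      mul_left_cancel₀ (show B ≠ 0 by have := ge2 y hy; omega) (by rw [hprZ] at e2; linear_combination e2)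
    have k3 : (e z : ℤ) * Nat.card {g : G // orderOf g = z} = A * B * (C - 1) :=
      mul_left_cancel₀ (show C ≠ 0 by have := ge2 z hz; omega) (by rw [hprZ] at e3; linear_combination e3)
    refine even_of_eq (ge2 x hx) (ge2 y hy) (ge2 z hz) (h3 x hx) (h3 y hy) (h3 z hz) ?_
    rw [hprZ] at hsumZ
    linear_combination ((e x : ℤ) * e y * e z) * hsumZ + ((e y : ℤ) * e z) * k1 + ((e x : ℤ) * e z) * k2 +
      ((e x : ℤ) * e y) * k3
  set q := e 2 with hqdef
  have hqmem : q ∈ π := hemem 2 h2mem
  have hq2 : q ≠ 2 := hne 2 h2mem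
  obtain ⟨r, hr⟩ : ∃ r, (π.erase 2).erase q = {r} := Finset.card_eq_one.mp (by
    rw [Finset.card_erase_of_mem (Finset.mem_erase.mpr ⟨hq2, hqmem⟩), Finset.card_erase_of_mem h2mem, hcard])
  have hrmem : r ∈ π ∧ r ≠ 2 ∧ r ≠ q := by
    have h : r ∈ (π.erase 2).erase q := by rw [hr]; simp
    simp only [Finset.mem_erase] at h
    exact ⟨h.2.2, h.2.1, h.1⟩
  have hset : π = {2, q, r} := by
    rw [← Finset.insert_erase h2mem, ← Finset.insert_erase (Finset.mem_erase.mpr ⟨hq2, hqmem⟩), hr]
  have hmem3 : ∀ w ∈ π, w = 2 ∨ w = q ∨ w = r := fun w hw => by rw [hset] at hw; simpa using hw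
  obtain ⟨hpr, hsum⟩ := hprod (Ne.symm hq2) (Ne.symm hrmem.2.1) (Ne.symm hrmem.2.2) hset
  have he2 : e q = 2 ∨ e q = r := by
    rcases hmem3 _ (hemem q hqmem) with h | h | h
    · exact Or.inl h
    · exact absurd h (hne q hqmem)
    · exact Or.inr h
  have he3 : e r = 2 ∨ e r = q := by
    rcases hmem3 _ (hemem r hrmem.1) with h | h | h
    · exact Or.inl h
    · exact Or.inr h
    · exact absurd h (hne r hrmem.1)
  set i := (Nat.card G).factorization 2
  set j := (Nat.card G).factorization q
  set k := (Nat.card G).factorization r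
  have hprZ := congrArg (Nat.cast : ℕ → ℤ) hpr
  have hsumZ := congrArg (Nat.cast : ℕ → ℤ) hsum
  push_cast at hprZ hsumZ
  have e1 := heq 2 h2mem
  have e2 := heq q hqmem
  have e3 := heq r hrmem.1
  push_cast at e1
  rw [← hqdef] at e1
  have hA : (0 : ℤ) < (2 : ℤ) ^ i := by positivity
  have hB : (0 : ℤ) < (q : ℤ) ^ j := pow_pos (by exact_mod_cast (he 2 h2mem).pos) _
  have hC : (0 : ℤ) < (r : ℤ) ^ k := pow_pos (by exact_mod_cast (Nat.prime_of_mem_primeFactors hrmem.1).pos) _
  have k1 : (q : ℤ) * Nat.card {g : G // orderOf g = 2} = (q : ℤ) ^ j * (r : ℤ) ^ k * ((2 : ℤ) ^ i - 1) :=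
    mul_left_cancel₀ hA.ne' (by rw [hprZ] at e1; linear_combination e1)
  have k2 : (e q : ℤ) * Nat.card {g : G // orderOf g = q} = (2 : ℤ) ^ i * (r : ℤ) ^ k * ((q : ℤ) ^ j - 1) :=
    mul_left_cancel₀ hB.ne' (by rw [hprZ] at e2; linear_combination e2)
  have k3 : (e r : ℤ) * Nat.card {g : G // orderOf g = r} = (2 : ℤ) ^ i * (q : ℤ) ^ j * ((r : ℤ) ^ k - 1) :=
    mul_left_cancel₀ hC.ne' (by rw [hprZ] at e3; linear_combination e3)
  rw [hprZ] at hsumZ
  have hclass : (q : ℤ) * e q * e r * ((2 : ℤ) ^ i * (q : ℤ) ^ j * (r : ℤ) ^ k) =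
      q * e q * e r + ((2 : ℤ) ^ i - 1) * (q : ℤ) ^ j * (r : ℤ) ^ k * (e q * e r) +
      ((q : ℤ) ^ j - 1) * (2 : ℤ) ^ i * (r : ℤ) ^ k * (q * e r) +
      ((r : ℤ) ^ k - 1) * (2 : ℤ) ^ i * (q : ℤ) ^ j * (q * e q) := by
    linear_combination ((q : ℤ) * e q * e r) * hsumZ + ((e q : ℤ) * e r) * k1 + ((q : ℤ) * e r) * k2 +
      ((q : ℤ) * e q) * k3
  have hrp := Nat.prime_of_mem_primeFactors hrmem.1
  have hqp := he 2 h2mem
  rcases eq_of_class_equation hqp hrp hq2 hrmem.2.1 (Ne.symm hrmem.2.2) (hpos 2 h2mem) (hpos q hqmem)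
      (hpos r hrmem.1) he2 he3 (hediv 2 h2mem) (hediv q hqmem) (hediv r hrmem.1) hclass with
    ⟨hi, hj, hk⟩ | ⟨hi, hj, hk⟩
  · have h60 : Nat.card G = 60 := by rw [hpr, hi, hj, hk]
    have hq3 : q = 3 := by
      have hd : q ∣ 3 := hj ▸ dvd_pow_self q (Nat.one_le_iff_ne_zero.mp (hpos q hqmem))
      exact (Nat.prime_dvd_prime_iff_eq hqp Nat.prime_three).mp hd
    haveI := isSimple_sixty hns hG h60 (fun P => (heQ 2 h2mem P).trans hq3)
    exact Cfsg.Agent.S0494.result h60
  · exfalso
    have h504 : Nat.card G = 504 := by rw [hpr, hi, hj, hk]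
    have hq7 : q = 7 := (Nat.prime_dvd_prime_iff_eq hqp (by norm_num)).mp
      (hj ▸ dvd_pow_self q (Nat.one_le_iff_ne_zero.mp (hpos q hqmem)))
    have hr3 : r = 3 := (Nat.prime_dvd_prime_iff_eq hrp Nat.prime_three).mp (hrp.dvd_of_dvd_pow
      (show r ∣ 3 ^ 2 by
        have h := dvd_pow_self r (Nat.one_le_iff_ne_zero.mp (hpos r hrmem.1))
        rw [hk] at h
        exact h))
    have heq2 : e q = 2 := by
      rcases he2 with h | h
      · exact h
      · exfalso
        have hi' : (2 : ℤ) ^ i = 8 := by exact_mod_cast hi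
        have hj' : (q : ℤ) ^ j = 7 := by exact_mod_cast hj
        have hk' : (r : ℤ) ^ k = 9 := by exact_mod_cast hk
        rw [hi', hj', hk', h] at hclass
        rcases he3 with h' | h' <;> rw [h', hr3, hq7] at hclass <;> norm_num at hclass
    haveI : Fact (Nat.Prime 7) := ⟨by norm_num⟩
    haveI : Fact (Nat.Prime 2) := ⟨Nat.prime_two⟩
    obtain ⟨P⟩ : Nonempty (Sylow 2 G) := inferInstance
    refine card_ne_504 hG hH P (P.card_eq_multiplicity.trans hi) ((heQ 2 h2mem P).trans hq7) ?_ h504
    intro R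
    obtain ⟨h1, h2⟩ : Nat.card R = q ^ j ∧ ∀ S : Sylow q G,
        (S : Subgroup G).relIndex (Subgroup.normalizer ((S : Subgroup G) : Set G)) = 2 :=
      ⟨by rw [hq7]; exact R.card_eq_multiplicity.trans (by rw [show j = (Nat.card G).factorization 7 from by rw [← hq7]]),
        fun S => (heQ q hqmem S).trans heq2⟩
    rw [hq7] at h2
    exact ⟨h1.trans hj, h2 R⟩

/-- A finite non-solvable group on which its automorphism group has exactly four orbits is isomorphic to the alternating group of degree 5. -/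
theorem result {G : Type*} [Group G] [Finite G] (hns : ¬ Group.IsSolvable G)
    (h4 : Nat.card (MulAction.orbitRel.Quotient (MulAut G) G) = 4) : Nonempty (G ≃* alternatingGroup (Fin 5)) := by
  obtain ⟨hG, hH, hc⟩ := orbit_facts hns h4
  exact main hns hG hH hc

end Cfsg.Agent.S4068
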