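import Cfsg.Statements.S4071
import Mathlib

set_option autoImplicit false
open Cfsg

namespace Cfsg.Agent.S4071

/-- Let G be a finite solvable non-nilpotent group. Every non-abelian subgroup of G is self-normalizing if and only if G is a semidirect product ⟨x⟩ ⋉ A in which ⟨x⟩ is a p-group for some prime p, A is a normal abelian subgroup of order prime to p, x^p is central in G, and x acts fixed-point-freely on A (no non-identity element of A commutes with x). -/
theorem result {G : Type*} [Group G] [Finite G]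
    [Group.IsSolvable G] (hnn : ¬ Group.IsNilpotent G) :
    (∀ H : Subgroup G, ¬ IsMulCommutative H → Subgroup.normalizer (H : Set G) = H) ↔
    ∃ (x : G) (A : Subgroup G) (p : ℕ), p.Prime ∧ A.Normal ∧ IsMulCommutative A ∧ (∃ k : ℕ, orderOf x = p ^ k) ∧
      ¬ p ∣ Nat.card A ∧ (Subgroup.zpowers x).IsComplement' A ∧ x ^ p ∈ Subgroup.center G ∧
      ∀ a : G, a ∈ A → a ≠ 1 → x * a * x⁻¹ ≠ a := by
  classical
  constructor
  · intro hyp
    have hnormab : ∀ N : Subgroup G, N.Normal → N ≠ ⊤ → IsMulCommutative N := by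
      intro N hN hne
      by_contra h
      exact hne ((hyp N h).symm.trans (Subgroup.normalizer_eq_top_iff.2 hN))
    haveI : Nontrivial G := by
      by_contra h
      rw [not_nontrivial_iff_subsingleton] at h
      exact hnn inferInstance
    have hder : commutator G ≠ ⊤ := (Group.IsSolvable.commutator_lt_top_of_nontrivial G).ne
    obtain ⟨M, hMc, hGM⟩ := (eq_top_or_exists_le_coatom (commutator G)).resolve_left hder
    have hnorm : ∀ N : Subgroup G, commutator G ≤ N → N.Normal := by
      intro N hN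
      refine ⟨fun n hn g => ?_⟩
      have h1 : g * n * g⁻¹ * n⁻¹ ∈ N :=
        hN (Subgroup.commutator_mem_commutator (Subgroup.mem_top g) (Subgroup.mem_top n))
      simpa [mul_assoc] using mul_mem h1 hn
    haveI hMn : M.Normal := hnorm M hGM
    have huniq : ∀ N : Subgroup G, N ≠ ⊤ → commutator G ≤ N → N ≤ M := by
      intro N hN hGN
      by_contra hle
      have htop : M ⊔ N = ⊤ := hMc.2 _ (lt_of_le_of_ne le_sup_left (fun h => hle (h ▸ le_sup_right)))
      have hMa := hnormab M hMn hMc.1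
      have hNa := hnormab N (hnorm N hGN) hN
      have hcen : commutator G ≤ Subgroup.center G := by
        intro c hc
        rw [Subgroup.mem_center_iff]
        intro g
        have h1 : M ⊔ N ≤ Subgroup.centralizer ({c} : Set G) := by
          refine sup_le ?_ ?_ <;> intro y hy <;> rw [Subgroup.mem_centralizer_singleton_iff]
          · exact congrArg Subtype.val (hMa.is_comm.comm ⟨y, hy⟩ ⟨c, hGM hc⟩)
          · exact congrArg Subtype.val (hNa.is_comm.comm ⟨y, hy⟩ ⟨c, hGN hc⟩)
        rw [htop] at h1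
        exact (Subgroup.mem_centralizer_singleton_iff.1 (h1 (Subgroup.mem_top g)))
      exact hnn (Subgroup.isNilpotent_of_ker_le_center (Abelianization.of (G := G))
        (by rw [Abelianization.ker_of]; exact hcen))
    -- the quotient by `M` has prime order `p`
    obtain ⟨y, -, hyM⟩ := SetLike.exists_of_lt (lt_top_iff_ne_top.2 hMc.1)
    have hgen : ∀ z, z ∉ M → Subgroup.zpowers z ⊔ commutator G = ⊤ := by
      intro z hz
      by_contra h
      exact hz (huniq _ h le_sup_right (Subgroup.mem_sup_left (Subgroup.mem_zpowers z)))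
    have hprime : M.index.Prime := by
      haveI : Nontrivial (G ⧸ M) := ⟨(y : G ⧸ M), 1, fun h => hyM ((QuotientGroup.eq_one_iff y).1 h)⟩
      haveI : IsSimpleGroup (G ⧸ M) := ⟨fun H _ => by
        have h1 : M ≤ H.comap (QuotientGroup.mk' M) := fun m hm => by
          rw [Subgroup.mem_comap, QuotientGroup.mk'_apply, (QuotientGroup.eq_one_iff m).2 hm]
          exact one_mem H
        rcases eq_or_lt_of_le h1 with h2 | h2
        · left
          rw [← Subgroup.map_comap_eq_self_of_surjective (QuotientGroup.mk'_surjective M) H, ← h2]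
          exact QuotientGroup.map_mk'_self M
        · right
          rw [← Subgroup.map_comap_eq_self_of_surjective (QuotientGroup.mk'_surjective M) H,
            hMc.2 _ h2]
          exact Subgroup.map_top_of_surjective _ (QuotientGroup.mk'_surjective M)⟩
      letI : CommGroup (G ⧸ M) := { (inferInstance : Group (G ⧸ M)) with
        mul_comm := fun a b => by
          obtain ⟨a, rfl⟩ := QuotientGroup.mk_surjective a
          obtain ⟨b, rfl⟩ := QuotientGroup.mk_surjective b
          rw [← QuotientGroup.mk_mul, ← QuotientGroup.mk_mul, QuotientGroup.eq]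
          have h1 := hGM (Subgroup.commutator_mem_commutator (Subgroup.mem_top b⁻¹) (Subgroup.mem_top a⁻¹))
          simpa [commutatorElement_def, mul_assoc] using h1 }
      rw [Subgroup.index_eq_card]
      exact IsSimpleGroup.prime_card
    set p := M.index with hp
    haveI : Fact p.Prime := ⟨hprime⟩
    have hyp' : y ^ p ∈ M := Subgroup.pow_index_mem M y
    obtain ⟨k, m, hm, hord⟩ := Nat.exists_eq_pow_mul_and_not_dvd (orderOf_pos y).ne' p hprime.ne_one
    set x := y ^ m with hx
    have hxM : x ∉ M := by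
      intro h
      apply hyM
      have hco : Nat.Coprime m p := ((Nat.Prime.coprime_iff_not_dvd hprime).2 hm).symm
      have hb := Nat.gcd_eq_gcd_ab m p
      rw [hco.gcd_eq_one] at hb
      rw [← zpow_one y, show (1 : ℤ) = ((1 : ℕ) : ℤ) from rfl, hb, zpow_add, zpow_mul, zpow_mul,
        zpow_natCast, zpow_natCast]
      exact mul_mem (zpow_mem h _) (zpow_mem hyp' _)
    have hm0 : m ≠ 0 := by rintro rfl; exact hm (dvd_zero p)
    have hxo : orderOf x = p ^ k := by
      rw [hx, orderOf_pow' _ hm0, hord, Nat.gcd_eq_right (Dvd.intro_left _ rfl),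
        Nat.mul_div_cancel _ (Nat.pos_of_ne_zero hm0)]
    have hMa := hnormab M hMn hMc.1
    have hMcomm : ∀ a ∈ M, ∀ b ∈ M, a * b = b * a := fun a ha b hb =>
      congrArg Subtype.val (hMa.is_comm.comm ⟨a, ha⟩ ⟨b, hb⟩)
    have hxpM : x ^ p ∈ M := Subgroup.pow_index_mem M x
    have hxpc : x ^ p ∈ Subgroup.center G := by
      rw [Subgroup.mem_center_iff]
      intro g
      have h1 : Subgroup.zpowers x ⊔ commutator G ≤ Subgroup.centralizer ({x ^ p} : Set G) := by
        refine sup_le (Subgroup.zpowers_le.2 ?_) (fun c hc => ?_) <;>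
          rw [Subgroup.mem_centralizer_singleton_iff]
        · exact (Commute.self_pow x p).eq
        · exact hMcomm c (hGM hc) _ hxpM
      rw [hgen x hxM] at h1
      exact Subgroup.mem_centralizer_singleton_iff.1 (h1 (Subgroup.mem_top g))
    set A := commutator G with hA
    have hAn : A.Normal := hnorm A le_rfl
    -- conjugation by `x` followed by division is a surjective endomorphism of `A`
    let f : M →* M :=
      MonoidHom.mk' (fun a => ⟨x * (a : G) * x⁻¹ * (a : G)⁻¹,
        mul_mem (hMn.conj_mem _ a.2 x) (inv_mem a.2)⟩) (fun a b => by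
          apply Subtype.ext
          show x * ((a : G) * b) * x⁻¹ * ((a : G) * b)⁻¹ =
            (x * a * x⁻¹ * (a : G)⁻¹) * (x * b * x⁻¹ * (b : G)⁻¹)
          calc x * ((a : G) * b) * x⁻¹ * ((a : G) * b)⁻¹
              = (x * a * x⁻¹) * (x * b * x⁻¹ * (b : G)⁻¹) * (a : G)⁻¹ := by group
            _ = _ := by
              rw [mul_assoc _ _ ((a : G)⁻¹), hMcomm (x * b * x⁻¹ * (b : G)⁻¹)
                (mul_mem (hMn.conj_mem _ b.2 x) (inv_mem b.2)) _ (inv_mem a.2)]
              group)
    have hfapp : ∀ a : M, ((f a : M) : G) = x * (a : G) * x⁻¹ * (a : G)⁻¹ := fun a => rfl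
    set B : Subgroup G := f.range.map M.subtype with hB
    have hBA : B ≤ A := by
      rintro _ ⟨_, ⟨a, rfl⟩, rfl⟩
      exact Subgroup.commutator_mem_commutator (Subgroup.mem_top x) (Subgroup.mem_top (a : G))
    have hdec : ∀ g : G, ∃ j : ℤ, ∃ a ∈ A, g = x ^ j * a := by
      intro g
      have h1 : g ∈ Subgroup.zpowers x ⊔ A := by rw [hgen x hxM]; trivial
      haveI := hAn
      obtain ⟨u, hu, a, ha, rfl⟩ := Subgroup.mem_sup_of_normal_right.1 h1
      obtain ⟨j, rfl⟩ := Subgroup.mem_zpowers_iff.1 hu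
      exact ⟨j, a, ha, rfl⟩
    have hxB : ∀ b ∈ B, x * b * x⁻¹ ∈ B := by
      rintro _ ⟨_, ⟨a, rfl⟩, rfl⟩
      refine ⟨_, ⟨⟨x * (a : G) * x⁻¹, hMn.conj_mem _ a.2 x⟩, rfl⟩, ?_⟩
      show x * (x * a * x⁻¹) * x⁻¹ * (x * (a : G) * x⁻¹)⁻¹ = x * (x * a * x⁻¹ * (a : G)⁻¹) * x⁻¹
      group
    haveI hBn : B.Normal := by
      refine ⟨fun b hb g => ?_⟩
      obtain ⟨j, a, ha, rfl⟩ := hdec g
      have hbM : b ∈ M := hGM (hBA hb)
      have h1 : x ^ j * a * b * (x ^ j * a)⁻¹ = x ^ j * b * (x ^ j)⁻¹ := by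
        calc x ^ j * a * b * (x ^ j * a)⁻¹ = x ^ j * (a * b * a⁻¹) * (x ^ j)⁻¹ := by group
          _ = _ := by rw [hMcomm a (hGM ha) b hbM, mul_inv_cancel_right]
      rw [h1]
      have hxN : x ∈ Subgroup.normalizer (B : Set G) := Subgroup.mem_normalizer_fintype hxB
      exact (Subgroup.mem_normalizer_iff.1 (zpow_mem hxN j) b).1 hb
    have hAB : A ≤ B := by
      have hxa : ∀ a ∈ M, (x : G ⧸ B) * a = a * x := by
        intro a ha
        rw [← QuotientGroup.mk_mul, ← QuotientGroup.mk_mul, ← mul_inv_eq_one, ← QuotientGroup.mk_inv,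
          ← QuotientGroup.mk_mul, QuotientGroup.eq_one_iff]
        refine ⟨f ⟨a, ha⟩, ⟨_, rfl⟩, ?_⟩
        show x * a * x⁻¹ * a⁻¹ = x * a * (a * x)⁻¹
        group
      rw [hA, commutator_def, Subgroup.commutator_le]
      intro g _ h _
      rw [← QuotientGroup.eq_one_iff, ← QuotientGroup.mk'_apply, map_commutatorElement,
        commutatorElement_eq_one_iff_commute]
      obtain ⟨i, a, ha, rfl⟩ := hdec g
      obtain ⟨j, b, hb, rfl⟩ := hdec h
      have c1 : ∀ c ∈ M, Commute (QuotientGroup.mk' B x) (QuotientGroup.mk' B c) := hxa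
      rw [map_mul, map_mul, map_zpow, map_zpow]
      exact ((Commute.zpow_zpow_self _ i j).mul_right ((c1 b (hGM hb)).zpow_left i)).mul_left
        (((c1 a (hGM ha)).zpow_left j).symm.mul_right (by
          show QuotientGroup.mk' B a * QuotientGroup.mk' B b = QuotientGroup.mk' B b * QuotientGroup.mk' B a
          rw [← map_mul, ← map_mul, hMcomm a (hGM ha) b (hGM hb)]))
    -- the map restricted to `A`
    let fA : A → A := fun a => ⟨x * (a : G) * x⁻¹ * (a : G)⁻¹,
      Subgroup.commutator_mem_commutator (Subgroup.mem_top x) (Subgroup.mem_top (a : G))⟩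
    have hfA : Function.Surjective fA := by
      intro c
      obtain ⟨_, ⟨a, rfl⟩, hac⟩ := hAB c.2
      obtain ⟨j, a', ha', ha⟩ := hdec (a : G)
      refine ⟨⟨a', ha'⟩, Subtype.ext ?_⟩
      show x * a' * x⁻¹ * a'⁻¹ = c
      rw [← hac]
      show _ = x * (a : G) * x⁻¹ * (a : G)⁻¹
      rw [ha]
      have hxjM : x ^ j ∈ M := by
        have h1 : x ^ j = (a : G) * a'⁻¹ := by rw [ha, mul_inv_cancel_right]
        rw [h1]; exact mul_mem a.2 (inv_mem (hGM ha'))
      calc x * a' * x⁻¹ * a'⁻¹ = x ^ j * (x * a' * x⁻¹ * a'⁻¹) * (x ^ j)⁻¹ := by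
            rw [hMcomm (x ^ j) hxjM _ (mul_mem (hMn.conj_mem _ (hGM ha') x) (inv_mem (hGM ha'))),
              mul_inv_cancel_right]
        _ = x * (x ^ j * a') * x⁻¹ * (x ^ j * a')⁻¹ := by group
    have hfix : ∀ a ∈ A, x * a * x⁻¹ = a → a = 1 := by
      intro a ha h
      have h1 : fA ⟨a, ha⟩ = fA 1 := Subtype.ext (by
        show x * a * x⁻¹ * a⁻¹ = x * (1 : G) * x⁻¹ * (1 : G)⁻¹
        rw [h]; group)
      exact congrArg Subtype.val (Finite.injective_iff_surjective.2 hfA h1)
    have hpA : ¬ p ∣ Nat.card A := by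
      intro hdvd
      letI := Fintype.ofFinite A
      haveI := hAn
      have hσ : ((MulAut.conjNormal x : MulAut A).toEquiv : Equiv.Perm A) ^ p ^ k = 1 := by
        have h1 : (MulAut.conjNormal x : MulAut A) ^ p ^ k = 1 := by
          rw [← map_pow, ← hxo, pow_orderOf_eq_one, map_one]
        ext a
        have h2 : ∀ n : ℕ, ∀ a : A, (((MulAut.conjNormal x : MulAut A).toEquiv : Equiv.Perm A) ^ n) a =
            ((MulAut.conjNormal x : MulAut A) ^ n) a := by
          intro n
          induction n with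
          | zero => intro a; rfl
          | succ n ih => intro a; rw [pow_succ, pow_succ, Equiv.Perm.mul_apply, MulAut.mul_apply, ih]; rfl
        rw [h2, h1]; rfl
      obtain ⟨b, hb, hb1⟩ := Equiv.Perm.exists_fixed_point_of_prime' (p := p) (n := k)
        (by rwa [← Nat.card_eq_fintype_card]) hσ (a := (1 : A)) (map_one (MulAut.conjNormal x : MulAut A))
      refine hb1 (Subtype.ext (hfix _ b.2 ?_))
      have h3 := congrArg Subtype.val hb
      simpa using h3
    refine ⟨x, A, p, hprime, hAn, hnormab A hAn hder, ⟨k, hxo⟩, hpA, ?_, hxpc, fun a ha ha1 h => ha1 (hfix a ha h)⟩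
    refine Subgroup.isComplement'_of_disjoint_and_mul_eq_univ ?_ ?_
    · rw [disjoint_iff]
      refine Subgroup.inf_eq_bot_of_coprime ?_
      rw [Nat.card_zpowers, hxo]
      exact ((Nat.Prime.coprime_iff_not_dvd hprime).2 hpA).pow_left k
    · rw [Set.eq_univ_iff_forall]
      intro g
      obtain ⟨j, a, ha, rfl⟩ := hdec g
      exact Set.mul_mem_mul (Subgroup.zpow_mem_zpowers x j) ha
  · rintro ⟨x, A, p, hp, hAn, hAc, ⟨k, hxo⟩, -, hcompl, hxc, hfix⟩ H hH
    haveI : Fact p.Prime := ⟨hp⟩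
    have hAcomm : ∀ a ∈ A, ∀ b ∈ A, a * b = b * a := fun a ha b hb =>
      congrArg Subtype.val (hAc.is_comm.comm ⟨a, ha⟩ ⟨b, hb⟩)
    have hdec : ∀ g : G, ∃ i : ℕ, ∃ a ∈ A, g = x ^ i * a := by
      intro g
      haveI := hAn
      have h1 : g ∈ Subgroup.zpowers x ⊔ A := by
        rw [hcompl.sup_eq_top]; trivial
      obtain ⟨u, hu, a, ha, rfl⟩ := Subgroup.mem_sup_of_normal_right.1 h1
      obtain ⟨i, rfl⟩ := mem_powers_iff_mem_zpowers.2 hu
      exact ⟨i, a, ha, rfl⟩
    have hbig : ∃ h ∈ H, ∃ i : ℕ, ¬ p ∣ i ∧ ∃ a ∈ A, h = x ^ i * a := by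
      by_contra hcon
      push Not at hcon
      apply hH
      refine ⟨⟨fun u v => Subtype.ext ?_⟩⟩
      obtain ⟨i, a, ha, hu⟩ := hdec u
      obtain ⟨j, b, hb, hv⟩ := hdec v
      have hi : p ∣ i := by
        by_contra hni
        exact hcon u u.2 i hni a ha hu
      have hj : p ∣ j := by
        by_contra hnj
        exact hcon v v.2 j hnj b hb hv
      obtain ⟨i, rfl⟩ := hi
      obtain ⟨j, rfl⟩ := hj
      have ci : ∀ g, Commute g (x ^ (p * i)) := fun g => by
        rw [pow_mul]; exact Subgroup.mem_center_iff.1 (pow_mem hxc i) g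
      have cj : ∀ g, Commute g (x ^ (p * j)) := fun g => by
        rw [pow_mul]; exact Subgroup.mem_center_iff.1 (pow_mem hxc j) g
      show (u : G) * v = v * u
      rw [hu, hv]
      exact (Commute.mul_left ((cj _).mul_right (ci b).symm) ((cj a).mul_right (hAcomm a ha b hb)))
    obtain ⟨y, hyH, i, hi, a₀, ha₀, hy⟩ := hbig
    obtain ⟨i', hi'⟩ : ∃ i', (x ^ i) ^ i' = x := by
      refine exists_pow_eq_self_of_coprime ?_
      rw [hxo]
      exact (((Nat.Prime.coprime_iff_not_dvd hp).2 hi).symm).pow_right k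
    have hyfix : ∀ a ∈ A, y * a * y⁻¹ = a → a = 1 := by
      intro a ha h
      by_contra ha1
      apply hfix a ha ha1
      have h1 : x ^ i * a * (x ^ i)⁻¹ = a := by
        rw [hy] at h
        calc x ^ i * a * (x ^ i)⁻¹ = x ^ i * (a₀ * a * a₀⁻¹) * (x ^ i)⁻¹ := by
              rw [hAcomm a₀ ha₀ a ha, mul_inv_cancel_right]
          _ = x ^ i * a₀ * a * (x ^ i * a₀)⁻¹ := by group
          _ = a := h
      have h2 : Commute (x ^ i) a := mul_inv_eq_iff_eq_mul.1 h1
      have h3 := (h2.pow_left i').eq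
      rw [hi'] at h3
      rw [h3, mul_inv_cancel_right]
    refine le_antisymm (fun g hg => ?_) Subgroup.le_normalizer
    -- write `g = y ^ j * a`
    obtain ⟨j, a, ha, rfl⟩ : ∃ j : ℕ, ∃ a ∈ A, g = y ^ j * a := by
      haveI := hAn
      obtain ⟨l, b, hb, hgb⟩ := hdec g
      refine ⟨i' * l, (y ^ (i' * l))⁻¹ * g, ?_, by rw [mul_inv_cancel_left]⟩
      have hq : ((y ^ (i' * l) : G) : G ⧸ A) = ((g : G) : G ⧸ A) := by
        rw [hy, hgb, QuotientGroup.mk_pow, QuotientGroup.mk_mul, QuotientGroup.mk_mul,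
          (QuotientGroup.eq_one_iff a₀).2 ha₀, (QuotientGroup.eq_one_iff b).2 hb, mul_one, mul_one,
          QuotientGroup.mk_pow, QuotientGroup.mk_pow, ← pow_mul, ← mul_assoc, pow_mul,
          ← QuotientGroup.mk_pow, ← QuotientGroup.mk_pow, pow_mul, hi', QuotientGroup.mk_pow]
      exact QuotientGroup.eq.1 hq
    have haN : a ∈ Subgroup.normalizer (H : Set G) := by
      have h1 := mul_mem (inv_mem (pow_mem (Subgroup.le_normalizer hyH) j)) hg
      rwa [inv_mul_cancel_left] at h1
    have haH : a ∈ H := by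
      let F : A → A := fun b => ⟨y * (b : G) * y⁻¹ * (b : G)⁻¹,
        mul_mem (hAn.conj_mem _ b.2 y) (inv_mem b.2)⟩
      have hF : ∀ b c : A, F b = F c → b = c := by
        intro b c h
        have h1 : y * (b : G) * y⁻¹ * (b : G)⁻¹ = y * (c : G) * y⁻¹ * (c : G)⁻¹ := congrArg Subtype.val h
        have h2 : y * ((c : G)⁻¹ * b) * y⁻¹ = (c : G)⁻¹ * b := by
          calc y * ((c : G)⁻¹ * b) * y⁻¹ = (y * (c : G) * y⁻¹)⁻¹ * (y * (b : G) * y⁻¹) := by group
            _ = (y * (c : G) * y⁻¹)⁻¹ * (y * (b : G) * y⁻¹ * (b : G)⁻¹) * b := by group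
            _ = (y * (c : G) * y⁻¹)⁻¹ * (y * (c : G) * y⁻¹ * (c : G)⁻¹) * b := by rw [h1]
            _ = _ := by group
        exact (inv_mul_eq_one.1 (hyfix _ (mul_mem (inv_mem c.2) b.2) h2)).symm |> Subtype.ext
      let B : Subgroup G := H ⊓ A
      let FB : B → B := fun b => ⟨y * (b : G) * y⁻¹ * (b : G)⁻¹,
        Subgroup.mem_inf.2 ⟨mul_mem (mul_mem (mul_mem hyH b.2.1) (inv_mem hyH)) (inv_mem (Subgroup.mem_inf.1 b.2).1),
          mul_mem (hAn.conj_mem _ b.2.2 y) (inv_mem (Subgroup.mem_inf.1 b.2).2)⟩⟩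
      have hFB : Function.Injective FB := fun b c h => Subtype.ext (congrArg Subtype.val
        (hF ⟨b, b.2.2⟩ ⟨c, c.2.2⟩ (Subtype.ext (congrArg Subtype.val h :))) :)
      have hya : y * a * y⁻¹ * a⁻¹ ∈ B := by
        refine Subgroup.mem_inf.2 ⟨?_, mul_mem (hAn.conj_mem _ ha y) (inv_mem ha)⟩
        have h1 := (Subgroup.mem_normalizer_iff.1 haN y⁻¹).1 (inv_mem hyH)
        simpa [mul_assoc] using mul_mem hyH h1
      obtain ⟨b, hb⟩ := (Finite.injective_iff_surjective.1 hFB) ⟨_, hya⟩
      have h1 := hF ⟨b, b.2.2⟩ ⟨a, ha⟩ (Subtype.ext (congrArg Subtype.val hb :))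
      have h2 : (b : G) = a := congrArg Subtype.val h1
      rw [← h2]
      exact b.2.1
    exact mul_mem (pow_mem hyH j) haH

end Cfsg.Agent.S4071
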