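import Cfsg.Statements.S4072
import Cfsg.Agent.Transfer.Frobenius
import Mathlib

set_option autoImplicit false
set_option linter.style.haveILetI false
open Cfsg

namespace Cfsg.Agent.S4072

/-- An element of order prime to `p` normalising an abelian `p`-subgroup which contains a nontrivial
central element centralises it, if nonabelian subgroups are self-normalising. -/
theorem commute_of_abelian {G : Type*} [Group G] [Finite G]
    (hS : ∀ H : Subgroup G, ¬ IsMulCommutative H → Subgroup.normalizer (H : Set G) = H)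
    {p : ℕ} (M : Subgroup G) (hM : IsPGroup p M) (hMc : ∀ a ∈ M, ∀ b ∈ M, a * b = b * a)
    {z : G} (hz : z ∈ M) (hz1 : z ≠ 1) (hzc : z ∈ Subgroup.center G)
    {g : G} (hg : g ∈ Subgroup.normalizer (M : Set G)) (hgo : (orderOf g).Coprime p) :
    ∀ m ∈ M, m * g = g * m := by
  have hgM : ∀ m ∈ M, g * m * g⁻¹ ∈ M := fun m hm => (Subgroup.mem_normalizer_iff.mp hg m).mp hm
  let d : ↥M →* ↥M :=
    { toFun := fun m => ⟨g * (m : G) * g⁻¹ * (m : G)⁻¹, M.mul_mem (hgM _ m.2) (M.inv_mem m.2)⟩
      map_one' := Subtype.ext (by simp)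
      map_mul' := fun m n => Subtype.ext (by
        show g * ((m : G) * n) * g⁻¹ * ((m : G) * n)⁻¹ = g * m * g⁻¹ * (m : G)⁻¹ * (g * n * g⁻¹ * (n : G)⁻¹)
        have e1 : g * ((m : G) * n) * g⁻¹ * ((m : G) * n)⁻¹ =
            g * m * g⁻¹ * ((g * n * g⁻¹ * (n : G)⁻¹) * (m : G)⁻¹) := by group
        rw [e1, hMc _ (M.mul_mem (hgM _ n.2) (M.inv_mem n.2)) _ (M.inv_mem m.2)]
        group) }
  set I : Subgroup G := d.range.map M.subtype with hI
  have hIM : I ≤ M := Subgroup.map_subtype_le _
  have hfix : ∀ c ∈ I, g * c * g⁻¹ = c → c = 1 := by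
    rintro _ ⟨_, ⟨m, rfl⟩, rfl⟩ hc
    set c : G := g * (m : G) * g⁻¹ * (m : G)⁻¹ with hcdef
    change g * c * g⁻¹ = c at hc
    show c = 1
    have hcM : c ∈ M := (d m).2
    have hi : ∀ i : ℕ, g ^ i * m * (g ^ i)⁻¹ = c ^ i * m := by
      intro i
      induction i with
      | zero => simp
      | succ i ih =>
        calc g ^ (i + 1) * m * (g ^ (i + 1))⁻¹ = g * (g ^ i * m * (g ^ i)⁻¹) * g⁻¹ := by
              rw [pow_succ']; group
          _ = (g * c * g⁻¹) ^ i * (g * m * g⁻¹) := by rw [ih, conj_pow]; group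
          _ = c ^ i * (c * m) := by rw [hc, hcdef, inv_mul_cancel_right]
          _ = c ^ (i + 1) * m := by rw [← mul_assoc, ← pow_succ]
    have h1 := hi (orderOf g)
    rw [pow_orderOf_eq_one, one_mul, inv_one, mul_one, right_eq_mul] at h1
    obtain ⟨k, hk⟩ := hM ⟨c, hcM⟩
    exact orderOf_eq_one_iff.mp (Nat.eq_one_of_dvd_coprimes (hgo.pow_right k)
      (orderOf_dvd_of_pow_eq_one h1) (orderOf_dvd_of_pow_eq_one (congrArg Subtype.val hk)))
  have hgI : ∀ c ∈ I, g * c * g⁻¹ ∈ I := by
    rintro _ ⟨_, ⟨m, rfl⟩, rfl⟩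
    refine ⟨d ⟨g * (m : G) * g⁻¹, hgM _ m.2⟩, ⟨_, rfl⟩, ?_⟩
    show g * (g * (m : G) * g⁻¹) * g⁻¹ * (g * (m : G) * g⁻¹)⁻¹ = g * (g * (m : G) * g⁻¹ * (m : G)⁻¹) * g⁻¹
    group
  by_cases hIc : ∀ c ∈ I, g * c * g⁻¹ = c
  · intro m hm
    have hmem : g * m * g⁻¹ * m⁻¹ ∈ I := ⟨d ⟨m, hm⟩, ⟨_, rfl⟩, rfl⟩
    have h := hfix _ hmem (hIc _ hmem)
    exact (mul_inv_eq_iff_eq_mul.mp (mul_inv_eq_one.mp h)).symm
  exfalso
  push Not at hIc
  obtain ⟨c, hcI, hcne⟩ := hIc
  set K : Subgroup G := I ⊔ Subgroup.zpowers g with hK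
  have hKna : ¬ IsMulCommutative K := fun h => hcne (by
    have h' := congrArg Subtype.val (h.is_comm.comm
      (⟨g, Subgroup.mem_sup_right (Subgroup.mem_zpowers g)⟩ : K) ⟨c, Subgroup.mem_sup_left hcI⟩)
    change g * c = c * g at h'
    rw [h', mul_inv_cancel_right])
  have hzK : z ∈ K := by
    rw [← hS K hKna, Subgroup.mem_normalizer_iff]
    intro x
    rw [← (Subgroup.mem_center_iff.mp hzc x), mul_inv_cancel_right]
  have hnorm : Subgroup.zpowers g ≤ Subgroup.normalizer (I : Set G) := by
    have hmap : I.map (MulAut.conj g).toMonoidHom = I :=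
      Subgroup.eq_of_le_of_card_ge (by rintro _ ⟨x, hx, rfl⟩; exact hgI x hx)
        (Subgroup.card_map_of_injective (MulAut.conj g).injective).ge
    rw [Subgroup.zpowers_le, Subgroup.mem_normalizer_iff]
    intro x
    conv_rhs => rw [← hmap]
    exact (Subgroup.mem_map_iff_mem (f := (MulAut.conj g).toMonoidHom) (MulAut.conj g).injective).symm
  rw [hK, ← SetLike.mem_coe, Subgroup.coe_mul_of_right_le_normalizer_left I _ hnorm] at hzK
  obtain ⟨u, hu, v, hv, huv⟩ := Set.mem_mul.mp hzK
  have hvM : v ∈ M := by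
    have : v = u⁻¹ * z := by rw [← huv, inv_mul_cancel_left]
    rw [this]
    exact M.mul_mem (M.inv_mem (hIM hu)) hz
  have hv1 : v = 1 := by
    obtain ⟨k, hk⟩ := hM ⟨v, hvM⟩
    exact orderOf_eq_one_iff.mp (Nat.eq_one_of_dvd_coprimes (hgo.pow_right k)
      (orderOf_dvd_of_mem_zpowers hv) (orderOf_dvd_of_pow_eq_one (congrArg Subtype.val hk)))
  rw [hv1, mul_one] at huv
  subst huv
  exact hz1 (hfix u hu (by rw [(Subgroup.mem_center_iff.mp hzc g), mul_inv_cancel_right]))

/-- A perfect finite group has no normal subgroup of prime power index other than itself. -/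
theorem eq_top_of_pgroup_quotient {G : Type*} [Group G] [Finite G] (hperf : commutator G = ⊤) {p : ℕ}
    [Fact p.Prime] (K : Subgroup G) [K.Normal] (hK : IsPGroup p (G ⧸ K)) : K = ⊤ := by
  haveI := hK.isNilpotent
  have h1 : commutator (G ⧸ K) = ⊤ := by
    rw [commutator_def, ← Subgroup.map_top_of_surjective _ (QuotientGroup.mk'_surjective K),
      ← Subgroup.map_commutator, ← commutator_def, hperf]
  by_contra hne
  haveI : Nontrivial (G ⧸ K) := QuotientGroup.nontrivial_iff.mpr hne
  exact (Group.IsSolvable.commutator_lt_top_of_nontrivial (G ⧸ K)).ne h1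

/-- A finite group in which every non-abelian subgroup is self-normalizing is solvable or simple. -/
theorem result {G : Type*} [Group G] [Finite G] (hS : ∀ H : Subgroup G, ¬ IsMulCommutative H → Subgroup.normalizer (H : Set G) = H) :
    Group.IsSolvable G ∨ IsSimpleGroup G := by
  classical
  rw [or_iff_not_imp_left]
  intro hns
  have hnormal : ∀ N : Subgroup G, N.Normal → N ≠ ⊤ → ∀ a ∈ N, ∀ b ∈ N, a * b = b * a := by
    intro N hN hNt a ha b hb
    by_cases hc : IsMulCommutative N
    · exact congrArg Subtype.val (hc.is_comm.comm (⟨a, ha⟩ : N) ⟨b, hb⟩)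
    · exact absurd ((hS N hc).symm.trans (Subgroup.normalizer_eq_top_iff.mpr hN)) hNt
  have hperf : commutator G = ⊤ := by
    by_contra hne
    apply hns
    haveI : Group.IsSolvable (commutator G) := Group.isSolvable_of_comm fun a b =>
      Subtype.ext (hnormal _ inferInstance hne a a.2 b b.2)
    exact Group.isSolvable_of_ker_le_range (commutator G).subtype Abelianization.of
      (by rw [Abelianization.ker_of, Subgroup.range_subtype])
  haveI : Nontrivial G := by
    by_contra h
    rw [not_nontrivial_iff_subsingleton] at h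
    exact hns (Group.isSolvable_of_comm fun a b => Subsingleton.elim _ _)
  refine ⟨fun N hN => ?_⟩
  by_contra hc
  rw [not_or] at hc
  obtain ⟨A, hNA, hA⟩ := (Set.toFinite {A : Subgroup G | A.Normal ∧ A ≠ ⊤}).exists_le_maximal
    (show N ∈ _ from ⟨hN, hc.2⟩)
  obtain ⟨hAn, hAt⟩ := hA.prop
  haveI := hAn
  have hA1 : A ≠ ⊥ := fun h => hc.1 (le_bot_iff.mp (h ▸ hNA))
  set C := Subgroup.centralizer (A : Set G) with hC
  have hAC : A ≤ C := fun a ha => Subgroup.mem_centralizer_iff.mpr fun b hb => hnormal A hAn hAt b hb a ha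
  by_cases hCt : C = ⊤
  · -- `A` is central
    have hAZ : ∀ a ∈ A, a ∈ Subgroup.center G := fun a ha => Subgroup.mem_center_iff.mpr fun x =>
      ((Subgroup.mem_centralizer_iff.mp (hCt ▸ Subgroup.mem_top x : x ∈ C) a ha)).symm
    obtain ⟨p, hp, hpA⟩ := Nat.exists_prime_and_dvd (fun h => hA1 (Subgroup.card_eq_one.mp h))
    haveI := Fact.mk hp
    obtain ⟨z, hz⟩ := exists_prime_orderOf_dvd_card' p hpA
    rw [← Subgroup.orderOf_coe] at hz
    have hz1 : (z : G) ≠ 1 := fun e => hp.ne_one (by rw [← hz, e, orderOf_one])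
    have hlt : CfsgLib.Transfer.LocallyTrivial p G := by
      intro Q hQ g hg hgo
      rw [Subgroup.mem_centralizer_iff]
      intro m hm
      by_cases hQc : IsMulCommutative Q
      · have hzp : IsPGroup p (Subgroup.zpowers (z : G)) :=
          IsPGroup.of_card (n := 1) (by rw [Nat.card_zpowers, hz, pow_one])
        haveI : (Subgroup.zpowers (z : G)).Normal := ⟨fun x hx y => by
          have hxc : x ∈ Subgroup.center G := Subgroup.zpowers_le.mpr (hAZ _ z.2) hx
          rw [Subgroup.mem_center_iff.mp hxc y, mul_inv_cancel_right]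
          exact hx⟩
        refine commute_of_abelian hS (Q ⊔ Subgroup.zpowers (z : G)) (hQ.to_sup_of_normal_right hzp) ?_
          (Subgroup.mem_sup_right (Subgroup.mem_zpowers _)) hz1 (hAZ _ z.2) ?_ hgo m
          (Subgroup.mem_sup_left hm)
        · intro a ha b hb
          obtain ⟨a1, ha1, a2, ha2, rfl⟩ := Subgroup.mem_sup_of_normal_right.mp ha
          obtain ⟨b1, hb1, b2, hb2, rfl⟩ := Subgroup.mem_sup_of_normal_right.mp hb
          have ca : ∀ y, Commute a2 y := fun y =>
            (Subgroup.mem_center_iff.mp (Subgroup.zpowers_le.mpr (hAZ _ z.2) ha2) y).symm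
          have cb : ∀ y, Commute b2 y := fun y =>
            (Subgroup.mem_center_iff.mp (Subgroup.zpowers_le.mpr (hAZ _ z.2) hb2) y).symm
          have c1 : Commute a1 b1 := congrArg Subtype.val (hQc.is_comm.comm (⟨a1, ha1⟩ : Q) ⟨b1, hb1⟩)
          exact ((c1.mul_right (cb a1).symm).mul_left ((ca b1).mul_right (ca b2))).eq
        · rw [Subgroup.mem_normalizer_iff]
          have hmap : (Q ⊔ Subgroup.zpowers (z : G)).map (MulAut.conj g).toMonoidHom =
              Q ⊔ Subgroup.zpowers (z : G) := by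
            refine Subgroup.eq_of_le_of_card_ge ?_ (Subgroup.card_map_of_injective (MulAut.conj g).injective).ge
            rw [Subgroup.map_sup]
            refine sup_le_sup ?_ ?_
            · rintro _ ⟨x, hx, rfl⟩
              exact (Subgroup.mem_normalizer_iff.mp hg x).mp hx
            · rintro _ ⟨x, hx, rfl⟩
              exact (inferInstance : (Subgroup.zpowers (z : G)).Normal).conj_mem x hx g
          intro x
          conv_rhs => rw [← hmap]
          exact (Subgroup.mem_map_iff_mem (f := (MulAut.conj g).toMonoidHom) (MulAut.conj g).injective).symm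
      · have hgQ : g ∈ Q := hS Q hQc ▸ hg
        obtain ⟨k, hk⟩ := hQ ⟨g, hgQ⟩
        have : g = 1 := orderOf_eq_one_iff.mp (Nat.eq_one_of_dvd_coprimes (hgo.pow_right k) dvd_rfl
          (orderOf_dvd_of_pow_eq_one (congrArg Subtype.val hk)))
        rw [this, one_mul, mul_one]
    obtain ⟨T, K, hK, hcomp⟩ := CfsgLib.Transfer.frobenius_normal_complement hlt
    haveI := hK
    have hKt := eq_top_of_pgroup_quotient hperf K
      (IsPGroup.of_equiv T.isPGroup' hcomp.symm.QuotientMulEquiv.symm)
    have h1 := hcomp.symm.index_eq_card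
    rw [hKt, Subgroup.index_top] at h1
    exact T.ne_bot_of_dvd_card (hpA.trans A.card_subgroup_dvd_card) (Subgroup.card_eq_one.mp h1.symm)
  · -- `C(A) = A`
    have hCA : C ≤ A := hA.le_of_ge ⟨Subgroup.normal_centralizer, hCt⟩ hAC
    obtain ⟨r, hr, hrd⟩ := Nat.exists_prime_and_dvd (fun h => hAt (Subgroup.index_eq_one.mp h))
    haveI := Fact.mk hr
    rw [Subgroup.index_eq_card] at hrd
    have hself : ∀ q : G ⧸ A, q ≠ 1 → Subgroup.normalizer ((Subgroup.zpowers q : Subgroup (G ⧸ A)) : Set (G ⧸ A)) = Subgroup.zpowers q := by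
      intro q hq
      obtain ⟨x, rfl⟩ := QuotientGroup.mk_surjective q
      set H := (Subgroup.zpowers (QuotientGroup.mk x : G ⧸ A)).comap (QuotientGroup.mk' A) with hH
      have hHna : ¬ IsMulCommutative H := fun h => hq (by
        refine (QuotientGroup.eq_one_iff x).mpr (hCA (Subgroup.mem_centralizer_iff.mpr fun a ha => ?_))
        have haH : a ∈ H := by
          show (QuotientGroup.mk a : G ⧸ A) ∈ Subgroup.zpowers (QuotientGroup.mk x : G ⧸ A)
          rw [(QuotientGroup.eq_one_iff a).mpr ha]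
          exact one_mem _
        exact congrArg Subtype.val (h.is_comm.comm (⟨a, haH⟩ : H) ⟨x, Subgroup.mem_zpowers _⟩))
      have h := hS H hHna
      rw [hH, ← Subgroup.comap_normalizer_eq_of_surjective _ (QuotientGroup.mk'_surjective A)] at h
      exact Subgroup.comap_injective (QuotientGroup.mk'_surjective A) h
    obtain ⟨R⟩ : Nonempty (Sylow r (G ⧸ A)) := inferInstance
    haveI : Nontrivial (R : Subgroup (G ⧸ A)) := (Subgroup.nontrivial_iff_ne_bot _).mpr (R.ne_bot_of_dvd_card hrd)
    haveI := R.isPGroup'.center_nontrivial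
    obtain ⟨c, hc1⟩ := exists_ne (1 : Subgroup.center (R : Subgroup (G ⧸ A)))
    set q : G ⧸ A := ((c : (R : Subgroup (G ⧸ A))) : G ⧸ A) with hqdef
    have hq1 : q ≠ 1 := fun e => hc1 (Subtype.ext (Subtype.ext e))
    have hle : Subgroup.zpowers q ≤ R := Subgroup.zpowers_le.mpr (c : (R : Subgroup (G ⧸ A))).2
    have hRq : (R : Subgroup (G ⧸ A)) = Subgroup.zpowers q := by
      refine le_antisymm (fun y hy => ?_) hle
      rw [← hself q hq1, Subgroup.mem_normalizer_iff]
      intro w
      have hyq : y * q = q * y := congrArg Subtype.val (Subgroup.mem_center_iff.mp c.2 ⟨y, hy⟩)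
      have key : ∀ i : ℤ, y * q ^ i * y⁻¹ = q ^ i := fun i => by
        rw [(Commute.zpow_right hyq i).eq, mul_inv_cancel_right]
      constructor
      · intro hw
        obtain ⟨i, rfl⟩ := Subgroup.mem_zpowers_iff.mp hw
        rw [key]; exact Subgroup.zpow_mem_zpowers q i
      · intro hw
        obtain ⟨i, hi⟩ := Subgroup.mem_zpowers_iff.mp hw
        have : w = q ^ i := by
          have h' := key i
          have h'' : y * q ^ i * y⁻¹ = y * w * y⁻¹ := by rw [h', hi]
          exact (mul_left_cancel (mul_right_cancel h'')).symm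
        rw [this]; exact Subgroup.zpow_mem_zpowers q i
    have hN : Subgroup.normalizer ((R : Subgroup (G ⧸ A)) : Set (G ⧸ A)) ≤
        Subgroup.centralizer ((R : Subgroup (G ⧸ A)) : Set (G ⧸ A)) := by
      rw [hRq, hself q hq1]
      intro a ha
      rw [Subgroup.mem_centralizer_iff]
      intro b hb
      obtain ⟨i, rfl⟩ := Subgroup.mem_zpowers_iff.mp ha
      obtain ⟨j, rfl⟩ := Subgroup.mem_zpowers_iff.mp hb
      exact ((Commute.refl q).zpow_zpow j i).eq
    have hcomp := MonoidHom.ker_transferSylow_isComplement' R hN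
    set K := (MonoidHom.transferSylow R hN).ker
    have hperf' : commutator (G ⧸ A) = ⊤ := by
      rw [commutator_def, ← Subgroup.map_top_of_surjective _ (QuotientGroup.mk'_surjective A),
        ← Subgroup.map_commutator, ← commutator_def, hperf]
    have hKt := eq_top_of_pgroup_quotient hperf' K
      (IsPGroup.of_equiv R.isPGroup' hcomp.symm.QuotientMulEquiv.symm)
    have h1 := hcomp.symm.index_eq_card
    rw [hKt, Subgroup.index_top] at h1
    exact R.ne_bot_of_dvd_card hrd (Subgroup.card_eq_one.mp h1.symm)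

end Cfsg.Agent.S4072
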