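import Cfsg.Statements.S4074
import Cfsg.Agent.DihedralSub.Basic

set_option autoImplicit false
open Cfsg

namespace Cfsg.Agent.S4074

/-- For n > 2, every non-abelian subgroup of the dihedral group of order 2n is self-normalizing if and only if n = 4 or n is odd. -/
theorem result (n : ℕ) (hn : 2 < n) :
    (∀ H : Subgroup (DihedralGroup n), ¬ IsMulCommutative H → Subgroup.normalizer (H : Set (DihedralGroup n)) = H) ↔
    (n = 4 ∨ Odd n) := by
  haveI : NeZero n := ⟨by omega⟩
  constructor
  · intro h
    by_contra hc
    push Not at hc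
    obtain ⟨h4, hodd⟩ := hc
    have hev : 2 ∣ n := even_iff_two_dvd.1 (Nat.not_odd_iff_even.1 hodd)
    set A := AddSubgroup.zmultiples (2 : ZMod n)
    have hA : (2 : ZMod n) + 2 ≠ 0 := by
      intro h0
      have h1 : ((4 : ℕ) : ZMod n) = 0 := by rw [← h0]; norm_num
      rw [ZMod.natCast_eq_zero_iff] at h1
      have hle := Nat.le_of_dvd (by norm_num) h1
      interval_cases n <;> omega
    have hsn := h _ (CfsgLib.DihedralSub.not_commutative_evenSub (A := A) (AddSubgroup.mem_zmultiples 2) hA)
    have key : DihedralGroup.r (1 : ZMod n) ∈ Subgroup.normalizer ((CfsgLib.DihedralSub.evenSub A : Subgroup _) : Set (DihedralGroup n)) := by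
      have hfwd : ∀ e : ZMod n, (e = 1 ∨ e = -1) → ∀ x ∈ CfsgLib.DihedralSub.evenSub A,
          DihedralGroup.r e * x * (DihedralGroup.r e)⁻¹ ∈ CfsgLib.DihedralSub.evenSub A := by
        rintro e he _ ⟨i, hi, rfl | rfl⟩
        · rw [DihedralGroup.inv_r, DihedralGroup.r_mul_r, DihedralGroup.r_mul_r]
          exact ⟨_, by simpa using hi, Or.inl rfl⟩
        · rw [DihedralGroup.inv_r, DihedralGroup.r_mul_sr, DihedralGroup.sr_mul_r]
          refine ⟨_, ?_, Or.inr rfl⟩
          rw [show i - e + -e = i - (e + e) by ring]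
          refine A.sub_mem hi ?_
          rcases he with rfl | rfl
          · rw [one_add_one_eq_two]; exact AddSubgroup.mem_zmultiples 2
          · rw [← neg_add, one_add_one_eq_two]; exact A.neg_mem (AddSubgroup.mem_zmultiples 2)
      rw [Subgroup.mem_normalizer_iff]
      intro x
      refine ⟨hfwd 1 (Or.inl rfl) x, fun hx => ?_⟩
      have := hfwd (-1) (Or.inr rfl) _ hx
      rwa [← DihedralGroup.inv_r, inv_inv,
        show (DihedralGroup.r 1)⁻¹ * (DihedralGroup.r 1 * x * (DihedralGroup.r (1 : ZMod n))⁻¹) * DihedralGroup.r 1 = x by group] at this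
    rw [hsn, CfsgLib.DihedralSub.r_mem_evenSub] at key
    obtain ⟨k, hk⟩ := key
    have := congrArg (ZMod.castHom hev (ZMod 2)) hk
    simp only [map_zsmul, map_one, map_ofNat] at this
    rw [show (2 : ZMod 2) = 0 from by decide, smul_zero] at this
    exact absurd this (by decide)
  · intro h H hH
    rcases h with rfl | hodd
    · by_cases htop : H = ⊤
      · rw [htop]; exact Subgroup.normalizer_eq_top _
      exfalso
      apply hH
      haveI : Fact (Nat.Prime 2) := ⟨Nat.prime_two⟩
      have hd := Subgroup.card_subgroup_dvd_card H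
      rw [DihedralGroup.nat_card, show 2 * 4 = 2 ^ 3 by norm_num, Nat.dvd_prime_pow Nat.prime_two] at hd
      obtain ⟨j, hj, hc⟩ := hd
      have hj3 : j ≠ 3 := fun e => htop (Subgroup.eq_top_of_card_eq H (by rw [hc, e, DihedralGroup.nat_card]; norm_num))
      have hj2 : j = 0 ∨ j = 1 ∨ j = 2 := by omega
      rcases hj2 with rfl | rfl | rfl
      · haveI : Subsingleton H := (Nat.card_eq_one_iff_unique.1 (by simpa using hc)).1
        exact ⟨⟨fun a b => Subsingleton.elim _ _⟩⟩
      · haveI : IsCyclic H := isCyclic_of_prime_card (p := 2) (by simpa using hc)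
        infer_instance
      · exact IsPGroup.isMulCommutative_of_card_eq_prime_sq (p := 2) hc
    · refine le_antisymm (fun g hg => ?_) Subgroup.le_normalizer
      obtain ⟨a, ha⟩ := CfsgLib.DihedralSub.exists_sr (CfsgLib.DihedralSub.not_cyclic_of_not_commutative hH)
      have key : ∀ i, DihedralGroup.r i ∈ Subgroup.normalizer (H : Set (DihedralGroup n)) → DihedralGroup.r i ∈ H := by
        intro i hi
        have h1 := (Subgroup.mem_normalizer_iff.1 hi _).1 ha
        rw [DihedralGroup.inv_r, DihedralGroup.r_mul_sr, DihedralGroup.sr_mul_r] at h1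
        have h2 := mul_mem h1 ha
        rw [DihedralGroup.sr_mul_sr, show a - (a - i + -i) = i + i by ring] at h2
        obtain ⟨m, hm⟩ := hodd
        have h3 := pow_mem h2 (m + 1)
        rw [DihedralGroup.r_pow] at h3
        have h4 : (i + i) * ((m + 1 : ℕ) : ZMod n) = i := by
          have h5 : ((2 * m + 1 : ℕ) : ZMod n) = 0 := by rw [← hm]; exact ZMod.natCast_self n
          push_cast at h5 ⊢
          linear_combination i * h5
        rwa [h4] at h3
      cases g with
      | r i => exact key i hg
      | sr b =>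
        have h1 := key (a - b) (by
          rw [← DihedralGroup.sr_mul_sr]
          exact Subgroup.mul_mem _ hg (Subgroup.le_normalizer ha))
        have h2 := mul_mem h1 ha
        rwa [DihedralGroup.r_mul_sr, sub_sub_cancel] at h2


end Cfsg.Agent.S4074
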