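import Cfsg.Statements.S4080
import Mathlib

set_option autoImplicit false
open Cfsg

namespace Cfsg.Agent.S4080

/-- Let p > 3 be a prime and L the direct product of two cyclic groups of order p². Every automorphism of L of order p fixes every element of order p of L. -/
theorem result {p : ℕ} [Fact p.Prime] (hp : 3 < p)
    (a : MulAut (Multiplicative (ZMod (p ^ 2) × ZMod (p ^ 2)))) (ha : orderOf a = p)
    (x : Multiplicative (ZMod (p ^ 2) × ZMod (p ^ 2))) (hx : orderOf x = p) : a x = x := by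
  classical
  have hpp : p.Prime := Fact.out
  have hdvd : p ∣ p ^ 2 := dvd_pow_self p (by norm_num)
  let A : AddMonoid.End (ZMod (p ^ 2) × ZMod (p ^ 2)) :=
    AddMonoidHom.mk' (fun v => (a (Multiplicative.ofAdd v)).toAdd) fun u v => by rw [ofAdd_add, map_mul, toAdd_mul]
  have hA : ∀ n : ℕ, ∀ v, (A ^ n) v = ((a ^ n) (Multiplicative.ofAdd v)).toAdd := by
    intro n
    induction n with
    | zero => intro v; rfl
    | succ n ih =>
      intro v
      rw [pow_succ' A, pow_succ' a]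
      show A ((A ^ n) v) = _
      rw [ih]
      rfl
  have hAp : A ^ p = 1 := AddMonoidHom.ext fun v => (hA p v).trans (by
    have h1 := pow_orderOf_eq_one a
    rw [ha] at h1
    rw [h1]; rfl)
  set N := A - 1 with hN
  let c : ZMod (p ^ 2) →+* ZMod p := ZMod.castHom hdvd (ZMod p)
  let π : (ZMod (p ^ 2) × ZMod (p ^ 2)) →+ ZMod p × ZMod p := AddMonoidHom.prodMap c.toAddMonoidHom c.toAddMonoidHom
  have hker1 : ∀ z : ZMod (p ^ 2), c z = 0 → ∃ b : ZMod (p ^ 2), z = (p : ℕ) • b := by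
    intro z hz
    rw [← ZMod.natCast_zmod_val z, map_natCast, ZMod.natCast_eq_zero_iff] at hz
    obtain ⟨m, hm⟩ := hz
    exact ⟨m, by rw [← ZMod.natCast_zmod_val z, hm, nsmul_eq_mul, Nat.cast_mul]⟩
  have hker : ∀ v, π v = 0 → ∃ w, v = (p : ℕ) • w := by
    rintro ⟨v1, v2⟩ hv
    obtain ⟨b1, h1⟩ := hker1 v1 (congrArg Prod.fst hv)
    obtain ⟨b2, h2⟩ := hker1 v2 (congrArg Prod.snd hv)
    exact ⟨(b1, b2), Prod.ext h1 h2⟩
  have hdec : ∀ v : ZMod (p ^ 2) × ZMod (p ^ 2), v = v.1.val • ((1, 0) : ZMod (p ^ 2) × ZMod (p ^ 2)) + v.2.val • (0, 1) := by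
    rintro ⟨v1, v2⟩
    simp [Prod.ext_iff]
  let M : Module.End (ZMod p) (ZMod p × ZMod p) :=
    LinearMap.coprod (LinearMap.toSpanSingleton (ZMod p) _ (π (N (1, 0))))
      (LinearMap.toSpanSingleton (ZMod p) _ (π (N (0, 1))))
  have hM : ∀ v, π (N v) = M (π v) := by
    intro v
    conv_lhs => rw [hdec v]
    rw [map_add, map_add, map_nsmul, map_nsmul, map_nsmul, map_nsmul]
    show _ = (c v.1) • π (N (1, 0)) + (c v.2) • π (N (0, 1))
    conv_rhs => rw [← ZMod.natCast_zmod_val v.1, ← ZMod.natCast_zmod_val v.2, map_natCast, map_natCast,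
      Nat.cast_smul_eq_nsmul, Nat.cast_smul_eq_nsmul]
  have hπsurj : Function.Surjective π := by
    rintro ⟨u1, u2⟩
    obtain ⟨w1, h1⟩ := ZMod.ringHom_surjective c u1
    obtain ⟨w2, h2⟩ := ZMod.ringHom_surjective c u2
    exact ⟨(w1, w2), Prod.ext h1 h2⟩
  have hA1 : ∀ v, π (A v) = (1 + M) (π v) := by
    intro v
    have h1 : A v = v + N v := by
      show A v = v + (A v - v)
      abel
    rw [h1, map_add, hM]; rfl
  have hMp : M ^ p = 0 := by
    have h1 : (1 + M) ^ p = 1 := by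
      refine LinearMap.ext fun u => ?_
      obtain ⟨v, rfl⟩ := hπsurj u
      have key : ∀ n : ℕ, ((1 + M) ^ n) (π v) = π ((A ^ n) v) := by
        intro n
        induction n with
        | zero => rfl
        | succ n ih =>
          rw [pow_succ' (1 + M), pow_succ' A]
          show (1 + M) (((1 + M) ^ n) (π v)) = π (A ((A ^ n) v))
          rw [ih, hA1]
      rw [key, hAp]; rfl
    haveI : CharP (Module.End (ZMod p) (ZMod p × ZMod p)) p :=
      charP_of_injective_algebraMap (RingHom.injective (algebraMap (ZMod p) _)) p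
    rw [add_pow_char_of_commute _ (Commute.one_left M), one_pow] at h1
    exact add_eq_left.1 h1
  have hM2 : M ^ 2 = 0 := by
    have h2 := LinearMap.aeval_self_charpoly M
    rw [(show IsNilpotent M from ⟨p, hMp⟩).charpoly_eq_X_pow_finrank, map_pow, Polynomial.aeval_X,
      Module.finrank_prod, Module.finrank_self] at h2
    exact h2
  have hN2 : ∀ v, ∃ w, (N ^ 2) v = (p : ℕ) • w := fun v => hker _ (by
    rw [pow_two N]
    show π (N (N v)) = 0
    rw [hM, hM, ← Module.End.mul_apply, ← pow_two M, hM2]; rfl)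
  have hp2 : ∀ w : ZMod (p ^ 2) × ZMod (p ^ 2), (p : ℕ) • (p : ℕ) • w = 0 := by
    rintro ⟨w1, w2⟩
    rw [smul_smul, ← pow_two]
    refine Prod.ext ?_ ?_ <;> simp
  have hpN : ∀ v, (p : ℕ) • N v = 0 := by
    intro v
    have h0 : (A ^ p) v = v := by rw [hAp]; rfl
    have h1 : A = N + 1 := by rw [hN, sub_add_cancel]
    rw [h1, (Commute.one_right N).add_pow] at h0
    simp only [one_pow, mul_one] at h0
    have hterm : ∀ m ∈ Finset.range (p + 1), m ≠ 0 → m ≠ 1 → (N ^ m * ((p.choose m : ℕ) : AddMonoid.End (ZMod (p ^ 2) × ZMod (p ^ 2))) : AddMonoid.End (ZMod (p ^ 2) × ZMod (p ^ 2))) v = 0 := by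
      intro m hm hm0 hm1
      obtain ⟨j, rfl⟩ : ∃ j, m = 2 + j := ⟨m - 2, by omega⟩
      rw [← Nat.cast_comm, ← nsmul_eq_mul]
      show (p.choose (2 + j)) • ((N ^ (2 + j)) v) = 0
      rw [pow_add]
      show (p.choose (2 + j)) • ((N ^ 2) ((N ^ j) v)) = 0
      by_cases hmp : 2 + j = p
      · obtain ⟨i, hi⟩ : ∃ i, j = 2 + i := ⟨j - 2, by omega⟩
        rw [hi, pow_add]
        show (p.choose (2 + (2 + i))) • ((N ^ 2) ((N ^ 2) ((N ^ i) v))) = 0
        obtain ⟨w, hw⟩ := hN2 ((N ^ i) v)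
        obtain ⟨w', hw'⟩ := hN2 w
        rw [hw, map_nsmul, hw', hp2, smul_zero]
      · obtain ⟨t, ht⟩ : p ∣ p.choose (2 + j) := hpp.dvd_choose_self (by omega) (by have := Finset.mem_range.1 hm; omega)
        obtain ⟨w, hw⟩ := hN2 ((N ^ j) v)
        rw [hw, ht, mul_comm, mul_smul, hp2, smul_zero]
    let ev : AddMonoid.End (ZMod (p ^ 2) × ZMod (p ^ 2)) →+ ZMod (p ^ 2) × ZMod (p ^ 2) := AddMonoidHom.eval v
    change ev (∑ m ∈ Finset.range (p + 1), N ^ m * ((p.choose m : ℕ) : AddMonoid.End (ZMod (p ^ 2) × ZMod (p ^ 2)))) = v at h0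
    rw [map_sum, Finset.sum_range_succ'] at h0
    have hs : (∑ k ∈ Finset.range p, ev (N ^ (k + 1) * ((p.choose (k + 1) : ℕ) : AddMonoid.End (ZMod (p ^ 2) × ZMod (p ^ 2))))) =
        ev (N ^ (0 + 1) * ((p.choose (0 + 1) : ℕ) : AddMonoid.End (ZMod (p ^ 2) × ZMod (p ^ 2)))) :=
      Finset.sum_eq_single 0 (fun m hm hm0 => hterm (m + 1) (by
        have := Finset.mem_range.1 hm; exact Finset.mem_range.2 (by omega)) (by omega) (by omega))
        (fun h => absurd (Finset.mem_range.2 hpp.pos) h)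
    rw [hs] at h0
    simp only [zero_add, pow_one, Nat.choose_one_right, pow_zero, Nat.choose_zero_right, Nat.cast_one, one_mul] at h0
    rw [← Nat.cast_comm, ← nsmul_eq_mul] at h0
    change p • N v + v = v at h0
    exact add_eq_right.1 h0
  obtain ⟨v, hxv⟩ : ∃ v, x = Multiplicative.ofAdd v := ⟨Multiplicative.toAdd x, rfl⟩
  rw [hxv] at hx ⊢
  have hpv : (p : ℕ) • v = 0 := by
    have h0 := pow_orderOf_eq_one (Multiplicative.ofAdd v)
    rw [hx] at h0
    have h1 := congrArg Multiplicative.toAdd h0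
    simpa using h1
  obtain ⟨w, hw⟩ : ∃ w, v = (p : ℕ) • w := by
    refine hker v ?_
    have key : ∀ z : ZMod (p ^ 2), (p : ℕ) • z = 0 → c z = 0 := by
      intro z hz
      rw [← ZMod.natCast_zmod_val z] at hz ⊢
      rw [map_natCast, ZMod.natCast_eq_zero_iff]
      rw [nsmul_eq_mul, ← Nat.cast_mul, ZMod.natCast_eq_zero_iff] at hz
      exact Nat.dvd_of_mul_dvd_mul_left hpp.pos ((dvd_of_eq (pow_two p).symm).trans hz)
    exact Prod.ext (key v.1 (congrArg Prod.fst hpv)) (key v.2 (congrArg Prod.snd hpv))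
  have hfix : A v = v := by
    have h1 : A v = v + N v := by
      show A v = v + (A v - v)
      abel
    rw [h1, hw, map_nsmul, hpN, add_zero]
  exact congrArg Multiplicative.ofAdd hfix


end Cfsg.Agent.S4080
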