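import Cfsg.Statements.S4081
import Cfsg.Agent.AutOrbits.Three

set_option autoImplicit false
open Cfsg
open scoped commutatorElement

namespace Cfsg.Agent.S4081

/-- Let G be a finite group whose order is not a prime power. Then the automorphism group of G has exactly three orbits on G if and only if there are distinct primes p, q with #G = pⁿ·q (n ≥ 1) such that G has a normal elementary abelian Sylow p-subgroup P, p is a primitive root modulo q (the multiplicative order of p mod q is q − 1), and every element of order q of G acts on P without non-identity fixed points. -/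
theorem result {G : Type*} [Group G] [Finite G] (hnpp : ¬ IsPrimePow (Nat.card G)) (hnt : Nat.card G ≠ 1) :
    Nat.card (MulAction.orbitRel.Quotient (MulAut G) G) = 3 ↔
    ∃ (p q n : ℕ) (_ : Fact p.Prime) (_ : Fact q.Prime), p ≠ q ∧ 1 ≤ n ∧ Nat.card G = p ^ n * q ∧
      (∀ P : Sylow p G, (P : Subgroup G).Normal ∧ Cfsg.IsElementaryAbelian p (P : Subgroup G)) ∧
      orderOf (p : ZMod q) = q - 1 ∧
      ∀ x y : G, orderOf x = q → orderOf y = p → x * y * x⁻¹ ≠ y := by
  constructor
  · intro h3
    obtain ⟨p, hp, hpdvd⟩ := Nat.exists_prime_and_dvd hnt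
    obtain ⟨q, hq, hqdvd, hqp⟩ : ∃ q : ℕ, q.Prime ∧ q ∣ Nat.card G ∧ q ≠ p := by
      by_contra hcon
      push Not at hcon
      have h := Nat.eq_prime_pow_of_unique_prime_dvd Nat.card_pos.ne' (fun {d} hd hdd => hcon d hd hdd)
      refine hnpp ⟨p, (Nat.card G).primeFactorsList.length, hp.prime, ?_, h.symm⟩
      rcases Nat.eq_zero_or_pos (Nat.card G).primeFactorsList.length with h0 | h0
      · rw [h0, pow_zero] at h
        exact absurd h hnt
      · exact h0
    have := Fact.mk hp
    have := Fact.mk hq
    obtain ⟨a, ha⟩ := exists_prime_orderOf_dvd_card' p hpdvd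
    obtain ⟨b, hb⟩ := exists_prime_orderOf_dvd_card' q hqdvd
    have ha1 : a ≠ 1 := fun h => hp.ne_one (by rw [← ha, h, orderOf_one])
    have hb1 : b ≠ 1 := fun h => hq.ne_one (by rw [← hb, h, orderOf_one])
    obtain ⟨hall, htr⟩ := CfsgLib.AutOrbits.orbits_of_card_three h3 ha1 hb1
      (by rw [ha, hb]; exact hqp.symm)
    rw [ha, hb] at hall
    have hsol : Group.IsSolvable G := CfsgLib.CharBasics.isSolvable_two_primes p q fun r hr hrd => by
      have := Fact.mk hr
      obtain ⟨g, hg⟩ := exists_prime_orderOf_dvd_card' r hrd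
      rcases hall g with rfl | h | h
      · rw [orderOf_one] at hg; exact absurd hg.symm hr.ne_one
      · exact Or.inl (hg.symm.trans h)
      · exact Or.inr (hg.symm.trans h)
    obtain ⟨m, hne, hbot⟩ : ∃ m, derivedSeries G m ≠ ⊥ ∧ derivedSeries G (m + 1) = ⊥ := by
      obtain ⟨N, hN⟩ := hsol.solvable
      induction N with
      | zero =>
        rw [derivedSeries_zero] at hN
        have : (1 : ℕ) = Nat.card G := by
          rw [← Subgroup.card_top (G := G), hN, Subgroup.card_bot]
        exact absurd this.symm hnt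
      | succ N ih =>
        by_cases h : derivedSeries G N = ⊥
        · exact ih h
        · exact ⟨N, h, hN⟩
    set D := derivedSeries G m with hD
    have hDc : IsMulCommutative D := ⟨⟨fun x y => by
      have h : ⁅(x : G), (y : G)⁆ ∈ derivedSeries G (m + 1) := by
        rw [derivedSeries_succ]
        exact Subgroup.commutator_mem_commutator x.2 y.2
      rw [hbot, Subgroup.mem_bot, commutatorElement_eq_one_iff_mul_comm] at h
      exact Subtype.ext h⟩⟩
    have hDn : D.Normal := inferInstance
    have hDinv : ∀ (e : MulAut G), ∀ g ∈ D, e g ∈ D := fun e g hg =>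
      map_derivedSeries_le_derivedSeries (e : G →* G) m (Subgroup.mem_map_of_mem _ hg)
    obtain ⟨u, hu, hu1⟩ := (Subgroup.bot_or_exists_ne_one D).resolve_left hne
    rcases hall u with h | h | h
    · exact absurd h hu1
    · obtain ⟨n, hn, hG, hP, hord, hfpf⟩ :=
        CfsgLib.AutOrbits.structure_of_three hqp.symm hall htr D hDinv hu h hb
      exact ⟨p, q, n, ‹_›, ‹_›, hqp.symm, hn, hG, hP, hord, hfpf⟩
    · obtain ⟨n, hn, hG, hP, hord, hfpf⟩ :=
        CfsgLib.AutOrbits.structure_of_three hqp (fun g => (hall g).imp_right Or.symm) htr D hDinv hu h ha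
      exact ⟨q, p, n, ‹_›, ‹_›, hqp, hn, hG, hP, hord, hfpf⟩
  · rintro ⟨p, q, n, _, _, hpq, hn, hG, hP, hord, hfpf⟩
    exact CfsgLib.AutOrbits.three_of_structure hpq hn hG (fun P => ⟨(hP P).1, (hP P).2.1, (hP P).2.2⟩)
      hord hfpf

end Cfsg.Agent.S4081
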