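import Cfsg.Statements.S4082
import Mathlib
import Cfsg.Agent.PByCyclic.Basic

set_option autoImplicit false
open Cfsg

namespace Cfsg.Agent.S4082

/-- Let p be an odd prime and G a finite group with Sylow p-subgroup P. Say that G has restricted p-by-cyclic subgroups when every subgroup H of G whose Sylow p-subgroup is normal in H with cyclic quotient is itself cyclic or dihedral of order 2pⁿ for some n. Then G has restricted p-by-cyclic subgroups if and only if P is cyclic and one of the following holds: (1) N_G(P) = C_G(P); or (2) N_G(P)/C_G(P) has order 2 and, for the subgroup Q of order p of P, the centralizer C_G(Q) is abelian and every element of N_G(Q) outside C_G(Q) is an involution inverting every element of C_G(Q). -/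
theorem result {G : Type*} [Group G] [Finite G] {p : ℕ}
    [Fact p.Prime] (hp : p ≠ 2) (P : Sylow p G) :
    (∀ H : Subgroup G, (∀ S : Sylow p ↥H, (S : Subgroup ↥H).Normal) →
        (∀ (S : Sylow p ↥H) [(S : Subgroup ↥H).Normal], IsCyclic (↥H ⧸ (S : Subgroup ↥H))) →
        IsCyclic H ∨ (∃ n : ℕ, Nonempty (H ≃* DihedralGroup (p ^ n)))) ↔
    (IsCyclic P ∧
      (Subgroup.normalizer ((P : Subgroup G) : Set G) = Subgroup.centralizer ((P : Subgroup G) : Set G) ∨
       ((Subgroup.centralizer ((P : Subgroup G) : Set G)).relIndex (Subgroup.normalizer ((P : Subgroup G) : Set G)) = 2 ∧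
        ∀ Q : Subgroup G, Q ≤ P → Nat.card Q = p →
          IsMulCommutative ↥(Subgroup.centralizer (Q : Set G)) ∧
          ∀ x : G, x ∈ Subgroup.normalizer (Q : Set G) → x ∉ Subgroup.centralizer (Q : Set G) →
            orderOf x = 2 ∧ ∀ c : G, c ∈ Subgroup.centralizer (Q : Set G) → x * c * x⁻¹ = c⁻¹))) := by
  classical
  have hp' := (Fact.out : p.Prime)
  have hpodd : Odd p := hp'.odd_of_ne_two hp
  have hoddord : ∀ {K : Type _} [Group K] [Finite K] (a : K), (∃ k : ℕ, a ^ p ^ k = 1) → Odd (orderOf a) := by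
    intro K _ _ a ⟨k, hk⟩
    exact Odd.of_dvd_nat hpodd.pow (orderOf_dvd_of_pow_eq_one hk)
  constructor
  · intro hyp
    have key : ∀ (T : Subgroup G), IsPGroup p T → ∀ y ∈ Subgroup.normalizer (T : Set G),
        (∃ t ∈ T, y * t ≠ t * y) → y * y = 1 ∧ ∀ t ∈ T, y * t * y⁻¹ = t⁻¹ := by
      intro T hT y hy ⟨t, ht, hne⟩
      obtain ⟨hn, hc⟩ := CfsgLib.PByCyclic.cond_sup (p := p) T hT y hy
      set H := T ⊔ Subgroup.zpowers y with hH
      have hyH : y ∈ H := Subgroup.mem_sup_right (Subgroup.mem_zpowers y)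
      have hod : ∀ (a : G) (ha : a ∈ T), Odd (orderOf (⟨a, Subgroup.mem_sup_left ha⟩ : H)) := by
        intro a ha
        rw [← Subgroup.orderOf_coe]
        obtain ⟨k, hk⟩ := hT ⟨a, ha⟩
        exact hoddord a ⟨k, by simpa using congrArg Subtype.val hk⟩
      have hne' : (⟨y, hyH⟩ : H) * ⟨t, Subgroup.mem_sup_left ht⟩ ≠
          ⟨t, Subgroup.mem_sup_left ht⟩ * ⟨y, hyH⟩ := fun h => hne (congrArg Subtype.val h)
      rcases hyp H hn hc with hcy | ⟨n, ⟨e⟩⟩
      · letI := hcy.commGroup
        exact absurd (mul_comm _ _) hne'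
      · obtain ⟨h1, h2⟩ := CfsgLib.PByCyclic.refl_of_noncomm e (hod t ht) hne'
        exact ⟨congrArg Subtype.val h1, fun a ha => congrArg Subtype.val (h2 _ (hod a ha))⟩
    have hPc : IsCyclic (P : Subgroup G) := by
      obtain ⟨hn, hc⟩ := CfsgLib.PByCyclic.cond_sup (p := p) (P : Subgroup G) P.2 1 (one_mem _)
      have hP1 : (P : Subgroup G) ⊔ Subgroup.zpowers 1 = P := by simp
      rcases hyp _ hn hc with h | ⟨n, ⟨e⟩⟩
      · rw [hP1] at h
        exact h
      · exfalso
        have h1 : Nat.card ↥((P : Subgroup G) ⊔ Subgroup.zpowers 1) = 2 * p ^ n := by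
          rw [Nat.card_congr e.toEquiv, DihedralGroup.nat_card]
        rw [hP1] at h1
        obtain ⟨k, hk⟩ := IsPGroup.iff_card.1 P.2
        rw [hk] at h1
        have h2 : Odd (p ^ k) := hpodd.pow
        rw [h1] at h2
        exact absurd h2 (by simp)
    refine ⟨hPc, ?_⟩
    by_cases hNC : Subgroup.normalizer ((P : Subgroup G) : Set G) =
        Subgroup.centralizer ((P : Subgroup G) : Set G)
    · exact Or.inl hNC
    have hCN : Subgroup.centralizer ((P : Subgroup G) : Set G) ≤
        Subgroup.normalizer ((P : Subgroup G) : Set G) := Subgroup.centralizer_le_normalizer _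
    obtain ⟨x₀, hx₀N, hx₀C⟩ := SetLike.exists_of_lt (lt_of_le_of_ne hCN (Ne.symm hNC))
    have hinvP : ∀ x ∈ Subgroup.normalizer ((P : Subgroup G) : Set G),
        x ∉ Subgroup.centralizer ((P : Subgroup G) : Set G) →
          ∀ a ∈ (P : Subgroup G), x * a * x⁻¹ = a⁻¹ := by
      intro x hx hxC
      rw [Subgroup.mem_centralizer_iff] at hxC
      push Not at hxC
      obtain ⟨t, ht, hne⟩ := hxC
      exact (key (P : Subgroup G) P.2 x hx ⟨t, ht, fun h => hne h.symm⟩).2
    refine Or.inr ⟨?_, ?_⟩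
    · rw [Subgroup.relIndex_eq_two_iff]
      refine ⟨x₀, hx₀N, fun b hb => ?_⟩
      by_cases hbC : b ∈ Subgroup.centralizer ((P : Subgroup G) : Set G)
      · exact Or.inr ⟨hbC, fun h => hx₀C ((mul_mem_cancel_left hbC).1 h)⟩
      · refine Or.inl ⟨Subgroup.mem_centralizer_iff.2 fun a ha => ?_, hbC⟩
        have h1 : b * x₀ * a * (b * x₀)⁻¹ = a := by
          calc b * x₀ * a * (b * x₀)⁻¹ = b * (x₀ * a * x₀⁻¹) * b⁻¹ := by group
            _ = a := by rw [hinvP x₀ hx₀N hx₀C a ha, hinvP b hb hbC _ (inv_mem ha), inv_inv]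
        exact (mul_inv_eq_iff_eq_mul.1 h1).symm
    · intro Q hQP hQc
      have hQ : IsPGroup p Q := IsPGroup.of_card (n := 1) (by rw [pow_one, hQc])
      have keyQ : ∀ x ∈ Subgroup.normalizer (Q : Set G), x ∉ Subgroup.centralizer (Q : Set G) →
          x * x = 1 ∧ ∀ t ∈ Q, x * t * x⁻¹ = t⁻¹ := by
        intro x hx hxC
        rw [Subgroup.mem_centralizer_iff] at hxC
        push Not at hxC
        obtain ⟨t, ht, hne⟩ := hxC
        exact key Q hQ x hx ⟨t, ht, fun h => hne h.symm⟩
      have hinvC : ∀ x ∈ Subgroup.normalizer (Q : Set G), x ∉ Subgroup.centralizer (Q : Set G) →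
          ∀ c ∈ Subgroup.centralizer (Q : Set G), x * c * x⁻¹ = c⁻¹ := by
        intro x hx hxC c hc
        have hxx := (keyQ x hx hxC).1
        have hxc := (keyQ (x * c) (mul_mem hx (Subgroup.centralizer_le_normalizer _ hc))
          (fun h => hxC ((mul_mem_cancel_right hc).1 h))).1
        rw [inv_eq_of_mul_eq_one_left hxx]
        exact eq_inv_of_mul_eq_one_left (by rw [mul_assoc]; exact hxc)
      haveI : Nontrivial Q := Finite.one_lt_card_iff_nontrivial.1 (by rw [hQc]; exact hp'.one_lt)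
      obtain ⟨⟨a, haQ⟩, ha1⟩ := exists_ne (1 : Q)
      have ha1' : a ≠ 1 := fun h => ha1 (Subtype.ext h)
      have hx₀Q : x₀ ∈ Subgroup.normalizer (Q : Set G) := by
        rw [Subgroup.mem_normalizer_iff]
        intro b
        refine ⟨fun hb => ?_, fun hb => ?_⟩
        · rw [hinvP x₀ hx₀N hx₀C b (hQP hb)]
          exact inv_mem hb
        · have h1 := hinvP x₀ hx₀N hx₀C _ (hQP hb)
          have hb' : b ∈ (P : Subgroup G) := ((Subgroup.mem_normalizer_iff.1 hx₀N) b).2 (hQP hb)
          rw [hinvP x₀ hx₀N hx₀C b hb'] at hb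
          exact inv_mem_iff.1 hb
      have hx₀CQ : x₀ ∉ Subgroup.centralizer (Q : Set G) := by
        intro h
        have h1 := hinvP x₀ hx₀N hx₀C a (hQP haQ)
        rw [← Subgroup.mem_centralizer_iff.1 h a haQ, mul_inv_cancel_right] at h1
        have hod := hoddord (⟨a, haQ⟩ : Q) (hQ _)
        have h2 : orderOf (⟨a, haQ⟩ : Q) ∣ 2 := orderOf_dvd_of_pow_eq_one (Subtype.ext (by
          show a ^ 2 = 1
          rw [pow_two]
          exact mul_eq_one_iff_eq_inv.2 h1))
        rcases (Nat.dvd_prime Nat.prime_two).1 h2 with h3 | h3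
        · exact ha1 (orderOf_eq_one_iff.1 h3)
        · rw [h3] at hod; exact absurd hod (by decide)
      refine ⟨?_, fun x hx hxC => ?_⟩
      · refine ⟨⟨fun c d => Subtype.ext ?_⟩⟩
        have h := hinvC x₀ hx₀Q hx₀CQ _ (mul_mem c.2 d.2)
        rw [show x₀ * ((c : G) * d) * x₀⁻¹ = (x₀ * c * x₀⁻¹) * (x₀ * d * x₀⁻¹) by group,
          hinvC x₀ hx₀Q hx₀CQ _ c.2, hinvC x₀ hx₀Q hx₀CQ _ d.2] at h
        show (c : G) * d = d * c
        simpa using (congrArg Inv.inv h).symm
      · refine ⟨orderOf_eq_prime (by rw [pow_two]; exact (keyQ x hx hxC).1) ?_, hinvC x hx hxC⟩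
        rintro rfl
        exact hxC (one_mem _)
  · rintro ⟨hPc, hcase⟩ H hn hc
    haveI : IsMulCommutative (P : Subgroup G) := ⟨⟨fun a b => by
      letI := hPc.commGroup; exact mul_comm a b⟩⟩
    let S : Sylow p ↥H := default
    haveI := hn S
    have hq := hc S
    have hco := Sylow.card_coprime_index S
    obtain ⟨P', hP'⟩ := (S.2.map H.subtype).exists_le_sylow
    obtain ⟨g, hg⟩ := MulAction.exists_smul_eq G P' P
    let φ : G ≃* G := MulAut.conj g
    have hSP : ∀ s : ↥H, s ∈ (S : Subgroup ↥H) → φ s ∈ (P : Subgroup G) := by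
      intro s hs
      have h1 : (s : G) ∈ (P' : Subgroup G) := hP' ⟨s, hs, rfl⟩
      rw [← hg]
      exact ⟨s, h1, rfl⟩
    let S' : Subgroup G := ((S : Subgroup ↥H).map H.subtype).map φ.toMonoidHom
    have hS'P : S' ≤ P := by
      rintro _ ⟨_, ⟨s, hs, rfl⟩, rfl⟩
      exact hSP s hs
    haveI hS'c : IsCyclic S' := isCyclic_of_injective (Subgroup.inclusion hS'P) (Subgroup.inclusion_injective hS'P)
    let f : ↥(S : Subgroup ↥H) →* S' :=
      ((φ.toMonoidHom.comp H.subtype).comp (S : Subgroup ↥H).subtype).codRestrict S'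
        (fun s => ⟨_, ⟨_, s.2, rfl⟩, rfl⟩)
    haveI hSc : IsCyclic (S : Subgroup ↥H) := isCyclic_of_injective f (fun a b h =>
      Subtype.ext (Subtype.ext (φ.injective (congrArg Subtype.val h))))
    have hHN : ∀ h : ↥H, φ h ∈ Subgroup.normalizer (S' : Set G) := by
      intro h
      refine Subgroup.mem_normalizer_fintype ?_
      rintro _ ⟨_, ⟨s, hs, rfl⟩, rfl⟩
      refine ⟨_, ⟨h * s * h⁻¹, Subgroup.Normal.conj_mem inferInstance s hs h, rfl⟩, ?_⟩
      simp
    have hcent : (∀ h : ↥H, φ h ∈ Subgroup.centralizer (S' : Set G)) → IsCyclic H := by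
      intro hh
      refine CfsgLib.PByCyclic.isCyclic_of_central (S : Subgroup ↥H) ?_ hq hco
      intro s hs
      rw [Subgroup.mem_center_iff]
      intro h
      have := Subgroup.mem_centralizer_iff.1 (hh h) (φ s) ⟨_, ⟨s, hs, rfl⟩, rfl⟩
      rw [← map_mul, ← map_mul] at this
      exact Subtype.ext (φ.injective this).symm
    rcases hcase with hNC | ⟨-, hQ⟩
    · exact Or.inl (hcent fun h =>
        CfsgLib.PByCyclic.normalizer_le_centralizer P hNC S' hS'P (hHN h))
    by_cases hS1 : S' = ⊥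
    · exact Or.inl (hcent fun h => Subgroup.mem_centralizer_iff.2 fun s hs => by
        rw [hS1] at hs
        rw [Subgroup.mem_bot.1 hs, one_mul, mul_one])
    have hS'p : IsPGroup p S' := P.2.to_le hS'P
    obtain ⟨a, haS, hao, hau⟩ := CfsgLib.PByCyclic.exists_omega S' hS'p hS1
    obtain ⟨hCab, hinv⟩ := hQ (Subgroup.zpowers a) ((Subgroup.zpowers_le.2 haS).trans hS'P)
      (by rw [Nat.card_zpowers, hao])
    have hNQ : ∀ h : ↥H, φ h ∈ Subgroup.normalizer ((Subgroup.zpowers a : Subgroup G) : Set G) := by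
      intro h
      refine Subgroup.mem_normalizer_fintype ?_
      intro b hb
      have hbS : b ∈ S' := Subgroup.zpowers_le.2 haS hb
      refine hau _ ((Subgroup.mem_normalizer_iff.1 (hHN h) b).1 hbS) ?_
      obtain ⟨k, rfl⟩ := Subgroup.mem_zpowers_iff.1 hb
      rw [conj_pow, ← zpow_natCast, ← zpow_mul, mul_comm k, zpow_mul, zpow_natCast, ← hao,
        pow_orderOf_eq_one, one_zpow, mul_one, mul_inv_cancel]
    have hS'C : S' ≤ Subgroup.centralizer ((Subgroup.zpowers a : Subgroup G) : Set G) :=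
      (le_trans (fun s hs => Subgroup.le_centralizer (P : Subgroup G) (hS'P hs)) (Subgroup.centralizer_le
        (show ((Subgroup.zpowers a : Subgroup G) : Set G) ⊆ ((P : Subgroup G) : Set G) from
          fun b hb => hS'P (Subgroup.zpowers_le.2 haS hb))))
    by_cases hall : ∀ h : ↥H, φ h ∈ Subgroup.centralizer ((Subgroup.zpowers a : Subgroup G) : Set G)
    · refine Or.inl (hcent fun h => Subgroup.mem_centralizer_iff.2 fun s hs => ?_)
      exact congrArg Subtype.val (hCab.is_comm.comm ⟨s, hS'C hs⟩ ⟨_, hall h⟩)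
    push Not at hall
    obtain ⟨x, hx⟩ := hall
    obtain ⟨hxo, hxi⟩ := hinv (φ x) (hNQ x) hx
    have hxx : x * x = 1 := by
      apply Subtype.ext; apply φ.injective
      rw [Subgroup.coe_mul, map_mul, Subgroup.coe_one, map_one, ← pow_two]
      rw [← hxo]; exact pow_orderOf_eq_one _
    have hxS : x ∉ (S : Subgroup ↥H) := fun h => hx (hS'C ⟨_, ⟨x, h, rfl⟩, rfl⟩)
    have hxinv : ∀ s ∈ (S : Subgroup ↥H), x * s * x⁻¹ = s⁻¹ := by
      intro s hs
      apply Subtype.ext; apply φ.injective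
      have := hxi (φ s) (hS'C ⟨_, ⟨s, hs, rfl⟩, rfl⟩)
      simpa using this
    have hsq : ∀ h : ↥H, h * h ∈ (S : Subgroup ↥H) := by
      intro h
      by_cases hh : φ h ∈ Subgroup.centralizer ((Subgroup.zpowers a : Subgroup G) : Set G)
      · have h1 : x * h * x⁻¹ = h⁻¹ := by
          apply Subtype.ext; apply φ.injective
          have := hxi (φ h) hh
          simpa using this
        letI := hq.commGroup
        have h2 : ((x * h * x⁻¹ : ↥H) : ↥H ⧸ (S : Subgroup ↥H)) = (h : ↥H ⧸ (S : Subgroup ↥H)) := by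
          rw [QuotientGroup.mk_mul, QuotientGroup.mk_mul, QuotientGroup.mk_inv]
          simp [mul_comm]
        rw [h1] at h2
        have h3 := QuotientGroup.eq.1 h2
        simpa using h3
      · obtain ⟨ho, -⟩ := hinv (φ h) (hNQ h) hh
        have : h * h = 1 := by
          apply Subtype.ext; apply φ.injective
          rw [Subgroup.coe_mul, map_mul, Subgroup.coe_one, map_one, ← pow_two, ← ho]
          exact pow_orderOf_eq_one _
        rw [this]; exact one_mem _
    have hidx : (S : Subgroup ↥H).index = 2 := by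
      haveI := hq
      obtain ⟨y, hy⟩ := IsCyclic.exists_ofOrder_eq_natCard (α := ↥H ⧸ (S : Subgroup ↥H))
      obtain ⟨h, rfl⟩ := QuotientGroup.mk_surjective y
      have h1 : (S : Subgroup ↥H).index ∣ 2 := by
        rw [Subgroup.index_eq_card, ← hy]
        refine orderOf_dvd_of_pow_eq_one ?_
        rw [pow_two, ← QuotientGroup.mk_mul, QuotientGroup.eq_one_iff]
        exact hsq h
      rcases (Nat.dvd_prime Nat.prime_two).1 h1 with h2 | h2
      · exact absurd (by rw [Subgroup.index_eq_one.1 h2]; trivial) hxS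
      · exact h2
    obtain ⟨n, hn'⟩ := IsPGroup.iff_card.1 S.2
    obtain ⟨g', hg'⟩ := IsCyclic.exists_ofOrder_eq_natCard (α := ↥(S : Subgroup ↥H))
    haveI : NeZero (p ^ n) := ⟨pow_ne_zero _ hp'.ne_zero⟩
    refine Or.inr ⟨n, CfsgLib.PByCyclic.nonempty_dihedral ?_ (g := (g' : ↥H)) (s := x) ?_ ?_ hxx
      (hxinv _ g'.2)⟩
    · rw [← (S : Subgroup ↥H).card_mul_index, hidx, hn', mul_comm]
    · rw [Subgroup.orderOf_coe, hg', hn']
    · exact fun h => hxS (Subgroup.zpowers_le.2 g'.2 h)

end Cfsg.Agent.S4082
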