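import Cfsg.Statements.S4083
import Mathlib
import Cfsg.Agent.PByCyclic.Two

set_option autoImplicit false
open Cfsg

namespace Cfsg.Agent.S4083

/-- Let G be a finite group with Sylow 2-subgroup P. Every subgroup H of G whose Sylow 2-subgroup is normal in H with cyclic quotient is cyclic, dihedral of 2-power order, or isomorphic to the alternating group of degree 4, if and only if either P is cyclic, or P is dihedral (of order at least 4) and every elementary abelian subgroup K of order 4 of P satisfies C_G(K) = K. -/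
theorem result {G : Type*} [Group G] [Finite G] (P : Sylow 2 G) :
    (∀ H : Subgroup G, (∀ S : Sylow 2 ↥H, (S : Subgroup ↥H).Normal) →
        (∀ (S : Sylow 2 ↥H) [(S : Subgroup ↥H).Normal], IsCyclic (↥H ⧸ (S : Subgroup ↥H))) →
        IsCyclic H ∨ (∃ n : ℕ, Nonempty (H ≃* DihedralGroup (2 ^ n))) ∨ Nonempty (H ≃* alternatingGroup (Fin 4))) ↔
    (IsCyclic P ∨
      ((∃ n : ℕ, 1 ≤ n ∧ Nonempty ((P : Subgroup G) ≃* DihedralGroup (2 ^ n))) ∧
        ∀ K : Subgroup G, K ≤ P → Nat.card K = 4 → (∀ k ∈ K, k ^ 2 = 1) → Subgroup.centralizer (K : Set G) = K)) := by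
  classical
  constructor
  · intro hyp
    have hA4 : ¬ IsMulCommutative (alternatingGroup (Fin 4)) := fun h => by
      have := h.is_comm.comm (⟨Equiv.swap 0 1 * Equiv.swap 1 2, Equiv.Perm.mem_alternatingGroup.2 (by decide)⟩ : alternatingGroup (Fin 4))
        ⟨Equiv.swap 0 1 * Equiv.swap 2 3, Equiv.Perm.mem_alternatingGroup.2 (by decide)⟩
      revert this
      decide
    have hA4c : Nat.card (alternatingGroup (Fin 4)) = 12 := by
      rw [nat_card_alternatingGroup, Nat.card_fin]
      decide
    obtain ⟨hn, hc⟩ := CfsgLib.PByCyclic.cond_sup (p := 2) (P : Subgroup G) P.2 1 (one_mem _)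
    have hP1 : (P : Subgroup G) ⊔ Subgroup.zpowers 1 = P := by simp
    have hP : IsCyclic P ∨ ∃ n : ℕ, 1 ≤ n ∧ Nonempty ((P : Subgroup G) ≃* DihedralGroup (2 ^ n)) := by
      have h := hyp _ hn hc
      rw [hP1] at h
      rcases h with h | ⟨n, ⟨e⟩⟩ | ⟨⟨e⟩⟩
      · exact Or.inl h
      · rcases Nat.eq_zero_or_pos n with rfl | hn0
        · left
          haveI : Fact (Nat.Prime 2) := ⟨Nat.prime_two⟩
          exact isCyclic_of_prime_card (p := 2)
            ((Nat.card_congr e.toEquiv).trans (by rw [DihedralGroup.nat_card]; norm_num))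
        · exact Or.inr ⟨n, hn0, ⟨e⟩⟩
      · exfalso
        obtain ⟨k, hk⟩ := IsPGroup.iff_card.1 P.2
        rw [Nat.card_congr e.toEquiv, hA4c] at hk
        have h3 : (3 : ℕ) ∣ 2 ^ k := ⟨4, by rw [← hk]⟩
        exact absurd ((Nat.prime_dvd_prime_iff_eq Nat.prime_three Nat.prime_two).1
          (Nat.prime_three.dvd_of_dvd_pow h3)) (by norm_num)
    rcases hP with h | h
    · exact Or.inl h
    refine Or.inr ⟨h, fun K hKP hK4 hK2 => ?_⟩
    have hKab : ∀ a ∈ K, ∀ b ∈ K, a * b = b * a := by
      intro a ha b hb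
      have h1 := hK2 _ (mul_mem ha hb)
      have hai : a⁻¹ = a := inv_eq_of_mul_eq_one_left (by rw [← pow_two]; exact hK2 a ha)
      have hbi : b⁻¹ = b := inv_eq_of_mul_eq_one_left (by rw [← pow_two]; exact hK2 b hb)
      rw [pow_two] at h1
      rw [← inv_eq_of_mul_eq_one_left h1, mul_inv_rev, hai, hbi]
    refine le_antisymm (fun y hy => ?_) (fun a ha => Subgroup.mem_centralizer_iff.2 fun b hb => hKab b hb a ha)
    obtain ⟨hn', hc'⟩ := CfsgLib.PByCyclic.cond_sup (p := 2) K (P.2.to_le hKP) y
      (Subgroup.centralizer_le_normalizer _ hy)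
    set H := K ⊔ Subgroup.zpowers y with hH
    have hKy : ∀ a ∈ K, Commute a y := fun a ha => Subgroup.mem_centralizer_iff.1 hy a ha
    have hHc : H ≤ Subgroup.centralizer (H : Set G) := by
      rw [Subgroup.le_centralizer_iff]
      refine sup_le ?_ (Subgroup.zpowers_le.2 ?_)
      · rw [Subgroup.le_centralizer_iff]
        refine sup_le ?_ (Subgroup.zpowers_le.2 hy)
        exact fun a ha => Subgroup.mem_centralizer_iff.2 fun b hb => hKab b hb a ha
      · rw [← Subgroup.zpowers_le, Subgroup.le_centralizer_iff]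
        exact sup_le (fun a ha => Subgroup.mem_centralizer_iff.2 fun b hb => by
            obtain ⟨k, rfl⟩ := Subgroup.mem_zpowers_iff.1 hb
            exact ((hKy a ha).zpow_right k).eq.symm)
          (fun a ha => Subgroup.mem_centralizer_iff.2 fun b hb => by
            obtain ⟨k, rfl⟩ := Subgroup.mem_zpowers_iff.1 hb
            obtain ⟨l, rfl⟩ := Subgroup.mem_zpowers_iff.1 ha
            exact (Commute.zpow_zpow_self y k l).eq)
    haveI hHab : IsMulCommutative H :=
      ⟨⟨fun a b => Subtype.ext (Subgroup.mem_centralizer_iff.1 (hHc b.2) a a.2)⟩⟩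
    rcases hyp H hn' hc' with hcy | ⟨n, ⟨e⟩⟩ | ⟨⟨e⟩⟩
    · exfalso
      haveI : IsCyclic K := isCyclic_of_injective (Subgroup.inclusion (le_sup_left : K ≤ H))
        (Subgroup.inclusion_injective _)
      obtain ⟨g, hg⟩ := IsCyclic.exists_ofOrder_eq_natCard (α := K)
      have h2 : orderOf g ∣ 2 := orderOf_dvd_of_pow_eq_one (Subtype.ext (hK2 g g.2))
      rw [hg, hK4] at h2
      norm_num at h2
    · have hle : 2 ^ n ≤ 2 := by
        by_contra hlt
        haveI : NeZero (2 ^ n) := ⟨by positivity⟩
        have h1 : DihedralGroup.r (1 : ZMod (2 ^ n)) * DihedralGroup.sr 0 =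
            DihedralGroup.sr 0 * DihedralGroup.r 1 := e.symm.injective (by
          rw [map_mul, map_mul]; exact hHab.is_comm.comm _ _)
        rw [DihedralGroup.r_mul_sr, DihedralGroup.sr_mul_r, DihedralGroup.sr.injEq] at h1
        have h2 : ((2 : ℕ) : ZMod (2 ^ n)) = 0 := by
          push_cast
          linear_combination -h1
        rw [ZMod.natCast_eq_zero_iff] at h2
        exact hlt (Nat.le_of_dvd (by norm_num) h2)
      have hKH : K = H := Subgroup.eq_of_le_of_card_ge le_sup_left (by
        rw [Nat.card_congr e.toEquiv, DihedralGroup.nat_card, hK4]; omega)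
      rw [hKH]
      exact Subgroup.mem_sup_right (Subgroup.mem_zpowers y)
    · exact absurd ⟨⟨fun a b => e.symm.injective (by
        rw [map_mul, map_mul]; exact hHab.is_comm.comm _ _)⟩⟩ hA4
  · intro hP H hn hc
    haveI : Fact (Nat.Prime 2) := ⟨Nat.prime_two⟩
    let S : Sylow 2 ↥H := default
    haveI := hn S
    have hq := hc S
    have hco := Sylow.card_coprime_index S
    obtain ⟨P', hP'⟩ := (S.2.map H.subtype).exists_le_sylow
    obtain ⟨γ, hγ⟩ := MulAction.exists_smul_eq G P' P
    let φ : ↥H →* G := (MulAut.conj γ).toMonoidHom.comp H.subtype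
    have hφ : Function.Injective φ := (MulAut.conj γ).injective.comp H.subtype_injective
    have hSP : ∀ s ∈ (S : Subgroup ↥H), φ s ∈ (P : Subgroup G) := by
      intro s hs
      rw [← hγ]
      exact ⟨(s : G), hP' ⟨s, hs, rfl⟩, rfl⟩
    let fP : ↥(S : Subgroup ↥H) →* (P : Subgroup G) :=
      (φ.comp (S : Subgroup ↥H).subtype).codRestrict (P : Subgroup G) (fun s => hSP s s.2)
    have hfP : Function.Injective fP := fun a b h =>
      Subtype.ext (hφ (congrArg Subtype.val h))
    have hoddidx : Odd (S : Subgroup ↥H).index :=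
      Nat.not_even_iff_odd.1 fun h => S.not_dvd_index (even_iff_two_dvd.1 h)
    have hcycS : IsCyclic (S : Subgroup ↥H) → IsCyclic H := fun _ =>
      CfsgLib.PByCyclic.isCyclic_of_central (S : Subgroup ↥H)
        (CfsgLib.PByCyclic.central_of_cyclic_two _ S.2 hoddidx) hq hco
    rcases hP with hPc | ⟨⟨n, hn1, ⟨e⟩⟩, hK⟩
    · exact Or.inl (hcycS (isCyclic_of_injective fP hfP))
    haveI : NeZero (2 ^ n) := ⟨by positivity⟩
    rcases CfsgLib.PByCyclic.dihedral_sub (e.toMonoidHom.comp fP) (e.injective.comp hfP) with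
      hSc | ⟨g, s, hss, hinv, hsg, hcard, hout⟩
    · exact Or.inl (hcycS hSc)
    obtain ⟨a, ha⟩ := IsPGroup.iff_card.1 S.2
    obtain ⟨b, hb, hgo⟩ : ∃ b, b ≤ a ∧ orderOf g = 2 ^ b :=
      (Nat.dvd_prime_pow Nat.prime_two).1 (ha ▸ hcard.symm ▸ Dvd.intro_left 2 rfl)
    rcases Nat.eq_zero_or_pos b with rfl | hb0
    · refine Or.inl (hcycS ?_)
      exact isCyclic_of_prime_card (p := 2) (by rw [hcard, hgo]; norm_num)
    obtain ⟨c, rfl⟩ : ∃ c, b = c + 1 := ⟨b - 1, by omega⟩
    set z := g ^ 2 ^ c with hz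
    have hzo : orderOf z = 2 := by
      rw [hz, orderOf_pow' _ (by positivity), hgo,
        Nat.gcd_eq_right (pow_dvd_pow 2 (Nat.le_succ c)), pow_succ',
        Nat.mul_div_cancel _ (by positivity)]
    have hzz : z * z = 1 := by
      have h1 := pow_orderOf_eq_one z
      rwa [hzo, pow_two] at h1
    have hzg : z ∈ Subgroup.zpowers g := pow_mem (Subgroup.mem_zpowers g) _
    have hzs : z * s = s * z := by
      have h1 : s * z * s⁻¹ = z := by
        rw [hz, ← conj_pow, hinv, inv_pow]
        exact inv_eq_of_mul_eq_one_left hzz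
      exact (mul_inv_eq_iff_eq_mul.1 h1).symm
    have hz1 : z ≠ 1 := fun h => by rw [h, orderOf_one] at hzo; norm_num at hzo
    have hs1 : s ≠ 1 := fun h => hsg (h ▸ one_mem _)
    have hzsne : z ≠ s := fun h => hsg (h ▸ hzg)
    have hself : ∀ h : ↥H, (z : ↥H) * h = h * z → (s : ↥H) * h = h * s → h ∈ (S : Subgroup ↥H) := by
      intro h hhz hhs
      have hzz' : φ z * φ z = 1 := by rw [← map_mul, ← Subgroup.coe_mul, hzz]; simp
      have hss' : φ s * φ s = 1 := by rw [← map_mul, ← Subgroup.coe_mul, hss]; simp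
      have hzs' : φ z * φ s = φ s * φ z := by
        rw [← map_mul, ← map_mul, ← Subgroup.coe_mul, hzs]; simp
      set K := CfsgLib.PByCyclic.four (φ z) (φ s) hzz' hss' hzs'
      have hKeq : Subgroup.centralizer (K : Set G) = K := by
        refine hK K ?_ ?_ ?_
        · intro x hx
          rcases CfsgLib.PByCyclic.mem_four.1 hx with rfl | rfl | rfl | rfl
          · exact one_mem _
          · exact hSP _ z.2
          · exact hSP _ s.2
          · exact mul_mem (hSP _ z.2) (hSP _ s.2)
        · refine CfsgLib.PByCyclic.card_four (fun h1 => hz1 ?_) (fun h1 => hs1 ?_) (fun h1 => hzsne ?_)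
          · exact Subtype.ext (hφ (h1.trans (map_one φ).symm))
          · exact Subtype.ext (hφ (h1.trans (map_one φ).symm))
          · exact Subtype.ext (hφ h1)
        · intro x hx
          rw [pow_two]
          rcases CfsgLib.PByCyclic.mem_four.1 hx with rfl | rfl | rfl | rfl
          · exact one_mul 1
          · exact hzz'
          · exact hss'
          · rw [mul_assoc, ← mul_assoc (φ s), ← hzs', mul_assoc, hss', mul_one, hzz']
      have hh : φ h ∈ K := by
        rw [← hKeq, Subgroup.mem_centralizer_iff]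
        intro x hx
        rcases CfsgLib.PByCyclic.mem_four.1 hx with rfl | rfl | rfl | rfl
        · simp
        · rw [← map_mul, hhz, map_mul]
        · rw [← map_mul, hhs, map_mul]
        · rw [← map_mul, ← map_mul, mul_assoc, hhs, ← mul_assoc, hhz, mul_assoc, map_mul]
      rcases CfsgLib.PByCyclic.mem_four.1 hh with h1 | h1 | h1 | h1
      · rw [hφ (h1.trans (map_one φ).symm)]; exact one_mem _
      · rw [hφ h1]; exact z.2
      · rw [hφ h1]; exact s.2
      · rw [hφ (h1.trans (map_mul φ _ _).symm)]; exact mul_mem z.2 s.2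
    have hdih : (S : Subgroup ↥H) = ⊤ → ∃ m : ℕ, Nonempty (H ≃* DihedralGroup (2 ^ m)) := by
      intro htop
      haveI : NeZero (2 ^ (c + 1)) := ⟨by positivity⟩
      obtain ⟨ed⟩ := CfsgLib.PByCyclic.nonempty_dihedral (n := 2 ^ (c + 1))
        (by rw [hcard, hgo]) hgo hsg hss hinv
      exact ⟨c + 1, ⟨((MulEquiv.subgroupCongr htop).trans Subgroup.topEquiv).symm.trans ed⟩⟩
    rcases Nat.eq_zero_or_pos c with rfl | hc0
    · have hzeq : z = g := by rw [hz, pow_zero, pow_one]
      have hS4 : Nat.card (S : Subgroup ↥H) = 4 := by rw [hcard, hgo]; norm_num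
      let ψ : ↥H →* Equiv.Perm {x : ↥(S : Subgroup ↥H) // x ≠ 1} :=
        MonoidHom.mk' (fun h => Equiv.Perm.subtypePerm
          (MulAut.conjNormal h : MulAut ↥(S : Subgroup ↥H)).toEquiv
          (fun x => by simp)) (fun h k => by
            ext x
            simp [Equiv.Perm.subtypePerm_apply, map_mul])
      have hψ : ∀ h : ↥H, ψ (h ^ 6) = 1 := by
        intro h
        rw [map_pow]
        have hc3 : Nat.card {x : ↥(S : Subgroup ↥H) // x ≠ 1} = 3 := by
          letI := Fintype.ofFinite ↥(S : Subgroup ↥H)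
          rw [Nat.card_eq_fintype_card, Fintype.card_subtype_compl,
            ← Nat.card_eq_fintype_card, hS4]
          simp
        have h6 : Nat.card (Equiv.Perm {x : ↥(S : Subgroup ↥H) // x ≠ 1}) = 6 := by
          rw [Nat.card_perm, hc3]; rfl
        rw [← h6]
        exact pow_card_eq_one'
      have h6S : ∀ h : ↥H, h ^ 6 ∈ (S : Subgroup ↥H) := by
        intro h
        have hfix : ∀ x : ↥(S : Subgroup ↥H), x ≠ 1 → (x : ↥H) * h ^ 6 = h ^ 6 * x := by
          intro x hx
          have h1 := congrArg (fun t => ((t ⟨x, hx⟩).1 : ↥H)) (hψ h)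
          have h2 : h ^ 6 * (x : ↥H) * (h ^ 6)⁻¹ = x := h1
          exact (mul_inv_eq_iff_eq_mul.1 h2).symm
        exact hself _ (hfix z hz1) (hfix s hs1)
      have hd6 : (S : Subgroup ↥H).index ∣ 6 := by
        haveI := hq
        obtain ⟨y, hy⟩ := IsCyclic.exists_ofOrder_eq_natCard (α := ↥H ⧸ (S : Subgroup ↥H))
        obtain ⟨h, rfl⟩ := QuotientGroup.mk_surjective y
        rw [Subgroup.index_eq_card, ← hy]
        refine orderOf_dvd_of_pow_eq_one ?_
        rw [← QuotientGroup.mk_pow, QuotientGroup.eq_one_iff]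
        exact h6S h
      have h13 : (S : Subgroup ↥H).index ∈ Nat.divisors 6 := Nat.mem_divisors.2 ⟨hd6, by norm_num⟩
      rw [show Nat.divisors 6 = {1, 2, 3, 6} from by decide] at h13
      simp only [Finset.mem_insert, Finset.mem_singleton] at h13
      rcases h13 with h1 | h1 | h1 | h1
      · exact Or.inr (Or.inl (hdih (Subgroup.index_eq_one.1 h1)))
      · rw [h1] at hoddidx; exact absurd hoddidx (by decide)
      · refine Or.inr (Or.inr (CfsgLib.PByCyclic.nonempty_alternating ?_ (S : Subgroup ↥H) hS4 ?_))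
        · rw [← (S : Subgroup ↥H).card_mul_index, hS4, h1]
        · exact fun y hy => hself y (hy _ z.2).symm (hy _ s.2).symm
      · rw [h1] at hoddidx; exact absurd hoddidx (by decide)
    · refine Or.inr (Or.inl (hdih ?_))
      rw [eq_top_iff]
      intro h _
      set m := (S : Subgroup ↥H).index with hm
      set y := h ^ 2 ^ a with hy
      have hym : y ^ m = 1 := by
        rw [hy, ← pow_mul, ← ha, hm, Subgroup.card_mul_index, pow_card_eq_one']
      have hNconj : ∀ x : ↥(S : Subgroup ↥H), y * (x : ↥H) * y⁻¹ ∈ (S : Subgroup ↥H) := fun x =>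
        Subgroup.Normal.conj_mem inferInstance _ x.2 y
      have hgo' : orderOf (g : ↥H) = 2 ^ (c + 1) := by rw [Subgroup.orderOf_coe, hgo]
      have hyg' : y * (g : ↥H) * y⁻¹ ∈ Subgroup.zpowers (g : ↥H) := by
        by_cases hmem : (⟨_, hNconj g⟩ : ↥(S : Subgroup ↥H)) ∈ Subgroup.zpowers g
        · obtain ⟨k, hk⟩ := Subgroup.mem_zpowers_iff.1 hmem
          exact Subgroup.mem_zpowers_iff.2 ⟨k, by simpa using congrArg Subtype.val hk⟩
        · exfalso
          have h1 := congrArg Subtype.val (hout _ hmem)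
          have h2 : (g : ↥H) ^ 2 = 1 := by
            have h3 : (y * (g : ↥H) * y⁻¹) * (y * (g : ↥H) * y⁻¹) = 1 := h1
            rw [← pow_two, conj_pow, mul_inv_eq_one, mul_eq_left] at h3
            exact h3
          have h4 := orderOf_dvd_of_pow_eq_one h2
          rw [hgo'] at h4
          have h5 : 2 ^ 2 ≤ 2 ^ (c + 1) := Nat.pow_le_pow_right (by norm_num) (by omega)
          have := Nat.le_of_dvd (by norm_num) h4
          omega
      have hcg : Commute y (g : ↥H) :=
        mul_inv_eq_iff_eq_mul.1 (CfsgLib.PByCyclic.fix_of_cyclic_two hgo' hoddidx hym hyg')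
      set t : ↥(S : Subgroup ↥H) := s⁻¹ * ⟨_, hNconj s⟩ with ht
      have htg : t ∈ Subgroup.zpowers g := by
        by_contra h0
        have hs' : (⟨_, hNconj s⟩ : ↥(S : Subgroup ↥H)) ∉ Subgroup.zpowers g := by
          intro h1
          obtain ⟨k, hk⟩ := Subgroup.mem_zpowers_iff.1 h1
          apply hsg
          refine Subgroup.mem_zpowers_iff.2 ⟨k, Subtype.ext ?_⟩
          have h2 : (g : ↥H) ^ k = y * (s : ↥H) * y⁻¹ := by simpa using congrArg Subtype.val hk
          push_cast
          calc (g : ↥H) ^ k = y⁻¹ * (y * (g : ↥H) ^ k) := by group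
            _ = y⁻¹ * ((g : ↥H) ^ k * y) := by rw [(hcg.zpow_right k).eq]
            _ = y⁻¹ * (y * s * y⁻¹ * y) := by rw [h2]
            _ = s := by group
        have hs2 : (⟨_, hNconj s⟩ : ↥(S : Subgroup ↥H)) * ⟨_, hNconj s⟩ = 1 := hout _ hs'
        have ht2 : t * t = 1 := hout _ h0
        -- `t` lies in the cyclic subgroup, as both factors are reflections
        have hidx2 : (Subgroup.zpowers g).index = 2 := by
          have h3 := (Subgroup.zpowers g).card_mul_index
          rw [Nat.card_zpowers, hcard, mul_comm 2] at h3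
          exact Nat.eq_of_mul_eq_mul_left (orderOf_pos g) h3
        exact h0 ((Subgroup.mul_mem_iff_of_index_two hidx2).2
          (iff_of_false (fun h4 => hsg (inv_mem_iff.1 h4)) hs'))
      obtain ⟨k, hk⟩ := Subgroup.mem_zpowers_iff.1 htg
      have hys : y * (s : ↥H) * y⁻¹ = s * (g : ↥H) ^ k := by
        have h2 := congrArg Subtype.val hk
        rw [ht] at h2
        push_cast at h2
        rw [h2]; group
      have hit : ∀ i : ℕ, y ^ i * (s : ↥H) * (y ^ i)⁻¹ = s * ((g : ↥H) ^ k) ^ i := by
        intro i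
        induction i with
        | zero => simp
        | succ i ih =>
          calc y ^ (i + 1) * (s : ↥H) * (y ^ (i + 1))⁻¹
              = y ^ i * (y * s * y⁻¹) * (y ^ i)⁻¹ := by rw [pow_succ]; group
            _ = (y ^ i * s * (y ^ i)⁻¹) * (y ^ i * (g : ↥H) ^ k * (y ^ i)⁻¹) := by rw [hys]; group
            _ = s * ((g : ↥H) ^ k) ^ (i + 1) := by
              rw [ih, ((hcg.pow_left i).zpow_right k).eq, mul_inv_cancel_right, pow_succ, mul_assoc]
      have hk1 : (g : ↥H) ^ k = 1 := by
        have h1 := hit m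
        rw [hym, one_mul, inv_one, mul_one, eq_comm, mul_eq_left] at h1
        have h2 : ((g : ↥H) ^ k) ^ 2 ^ (c + 1) = 1 := by
          rw [← zpow_natCast, ← zpow_mul, mul_comm, zpow_mul, zpow_natCast, ← hgo',
            pow_orderOf_eq_one, one_zpow]
        rw [← orderOf_eq_one_iff]
        exact Nat.eq_one_of_dvd_coprimes (Nat.Coprime.pow_right _ (Nat.coprime_two_right.2 hoddidx))
          (orderOf_dvd_of_pow_eq_one h1) (orderOf_dvd_of_pow_eq_one h2)
      rw [hk1, mul_one] at hys
      have hyS : y ∈ (S : Subgroup ↥H) := hself y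
        (by
          have : Commute y (z : ↥H) := by rw [hz, Subgroup.coe_pow]; exact hcg.pow_right _
          exact this.symm)
        (mul_inv_eq_iff_eq_mul.1 hys).symm
      -- so `h` lies in `S`
      have hidxmem : h ^ m ∈ (S : Subgroup ↥H) := Subgroup.pow_index_mem _ h
      have hcop : Nat.Coprime (2 ^ a) m := Nat.Coprime.pow_left a (Nat.coprime_two_left.2 hoddidx)
      have hbez := Nat.gcd_eq_gcd_ab (2 ^ a) m
      rw [hcop.gcd_eq_one] at hbez
      rw [← zpow_one h, show (1 : ℤ) = ((1 : ℕ) : ℤ) from rfl, hbez, zpow_add, zpow_mul, zpow_mul,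
        zpow_natCast, zpow_natCast]
      exact mul_mem (zpow_mem hyS _) (zpow_mem hidxmem _)

end Cfsg.Agent.S4083
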