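import Cfsg.Statements.S4084
import Mathlib

set_option autoImplicit false
open Cfsg

namespace Cfsg.Agent.S4084

theorem transfer {G H : Type*} [Group G] [Finite G] [Group H] [Finite H] (e : G ≃ H)
    (he : ∀ x y : G, Commute x y ↔ Commute (e x) (e y))
    {p q : ℕ} (hp : p.Prime) (hq : q.Prime) (hpq : p ≠ q) (g : G) (hg : orderOf g = p * q) :
    ∃ h : H, orderOf h = p * q := by
  obtain ⟨S, ⟨hSg, hSc⟩, hSmax⟩ := (Set.toFinite {S : Set G | g ∈ S ∧ ∀ x ∈ S, ∀ y ∈ S, Commute x y}).exists_maximal
    ⟨{g}, rfl, by rintro x rfl y rfl; exact Commute.refl _⟩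
  have hS : S = (Subgroup.centralizer S : Set G) := by
    refine Set.Subset.antisymm (fun x hx => Subgroup.mem_centralizer_iff.2 fun y hy => hSc y hy x hx) fun x hx => ?_
    have := hSmax (y := insert x S) ⟨Set.mem_insert_of_mem _ hSg, ?_⟩ (Set.subset_insert _ _)
    · exact this (Set.mem_insert _ _)
    · rintro a (rfl | ha) b (rfl | hb)
      · exact Commute.refl _
      · exact ((Subgroup.mem_centralizer_iff.1 hx) b hb).symm
      · exact (Subgroup.mem_centralizer_iff.1 hx) a ha
      · exact hSc a ha b hb
  have hT : e '' S = (Subgroup.centralizer (e '' S) : Set H) := by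
    refine Set.Subset.antisymm ?_ fun y hy => ⟨e.symm y, ?_, e.apply_symm_apply y⟩
    · rintro _ ⟨x, hx, rfl⟩
      exact Subgroup.mem_centralizer_iff.2 (by rintro _ ⟨y, hy, rfl⟩; exact ((he y x).1 (hSc y hy x hx)).eq)
    · rw [hS]
      refine Subgroup.mem_centralizer_iff.2 fun a ha => ((he _ _).2 ?_).eq
      rw [e.apply_symm_apply]
      exact Subgroup.mem_centralizer_iff.1 hy (e a) ⟨a, ha, rfl⟩
  have hcard : Nat.card (Subgroup.centralizer (e '' S)) = Nat.card (Subgroup.centralizer S) := by
    show Nat.card (Subgroup.centralizer (e '' S) : Set H) = Nat.card (Subgroup.centralizer S : Set G)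
    rw [← hT, ← hS]
    exact Nat.card_image_of_injective e.injective S
  have hdvd : p * q ∣ Nat.card (Subgroup.centralizer (e '' S)) := by
    rw [hcard, ← hg]
    exact Subgroup.orderOf_dvd_natCard _ (show g ∈ Subgroup.centralizer S from
      Subgroup.mem_centralizer_iff.2 fun y hy => (hSc y hy g hSg).eq)
  haveI := Fact.mk hp
  haveI := Fact.mk hq
  obtain ⟨a, ha⟩ := exists_prime_orderOf_dvd_card' p ((dvd_mul_right p q).trans hdvd)
  obtain ⟨b, hb⟩ := exists_prime_orderOf_dvd_card' q ((dvd_mul_left q p).trans hdvd)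
  have hab : Commute a b := by
    refine Subtype.ext ?_
    have hbT : (b : H) ∈ e '' S := hT.superset b.2
    exact (Subgroup.mem_centralizer_iff.1 a.2 (b : H) hbT).symm
  refine ⟨((a * b : Subgroup.centralizer (e '' S)) : H), ?_⟩
  rw [Subgroup.orderOf_coe, hab.orderOf_mul_eq_mul_orderOf_of_coprime (by
    rw [ha, hb]; exact (Nat.coprime_primes hp hq).2 hpq), ha, hb]

/-- Let G and H be finite groups whose commuting graphs are isomorphic: there is a bijection e : G → H with x, y commuting exactly when e(x), e(y) commute. Then G and H have the same prime graph: for distinct primes p, q, G has an element of order pq if and only if H does (and #G = #H, so the prime divisors agree). -/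
theorem result {G H : Type*} [Group G] [Finite G] [Group H] [Finite H] (e : G ≃ H)
    (he : ∀ x y : G, Commute x y ↔ Commute (e x) (e y))
    {p q : ℕ} (hp : p.Prime) (hq : q.Prime) (hpq : p ≠ q) :
    (∃ g : G, orderOf g = p * q) ↔ (∃ h : H, orderOf h = p * q) := by
  constructor
  · rintro ⟨g, hg⟩; exact transfer e he hp hq hpq g hg
  · rintro ⟨h, hh⟩
    exact transfer e.symm (fun x y => by rw [he (e.symm x) (e.symm y), e.apply_symm_apply, e.apply_symm_apply]) hp hq hpq h hh

end Cfsg.Agent.S4084
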