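import Cfsg.Statements.S4086
import Mathlib

set_option autoImplicit false
open Cfsg

namespace Cfsg.Agent.S4086

/-- For a finite group G the following are equivalent: every non-identity element has prime-power order; whenever two elements generate a cyclic subgroup, one of them is a power of the other (the enhanced power graph of G coincides with its power graph). -/
theorem result {G : Type*} [Group G] [Finite G] :
    (∀ g : G, g ≠ 1 → IsPrimePow (orderOf g)) ↔
    (∀ x y : G, IsCyclic ↥(Subgroup.closure ({x, y} : Set G)) → (x ∈ Subgroup.zpowers y ∨ y ∈ Subgroup.zpowers x)) := by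
  constructor
  · intro h x y hcyc
    set L := Subgroup.closure ({x, y} : Set G)
    have hx : x ∈ L := Subgroup.subset_closure (Or.inl rfl)
    have hy : y ∈ L := Subgroup.subset_closure (Or.inr rfl)
    haveI := hcyc
    obtain ⟨c, hc⟩ := IsCyclic.exists_generator (α := L)
    obtain ⟨i, hi⟩ := Subgroup.mem_zpowers_iff.1 (hc ⟨x, hx⟩)
    obtain ⟨j, hj⟩ := Subgroup.mem_zpowers_iff.1 (hc ⟨y, hy⟩)
    have hi' : (c : G) ^ i = x := congrArg Subtype.val hi
    have hj' : (c : G) ^ j = y := congrArg Subtype.val hj
    by_cases hc1 : (c : G) = 1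
    · left; rw [← hi', hc1, one_zpow]; exact one_mem _
    obtain ⟨p, k, hp, -, hpk⟩ := (isPrimePow_nat_iff _).1 (h _ hc1)
    have hxz : x ∈ Subgroup.zpowers (c : G) := ⟨i, hi'⟩
    have hyz : y ∈ Subgroup.zpowers (c : G) := ⟨j, hj'⟩
    have hxd : orderOf x ∣ p ^ k := hpk ▸ orderOf_dvd_of_mem_zpowers hxz
    have hyd : orderOf y ∣ p ^ k := hpk ▸ orderOf_dvd_of_mem_zpowers hyz
    obtain ⟨a, -, ha⟩ := (Nat.dvd_prime_pow hp).1 hxd
    obtain ⟨b, -, hb⟩ := (Nat.dvd_prime_pow hp).1 hyd
    have key : ∀ u v : G, u ∈ Subgroup.zpowers (c : G) → v ∈ Subgroup.zpowers (c : G) →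
        orderOf u ∣ orderOf v → u ∈ Subgroup.zpowers v := by
      intro u v hu hv huv
      rw [← Subgroup.orderOf_mk u hu, ← Subgroup.orderOf_mk v hv] at huv
      classical
      letI : Fintype (Subgroup.zpowers (c : G)) := Fintype.ofFinite _
      set u' : Subgroup.zpowers (c : G) := ⟨u, hu⟩
      set v' : Subgroup.zpowers (c : G) := ⟨v, hv⟩
      have hmem : u' ∈ Subgroup.zpowers v' := by
        by_contra hnot
        have hsub : insert u' (Finset.univ.filter (fun w => w ∈ Subgroup.zpowers v')) ⊆
            Finset.univ.filter (fun w => w ^ orderOf v' = 1) := by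
          intro w hw
          rw [Finset.mem_filter]
          refine ⟨Finset.mem_univ _, orderOf_dvd_iff_pow_eq_one.1 ?_⟩
          rcases Finset.mem_insert.1 hw with rfl | hw
          · exact huv
          · exact orderOf_dvd_of_mem_zpowers (Finset.mem_filter.1 hw).2
        have h1 := (Finset.card_le_card hsub).trans (IsCyclic.card_pow_eq_one_le (orderOf_pos v'))
        rw [Finset.card_insert_of_notMem (by simp [hnot]), ← Fintype.card_subtype, ← Nat.card_eq_fintype_card,
          Nat.card_zpowers] at h1
        omega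
      obtain ⟨m, hm⟩ := hmem
      exact ⟨m, congrArg Subtype.val hm⟩
    rcases le_total a b with hab | hab
    · left; exact key x y hxz hyz (by rw [ha, hb]; exact pow_dvd_pow p hab)
    · right; exact key y x hyz hxz (by rw [ha, hb]; exact pow_dvd_pow p hab)
  · intro h g hg
    by_contra hnot
    have hn1 : orderOf g ≠ 1 := fun e => hg (orderOf_eq_one_iff.1 e)
    obtain ⟨p, hp, hpd⟩ := Nat.exists_prime_and_dvd hn1
    obtain ⟨q, hq, hqd, hqp⟩ : ∃ q : ℕ, q.Prime ∧ q ∣ orderOf g ∧ q ≠ p := by
      by_contra hcon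
      push Not at hcon
      exact hnot ((isPrimePow_iff_unique_prime_dvd).2 ⟨p, ⟨hp, hpd⟩, fun r hr => hcon r hr.1 hr.2⟩)
    set x := g ^ (orderOf g / p)
    set y := g ^ (orderOf g / q)
    have hx : orderOf x = p := orderOf_pow_orderOf_div (orderOf_pos g).ne' hpd
    have hy : orderOf y = q := orderOf_pow_orderOf_div (orderOf_pos g).ne' hqd
    have hcyc : IsCyclic ↥(Subgroup.closure ({x, y} : Set G)) := by
      have hle : Subgroup.closure ({x, y} : Set G) ≤ Subgroup.zpowers g := by
        rw [Subgroup.closure_le]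
        rintro z (rfl | rfl) <;> exact Subgroup.pow_mem _ (Subgroup.mem_zpowers g) _
      exact (Subgroup.subgroupOfEquivOfLe hle).isCyclic.1 inferInstance
    rcases h x y hcyc with hm | hm
    · have := orderOf_dvd_of_mem_zpowers hm
      rw [hx, hy, Nat.prime_dvd_prime_iff_eq hp hq] at this
      exact hqp this.symm
    · have := orderOf_dvd_of_mem_zpowers hm
      rw [hx, hy, Nat.prime_dvd_prime_iff_eq hq hp] at this
      exact hqp this


end Cfsg.Agent.S4086
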