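import Cfsg.Statements.S4088
import Cfsg.Agent.Subnormal.BaerSuzuki
import Cfsg.Agent.Fusion.GroupAlperin

set_option autoImplicit false
open Cfsg

namespace Cfsg.Agent.S4088

open scoped Classical

section Weights
variable {α : Type*} [PartialOrder α]

/-- Weights on a finite poset summing to one on every principal upper set. -/
noncomputable def w (s : Finset α) (x : α) : ℤ :=
  1 - ∑ y ∈ (s.filter (x < ·)).attach, w s y.1
termination_by (s.filter (x < ·)).card
decreasing_by
  refine Finset.card_lt_card ?_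
  have hy := (Finset.mem_filter.1 y.2)
  refine Finset.ssubset_iff_of_subset (fun a ha => ?_) |>.2 ⟨y.1, y.2, ?_⟩
  · exact Finset.mem_filter.2 ⟨(Finset.mem_filter.1 ha).1, hy.2.trans (Finset.mem_filter.1 ha).2⟩
  · simp

lemma w_eq (s : Finset α) (x : α) : w s x = 1 - ∑ y ∈ s.filter (x < ·), w s y := by
  rw [w, Finset.sum_attach (s.filter (x < ·)) (w s)]

lemma filter_le_eq {s : Finset α} {x : α} (hx : x ∈ s) : s.filter (x ≤ ·) = insert x (s.filter (x < ·)) := by
  ext y
  simp only [Finset.mem_filter, Finset.mem_insert]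
  constructor
  · rintro ⟨h1, h2⟩
    rcases eq_or_lt_of_le h2 with h | h
    · exact Or.inl h.symm
    · exact Or.inr ⟨h1, h⟩
  · rintro (rfl | ⟨h1, h2⟩)
    · exact ⟨hx, le_rfl⟩
    · exact ⟨h1, h2.le⟩

lemma sum_le_eq {s : Finset α} {x : α} (hx : x ∈ s) (u : α → ℤ) :
    ∑ y ∈ s.filter (x ≤ ·), u y = u x + ∑ y ∈ s.filter (x < ·), u y := by
  rw [filter_le_eq hx, Finset.sum_insert (by simp)]

lemma w_upper (s : Finset α) {x : α} (hx : x ∈ s) : ∑ y ∈ s.filter (x ≤ ·), w s y = 1 := by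
  rw [sum_le_eq hx, w_eq]; ring

lemma upper_unique [Finite α] (s : Finset α) (u v : α → ℤ) (hu : ∀ x ∈ s, ∑ y ∈ s.filter (x ≤ ·), u y = 1)
    (hv : ∀ x ∈ s, ∑ y ∈ s.filter (x ≤ ·), v y = 1) : ∀ x ∈ s, u x = v x := by
  intro x
  induction x using WellFoundedGT.induction with
  | ind x IH =>
    intro hx
    have h1 := hu x hx
    have h2 := hv x hx
    rw [sum_le_eq hx] at h1 h2
    rw [Finset.sum_congr rfl fun y hy => IH y (Finset.mem_filter.1 hy).2 (Finset.mem_filter.1 hy).1] at h1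
    linarith

/-- A monotone decreasing retraction preserves the total weight. -/
lemma sum_retract [Finite α] (s t : Finset α) (r : α → α) (hts : t ⊆ s) (hr : ∀ x ∈ s, r x ∈ t)
    (hle : ∀ x ∈ s, r x ≤ x) (hfix : ∀ q ∈ t, ∀ x ∈ s, q ≤ x → q ≤ r x) (u v : α → ℤ)
    (hu : ∀ x ∈ s, ∑ y ∈ s.filter (x ≤ ·), u y = 1) (hv : ∀ x ∈ t, ∑ y ∈ t.filter (x ≤ ·), v y = 1) :
    ∑ x ∈ s, u x = ∑ x ∈ t, v x := by
  have key : ∀ q ∈ t, ∑ y ∈ t.filter (q ≤ ·), ∑ x ∈ s.filter (fun x => r x = y), u x = 1 := by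
    intro q hq
    rw [← hu q (hts hq), ← Finset.sum_fiberwise_of_maps_to (g := r) (t := t.filter (q ≤ ·))
      (fun x hx => Finset.mem_filter.2 ⟨hr x (Finset.mem_filter.1 hx).1,
        hfix q hq x (Finset.mem_filter.1 hx).1 (Finset.mem_filter.1 hx).2⟩)]
    refine Finset.sum_congr rfl fun y hy => Finset.sum_congr ?_ fun _ _ => rfl
    ext x
    simp only [Finset.mem_filter]
    exact ⟨fun ⟨h1, h2⟩ => ⟨⟨h1, ((Finset.mem_filter.1 hy).2.trans_eq h2.symm).trans (hle x h1)⟩, h2⟩,
      fun ⟨⟨h1, _⟩, h2⟩ => ⟨h1, h2⟩⟩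
  rw [← Finset.sum_fiberwise_of_maps_to hr]
  exact Finset.sum_congr rfl (upper_unique t _ v key hv)

end Weights

variable {G : Type*} [Group G] [Finite G] {p : ℕ} [Fact p.Prime]

/-- The `p`-subgroups of `N` normalised by `g`. -/
noncomputable def F (p : ℕ) (N : Subgroup G) (g : G) : Finset (Subgroup G) :=
  (Set.toFinite {R : Subgroup G | R ≤ N ∧ IsPGroup p R ∧ g ∈ Subgroup.normalizer (R : Set G)}).toFinset

lemma mem_F {N R : Subgroup G} {g : G} :
    R ∈ F p N g ↔ R ≤ N ∧ IsPGroup p R ∧ g ∈ Subgroup.normalizer (R : Set G) := by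
  simp [F]

/-- The total weight of `T` over the elements of `N` normalising it. -/
noncomputable def Φ (p : ℕ) (N T : Subgroup G) : ℤ :=
  ∑ g ∈ (Set.toFinite ((N ⊓ Subgroup.normalizer (T : Set G) : Subgroup G) : Set G)).toFinset, w (F p N g) T

/-- Maximal `p`-subgroups of `N`. -/
def IsMax (p : ℕ) (N T : Subgroup G) : Prop :=
  T ≤ N ∧ IsPGroup p T ∧ ∀ R : Subgroup G, R ≤ N → IsPGroup p R → T ≤ R → R = T

/-- The `p`-subgroups of `N` containing `H`. -/
noncomputable def above (p : ℕ) (N H : Subgroup G) : Finset (Subgroup G) :=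
  (Set.toFinite {T : Subgroup G | T ≤ N ∧ IsPGroup p T ∧ H ≤ T}).toFinset

lemma mem_above {N H T : Subgroup G} : T ∈ above p N H ↔ T ≤ N ∧ IsPGroup p T ∧ H ≤ T := by simp [above]

lemma sum_Φ (N H : Subgroup G) :
    ∑ T ∈ above p N H, Φ p N T =
      ∑ g ∈ (Set.toFinite (N : Set G)).toFinset, ∑ T ∈ (F p N g).filter (H ≤ ·), w (F p N g) T := by
  rw [show ∑ T ∈ above p N H, Φ p N T = ∑ T ∈ above p N H,
    ∑ g ∈ (Set.toFinite ((N ⊓ Subgroup.normalizer (T : Set G) : Subgroup G) : Set G)).toFinset, w (F p N g) T from rfl]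
  refine Finset.sum_comm' fun T g => ?_
  simp only [mem_above, Finset.mem_filter, mem_F, Set.Finite.mem_toFinset, SetLike.mem_coe, Subgroup.mem_inf]
  tauto

lemma exists_between {R T : Subgroup G} (hR : IsPGroup p R) (h : T < R) :
    T < R ⊓ Subgroup.normalizer (T : Set G) := by
  obtain ⟨U, hU⟩ := hR.exists_le_sylow
  rcases eq_or_ne (R ⊓ Subgroup.normalizer (T : Set G)) T with he | he
  · exfalso
    haveI : Finite ↥R := inferInstance
    haveI := hR.isNilpotent
    refine h.ne (le_antisymm h.le ?_)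
    have := (normalizerCondition_iff_only_full_group_self_normalizing.1 (Group.normalizerCondition_of_isNilpotent (G := ↥R)))
      (T.subgroupOf R) (by
        rw [← Subgroup.subgroupOf_normalizer_eq h.le]
        ext x
        simp only [Subgroup.mem_subgroupOf]
        exact ⟨fun hx => by rw [← he]; exact ⟨x.2, hx⟩, fun hx => Subgroup.le_normalizer hx⟩)
    exact Subgroup.subgroupOf_eq_top.1 this
  · exact lt_of_le_of_ne (le_inf h.le Subgroup.le_normalizer) (Ne.symm he)

lemma Φ_restrict {N T : Subgroup G} (hTN : T ≤ N) (hT : IsPGroup p T) :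
    Φ p N T = Φ p (N ⊓ Subgroup.normalizer (T : Set G)) T := by
  set M := N ⊓ Subgroup.normalizer (T : Set G) with hM
  unfold Φ
  refine Finset.sum_congr (by ext; simp [hM]) fun g hg => ?_
  have hgT : g ∈ Subgroup.normalizer (T : Set G) := ((Set.Finite.mem_toFinset _).1 hg).2
  rw [w_eq, w_eq]
  congr 1
  have hup : ∀ N' : Subgroup G, ∀ x ∈ (F p N' g).filter (T < ·),
      ∑ y ∈ ((F p N' g).filter (T < ·)).filter (x ≤ ·), w (F p N' g) y = 1 := by
    intro N' x hx
    obtain ⟨hx1, hx2⟩ := Finset.mem_filter.1 hx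
    rw [Finset.filter_filter, show (F p N' g).filter (fun a => T < a ∧ x ≤ a) = (F p N' g).filter (x ≤ ·) from
      Finset.filter_congr fun a _ => ⟨And.right, fun h => ⟨hx2.trans_le h, h⟩⟩]
    exact w_upper _ hx1
  refine sum_retract _ _ (fun R => R ⊓ Subgroup.normalizer (T : Set G)) ?_ ?_ (fun x _ => inf_le_left) ?_ _ _
    (hup N) (hup M)
  · intro R hR
    simp only [Finset.mem_filter, mem_F] at hR ⊢
    exact ⟨⟨hR.1.1.trans inf_le_left, hR.1.2⟩, hR.2⟩
  · intro R hR
    simp only [Finset.mem_filter, mem_F] at hR ⊢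
    refine ⟨⟨inf_le_inf_right _ hR.1.1, hR.1.2.1.to_le inf_le_left, ?_⟩, exists_between hR.1.2.1 hR.2⟩
    exact Subgroup.inf_normalizer_le_normalizer_inf ⟨hR.1.2.2, Subgroup.le_normalizer hgT⟩
  · intro q hq x _ hqx
    simp only [Finset.mem_filter, mem_F] at hq
    exact le_inf hqx (hq.1.1.trans inf_le_right)

lemma sum_max {N T : Subgroup G} (hT : IsPGroup p T) (hTN : T ≤ N) (hN : N ≤ Subgroup.normalizer (T : Set G)) :
    ∑ R ∈ (above p N T).filter (IsMax p N), (Nat.card ↥(N ⊓ Subgroup.normalizer (R : Set G)) : ℤ) = Nat.card ↥N := by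
  haveI : Fintype (Sylow p ↥N) := Fintype.ofFinite _
  have hS : ∀ P : Sylow p ↥N, IsMax p N ((P : Subgroup ↥N).map N.subtype) := fun P => by
    refine ⟨Subgroup.map_subtype_le _, P.isPGroup'.map _, fun R hR hRp hle => ?_⟩
    have := P.3 (hRp.comap_subtype (H := R) (K := N)) (fun x hx => hle (Subgroup.mem_map_of_mem _ hx))
    rw [← this]
    exact (Subgroup.map_subgroupOf_eq_of_le hR).symm
  have hmax : ∀ R : Subgroup G, IsMax p N R → T ≤ R := fun R ⟨hR, hRp, hm⟩ =>
    le_sup_left.trans_eq (hm (T ⊔ R) (sup_le hTN hR) (IsPGroup.to_sup_of_normal_left' hT hRp (hR.trans hN)) le_sup_right)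
  have him : (above p N T).filter (IsMax p N) =
      (Finset.univ : Finset (Sylow p ↥N)).image (fun P : Sylow p ↥N => (P : Subgroup ↥N).map N.subtype) := by
    ext R
    simp only [Finset.mem_filter, Finset.mem_image, Finset.mem_univ, true_and, mem_above]
    constructor
    · rintro ⟨-, hR, hRp, hm⟩
      obtain ⟨P, hP⟩ := (hRp.comap_subtype (H := R) (K := N)).exists_le_sylow
      refine ⟨P, hm _ (Subgroup.map_subtype_le _) (P.isPGroup'.map _) ?_⟩
      rw [← Subgroup.map_subgroupOf_eq_of_le hR]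
      exact Subgroup.map_mono hP
    · rintro ⟨P, rfl⟩
      exact ⟨⟨(hS P).1, (hS P).2.1, hmax _ (hS P)⟩, hS P⟩
  rw [him, Finset.sum_image (fun P _ Q _ h => Sylow.ext (Subgroup.map_injective N.subtype_injective h))]
  obtain ⟨P₀⟩ : Nonempty (Sylow p ↥N) := inferInstance
  have hP : ∀ P : Sylow p ↥N, Nat.card ↥(N ⊓ Subgroup.normalizer (((P : Subgroup ↥N).map N.subtype : Subgroup G) : Set G)) *
      Nat.card (Sylow p ↥N) = Nat.card ↥N := fun P => by
    rw [Sylow.card_eq_index_normalizer P,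
      ← Subgroup.card_mul_index (Subgroup.normalizer ((P : Subgroup ↥N) : Set ↥N))]
    congr 1
    refine (Nat.card_congr (Subgroup.subgroupOfEquivOfLe inf_le_left).toEquiv).symm.trans ?_
    rw [Subgroup.inf_subgroupOf_left, Subgroup.subgroupOf_normalizer_eq (Subgroup.map_subtype_le _),
      show ((P : Subgroup ↥N).map N.subtype).subgroupOf N = (P : Subgroup ↥N) from
        Subgroup.comap_map_eq_self_of_injective N.subtype_injective _]
  have hn : 0 < Nat.card (Sylow p ↥N) := Nat.card_pos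
  rw [Finset.sum_congr rfl (g := fun _ => (Nat.card ↥(N ⊓ Subgroup.normalizer (((P₀ : Subgroup ↥N).map N.subtype : Subgroup G) : Set G)) : ℤ))
    fun P _ => by rw [Nat.eq_of_mul_eq_mul_right hn ((hP P).trans (hP P₀).symm)]]
  rw [Finset.sum_const, Finset.card_univ, ← Nat.card_eq_fintype_card, ← hP P₀, nsmul_eq_mul, Nat.cast_mul, mul_comm]

/-- The key vanishing. -/
lemma Φ_eq (N T : Subgroup G) (hTN : T ≤ N) (hT : IsPGroup p T) :
    Φ p N T = if IsMax p N T then (Nat.card ↥(N ⊓ Subgroup.normalizer (T : Set G)) : ℤ) else 0 := by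
  induction N using WellFoundedLT.induction generalizing T with
  | ind N IHN =>
  induction T using WellFoundedGT.induction with
  | ind T IHT =>
  by_cases hm : IsMax p N T
  · rw [if_pos hm]
    unfold Φ
    rw [Finset.sum_congr rfl (g := fun _ => (1 : ℤ)) fun g _ => ?_]
    · rw [Finset.sum_const, nsmul_one, ← Nat.card_eq_card_finite_toFinset]
      rfl
    · rw [w_eq, Finset.filter_eq_empty_iff.2, Finset.sum_empty, sub_zero]
      intro R hR hlt
      exact hlt.ne' (hm.2.2 R (mem_F.1 hR).1 (mem_F.1 hR).2.1 hlt.le)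
  rw [if_neg hm]
  by_cases hN : N ≤ Subgroup.normalizer (T : Set G)
  · have h := sum_Φ (p := p) N T
    rw [Finset.sum_congr rfl (g := fun _ => (1 : ℤ)) (s₁ := (Set.toFinite (N : Set G)).toFinset) fun g hg =>
      w_upper _ (mem_F.2 ⟨hTN, hT, hN ((Set.Finite.mem_toFinset _).1 hg)⟩)] at h
    rw [Finset.sum_const, nsmul_one, ← Nat.card_eq_card_finite_toFinset] at h
    have hTa : T ∈ above p N T := mem_above.2 ⟨hTN, hT, le_rfl⟩
    rw [← Finset.add_sum_erase _ _ hTa, Finset.sum_congr rfl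
      (g := fun R => if IsMax p N R then (Nat.card ↥(N ⊓ Subgroup.normalizer (R : Set G)) : ℤ) else 0) fun R hR => by
        obtain ⟨hne, hR'⟩ := Finset.mem_erase.1 hR
        obtain ⟨h1, h2, h3⟩ := mem_above.1 hR'
        exact IHT R (lt_of_le_of_ne h3 (Ne.symm hne)) h1 h2] at h
    rw [Finset.sum_erase (a := T) (f := fun R => if IsMax p N R then (Nat.card ↥(N ⊓ Subgroup.normalizer (R : Set G)) : ℤ) else 0) _ (if_neg hm), ← Finset.sum_filter, sum_max hT hTN hN] at h
    have : (Nat.card ↥N : ℤ) = (Nat.card (N : Set G) : ℤ) := rfl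
    linarith
  · have hlt : N ⊓ Subgroup.normalizer (T : Set G) < N := inf_lt_left.2 hN
    rw [Φ_restrict hTN hT, IHN _ hlt T (le_inf hTN Subgroup.le_normalizer) hT, if_neg]
    rintro ⟨-, -, h⟩
    refine hm ⟨hTN, hT, fun R hR hRp hle => ?_⟩
    by_contra hne
    exact (exists_between hRp (lt_of_le_of_ne hle (Ne.symm hne))).ne'
      (h _ (inf_le_inf_right _ hR) (hRp.to_le inf_le_left) (le_inf hle Subgroup.le_normalizer))

lemma subnormal_iff {H : Subgroup G} (hH : IsPGroup p H) (g : G) :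
    (H.subgroupOf (H ⊔ Subgroup.zpowers g)).IsSubnormal ↔ ((F p ⊤ g).filter (H ≤ ·)).Nonempty := by
  set X := H ⊔ Subgroup.zpowers g with hX
  constructor
  · intro h
    refine ⟨(Cfsg.pCore p ↥X).map X.subtype, Finset.mem_filter.2 ⟨mem_F.2 ⟨le_top, ?_, ?_⟩, ?_⟩⟩
    · exact (CfsgLib.Subnormal.isPGroup_pCore p).map _
    · exact Subgroup.le_normalizer_map X.subtype ⟨⟨g, (le_sup_right : Subgroup.zpowers g ≤ X) (Subgroup.mem_zpowers g)⟩,
        by rw [SetLike.mem_coe, Subgroup.normalizer_eq_top_iff.2 (CfsgLib.Subnormal.normal_pCore p)]; trivial, rfl⟩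
    · intro x hx
      exact ⟨⟨x, (le_sup_left : H ≤ X) hx⟩,
        CfsgLib.Subnormal.le_pCore_of_isSubnormal h (hH.of_equiv (Subgroup.subgroupOfEquivOfLe le_sup_left).symm) hx, rfl⟩
  · rintro ⟨R, hR⟩
    simp only [Finset.mem_filter, mem_F] at hR
    obtain ⟨⟨-, hRp, hg⟩, hHR⟩ := hR
    have hXN : X ≤ Subgroup.normalizer (R : Set G) :=
      sup_le (hHR.trans Subgroup.le_normalizer) (Subgroup.zpowers_le.2 hg)
    have hn : (R.subgroupOf X).Normal :=
      Subgroup.normal_subgroupOf_iff_le_normalizer_inf.2 (le_trans (le_inf hXN Subgroup.le_normalizer) Subgroup.inf_normalizer_le_normalizer_inf)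
    have hp' : IsPGroup p ↥(R.subgroupOf X) := hRp.comap_subtype
    haveI := hp'.isNilpotent
    exact Subgroup.IsSubnormal.trans (fun x hx => hHR hx) (CfsgLib.Subnormal.isSubnormal_of_nilpotent _) hn.isSubnormal

lemma card_fibre_mul {β : Type*} [Finite β] (f : G → β) (s : Set β) (c : ℕ) (hc : ∀ b ∈ s, Nat.card {g : G // f g = b} = c) :
    Nat.card {g : G // f g ∈ s} = Nat.card s * c := by
  haveI : Fintype G := Fintype.ofFinite G
  haveI := Fintype.ofFinite ↥s
  rw [Nat.card_congr (Equiv.sigmaSubtypeFiberEquivSubtype f (q := (· ∈ s)) (p := fun g => f g ∈ s) (fun _ => Iff.rfl)).symm,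
    Nat.card_sigma]
  show ∑ b : s, Nat.card {g : G // f g = (b : β)} = _
  rw [Finset.sum_congr rfl (fun (b : s) _ => hc b.1 b.2), Finset.sum_const, Finset.card_univ,
    ← Nat.card_eq_fintype_card, smul_eq_mul]

lemma conj_fibre (K : Subgroup G) (g₀ : G) :
    Nat.card {g : G // K.map (MulAut.conj g).toMonoidHom = K.map (MulAut.conj g₀).toMonoidHom} =
      Nat.card ↥(Subgroup.normalizer (K : Set G)) := by
  have e : ∀ a b : G, K.map (MulAut.conj (a * b)).toMonoidHom =
      (K.map (MulAut.conj b).toMonoidHom).map (MulAut.conj a).toMonoidHom := fun a b => by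
    rw [Subgroup.map_map]; congr 1; ext x; simp [mul_assoc]
  refine Nat.card_congr ((Equiv.mulLeft g₀⁻¹).subtypeEquiv fun g => ?_)
  rw [Subgroup.mem_normalizer_iff_map_conj_eq]
  show _ ↔ K.map (MulAut.conj (g₀⁻¹ * g)).toMonoidHom = K
  rw [e]
  constructor
  · intro h
    rw [h, ← e, inv_mul_cancel, map_one]
    exact Subgroup.map_id K
  · intro h
    have := congrArg (Subgroup.map (MulAut.conj g₀).toMonoidHom) h
    rwa [← e, ← e, mul_inv_cancel_left] at this

theorem result {G : Type*} [Group G] [Finite G] (p : ℕ) [Fact p.Prime]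
    (hp : p ∣ Nat.card G) (H : Subgroup G) (hH : IsPGroup p H) (P : Sylow p G) :
    Nat.card {g : G // ((H).subgroupOf (H ⊔ Subgroup.zpowers g)).IsSubnormal} =
        Nat.card {Q : Sylow p G // H ≤ (Q : Subgroup G)} * Nat.card (Subgroup.normalizer ((P : Subgroup G) : Set G)) ∧
    Nat.card {g : G // ((H).subgroupOf (H ⊔ Subgroup.zpowers g)).IsSubnormal} =
        Nat.card {K : Subgroup G // K ≤ (P : Subgroup G) ∧ ∃ g : G, K = H.map (MulAut.conj g).toMonoidHom} *
          Nat.card (Subgroup.normalizer (H : Set G)) := by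
  haveI : Fintype G := Fintype.ofFinite G
  haveI : Fintype (Sylow p G) := Fintype.ofFinite _
  have hnorm : ∀ Q : Sylow p G, Nat.card ↥(Subgroup.normalizer ((Q : Subgroup G) : Set G)) =
      Nat.card (Subgroup.normalizer ((P : Subgroup G) : Set G)) := fun Q => by
    have this : (Subgroup.normalizer ((P : Subgroup G) : Set G)).index =
        (Subgroup.normalizer ((Q : Subgroup G) : Set G)).index :=
      (Sylow.card_eq_index_normalizer P).symm.trans (Sylow.card_eq_index_normalizer Q)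
    have h1 := Subgroup.card_mul_index (Subgroup.normalizer ((Q : Subgroup G) : Set G))
    have h2 := Subgroup.card_mul_index (Subgroup.normalizer ((P : Subgroup G) : Set G))
    rw [← this] at h1
    exact Nat.eq_of_mul_eq_mul_right (Nat.pos_of_ne_zero Subgroup.index_ne_zero_of_finite) (h1.trans h2.symm)
  have main : Nat.card {g : G // ((H).subgroupOf (H ⊔ Subgroup.zpowers g)).IsSubnormal} =
      Nat.card {Q : Sylow p G // H ≤ (Q : Subgroup G)} * Nat.card (Subgroup.normalizer ((P : Subgroup G) : Set G)) := by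
    have h := sum_Φ (p := p) (⊤ : Subgroup G) H
    rw [Finset.sum_congr rfl fun T hT => Φ_eq (p := p) ⊤ T (mem_above.1 hT).1 (mem_above.1 hT).2.1, ← Finset.sum_filter] at h
    have hset : (Set.toFinite ((⊤ : Subgroup G) : Set G)).toFinset = Finset.univ := by ext; simp
    rw [hset, Finset.sum_congr rfl
      (g := fun g : G => if ((H).subgroupOf (H ⊔ Subgroup.zpowers g)).IsSubnormal then (1 : ℤ) else 0) (s₁ := Finset.univ)
      fun g _ => ?_] at h
    swap
    · by_cases hn : ((F p ⊤ g).filter (H ≤ ·)).Nonempty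
      · rw [if_pos ((subnormal_iff hH g).2 hn)]
        obtain ⟨m, hm, hmin⟩ := ((F p ⊤ g).filter (H ≤ ·)).exists_minimal hn
        obtain ⟨hmF, hHm⟩ := Finset.mem_filter.1 hm
        rw [show (F p ⊤ g).filter (H ≤ ·) = (F p ⊤ g).filter (m ≤ ·) from Finset.filter_congr fun x hx =>
          ⟨fun hHx => ?_, fun h => hHm.trans h⟩]
        · exact w_upper _ hmF
        · obtain ⟨-, hxp, hxg⟩ := mem_F.1 hx
          obtain ⟨-, hmp, hmg⟩ := mem_F.1 hmF
          exact (hmin (y := m ⊓ x) (Finset.mem_filter.2 ⟨mem_F.2 ⟨le_top, hmp.to_le inf_le_left,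
            Subgroup.inf_normalizer_le_normalizer_inf ⟨hmg, hxg⟩⟩, le_inf hHm hHx⟩) inf_le_left).trans inf_le_right
      · rw [if_neg (mt (subnormal_iff hH g).1 hn), Finset.not_nonempty_iff_eq_empty.1 hn, Finset.sum_empty]
    rw [Finset.sum_boole] at h
    have him : (above p ⊤ H).filter (IsMax p ⊤) =
        ((Finset.univ : Finset (Sylow p G)).filter fun Q : Sylow p G => H ≤ (Q : Subgroup G)).image (fun Q : Sylow p G => (Q : Subgroup G)) := by
      ext R
      simp only [Finset.mem_filter, Finset.mem_image, Finset.mem_univ, true_and, mem_above]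
      constructor
      · rintro ⟨⟨-, hRp, hHR⟩, -, -, hm⟩
        exact ⟨⟨R, hRp, fun hQ hle => hm _ le_top hQ hle⟩, hHR, rfl⟩
      · rintro ⟨Q, hQ, rfl⟩
        exact ⟨⟨le_top, Q.2, hQ⟩, le_top, Q.2, fun R _ hR hle => Q.3 hR hle⟩
    rw [him, Finset.sum_image (fun _ _ _ _ h => Sylow.ext h)] at h
    simp only [top_inf_eq, hnorm, Finset.sum_const, nsmul_eq_mul] at h
    rw [Nat.card_eq_fintype_card, Fintype.card_subtype, Nat.card_eq_fintype_card (α := {Q : Sylow p G // _}),
      Fintype.card_subtype]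
    exact_mod_cast h.symm
  refine ⟨main, main.trans ?_⟩
  let fQ : G → Subgroup G := fun g => (P : Subgroup G).map (MulAut.conj g).toMonoidHom
  let fH : G → Subgroup G := fun g => H.map (MulAut.conj g).toMonoidHom
  have hA := card_fibre_mul fQ {R | H ≤ R ∧ ∃ g : G, R = fQ g} (Nat.card ↥(Subgroup.normalizer ((P : Subgroup G) : Set G)))
    (by rintro b ⟨-, g₀, rfl⟩; exact conj_fibre (P : Subgroup G) g₀)
  have hB := card_fibre_mul fH {R | R ≤ (P : Subgroup G) ∧ ∃ g : G, R = fH g} (Nat.card ↥(Subgroup.normalizer (H : Set G)))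
    (by rintro b ⟨-, g₀, rfl⟩; exact conj_fibre H g₀)
  have hAB : Nat.card {g : G // fQ g ∈ {R | H ≤ R ∧ ∃ g : G, R = fQ g}} =
      Nat.card {g : G // fH g ∈ {R | R ≤ (P : Subgroup G) ∧ ∃ g : G, R = fH g}} := by
    refine Nat.card_congr ((Equiv.inv G).subtypeEquiv fun g => ?_)
    simp only [Set.mem_setOf_eq, Equiv.inv_apply, fQ, fH]
    rw [and_iff_left ⟨g, rfl⟩, and_iff_left ⟨g⁻¹, rfl⟩]
    rw [Subgroup.map_le_iff_le_comap]
    refine iff_of_eq (congrArg (H ≤ ·) ?_)
    ext x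
    simp [Subgroup.mem_map, mul_assoc]
    constructor
    · rintro ⟨y, hy, rfl⟩; simpa [mul_assoc] using hy
    · intro h; exact ⟨_, h, by group⟩
  refine (congrArg (· * _) ?_).trans ((hA.symm.trans hAB).trans hB)
  refine Nat.card_congr (Equiv.ofBijective (fun Q => ⟨(Q.1 : Subgroup G), Q.2, ?_⟩) ⟨fun Q R h => ?_, fun R => ?_⟩)
  · obtain ⟨g, hg⟩ := MulAction.exists_smul_eq G P Q.1
    exact ⟨g, by rw [← hg]; rfl⟩
  · exact Subtype.ext (Sylow.ext (congrArg Subtype.val h))
  · obtain ⟨R, hR, g, rfl⟩ := R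
    exact ⟨⟨g • P, hR⟩, rfl⟩

end Cfsg.Agent.S4088
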