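import Cfsg.Statements.S4089
import Cfsg.Agent.Components.Cores
import Cfsg.Agent.Subnormal.BaerSuzuki

set_option autoImplicit false
open Cfsg

namespace Cfsg.Agent.S4089

open CfsgLib.Components

section Aux

variable {G : Type*} [Group G] [Finite G] {p : ℕ} [Fact p.Prime]

/-- `O_p(N_G(R))` as a subgroup of `G`. -/
noncomputable abbrev up (p : ℕ) (R : Subgroup G) : Subgroup G :=
  (Cfsg.pCore p (Subgroup.normalizer (R : Set G))).map (Subgroup.normalizer (R : Set G)).subtype

theorem up_isPGroup (R : Subgroup G) : IsPGroup p (up p R) := (pCore_isPGroup p).map _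

theorem le_up {R : Subgroup G} (hR : IsPGroup p R) : R ≤ up p R := by
  have h : R.subgroupOf (Subgroup.normalizer (R : Set G)) ≤
      Cfsg.pCore p (Subgroup.normalizer (R : Set G)) :=
    le_pCore Subgroup.normal_in_normalizer
      (hR.of_equiv (Subgroup.subgroupOfEquivOfLe Subgroup.le_normalizer).symm)
  intro x hx
  exact ⟨⟨x, Subgroup.le_normalizer hx⟩, h hx, rfl⟩

theorem normalizer_le_normalizer_up (R : Subgroup G) :
    Subgroup.normalizer (R : Set G) ≤ Subgroup.normalizer (up p R : Set G) := by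
  intro n hn
  haveI := pCore_characteristic (G := Subgroup.normalizer (R : Set G)) p
  have hN : (Cfsg.pCore p (Subgroup.normalizer (R : Set G))).Normal := inferInstance
  rw [Subgroup.mem_normalizer_iff]
  intro x
  constructor
  · rintro ⟨y, hy, rfl⟩
    exact ⟨⟨n, hn⟩ * y * ⟨n, hn⟩⁻¹, hN.conj_mem y hy _, rfl⟩
  · rintro ⟨y, hy, e⟩
    refine ⟨⟨n, hn⟩⁻¹ * y * ⟨n, hn⟩, by simpa using hN.conj_mem y hy ⟨n, hn⟩⁻¹, ?_⟩
    simp only [Subgroup.coe_subtype, Subgroup.coe_mul, Subgroup.coe_inv] at e ⊢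
    rw [e]; group

/-- every element normalizing a p-subgroup normalizes a radical one above it. -/
theorem exists_radical (R : Subgroup G) (hR : IsPGroup p R) :
    ∃ R' : Subgroup G, R ≤ R' ∧ up p R' = R' ∧
      Subgroup.normalizer (R : Set G) ≤ Subgroup.normalizer (R' : Set G) := by
  obtain ⟨R', ⟨h1, h2, h3⟩, hmax⟩ := Set.Finite.exists_maximal
    (s := {K : Subgroup G | R ≤ K ∧ IsPGroup p K ∧
      Subgroup.normalizer (R : Set G) ≤ Subgroup.normalizer (K : Set G)}) (Set.toFinite _)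
    ⟨R, le_rfl, hR, le_rfl⟩
  refine ⟨R', h1, ?_, h3⟩
  exact le_antisymm (hmax ⟨h1.trans (le_up h2), up_isPGroup R',
    h3.trans (normalizer_le_normalizer_up R')⟩ (le_up h2)) (le_up h2)

theorem mem_iff (H : Subgroup G) (hH : IsPGroup p H) (g : G) :
    ((H).subgroupOf (H ⊔ Subgroup.zpowers g)).IsSubnormal ↔
      ∃ R : Subgroup G, H ≤ R ∧ up p R = R ∧ g ∈ Subgroup.normalizer (R : Set G) := by
  set K := H ⊔ Subgroup.zpowers g with hK
  have hHK : H ≤ K := le_sup_left
  constructor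
  · intro hs
    have hle := subnormal_le_pCore hs (hH.of_equiv (Subgroup.subgroupOfEquivOfLe hHK).symm)
    haveI := pCore_characteristic (G := K) p
    have hN : (Cfsg.pCore p K).Normal := inferInstance
    have hgn : g ∈ Subgroup.normalizer (((Cfsg.pCore p K).map K.subtype : Subgroup G) : Set G) := by
      apply Subgroup.le_normalizer_map K.subtype
      exact ⟨⟨g, Subgroup.mem_sup_right (Subgroup.mem_zpowers g)⟩,
        by rw [Subgroup.normalizer_eq_top_iff.mpr hN]; trivial, rfl⟩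
    obtain ⟨R', h1, h2, h3⟩ := exists_radical ((Cfsg.pCore p K).map K.subtype)
      ((pCore_isPGroup p).map _)
    refine ⟨R', le_trans ?_ h1, h2, h3 hgn⟩
    intro x hx
    exact ⟨⟨x, hHK hx⟩, hle hx, rfl⟩
  · rintro ⟨R, hHR, hR, hg⟩
    have hRp : IsPGroup p R := hR ▸ up_isPGroup R
    have hKN : K ≤ Subgroup.normalizer (R : Set G) :=
      sup_le (hHR.trans Subgroup.le_normalizer) (Subgroup.zpowers_le.mpr hg)
    haveI : Group.IsNilpotent R := hRp.isNilpotent
    have h1 : (H.subgroupOf (Subgroup.normalizer (R : Set G))).IsSubnormal := by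
      have h2 : (R.subgroupOf (Subgroup.normalizer (R : Set G))).IsSubnormal :=
        Subgroup.normal_in_normalizer.isSubnormal
      refine subnormal_trans (fun x hx => hHR hx) ?_ h2
      haveI : Group.IsNilpotent (R.subgroupOf (Subgroup.normalizer (R : Set G))) :=
        (hRp.of_equiv (Subgroup.subgroupOfEquivOfLe Subgroup.le_normalizer).symm).isNilpotent
      exact CfsgLib.Subnormal.isSubnormal_of_nilpotent _
    exact Subgroup.IsSubnormal.comap (Subgroup.inclusion hKN) h1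

theorem sylow_inf_isPGroup (H : Subgroup G) (hH : IsPGroup p H) :
    IsPGroup p (sInf {K : Subgroup G | ∃ Q : Sylow p G, H ≤ (Q : Subgroup G) ∧ K = (Q : Subgroup G)} : Subgroup G) := by
  obtain ⟨Q, hQ⟩ := hH.exists_le_sylow
  exact Q.isPGroup'.to_le (sInf_le ⟨Q, hQ, rfl⟩)

/-- a radical subgroup is an intersection of Sylow subgroups. -/
theorem sylow_inf_le (H R : Subgroup G) (hHR : H ≤ R) (hR : up p R = R) :
    sInf {K : Subgroup G | ∃ Q : Sylow p G, H ≤ (Q : Subgroup G) ∧ K = (Q : Subgroup G)} ≤ R := by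
  have hRp : IsPGroup p R := hR ▸ up_isPGroup R
  set D := sInf {K : Subgroup G | ∃ Q : Sylow p G, R ≤ (Q : Subgroup G) ∧ K = (Q : Subgroup G)}
  have hle : sInf {K : Subgroup G | ∃ Q : Sylow p G, H ≤ (Q : Subgroup G) ∧ K = (Q : Subgroup G)} ≤ D :=
    sInf_le_sInf (by rintro K ⟨Q, hQ, rfl⟩; exact ⟨Q, hHR.trans hQ, rfl⟩)
  refine hle.trans ?_
  have hRD : R ≤ D := le_sInf (by rintro K ⟨Q, hQ, rfl⟩; exact hQ)
  have hDp : IsPGroup p D := sylow_inf_isPGroup R hRp
  set N := Subgroup.normalizer (R : Set G) with hN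
  have hDn : ∀ n ∈ N, ∀ d ∈ D, n * d * n⁻¹ ∈ D := by
    intro n hn d hd
    rw [Subgroup.mem_sInf]
    rintro K ⟨Q, hQ, rfl⟩
    have hQ' : R ≤ ((n⁻¹ • Q : Sylow p G) : Subgroup G) := by
      intro r hr
      refine ⟨n * r * n⁻¹, hQ ((Subgroup.mem_normalizer_iff.mp hn r).mp hr), ?_⟩
      show MulAut.conj n⁻¹ (n * r * n⁻¹) = r
      rw [MulAut.conj_apply]; group
    obtain ⟨y, hy, e⟩ := (Subgroup.mem_sInf.mp hd) _ ⟨n⁻¹ • Q, hQ', rfl⟩
    have e' : n⁻¹ * y * n⁻¹⁻¹ = d := e
    rw [← e']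
    have : n * (n⁻¹ * y * n⁻¹⁻¹) * n⁻¹ = y := by group
    rw [this]
    exact hy
  -- `D ∩ N` is a normal p-subgroup of `N`
  have hnorm : ((D ⊓ N).subgroupOf N).Normal := by
    constructor
    intro x hx y
    exact ⟨hDn y y.2 x hx.1, (y * x * y⁻¹).2⟩
  have hle2 : D ⊓ N ≤ R := by
    have h := le_pCore hnorm ((hDp.to_le (inf_le_left : D ⊓ N ≤ D)).of_equiv
      (Subgroup.subgroupOfEquivOfLe (inf_le_right : D ⊓ N ≤ N)).symm)
    intro x hx
    rw [← hR]
    exact ⟨⟨x, hx.2⟩, h hx, rfl⟩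
  by_contra hDR
  have hlt : R.subgroupOf D < ⊤ := by
    rw [lt_top_iff_ne_top, ne_eq, Subgroup.subgroupOf_eq_top]
    exact hDR
  haveI : Group.IsNilpotent D := hDp.isNilpotent
  obtain ⟨x, hxn, hxR⟩ := SetLike.exists_of_lt (Group.normalizerCondition_of_isNilpotent _ hlt)
  apply hxR
  refine hle2 ⟨x.2, ?_⟩
  show (x : G) ∈ Subgroup.normalizer (R : Set G)
  rw [Subgroup.mem_normalizer_iff]
  intro r
  constructor
  · intro hr
    have := (Subgroup.mem_normalizer_iff.mp hxn ⟨r, hRD hr⟩).mp hr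
    exact this
  · intro hr
    have hr' : r ∈ D := by
      have := D.mul_mem (D.mul_mem (D.inv_mem x.2) (hRD hr)) x.2
      have e : (x : G)⁻¹ * ((x : G) * r * (x : G)⁻¹) * x = r := by group
      rwa [e] at this
    exact (Subgroup.mem_normalizer_iff.mp hxn ⟨r, hr'⟩).mpr hr

end Aux

/-- Let G be a finite group, p a prime and H a p-subgroup of G. Then the set of elements g of G such that H is subnormal in the subgroup generated by H and g is the union of the normalizers N_G(R) over the subgroups R of G containing H with R = O_p(N_G(R)); and this set does not change when H is replaced by the intersection of all Sylow p-subgroups of G containing H. -/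
theorem result {G : Type*} [Group G] [Finite G] (p : ℕ) [Fact p.Prime]
    (H : Subgroup G) (hH : IsPGroup p H) :
    {g : G | ((H).subgroupOf (H ⊔ Subgroup.zpowers g)).IsSubnormal} =
      {g : G | ∃ R : Subgroup G, H ≤ R ∧ (Cfsg.pCore p (Subgroup.normalizer (R : Set G))).map (Subgroup.normalizer (R : Set G)).subtype = R ∧ g ∈ Subgroup.normalizer (R : Set G)} ∧
    ∀ g : G, (((H).subgroupOf (H ⊔ Subgroup.zpowers g)).IsSubnormal ↔
      (((sInf {K : Subgroup G | ∃ Q : Sylow p G, H ≤ (Q : Subgroup G) ∧ K = (Q : Subgroup G)})).subgroupOf ((sInf {K : Subgroup G | ∃ Q : Sylow p G, H ≤ (Q : Subgroup G) ∧ K = (Q : Subgroup G)}) ⊔ Subgroup.zpowers g)).IsSubnormal) := by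
  refine ⟨Set.ext fun g => mem_iff H hH g, fun g => ?_⟩
  rw [mem_iff H hH g, mem_iff _ (sylow_inf_isPGroup H hH) g]
  constructor
  · rintro ⟨R, hHR, hR, hg⟩
    exact ⟨R, sylow_inf_le H R hHR hR, hR, hg⟩
  · rintro ⟨R, hHR, hR, hg⟩
    refine ⟨R, le_trans (le_sInf ?_) hHR, hR, hg⟩
    rintro K ⟨Q, hQ, rfl⟩
    exact hQ

end Cfsg.Agent.S4089
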