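import Cfsg.Statements.S4090
import Mathlib
import Cfsg.Agent.Subnormalizer.Basic

set_option autoImplicit false
open scoped BigOperators
open Cfsg

namespace Cfsg.Agent.S4090

/-- Let G be a finite p-solvable group, H a p-subgroup of G and P a Sylow p-subgroup, and fix a chain of normal subgroups 1 = M₀ ≤ M₁ ≤ ⋯ ≤ Mₙ = G of G each of whose factors is a p-group or a p'-group. Then the number of elements g of G such that H is subnormal in the subgroup generated by H and g equals the order of P times the product, over the factors Mᵢ₊₁/Mᵢ of order prime to p, of the order of the centralizer of H in Mᵢ₊₁/Mᵢ (counted as the number of u ∈ Mᵢ₊₁ with [h, u] ∈ Mᵢ for all h ∈ H, divided by the order of Mᵢ). -/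
theorem result {G : Type*} [Group G] [Finite G] (p : ℕ) [Fact p.Prime]
    (hG : Cfsg.IsPSolvable p G) (H : Subgroup G) (hH : IsPGroup p H) (P : Sylow p G)
    (n : ℕ) (M : Fin (n + 1) → Subgroup G) (h0 : M 0 = ⊥) (hn : M (Fin.last n) = ⊤) (hmono : Monotone M)
    (hnormal : ∀ i, (M i).Normal)
    (hfac : ∀ i : Fin n, (∃ m : ℕ, (M i.castSucc).relIndex (M i.succ) = p ^ m) ∨ ((M i.castSucc).relIndex (M i.succ)).Coprime p) :
    Nat.card {g : G // ((H).subgroupOf (H ⊔ Subgroup.zpowers g)).IsSubnormal} =
      Nat.card (P : Subgroup G) *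
        ∏ i : Fin n, (if ((M i.castSucc).relIndex (M i.succ)).Coprime p then
          Nat.card {u : G // u ∈ M i.succ ∧ ∀ h ∈ H, h * u * h⁻¹ * u⁻¹ ∈ M i.castSucc} / Nat.card (M i.castSucc)
          else 1) := by
  classical
  have hnorm : ∀ i, (M i).Normal := hnormal
  let F : Fin (n + 1) → ℕ := fun i => Nat.card {g : G // CfsgLib.Subnormalizer.Cond p (M i) H g}
  let idx : Fin n → ℕ := fun i => (M i.castSucc).relIndex (M i.succ)
  let c : Fin n → ℕ := fun i =>
    Nat.card {u : G // u ∈ M i.succ ∧ ∀ h ∈ H, h * u * h⁻¹ * u⁻¹ ∈ M i.castSucc} / Nat.card (M i.castSucc)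
  let e : Fin n → ℕ := fun i => if (idx i).Coprime p then c i else idx i
  have hle : ∀ i : Fin n, M i.castSucc ≤ M i.succ := fun i => hmono (Fin.castSucc_le_succ i)
  have hstep : ∀ i : Fin n, F i.castSucc * idx i = F i.succ * e i := by
    intro i
    haveI := hnorm i.castSucc
    haveI := hnorm i.succ
    by_cases hc : (idx i).Coprime p
    · simp only [e, if_pos hc]
      exact CfsgLib.Subnormalizer.card_cond_factor (hle i) hH hc
    · obtain ⟨m, hm⟩ := (hfac i).resolve_right hc
      simp only [e, if_neg hc, F]
      rw [Nat.card_congr (Equiv.subtypeEquivRight fun g =>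
        CfsgLib.Subnormalizer.cond_iff_of_pow (hle i) hm (H := H) (g := g))]
  have hG' : ∏ i, idx i = Nat.card G := by
    have := CfsgLib.Subnormalizer.telescope n (fun i => Nat.card (M i)) idx (fun _ => 1) (fun i => by
      rw [mul_one, ← Subgroup.relIndex_bot_left, ← Subgroup.relIndex_bot_left (M i.succ)]
      exact Subgroup.relIndex_mul_relIndex _ _ _ bot_le (hle i))
    simpa [h0, hn] using this
  have hlast : F (Fin.last n) = Nat.card G := by
    refine Nat.card_congr (Equiv.subtypeUnivEquiv fun g => ?_)
    exact ⟨⊤, le_top, le_top, Subgroup.le_normalizer (Subgroup.mem_top g), 0, by simp [hn]⟩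
  have h00 : F 0 = ∏ i, e i := by
    have := CfsgLib.Subnormalizer.telescope n F idx e hstep
    rw [hG', hlast, mul_comm (F 0)] at this
    exact Nat.eq_of_mul_eq_mul_left Nat.card_pos this
  have hP : Nat.card (P : Subgroup G) = ∏ i, if (idx i).Coprime p then 1 else idx i := by
    set Q := ∏ i, if (idx i).Coprime p then 1 else idx i with hQ
    set R := ∏ i, if (idx i).Coprime p then idx i else 1 with hR
    have hQR : Q * R = Nat.card G := by
      rw [← hG', hQ, hR, ← Finset.prod_mul_distrib]
      refine Finset.prod_congr rfl fun i _ => ?_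
      split_ifs <;> simp
    obtain ⟨m, hm⟩ : ∃ m, Q = p ^ m := by
      refine Finset.prod_induction _ (fun x => ∃ m, x = p ^ m) ?_ ⟨0, by simp⟩ fun i _ => ?_
      · rintro a b ⟨k, rfl⟩ ⟨l, rfl⟩; exact ⟨k + l, by rw [pow_add]⟩
      · by_cases hc : (idx i).Coprime p
        · exact ⟨0, by simp [hc]⟩
        · obtain ⟨k, hk⟩ := (hfac i).resolve_right hc
          exact ⟨k, by rw [if_neg hc]; exact hk⟩
    have hRp : R.Coprime p := Nat.Coprime.prod_left fun i _ => by
      split_ifs with hc
      · exact hc
      · exact Nat.coprime_one_left p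
    have hp := (Fact.out : p.Prime)
    have hR0 : R ≠ 0 := fun h => by
      rw [h, mul_zero] at hQR; exact Nat.card_pos.ne' hQR.symm
    rw [P.card_eq_multiplicity, ← hQR, hm, Nat.factorization_mul (pow_ne_zero _ hp.ne_zero) hR0,
      Finsupp.add_apply, hp.factorization_pow, Finsupp.single_eq_same,
      Nat.factorization_eq_zero_of_not_dvd (hp.coprime_iff_not_dvd.1 hRp.symm), add_zero]
  calc _ = F 0 := by
        simp only [F, h0]
        exact Nat.card_congr (Equiv.subtypeEquivRight fun g => CfsgLib.Subnormalizer.isSubnormal_iff hH)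
    _ = _ := by
        rw [h00, hP, ← Finset.prod_mul_distrib]
        refine Finset.prod_congr rfl fun i _ => ?_
        by_cases hc : (idx i).Coprime p
        · simp only [e, if_pos hc]
          rw [if_pos (show ((M i.castSucc).relIndex (M i.succ)).Coprime p from hc), one_mul]
        · simp only [e, if_neg hc]
          rw [if_neg (show ¬ ((M i.castSucc).relIndex (M i.succ)).Coprime p from hc), mul_one]

end Cfsg.Agent.S4090
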