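import Cfsg.Statements.S4092
import Cfsg.Agent.Hall.FrobeniusCount

set_option autoImplicit false
open Cfsg

namespace Cfsg.Agent.S4092

/-- Let G be a finite group, p a prime and P a Sylow p-subgroup of G that is not normal in G. Then G has at least p·#P elements of p-power order (the identity included). -/
theorem result {G : Type*} [Group G] [Finite G] (p : ℕ) [Fact p.Prime]
    (P : Sylow p G) (hP : ¬ (P : Subgroup G).Normal) :
    p * Nat.card (P : Subgroup G) ≤ Nat.card {g : G // ∃ k : ℕ, orderOf g = p ^ k} := by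
  classical
  have hp : p.Prime := Fact.out
  obtain ⟨a, ha⟩ := IsPGroup.iff_card.1 P.2
  have hset : ∀ g : G, (∃ k : ℕ, orderOf g = p ^ k) ↔ g ^ Nat.card (P : Subgroup G) = 1 := fun g => by
    refine ⟨fun ⟨k, hk⟩ => ?_, fun h => ?_⟩
    · rw [← orderOf_dvd_iff_pow_eq_one, hk, P.card_eq_multiplicity,
        Nat.pow_dvd_pow_iff_le_right hp.one_lt, ← hp.pow_dvd_iff_le_factorization Nat.card_pos.ne', ← hk]
      exact orderOf_dvd_natCard g
    · obtain ⟨k, -, hk⟩ := (Nat.dvd_prime_pow hp).1 (ha ▸ orderOf_dvd_of_pow_eq_one h)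
      exact ⟨k, hk⟩
  have hcard : Nat.card {g : G // ∃ k : ℕ, orderOf g = p ^ k} =
      Nat.card {g : G // g ^ Nat.card (P : Subgroup G) = 1} :=
    Nat.card_congr (Equiv.subtypeEquivRight hset)
  obtain ⟨t, ht⟩ := CfsgLib.Hall.frobenius_count (G := G) (P : Subgroup G).card_subgroup_dvd_card
  rw [← hcard, mul_comm] at ht
  let f : ↥(P : Subgroup G) → {g : G // ∃ k : ℕ, orderOf g = p ^ k} :=
    fun x => ⟨x, by
      obtain ⟨k, hk⟩ := IsPGroup.iff_orderOf.1 P.2 x
      exact ⟨k, by rw [Subgroup.orderOf_coe, hk]⟩⟩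
  have hf : Function.Injective f := fun x y h => Subtype.ext (congrArg Subtype.val h :)
  have hlt : Nat.card (P : Subgroup G) < Nat.card {g : G // ∃ k : ℕ, orderOf g = p ^ k} := by
    refine (Nat.card_le_card_of_injective f hf).lt_of_ne fun heq => hP ⟨fun x hx c => ?_⟩
    obtain ⟨k, hk⟩ := IsPGroup.iff_orderOf.1 P.2 ⟨x, hx⟩
    obtain ⟨y, hy⟩ := (((Nat.bijective_iff_injective_and_card f).2 ⟨hf, heq⟩).2 ⟨c * x * c⁻¹, k, by
      rw [← hk, ← Subgroup.orderOf_coe]
      exact orderOf_injective (MulAut.conj c).toMonoidHom (MulAut.conj c).injective x⟩)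
    have hyv := congrArg Subtype.val hy
    change (y : G) = c * x * c⁻¹ at hyv
    exact hyv ▸ y.2
  -- the elements of order `p ^ k`, `k > 0`, fall into classes of size divisible by `p - 1`
  have hmod : (p - 1) ∣ Nat.card {g : G // ∃ k : ℕ, orderOf g = p ^ k} - 1 := by
    let S : Finset G := (Set.toFinite {g : G | ∃ k : ℕ, orderOf g = p ^ k}).toFinset
    have hS : ∀ g, g ∈ S ↔ ∃ k : ℕ, orderOf g = p ^ k := fun g => Set.Finite.mem_toFinset _
    have h1 : (1 : G) ∈ S := (hS 1).2 ⟨0, by simp⟩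
    have hSc : Nat.card {g : G // ∃ k : ℕ, orderOf g = p ^ k} = S.card :=
      Nat.card_eq_card_finite_toFinset _
    rw [hSc, ← Finset.card_erase_of_mem h1, Finset.card_eq_sum_card_image (fun g => Subgroup.zpowers g)]
    refine Finset.dvd_sum fun C hC => ?_
    obtain ⟨g, hg, rfl⟩ := Finset.mem_image.1 hC
    obtain ⟨hg1, hgS⟩ := Finset.mem_erase.1 hg
    obtain ⟨k, hk⟩ := (hS g).1 hgS
    have hk0 : k ≠ 0 := fun h => hg1 (orderOf_eq_one_iff.1 (by rw [hk, h, pow_zero]))
    have hfib : ((S.erase 1).filter fun y => Subgroup.zpowers y = Subgroup.zpowers g).card =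
        (orderOf g).totient := by
      have : Fintype (Subgroup.zpowers g) := Fintype.ofFinite _
      rw [← IsCyclic.card_orderOf_eq_totient (α := Subgroup.zpowers g) (d := orderOf g)
        (by rw [← Nat.card_eq_fintype_card, Nat.card_zpowers])]
      symm
      refine Finset.card_bij (fun y _ => (y : G)) (fun y hy => ?_) (fun y _ z _ h => Subtype.ext h)
        (fun y hy => ?_)
      · have hy' : orderOf (y : G) = orderOf g := by
          rw [Subgroup.orderOf_coe]; exact (Finset.mem_filter.1 hy).2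
        refine Finset.mem_filter.2 ⟨Finset.mem_erase.2 ⟨fun h => ?_, (hS _).2 ⟨k, hy'.trans hk⟩⟩, ?_⟩
        · rw [h, orderOf_one] at hy'
          exact hg1 (orderOf_eq_one_iff.1 hy'.symm)
        · exact Subgroup.eq_of_le_of_card_ge (Subgroup.zpowers_le.2 y.2)
            (by rw [Nat.card_zpowers, Nat.card_zpowers, hy'])
      · obtain ⟨hyS, hy⟩ := Finset.mem_filter.1 hy
        refine ⟨⟨y, hy ▸ Subgroup.mem_zpowers y⟩, Finset.mem_filter.2 ⟨Finset.mem_univ _, ?_⟩, rfl⟩
        rw [← Subgroup.orderOf_coe]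
        change orderOf y = orderOf g
        rw [← Nat.card_zpowers, hy, Nat.card_zpowers]
    rw [hfib, hk, Nat.totient_prime_pow hp (Nat.pos_of_ne_zero hk0)]
    exact dvd_mul_left _ _
  rw [ht] at hlt hmod ⊢
  refine Nat.mul_le_mul_right _ ?_
  have ht2 : 2 ≤ t := by
    by_contra h
    have : t * Nat.card (P : Subgroup G) ≤ 1 * Nat.card (P : Subgroup G) :=
      Nat.mul_le_mul_right _ (by omega)
    omega
  -- `t ≡ 1` modulo `p - 1`
  obtain ⟨c, hc⟩ : p - 1 ∣ Nat.card (P : Subgroup G) - 1 := by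
    rw [ha]; simpa using Nat.sub_dvd_pow_sub_pow p 1 a
  have hpos : 0 < Nat.card (P : Subgroup G) := Nat.card_pos
  have h3 : p - 1 ∣ t - 1 := by
    have e : t * Nat.card (P : Subgroup G) - 1 = (t - 1) + t * ((p - 1) * c) := by
      rw [← hc]
      have : t * Nat.card (P : Subgroup G) = t + t * (Nat.card (P : Subgroup G) - 1) := by
        conv_lhs => rw [show Nat.card (P : Subgroup G) = 1 + (Nat.card (P : Subgroup G) - 1) by omega]
        rw [mul_add, mul_one]
      omega
    rw [e] at hmod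
    exact (Nat.dvd_add_left (dvd_mul_of_dvd_right (dvd_mul_right _ _) _)).1 hmod
  have := Nat.le_of_dvd (by omega) h3
  omega

end Cfsg.Agent.S4092
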