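import Cfsg.Statements.S4093


set_option autoImplicit false
open scoped BigOperators
open Cfsg

namespace Cfsg.Agent.S4093

open scoped Pointwise

theorem orbit_card {G : Type*} [Group G] [Finite G] (N : Subgroup G) (x : G) :
    Nat.card {g : G // ∃ n ∈ N, n * x * n⁻¹ = g} =
      Nat.card N / Nat.card ↥(N ⊓ Subgroup.centralizer ({x} : Set G)) := by
  let inst : MulAction N G := MulAction.compHom G ((MulAut.conj : G →* MulAut G).comp N.subtype)
  have hst : MulAction.stabilizer N x = (Subgroup.centralizer ({x} : Set G)).subgroupOf N := by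
    ext n
    rw [MulAction.mem_stabilizer_iff, Subgroup.mem_subgroupOf, Subgroup.mem_centralizer_singleton_iff]
    change (n : G) * x * (n : G)⁻¹ = x ↔ _
    rw [mul_inv_eq_iff_eq_mul]
  have e : {g : G // ∃ n ∈ N, n * x * n⁻¹ = g} ≃ MulAction.orbit N x :=
    Equiv.subtypeEquivRight fun g => by
      refine ⟨fun ⟨n, hn, h⟩ => ⟨⟨n, hn⟩, h⟩, ?_⟩
      rintro ⟨n, rfl⟩
      exact ⟨n, n.2, rfl⟩
  have hc : Nat.card ((Subgroup.centralizer ({x} : Set G)).subgroupOf N) =
      Nat.card ↥(N ⊓ Subgroup.centralizer ({x} : Set G)) := by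
    rw [← Subgroup.inf_subgroupOf_left]
    exact Nat.card_congr (Subgroup.subgroupOfEquivOfLe inf_le_left).toEquiv
  rw [Nat.card_congr e, Nat.card_congr (MulAction.orbitEquivQuotientStabilizer N x), hst,
    ← Subgroup.index_eq_card, ← hc]
  exact (Nat.div_eq_of_eq_mul_left Nat.card_pos (by rw [mul_comm]; exact
    ((Subgroup.centralizer ({x} : Set G)).subgroupOf N).card_mul_index.symm)).symm


/-- Let G be a finite group with a normal subgroup N complementing a Sylow p-subgroup P (a normal p-complement). Then the number of elements of G of p-power order equals the sum over x ∈ P of the index of C_N(x) in N. -/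
theorem result {G : Type*} [Group G] [Finite G] (p : ℕ) [Fact p.Prime]
    (P : Sylow p G) (N : Subgroup G) [N.Normal] (hNP : N.IsComplement' (P : Subgroup G)) :
    Nat.card {g : G // ∃ k : ℕ, orderOf g = p ^ k} =
      ∑ᶠ x : (P : Subgroup G), Nat.card N / Nat.card ↥(N ⊓ Subgroup.centralizer ({(x : G)} : Set G)) := by
  classical
  have hp : p.Prime := Fact.out
  have : Fintype (P : Subgroup G) := Fintype.ofFinite _
  rw [finsum_eq_sum_of_fintype]
  simp only [← orbit_card]
  rw [← Nat.card_sigma]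
  have hmul := Subgroup.IsComplement'.card_mul_card hNP
  have hfac : ∀ g : G, ∃ n : N, ∃ x : (P : Subgroup G), (n : G) * x = g := fun g => by
    obtain ⟨⟨⟨n, hn⟩, ⟨x, hx⟩⟩, h⟩ := (Subgroup.isComplement'_def.1 hNP).2 g
    exact ⟨⟨n, hn⟩, ⟨x, hx⟩, h⟩
  let f : ((x : (P : Subgroup G)) × {g : G // ∃ n ∈ N, n * (x : G) * n⁻¹ = g}) →
      {g : G // ∃ k : ℕ, orderOf g = p ^ k} := fun z => ⟨z.2.1, by
    obtain ⟨n, hn, h⟩ := z.2.2
    obtain ⟨k, hk⟩ := IsPGroup.iff_orderOf.1 P.2 z.1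
    refine ⟨k, ?_⟩
    rw [← h, ← hk, ← Subgroup.orderOf_coe]
    exact orderOf_injective (MulAut.conj n).toMonoidHom (MulAut.conj n).injective _⟩
  symm
  refine Nat.card_eq_of_bijective f ⟨?_, ?_⟩
  · rintro ⟨x, g, n, hn, rfl⟩ ⟨x', g', n', hn', rfl⟩ h
    have hg : n * (x : G) * n⁻¹ = n' * (x' : G) * n'⁻¹ := congrArg Subtype.val h
    have hx : x = x' := by
      have h1 : QuotientGroup.mk' N (x : G) = QuotientGroup.mk' N (x' : G) := by
        have := congrArg (QuotientGroup.mk' N) hg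
        simpa [(QuotientGroup.eq_one_iff n).2 hn, (QuotientGroup.eq_one_iff n').2 hn'] using this
      have h2 : (x : G) / x' ∈ N ⊓ (P : Subgroup G) :=
        ⟨QuotientGroup.eq_iff_div_mem.1 h1, (P : Subgroup G).div_mem x.2 x'.2⟩
      rw [(hNP.disjoint).eq_bot, Subgroup.mem_bot, div_eq_one] at h2
      exact Subtype.ext h2
    subst hx
    exact Sigma.ext rfl (heq_of_eq (Subtype.ext hg))
  · rintro ⟨g, k, hk⟩
    obtain ⟨S, hS⟩ := (IsPGroup.of_card (n := k) (by rw [Nat.card_zpowers, hk]) :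
      IsPGroup p (Subgroup.zpowers g)).exists_le_sylow
    obtain ⟨c, hc⟩ := MulAction.exists_smul_eq G P S
    have hgm : g ∈ (MulAut.conj c • (P : Subgroup G)) := by
      rw [show MulAut.conj c • (P : Subgroup G) = ((c • P : Sylow p G) : Subgroup G) from rfl, hc]
      exact hS (Subgroup.mem_zpowers g)
    obtain ⟨y, hy, hyg⟩ := Subgroup.mem_map.1 hgm
    obtain ⟨n, x0, rfl⟩ := hfac c
    refine ⟨⟨⟨(x0 : G) * y * (x0 : G)⁻¹, mul_mem (mul_mem x0.2 hy) (inv_mem x0.2)⟩, g, n, n.2, ?_⟩, rfl⟩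
    rw [← hyg]
    change (n : G) * ((x0 : G) * y * (x0 : G)⁻¹) * (n : G)⁻¹ = (n : G) * x0 * y * ((n : G) * x0)⁻¹
    group

end Cfsg.Agent.S4093
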