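import Cfsg.Statements.S4105
import Cfsg.Agent.PiClasses.Main

set_option autoImplicit false
open Cfsg

namespace Cfsg.Agent.S4105

/-- Let G be a finite group, π a set of primes with least member p, m the π-part of the order of G and k the number of conjugacy classes of G consisting of π-elements. If k > m·(p² + p − 1)/p³, then G has an abelian Hall π-subgroup (an abelian subgroup of order m). -/
theorem result {G : Type*} [Group G] [Finite G]
    (π : Set ℕ) (hπ : ∀ q ∈ π, q.Prime) (p : ℕ) (hp : p ∈ π) (hmin : ∀ q ∈ π, p ≤ q)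
    (m : ℕ) (hm : m ∣ Nat.card G) (hmπ : ∀ q : ℕ, q.Prime → q ∣ m → q ∈ π)
    (hm' : ∀ q ∈ π, ¬ q ∣ Nat.card G / m)
    (k : ℕ) (hk : k = Nat.card {C : ConjClasses G // ∀ q : ℕ, q.Prime → (∃ g : G, ConjClasses.mk g = C ∧ q ∣ orderOf g) → q ∈ π})
    (hmany : m * (p ^ 2 + p - 1) < p ^ 3 * k) :
    ∃ H : Subgroup G, Nat.card H = m ∧ IsMulCommutative H := by
  obtain ⟨S, hS, hpart, hcount⟩ := CfsgLib.PiClasses.exists_finset π m hm hmπ hm'
  rw [hk, hcount] at hmany
  subst hpart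
  obtain ⟨H, hH, hcard⟩ :=
    CfsgLib.PiClasses.abelian_hall_of_many (hπ p hp) (fun q hq => ⟨(hS q hq).1, hmin q (hS q hq).2⟩) hmany
  exact ⟨H, hcard, hH⟩

end Cfsg.Agent.S4105
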