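import Cfsg.Statements.S4106
import Cfsg.Agent.ClassesPi.Basic

set_option autoImplicit false
open Cfsg

namespace Cfsg.Agent.S4106

/-- Let G be a finite group, π a set of primes and m the π-part of the order of G. Then the number of conjugacy classes of G consisting of π-elements (elements whose order is divisible only by primes in π) is at most m. -/
theorem result {G : Type*} [Group G] [Finite G]
    (π : Set ℕ) (hπ : ∀ q ∈ π, q.Prime)
    (m : ℕ) (hm : m ∣ Nat.card G) (hmπ : ∀ q : ℕ, q.Prime → q ∣ m → q ∈ π)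
    (hm' : ∀ q ∈ π, ¬ q ∣ Nat.card G / m) :
    Nat.card {C : ConjClasses G // ∀ q : ℕ, q.Prime → (∃ g : G, ConjClasses.mk g = C ∧ q ∣ orderOf g) → q ∈ π} ≤ m := by
  classical
  set S : Finset ℕ := (Nat.card G).primeFactors.filter (· ∈ π) with hS
  have hSp : ∀ r ∈ S, r.Prime := fun r hr => Nat.prime_of_mem_primeFactors (Finset.mem_filter.1 hr).1
  have hm0 : m ≠ 0 := fun h => Nat.card_pos.ne' (zero_dvd_iff.1 (h ▸ hm) : Nat.card G = 0)
  have hprod : S.prod (fun r => r ^ (Nat.card G).factorization r) = m := by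
    have hSm : S = m.primeFactors := by
      ext q
      simp only [hS, Finset.mem_filter, Nat.mem_primeFactors]
      constructor
      · rintro ⟨⟨hq, hd, _⟩, hqπ⟩
        refine ⟨hq, ?_, hm0⟩
        rcases hq.dvd_mul.1 ((Nat.mul_div_cancel' hm).symm ▸ hd : q ∣ m * (Nat.card G / m)) with h | h
        · exact h
        · exact (hm' q hqπ h).elim
      · rintro ⟨hq, hd, _⟩
        exact ⟨⟨hq, hd.trans hm, Nat.card_pos.ne'⟩, hmπ q hq hd⟩
    conv_rhs => rw [← Nat.prod_factorization_pow_eq_self hm0]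
    rw [Finsupp.prod, Nat.support_factorization, hSm]
    refine Finset.prod_congr rfl fun q hq => ?_
    obtain ⟨hqp, hqd, _⟩ := Nat.mem_primeFactors.1 hq
    have hq0 : Nat.card G / m ≠ 0 := (Nat.div_pos (Nat.le_of_dvd Nat.card_pos hm) (Nat.pos_of_ne_zero hm0)).ne'
    conv_lhs => rw [← Nat.mul_div_cancel' hm, Nat.factorization_mul hm0 hq0, Finsupp.add_apply,
      Nat.factorization_eq_zero_of_not_dvd (hm' q (hmπ q hqp hqd)), add_zero]
  refine le_trans (le_of_eq ?_) ((CfsgLib.ClassesPi.kPi_le_prod S hSp G).trans_eq hprod)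
  refine Nat.card_congr (Equiv.subtypeEquivRight fun C => ?_)
  constructor
  · intro h
    obtain ⟨x, rfl⟩ := ConjClasses.mk_surjective C
    exact ⟨x, rfl, fun r hr hd => by
      simp only [hS, Finset.coe_filter, Set.mem_setOf_eq, Nat.mem_primeFactors]
      exact ⟨⟨hr, hd.trans (orderOf_dvd_natCard x), Nat.card_pos.ne'⟩, h r hr ⟨x, rfl, hd⟩⟩⟩
  · rintro ⟨x, rfl, hx⟩ q hq ⟨g, hg, hd⟩
    have := CfsgLib.ClassesPi.isPiElt_conj (ConjClasses.mk_eq_mk_iff_isConj.1 hg).symm hx q hq hd
    exact (Finset.mem_filter.1 this).2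

end Cfsg.Agent.S4106
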