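import Cfsg.Statements.S4107
import Cfsg.Agent.CoprimeAction.Basic
import Cfsg.Agent.Components.Cores
import Mathlib

set_option autoImplicit false
open Cfsg

namespace Cfsg.Agent.S4107

theorem isPGroup_of_not_le {G : Type*} [Group G] [Finite G] (N : Subgroup G) [N.Normal]
    (heq : ∀ x : G, x ∉ N → ∀ n ∈ N, orderOf (x * n) = orderOf x) {p : ℕ} [Fact p.Prime]
    (hp : ¬ Cfsg.pCore p G ≤ N) : IsPGroup p N := by
  have hP : IsPGroup p (Cfsg.pCore p G) := CfsgLib.Components.pCore_isPGroup p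
  have hPn : (Cfsg.pCore p G).Normal := Subgroup.sSup_normal _ fun _ h => h.1
  obtain ⟨y, hy, hyN⟩ := SetLike.not_le_iff_exists.1 hp
  have hpp : p.Prime := Fact.out
  rw [IsPGroup.iff_orderOf]
  intro m
  rw [← Subgroup.orderOf_coe]
  refine ⟨_, Nat.eq_prime_pow_of_unique_prime_dvd (orderOf_pos (m : G)).ne' fun {q} hq hqm => ?_⟩
  by_contra hqp
  set w : G := (m : G) ^ (orderOf (m : G) / q) with hw
  have hwo : orderOf w = q := by
    rw [hw, orderOf_pow_of_dvd (Nat.div_ne_zero_iff.2 ⟨hq.ne_zero, Nat.le_of_dvd (orderOf_pos _) hqm⟩) (Nat.div_dvd_of_dvd hqm),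
      Nat.div_div_self hqm (orderOf_pos _).ne']
  have hwN : w ∈ N := N.pow_mem m.2 _
  -- a fixed point of `w` in the coset of `y`
  obtain ⟨n, hn, hnc⟩ := CfsgLib.CoprimeAction.exists_mem_centralizer (A := Subgroup.zpowers w)
    (N := N ⊓ Cfsg.pCore p G) (k := y) (by rw [Subgroup.normalizer_eq_top]; exact le_top) (by
      obtain ⟨j, hj⟩ := IsPGroup.iff_card.1 (hP.to_le (inf_le_right : N ⊓ Cfsg.pCore p G ≤ _))
      rw [Nat.card_zpowers, hwo, hj]
      exact ((Nat.coprime_primes hq hpp).2 hqp).pow_right j)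
    (Or.inr (haveI := (hP.to_le (inf_le_right : N ⊓ Cfsg.pCore p G ≤ _)).isNilpotent; inferInstance)) (fun a ha => by
      have ha' : a ∈ N := Subgroup.zpowers_le.2 hwN ha
      refine ⟨?_, ?_⟩
      · rw [mul_assoc, mul_assoc]
        exact N.mul_mem ha' (by rw [← mul_assoc]; exact (inferInstance : N.Normal).conj_mem _ (N.inv_mem ha') y)
      · exact (Cfsg.pCore p G).mul_mem (hPn.conj_mem y hy a) ((Cfsg.pCore p G).inv_mem hy))
  have hyn : n * y ∈ Cfsg.pCore p G := mul_mem hn.2 hy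
  have hynN : n * y ∉ N := fun h => hyN (by simpa using N.mul_mem (N.inv_mem hn.1) h)
  obtain ⟨k, hk⟩ := IsPGroup.iff_orderOf.1 hP ⟨n * y, hyn⟩
  rw [← Subgroup.orderOf_coe] at hk
  have hc : Commute (n * y) w :=
    (Subgroup.mem_centralizer_iff.1 hnc w (Subgroup.mem_zpowers w)).symm
  have h1 := heq (n * y) hynN w hwN
  rw [hc.orderOf_mul_eq_mul_orderOf_of_coprime (by
    rw [hwo]; exact hk ▸ ((Nat.coprime_primes hpp hq).2 (Ne.symm hqp)).pow_left k), hwo] at h1
  have h2 : orderOf (n * y) * q = orderOf (n * y) * 1 := by rw [h1, mul_one]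
  exact hq.ne_one (Nat.eq_of_mul_eq_mul_left (orderOf_pos _) h2)


/-- Let G be a finite group and N a proper non-trivial normal subgroup such that for every x outside N all elements of the coset xN have the same order as x. Then N ≤ F(G) or F(G) ≤ N, where F(G) is the Fitting subgroup; and if N is properly contained in F(G) then F(G) has prime-power order. -/
theorem result {G : Type*} [Group G] [Finite G] (N : Subgroup G) [N.Normal] (hN1 : N ≠ ⊥) (hN2 : N ≠ ⊤)
    (heq : ∀ x : G, x ∉ N → ∀ n ∈ N, orderOf (x * n) = orderOf x) :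
    (N ≤ Cfsg.fittingSubgroup G ∨ Cfsg.fittingSubgroup G ≤ N) ∧
    (N < Cfsg.fittingSubgroup G → IsPrimePow (Nat.card (Cfsg.fittingSubgroup G))) := by
  have key : ¬ Cfsg.fittingSubgroup G ≤ N →
      ∃ p : ℕ, ∃ _ : Fact p.Prime, IsPGroup p N ∧ N ≤ Cfsg.pCore p G := by
    intro h
    rw [CfsgLib.Components.fittingSubgroup_eq_iSup, iSup_le_iff, not_forall] at h
    obtain ⟨q, hq⟩ := h
    have : Fact (q : ℕ).Prime := ⟨Nat.prime_of_mem_primeFactors q.2⟩
    have hNp := isPGroup_of_not_le N heq hq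
    exact ⟨q, this, hNp, CfsgLib.Components.le_pCore inferInstance hNp⟩
  refine ⟨?_, fun hlt => ?_⟩
  · by_cases h : Cfsg.fittingSubgroup G ≤ N
    · exact Or.inr h
    · obtain ⟨p, _, -, hle⟩ := key h
      exact Or.inl (hle.trans (CfsgLib.Components.pCore_le_fittingSubgroup p))
  obtain ⟨p, hpf, hNp, -⟩ := key hlt.not_ge
  have hFle : Cfsg.fittingSubgroup G ≤ Cfsg.pCore p G := by
    rw [CfsgLib.Components.fittingSubgroup_eq_iSup]
    refine iSup_le fun q => ?_
    have : Fact (q : ℕ).Prime := ⟨Nat.prime_of_mem_primeFactors q.2⟩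
    by_cases hqp : (q : ℕ) = p
    · rw [hqp]
    intro x hx
    by_cases hxN : x ∈ N
    · exact CfsgLib.Components.le_pCore inferInstance hNp hxN
    · exfalso
      have hNq := isPGroup_of_not_le N heq (p := (q : ℕ)) fun h => hxN (h hx)
      exact hN1 (disjoint_self.1 (IsPGroup.disjoint_of_ne (q : ℕ) p hqp N N hNq hNp))
  have hFp : IsPGroup p (Cfsg.fittingSubgroup G) := (CfsgLib.Components.pCore_isPGroup p).to_le hFle
  obtain ⟨j, hj⟩ := IsPGroup.iff_card.1 hFp
  refine ⟨p, j, hpf.out.prime, Nat.pos_of_ne_zero fun h0 => ?_, hj.symm⟩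
  rw [h0, pow_zero] at hj
  exact hN1 (le_bot_iff.1 (hlt.le.trans_eq (Subgroup.eq_bot_of_card_eq _ hj)))

end Cfsg.Agent.S4107
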