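import Cfsg.Statements.S4108
import Cfsg.Agent.Frob.Basic

set_option autoImplicit false
open Cfsg

namespace Cfsg.Agent.S4108

/-- Let G be a finite group, p a prime and N a proper non-trivial normal p-subgroup such that for every x outside N all elements of the coset xN have the same order as x. Then every non-trivial subgroup H of G of order prime to p acts fixed-point-freely on N: NH is a Frobenius group with complement H and kernel N. -/
theorem result {G : Type*} [Group G] [Finite G] (N : Subgroup G) [N.Normal] (hN1 : N ≠ ⊥) (hN2 : N ≠ ⊤)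
    (heq : ∀ x : G, x ∉ N → ∀ n ∈ N, orderOf (x * n) = orderOf x)
    (p : ℕ) [Fact p.Prime] (hNp : IsPGroup p N) :
    ∀ H : Subgroup G, H ≠ ⊥ → (Nat.card H).Coprime p →
      Cfsg.IsFrobeniusComplement (H.subgroupOf (N ⊔ H)) ∧ Cfsg.frobeniusKernel (H.subgroupOf (N ⊔ H)) = (N.subgroupOf (N ⊔ H) : Set ↥(N ⊔ H)) := by
  classical
  intro H hH1 hHc
  have hdisj : ∀ x ∈ H, x ∈ N → x = 1 := by
    intro x hxH hxN
    obtain ⟨j, hj⟩ := IsPGroup.iff_orderOf.1 hNp ⟨x, hxN⟩
    rw [Subgroup.orderOf_mk] at hj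
    have h1 : (orderOf x).Coprime p := hHc.coprime_dvd_left (Subgroup.orderOf_dvd_natCard H hxH)
    rw [← orderOf_eq_one_iff, hj]
    rw [hj] at h1
    rcases Nat.eq_zero_or_pos j with rfl | hj0
    · rfl
    · exfalso
      exact (Fact.out : p.Prime).ne_one ((Nat.coprime_self p).1 (h1.coprime_dvd_left (dvd_pow_self p hj0.ne')))
  have hfpf : ∀ h ∈ H, ∀ n ∈ N, h * n = n * h → h = 1 ∨ n = 1 := by
    intro h hh n hn hc
    by_cases h1 : h = 1
    · exact Or.inl h1
    right
    have hco : (orderOf h).Coprime (orderOf n) := by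
      obtain ⟨j, hj⟩ := IsPGroup.iff_orderOf.1 hNp ⟨n, hn⟩
      rw [Subgroup.orderOf_mk] at hj
      rw [hj]
      exact (hHc.coprime_dvd_left (Subgroup.orderOf_dvd_natCard H hh)).pow_right j
    have := heq h (fun hN => h1 (hdisj h hh hN)) n hn
    rw [(show Commute h n from hc).orderOf_mul_eq_mul_orderOf_of_coprime hco] at this
    exact orderOf_eq_one_iff.1 (Nat.eq_of_mul_eq_mul_left (orderOf_pos h) (this.trans (mul_one _).symm))
  have hbot : N.subgroupOf (N ⊔ H) ⊓ H.subgroupOf (N ⊔ H) = ⊥ := by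
    rw [eq_bot_iff]
    intro x hx
    exact Subtype.ext (hdisj x hx.2 hx.1)
  have htop : N.subgroupOf (N ⊔ H) ⊔ H.subgroupOf (N ⊔ H) = ⊤ := by
    rw [← Subgroup.subgroupOf_sup le_sup_left le_sup_right, Subgroup.subgroupOf_self]
  have hN' : N.subgroupOf (N ⊔ H) ≠ ⊥ := by
    rw [Ne, Subgroup.subgroupOf_eq_bot, disjoint_iff, inf_eq_left.2 le_sup_left]
    exact hN1
  have hH' : H.subgroupOf (N ⊔ H) ≠ ⊥ := by
    rw [Ne, Subgroup.subgroupOf_eq_bot, disjoint_iff, inf_eq_left.2 le_sup_right]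
    exact hH1
  have hF := CfsgLib.Frob.isFrobeniusComplement_of_fpf _ _ hbot htop hN' hH' (fun a ha b hb he => by
    rcases hfpf a ha b hb (congrArg Subtype.val he) with h | h
    · exact Or.inl (Subtype.ext h)
    · exact Or.inr (Subtype.ext h))
  refine ⟨hF, (Set.eq_of_subset_of_ncard_le ?_ ?_ (Set.toFinite _)).symm⟩
  · intro x hx
    rw [CfsgLib.Frob.mem_kernel_iff]
    by_cases h1 : x = 1
    · exact Or.inl h1
    refine Or.inr fun g hg => h1 ?_
    have h2 : g⁻¹ * x * g ∈ N.subgroupOf (N ⊔ H) ⊓ H.subgroupOf (N ⊔ H) :=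
      ⟨by simpa using (inferInstance : (N.subgroupOf (N ⊔ H)).Normal).conj_mem x hx g⁻¹, hg⟩
    rw [hbot, Subgroup.mem_bot] at h2
    simpa [mul_assoc] using congrArg (fun y => g * y * g⁻¹) h2
  · rw [← Nat.card_coe_set_eq, ← Nat.card_coe_set_eq, CfsgLib.Frob.card_kernel hF]
    have hcompl : Subgroup.IsComplement' (N.subgroupOf (N ⊔ H)) (H.subgroupOf (N ⊔ H)) :=
      Subgroup.isComplement'_of_disjoint_and_mul_eq_univ (disjoint_iff.2 hbot)
        (by rw [← Subgroup.normal_mul, htop]; rfl)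
    exact le_of_eq hcompl.index_eq_card


end Cfsg.Agent.S4108
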