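import Cfsg.Statements.S4112
import Mathlib
import Cfsg.Agent.PReduced.Hom

set_option autoImplicit false
open Cfsg

namespace Cfsg.Agent.S4112

/-- Let G be a finite group and M ≤ N non-trivial proper normal subgroups such that for every g outside N the conjugacy class of g is a union of cosets of M (equivalently gm is conjugate to g for every m ∈ M). Then (1) and (2) below are equivalent, and they imply (3): (1) every g outside N acts fixed-point-freely on M, that is C_G(x) ≤ N for every x ∈ M, x ≠ 1; (2) the index of N in G is coprime to the order of M; (3) there is a subgroup H of G with HN = G and H ∩ M = 1. -/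
theorem result {G : Type*} [Group G] [Finite G] (N M : Subgroup G) [N.Normal] [M.Normal] (hMN : M ≤ N) (hM1 : M ≠ ⊥) (hN2 : N ≠ ⊤)
    (hcam : ∀ g : G, g ∉ N → ∀ m ∈ M, ∃ x : G, x * g * x⁻¹ = g * m) :
    ((∀ x ∈ M, x ≠ 1 → Subgroup.centralizer ({x} : Set G) ≤ N) ↔ N.index.Coprime (Nat.card M)) ∧
    ((∀ x ∈ M, x ≠ 1 → Subgroup.centralizer ({x} : Set G) ≤ N) → ∃ H : Subgroup G, H ⊔ N = ⊤ ∧ H ⊓ M = ⊥) := by
  classical
  have h12 : ((∀ x ∈ M, x ≠ 1 → Subgroup.centralizer ({x} : Set G) ≤ N) ↔ N.index.Coprime (Nat.card M)) := by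
    constructor
    · intro h1
      refine Nat.coprime_of_dvd fun p hp hpN hpM => ?_
      haveI := Fact.mk hp
      let P : Sylow p G := default
      obtain ⟨y, hy⟩ := exists_prime_orderOf_dvd_card' p hpM
      have hypz : IsPGroup p (Subgroup.zpowers (y : G)) := by
        refine IsPGroup.of_card (n := 1) ?_
        rw [Nat.card_zpowers, Subgroup.orderOf_coe, hy, pow_one]
      obtain ⟨Q, hQ⟩ := hypz.exists_le_sylow
      obtain ⟨g, hg⟩ := MulAction.exists_smul_eq G Q P
      have hgy : g * y * g⁻¹ ∈ (P : Subgroup G) ⊓ M := by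
        refine ⟨?_, ‹M.Normal›.conj_mem _ y.2 g⟩
        rw [← hg, Sylow.coe_subgroup_smul]
        have := Subgroup.smul_mem_pointwise_smul _ (MulAut.conj g) (Q : Subgroup G) (hQ (Subgroup.mem_zpowers (y : G)))
        exact this
      have hy1 : g * y * g⁻¹ ≠ 1 := by
        intro h
        have h2 : (y : G) = 1 := conj_eq_one_iff.1 h
        rw [← Subgroup.orderOf_coe, h2, orderOf_one] at hy
        exact hp.ne_one hy.symm
      haveI : (M.subgroupOf (P : Subgroup G)).Normal := inferInstance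
      have hne : M.subgroupOf (P : Subgroup G) ≠ ⊥ := by
        intro h
        have h2 : (⟨_, hgy.1⟩ : P) ∈ M.subgroupOf (P : Subgroup G) := hgy.2
        rw [h, Subgroup.mem_bot] at h2
        exact hy1 (congrArg Subtype.val h2)
      obtain ⟨⟨z, hz⟩, hz1⟩ := Subgroup.ne_bot_iff_exists_ne_one.1 (CfsgLib.PReduced.inf_center_ne_bot P.isPGroup' hne)
      have hPN : (P : Subgroup G) ≤ N := fun w hw => h1 (z : G) hz.1 (fun h => hz1 (Subtype.ext (Subtype.ext h)))
        (Subgroup.mem_centralizer_singleton_iff.2 (congrArg Subtype.val (Subgroup.mem_center_iff.1 hz.2 ⟨w, hw⟩)))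
      exact P.not_dvd_index (hpN.trans (Subgroup.index_dvd_of_le hPN))
    · intro h2 x hx hx1 g hgx
      by_contra hgN
      have ho : orderOf (g : G ⧸ N) ≠ 1 := by
        rw [Ne, orderOf_eq_one_iff, QuotientGroup.eq_one_iff]; exact hgN
      obtain ⟨q, hq, hqd⟩ := Nat.exists_prime_and_dvd ho
      have hqN : q ∣ N.index := hqd.trans (orderOf_dvd_natCard _)
      have hqM : ¬ q ∣ Nat.card M := fun h => hq.ne_one (Nat.eq_one_of_dvd_coprimes h2 hqN h)
      set o := orderOf g with hodef
      have ho0 : o ≠ 0 := (orderOf_pos g).ne'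
      have hhN : g ^ (ordCompl[q] o) ∉ N := by
        intro h
        rw [← QuotientGroup.eq_one_iff, QuotientGroup.mk_pow, ← orderOf_dvd_iff_pow_eq_one] at h
        exact Nat.not_dvd_ordCompl hq ho0 (hqd.trans h)
      set h := g ^ (ordCompl[q] o) with hh
      have hoh : orderOf h = q ^ o.factorization q := by
        rw [hh, orderOf_pow_of_dvd (Nat.ordCompl_pos q ho0).ne' (Nat.ordCompl_dvd o q), ← hodef]
        exact Nat.div_div_self (Nat.ordProj_dvd o q) ho0
      have hcomm : Commute h x := (Commute.pow_left (Subgroup.mem_centralizer_singleton_iff.1 hgx) _)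
      have hcop : (orderOf h).Coprime (orderOf x) := by
        rw [hoh]
        exact Nat.Coprime.pow_left _ ((Nat.Prime.coprime_iff_not_dvd hq).2 fun h3 => hqM (h3.trans (Subgroup.orderOf_dvd_natCard M hx)))
      obtain ⟨c, hc⟩ := hcam h hhN x hx
      have h3 : orderOf (h * x) = orderOf h := by
        rw [← hc]
        exact MulEquiv.orderOf_eq (MulAut.conj c) h
      rw [hcomm.orderOf_mul_eq_mul_orderOf_of_coprime hcop] at h3
      exact hx1 (orderOf_eq_one_iff.1 ((Nat.mul_eq_left (orderOf_pos h).ne').1 h3))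
  refine ⟨h12, fun h1 => ?_⟩
  have hcop := h12.1 h1
  obtain ⟨H, hH, hmin⟩ := (Set.toFinite {H : Subgroup G | H ⊔ N = ⊤}).exists_minimal ⟨⊤, by simp⟩
  have key : ∀ K : Subgroup H, K ⊔ N.subgroupOf H = ⊤ → K = ⊤ := by
    intro K hK
    have h2 : K.map H.subtype ⊔ N = ⊤ := by
      rw [eq_top_iff, ← (show H ⊔ N = ⊤ from hH)]
      refine sup_le ?_ le_sup_right
      calc H = (⊤ : Subgroup H).map H.subtype := by rw [← MonoidHom.range_eq_map, Subgroup.range_subtype]
        _ ≤ _ := by
          rw [← hK, Subgroup.map_sup]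
          exact sup_le_sup le_rfl (by rw [Subgroup.subgroupOf_map_subtype]; exact inf_le_left)
    have h3 : H ≤ K.map H.subtype := hmin h2 (Subgroup.map_subtype_le K)
    rw [eq_top_iff]
    intro w _
    obtain ⟨v, hv, hvw⟩ := h3 w.2
    rwa [← Subtype.ext (show (v : G) = (w : G) from hvw)]
  refine ⟨H, hH, ?_⟩
  by_contra hne
  obtain ⟨p, hp, hpd⟩ := Nat.exists_prime_and_dvd (mt (Subgroup.eq_bot_of_card_eq _) hne)
  haveI := Fact.mk hp
  have hpM : p ∣ Nat.card M := hpd.trans (Subgroup.card_dvd_of_le inf_le_right)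
  have hpH : p ∣ Nat.card H := hpd.trans (Subgroup.card_dvd_of_le inf_le_left)
  let P : Sylow p H := default
  set N' := N.subgroupOf H with hN'
  have hidx : ¬ p ∣ N'.index := fun h => hp.ne_one (Nat.eq_one_of_dvd_coprimes hcop
    (h.trans (Subgroup.relIndex_dvd_index_of_normal N H)) hpM)
  have hPN : (P : Subgroup H) ≤ N' := by
    intro w hw
    rw [← QuotientGroup.eq_one_iff, ← orderOf_eq_one_iff]
    by_contra h
    obtain ⟨q, hq, hqd⟩ := Nat.exists_prime_and_dvd h
    obtain ⟨j, hj⟩ := P.isPGroup'.exists_orderOf_eq_pow ⟨w, hw⟩ |>.imp (fun j hj => hj)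
    rw [Subgroup.orderOf_mk] at hj
    have h2 : q ∣ p ^ j := hqd.trans (hj ▸ orderOf_map_dvd (QuotientGroup.mk' N') w)
    have h3 : q = p := (Nat.prime_dvd_prime_iff_eq hq hp).1 (hq.dvd_of_dvd_pow h2)
    exact hidx (h3 ▸ hqd.trans (orderOf_dvd_natCard _))
  have hn := Sylow.normalizer_sup_eq_top (P.subtype hPN)
  have hmapP : (↑(P.subtype hPN) : Subgroup N').map N'.subtype = (P : Subgroup H) := by
    rw [Sylow.coe_subtype, Subgroup.map_subgroupOf_eq_of_le hPN]
  rw [hmapP] at hn
  haveI hPn : (P : Subgroup H).Normal := Subgroup.normalizer_eq_top_iff.1 (key _ hn)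
  obtain ⟨L, hL⟩ := Subgroup.exists_left_complement'_of_coprime P.card_coprime_index
  have hLtop : L = ⊤ := key L (eq_top_iff.2 (hL.sup_eq_top ▸ sup_le_sup le_rfl hPN))
  subst hLtop
  have hPb : (P : Subgroup H) = ⊥ := by
    have := hL.disjoint
    rwa [top_disjoint] at this
  exact (Sylow.ne_bot_of_dvd_card P hpH) hPb


end Cfsg.Agent.S4112
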