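import Cfsg.Statements.S4116
import Mathlib.GroupTheory.Sylow
import Mathlib.GroupTheory.QuotientGroup.Basic
import Cfsg.Prelude.Def_OddOrderLocal
import Mathlib.Data.Nat.Factorization.Basic
import Mathlib.Tactic.Group

set_option autoImplicit false
open scoped Pointwise
open Cfsg

namespace Cfsg.Agent.S4116

/-- Let G be a finite group with a subgroup H whose order is coprime to its index (a Hall subgroup) and which meets each of its conjugates by elements outside N_G(H) trivially. Then every subgroup of G whose order is divisible only by primes dividing the order of H lies in a conjugate of H. -/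
theorem result {G : Type*} [Group G] [Finite G] (H : Subgroup G)
    (hHall : (Nat.card H).Coprime H.index) (hTI : Cfsg.IsTISubset (H : Set G))
    (K : Subgroup G) (hK : ∀ q : ℕ, q.Prime → q ∣ Nat.card K → q ∣ Nat.card H) :
    ∃ g : G, K ≤ H.map (MulAut.conj g).toMonoidHom := by
  classical
  haveI := Fintype.ofFinite G
  by_cases hK1 : K = ⊥
  · exact ⟨1, hK1 ▸ bot_le⟩
  have hmem : ∀ a y : G, y ∈ H.map (MulAut.conj a).toMonoidHom ↔ a⁻¹ * y * a ∈ H := by
    intro a y
    constructor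
    · rintro ⟨h, hh, rfl⟩; simpa [mul_assoc] using hh
    · intro h; exact ⟨_, h, by simp [mul_assoc]⟩
  -- the TI property for two conjugates
  have hti : ∀ a b y : G, y ≠ 1 → a⁻¹ * y * a ∈ H → b⁻¹ * y * b ∈ H →
      b⁻¹ * a ∈ Subgroup.normalizer (H : Set G) := by
    intro a b y hy ha hb
    by_contra hn
    have h1 := hTI (b⁻¹ * a) hn _ ha (by
      show b⁻¹ * a * (a⁻¹ * y * a) * (b⁻¹ * a)⁻¹ ∈ H
      rwa [show b⁻¹ * a * (a⁻¹ * y * a) * (b⁻¹ * a)⁻¹ = b⁻¹ * y * b by group])
    exact hy (by calc y = a * (a⁻¹ * y * a) * a⁻¹ := by group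
                  _ = 1 := by rw [h1]; group)
  -- elements with the primes of `H` in the normaliser lie in `H`
  have hnorm : ∀ n ∈ Subgroup.normalizer (H : Set G),
      (∀ r : ℕ, r.Prime → r ∣ orderOf n → r ∣ Nat.card H) → n ∈ H := by
    intro n hn hr
    set N := Subgroup.normalizer (H : Set G)
    haveI : (H.subgroupOf N).Normal := Subgroup.normal_in_normalizer
    have h1 : orderOf ((⟨n, hn⟩ : N) : N ⧸ H.subgroupOf N) ∣ orderOf n := by
      rw [← Subgroup.orderOf_mk n hn]
      exact orderOf_map_dvd (QuotientGroup.mk' (H.subgroupOf N)) _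
    have h2 : orderOf ((⟨n, hn⟩ : N) : N ⧸ H.subgroupOf N) ∣ H.index := by
      refine (orderOf_dvd_natCard _).trans ?_
      rw [← Subgroup.index_eq_card]
      exact Dvd.intro _ (Subgroup.relIndex_mul_index (Subgroup.le_normalizer : H ≤ N))
    by_contra hnH
    obtain ⟨r, hrp, hrd⟩ := Nat.exists_prime_and_dvd
      (n := orderOf ((⟨n, hn⟩ : N) : N ⧸ H.subgroupOf N)) (fun h => hnH (by
        have h3 := (QuotientGroup.eq_one_iff _).1 (orderOf_eq_one_iff.1 h)
        exact h3))
    exact hrp.ne_one (Nat.eq_one_of_dvd_coprimes hHall (hr r hrp (hrd.trans h1)) (hrd.trans h2))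
  -- malnormality of the intersections inside `K`
  have hmal : ∀ a y k : G, y ≠ 1 → k ∈ K → a⁻¹ * y * a ∈ H → a⁻¹ * (k * y * k⁻¹) * a ∈ H →
      a⁻¹ * k * a ∈ H := by
    intro a y k hy hk h1 h2
    refine hnorm _ ?_ fun r hr hrd => hK r hr ?_
    · have h3 := hti (k * a) a (k * y * k⁻¹) (fun h => hy (conj_eq_one_iff.1 h))
        (by rwa [show (k * a)⁻¹ * (k * y * k⁻¹) * (k * a) = a⁻¹ * y * a by group]) h2
      rwa [← mul_assoc] at h3
    · have h4 : orderOf (a⁻¹ * k * a) = orderOf k := by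
        have h5 : orderOf (MulAut.conj a⁻¹ k) = orderOf k := MulEquiv.orderOf_eq _ _
        simpa using h5
      exact hrd.trans (h4 ▸ Subgroup.orderOf_dvd_natCard K hk)
  -- `p`-elements lie in conjugates
  have hpel : ∀ (r : ℕ) (x : G), r.Prime → r ∣ Nat.card H → (∃ j, x ^ r ^ j = 1) → ∃ a, a⁻¹ * x * a ∈ H := by
    intro r x hr hrH hx
    haveI : Fact r.Prime := ⟨hr⟩
    obtain ⟨j, hj⟩ := hx
    obtain ⟨i, -, hi⟩ := (Nat.dvd_prime_pow hr).1 (orderOf_dvd_of_pow_eq_one hj)
    obtain ⟨R, hR⟩ := (IsPGroup.of_card (G := Subgroup.zpowers x) (n := i) (by rw [Nat.card_zpowers, hi])).exists_le_sylow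
    obtain ⟨R'⟩ : Nonempty (Sylow r H) := inferInstance
    obtain ⟨T, hT⟩ := (R'.isPGroup'.map H.subtype).exists_le_sylow
    have hnd : ¬ r ∣ H.index := fun h => hr.ne_one (Nat.eq_one_of_dvd_coprimes hHall hrH h)
    have hTH : (R' : Subgroup H).map H.subtype = (T : Subgroup G) := by
      refine Subgroup.eq_of_le_of_card_ge hT (le_of_eq ?_)
      rw [Subgroup.card_map_of_injective Subtype.val_injective, Sylow.card_eq_multiplicity,
        Sylow.card_eq_multiplicity, ← H.card_mul_index, Nat.factorization_mul Nat.card_pos.ne' Subgroup.index_ne_zero_of_finite,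
        Finsupp.add_apply, Nat.factorization_eq_zero_of_not_dvd hnd, add_zero]
    obtain ⟨a, ha⟩ := MulAction.exists_smul_eq G T R
    refine ⟨a, ?_⟩
    have h1 : x ∈ MulAut.conj a • (T : Subgroup G) := by
      rw [← ha] at hR
      exact hR (Subgroup.mem_zpowers x)
    rw [Subgroup.mem_pointwise_smul_iff_inv_smul_mem, MulAut.smul_def, MulAut.inv_apply, MulAut.conj_symm_apply,
      ← hTH] at h1
    obtain ⟨z, -, hz⟩ := h1
    rw [← hz]
    exact z.2
  -- counting: only one class of nontrivial intersections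
  let L : G → Subgroup G := fun a => K ⊓ H.map (MulAut.conj a).toMonoidHom
  let U : G → Finset G := fun a =>
    Finset.univ.filter fun y => y ≠ 1 ∧ y ∈ K ∧ ∃ k ∈ K, a⁻¹ * (k * y * k⁻¹) * a ∈ H
  have hU : ∀ a : G, L a ≠ ⊥ → Nat.card K ≤ 2 * (U a).card := by
    intro a ha
    set La := (L a).subgroupOf K with hLa
    haveI := Fintype.ofFinite (K ⧸ La)
    haveI := Fintype.ofFinite La
    have hLne : 2 ≤ Fintype.card La := by
      rw [← Nat.card_eq_fintype_card, Nat.card_congr (Subgroup.subgroupOfEquivOfLe (inf_le_left : L a ≤ K)).toEquiv]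
      exact (Subgroup.one_lt_card_iff_ne_bot _).2 ha
    have hz : ∀ z : La, a⁻¹ * (((z : K)) : G) * a ∈ H := fun z =>
      (hmem a _).1 (show (((z : K)) : G) ∈ L a from z.2).2
    have hcard : ((Finset.univ : Finset (K ⧸ La)) ×ˢ (Finset.univ.erase (1 : La))).card ≤ (U a).card := by
      refine Finset.card_le_card_of_injOn
        (fun z => ((z.1.out : K) : G) * ((z.2 : K) : G) * ((z.1.out : K) : G)⁻¹) ?_ ?_
      · rintro ⟨q, l⟩ hz'
        simp only [Finset.coe_product, Set.mem_prod, Finset.coe_erase, Set.mem_diff, Set.mem_singleton_iff] at hz'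
        refine Finset.mem_filter.2 ⟨Finset.mem_univ _, fun h => hz'.2.2 ?_, ?_, ((q.out : K) : G)⁻¹,
          K.inv_mem (q.out : K).2, ?_⟩
        · exact Subtype.ext (Subtype.ext (conj_eq_one_iff.1 h))
        · exact K.mul_mem (K.mul_mem (q.out : K).2 (l : K).2) (K.inv_mem (q.out : K).2)
        · rw [show ((q.out : K) : G)⁻¹ * (((q.out : K) : G) * ((l : K) : G) * ((q.out : K) : G)⁻¹) *
            ((q.out : K) : G)⁻¹⁻¹ = ((l : K) : G) by group]
          exact hz l
      · rintro ⟨q, l⟩ hz' ⟨q', l'⟩ hw' h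
        simp only [Finset.coe_product, Set.mem_prod, Finset.coe_erase, Set.mem_diff, Set.mem_singleton_iff] at hz' hw'
        dsimp only at h
        set c : K := q'.out⁻¹ * q.out with hc
        have h1 : (c : G) * ((l : K) : G) * (c : G)⁻¹ = ((l' : K) : G) := by
          rw [hc, Subgroup.coe_mul, Subgroup.coe_inv]
          calc _ = ((q'.out : K) : G)⁻¹ * (((q.out : K) : G) * ((l : K) : G) * ((q.out : K) : G)⁻¹) * ((q'.out : K) : G) := by group
            _ = _ := by rw [h]; group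
        have h2 : a⁻¹ * (c : G) * a ∈ H := hmal a _ c (fun e => hz'.2.2 (Subtype.ext (Subtype.ext e))) c.2 (hz l)
          (by rw [h1]; exact hz l')
        have hq : q' = q := by
          rw [← QuotientGroup.out_eq' q', ← QuotientGroup.out_eq' q, QuotientGroup.eq]
          exact ⟨c.2, (hmem a _).2 h2⟩
        subst hq
        have h3 := mul_left_cancel (mul_right_cancel h)
        exact Prod.ext rfl (Subtype.ext (Subtype.ext h3))
    rw [Finset.card_product, Finset.card_univ, Finset.card_erase_of_mem (Finset.mem_univ _), Finset.card_univ,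
      ← Nat.card_eq_fintype_card, ← Subgroup.index_eq_card] at hcard
    have h2 := La.card_mul_index
    rw [Nat.card_eq_fintype_card] at h2
    rw [← h2]
    calc Fintype.card La * La.index ≤ 2 * (Fintype.card La - 1) * La.index :=
          Nat.mul_le_mul_right _ (by omega)
      _ = 2 * (La.index * (Fintype.card La - 1)) := by ring
      _ ≤ _ := Nat.mul_le_mul_left 2 hcard
  have hequiv : ∀ a b : G, L a ≠ ⊥ → L b ≠ ⊥ → ∃ k ∈ K, (k * a)⁻¹ * b ∈ Subgroup.normalizer (H : Set G) := by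
    intro a b ha hb
    by_contra hno
    push Not at hno
    have hdis : Disjoint (U a) (U b) := by
      rw [Finset.disjoint_left]
      intro y hy hy'
      obtain ⟨-, hy1, -, k, hk, hka⟩ := Finset.mem_filter.1 hy
      obtain ⟨-, -, -, k', hk', hkb⟩ := Finset.mem_filter.1 hy'
      refine hno (k'⁻¹⁻¹ * k⁻¹) (K.mul_mem (K.inv_mem (K.inv_mem hk')) (K.inv_mem hk)) ?_
      refine hti b (k'⁻¹⁻¹ * k⁻¹ * a) (k' * y * k'⁻¹) (fun h => hy1 (conj_eq_one_iff.1 h)) hkb ?_
      rwa [show (k'⁻¹⁻¹ * k⁻¹ * a)⁻¹ * (k' * y * k'⁻¹) * (k'⁻¹⁻¹ * k⁻¹ * a) = a⁻¹ * (k * y * k⁻¹) * a by group]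
    have h1 := Finset.card_union_of_disjoint hdis
    have hsub : U a ∪ U b ⊆ (Finset.univ.filter fun y => y ∈ K).erase 1 := by
      intro y hy
      rcases Finset.mem_union.1 hy with h | h <;>
      · obtain ⟨-, hy1, hy2, -⟩ := Finset.mem_filter.1 h
        exact Finset.mem_erase.2 ⟨hy1, Finset.mem_filter.2 ⟨Finset.mem_univ _, hy2⟩⟩
    have h2 := Finset.card_le_card hsub
    rw [Finset.card_erase_of_mem (by simp [K.one_mem]), ← Fintype.card_subtype, ← Nat.card_eq_fintype_card] at h2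
    have h3 : Nat.card {y // y ∈ K} = Nat.card K := rfl
    have := Nat.card_pos (α := K)
    have := hU a ha
    have := hU b hb
    omega
  -- choose a nontrivial intersection
  have hex : ∀ (r : ℕ) (S : Subgroup G) (z : G), r.Prime → r ∣ Nat.card K → S ≤ K → z ∈ K → z ≠ 1 →
      (∃ j, z ^ r ^ j = 1) → (∀ s ∈ S, s * z = z * s) → ∃ a, L a ≠ ⊥ ∧ S ≤ L a := by
    intro r S z hr hrK hSK hzK hz1 hzp hsz
    obtain ⟨a, ha⟩ := hpel r z hr (hK r hr hrK) hzp
    refine ⟨a, fun h => hz1 (Subgroup.mem_bot.1 (h ▸ (⟨hzK, (hmem a z).2 ha⟩ : z ∈ L a))), fun s hs => ⟨hSK hs, (hmem a s).2 ?_⟩⟩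
    exact hmal a z s hz1 (hSK hs) ha (by rw [hsz s hs, mul_inv_cancel_right]; exact ha)
  have hsyl : ∀ r : ℕ, r.Prime → r ∣ Nat.card K → ∃ a, L a ≠ ⊥ ∧ r ^ (Nat.card K).factorization r ∣ Nat.card (L a) := by
    intro r hr hrK
    haveI : Fact r.Prime := ⟨hr⟩
    obtain ⟨S⟩ : Nonempty (Sylow r K) := inferInstance
    haveI : Nontrivial (S : Subgroup K) := (Subgroup.nontrivial_iff_ne_bot _).2 (S.ne_bot_of_dvd_card hrK)
    haveI := S.isPGroup'.center_nontrivial
    obtain ⟨z, hz⟩ := exists_ne (1 : Subgroup.center (S : Subgroup K))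
    obtain ⟨j, hj⟩ := S.isPGroup' (z : (S : Subgroup K))
    obtain ⟨a, ha, hle⟩ := hex r ((S : Subgroup K).map K.subtype) (((z : (S : Subgroup K)) : K) : G) hr hrK
      (Subgroup.map_subtype_le _) ((z : (S : Subgroup K)) : K).2
      (fun h => hz (Subtype.ext (Subtype.ext (Subtype.ext h))))
      ⟨j, by exact_mod_cast congrArg (fun u : (S : Subgroup K) => ((u : K) : G)) hj⟩
      (by
        rintro _ ⟨u, hu, rfl⟩
        exact congrArg (fun v : (S : Subgroup K) => ((v : K) : G)) (Subgroup.mem_center_iff.1 z.2 ⟨u, hu⟩))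
    refine ⟨a, ha, ?_⟩
    have h1 := Subgroup.card_dvd_of_le hle
    rwa [Subgroup.card_map_of_injective Subtype.val_injective, Sylow.card_eq_multiplicity] at h1
  obtain ⟨r, hr, hrK⟩ := Nat.exists_prime_and_dvd (n := Nat.card K) (fun h => hK1 (Subgroup.eq_bot_of_card_eq K h))
  obtain ⟨a, ha, -⟩ := hsyl r hr hrK
  refine ⟨a, ?_⟩
  have hdvd : Nat.card K ∣ Nat.card (L a) := by
    refine (Nat.dvd_iff_prime_pow_dvd_dvd _ _).2 fun q i hq hqi => ?_
    rcases Nat.eq_zero_or_pos i with rfl | hi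
    · simp
    have hqK : q ∣ Nat.card K := (dvd_pow_self q hi.ne').trans hqi
    obtain ⟨b, hb, hbd⟩ := hsyl q hq hqK
    refine ((pow_dvd_pow q ((hq.pow_dvd_iff_le_factorization Nat.card_pos.ne').1 hqi)).trans hbd).trans ?_
    obtain ⟨k, hk, hkn⟩ := hequiv a b ha hb
    have hle : (L b).map (MulAut.conj k⁻¹).toMonoidHom ≤ L a := by
      rintro _ ⟨y, ⟨hyK, hyb⟩, rfl⟩
      refine ⟨by simpa using K.mul_mem (K.mul_mem (K.inv_mem hk) hyK) hk, (hmem a _).2 ?_⟩
      have h1 := (Subgroup.mem_normalizer_iff.1 hkn _).1 ((hmem b y).1 hyb)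
      simpa [mul_assoc] using h1
    refine dvd_trans (dvd_of_eq ?_) (Subgroup.card_dvd_of_le hle)
    rw [Subgroup.card_map_of_injective (MulEquiv.injective _)]
  exact (Subgroup.eq_of_le_of_card_ge (inf_le_left : L a ≤ K) (Nat.le_of_dvd Nat.card_pos hdvd)).ge.trans inf_le_right

end Cfsg.Agent.S4116
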