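import Cfsg.Statements.S4115
import Cfsg.Agent.Frob.TIComplement
import Cfsg.Agent.Frob.Semidirect
import Cfsg.Agent.S4116

set_option autoImplicit false
universe u
open Cfsg

namespace Cfsg.Agent.S4115

open Subgroup in
/-- A normal complement and its retraction. -/
theorem retraction_of_complement {N : Type*} [Group N] (K H : Subgroup N) [K.Normal]
    (h : K.IsComplement' H) : ∃ π : N →* H, ∀ x : H, π x = x := by
  refine ⟨h.symm.QuotientMulEquiv.toMonoidHom.comp (QuotientGroup.mk' K), fun x => ?_⟩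
  apply h.symm.QuotientMulEquiv.symm.injective
  rw [MonoidHom.comp_apply, MulEquiv.coe_toMonoidHom, MulEquiv.symm_apply_apply]
  rfl

universe v in
/-- A group with a fixed-point-free action is a Frobenius complement, in any universe above it. -/
theorem exists_frobenius_of_aut {A : Type v} [Group A] [Finite A] [Nontrivial A] {V : Type*} [Group V] [Finite V]
    [Nontrivial V] (φ : A →* MulAut V) (hfpf : ∀ a : A, a ≠ 1 → ∀ x : V, φ a x = x → x = 1) :
    ∃ (F : Type v) (_ : Group F) (_ : Finite F) (C : Subgroup F),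
      Cfsg.IsFrobeniusComplement C ∧ Nonempty (A ≃* C) := by
  obtain ⟨L, i1, i2, C, hC, ⟨e⟩, -⟩ := CfsgLib.Frob.hasFC_of_aut φ hfpf
  have hC' := CfsgLib.Frob.isFrobeniusComplement_map (MulEquiv.ulift : ULift.{v} L ≃* L).symm hC
  exact ⟨ULift.{v} L, inferInstance, inferInstance, _, hC', ⟨e.trans (C.equivMapOfInjective _ (MulEquiv.injective _))⟩⟩

/-- Let G be a finite group and H a subgroup that meets each of its conjugates by elements outside N_G(H) trivially and whose order is coprime to its index in N_G(H). Then H has a normal complement in N_G(H) if and only if H has a normal complement in G. Moreover, if H is not normal in G and has a normal complement in N_G(H), then H is isomorphic to a Frobenius complement of some finite Frobenius group. -/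
theorem result {G : Type u} [Group G] [Finite G] (H : Subgroup G)
    (hTI : Cfsg.IsTISubset (H : Set G)) (hHall : (Nat.card H).Coprime (H.subgroupOf (Subgroup.normalizer (H : Set G))).index) :
    ((∃ K : Subgroup (Subgroup.normalizer (H : Set G)), K.Normal ∧ K.IsComplement' (H.subgroupOf (Subgroup.normalizer (H : Set G)))) ↔
      (∃ N : Subgroup G, N.Normal ∧ N.IsComplement' H)) ∧
    (¬ H.Normal → (∃ K : Subgroup (Subgroup.normalizer (H : Set G)), K.Normal ∧ K.IsComplement' (H.subgroupOf (Subgroup.normalizer (H : Set G)))) →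
      ∃ (F : Type u) (_ : Group F) (_ : Finite F) (C : Subgroup F), Cfsg.IsFrobeniusComplement C ∧ Nonempty (H ≃* C)) := by
  classical
  set N : Subgroup G := Subgroup.normalizer (H : Set G) with hN
  haveI hHn : (H.subgroupOf N).Normal := Subgroup.normal_in_normalizer
  have hco := CfsgLib.Frob.coprime_index_of_ti hTI hHall
  have hfwd : (∃ K : Subgroup N, K.Normal ∧ K.IsComplement' (H.subgroupOf N)) →
      ∃ M : Subgroup G, M.Normal ∧ M.IsComplement' H := by
    rintro ⟨K, hKn, hK⟩
    haveI := hKn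
    obtain ⟨π, hπ⟩ := retraction_of_complement K (H.subgroupOf N) hK
    refine CfsgLib.Frob.exists_normal_complement_of_ti hTI hHall
      ((Subgroup.subgroupOfEquivOfLe (Subgroup.le_normalizer (H := H))).toMonoidHom.comp π) fun x => ?_
    simp only [MonoidHom.comp_apply]
    rw [show (⟨(x : G), Subgroup.le_normalizer x.2⟩ : N) =
      ((⟨⟨x, Subgroup.le_normalizer x.2⟩, x.2⟩ : H.subgroupOf N) : N) from rfl, hπ]
    rfl
  refine ⟨⟨hfwd, ?_⟩, ?_⟩
  · rintro ⟨M, hMn, hM⟩
    haveI := hMn
    refine ⟨M.subgroupOf N, inferInstance, Subgroup.isComplement'_of_disjoint_and_mul_eq_univ ?_ ?_⟩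
    · rw [disjoint_iff, Subgroup.eq_bot_iff_forall]
      rintro x ⟨hxM, hxH⟩
      exact Subtype.ext (Subgroup.mem_bot.1 (disjoint_iff.1 hM.disjoint ▸
        (⟨hxM, hxH⟩ : (x : G) ∈ M ⊓ H)))
    · rw [Set.eq_univ_iff_forall]
      intro x
      obtain ⟨⟨⟨m, hm⟩, ⟨h, hh⟩⟩, hx⟩ := hM.2 (x : G)
      simp only at hx
      have hmN : m ∈ N := by
        rw [show m = (x : G) * h⁻¹ by rw [← hx]; group]
        exact N.mul_mem x.2 (N.inv_mem (Subgroup.le_normalizer hh))
      exact ⟨⟨m, hmN⟩, hm, ⟨h, Subgroup.le_normalizer hh⟩, hh, Subtype.ext hx⟩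
  intro hnn hK
  obtain ⟨M, hMn, hM⟩ := hfwd hK
  haveI := hMn
  haveI : Nontrivial H := (Subgroup.nontrivial_iff_ne_bot H).2 fun h => hnn (h ▸ inferInstance)
  have hMH : M ⊓ H = ⊥ := disjoint_iff.1 hM.disjoint
  -- H centralizes M ∩ N
  have hcen : ∀ c ∈ M, c ∈ N → ∀ h ∈ H, Commute c h := by
    intro c hcM hcN h hh
    have h1 : c * h * c⁻¹ * h⁻¹ ∈ M ⊓ H := by
      refine ⟨?_, H.mul_mem ((Subgroup.mem_normalizer_iff.1 hcN h).1 hh) (H.inv_mem hh)⟩
      rw [mul_assoc, mul_assoc]
      exact M.mul_mem hcM (by simpa [mul_assoc] using hMn.conj_mem _ (M.inv_mem hcM) h)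
    rw [hMH, Subgroup.mem_bot, mul_inv_eq_one, mul_inv_eq_iff_eq_mul] at h1
    exact h1
  -- H-invariant Sylow subgroups of M
  have hMidx : M.index = Nat.card H := hM.symm.index_eq_card
  have hinv : ∀ q : ℕ, q.Prime → ∃ Q : Subgroup G, Q ≤ M ∧ Nat.card Q = q ^ (Nat.card M).factorization q ∧
      H ≤ Subgroup.normalizer (Q : Set G) := by
    intro q hq
    haveI := Fact.mk hq
    obtain ⟨S⟩ : Nonempty (Sylow q M) := inferInstance
    set Q : Subgroup G := (S : Subgroup M).map M.subtype with hQ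
    set L : Subgroup G := Subgroup.normalizer (Q : Set G) with hL
    have hsup : L ⊔ M = ⊤ := Sylow.normalizer_sup_eq_top S
    have hidx : (M.subgroupOf L).index = Nat.card H := by
      show M.relIndex L = _
      rw [← Subgroup.relIndex_sup_right, hsup, Subgroup.relIndex_top_right, hMidx]
    have hcop : (Nat.card M).Coprime (Nat.card H) := by
      rw [← hM.index_eq_card]; exact hco.symm
    obtain ⟨R, hR⟩ := Subgroup.exists_right_complement'_of_coprime (N := M.subgroupOf L) (by
      rw [hidx]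
      refine Nat.Coprime.coprime_dvd_left ?_ hcop
      rw [← Subgroup.card_map_of_injective L.subtype_injective, Subgroup.subgroupOf_map_subtype]
      exact Subgroup.card_dvd_of_le inf_le_left)
    have hRc : Nat.card (R.map L.subtype) = Nat.card H := by
      rw [Subgroup.card_map_of_injective L.subtype_injective, ← hR.symm.index_eq_card, hidx]
    obtain ⟨g, hg⟩ := Cfsg.Agent.S4116.result H hco hTI (R.map L.subtype) fun r _ hr => hRc ▸ hr
    have heq : R.map L.subtype = H.map (MulAut.conj g).toMonoidHom := Subgroup.eq_of_le_of_card_ge hg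
      (by rw [hRc, Subgroup.card_map_of_injective (MulAut.conj g).injective])
    refine ⟨Q.map (MulAut.conj g⁻¹).toMonoidHom, ?_, ?_, ?_⟩
    · rintro _ ⟨y, hy, rfl⟩
      exact hMn.conj_mem y (Subgroup.map_subtype_le _ hy) g⁻¹
    · rw [Subgroup.card_map_of_injective (MulAut.conj g⁻¹).injective, hQ,
        Subgroup.card_map_of_injective M.subtype_injective, S.card_eq_multiplicity]
    · intro h hh
      have h1 : g * h * g⁻¹ ∈ Subgroup.normalizer (Q : Set G) := by
        obtain ⟨z, -, hz⟩ : g * h * g⁻¹ ∈ R.map L.subtype := heq ▸ ⟨h, hh, rfl⟩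
        rw [← hz]
        exact z.2
      rw [← Subgroup.map_normalizer_eq_of_bijective Q (f := (MulAut.conj g⁻¹).toMonoidHom) (MulAut.conj g⁻¹).bijective]
      exact ⟨_, h1, by simp [mul_assoc]⟩
  -- one of them is not inside N
  obtain ⟨q, hq, Q, hQM, hQc, hQH, hQN⟩ : ∃ q : ℕ, q.Prime ∧ ∃ Q : Subgroup G, Q ≤ M ∧
      Nat.card Q = q ^ (Nat.card M).factorization q ∧ H ≤ Subgroup.normalizer (Q : Set G) ∧ ¬ Q ≤ N := by
    by_contra hcon
    push Not at hcon
    apply hnn
    have hle : M ≤ N := by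
      have hd : Nat.card M ∣ Nat.card ↥(M ⊓ N) := by
        rw [Nat.dvd_iff_prime_pow_dvd_dvd]
        intro q k hq hk
        obtain ⟨Q, h1, h2, h3⟩ := hinv q hq
        refine dvd_trans ?_ (Subgroup.card_dvd_of_le (le_inf h1 (hcon q hq Q h1 h2 h3)))
        rw [h2]
        exact pow_dvd_pow q ((hq.pow_dvd_iff_le_factorization Nat.card_pos.ne').1 hk)
      exact (Subgroup.eq_of_le_of_card_ge inf_le_left (Nat.le_of_dvd Nat.card_pos hd)).ge.trans inf_le_right
    have : (⊤ : Subgroup G) ≤ N := hM.sup_eq_top ▸ sup_le hle Subgroup.le_normalizer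
    exact Subgroup.normalizer_eq_top_iff.1 (top_le_iff.1 this)
  haveI := Fact.mk hq
  set D : Subgroup G := Q ⊓ N with hD
  set Q₂ : Subgroup G := Q ⊓ Subgroup.normalizer (D : Set G) with hQ2
  haveI hDn : (D.subgroupOf Q₂).Normal :=
    (Subgroup.normal_subgroupOf_iff_le_normalizer (le_inf inf_le_left Subgroup.le_normalizer)).2 inf_le_right
  have hHQ2 : H ≤ Subgroup.normalizer (Q₂ : Set G) := by
    have hHD : H ≤ Subgroup.normalizer (D : Set G) := by
      refine Subgroup.le_normalizer_iff.2 fun h hh d hd => ?_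
      rwa [(hcen d (hQM hd.1) hd.2 h hh).symm.eq, mul_inv_cancel_right]
    refine Subgroup.le_normalizer_iff.2 fun h hh y hy => ⟨?_, ?_⟩
    · exact Subgroup.le_normalizer_iff.1 hQH h hh y hy.1
    · exact Subgroup.mul_mem _ (Subgroup.mul_mem _ (hHD hh) hy.2) (Subgroup.inv_mem _ (hHD hh))
  haveI : Nontrivial (↥Q₂ ⧸ D.subgroupOf Q₂) := by
    rw [← Finite.one_lt_card_iff_nontrivial, ← Subgroup.index_eq_card, Nat.one_lt_iff_ne_zero_and_ne_one]
    refine ⟨Subgroup.index_ne_zero_of_finite, fun h => ?_⟩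
    rw [Subgroup.index_eq_one, Subgroup.subgroupOf_eq_top] at h
    -- normalizers grow in a p-group
    have hQp : IsPGroup q Q := IsPGroup.of_card hQc
    haveI := hQp.isNilpotent
    have hlt : D.subgroupOf Q < ⊤ := lt_top_iff_ne_top.2 fun e => hQN
      ((Subgroup.subgroupOf_eq_top.1 e).trans inf_le_right)
    obtain ⟨y, hy, hy'⟩ := SetLike.exists_of_lt (normalizerCondition_of_isNilpotent _ hlt)
    apply hy'
    refine h ⟨y.2, ?_⟩
    rw [← Subgroup.subgroupOf_normalizer_eq (inf_le_left : D ≤ Q)] at hy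
    exact hy
  let ψ : H →* MulAut ↥Q₂ := Q₂.normalizerMonoidHom.comp (Subgroup.inclusion hHQ2)
  have hψ : ∀ (h : H) (y : Q₂), ((ψ h y : Q₂) : G) = h * y * (h : G)⁻¹ := fun h y => rfl
  have hmap : ∀ h : H, (D.subgroupOf Q₂).map (ψ h).toMonoidHom = D.subgroupOf Q₂ := by
    intro h
    have key : ∀ (h : H) (y : Q₂), (y : G) ∈ D → ψ h y = y := fun h y hy => Subtype.ext (by
      rw [hψ, (hcen y (hQM hy.1) hy.2 h h.2).symm.eq, mul_inv_cancel_right])
    ext y
    constructor
    · rintro ⟨z, hz, rfl⟩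
      show ψ h z ∈ D.subgroupOf Q₂
      rw [key h z hz]; exact hz
    · intro hy
      exact ⟨y, hy, key h y hy⟩
  let φ : H →* MulAut (↥Q₂ ⧸ D.subgroupOf Q₂) :=
    { toFun := fun h => QuotientGroup.congr _ _ (ψ h) (hmap h)
      map_one' := by
        refine MulEquiv.ext fun x => ?_
        induction x using QuotientGroup.induction_on with
        | H y => exact congrArg QuotientGroup.mk (show ψ 1 y = y by rw [map_one]; rfl)
      map_mul' := fun a b => by
        refine MulEquiv.ext fun x => ?_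
        induction x using QuotientGroup.induction_on with
        | H y => exact congrArg QuotientGroup.mk (show ψ (a * b) y = ψ a (ψ b y) by rw [map_mul]; rfl) }
  refine exists_frobenius_of_aut φ fun h hh x hx => ?_
  induction x using QuotientGroup.induction_on with
  | H y =>
    rw [QuotientGroup.eq_one_iff]
    have hx' : (ψ h y : ↥Q₂ ⧸ D.subgroupOf Q₂) = (y : ↥Q₂ ⧸ D.subgroupOf Q₂) := hx
    rw [eq_comm, QuotientGroup.eq] at hx'
    set c : G := (y : G)⁻¹ * ((h : G) * y * (h : G)⁻¹) with hc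
    have hcD : c ∈ D := hx'
    have hch : Commute c (h : G) := hcen c (hQM hcD.1) hcD.2 h h.2
    have hiter : ∀ k : ℕ, (h : G) ^ k * y * ((h : G) ^ k)⁻¹ = y * c ^ k := by
      intro k
      induction k with
      | zero => simp
      | succ k ih =>
        calc (h : G) ^ (k + 1) * y * ((h : G) ^ (k + 1))⁻¹
            = (h : G) * ((h : G) ^ k * y * ((h : G) ^ k)⁻¹) * (h : G)⁻¹ := by rw [pow_succ']; group
          _ = ((h : G) * y * (h : G)⁻¹) * ((h : G) * c ^ k * (h : G)⁻¹) := by rw [ih]; group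
          _ = _ := by rw [(hch.pow_left k).symm.eq, mul_inv_cancel_right, pow_succ', ← mul_assoc (y : G) c]; congr 1; rw [hc, mul_inv_cancel_left]
    have hc1 : c = 1 := by
      have h1 := hiter (orderOf (h : G))
      rw [pow_orderOf_eq_one, one_mul, inv_one, mul_one, left_eq_mul] at h1
      apply orderOf_eq_one_iff.1
      refine Nat.eq_one_of_dvd_coprimes ?_ (Subgroup.orderOf_dvd_natCard _ (hQM hcD.1))
        ((orderOf_dvd_of_pow_eq_one h1).trans (Subgroup.orderOf_dvd_natCard _ h.2))
      rw [← hM.index_eq_card]; exact hco.symm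
    have hcomm : (h : G) * y * (h : G)⁻¹ = y := by
      rw [← one_mul (y : G)] ; simpa [hc, inv_mul_eq_one, eq_comm] using hc1
    show (y : G) ∈ D
    refine ⟨y.2.1, ?_⟩
    by_contra hyN
    refine hh (Subtype.ext ?_)
    refine hTI (y : G) hyN h h.2 ?_
    rw [mul_inv_eq_iff_eq_mul] at hcomm
    rw [← hcomm, mul_inv_cancel_right]
    exact h.2

end Cfsg.Agent.S4115
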