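import Cfsg.Statements.S4117
import Cfsg.Agent.CoprimeAction.Action
import Cfsg.Agent.RankOneP.Basic

set_option autoImplicit false
open Cfsg

namespace Cfsg.Agent.S4117

/-- Images of derived subgroups lie in the derived subgroup. -/
theorem map_comm_le {G L : Type*} [Group G] [Group L] (f : L →* G) : (commutator L).map f ≤ commutator G := by
  rw [commutator_def, Subgroup.map_commutator, commutator_def]
  exact Subgroup.commutator_mono le_top le_top

/-- Every subgroup of a normal cyclic subgroup is normal. -/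
theorem normal_of_le_cyclic {G : Type*} [Group G] [Finite G] {K S : Subgroup G} [K.Normal] [IsCyclic K]
    (h : S ≤ K) : S.Normal := by
  refine ⟨fun x hx g => ?_⟩
  have hg : g * x * g⁻¹ ∈ K := Subgroup.Normal.conj_mem ‹_› x (h hx) g
  have ho : orderOf (g * x * g⁻¹) = orderOf x := (MulAut.conj g).orderOf_eq x
  have h1 : (⟨g * x * g⁻¹, hg⟩ : K) ∈ Subgroup.zpowers (⟨x, h hx⟩ : K) := by
    rw [CfsgLib.RankOneP.zpowers_eq_of_orderOf_eq (a := (⟨x, h hx⟩ : K)) (b := ⟨g * x * g⁻¹, hg⟩)
      (by rw [Subgroup.orderOf_mk, Subgroup.orderOf_mk, ho])]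
    exact Subgroup.mem_zpowers _
  obtain ⟨i, hi⟩ := h1
  have : x ^ i = g * x * g⁻¹ := congrArg Subtype.val hi
  rw [← this]
  exact S.zpow_mem hx i

/-- The structure: a normal subgroup containing all `g⁻¹ a•g`, cyclic, meeting the fixed points trivially. -/
theorem key {G A : Type*} [Group G] [Finite G] [Group A] [Finite A]
    [MulDistribMulAction A G] (hcop : (Nat.card A).Coprime (Nat.card G)) [IsZGroup G]
    (M : Subgroup G) (hM : M = Subgroup.closure {y : G | ∃ (a : A) (g : G), y = g⁻¹ * a • g}) :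
    IsCyclic M ∧ M.Normal ∧ (∀ x ∈ M, (∀ a : A, a • x = x) → x = 1) ∧
      ∀ g : G, ∃ m ∈ M, ∃ c : G, (∀ a : A, a • c = c) ∧ g = m * c := by
  classical
  haveI := IsZGroup.isCyclic_commutator G
  set K : Subgroup G := Subgroup.centralizer (commutator G : Set G) with hK
  haveI : K.Normal := inferInstance
  haveI : IsCyclic K := by
    have hle : commutator K ≤ Subgroup.center K := by
      intro y hy
      rw [Subgroup.mem_center_iff]
      intro k
      have h1 : (y : G) ∈ commutator G :=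
        map_comm_le K.subtype ⟨y, hy, rfl⟩
      exact Subtype.ext (Subgroup.mem_centralizer_iff.1 k.2 y h1).symm
    haveI : Group.IsNilpotent K := Subgroup.isNilpotent_of_ker_le_center (Abelianization.of (G := K))
      (by rw [Abelianization.ker_of]; exact hle)
    infer_instance
  have hgen : ∀ (a : A) (g : G), g⁻¹ * a • g ∈ K := by
    intro a g
    rw [hK, Subgroup.mem_centralizer_iff]
    intro z hz
    have hzm : ∀ b : A, ∀ w ∈ commutator G, b • w ∈ commutator G := fun b w hw =>
      map_comm_le (MulDistribMulAction.toMonoidHom G b) ⟨w, hw, rfl⟩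
    obtain ⟨r, hr⟩ := MonoidHom.map_cyclic ((MulAut.conjNormal g).toMonoidHom : commutator G →* commutator G)
    have hr' : ∀ w ∈ commutator G, g * w * g⁻¹ = w ^ r := fun w hw => by
      have := congrArg Subtype.val (hr ⟨w, hw⟩)
      simpa using this
    have h1 : a • g * z * (a • g)⁻¹ = z ^ r := by
      rw [← smul_inv' a g, show z = a • (a⁻¹ • z) from (smul_inv_smul a z).symm, ← smul_mul',
        ← smul_mul', hr' _ (hzm _ _ hz)]
      exact map_zpow (MulDistribMulAction.toMonoidHom G a) _ _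
    rw [← hr' z hz, mul_inv_eq_iff_eq_mul] at h1
    have h2 : g⁻¹ * a • g * z = z * (g⁻¹ * a • g) := by
      rw [mul_assoc g⁻¹, h1]; group
    exact h2.symm
  have hMK : M ≤ K := by
    rw [hM, Subgroup.closure_le]
    rintro _ ⟨a, g, rfl⟩
    exact hgen a g
  haveI : M.Normal := normal_of_le_cyclic hMK
  have hMgen : ∀ (a : A) (g : G), g⁻¹ * a • g ∈ M := fun a g => hM ▸ Subgroup.subset_closure ⟨a, g, rfl⟩
  have hMA : ∀ a : A, ∀ m ∈ M, a • m ∈ M := fun a m hm => by
    simpa using M.mul_mem hm (hMgen a m)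
  let φ : A →* MulAut G := MulDistribMulAction.toMulAut A G
  have hdec : ∀ g : G, ∃ m ∈ M, ∃ c : G, (∀ a : A, a • c = c) ∧ g = m * c := by
    intro g
    obtain ⟨n, hn, hfix⟩ := CfsgLib.CoprimeAction.exists_fixed_of_coset φ (N := M) (fun a m hm => hMA a m hm)
      (hcop.coprime_dvd_right (Subgroup.card_subgroup_dvd_card M)) (Or.inr inferInstance) (k := g)
      (fun a => by
        have h := ‹M.Normal›.conj_mem _ (hMgen a g) g
        rwa [mul_inv_cancel_left] at h)
    exact ⟨n⁻¹, M.inv_mem hn, n * g, hfix, (inv_mul_cancel_left n g).symm⟩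
  haveI : IsCyclic M := Subgroup.isCyclic_of_le hMK
  refine ⟨inferInstance, inferInstance, ?_, hdec⟩
  letI : CommGroup M := IsCyclic.commGroup
  haveI := Fintype.ofFinite A
  let σ : A → (M →* M) := fun a =>
    { toFun := fun m => ⟨a • (m : G), hMA a m m.2⟩
      map_one' := Subtype.ext (smul_one a)
      map_mul' := fun m m' => Subtype.ext (smul_mul' a (m : G) m') }
  let ν : M →* M := ∏ a : A, σ a
  have hν : ∀ m : M, ν m = ∏ a : A, σ a m := fun m => MonoidHom.finsetProd_apply _ _ _
  haveI : (ν.ker.map M.subtype).Normal := normal_of_le_cyclic ((Subgroup.map_subtype_le _).trans hMK)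
  have hker : M ≤ ν.ker.map M.subtype := by
    conv_lhs => rw [hM]
    rw [Subgroup.closure_le]
    rintro _ ⟨b, g, rfl⟩
    obtain ⟨m, hm, c, hc, rfl⟩ := hdec g
    have h1 : (m * c)⁻¹ * b • (m * c) = c⁻¹ * (m⁻¹ * b • m) * c⁻¹⁻¹ := by
      rw [smul_mul', hc b]; group
    rw [h1]
    refine Subgroup.Normal.conj_mem ‹(ν.ker.map M.subtype).Normal› _ ?_ _
    refine ⟨⟨m⁻¹ * b • m, hMgen b m⟩, ?_, rfl⟩
    rw [SetLike.mem_coe, MonoidHom.mem_ker,
      show (⟨m⁻¹ * b • m, hMgen b m⟩ : M) = (⟨m, hm⟩ : M)⁻¹ * σ b ⟨m, hm⟩ from rfl, map_mul, map_inv,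
      inv_mul_eq_one, hν, hν]
    refine (Fintype.prod_equiv (Equiv.mulRight b) _ _ fun a => ?_).symm
    exact Subtype.ext (smul_smul a b m)
  intro x hx hfix
  obtain ⟨y, hy, hyx⟩ := hker hx
  have hyfix : ∀ a : A, σ a y = y := fun a => Subtype.ext (by
    show a • (y : G) = y
    have : (y : G) = x := hyx
    rw [this, hfix])
  have h2 := hν y
  rw [MonoidHom.mem_ker.1 hy, Finset.prod_congr rfl (fun a _ => hyfix a), Finset.prod_const, Finset.card_univ,
    ← Nat.card_eq_fintype_card] at h2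
  rw [← hyx, show y = 1 from ?_, map_one]
  refine orderOf_eq_one_iff.1 (Nat.eq_one_of_dvd_coprimes hcop (orderOf_dvd_of_pow_eq_one h2.symm) ?_)
  exact (orderOf_dvd_natCard y).trans (Subgroup.card_subgroup_dvd_card M)

/-- Let A be a finite group acting on the finite group G by automorphisms with the orders of A and G coprime, and suppose every Sylow subgroup of G is cyclic. Then the fixed-point subgroup C_G(A) is a Hall subgroup of G (its order is coprime to its index), the subgroup [G, A] generated by the elements g⁻¹·a(g) is cyclic and normal with [G, A] ∩ C_G(A) = 1 and [G, A]·C_G(A) = G. -/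
theorem result {G A : Type*} [Group G] [Finite G] [Group A] [Finite A]
    [MulDistribMulAction A G] (hcop : (Nat.card A).Coprime (Nat.card G))
    (hcyc : ∀ (p : ℕ) [Fact p.Prime] (P : Sylow p G), IsCyclic (P : Subgroup G)) :
    (Nat.card (MulAction.fixedPoints A G : Set G)).Coprime (Nat.card G / Nat.card (MulAction.fixedPoints A G : Set G)) ∧
    IsCyclic (Subgroup.closure {y : G | ∃ (a : A) (g : G), y = g⁻¹ * a • g}) ∧
    (Subgroup.closure {y : G | ∃ (a : A) (g : G), y = g⁻¹ * a • g}).Normal ∧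
    (Subgroup.closure {y : G | ∃ (a : A) (g : G), y = g⁻¹ * a • g} : Set G) ∩ MulAction.fixedPoints A G = {1} ∧
    Subgroup.closure {y : G | ∃ (a : A) (g : G), y = g⁻¹ * a • g} ⊔ Subgroup.closure (MulAction.fixedPoints A G) = ⊤ := by
  classical
  haveI : IsZGroup G := ⟨fun p hp P => @hcyc p ⟨hp⟩ P⟩
  obtain ⟨hcy, hn, hint, hdec⟩ := key hcop _ rfl
  set M : Subgroup G := Subgroup.closure {y : G | ∃ (a : A) (g : G), y = g⁻¹ * a • g}
  let C : Subgroup G :=
    { carrier := MulAction.fixedPoints A G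
      one_mem' := fun a => smul_one a
      mul_mem' := fun {x y} hx hy a => by rw [smul_mul', hx a, hy a]
      inv_mem' := fun {x} hx a => by rw [smul_inv', hx a] }
  have hC : Nat.card C = Nat.card (MulAction.fixedPoints A G : Set G) := rfl
  have hMC : M ⊓ C = ⊥ := (Subgroup.eq_bot_iff_forall _).2 fun x hx => hint x hx.1 hx.2
  have hsup : M ⊔ C = ⊤ := by
    rw [eq_top_iff]
    intro g _
    obtain ⟨m, hm, c, hc, rfl⟩ := hdec g
    exact Subgroup.mul_mem_sup hm hc
  haveI := hn
  have hcompl : M.IsComplement' C := by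
    refine Subgroup.isComplement'_of_disjoint_and_mul_eq_univ (disjoint_iff.2 hMC) ?_
    rw [← Subgroup.normal_mul, hsup]; rfl
  refine ⟨?_, hcy, hn, ?_, ?_⟩
  · rw [← hC, ← hcompl.card_mul_card, Nat.mul_div_cancel _ Nat.card_pos]
    by_contra hnc
    obtain ⟨p, hp, hpC, hpM⟩ := Nat.Prime.not_coprime_iff_dvd.mp hnc
    haveI := Fact.mk hp
    obtain ⟨c, hc⟩ := exists_prime_orderOf_dvd_card' p hpC
    obtain ⟨m, hm⟩ := exists_prime_orderOf_dvd_card' p hpM
    -- a Sylow subgroup containing both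
    have hcp : IsPGroup p (Subgroup.zpowers (c : G)) :=
      IsPGroup.of_card (n := 1) (by rw [Nat.card_zpowers, Subgroup.orderOf_coe, hc, pow_one])
    have hmp : IsPGroup p (Subgroup.zpowers (m : G)) :=
      IsPGroup.of_card (n := 1) (by rw [Nat.card_zpowers, Subgroup.orderOf_coe, hm, pow_one])
    haveI : (Subgroup.zpowers (m : G)).Normal := by
      haveI := hcy
      exact normal_of_le_cyclic (K := M) (Subgroup.zpowers_le.2 m.2)
    obtain ⟨P, hP⟩ := (hcp.to_sup_of_normal_right hmp).exists_le_sylow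
    haveI := hcyc p P
    have hcP : (c : G) ∈ (P : Subgroup G) := hP (Subgroup.mem_sup_left (Subgroup.mem_zpowers _))
    have hmP : (m : G) ∈ (P : Subgroup G) := hP (Subgroup.mem_sup_right (Subgroup.mem_zpowers _))
    obtain ⟨i, hi⟩ : (⟨c, hcP⟩ : (P : Subgroup G)) ∈ Subgroup.zpowers (⟨m, hmP⟩ : (P : Subgroup G)) := by
      rw [CfsgLib.RankOneP.zpowers_eq_of_orderOf_eq (a := (⟨m, hmP⟩ : (P : Subgroup G))) (b := ⟨c, hcP⟩)
        (by rw [Subgroup.orderOf_mk, Subgroup.orderOf_mk, Subgroup.orderOf_coe, Subgroup.orderOf_coe, hc, hm])]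
      exact Subgroup.mem_zpowers _
    have h1 : (c : G) ∈ M ⊓ C := ⟨by
      rw [show (c : G) = (m : G) ^ i from (congrArg Subtype.val hi).symm]
      exact M.zpow_mem m.2 i, c.2⟩
    rw [hMC, Subgroup.mem_bot] at h1
    rw [← Subgroup.orderOf_coe, h1, orderOf_one] at hc
    exact hp.ne_one hc.symm
  · ext x
    simp only [Set.mem_inter_iff, SetLike.mem_coe, Set.mem_singleton_iff]
    exact ⟨fun hx => hint x hx.1 hx.2, fun hx => hx ▸ ⟨M.one_mem, fun a => smul_one a⟩⟩
  · rw [show MulAction.fixedPoints A G = (C : Set G) from rfl, Subgroup.closure_eq, hsup]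

end Cfsg.Agent.S4117
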