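import Cfsg.Statements.S4118
import Cfsg.Agent.Zass.Split
import Cfsg.Agent.Zass.AutSolvable
import Cfsg.Agent.S4115

set_option autoImplicit false
open Cfsg

namespace Cfsg.Agent.S4118

open scoped Pointwise


/-- Let G be a finite group and H a non-normal subgroup meeting each of its conjugates by elements outside N_G(H) trivially, with the order of H coprime to its index in N_G(H); let π be the set of primes dividing the order of H and suppose G is π-separable (it has a chain of normal subgroups from 1 to G each of whose factors has order divisible only by primes in π or coprime to the order of H). Let O be the largest normal subgroup of G of order coprime to the order of H. Then G = O·N_G(H), O·H is normal in G, and G is solvable if and only if O is solvable and H has no subgroup isomorphic to SL₂(5). -/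
theorem result {G : Type*} [Group G] [Finite G] (H : Subgroup G)
    (hTI : Cfsg.IsTISubset (H : Set G)) (hnn : ¬ H.Normal)
    (hHall : (Nat.card H).Coprime (H.subgroupOf (Subgroup.normalizer (H : Set G))).index)
    (hsep : ∃ (n : ℕ) (M : Fin (n + 1) → Subgroup G), M 0 = ⊥ ∧ M (Fin.last n) = ⊤ ∧ Monotone M ∧ (∀ i, (M i).Normal) ∧
      ∀ i : Fin n, (∀ q : ℕ, q.Prime → q ∣ (M i.castSucc).relIndex (M i.succ) → q ∣ Nat.card H) ∨
        ((M i.castSucc).relIndex (M i.succ)).Coprime (Nat.card H))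
    (O : Subgroup G) (hO : O = sSup {K : Subgroup G | K.Normal ∧ (Nat.card K).Coprime (Nat.card H)}) :
    O ⊔ Subgroup.normalizer (H : Set G) = ⊤ ∧ (O ⊔ H).Normal ∧
    (Group.IsSolvable G ↔ Group.IsSolvable O ∧
      ∀ K : Subgroup G, K ≤ H → ¬ Nonempty (K ≃* Matrix.SpecialLinearGroup (Fin 2) (ZMod 5))) := by
  classical
  set N := Subgroup.normalizer (H : Set G) with hN
  have hco : (Nat.card H).Coprime H.index := CfsgLib.Frob.coprime_index_of_ti hTI hHall
  have hHN : H ≤ N := Subgroup.le_normalizer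
  -- the core `O`
  obtain ⟨hOn, hOc⟩ : O.Normal ∧ (Nat.card O).Coprime (Nat.card H) := by
    have key : ∀ s : Finset (Subgroup G), (∀ K ∈ s, K.Normal ∧ (Nat.card K).Coprime (Nat.card H)) →
        (s.sup id).Normal ∧ (Nat.card (s.sup id : Subgroup G)).Coprime (Nat.card H) := by
      intro s
      induction s using Finset.induction_on with
      | empty =>
        intro _
        rw [Finset.sup_empty]
        exact ⟨inferInstance, by rw [Subgroup.card_bot]; exact Nat.coprime_one_left _⟩
      | insert K s hKs ih =>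
        intro hs
        obtain ⟨h1, h2⟩ := ih fun L hL => hs L (Finset.mem_insert_of_mem hL)
        obtain ⟨h3, h4⟩ := hs K (Finset.mem_insert_self K s)
        haveI := h1; haveI := h3
        rw [Finset.sup_insert, id]
        refine ⟨inferInstance, ?_⟩
        refine Nat.Coprime.coprime_dvd_left ?_ (h4.mul_left h2)
        have e := Subgroup.relIndex_mul_index (bot_le : (⊥ : Subgroup G) ≤ K ⊔ s.sup id)
        have e1 : Nat.card (K ⊔ s.sup id : Subgroup G) = Nat.card K * K.relIndex (K ⊔ s.sup id) := by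
          rw [← Subgroup.relIndex_bot_left, ← Subgroup.relIndex_mul_relIndex ⊥ K (K ⊔ s.sup id) bot_le le_sup_left,
            Subgroup.relIndex_bot_left]
        rw [e1]
        refine Nat.mul_dvd_mul_left _ ?_
        rw [Subgroup.relIndex_sup_left]
        exact Subgroup.relIndex_dvd_card _ _
    haveI : Fintype {K : Subgroup G | K.Normal ∧ (Nat.card K).Coprime (Nat.card H)} := Fintype.ofFinite _
    have := key {K : Subgroup G | K.Normal ∧ (Nat.card K).Coprime (Nat.card H)}.toFinset
      (fun K hK => by simpa using hK)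
    rw [hO]
    rwa [Finset.sup_id_eq_sSup, Set.coe_toFinset] at this
  haveI := hOn
  have hOmax : ∀ K : Subgroup G, K.Normal → (Nat.card K).Coprime (Nat.card H) → K ≤ O := fun K h1 h2 =>
    hO ▸ le_sSup (show K ∈ {K : Subgroup G | K.Normal ∧ (Nat.card K).Coprime (Nat.card H)} from ⟨h1, h2⟩)
  have hH1 : H ≠ ⊥ := fun e => hnn (e ▸ inferInstance)
  -- the first layer above `O`
  obtain ⟨n, M, hM0, hMl, hMm, hMn, hfac⟩ := hsep
  obtain ⟨i, hi, hi'⟩ : ∃ i : Fin n, M i.castSucc ≤ O ∧ ¬ M i.succ ≤ O := by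
    by_contra hc
    push Not at hc
    have hall : ∀ m : Fin (n + 1), M m ≤ O := by
      intro m
      induction m using Fin.induction with
      | zero => rw [hM0]; exact bot_le
      | succ i ih => exact hc i ih
    have htop : (⊤ : Subgroup G) ≤ O := hMl ▸ hall _
    apply hH1
    have h1 := Subgroup.card_dvd_of_le ((le_top : H ≤ ⊤).trans htop)
    exact Subgroup.card_eq_one.mp (Nat.eq_one_of_dvd_coprimes hOc h1 dvd_rfl)
  haveI := hMn i.succ
  set W := O ⊔ M i.succ with hW
  have hrel : O.relIndex W ∣ (M i.castSucc).relIndex (M i.succ) := by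
    rw [hW, Subgroup.relIndex_sup_left]
    exact Subgroup.relIndex_dvd_of_le_left _ hi
  have hOW : Nat.card W = Nat.card O * O.relIndex W := by
    rw [← Subgroup.relIndex_bot_left, ← Subgroup.relIndex_mul_relIndex ⊥ O W bot_le le_sup_left,
      Subgroup.relIndex_bot_left]
  have hpi : ∀ q : ℕ, q.Prime → q ∣ O.relIndex W → q ∣ Nat.card H := by
    rcases hfac i with h | h
    · exact fun q hq hqd => h q hq (hqd.trans hrel)
    · exfalso
      apply hi'
      refine le_sup_right.trans (hOmax W inferInstance ?_)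
      rw [hOW]
      exact hOc.mul_left (h.coprime_dvd_left hrel)
  have hW1 : O.relIndex W ≠ 1 := fun e => hi' (le_sup_right.trans (Subgroup.relIndex_eq_one.mp e))
  obtain ⟨p, hp, hpd⟩ := Nat.exists_prime_and_dvd hW1
  haveI := Fact.mk hp
  obtain ⟨P⟩ : Nonempty (Sylow p W) := inferInstance
  set P' : Subgroup G := (P : Subgroup W).map W.subtype with hP'
  have hPG : Subgroup.normalizer (P' : Set G) ⊔ W = ⊤ := Sylow.normalizer_sup_eq_top P
  have hPp : IsPGroup p P' := P.isPGroup'.map _
  obtain ⟨g, hg⟩ := Cfsg.Agent.S4116.result H hco hTI P' fun q hq hqd => by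
    obtain ⟨k, hk⟩ := IsPGroup.iff_card.mp hPp
    rw [hk] at hqd
    exact (Nat.prime_dvd_prime_iff_eq hq hp).mp (hq.dvd_of_dvd_pow hqd) ▸ hpi p hp hpd
  have hP1 : P' ≠ ⊥ := by
    intro e
    have h1 : p ^ 1 ∣ Nat.card W := by rw [pow_one, hOW]; exact hpd.trans (dvd_mul_left _ _)
    have h2 := P.pow_dvd_card_of_pow_dvd_card h1
    rw [← Subgroup.card_map_of_injective W.subtype_injective, ← hP', e, Subgroup.card_bot, pow_one] at h2
    exact hp.one_lt.ne' (Nat.dvd_one.mp h2)
  set Hg := H.map (MulAut.conj g).toMonoidHom with hHg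
  have hNP : Subgroup.normalizer (P' : Set G) ≤ N.map (MulAut.conj g).toMonoidHom := by
    intro x hx
    obtain ⟨y, hy, hy1⟩ := (Subgroup.bot_or_exists_ne_one P').resolve_left hP1
    obtain ⟨h, hh, hhy⟩ := hg hy
    obtain ⟨h', hh', hhy'⟩ := hg ((Subgroup.mem_normalizer_iff.mp hx y).mp hy)
    refine ⟨g⁻¹ * x * g, ?_, by simp [mul_assoc]⟩
    by_contra hn
    have e1 : h = 1 := hTI _ hn h hh (by
      have e : g⁻¹ * x * g * h * (g⁻¹ * x * g)⁻¹ = h' := by
        calc g⁻¹ * x * g * h * (g⁻¹ * x * g)⁻¹ = g⁻¹ * (x * (MulAut.conj g).toMonoidHom h * x⁻¹) * g := by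
              simp [mul_assoc]
          _ = g⁻¹ * (x * y * x⁻¹) * g := by rw [hhy]
          _ = h' := by rw [← hhy']; simp [mul_assoc]
      show g⁻¹ * x * g * h * (g⁻¹ * x * g)⁻¹ ∈ H
      rw [e]; exact hh')
    rw [e1, map_one] at hhy
    exact hy1 hhy.symm
  -- `W` is generated by `O` and its intersection with the conjugate
  have hWg : W ≤ O ⊔ Hg := by
    have hd : Nat.card W ∣ Nat.card O * Nat.card (W ⊓ Hg : Subgroup G) := by
      have h1 : Nat.card W = Nat.card (W ⊓ Hg : Subgroup G) * Hg.relIndex W := by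
        rw [← Subgroup.inf_relIndex_left W Hg, ← Subgroup.relIndex_bot_left (H := W),
          ← Subgroup.relIndex_bot_left (H := W ⊓ Hg), Subgroup.relIndex_mul_relIndex ⊥ (W ⊓ Hg) W bot_le inf_le_left]
      have h2 : Hg.relIndex W ∣ H.index := by
        rw [← Subgroup.index_map_equiv H (MulAut.conj g)]
        show Hg.relIndex W ∣ Hg.index
        let f : Hg →* G ⧸ W := (QuotientGroup.mk' W).comp Hg.subtype
        have hf : f.ker = W.subgroupOf Hg := by
          ext x
          simp [f, MonoidHom.mem_ker, Subgroup.mem_subgroupOf]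
        have hm : Nat.card f.ker = Nat.card (W ⊓ Hg : Subgroup G) := by
          rw [hf, ← Subgroup.card_map_of_injective Hg.subtype_injective, Subgroup.subgroupOf_map_subtype]
        obtain ⟨t, ht⟩ : Nat.card f.range ∣ W.index := Subgroup.index_eq_card W ▸ Subgroup.card_subgroup_dvd_card _
        have hcardHg := f.ker.card_mul_index
        rw [Subgroup.index_ker, hm] at hcardHg
        refine ⟨t, ?_⟩
        have e1 := W.card_mul_index.trans Hg.card_mul_index.symm
        rw [h1, ht, ← hcardHg] at e1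
        have hpos : 0 < Nat.card (W ⊓ Hg : Subgroup G) * Nat.card f.range := Nat.mul_pos Nat.card_pos Nat.card_pos
        refine Nat.eq_of_mul_eq_mul_left hpos ?_
        rw [← e1]; ring
      have h4 : Hg.relIndex W ∣ Nat.card O := by
        have h5 : Hg.relIndex W ∣ Nat.card O * O.relIndex W := hOW ▸ h1 ▸ dvd_mul_left _ _
        refine Nat.Coprime.dvd_of_dvd_mul_right ?_ h5
        rw [Nat.coprime_iff_gcd_eq_one]
        by_contra hne
        obtain ⟨q, hq, hqd⟩ := Nat.exists_prime_and_dvd hne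
        exact hq.one_lt.ne' (Nat.eq_one_of_dvd_coprimes hco (hpi q hq (hqd.trans (Nat.gcd_dvd_right _ _)))
          ((hqd.trans (Nat.gcd_dvd_left _ _)).trans h2))
      rw [h1, mul_comm]
      exact Nat.mul_dvd_mul_right h4 _
    have hle : O ⊔ W ⊓ Hg ≤ W := sup_le le_sup_left inf_le_left
    have h6 : Nat.card O * Nat.card (W ⊓ Hg : Subgroup G) ∣ Nat.card (O ⊔ W ⊓ Hg : Subgroup G) := by
      refine Nat.Coprime.mul_dvd_of_dvd_of_dvd ?_ (Subgroup.card_dvd_of_le le_sup_left)
        (Subgroup.card_dvd_of_le le_sup_right)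
      refine Nat.Coprime.coprime_dvd_right ?_ hOc
      refine (Subgroup.card_dvd_of_le inf_le_right).trans ?_
      rw [hHg, Subgroup.card_map_of_injective (MulAut.conj g).injective]
    have h7 := Subgroup.eq_of_le_of_card_ge hle (Nat.le_of_dvd Nat.card_pos (hd.trans h6))
    exact h7.ge.trans (sup_le le_sup_left (inf_le_right.trans le_sup_right))
  have hON : O ⊔ N = ⊤ := by
    have h1 : O ⊔ N.map (MulAut.conj g).toMonoidHom = ⊤ := by
      rw [eq_top_iff, ← hPG]
      refine sup_le (hNP.trans le_sup_right) (hWg.trans (sup_le le_sup_left ?_))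
      exact (Subgroup.map_mono hHN).trans le_sup_right
    have h2 := congrArg (Subgroup.map (MulAut.conj g⁻¹).toMonoidHom) h1
    rw [Subgroup.map_sup, Subgroup.map_map, Subgroup.map_top_of_surjective _ (MulAut.conj g⁻¹).surjective] at h2
    have e1 : O.map (MulAut.conj g⁻¹).toMonoidHom = O := by
      refine Subgroup.eq_of_le_of_card_ge ?_ (by rw [Subgroup.card_map_of_injective (MulAut.conj g⁻¹).injective])
      rintro _ ⟨x, hx, rfl⟩
      exact hOn.conj_mem x hx g⁻¹
    have e2 : N.map ((MulAut.conj g⁻¹).toMonoidHom.comp (MulAut.conj g).toMonoidHom) = N := by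
      rw [show (MulAut.conj g⁻¹).toMonoidHom.comp (MulAut.conj g).toMonoidHom = MonoidHom.id G by
        ext x; simp [mul_assoc], Subgroup.map_id]
    rwa [e1, e2] at h2
  have hOH : (O ⊔ H).Normal := by
    rw [← Subgroup.normalizer_eq_top_iff, eq_top_iff, ← hON]
    refine sup_le (le_sup_left.trans Subgroup.le_normalizer) fun x hx => ?_
    rw [Subgroup.mem_normalizer_iff_map_conj_eq, Subgroup.map_sup]
    refine congrArg₂ (· ⊔ ·) ?_ (Subgroup.mem_normalizer_iff_map_conj_eq.mp hx)
    exact Subgroup.mem_normalizer_iff_map_conj_eq.mp (Subgroup.normalizer_eq_top O ▸ Subgroup.mem_top x)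
  refine ⟨hON, hOH, ⟨fun hG => ⟨inferInstance, ?_⟩, fun ⟨hOs, hK⟩ => ?_⟩⟩
  · intro K _ hK
    obtain ⟨e⟩ := hK
    haveI : Group.IsSolvable (Matrix.SpecialLinearGroup (Fin 2) (ZMod 5)) :=
      Group.isSolvable_of_surjective (f := e.toMonoidHom) e.surjective
    haveI : Nontrivial (Matrix.SpecialLinearGroup (Fin 2) (ZMod 5)) := by
      rw [← Finite.one_lt_card_iff_nontrivial, CfsgLib.Zass.card_SL25]; norm_num
    exact CfsgLib.Zass.not_solvable_of_perfect CfsgLib.Zass.perfect_SL25 inferInstance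
  -- `H` is a Frobenius complement
  set X := O ⊔ H with hX
  haveI := hOH
  have hHX : H ≤ X := le_sup_right
  set H' := H.subgroupOf X with hH'
  have hnormH' : ∀ x : X, x ∈ Subgroup.normalizer (H' : Set X) ↔ (x : G) ∈ N := by
    intro x
    rw [hH', hN]
    rw [← Subgroup.subgroupOf_normalizer_eq hHX]
    rfl
  have hTI' : Cfsg.IsTISubset (H' : Set X) := fun x hx h hh hc =>
    Subtype.ext (hTI (x : G) (fun hxN => hx ((hnormH' x).mpr hxN)) (h : G) hh hc)
  have hnn' : ¬ H'.Normal := by
    intro hn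
    apply hnn
    have hcar : H'.Characteristic := by
      haveI := hn
      refine Subgroup.characteristic_iff_map_eq.mpr fun φ => ?_
      refine Subgroup.eq_of_le_of_card_ge ?_ (by rw [Subgroup.card_map_of_injective φ.injective])
      have hidx : (Nat.card H').Coprime H'.index := by
        rw [Nat.card_congr (Subgroup.subgroupOfEquivOfLe hHX).toEquiv]
        exact hco.coprime_dvd_right (Dvd.intro _ (Subgroup.relIndex_mul_index hHX))
      rintro _ ⟨h, hh, rfl⟩
      rw [← QuotientGroup.eq_one_iff]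
      refine orderOf_eq_one_iff.mp (Nat.eq_one_of_dvd_coprimes hidx ?_ ?_)
      · refine ((orderOf_map_dvd (QuotientGroup.mk' H') _).trans ?_)
        rw [show φ.toMonoidHom h = φ h from rfl, MulEquiv.orderOf_eq]
        exact Subgroup.orderOf_dvd_natCard _ hh
      · rw [Subgroup.index_eq_card]; exact orderOf_dvd_natCard _
    haveI := hcar
    have h1 : (H'.map X.subtype).Normal := ConjAct.normal_of_characteristic_of_normal
    rwa [hH', Subgroup.map_subgroupOf_eq_of_le hHX] at h1
  set NX := Subgroup.normalizer (H' : Set X) with hNX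
  have hHH' : Nat.card H' = Nat.card H := Nat.card_congr (Subgroup.subgroupOfEquivOfLe hHX).toEquiv
  have hHall' : (Nat.card H').Coprime (H'.subgroupOf NX).index := by
    rw [hHH']
    refine hco.coprime_dvd_right ?_
    refine (Dvd.intro _ (Subgroup.relIndex_mul_index (Subgroup.le_normalizer : H' ≤ NX))).trans ?_
    exact Dvd.intro _ (Subgroup.relIndex_mul_index hHX)
  have hcompl : ∃ K : Subgroup NX, K.Normal ∧ K.IsComplement' (H'.subgroupOf NX) := by
    refine ⟨(O.subgroupOf X).subgroupOf NX, inferInstance, ?_⟩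
    refine Subgroup.isComplement'_of_disjoint_and_mul_eq_univ ?_ ?_
    · rw [disjoint_iff, Subgroup.eq_bot_iff_forall]
      rintro x ⟨hxO, hxH⟩
      refine Subtype.ext (Subtype.ext ?_)
      exact orderOf_eq_one_iff.mp (Nat.eq_one_of_dvd_coprimes hOc (Subgroup.orderOf_dvd_natCard O hxO)
        (Subgroup.orderOf_dvd_natCard H hxH))
    · rw [Set.eq_univ_iff_forall]
      intro x
      obtain ⟨o, ho, h, hh, hoh⟩ := Subgroup.mem_sup_of_normal_left.mp ((x : X).2 : ((x : X) : G) ∈ O ⊔ H)
      have hoN : (⟨o, Subgroup.mem_sup_left ho⟩ : X) ∈ NX := by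
        rw [hnormH']
        show o ∈ N
        rw [show o = ((x : X) : G) * h⁻¹ by rw [← hoh]; group]
        exact mul_mem ((hnormH' _).mp x.2) (inv_mem (hHN hh))
      exact ⟨⟨_, hoN⟩, ho, ⟨⟨h, hHX hh⟩, Subgroup.le_normalizer (show (⟨h, hHX hh⟩ : X) ∈ H' from hh)⟩, hh,
        Subtype.ext (Subtype.ext hoh)⟩
  obtain ⟨F, _, _, C, hC, ⟨e⟩⟩ := (Cfsg.Agent.S4115.result H' hTI' hHall').2 hnn' hcompl
  have hlat : CfsgLib.Frob.LatFpf H :=
    (CfsgLib.Frob.latFpf_of_complement hC).comp
      ((Subgroup.subgroupOfEquivOfLe hHX).symm.trans e).toMonoidHom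
      ((Subgroup.subgroupOfEquivOfLe hHX).symm.trans e).injective
  haveI hHs : Group.IsSolvable H := by
    by_contra hns
    obtain ⟨T, T', -, -, -, ⟨eT⟩, -, -, -, -, -, -⟩ := CfsgLib.Zass.exists_split hlat hns
    exact hK (T.map H.subtype) (Subgroup.map_subtype_le T)
      ⟨(T.equivMapOfInjective H.subtype H.subtype_injective).symm.trans eT⟩
  haveI := CfsgLib.Zass.isSolvable_mulAut hlat
  haveI := hOs
  -- the kernel of the action of the normaliser on `H`
  let ρ : N →* MulAut H := Subgroup.normalizerMonoidHom H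
  have hρ : ∀ x : N, x ∈ ρ.ker → ∀ h ∈ H, (x : G) * h = h * (x : G) := fun x hx h hh => by
    have h1 := congrArg (fun u : MulAut H => ((u ⟨h, hh⟩ : H) : G)) (MonoidHom.mem_ker.mp hx)
    exact mul_inv_eq_iff_eq_mul.mp h1
  set Zc := (H.subgroupOf N).subgroupOf ρ.ker with hZc
  have hZmem : ∀ x : ρ.ker, x ∈ Zc ↔ ((x : N) : G) ∈ H := fun x => Iff.rfl
  have hZcen : ∀ x : ρ.ker, x ∈ Zc → ∀ y : ρ.ker, Commute y x := fun x hx y =>
    Subtype.ext (Subtype.ext (hρ (y : N) y.2 _ hx))
  letI : CommGroup Zc :=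
    { (inferInstance : Group Zc) with mul_comm := fun a b => Subtype.ext (hZcen b b.2 a).eq }
  have hZidx : (Nat.card H).Coprime Zc.index := by
    refine hco.coprime_dvd_right ?_
    have h1 : Zc.index ∣ (H.subgroupOf N).index := by
      show (H.subgroupOf N).relIndex ρ.ker ∣ _
      haveI : (H.subgroupOf N).Normal := Subgroup.normal_in_normalizer
      exact Subgroup.relIndex_dvd_index_of_normal _ _
    exact h1.trans (Dvd.intro _ (Subgroup.relIndex_mul_index hHN))
  let τ : ρ.ker →* Zc := MonoidHom.transfer (MonoidHom.id Zc)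
  have hτz : ∀ (z : ρ.ker), z ∈ Zc → ((τ z : Zc) : ρ.ker) = z ^ Zc.index := by
    intro z hz
    show ((MonoidHom.transfer (MonoidHom.id Zc) z : Zc) : ρ.ker) = _
    rw [MonoidHom.transfer_eq_pow (MonoidHom.id Zc) z (fun k g₀ _ => by
      rw [mul_assoc, ← ((hZcen z hz g₀).pow_right k).eq, inv_mul_cancel_left])]
    rfl
  have hZdvd : Nat.card Zc ∣ Nat.card H := by
    refine Dvd.dvd.trans ?_ (dvd_of_eq (Nat.card_congr (Subgroup.subgroupOfEquivOfLe hHN).toEquiv))
    rw [← Subgroup.card_map_of_injective (K := Zc) ρ.ker.subtype_injective]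
    exact Subgroup.card_dvd_of_le (by rintro _ ⟨x, hx, rfl⟩; exact hx)
  have hτs : Function.Surjective τ := by
    have h1 : Function.Surjective (fun z : Zc => z ^ Zc.index) :=
      (powCoprime ((hZidx.coprime_dvd_left hZdvd))).surjective
    intro z
    obtain ⟨w, hw⟩ := h1 z
    exact ⟨(w : ρ.ker), Subtype.ext ((hτz _ w.2).trans (congrArg Subtype.val hw))⟩
  have hk0card : Nat.card τ.ker = Zc.index := by
    have h1 := τ.ker.card_mul_index
    rw [Subgroup.index_ker, MonoidHom.range_eq_top.mpr hτs, Subgroup.card_top, ← Zc.card_mul_index,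
      mul_comm (Nat.card Zc)] at h1
    exact Nat.eq_of_mul_eq_mul_right Nat.card_pos h1
  set K0 : Subgroup G := τ.ker.map ((N.subtype).comp ρ.ker.subtype) with hK0
  have hinj : Function.Injective ((N.subtype).comp ρ.ker.subtype) :=
    N.subtype_injective.comp ρ.ker.subtype_injective
  have hK0card : (Nat.card K0).Coprime (Nat.card H) := by
    rw [hK0, Subgroup.card_map_of_injective hinj, hk0card]; exact hZidx.symm
  have hK0mem : ∀ x : ρ.ker, (orderOf x).Coprime (Nat.card H) → x ∈ τ.ker := by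
    intro x hx
    rw [MonoidHom.mem_ker]
    exact orderOf_eq_one_iff.mp (Nat.eq_one_of_dvd_coprimes (hx.coprime_dvd_right hZdvd)
      (orderOf_map_dvd τ x) (orderOf_dvd_natCard _))
  have hK0conj : ∀ n ∈ N, ∀ x ∈ K0, n * x * n⁻¹ ∈ K0 := by
    rintro m hm _ ⟨x, hx, rfl⟩
    have h1 : (⟨m, hm⟩ : N) * (x : N) * (⟨m, hm⟩ : N)⁻¹ ∈ ρ.ker :=
      Subgroup.Normal.conj_mem inferInstance _ x.2 _
    refine ⟨⟨_, h1⟩, hK0mem _ ?_, rfl⟩
    rw [Subgroup.orderOf_mk, show (⟨m, hm⟩ : N) * (x : N) * (⟨m, hm⟩ : N)⁻¹ = MulAut.conj (⟨m, hm⟩ : N) (x : N) from rfl,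
      MulEquiv.orderOf_eq, Subgroup.orderOf_coe]
    exact Nat.Coprime.coprime_dvd_left (Subgroup.orderOf_dvd_natCard _ hx) (hk0card ▸ hZidx.symm)
  have hK0O : K0 ≤ O := by
    haveI : (O ⊔ K0).Normal := by
      rw [← Subgroup.normalizer_eq_top_iff, eq_top_iff, ← hON]
      refine sup_le (le_sup_left.trans Subgroup.le_normalizer) fun x hx => ?_
      rw [Subgroup.mem_normalizer_iff_map_conj_eq, Subgroup.map_sup]
      refine congrArg₂ (· ⊔ ·)
        (Subgroup.mem_normalizer_iff_map_conj_eq.mp (Subgroup.normalizer_eq_top O ▸ Subgroup.mem_top x)) ?_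
      refine Subgroup.eq_of_le_of_card_ge ?_
        (le_of_eq (Subgroup.card_map_of_injective (f := (MulAut.conj x).toMonoidHom) (K := K0) (MulAut.conj x).injective).symm)
      rintro _ ⟨y, hy, rfl⟩
      exact hK0conj x hx y hy
    refine le_sup_right.trans (hOmax (O ⊔ K0) inferInstance ?_)
    refine Nat.Coprime.coprime_dvd_left ?_ (hOc.mul_left hK0card)
    rw [← Subgroup.relIndex_bot_left (H := O ⊔ K0), ← Subgroup.relIndex_mul_relIndex ⊥ O (O ⊔ K0) bot_le le_sup_left,
      Subgroup.relIndex_bot_left, Subgroup.relIndex_sup_left]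
    exact Nat.mul_dvd_mul_left _ (Subgroup.relIndex_dvd_card _ _)
  -- assemble
  let ψ : N →* G ⧸ O := (QuotientGroup.mk' O).comp N.subtype
  have hψ : Function.Surjective ψ := by
    intro q
    obtain ⟨x, rfl⟩ := QuotientGroup.mk'_surjective O q
    obtain ⟨o, ho, m, hm, rfl⟩ := Subgroup.mem_sup_of_normal_left.mp (hON.symm ▸ Subgroup.mem_top x)
    refine ⟨⟨m, hm⟩, ?_⟩
    show QuotientGroup.mk' O m = QuotientGroup.mk' O (o * m)
    rw [map_mul, show QuotientGroup.mk' O o = 1 from (QuotientGroup.eq_one_iff o).mpr ho, one_mul]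
  set Ci := ρ.ker.map ψ with hCi
  haveI : Ci.Normal := Subgroup.Normal.map inferInstance ψ hψ
  haveI : Group.IsSolvable Ci := by
    let χ : Zc →* Ci := ((ψ.subgroupMap ρ.ker)).comp Zc.subtype
    refine Group.isSolvable_of_surjective (f := χ) fun c => ?_
    obtain ⟨_, ⟨x, hx, rfl⟩⟩ := c
    obtain ⟨w, hw⟩ := hτs (τ ⟨x, hx⟩)
    -- split off the central part
    have h1 : Function.Surjective (fun z : Zc => z ^ Zc.index) :=
      (powCoprime ((hZidx.coprime_dvd_left hZdvd))).surjective
    obtain ⟨v, hv⟩ := h1 (τ ⟨x, hx⟩)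
    have hk : (⟨x, hx⟩ : ρ.ker) * (v : ρ.ker)⁻¹ ∈ τ.ker := by
      rw [MonoidHom.mem_ker, map_mul, map_inv, mul_inv_eq_one]
      exact (hv.symm.trans (Subtype.ext (hτz _ v.2).symm))
    refine ⟨v, Subtype.ext ?_⟩
    show ψ ((v : ρ.ker) : N) = ψ x
    have h2 : ψ (((⟨x, hx⟩ : ρ.ker) * (v : ρ.ker)⁻¹ : ρ.ker) : N) = 1 :=
      (QuotientGroup.eq_one_iff _).mpr (hK0O ⟨_, hk, rfl⟩)
    rw [Subgroup.coe_mul, Subgroup.coe_inv, map_mul, map_inv, mul_inv_eq_one] at h2
    exact h2.symm
  haveI : Group.IsSolvable ((G ⧸ O) ⧸ Ci) := by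
    haveI : Group.IsSolvable (N ⧸ ρ.ker) :=
      Group.isSolvable_of_isSolvable_injective (f := QuotientGroup.kerLift ρ) (QuotientGroup.kerLift_injective ρ)
    have hle : ρ.ker ≤ ((QuotientGroup.mk' Ci).comp ψ).ker := fun x hx => by
      rw [MonoidHom.mem_ker, MonoidHom.comp_apply]
      exact (QuotientGroup.eq_one_iff _).mpr ⟨x, hx, rfl⟩
    refine Group.isSolvable_of_surjective (f := QuotientGroup.lift ρ.ker ((QuotientGroup.mk' Ci).comp ψ) hle) fun q => ?_
    obtain ⟨x, hx⟩ := ((QuotientGroup.mk'_surjective Ci).comp hψ) q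
    exact ⟨QuotientGroup.mk x, hx⟩
  haveI : Group.IsSolvable (G ⧸ O) :=
    Group.isSolvable_of_ker_le_range Ci.subtype (QuotientGroup.mk' Ci) (by rw [QuotientGroup.ker_mk', Subgroup.range_subtype])
  exact Group.isSolvable_of_ker_le_range O.subtype (QuotientGroup.mk' O) (by rw [QuotientGroup.ker_mk', Subgroup.range_subtype])

end Cfsg.Agent.S4118
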