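import Cfsg.Statements.S4126
import Cfsg.Agent.Transfer.SmallElements
import Mathlib

set_option autoImplicit false
open Cfsg

namespace Cfsg.Agent.S4126

theorem exists_mul {G : Type*} [Group G] [Finite G] {p : ℕ} [Fact p.Prime] (P : Sylow p G)
    (C : Subgroup G) {j : ℕ} (hC : C.index = p ^ j) (g : G) :
    ∃ x ∈ (P : Subgroup G), x⁻¹ * g ∈ C := by
  have hp : p.Prime := Fact.out
  let f : ↥(P : Subgroup G) ⧸ C.subgroupOf (P : Subgroup G) → G ⧸ C :=
    Quotient.lift (fun x => QuotientGroup.mk (x : G)) fun a b hab => by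
      rw [QuotientGroup.eq]
      have h' : a⁻¹ * b ∈ C.subgroupOf (P : Subgroup G) := QuotientGroup.leftRel_apply.1 hab
      exact h'
  have hf : Function.Injective f := by
    intro a b
    obtain ⟨a, rfl⟩ := QuotientGroup.mk_surjective a
    obtain ⟨b, rfl⟩ := QuotientGroup.mk_surjective b
    intro h
    rw [QuotientGroup.eq]
    exact (QuotientGroup.eq.1 (show ((a : G) : G ⧸ C) = (b : G) from h) :)
  have hcard : Nat.card (G ⧸ C) ≤ Nat.card (↥(P : Subgroup G) ⧸ C.subgroupOf (P : Subgroup G)) := by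
    rw [← Subgroup.index_eq_card, ← Subgroup.index_eq_card, hC]
    have h1 := (C.subgroupOf (P : Subgroup G)).card_mul_index
    have h2 : Nat.card (C.subgroupOf (P : Subgroup G)) * p ^ j ≤ Nat.card (P : Subgroup G) := by
      obtain ⟨k, hk⟩ := IsPGroup.iff_card.1 (P.2.to_subgroup (C.subgroupOf (P : Subgroup G)))
      have hd : p ^ k ∣ Nat.card C := by
        rw [← hk, ← Subgroup.inf_subgroupOf_right,
          Nat.card_congr (Subgroup.subgroupOfEquivOfLe inf_le_right).toEquiv]
        exact Subgroup.card_dvd_of_le inf_le_left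
      have h3 : p ^ (k + j) ∣ Nat.card G := by
        rw [pow_add, ← C.card_mul_index, hC]; exact mul_dvd_mul_right hd _
      rw [hk, ← pow_add, P.card_eq_multiplicity]
      exact Nat.pow_le_pow_right hp.pos ((hp.pow_dvd_iff_le_factorization Nat.card_pos.ne').1 h3)
    rw [← h1] at h2
    exact Nat.le_of_mul_le_mul_left h2 Nat.card_pos
  obtain ⟨y, hy⟩ := ((Nat.bijective_iff_injective_and_card f).2
    ⟨hf, le_antisymm (Nat.card_le_card_of_injective f hf) hcard⟩).2 (QuotientGroup.mk g)
  obtain ⟨y, rfl⟩ := QuotientGroup.mk_surjective y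
  exact ⟨y, y.2, QuotientGroup.eq.1 (show ((y : G) : G ⧸ C) = g from hy)⟩


/-- Let G be a finite group and p a prime. Suppose every element of order p, and when p = 2 also every element of order 4, has a conjugacy class of p-power size. Then G has a normal p-complement. -/
theorem result {G : Type*} [Group G] [Finite G] (p : ℕ) [Fact p.Prime]
    (h : ∀ x : G, (orderOf x = p ∨ (p = 2 ∧ orderOf x = 4)) → ∃ a : ℕ, (Subgroup.centralizer ({x} : Set G)).index = p ^ a) :
    Cfsg.HasNormalPComplement p G := by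
  have hp : p.Prime := Fact.out
  obtain ⟨P⟩ : Nonempty (Sylow p G) := inferInstance
  refine CfsgLib.Transfer.hasNormalPComplement_of_fixes_small P fun Q hQ n hn hnp =>
    CfsgLib.Transfer.commute_of_small_control P (fun a _ hsmall g _ => ?_) hQ hn hnp
  have hord : (orderOf a = p ∨ (p = 2 ∧ orderOf a = 4)) ∨ a = 1 := by
    rcases hsmall with h' | ⟨rfl, h'⟩
    · by_cases ha : a = 1
      · exact Or.inr ha
      · exact Or.inl (Or.inl (orderOf_eq_prime h' ha))
    · obtain ⟨k, hk, hk'⟩ := (Nat.dvd_prime_pow Nat.prime_two).1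
        (show orderOf a ∣ 2 ^ 2 by exact orderOf_dvd_of_pow_eq_one h')
      interval_cases k
      · exact Or.inr (orderOf_eq_one_iff.1 (by simpa using hk'))
      · exact Or.inl (Or.inl (by simpa using hk'))
      · exact Or.inl (Or.inr ⟨rfl, by simpa using hk'⟩)
  rcases hord with hord | rfl
  · obtain ⟨j, hj⟩ := h a hord
    obtain ⟨x, hx, hxg⟩ := exists_mul P _ hj g
    refine ⟨x, hx, ?_⟩
    rw [Subgroup.mem_centralizer_singleton_iff] at hxg
    calc g * a * g⁻¹ = x * ((x⁻¹ * g) * a) * g⁻¹ := by group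
      _ = x * (a * (x⁻¹ * g)) * g⁻¹ := by rw [hxg]
      _ = x * a * x⁻¹ := by group
  · exact ⟨1, one_mem _, by simp⟩

end Cfsg.Agent.S4126
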