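import Cfsg.Statements.S4138
import Cfsg.Agent.ClassSize.CoprimeTop
-- import your own Cfsg.Agent.* helpers here

set_option autoImplicit false
open Cfsg

namespace Cfsg.Agent.S4138

/-- Let G be a finite group whose two largest conjugacy class sizes m > n > 1 are coprime, and let x, y ∈ G have classes of sizes n and m respectively. Then C_G(x) and C_G(y) are abelian, and G/Z(G) is a Frobenius group with kernel C_G(x)/Z(G) and complement C_G(y)/Z(G). -/
theorem result {G : Type*} [Group G] [Finite G] (m n : ℕ) (hmn : n < m) (hn : 1 < n)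
    (hcop : m.Coprime n) (htop : ∀ z : G, (Subgroup.centralizer ({z} : Set G)).index ≤ m) (hsecond : ∀ z : G, (Subgroup.centralizer ({z} : Set G)).index < m → (Subgroup.centralizer ({z} : Set G)).index ≤ n)
    (x y : G) (hx : (Subgroup.centralizer ({x} : Set G)).index = n) (hy : (Subgroup.centralizer ({y} : Set G)).index = m) :
    IsMulCommutative (Subgroup.centralizer ({x} : Set G)) ∧ IsMulCommutative (Subgroup.centralizer ({y} : Set G)) ∧
    Cfsg.IsFrobeniusComplement ((Subgroup.centralizer ({y} : Set G)).map (QuotientGroup.mk' (Subgroup.center G))) ∧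
    Cfsg.frobeniusKernel ((Subgroup.centralizer ({y} : Set G)).map (QuotientGroup.mk' (Subgroup.center G))) =
      ((Subgroup.centralizer ({x} : Set G)).map (QuotientGroup.mk' (Subgroup.center G)) : Set (G ⧸ Subgroup.center G)) := by
  set B := Nat.gcd (Nat.card G) (n ^ Nat.card G) with hB
  obtain ⟨A, hA⟩ : B ∣ Nat.card G := Nat.gcd_dvd_left _ _
  have T : CfsgLib.CoprimeTop.Top G m n A B :=
    { lt := hmn, one_lt := hn, cop := hcop, top := htop, second := hsecond
      mulAB := by rw [mul_comm]; exact hA.symm
      copA := by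
        refine Nat.coprime_of_dvd fun r hr hrA hrn => ?_
        have hG0 : Nat.card G ≠ 0 := Nat.card_pos.ne'
        have hd : r ^ (Nat.card G).factorization r ∣ B := Nat.dvd_gcd (Nat.ordProj_dvd _ _)
          ((pow_dvd_pow r (Nat.factorization_lt r hG0).le).trans (pow_dvd_pow_of_dvd hrn _))
        have h2 : r ^ ((Nat.card G).factorization r + 1) ∣ Nat.card G := by
          rw [pow_succ]
          exact (mul_dvd_mul hd hrA).trans hA.symm.dvd
        have := (hr.pow_dvd_iff_le_factorization hG0).1 h2
        omega
      primesB := fun r hr hrB => hr.dvd_of_dvd_pow (hrB.trans (Nat.gcd_dvd_right _ _)) }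
  exact ⟨T.commutative_second hx hy, T.commutative_top hx hy, T.frobenius hx hy⟩

end Cfsg.Agent.S4138
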