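import Cfsg.Statements.S4144
import Cfsg.Agent.MaxPearl.PowerBound
import Mathlib
-- import your own Cfsg.Agent.* helpers here

set_option autoImplicit false
open Cfsg

namespace Cfsg.Agent.S4144

/-- Let X be a finite p-group of order p^n, n ≥ 2, of nilpotency class n − 1 (maximal class), and H any subgroup of X. Then the index in H of the subgroup generated by the p-th powers of elements of H is at most p^p. -/
theorem result {X : Type*} [Group X] [Finite X] {p : ℕ} [Fact p.Prime] (n : ℕ) (hn : 2 ≤ n) (hX : Nat.card X = p ^ n)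
    (hmax : Group.nilpotencyClass X = n - 1) (H : Subgroup X) :
    (Subgroup.closure {y : X | ∃ h ∈ H, y = h ^ p}).relIndex H ≤ p ^ p := by
  open CfsgLib.MaxPearl CfsgLib.MaxPearlC in
  classical
  have hp := (Fact.out : p.Prime)
  have hp2 := hp.two_le
  set K := Subgroup.closure {y : X | ∃ h ∈ H, y = h ^ p} with hK
  have hKH : K ≤ H := (Subgroup.closure_le _).2 (by rintro _ ⟨h, hh, rfl⟩; exact H.pow_mem hh p)
  have hmul : Nat.card K * K.relIndex H = Nat.card H := by
    rw [← Subgroup.relIndex_bot_left, ← Subgroup.relIndex_bot_left]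
    exact Subgroup.relIndex_mul_relIndex _ _ _ bot_le hKH
  suffices hb : Nat.card H ≤ Nat.card K * p ^ p from
    Nat.le_of_mul_le_mul_left (hmul.trans_le hb) Nat.card_pos
  have hH : Nat.card H ≤ p ^ n := hX ▸ Subgroup.card_le_card_group H
  rcases Nat.lt_or_ge p n with hpn | hpn
  swap
  · exact hH.trans ((Nat.pow_le_pow_right hp.pos hpn).trans (Nat.le_mul_of_pos_left _ Nat.card_pos))
  have hpg : IsPGroup p X := IsPGroup.of_card hX
  rcases Nat.lt_or_ge n 4 with h4 | h4
  · -- `p = 2`, `n = 3`
    obtain rfl : p = 2 := by omega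
    obtain rfl : n = 3 := by omega
    by_cases hK1 : K = ⊥
    · by_cases hHt : H = ⊤
      · exfalso
        haveI := hpg.isNilpotent
        have hsq : ∀ x : X, x ^ 2 = 1 := fun x => Subgroup.mem_bot.1 (hK1 ▸ Subgroup.subset_closure
          ⟨x, hHt ▸ Subgroup.mem_top x, rfl⟩)
        have hcomm : ∀ a b : X, a * b = b * a := fun a b => by
          have ha := hsq a; have hb := hsq b; have hab := hsq (a * b)
          rw [sq, mul_eq_one_iff_eq_inv] at ha hb hab
          rw [hab, mul_inv_rev, ← ha, ← hb]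
        have hbot : (⊤ : Subgroup X).lowerCentralSeries 1 = ⊥ := by
          rw [Subgroup.lowerCentralSeries_succ, Subgroup.lowerCentralSeries_zero, Subgroup.commutator_eq_bot_iff_le_centralizer]
          exact fun x _ => Subgroup.mem_centralizer_iff.2 fun y _ => hcomm y x
        have := (Subgroup.lowerCentralSeries_eq_bot_iff_nilpotencyClass_le (G := X)).1 hbot
        omega
      · have := Cfsg.Agent.S4143.card_mul_le_of_lt hpg le_top hHt
        rw [Subgroup.card_top, hX] at this
        exact (by omega : Nat.card H ≤ 2 ^ 2).trans (Nat.le_mul_of_pos_left _ Nat.card_pos)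
    · have h2 := Cfsg.Agent.S4143.card_mul_le_of_lt hpg (bot_le : ⊥ ≤ K) fun e => hK1 e.symm
      rw [Subgroup.card_bot, one_mul] at h2
      exact hH.trans ((Nat.mul_le_mul_right (2 ^ 2) h2).trans' (by norm_num))
  obtain ⟨T, c, hlcs⟩ := exists_chain hX hmax h4
  have hcard : ∀ j, j + 1 ≤ n → ¬ T j ≤ T (j + 1) := fun j hj h => by
    have := Subgroup.card_le_of_le h
    rw [c.card j (by omega), c.card (j + 1) hj, Nat.pow_le_pow_iff_right hp.one_lt] at this
    omega
  have hmoves : Moves n T := by
    intro j hj1 hj2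
    by_contra hcon
    push Not at hcon
    haveI := c.normal (j + 2)
    rcases Nat.lt_or_ge j 2 with h | h
    · obtain rfl : j = 1 := by omega
      refine hcard 2 (by omega) ?_
      rw [hlcs 2 le_rfl, Subgroup.lowerCentralSeries_succ, Subgroup.lowerCentralSeries_zero, Subgroup.commutator_le]
      obtain ⟨s, hs, hs'⟩ := c.exists_level (j := 0) (by omega)
      intro a _ b _
      obtain ⟨i, -, v, hv, rfl⟩ := c.gen (show 0 < n by omega) hs hs' (c.zero ▸ Subgroup.mem_top a)
      obtain ⟨k, -, w, hw, rfl⟩ := c.gen (show 0 < n by omega) hs hs' (c.zero ▸ Subgroup.mem_top b)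
      have hc : ∀ g, ∀ u ∈ T 1, Commute (QuotientGroup.mk' (T 3) g) (QuotientGroup.mk' (T 3) u) :=
        fun g u hu => commute_mk.2 (hcon g u hu)
      rw [← commute_mk, map_mul _ (s ^ i), map_mul _ (s ^ k)]
      refine Commute.mul_left (Commute.mul_right ?_ (hc _ w hw)) (((hc _ v hv).symm).mul_right (hc v w hw))
      rw [map_pow, map_pow]
      exact (Commute.refl _).pow_pow i k
    · refine hcard (j + 1) (by omega) ?_
      rw [hlcs (j + 1) (by omega), show j + 1 - 1 = j - 1 + 1 by omega, Subgroup.lowerCentralSeries_succ,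
        Subgroup.commutator_le]
      intro u hu g _
      rw [← hlcs j h] at hu
      exact comm_mem_symm.1 (hcon g u hu)
  obtain ⟨s, d⟩ := exists_seed (p := p) n c hmoves
  have hpow : ∀ h ∈ H, h ^ p ∈ K := fun h hh => Subgroup.subset_closure ⟨h, hh, rfl⟩
  rcases Nat.lt_or_ge n (p + 2) with hn2 | hn2
  swap
  · exact card_le_powers c d hn2 H K hpow
  by_cases hK1 : K = ⊥
  · by_cases hHt : H = ⊤
    · exact (not_exponent c d (by omega) fun x => Subgroup.mem_bot.1 (hK1 ▸ hpow x (hHt ▸ Subgroup.mem_top x))).elim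
    · have := Cfsg.Agent.S4143.card_mul_le_of_lt hpg le_top hHt
      rw [Subgroup.card_top, hX, show n = p + 1 by omega, pow_succ] at this
      exact (Nat.le_of_mul_le_mul_right this hp.pos).trans (Nat.le_mul_of_pos_left _ Nat.card_pos)
  · have h2 := Cfsg.Agent.S4143.card_mul_le_of_lt hpg (bot_le : ⊥ ≤ K) fun e => hK1 e.symm
    rw [Subgroup.card_bot, one_mul] at h2
    refine hH.trans ?_
    rw [show n = 1 + p by omega, pow_add, pow_one]
    exact Nat.mul_le_mul_right _ h2

end Cfsg.Agent.S4144
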