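import Cfsg.Statements.S4150
import Mathlib
import Cfsg.Agent.AltTwoPrimes.Main

set_option autoImplicit false
open Cfsg

namespace Cfsg.Agent.S4150

/-- Let m ≥ 5. Then there are primes p < q with m/2 ≤ p and q ≤ m such that any two elements x, y of the alternating group of degree m with x of order p and y of order q generate a subgroup isomorphic to an alternating group of some degree d ≥ 5. -/
theorem result (m : ℕ) (hm : 5 ≤ m) :
    ∃ p q : ℕ, p.Prime ∧ q.Prime ∧ m ≤ 2 * p ∧ p < q ∧ q ≤ m ∧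
      ∀ x y : alternatingGroup (Fin m), orderOf x = p → orderOf y = q →
        ∃ d : ℕ, 5 ≤ d ∧ Nonempty (Subgroup.closure ({x, y} : Set (alternatingGroup (Fin m))) ≃* alternatingGroup (Fin d)) := by
  obtain ⟨p, q, hp, hq, hpq, hqm, hm2, h1, h2⟩ := CfsgLib.AltTwoPrimes.exists_primes hm
  refine ⟨p, q, hp, hq, hm2, hpq, hqm, fun x y hx hy => ?_⟩
  obtain ⟨d, hd, ⟨e⟩⟩ := CfsgLib.AltTwoPrimes.closure_iso (α := Fin m) p q hp hq hpq (Fintype.card_fin m) hm2 h1 h2
    (g := (x : Equiv.Perm (Fin m))) (h := (y : Equiv.Perm (Fin m))) (by rw [Subgroup.orderOf_coe, hx])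
    (by rw [Subgroup.orderOf_coe, hy]) x.2 y.2
  refine ⟨d, hd, ⟨?_⟩⟩
  have he : (Subgroup.closure ({x, y} : Set (alternatingGroup (Fin m)))).map (alternatingGroup (Fin m)).subtype =
      Subgroup.closure ({(x : Equiv.Perm (Fin m)), (y : Equiv.Perm (Fin m))} : Set (Equiv.Perm (Fin m))) := by
    rw [MonoidHom.map_closure, Set.image_pair]
    rfl
  exact ((Subgroup.equivMapOfInjective _ _ (alternatingGroup (Fin m)).subtype_injective).trans
    (MulEquiv.subgroupCongr he)).trans e

end Cfsg.Agent.S4150
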