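import Cfsg.Statements.S4151
import Cfsg.Agent.S4115
import Cfsg.Agent.S4117
import Cfsg.Agent.Frob.Structure

set_option autoImplicit false
open Cfsg
open scoped Pointwise

namespace Cfsg.Agent.S4151

open Subgroup in
/-- Frattini argument for a separable group with a TI Hall subgroup of its normalizer. -/
theorem exists_core {G : Type*} [Group G] [Finite G] (H : Subgroup G)
    (hTI : Cfsg.IsTISubset (H : Set G)) (hnn : ¬ H.Normal)
    (hHall : (Nat.card H).Coprime (H.subgroupOf (Subgroup.normalizer (H : Set G))).index)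
    (hsep : ∃ (n : ℕ) (M : Fin (n + 1) → Subgroup G), M 0 = ⊥ ∧ M (Fin.last n) = ⊤ ∧ Monotone M ∧ (∀ i, (M i).Normal) ∧
      ∀ i : Fin n, (∀ q : ℕ, q.Prime → q ∣ (M i.castSucc).relIndex (M i.succ) → q ∣ Nat.card H) ∨
        ((M i.castSucc).relIndex (M i.succ)).Coprime (Nat.card H)) :
    ∃ O : Subgroup G, O.Normal ∧ (Nat.card O).Coprime (Nat.card H) ∧
      O ⊔ Subgroup.normalizer (H : Set G) = ⊤ ∧ (O ⊔ H).Normal := by
  classical
  obtain ⟨O, ⟨hOn, hOc⟩, hOmax⟩ := Set.Finite.exists_maximal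
    (s := {K : Subgroup G | K.Normal ∧ (Nat.card K).Coprime (Nat.card H)}) (Set.toFinite _)
    ⟨⊥, inferInstance, by rw [Subgroup.card_bot]; exact Nat.coprime_one_left _⟩
  haveI := hOn
  have hco := CfsgLib.Frob.coprime_index_of_ti hTI hHall
  obtain ⟨n, M, h0, hn, -, hMn, hfac⟩ := hsep
  have hex : ∃ i : Fin n, M i.castSucc ≤ O ∧ ¬ M i.succ ≤ O := by
    by_contra hcon
    push Not at hcon
    have hall : ∀ i : Fin (n + 1), M i ≤ O := by
      intro i
      induction i using Fin.induction with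
      | zero => rw [h0]; exact bot_le
      | succ i ih => exact hcon i ih
    have htop : (⊤ : Subgroup G) ≤ O := hn ▸ hall _
    have h1 : Nat.card H ∣ Nat.card O := Subgroup.card_dvd_of_le (le_top.trans htop)
    have h2 : Nat.card H = 1 := Nat.eq_one_of_dvd_coprimes hOc h1 dvd_rfl
    exact hnn (Subgroup.card_eq_one.1 h2 ▸ inferInstance)
  obtain ⟨i, hi, hi'⟩ := hex
  haveI := hMn i.succ
  set R : Subgroup G := M i.succ ⊔ O with hR
  have hOR : O ≤ R := le_sup_right
  have hRn : R.Normal := Subgroup.sup_normal _ _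
  haveI := hRn
  have hlagr : Nat.card O * O.relIndex R = Nat.card R := by
    rw [← Nat.card_congr (Subgroup.subgroupOfEquivOfLe hOR).toEquiv]
    exact Subgroup.card_mul_index _
  have hdvd : O.relIndex R ∣ (M i.castSucc).relIndex (M i.succ) := by
    rw [hR, Subgroup.relIndex_sup_right, ← Subgroup.inf_relIndex_right O,
      ← Subgroup.inf_relIndex_right (M i.castSucc)]
    exact ⟨_, ((mul_comm _ _).trans (Subgroup.relIndex_mul_relIndex (M i.castSucc ⊓ M i.succ)
      (O ⊓ M i.succ) (M i.succ) (inf_le_inf_right _ hi) inf_le_right)).symm⟩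
  have hπ : ∀ q : ℕ, q.Prime → q ∣ O.relIndex R → q ∣ Nat.card H := by
    rcases hfac i with h | h
    · exact fun q hq hqd => h q hq (hqd.trans hdvd)
    · exfalso
      apply hi'
      refine le_sup_left.trans (hOmax ⟨hRn, ?_⟩ hOR)
      rw [← hlagr]
      exact Nat.Coprime.mul_left hOc (h.coprime_dvd_left hdvd)
  have hcopO : (Nat.card O).Coprime (O.relIndex R) := Nat.coprime_of_dvd fun q hq h1 h2 =>
    hq.ne_one (Nat.eq_one_of_dvd_coprimes hOc h1 (hπ q hq h2))
  obtain ⟨R₀, hR₀⟩ := Subgroup.exists_right_complement'_of_coprime (N := O.subgroupOf R)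
    (by rw [Nat.card_congr (Subgroup.subgroupOfEquivOfLe hOR).toEquiv]; exact hcopO)
  have hR₀c : Nat.card (R₀.map R.subtype) = O.relIndex R := by
    rw [Subgroup.card_map_of_injective R.subtype_injective, ← hR₀.symm.index_eq_card]; rfl
  obtain ⟨g, hg⟩ := Cfsg.Agent.S4116.result H hco hTI (R₀.map R.subtype)
    fun q hq hqd => hπ q hq (hR₀c ▸ hqd)
  have hT : O.relIndex R ∣ Nat.card ↥(R ⊓ H) := by
    rw [← hR₀c, ← Subgroup.card_map_of_injective (f := (MulAut.conj g⁻¹).toMonoidHom) (MulAut.conj g⁻¹).injective]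
    refine Subgroup.card_dvd_of_le ?_
    rintro _ ⟨y, hy, rfl⟩
    refine ⟨hRn.conj_mem y (Subgroup.map_subtype_le _ hy) g⁻¹, ?_⟩
    obtain ⟨z, hz, rfl⟩ := hg hy
    simpa [mul_assoc] using hz
  have hne : O.relIndex R ≠ 1 := fun h => hi' (le_sup_left.trans (Subgroup.relIndex_eq_one.1 h))
  obtain ⟨q, hq, hqd⟩ := Nat.exists_prime_and_dvd hne
  haveI := Fact.mk hq
  obtain ⟨S⟩ : Nonempty (Sylow q ↥(R ⊓ H)) := inferInstance
  -- `S` is a Sylow subgroup of `R`
  obtain ⟨T, hTS⟩ : ∃ T : Sylow q R, (T : Subgroup R).map R.subtype = (S : Subgroup ↥(R ⊓ H)).map (R ⊓ H).subtype := by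
    set S' : Subgroup G := (S : Subgroup ↥(R ⊓ H)).map (R ⊓ H).subtype with hS'
    have hSR : S' ≤ R := (Subgroup.map_subtype_le _).trans inf_le_left
    have hc : Nat.card (S'.subgroupOf R) = q ^ (Nat.card R).factorization q := by
      rw [Nat.card_congr (Subgroup.subgroupOfEquivOfLe hSR).toEquiv, hS',
        Subgroup.card_map_of_injective (R ⊓ H).subtype_injective, S.card_eq_multiplicity]
      congr 1
      refine le_antisymm ((Nat.factorization_le_iff_dvd Nat.card_pos.ne' Nat.card_pos.ne').2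
        (Subgroup.card_dvd_of_le inf_le_left) q) ?_
      rw [← hlagr, Nat.factorization_mul Nat.card_pos.ne' (by
        intro h; rw [h, mul_zero] at hlagr; exact Nat.card_pos.ne' hlagr.symm), Finsupp.add_apply,
        Nat.factorization_eq_zero_of_not_dvd (fun h => hq.ne_one (Nat.eq_one_of_dvd_coprimes hcopO h hqd)), zero_add]
      exact (Nat.factorization_le_iff_dvd (fun h => by rw [h, mul_zero] at hlagr; exact Nat.card_pos.ne' hlagr.symm)
        Nat.card_pos.ne').2 hT q
    exact ⟨Sylow.ofCard _ hc, Subgroup.map_subgroupOf_eq_of_le hSR⟩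
  have hsup := Sylow.normalizer_sup_eq_top T
  set T' : Subgroup G := (T : Subgroup R).map R.subtype with hT'
  have hT'H : T' ≤ H := hTS ▸ (Subgroup.map_subtype_le _).trans inf_le_right
  have hNT : Subgroup.normalizer (T' : Set G) ≤ Subgroup.normalizer (H : Set G) := by
    obtain ⟨z, hz, hz1⟩ : ∃ z ∈ T', z ≠ 1 := by
      refine T'.bot_or_exists_ne_one.resolve_left fun h => ?_
      have h1 := T.ne_bot_of_dvd_card (hqd.trans ⟨Nat.card O, by rw [← hlagr, mul_comm]⟩)
      exact h1 (Subgroup.map_injective R.subtype_injective (h.trans (Subgroup.map_bot _).symm))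
    intro x hx
    by_contra hxn
    exact hz1 (hTI x hxn z (hT'H hz) (hT'H ((Subgroup.mem_normalizer_iff.1 hx z).1 hz)))
  have hReq : R ≤ O ⊔ H := by
    have h1 : O ⊔ (R ⊓ H) = R := by
      refine Subgroup.eq_of_le_of_card_ge (sup_le hOR inf_le_left) ?_
      refine Nat.le_of_dvd Nat.card_pos ?_
      rw [← hlagr]
      exact Nat.Coprime.mul_dvd_of_dvd_of_dvd hcopO (Subgroup.card_dvd_of_le le_sup_left)
        (hT.trans (Subgroup.card_dvd_of_le le_sup_right))
    exact h1.ge.trans (sup_le_sup_left inf_le_right _)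
  have hON : O ⊔ Subgroup.normalizer (H : Set G) = ⊤ := by
    rw [eq_top_iff, ← hsup]
    exact sup_le (hNT.trans le_sup_right) (hReq.trans (sup_le_sup_left Subgroup.le_normalizer _))
  refine ⟨O, hOn, hOc, hON, ?_⟩
  rw [← Subgroup.normalizer_eq_top_iff, eq_top_iff, ← hON]
  refine sup_le (le_trans le_sup_left Subgroup.le_normalizer) ?_
  refine Subgroup.le_normalizer_iff.2 fun x hx y hy => ?_
  revert y
  show O ⊔ H ≤ (O ⊔ H).comap (MulAut.conj x).toMonoidHom
  exact sup_le (fun o ho => Subgroup.mem_sup_left (hOn.conj_mem o ho x))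
    (fun h hh => Subgroup.mem_sup_right ((Subgroup.mem_normalizer_iff.1 hx h).1 hh))

open Subgroup in
/-- The Hall subgroup is a Z-group when its Sylow 2-subgroups are abelian. -/
theorem isZGroup_of_abelian_two {G : Type*} [Group G] [Finite G] (H : Subgroup G)
    (hTI : Cfsg.IsTISubset (H : Set G)) (hnn : ¬ H.Normal)
    (hHall : (Nat.card H).Coprime (H.subgroupOf (Subgroup.normalizer (H : Set G))).index)
    (O : Subgroup G) [O.Normal] (hOc : (Nat.card O).Coprime (Nat.card H))
    (hON : O ⊔ Subgroup.normalizer (H : Set G) = ⊤)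
    (h2 : ∀ P : Sylow 2 H, IsMulCommutative (P : Subgroup H)) : IsZGroup H := by
  set G₁ : Subgroup G := O ⊔ H with hG1
  set H₁ : Subgroup G₁ := H.subgroupOf G₁ with hH1
  have hHG : H ≤ G₁ := le_sup_right
  have hnorm : ∀ x : G₁, x ∈ Subgroup.normalizer (H₁ : Set G₁) ↔ (x : G) ∈ Subgroup.normalizer (H : Set G) := by
    intro x
    rw [hH1, ← Subgroup.subgroupOf_normalizer_eq hHG, Subgroup.mem_subgroupOf]
  have hTI₁ : Cfsg.IsTISubset (H₁ : Set G₁) := fun g hg x hx hgx =>
    Subtype.ext (hTI g (fun h => hg ((hnorm g).2 h)) x hx hgx)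
  have hnn₁ : ¬ H₁.Normal := by
    intro h
    apply hnn
    rw [← Subgroup.normalizer_eq_top_iff, eq_top_iff, ← hON]
    refine sup_le (le_trans (le_sup_left : O ≤ G₁) ?_) le_rfl
    exact (Subgroup.normal_subgroupOf_iff_le_normalizer hHG).1 h
  have hcard₁ : Nat.card H₁ = Nat.card H := Nat.card_congr (Subgroup.subgroupOfEquivOfLe hHG).toEquiv
  have hHall₁ : (Nat.card H₁).Coprime (H₁.subgroupOf (Subgroup.normalizer (H₁ : Set G₁))).index := by
    rw [hcard₁]
    refine Nat.Coprime.coprime_dvd_right ?_ (CfsgLib.Frob.coprime_index_of_ti hTI hHall)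
    exact (Subgroup.relIndex_dvd_index_of_le Subgroup.le_normalizer).trans
      ((dvd_rfl : H₁.index ∣ H.relIndex G₁).trans
        (Subgroup.relIndex_dvd_index_of_le hHG))
  obtain ⟨F, _, _, C, hC, ⟨e⟩⟩ := (Cfsg.Agent.S4115.result H₁ hTI₁ hHall₁).2 hnn₁ (by
    refine ⟨(O.subgroupOf G₁).subgroupOf _, inferInstance, ?_⟩
    refine Subgroup.isComplement'_of_disjoint_and_mul_eq_univ ?_ ?_
    · rw [disjoint_iff, Subgroup.eq_bot_iff_forall]
      rintro x ⟨h1, h2⟩
      refine Subtype.ext (Subtype.ext (orderOf_eq_one_iff.1 ?_))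
      exact Nat.eq_one_of_dvd_coprimes hOc (Subgroup.orderOf_dvd_natCard O h1) (Subgroup.orderOf_dvd_natCard H h2)
    · rw [Set.eq_univ_iff_forall]
      intro x
      obtain ⟨o, ho, h, hh, hoh⟩ := (Subgroup.mem_sup_of_normal_left (s := O) (t := H)).1 x.1.2
      have hhN : (⟨h, hHG hh⟩ : G₁) ∈ Subgroup.normalizer (H₁ : Set G₁) := Subgroup.le_normalizer hh
      refine ⟨x * (⟨⟨h, hHG hh⟩, hhN⟩ : Subgroup.normalizer (H₁ : Set G₁))⁻¹, ?_, ⟨_, hhN⟩, hh, inv_mul_cancel_right _ _⟩
      show ((x : G₁) : G) * h⁻¹ ∈ O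
      rw [← hoh, mul_inv_cancel_right]; exact ho)
  refine ⟨fun p hp P => ?_⟩
  haveI := Fact.mk hp
  have hlat := (CfsgLib.Frob.latFpf_of_complement hC).comp
    ((Subgroup.subgroupOfEquivOfLe hHG).symm.trans e).toMonoidHom (MulEquiv.injective _)
  rcases hlat.sylow_cyclic_or_quaternion P.2 with h | ⟨rfl, k, hk, ⟨f⟩⟩
  · exact h
  · exfalso
    have hc := (h2 P).is_comm.comm (f.symm (QuaternionGroup.a 1)) (f.symm (QuaternionGroup.xa 0))
    rw [← map_mul, ← map_mul] at hc
    have h3 := f.symm.injective hc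
    rw [QuaternionGroup.a_mul_xa, QuaternionGroup.xa_mul_a, zero_sub, zero_add] at h3
    have h4 : ((2 : ℕ) : ZMod (2 * 2 ^ k)) = 0 := by
      have h5 := QuaternionGroup.xa.inj h3
      push_cast
      linear_combination -h5
    rw [ZMod.natCast_eq_zero_iff] at h4
    have h6 := Nat.le_of_dvd (by norm_num) h4
    have : 2 ≤ 2 ^ k := Nat.le_self_pow (by omega) 2
    omega

/-- Let G be a finite group and H a non-normal subgroup meeting each of its conjugates by elements outside N_G(H) trivially, with the order of H coprime to its index in N_G(H), such that G is π-separable for π the set of primes dividing the order of H (G has a chain of normal subgroups from 1 to G each of whose factors has order divisible only by primes dividing the order of H or coprime to it). Suppose a Sylow 2-subgroup of H is abelian and Q is a complement of H in N_G(H). Then C_H(Q), the subgroup of elements of H commuting with Q, has order coprime to its index in G and has a normal complement in G.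 -/
theorem result {G : Type*} [Group G] [Finite G] (H : Subgroup G)
    (hTI : Cfsg.IsTISubset (H : Set G)) (hnn : ¬ H.Normal)
    (hHall : (Nat.card H).Coprime (H.subgroupOf (Subgroup.normalizer (H : Set G))).index)
    (hsep : ∃ (n : ℕ) (M : Fin (n + 1) → Subgroup G), M 0 = ⊥ ∧ M (Fin.last n) = ⊤ ∧ Monotone M ∧ (∀ i, (M i).Normal) ∧
      ∀ i : Fin n, (∀ q : ℕ, q.Prime → q ∣ (M i.castSucc).relIndex (M i.succ) → q ∣ Nat.card H) ∨
        ((M i.castSucc).relIndex (M i.succ)).Coprime (Nat.card H))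
    (h2 : ∀ P : Sylow 2 H, IsMulCommutative (P : Subgroup H))
    (Q : Subgroup G) (hQ : Q ≤ Subgroup.normalizer (H : Set G)) (hQH : Q ⊓ H = ⊥) (hQH' : Q ⊔ H = Subgroup.normalizer (H : Set G)) :
    (Nat.card ↥(H ⊓ Subgroup.centralizer (Q : Set G))).Coprime (H ⊓ Subgroup.centralizer (Q : Set G)).index ∧
    ∃ N : Subgroup G, N.Normal ∧ N.IsComplement' (H ⊓ Subgroup.centralizer (Q : Set G)) := by
  classical
  obtain ⟨O, hOn, hOc, hON, -⟩ := exists_core H hTI hnn hHall hsep
  haveI := hOn
  haveI hZ := isZGroup_of_abelian_two H hTI hnn hHall O hOc hON h2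
  have hco := CfsgLib.Frob.coprime_index_of_ti hTI hHall
  letI : MulDistribMulAction Q H :=
    MulDistribMulAction.compHom H (H.normalizerMonoidHom.comp (Subgroup.inclusion hQ))
  have hsmul : ∀ (a : Q) (h : H), ((a • h : H) : G) = a * h * (a : G)⁻¹ := fun a h => rfl
  have hQc : (Nat.card Q).Coprime (Nat.card H) := by
    have hdvd : Nat.card Q ∣ (H.subgroupOf (Subgroup.normalizer (H : Set G))).index := by
      haveI : (H.subgroupOf (Subgroup.normalizer (H : Set G))).Normal := Subgroup.normal_in_normalizer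
      refine (Subgroup.card_dvd_of_injective
        ((QuotientGroup.mk' (H.subgroupOf (Subgroup.normalizer (H : Set G)))).comp (Subgroup.inclusion hQ))
        ?_).trans (dvd_of_eq (Subgroup.index_eq_card _).symm)
      rw [injective_iff_map_eq_one]
      intro a ha
      have h1 : Subgroup.inclusion hQ a ∈ H.subgroupOf (Subgroup.normalizer (H : Set G)) :=
        (QuotientGroup.eq_one_iff _).1 ha
      exact Subtype.ext (Subgroup.mem_bot.1 (hQH ▸ (⟨a.2, h1⟩ : (a : G) ∈ Q ⊓ H)))
    exact hHall.symm.coprime_dvd_left hdvd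
  set W₀ : Subgroup H := Subgroup.closure {y : H | ∃ (a : Q) (g : H), y = g⁻¹ * a • g} with hW₀
  obtain ⟨-, hW₀n, hint, hdec⟩ := Cfsg.Agent.S4117.key hQc W₀ hW₀
  have hCHall := (Cfsg.Agent.S4117.result (G := H) (A := Q) hQc (fun p _ P => inferInstance)).1
  set W : Subgroup G := W₀.map H.subtype with hW
  set C : Subgroup G := H ⊓ Subgroup.centralizer (Q : Set G) with hC
  have hfix : ∀ h : H, (∀ a : Q, a • h = h) ↔ (h : G) ∈ C := by
    intro h
    constructor
    · intro hh
      refine ⟨h.2, Subgroup.mem_centralizer_iff.2 fun a ha => ?_⟩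
      have := congrArg Subtype.val (hh ⟨a, ha⟩)
      rw [hsmul] at this
      exact mul_inv_eq_iff_eq_mul.1 this
    · intro hh a
      refine Subtype.ext ?_
      rw [hsmul, mul_inv_eq_iff_eq_mul]
      exact Subgroup.mem_centralizer_iff.1 hh.2 a a.2
  have hCcard : Nat.card C = Nat.card (MulAction.fixedPoints Q H : Set H) :=
    Nat.card_congr
      { toFun := fun c => ⟨⟨c, c.2.1⟩, (hfix ⟨c, c.2.1⟩).2 c.2⟩
        invFun := fun h => ⟨h.1, (hfix h.1).1 h.2⟩
        left_inv := fun c => rfl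
        right_inv := fun h => rfl }
  have hCle : C ≤ H := inf_le_left
  have hCG : (Nat.card C).Coprime C.index := by
    rw [← Subgroup.relIndex_mul_index hCle]
    refine Nat.Coprime.mul_right ?_ (hco.coprime_dvd_left (Subgroup.card_dvd_of_le hCle))
    rw [← hCcard] at hCHall
    convert hCHall using 1
    have h1 := Subgroup.card_mul_index (C.subgroupOf H)
    rw [Nat.card_congr (Subgroup.subgroupOfEquivOfLe hCle).toEquiv] at h1
    rw [← h1, Nat.mul_div_cancel_left _ Nat.card_pos]
    rfl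
  refine ⟨hCG, ?_⟩
  -- conjugation rules
  have hWH : W ≤ H := Subgroup.map_subtype_le _
  have hHW : H ≤ Subgroup.normalizer (W : Set G) := by
    rw [← Subgroup.normal_subgroupOf_iff_le_normalizer hWH, hW, Subgroup.subgroupOf,
      Subgroup.comap_map_eq_self_of_injective H.subtype_injective]
    exact hW₀n
  have hQW : Q ≤ Subgroup.normalizer (W : Set G) := by
    refine Subgroup.le_normalizer_iff.2 fun a ha w hw => ?_
    obtain ⟨w₀, hw₀, rfl⟩ := hw
    refine ⟨(⟨a, ha⟩ : Q) • w₀, ?_, hsmul _ _⟩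
    have := W₀.mul_mem hw₀ (hW₀ ▸ Subgroup.subset_closure (show w₀⁻¹ * (⟨a, ha⟩ : Q) • w₀ ∈
      {y : H | ∃ (b : Q) (g : H), y = g⁻¹ * b • g} from ⟨_, _, rfl⟩))
    rwa [mul_inv_cancel_left] at this
  set B : Subgroup G := W ⊔ Q with hB
  have hCW : H ≤ W ⊔ C := by
    intro h hh
    obtain ⟨m, hm, c, hc, hmc⟩ := hdec ⟨h, hh⟩
    rw [show h = (m : G) * c from congrArg Subtype.val hmc]
    exact Subgroup.mul_mem_sup ⟨m, hm, rfl⟩ ((hfix c).1 hc)
  have hNB : Subgroup.normalizer (H : Set G) ≤ Subgroup.normalizer (B : Set G) := by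
    rw [← hQH']
    refine sup_le (le_sup_right.trans Subgroup.le_normalizer) (hCW.trans (sup_le (le_sup_left.trans Subgroup.le_normalizer) ?_))
    refine Subgroup.le_normalizer_iff.2 fun c hc y hy => ?_
    revert y
    show B ≤ B.comap (MulAut.conj c).toMonoidHom
    refine sup_le (fun w hw => Subgroup.mem_sup_left ((Subgroup.mem_normalizer_iff.1 (hHW hc.1) w).1 hw)) ?_
    intro a ha
    refine Subgroup.mem_sup_right ?_
    show c * a * c⁻¹ ∈ Q
    rw [← Subgroup.mem_centralizer_iff.1 hc.2 a ha, mul_inv_cancel_right]; exact ha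
  have hBN : B ≤ Subgroup.normalizer (H : Set G) := sup_le (hWH.trans Subgroup.le_normalizer) hQ
  have hNeq : Subgroup.normalizer (H : Set G) ≤ B ⊔ C := by
    rw [← hQH']
    exact sup_le (le_sup_right.trans le_sup_left) (hCW.trans (sup_le (le_sup_left.trans le_sup_left) le_sup_right))
  have hOB : O ⊓ Subgroup.normalizer (H : Set G) ≤ B := by
    intro x hx
    haveI : (B.subgroupOf (Subgroup.normalizer (H : Set G))).Normal :=
      (Subgroup.normal_subgroupOf_iff_le_normalizer hBN).2 hNB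
    have hidx : (B.subgroupOf (Subgroup.normalizer (H : Set G))).index ∣ Nat.card C := by
      show B.relIndex _ ∣ _
      have h2 := Subgroup.relIndex_sup_right
        (H := (C.subgroupOf (Subgroup.normalizer (H : Set G))))
        (K := B.subgroupOf (Subgroup.normalizer (H : Set G)))
      have hCN : C ≤ Subgroup.normalizer (H : Set G) := hCle.trans Subgroup.le_normalizer
      have htop : C.subgroupOf (Subgroup.normalizer (H : Set G)) ⊔ B.subgroupOf (Subgroup.normalizer (H : Set G)) = ⊤ := by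
        rw [← Subgroup.subgroupOf_sup hCN hBN, Subgroup.subgroupOf_eq_top, sup_comm]
        exact hNeq
      rw [htop, Subgroup.relIndex_top_right, Subgroup.relIndex_subgroupOf hCN] at h2
      rw [Subgroup.relIndex, h2]
      exact Subgroup.relIndex_dvd_card B C
    have h1 : QuotientGroup.mk' (B.subgroupOf (Subgroup.normalizer (H : Set G))) ⟨x, hx.2⟩ = 1 := by
      apply orderOf_eq_one_iff.1
      refine Nat.eq_one_of_dvd_coprimes hOc ?_ (((orderOf_dvd_natCard _).trans
        (by rw [← Subgroup.index_eq_card]; exact hidx)).trans (Subgroup.card_dvd_of_le hCle))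
      refine (orderOf_map_dvd (QuotientGroup.mk' _) _).trans ?_
      rw [Subgroup.orderOf_mk]
      exact Subgroup.orderOf_dvd_natCard O hx.1
    exact (QuotientGroup.eq_one_iff (N := B.subgroupOf (Subgroup.normalizer (H : Set G))) ⟨x, hx.2⟩).1 h1
  haveI hMn : (O ⊔ B).Normal := by
    rw [← Subgroup.normalizer_eq_top_iff, eq_top_iff, ← hON]
    refine sup_le (le_sup_left.trans Subgroup.le_normalizer) ?_
    refine Subgroup.le_normalizer_iff.2 fun x hx y hy => ?_
    revert y
    show O ⊔ B ≤ (O ⊔ B).comap (MulAut.conj x).toMonoidHom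
    exact sup_le (fun o ho => Subgroup.mem_sup_left (hOn.conj_mem o ho x))
      (fun b hb => Subgroup.mem_sup_right ((Subgroup.mem_normalizer_iff.1 (hNB hx) b).1 hb))
  refine ⟨O ⊔ B, hMn, Subgroup.isComplement'_of_disjoint_and_mul_eq_univ ?_ ?_⟩
  · rw [disjoint_iff, Subgroup.eq_bot_iff_forall]
    rintro x ⟨hx, hxC⟩
    obtain ⟨o, ho, b, hb, hob⟩ := (Subgroup.mem_sup_of_normal_left (s := O)).1 hx
    have ho' : o ∈ B := hOB ⟨ho, by
      rw [show o = x * b⁻¹ by rw [← hob, mul_inv_cancel_right]]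
      exact (Subgroup.normalizer (H : Set G)).mul_mem (Subgroup.le_normalizer hxC.1) (Subgroup.inv_mem _ (hBN hb))⟩
    have hxB : x ∈ B := hob ▸ B.mul_mem ho' hb
    obtain ⟨w, hw, a, ha, hwa⟩ : ∃ w ∈ W, ∃ a ∈ Q, w * a = x := by
      have h : x ∈ ((W : Set G) * (Q : Set G)) := by
        rw [← Subgroup.coe_mul_of_right_le_normalizer_left W Q hQW]; exact hxB
      exact h
    have ha1 : a = 1 := Subgroup.mem_bot.1 (hQH ▸ (⟨ha, by
      rw [show a = w⁻¹ * x by rw [← hwa, inv_mul_cancel_left]]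
      exact H.mul_mem (H.inv_mem (hWH hw)) hxC.1⟩ : a ∈ Q ⊓ H))
    rw [ha1, mul_one] at hwa
    subst hwa
    obtain ⟨w₀, hw₀, hw0⟩ := hw
    rw [← hw0, hint w₀ hw₀ ((hfix w₀).2 (by rw [← Subgroup.coe_subtype, hw0]; exact hxC)), map_one]
  · rw [← Subgroup.normal_mul]
    rw [show O ⊔ B ⊔ C = ⊤ from ?_]; · rfl
    rw [eq_top_iff, ← hON, sup_assoc]
    exact sup_le_sup_left hNeq _

end Cfsg.Agent.S4151
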