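import Cfsg.Statements.S4153
import Cfsg.Agent.Transfer.Frobenius

set_option autoImplicit false
open Cfsg

namespace Cfsg.Agent.S4153

/-- Let G be a finite group, p a prime, N a normal subgroup, P a Sylow p-subgroup of G and P̄ a Sylow p-subgroup of G/N. Count the elements of p-power order, the identity included. Then (number of such elements of G/N)/#P̄ ≤ (number of such elements of G)/#P, stated as a cross-multiplied inequality, with equality when N is central. -/
theorem result {G : Type*} [Group G] [Finite G] (p : ℕ) [Fact p.Prime] (N : Subgroup G) [N.Normal]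
    (P : Sylow p G) (Pbar : Sylow p (G ⧸ N)) :
    Nat.card {g : (G ⧸ N) // ∃ k : ℕ, orderOf g = p ^ k} * Nat.card (P : Subgroup G) ≤ Nat.card {g : G // ∃ k : ℕ, orderOf g = p ^ k} * Nat.card (Pbar : Subgroup (G ⧸ N)) ∧
    (N ≤ Subgroup.center G → Nat.card {g : (G ⧸ N) // ∃ k : ℕ, orderOf g = p ^ k} * Nat.card (P : Subgroup G) = Nat.card {g : G // ∃ k : ℕ, orderOf g = p ^ k} * Nat.card (Pbar : Subgroup (G ⧸ N))) := by
  classical
  set π := QuotientGroup.mk' N with hπdef
  have hπ : Function.Surjective π := QuotientGroup.mk'_surjective N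
  set A := {g : (G ⧸ N) // ∃ k : ℕ, orderOf g = p ^ k}
  set B := {g : G // ∃ k : ℕ, orderOf g = p ^ k}
  have hBmem : ∀ {T : Sylow p G} {x : G}, x ∈ T → ∃ k, orderOf x = p ^ k := by
    intro T x hx
    obtain ⟨k, hk⟩ := IsPGroup.iff_orderOf.1 T.isPGroup' ⟨x, hx⟩
    exact ⟨k, by rwa [Subgroup.orderOf_mk] at hk⟩
  have hm : ∀ T : Sylow p G, Nat.card ↥((T : Subgroup G) ⊓ N) = Nat.card ↥((P : Subgroup G) ⊓ N) := by
    intro T
    obtain ⟨T1, h1⟩ := CfsgLib.Transfer.exists_sylow_map_eq_inf T N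
    obtain ⟨T2, h2⟩ := CfsgLib.Transfer.exists_sylow_map_eq_inf P N
    rw [← h1, ← h2, Subgroup.card_map_of_injective N.subtype_injective,
      Subgroup.card_map_of_injective N.subtype_injective, T1.card_eq_multiplicity, T2.card_eq_multiplicity]
  have hPcard : Nat.card (P : Subgroup G) = Nat.card (Pbar : Subgroup (G ⧸ N)) * Nat.card ↥((P : Subgroup G) ⊓ N) := by
    have h1 : Nat.card (Pbar : Subgroup (G ⧸ N)) = Nat.card ((P : Subgroup G).map π) := by
      rw [Pbar.card_eq_multiplicity, ← Sylow.coe_mapSurjective hπ P, Sylow.card_eq_multiplicity]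
    have h3 : Nat.card (π.comp (P : Subgroup G).subtype).range * Nat.card (π.comp (P : Subgroup G).subtype).ker =
        Nat.card (P : Subgroup G) := by
      rw [← Nat.card_congr (QuotientGroup.quotientKerEquivRange (π.comp (P : Subgroup G).subtype)).toEquiv]
      exact (Subgroup.card_eq_card_quotient_mul_card_subgroup _).symm
    have h4 : (π.comp (P : Subgroup G).subtype).ker = N.subgroupOf (P : Subgroup G) := by
      rw [← MonoidHom.comap_ker, QuotientGroup.ker_mk']; rfl
    have h5 : (π.comp (P : Subgroup G).subtype).range = (P : Subgroup G).map π := by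
      rw [MonoidHom.range_comp, Subgroup.range_subtype]
    rw [h4, h5, ← h1, ← Subgroup.inf_subgroupOf_right N (P : Subgroup G), inf_comm N,
      Nat.card_congr (Subgroup.subgroupOfEquivOfLe inf_le_left).toEquiv] at h3
    exact h3.symm
  have hlift : ∀ a : A, ∃ g : G, π g = a.1 ∧ ∃ T : Sylow p G, g ∈ T := by
    rintro ⟨a, k, hk⟩
    obtain ⟨g, rfl⟩ := hπ a
    obtain ⟨i, m, hm, ho⟩ := Nat.exists_eq_pow_mul_and_not_dvd (orderOf_pos g).ne' p (Fact.out : p.Prime).ne_one
    have hco : (p ^ k).Coprime m := ((Fact.out : p.Prime).coprime_iff_not_dvd.2 hm).pow_left k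
    obtain ⟨j, hj⟩ := exists_pow_eq_self_of_coprime (x := π g) (n := m) (by rw [hk]; exact hco.symm)
    refine ⟨(g ^ m) ^ j, by rw [map_pow, map_pow]; exact hj, ?_⟩
    have hp' : IsPGroup p (Subgroup.zpowers (g ^ m)) := IsPGroup.of_card (n := i) (by
      rw [Nat.card_zpowers, orderOf_pow_of_dvd (fun h0 => hm (by rw [h0]; exact dvd_zero p)) (ho ▸ dvd_mul_left m _), ho,
        Nat.mul_div_cancel _ (Nat.pos_of_ne_zero fun h0 => hm (by rw [h0]; exact dvd_zero p))])
    obtain ⟨T, hT⟩ := hp'.exists_le_sylow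
    exact ⟨T, pow_mem (hT (Subgroup.mem_zpowers _)) j⟩
  choose g hg T hgT using hlift
  let f : (Σ a : A, ↥((T a : Subgroup G) ⊓ N)) → B := fun u =>
    ⟨g u.1 * u.2.1, hBmem (T := T u.1) (mul_mem (hgT u.1) u.2.2.1)⟩
  have hf : Function.Injective f := by
    rintro ⟨a, u⟩ ⟨b, v⟩ h
    have h' : g a * (u : G) = g b * (v : G) := congrArg Subtype.val h
    have hab : a = b := by
      apply Subtype.ext
      have h2 := congrArg π h'
      rwa [map_mul, map_mul, hg, hg, show π (u : G) = 1 from (QuotientGroup.eq_one_iff _).2 u.2.2,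
        show π (v : G) = 1 from (QuotientGroup.eq_one_iff _).2 v.2.2, mul_one, mul_one] at h2
    subst hab
    rw [Subtype.ext (mul_left_cancel h' : (u : G) = v)]
  haveI : Fintype A := Fintype.ofFinite A
  have hsig : Nat.card (Σ a : A, ↥((T a : Subgroup G) ⊓ N)) = Nat.card A * Nat.card ↥((P : Subgroup G) ⊓ N) := by
    rw [Nat.card_sigma, Finset.sum_congr rfl (fun a _ => hm (T a)), Finset.sum_const, Finset.card_univ,
      ← Nat.card_eq_fintype_card, smul_eq_mul]
  have hle := Nat.card_le_card_of_injective f hf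
  rw [hsig] at hle
  rw [hPcard]
  refine ⟨?_, fun hNc => ?_⟩
  · calc Nat.card A * (Nat.card (Pbar : Subgroup (G ⧸ N)) * Nat.card ↥((P : Subgroup G) ⊓ N))
        = (Nat.card A * Nat.card ↥((P : Subgroup G) ⊓ N)) * Nat.card (Pbar : Subgroup (G ⧸ N)) := by ring
      _ ≤ _ := Nat.mul_le_mul_right _ hle
  have hsur : Function.Surjective f := by
    rintro ⟨x, hx⟩
    obtain ⟨k, hk⟩ := hx
    obtain ⟨i, -, hi⟩ := (Nat.dvd_prime_pow (Fact.out : p.Prime)).1 (hk ▸ orderOf_map_dvd π x)
    set a : A := ⟨π x, i, hi⟩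
    have hn : (g a)⁻¹ * x ∈ N := QuotientGroup.eq.1 (hg a)
    have hc : Commute (g a) ((g a)⁻¹ * x) := (Subgroup.mem_center_iff.1 (hNc hn) (g a))
    have hc' : Commute (g a) x := by
      have := (Commute.refl (g a)).mul_right hc
      rwa [mul_inv_cancel_left] at this
    obtain ⟨j, hj⟩ := hBmem (hgT a)
    have hpp : IsPGroup p (Subgroup.zpowers ((g a)⁻¹ * x)) := by
      have h1 : ((g a)⁻¹ * x) ^ p ^ (j + k) = 1 := by
        rw [hc'.inv_left.mul_pow, inv_pow, pow_add, pow_mul, ← hj, pow_orderOf_eq_one, one_pow, inv_one, one_mul,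
          mul_comm, pow_mul, ← hk, pow_orderOf_eq_one, one_pow]
      obtain ⟨l, -, hl⟩ := (Nat.dvd_prime_pow (Fact.out : p.Prime)).1 (orderOf_dvd_of_pow_eq_one h1)
      exact IsPGroup.of_card (n := l) (by rw [Nat.card_zpowers, hl])
    have hnorm : g a ∈ Subgroup.normalizer ((Subgroup.zpowers ((g a)⁻¹ * x) : Subgroup G) : Set G) := by
      refine Subgroup.centralizer_le_normalizer _ (Subgroup.mem_centralizer_iff.2 ?_)
      rintro _ ⟨m, rfl⟩
      exact (hc.symm.zpow_left m).eq
    have hnT : (g a)⁻¹ * x ∈ (T a : Subgroup G) := by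
      have hn2 : (g a)⁻¹ * x ∈ Subgroup.normalizer ((T a : Subgroup G) : Set G) :=
        Subgroup.centralizer_le_normalizer _ (Subgroup.mem_centralizer_iff.2 fun y _ =>
          Subgroup.mem_center_iff.1 (hNc hn) y)
      have h2 : (g a)⁻¹ * x ∈ Subgroup.zpowers ((g a)⁻¹ * x) ⊓ (T a : Subgroup G) := by
        rw [← hpp.inf_normalizer_sylow (T a)]
        exact ⟨Subgroup.mem_zpowers _, hn2⟩
      exact h2.2
    exact ⟨⟨a, ⟨_, hnT, hn⟩⟩, Subtype.ext (mul_inv_cancel_left _ _)⟩
  have heq := (Nat.card_congr (Equiv.ofBijective f ⟨hf, hsur⟩)).symm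
  rw [hsig] at heq
  rw [heq]
  ring


end Cfsg.Agent.S4153
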