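import Cfsg.Statements.S4154
import Mathlib

set_option autoImplicit false
open Cfsg

namespace Cfsg.Agent.S4154

/-- Let G be a finite group and α an automorphism of G such that every element of G is the product of an element fixed by α and an element of the form g⁻¹α(g). If N is a normal α-invariant subgroup, then the automorphism ᾱ induced on G/N has the same property, and every coset fixed by ᾱ contains an element fixed by α (so the fixed points of ᾱ are the images of the fixed points of α). -/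
theorem result {G : Type*} [Group G] [Finite G] (α : MulAut G)
    (hccp : ∀ x : G, ∃ c g : G, α c = c ∧ x = c * (g⁻¹ * α g))
    (N : Subgroup G) [N.Normal] (hN : ∀ n ∈ N, α n ∈ N) :
    (∀ x : G, ∃ c g : G, c⁻¹ * α c ∈ N ∧ x⁻¹ * (c * (g⁻¹ * α g)) ∈ N) ∧
    (∀ x : G, x⁻¹ * α x ∈ N → ∃ c : G, α c = c ∧ c⁻¹ * x ∈ N) := by
  classical
  refine ⟨fun x => ?_, ?_⟩
  · obtain ⟨c, g, hc, hx⟩ := hccp x
    exact ⟨c, g, by rw [hc, inv_mul_cancel]; exact one_mem N, by rw [← hx, inv_mul_cancel]; exact one_mem N⟩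
  let C : Subgroup G :=
    { carrier := {x | α x = x}
      one_mem' := map_one α
      mul_mem' := fun {a b} ha hb => show α (a * b) = a * b by rw [map_mul, show α a = a from ha, show α b = b from hb]
      inv_mem' := fun {a} ha => show α a⁻¹ = a⁻¹ by rw [map_inv, show α a = a from ha] }
  let D : Subgroup G :=
    { carrier := {x | x⁻¹ * α x ∈ N}
      one_mem' := by show (1 : G)⁻¹ * α 1 ∈ N; simp
      mul_mem' := fun {a b} ha hb => by
        show (a * b)⁻¹ * α (a * b) ∈ N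
        rw [show (a * b)⁻¹ * α (a * b) = b⁻¹ * (a⁻¹ * α a) * b * (b⁻¹ * α b) by rw [map_mul]; group]
        exact mul_mem (by simpa using (inferInstance : N.Normal).conj_mem _ ha b⁻¹) hb
      inv_mem' := fun {a} ha => by
        show a⁻¹⁻¹ * α a⁻¹ ∈ N
        rw [map_inv, show a⁻¹⁻¹ * (α a)⁻¹ = a * (a⁻¹ * α a)⁻¹ * a⁻¹ by group]
        exact (inferInstance : N.Normal).conj_mem _ (inv_mem ha) a }
  have hle : C ⊔ N ≤ D := sup_le (fun c hc => by show c⁻¹ * α c ∈ N; rw [show α c = c from hc, inv_mul_cancel]; exact one_mem N)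
    (fun n hn => show n⁻¹ * α n ∈ N from mul_mem (inv_mem hn) (hN n hn))
  let f : (↥(C ⊔ N)) × (G ⧸ D) → G := fun u => (u.1 : G) * (u.2.out * (α u.2.out)⁻¹)
  have hf : Function.Surjective f := by
    intro x
    obtain ⟨c, g, hc, hx⟩ := hccp x
    obtain ⟨d, hd⟩ := QuotientGroup.mk_out_eq_mul D g⁻¹
    set r := g⁻¹
    have hn : (r * (d : G) * (α (r * (d : G)))⁻¹) * (r * (α r)⁻¹)⁻¹ ∈ N := by
      rw [map_mul, show r * (d : G) * (α r * α (d : G))⁻¹ * (r * (α r)⁻¹)⁻¹ = r * ((d : G)⁻¹⁻¹ * (α (d : G))⁻¹) * r⁻¹ by group]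
      refine (inferInstance : N.Normal).conj_mem _ ?_ r
      have : (d : G)⁻¹ ∈ D := inv_mem d.2
      rw [← map_inv]; exact this
    set n := (r * (d : G) * (α (r * (d : G)))⁻¹) * (r * (α r)⁻¹)⁻¹ with hndef
    refine ⟨(⟨c * n⁻¹, mul_mem (Subgroup.mem_sup_left (show c ∈ C from hc)) (Subgroup.mem_sup_right (inv_mem hn))⟩,
      (r : G ⧸ D)), ?_⟩
    show c * n⁻¹ * ((r : G ⧸ D).out * (α (r : G ⧸ D).out)⁻¹) = x
    rw [hd, hx, hndef]
    have : α g = (α r)⁻¹ := by rw [← map_inv, inv_inv]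
    rw [this]
    group
  have hcard : Nat.card G ≤ Nat.card ↥(C ⊔ N) * D.index := by
    have := Nat.card_le_card_of_surjective f hf
    rwa [Nat.card_prod] at this
  rw [← D.card_mul_index] at hcard
  have hDeq : C ⊔ N = D :=
    Subgroup.eq_of_le_of_card_ge hle (Nat.le_of_mul_le_mul_right hcard (Nat.pos_of_ne_zero Subgroup.index_ne_zero_of_finite))
  intro x hx
  have hxD : x ∈ C ⊔ N := hDeq ▸ (show x ∈ D from hx)
  obtain ⟨c, hc, n, hn, rfl⟩ := Subgroup.mem_sup_of_normal_right.1 hxD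
  exact ⟨c, hc, by rwa [inv_mul_cancel_left]⟩


end Cfsg.Agent.S4154
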