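import Cfsg.Statements.S4156
import Mathlib

set_option autoImplicit false
open Cfsg

namespace Cfsg.Agent.S4156

/-- Let n ≥ 5 and F a finite field. Then the projective special linear group PSL_n(F) contains a subgroup isomorphic to the alternating group of degree n + 1. -/
theorem result (n : ℕ) (hn : 5 ≤ n) (F : Type*) [Field F] [Finite F] :
    ∃ f : alternatingGroup (Fin (n + 1)) →* Matrix.ProjectiveSpecialLinearGroup (Fin n) F, Function.Injective f := by
  classical
  let L : Fin (n + 1) := Fin.last n
  let δ : Fin (n + 1) → Fin (n + 1) → F := fun a b => if a = b then 1 else 0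
  let M : Equiv.Perm (Fin (n + 1)) → Matrix (Fin n) (Fin n) F := fun σ =>
    Matrix.of fun i j => δ (σ j.castSucc) i.castSucc - δ (σ L) i.castSucc
  have hmul : ∀ σ τ, M (σ * τ) = M σ * M τ := by
    intro σ τ
    ext i j
    have h : ∑ k : Fin (n + 1), (δ (σ k) i.castSucc - δ (σ L) i.castSucc) *
        (δ (τ j.castSucc) k - δ (τ L) k) =
        δ (σ (τ j.castSucc)) i.castSucc - δ (σ (τ L)) i.castSucc := by
      simp only [δ, mul_sub, mul_ite, mul_one, mul_zero, Finset.sum_sub_distrib, Finset.sum_ite_eq,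
        Finset.mem_univ, if_true]
      abel
    rw [Fin.sum_univ_castSucc] at h
    simp only [M, Matrix.mul_apply, Matrix.of_apply, Equiv.Perm.coe_mul, Function.comp_apply]
    rw [← h, sub_self, zero_mul, add_zero]
  have hone : M 1 = 1 := by
    ext i j
    simp [M, δ, L, Matrix.one_apply, eq_comm]
  let g : alternatingGroup (Fin (n + 1)) →* GL (Fin n) F :=
    ({ toFun := M, map_one' := hone, map_mul' := hmul } : Equiv.Perm (Fin (n + 1)) →* _).toHomUnits.comp
      (alternatingGroup (Fin (n + 1))).subtype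
  have hs : IsSimpleGroup (alternatingGroup (Fin (n + 1))) := alternatingGroup.isSimpleGroup (by simp; omega)
  set a : Fin (n + 1) := (⟨0, by omega⟩ : Fin n).castSucc with ha
  set b : Fin (n + 1) := (⟨1, by omega⟩ : Fin n).castSucc with hb
  set c : Fin (n + 1) := (⟨2, by omega⟩ : Fin n).castSucc with hc
  let s : alternatingGroup (Fin (n + 1)) := ⟨Equiv.swap a b * Equiv.swap b c, by
    rw [Equiv.Perm.mem_alternatingGroup, map_mul, Equiv.Perm.sign_swap (by simp [ha, hb]),
      Equiv.Perm.sign_swap (by simp [hb, hc])]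
    norm_num⟩
  have va : (a : ℕ) = 0 := rfl
  have vb : (b : ℕ) = 1 := rfl
  have vc : (c : ℕ) = 2 := rfl
  have vL : (L : ℕ) = n := rfl
  have ne : ∀ {x y : Fin (n + 1)}, (x : ℕ) ≠ y → x ≠ y := fun h e => h (congrArg Fin.val e)
  have hsa : M (Equiv.swap a b * Equiv.swap b c) ⟨1, by omega⟩ ⟨0, by omega⟩ = 1 := by
    have e1 : (Equiv.swap a b * Equiv.swap b c) a = b := by
      rw [Equiv.Perm.mul_apply, Equiv.swap_apply_of_ne_of_ne (a := b) (b := c) (x := a) (ne (by omega))
        (ne (by omega)), Equiv.swap_apply_left]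
    have e2 : (Equiv.swap a b * Equiv.swap b c) L = L := by
      rw [Equiv.Perm.mul_apply,
        Equiv.swap_apply_of_ne_of_ne (a := b) (b := c) (x := L) (ne (by omega)) (ne (by omega)),
        Equiv.swap_apply_of_ne_of_ne (a := a) (b := b) (x := L) (ne (by omega)) (ne (by omega))]
    simp only [M, Matrix.of_apply, δ, ← ha, ← hb, e1, e2, if_true]
    rw [if_neg (ne (by omega)), sub_zero]
  have hdet : ∀ x, (g x : Matrix (Fin n) (Fin n) F).det = 1 := by
    set d := (Matrix.GeneralLinearGroup.det (n := Fin n) (R := F)).comp g with hd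
    rcases d.normal_ker.eq_bot_or_eq_top with h | h
    · exfalso
      have hcomm : ∀ x y : alternatingGroup (Fin (n + 1)), x * y = y * x := fun x y =>
        (MonoidHom.ker_eq_bot_iff d).mp h (by rw [map_mul, map_mul, mul_comm])
      have : 4 ≤ n + 1 := by omega
      have hcen := alternatingGroup.center_eq_bot (α := Fin (n + 1)) (by simpa using this)
      have hmem : s ∈ Subgroup.center (alternatingGroup (Fin (n + 1))) := Subgroup.mem_center_iff.mpr fun y => hcomm y s
      rw [hcen, Subgroup.mem_bot] at hmem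
      have := congrArg Subtype.val hmem
      simp only [s, Subgroup.coe_one] at this
      rw [this, hone, Matrix.one_apply_ne (by simp)] at hsa
      exact one_ne_zero hsa.symm
    · intro x
      have hx : x ∈ d.ker := h ▸ Subgroup.mem_top x
      exact congrArg Units.val (MonoidHom.mem_ker.mp hx)
  let g' : alternatingGroup (Fin (n + 1)) →* Matrix.SpecialLinearGroup (Fin n) F :=
    MonoidHom.mk' (fun x => ⟨g x, hdet x⟩) fun x y => Subtype.ext (congrArg Units.val (map_mul g x y))
  let ψ : alternatingGroup (Fin (n + 1)) →* Matrix.ProjectiveSpecialLinearGroup (Fin n) F :=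
    (QuotientGroup.mk' (Subgroup.center (Matrix.SpecialLinearGroup (Fin n) F))).comp g'
  refine ⟨ψ, (MonoidHom.ker_eq_bot_iff ψ).mp ?_⟩
  rcases ψ.normal_ker.eq_bot_or_eq_top with h | h
  · exact h
  exfalso
  have hx : s ∈ ψ.ker := h ▸ Subgroup.mem_top s
  rw [MonoidHom.mem_ker, MonoidHom.comp_apply, QuotientGroup.mk'_apply, QuotientGroup.eq_one_iff,
    Matrix.SpecialLinearGroup.mem_center_iff] at hx
  obtain ⟨r, -, hr⟩ := hx
  have := congrFun (congrFun hr ⟨1, by omega⟩) ⟨0, by omega⟩
  change (Matrix.scalar (Fin n) r) _ _ = M (Equiv.swap a b * Equiv.swap b c) _ _ at this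
  rw [hsa] at this
  simp [Matrix.scalar_apply] at this

end Cfsg.Agent.S4156
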