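import Cfsg.Statements.S4157
import Cfsg.Agent.H29.KulakoffMain

set_option autoImplicit false
open Cfsg

namespace Cfsg.Agent.S4157

/-- Let G be a finite p-group of order p^m that is not cyclic and, when p = 2, not of maximal class (nilpotency class m − 1). Then for every 1 ≤ k < m the number of subgroups of G of order p^k is congruent to 1 + p modulo p². -/
theorem result {G : Type*} [Group G] [Finite G] {p : ℕ} [Fact p.Prime] (m : ℕ)
    (hG : Nat.card G = p ^ m) (hnc : ¬ IsCyclic G) (h2 : p = 2 → Group.nilpotencyClass G ≠ m - 1)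
    (k : ℕ) (hk1 : 1 ≤ k) (hk2 : k < m) :
    Nat.card {H : Subgroup G // Nat.card H = p ^ k} ≡ 1 + p [MOD p ^ 2] := by
  classical
  have hG' : Nat.card G = p ^ m := hG
  have hmc : ¬ H29.Kulakoff.IsMC G p m := by
    rintro ⟨hp2, hm3, hidx⟩
    subst hp2
    exact h2 rfl (CfsgLib.Hall.Taussky.maximal_class_props m hm3 hG' hidx).1
  have h := H29.Kulakoff.main m hG' hnc hmc k hk1 hk2
  rw [H29.Kulakoff.between_bot] at h
  refine Eq.trans ?_ h
  congr 1
  refine Nat.card_congr
    { toFun := fun S => ⟨S.1.subgroupOf ⊤,
        (Nat.card_congr (Subgroup.subgroupOfEquivOfLe le_top).toEquiv).trans S.2⟩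
      invFun := fun S => ⟨S.1.map (Subgroup.subtype _),
        (Subgroup.card_map_of_injective (Subgroup.subtype_injective _)).trans S.2⟩
      left_inv := fun S => Subtype.ext (Subgroup.map_subgroupOf_eq_of_le le_top)
      right_inv := fun S => Subtype.ext (Subgroup.comap_map_eq_self_of_injective
        (Subgroup.subtype_injective _) _) }

end Cfsg.Agent.S4157
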