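import Cfsg.Statements.S4160
import Cfsg.Agent.ClassGraph.Cover

set_option autoImplicit false
open Cfsg

namespace Cfsg.Agent.S4160

/-- Let G be a finite group and p ≠ q primes each dividing the size of some conjugacy class of G, such that no conjugacy class size is divisible by pq. Then G has a normal p-complement or a normal q-complement. -/
theorem result {G : Type*} [Group G] [Finite G] (p q : ℕ) (hp : p.Prime) (hq : q.Prime) (hpq : p ≠ q)
    (hp' : ∃ x : G, p ∣ (Subgroup.centralizer ({x} : Set G)).index) (hq' : ∃ x : G, q ∣ (Subgroup.centralizer ({x} : Set G)).index) (h : ∀ x : G, ¬ p * q ∣ (Subgroup.centralizer ({x} : Set G)).index) :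
    Cfsg.HasNormalPComplement p G ∨ Cfsg.HasNormalPComplement q G := by
  haveI := Fact.mk hp
  haveI := Fact.mk hq
  obtain ⟨P⟩ := (inferInstance : Nonempty (Sylow p G))
  obtain ⟨Q⟩ := (inferInstance : Nonempty (Sylow q G))
  rcases CfsgLib.ClassGraph.normalizer_le_centralizer_or hpq h P Q with h1 | h1
  · exact Or.inl ⟨P, (MonoidHom.transferSylow P h1).ker, inferInstance,
      MonoidHom.ker_transferSylow_isComplement' P h1⟩
  · exact Or.inr ⟨Q, (MonoidHom.transferSylow Q h1).ker, inferInstance,
      MonoidHom.ker_transferSylow_isComplement' Q h1⟩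

end Cfsg.Agent.S4160
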