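import Cfsg.Statements.S4163


set_option autoImplicit false
open Cfsg

namespace Cfsg.Agent.S4163

variable {G : Type*} [Group G] [Finite G]

theorem small_classes (A : Subgroup G) [A.Normal] (hA : IsMulCommutative A)
    (hCA : Subgroup.centralizer (A : Set G) = A) (m : ℕ)
    (hmin : ∀ x : G, 1 < (Subgroup.centralizer ({x} : Set G)).index →
      m ≤ (Subgroup.centralizer ({x} : Set G)).index) :
    (Subgroup.closure {x : G | (Subgroup.centralizer ({x} : Set G)).index = 1 ∨
      (Subgroup.centralizer ({x} : Set G)).index = m}).lowerCentralSeries 3 = ⊥ := by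
  classical
  have comm : ∀ a ∈ A, ∀ b ∈ A, a * b = b * a := fun a ha b hb =>
    congrArg Subtype.val (hA.is_comm.comm (⟨a, ha⟩ : A) ⟨b, hb⟩)
  set Z := Subgroup.center G with hZ
  have hcentral : ∀ x : G, (Subgroup.centralizer ({x} : Set G)).index = 1 → x ∈ Z := by
    intro x hx
    rw [Subgroup.index_eq_one] at hx
    rw [Subgroup.mem_center_iff]
    intro g
    exact Subgroup.mem_centralizer_singleton_iff.mp (hx ▸ Subgroup.mem_top g)
  have main : ∀ x : G, (Subgroup.centralizer ({x} : Set G)).index = m → ∀ a ∈ A,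
      a⁻¹ * (x⁻¹ * a * x) ∈ Z := by
    intro x hx a ha
    set d := a⁻¹ * (x⁻¹ * a * x) with hd
    have hxA : ∀ b ∈ A, x⁻¹ * b * x ∈ A := fun b hb => by
      simpa using (inferInstance : A.Normal).conj_mem b hb x⁻¹
    let φ : A →* G :=
      { toFun := fun b => (b : G)⁻¹ * (x⁻¹ * b * x)
        map_one' := by simp
        map_mul' := fun b c => by
          have e : (b : G)⁻¹ * (c : G)⁻¹ = (c : G)⁻¹ * (b : G)⁻¹ :=
            comm _ (A.inv_mem b.2) _ (A.inv_mem c.2)
          have e2 := comm _ (A.inv_mem c.2) _ (hxA b b.2)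
          push_cast
          calc ((b : G) * c)⁻¹ * (x⁻¹ * ((b : G) * c) * x)
              = ((c : G)⁻¹ * (b : G)⁻¹) * ((x⁻¹ * b * x) * (x⁻¹ * c * x)) := by group
            _ = ((b : G)⁻¹ * (c : G)⁻¹) * ((x⁻¹ * b * x) * (x⁻¹ * c * x)) := by rw [e]
            _ = (b : G)⁻¹ * ((c : G)⁻¹ * (x⁻¹ * b * x)) * (x⁻¹ * c * x) := by group
            _ = (b : G)⁻¹ * ((x⁻¹ * b * x) * (c : G)⁻¹) * (x⁻¹ * c * x) := by rw [e2]
            _ = _ := by group }
    set D := φ.range with hD
    have hdD : d ∈ D := ⟨⟨a, ha⟩, rfl⟩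
    have hdA : d ∈ A := A.mul_mem (A.inv_mem ha) (hxA a ha)
    by_contra hdZ
    have hd1 : d ≠ 1 := fun h => hdZ (h ▸ Z.one_mem)
    set Cx := Subgroup.centralizer ({x} : Set G) with hCx
    set Cd := Subgroup.centralizer ({d} : Set G) with hCd
    have hm : m ≤ Cd.index := by
      apply hmin
      rcases Nat.lt_or_ge 1 Cd.index with h | h
      · exact h
      · exfalso
        have h0 : Cd.index ≠ 0 := Subgroup.index_ne_zero_of_finite
        exact hdZ (hcentral d (show Cd.index = 1 by omega))
    have hAd : A ≤ Cd := fun b hb => Subgroup.mem_centralizer_singleton_iff.mpr (comm b hb d hdA)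
    set W := Cx ⊓ Cd with hW
    -- orbit bound
    have horb : W.relIndex Cx + 1 ≤ Nat.card D := by
      have hconj : ∀ c : Cx, (c : G) * d * (c : G)⁻¹ ∈ D := by
        rintro ⟨c, hc⟩
        have hcx := Subgroup.mem_centralizer_singleton_iff.mp hc
        refine ⟨⟨c * a * c⁻¹, (inferInstance : A.Normal).conj_mem a ha c⟩, ?_⟩
        show (c * a * c⁻¹)⁻¹ * (x⁻¹ * (c * a * c⁻¹) * x) = c * d * c⁻¹
        have e : x⁻¹ * c = c * x⁻¹ := by
          calc x⁻¹ * c = x⁻¹ * (c * x) * x⁻¹ := by group
            _ = x⁻¹ * (x * c) * x⁻¹ := by rw [hcx]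
            _ = c * x⁻¹ := by group
        have e2 : c⁻¹ * x = x * c⁻¹ := by
          calc c⁻¹ * x = c⁻¹ * (x * c) * c⁻¹ := by group
            _ = c⁻¹ * (c * x) * c⁻¹ := by rw [hcx]
            _ = x * c⁻¹ := by group
        calc (c * a * c⁻¹)⁻¹ * (x⁻¹ * (c * a * c⁻¹) * x)
            = c * a⁻¹ * c⁻¹ * ((x⁻¹ * c) * a * (c⁻¹ * x)) := by group
          _ = c * a⁻¹ * c⁻¹ * ((c * x⁻¹) * a * (x * c⁻¹)) := by rw [e, e2]
          _ = c * d * c⁻¹ := by rw [hd]; group
      let f : Cx ⧸ W.subgroupOf Cx → {z : D // z ≠ 1} :=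
        Quotient.lift (fun c : Cx => (⟨⟨(c : G) * d * (c : G)⁻¹, hconj c⟩, fun h => hd1 (by
            have := congrArg Subtype.val h
            simpa using this)⟩ : {z : D // z ≠ 1})) (fun c c' h => by
          replace h := QuotientGroup.leftRel_apply.mp h
          have hh := Subgroup.mem_centralizer_singleton_iff.mp
            (Subgroup.mem_subgroupOf.mp h).2
          push_cast at hh
          apply Subtype.ext; apply Subtype.ext
          show (c : G) * d * (c : G)⁻¹ = (c' : G) * d * (c' : G)⁻¹
          calc (c : G) * d * (c : G)⁻¹ = (c : G) * (d * ((c : G)⁻¹ * c')) * (c' : G)⁻¹ := by group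
            _ = (c : G) * (((c : G)⁻¹ * c') * d) * (c' : G)⁻¹ := by rw [hh]
            _ = (c' : G) * d * (c' : G)⁻¹ := by group)
      have hf : Function.Injective f := by
        intro u v
        induction u using QuotientGroup.induction_on with
        | H c =>
        induction v using QuotientGroup.induction_on with
        | H c' =>
          intro h
          have he : (c : G) * d * (c : G)⁻¹ = (c' : G) * d * (c' : G)⁻¹ :=
            congrArg (fun z : {z : D // z ≠ 1} => ((z : D) : G)) h
          rw [QuotientGroup.eq, Subgroup.mem_subgroupOf]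
          refine ⟨(c⁻¹ * c').2, Subgroup.mem_centralizer_singleton_iff.mpr ?_⟩
          push_cast
          calc (c : G)⁻¹ * c' * d = (c : G)⁻¹ * ((c' : G) * d * (c' : G)⁻¹) * c' := by group
            _ = (c : G)⁻¹ * ((c : G) * d * (c : G)⁻¹) * c' := by rw [he]
            _ = d * ((c : G)⁻¹ * c') := by group
      have h1 := Nat.card_le_card_of_injective f hf
      have h2 : Nat.card {z : D // z ≠ 1} + 1 = Nat.card D := by
        haveI := Fintype.ofFinite D
        rw [Nat.card_eq_fintype_card, Nat.card_eq_fintype_card, Fintype.card_subtype_compl]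
        simp
        have : 0 < Fintype.card D := Fintype.card_pos
        omega
      have : W.relIndex Cx = Nat.card (Cx ⧸ W.subgroupOf Cx) := rfl
      omega
    -- product bound
    have hprod : Nat.card D * Nat.card W ≤ Nat.card Cd := by
      haveI hN : (A.subgroupOf Cd).Normal := inferInstance
      have hker : φ.ker = Cx.subgroupOf A := by
        ext b
        rw [MonoidHom.mem_ker, Subgroup.mem_subgroupOf, Subgroup.mem_centralizer_singleton_iff]
        show (b : G)⁻¹ * (x⁻¹ * b * x) = 1 ↔ _
        rw [inv_mul_eq_one]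
        constructor
        · intro h
          calc (b : G) * x = x * (x⁻¹ * b * x) := by group
            _ = x * b := by rw [← h]
        · intro h
          rw [mul_assoc x⁻¹, h]; group
      have hDc : Nat.card D = Cx.relIndex A := by
        rw [Subgroup.relIndex, ← hker, Subgroup.index_ker]
      have hWA : W.relIndex A = Cx.relIndex A := by
        rw [← Subgroup.inf_relIndex_right W A, ← Subgroup.inf_relIndex_right Cx A]
        congr 1
        apply le_antisymm (inf_le_inf_right _ inf_le_left)
        exact fun b hb => ⟨⟨hb.1, hAd hb.2⟩, hb.2⟩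
      have hle : A ⊔ W ≤ Cd := sup_le hAd inf_le_right
      refine le_trans ?_ (Nat.le_of_dvd Nat.card_pos (Subgroup.card_dvd_of_le hle))
      have h3 : W.relIndex (A ⊔ W) ≥ Cx.relIndex A := by
        rw [← hWA]
        exact Subgroup.relIndex_le_of_le_right le_sup_left Subgroup.index_ne_zero_of_finite
      calc Nat.card D * Nat.card W ≤ W.relIndex (A ⊔ W) * Nat.card W :=
            Nat.mul_le_mul_right _ (hDc ▸ h3)
        _ = Nat.card (A ⊔ W : Subgroup G) := by
          rw [← Subgroup.relIndex_bot_left, ← Subgroup.relIndex_bot_left, mul_comm]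
          exact Subgroup.relIndex_mul_relIndex ⊥ W _ bot_le le_sup_right
    have hW2 : Nat.card W * W.relIndex Cx = Nat.card Cx := by
      rw [← Subgroup.relIndex_bot_left, ← Subgroup.relIndex_bot_left]
      exact Subgroup.relIndex_mul_relIndex ⊥ W Cx bot_le inf_le_left
    have hWpos : 0 < Nat.card W := Nat.card_pos
    have hlt : Nat.card Cx < Nat.card Cd := by
      calc Nat.card Cx = Nat.card W * W.relIndex Cx := hW2.symm
        _ < Nat.card W * Nat.card D := by apply Nat.mul_lt_mul_of_pos_left (by omega) hWpos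
        _ ≤ Nat.card Cd := by rw [mul_comm]; exact hprod
    have e1 := Cx.card_mul_index
    have e2 := Cd.card_mul_index
    have : Nat.card Cd * m ≤ Nat.card Cx * m := by
      calc Nat.card Cd * m ≤ Nat.card Cd * Cd.index := Nat.mul_le_mul_left _ hm
        _ = Nat.card Cx * Cx.index := by rw [e2, e1]
        _ = Nat.card Cx * m := by rw [← hx]
    have hmpos : 0 < m := by
      rw [← hx]
      exact Nat.pos_of_ne_zero Subgroup.index_ne_zero_of_finite
    exact absurd (Nat.le_of_mul_le_mul_right this hmpos) (by omega)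
  set M := Subgroup.closure {x : G | (Subgroup.centralizer ({x} : Set G)).index = 1 ∨
      (Subgroup.centralizer ({x} : Set G)).index = m} with hM
  set f := QuotientGroup.mk' Z
  have hMT : M ≤ (Subgroup.centralizer (A.map f : Set (G ⧸ Z))).comap f := by
    rw [hM, Subgroup.closure_le]
    rintro x (hx | hx) _ ⟨a, ha, rfl⟩
    · have : f x = 1 := (QuotientGroup.eq_one_iff x).mpr (hcentral x hx)
      rw [this]; simp
    · have h := (QuotientGroup.eq_one_iff (N := Z) _).mpr (main x hx a ha)
      change f (a⁻¹ * (x⁻¹ * a * x)) = 1 at h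
      simp only [map_mul, map_inv] at h
      rw [inv_mul_eq_one] at h
      calc f a * f x = f x * ((f x)⁻¹ * f a * f x) := by group
        _ = f x * f a := by rw [← h]
  have hMA : ⁅M, A⁆ ≤ Z := by
    rw [Subgroup.commutator_le]
    intro g hg a ha
    rw [← QuotientGroup.eq_one_iff (N := Z)]
    show f _ = 1
    rw [map_commutatorElement, commutatorElement_eq_one_iff_mul_comm]
    exact (hMT hg (f a) ⟨a, ha, rfl⟩).symm
  have hAM : ⁅A, M⁆ ≤ Z := Subgroup.commutator_comm A M ▸ hMA
  have hZbot : ∀ {X Y : Subgroup G}, X ≤ Z → ⁅X, Y⁆ = ⊥ := by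
    intro X Y hX
    rw [Subgroup.commutator_eq_bot_iff_le_centralizer]
    exact hX.trans (Subgroup.center_le_centralizer _)
  have h1 : ⁅⁅M, M⁆, A⁆ = ⊥ :=
    Subgroup.commutator_commutator_eq_bot_of_rotate (hZbot hMA) (hZbot hAM)
  have h2 : ⁅M, M⁆ ≤ A := by
    rw [← hCA]
    exact (Subgroup.commutator_eq_bot_iff_le_centralizer.mp h1)
  show ⁅⁅⁅M, M⁆, M⁆, M⁆ = ⊥
  exact hZbot ((Subgroup.commutator_mono h2 le_rfl).trans hAM)

/-- Let G be a finite group with a normal abelian subgroup A satisfying C_G(A) = A. Suppose some conjugacy class of G has size greater than 1, let m be the smallest such size, and let M be the subgroup generated by the elements whose class has size 1 or m. Then M is nilpotent of class at most 3. -/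
theorem result {G : Type*} [Group G] [Finite G]
    (A : Subgroup G) [A.Normal] (hA : IsMulCommutative A) (hCA : Subgroup.centralizer (A : Set G) = A)
    (m : ℕ) (hm1 : 1 < m) (hm : ∃ x : G, (Subgroup.centralizer ({x} : Set G)).index = m) (hmin : ∀ x : G, 1 < (Subgroup.centralizer ({x} : Set G)).index → m ≤ (Subgroup.centralizer ({x} : Set G)).index) :
    Subgroup.upperCentralSeries ↥(Subgroup.closure {x : G | (Subgroup.centralizer ({x} : Set G)).index = 1 ∨ (Subgroup.centralizer ({x} : Set G)).index = m}) 3 = ⊤ := by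
  rw [← Subgroup.lowerCentralSeries_eq_bot_iff_upperCentralSeries_eq_top,
    ← Subgroup.map_subtype_inj, Subgroup.map_bot, Subgroup.top_subtype_lowerCentralSeries]
  exact small_classes A hA hCA m hmin

end Cfsg.Agent.S4163
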