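import Cfsg.Statements.S4168
import Mathlib


set_option autoImplicit false
open Cfsg

namespace Cfsg.Agent.S4168

/-- Let L be a finite quasisimple group (perfect with L/Z(L) simple). Then every prime dividing the order of the centre Z(L) also divides the order of L/Z(L). -/
theorem result {L : Type*} [Group L] [Finite L] (hL : Cfsg.IsQuasisimple L)
    (p : ℕ) (hp : p.Prime) (hdiv : p ∣ Nat.card (Subgroup.center L)) : p ∣ (Subgroup.center L).index := by
  haveI := Fact.mk hp
  by_contra hnd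
  obtain ⟨hperf, hsimp⟩ := hL
  obtain ⟨P⟩ : Nonempty (Sylow p (Subgroup.center L)) := inferInstance
  let Q : Subgroup L := (P : Subgroup (Subgroup.center L)).map (Subgroup.center L).subtype
  have hQZ : Q ≤ Subgroup.center L := Subgroup.map_subtype_le _
  haveI : Q.Normal := ⟨fun q hq g => by rw [Subgroup.mem_center_iff.1 (hQZ hq) g, mul_inv_cancel_right]; exact hq⟩
  have hcardQ : Nat.card Q = p ^ (Nat.card (Subgroup.center L)).factorization p := by
    rw [Subgroup.card_map_of_injective (Subgroup.center L).subtype_injective, P.card_eq_multiplicity]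
  have hidx : Q.index = (P : Subgroup (Subgroup.center L)).index * (Subgroup.center L).index := by
    rw [Subgroup.index_map_subtype]
  have hcop : Nat.Coprime (Nat.card Q) Q.index := by
    rw [hcardQ, hidx]
    refine Nat.Coprime.pow_left _ ((Nat.Prime.coprime_iff_not_dvd hp).2 fun h => ?_)
    rcases hp.dvd_mul.1 h with h | h
    · exact P.not_dvd_index h
    · exact hnd h
  obtain ⟨K, hK⟩ := Subgroup.exists_right_complement'_of_coprime hcop
  have hKcomm : commutator L ≤ K := by
    rw [commutator_def, Subgroup.commutator_le]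
    intro x _ y _
    obtain ⟨⟨⟨a, ha⟩, ⟨k, hk⟩⟩, hx, -⟩ := hK.existsUnique x
    obtain ⟨⟨⟨b, hb⟩, ⟨l, hl⟩⟩, hy, -⟩ := hK.existsUnique y
    obtain rfl : a * k = x := hx
    obtain rfl : b * l = y := hy
    have ca : ∀ g : L, g * a = a * g := fun g => Subgroup.mem_center_iff.1 (hQZ ha) g
    have cb : ∀ g : L, g * b = b * g := fun g => Subgroup.mem_center_iff.1 (hQZ hb) g
    have e : a * k * (b * l) * (a * k)⁻¹ * (b * l)⁻¹ = k * l * k⁻¹ * l⁻¹ := by
      calc a * k * (b * l) * (a * k)⁻¹ * (b * l)⁻¹ = a * (k * b) * l * k⁻¹ * a⁻¹ * l⁻¹ * b⁻¹ := by group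
        _ = (a * b) * (k * l * k⁻¹) * a⁻¹ * l⁻¹ * b⁻¹ := by rw [cb k]; group
        _ = (a * b) * ((k * l * k⁻¹) * a⁻¹) * l⁻¹ * b⁻¹ := by group
        _ = (a * b) * (a⁻¹ * (k * l * k⁻¹)) * l⁻¹ * b⁻¹ := by
          rw [Subgroup.mem_center_iff.1 ((Subgroup.center L).inv_mem (hQZ ha)) (k * l * k⁻¹)]
        _ = (a * b * a⁻¹) * ((k * l * k⁻¹ * l⁻¹) * b⁻¹) := by group
        _ = b * (b⁻¹ * (k * l * k⁻¹ * l⁻¹)) := by
          rw [cb a, mul_inv_cancel_right, Subgroup.mem_center_iff.1 ((Subgroup.center L).inv_mem (hQZ hb)) (k * l * k⁻¹ * l⁻¹)]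
        _ = k * l * k⁻¹ * l⁻¹ := by group
    rw [commutatorElement_def, e]
    exact K.mul_mem (K.mul_mem (K.mul_mem hk hl) (K.inv_mem hk)) (K.inv_mem hl)
  rw [Group.isPerfect_def.1 hperf, top_le_iff] at hKcomm
  subst hKcomm
  have h1 : Nat.card Q = 1 := by
    have := hK.card_mul
    rw [Subgroup.card_top] at this
    exact Nat.eq_of_mul_eq_mul_right Nat.card_pos (this.trans (one_mul _).symm)
  rw [hcardQ] at h1
  exact (Nat.one_lt_pow (hp.factorization_pos_of_dvd Nat.card_pos.ne' hdiv).ne' hp.one_lt).ne' h1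

end Cfsg.Agent.S4168
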