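import Cfsg.Statements.S4169
import Cfsg.Agent.S4163

set_option autoImplicit false
open Cfsg

namespace Cfsg.Agent.S4169

theorem exists_selfcentralizing {P : Type*} [Group P] [Finite P] [Group.IsNilpotent P] :
    ∃ A : Subgroup P, A.Normal ∧ IsMulCommutative A ∧ Subgroup.centralizer (A : Set P) = A := by
  classical
  obtain ⟨A, ⟨hAn, hAc⟩, hmax⟩ := (Set.toFinite {A : Subgroup P | A.Normal ∧ IsMulCommutative A}).exists_maximal
    ⟨⊥, inferInstance, ⟨⟨fun a b => Subsingleton.elim _ _⟩⟩⟩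
  haveI := hAn
  refine ⟨A, hAn, hAc, le_antisymm ?_ ?_⟩
  swap
  · intro a ha b hb
    exact congrArg Subtype.val (hAc.is_comm.comm (⟨b, hb⟩ : A) ⟨a, ha⟩)
  by_contra hle
  set C := Subgroup.centralizer (A : Set P) with hC
  haveI : C.Normal := Subgroup.normal_centralizer
  set f := QuotientGroup.mk' A with hf
  set Cb := C.map f with hCb
  haveI : Cb.Normal := Subgroup.Normal.map inferInstance f (QuotientGroup.mk'_surjective A)
  have hne : Cb ≠ ⊥ := by
    intro h
    apply hle
    intro c hc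
    have : f c ∈ Cb := ⟨c, hc, rfl⟩
    rw [h, Subgroup.mem_bot] at this
    exact (QuotientGroup.eq_one_iff c).mp this
  obtain ⟨n, hn⟩ := Subgroup.nilpotent_iff_lowerCentralSeries.mp (inferInstance : Group.IsNilpotent (P ⧸ A))
  let K : ℕ → Subgroup (P ⧸ A) := fun i => Nat.rec Cb (fun _ L => ⁅L, (⊤ : Subgroup (P ⧸ A))⁆) i
  have hK1 : ∀ i, K i ≤ (⊤ : Subgroup (P ⧸ A)).lowerCentralSeries i := by
    intro i
    induction i with
    | zero => exact le_top
    | succ i ih => exact Subgroup.commutator_mono ih le_rfl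
  have hK2 : ∀ i, K i ≤ Cb := by
    intro i
    induction i with
    | zero => exact le_rfl
    | succ i ih => exact (Subgroup.commutator_mono ih le_rfl).trans (Subgroup.commutator_le_left Cb ⊤)
  have hex : ∃ i, K i ≠ ⊥ ∧ K (i + 1) = ⊥ := by
    by_contra hno
    push Not at hno
    have : ∀ i, K i ≠ ⊥ := fun i => by
      induction i with
      | zero => exact hne
      | succ i ih => exact hno i ih
    exact this n (le_bot_iff.mp (hn ▸ hK1 n))
  obtain ⟨i, hi1, hi2⟩ := hex
  obtain ⟨⟨cb, hcb⟩, hcb1⟩ := Subgroup.ne_bot_iff_exists_ne_one.mp hi1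
  obtain ⟨c, hc, rfl⟩ := hK2 i hcb
  have hcen : ∀ q, q * f c = f c * q := fun q =>
    (Subgroup.commutator_eq_bot_iff_le_centralizer.mp hi2 hcb) q (Subgroup.mem_top q)
  set B := (Subgroup.zpowers (f c)).comap f with hB
  have hmemB : ∀ y ∈ B, ∃ (a : P) (k : ℤ), a ∈ A ∧ y = c ^ k * a := by
    intro y hy
    obtain ⟨k, hk⟩ := Subgroup.mem_zpowers_iff.mp hy
    refine ⟨(c ^ k)⁻¹ * y, k, ?_, by group⟩
    rw [← QuotientGroup.eq_one_iff (N := A)]
    show f _ = 1
    rw [map_mul, map_inv, map_zpow, hk, inv_mul_cancel]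
  have hBn : B.Normal := by
    refine ⟨fun y hy g => ?_⟩
    obtain ⟨k, hk⟩ := Subgroup.mem_zpowers_iff.mp hy
    show f (g * y * g⁻¹) ∈ Subgroup.zpowers (f c)
    rw [map_mul, map_mul, map_inv, ← hk]
    refine Subgroup.mem_zpowers_iff.mpr ⟨k, ?_⟩
    have : Commute (f g) (f c ^ k) := (show Commute (f g) (f c) from hcen (f g)).zpow_right k
    rw [this.eq, mul_inv_cancel_right]
  have hBc : IsMulCommutative B := by
    refine ⟨⟨fun y z => Subtype.ext ?_⟩⟩
    obtain ⟨a, k, ha, hy⟩ := hmemB y y.2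
    obtain ⟨b, l, hb, hz⟩ := hmemB z z.2
    show (y : P) * z = z * y
    rw [hy, hz]
    have h1 : ∀ (a : P), a ∈ A → ∀ l : ℤ, Commute a (c ^ l) := fun a ha l =>
      (show Commute a c from hc a ha).zpow_right l
    have h2 : Commute a b := congrArg Subtype.val (hAc.is_comm.comm (⟨a, ha⟩ : A) ⟨b, hb⟩)
    have h3 : Commute (c ^ k) (c ^ l) := (Commute.refl c).zpow_zpow k l
    exact ((h3.mul_right (h1 b hb k).symm).mul_left (((h1 a ha l)).mul_right h2)).eq
  have hAB : A ≤ B := by
    intro a ha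
    show f a ∈ Subgroup.zpowers (f c)
    rw [show f a = 1 from (QuotientGroup.eq_one_iff a).mpr ha]
    exact Subgroup.one_mem _
  have : c ∈ A := hmax ⟨hBn, hBc⟩ hAB (Subgroup.mem_zpowers (f c))
  exact hcb1 (Subtype.ext ((QuotientGroup.eq_one_iff c).mpr this))

/-- Let P be a finite p-group whose conjugacy classes have exactly two sizes (1 and one other value). Then P has nilpotency class at most 3. -/
theorem result {P : Type*} [Group P] [Finite P] {p : ℕ} [Fact p.Prime] (hP : IsPGroup p P)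
    (m : ℕ) (hm : 1 < m) (h : ∀ x : P, (Subgroup.centralizer ({x} : Set P)).index = 1 ∨ (Subgroup.centralizer ({x} : Set P)).index = m) :
    upperCentralSeries P 3 = ⊤ := by
  haveI := hP.isNilpotent
  obtain ⟨A, hA1, hA2, hA3⟩ := exists_selfcentralizing (P := P)
  have h3 := S4163.small_classes A hA2 hA3 m (fun x hx => by
    rcases h x with h' | h' <;> omega)
  rw [Set.eq_univ_of_forall (s := {x : P | (Subgroup.centralizer ({x} : Set P)).index = 1 ∨
    (Subgroup.centralizer ({x} : Set P)).index = m}) h, Subgroup.closure_univ] at h3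
  exact Subgroup.lowerCentralSeries_eq_bot_iff_upperCentralSeries_eq_top.mp h3

end Cfsg.Agent.S4169
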