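import Cfsg.Statements.S4170
import Cfsg.Agent.SylowRatio.Cycle
-- import your own Cfsg.Agent.* helpers here

set_option autoImplicit false
open scoped Pointwise
open Cfsg

namespace Cfsg.Agent.S4170

/-- Let p be an odd prime and G a nontrivial group of permutations of a finite set Ω that is generated by its elements of p-power order. Then Ω has two disjoint nonempty subsets Δ₁ and Δ₂ such that the index in G of the subgroup of elements mapping Δ₁ onto Δ₁ and Δ₂ onto Δ₂ (and hence also the complement of their union onto itself) is divisible by p. -/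
theorem result {Ω : Type*} [Fintype Ω] (p : ℕ) [Fact p.Prime] (hp : p ≠ 2) (G : Subgroup (Equiv.Perm Ω)) (hG : G ≠ ⊥) (hgen : Subgroup.closure {g : G | ∃ k : ℕ, orderOf g = p ^ k} = ⊤) :
    ∃ Δ₁ Δ₂ : Set Ω, Δ₁.Nonempty ∧ Δ₂.Nonempty ∧ Disjoint Δ₁ Δ₂ ∧ p ∣ (MulAction.stabilizer G Δ₁ ⊓ MulAction.stabilizer G Δ₂).index := by
  classical
  obtain ⟨g, ⟨k, hk⟩, x, hx⟩ : ∃ g : G, (∃ k : ℕ, orderOf g = p ^ k) ∧ ∃ x : Ω, g • x ≠ x := by
    by_contra! h
    apply hG
    have : Subgroup.closure {g : G | ∃ k : ℕ, orderOf g = p ^ k} ≤ ⊥ := by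
      rw [Subgroup.closure_le]
      intro g hg
      rw [SetLike.mem_coe, Subgroup.mem_bot]
      exact Subtype.ext (Equiv.ext fun x => h g hg x)
    rw [hgen] at this
    rw [eq_bot_iff]
    intro g hg
    have h1 : (⟨g, hg⟩ : G) = 1 := Subgroup.mem_bot.mp (this (Subgroup.mem_top _))
    simpa using congrArg Subtype.val h1
  obtain ⟨j, hj, hjp⟩ : ∃ j : ℕ, (g ^ p ^ j) • x ≠ x ∧ ((g ^ p ^ j) ^ p) • x = x := by
    have hex : ∃ m : ℕ, (g ^ p ^ m) • x = x := ⟨k, by rw [← hk, pow_orderOf_eq_one, one_smul]⟩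
    have h0 : Nat.find hex ≠ 0 := fun h => hx (by
      have := Nat.find_spec hex
      rwa [h, pow_zero, pow_one] at this)
    obtain ⟨j, hj⟩ := Nat.exists_eq_succ_of_ne_zero h0
    refine ⟨j, Nat.find_min hex (by omega), ?_⟩
    rw [← pow_mul, ← pow_succ]
    have := Nat.find_spec hex
    rwa [hj] at this
  have hy : IsPGroup p (Subgroup.zpowers (g ^ p ^ j)) := by
    have h : IsPGroup p (Subgroup.zpowers g) :=
      IsPGroup.of_card (n := k) (by rw [Nat.card_zpowers, hk])
    exact h.to_le (by rw [Subgroup.zpowers_le]; exact Subgroup.pow_mem _ (Subgroup.mem_zpowers g) _)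
  have h := SylowRatio.cycleRest_index (p := p) hy hj hjp
  refine ⟨{x}, SylowRatio.cycleRest p (g ^ p ^ j) x, Set.singleton_nonempty x, ?_, ?_, ?_⟩
  · exact ⟨_, 1, ⟨le_rfl, (Fact.out : p.Prime).one_lt⟩, rfl⟩
  · rw [Set.disjoint_singleton_left]
    rintro ⟨i, ⟨hi1, hi2⟩, hi⟩
    apply hj
    have hd : (MulAction.period (g ^ p ^ j) x) ∣ i := MulAction.pow_smul_eq_iff_period_dvd.mp hi
    have hd2 : (MulAction.period (g ^ p ^ j) x) ∣ p := MulAction.pow_smul_eq_iff_period_dvd.mp hjp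
    rcases (Nat.dvd_prime (Fact.out : p.Prime)).mp hd2 with h1 | h1
    · rw [← pow_one (g ^ p ^ j), MulAction.pow_smul_eq_iff_period_dvd, h1]
    · rw [h1] at hd
      exact absurd (Nat.le_of_dvd hi1 hd) (by omega)
  · rwa [MulAction.stabilizer_singleton]

end Cfsg.Agent.S4170
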