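import Cfsg.Statements.S4172
import Mathlib
import Cfsg.Agent.TwoGenCore.Basic

set_option autoImplicit false
open Cfsg

namespace Cfsg.Agent.S4172
open CfsgLib.TwoGenCore CfsgLib.Components

/-- Let p be a prime and G a finite group with a non-commutative Sylow p-subgroup P whose Frattini subgroup has index p² in P (P is generated by two elements). Suppose G has no nontrivial normal subgroup of order prime to p and the Frattini subgroup of P contains no nontrivial normal subgroup of G. Then the generalized Fitting subgroup F*(G) is the unique minimal normal subgroup of G, the image of P in G/F*(G) is cyclic, and if F*(G) is not commutative then P permutes the components of G transitively by conjugation. -/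
theorem result {G : Type*} [Group G] [Finite G] (p : ℕ) [Fact p.Prime] (P : Sylow p G) (hna : ¬ IsMulCommutative (P : Subgroup G)) (hgen : (frattini ↥(P : Subgroup G)).index = p ^ 2) (hcore : Cfsg.pPrimeCore p G = ⊥) (hfrat : ((frattini ↥(P : Subgroup G)).map (P : Subgroup G).subtype).normalCore = ⊥) [hFn : (Cfsg.generalizedFittingSubgroup G).Normal] :
    (Cfsg.generalizedFittingSubgroup G ≠ ⊥ ∧ ∀ K : Subgroup G, K.Normal → K ≠ ⊥ → Cfsg.generalizedFittingSubgroup G ≤ K) ∧
      IsCyclic ↥((P : Subgroup G).map (QuotientGroup.mk' (Cfsg.generalizedFittingSubgroup G))) ∧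
      (¬ IsMulCommutative (Cfsg.generalizedFittingSubgroup G) → ∀ K L : Subgroup G, Cfsg.IsComponent K → Cfsg.IsComponent L → ∃ x ∈ (P : Subgroup G), L = K.map (MulAut.conj x).toMonoidHom) := by
  classical
  have key : ∀ (p : ℕ) [Fact p.Prime] (P : Sylow p G), ¬ IsMulCommutative (P : Subgroup G) →
      (frattini ↥(P : Subgroup G)).index = p ^ 2 → Cfsg.pPrimeCore p G = ⊥ → (phi P).normalCore = ⊥ →
      (Cfsg.generalizedFittingSubgroup G ≠ ⊥ ∧
        ∀ K : Subgroup G, K.Normal → K ≠ ⊥ → Cfsg.generalizedFittingSubgroup G ≤ K) ∧
      (¬ IsMulCommutative (Cfsg.generalizedFittingSubgroup G) → ∀ K L : Subgroup G,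
        Cfsg.IsComponent K → Cfsg.IsComponent L →
          ∃ x ∈ (P : Subgroup G), L = K.map (MulAut.conj x).toMonoidHom) := by
    intro p _ P hna hd hcore hfrat
    set R := Cfsg.pCore p G with hR
    haveI hRn : R.Normal := Subgroup.sSup_normal _ fun _ h => h.1
    haveI hEn : (Cfsg.layer G).Normal := layer_normal
    have hF : Cfsg.fittingSubgroup G = R :=
      le_antisymm (fitting_le_pCore hcore) (pCore_le_fittingSubgroup p)
    have hRp : IsPGroup p R := CfsgLib.PCore.isPGroup_pCore p G
    have hRP : R ≤ (P : Subgroup G) := hRp.le_sylow_of_normal P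
    haveI : Nontrivial G := by
      rcases subsingleton_or_nontrivial G with h | h
      · exact absurd ⟨⟨fun a b => Subsingleton.elim _ _⟩⟩ hna
      · exact h
    have hF0 : Cfsg.generalizedFittingSubgroup G ≠ ⊥ := by
      intro h
      have h1 := centralizer_generalizedFittingSubgroup_le (G := G)
      rw [h, Subgroup.coe_bot] at h1
      obtain ⟨x, hx⟩ := exists_ne (1 : G)
      exact hx (Subgroup.mem_bot.1 (h1 (Subgroup.mem_centralizer_iff.2 fun y hy => by simp [Set.mem_singleton_iff.1 hy])))
    by_cases hR0 : R = ⊥
    · have hFs : Cfsg.generalizedFittingSubgroup G = Cfsg.layer G := by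
        rw [Cfsg.generalizedFittingSubgroup, hF, hR0, sup_bot_eq]
      refine ⟨⟨hF0, fun K hK hK0 => ?_⟩, fun _ K L hKc hLc => ?_⟩
      · haveI := hK
        rw [hFs]
        refine sSup_le fun C hC => (component_normal_or_commute hC hK).resolve_right fun hCK => ?_
        have hCc : C ≤ Subgroup.centralizer (K : Set G) :=
          Subgroup.commutator_eq_bot_iff_le_centralizer.1 hCK
        have hC0 : Subgroup.centralizer (K : Set G) ≠ ⊥ := fun h => by
          have := quasisimple_nontrivial hC.2
          exact (Subgroup.nontrivial_iff_ne_bot C).1 this (le_bot_iff.1 (h ▸ hCc))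
        refine normal_inf_ne_bot P hna hd hcore hfrat hK0 hC0 (le_bot_iff.1 (hR0 ▸ hF ▸ ?_))
        refine le_fittingSubgroup inferInstance ?_
        haveI : IsMulCommutative ↥(K ⊓ Subgroup.centralizer (K : Set G)) :=
          ⟨⟨fun a b => Subtype.ext (Subgroup.mem_centralizer_iff.1 (Subgroup.mem_inf.1 b.2).2 a (Subgroup.mem_inf.1 a.2).1)⟩⟩
        exact (open scoped IsMulCommutative in CommGroup.isNilpotent)
      · by_contra hnot
        push Not at hnot
        let orb : Subgroup G → Subgroup G := fun C =>
          ⨆ x : (P : Subgroup G), C.map (MulAut.conj (x : G)).toMonoidHom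
        have horbP : ∀ C, (P : Subgroup G) ≤ Subgroup.normalizer (orb C : Set G) := by
          intro C
          rw [Subgroup.le_normalizer_iff]
          intro y hy z hz
          have : (orb C).map (MulAut.conj y).toMonoidHom ≤ orb C := by
            show (⨆ x : (P : Subgroup G), C.map (MulAut.conj (x : G)).toMonoidHom).map _ ≤ _
            rw [Subgroup.map_iSup]
            refine iSup_le fun x => le_trans (le_of_eq ?_) (le_iSup _ (⟨y, hy⟩ * x : (P : Subgroup G)))
            rw [Subgroup.map_map]
            congr 1
            ext g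
            simp [mul_assoc]
          exact this ⟨z, hz, rfl⟩
        have hsn : ∀ C, Cfsg.IsComponent C → (orb C).IsSubnormal := by
          intro C hC
          have hle : orb C ≤ Cfsg.layer G := iSup_le fun x => component_le_layer (isComponent_conj hC x)
          refine subnormal_trans hle (Subgroup.Normal.isSubnormal ?_) hEn.isSubnormal
          refine Subgroup.normal_subgroupOf_of_le_normalizer ?_
          rw [Subgroup.le_normalizer_iff]
          intro e he z hz
          have : (orb C).map (MulAut.conj e).toMonoidHom ≤ orb C := by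
            show (⨆ x : (P : Subgroup G), C.map (MulAut.conj (x : G)).toMonoidHom).map _ ≤ _
            rw [Subgroup.map_iSup]
            refine iSup_le fun x => le_trans ?_ (le_iSup _ x)
            rintro _ ⟨u, hu, rfl⟩
            exact (Subgroup.mem_normalizer_iff.1 (component_normal_in_layer (isComponent_conj hC x) he) u).1 hu
          exact this ⟨z, hz, rfl⟩
        have hout : ∀ C, Cfsg.IsComponent C → ¬ orb C ⊓ (P : Subgroup G) ≤ phi P := by
          intro C hC
          refine not_le_phi P hcore hfrat (hsn C hC) (horbP C) (Or.inl fun hp => ?_)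
          have hCle : C ≤ orb C := le_trans (fun z hz => Subgroup.mem_map.2 ⟨z, hz, by simp⟩)
            (le_iSup (fun x : (P : Subgroup G) => C.map (MulAut.conj (x : G)).toMonoidHom) 1)
          exact quasisimple_not_nilpotent hC.2 (hp.to_le hCle).isNilpotent
        apply inf_ne_bot P hna hd (horbP K) (horbP L) (hout K hKc) (hout L hLc)
        rw [eq_bot_iff]
        intro z hz
        rw [← hR0, ← hF]
        have hzE : z ∈ Cfsg.layer G :=
          (iSup_le fun x : (P : Subgroup G) => component_le_layer (isComponent_conj hKc (x : G))) (Subgroup.mem_inf.1 hz).1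
        have hcomm : z ∈ Subgroup.centralizer (Cfsg.layer G : Set G) := by
          suffices h : Cfsg.layer G ≤ Subgroup.centralizer ({z} : Set G) by
            exact Subgroup.mem_centralizer_iff.2 fun e he =>
              (Subgroup.mem_centralizer_iff.1 (h he) z rfl).symm
          refine sSup_le fun C hC => ?_
          have hcase : ∀ X, Cfsg.IsComponent X →
              (∀ x : (P : Subgroup G), X.map (MulAut.conj (x : G)).toMonoidHom ≠ C) →
              z ∈ orb X → C ≤ Subgroup.centralizer ({z} : Set G) := by
            intro X hX hne hzX c hc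
            refine Subgroup.mem_centralizer_iff.2 ?_
            rintro y rfl
            have h1 : orb X ≤ Subgroup.centralizer (C : Set G) := iSup_le fun x =>
              Subgroup.commutator_eq_bot_iff_le_centralizer.1 (components_commute (isComponent_conj hX x) hC (hne x))
            exact (Subgroup.mem_centralizer_iff.1 (h1 hzX) c hc).symm
          by_cases h : ∀ x : (P : Subgroup G), K.map (MulAut.conj (x : G)).toMonoidHom ≠ C
          · exact hcase K hKc h (Subgroup.mem_inf.1 hz).1
          · push Not at h
            obtain ⟨x, hx⟩ := h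
            refine hcase L hLc (fun y hy => hnot ((y : G)⁻¹ * x) (mul_mem (inv_mem y.2) x.2) ?_) (Subgroup.mem_inf.1 hz).2
            rw [← hx] at hy
            have := congrArg (Subgroup.map (MulAut.conj ((y : G)⁻¹)).toMonoidHom) hy
            rw [Subgroup.map_map, Subgroup.map_map] at this
            convert this using 1
            · ext g; simp [mul_assoc]
            · congr 1
              ext g; simp [mul_assoc]
        refine le_fittingSubgroup (N := Cfsg.layer G ⊓ Subgroup.centralizer (Cfsg.layer G : Set G))
          inferInstance ?_ (Subgroup.mem_inf.2 ⟨hzE, hcomm⟩)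
        haveI : IsMulCommutative ↥(Cfsg.layer G ⊓ Subgroup.centralizer (Cfsg.layer G : Set G)) :=
          ⟨⟨fun a b => Subtype.ext (Subgroup.mem_centralizer_iff.1 (Subgroup.mem_inf.1 b.2).2 a (Subgroup.mem_inf.1 a.2).1)⟩⟩
        exact (open scoped IsMulCommutative in CommGroup.isNilpotent)
    · have hmin : ∀ K : Subgroup G, K.Normal → K ≠ ⊥ → R ≤ K := by
        intro K hK hK0
        haveI := hK
        have h := eq_pCore P hna hd hcore hfrat (N := K ⊓ R)
          (normal_inf_ne_bot P hna hd hcore hfrat hK0 hR0) inf_le_right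
        exact h.ge.trans inf_le_left
      have hE : Cfsg.layer G = ⊥ := by
        by_contra hE0
        apply hR0
        rw [eq_bot_iff, ← hfrat]
        refine Subgroup.normal_le_normalCore.2 (center_inf_le_phi P commutator_layer (hmin _ hEn hE0) ?_ hRP)
        intro r hr e he
        have hrF : r ∈ Cfsg.fittingSubgroup G := hF ▸ hr
        exact (Subgroup.mem_centralizer_iff.1 (layer_le_centralizer_fitting he) r hrF).symm
      have hFs : Cfsg.generalizedFittingSubgroup G = R := by
        rw [Cfsg.generalizedFittingSubgroup, hE, hF, bot_sup_eq]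
      refine ⟨⟨hF0, fun K hK hK0 => hFs ▸ hmin K hK hK0⟩, fun _ K L hKc _ => absurd ?_ ((Subgroup.nontrivial_iff_ne_bot K).1 (quasisimple_nontrivial hKc.2))⟩
      rw [eq_bot_iff, ← hE]
      exact component_le_layer hKc
  obtain ⟨h1, h3⟩ := key p P hna hgen hcore hfrat
  refine ⟨h1, ?_, h3⟩
  set N := Cfsg.generalizedFittingSubgroup G with hNdef
  have hA : ¬ N.subgroupOf (P : Subgroup G) ≤ frattini ↥(P : Subgroup G) := by
    intro hle
    refine CfsgLib.TwoGenCore.not_le_phi P hcore hfrat hFn.isSubnormal
      (CfsgLib.TwoGenCore.le_normalizer_of_normal _) (Or.inr ⟨hFn, h1.1⟩) ?_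
    intro x hx
    exact ⟨⟨x, (Subgroup.mem_inf.1 hx).2⟩, hle (Subgroup.mem_inf.1 hx).1, rfl⟩
  obtain ⟨g, hg⟩ := CfsgLib.TwoGenCore.exists_cyclic_supplement P.isPGroup' hgen hA
  have himg : (P : Subgroup G).map (QuotientGroup.mk' N) = Subgroup.zpowers (QuotientGroup.mk' N (g : G)) := by
    rw [← MonoidHom.map_zpowers]
    refine le_antisymm ?_ (Subgroup.map_mono (Subgroup.zpowers_le.2 g.2))
    rintro _ ⟨y, hy, rfl⟩
    obtain ⟨a, ha, z, hz, hay⟩ := Subgroup.mem_sup_of_normal_left.1 (hg ▸ Subgroup.mem_top (⟨y, hy⟩ : (P : Subgroup G)) :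
      (⟨y, hy⟩ : (P : Subgroup G)) ∈ N.subgroupOf (P : Subgroup G) ⊔ Subgroup.zpowers g)
    refine ⟨z, ?_, ?_⟩
    · obtain ⟨k, rfl⟩ := Subgroup.mem_zpowers_iff.1 hz
      exact Subgroup.mem_zpowers_iff.2 ⟨k, by simp⟩
    · have : (a : G) * z = y := congrArg Subtype.val hay
      rw [← this, map_mul, show QuotientGroup.mk' N (a : G) = 1 from (QuotientGroup.eq_one_iff _).2 ha, one_mul]
  rw [himg]
  infer_instance

end Cfsg.Agent.S4172
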