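import Cfsg.Statements.S4176
import Cfsg.Agent.PCore.PSolvable

set_option autoImplicit false
open Cfsg

namespace Cfsg.Agent.S4176

section Aux

variable {k V H : Type*} [Field k] {p : ℕ} [Fact p.Prime] [CharP k p] [AddCommGroup V] [Module k V]
    [Group H] [Finite H]

/-- one step in a normal series: equivariant projection onto the fixed points of `N`, given one
onto those of `N₀`. -/
theorem step (ρ : Representation k H V) (a : V) (P : Sylow p H)
    (hfix : ∀ x : H, x ∈ (P : Subgroup H) → ρ x a = a)
    (hspan : Submodule.span k {u : V | ∃ h : H, ρ h a = u} = ⊤)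
    (N₀ N : Subgroup H) [N₀.Normal] [N.Normal] (hle : N₀ ≤ N)
    (hfac : (∃ m : ℕ, N₀.relIndex N = p ^ m) ∨ (N₀.relIndex N).Coprime p)
    (π : V →ₗ[k] V) (hπ1 : ∀ v, ∀ n ∈ N₀, ρ n (π v) = π v) (hπ2 : ∀ h v, π (ρ h v) = ρ h (π v))
    (hπ3 : ∀ v, (∀ n ∈ N₀, ρ n v = v) → π v = v) :
    ∃ π' : V →ₗ[k] V, (∀ v, ∀ n ∈ N, ρ n (π' v) = π' v) ∧ (∀ h v, π' (ρ h v) = ρ h (π' v)) ∧
      (∀ v, (∀ n ∈ N, ρ n v = v) → π' v = v) := by
  rcases hfac with ⟨m, hm⟩ | hcop
  · -- `N ≤ N₀ P`, so `N` fixes `π a`
    have hNP : N ≤ (P : Subgroup H) ⊔ N₀ := by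
      let f := QuotientGroup.mk' N₀
      have hf : Function.Surjective f := QuotientGroup.mk'_surjective N₀
      haveI : (N.map f).Normal := Subgroup.Normal.map inferInstance f hf
      have hNp : IsPGroup p (N.map f) := by
        rintro ⟨_, x, hx, rfl⟩
        refine ⟨m, Subtype.ext ?_⟩
        have hn : (N₀.subgroupOf N).Normal := inferInstance
        have := Subgroup.pow_index_mem (N₀.subgroupOf N) ⟨x, hx⟩
        rw [show (N₀.subgroupOf N).index = p ^ m from hm] at this
        show (f x) ^ p ^ m = 1
        rw [← map_pow]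
        exact (QuotientGroup.eq_one_iff _).mpr (Subgroup.mem_subgroupOf.mp this)
      obtain ⟨Q, hQ⟩ := hNp.exists_le_sylow
      obtain ⟨g, hg⟩ := MulAction.exists_smul_eq (H ⧸ N₀) (P.mapSurjective hf) Q
      have hle' : N.map f ≤ (P.mapSurjective hf : Subgroup (H ⧸ N₀)) := by
        intro y hy
        have : g * y * g⁻¹ ∈ (Q : Subgroup (H ⧸ N₀)) :=
          hQ ((inferInstance : (N.map f).Normal).conj_mem y hy g)
        rw [← hg] at this
        obtain ⟨z, hz, e⟩ := this
        have e' : g * z * g⁻¹ = g * y * g⁻¹ := e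
        rw [← mul_left_cancel (mul_right_cancel e')]
        exact hz
      intro x hx
      have := hle' (Subgroup.mem_map_of_mem f hx)
      rw [Sylow.coe_mapSurjective] at this
      have h2 : x ∈ ((P : Subgroup H).map f).comap f := this
      rwa [Subgroup.comap_map_eq, QuotientGroup.ker_mk'] at h2
    have hfixa : ∀ n ∈ N, ρ n (π a) = π a := by
      let S : Subgroup H :=
        { carrier := {x | ρ x (π a) = π a}
          one_mem' := by simp
          mul_mem' := fun {x y} hx hy => by
            show ρ (x * y) (π a) = π a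
            rw [map_mul, Module.End.mul_apply, show ρ y (π a) = π a from hy]
            exact hx
          inv_mem' := fun {x} hx => by
            show ρ x⁻¹ (π a) = π a
            conv_lhs => rw [← show ρ x (π a) = π a from hx]
            exact ρ.inv_self_apply x _ }
      have : (P : Subgroup H) ⊔ N₀ ≤ S := sup_le
        (fun x hx => by show ρ x (π a) = π a; rw [← hπ2, hfix x hx]) (fun x hx => hπ1 a x hx)
      exact fun n hn => this (hNP hn)
    refine ⟨π, fun v n hn => ?_, hπ2, fun v hv => hπ3 v fun n hn => hv n (hle hn)⟩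
    have hv : v ∈ Submodule.span k {u : V | ∃ h : H, ρ h a = u} := hspan ▸ Submodule.mem_top
    induction hv using Submodule.span_induction with
    | mem u hu =>
      obtain ⟨h, rfl⟩ := hu
      rw [hπ2]
      have hn' : h⁻¹ * n * h ∈ N := by simpa using (inferInstance : N.Normal).conj_mem n hn h⁻¹
      calc ρ n (ρ h (π a)) = ρ (h * (h⁻¹ * n * h)) (π a) := by
            rw [← Module.End.mul_apply, ← map_mul]; congr 2; group
        _ = ρ h (π a) := by rw [map_mul, Module.End.mul_apply, hfixa _ hn']
    | zero => simp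
    | add x y _ _ hx hy => rw [map_add, map_add, hx, hy]
    | smul c x _ hx => rw [map_smul, map_smul, hx]
  · -- averaging over `N / N₀`
    classical
    haveI : Fintype (N ⧸ N₀.subgroupOf N) := Fintype.ofFinite _
    set M := N₀.subgroupOf N with hM
    have hm0 : (N₀.relIndex N : k) ≠ 0 := by
      rw [Ne, CharP.cast_eq_zero_iff k p]
      exact fun h => (Nat.Prime.coprime_iff_not_dvd (Fact.out : p.Prime)).mp hcop.symm h
    have hwd : ∀ (x y : N), (QuotientGroup.mk x : N ⧸ M) = QuotientGroup.mk y →
        ∀ v, ρ (x : H) (π v) = ρ (y : H) (π v) := by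
      intro x y hxy v
      have hmem : (x⁻¹ * y : N) ∈ M := QuotientGroup.eq.mp hxy
      have := hπ1 v _ (Subgroup.mem_subgroupOf.mp hmem)
      conv_lhs => rw [← this]
      rw [← Module.End.mul_apply, ← map_mul]
      congr 2
      simp
    have hout : ∀ (x : N) v, ρ ((QuotientGroup.mk x : N ⧸ M).out : H) (π v) = ρ (x : H) (π v) :=
      fun x v => hwd _ _ (QuotientGroup.out_eq' _) v
    let π' : V →ₗ[k] V :=
      ((N₀.relIndex N : k)⁻¹) • ∑ c : N ⧸ M, (ρ (c.out : H)).comp π
    have hπ' : ∀ v, π' v = (N₀.relIndex N : k)⁻¹ • ∑ c : N ⧸ M, ρ (c.out : H) (π v) := fun v => by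
      simp [π', LinearMap.sum_apply]
    refine ⟨π', fun v n hn => ?_, fun h v => ?_, fun v hv => ?_⟩
    · rw [hπ', map_smul, map_sum]
      congr 1
      refine Fintype.sum_equiv (MulAction.toPerm (⟨n, hn⟩ : N)) _ _ fun c => ?_
      rw [← Module.End.mul_apply, ← map_mul]
      show ρ ((⟨n, hn⟩ * c.out : N) : H) (π v) = ρ (((⟨n, hn⟩ : N) • c).out : H) (π v)
      conv_rhs => rw [← QuotientGroup.out_eq' c]
      exact (hout _ v).symm
    · rw [hπ', hπ', map_smul, map_sum]
      congr 1
      let φ : N ≃* N := MulAut.conjNormal h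
      have hφM : M.map (φ : N →* N) = M := by
        ext x
        constructor
        · rintro ⟨y, hy, rfl⟩
          show ((φ y : N) : H) ∈ N₀
          rw [MulAut.conjNormal_apply]
          exact (inferInstance : N₀.Normal).conj_mem _ hy h
        · intro hx
          refine ⟨φ.symm x, ?_, φ.apply_symm_apply x⟩
          show ((φ.symm x : N) : H) ∈ N₀
          rw [MulAut.conjNormal_symm_apply]
          simpa using (inferInstance : N₀.Normal).conj_mem _ hx h⁻¹
      refine (Fintype.sum_equiv (QuotientGroup.congr M M φ hφM).toEquiv _ _ fun c => ?_).symm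
      obtain ⟨x, rfl⟩ := QuotientGroup.mk_surjective c
      show ρ h (ρ ((QuotientGroup.mk x : N ⧸ M).out : H) (π v)) =
        ρ ((QuotientGroup.mk (φ x) : N ⧸ M).out : H) (π (ρ h v))
      rw [hout, hout, hπ2, MulAut.conjNormal_apply]
      simp only [map_mul, Module.End.mul_apply, ρ.inv_self_apply]
    · rw [hπ', hπ3 v fun n hn => hv n (hle hn)]
      rw [Finset.sum_congr rfl (fun c _ => hv _ (c.out : N).2), Finset.sum_const, Finset.card_univ,
        ← Nat.card_eq_fintype_card]
      show (N₀.relIndex N : k)⁻¹ • (N₀.relIndex N) • v = v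
      rw [← Nat.cast_smul_eq_nsmul k, smul_smul, inv_mul_cancel₀ hm0, one_smul]

theorem projection (hsol : Cfsg.IsPSolvable p H) (ρ : Representation k H V) (a : V) (P : Sylow p H)
    (hfix : ∀ x : H, x ∈ (P : Subgroup H) → ρ x a = a)
    (hspan : Submodule.span k {u : V | ∃ h : H, ρ h a = u} = ⊤) :
    ∃ π : V →ₗ[k] V, (∀ v h, ρ h (π v) = π v) ∧ (∀ h v, π (ρ h v) = ρ h (π v)) ∧
      (∀ v, (∀ h, ρ h v = v) → π v = v) := by
  obtain ⟨n, K, h0, h1, hmono, hnorm, hfac⟩ := hsol
  have key : ∀ i : Fin (n + 1), ∃ π : V →ₗ[k] V, (∀ v, ∀ x ∈ K i, ρ x (π v) = π v) ∧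
      (∀ h v, π (ρ h v) = ρ h (π v)) ∧ (∀ v, (∀ x ∈ K i, ρ x v = v) → π v = v) := by
    intro i
    induction i using Fin.induction with
    | zero =>
      refine ⟨LinearMap.id, fun v x hx => ?_, fun _ _ => rfl, fun _ _ => rfl⟩
      rw [h0, Subgroup.mem_bot] at hx
      simp [hx]
    | succ j ih =>
      obtain ⟨π, a1, a2, a3⟩ := ih
      haveI := hnorm j.castSucc
      haveI := hnorm j.succ
      exact step ρ a P hfix hspan _ _ (hmono j.castSucc_le_succ) (hfac j) π a1 a2 a3
  obtain ⟨π, a1, a2, a3⟩ := key (Fin.last n)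
  exact ⟨π, fun v h => a1 v h (by rw [h1]; trivial), a2, fun v hv => a3 v fun x _ => hv x⟩

theorem span_invariants (hsol : Cfsg.IsPSolvable p H) (ρ : Representation k H V) (a : V) (P : Sylow p H)
    (hfix : ∀ x : H, x ∈ (P : Subgroup H) → ρ x a = a)
    (hspan : Submodule.span k {u : V | ∃ h : H, ρ h a = u} = ⊤)
    (s : Finset V) (hs : ∀ u, u ∈ s ↔ ∃ h : H, ρ h a = u) :
    ρ.invariants ≤ Submodule.span k {∑ u ∈ s, u} := by
  obtain ⟨π, a1, a2, a3⟩ := projection hsol ρ a P hfix hspan
  -- the size of the orbit is prime to `p`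
  let S : Subgroup H :=
    { carrier := {x | ρ x a = a}
      one_mem' := by simp
      mul_mem' := fun {x y} hx hy => by
        show ρ (x * y) a = a
        rw [map_mul, Module.End.mul_apply, show ρ y a = a from hy]
        exact hx
      inv_mem' := fun {x} hx => by
        show ρ x⁻¹ a = a
        conv_lhs => rw [← show ρ x a = a from hx]
        exact ρ.inv_self_apply x _ }
  have hcard : s.card = S.index := by
    rw [← Nat.card_eq_finsetCard, Subgroup.index]
    refine Nat.card_congr (Equiv.ofBijective (fun c : H ⧸ S => (⟨Quotient.liftOn' c (fun h => ρ h a) ?_, ?_⟩ : s)) ⟨?_, ?_⟩).symm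
    · intro x y hxy
      have : x⁻¹ * y ∈ S := QuotientGroup.leftRel_apply.mp hxy
      have h' : ρ (x⁻¹ * y) a = a := this
      conv_lhs => rw [← h']
      rw [← Module.End.mul_apply, ← map_mul, mul_inv_cancel_left]
    · induction c using Quotient.inductionOn' with | _ h => exact (hs _).mpr ⟨h, rfl⟩
    · intro c d
      induction c using Quotient.inductionOn' with | _ x => ?_
      induction d using Quotient.inductionOn' with | _ y => ?_
      intro e
      have e' : ρ x a = ρ y a := congrArg Subtype.val e
      refine Quotient.sound' (QuotientGroup.leftRel_apply.mpr ?_)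
      show ρ (x⁻¹ * y) a = a
      rw [map_mul, Module.End.mul_apply, ← e', ρ.inv_self_apply]
    · rintro ⟨u, hu⟩
      obtain ⟨h, rfl⟩ := (hs u).mp hu
      exact ⟨QuotientGroup.mk h, rfl⟩
  have hne : (s.card : k) ≠ 0 := by
    rw [Ne, CharP.cast_eq_zero_iff k p, hcard]
    exact fun h => P.not_dvd_index (h.trans (Subgroup.index_dvd_of_le (fun x hx => hfix x hx)))
  set σ := ∑ u ∈ s, u with hσ
  have hσfix : ∀ h, ρ h σ = σ := by
    intro h
    rw [hσ, map_sum]
    refine Finset.sum_bij (fun u _ => ρ h u) ?_ ?_ ?_ (fun u _ => rfl)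
    · intro u hu
      obtain ⟨g, rfl⟩ := (hs u).mp hu
      exact (hs _).mpr ⟨h * g, by rw [map_mul, Module.End.mul_apply]⟩
    · intro u _ u' _ e
      rw [← ρ.inv_self_apply h u, e, ρ.inv_self_apply]
    · intro u hu
      obtain ⟨g, rfl⟩ := (hs u).mp hu
      exact ⟨ρ (h⁻¹ * g) a, (hs _).mpr ⟨_, rfl⟩,
        by rw [← Module.End.mul_apply, ← map_mul, mul_inv_cancel_left]⟩
  have horb : ∀ u ∈ s, π u = π a := by
    intro u hu
    obtain ⟨g, rfl⟩ := (hs u).mp hu
    rw [a2, a1]
  have hπa : π a = (s.card : k)⁻¹ • σ := by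
    have := a3 σ hσfix
    conv at this => lhs; rw [hσ, map_sum, Finset.sum_congr rfl horb, Finset.sum_const]
    rw [← this, ← Nat.cast_smul_eq_nsmul k, smul_smul, inv_mul_cancel₀ hne, one_smul]
  intro v hv
  rw [← a3 v hv]
  have : ∀ w, π w ∈ Submodule.span k {σ} := by
    intro w
    have hw : w ∈ Submodule.span k {u : V | ∃ h : H, ρ h a = u} := hspan ▸ Submodule.mem_top
    induction hw using Submodule.span_induction with
    | mem u hu =>
      rw [horb u ((hs u).mpr hu), hπa]
      exact Submodule.smul_mem _ _ (Submodule.mem_span_singleton_self σ)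
    | zero => rw [map_zero]; exact Submodule.zero_mem _
    | add x y _ _ hx hy => rw [map_add]; exact Submodule.add_mem _ hx hy
    | smul c x _ hx => rw [map_smul]; exact Submodule.smul_mem _ _ hx
  exact this v

end Aux

/-- Let k be a field of prime characteristic p, H a finite p-soluble group and ρ a k-linear representation of H on V. Let a be a vector that is fixed by some Sylow p-subgroup of H and whose H-orbit spans V. Then the space of H-fixed vectors has dimension at most 1, and every vector b whose H-orbit has size coprime to the size of the orbit of a is fixed by H. -/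
theorem result {k V H : Type*} [Field k] (p : ℕ) [Fact p.Prime] [CharP k p] [AddCommGroup V] [Module k V]
    [Group H] [Finite H] (hsol : Cfsg.IsPSolvable p H) (ρ : Representation k H V) (a : V)
    (hfix : ∃ P : Sylow p H, ∀ x : H, x ∈ (P : Subgroup H) → ρ x a = a)
    (hspan : Submodule.span k {u : V | ∃ h : H, ρ h a = u} = ⊤) :
    Module.finrank k ρ.invariants ≤ 1 ∧
    ∀ b : V, (Nat.card {u : V | ∃ h : H, ρ h a = u}).Coprime (Nat.card {u : V | ∃ h : H, ρ h b = u}) → ∀ h : H, ρ h b = b := by
  classical
  obtain ⟨P, hP⟩ := hfix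
  have hfin : {u : V | ∃ h : H, ρ h a = u}.Finite := Set.finite_range (fun h : H => ρ h a)
  have hs : ∀ u, u ∈ hfin.toFinset ↔ ∃ h : H, ρ h a = u := fun u => Set.Finite.mem_toFinset hfin
  set σ := ∑ u ∈ hfin.toFinset, u with hσ
  have hσfix : ∀ h, ρ h σ = σ := by
    intro h
    rw [hσ, map_sum]
    refine Finset.sum_bij (fun u _ => ρ h u) ?_ ?_ ?_ (fun u _ => rfl)
    · intro u hu
      obtain ⟨g, rfl⟩ := (hs u).mp hu
      exact (hs _).mpr ⟨h * g, by rw [map_mul, Module.End.mul_apply]⟩
    · intro u _ u' _ e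
      rw [← ρ.inv_self_apply h u, e, ρ.inv_self_apply]
    · intro u hu
      obtain ⟨g, rfl⟩ := (hs u).mp hu
      exact ⟨ρ (h⁻¹ * g) a, (hs _).mpr ⟨_, rfl⟩,
        by rw [← Module.End.mul_apply, ← map_mul, mul_inv_cancel_left]⟩
  refine ⟨?_, fun b hb => ?_⟩
  · refine le_trans (Submodule.finrank_mono (span_invariants hsol ρ a P hP hspan _ hs)) ?_
    refine (finrank_span_le_card ({σ} : Set V)).trans ?_
    simp
  · let S : V → Subgroup H := fun w =>
      { carrier := {x | ρ x w = w}
        one_mem' := by simp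
        mul_mem' := fun {x y} hx hy => by
          show ρ (x * y) w = w
          rw [map_mul, Module.End.mul_apply, show ρ y w = w from hy]
          exact hx
        inv_mem' := fun {x} hx => by
          show ρ x⁻¹ w = w
          conv_lhs => rw [← show ρ x w = w from hx]
          exact ρ.inv_self_apply x _ }
    have horbit : ∀ w, Nat.card {u : V | ∃ h : H, ρ h w = u} = (S w).index := by
      intro w
      refine (Nat.card_congr (Equiv.ofBijective
        (fun c : H ⧸ S w => (⟨Quotient.liftOn' c (fun h => ρ h w) ?_, ?_⟩ : {u : V | ∃ h : H, ρ h w = u})) ⟨?_, ?_⟩)).symm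
      · intro x y hxy
        have h' : ρ (x⁻¹ * y) w = w := QuotientGroup.leftRel_apply.mp hxy
        conv_lhs => rw [← h']
        rw [← Module.End.mul_apply, ← map_mul, mul_inv_cancel_left]
      · induction c using Quotient.inductionOn' with | _ h => exact ⟨h, rfl⟩
      · intro c d
        induction c using Quotient.inductionOn' with | _ x => ?_
        induction d using Quotient.inductionOn' with | _ y => ?_
        intro e
        have e' : ρ x w = ρ y w := congrArg Subtype.val e
        refine Quotient.sound' (QuotientGroup.leftRel_apply.mpr ?_)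
        show ρ (x⁻¹ * y) w = w
        rw [map_mul, Module.End.mul_apply, ← e', ρ.inv_self_apply]
      · rintro ⟨u, h, rfl⟩
        exact ⟨QuotientGroup.mk h, rfl⟩
    rw [horbit, horbit] at hb
    -- `H = (S b) (S a)`
    have hidx : (S a ⊓ S b).index = (S a).index * (S b).index := by
      refine le_antisymm Subgroup.index_inf_le ?_
      refine Nat.le_of_dvd (Nat.pos_of_ne_zero Subgroup.index_ne_zero_of_finite) ?_
      exact hb.mul_dvd_of_dvd_of_dvd (Subgroup.index_dvd_of_le inf_le_left)
        (Subgroup.index_dvd_of_le inf_le_right)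
    have hrel : (S a).relIndex (S b) = (S a).index := by
      have h1 := Subgroup.relIndex_mul_index (inf_le_right : S a ⊓ S b ≤ S b)
      rw [Subgroup.inf_relIndex_right, hidx] at h1
      exact Nat.eq_of_mul_eq_mul_right (Nat.pos_of_ne_zero Subgroup.index_ne_zero_of_finite) h1
    have hprod : ∀ h : H, ∃ x ∈ S b, ρ x a = ρ h a := by
      intro h
      have hle : ((S a).subgroupOf (S b)).index = (S a).index := hrel
      let f : (S b) ⧸ (S a).subgroupOf (S b) → H ⧸ S a :=
        Quotient.map' (fun x : S b => (x : H)) fun x y hxy => by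
          rw [QuotientGroup.leftRel_apply] at hxy ⊢
          exact hxy
      have hf : Function.Injective f := by
        intro c d
        induction c using Quotient.inductionOn' with | _ x => ?_
        induction d using Quotient.inductionOn' with | _ y => ?_
        intro e
        refine Quotient.sound' ?_
        have := Quotient.exact' e
        rw [QuotientGroup.leftRel_apply] at this ⊢
        exact this
      have hbij := hf.bijective_of_nat_card_le (le_of_eq hle.symm)
      obtain ⟨c, hc⟩ := hbij.2 (QuotientGroup.mk h)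
      induction c using Quotient.inductionOn' with | _ x => ?_
      refine ⟨x, x.2, ?_⟩
      have h' : ρ ((x : H)⁻¹ * h) a = a := QuotientGroup.leftRel_apply.mp (Quotient.exact' hc)
      conv_lhs => rw [← h']
      rw [← Module.End.mul_apply, ← map_mul, mul_inv_cancel_left]
    -- a Sylow subgroup of `S b` fixing `a`
    obtain ⟨Q⟩ : Nonempty (Sylow p ((S a).subgroupOf (S b))) := inferInstance
    have hQnd : ¬ p ∣ ((Q : Subgroup _).map ((S a).subgroupOf (S b)).subtype).index := by
      rw [← Subgroup.relIndex_mul_index (Subgroup.map_subtype_le Q.toSubgroup)]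
      intro h
      rcases (Fact.out : p.Prime).dvd_mul.mp h with h | h
      · have e : (Q.toSubgroup.map ((S a).subgroupOf (S b)).subtype).subgroupOf ((S a).subgroupOf (S b)) =
            Q.toSubgroup := Subgroup.comap_map_eq_self_of_injective (Subgroup.subtype_injective _) _
        rw [Subgroup.relIndex, e] at h
        exact Q.not_dvd_index h
      · rw [show ((S a).subgroupOf (S b)).index = (S a).index from hrel] at h
        exact P.not_dvd_index (h.trans (Subgroup.index_dvd_of_le fun x hx => hP x hx))
    let Q' : Sylow p (S b) := (Q.isPGroup'.map ((S a).subgroupOf (S b)).subtype).toSylow hQnd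
    have key := span_invariants (CfsgLib.PCore.isPSolvable_subgroup hsol (S b)) (ρ.comp (S b).subtype) a Q'
      (fun x hx => by
        obtain ⟨y, -, rfl⟩ := hx
        exact y.2)
      (by
        rw [← hspan]
        congr 1
        ext u
        constructor
        · rintro ⟨x, hx⟩; exact ⟨x, hx⟩
        · rintro ⟨h, rfl⟩
          obtain ⟨x, hx, e⟩ := hprod h
          exact ⟨⟨x, hx⟩, e⟩)
      hfin.toFinset
      (fun u => by
        rw [hs u]
        constructor
        · rintro ⟨h, rfl⟩
          obtain ⟨x, hx, e⟩ := hprod h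
          exact ⟨⟨x, hx⟩, e⟩
        · rintro ⟨x, hx⟩; exact ⟨x, hx⟩)
    have hbmem : b ∈ Submodule.span k {σ} := key (fun x => x.2)
    obtain ⟨c, rfl⟩ := Submodule.mem_span_singleton.mp hbmem
    intro h
    rw [map_smul, hσfix]

end Cfsg.Agent.S4176
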