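import Cfsg.Statements.S4177
import Mathlib


set_option autoImplicit false
open Cfsg

namespace Cfsg.Agent.S4177

/-- Let k be a field whose characteristic does not divide the order of the finite group H (for instance a field of characteristic zero), and ρ a k-linear representation of H on V. Let a be a vector whose H-orbit spans V. Then the space of H-fixed vectors has dimension at most 1, and every vector b whose H-orbit has size coprime to the size of the orbit of a is fixed by H. -/
theorem result {k V H : Type*} [Field k] [AddCommGroup V] [Module k V] [Group H] [Finite H]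
    (hchar : ¬ ringChar k ∣ Nat.card H) (ρ : Representation k H V) (a : V)
    (hspan : Submodule.span k {u : V | ∃ h : H, ρ h a = u} = ⊤) :
    Module.finrank k ρ.invariants ≤ 1 ∧
    ∀ b : V, (Nat.card {u : V | ∃ h : H, ρ h a = u}).Coprime (Nat.card {u : V | ∃ h : H, ρ h b = u}) → ∀ h : H, ρ h b = b := by
  classical
  have := Fintype.ofFinite H
  have hcard : (Nat.card H : k) ≠ 0 := fun h => hchar ((CharP.cast_eq_zero_iff k (ringChar k) _).1 h)
  let e : V →ₗ[k] V := ∑ h : H, ρ h
  have he : ∀ v, e v = ∑ h : H, ρ h v := fun v => LinearMap.sum_apply _ _ _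
  have hea : ∀ g v, e (ρ g v) = e v := fun g v => by
    rw [he, he]
    exact Fintype.sum_equiv (Equiv.mulRight g) _ _ fun h => by simp [map_mul]
  have hinv : ∀ g v, ρ g (e v) = e v := fun g v => by
    rw [he, map_sum]
    exact Fintype.sum_equiv (Equiv.mulLeft g) _ _ fun h => by simp [map_mul]
  have hrange : ∀ (f : V →ₗ[k] V) (w : V), (∀ g, f (ρ g a) = w) → ∀ v, f v ∈ k ∙ w := fun f w hf v => by
    have hv : v ∈ Submodule.span k {u : V | ∃ h : H, ρ h a = u} := hspan ▸ Submodule.mem_top
    induction hv using Submodule.span_induction with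
    | mem u hu => obtain ⟨g, rfl⟩ := hu; rw [hf]; exact Submodule.mem_span_singleton_self w
    | zero => rw [map_zero]; exact Submodule.zero_mem _
    | add u v _ _ hu hv => rw [map_add]; exact Submodule.add_mem _ hu hv
    | smul c u _ hu => rw [map_smul]; exact Submodule.smul_mem _ c hu
  refine ⟨?_, fun b hcop => ?_⟩
  · have hle : ρ.invariants ≤ k ∙ e a := fun v hv => by
      have h1 := hrange e (e a) (fun g => hea g a) v
      rw [he v, Finset.sum_congr rfl (fun g _ => hv g), Finset.sum_const, Finset.card_univ,
        ← Nat.card_eq_fintype_card, ← Nat.cast_smul_eq_nsmul k] at h1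
      exact (Submodule.smul_mem_iff _ hcard).1 h1
    refine (Submodule.finrank_mono hle).trans ?_
    refine (finrank_span_le_card ({e a} : Set V)).trans (le_of_eq ?_)
    simp
  · let S : Subgroup H :=
      { carrier := {h | ρ h b = b}
        one_mem' := by simp
        mul_mem' := fun {g h} (hg : ρ g b = b) (hh : ρ h b = b) => by
          show ρ (g * h) b = b
          rw [map_mul, Module.End.mul_apply, hh, hg]
        inv_mem' := fun {g} (hg : ρ g b = b) => by
          show ρ g⁻¹ b = b
          conv_lhs => rw [← hg, ← Module.End.mul_apply, ← map_mul, inv_mul_cancel, map_one]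
          rfl }
    let T : Subgroup H :=
      { carrier := {h | ρ h a = a}
        one_mem' := by simp
        mul_mem' := fun {g h} (hg : ρ g a = a) (hh : ρ h a = a) => by
          show ρ (g * h) a = a
          rw [map_mul, Module.End.mul_apply, hh, hg]
        inv_mem' := fun {g} (hg : ρ g a = a) => by
          show ρ g⁻¹ a = a
          conv_lhs => rw [← hg, ← Module.End.mul_apply, ← map_mul, inv_mul_cancel, map_one]
          rfl }
    have horb : ∀ (w : V) (X : Subgroup H), (∀ h, h ∈ X ↔ ρ h w = w) →
        X.index = Nat.card {u : V | ∃ h : H, ρ h w = u} := by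
      intro w X hX
      have hiff : ∀ u v : H, u⁻¹ * v ∈ X ↔ ρ u w = ρ v w := by
        intro u v
        rw [hX]
        constructor
        · intro h
          conv_lhs => rw [← h, ← Module.End.mul_apply, ← map_mul, mul_inv_cancel_left]
        · intro h
          rw [map_mul, Module.End.mul_apply, ← h, ← Module.End.mul_apply, ← map_mul, inv_mul_cancel, map_one]
          rfl
      rw [Subgroup.index]
      refine Nat.card_congr (Equiv.ofBijective (Quotient.lift (fun h => (⟨ρ h w, h, rfl⟩ : {u : V | ∃ h : H, ρ h w = u}))
        fun u v e => Subtype.ext ((hiff u v).1 (QuotientGroup.leftRel_apply.1 e))) ⟨?_, ?_⟩)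
      · intro u v e
        induction u using QuotientGroup.induction_on with
        | _ u =>
        induction v using QuotientGroup.induction_on with
        | _ v =>
        exact QuotientGroup.eq.2 ((hiff u v).2 (congrArg Subtype.val e))
      · rintro ⟨_, h, rfl⟩
        exact ⟨(h : H ⧸ X), rfl⟩
    rw [← horb a T fun _ => Iff.rfl, ← horb b S fun _ => Iff.rfl] at hcop
    let F : H ⧸ (S ⊓ T) → (H ⧸ S) × (H ⧸ T) :=
      fun c => (Subgroup.quotientMapOfLE inf_le_left c, Subgroup.quotientMapOfLE inf_le_right c)
    have hFinj : Function.Injective F := by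
      intro u v h
      induction u using QuotientGroup.induction_on with
      | _ u =>
      induction v using QuotientGroup.induction_on with
      | _ v =>
      simp only [F, Subgroup.quotientMapOfLE_apply_mk, Prod.mk.injEq, QuotientGroup.eq] at h
      exact QuotientGroup.eq.2 h
    have hFb : Function.Bijective F := (Nat.bijective_iff_injective_and_card F).2 ⟨hFinj, le_antisymm
      (Nat.card_le_card_of_injective F hFinj) (by
        rw [Nat.card_prod]
        exact Nat.le_of_dvd Nat.card_pos (hcop.symm.mul_dvd_of_dvd_of_dvd (Subgroup.index_dvd_of_le inf_le_left)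
          (Subgroup.index_dvd_of_le inf_le_right)))⟩
    have hST : ∀ h : H, ∃ s ∈ S, ∃ t ∈ T, h = s * t := by
      intro h
      obtain ⟨c, hc⟩ := hFb.2 (((1 : H) : H ⧸ S), (h : H ⧸ T))
      induction c using QuotientGroup.induction_on with
      | _ c =>
      simp only [F, Subgroup.quotientMapOfLE_apply_mk, Prod.mk.injEq, QuotientGroup.eq, mul_one] at hc
      exact ⟨c, by simpa using S.inv_mem hc.1, c⁻¹ * h, hc.2, by group⟩
    let f : V →ₗ[k] V := ∑ s : S, ρ (s : H)
    have hf : ∀ v, f v = ∑ s : S, ρ (s : H) v := fun v => LinearMap.sum_apply _ _ _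
    have hfa : ∀ g, f (ρ g a) = f a := by
      intro g
      obtain ⟨s, hs, t, ht, rfl⟩ := hST g
      have ht' : ρ t a = a := ht
      rw [map_mul, Module.End.mul_apply, ht', hf, hf]
      exact Fintype.sum_equiv (Equiv.mulRight (⟨s, hs⟩ : S)) _ _ fun x => by simp [map_mul]
    have hS0 : (Nat.card S : k) ≠ 0 := fun h => hcard (by
      rw [← S.index_mul_card, Nat.cast_mul, h, mul_zero])
    have h1 : (Nat.card S : k) • e a = (Nat.card H : k) • f a := by
      have e1 : f (e a) = (Nat.card S : k) • e a := by
        rw [hf, Finset.sum_congr rfl (fun s _ => hinv _ a), Finset.sum_const, Finset.card_univ,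
          ← Nat.card_eq_fintype_card, Nat.cast_smul_eq_nsmul]
      rw [← e1, he, map_sum, Finset.sum_congr rfl (fun g _ => hfa g), Finset.sum_const, Finset.card_univ,
        ← Nat.card_eq_fintype_card, Nat.cast_smul_eq_nsmul]
    have h2 : b ∈ k ∙ e a := by
      have h3 := hrange f (f a) hfa b
      rw [hf b, Finset.sum_congr rfl (fun (s : S) _ => (s.2 : ρ (s : H) b = b)), Finset.sum_const, Finset.card_univ,
        ← Nat.card_eq_fintype_card, ← Nat.cast_smul_eq_nsmul k] at h3
      obtain ⟨c, hc⟩ := Submodule.mem_span_singleton.1 ((Submodule.smul_mem_iff _ hS0).1 h3)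
      refine Submodule.mem_span_singleton.2 ⟨c * (Nat.card S : k) * (Nat.card H : k)⁻¹, ?_⟩
      rw [← hc, mul_assoc, mul_smul, mul_comm (Nat.card S : k), mul_smul, h1, inv_smul_smul₀ hcard]
    intro h
    obtain ⟨c, hc⟩ := Submodule.mem_span_singleton.1 h2
    rw [← hc, map_smul, hinv]

end Cfsg.Agent.S4177
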