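import Cfsg.Statements.S4178
import Mathlib

set_option autoImplicit false
open Cfsg

namespace Cfsg.Agent.S4178

/-- A subgroup containing the point fibres of a map has index at most the size of the range. -/
theorem index_le_of_fibres {H X : Type*} [Group H] [Finite X] (R : Subgroup H) (s : H → X) (x₀ : X)
    (h0 : ∀ h, s h ≠ x₀) (hs : ∀ h h', s h = s h' → h⁻¹ * h' ∈ R) : R.index ≤ Nat.card X - 1 := by
  classical
  haveI := Fintype.ofFinite X
  haveI : Finite {x : X // x ≠ x₀} := inferInstance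
  have hcard : Nat.card {x : X // x ≠ x₀} = Nat.card X - 1 := by
    rw [Nat.card_eq_fintype_card, Fintype.card_subtype_compl, Fintype.card_subtype_eq, Nat.card_eq_fintype_card]
  rw [← hcard]
  let g : {x : X // x ≠ x₀} → H ⧸ R := fun x =>
    if hx : ∃ h, s h = x.1 then (hx.choose : H ⧸ R) else ((1 : H) : H ⧸ R)
  refine Nat.card_le_card_of_surjective g (fun c => ?_)
  obtain ⟨h, rfl⟩ := QuotientGroup.mk_surjective c
  refine ⟨⟨s h, h0 h⟩, ?_⟩
  have hx : ∃ h', s h' = s h := ⟨h, rfl⟩
  show dite _ _ _ = _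
  rw [dif_pos hx, QuotientGroup.eq]
  exact hs _ _ hx.choose_spec

/-- Let F be a finite field with q elements, V a non-zero finite-dimensional F-space of dimension d, H a group of invertible linear maps of V, and R the subgroup of H generated by the elements of H that fix some non-zero vector (have eigenvalue 1). Then the index of R in H is at most q^d − 1; and if H leaves invariant some proper non-zero subspace, the index is at most q^(d/2) − 1. -/
theorem result {F V : Type*} [Field F] [Fintype F] [AddCommGroup V] [Module F V] [FiniteDimensional F V] [Nontrivial V]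
    (H : Subgroup (V ≃ₗ[F] V)) :
    (Subgroup.closure {h : ↥H | ∃ v : V, v ≠ 0 ∧ (h : V ≃ₗ[F] V) v = v}).index ≤ Fintype.card F ^ Module.finrank F V - 1 ∧
    ((∃ W : Submodule F V, W ≠ ⊥ ∧ W ≠ ⊤ ∧ ∀ h ∈ H, ∀ w ∈ W, h w ∈ W) →
      ((Subgroup.closure {h : ↥H | ∃ v : V, v ≠ 0 ∧ (h : V ≃ₗ[F] V) v = v}).index : ℝ) ≤ Real.sqrt ((Fintype.card F : ℝ) ^ Module.finrank F V) - 1) := by
  classical
  set R := Subgroup.closure {h : ↥H | ∃ v : V, v ≠ 0 ∧ (h : V ≃ₗ[F] V) v = v} with hR
  haveI : Finite V := Module.finite_of_finite F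
  have hq : Nat.card F = Fintype.card F := Nat.card_eq_fintype_card
  constructor
  · obtain ⟨v, hv⟩ := exists_ne (0 : V)
    rw [← hq, ← Module.natCard_eq_pow_finrank (K := F) (V := V)]
    refine index_le_of_fibres R (fun h => (h : V ≃ₗ[F] V) v) 0 (fun h => by simpa using hv) (fun h h' e => ?_)
    refine Subgroup.subset_closure ⟨v, hv, ?_⟩
    show (((h : V ≃ₗ[F] V)⁻¹) * (h' : V ≃ₗ[F] V)) v = v
    rw [LinearEquiv.mul_apply, ← show (h : V ≃ₗ[F] V) v = (h' : V ≃ₗ[F] V) v from e]
    exact LinearEquiv.symm_apply_apply _ _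
  · rintro ⟨W, hW0, hWt, hW⟩
    have key : ∃ k : ℕ, 2 * k ≤ Module.finrank F V ∧ R.index ≤ Fintype.card F ^ k - 1 := by
      have hsum := W.finrank_quotient_add_finrank
      rcases le_total (Module.finrank F W) (Module.finrank F (V ⧸ W)) with hle | hle
      · refine ⟨Module.finrank F W, by omega, ?_⟩
        obtain ⟨⟨v, hvW⟩, hv⟩ : ∃ v : W, v ≠ 0 := by
          haveI := Submodule.nontrivial_iff_ne_bot.mpr hW0
          exact exists_ne 0
        have hv0 : v ≠ 0 := fun e => hv (Subtype.ext e)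
        rw [← hq, ← Module.natCard_eq_pow_finrank (K := F) (V := W)]
        refine index_le_of_fibres R (fun h => (⟨(h : V ≃ₗ[F] V) v, hW h h.2 v hvW⟩ : W)) 0
          (fun h e => hv0 (by simpa using congrArg Subtype.val e)) (fun h h' e => ?_)
        refine Subgroup.subset_closure ⟨v, hv0, ?_⟩
        show (((h : V ≃ₗ[F] V)⁻¹) * (h' : V ≃ₗ[F] V)) v = v
        rw [LinearEquiv.mul_apply, ← show (h : V ≃ₗ[F] V) v = (h' : V ≃ₗ[F] V) v from congrArg Subtype.val e]
        exact LinearEquiv.symm_apply_apply _ _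
      · refine ⟨Module.finrank F (V ⧸ W), by omega, ?_⟩
        obtain ⟨v, hv⟩ : ∃ v : V, v ∉ W := by
          by_contra hc
          push Not at hc
          exact hWt ((Submodule.eq_top_iff').mpr hc)
        haveI : Finite (V ⧸ W) := Finite.of_surjective _ W.mkQ_surjective
        rw [← hq, ← Module.natCard_eq_pow_finrank (K := F) (V := V ⧸ W)]
        refine index_le_of_fibres R (fun h => W.mkQ ((h : V ≃ₗ[F] V) v)) 0 (fun h e => hv ?_) (fun h h' e => ?_)
        · rw [Submodule.mkQ_apply, Submodule.Quotient.mk_eq_zero] at e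
          have h2 := hW _ (H.inv_mem h.2) _ e
          rwa [show ((h : V ≃ₗ[F] V)⁻¹) ((h : V ≃ₗ[F] V) v) = v from LinearEquiv.symm_apply_apply _ _] at h2
        · set g : ↥H := h⁻¹ * h' with hg
          have hgv : (g : V ≃ₗ[F] V) v - v ∈ W := by
            have h1 : (h' : V ≃ₗ[F] V) v - (h : V ≃ₗ[F] V) v ∈ W := (Submodule.Quotient.eq W).mp e.symm
            have h2 := hW _ (H.inv_mem h.2) _ h1
            rw [map_sub, show ((h : V ≃ₗ[F] V)⁻¹) ((h : V ≃ₗ[F] V) v) = v from LinearEquiv.symm_apply_apply _ _] at h2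
            exact h2
          apply Subgroup.subset_closure
          by_contra hc
          have hinj : Function.Injective (((g : V ≃ₗ[F] V) : V →ₗ[F] V) - (LinearMap.id : V →ₗ[F] V)) := by
            rw [← LinearMap.ker_eq_bot, Submodule.eq_bot_iff]
            intro x hx
            by_contra hx0
            rw [LinearMap.mem_ker, LinearMap.sub_apply, LinearMap.id_apply, sub_eq_zero] at hx
            exact hc ⟨x, hx0, hx⟩
          set D := ((g : V ≃ₗ[F] V) : V →ₗ[F] V) - (LinearMap.id : V →ₗ[F] V) with hD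
          have hDW : ∀ w ∈ W, D w ∈ W := fun w hw => W.sub_mem (hW _ g.2 w hw) hw
          have hinjW : Function.Injective (D.restrict hDW) := fun a b hab =>
            Subtype.ext (hinj (congrArg Subtype.val hab))
          obtain ⟨⟨w, hw⟩, hwe⟩ := LinearMap.injective_iff_surjective.mp hinjW ⟨D v, hgv⟩
          exact hv (hinj (congrArg Subtype.val hwe) ▸ hw)
    obtain ⟨k, hk, hkle⟩ := key
    have h1 : (1 : ℕ) ≤ Fintype.card F ^ k := Nat.one_le_pow _ _ Fintype.card_pos
    have h2 : ((R.index : ℕ) : ℝ) ≤ ((Fintype.card F : ℝ)) ^ k - 1 := by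
      have := (Nat.cast_le (α := ℝ)).mpr hkle
      rwa [Nat.cast_sub h1, Nat.cast_pow, Nat.cast_one] at this
    refine h2.trans (sub_le_sub_right (Real.le_sqrt_of_sq_le ?_) 1)
    rw [← pow_mul]
    exact pow_le_pow_right₀ (by exact_mod_cast Fintype.card_pos) (by omega)

end Cfsg.Agent.S4178
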