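import Cfsg.Statements.S4181
import Cfsg.Agent.SylowRatio.Main
-- import your own Cfsg.Agent.* helpers here

set_option autoImplicit false
open Cfsg

namespace Cfsg.Agent.S4181

/-- Let p be a prime and G a finite group generated by its elements of p-power order, and let H be a proper subgroup of G containing a Sylow p-subgroup of G. Then 2p − 1 times the number of Sylow p-subgroups of H is at most p − 1 times the number of Sylow p-subgroups of G. -/
theorem result {G : Type*} [Group G] [Finite G] (p : ℕ) [Fact p.Prime] (hgen : Subgroup.closure {g : G | ∃ k : ℕ, orderOf g = p ^ k} = ⊤)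
    (H : Subgroup G) (hH : H ≠ ⊤) (P : Sylow p G) (hP : (P : Subgroup G) ≤ H) :
    (2 * p - 1) * Nat.card (Sylow p ↥H) ≤ (p - 1) * Nat.card (Sylow p G) := by
  classical
  open scoped Pointwise in
  have hp2 := (Fact.out : p.Prime).two_le
  have hTop : SylowRatio.Full p (⊤ : Subgroup G) := by
    refine ⟨⟨P, SylowRatio.mem_syl.mpr le_top⟩, top_le_iff.mp ?_⟩
    refine hgen.symm.le.trans ((Subgroup.closure_le _).mpr ?_)
    rintro g ⟨k, hk⟩
    have hz : IsPGroup p (Subgroup.zpowers g) :=
      IsPGroup.of_card (n := k) (by rw [Nat.card_zpowers, hk])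
    obtain ⟨Q, hQ⟩ := hz.exists_le_sylow
    have hQ' : Q ∈ SylowRatio.syl p (⊤ : Subgroup G) := SylowRatio.mem_syl.mpr le_top
    rw [← SylowRatio.syl_core, SylowRatio.mem_syl] at hQ'
    exact hQ' (hQ (Subgroup.mem_zpowers g))
  have hne : (SylowRatio.syl p H).Nonempty := ⟨P, SylowRatio.mem_syl.mpr hP⟩
  have hlt : SylowRatio.core p H < ⊤ :=
    lt_of_le_of_lt (SylowRatio.core_le H) (lt_top_iff_ne_top.mpr hH)
  have hb := SylowRatio.bound ⊤ hTop _ (SylowRatio.full_core hne) hlt
  rw [SylowRatio.syl_core] at hb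
  have e1 : (SylowRatio.syl p (⊤ : Subgroup G)).card = Nat.card (Sylow p G) := by
    rw [← Nat.card_eq_finsetCard]
    exact Nat.card_congr (Equiv.subtypeUnivEquiv fun R => SylowRatio.mem_syl.mpr le_top)
  have e2 : (SylowRatio.syl p H).card = Nat.card (Sylow p ↥H) := by
    rw [← Nat.card_eq_finsetCard]
    refine Nat.card_congr (Equiv.ofBijective
      (fun R : ↥(SylowRatio.syl p H) => R.1.subtype (SylowRatio.mem_syl.mp R.2)) ⟨?_, ?_⟩)
    · intro a b h
      exact Subtype.ext (Sylow.subtype_injective h)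
    · intro Q
      obtain ⟨g, hg⟩ := MulAction.exists_smul_eq ↥H (P.subtype hP) Q
      refine ⟨⟨(g : G) • P, ?_⟩, ?_⟩
      · rw [SylowRatio.mem_syl, Sylow.coe_subgroup_smul]
        exact Subgroup.conj_smul_le_of_le hP g
      · rw [← hg, Sylow.smul_subtype]; rfl
  rw [e1, e2] at hb
  have h1 : ((2 * p - 1 : ℕ) : ℤ) = 2 * (p : ℤ) - 1 := by omega
  have h2 : ((p - 1 : ℕ) : ℤ) = (p : ℤ) - 1 := by omega
  zify
  rw [h1, h2]
  exact hb

end Cfsg.Agent.S4181
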