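import Cfsg.Statements.S4184
import Cfsg.Agent.TwoClasses.Basic

set_option autoImplicit false
open Cfsg

namespace Cfsg.Agent.S4184

universe uG uM

private noncomputable abbrev cs {X : Type*} [Group X] (x : X) : ℕ := (Subgroup.centralizer ({x} : Set X)).index

private def Full (m : ℕ) (A : Set ℕ) (n : ℕ) : Prop :=
  ∀ r ∈ A, r.Prime → m.factorization r ≤ n.factorization r

private theorem cs_dvd {X : Type*} [Group X] {x y : X} (h : Commute x y)
    (hc : (orderOf x).Coprime (orderOf y)) :
    Subgroup.centralizer ({x * y} : Set X) ≤ Subgroup.centralizer ({x} : Set X) := by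
  intro g hg
  obtain ⟨n, hn1, hn0⟩ := Nat.chineseRemainder hc 1 0
  have hxy : (x * y) ^ n = x := by
    rw [h.mul_pow, pow_eq_pow_iff_modEq.2 hn1, pow_eq_pow_iff_modEq.2 hn0, pow_one, pow_zero, mul_one]
  rw [Subgroup.mem_centralizer_singleton_iff] at hg ⊢
  have : Commute g ((x * y) ^ n) := Commute.pow_right hg n
  rwa [hxy] at this

private theorem fact_index {X : Type*} [Group X] [Finite X] (H : Subgroup X) (r : ℕ) :
    (Nat.card X).factorization r = (Nat.card H).factorization r + H.index.factorization r := by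
  rw [← H.card_mul_index, Nat.factorization_mul Nat.card_pos.ne' H.index_ne_zero_of_finite,
    Finsupp.add_apply]

private theorem cs_ne_one {X : Type*} [Group X] (hZ : Subgroup.center X = ⊥) {x : X} (hx : x ≠ 1) : cs x ≠ 1 := by
  intro h
  have h1 : x ∈ Subgroup.center X := Subgroup.mem_center_iff.2 fun g =>
    Subgroup.mem_centralizer_singleton_iff.1 ((Subgroup.index_eq_one.1 h).ge (Subgroup.mem_top g))
  rw [hZ, Subgroup.mem_bot] at h1
  exact hx h1

/-- A `p`-element of `K` commuting with a Sylow `p`-subgroup `R` of `K` lies in `R`. -/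
private theorem mem_of_commute {X : Type*} [Group X] [Finite X] {p : ℕ} [Fact p.Prime] {R K : Subgroup X}
    (hR : IsPGroup p R) (hRK : R ≤ K) (hcard : Nat.card R = p ^ (Nat.card K).factorization p) {x : X}
    (hxK : x ∈ K) (hxp : ∃ k, orderOf x = p ^ k) (hc : ∀ r ∈ R, Commute r x) : x ∈ R := by
  obtain ⟨k, hk⟩ := hxp
  have hx : IsPGroup p (Subgroup.zpowers x) := IsPGroup.of_card (n := k) (by rw [Nat.card_zpowers, hk])
  have hS : IsPGroup p (R ⊔ Subgroup.zpowers x : Subgroup X) := by
    refine hR.to_sup_of_normal_right' hx ?_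
    refine le_trans ?_ (Subgroup.centralizer_le_normalizer _)
    intro r hr
    rw [Subgroup.mem_centralizer_iff]
    rintro _ ⟨i, rfl⟩
    exact ((hc r hr).zpow_right i).symm.eq
  obtain ⟨j, hj⟩ := hS.exists_card_eq
  have hd : p ^ j ∣ Nat.card K := hj ▸ Subgroup.card_dvd_of_le (sup_le hRK ((Subgroup.zpowers_le).2 hxK))
  have hle : j ≤ (Nat.card K).factorization p :=
    ((Fact.out : p.Prime).pow_dvd_iff_le_factorization Nat.card_pos.ne').1 hd
  have heq : R = R ⊔ Subgroup.zpowers x := Subgroup.eq_of_le_of_card_ge le_sup_left (by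
    rw [hj, hcard]; exact Nat.pow_le_pow_right (Fact.out : p.Prime).pos hle)
  rw [heq]
  exact Subgroup.mem_sup_right (Subgroup.mem_zpowers x)

variable {G : Type uG} {M : Type uM} [Group G] [Finite G] [Group M] [Finite M] {A : Set ℕ}

private theorem full_of_prime
    (hd : ∀ a ∈ A, ∀ b ∉ A, a.Prime → b.Prime → a ∣ Nat.card M → b ∣ Nat.card M → ¬ ∃ x : M, orderOf x = a * b)
    {x : M} (hx : (orderOf x).Prime) {m : M} (hm : Subgroup.centralizer ({m} : Set M) ≤ Subgroup.centralizer ({x} : Set M)) :
    (orderOf x ∈ A → Full (Nat.card M) Aᶜ (cs m)) ∧ (orderOf x ∉ A → Full (Nat.card M) A (cs m)) := by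
  have key : ∀ s : ℕ, s.Prime → ¬ (∃ u : M, orderOf u = orderOf x * s) → s ≠ orderOf x →
      (Nat.card M).factorization s ≤ (cs m).factorization s := by
    intro s hs hno hne
    rw [fact_index (Subgroup.centralizer ({m} : Set M)) s, Nat.factorization_eq_zero_of_not_dvd, zero_add]
    intro hdv
    haveI := Fact.mk hs
    obtain ⟨u, hu⟩ := exists_prime_orderOf_dvd_card' s (hdv.trans (Subgroup.card_dvd_of_le hm))
    have hcom : Commute x (u : M) := (Subgroup.mem_centralizer_singleton_iff.1 u.2).symm
    exact hno ⟨x * (u : M), by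
      rw [hcom.orderOf_mul_eq_mul_orderOf_of_coprime, Subgroup.orderOf_coe, hu]
      rw [Subgroup.orderOf_coe, hu]
      exact (Nat.coprime_primes hx hs).2 hne.symm⟩
  constructor
  · intro hA s hsA hs
    by_cases hsM : s ∣ Nat.card M
    · exact key s hs (hd _ hA s hsA hx hs (orderOf_dvd_natCard x) hsM) fun e => hsA (e ▸ hA)
    · simp [Nat.factorization_eq_zero_of_not_dvd hsM]
  · intro hA s hsA hs
    by_cases hsM : s ∣ Nat.card M
    · refine key s hs (fun ⟨u, hu⟩ => hd s hsA _ hA hs hx hsM (orderOf_dvd_natCard x) ⟨u, by rw [hu, mul_comm]⟩)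
        fun e => hA (e ▸ hsA)
    · simp [Nat.factorization_eq_zero_of_not_dvd hsM]

private theorem dichotomy
    (hd : ∀ a ∈ A, ∀ b ∉ A, a.Prime → b.Prime → a ∣ Nat.card M → b ∣ Nat.card M → ¬ ∃ x : M, orderOf x = a * b)
    (h : Set.range (fun g : G => cs g) = Set.range (fun g : M => cs g)) (g : G) (hg : cs g ≠ 1) :
    (Full (Nat.card M) A (cs g) ∨ Full (Nat.card M) Aᶜ (cs g)) ∧
      ¬ (Full (Nat.card M) A (cs g) ∧ Full (Nat.card M) Aᶜ (cs g)) := by
  obtain ⟨m, hm⟩ : cs g ∈ Set.range (fun g : M => cs g) := h ▸ Set.mem_range_self g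
  simp only at hm
  rw [← hm] at hg ⊢
  have hm1 : m ≠ 1 := by
    rintro rfl
    refine hg (Subgroup.index_eq_one.2 (top_le_iff.1 fun y _ => ?_))
    rw [Subgroup.mem_centralizer_singleton_iff, one_mul, mul_one]
  constructor
  · obtain ⟨r, hr, hrd⟩ := Nat.exists_prime_and_dvd (mt orderOf_eq_one_iff.1 hm1)
    have hx : orderOf (m ^ (orderOf m / r)) = r := orderOf_pow_orderOf_div (orderOf_pos m).ne' hrd
    have hle : Subgroup.centralizer ({m} : Set M) ≤ Subgroup.centralizer ({m ^ (orderOf m / r)} : Set M) := by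
      intro y hy
      rw [Subgroup.mem_centralizer_singleton_iff] at hy ⊢
      exact (Commute.pow_right hy _)
    have := full_of_prime hd (by rw [hx]; exact hr) hle
    by_cases hA : orderOf (m ^ (orderOf m / r)) ∈ A
    · exact Or.inr (this.1 hA)
    · exact Or.inl (this.2 hA)
  · rintro ⟨h1, h2⟩
    have hdv : Nat.card M ∣ cs m := by
      rw [← Nat.factorization_le_iff_dvd Nat.card_pos.ne' (Subgroup.index_ne_zero_of_finite)]
      intro r
      by_cases hr : r.Prime
      · by_cases hA : r ∈ A
        · exact h1 r hA hr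
        · exact h2 r hA hr
      · simp [Nat.factorization_eq_zero_of_not_prime _ hr]
    have h3 : cs m = Nat.card M := Nat.dvd_antisymm (Subgroup.index_dvd_card _) hdv
    have h4 := (Subgroup.centralizer ({m} : Set M)).card_mul_index
    rw [show (Subgroup.centralizer ({m} : Set M)).index = cs m from rfl, h3] at h4
    have h5 : Subgroup.centralizer ({m} : Set M) = ⊥ :=
      Subgroup.card_eq_one.1 (Nat.eq_of_mul_eq_mul_right Nat.card_pos (h4.trans (one_mul _).symm))
    exact hm1 (Subgroup.mem_bot.1 (h5 ▸ Subgroup.mem_centralizer_singleton_iff.2 rfl))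

private theorem le_fact (hZG : Subgroup.center G = ⊥)
    (hd : ∀ a ∈ A, ∀ b ∉ A, a.Prime → b.Prime → a ∣ Nat.card M → b ∣ Nat.card M → ¬ ∃ x : M, orderOf x = a * b)
    (h : Set.range (fun g : G => cs g) = Set.range (fun g : M => cs g)) (hdvd : Nat.card M ∣ Nat.card G)
    {b : ℕ} (hb : b ∉ A) (hbp : b.Prime) (hbM : b ∣ Nat.card M) {p : ℕ} (hp : p.Prime) (hpA : p ∈ A) :
    (Nat.card G).factorization p ≤ (Nat.card M).factorization p := by
  haveI := Fact.mk hp
  haveI := Fact.mk hbp
  by_contra hlt
  have hM : ∀ g : G, (cs g).factorization p ≤ (Nat.card M).factorization p := fun g => by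
    obtain ⟨m, hm⟩ : cs g ∈ Set.range (fun g : M => cs g) := h ▸ Set.mem_range_self g
    simp only at hm
    rw [← hm]
    exact (Nat.factorization_le_iff_dvd Subgroup.index_ne_zero_of_finite Nat.card_pos.ne').2
      (Subgroup.index_dvd_card _) p
  obtain ⟨Q⟩ : Nonempty (Sylow b G) := inferInstance
  haveI hQnt : Nontrivial (Q : Subgroup G) := (Subgroup.nontrivial_iff_ne_bot _).2 (Q.ne_bot_of_dvd_card (hbM.trans hdvd))
  haveI := Q.2.center_nontrivial
  obtain ⟨⟨y, hy⟩, hy1⟩ := exists_ne (1 : Subgroup.center (Q : Subgroup G))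
  have hy1' : (y : G) ≠ 1 := fun e => hy1 (Subtype.ext (Subtype.ext e))
  have hQy : (Q : Subgroup G) ≤ Subgroup.centralizer ({(y : G)} : Set G) := fun u hu =>
    Subgroup.mem_centralizer_singleton_iff.2 (congrArg Subtype.val (Subgroup.mem_center_iff.1 hy ⟨u, hu⟩))
  have hyb : (cs (y : G)).factorization b = 0 := Nat.factorization_eq_zero_of_not_dvd fun hdv =>
    Q.not_dvd_index (hdv.trans (Subgroup.index_dvd_of_le hQy))
  have hbpos : 0 < (Nat.card M).factorization b := hbp.factorization_pos_of_dvd Nat.card_pos.ne' hbM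
  obtain ⟨hy_or, -⟩ := dichotomy hd h (y : G) (cs_ne_one hZG hy1')
  have hyA : Full (Nat.card M) A (cs (y : G)) := hy_or.resolve_right fun hh => by
    have := hh b hb hbp; omega
  have hyp := hM (y : G)
  simp only [cs] at hyp
  have hfy := fact_index (Subgroup.centralizer ({(y : G)} : Set G)) p
  have hpy : p ∣ Nat.card (Subgroup.centralizer ({(y : G)} : Set G)) := by
    refine Nat.dvd_of_factorization_pos fun h0 => ?_
    rw [h0] at hfy
    omega
  obtain ⟨⟨z, hzc⟩, hz⟩ := exists_prime_orderOf_dvd_card' p hpy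
  rw [← Subgroup.orderOf_coe] at hz
  change orderOf z = p at hz
  have hz1 : z ≠ 1 := fun e => hp.ne_one (by rw [← hz, e, orderOf_one])
  have hpb : p ≠ b := fun e => hb (e ▸ hpA)
  obtain ⟨k, hk⟩ := IsPGroup.iff_orderOf.1 Q.2 y
  rw [← Subgroup.orderOf_coe] at hk
  have hcop : (orderOf (y : G)).Coprime (orderOf z) := by
    rw [hk, hz]; exact Nat.Coprime.pow_left k ((Nat.coprime_primes hbp hp).2 hpb.symm)
  have hyz : Commute (y : G) z := (Subgroup.mem_centralizer_singleton_iff.1 hzc).symm
  set t : G := (y : G) * z with ht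
  have hty : Subgroup.centralizer ({t} : Set G) ≤ Subgroup.centralizer ({(y : G)} : Set G) := cs_dvd hyz hcop
  have htz : Subgroup.centralizer ({t} : Set G) ≤ Subgroup.centralizer ({z} : Set G) := by
    rw [ht, hyz.eq]; exact cs_dvd hyz.symm hcop.symm
  have hfull : ∀ (u : G) (B : Set ℕ), Subgroup.centralizer ({t} : Set G) ≤ Subgroup.centralizer ({u} : Set G) →
      Full (Nat.card M) B (cs u) → Full (Nat.card M) B (cs t) := fun u B hle hu r hr hrp =>
    le_trans (hu r hr hrp) ((Nat.factorization_le_iff_dvd Subgroup.index_ne_zero_of_finite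
      Subgroup.index_ne_zero_of_finite).2 (Subgroup.index_dvd_of_le hle) r)
  have htA := hfull _ _ hty hyA
  have ht1 : cs t ≠ 1 := fun e => by
    have := hyA
    have h1 : Subgroup.centralizer ({(y : G)} : Set G) = ⊤ := top_le_iff.1 ((Subgroup.index_eq_one.1 e).ge.trans hty)
    exact cs_ne_one hZG hy1' (Subgroup.index_eq_one.2 h1)
  have hzA : Full (Nat.card M) A (cs z) := (dichotomy hd h z (cs_ne_one hZG hz1)).1.resolve_right fun hh =>
    (dichotomy hd h t ht1).2 ⟨htA, hfull _ _ htz hh⟩
  obtain ⟨R0⟩ : Nonempty (Sylow p (Subgroup.centralizer ({t} : Set G))) := inferInstance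
  set R : Subgroup G := (R0 : Subgroup _).map (Subgroup.centralizer ({t} : Set G)).subtype with hR
  have hRt : R ≤ Subgroup.centralizer ({t} : Set G) := Subgroup.map_subtype_le _
  have hRp : IsPGroup p R := R0.2.map _
  have hRc : Nat.card R = p ^ (Nat.card (Subgroup.centralizer ({t} : Set G))).factorization p := by
    rw [hR, Subgroup.card_map_of_injective (Subgroup.subtype_injective _), R0.card_eq_multiplicity]
  have hzR : z ∈ R := mem_of_commute hRp hRt hRc (Subgroup.mem_centralizer_singleton_iff.2 (by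
      rw [ht]; exact (hyz.symm.mul_right (Commute.refl z)).eq)) ⟨1, by rw [hz, pow_one]⟩ fun r hr =>
    Subgroup.mem_centralizer_singleton_iff.1 (htz (hRt hr))
  have he : (Nat.card (Subgroup.centralizer ({z} : Set G))).factorization p =
      (Nat.card (Subgroup.centralizer ({t} : Set G))).factorization p := by
    have h1 := fact_index (Subgroup.centralizer ({z} : Set G)) p
    have h2 := fact_index (Subgroup.centralizer ({t} : Set G)) p
    have h3 := hM z
    have h4 := hM t
    have h5 := hzA p hpA hp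
    have h6 := htA p hpA hp
    simp only [cs] at h3 h4 h5 h6
    omega
  obtain ⟨P, hP⟩ := hRp.exists_le_sylow
  have hPnt : Nontrivial (P : Subgroup G) := ⟨⟨⟨z, hP hzR⟩, 1, fun e => hz1 (congrArg Subtype.val e)⟩⟩
  haveI := P.2.center_nontrivial
  obtain ⟨⟨w, hw⟩, hw1⟩ := exists_ne (1 : Subgroup.center (P : Subgroup G))
  have hw1' : (w : G) ≠ 1 := fun e => hw1 (Subtype.ext (Subtype.ext e))
  have hPw : ∀ u ∈ (P : Subgroup G), Commute u (w : G) := fun u hu =>
    congrArg Subtype.val (Subgroup.mem_center_iff.1 hw ⟨u, hu⟩)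
  obtain ⟨j, hj⟩ := IsPGroup.iff_orderOf.1 P.2 w
  rw [← Subgroup.orderOf_coe] at hj
  have hwR : (w : G) ∈ R := mem_of_commute hRp (hRt.trans htz) (hRc.trans (by rw [he]))
    (Subgroup.mem_centralizer_singleton_iff.2 (hPw z (hP hzR)).symm.eq) ⟨j, hj⟩ fun r hr => hPw r (hP hr)
  have hwy : Commute (y : G) (w : G) := (Subgroup.mem_centralizer_singleton_iff.1 (hty (hRt hwR))).symm
  have hwp : (cs (w : G)).factorization p = 0 := Nat.factorization_eq_zero_of_not_dvd fun hdv =>
    P.not_dvd_index (hdv.trans (Subgroup.index_dvd_of_le fun u hu =>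
      Subgroup.mem_centralizer_singleton_iff.2 (hPw u hu).eq))
  have hppos : 0 < (Nat.card M).factorization p := by
    obtain ⟨g, hg⟩ : ∃ g : G, p ∣ cs g := by
      by_contra hcon
      push_neg at hcon
      have htop : Subgroup.centralizer ((P : Subgroup G) : Set G) = ⊤ := by
        refine CfsgLib.TwoClasses.eq_top_of_conj_cover _ fun a => ?_
        obtain ⟨T0⟩ : Nonempty (Sylow p (Subgroup.centralizer ({a} : Set G))) := inferInstance
        have hT : IsPGroup p ((T0 : Subgroup _).map (Subgroup.centralizer ({a} : Set G)).subtype) := T0.2.map _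
        obtain ⟨T, hTle⟩ := hT.exists_le_sylow
        obtain ⟨c, hc⟩ := MulAction.exists_smul_eq G P T
        have hTeq : (T0 : Subgroup _).map (Subgroup.centralizer ({a} : Set G)).subtype = (T : Subgroup G) := by
          refine Subgroup.eq_of_le_of_card_ge hTle (le_of_eq ?_)
          rw [Subgroup.card_map_of_injective (Subgroup.subtype_injective _), T0.card_eq_multiplicity, T.card_eq_multiplicity]
          congr 1
          have h1 := fact_index (Subgroup.centralizer ({a} : Set G)) p
          rw [Nat.factorization_eq_zero_of_not_dvd (hcon a)] at h1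
          omega
        refine ⟨c, Subgroup.mem_centralizer_iff.2 fun u hu => ?_⟩
        have h2 : c * u * c⁻¹ ∈ Subgroup.centralizer ({a} : Set G) := by
          refine Subgroup.map_subtype_le (T0 : Subgroup _) (hTeq.ge ?_)
          rw [← hc]
          exact ⟨u, hu, rfl⟩
        rw [Subgroup.mem_centralizer_singleton_iff] at h2
        calc u * (c⁻¹ * a * c) = c⁻¹ * ((c * u * c⁻¹) * a) * c := by group
          _ = c⁻¹ * (a * (c * u * c⁻¹)) * c := by rw [h2]
          _ = c⁻¹ * a * c * u := by group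
      have : (P : Subgroup G) ≤ Subgroup.center G := fun u hu => Subgroup.mem_center_iff.2 fun g =>
        (Subgroup.mem_centralizer_iff.1 (htop.ge (Subgroup.mem_top g)) u hu).symm
      exact hz1 (by simpa [hZG] using this (hP hzR))
    have h1 := hM g
    have h2 : 0 < (cs g).factorization p := hp.factorization_pos_of_dvd Subgroup.index_ne_zero_of_finite hg
    omega
  have hwB : Full (Nat.card M) Aᶜ (cs (w : G)) :=
    (dichotomy hd h (w : G) (cs_ne_one hZG hw1')).1.resolve_left fun hh => by
      have := hh p hpA hp; omega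
  have hcop' : (orderOf (y : G)).Coprime (orderOf (w : G)) := by
    rw [hk, hj]; exact Nat.Coprime.pow _ _ ((Nat.coprime_primes hbp hp).2 hpb.symm)
  have hs1 : Subgroup.centralizer ({(y : G) * w} : Set G) ≤ Subgroup.centralizer ({(y : G)} : Set G) := cs_dvd hwy hcop'
  have hs2 : Subgroup.centralizer ({(y : G) * w} : Set G) ≤ Subgroup.centralizer ({(w : G)} : Set G) := by
    rw [hwy.eq]; exact cs_dvd hwy.symm hcop'.symm
  have hup : ∀ (u : G) (B : Set ℕ), Subgroup.centralizer ({(y : G) * w} : Set G) ≤ Subgroup.centralizer ({u} : Set G) →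
      Full (Nat.card M) B (cs u) → Full (Nat.card M) B (cs ((y : G) * w)) := fun u B hle hu r hr hrp =>
    le_trans (hu r hr hrp) ((Nat.factorization_le_iff_dvd Subgroup.index_ne_zero_of_finite
      Subgroup.index_ne_zero_of_finite).2 (Subgroup.index_dvd_of_le hle) r)
  refine (dichotomy hd h ((y : G) * w) fun e => ?_).2 ⟨hup _ _ hs1 hyA, hup _ _ hs2 hwB⟩
  have := hup _ _ hs1 hyA p hpA hp
  rw [e, Nat.factorization_one, Finsupp.zero_apply] at this
  omega

/-- Let G and M be finite groups with trivial centres and the same set of conjugacy class sizes, and suppose the prime graph of M is disconnected: the prime divisors of #M split into two non-empty parts such that M has no element of order pq with p in one part and q in the other. Then #G = #M. -/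
theorem result {G M : Type*}
    [Group G] [Finite G] [Group M] [Finite M] (hZG : Subgroup.center G = ⊥) (hZM : Subgroup.center M = ⊥)
    (h : Set.range (fun g : G => (Subgroup.centralizer ({g} : Set G)).index) = Set.range (fun g : M => (Subgroup.centralizer ({g} : Set M)).index))
    (hdisc : ∃ A : Set ℕ, (∃ a ∈ A, a.Prime ∧ a ∣ Nat.card M) ∧ (∃ b ∉ A, b.Prime ∧ b ∣ Nat.card M) ∧
      ∀ a ∈ A, ∀ b ∉ A, a.Prime → b.Prime → a ∣ Nat.card M → b ∣ Nat.card M → ¬ ∃ x : M, orderOf x = a * b) :
    Nat.card G = Nat.card M := by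
  obtain ⟨A, ⟨a, haA, hap, haM⟩, ⟨b, hbA, hbp, hbM⟩, hd⟩ := hdisc
  have hdvd : Nat.card M ∣ Nat.card G := by
    rw [← Nat.factorization_le_iff_dvd Nat.card_pos.ne' Nat.card_pos.ne']
    intro r
    by_cases hr : r.Prime
    · have hex : ∀ s : ℕ, s.Prime → s ∣ Nat.card M → (s ∈ A ↔ r ∉ A) →
          (Nat.card M).factorization r ≤ (Nat.card G).factorization r := by
        intro s hs hsM hside
        haveI := Fact.mk hs
        obtain ⟨x, hx⟩ := exists_prime_orderOf_dvd_card' s hsM
        have hf := full_of_prime hd (by rw [hx]; exact hs) (m := x) le_rfl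
        obtain ⟨g, hg⟩ : cs x ∈ Set.range (fun g : G => cs g) := h ▸ Set.mem_range_self x
        simp only at hg
        refine le_trans ?_ ((Nat.factorization_le_iff_dvd Subgroup.index_ne_zero_of_finite Nat.card_pos.ne').2
          (Subgroup.index_dvd_card (Subgroup.centralizer ({g} : Set G))) r)
        show _ ≤ (cs g).factorization r
        rw [hg]
        by_cases hA : r ∈ A
        · exact hf.2 (by rw [hx]; tauto) r hA hr
        · exact hf.1 (by rw [hx]; tauto) r hA hr
      by_cases hA : r ∈ A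
      · exact hex b hbp hbM (by tauto)
      · exact hex a hap haM (by tauto)
    · simp [Nat.factorization_eq_zero_of_not_prime _ hr]
  refine Nat.dvd_antisymm ?_ hdvd
  rw [← Nat.factorization_le_iff_dvd Nat.card_pos.ne' Nat.card_pos.ne']
  intro r
  by_cases hr : r.Prime
  · by_cases hA : r ∈ A
    · exact le_fact hZG hd h hdvd hbA hbp hbM hr hA
    · refine le_fact (A := Aᶜ) hZG (fun u hu v hv hup hvp huM hvM => ?_) h hdvd (b := a) (by simpa using haA) hap haM hr hA
      rintro ⟨x, hx⟩
      exact hd v (by simpa using hv) u hu hvp hup hvM huM ⟨x, by rw [hx, mul_comm]⟩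
  · simp [Nat.factorization_eq_zero_of_not_prime _ hr]

end Cfsg.Agent.S4184
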