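import Cfsg.Statements.S4186


set_option autoImplicit false
open Cfsg

namespace Cfsg.Agent.S4186

/-- Let T and X be subgroups of a group with T a finite 2-group normalizing X but not centralizing it. Then some element of T inverts some non-identity element of X under conjugation. -/
theorem result {G : Type*} [Group G] (T X : Subgroup G) [Finite ↥T] (hT : IsPGroup 2 ↥T) (hTN : T ≤ Subgroup.normalizer (X : Set G)) (hTC : ¬ T ≤ Subgroup.centralizer (X : Set G)) : ∃ t ∈ T, ∃ x ∈ X, x ≠ 1 ∧ t * x * t⁻¹ = x⁻¹ := by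
  classical
  obtain ⟨u, hu, huC⟩ := SetLike.not_le_iff_exists.mp hTC
  obtain ⟨k, hk⟩ := hT ⟨u, hu⟩
  have hk' : u ^ 2 ^ k = 1 := congrArg (fun w : T => (w : G)) hk
  have hex : ∃ j, u ^ 2 ^ j ∈ Subgroup.centralizer (X : Set G) :=
    ⟨k, by rw [hk']; exact one_mem _⟩
  have h1 : Nat.find hex ≠ 0 := by
    intro h0
    have := Nat.find_spec hex
    rw [h0] at this
    simp at this
    exact huC this
  obtain ⟨j, hj⟩ := Nat.exists_eq_succ_of_ne_zero h1
  have ht : u ^ 2 ^ j ∉ Subgroup.centralizer (X : Set G) := Nat.find_min hex (by omega)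
  have ht2 := Nat.find_spec hex
  rw [hj, pow_succ, pow_mul, pow_two] at ht2
  set t := u ^ 2 ^ j with htdef
  have htT : t ∈ T := T.pow_mem hu _
  rw [Subgroup.mem_centralizer_iff] at ht
  push Not at ht
  obtain ⟨y, hy, hne⟩ := ht
  have hy2 : t * y * t⁻¹ ∈ X := (Subgroup.mem_normalizer_iff.mp (hTN htT) y).mp hy
  refine ⟨t, htT, y⁻¹ * (t * y * t⁻¹), X.mul_mem (X.inv_mem hy) hy2, ?_, ?_⟩
  · intro he
    apply hne
    rw [inv_mul_eq_one] at he
    calc y * t = (t * y * t⁻¹) * t := by rw [← he]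
      _ = t * y := by group
  · have h2 := Subgroup.mem_centralizer_iff.mp ht2 y hy
    calc t * (y⁻¹ * (t * y * t⁻¹)) * t⁻¹ = t * y⁻¹ * t⁻¹ * ((t * t) * y) * (t * t)⁻¹ := by group
      _ = t * y⁻¹ * t⁻¹ * (y * (t * t)) * (t * t)⁻¹ := by rw [h2]
      _ = (y⁻¹ * (t * y * t⁻¹))⁻¹ := by group

end Cfsg.Agent.S4186
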