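import Cfsg.Statements.S4188
import Cfsg.Agent.HallHigmanB.InvariantGroup
import Cfsg.Agent.RankOneP.Basic
import Cfsg.Agent.PGroup.Critical

set_option autoImplicit false
open Cfsg

namespace Cfsg.Agent.S4188

open scoped IsMulCommutative
open Module
set_option maxHeartbeats 1600000

universe u

/-- The subgroup generated by the squares. -/
def Sq (G : Type*) [Group G] : Subgroup G := Subgroup.closure (Set.range fun x : G => x ^ 2)

theorem sq_mem {G : Type*} [Group G] (x : G) : x ^ 2 ∈ Sq G := Subgroup.subset_closure ⟨x, rfl⟩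

instance sq_normal (G : Type*) [Group G] : (Sq G).Normal := by
  refine ⟨fun x hx g => ?_⟩
  have h : Sq G ≤ (Sq G).comap (MulAut.conj g).toMonoidHom := by
    refine (Subgroup.closure_le _).2 ?_
    rintro _ ⟨y, rfl⟩
    show (MulAut.conj g).toMonoidHom (y ^ 2) ∈ Sq G
    rw [map_pow]
    exact sq_mem _
  exact h hx

theorem index_ext {G H : Type*} [Group G] [Finite G] [Group H] (f : G →* H) (hf : Function.Surjective f) :
    (Sq G).index ≤ (Sq f.ker).index * (Sq H).index := by
  have hmap : (Sq G).map f = Sq H := by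
    rw [Sq, Sq, MonoidHom.map_closure, ← Set.range_comp]
    congr 1
    ext y
    constructor
    · rintro ⟨x, rfl⟩; exact ⟨f x, by simp⟩
    · rintro ⟨z, rfl⟩; obtain ⟨x, rfl⟩ := hf z; exact ⟨x, by simp⟩
  have h1 : (Sq H).index = (Sq G ⊔ f.ker).index := by
    rw [← hmap, Subgroup.index_map, MonoidHom.range_eq_top.2 hf, Subgroup.index_top, mul_one]
  rw [← Subgroup.relIndex_mul_index (le_sup_left : Sq G ≤ Sq G ⊔ f.ker), h1]
  refine Nat.mul_le_mul_right _ ?_
  rw [sup_comm, Subgroup.relIndex_sup_right]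
  refine Subgroup.index_antitone ?_
  refine (Subgroup.closure_le _).2 ?_
  rintro _ ⟨y, rfl⟩
  exact sq_mem (y : G)

theorem index_sub {G : Type*} [Group G] [Subsingleton G] : (Sq G).index = 1 :=
  Subgroup.index_eq_one.2 ((Subgroup.eq_top_iff' _).2 fun x => (Subsingleton.elim 1 x) ▸ (Sq G).one_mem)

theorem index_le_of_injective {G H : Type*} [Group G] [Finite G] [Group H] (f : G →* H) (hf : Function.Injective f) :
    (Sq G).index ≤ (Sq f.range).index := by
  have h := index_ext f.rangeRestrict f.rangeRestrict_surjective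
  have h1 : f.rangeRestrict.ker = ⊥ := by
    rw [MonoidHom.ker_rangeRestrict, MonoidHom.ker_eq_bot_iff]; exact hf
  haveI : Subsingleton f.rangeRestrict.ker := by rw [h1]; infer_instance
  rwa [index_sub (G := f.rangeRestrict.ker), one_mul] at h

theorem index_le_card {G : Type*} [Group G] [Finite G] : (Sq G).index ≤ Nat.card G :=
  Nat.le_of_dvd Nat.card_pos (Subgroup.index_dvd_card _)

theorem index_comm {G : Type*} [Group G] [Finite G] [IsMulCommutative G] :
    (Sq G).index = Nat.card {x : G // x ^ 2 = 1} := by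
  have h : Sq G = (powMonoidHom 2 : G →* G).range := by
    refine le_antisymm ((Subgroup.closure_le _).2 ?_) ?_
    · rintro _ ⟨y, rfl⟩; exact ⟨y, rfl⟩
    · rintro _ ⟨y, rfl⟩; exact sq_mem y
  have h1 := Subgroup.card_mul_index (powMonoidHom 2 : G →* G).ker
  rw [Subgroup.index_ker, ← Subgroup.card_mul_index (powMonoidHom 2 : G →* G).range, mul_comm] at h1
  rw [h, ← Nat.eq_of_mul_eq_mul_left Nat.card_pos h1]
  exact Nat.card_congr (Equiv.subtypeEquivRight fun x => Iff.rfl)

theorem card_sqrt_one (n : ℕ) : Nat.card {u : (ZMod (2 ^ n))ˣ // u ^ 2 = 1} ≤ 4 := by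
  classical
  rcases Nat.eq_zero_or_pos n with rfl | hn
  · haveI : Subsingleton (ZMod (2 ^ 0)) := by rw [pow_zero]; infer_instance
    haveI : Subsingleton {u : (ZMod (2 ^ 0))ˣ // u ^ 2 = 1} :=
      ⟨fun a b => Subtype.ext (Units.ext (Subsingleton.elim _ _))⟩
    exact (Finite.card_le_one_iff_subsingleton.2 inferInstance).trans (by norm_num)
  obtain ⟨m, rfl⟩ := Nat.exists_eq_succ_of_ne_zero hn.ne'
  let h : ZMod (2 ^ (m + 1)) := (2 : ZMod (2 ^ (m + 1))) ^ m
  have hh : ∀ t : ℤ, h * (t : ZMod (2 ^ (m + 1))) = 0 ∨ h * (t : ZMod (2 ^ (m + 1))) = h := by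
    intro t
    have h2 : h * 2 = 0 := by
      have := ZMod.natCast_self (2 ^ (m + 1))
      rw [Nat.cast_pow, Nat.cast_ofNat] at this
      exact (pow_succ _ _).symm.trans this
    rcases Int.even_or_odd t with ⟨s, rfl⟩ | ⟨s, rfl⟩
    · left; push_cast; linear_combination (s : ZMod (2 ^ (m + 1))) * h2
    · right; push_cast; linear_combination (s : ZMod (2 ^ (m + 1))) * h2
  let S : Finset (ZMod (2 ^ (m + 1))) := {1, 1 + h, -1, -1 + h}
  have hS : ∀ u : {u : (ZMod (2 ^ (m + 1)))ˣ // u ^ 2 = 1}, ((u.1 : (ZMod (2 ^ (m + 1)))ˣ) : ZMod (2 ^ (m + 1))) ∈ S := by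
    rintro ⟨u, hu⟩
    obtain ⟨x, hx⟩ := ZMod.intCast_surjective (u : ZMod (2 ^ (m + 1)))
    have hd : (2 : ℤ) ^ (m + 1) ∣ (x - 1) * (x + 1) := by
      have h1 : (((x - 1) * (x + 1) : ℤ) : ZMod (2 ^ (m + 1))) = 0 := by
        push_cast
        rw [hx]
        have : (u : ZMod (2 ^ (m + 1))) ^ 2 = 1 := by rw [← Units.val_pow_eq_pow_val, hu, Units.val_one]
        linear_combination this
      have := (ZMod.intCast_zmod_eq_zero_iff_dvd _ _).1 h1
      push_cast at this
      exact this
    have hodd : Odd x := by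
      rcases Int.even_or_odd x with he | ho
      · exfalso
        have h2 : (2 : ℤ) ∣ (x - 1) * (x + 1) := (dvd_pow_self 2 (Nat.succ_ne_zero m)).trans hd
        rw [← even_iff_two_dvd, Int.even_mul] at h2
        obtain ⟨a, ha⟩ := he
        rcases h2 with ⟨b, hb⟩ | ⟨b, hb⟩ <;> omega
      · exact ho
    obtain ⟨a, rfl⟩ := hodd
    have hd' : (2 : ℤ) ^ m ∣ 2 * (a * (a + 1)) := by
      have h4 : (2 : ℤ) * 2 ^ m ∣ 2 * (2 * (a * (a + 1))) := by
        rw [← pow_succ', show 2 * (2 * (a * (a + 1))) = (2 * a + 1 - 1) * (2 * a + 1 + 1) by ring]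
        exact hd
      exact Int.dvd_of_mul_dvd_mul_left two_ne_zero h4
    have hcop : (2 : ℤ) ^ m ∣ 2 * a ∨ (2 : ℤ) ^ m ∣ 2 * (a + 1) := by
      rcases Int.even_or_odd a with he | ho
      · left
        refine (IsCoprime.pow_left (m := m) ?_).dvd_of_dvd_mul_right (show (2:ℤ) ^ m ∣ (2 * a) * (a + 1) by rwa [mul_assoc])
        exact Int.isCoprime_two_left.2 he.add_one
      · right
        refine (IsCoprime.pow_left (m := m) ?_).dvd_of_dvd_mul_right (show (2:ℤ) ^ m ∣ (2 * (a + 1)) * a by
          rwa [mul_assoc, mul_comm (a + 1)])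
        exact Int.isCoprime_two_left.2 ho
    simp only [S, Finset.mem_insert, Finset.mem_singleton]
    rcases hcop with ⟨t, ht⟩ | ⟨t, ht⟩
    · have hu' : (u : ZMod (2 ^ (m + 1))) = 1 + h * (t : ZMod (2 ^ (m + 1))) := by
        rw [← hx, ht]; push_cast; ring
      rcases hh t with e | e <;> rw [e] at hu'
      · exact Or.inl (by rw [hu', add_zero])
      · exact Or.inr (Or.inl hu')
    · have hu' : (u : ZMod (2 ^ (m + 1))) = -1 + h * (t : ZMod (2 ^ (m + 1))) := by
        rw [← hx, show 2 * a + 1 = 2 * (a + 1) - 1 by ring, ht]; push_cast; ring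
      rcases hh t with e | e <;> rw [e] at hu'
      · exact Or.inr (Or.inr (Or.inl (by rw [hu', add_zero])))
      · exact Or.inr (Or.inr (Or.inr hu'))
  calc Nat.card {u : (ZMod (2 ^ (m + 1)))ˣ // u ^ 2 = 1} ≤ Nat.card S :=
        Nat.card_le_card_of_injective (fun u => (⟨_, hS u⟩ : S))
          fun a b e => Subtype.ext (Units.ext (congrArg Subtype.val e))
    _ = S.card := by simp
    _ ≤ 4 := Finset.card_le_four

/-- The exponent in the bound. -/
def B (q d : ℕ) : ℕ := if q = 3 then max 1 ((3 * d - 2) / 2) else 2 * d - 1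

theorem B_add (q a b : ℕ) (ha : 1 ≤ a) (hb : 1 ≤ b) : B q a + B q b ≤ B q (a + b) := by
  unfold B; split_ifs <;> omega

theorem pow_B_le {q d : ℕ} (hq : 3 ≤ q) (hq' : Odd q) (hd : 1 ≤ d) : 2 ^ B q d ≤ q ^ d - 1 := by
  have h0 : 2 ≤ 2 ^ B q d := le_self_pow₀ one_le_two (by unfold B; split_ifs <;> omega) |>.trans le_rfl
  by_cases h3 : q = 3
  · subst h3
    rcases eq_or_lt_of_le hd with rfl | hd2
    · decide
    have h1 : 2 * (B 3 d + 1) ≤ 3 * d := by unfold B; rw [if_pos rfl]; omega
    have h2 : (2 ^ (B 3 d + 1)) ^ 2 ≤ (3 ^ d) ^ 2 := by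
      rw [← pow_mul, ← pow_mul, mul_comm _ 2, mul_comm d 2, pow_mul 3]
      calc 2 ^ (2 * (B 3 d + 1)) ≤ 2 ^ (3 * d) := Nat.pow_le_pow_right two_pos h1
        _ = 8 ^ d := by rw [pow_mul]; norm_num
        _ ≤ (3 ^ 2) ^ d := Nat.pow_le_pow_left (by norm_num) d
    have h4 : 2 ^ (B 3 d + 1) ≤ 3 ^ d := (Nat.pow_le_pow_iff_left two_ne_zero).1 h2
    rw [pow_succ] at h4
    omega
  · have h5 : 5 ≤ q := by obtain ⟨k, rfl⟩ := hq'; omega
    have h4 : 2 ^ (B q d + 1) ≤ q ^ d := by
      calc 2 ^ (B q d + 1) = 2 ^ (2 * d) := by congr 1; unfold B; rw [if_neg h3]; omega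
        _ = 4 ^ d := by rw [pow_mul]; norm_num
        _ ≤ q ^ d := Nat.pow_le_pow_left (by omega) d
    rw [pow_succ] at h4
    omega

variable {K : Type} [Field K] [Finite K]

/-- Restriction to an invariant subspace. -/
noncomputable def restr {V : Type*} [AddCommGroup V] [Module K V] [Finite V] (P : Subgroup (V ≃ₗ[K] V))
    (U : Submodule K V) (h : ∀ p : P, ∀ v ∈ U, p.1 v ∈ U) : P →* (U ≃ₗ[K] U) where
  toFun p := LinearEquiv.ofBijective ((p.1 : V →ₗ[K] V).restrict (h p))
    (Finite.injective_iff_bijective.1 fun a b e => Subtype.ext (p.1.injective (congrArg Subtype.val e)))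
  map_one' := LinearEquiv.ext fun v => Subtype.ext rfl
  map_mul' p r := LinearEquiv.ext fun v => Subtype.ext rfl

theorem restr_apply {V : Type*} [AddCommGroup V] [Module K V] [Finite V] (P : Subgroup (V ≃ₗ[K] V))
    (U : Submodule K V) (h : ∀ p : P, ∀ v ∈ U, p.1 v ∈ U) (p : P) (v : U) :
    ((restr P U h p v : U) : V) = p.1 v := rfl

section
variable {V : Type u} [AddCommGroup V] [Module K V] [Finite V]

/-- Eigenspaces of an involution. -/
theorem decomp (h2 : (2 : K) ≠ 0) (e : V ≃ₗ[K] V) (he : e ^ 2 = 1) :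
    IsCompl (LinearMap.ker ((e : V →ₗ[K] V) - 1)) (LinearMap.ker ((e : V →ₗ[K] V) + 1)) := by
  have hee : ∀ v, e (e v) = v := fun v => by
    have := LinearEquiv.congr_fun he v; rwa [pow_two] at this
  constructor
  · rw [disjoint_iff, Submodule.eq_bot_iff]
    intro v ⟨hv, hv'⟩
    simp only [SetLike.mem_coe, LinearMap.mem_ker, LinearMap.sub_apply, LinearMap.add_apply, Module.End.one_apply,
      LinearEquiv.coe_coe] at hv hv'
    rw [sub_eq_zero] at hv
    rw [hv, ← two_smul K] at hv'
    exact (smul_eq_zero.1 hv').resolve_left h2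
  · rw [codisjoint_iff, eq_top_iff]
    intro v _
    rw [Submodule.mem_sup]
    refine ⟨(2 : K)⁻¹ • (v + e v), ?_, (2 : K)⁻¹ • (v - e v), ?_, ?_⟩
    · simp only [LinearMap.mem_ker, LinearMap.sub_apply, Module.End.one_apply, LinearEquiv.coe_coe, map_smul, map_add, hee]
      module
    · simp only [LinearMap.mem_ker, LinearMap.add_apply, Module.End.one_apply, LinearEquiv.coe_coe, map_smul, map_sub, hee]
      module
    · rw [← smul_add, show v + e v + (v - e v) = (2 : K) • v by module, inv_smul_smul₀ h2]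

theorem inv_of_comm {P : Subgroup (V ≃ₗ[K] V)} (e : P) (hc : ∀ p : P, p * e = e * p) (p : P) :
    (∀ v ∈ LinearMap.ker ((e.1 : V →ₗ[K] V) - 1), p.1 v ∈ LinearMap.ker ((e.1 : V →ₗ[K] V) - 1)) ∧
    (∀ v ∈ LinearMap.ker ((e.1 : V →ₗ[K] V) + 1), p.1 v ∈ LinearMap.ker ((e.1 : V →ₗ[K] V) + 1)) := by
  have h : ∀ v, e.1 (p.1 v) = p.1 (e.1 v) := fun v => (LinearEquiv.congr_fun (congrArg Subtype.val (hc p)) v).symm
  constructor <;> intro v hv <;>
    simp only [LinearMap.mem_ker, LinearMap.sub_apply, LinearMap.add_apply, Module.End.one_apply,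
      LinearEquiv.coe_coe] at hv ⊢
  · rw [h, sub_eq_zero.1 hv, sub_self]
  · rw [h, ← map_add, hv, map_zero]

/-- In a one-dimensional space. -/
theorem card_le_of_one (hd : finrank K V = 1) : Nat.card (V ≃ₗ[K] V) ≤ Nat.card K - 1 := by
  classical
  haveI := Fintype.ofFinite K
  obtain ⟨v, hv, hall⟩ := finrank_eq_one_iff'.1 hd
  choose c hc using fun φ : V ≃ₗ[K] V => hall (φ v)
  have hinj : Function.Injective c := fun φ ψ h => LinearEquiv.ext fun w => by
    obtain ⟨t, rfl⟩ := hall w
    rw [map_smul, map_smul, ← hc φ, ← hc ψ, h]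
  calc Nat.card (V ≃ₗ[K] V) ≤ Nat.card {x : K // x ≠ 0} :=
        Nat.card_le_card_of_injective (fun φ => (⟨c φ, fun h0 => hv (φ.injective (by
          rw [← hc φ, h0, zero_smul, map_zero]))⟩ : {x : K // x ≠ 0})) fun a b e => hinj (congrArg Subtype.val e)
    _ = Nat.card K - 1 := by simp [Nat.card_eq_fintype_card, Fintype.card_subtype_compl]

theorem one_dim (hd : finrank K V = 1) (P : Subgroup (V ≃ₗ[K] V)) : (Sq P).index ≤ 2 := by
  classical
  haveI : Finite (V ≃ₗ[K] V) := Finite.of_injective _ DFunLike.coe_injective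
  obtain ⟨v, hv, hall⟩ := finrank_eq_one_iff'.1 hd
  choose c hc using fun φ : V ≃ₗ[K] V => hall (φ v)
  have key : ∀ (φ : V ≃ₗ[K] V) w, φ w = c φ • w := fun φ w => by
    obtain ⟨t, rfl⟩ := hall w
    rw [map_smul, ← hc φ, smul_comm]
  haveI : IsMulCommutative P := ⟨⟨fun a b => Subtype.ext (LinearEquiv.ext fun w => by
    show a.1 (b.1 w) = b.1 (a.1 w)
    rw [key a.1, key b.1, key b.1, key a.1, smul_comm])⟩⟩
  rw [index_comm]
  calc Nat.card {x : P // x ^ 2 = 1} ≤ Nat.card ({1, -1} : Finset K) := by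
        refine Nat.card_le_card_of_injective (fun x => (⟨c x.1.1, ?_⟩ : ({1, -1} : Finset K))) ?_
        · have h1 : x.1.1 (x.1.1 v) = v := by
            have := LinearEquiv.congr_fun (congrArg Subtype.val x.2) v
            simpa [pow_two] using this
          rw [key, key, smul_smul] at h1
          have h2 : c x.1.1 * c x.1.1 = 1 := smul_left_injective K hv (h1.trans (one_smul K v).symm)
          simpa using mul_self_eq_one_iff.1 h2
        · intro a b e
          exact Subtype.ext (Subtype.ext (LinearEquiv.ext fun w => by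
            rw [key, key, show c a.1.1 = c b.1.1 from congrArg Subtype.val e]))
    _ ≤ 2 := by simp only [Nat.card_eq_finsetCard]; exact Finset.card_le_two

end

/-- The splitting step. -/
theorem split_step (h2 : (2 : K) ≠ 0) {V : Type u} [AddCommGroup V] [Module K V] [Finite V]
    (ih : ∀ (W : Type u) [AddCommGroup W] [Module K W] [Finite W] (R : Subgroup (W ≃ₗ[K] W)), IsPGroup 2 R →
      1 ≤ finrank K W → finrank K W < finrank K V → (Sq R).index ≤ 2 ^ B (Nat.card K) (finrank K W))
    (P : Subgroup (V ≃ₗ[K] V)) (hP : IsPGroup 2 P) (U W : Submodule K V) (hc : IsCompl U W) (hU : U ≠ ⊥) (hW : W ≠ ⊥)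
    (hPU : ∀ p : P, ∀ v ∈ U, p.1 v ∈ U) (hPW : ∀ p : P, ∀ v ∈ W, p.1 v ∈ W) :
    (Sq P).index ≤ 2 ^ (B (Nat.card K) (finrank K U) + B (Nat.card K) (finrank K W)) ∧
      Nat.card P ≤ Nat.card (U ≃ₗ[K] U) * Nat.card (W ≃ₗ[K] W) := by
  have hd := Submodule.finrank_add_eq_of_isCompl hc
  haveI : Finite (V ≃ₗ[K] V) := Finite.of_injective _ DFunLike.coe_injective
  have hUp : 1 ≤ finrank K U := Submodule.one_le_finrank_iff.2 hU
  have hWp : 1 ≤ finrank K W := Submodule.one_le_finrank_iff.2 hW
  let f := restr P U hPU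
  let σ : f.ker →* (W ≃ₗ[K] W) := (restr P W hPW).comp f.ker.subtype
  have hσ : Function.Injective σ := by
    rw [← MonoidHom.ker_eq_bot_iff, Subgroup.eq_bot_iff_forall]
    rintro ⟨p, hp⟩ hp'
    refine Subtype.ext (Subtype.ext (LinearEquiv.ext fun v => ?_))
    obtain ⟨a, ha, b, hb, rfl⟩ := Submodule.mem_sup.1 (hc.sup_eq_top ▸ Submodule.mem_top : v ∈ U ⊔ W)
    have h1 : p.1 a = a := congrArg Subtype.val (LinearEquiv.congr_fun (MonoidHom.mem_ker.1 hp) ⟨a, ha⟩)
    have h1' : p.1 b = b := congrArg Subtype.val (LinearEquiv.congr_fun (MonoidHom.mem_ker.1 hp') ⟨b, hb⟩)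
    show p.1 (a + b) = a + b
    rw [map_add, h1, h1']
  constructor
  · have e1 := index_ext f.rangeRestrict f.rangeRestrict_surjective
    rw [MonoidHom.ker_rangeRestrict] at e1
    have e2 := ih U f.range (hP.of_surjective _ f.rangeRestrict_surjective) hUp (by omega)
    have e3 := ih W σ.range ((hP.to_subgroup f.ker).of_surjective _ σ.rangeRestrict_surjective) hWp (by omega)
    have e4 := index_le_of_injective σ hσ
    calc (Sq P).index ≤ (Sq f.ker).index * (Sq f.range).index := e1
      _ ≤ 2 ^ B (Nat.card K) (finrank K W) * 2 ^ B (Nat.card K) (finrank K U) := Nat.mul_le_mul (e4.trans e3) e2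
      _ = _ := by rw [← pow_add, add_comm]
  · haveI : Finite (U ≃ₗ[K] U) := Finite.of_injective _ DFunLike.coe_injective
    haveI : Finite (W ≃ₗ[K] W) := Finite.of_injective _ DFunLike.coe_injective
    rw [← Subgroup.card_mul_index f.ker, Subgroup.index_ker, mul_comm]
    exact Nat.mul_le_mul (Subgroup.card_le_card_group _) (Nat.card_le_card_of_injective σ hσ)

/-- The bound. -/
theorem bound (h2 : (2 : K) ≠ 0) (hKp : 3 ≤ Nat.card K) (d : ℕ) :
    ∀ (V : Type u) [AddCommGroup V] [Module K V] [Finite V] (P : Subgroup (V ≃ₗ[K] V)), IsPGroup 2 P →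
      1 ≤ finrank K V → finrank K V = d → (Sq P).index ≤ 2 ^ B (Nat.card K) d := by
  classical
  induction d using Nat.strong_induction_on with
  | _ d ihd =>
  intro V _ _ _ P hP hd1 hd
  subst hd
  set q := Nat.card K with hq
  haveI : Finite (V ≃ₗ[K] V) := Finite.of_injective _ DFunLike.coe_injective
  have ih : ∀ (W : Type u) [AddCommGroup W] [Module K W] [Finite W] (R : Subgroup (W ≃ₗ[K] W)), IsPGroup 2 R →
      1 ≤ finrank K W → finrank K W < finrank K V → (Sq R).index ≤ 2 ^ B q (finrank K W) :=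
    fun W _ _ _ R hR h1 h2' => ihd _ h2' W R hR h1 rfl
  have hB1 : 1 ≤ B q (finrank K V) := by unfold B; split_ifs <;> omega
  by_cases hone : finrank K V = 1
  · exact (one_dim hone P).trans (le_self_pow₀ one_le_two (by omega))
  -- an eigenspace decomposition preserved by everything
  have split : ∀ e : P, e ^ 2 = 1 → e ≠ 1 → (∃ v, e.1 v ≠ -v) → (∀ p : P, p * e = e * p) →
      (Sq P).index ≤ 2 ^ B q (finrank K V) := by
    intro e he he1 hne hc
    have he' : e.1 ^ 2 = 1 := congrArg Subtype.val he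
    have hc' := decomp h2 e.1 he'
    have hU : LinearMap.ker ((e.1 : V →ₗ[K] V) - 1) ≠ ⊥ := fun h => by
      obtain ⟨v, hv⟩ := hne
      rw [h] at hc'
      replace hc' := eq_top_of_bot_isCompl hc'
      have : v ∈ LinearMap.ker ((e.1 : V →ₗ[K] V) + 1) := hc' ▸ Submodule.mem_top
      exact hv (eq_neg_of_add_eq_zero_left (by simpa using this))
    have hW : LinearMap.ker ((e.1 : V →ₗ[K] V) + 1) ≠ ⊥ := fun h => he1 (Subtype.ext (LinearEquiv.ext fun v => by
      rw [h] at hc'
      replace hc' := eq_top_of_isCompl_bot hc'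
      have : v ∈ LinearMap.ker ((e.1 : V →ₗ[K] V) - 1) := hc' ▸ Submodule.mem_top
      simpa [sub_eq_zero] using this))
    refine (split_step h2 ih P hP _ _ hc' hU hW (fun p => (inv_of_comm e hc p).1) fun p => (inv_of_comm e hc p).2).1.trans
      (Nat.pow_le_pow_right two_pos ?_)
    rw [← Submodule.finrank_add_eq_of_isCompl hc']
    exact B_add _ _ _ (Submodule.one_le_finrank_iff.2 hU) (Submodule.one_le_finrank_iff.2 hW)
  rcases subsingleton_or_nontrivial P with hs | hnt
  · rw [index_sub (G := P)]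
    exact Nat.one_le_two_pow
  -- the central involution
  haveI := hP.center_nontrivial
  obtain ⟨z, hz⟩ := exists_prime_orderOf_dvd_card' (G := Subgroup.center P) 2 (by
    obtain ⟨k, hk⟩ := IsPGroup.iff_card.1 (hP.to_subgroup (Subgroup.center P))
    rcases k with _ | k
    · have := Finite.one_lt_card (α := Subgroup.center P)
      rw [hk, pow_zero] at this; omega
    · rw [hk]; exact dvd_pow_self 2 (Nat.succ_ne_zero k))
  rw [← Subgroup.orderOf_coe, orderOf_eq_prime_iff] at hz
  have hzc : ∀ p : P, p * (z : P) = z * p := fun p => Subgroup.mem_center_iff.1 z.2 p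
  by_cases hzneg : ∀ v, (z : P).1 v = -v
  swap
  · push Not at hzneg
    exact split z hz.1 hz.2 hzneg hzc
  by_cases hE : ∃ e : P, e ^ 2 = 1 ∧ e ≠ 1 ∧ e ≠ z ∧ ∀ p : P, p * e * p⁻¹ = e ∨ p * e * p⁻¹ = z * e
  · obtain ⟨e, he, he1, hez, hconj⟩ := hE
    have hne : ∃ v, e.1 v ≠ -v := by
      by_contra hc
      push Not at hc
      exact hez (Subtype.ext (LinearEquiv.ext fun v => by rw [hc, hzneg]))
    by_cases hcomm : ∀ p : P, p * e = e * p
    · exact split e he he1 hne hcomm
    push Not at hcomm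
    obtain ⟨g, hg⟩ := hcomm
    have hge : g * e * g⁻¹ = z * e := (hconj g).resolve_left fun h => hg (mul_inv_eq_iff_eq_mul.1 h)
    let P0 : Subgroup P := Subgroup.centralizer {e}
    have hidx : P0.index ≤ 2 := by
      let φ : P ⧸ P0 → ({e, (z : P) * e} : Finset P) := Quotient.lift
        (fun p => ⟨p * e * p⁻¹, by rcases hconj p with h | h <;> simp [h]⟩) (by
          intro a b hab
          have := Subgroup.mem_centralizer_singleton_iff.1 (QuotientGroup.leftRel_apply.1 hab)
          refine Subtype.ext ?_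
          show a * e * a⁻¹ = b * e * b⁻¹
          rw [mul_inv_eq_iff_eq_mul]
          calc a * e = a * (e * (a⁻¹ * b)) * (b⁻¹ * a) := by group
            _ = a * ((a⁻¹ * b) * e) * (b⁻¹ * a) := by rw [this]
            _ = b * e * b⁻¹ * a := by group)
      refine le_trans (Nat.card_le_card_of_injective φ ?_) (by simp only [Nat.card_eq_finsetCard]; exact Finset.card_le_two)
      rintro ⟨a⟩ ⟨b⟩ h
      have h' : a * e * a⁻¹ = b * e * b⁻¹ := congrArg Subtype.val h
      refine Quotient.sound (QuotientGroup.leftRel_apply.2 (Subgroup.mem_centralizer_singleton_iff.2 ?_))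
      calc a⁻¹ * b * e = a⁻¹ * (b * e * b⁻¹) * b := by group
        _ = a⁻¹ * (a * e * a⁻¹) * b := by rw [h']
        _ = e * (a⁻¹ * b) := by group
    have hidx2 : P0.index = 2 := by
      have h0 : P0.index ≠ 0 := Subgroup.FiniteIndex.index_ne_zero
      have h1 : P0.index ≠ 1 := fun h => hg (by
        have : g ∈ P0 := (Subgroup.index_eq_one.1 h) ▸ Subgroup.mem_top g
        exact Subgroup.mem_centralizer_singleton_iff.1 this)
      omega
    haveI := Subgroup.normal_of_index_eq_two hidx2
    set U := LinearMap.ker ((e.1 : V →ₗ[K] V) - 1) with hUdef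
    set W := LinearMap.ker ((e.1 : V →ₗ[K] V) + 1) with hWdef
    have hc' := decomp h2 e.1 (congrArg Subtype.val he)
    have hanti : ∀ v, g.1 (e.1 v) = -(e.1 (g.1 v)) := fun v => by
      have h1 : g * e = z * e * g := by rw [← hge]; group
      have h2' := LinearEquiv.congr_fun (congrArg Subtype.val h1) v
      change g.1 (e.1 v) = (z : P).1 (e.1 (g.1 v)) at h2'
      rw [h2', hzneg]
    have hdim : finrank K U = finrank K W := by
      have hgU : U.map (g.1 : V →ₗ[K] V) = W := by
        ext w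
        simp only [Submodule.mem_map, hUdef, hWdef, LinearMap.mem_ker, LinearMap.sub_apply, LinearMap.add_apply,
          Module.End.one_apply, LinearEquiv.coe_coe]
        constructor
        · rintro ⟨u, hu, rfl⟩
          have := hanti u
          rw [sub_eq_zero.1 hu] at this
          rw [← neg_eq_iff_eq_neg.2 this]
          exact neg_add_cancel _
        · intro hw
          refine ⟨g.1.symm w, ?_, g.1.apply_symm_apply w⟩
          rw [sub_eq_zero]
          apply g.1.injective
          rw [hanti, g.1.apply_symm_apply, eq_neg_of_add_eq_zero_left hw, neg_neg]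
      rw [← hgU]
      exact (g.1.finrank_map_eq U).symm
    have hU : U ≠ ⊥ := fun h => by
      rw [h, finrank_bot] at hdim
      have := Submodule.finrank_add_eq_of_isCompl hc'
      rw [← hUdef, ← hWdef, h, finrank_bot, ← hdim] at this
      omega
    have hW : W ≠ ⊥ := fun h => hU (Submodule.finrank_eq_zero.1 (by rw [hdim, h, finrank_bot]))
    let P1 : Subgroup (V ≃ₗ[K] V) := P0.map P.subtype
    have he0 : (e : P) ∈ P0 := Subgroup.mem_centralizer_singleton_iff.2 rfl
    have hc1 : ∀ p : P1, p * ⟨e.1, ⟨e, he0, rfl⟩⟩ = ⟨e.1, ⟨e, he0, rfl⟩⟩ * p := by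
      rintro ⟨_, p, hp, rfl⟩
      have h := Subgroup.mem_centralizer_singleton_iff.1 (show p ∈ Subgroup.centralizer {e} from hp)
      exact Subtype.ext (congrArg (fun x : P => (x : V ≃ₗ[K] V)) h :)
    let eP : P0 ≃* P1 := P0.equivMapOfInjective _ P.subtype_injective
    obtain ⟨hs1, hs2⟩ := split_step h2 ih P1 ((hP.to_subgroup P0).of_equiv eP) U W hc' hU hW
      (fun p => (inv_of_comm (⟨e.1, ⟨e, he0, rfl⟩⟩ : P1) hc1 p).1)
      (fun p => (inv_of_comm (⟨e.1, ⟨e, he0, rfl⟩⟩ : P1) hc1 p).2)
    have hsum := Submodule.finrank_add_eq_of_isCompl hc'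
    rw [← hUdef, ← hWdef] at hsum
    by_cases hsmall : q = 3 ∧ finrank K U = 1
    · obtain ⟨hq3, ha⟩ := hsmall
      have hPcard : Nat.card P ≤ 8 := by
        rw [← Subgroup.card_mul_index P0, hidx2]
        have : Nat.card P0 ≤ (q - 1) * (q - 1) := by
          rw [Nat.card_congr eP.toEquiv]
          exact hs2.trans (Nat.mul_le_mul (card_le_of_one ha) (card_le_of_one (hdim ▸ ha)))
        rw [hq3] at this
        omega
      have hS : 2 ≤ Nat.card (Sq P) := by
        refine Finite.one_lt_card_iff_nontrivial.2 ((Subgroup.nontrivial_iff_ne_bot _).2 fun hb => hg ?_)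
        have hsq : ∀ x : P, x * x = 1 := fun x => by
          rw [← pow_two, ← Subgroup.mem_bot, ← hb]; exact sq_mem x
        exact mul_comm_of_sq g e hsq
      have := Subgroup.card_mul_index (Sq P)
      have hB : B q (finrank K V) = 2 := by rw [← hsum, ← hdim, ha, hq3]; rfl
      rw [hB]
      nlinarith
    have hB : B q (finrank K U) + B q (finrank K W) + 1 ≤ B q (finrank K V) := by
      rw [← hsum, ← hdim]
      have := Submodule.one_le_finrank_iff.2 hU
      unfold B
      split_ifs with h3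
      · have : finrank K U ≠ 1 := fun h => hsmall ⟨h3, h⟩
        omega
      · omega
    refine le_trans ?_ (Nat.pow_le_pow_right two_pos hB)
    rw [pow_succ]
    refine le_trans (index_ext (QuotientGroup.mk' P0) (QuotientGroup.mk'_surjective P0))
      (Nat.mul_le_mul ?_ (le_trans index_le_card hidx2.le))
    rw [QuotientGroup.ker_mk']
    refine le_trans (index_le_of_injective eP.toMonoidHom eP.injective) (le_of_eq_of_le ?_ hs1)
    rw [MonoidHom.range_eq_top.2 eP.surjective]
    exact index_top_eq (Subgroup.topEquiv)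
  -- every normal abelian subgroup is cyclic
  push Not at hE
  haveI : Fact (Nat.Prime 2) := ⟨Nat.prime_two⟩
  obtain ⟨A, hAn, -, hAc, hAC⟩ := CfsgLib.HallHigmanB.exists_self_centralizing_abelian hP (⊤ : Subgroup P)
  haveI := hAn
  haveI := hAc
  rw [top_inf_eq] at hAC
  have hcyc : IsCyclic A := by
    refine CfsgLib.RankOneP.isCyclic_of_commute (hP.to_subgroup A) ?_ fun x y => mul_comm x y
    by_contra hu
    simp only [CfsgLib.RankOneP.UniqueOrderP, not_forall] at hu
    obtain ⟨x, y, hx, hy, hx1, hyx⟩ := hu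
    have hzA : (z : P) ∈ A := hAC (Subgroup.mem_centralizer_iff.2 fun a _ => hzc a)
    let C : Subgroup P :=
      { carrier := {a | a ∈ A ∧ a ^ 2 = 1}
        one_mem' := ⟨A.one_mem, one_pow 2⟩
        mul_mem' := fun {a b} ha hb => ⟨A.mul_mem ha.1 hb.1, by
          have : Commute a b := congrArg Subtype.val (mul_comm (⟨a, ha.1⟩ : A) ⟨b, hb.1⟩)
          rw [this.mul_pow, ha.2, hb.2, one_mul]⟩
        inv_mem' := fun {a} ha => ⟨A.inv_mem ha.1, by rw [inv_pow, ha.2, inv_one]⟩ }
    haveI : C.Normal := ⟨fun a ha g => ⟨hAn.conj_mem a ha.1 g, by rw [conj_pow, ha.2]; group⟩⟩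
    haveI : (Subgroup.zpowers (z : P)).Normal := ⟨fun a ha g => by
      obtain ⟨k, rfl⟩ := Subgroup.mem_zpowers_iff.1 ha
      rw [← conj_zpow, hzc, mul_inv_cancel_right]
      exact Subgroup.zpow_mem_zpowers _ _⟩
    have hzpow : ∀ a ∈ Subgroup.zpowers (z : P), a = 1 ∨ a = z := by
      intro a ha
      obtain ⟨k, rfl⟩ := Subgroup.mem_zpowers_iff.1 ha
      rcases Int.even_or_odd k with ⟨s, rfl⟩ | ⟨s, rfl⟩
      · left; rw [← two_mul, zpow_mul, zpow_two, ← pow_two, hz.1, one_zpow]
      · right; rw [zpow_add, zpow_mul, zpow_two, ← pow_two, hz.1, one_zpow, one_mul, zpow_one]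
    have hle : Subgroup.zpowers (z : P) ≤ C := Subgroup.zpowers_le.2 ⟨hzA, hz.1⟩
    have hxC : (x : P) ∈ C := ⟨x.2, by rw [← Subgroup.coe_pow, hx]; rfl⟩
    have hyC : (y : P) ∈ C := ⟨y.2, by rw [← Subgroup.coe_pow, hy]; rfl⟩
    have hlt : Subgroup.zpowers (z : P) < C := lt_of_le_of_ne hle fun h => hyx (by
      rcases hzpow _ (h.symm ▸ hyC) with hy1 | hy1
      · rw [show y = 1 from Subtype.ext hy1]; exact one_mem _
      · rcases hzpow _ (h.symm ▸ hxC) with hx' | hx'
        · exact absurd (Subtype.ext hx') hx1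
        · rw [show y = x from Subtype.ext (hy1.trans hx'.symm)]; exact Subgroup.mem_zpowers x)
    obtain ⟨e, heC, hez, hec⟩ := CfsgLib.PGroup.exists_mem_central_mod hP hlt
    have he1 : e ≠ 1 := fun h => hez (h ▸ one_mem _)
    have hez' : e ≠ z := fun h => hez (h ▸ Subgroup.mem_zpowers _)
    obtain ⟨p, hp1, hp2⟩ := hE e heC.2 he1 hez'
    rcases hzpow _ (hec p) with h | h
    · rw [commutatorElement_eq_one_iff_mul_comm] at h
      exact hp1 (by rw [← h, mul_inv_cancel_right])
    · refine hp2 ?_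
      have h' : e * p * e⁻¹ * p⁻¹ = z := by rw [← h, commutatorElement_def]
      have heinv : e⁻¹ = e := inv_eq_of_mul_eq_one_right (by rw [← pow_two, heC.2])
      calc p * e * p⁻¹ = e⁻¹ * (e * p * e * p⁻¹) := by group
        _ = e * z := by rw [heinv] at h' ⊢; rw [h']
        _ = z * e := hzc e
  let cA : P →* MulAut A := MulAut.conjNormal
  have hker : cA.ker ≤ A := fun p hp => hAC (Subgroup.mem_centralizer_iff.2 fun a ha => by
    have h := congrArg (fun φ : MulAut A => ((φ ⟨a, ha⟩ : A) : P)) (MonoidHom.mem_ker.1 hp)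
    simp only [cA, MulAut.conjNormal_apply, MulAut.one_apply] at h
    calc a * p = p * a * p⁻¹ * p := by rw [h]
      _ = p * a := by group)
  haveI : IsCyclic cA.ker :=
    isCyclic_of_injective (Subgroup.inclusion hker) (Subgroup.inclusion_injective hker)
  have hbound : (Sq P).index ≤ 2 * (Sq cA.range).index := by
    have := index_ext cA.rangeRestrict cA.rangeRestrict_surjective
    rw [MonoidHom.ker_rangeRestrict] at this
    refine this.trans (Nat.mul_le_mul_right _ ?_)
    haveI : Fintype cA.ker := Fintype.ofFinite _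
    haveI : IsMulCommutative cA.ker := IsCyclic.isMulCommutative
    rw [index_comm, Nat.card_eq_fintype_card, Fintype.card_subtype]
    exact IsCyclic.card_pow_eq_one_le two_pos
  obtain ⟨n, hn⟩ := IsPGroup.iff_card.1 (hP.to_subgroup A)
  let ι : cA.range →* (ZMod (2 ^ n))ˣ :=
    ((Units.mapEquiv (ZMod.ringEquivCongr hn).toMulEquiv).toMonoidHom.comp
      (IsCyclic.mulAutMulEquiv A).toMonoidHom).comp cA.range.subtype
  have hι : Function.Injective ι :=
    (Units.mapEquiv (ZMod.ringEquivCongr hn).toMulEquiv).injective.comp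
      ((IsCyclic.mulAutMulEquiv A).injective.comp Subtype.val_injective)
  haveI : IsMulCommutative cA.range := ⟨⟨fun a b => hι (by rw [map_mul, map_mul, mul_comm])⟩⟩
  have hr4 : (Sq cA.range).index ≤ 4 := by
    rw [index_comm]
    refine le_trans ?_ (card_sqrt_one n)
    exact Nat.card_le_card_of_injective (fun x => (⟨ι x.1, by rw [← map_pow, x.2, map_one]⟩ :
      {u : (ZMod (2 ^ n))ˣ // u ^ 2 = 1})) fun a b e => Subtype.ext (hι (congrArg Subtype.val e))
  by_cases hcrit : q = 3 ∧ finrank K V = 2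
  · obtain ⟨hq3, hd2⟩ := hcrit
    have hB : B q (finrank K V) = 2 := by rw [hd2, hq3]; rfl
    rw [hB]
    haveI : Fintype K := Fintype.ofFinite K
    let b : Basis (Fin 2) K V := Module.finBasisOfFinrankEq K V hd2
    let j : P →* GL (Fin 2) K := ((Units.mapEquiv (LinearMap.toMatrixAlgEquiv b).toMulEquiv).toMonoidHom.comp
      (LinearMap.GeneralLinearGroup.generalLinearEquiv K V).symm.toMonoidHom).comp P.subtype
    have hj : Function.Injective j :=
      (Units.mapEquiv (LinearMap.toMatrixAlgEquiv b).toMulEquiv).injective.comp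
        ((LinearMap.GeneralLinearGroup.generalLinearEquiv K V).symm.injective.comp Subtype.val_injective)
    have h16 : Nat.card P ≤ 16 := by
      have hdvd : Nat.card P ∣ 48 := by
        have h1 : Nat.card (GL (Fin 2) K) = 48 := by
          rw [Matrix.card_GL_field, Fin.prod_univ_two]
          rw [show Fintype.card K = 3 by rw [← Nat.card_eq_fintype_card]; exact hq3]
          rfl
        rw [← h1, ← Nat.card_congr (MonoidHom.ofInjective hj).toEquiv.symm]
        exact Subgroup.card_subgroup_dvd_card _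
      obtain ⟨k, hk⟩ := IsPGroup.iff_card.1 hP
      rw [hk] at hdvd ⊢
      refine Nat.le_of_dvd (by norm_num) ?_
      exact (Nat.Coprime.dvd_of_dvd_mul_right (k := 2 ^ k) (m := 16) (n := 3)
        (Nat.Coprime.pow_left k (by norm_num)) hdvd)
    refine hbound.trans (show 2 * _ ≤ 2 ^ 2 from ?_)
    refine Nat.mul_le_mul_left 2 (le_trans index_le_card ?_)
    rcases le_or_gt n 2 with hn2 | hn3
    · calc Nat.card cA.range ≤ Nat.card (ZMod (2 ^ n))ˣ := Nat.card_le_card_of_injective ι hι
        _ ≤ 2 := by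
          rw [Nat.card_eq_fintype_card, ZMod.card_units_eq_totient]
          interval_cases n <;> decide
    · rw [← Subgroup.index_ker]
      have h1 := Subgroup.card_mul_index cA.ker
      have h2' : Nat.card A ≤ Nat.card cA.ker := by
        refine Subgroup.card_le_of_le fun a ha => MonoidHom.mem_ker.2 (MulEquiv.ext fun x => Subtype.ext ?_)
        simp only [cA, MulAut.conjNormal_apply, MulAut.one_apply]
        have hcm : a * (x : P) = x * a := congrArg Subtype.val (mul_comm (⟨a, ha⟩ : A) x)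
        rw [hcm, mul_inv_cancel_right]
      have h8 : 2 ^ 3 ≤ 2 ^ n := Nat.pow_le_pow_right two_pos hn3
      nlinarith
  · refine hbound.trans ((Nat.mul_le_mul_left 2 hr4).trans ?_)
    refine le_trans (show 2 * 4 ≤ 2 ^ 3 by norm_num) (Nat.pow_le_pow_right two_pos ?_)
    unfold B
    split_ifs with h3
    · have : finrank K V ≠ 2 := fun h => hcrit ⟨h3, h⟩
      omega
    · omega
where
  mul_comm_of_sq {G : Type u} [Group G] (a b : G) (h : ∀ x : G, x * x = 1) : a * b = b * a := by
    have ha := inv_eq_of_mul_eq_one_right (h a)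
    have hb := inv_eq_of_mul_eq_one_right (h b)
    have hab := inv_eq_of_mul_eq_one_right (h (a * b))
    rw [mul_inv_rev, ha, hb] at hab
    exact hab.symm
  index_top_eq {G H : Type u} [Group G] [Group H] (e : G ≃* H) : (Sq G).index = (Sq H).index := by
    have : (Sq G).map e.toMonoidHom = Sq H := by
      rw [Sq, Sq, MonoidHom.map_closure, ← Set.range_comp]
      congr 1
      ext y
      constructor
      · rintro ⟨x, rfl⟩; exact ⟨e x, by simp⟩
      · rintro ⟨z, rfl⟩; obtain ⟨x, rfl⟩ := e.surjective z; exact ⟨x, by simp⟩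
    rw [← this]
    exact (Subgroup.index_map_equiv (Sq G) e).symm

/-- The bound for a group acting on an elementary abelian group of odd order. -/
theorem final {P : Type*} [Group P] [Finite P] (hP : IsPGroup 2 P) {N : Type*} [CommGroup N] [Finite N] (q : ℕ)
    [Fact q.Prime] (hq3 : 3 ≤ q) (hexp : ∀ a : N, a ^ q = 1) (hN1 : 1 < Nat.card N) (ρ : P →* MulAut N)
    (hρ : Function.Injective ρ) : (Sq P).index ≤ Nat.card N - 1 := by
  classical
  have hz : ∀ v : Additive N, q • v = 0 := fun v => Additive.toMul.injective (by simpa using hexp v.toMul)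
  letI : Module (ZMod q) (Additive N) := AddCommGroup.zmodModule (n := q) hz
  haveI : Module.Finite (ZMod q) (Additive N) := Module.Finite.of_finite
  have hcard : Nat.card N = q ^ Module.finrank (ZMod q) (Additive N) := by
    have h0 : Nat.card (Additive N) = Nat.card (ZMod q) ^ Module.finrank (ZMod q) (Additive N) :=
      Module.natCard_eq_pow_finrank
    rw [Nat.card_congr Additive.toMul, Nat.card_zmod] at h0
    exact h0
  let lin : P →* Module.End (ZMod q) (Additive N) :=
    { toFun := fun a => (MulEquiv.toAdditive (ρ a)).toAddMonoidHom.toZModLinearMap q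
      map_one' := LinearMap.ext fun v => by simp
      map_mul' := fun a b => LinearMap.ext fun v => by simp }
  let L : P →* (Additive N ≃ₗ[ZMod q] Additive N) :=
    (LinearMap.GeneralLinearGroup.generalLinearEquiv (ZMod q) (Additive N)).toMonoidHom.comp lin.toHomUnits
  have hL : Function.Injective L := fun a b h => hρ (MulEquiv.ext fun v => by
    have h' := congrArg Units.val ((LinearMap.GeneralLinearGroup.generalLinearEquiv (ZMod q) (Additive N)).injective h)
    exact Additive.ofMul.injective (LinearMap.congr_fun h' (Additive.ofMul v)))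
  have hd1 : 1 ≤ Module.finrank (ZMod q) (Additive N) := by
    by_contra h
    rw [show Module.finrank (ZMod q) (Additive N) = 0 by omega, pow_zero] at hcard
    omega
  have h2 : (2 : ZMod q) ≠ 0 := by
    intro h
    have h' : ((2 : ℕ) : ZMod q) = 0 := h
    rw [ZMod.natCast_eq_zero_iff] at h'
    have := Nat.le_of_dvd two_pos h'
    omega
  have key := bound (K := ZMod q) h2 (by rw [Nat.card_zmod]; exact hq3) _ (Additive N) L.range
    (hP.of_surjective _ L.rangeRestrict_surjective) hd1 rfl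
  rw [Nat.card_zmod] at key
  calc (Sq P).index ≤ (Sq L.range).index := index_le_of_injective L hL
    _ ≤ 2 ^ B q (Module.finrank (ZMod q) (Additive N)) := key
    _ ≤ q ^ Module.finrank (ZMod q) (Additive N) - 1 :=
        pow_B_le hq3 ((Fact.out : q.Prime).odd_of_ne_two (by omega)) hd1
    _ = Nat.card N - 1 := by rw [hcard]

/-- Let G be a finite group that is the semidirect product of a normal abelian subgroup N of odd order by a 2-subgroup P, and suppose N is the unique minimal normal subgroup of G. Then the index of the Frattini subgroup of P in P is at most #N − 1. -/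
theorem result {G : Type*} [Group G] [Finite G] (N P : Subgroup G) (hN : N.Normal) (hNab : IsMulCommutative ↥N) (hNodd : Odd (Nat.card ↥N)) (hP : IsPGroup 2 ↥P) (hdisj : N ⊓ P = ⊥) (hprod : N ⊔ P = ⊤) (hmin : N ≠ ⊥ ∧ ∀ M : Subgroup G, M.Normal → M ≠ ⊥ → N ≤ M) : (frattini ↥P).index ≤ Nat.card ↥N - 1 := by
  classical
  haveI := hN
  haveI := hNab
  obtain ⟨hNne, hmin'⟩ := hmin
  have hN1 : 1 < Nat.card N := Finite.one_lt_card_iff_nontrivial.2 ((Subgroup.nontrivial_iff_ne_bot N).2 hNne)
  obtain ⟨q, hq, hqd⟩ := Nat.exists_prime_and_dvd hN1.ne'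
  haveI := Fact.mk hq
  have hq3 : 3 ≤ q := by
    have := hq.two_le
    rcases eq_or_ne q 2 with rfl | h
    · obtain ⟨k, hk⟩ := hNodd; omega
    · omega
  -- exponent q
  let M : Subgroup G :=
    { carrier := {a | a ∈ N ∧ a ^ q = 1}
      one_mem' := ⟨N.one_mem, one_pow q⟩
      mul_mem' := fun {a b} ha hb => ⟨N.mul_mem ha.1 hb.1, by
        have : Commute a b := congrArg Subtype.val (mul_comm (⟨a, ha.1⟩ : N) ⟨b, hb.1⟩)
        rw [this.mul_pow, ha.2, hb.2, one_mul]⟩
      inv_mem' := fun {a} ha => ⟨N.inv_mem ha.1, by rw [inv_pow, ha.2, inv_one]⟩ }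
  have hMn : M.Normal := ⟨fun a ha g => ⟨hN.conj_mem a ha.1 g, by rw [conj_pow, ha.2]; group⟩⟩
  obtain ⟨x, hx⟩ := exists_prime_orderOf_dvd_card' (G := N) q hqd
  have hx1 : (x : G) ≠ 1 := fun h => hq.ne_one (by rw [← hx, show x = 1 from Subtype.ext h, orderOf_one])
  have hxM : (x : G) ∈ M := ⟨x.2, by rw [← Subgroup.coe_pow, ← hx, pow_orderOf_eq_one]; rfl⟩
  have hexp : ∀ a : N, a ^ q = 1 := fun a => Subtype.ext
    (hmin' M hMn (fun h => hx1 (by rwa [h, Subgroup.mem_bot] at hxM)) a.2).2
  -- the action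
  let ρ : P →* MulAut N := (MulAut.conjNormal).comp P.subtype
  have hρ : Function.Injective ρ := by
    have hC : Subgroup.centralizer (N : Set G) ⊓ P = ⊥ := by
      by_contra hne
      have hCn : (Subgroup.centralizer (N : Set G) ⊓ P).Normal := by
        refine ⟨fun c hc g => ?_⟩
        obtain ⟨n, hn, p, hp, rfl⟩ : ∃ n ∈ N, ∃ p ∈ P, n * p = g := by
          have hg : g ∈ ((N ⊔ P : Subgroup G) : Set G) := by rw [hprod]; trivial
          rw [Subgroup.normal_mul] at hg
          exact Set.mem_mul.1 hg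
        have hc' : p * c * p⁻¹ ∈ Subgroup.centralizer (N : Set G) ⊓ P :=
          ⟨(inferInstance : (Subgroup.centralizer (N : Set G)).Normal).conj_mem c hc.1 p,
            P.mul_mem (P.mul_mem hp hc.2) (P.inv_mem hp)⟩
        rw [show n * p * c * (n * p)⁻¹ = n * (p * c * p⁻¹) * n⁻¹ by group,
          Subgroup.mem_centralizer_iff.1 hc'.1 n hn, mul_inv_cancel_right]
        exact hc'
      exact hNne (le_bot_iff.1 (hdisj ▸ le_inf le_rfl ((hmin' _ hCn hne).trans inf_le_right)))
    rw [← MonoidHom.ker_eq_bot_iff, Subgroup.eq_bot_iff_forall]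
    intro c hc
    refine Subtype.ext ((Subgroup.eq_bot_iff_forall _).1 hC c ⟨Subgroup.mem_centralizer_iff.2 fun a ha => ?_, c.2⟩)
    have h := congrArg (fun φ : MulAut N => ((φ ⟨a, ha⟩ : N) : G)) (MonoidHom.mem_ker.1 hc)
    simp only [ρ, MonoidHom.comp_apply, MulAut.conjNormal_apply, MulAut.one_apply] at h
    exact (mul_inv_eq_iff_eq_mul.1 h).symm
  letI : CommGroup N := { (inferInstance : Group N) with mul_comm := fun a b => hNab.1.1 a b }
  refine le_trans ?_ (final hP q hq3 hexp hN1 ρ hρ)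
  refine Subgroup.index_antitone ((Subgroup.closure_le _).2 ?_)
  rintro _ ⟨y, rfl⟩
  haveI : Fact (Nat.Prime 2) := ⟨Nat.prime_two⟩
  exact CfsgLib.PGroup.pow_mem_frattini hP y

end Cfsg.Agent.S4188
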