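import Cfsg.Statements.S4189
import Mathlib
import Cfsg.Agent.S4207
import Cfsg.Agent.CoprimeAction.Frattini
import Cfsg.Agent.PGroupSmall.Order4
import Cfsg.Agent.RankOneP.Basic

set_option autoImplicit false
open Cfsg

namespace Cfsg.Agent.S4189

open scoped commutatorElement

/-- Let P be a finite non-abelian 2-group whose commutator subgroup has index 4 and whose automorphism group is not a 2-group (some automorphism has order that is not a power of 2). Then P is isomorphic to the quaternion group of order 8. -/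
theorem result {P : Type*} [Group P] [Finite P] (hP : IsPGroup 2 P) (hna : ¬ IsMulCommutative P) (h4 : (commutator P).index = 4) (haut : ¬ IsPGroup 2 (MulAut P)) : Nonempty (P ≃* QuaternionGroup 2) := by
  classical
  haveI : Fact (Nat.Prime 2) := ⟨Nat.prime_two⟩
  haveI : Group.IsNilpotent P := hP.isNilpotent
  set Φ := frattini P with hΦdef
  set D := commutator P with hDdef
  have hDΦ : D ≤ Φ := CfsgLib.CoprimeAction.commutator_le_frattini' hP
  set π := QuotientGroup.mk' D with hπ
  have hV : Nat.card (P ⧸ D) = 4 := by rw [← h4]; rfl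
  have hab : ∀ a b : P ⧸ D, a * b = b * a := by
    intro a b
    obtain ⟨a, rfl⟩ := QuotientGroup.mk'_surjective D a
    obtain ⟨b, rfl⟩ := QuotientGroup.mk'_surjective D b
    rw [← map_mul, ← map_mul, QuotientGroup.mk'_apply, QuotientGroup.mk'_apply, QuotientGroup.eq]
    have e : (a * b)⁻¹ * (b * a) = ⁅b⁻¹, a⁻¹⁆ := by rw [commutatorElement_def]; group
    rw [e]
    exact Subgroup.commutator_mem_commutator (Subgroup.mem_top _) (Subgroup.mem_top _)
  have hker : ∀ g : P, π g = 1 ↔ g ∈ D := fun g => QuotientGroup.eq_one_iff g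
  have hgen : ∀ W : Subgroup P, D ⊔ W = ⊤ → W = ⊤ := fun W hW => frattini_nongenerating (by
    rw [sup_comm] at hW
    exact top_le_iff.mp (hW.ge.trans (sup_le_sup_left hDΦ W)))
  -- the quotient by the derived subgroup is a four group
  have hsqD : ∀ g : P, g * g ∈ D := by
    intro g
    rw [← hker, map_mul]
    by_contra hc
    have hord : orderOf (π g) = 4 := by
      have hd : orderOf (π g) ∣ 4 := hV ▸ orderOf_dvd_natCard (π g)
      have h1 : ¬ orderOf (π g) ∣ 2 := fun h => hc (by rw [← sq]; exact orderOf_dvd_iff_pow_eq_one.mp h)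
      have h2 : orderOf (π g) ≤ 4 := Nat.le_of_dvd (by norm_num) hd
      interval_cases (orderOf (π g)) <;> omega
    have htop : Subgroup.zpowers (π g) = ⊤ :=
      Subgroup.eq_top_of_card_eq _ (by rw [Nat.card_zpowers, hord, hV])
    have hz : D ⊔ Subgroup.zpowers g = ⊤ := by
      have h := congrArg (Subgroup.comap π) htop
      rw [Subgroup.comap_top, ← MonoidHom.map_zpowers, Subgroup.comap_map_eq, QuotientGroup.ker_mk', sup_comm] at h
      exact h
    have hcyc := hgen _ hz
    refine hna ⟨⟨fun a b => ?_⟩⟩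
    obtain ⟨i, rfl⟩ := Subgroup.mem_zpowers_iff.mp (hcyc.symm ▸ Subgroup.mem_top a : a ∈ Subgroup.zpowers g)
    obtain ⟨j, rfl⟩ := Subgroup.mem_zpowers_iff.mp (hcyc.symm ▸ Subgroup.mem_top b : b ∈ Subgroup.zpowers g)
    rw [← zpow_add, ← zpow_add, add_comm]
  have hsq : ∀ v : P ⧸ D, v * v = 1 := fun v => by
    obtain ⟨g, rfl⟩ := QuotientGroup.mk'_surjective D v
    rw [← map_mul, hker]
    exact hsqD g
  have hthree : ∀ a b : P ⧸ D, a ≠ 1 → b ≠ 1 → a ≠ b → ∀ v, v = 1 ∨ v = a ∨ v = b ∨ v = a * b := by
    intro a b ha hb hne v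
    have hcard : ({1, a, b, a * b} : Finset (P ⧸ D)).card = 4 := by
      rw [Finset.card_insert_of_notMem, Finset.card_insert_of_notMem, Finset.card_pair]
      · exact fun e => ha (mul_eq_right.mp e.symm)
      · simp only [Finset.mem_insert, Finset.mem_singleton, not_or]
        exact ⟨hne, fun e => hb (mul_eq_left.mp e.symm)⟩
      · simp only [Finset.mem_insert, Finset.mem_singleton, not_or]
        refine ⟨Ne.symm ha, Ne.symm hb, fun e => hne ?_⟩
        calc a = a * (b * b) := by rw [hsq, mul_one]
          _ = (a * b) * b := (mul_assoc a b b).symm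
          _ = b := by rw [← e, one_mul]
    haveI := Fintype.ofFinite (P ⧸ D)
    have huniv : ({1, a, b, a * b} : Finset (P ⧸ D)) = Finset.univ :=
      Finset.eq_univ_of_card _ (by rw [hcard, ← hV, Nat.card_eq_fintype_card])
    have hv : v ∈ ({1, a, b, a * b} : Finset (P ⧸ D)) := huniv ▸ Finset.mem_univ v
    simpa using hv
  have hgen2 : ∀ x y : P, π x ≠ 1 → π y ≠ 1 → π x ≠ π y → Subgroup.closure ({x, y} : Set P) = ⊤ := by
    intro x y hx hy hne
    apply hgen
    rw [Subgroup.eq_top_iff']
    intro g
    set W := D ⊔ Subgroup.closure ({x, y} : Set P) with hW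
    have hDW : D ≤ W := le_sup_left
    have hxW : x ∈ W := Subgroup.mem_sup_right (Subgroup.subset_closure (by simp))
    have hyW : y ∈ W := Subgroup.mem_sup_right (Subgroup.subset_closure (by simp))
    have key : ∀ h ∈ W, π g = π h → g ∈ W := fun h hh e => by
      have h1 : h⁻¹ * g ∈ D := by rw [← hker, map_mul, map_inv, e, inv_mul_cancel]
      have h2 := W.mul_mem hh (hDW h1)
      rwa [mul_inv_cancel_left] at h2
    rcases hthree (π x) (π y) hx hy hne (π g) with h | h | h | h
    · exact key 1 W.one_mem (h.trans (map_one π).symm)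
    · exact key x hxW h
    · exact key y hyW h
    · exact key (x * y) (W.mul_mem hxW hyW) (h.trans (map_mul π x y).symm)
  -- an automorphism of odd order
  obtain ⟨α, hα, hαodd⟩ : ∃ α : MulAut P, α ≠ 1 ∧ Odd (orderOf α) := by
    obtain ⟨β, hβ⟩ : ∃ β : MulAut P, ∀ k : ℕ, orderOf β ≠ 2 ^ k := by
      by_contra hc
      push Not at hc
      exact haut (IsPGroup.iff_orderOf.mpr hc)
    obtain ⟨k, m, hm, heq⟩ := Nat.exists_eq_two_pow_mul_odd (orderOf_pos β).ne'
    refine ⟨β ^ 2 ^ k, fun h => hβ k ?_, ?_⟩
    · have hd := orderOf_dvd_of_pow_eq_one h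
      rw [heq] at hd ⊢
      exact Nat.dvd_antisymm hd (dvd_mul_right _ _)
    · rw [orderOf_pow, heq, Nat.gcd_eq_right (dvd_mul_right _ _), Nat.mul_div_cancel_left _ (Nat.two_pow_pos k)]
      exact hm
  -- it fixes no nontrivial coset
  let ψ : MulAut P → P ⧸ D →* P ⧸ D := fun β => QuotientGroup.map D D β.toMonoidHom
    (Subgroup.characteristic_iff_le_comap.mp (inferInstance : D.Characteristic) β)
  have hψ : ∀ β g, ψ β (π g) = π (β g) := fun β g => rfl
  have hfix : ∀ g : P, π g ≠ 1 → π (α g) ≠ π g := by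
    intro g hg hcon
    apply hα
    have h2 : ∀ h : P, π (α (α h)) = π h := by
      intro h
      by_cases hh : π h = 1
      · rw [← hψ, ← hψ, hh, map_one, map_one]
      by_cases hgh : π h = π g
      · rw [← hψ, ← hψ, hgh, hψ, hcon, hψ, hcon]
      have hαh1 : π (α h) ≠ 1 := by
        intro e
        apply hh
        rw [hker] at e ⊢
        have := (Subgroup.characteristic_iff_le_comap.mp (inferInstance : D.Characteristic) α⁻¹) e
        simpa using this
      rcases hthree (π g) (π h) hg hh (Ne.symm hgh) (π (α h)) with e | e | e | e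
      · exact absurd e hαh1
      · exfalso
        apply hgh
        have e' : π (α (g⁻¹ * h)) = 1 := by rw [map_mul, map_inv, map_mul, map_inv, e, hcon, inv_mul_cancel]
        have h' : g⁻¹ * h ∈ D := by
          rw [hker] at e'
          have := (Subgroup.characteristic_iff_le_comap.mp (inferInstance : D.Characteristic) α⁻¹) e'
          simpa using this
        rw [← hker, map_mul, map_inv, inv_mul_eq_one] at h'
        exact h'.symm
      · rw [← hψ α (α h), e, hψ, e]
      · rw [← hψ α (α h), e, map_mul, hψ, hψ, hcon, e, ← mul_assoc, hsq, one_mul]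
    set A : Subgroup (MulAut P) := Subgroup.zpowers (α * α) with hA
    have hstab : ∀ β ∈ A, ∀ x : P, β x * x⁻¹ ∈ frattini P := by
      let S : Subgroup (MulAut P) :=
        { carrier := {β | ∀ x, π (β x) = π x}
          one_mem' := fun x => rfl
          mul_mem' := fun {a b} ha hb x => (ha (b x)).trans (hb x)
          inv_mem' := fun {a} ha x => by
            have := ha (a⁻¹ x)
            rw [MulAut.apply_inv_self] at this
            exact this.symm }
      have hAS : A ≤ S := Subgroup.zpowers_le.mpr h2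
      intro β hβ x
      apply hDΦ
      rw [← hker, map_mul, map_inv, hAS hβ x, mul_inv_cancel]
    obtain ⟨n, hn⟩ := IsPGroup.iff_card.mp hP
    obtain ⟨r, -, hr⟩ := (Nat.dvd_prime_pow Nat.prime_two).mp (hn ▸ (Subgroup.index_dvd_card (frattini P)))
    have hd := Cfsg.Agent.S4207.result hn hr A hstab
    rw [hA, Nat.card_zpowers] at hd
    have hodd : Odd (orderOf (α * α)) := hαodd.of_dvd_nat (orderOf_dvd_of_pow_eq_one (by
      rw [← sq, ← pow_mul, mul_comm, pow_mul, pow_orderOf_eq_one, one_pow]))
    have h1 : orderOf (α * α) = 1 := Nat.eq_one_of_dvd_coprimes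
      ((Nat.coprime_two_right.mpr hodd).pow_right _) dvd_rfl hd
    have h11 : α ^ 2 = 1 := by rw [sq]; exact orderOf_eq_one_iff.mp h1
    exact orderOf_eq_one_iff.mp (Nat.eq_one_of_dvd_coprimes
      (Nat.coprime_two_right.mpr hαodd) dvd_rfl (orderOf_dvd_of_pow_eq_one h11))
  have hαne1 : ∀ g : P, π g ≠ 1 → π (α g) ≠ 1 := fun g hg e => hg (by
    rw [hker] at e ⊢
    have := (Subgroup.characteristic_iff_le_comap.mp (inferInstance : D.Characteristic) α⁻¹) e
    simpa using this)
  have horbit : ∀ g : P, π g ≠ 1 → Subgroup.closure ({g, α g} : Set P) = ⊤ := fun g hg =>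
    hgen2 g (α g) hg (hαne1 g hg) (fun e => hfix g hg e.symm)
  obtain ⟨x, hx⟩ : ∃ x : P, π x ≠ 1 := by
    by_contra hc
    push Not at hc
    have : Subsingleton (P ⧸ D) := ⟨fun u v => by
      obtain ⟨u, rfl⟩ := QuotientGroup.mk'_surjective D u
      obtain ⟨v, rfl⟩ := QuotientGroup.mk'_surjective D v
      rw [hc, hc]⟩
    rw [Nat.card_of_subsingleton (1 : P ⧸ D)] at hV
    omega
  -- the lower central series
  set L2 := (⊤ : Subgroup P).lowerCentralSeries 2 with hL2
  set L3 := (⊤ : Subgroup P).lowerCentralSeries 3 with hL3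
  have hL1 : (⊤ : Subgroup P).lowerCentralSeries 1 = D := Subgroup.top_lowerCentralSeries_one
  have hL2D : L2 ≤ D := hL1 ▸ Subgroup.lowerCentralSeries_antitone _ (by norm_num)
  have hDne : D ≠ ⊥ := fun h => hna ⟨⟨fun a b => by
    have : π a * π b = π b * π a := hab _ _
    rw [← map_mul, ← map_mul] at this
    have h' : (a * b)⁻¹ * (b * a) ∈ D := by rw [← hker, map_mul, map_inv, this, inv_mul_cancel]
    rw [h, Subgroup.mem_bot, inv_mul_eq_one] at h'
    exact h'⟩⟩
  set y := α x with hy
  set c := ⁅x, y⁆ with hc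
  have hcD : c ∈ D := Subgroup.commutator_mem_commutator (Subgroup.mem_top _) (Subgroup.mem_top _)
  set σ := QuotientGroup.mk' L2 with hσ
  have hσker : ∀ g, σ g = 1 ↔ g ∈ L2 := fun g => QuotientGroup.eq_one_iff g
  have hcent : ∀ d ∈ D, ∀ g : P, σ d * σ g = σ g * σ d := by
    intro d hd g
    rw [← commute_iff_eq, ← commutatorElement_eq_one_iff_commute, ← map_commutatorElement, hσker]
    exact Subgroup.commutator_mem_commutator (hL1.symm ▸ hd) (Subgroup.mem_top g)
  have hσtop : ∀ v : P ⧸ L2, v ∈ Subgroup.closure ({σ x, σ y} : Set (P ⧸ L2)) := by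
    intro v
    obtain ⟨g, rfl⟩ := QuotientGroup.mk'_surjective L2 v
    have h1 : g ∈ Subgroup.closure ({x, y} : Set P) := (horbit x hx).symm ▸ Subgroup.mem_top g
    have h2 := Subgroup.mem_map_of_mem σ h1
    rwa [MonoidHom.map_closure, Set.image_pair] at h2
  -- `D` modulo `L2` is generated by `c`
  set W : Subgroup P := (Subgroup.zpowers (σ c)).comap σ with hW
  haveI hWn : (Subgroup.zpowers (σ c)).Normal := by
    refine ⟨fun u hu v => ?_⟩
    obtain ⟨g, rfl⟩ := QuotientGroup.mk'_surjective L2 v
    obtain ⟨i, rfl⟩ := Subgroup.mem_zpowers_iff.mp hu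
    have h0 : Commute (σ g) (σ c) := (hcent c hcD g).symm
    rw [(h0.zpow_right i).eq, mul_inv_cancel_right]
    exact ⟨i, rfl⟩
  have hDW : D ≤ W := by
    set τ := (QuotientGroup.mk' (Subgroup.zpowers (σ c))).comp σ with hτ
    have hτker : ∀ g, τ g = 1 ↔ g ∈ W := fun g => QuotientGroup.eq_one_iff (σ g)
    have hxy : τ x * τ y = τ y * τ x := by
      rw [← commute_iff_eq, ← commutatorElement_eq_one_iff_commute, ← map_commutatorElement, hτker]
      exact Subgroup.mem_comap.mpr (Subgroup.mem_zpowers _)
    have hall : ∀ g : P, g ∈ Subgroup.closure ({x, y} : Set P) := fun g => (horbit x hx).symm ▸ Subgroup.mem_top g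
    have hcomm : ∀ g h : P, Commute (τ g) (τ h) := by
      intro g h
      have hh : ∀ u ∈ ({x, y} : Set P), ∀ v ∈ ({x, y} : Set P), Commute (τ u) (τ v) := by
        rintro u (rfl | rfl) v (rfl | rfl)
        · exact Commute.refl _
        · exact hxy
        · exact hxy.symm
        · exact Commute.refl _
      have h1 : ∀ u ∈ ({x, y} : Set P), ∀ h, Commute (τ u) (τ h) := by
        intro u hu h
        induction hall h using Subgroup.closure_induction with
        | mem v hv => exact hh u hu v hv
        | one => rw [map_one]; exact Commute.one_right _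
        | mul a b _ _ ha hb => rw [map_mul]; exact ha.mul_right hb
        | inv a _ ha => rw [map_inv]; exact ha.inv_right
      induction hall g using Subgroup.closure_induction with
      | mem v hv => exact h1 v hv h
      | one => rw [map_one]; exact Commute.one_left _
      | mul a b _ _ ha hb => rw [map_mul]; exact ha.mul_left hb
      | inv a _ ha => rw [map_inv]; exact ha.inv_left
    rw [hDdef, _root_.commutator_def, Subgroup.commutator_le]
    intro a _ b _
    rw [← hτker]
    exact (map_commutatorElement τ a b).trans (commutatorElement_eq_one_iff_commute.mpr (hcomm a b))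
  have hc2 : σ c * σ c = 1 := by
    have h1 : σ (⁅x * x, y⁆) = 1 := by
      rw [hσker]
      exact Subgroup.commutator_mem_commutator (hL1.symm ▸ hsqD x) (Subgroup.mem_top y)
    have e : ⁅x * x, y⁆ = x * c * x⁻¹ * c := by rw [hc, commutatorElement_def, commutatorElement_def]; group
    rw [e, map_mul, map_mul, map_mul, ← hcent c hcD x, mul_assoc (σ c), ← map_mul σ x, mul_inv_cancel, map_one,
      mul_one] at h1
    exact h1
  have hD2 : ∀ d ∈ D, σ d = 1 ∨ σ d = σ c := by
    intro d hd
    obtain ⟨i, hi⟩ := Subgroup.mem_zpowers_iff.mp (Subgroup.mem_comap.mp (hDW hd))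
    rcases Int.even_or_odd' i with ⟨j, rfl | rfl⟩
    · left
      rw [← hi, zpow_mul, zpow_two, hc2, one_zpow]
    · right
      rw [← hi, zpow_add, zpow_mul, zpow_two, hc2, one_zpow, one_mul, zpow_one]
  have hL2ne : L2 ≠ D := fun h => hDne (by
    by_contra hne
    exact CfsgLib.PGroupSmall.lcs_succ_ne (n := 1) (by rwa [hL1]) (by rw [hL1]; exact h))
  have hcne : σ c ≠ 1 := fun h => hL2ne (le_antisymm hL2D (fun d hd => by
    rcases hD2 d hd with e | e
    · exact (hσker d).mp e
    · exact (hσker d).mp (e.trans h)))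
  -- some square generates `D` modulo `L2`
  obtain ⟨u, hu, hu2⟩ : ∃ u : P, π u ≠ 1 ∧ σ (u * u) = σ c := by
    by_contra hcon
    push Not at hcon
    apply hcne
    have hall : ∀ g : P, σ g * σ g = 1 := by
      intro g
      by_cases hg : π g = 1
      · rcases hD2 g ((hker g).mp hg) with e | e <;> rw [e]
        · exact one_mul _
        · exact hc2
      · rcases hD2 (g * g) (hsqD g) with e | e
        · rwa [map_mul] at e
        · exact absurd e (hcon g hg)
    have hinv : ∀ g, (σ g)⁻¹ = σ g := fun g => inv_eq_of_mul_eq_one_right (hall g)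
    rw [hc, map_commutatorElement, commutatorElement_def, hinv, hinv]
    have := hall (x * y)
    rw [map_mul] at this
    rw [mul_assoc]
    exact this
  -- the third term of the series is trivial
  set ρ := QuotientGroup.mk' L3 with hρ
  have hρker : ∀ g, ρ g = 1 ↔ g ∈ L3 := fun g => QuotientGroup.eq_one_iff g
  have hcent2 : ∀ d ∈ L2, ∀ g : P, Commute (ρ d) (ρ g) := by
    intro d hd g
    rw [← commutatorElement_eq_one_iff_commute, ← map_commutatorElement, hρker]
    exact Subgroup.commutator_mem_commutator hd (Subgroup.mem_top g)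
  set K : Subgroup P := (Subgroup.centralizer ((D.map ρ : Subgroup (P ⧸ L3)) : Set (P ⧸ L3))).comap ρ with hK
  have hmemK : ∀ g, g ∈ K ↔ ∀ d ∈ D, Commute (ρ d) (ρ g) := by
    intro g
    rw [hK, Subgroup.mem_comap, Subgroup.mem_centralizer_iff]
    exact ⟨fun h d hd => h _ ⟨d, hd, rfl⟩, by rintro h _ ⟨d, hd, rfl⟩; exact h d hd⟩
  have huK : u ∈ K := by
    rw [hmemK]
    intro d hd
    rcases hD2 d hd with e | e
    · exact hcent2 d ((hσker d).mp e) u
    · have h1 : (u * u)⁻¹ * d ∈ L2 := by rw [← hσker, map_mul, map_inv, hu2, e, inv_mul_cancel]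
      have h2 : Commute (ρ (u * u)) (ρ u) := by rw [map_mul]; exact (Commute.refl _).mul_left (Commute.refl _)
      have h3 := h2.mul_left (hcent2 _ h1 u)
      rwa [← map_mul, mul_inv_cancel_left] at h3
  have huαK : α u ∈ K := by
    rw [hmemK]
    intro d hd
    have h1 : α⁻¹ d ∈ D := (Subgroup.characteristic_iff_le_comap.mp (inferInstance : D.Characteristic) α⁻¹) hd
    have h2 : ⁅α⁻¹ d, u⁆ ∈ L3 := by
      rw [← hρker, map_commutatorElement, commutatorElement_eq_one_iff_commute]
      exact (hmemK u).mp huK _ h1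
    have h3 : α ⁅α⁻¹ d, u⁆ ∈ L3 :=
      (Subgroup.characteristic_iff_le_comap.mp (inferInstance : L3.Characteristic) α) h2
    rw [map_commutatorElement, MulAut.apply_inv_self] at h3
    rw [← commutatorElement_eq_one_iff_commute, ← map_commutatorElement, hρker]
    exact h3
  have hKtop : K = ⊤ := top_le_iff.mp ((horbit u hu).ge.trans
    ((Subgroup.closure_le K).mpr (by rintro g (rfl | rfl) <;> assumption)))
  have hL23 : L2 ≤ L3 := by
    rw [hL2, Subgroup.lowerCentralSeries_succ, hL1, Subgroup.commutator_le]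
    intro d hd g _
    rw [← hρker, map_commutatorElement, commutatorElement_eq_one_iff_commute]
    exact (hmemK g).mp (hKtop.symm ▸ Subgroup.mem_top g) d hd
  have hbot : L2 = ⊥ := by
    by_contra hne
    exact CfsgLib.PGroupSmall.lcs_succ_ne (n := 2) hne (le_antisymm (Subgroup.lowerCentralSeries_antitone _ (by norm_num)) hL23)
  -- conclusion
  have hinjσ : ∀ a b : P, σ a = σ b → a = b := fun a b e => by
    have h : a⁻¹ * b ∈ L2 := by rw [← hσker, map_mul, map_inv, e, inv_mul_cancel]
    rwa [hbot, Subgroup.mem_bot, inv_mul_eq_one] at h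
  have hDeq : ∀ d ∈ D, d = 1 ∨ d = c := fun d hd => (hD2 d hd).imp
    (fun e => hinjσ _ _ (e.trans (map_one σ).symm)) (hinjσ _ _)
  have hc1 : c ≠ 1 := fun e => hcne (by rw [e, map_one])
  have hcz : ∀ g, c * g = g * c := fun g => hinjσ _ _ (by rw [map_mul, map_mul]; exact hcent c hcD g)
  have hcc : c * c = 1 := hinjσ _ _ (by rw [map_mul, map_one]; exact hc2)
  have huu : u * u = c := hinjσ _ _ hu2
  set v := α u with hv
  have hαc : α c = c := by
    rcases hDeq (α c) ((Subgroup.characteristic_iff_le_comap.mp (inferInstance : D.Characteristic) α) hcD) with e | e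
    · exact absurd (α.map_eq_one_iff.mp e) hc1
    · exact e
  have hvv : v * v = c := by rw [hv, ← map_mul, huu, hαc]
  have hconj : v * u * v⁻¹ = u⁻¹ := by
    have hne : ⁅v, u⁆ ≠ 1 := by
      intro e
      rw [commutatorElement_eq_one_iff_commute] at e
      refine hna ⟨⟨fun a b => ?_⟩⟩
      have hcl : ∀ w : P, (Commute u w) → Commute v w → ∀ h : P, Commute h w := by
        intro w h1 h2 h
        have hle : Subgroup.closure ({u, v} : Set P) ≤ Subgroup.centralizer ({w} : Set P) := by
          rw [Subgroup.closure_le]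
          intro g hg
          rcases hg with hg | hg
          · rw [hg]; exact Subgroup.mem_centralizer_singleton_iff.mpr h1.eq
          · rw [Set.mem_singleton_iff.mp hg]; exact Subgroup.mem_centralizer_singleton_iff.mpr h2.eq
        rw [horbit u hu] at hle
        exact Subgroup.mem_centralizer_singleton_iff.mp (hle (Subgroup.mem_top h))
      have hle : (⊤ : Subgroup P) ≤ Subgroup.center P := by
        rw [← horbit u hu, Subgroup.closure_le]
        intro g hg
        rw [SetLike.mem_coe, Subgroup.mem_center_iff]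
        rcases hg with hg | hg
        · rw [hg]; exact fun h => (hcl u (Commute.refl u) e h).eq
        · rw [Set.mem_singleton_iff.mp hg]; exact fun h => (hcl v e.symm (Commute.refl v) h).eq
      exact (Subgroup.mem_center_iff.mp (hle (Subgroup.mem_top a)) b).symm
    have hcom : ⁅v, u⁆ = c := (hDeq _ (Subgroup.commutator_mem_commutator (Subgroup.mem_top _) (Subgroup.mem_top _))).resolve_left hne
    rw [commutatorElement_def, mul_inv_eq_iff_eq_mul] at hcom
    rw [hcom, eq_comm, inv_eq_iff_mul_eq_one, ← mul_assoc, ← hcz u, mul_assoc, huu, hcc]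
  have hu4 : orderOf u = 2 * 2 := by
    rw [show (2 * 2 : ℕ) = 2 ^ (1 + 1) by norm_num]
    refine orderOf_eq_prime_pow ?_ ?_
    · rw [pow_one, sq, huu]; exact hc1
    · rw [show (2 : ℕ) ^ (1 + 1) = 2 * 2 by norm_num, pow_mul, sq, sq, huu, hcc]
  refine CfsgLib.RankOneP.nonempty_mulEquiv_quaternion hu4 hconj ?_ ?_ ?_
  · rw [sq, sq, hvv, huu]
  · intro hmem
    obtain ⟨i, hi⟩ := Subgroup.mem_zpowers_iff.mp hmem
    have : v * u * v⁻¹ = u := by rw [← hi]; group
    rw [hconj, inv_eq_iff_mul_eq_one, huu] at this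
    exact hc1 this
  · rw [← top_le_iff, ← horbit u hu, Subgroup.closure_le]
    intro g hg
    rcases hg with hg | hg
    · rw [hg]; exact Subgroup.mem_sup_left (Subgroup.mem_zpowers u)
    · rw [Set.mem_singleton_iff.mp hg]; exact Subgroup.mem_sup_right (Subgroup.mem_zpowers _)

end Cfsg.Agent.S4189
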