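import Cfsg.Statements.S4194
import Cfsg.Agent.FusionCamina.Group
-- import your own Cfsg.Agent.* helpers here

set_option autoImplicit false
open Cfsg

namespace Cfsg.Agent.S4194

/-- A finite group G has commutative Sylow 2-subgroups if and only if every 2-element of G (element of order a power of 2) is 2-central, that is, its centralizer contains a Sylow 2-subgroup of G. -/
theorem result {G : Type*} [Group G] [Finite G] (P : Sylow 2 G) :
    IsMulCommutative (P : Subgroup G) ↔ ∀ x : G, (∃ k : ℕ, orderOf x = 2 ^ k) → (∃ Q : Sylow 2 G, (Q : Subgroup G) ≤ Subgroup.centralizer ({x} : Set G)) := by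
  haveI : Fact (Nat.Prime 2) := ⟨Nat.prime_two⟩
  refine ⟨fun hP x hx => ?_, fun h => ⟨⟨fun a b => Subtype.ext (CfsgLib.FusionCamina.group_main P h a a.2 b b.2)⟩⟩⟩
  obtain ⟨k, hk⟩ := hx
  have hpg : IsPGroup 2 (Subgroup.zpowers x) := IsPGroup.of_card ((Nat.card_zpowers x).trans hk)
  obtain ⟨Q, hQ⟩ := hpg.exists_le_sylow
  refine ⟨Q, fun q hq => Subgroup.mem_centralizer_singleton_iff.2 ?_⟩
  haveI := hP
  let e : (Q : Subgroup G) ≃* (P : Subgroup G) := Q.equiv P
  exact congrArg Subtype.val (e.injective (a₁ := ⟨q, hq⟩ * ⟨x, hQ (Subgroup.mem_zpowers x)⟩)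
    (a₂ := ⟨x, hQ (Subgroup.mem_zpowers x)⟩ * ⟨q, hq⟩) (by rw [map_mul, map_mul, hP.is_comm.comm]))


end Cfsg.Agent.S4194
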