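import Cfsg.Statements.S4195


set_option autoImplicit false
open Cfsg

namespace Cfsg.Agent.S4195

/-- Let x be a non-identity element of a finite group G whose centralizer contains a Sylow 2-subgroup of G. If x is conjugate to its inverse, then x has order 2. -/
theorem result {G : Type*} [Group G] [Finite G] (x : G) (hx : x ≠ 1) (P : Sylow 2 G) (hP : (P : Subgroup G) ≤ Subgroup.centralizer ({x} : Set G)) (hreal : IsConj x x⁻¹) : orderOf x = 2 := by
  set C := Subgroup.centralizer ({x} : Set G) with hC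
  by_contra h2
  have hxx : x⁻¹ ≠ x := fun h => h2 (orderOf_eq_prime (by rw [pow_two]; exact inv_eq_iff_mul_eq_one.mp h) hx)
  obtain ⟨c, hc⟩ := isConj_iff.mp hreal
  let E : Subgroup G :=
    { carrier := {g | g * x * g⁻¹ = x ∨ g * x * g⁻¹ = x⁻¹}
      one_mem' := Or.inl (by simp)
      mul_mem' := by
        rintro a b (ha | ha) (hb | hb)
        · exact Or.inl (by rw [show a * b * x * (a * b)⁻¹ = a * (b * x * b⁻¹) * a⁻¹ by group, hb, ha])
        · refine Or.inr ?_
          rw [show a * b * x * (a * b)⁻¹ = a * (b * x * b⁻¹) * a⁻¹ by group, hb,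
            show a * x⁻¹ * a⁻¹ = (a * x * a⁻¹)⁻¹ by group, ha]
        · exact Or.inr (by rw [show a * b * x * (a * b)⁻¹ = a * (b * x * b⁻¹) * a⁻¹ by group, hb, ha])
        · refine Or.inl ?_
          rw [show a * b * x * (a * b)⁻¹ = a * (b * x * b⁻¹) * a⁻¹ by group, hb,
            show a * x⁻¹ * a⁻¹ = (a * x * a⁻¹)⁻¹ by group, ha, inv_inv]
      inv_mem' := by
        rintro a (ha | ha)
        · refine Or.inl ?_
          conv_lhs => rw [← ha]
          group
        · refine Or.inr ?_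
          calc a⁻¹ * x * a⁻¹⁻¹ = a⁻¹ * (x⁻¹)⁻¹ * a := by group
            _ = a⁻¹ * (a * x * a⁻¹)⁻¹ * a := by rw [ha]
            _ = x⁻¹ := by group }
  have hmem : ∀ g : G, g ∈ C ↔ g * x * g⁻¹ = x := fun g => by
    rw [hC, Subgroup.mem_centralizer_singleton_iff, mul_inv_eq_iff_eq_mul]
  have hCE : C ≤ E := fun g hg => Or.inl ((hmem g).mp hg)
  have hidx : C.relIndex E = 2 := by
    rw [Subgroup.relIndex_eq_two_iff]
    refine ⟨c, Or.inr hc, fun b hb => ?_⟩
    rw [hmem, hmem]
    have e : b * c * x * (b * c)⁻¹ = (b * x * b⁻¹)⁻¹ := by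
      rw [show b * c * x * (b * c)⁻¹ = b * (c * x * c⁻¹) * b⁻¹ by group, hc]; group
    rw [e]
    rcases hb with hb | hb <;> rw [hb]
    · exact Or.inr ⟨rfl, hxx⟩
    · rw [inv_inv]
      exact Or.inl ⟨rfl, hxx⟩
  have h2idx : 2 ∣ C.index := hidx ▸ Subgroup.relIndex_dvd_index_of_le hCE
  exact P.not_dvd_index (h2idx.trans (Subgroup.index_dvd_of_le hP))

end Cfsg.Agent.S4195
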