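import Cfsg.Statements.S4196
import Cfsg.Agent.S4195

set_option autoImplicit false
open Cfsg

namespace Cfsg.Agent.S4196

/-- A finite group G has elementary abelian Sylow 2-subgroups (commutative with every element squaring to the identity) if and only if every 2-element of G has a Sylow 2-subgroup in its centralizer and is conjugate to its inverse. -/
theorem result {G : Type*} [Group G] [Finite G] (P : Sylow 2 G) :
    (IsMulCommutative (P : Subgroup G) ∧ ∀ x ∈ (P : Subgroup G), x ^ 2 = 1) ↔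
      ∀ x : G, (∃ k : ℕ, orderOf x = 2 ^ k) → (∃ Q : Sylow 2 G, (Q : Subgroup G) ≤ Subgroup.centralizer ({x} : Set G)) ∧ IsConj x x⁻¹ := by
  constructor
  · rintro ⟨hc, he⟩ x ⟨k, hk⟩
    have hp : IsPGroup 2 (Subgroup.zpowers x) :=
      IsPGroup.of_card (n := k) (by rw [Nat.card_zpowers, hk])
    obtain ⟨Q, hQ⟩ := hp.exists_le_sylow
    have hxQ : x ∈ (Q : Subgroup G) := hQ (Subgroup.mem_zpowers x)
    refine ⟨⟨Q, fun y hy => ?_⟩, ?_⟩
    · rw [Subgroup.mem_centralizer_singleton_iff]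
      have h := hc.is_comm.comm ((Q.equiv P) ⟨y, hy⟩) ((Q.equiv P) ⟨x, hxQ⟩)
      rw [← map_mul, ← map_mul] at h
      exact congrArg Subtype.val ((Q.equiv P).injective h)
    · have h := he _ ((Q.equiv P) ⟨x, hxQ⟩).2
      have h2 : (Q.equiv P) (⟨x, hxQ⟩ ^ 2) = 1 := by
        rw [map_pow]
        exact Subtype.ext h
      rw [map_eq_one_iff _ (Q.equiv P).injective] at h2
      have h3 : x * x = 1 := by
        have := congrArg Subtype.val h2
        simpa [pow_two] using this
      rw [inv_eq_of_mul_eq_one_left h3]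
  · intro h
    have hsq : ∀ x ∈ (P : Subgroup G), x ^ 2 = 1 := by
      intro x hx
      rcases eq_or_ne x 1 with rfl | hx1
      · simp
      obtain ⟨j, hj⟩ := P.isPGroup' ⟨x, hx⟩
      have hj' : x ^ 2 ^ j = 1 := congrArg Subtype.val hj
      obtain ⟨i, -, hi⟩ := (Nat.dvd_prime_pow Nat.prime_two).mp (orderOf_dvd_of_pow_eq_one hj')
      obtain ⟨⟨Q, hQ⟩, hr⟩ := h x ⟨i, hi⟩
      rw [← S4195.result x hx1 Q hQ hr]
      exact pow_orderOf_eq_one x
    refine ⟨⟨⟨fun a b => Subtype.ext ?_⟩⟩, hsq⟩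
    have inv : ∀ x ∈ (P : Subgroup G), x⁻¹ = x := fun x hx =>
      inv_eq_of_mul_eq_one_left (by rw [← pow_two]; exact hsq x hx)
    show (a : G) * b = b * a
    calc (a : G) * b = ((a : G) * b)⁻¹ := (inv _ ((P : Subgroup G).mul_mem a.2 b.2)).symm
      _ = b * a := by rw [mul_inv_rev, inv _ a.2, inv _ b.2]

end Cfsg.Agent.S4196
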