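import Cfsg.Statements.S4203
import Mathlib
import Cfsg.Agent.S4341
import Cfsg.Agent.CharBasics.Burnside

set_option autoImplicit false
open Cfsg

namespace Cfsg.Agent.S4203

universe v

/-- The statement, by induction on the order. -/
theorem aux : ∀ (n : ℕ) (G : Type v) [Group G] [Finite G], Nat.card G = n →
    (∀ M : Subgroup G, IsCoatom M → ∃ p : ℕ, p.Prime ∧ (M.index = p ∨ M.index = p ^ 2)) → Group.IsSolvable G := by
  intro n
  induction n using Nat.strong_induction_on with
  | _ n ih => ?_
  intro G _ _ hn h
  classical
  by_cases hs : Subsingleton G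
  · haveI := hs
    infer_instance
  haveI : Nontrivial G := not_subsingleton_iff_nontrivial.mp hs
  -- a minimal normal subgroup
  obtain ⟨N, ⟨hNn, hN1⟩, hmin⟩ := wellFounded_lt.has_min {N : Subgroup G | N.Normal ∧ N ≠ ⊥}
    ⟨⊤, inferInstance, top_ne_bot⟩
  haveI := hNn
  have hquot : Group.IsSolvable (G ⧸ N) := by
    have hsur := QuotientGroup.mk'_surjective N
    refine ih _ ?_ (G ⧸ N) rfl (fun M hM => ?_)
    · rw [← hn, ← N.card_mul_index]
      exact (lt_mul_iff_one_lt_left (Nat.pos_of_ne_zero Subgroup.index_ne_zero_of_finite)).mpr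
        ((Subgroup.one_lt_card_iff_ne_bot N).mpr hN1)
    · rw [← Subgroup.index_comap_of_surjective M hsur]
      refine h _ ⟨fun e => hM.1 ?_, fun W hW => ?_⟩
      · rw [← Subgroup.map_comap_eq_self_of_surjective hsur M, e, Subgroup.map_top_of_surjective _ hsur]
      · have hNW : N ≤ W := le_trans (le_trans (QuotientGroup.ker_mk' N).ge (Subgroup.ker_le_comap _ _)) hW.le
        have h1 : M < W.map (QuotientGroup.mk' N) := by
          refine lt_of_le_of_ne ?_ (fun e => hW.ne ?_)
          · rw [← Subgroup.map_comap_eq_self_of_surjective hsur M]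
            exact Subgroup.map_mono hW.le
          · rw [e, Subgroup.comap_map_eq_self (by rwa [QuotientGroup.ker_mk'])]
        rw [← Subgroup.comap_map_eq_self (f := QuotientGroup.mk' N) (H := W) (by rwa [QuotientGroup.ker_mk']),
          hM.2 _ h1, Subgroup.comap_top]
  haveI hNsol : Group.IsSolvable N := by
    haveI : Nontrivial N := (Subgroup.nontrivial_iff_ne_bot N).mpr hN1
    have hne : (Nat.card N).primeFactors.Nonempty := Nat.nonempty_primeFactors.mpr Finite.one_lt_card
    set p := (Nat.card N).primeFactors.max' hne with hpdef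
    have hpm := Finset.max'_mem _ hne
    rw [Nat.mem_primeFactors] at hpm
    haveI : Fact p.Prime := ⟨hpm.1⟩
    obtain ⟨P⟩ : Nonempty (Sylow p N) := inferInstance
    by_cases hP : (P : Subgroup N).Normal
    · haveI hchar : (P : Subgroup N).Characteristic := P.characteristic_of_normal hP
      have hmapn : ((P : Subgroup N).map N.subtype).Normal := inferInstance
      have hPN : (P : Subgroup N) = ⊤ := by
        have hne' : (P : Subgroup N).map N.subtype ≠ ⊥ := by
          rw [Ne, Subgroup.map_eq_bot_iff_of_injective _ N.subtype_injective]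
          exact P.ne_bot_of_dvd_card hpm.2.1
        have hle : (P : Subgroup N).map N.subtype ≤ N := Subgroup.map_subtype_le _
        have heq : (P : Subgroup N).map N.subtype = N := by
          by_contra hc
          exact hmin _ ⟨hmapn, hne'⟩ (lt_of_le_of_ne hle hc)
        apply Subgroup.map_injective N.subtype_injective
        rw [heq, ← MonoidHom.range_eq_map, Subgroup.range_subtype]
      have hp' : IsPGroup p N := by
        have h1 := P.isPGroup'
        rw [hPN] at h1
        exact h1.of_equiv Subgroup.topEquiv
      haveI := hp'.isNilpotent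
      infer_instance
    -- the normalizer lies in a maximal subgroup
    set P' : Subgroup G := (P : Subgroup N).map N.subtype with hP'
    set NP := Subgroup.normalizer (P' : Set G) with hNP
    have hsup : NP ⊔ N = ⊤ := Sylow.normalizer_sup_eq_top P
    have hNPt : NP ≠ ⊤ := fun e => hP (by
      have hn' : P'.Normal := Subgroup.normalizer_eq_top_iff.mp e
      have : (P'.subgroupOf N).Normal := inferInstance
      rwa [hP', Subgroup.subgroupOf, Subgroup.comap_map_eq_self_of_injective N.subtype_injective] at this)
    obtain ⟨M, hM, hNM⟩ := (eq_top_or_exists_le_coatom NP).resolve_left hNPt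
    obtain ⟨r, hr, hidx⟩ := h M hM
    have hMN : M ⊔ N = ⊤ := top_le_iff.mp (hsup.ge.trans (sup_le_sup_right hNM N))
    have hidx' : M.index = M.relIndex N := by
      rw [← Subgroup.relIndex_top_right, ← hMN, Cfsg.Agent.S4341.relIndex_sup_normal]
    -- Sylow counting
    have hnum : Nat.card (Sylow p N) = NP.relIndex N := by
      rw [Sylow.card_eq_index_normalizer P, ← Sylow.coe_coe]
      have e : (P : Subgroup N) = P'.comap N.subtype := by
        rw [hP', Subgroup.comap_map_eq_self_of_injective N.subtype_injective]
      rw [e, ← Subgroup.comap_normalizer_eq_of_le_range (by rw [Subgroup.range_subtype]; exact Subgroup.map_subtype_le _)]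
      rfl
    set L : Subgroup N := M.subgroupOf N with hL
    have hPL : (P : Subgroup N) ≤ L := by
      intro x hx
      exact hNM (Subgroup.le_normalizer (Subgroup.mem_map_of_mem N.subtype hx))
    have hnum2 : Nat.card (Sylow p L) = NP.relIndex (M ⊓ N) := by
      rw [Sylow.card_eq_index_normalizer (P.subtype hPL), ← Sylow.coe_coe, Sylow.coe_subtype]
      have e : (P : Subgroup N).subgroupOf L = (P'.comap N.subtype).comap L.subtype := by
        rw [hP', Subgroup.comap_map_eq_self_of_injective N.subtype_injective]; rfl
      rw [e, Subgroup.comap_comap, ← Subgroup.comap_normalizer_eq_of_le_range]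
      · rw [Subgroup.index_comap, MonoidHom.range_comp, Subgroup.range_subtype, hL, Subgroup.subgroupOf_map_subtype]
      · rw [MonoidHom.range_comp, Subgroup.range_subtype, hL, Subgroup.subgroupOf_map_subtype]
        exact le_inf (Subgroup.le_normalizer.trans hNM) (Subgroup.map_subtype_le _)
    have h1 : Nat.card (Sylow p N) ≡ 1 [MOD p] := card_sylow_modEq_one p N
    have h2 : Nat.card (Sylow p L) ≡ 1 [MOD p] := card_sylow_modEq_one p L
    rw [hnum] at h1
    rw [hnum2] at h2
    have hmul : NP.relIndex (M ⊓ N) * M.relIndex N = NP.relIndex N := by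
      have h3 := Subgroup.relIndex_mul_relIndex (NP ⊓ N) (M ⊓ N) N (inf_le_inf_right N hNM) inf_le_right
      rw [Subgroup.inf_relIndex_right, Subgroup.inf_relIndex_right] at h3
      rw [← h3]
      congr 1
      rw [← Subgroup.inf_relIndex_right (NP ⊓ N), inf_assoc,
        inf_eq_right.mpr (inf_le_right : M ⊓ N ≤ N), Subgroup.inf_relIndex_right]
    have h4 : M.index ≡ 1 [MOD p] := by
      rw [hidx']
      have := h2.mul_right (M.relIndex N)
      rw [hmul, one_mul] at this
      exact this.symm.trans h1
    have hrdvd : r ∣ Nat.card N := by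
      have hd : M.relIndex N ∣ Nat.card N := Subgroup.relIndex_dvd_card _ _
      rw [← hidx'] at hd
      rcases hidx with e | e <;> rw [e] at hd
      · exact hd
      · exact (dvd_pow_self r two_ne_zero).trans hd
    have hrp : r ≤ p := Finset.le_max' _ r (Nat.mem_primeFactors.mpr ⟨hr, hrdvd, Nat.card_pos.ne'⟩)
    have hp2 := hpm.1.two_le
    have hp3 : p ≤ 3 := by
      rcases hidx with e | e <;> rw [e] at h4 <;> rw [Nat.ModEq, Nat.mod_eq_of_lt hpm.1.one_lt] at h4
      · rcases hrp.eq_or_lt with e' | e'
        · rw [e', Nat.mod_self] at h4; omega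
        · rw [Nat.mod_eq_of_lt e'] at h4; exact absurd h4 hr.one_lt.ne'
      · rcases hrp.eq_or_lt with e' | e'
        · rw [e', Nat.pow_mod, Nat.mod_self] at h4; simp at h4
        have hr2 := hr.two_le
        have hd : p ∣ (r + 1) * (r - 1) := by
          have hd1 : p ∣ r ^ 2 - 1 := by
            rw [← Nat.modEq_iff_dvd' (Nat.one_le_pow _ _ hr.pos), Nat.ModEq, h4, Nat.mod_eq_of_lt hpm.1.one_lt]
          rwa [show r ^ 2 - 1 = r ^ 2 - 1 ^ 2 by norm_num, Nat.sq_sub_sq] at hd1
        rcases hpm.1.dvd_mul.mp hd with hd' | hd'
        · have hle := Nat.le_of_dvd (by omega) hd'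
          by_contra h3
          have hpr : p = r + 1 := by omega
          rcases hr.eq_two_or_odd with e2 | e2
          · omega
          · rcases hpm.1.eq_two_or_odd with e3 | e3 <;> omega
        · have hle := Nat.le_of_dvd (by omega) hd'
          omega
    refine CfsgLib.CharBasics.isSolvable_two_primes 2 3 (fun s hs hsd => ?_)
    have hsp : s ≤ p := Finset.le_max' _ s (Nat.mem_primeFactors.mpr ⟨hs, hsd, Nat.card_pos.ne'⟩)
    have := hs.two_le
    omega
  haveI := hquot
  exact Group.isSolvable_of_ker_le_range (f := N.subtype) (g := QuotientGroup.mk' N)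
    (by rw [QuotientGroup.ker_mk', Subgroup.range_subtype])

/-- A finite group in which every maximal subgroup has index a prime or the square of a prime is solvable. -/
theorem result {G : Type*} [Group G] [Finite G] (h : ∀ M : Subgroup G, IsCoatom M → ∃ p : ℕ, p.Prime ∧ (M.index = p ∨ M.index = p ^ 2)) : Group.IsSolvable G := by
  exact aux _ G rfl h

end Cfsg.Agent.S4203
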