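import Cfsg.Statements.S4314
import Cfsg.Agent.S4387

set_option autoImplicit false
open Cfsg
open scoped Pointwise

namespace Cfsg.Agent.S4314

variable {G : Type*} [Group G] [Finite G]

/-- The conjugates of `x`. -/
def cl (x : G) : Set G := Set.range fun g : G => g * x * g⁻¹

theorem mem_cl_self (x : G) : x ∈ cl x := ⟨1, by simp⟩

theorem conj_mem_cl {x z : G} (hz : z ∈ cl x) (g : G) : g * z * g⁻¹ ∈ cl x := by
  obtain ⟨h, rfl⟩ := hz
  exact ⟨g * h, by group⟩

theorem ncard_cl (x : G) : (cl x).ncard = (Subgroup.centralizer ({x} : Set G)).index := by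
  let f : G ⧸ Subgroup.centralizer ({x} : Set G) → G :=
    Quotient.lift (fun g : G => g * x * g⁻¹) (fun a b hab => by
      have h1 : a⁻¹ * b ∈ Subgroup.centralizer ({x} : Set G) := QuotientGroup.leftRel_apply.mp hab
      rw [Subgroup.mem_centralizer_singleton_iff] at h1
      show a * x * a⁻¹ = b * x * b⁻¹
      calc a * x * a⁻¹ = a * (x * (a⁻¹ * b)) * b⁻¹ := by group
        _ = a * ((a⁻¹ * b) * x) * b⁻¹ := by rw [h1]
        _ = b * x * b⁻¹ := by group)
  have hr : Set.range f = cl x := by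
    ext z
    constructor
    · rintro ⟨w, rfl⟩
      induction w using QuotientGroup.induction_on with
      | H g => exact ⟨g, rfl⟩
    · rintro ⟨g, rfl⟩
      exact ⟨g, rfl⟩
  have hf : Function.Injective f := by
    intro v w h
    induction v using QuotientGroup.induction_on with
    | H a => induction w using QuotientGroup.induction_on with
      | H b =>
        rw [QuotientGroup.eq, Subgroup.mem_centralizer_singleton_iff]
        have h' : a * x * a⁻¹ = b * x * b⁻¹ := h
        calc a⁻¹ * b * x = a⁻¹ * (b * x * b⁻¹) * b := by group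
          _ = a⁻¹ * (a * x * a⁻¹) * b := by rw [h']
          _ = x * (a⁻¹ * b) := by group
  rw [← hr, ← Set.image_univ, Set.ncard_image_of_injective _ hf, Set.ncard_univ]
  rfl

theorem one_lt_of_noncentral {x : G} {p : ℕ} (hp : 1 < p)
    (hx : (Subgroup.centralizer ({x} : Set G)).index = p) : ∃ g : G, g * x * g⁻¹ ≠ x := by
  by_contra h
  push Not at h
  have : Subgroup.centralizer ({x} : Set G) = ⊤ := eq_top_iff.mpr fun g _ =>
    Subgroup.mem_centralizer_singleton_iff.mpr (mul_inv_eq_iff_eq_mul.mp (h g))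
  rw [this, Subgroup.index_top] at hx
  omega

/-- Classes of coprime prime sizes multiply to one class; the smaller one lies in a coset of a
normal subgroup of the larger order. -/
theorem exists_translate {x y : G} {p q : ℕ} (hp : p.Prime) (hq : q.Prime) (hqp : q < p)
    (hx : (Subgroup.centralizer ({x} : Set G)).index = p)
    (hy : (Subgroup.centralizer ({y} : Set G)).index = q)
    (h : ∀ z : G, (Subgroup.centralizer ({z} : Set G)).index = 1 ∨
      ((Subgroup.centralizer ({z} : Set G)).index).Prime) :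
    ∃ M : Subgroup G, M.Normal ∧ Nat.card M = p ∧ (∀ g : G, g * y * g⁻¹ * y⁻¹ ∈ M) ∧
      (∀ g : G, x⁻¹ * (g * x * g⁻¹) ∈ M) ∧ (∀ m ∈ M, x * m ∈ cl x) := by
  classical
  set A := Subgroup.centralizer ({x} : Set G) with hA
  set B := Subgroup.centralizer ({y} : Set G) with hB
  have hcop : p.Coprime q := (Nat.coprime_primes hp hq).mpr hqp.ne'
  have hidx : (A ⊓ B).index = p * q := by
    refine Nat.dvd_antisymm ?_ (hcop.mul_dvd_of_dvd_of_dvd (hx ▸ Subgroup.index_dvd_of_le inf_le_left)
      (hy ▸ Subgroup.index_dvd_of_le inf_le_right))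
    have h1 : A.relIndex B * B.index = (A ⊓ B).index := by
      rw [← Subgroup.inf_relIndex_right, Subgroup.relIndex_mul_index inf_le_right]
    have h2 : (A ⊓ B).index ≤ p * q := hx ▸ hy ▸ Subgroup.index_inf_le
    have h3 : p * q ∣ (A ⊓ B).index := hcop.mul_dvd_of_dvd_of_dvd (hx ▸ Subgroup.index_dvd_of_le inf_le_left)
      (hy ▸ Subgroup.index_dvd_of_le inf_le_right)
    have h4 : (A ⊓ B).index = p * q :=
      le_antisymm h2 (Nat.le_of_dvd (Nat.pos_of_ne_zero Subgroup.index_ne_zero_of_finite) h3)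
    rw [h4]
  have hfac : ∀ g : G, ∃ a ∈ A, ∃ b ∈ B, g = a * b := by
    let f : A ⧸ B.subgroupOf A → G ⧸ B := Quotient.lift (fun a : A => ((a : G) : G ⧸ B)) (fun a b hab =>
      QuotientGroup.eq.mpr (QuotientGroup.leftRel_apply.mp hab : a⁻¹ * b ∈ B.subgroupOf A))
    have hf : Function.Injective f := by
      intro v w hvw
      induction v using QuotientGroup.induction_on with
      | H a => induction w using QuotientGroup.induction_on with
        | H b => exact QuotientGroup.eq.mpr (Subgroup.mem_subgroupOf.mpr (QuotientGroup.eq.mp hvw))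
    have hcard : Nat.card (A ⧸ B.subgroupOf A) = Nat.card (G ⧸ B) := by
      show B.relIndex A = B.index
      have h5 : B.relIndex A * A.index = (A ⊓ B).index := by
        rw [← Subgroup.inf_relIndex_left, Subgroup.relIndex_mul_index inf_le_left]
      rw [hidx, hx, mul_comm] at h5
      rw [hy]
      exact Nat.eq_of_mul_eq_mul_left hp.pos h5
    have hbij := (Nat.bijective_iff_injective_and_card f).mpr ⟨hf, hcard⟩
    intro g
    obtain ⟨v, hv⟩ := hbij.2 (g : G ⧸ B)
    induction v using QuotientGroup.induction_on with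
    | H a => exact ⟨a, a.2, (a : G)⁻¹ * g, QuotientGroup.eq.mp hv, by group⟩
  have hprod : ∀ g h : G, g * x * g⁻¹ * (h * y * h⁻¹) ∈ cl (x * y) := by
    intro g h
    obtain ⟨a, ha, b, hb, hab⟩ := hfac (g⁻¹ * h)
    rw [Subgroup.mem_centralizer_singleton_iff] at ha hb
    have hh : h = g * (a * b) := by rw [← hab]; group
    refine ⟨g * a, ?_⟩
    show g * a * (x * y) * (g * a)⁻¹ = _
    rw [hh]
    calc g * a * (x * y) * (g * a)⁻¹ = g * (a * x) * a⁻¹ * g⁻¹ * (g * a * y * (g * a)⁻¹) := by group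
      _ = g * x * g⁻¹ * (g * a * y * (g * a)⁻¹) := by rw [ha]; group
      _ = g * x * g⁻¹ * (g * a * (b * y) * b⁻¹ * a⁻¹ * g⁻¹) := by rw [hb]; group
      _ = g * x * g⁻¹ * (g * (a * b) * y * (g * (a * b))⁻¹) := by group
  have hinjR : ∀ w : G, ((fun z => z * w) '' cl x).ncard = p := fun w => by
    rw [Set.ncard_image_of_injective _ (mul_left_injective w), ncard_cl, hx]
  have hsub : ∀ h : G, (fun z => z * (h * y * h⁻¹)) '' cl x ⊆ cl (x * y) := by
    rintro h _ ⟨_, ⟨g, rfl⟩, rfl⟩
    exact hprod g h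
  have hxy : (cl (x * y)).ncard = p := by
    have h1 := Set.ncard_le_ncard (hsub 1)
    rw [hinjR, ncard_cl] at h1
    have h2 : (Subgroup.centralizer ({x * y} : Set G)).index ∣ p * q := by
      rw [← hidx]
      refine Subgroup.index_dvd_of_le fun d hd => ?_
      have hdx : d * x = x * d := Subgroup.mem_centralizer_singleton_iff.mp hd.1
      have hdy : d * y = y * d := Subgroup.mem_centralizer_singleton_iff.mp hd.2
      rw [Subgroup.mem_centralizer_singleton_iff]
      rw [← mul_assoc, hdx, mul_assoc, hdy, mul_assoc]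
    rw [ncard_cl]
    rcases h (x * y) with h3 | h3
    · rw [h3] at h1
      exact absurd h1 (not_le.mpr hp.one_lt)
    rcases h3.dvd_mul.mp h2 with h4 | h4
    · exact (Nat.prime_dvd_prime_iff_eq h3 hp).mp h4
    · rw [(Nat.prime_dvd_prime_iff_eq h3 hq).mp h4] at h1
      exact absurd h1 (not_le.mpr hqp)
  have heq : ∀ h : G, (fun z => z * (h * y * h⁻¹)) '' cl x = cl (x * y) := fun h =>
    Set.eq_of_subset_of_ncard_le (hsub h) (by rw [hinjR, hxy])
  let M : Subgroup G :=
    { carrier := {u | (fun z => z * u) '' cl x = cl x}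
      one_mem' := by simp
      mul_mem' := fun {u v} hu hv => by
        simp only [Set.mem_setOf_eq] at *
        conv_rhs => rw [← hv, ← hu, Set.image_image]
        simp only [mul_assoc]
      inv_mem' := fun {u} hu => by
        simp only [Set.mem_setOf_eq] at *
        conv_lhs => rw [← hu, Set.image_image]
        simp }
  have hMmem : ∀ u : G, u ∈ M ↔ (fun z => z * u) '' cl x = cl x := fun u => Iff.rfl
  have hMn : M.Normal := by
    refine ⟨fun u hu g => ?_⟩
    rw [hMmem] at hu ⊢
    refine Set.eq_of_subset_of_ncard_le ?_ (by rw [hinjR, ncard_cl, hx])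
    rintro _ ⟨z, hz, rfl⟩
    have h1 : (g⁻¹ * z * g) * u ∈ cl x := by
      rw [← hu]
      exact ⟨g⁻¹ * z * g, by simpa using conj_mem_cl hz g⁻¹, rfl⟩
    have := conj_mem_cl h1 g
    simpa [mul_assoc] using this
  have hyM : ∀ g : G, g * y * g⁻¹ * y⁻¹ ∈ M := by
    intro g
    rw [hMmem]
    have h1 := heq g
    rw [← heq 1] at h1
    have h2 := congrArg (fun S => (fun z => z * y⁻¹) '' S) h1
    simp only [Set.image_image, one_mul, inv_one, mul_one, mul_inv_cancel_right, Set.image_id'] at h2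
    simpa [mul_assoc] using h2
  have hxM : ∀ m ∈ M, x * m ∈ cl x := fun m hm => by
    rw [hMmem] at hm
    rw [← hm]
    exact ⟨x, mem_cl_self x, rfl⟩
  have hclosed : (QuotientGroup.mk : G → G ⧸ M) ⁻¹' ((QuotientGroup.mk : G → G ⧸ M) '' cl x) = cl x := by
    refine Set.Subset.antisymm ?_ (Set.subset_preimage_image _ _)
    rintro z ⟨w, hw, hwz⟩
    have hu : w⁻¹ * z ∈ M := QuotientGroup.eq.mp hwz
    rw [hMmem] at hu
    rw [← hu]
    exact ⟨w, hw, by simp⟩
  have hdvd : Nat.card M ∣ p := by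
    have h1 := Nat.card_congr (QuotientGroup.preimageMkEquivSubgroupProdSet M
      ((QuotientGroup.mk : G → G ⧸ M) '' cl x))
    rw [hclosed, Nat.card_prod, Nat.card_coe_set_eq, ncard_cl, hx] at h1
    exact ⟨_, h1⟩
  have hcardM : Nat.card M = p := by
    rcases (Nat.dvd_prime hp).mp hdvd with h1 | h1
    · obtain ⟨g, hg⟩ := one_lt_of_noncentral hq.one_lt hy
      rw [Subgroup.card_eq_one] at h1
      exact absurd (mul_inv_eq_one.mp (Subgroup.mem_bot.mp (h1 ▸ hyM g))) hg
    · exact h1
  refine ⟨M, hMn, hcardM, hyM, fun g => ?_, hxM⟩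
  have himg : (fun m => x * m) '' (M : Set G) = cl x := by
    refine Set.eq_of_subset_of_ncard_le (fun z hz => ?_) ?_
    · obtain ⟨m, hm, rfl⟩ := hz
      exact hxM m hm
    · rw [Set.ncard_image_of_injective _ (mul_right_injective x), ncard_cl, hx, ← Nat.card_coe_set_eq]
      exact hcardM.ge
  obtain ⟨m, hm, hme⟩ := himg.ge ⟨g, rfl⟩
  simp only at hme
  rw [← hme]
  simpa using hm

theorem eq_of_mem_of_card {M M' : Subgroup G} {p : ℕ} (hp : p.Prime) (hM : Nat.card M = p)
    (hM' : Nat.card M' = p) {u : G} (hu : u ∈ M) (hu' : u ∈ M') (h1 : u ≠ 1) : M = M' := by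
  have key : ∀ N : Subgroup G, Nat.card N = p → u ∈ N → Subgroup.zpowers u = N := by
    intro N hN huN
    refine Subgroup.eq_of_le_of_card_ge (Subgroup.zpowers_le.mpr huN) (le_of_eq ?_)
    have h2 : orderOf u ∣ p := hN ▸ Subgroup.orderOf_dvd_natCard N huN
    rw [Nat.card_zpowers, hN]
    rcases (Nat.dvd_prime hp).mp h2 with h3 | h3
    · exact absurd (orderOf_eq_one_iff.mp h3) h1
    · exact h3.symm
  rw [← key M hM hu, ← key M' hM' hu']

theorem single_prime {p : ℕ} (hp : p.Prime)
    (h : ∀ z : G, (Subgroup.centralizer ({z} : Set G)).index = 1 ∨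
      (Subgroup.centralizer ({z} : Set G)).index = p) : Subgroup.upperCentralSeries G 2 = ⊤ := by
  have := Fact.mk hp
  have hsyl : ∀ (q : ℕ), q.Prime → q ≠ p → ∀ Q : Sylow q G, (Q : Subgroup G) ≤ Subgroup.center G := by
    intro q hq hqp Q
    have := Fact.mk hq
    suffices hC : Subgroup.centralizer ((Q : Subgroup G) : Set G) = ⊤ by
      intro z hz
      rw [Subgroup.mem_center_iff]
      intro g
      exact (Subgroup.mem_centralizer_iff.mp (hC ▸ Subgroup.mem_top g) z hz).symm
    by_contra hne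
    obtain ⟨g, hg⟩ := Cfsg.Agent.S4387.exists_notMem_conj _ hne
    have hndvd : ¬ q ∣ (Subgroup.centralizer ({g} : Set G)).index := by
      rcases h g with h1 | h1 <;> rw [h1]
      · exact hq.not_dvd_one
      · exact fun hd => hqp ((Nat.prime_dvd_prime_iff_eq hq hp).mp hd)
    let R : Sylow q (Subgroup.centralizer ({g} : Set G)) := default
    obtain ⟨S, hS⟩ := (R.2.map (Subgroup.centralizer ({g} : Set G)).subtype).exists_le_sylow
    have hSC : (S : Subgroup G) ≤ Subgroup.centralizer ({g} : Set G) := by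
      have he : (R : Subgroup _).map (Subgroup.centralizer ({g} : Set G)).subtype = S := by
        refine Subgroup.eq_of_le_of_card_ge hS (le_of_eq ?_)
        rw [S.card_eq_multiplicity, Subgroup.card_map_of_injective (Subgroup.subtype_injective _),
          R.card_eq_multiplicity, ← (Subgroup.centralizer ({g} : Set G)).card_mul_index,
          Nat.factorization_mul Nat.card_pos.ne' Subgroup.index_ne_zero_of_finite]
        simp [Nat.factorization_eq_zero_of_not_dvd hndvd]
      rw [← he]
      exact Subgroup.map_subtype_le _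
    obtain ⟨a, ha⟩ := MulAction.exists_smul_eq G Q S
    refine hg a ?_
    rw [Subgroup.mem_pointwise_smul_iff_inv_smul_mem]
    show (MulAut.conj a)⁻¹ • g ∈ Subgroup.centralizer ((Q : Subgroup G) : Set G)
    rw [← map_inv, MulAut.smul_def, MulAut.conj_apply, inv_inv, Subgroup.mem_centralizer_iff]
    intro s hs
    have h2 : a * s * a⁻¹ ∈ (S : Subgroup G) := by
      rw [← ha, Sylow.coe_subgroup_smul]
      exact Subgroup.smul_mem_pointwise_smul s (MulAut.conj a) _ hs
    have h3 := Subgroup.mem_centralizer_singleton_iff.mp (hSC h2)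
    calc s * (a⁻¹ * g * a) = a⁻¹ * (a * s * a⁻¹ * g) * a := by group
      _ = a⁻¹ * (g * (a * s * a⁻¹)) * a := by rw [h3]
      _ = a⁻¹ * g * a * s := by group
  have hq : IsPGroup p (G ⧸ Subgroup.center G) := by
    refine IsPGroup.of_card (n := (Subgroup.center G).index.primeFactorsList.length) ?_
    rw [← Subgroup.index_eq_card]
    refine Nat.eq_prime_pow_of_unique_prime_dvd Subgroup.index_ne_zero_of_finite fun {r} hr hd => ?_
    by_contra hrp
    have := Fact.mk hr
    let Q : Sylow r G := default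
    exact Q.not_dvd_index (hd.trans (Subgroup.index_dvd_of_le (hsyl r hr hrp Q)))
  have hnil : Group.IsNilpotent G :=
    Group.of_quotient_center_nilpotent hq.isNilpotent
  have hcomm : ∀ a b : G, a * b * a⁻¹ * b⁻¹ ∈ Subgroup.center G := by
    intro a b
    rw [Subgroup.mem_center_iff]
    intro z
    suffices a * b * a⁻¹ * b⁻¹ ∈ Subgroup.centralizer ({z} : Set G) from
      (Subgroup.mem_centralizer_singleton_iff.mp this).symm
    rcases h z with h1 | h1
    · rw [Subgroup.index_eq_one] at h1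
      rw [h1]; trivial
    set C := Subgroup.centralizer ({z} : Set G)
    have hco : IsCoatom C := by
      refine ⟨fun e => by rw [e, Subgroup.index_top] at h1; exact hp.ne_one h1.symm, fun K hK => ?_⟩
      have h2 := Subgroup.relIndex_mul_index hK.le
      rw [h1] at h2
      rcases (Nat.dvd_prime hp).mp (Dvd.intro_left _ h2) with h3 | h3
      · exact Subgroup.index_eq_one.mp h3
      · exfalso
        rw [h3] at h2
        have h4 : C.relIndex K = 1 := Nat.eq_of_mul_eq_mul_right hp.pos (h2.trans (one_mul p).symm)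
        exact hK.not_ge (Subgroup.relIndex_eq_one.mp h4)
    have hCn : C.Normal := Subgroup.NormalizerCondition.normal_of_coatom C
      Group.normalizerCondition_of_isNilpotent hco
    have : IsCyclic (G ⧸ C) := isCyclic_of_prime_card (p := p) (by rw [← Subgroup.index_eq_card, h1])
    rw [← QuotientGroup.eq_one_iff]
    letI := IsCyclic.commGroup (α := G ⧸ C)
    simp [mul_comm]
  rw [eq_top_iff]
  intro a _
  rw [Subgroup.mem_upperCentralSeries_succ_iff]
  intro b
  rw [Subgroup.upperCentralSeries_one]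
  exact hcomm a b

theorem two_primes {p q : ℕ} (hp : p.Prime) (hq : q.Prime) (hqp : q < p) {x y : G}
    (hx : (Subgroup.centralizer ({x} : Set G)).index = p)
    (hy : (Subgroup.centralizer ({y} : Set G)).index = q)
    (h : ∀ z : G, (Subgroup.centralizer ({z} : Set G)).index = 1 ∨
      ((Subgroup.centralizer ({z} : Set G)).index).Prime)
    (hmax : ∀ z : G, (Subgroup.centralizer ({z} : Set G)).index ≤ p) :
    Nat.card (G ⧸ Subgroup.center G) = p * q ∧ ¬ IsMulCommutative (G ⧸ Subgroup.center G) := by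
  obtain ⟨M, hMn, hMc, hyM, hxg, hxm⟩ := exists_translate hp hq hqp hx hy h
  have hMall : ∀ z g : G, g * z * g⁻¹ * z⁻¹ ∈ M := by
    intro z g
    rcases h z with hz | hz
    · rw [Subgroup.index_eq_one] at hz
      have := Subgroup.mem_centralizer_singleton_iff.mp (hz ▸ Subgroup.mem_top g : g ∈ Subgroup.centralizer ({z} : Set G))
      rw [show g * z * g⁻¹ * z⁻¹ = 1 by rw [this]; group]
      exact M.one_mem
    obtain ⟨g0, hg0⟩ := one_lt_of_noncentral hq.one_lt hy
    rcases lt_or_eq_of_le (hmax z) with hlt | heq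
    · obtain ⟨M', -, hM'c, hzM, hxg', -⟩ := exists_translate hp hz hlt hx rfl h
      obtain ⟨g1, hg1⟩ := one_lt_of_noncentral hp.one_lt hx
      have hne : x⁻¹ * (g1 * x * g1⁻¹) ≠ 1 := fun e => hg1 (inv_mul_eq_one.mp e).symm
      rw [eq_of_mem_of_card hp hMc hM'c (hxg g1) (hxg' g1) hne]
      exact hzM g
    · obtain ⟨M', hM'n, hM'c, hyM', hzg, -⟩ := exists_translate hp hq hqp heq hy h
      have hMM : M = M' := eq_of_mem_of_card hp hMc hM'c (hyM g0) (hyM' g0)
        (fun e => hg0 (mul_inv_eq_one.mp e))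
      rw [hMM]
      have := hM'n.conj_mem _ (hzg g) z
      simpa [mul_assoc] using this
  obtain ⟨m, hm, hm1⟩ : ∃ m ∈ M, m ≠ 1 := by
    by_contra hno
    push Not at hno
    rw [(Subgroup.eq_bot_iff_forall M).mpr hno, Subgroup.card_bot] at hMc
    exact hp.ne_one hMc.symm
  have hmz : Subgroup.zpowers m = M := by
    refine Subgroup.eq_of_le_of_card_ge (Subgroup.zpowers_le.mpr hm) (le_of_eq ?_)
    rw [Nat.card_zpowers, hMc]
    rcases (Nat.dvd_prime hp).mp (hMc ▸ Subgroup.orderOf_dvd_natCard M hm) with h3 | h3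
    · exact absurd (orderOf_eq_one_iff.mp h3) hm1
    · exact h3.symm
  set N := Subgroup.centralizer ({m} : Set G) with hNdef
  have hN : ∀ n ∈ N, ∀ u ∈ M, n * u = u * n := by
    intro n hn u hu
    obtain ⟨i, rfl⟩ := Subgroup.mem_zpowers_iff.mp (hmz.symm ▸ hu)
    exact ((show Commute n m from Subgroup.mem_centralizer_singleton_iff.mp hn).zpow_right i).eq
  have hNtop : N ≠ ⊤ := by
    intro e
    have hcen : ∀ u ∈ M, ∀ g : G, g * u = u * g := fun u hu g => hN g (e ▸ Subgroup.mem_top g) u hu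
    let φ : G →* M := MonoidHom.mk' (fun g => ⟨g * y * g⁻¹ * y⁻¹, hMall y g⟩) (fun a b => Subtype.ext (by
      show a * b * y * (a * b)⁻¹ * y⁻¹ = a * y * a⁻¹ * y⁻¹ * (b * y * b⁻¹ * y⁻¹)
      calc a * b * y * (a * b)⁻¹ * y⁻¹ = a * (b * y * b⁻¹ * y⁻¹) * (y * a⁻¹ * y⁻¹) := by group
        _ = b * y * b⁻¹ * y⁻¹ * a * (y * a⁻¹ * y⁻¹) := by rw [hcen _ (hMall y b) a]
        _ = b * y * b⁻¹ * y⁻¹ * (a * y * a⁻¹ * y⁻¹) := by group
        _ = a * y * a⁻¹ * y⁻¹ * (b * y * b⁻¹ * y⁻¹) := (hcen _ (hMall y a) _)))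
    have hker : φ.ker = Subgroup.centralizer ({y} : Set G) := by
      ext g
      rw [MonoidHom.mem_ker, Subgroup.mem_centralizer_singleton_iff, Subtype.ext_iff]
      show g * y * g⁻¹ * y⁻¹ = 1 ↔ _
      rw [mul_inv_eq_one, mul_inv_eq_iff_eq_mul]
    have h2 : q ∣ p := by
      rw [← hy, ← hker, Subgroup.index_ker, ← hMc]
      exact Subgroup.card_subgroup_dvd_card _
    exact hqp.ne ((Nat.prime_dvd_prime_iff_eq hq hp).mp h2)
  have hNi : N.index = q := by
    rcases h m with h1 | h1
    · exact absurd (Subgroup.index_eq_one.mp h1) hNtop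
    have hne : N.index < p := by
      rw [hNdef, ← ncard_cl]
      refine lt_of_le_of_lt (Set.ncard_le_ncard (t := (M : Set G) \ {1}) ?_) ?_
      · rintro _ ⟨g, rfl⟩
        exact ⟨hMn.conj_mem m hm g, fun e => hm1 (conj_eq_one_iff.mp e)⟩
      · rw [← hMc, ← Nat.card_coe_set_eq, Nat.card_coe_set_eq]
        calc ((M : Set G) \ {1}).ncard < (M : Set G).ncard := Set.ncard_diff_singleton_lt_of_mem M.one_mem
          _ = Nat.card M := (Nat.card_coe_set_eq _).symm
    obtain ⟨M', -, hM'c, hmM, hxg', -⟩ := exists_translate hp h1 hne hx rfl h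
    -- the index of `N` divides `q` through the commutator pairing with `y`
    by_contra hneq
    rcases Nat.lt_or_gt_of_ne hneq with hlt | hlt
    · obtain ⟨M'', -, hM''c, -, hyg, -⟩ := exists_translate hq h1 hlt hy rfl h
      obtain ⟨g0, hg0⟩ := one_lt_of_noncentral hq.one_lt hy
      have hu2 := hyg g0
      have hu1 : y⁻¹ * (g0 * y * g0⁻¹) ∈ M := by
        have := hMn.conj_mem _ (hyM g0) y⁻¹
        simpa [mul_assoc] using this
      have hd1 : orderOf (y⁻¹ * (g0 * y * g0⁻¹)) ∣ p := hMc ▸ Subgroup.orderOf_dvd_natCard M hu1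
      have hd2 : orderOf (y⁻¹ * (g0 * y * g0⁻¹)) ∣ q := hM''c ▸ Subgroup.orderOf_dvd_natCard M'' hu2
      exact hg0 (inv_mul_eq_one.mp (orderOf_eq_one_iff.mp
        (Nat.eq_one_of_dvd_coprimes ((Nat.coprime_primes hp hq).mpr hqp.ne') hd1 hd2))).symm
    · obtain ⟨M'', -, hM''c, -, hmg, -⟩ := exists_translate h1 hq hlt rfl hy h
      obtain ⟨g0, hg0⟩ := one_lt_of_noncentral h1.one_lt (x := m) rfl
      have hu2 := hmg g0
      have hu1 : m⁻¹ * (g0 * m * g0⁻¹) ∈ M := M.mul_mem (M.inv_mem hm) (hMn.conj_mem m hm g0)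
      have hd1 : orderOf (m⁻¹ * (g0 * m * g0⁻¹)) ∣ p := hMc ▸ Subgroup.orderOf_dvd_natCard M hu1
      have hd2 := Subgroup.orderOf_dvd_natCard M'' hu2
      rw [hM''c] at hd2
      exact hg0 (inv_mul_eq_one.mp (orderOf_eq_one_iff.mp
        (Nat.eq_one_of_dvd_coprimes ((Nat.coprime_primes hp h1).mpr hne.ne') hd1 hd2))).symm
  obtain ⟨w, hw⟩ : ∃ w : G, w ∉ N := by
    by_contra hno
    push Not at hno
    exact hNtop (eq_top_iff.mpr fun g _ => hno g)
  set A := Subgroup.centralizer ({w} : Set G) with hA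
  have hAM : ∀ u ∈ M, u ∈ A → u = 1 := by
    intro u hu huA
    by_contra hu1
    refine hw (Subgroup.mem_centralizer_singleton_iff.mpr ?_)
    have hz : Subgroup.zpowers u = M := by
      refine Subgroup.eq_of_le_of_card_ge (Subgroup.zpowers_le.mpr hu) (le_of_eq ?_)
      rw [Nat.card_zpowers, hMc]
      rcases (Nat.dvd_prime hp).mp (hMc ▸ Subgroup.orderOf_dvd_natCard M hu) with h3 | h3
      · exact absurd (orderOf_eq_one_iff.mp h3) hu1
      · exact h3.symm
    obtain ⟨i, hi⟩ := Subgroup.mem_zpowers_iff.mp (hz.symm ▸ hm)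
    rw [← hi]
    exact ((show Commute u w from Subgroup.mem_centralizer_singleton_iff.mp huA).symm.zpow_right i).eq
  have hAi : A.index = p := by
    refine le_antisymm (hmax w) ?_
    rw [hA, ← ncard_cl, ← hMc]
    refine le_of_eq_of_le ?_ (Set.ncard_le_ncard (s := (fun u => u * w * u⁻¹) '' (M : Set G)) ?_)
    · rw [Set.InjOn.ncard_image, ← Nat.card_coe_set_eq]
      · rfl
      intro u hu v hv huv
      simp only at huv
      have : v⁻¹ * u = 1 := hAM _ (M.mul_mem (M.inv_mem hv) hu) (by
        rw [hA, Subgroup.mem_centralizer_singleton_iff]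
        calc v⁻¹ * u * w = v⁻¹ * (u * w * u⁻¹) * u := by group
          _ = v⁻¹ * (v * w * v⁻¹) * u := by rw [huv]
          _ = w * (v⁻¹ * u) := by group)
      exact (inv_mul_eq_one.mp this).symm
    · rintro _ ⟨u, -, rfl⟩
      exact ⟨u, rfl⟩
  have hcompl : A.IsComplement' M := Subgroup.isComplement'_of_card_mul_and_disjoint
    (by rw [hMc, ← A.card_mul_index, hAi])
    (Subgroup.disjoint_def.mpr fun {u} huA huM => hAM u huM huA)
  have hAab : ∀ a ∈ A, ∀ b ∈ A, a * b = b * a := by
    intro a ha b hb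
    have := hAM _ (hMall b a) (A.mul_mem (A.mul_mem (A.mul_mem ha hb) (A.inv_mem ha)) (A.inv_mem hb))
    rwa [mul_inv_eq_one, mul_inv_eq_iff_eq_mul] at this
  have hZ : Subgroup.center G = A ⊓ N := by
    refine le_antisymm (fun z hz => ⟨Subgroup.mem_centralizer_singleton_iff.mpr
      (Subgroup.mem_center_iff.mp hz w).symm, Subgroup.mem_centralizer_singleton_iff.mpr
      (Subgroup.mem_center_iff.mp hz m).symm⟩) fun z hz => ?_
    rw [Subgroup.mem_center_iff]
    intro g
    obtain ⟨⟨a, u⟩, hau, -⟩ := hcompl.existsUnique g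
    simp only at hau
    rw [← hau, mul_assoc, ← hN z hz.2 u u.2, ← mul_assoc, hAab a a.2 z hz.1, mul_assoc]
  have hidx : (Subgroup.center G).index = p * q := by
    rw [hZ]
    refine le_antisymm (hAi ▸ hNi ▸ Subgroup.index_inf_le)
      (Nat.le_of_dvd (Nat.pos_of_ne_zero Subgroup.index_ne_zero_of_finite)
        (((Nat.coprime_primes hp hq).mpr hqp.ne').mul_dvd_of_dvd_of_dvd
          (hAi ▸ Subgroup.index_dvd_of_le inf_le_left) (hNi ▸ Subgroup.index_dvd_of_le inf_le_right)))
  refine ⟨by rw [← Subgroup.index_eq_card, hidx], fun hc => hw ?_⟩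
  rw [hNdef, Subgroup.mem_centralizer_singleton_iff]
  have h1 : w * m * w⁻¹ * m⁻¹ ∈ Subgroup.center G := by
    rw [← QuotientGroup.eq_one_iff]
    simp only [QuotientGroup.mk_mul, QuotientGroup.mk_inv]
    rw [mul_comm' (w : G ⧸ Subgroup.center G) (m : G ⧸ Subgroup.center G)]
    group
  rw [hZ] at h1
  have h2 := hAM _ (hMall m w) h1.1
  rwa [mul_inv_eq_one, mul_inv_eq_iff_eq_mul] at h2

/-- Let `G` be a finite group every conjugacy class of which has size 1 or a prime. Then either `G` is nilpotent of class at most 2, or `G/Z(G)` is a non-abelian group of order `pq` for distinct primes `p, q` (a Frobenius group of order `pq`). -/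
theorem result {G : Type*} [Group G] [Finite G]
    (h : ∀ x : G, (Subgroup.centralizer ({x} : Set G)).index = 1 ∨ ((Subgroup.centralizer ({x} : Set G)).index).Prime) :
    Subgroup.upperCentralSeries G 2 = ⊤ ∨
      ∃ p q : ℕ, p.Prime ∧ q.Prime ∧ p ≠ q ∧ Nat.card (G ⧸ Subgroup.center G) = p * q ∧ ¬ IsMulCommutative (G ⧸ Subgroup.center G) := by
  classical
  by_cases hnc : ∀ z : G, (Subgroup.centralizer ({z} : Set G)).index = 1
  · exact Or.inl (single_prime Nat.prime_two fun z => Or.inl (hnc z))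
  push Not at hnc
  obtain ⟨z0, hz0⟩ := hnc
  obtain ⟨x, hx⟩ := Finite.exists_max fun z : G => (Subgroup.centralizer ({z} : Set G)).index
  have hxp : ((Subgroup.centralizer ({x} : Set G)).index).Prime := by
    rcases h x with h1 | h1
    · have h2 := hx z0
      rcases h z0 with h3 | h3
      · exact absurd h3 hz0
      · rw [h1] at h2
        exact absurd h2 (not_le.mpr h3.one_lt)
    · exact h1
  by_cases hy : ∃ y : G, ((Subgroup.centralizer ({y} : Set G)).index).Prime ∧
      (Subgroup.centralizer ({y} : Set G)).index ≠ (Subgroup.centralizer ({x} : Set G)).index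
  · obtain ⟨y, hyq, hne⟩ := hy
    obtain ⟨h1, h2⟩ := two_primes hxp hyq (lt_of_le_of_ne (hx y) hne) rfl rfl h hx
    exact Or.inr ⟨_, _, hxp, hyq, hne.symm, h1, h2⟩
  · refine Or.inl (single_prime hxp fun z => (h z).imp id fun hz => ?_)
    by_contra hc
    exact hy ⟨z, hz, hc⟩

end Cfsg.Agent.S4314
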