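import Cfsg.Statements.S4212
import Cfsg.Agent.Hall.FrobeniusCount
import Cfsg.Agent.S4314

set_option autoImplicit false
open Cfsg

namespace Cfsg.Agent.S4212

theorem class_mul_centralizer {G : Type*} [Group G] [Finite G] (c : G) :
    Nat.card {y : G // IsConj c y} * Nat.card (Subgroup.centralizer ({c} : Set G)) = Nat.card G := by
  have h : {y : G | IsConj c y} = Cfsg.Agent.S4314.cl c := by
    ext y
    exact ⟨fun hy => isConj_iff.mp hy, fun hy => isConj_iff.mpr hy⟩
  have h2 : Nat.card {y : G // IsConj c y} = (Subgroup.centralizer ({c} : Set G)).index := by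
    rw [← Cfsg.Agent.S4314.ncard_cl, ← h, ← Nat.card_coe_set_eq]
    rfl
  rw [h2, mul_comm, Subgroup.card_mul_index]

theorem dvd_sum_of_fiber {α β : Type*} [DecidableEq β] (s : Finset α) (g : α → β) (f : α → ℕ) (d : ℕ)
    (h : ∀ a ∈ s, d ∣ ∑ x ∈ s.filter (fun x => g x = g a), f x) : d ∣ ∑ x ∈ s, f x := by
  rw [← Finset.sum_fiberwise_of_maps_to (t := s.image g) (fun x hx => Finset.mem_image_of_mem g hx)]
  refine Finset.dvd_sum fun b hb => ?_
  obtain ⟨a, ha, rfl⟩ := Finset.mem_image.mp hb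
  exact h a ha

/-- Frobenius for roots of a central element. -/
theorem central_roots {G : Type*} [Group G] [Finite G] (c : G) (hc : c ∈ Subgroup.center G) (n : ℕ) (hn : 0 < n) :
    n.gcd (Nat.card G) ∣ Nat.card {x : G // x ^ n = c} := by
  classical
  have := Fintype.ofFinite G
  set o := orderOf c with ho
  obtain ⟨n1, n2, hn12, hcop, hsupp⟩ : ∃ n1 n2 : ℕ, n = n1 * n2 ∧ n2.Coprime o ∧
      ∀ r : ℕ, r.Prime → r ∣ n1 → r ∣ o := by
    clear ho hc
    induction n using Nat.strong_induction_on with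
    | _ n ih =>
      by_cases h : ∃ r : ℕ, r.Prime ∧ r ∣ n ∧ r ∣ o
      · obtain ⟨r, hr, ⟨k, hk⟩, hro⟩ := h
        have hk0 : 0 < k := Nat.pos_of_ne_zero fun h => by rw [h, mul_zero] at hk; omega
        have hlt : k < n := by rw [hk]; exact lt_mul_of_one_lt_left hk0 hr.one_lt
        obtain ⟨n1, n2, h12, hcop, hsupp⟩ := ih k hlt hk0
        refine ⟨r * n1, n2, by rw [hk, h12, mul_assoc], hcop, fun s hs hd => ?_⟩
        rcases hs.dvd_mul.mp hd with h | h
        · exact ((Nat.prime_dvd_prime_iff_eq hs hr).mp h) ▸ hro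
        · exact hsupp s hs h
      · push Not at h
        exact ⟨1, n, (one_mul n).symm, Nat.coprime_of_dvd fun k hk hkn hko => h k hk hkn hko,
          fun s hs hd => absurd hd hs.not_dvd_one⟩
  have hn1 : 0 < n1 := Nat.pos_of_ne_zero fun h => by rw [h, zero_mul] at hn12; omega
  have hn2 : 0 < n2 := Nat.pos_of_ne_zero fun h => by rw [h, mul_zero] at hn12; omega
  have hcop2 : (o * n1).Coprime n2 := by
    refine Nat.coprime_of_dvd fun k hk hk1 hk2 => hk.one_lt.ne' (Nat.eq_one_of_dvd_coprimes hcop hk2 ?_)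
    rcases hk.dvd_mul.mp hk1 with h | h
    · exact h
    · exact hsupp k hk h
  let e : ℕ := (Nat.chineseRemainder hcop2 1 0).1
  have he1 : e ≡ 1 [MOD o * n1] := (Nat.chineseRemainder hcop2 1 0).2.1
  have he0 : e ≡ 0 [MOD n2] := (Nat.chineseRemainder hcop2 1 0).2.2
  let W : Finset G := Finset.univ.filter fun w => w ^ n = c ∧ w ^ (o * n1) = 1
  have hW : ∀ w, w ∈ W ↔ w ^ n = c ∧ w ^ (o * n1) = 1 := fun w => by simp [W]
  let f : G → ℕ := fun w => Nat.card {v : G // v ^ n2 = 1 ∧ Commute w v}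
  have hpe : ∀ w : G, w ^ (o * n1) = 1 → w ^ e = w := fun w hw => by
    conv_rhs => rw [← pow_one w]
    exact pow_eq_pow_iff_modEq.mpr (Nat.ModEq.of_dvd (orderOf_dvd_of_pow_eq_one hw) he1)
  have hve : ∀ v : G, v ^ n2 = 1 → v ^ e = 1 := fun v hv => by
    obtain ⟨k, hk⟩ := Nat.modEq_zero_iff_dvd.mp he0
    rw [hk, pow_mul, hv, one_pow]
  have hcount : Nat.card {x : G // x ^ n = c} = ∑ w ∈ W, f w := by
    rw [← Finset.sum_coe_sort W, ← Nat.card_sigma]
    refine Nat.card_congr ?_
    refine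
      { toFun := fun x => ⟨⟨x.1 ^ e, (hW _).mpr ⟨?_, ?_⟩⟩, ⟨(x.1 ^ e)⁻¹ * x.1, ?_, ?_⟩⟩
        invFun := fun q => ⟨q.1.1 * q.2.1, ?_⟩
        left_inv := fun x => Subtype.ext (by simp)
        right_inv := ?_ }
    · rw [← pow_mul, mul_comm, pow_mul, x.2]
      have h1 : e ≡ 1 [MOD o] := he1.of_dvd (dvd_mul_right o n1)
      conv_rhs => rw [← pow_one c]
      exact pow_eq_pow_iff_modEq.mpr h1
    · obtain ⟨k, hk⟩ := Nat.modEq_zero_iff_dvd.mp he0
      rw [hk, ← pow_mul, show n2 * k * (o * n1) = n1 * n2 * (o * k) by ring, ← hn12, pow_mul, x.2, pow_mul,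
        ho, pow_orderOf_eq_one, one_pow]
    · rw [((Commute.refl x.1).pow_left e).inv_left.mul_pow, inv_pow, inv_mul_eq_one, ← pow_mul]
      refine pow_eq_pow_iff_modEq.mpr (Nat.ModEq.of_dvd (orderOf_dvd_of_pow_eq_one (n := o * n) ?_) ?_)
      · rw [mul_comm o n, pow_mul, x.2, ho, pow_orderOf_eq_one]
      · have h := Nat.ModEq.mul_right' n2 he1
        rw [one_mul, show o * n1 * n2 = o * n by rw [hn12, mul_assoc]] at h
        exact h
    · exact ((Commute.refl _).inv_right).mul_right ((Commute.refl x.1).pow_left e)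
    · obtain ⟨⟨w, hw⟩, v, hv, hwv⟩ := q
      simp only
      rw [hwv.mul_pow, ((hW w).mp hw).1, hn12, mul_comm n1, pow_mul v, hv, one_pow, mul_one]
    · rintro ⟨⟨w, hw⟩, v, hv, hwv⟩
      have h1 : (w * v) ^ e = w := by rw [hwv.mul_pow, hpe w ((hW w).mp hw).2, hve v hv, mul_one]
      refine Sigma.subtype_ext (Subtype.ext h1) ?_
      show ((w * v) ^ e)⁻¹ * (w * v) = v
      rw [h1, inv_mul_cancel_left]
  have hord : ∀ w ∈ W, orderOf w = o * n1 := by
    intro w hw
    obtain ⟨h1, h2⟩ := (hW w).mp hw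
    refine orderOf_eq_of_pow_and_pow_div_prime (Nat.mul_pos (orderOf_pos c) hn1) h2 fun r hr hrd hbad => ?_
    have hro : r ∣ o := by
      rcases hr.dvd_mul.mp hrd with h | h
      · exact h
      · exact hsupp r hr h
    obtain ⟨o', ho'⟩ := hro
    have ho'0 : 0 < o' := Nat.pos_of_ne_zero fun h => by
      rw [h, mul_zero] at ho'; exact (orderOf_pos c).ne' ho'
    have e1 : o * n1 / r = o' * n1 := by rw [ho', mul_assoc, Nat.mul_div_cancel_left _ hr.pos]
    rw [e1] at hbad
    have h4 : c ^ o' = 1 := by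
      rw [← h1, ← pow_mul, hn12, show n1 * n2 * o' = o' * n1 * n2 by ring, pow_mul, hbad, one_pow]
    have h5 := Nat.le_of_dvd ho'0 (orderOf_dvd_of_pow_eq_one h4)
    rw [← ho, ho'] at h5
    exact absurd h5 (not_le.mpr (lt_mul_of_one_lt_left ho'0 hr.one_lt))
  have hdiv1 : n1 ∣ ∑ w ∈ W, f w := by
    refine dvd_sum_of_fiber W (fun w => Subgroup.zpowers w) f n1 fun w0 hw0 => ?_
    have hfib : W.filter (fun x => Subgroup.zpowers x = Subgroup.zpowers w0) =
        (Finset.range n1).image (fun k => w0 ^ (1 + o * k)) := by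
      ext x
      simp only [Finset.mem_filter, Finset.mem_image, Finset.mem_range]
      constructor
      · rintro ⟨hx, hz⟩
        obtain ⟨j, hj⟩ := (mem_powers_iff_mem_zpowers (x := w0) (y := x)).mpr (hz ▸ Subgroup.mem_zpowers x)
        simp only at hj
        obtain ⟨hx1, -⟩ := (hW x).mp hx
        have h1 : w0 ^ (j * n) = w0 ^ n := by rw [pow_mul, hj, hx1, ((hW w0).mp hw0).1]
        rw [pow_eq_pow_iff_modEq, hord w0 hw0] at h1
        have h2 : j ≡ 1 [MOD o] := by
          have h3 : j * n ≡ 1 * n [MOD o * n1] := by rwa [one_mul]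
          rw [hn12, show j * (n1 * n2) = (j * n2) * n1 by ring, show 1 * (n1 * n2) = (1 * n2) * n1 by ring] at h3
          have h4 := Nat.ModEq.mul_right_cancel' hn1.ne' h3
          exact Nat.ModEq.cancel_right_of_coprime hcop.symm h4
        obtain ⟨i, hi⟩ : ∃ i : ℤ, (j : ℤ) = 1 + (o : ℤ) * i := by
          obtain ⟨i, hi⟩ := (Nat.modEq_iff_dvd.mp h2.symm)
          exact ⟨i, by push_cast at hi ⊢; linarith⟩
        have hn1' : (0 : ℤ) < n1 := by exact_mod_cast hn1
        refine ⟨(i % n1).toNat, ?_, ?_⟩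
        · have := Int.emod_lt_of_pos i hn1'
          have := Int.emod_nonneg i hn1'.ne'
          omega
        · rw [← hj, ← zpow_natCast, ← zpow_natCast]
          rw [zpow_eq_zpow_iff_modEq, hord w0 hw0, Int.modEq_iff_dvd]
          push_cast
          rw [Int.toNat_of_nonneg (Int.emod_nonneg i hn1'.ne'), hi]
          refine ⟨i / n1, ?_⟩
          have := Int.emod_add_mul_ediv i n1
          linear_combination (-(o : ℤ)) * this
      · rintro ⟨k, -, rfl⟩
        obtain ⟨h1, h2⟩ := (hW w0).mp hw0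
        refine ⟨(hW _).mpr ⟨?_, ?_⟩, ?_⟩
        · rw [← pow_mul, mul_comm (1 + o * k), pow_mul, h1, pow_add, pow_one, pow_mul, ho, pow_orderOf_eq_one,
            one_pow, mul_one]
        · rw [← pow_mul, mul_comm (1 + o * k), pow_mul, h2, one_pow]
        · have hcop' : (1 + o * k).Coprime (orderOf w0) := by
            rw [hord w0 hw0]
            refine Nat.coprime_of_dvd fun r hr hr1 hr2 => hr.not_dvd_one ?_
            have hro : r ∣ o := by
              rcases hr.dvd_mul.mp hr2 with h | h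
              · exact h
              · exact hsupp r hr h
            exact (Nat.dvd_add_left (hro.mul_right k)).mp hr1
          refine le_antisymm (Subgroup.zpowers_le.mpr (Subgroup.npow_mem_zpowers _ _)) (Subgroup.zpowers_le.mpr ?_)
          obtain ⟨m, hm⟩ := exists_pow_eq_self_of_coprime hcop'
          have h3 := Subgroup.npow_mem_zpowers (w0 ^ (1 + o * k)) m
          rwa [hm] at h3
    rw [hfib]
    have hconst : ∀ x ∈ (Finset.range n1).image (fun k => w0 ^ (1 + o * k)), f x = f w0 := by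
      intro x hx
      rw [← hfib, Finset.mem_filter] at hx
      refine Nat.card_congr (Equiv.subtypeEquivRight fun v => and_congr_right fun _ => ?_)
      have key : ∀ a b : G, a ∈ Subgroup.zpowers b → Commute b v → Commute a v := by
        intro a b hab hb
        obtain ⟨i, rfl⟩ := Subgroup.mem_zpowers_iff.mp hab
        exact hb.zpow_left i
      exact ⟨key w0 x (hx.2.ge (Subgroup.mem_zpowers w0)), key x w0 (hx.2.le (Subgroup.mem_zpowers x))⟩
    rw [Finset.sum_congr rfl hconst, Finset.sum_const, smul_eq_mul, Finset.card_image_of_injOn,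
      Finset.card_range]
    · exact dvd_mul_right _ _
    intro a ha b hb hab
    simp only at hab
    rw [pow_eq_pow_iff_modEq, hord w0 hw0] at hab
    have h2 := Nat.ModEq.mul_left_cancel' (orderOf_pos c).ne' (Nat.ModEq.add_left_cancel' 1 hab)
    exact Nat.ModEq.eq_of_lt_of_lt h2 (Finset.mem_range.mp ha) (Finset.mem_range.mp hb)
  have hdiv2 : n2.gcd (Nat.card G) ∣ ∑ w ∈ W, f w := by
    refine dvd_sum_of_fiber W (fun w => ConjClasses.mk w) f _ fun w0 hw0 => ?_
    have hfib : W.filter (fun x => ConjClasses.mk x = ConjClasses.mk w0) =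
        Finset.univ.filter (fun x => IsConj w0 x) := by
      ext x
      simp only [Finset.mem_filter, Finset.mem_univ, true_and, ConjClasses.mk_eq_mk_iff_isConj]
      refine ⟨fun h => h.2.symm, fun h => ⟨?_, h.symm⟩⟩
      obtain ⟨g, hg⟩ := isConj_iff.mp h
      obtain ⟨h1, h2⟩ := (hW w0).mp hw0
      refine (hW x).mpr ⟨?_, ?_⟩
      · rw [← hg, conj_pow, h1, Subgroup.mem_center_iff.mp hc g, mul_inv_cancel_right]
      · rw [← hg, conj_pow, h2, mul_one, mul_inv_cancel]
    rw [hfib]
    have hconst : ∀ x ∈ Finset.univ.filter (fun x => IsConj w0 x), f x = f w0 := by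
      intro x hx
      obtain ⟨g, hg⟩ := isConj_iff.mp (Finset.mem_filter.mp hx).2
      refine (Nat.card_congr ((MulAut.conj g).toEquiv.subtypeEquiv fun v => ?_)).symm
      subst hg
      have h1 : Commute (MulAut.conj g w0) (MulAut.conj g v) ↔ Commute w0 v :=
        ⟨fun h => (MulAut.conj g).injective (by rw [map_mul, map_mul]; exact h.eq), fun h => h.map (MulAut.conj g)⟩
      have h2 : (MulAut.conj g v) ^ n2 = 1 ↔ v ^ n2 = 1 := by rw [← map_pow, map_eq_one_iff _ (MulAut.conj g).injective]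
      exact ⟨fun h => ⟨h2.mpr h.1, h1.mpr h.2⟩, fun h => ⟨h2.mp h.1, h1.mp h.2⟩⟩
    rw [Finset.sum_congr rfl hconst, Finset.sum_const, smul_eq_mul]
    have hcl : (Finset.univ.filter (fun x => IsConj w0 x)).card * Nat.card (Subgroup.centralizer {w0}) = Nat.card G := by
      rw [← Fintype.card_subtype, ← Nat.card_eq_fintype_card,
        class_mul_centralizer w0]
    have hf : n2.gcd (Nat.card (Subgroup.centralizer {w0})) ∣ f w0 := by
      have h := CfsgLib.Hall.frobenius_count (G := Subgroup.centralizer ({w0} : Set G))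
        (Nat.gcd_dvd_right n2 (Nat.card (Subgroup.centralizer {w0})))
      refine h.trans (dvd_of_eq (Nat.card_congr ?_))
      refine
        { toFun := fun v => ⟨(v.1 : G), ?_, ?_⟩
          invFun := fun v => ⟨⟨v.1, Subgroup.mem_centralizer_singleton_iff.mpr v.2.2.symm.eq⟩, ?_⟩
          left_inv := fun v => rfl
          right_inv := fun v => rfl }
      · have := (CfsgLib.Hall.pow_eq_one_iff_gcd v.1 n2).mpr v.2
        exact_mod_cast congrArg Subtype.val this
      · exact (show Commute (v.1 : G) w0 from Subgroup.mem_centralizer_singleton_iff.mp v.1.2).symm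
      · exact (CfsgLib.Hall.pow_eq_one_iff_gcd _ n2).mp (Subtype.ext (by rw [SubmonoidClass.coe_pow]; exact v.2.1))
    refine dvd_trans ?_ (Nat.mul_dvd_mul_left _ hf)
    rw [← Nat.gcd_mul_left, hcl]
    exact Nat.gcd_dvd_gcd_of_dvd_left _ (dvd_mul_left _ _)
  rw [hcount]
  have hco : n1.Coprime (n2.gcd (Nat.card G)) :=
    (hcop2.coprime_dvd_left (dvd_mul_left n1 o)).coprime_dvd_right (Nat.gcd_dvd_left _ _)
  refine dvd_trans ?_ (hco.mul_dvd_of_dvd_of_dvd hdiv1 hdiv2)
  rw [hn12]
  exact (Nat.gcd_mul_left_dvd_mul_gcd (Nat.card G) n1 n2).trans (mul_dvd_mul_right (Nat.gcd_dvd_left _ _) _)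

/-- Let `G` be a finite group of order `g`, `c` an element whose conjugacy class has `h` elements, and `n` a natural number. Then the number of elements `x` of `G` with `x^n` conjugate to `c` is a multiple of `gcd(hn, g)`. -/
theorem result {G : Type*} [Group G] [Finite G] (c : G) (n : ℕ) : Nat.gcd (Nat.card {y : G // IsConj c y} * n) (Nat.card G) ∣ Nat.card {x : G // IsConj c (x ^ n)} := by
  classical
  have := Fintype.ofFinite G
  rcases Nat.eq_zero_or_pos n with rfl | hn
  · rw [mul_zero, Nat.gcd_zero_left]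
    rcases em (IsConj c 1) with h | h
    · exact dvd_of_eq (Nat.card_congr (Equiv.subtypeUnivEquiv fun x => by rw [pow_zero]; exact h).symm)
    · have : IsEmpty {x : G // IsConj c (x ^ 0)} := ⟨fun x => h (by simpa using x.2)⟩
      rw [Nat.card_of_isEmpty (α := {x : G // IsConj c (x ^ 0)})]
      exact dvd_zero _
  have hcard : Nat.card {x : G // IsConj c (x ^ n)} =
      Nat.card {y : G // IsConj c y} * Nat.card {x : Subgroup.centralizer ({c} : Set G) //
        x ^ n = ⟨c, Subgroup.mem_centralizer_singleton_iff.mpr rfl⟩} := by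
    have e1 : Nat.card {x : G // IsConj c (x ^ n)} = Nat.card (Σ y : {y : G // IsConj c y}, {x : G // x ^ n = y.1}) :=
      Nat.card_congr
        { toFun := fun x => ⟨⟨x.1 ^ n, x.2⟩, x.1, rfl⟩
          invFun := fun q => ⟨q.2.1, by rw [q.2.2]; exact q.1.2⟩
          left_inv := fun x => rfl
          right_inv := fun ⟨⟨y, hy⟩, x, hx⟩ => by simp only at hx; subst hx; rfl }
    rw [e1, Nat.card_sigma, Finset.sum_congr rfl (fun y _ => ?_), Finset.sum_const, smul_eq_mul,
      Finset.card_univ, ← Nat.card_eq_fintype_card]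
    obtain ⟨g, hg⟩ := isConj_iff.mp y.2
    refine Nat.card_congr ?_
    refine
      { toFun := fun x => ⟨⟨g⁻¹ * x.1 * g, ?_⟩, ?_⟩
        invFun := fun x => ⟨g * x.1.1 * g⁻¹, ?_⟩
        left_inv := fun x => Subtype.ext (by simp [mul_assoc])
        right_inv := fun x => Subtype.ext (Subtype.ext (by simp [mul_assoc])) }
    · rw [Subgroup.mem_centralizer_singleton_iff]
      have h1 : c = g⁻¹ * y.1 * g := by rw [← hg]; group
      rw [← x.2] at h1
      calc g⁻¹ * x.1 * g * c = g⁻¹ * x.1 * g * (g⁻¹ * x.1 ^ n * g) := by rw [← h1]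
        _ = g⁻¹ * (x.1 * x.1 ^ n) * g := by group
        _ = g⁻¹ * (x.1 ^ n * x.1) * g := by rw [← pow_succ', ← pow_succ]
        _ = g⁻¹ * x.1 ^ n * g * (g⁻¹ * x.1 * g) := by group
        _ = c * (g⁻¹ * x.1 * g) := by rw [← h1]
    · ext
      rw [SubmonoidClass.coe_pow]
      show (g⁻¹ * x.1 * g) ^ n = c
      have := conj_pow (a := g⁻¹) (b := x.1) (i := n)
      rw [inv_inv] at this
      rw [this, x.2, ← hg]
      group
    · rw [conj_pow, ← hg]
      congr 2
      have h1 := congrArg (fun z : Subgroup.centralizer ({c} : Set G) => (z : G)) x.2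
      simp only [SubmonoidClass.coe_pow] at h1
      exact h1
  rw [hcard]
  have hC := central_roots (G := Subgroup.centralizer ({c} : Set G)) ⟨c, Subgroup.mem_centralizer_singleton_iff.mpr rfl⟩
    (Subgroup.mem_center_iff.mpr fun z => Subtype.ext (Subgroup.mem_centralizer_singleton_iff.mp z.2)) n hn
  refine dvd_trans ?_ (Nat.mul_dvd_mul_left _ hC)
  rw [← Nat.gcd_mul_left, class_mul_centralizer]

end Cfsg.Agent.S4212
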