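import Cfsg.Statements.S4238
import Cfsg.Agent.Transfer.Frobenius
import Cfsg.Agent.PCore.Basic
import Cfsg.Agent.PGroup.Basic

set_option autoImplicit false
open Cfsg
open scoped Pointwise

namespace Cfsg.Agent.S4238

open CfsgLib.Transfer in
theorem exists_bad_section {G : Type*} [Group G] [Finite G] {p : ℕ} [hp : Fact p.Prime]
    (h : ¬ LocallyTrivial p G) :
    ∃ (q : ℕ) (U : Subgroup G) (x : G), q.Prime ∧ q ≠ p ∧ IsPGroup p U ∧
      x ∈ Subgroup.normalizer (U : Set G) ∧ (∃ b, orderOf x = q ^ b ∧ x ∉ Subgroup.centralizer (U : Set G) ∧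
        x ^ q ∈ Subgroup.centralizer (U : Set G)) ∧
      ∀ V : Subgroup G, V < U → x ∈ Subgroup.normalizer (V : Set G) → x ∈ Subgroup.centralizer (V : Set G) := by
  classical
  unfold LocallyTrivial at h
  push_neg at h
  obtain ⟨Q, hQ, g, hg, hgo, hgc⟩ := h
  obtain ⟨x, ⟨hxN, hxo, hxc⟩, hmin⟩ := Set.Finite.exists_minimalFor (fun x => orderOf x)
    {x : G | x ∈ Subgroup.normalizer (Q : Set G) ∧ (orderOf x).Coprime p ∧
      x ∉ Subgroup.centralizer (Q : Set G)} (Set.toFinite _) ⟨g, hg, hgo, hgc⟩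
  have hlow : ∀ n : ℕ, 1 < n → n ∣ orderOf x → x ^ n ∈ Subgroup.centralizer (Q : Set G) := by
    intro n hn hd
    by_contra hc
    have ho : orderOf (x ^ n) = orderOf x / n := by
      rw [orderOf_pow, Nat.gcd_eq_right hd]
    have := hmin (j := x ^ n) ⟨Subgroup.pow_mem _ hxN n,
      hxo.coprime_dvd_left (orderOf_pow_dvd n), hc⟩ (by
        simp only [ho]; exact Nat.div_le_self _ _)
    simp only [ho] at this
    exact absurd this (Nat.div_lt_self (orderOf_pos x) hn).not_ge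
  obtain ⟨q, b, hq, hxq⟩ : ∃ q b, q.Prime ∧ orderOf x = q ^ b := by
    have h1 : orderOf x ≠ 1 := fun h1 => hxc (by
      rw [orderOf_eq_one_iff] at h1; rw [h1]; exact Subgroup.one_mem _)
    obtain ⟨q, hq, hd⟩ := Nat.exists_prime_and_dvd h1
    obtain ⟨b, m, hm, he⟩ := Nat.exists_eq_pow_mul_and_not_dvd (orderOf_pos x).ne' q hq.ne_one
    refine ⟨q, b, hq, ?_⟩
    have hb : b ≠ 0 := fun hb => hm (by rw [he, hb, pow_zero, one_mul] at hd; exact hd)
    by_contra hne
    have hm1 : 1 < m := by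
      rcases Nat.lt_trichotomy m 1 with h0 | h0 | h0
      · exfalso; rw [Nat.lt_one_iff] at h0; exact hm (h0 ▸ dvd_zero q)
      · exfalso; exact hne (by rw [he, h0, mul_one])
      · exact h0
    have h2 := hlow m hm1 (he ▸ dvd_mul_left _ _)
    have h3 := hlow (q ^ b) (Nat.one_lt_pow hb hq.one_lt) (he ▸ dvd_mul_right _ _)
    have hcop : Int.gcd (m : ℤ) ((q ^ b : ℕ) : ℤ) = 1 := by
      rw [Int.gcd_natCast_natCast]
      exact ((hq.coprime_iff_not_dvd.mpr hm).pow_left b).symm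
    refine hxc ?_
    have h4 := Int.gcd_eq_gcd_ab (m : ℤ) ((q ^ b : ℕ) : ℤ)
    rw [hcop] at h4
    rw [← zpow_one x, show (1 : ℤ) = _ from h4, zpow_add, zpow_mul, zpow_mul, zpow_natCast, zpow_natCast]
    exact Subgroup.mul_mem _ (Subgroup.zpow_mem _ h2 _) (Subgroup.zpow_mem _ h3 _)
  have hb : b ≠ 0 := fun hb => hxc (by
    rw [hb, pow_zero, orderOf_eq_one_iff] at hxq; rw [hxq]; exact Subgroup.one_mem _)
  have hqp : q ≠ p := fun h => by
    rw [hxq, h, Nat.coprime_pow_left_iff (Nat.pos_of_ne_zero hb), Nat.coprime_self] at hxo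
    exact hp.out.ne_one hxo
  obtain ⟨U, ⟨hUQ, hxU, hUc⟩, hUmin⟩ := exists_minimal_of_wellFoundedLT (α := Subgroup G)
    (P := fun V => V ≤ Q ∧ x ∈ Subgroup.normalizer (V : Set G) ∧ x ∉ Subgroup.centralizer (V : Set G))
    ⟨Q, le_rfl, hxN, hxc⟩
  refine ⟨q, U, x, hq, hqp, hQ.to_le hUQ, hxU, ⟨b, hxq, hUc, ?_⟩, fun V hV hxV => ?_⟩
  · exact Subgroup.centralizer_le hUQ (hlow q hq.one_lt (hxq ▸ dvd_pow_self q hb))
  · by_contra hc
    exact hV.not_ge (hUmin ⟨hV.le.trans hUQ, hxV, hc⟩ hV.le)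

theorem phi_lt {G : Type*} [Group G] [Finite G] {p : ℕ} [Fact p.Prime] {U : Subgroup G}
    (hU : IsPGroup p U) (hne : U ≠ ⊥) : (frattini ↥U).map U.subtype < U := by
  have : Nontrivial U := U.nontrivial_iff_ne_bot.2 hne
  have h : (frattini ↥U) < ⊤ := lt_top_iff_ne_top.mpr fun h => by
    have := frattini_nongenerating (G := ↥U) (K := ⊥) (by rw [h]; simp)
    exact bot_ne_top this
  have := Subgroup.map_lt_map_iff_of_injective U.subtype_injective |>.mpr h
  rwa [← MonoidHom.range_eq_map, Subgroup.range_subtype] at this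

theorem bad_group {K : Type*} [Group K] [Finite K] {p q : ℕ} [hp : Fact p.Prime] (hq : q.Prime) (hqp : q ≠ p)
    (V : Subgroup K) [V.Normal] (hab : ∀ a ∈ V, ∀ b ∈ V, a * b = b * a) (hexp : ∀ a ∈ V, a ^ p = 1)
    (hne : V ≠ ⊥) (x : K) (hx : x ^ q = 1) (hx1 : x ≠ 1) (hgen : ∀ k : K, ∃ v ∈ V, ∃ i : ℤ, k = v * x ^ i)
    (hfix : ∀ v ∈ V, x * v = v * x → v = 1) :
    Cfsg.pPrimeCore p K = ⊥ ∧ ¬ ∃ k : K, orderOf k = Monoid.exponent K := by
  have hfix' : ∀ (i : ℤ), ¬ (q : ℤ) ∣ i → ∀ v ∈ V, x ^ i * v = v * x ^ i → v = 1 := by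
    intro i hi v hv hc
    refine hfix v hv ?_
    have hg : Int.gcd i q = 1 :=
      Int.gcd_comm i q ▸ Int.isCoprime_iff_gcd_eq_one.mp ((Nat.prime_iff_prime_int.mp hq).coprime_iff_not_dvd.mpr hi)
    have h := Int.gcd_eq_gcd_ab i q
    rw [hg] at h
    have h2 : x = (x ^ i) ^ (Int.gcdA i q) := by
      conv_lhs => rw [← zpow_one x, show (1 : ℤ) = _ from h, zpow_add, zpow_mul, zpow_mul, zpow_natCast, hx,
        one_zpow, mul_one]
    rw [h2]
    exact (Commute.zpow_left hc _).eq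
  have hzero : ∀ i : ℤ, (q : ℤ) ∣ i → x ^ i = 1 := by
    rintro i ⟨c, rfl⟩
    rw [zpow_mul, zpow_natCast, hx, one_zpow]
  obtain ⟨v₀, hv₀, hv₁⟩ : ∃ v ∈ V, v ≠ 1 := by
    by_contra h
    refine hne ((Subgroup.eq_bot_iff_forall V).mpr fun v hv => ?_)
    by_contra h1
    exact h ⟨v, hv, h1⟩
  constructor
  · rw [Subgroup.eq_bot_iff_forall]
    intro m hm
    have hMn : (Cfsg.pPrimeCore p K).Normal :=
      have := CfsgLib.PCore.pPrimeCore_characteristic p K
      inferInstance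
    have hVp : IsPGroup p V := fun v => ⟨1, by rw [pow_one]; exact Subtype.ext (hexp v v.2)⟩
    have hinf : Cfsg.pPrimeCore p K ⊓ V = ⊥ := by
      rw [inf_comm]
      apply Subgroup.inf_eq_bot_of_coprime
      obtain ⟨n, hn⟩ := IsPGroup.iff_card.mp hVp
      rw [hn]
      exact ((CfsgLib.PCore.pPrimeCore_coprime p K).symm).pow_left n
    have hcomm : ∀ v ∈ V, m * v = v * m := fun v hv =>
      (Subgroup.commute_of_normal_of_disjoint _ _ hMn inferInstance (disjoint_iff.mpr hinf) m v hm hv).eq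
    obtain ⟨a, ha, i, rfl⟩ := hgen m
    by_cases hi : (q : ℤ) ∣ i
    · rw [hzero i hi, mul_one] at hm ⊢
      exact Subgroup.mem_bot.mp (hinf ▸ ⟨hm, ha⟩)
    · refine absurd (hfix' i hi v₀ hv₀ ?_) hv₁
      have h := hcomm v₀ hv₀
      rw [mul_assoc, ← mul_assoc v₀, ← hab a ha v₀ hv₀, mul_assoc] at h
      exact mul_left_cancel h
  · rintro ⟨k, hk⟩
    have hdiv : ∀ r : ℕ, r.Prime → ∀ g : K, g ^ r = 1 → g ≠ 1 → ∃ n : ℕ, orderOf (k ^ n) = r := by
      intro r hr g hg hg1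
      have := Fact.mk hr
      have h1 : r ∣ orderOf k := by
        rw [hk, ← orderOf_eq_prime hg hg1]
        exact Monoid.order_dvd_exponent g
      exact ⟨orderOf k / r, orderOf_pow_orderOf_div (orderOf_pos k).ne' h1⟩
    obtain ⟨n₁, h₁⟩ := hdiv p hp.out v₀ (hexp v₀ hv₀) hv₁
    obtain ⟨n₂, h₂⟩ := hdiv q hq x hx hx1
    have hqV : ∀ g : K, g ^ q ∈ V := by
      intro g
      obtain ⟨a, ha, i, rfl⟩ := hgen g
      rw [← QuotientGroup.eq_one_iff, QuotientGroup.mk_pow, QuotientGroup.mk_mul, (QuotientGroup.eq_one_iff a).mpr ha,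
        one_mul, ← QuotientGroup.mk_pow, ← zpow_natCast, ← zpow_mul, hzero _ (dvd_mul_left _ _)]
      rfl
    have h₁V : k ^ n₁ ∈ V := by
      have hcop : q.Coprime (orderOf (k ^ n₁)) := by rw [h₁]; exact (Nat.coprime_primes hq hp.out).mpr hqp
      obtain ⟨j, hj⟩ := exists_pow_eq_self_of_coprime hcop
      rw [← hj]
      exact V.pow_mem (hqV _) j
    obtain ⟨a, ha, i, hi⟩ := hgen (k ^ n₂)
    have hni : ¬ (q : ℤ) ∣ i := fun h => by
      rw [hzero i h, mul_one] at hi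
      have := orderOf_dvd_of_pow_eq_one (hexp a ha)
      rw [← hi, h₂] at this
      exact hqp ((Nat.prime_dvd_prime_iff_eq hq hp.out).mp this)
    have hc : k ^ n₁ * (a * x ^ i) = a * x ^ i * k ^ n₁ := by
      rw [← hi, ← pow_add, ← pow_add, add_comm]
    rw [← mul_assoc, hab _ h₁V a ha, mul_assoc, mul_assoc] at hc
    have h1 := hfix' i hni _ h₁V (mul_left_cancel hc).symm
    rw [h1, orderOf_one] at h₁
    exact hp.out.ne_one h₁.symm

/-- Let G be a finite group and p a prime. Then G has a normal p-complement if and only if every section K = H/N of G (N a normal subgroup of a subgroup H) whose largest normal subgroup of order prime to p is trivial contains an element whose order equals the exponent of K. -/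
theorem result {G : Type*} [Group G] [Finite G] (p : ℕ) [Fact p.Prime] :
    Cfsg.HasNormalPComplement p G ↔
      ∀ (H : Subgroup G) (N : Subgroup H) [N.Normal], Cfsg.pPrimeCore p (H ⧸ N) = ⊥ →
        ∃ k : H ⧸ N, orderOf k = Monoid.exponent (H ⧸ N) := by
  classical
  constructor
  · intro h H N hN hcore
    have h1 : Cfsg.HasNormalPComplement p (H ⧸ N) :=
      CfsgLib.Transfer.hasNormalPComplement_of_surjective (QuotientGroup.mk' N) (QuotientGroup.mk'_surjective N)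
        (CfsgLib.Transfer.hasNormalPComplement_subgroup H h)
    have hR : Cfsg.pResidual p (H ⧸ N) = ⊥ := eq_bot_iff.mpr ((CfsgLib.PCore.le_pPrimeCore_of_not_dvd
      CfsgLib.Transfer.pResidual_normal (CfsgLib.Transfer.hasNormalPComplement_iff.mp h1)).trans hcore.le)
    have hP : IsPGroup p (H ⧸ N) := by
      obtain ⟨k, hk⟩ := CfsgLib.Transfer.index_pResidual (p := p) (G := H ⧸ N)
      rw [hR, Subgroup.index_bot] at hk
      exact IsPGroup.of_card hk
    obtain ⟨k, hk⟩ := Finite.exists_max (fun k : H ⧸ N => orderOf k)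
    refine ⟨k, Nat.dvd_antisymm (Monoid.order_dvd_exponent k) (Monoid.exponent_dvd_of_forall_pow_eq_one fun g => ?_)⟩
    rw [← orderOf_dvd_iff_pow_eq_one]
    obtain ⟨a, ha⟩ := IsPGroup.iff_orderOf.mp hP g
    obtain ⟨b, hb⟩ := IsPGroup.iff_orderOf.mp hP k
    have := hk g
    simp only [ha, hb] at this
    rw [ha, hb]
    exact Nat.pow_dvd_pow p ((Nat.pow_le_pow_iff_right (Fact.out : p.Prime).one_lt).mp this)
  · intro hsec
    by_contra hno
    obtain ⟨q, U, x, hq, hqp, hU, hxU, ⟨b, hxo, hxc, hxq⟩, hmin⟩ := exists_bad_section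
      (p := p) (G := G) fun h => hno (CfsgLib.Transfer.frobenius_normal_complement h)
    have := Fact.mk hq
    have hUne : U ≠ ⊥ := fun h => hxc (Subgroup.mem_centralizer_iff.mpr fun u hu => by
      rw [h, SetLike.mem_coe, Subgroup.mem_bot] at hu; simp [hu])
    let S : Set G := {g | ∃ u ∈ U, g = u ^ p} ∪ {g | ∃ a ∈ U, ∃ c ∈ U, g = a * c * a⁻¹ * c⁻¹}
    have hTU : Subgroup.closure S ≤ (frattini ↥U).map U.subtype := by
      rw [Subgroup.closure_le]
      rintro g (⟨u, hu, rfl⟩ | ⟨a, ha, c, hc, rfl⟩)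
      · exact ⟨_, CfsgLib.PGroup.pow_mem_frattini hU ⟨u, hu⟩, rfl⟩
      · exact ⟨_, CfsgLib.PGroup.commutator_le_frattini hU
          (Subgroup.commutator_mem_commutator (Subgroup.mem_top (⟨a, ha⟩ : U)) (Subgroup.mem_top (⟨c, hc⟩ : U))), rfl⟩
    have hxS : x ∈ Subgroup.normalizer (Subgroup.closure S : Set G) := by
      have hcx : ∀ u ∈ U, x * u * x⁻¹ ∈ U := fun u hu => (Subgroup.mem_normalizer_iff.mp hxU u).mp hu
      refine Subgroup.mem_normalizer_fintype fun n hn => ?_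
      have hle : Subgroup.closure S ≤ (Subgroup.closure S).comap (MulAut.conj x).toMonoidHom := by
        rw [Subgroup.closure_le]
        rintro g (⟨u, hu, rfl⟩ | ⟨a, ha, c, hc, rfl⟩)
        · refine Subgroup.subset_closure (Or.inl ⟨_, hcx u hu, ?_⟩)
          exact map_pow (MulAut.conj x) u p
        · refine Subgroup.subset_closure (Or.inr ⟨_, hcx a ha, _, hcx c hc, ?_⟩)
          show MulAut.conj x (a * c * a⁻¹ * c⁻¹) = _
          simp only [map_mul, map_inv, MulAut.conj_apply]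
      exact hle hn
    have hTc : ∀ g ∈ Subgroup.closure S, g * x = x * g :=
      Subgroup.mem_centralizer_iff.mp (hmin _ (hTU.trans_lt (phi_lt hU hUne)) hxS)
    have hxnU : ∀ i : ℤ, x ^ i ∈ U → x ^ i = 1 := by
      intro i hi
      obtain ⟨a, ha⟩ := IsPGroup.iff_orderOf.mp hU ⟨_, hi⟩
      rw [Subgroup.orderOf_mk] at ha
      have h1 : orderOf (x ^ i) ∣ q ^ b := hxo ▸ orderOf_dvd_of_mem_zpowers (Subgroup.zpow_mem_zpowers x i)
      rw [ha] at h1
      have h2 : (p ^ a).Coprime (q ^ b) := Nat.Coprime.pow a b ((Nat.coprime_primes (Fact.out : p.Prime) hq).mpr hqp.symm)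
      exact orderOf_eq_one_iff.mp (ha.trans (Nat.eq_one_of_dvd_coprimes h2 dvd_rfl h1))
    have hxqU : ∀ u ∈ U, ∀ i : ℤ, u * (x ^ q) ^ i = (x ^ q) ^ i * u := fun u hu i =>
      Subgroup.mem_centralizer_iff.mp (Subgroup.zpow_mem _ hxq i) u hu
    have hCn : U ⊓ Subgroup.centralizer {x} ≤ U := inf_le_left
    let H : Subgroup G := U ⊔ Subgroup.zpowers x
    have hUN : Subgroup.zpowers x ≤ Subgroup.normalizer (U : Set G) := (Subgroup.zpowers_le).mpr hxU
    have hH : (H : Set G) = (U : Set G) * (Subgroup.zpowers x : Set G) :=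
      Subgroup.coe_mul_of_right_le_normalizer_left U _ hUN
    have hHdec : ∀ g ∈ H, ∃ u ∈ U, ∃ i : ℤ, g = u * x ^ i := by
      intro g hg
      rw [← SetLike.mem_coe, hH] at hg
      obtain ⟨u, hu, y, ⟨i, rfl⟩, rfl⟩ := hg
      exact ⟨u, hu, i, rfl⟩
    -- the kernel of the section
    let C : Subgroup G := U ⊓ Subgroup.centralizer {x}
    have hCx : ∀ c ∈ C, ∀ i : ℤ, c * x ^ i = x ^ i * c := fun c hc i =>
      ((show Commute c x from (Subgroup.mem_centralizer_singleton_iff.mp hc.2)).zpow_right i).eq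
    let N' : Subgroup G := C ⊔ Subgroup.zpowers (x ^ q)
    have hN'dec : ∀ g ∈ N', ∃ c ∈ C, ∃ i : ℤ, g = c * (x ^ q) ^ i := by
      intro g hg
      have hle : Subgroup.zpowers (x ^ q) ≤ Subgroup.normalizer (C : Set G) := by
        rw [Subgroup.zpowers_le]
        refine Subgroup.mem_normalizer_fintype fun c hc => ?_
        have hc' : x ^ q * c = c * x ^ q := by
          have := hxqU c hc.1 1
          rw [zpow_one] at this
          exact this.symm
        rw [hc', mul_inv_cancel_right]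
        exact hc
      rw [← SetLike.mem_coe, Subgroup.coe_mul_of_right_le_normalizer_left C _ hle] at hg
      obtain ⟨c, hc, y, ⟨i, rfl⟩, rfl⟩ := hg
      exact ⟨c, hc, i, rfl⟩
    have hTN : ∀ g ∈ Subgroup.closure S, g ∈ N' := fun g hg =>
      Subgroup.mem_sup_left ⟨(hTU.trans (Subgroup.map_subtype_le _)) hg,
        Subgroup.mem_centralizer_singleton_iff.mpr (hTc g hg)⟩
    let N : Subgroup H := N'.subgroupOf H
    have hNn : N.Normal := by
      refine ⟨fun n hn g => ?_⟩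
      rw [Subgroup.mem_subgroupOf] at hn ⊢
      obtain ⟨c, hc, j, hcj⟩ := hN'dec _ hn
      obtain ⟨u, hu, i, hui⟩ := hHdec _ g.2
      have hcomm : u * c * u⁻¹ * c⁻¹ ∈ N' :=
        hTN _ (Subgroup.subset_closure (Or.inr ⟨u, hu, c, hc.1, rfl⟩))
      have hn' : (n : G) = c * (x ^ q) ^ j := hcj
      have e : ((g * n * g⁻¹ : H) : G) = (u * c * u⁻¹ * c⁻¹) * n := by
        push_cast
        rw [hui, hn']
        have h1 : x ^ i * (c * (x ^ q) ^ j) * (x ^ i)⁻¹ = c * (x ^ q) ^ j := by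
          rw [← mul_assoc, ← hCx c hc i, mul_assoc c, mul_assoc c,
            ((Commute.pow_self x q).symm.zpow_zpow i j).eq, mul_inv_cancel_right]
        calc u * x ^ i * (c * (x ^ q) ^ j) * (u * x ^ i)⁻¹
            = u * (x ^ i * (c * (x ^ q) ^ j) * (x ^ i)⁻¹) * u⁻¹ := by group
          _ = u * c * ((x ^ q) ^ j * u⁻¹) := by rw [h1]; simp only [mul_assoc]
          _ = u * c * (u⁻¹ * (x ^ q) ^ j) := by rw [hxqU u⁻¹ (U.inv_mem hu) j]
          _ = _ := by group
      rw [e]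
      exact N'.mul_mem hcomm hn
    have hUH : U ≤ H := le_sup_left
    have hxH : x ∈ H := Subgroup.mem_sup_right (Subgroup.mem_zpowers x)
    let f : H →* H ⧸ N := QuotientGroup.mk' N
    have hfs : Function.Surjective f := QuotientGroup.mk'_surjective N
    have hker : ∀ u (hu : u ∈ U), f ⟨u, hUH hu⟩ = 1 ↔ u ∈ C := by
      intro u hu
      show ((⟨u, hUH hu⟩ : H) : H ⧸ N) = 1 ↔ u ∈ C
      rw [QuotientGroup.eq_one_iff, Subgroup.mem_subgroupOf]
      refine ⟨fun h => ?_, fun h => Subgroup.mem_sup_left h⟩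
      obtain ⟨c, hc, i, hci⟩ := hN'dec u h
      have hm : x ^ ((q : ℤ) * i) ∈ U := by
        rw [zpow_mul, zpow_natCast, ← inv_mul_cancel_left c ((x ^ q) ^ i), ← hci]
        exact U.mul_mem (U.inv_mem hc.1) hu
      have h1 := hxnU _ hm
      rw [zpow_mul, zpow_natCast] at h1
      rw [h1, mul_one] at hci
      exact hci ▸ hc
    let V : Subgroup (H ⧸ N) := (U.subgroupOf H).map f
    have hUHn : (U.subgroupOf H).Normal :=
      (Subgroup.normal_subgroupOf_iff_le_normalizer hUH).mpr (sup_le Subgroup.le_normalizer hUN)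
    have hVn : V.Normal := hUHn.map f hfs
    have hxf : f ⟨x, hxH⟩ ^ q = 1 := by
      rw [← map_pow]
      exact (QuotientGroup.eq_one_iff _).mpr (Subgroup.mem_sup_right (Subgroup.mem_zpowers _))
    have hxf1 : f ⟨x, hxH⟩ ≠ 1 := by
      intro h
      have hx' : x ∈ N' := (QuotientGroup.eq_one_iff (N := N) ⟨x, hxH⟩).mp h
      obtain ⟨c, hc, i, hci⟩ := hN'dec x hx'
      have hm : x ^ (1 - (q : ℤ) * i) ∈ U := by
        have hc1 : x ^ (1 - (q : ℤ) * i) = c := by
          rw [zpow_sub, zpow_one, zpow_mul, zpow_natCast]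
          exact mul_inv_eq_iff_eq_mul.mpr hci
        rw [hc1]
        exact hc.1
      have h1 := hxnU _ hm
      rw [zpow_sub, zpow_one, zpow_mul, zpow_natCast, mul_inv_eq_one] at h1
      exact hxc (h1 ▸ Subgroup.zpow_mem _ hxq i)
    have hVne : V ≠ ⊥ := by
      intro h
      refine hxc (Subgroup.mem_centralizer_iff.mpr fun u hu => ?_)
      have : u ∈ C := (hker u hu).mp (Subgroup.mem_bot.mp (h ▸ ⟨⟨u, hUH hu⟩, hu, rfl⟩))
      exact Subgroup.mem_centralizer_singleton_iff.mp this.2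
    refine (fun hh => hh.2 (hsec H N hh.1)) (bad_group hq hqp V ?_ ?_ hVne (f ⟨x, hxH⟩) hxf hxf1 ?_ ?_)
    · rintro _ ⟨⟨a, ha'⟩, ha, rfl⟩ _ ⟨⟨c, hc'⟩, hc, rfl⟩
      have h1 : f (⟨a, ha'⟩ * ⟨c, hc'⟩ * ⟨a, ha'⟩⁻¹ * ⟨c, hc'⟩⁻¹) = 1 :=
        (QuotientGroup.eq_one_iff _).mpr (hTN _ (Subgroup.subset_closure (Or.inr ⟨a, ha, c, hc, rfl⟩)))
      rw [map_mul, map_mul, map_mul, map_inv, map_inv, mul_inv_eq_one, mul_inv_eq_iff_eq_mul] at h1
      exact h1
    · rintro _ ⟨⟨a, ha'⟩, ha, rfl⟩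
      rw [← map_pow]
      exact (QuotientGroup.eq_one_iff _).mpr (hTN _ (Subgroup.subset_closure (Or.inl ⟨a, ha, rfl⟩)))
    · intro k
      obtain ⟨⟨g, hg⟩, rfl⟩ := hfs k
      obtain ⟨u, hu, i, hgi⟩ := hHdec g hg
      refine ⟨f ⟨u, hUH hu⟩, ⟨⟨u, hUH hu⟩, hu, rfl⟩, i, ?_⟩
      rw [← map_zpow, ← map_mul]
      exact congrArg f (Subtype.ext (by simpa using hgi))
    · rintro _ ⟨⟨u, hu'⟩, hu, rfl⟩ hcom
      rw [hker u hu]
      have hmem : u⁻¹ * (x * u * x⁻¹) ∈ C := by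
        have hu2 : u⁻¹ * (x * u * x⁻¹) ∈ U :=
          U.mul_mem (U.inv_mem hu) ((Subgroup.mem_normalizer_iff.mp hxU u).mp hu)
        refine (hker _ hu2).mp ?_
        have : (⟨u⁻¹ * (x * u * x⁻¹), hUH hu2⟩ : H) = ⟨u, hu'⟩⁻¹ * (⟨x, hxH⟩ * ⟨u, hu'⟩ * ⟨x, hxH⟩⁻¹) := rfl
        rw [this, map_mul, map_mul, map_mul, map_inv, map_inv, hcom, mul_inv_cancel_right, inv_mul_cancel]
      set c := u⁻¹ * (x * u * x⁻¹) with hcdef
      have hiter : ∀ n : ℕ, x ^ n * u * (x ^ n)⁻¹ = u * c ^ n := by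
        intro n
        induction n with
        | zero => simp
        | succ n ih =>
          have hxc' : x * c ^ n * x⁻¹ = c ^ n := by
            rw [← zpow_natCast, mul_inv_eq_iff_eq_mul]
            exact ((show Commute c x from Subgroup.mem_centralizer_singleton_iff.mp hmem.2).zpow_left n).eq.symm
          calc x ^ (n + 1) * u * (x ^ (n + 1))⁻¹ = x * (x ^ n * u * (x ^ n)⁻¹) * x⁻¹ := by
                rw [pow_succ']; group
            _ = x * (u * c ^ n) * x⁻¹ := by rw [ih]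
            _ = (x * u * x⁻¹) * (x * c ^ n * x⁻¹) := by group
            _ = u * c * c ^ n := by rw [hxc', hcdef, mul_inv_cancel_left]
            _ = u * c ^ (n + 1) := by rw [mul_assoc, ← pow_succ']
      have h1 := hiter q
      have h2 := hxqU u hu 1
      rw [zpow_one] at h2
      rw [← h2, mul_inv_cancel_right] at h1
      have hcq : c ^ q = 1 := (mul_eq_left.mp h1.symm)
      obtain ⟨a, ha⟩ := IsPGroup.iff_orderOf.mp hU ⟨c, hmem.1⟩
      rw [Subgroup.orderOf_mk] at ha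
      have h3 : (p ^ a).Coprime q := ((Nat.coprime_primes (Fact.out : p.Prime) hq).mpr hqp.symm).pow_left a
      have hc1 : c = 1 := orderOf_eq_one_iff.mp (ha.trans
        (Nat.eq_one_of_dvd_coprimes h3 dvd_rfl (ha ▸ orderOf_dvd_of_pow_eq_one hcq)))
      refine ⟨hu, Subgroup.mem_centralizer_singleton_iff.mpr ?_⟩
      rw [hcdef, inv_mul_eq_one] at hc1
      calc u * x = (x * u * x⁻¹) * x := by rw [← hc1]
        _ = x * u := by group

end Cfsg.Agent.S4238
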