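import Cfsg.Statements.S4227
import Cfsg.Agent.S0144
import Cfsg.Agent.S4238
import Cfsg.Agent.PLocalBasics.PLength
import Cfsg.Agent.Transfer.Frobenius
import Cfsg.Agent.PGroup.Basic

set_option autoImplicit false
open Cfsg

namespace Cfsg.Agent.S4227

theorem three_case {Y : Type*} [Group Y] [Finite Y] (hexp : ∀ y : Y, y ^ 6 = 1)
    (hC : Subgroup.centralizer (Cfsg.pCore 3 Y : Set Y) ≤ Cfsg.pCore 3 Y) :
    ¬ 3 ∣ (Cfsg.pCore 3 Y).index := by
  have h2f : Fact (Nat.Prime 2) := ⟨Nat.prime_two⟩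
  have h3f : Fact (Nat.Prime 3) := ⟨Nat.prime_three⟩
  set V := Cfsg.pCore 3 Y with hV
  have hVn : V.Normal :=
    have := CfsgLib.PCore.pCore_characteristic 3 Y
    inferInstance
  have hVp : IsPGroup 3 V := CfsgLib.PCore.isPGroup_pCore 3 Y
  have hord6 : ∀ y : Y, orderOf y ∣ 6 := fun y => orderOf_dvd_of_pow_eq_one (hexp y)
  by_cases hloc : CfsgLib.Transfer.LocallyTrivial 2 Y
  · obtain ⟨S, N, hN, hNS⟩ := CfsgLib.Transfer.frobenius_normal_complement hloc
    have hNidx : N.index = Nat.card (S : Subgroup Y) := hNS.symm.index_eq_card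
    have hN2 : ¬ 2 ∣ Nat.card N := by rw [← hNS.index_eq_card]; exact S.not_dvd_index
    have hN3 : IsPGroup 3 N := by
      intro x
      refine ⟨1, ?_⟩
      have h1 : orderOf (x : Y) ∣ 3 := by
        refine Nat.Coprime.dvd_of_dvd_mul_left ?_ (show orderOf (x : Y) ∣ 2 * 3 from hord6 _)
        exact (Nat.prime_two.coprime_iff_not_dvd.mpr fun hd => hN2 (hd.trans (Subgroup.orderOf_dvd_natCard N x.2))).symm
      exact Subtype.ext (by simpa using orderOf_dvd_iff_pow_eq_one.mp h1)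
    have hle : N ≤ V := CfsgLib.PCore.le_pCore hN hN3
    intro hd
    have h3 := hd.trans (Subgroup.index_dvd_of_le hle)
    rw [hNidx, S.card_eq_multiplicity] at h3
    exact absurd ((Nat.prime_dvd_prime_iff_eq Nat.prime_three Nat.prime_two).mp (Nat.prime_three.dvd_of_dvd_pow h3))
      (by norm_num)
  exfalso
  unfold CfsgLib.Transfer.LocallyTrivial at hloc
  push Not at hloc
  obtain ⟨Q, hQ, x, hx, hxo, hxc⟩ := hloc
  have hx3 : x ^ 3 = 1 := orderOf_dvd_iff_pow_eq_one.mp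
    (Nat.Coprime.dvd_of_dvd_mul_left hxo (show orderOf x ∣ 2 * 3 from hord6 x))
  have hsq : ∀ q ∈ Q, q ^ 2 = 1 := by
    intro q hq
    obtain ⟨k, hk⟩ := IsPGroup.iff_orderOf.mp hQ ⟨q, hq⟩
    rw [Subgroup.orderOf_mk] at hk
    refine orderOf_dvd_iff_pow_eq_one.mp (Nat.Coprime.dvd_of_dvd_mul_right ?_ (show orderOf q ∣ 2 * 3 from hord6 q))
    rw [hk]
    exact Nat.Coprime.pow_left k (by norm_num)
  have hQc : ∀ a ∈ Q, ∀ b ∈ Q, a * b = b * a := by
    intro a ha b hb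
    have h1 := hsq _ (Q.mul_mem ha hb)
    have ha' : a⁻¹ = a := inv_eq_of_mul_eq_one_right (by rw [← pow_two]; exact hsq a ha)
    have hb' : b⁻¹ = b := inv_eq_of_mul_eq_one_right (by rw [← pow_two]; exact hsq b hb)
    calc a * b = (a * b)⁻¹ := (inv_eq_of_mul_eq_one_right (by rw [← pow_two]; exact h1)).symm
      _ = b * a := by rw [mul_inv_rev, ha', hb']
  obtain ⟨w, hw, hwx⟩ : ∃ w ∈ Q, x * w * x⁻¹ ≠ w := by
    by_contra h
    push Not at h
    exact hxc (Subgroup.mem_centralizer_iff.mpr fun w hw => (mul_inv_eq_iff_eq_mul.mp (h w hw)).symm)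
  have hcj : ∀ q ∈ Q, x * q * x⁻¹ ∈ Q := fun q hq => (Subgroup.mem_normalizer_iff.mp hx q).mp hq
  set w1 := x * w * x⁻¹ with hw1
  set w2 := x * w1 * x⁻¹ with hw2
  have hw1m : w1 ∈ Q := hcj w hw
  have hw2m : w2 ∈ Q := hcj w1 hw1m
  have hw3 : x * w2 * x⁻¹ = w := by
    calc x * w2 * x⁻¹ = x ^ 3 * w * (x ^ 3)⁻¹ := by rw [hw2, hw1, pow_succ, pow_two]; group
      _ = w := by rw [hx3]; group
  set q := w * w1 with hq'
  have hqm : q ∈ Q := Q.mul_mem hw hw1m
  have hq1 : q ≠ 1 := fun h => hwx (by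
    have h2 := hsq w hw
    rw [pow_two] at h2
    exact (mul_left_cancel (h2.trans h.symm)).symm)
  set q' := x * q * x⁻¹ with hq''
  have hq'm : q' ∈ Q := hcj q hqm
  have hxq' : x * q' * x⁻¹ = q * q' := by
    have e1 : q' = w1 * w2 := by rw [hq'', hq', hw2, hw1]; group
    have e2 : x * q' * x⁻¹ = w2 * w := by
      rw [e1]
      calc x * (w1 * w2) * x⁻¹ = (x * w1 * x⁻¹) * (x * w2 * x⁻¹) := by group
        _ = w2 * w := by rw [hw3]
    have h1 := hsq w1 hw1m
    rw [pow_two] at h1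
    calc x * q' * x⁻¹ = w2 * w := e2
      _ = w * (w1 * w1) * w2 := by rw [hQc w2 hw2m w hw, h1, mul_one]
      _ = (w * w1) * (w1 * w2) := by group
      _ = q * q' := by rw [hq', e1]
  have hVQ : ∀ a ∈ Q, a ∈ Subgroup.centralizer (V : Set Y) → a = 1 := by
    intro a ha hac
    obtain ⟨k, hk⟩ := IsPGroup.iff_orderOf.mp hVp ⟨a, hC hac⟩
    rw [Subgroup.orderOf_mk] at hk
    exact orderOf_eq_one_iff.mp (Nat.eq_one_of_dvd_coprimes (Nat.Coprime.pow_left k (by norm_num : Nat.Coprime 3 2))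
      hk.dvd (orderOf_dvd_of_pow_eq_one (hsq a ha)))
  -- a minimal subgroup of `V` normalised by `x` and `q` and not centralised by `q`
  obtain ⟨U, ⟨hUV, hxU, hqU, hUc⟩, hUmin⟩ := exists_minimal_of_wellFoundedLT (α := Subgroup Y)
    (P := fun U => U ≤ V ∧ x ∈ Subgroup.normalizer (U : Set Y) ∧ q ∈ Subgroup.normalizer (U : Set Y) ∧
      q ∉ Subgroup.centralizer (U : Set Y))
    ⟨V, le_rfl, by rw [Subgroup.normalizer_eq_top_iff.mpr hVn]; trivial,
      by rw [Subgroup.normalizer_eq_top_iff.mpr hVn]; trivial, fun h => hq1 (hVQ q hqm h)⟩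
  have hUp : IsPGroup 3 U := hVp.to_le hUV
  have hxcU : ∀ u ∈ U, x * u * x⁻¹ ∈ U := fun u hu => (Subgroup.mem_normalizer_iff.mp hxU u).mp hu
  have hqcU : ∀ u ∈ U, q * u * q⁻¹ ∈ U := fun u hu => (Subgroup.mem_normalizer_iff.mp hqU u).mp hu
  have hq'N : q' ∈ Subgroup.normalizer (U : Set Y) :=
    Subgroup.mul_mem _ (Subgroup.mul_mem _ hxU hqU) (Subgroup.inv_mem _ hxU)
  have hq'cU : ∀ u ∈ U, q' * u * q'⁻¹ ∈ U := fun u hu => (Subgroup.mem_normalizer_iff.mp hq'N u).mp hu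
  have hUne : U ≠ ⊥ := fun h => hUc (Subgroup.mem_centralizer_iff.mpr fun u hu => by
    rw [h, SetLike.mem_coe, Subgroup.mem_bot] at hu; simp [hu])
  let S : Set Y := {g | ∃ a ∈ U, ∃ c ∈ U, g = a * c * a⁻¹ * c⁻¹}
  have hTU : Subgroup.closure S ≤ (frattini ↥U).map U.subtype := by
    rw [Subgroup.closure_le]
    rintro g ⟨a, ha, c, hc, rfl⟩
    exact ⟨_, CfsgLib.PGroup.commutator_le_frattini hUp
      (Subgroup.commutator_mem_commutator (Subgroup.mem_top (⟨a, ha⟩ : U)) (Subgroup.mem_top (⟨c, hc⟩ : U))), rfl⟩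
  have hTlt : Subgroup.closure S < U := hTU.trans_lt (Cfsg.Agent.S4238.phi_lt hUp hUne)
  have hSN : ∀ g : Y, (∀ u ∈ U, g * u * g⁻¹ ∈ U) → g ∈ Subgroup.normalizer (Subgroup.closure S : Set Y) := by
    intro g hg
    refine Subgroup.mem_normalizer_fintype fun n hn => ?_
    have hle : Subgroup.closure S ≤ (Subgroup.closure S).comap (MulAut.conj g).toMonoidHom := by
      rw [Subgroup.closure_le]
      rintro _ ⟨a, ha, c, hc, rfl⟩
      refine Subgroup.subset_closure ⟨_, hg a ha, _, hg c hc, ?_⟩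
      show MulAut.conj g (a * c * a⁻¹ * c⁻¹) = _
      simp only [map_mul, map_inv, MulAut.conj_apply]
    exact hle hn
  have hSx := hSN x hxcU
  have hTq : ∀ t ∈ Subgroup.closure S, t * q = q * t := by
    have h : q ∈ Subgroup.centralizer (Subgroup.closure S : Set Y) := by
      by_contra hc
      exact hTlt.not_ge (hUmin ⟨hTlt.le.trans hUV, hSx, hSN q hqcU, hc⟩ hTlt.le)
    exact Subgroup.mem_centralizer_iff.mp h
  have hTq' : ∀ t ∈ Subgroup.closure S, t * q' = q' * t := by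
    intro t ht
    have h1 : x⁻¹ * t * x ∈ Subgroup.closure S := by
      have := (Subgroup.mem_normalizer_iff.mp (Subgroup.inv_mem _ hSx) t).mp ht
      simpa using this
    calc t * q' = x * ((x⁻¹ * t * x) * q) * x⁻¹ := by rw [hq'']; group
      _ = x * (q * (x⁻¹ * t * x)) * x⁻¹ := by rw [hTq _ h1]
      _ = q' * t := by rw [hq'']; group
  let C : Subgroup Y := U ⊓ Subgroup.centralizer {q} ⊓ Subgroup.centralizer {q'}
  have hTC : Subgroup.closure S ≤ C := fun t ht =>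
    ⟨⟨hTlt.le ht, Subgroup.mem_centralizer_singleton_iff.mpr (hTq t ht)⟩,
      Subgroup.mem_centralizer_singleton_iff.mpr (hTq' t ht)⟩
  have hCq : ∀ c ∈ C, c * q = q * c := fun c hc => Subgroup.mem_centralizer_singleton_iff.mp hc.1.2
  have hCq' : ∀ c ∈ C, c * q' = q' * c := fun c hc => Subgroup.mem_centralizer_singleton_iff.mp hc.2
  have hCx : ∀ c ∈ C, x * c * x⁻¹ ∈ C := by
    intro c hc
    have h1 : (x * c * x⁻¹) * q' = q' * (x * c * x⁻¹) := by
      calc (x * c * x⁻¹) * q' = x * (c * q) * x⁻¹ := by rw [hq'']; group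
        _ = x * (q * c) * x⁻¹ := by rw [hCq c hc]
        _ = q' * (x * c * x⁻¹) := by rw [hq'']; group
    have h2 : (x * c * x⁻¹) * (q * q') = (q * q') * (x * c * x⁻¹) := by
      rw [← hxq']
      calc (x * c * x⁻¹) * (x * q' * x⁻¹) = x * (c * q') * x⁻¹ := by group
        _ = x * (q' * c) * x⁻¹ := by rw [hCq' c hc]
        _ = x * q' * x⁻¹ * (x * c * x⁻¹) := by group
    have h3 : (x * c * x⁻¹) * q = q * (x * c * x⁻¹) := by
      have h4 : Commute (x * c * x⁻¹) (q * q' * q'⁻¹) := Commute.mul_right h2 (Commute.inv_right h1)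
      rw [mul_inv_cancel_right] at h4
      exact h4
    exact ⟨⟨hxcU c hc.1.1, Subgroup.mem_centralizer_singleton_iff.mpr h3⟩,
      Subgroup.mem_centralizer_singleton_iff.mpr h1⟩
  -- the module `U / C`
  let N : Subgroup U := C.subgroupOf U
  have hNn : N.Normal := by
    refine ⟨fun c hc g => ?_⟩
    rw [Subgroup.mem_subgroupOf] at hc ⊢
    have h1 : (g : Y) * c * (g : Y)⁻¹ * (c : Y)⁻¹ ∈ C :=
      hTC (Subgroup.subset_closure ⟨g, g.2, c, c.2, rfl⟩)
    have := C.mul_mem h1 hc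
    simpa using this
  let π : U →* U ⧸ N := QuotientGroup.mk' N
  have hπ : Function.Surjective π := QuotientGroup.mk'_surjective N
  have hab : ∀ a b : U ⧸ N, a * b = b * a := by
    intro a b
    obtain ⟨a, rfl⟩ := hπ a
    obtain ⟨b, rfl⟩ := hπ b
    have h1 : π (a * b * a⁻¹ * b⁻¹) = 1 := (QuotientGroup.eq_one_iff _).mpr
      (Subgroup.mem_subgroupOf.mpr (hTC (Subgroup.subset_closure ⟨a, a.2, b, b.2, rfl⟩)))
    rw [map_mul, map_mul, map_mul, map_inv, map_inv, mul_inv_eq_one, mul_inv_eq_iff_eq_mul] at h1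
    exact h1
  letI : CommGroup (U ⧸ N) := { (inferInstance : Group (U ⧸ N)) with mul_comm := hab }
  have hmk : ∀ (g : Y), (∀ u ∈ U, g * u * g⁻¹ ∈ U) → (∀ c ∈ C, g * c * g⁻¹ ∈ C) →
      ∃ φ : Monoid.End (U ⧸ N), ∀ (u : U) (hu : g * (u : Y) * g⁻¹ ∈ U), φ (π u) = π ⟨g * u * g⁻¹, hu⟩ := by
    intro g hg hgC
    let f : U →* U := ((MulAut.conj g).toMonoidHom.comp U.subtype).codRestrict U fun u => hg u u.2
    exact ⟨QuotientGroup.map N N f (fun c hc => hgC _ hc), fun u hu => rfl⟩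
  have hCfix : ∀ (g : Y), (∀ c ∈ C, c * g = g * c) → ∀ c ∈ C, g * c * g⁻¹ ∈ C := fun g hg c hc => by
    rw [← hg c hc, mul_inv_cancel_right]; exact hc
  obtain ⟨A, hA⟩ := hmk q hqcU (hCfix q hCq)
  obtain ⟨B, hB⟩ := hmk q' hq'cU (hCfix q' hCq')
  obtain ⟨T, hT⟩ := hmk x hxcU hCx
  have hA' : ∀ u : U, A (π u) = π ⟨q * u * q⁻¹, hqcU u u.2⟩ := fun u => hA u _
  have hB' : ∀ u : U, B (π u) = π ⟨q' * u * q'⁻¹, hq'cU u u.2⟩ := fun u => hB u _
  have hT' : ∀ u : U, T (π u) = π ⟨x * u * x⁻¹, hxcU u u.2⟩ := fun u => hT u _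
  have hqq : q ^ 2 = 1 := hsq q hqm
  have hq'q' : q' ^ 2 = 1 := hsq q' hq'm
  rw [pow_two] at hqq hq'q'
  have hAA : ∀ m, A (A m) = m := fun m => by
    obtain ⟨u, rfl⟩ := hπ m
    rw [hA', hA']
    refine congrArg π (Subtype.ext ?_)
    show q * (q * u * q⁻¹) * q⁻¹ = u
    calc q * (q * u * q⁻¹) * q⁻¹ = (q * q) * u * (q * q)⁻¹ := by group
      _ = u := by rw [hqq]; group
  have hBB : ∀ m, B (B m) = m := fun m => by
    obtain ⟨u, rfl⟩ := hπ m
    rw [hB', hB']
    refine congrArg π (Subtype.ext ?_)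
    show q' * (q' * u * q'⁻¹) * q'⁻¹ = u
    calc q' * (q' * u * q'⁻¹) * q'⁻¹ = (q' * q') * u * (q' * q')⁻¹ := by group
      _ = u := by rw [hq'q']; group
  have hAB : ∀ m, A (B m) = B (A m) := fun m => by
    obtain ⟨u, rfl⟩ := hπ m
    rw [hA', hB', hB', hA']
    refine congrArg π (Subtype.ext ?_)
    show q * (q' * u * q'⁻¹) * q⁻¹ = q' * (q * u * q⁻¹) * q'⁻¹
    calc q * (q' * u * q'⁻¹) * q⁻¹ = (q * q') * u * (q * q')⁻¹ := by group
      _ = (q' * q) * u * (q' * q)⁻¹ := by rw [hQc q hqm q' hq'm]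
      _ = _ := by group
  have hTA : ∀ m, T (A m) = B (T m) := fun m => by
    obtain ⟨u, rfl⟩ := hπ m
    rw [hA', hT', hT', hB']
    refine congrArg π (Subtype.ext ?_)
    show x * (q * u * q⁻¹) * x⁻¹ = q' * (x * u * x⁻¹) * q'⁻¹
    rw [hq'']; group
  have hTB : ∀ m, T (B m) = A (B (T m)) := fun m => by
    obtain ⟨u, rfl⟩ := hπ m
    rw [hB', hT', hT', hB', hA']
    refine congrArg π (Subtype.ext ?_)
    show x * (q' * u * q'⁻¹) * x⁻¹ = q * (q' * (x * u * x⁻¹) * q'⁻¹) * q⁻¹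
    calc x * (q' * u * q'⁻¹) * x⁻¹ = (x * q' * x⁻¹) * (x * u * x⁻¹) * (x * q' * x⁻¹)⁻¹ := by group
      _ = (q * q') * (x * u * x⁻¹) * (q * q')⁻¹ := by rw [hxq']
      _ = _ := by group
  have hcu3 : ∀ c ∈ U, c ^ 2 = 1 → c = 1 := by
    intro c hc h
    obtain ⟨k, hk⟩ := IsPGroup.iff_orderOf.mp hUp ⟨c, hc⟩
    rw [Subgroup.orderOf_mk] at hk
    exact orderOf_eq_one_iff.mp (Nat.eq_one_of_dvd_coprimes (Nat.Coprime.pow_left k (by norm_num : Nat.Coprime 3 2))
      hk.dvd (orderOf_dvd_of_pow_eq_one h))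
  have hfix1 : ∀ m, A m = m → B m = m → m = 1 := by
    intro m h1 h2
    obtain ⟨u, rfl⟩ := hπ m
    rw [hA'] at h1
    rw [hB'] at h2
    have hmem : ∀ (g : Y) (hg : g * u * g⁻¹ ∈ U), g * g = 1 → (∀ c ∈ C, c * g = g * c) →
        π ⟨g * u * g⁻¹, hg⟩ = π u → g * u * g⁻¹ = u := by
      intro g hg hgg hgC h
      have hc : (u : Y)⁻¹ * (g * u * g⁻¹) ∈ C := by
        have := Subgroup.mem_subgroupOf.mp (QuotientGroup.eq.mp h.symm)
        simpa using this
      set c := (u : Y)⁻¹ * (g * u * g⁻¹) with hcdef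
      clear_value c
      have h3 : g * u * g⁻¹ = u * c := by rw [hcdef, mul_inv_cancel_left]
      have h4 : g * c * g⁻¹ = c := by rw [← hgC c hc, mul_inv_cancel_right]
      have h5 : (u : Y) * (c * c) = u := by
        calc (u : Y) * (c * c) = (g * u * g⁻¹) * (g * c * g⁻¹) := by rw [h3, h4, mul_assoc]
          _ = g * (u * c) * g⁻¹ := by group
          _ = g * (g * u * g⁻¹) * g⁻¹ := by rw [h3]
          _ = (g * g) * u * (g * g)⁻¹ := by group
          _ = u := by rw [hgg]; group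
      have h6 : c = 1 := hcu3 c hc.1.1 (by rw [pow_two]; exact mul_eq_left.mp h5)
      rw [h3, h6, mul_one]
    have e1 := hmem q _ hqq hCq h1
    have e2 := hmem q' _ hq'q' hCq' h2
    exact (QuotientGroup.eq_one_iff u).mpr (Subgroup.mem_subgroupOf.mpr
      ⟨⟨u.2, Subgroup.mem_centralizer_singleton_iff.mpr (mul_inv_eq_iff_eq_mul.mp e1).symm⟩,
        Subgroup.mem_centralizer_singleton_iff.mpr (mul_inv_eq_iff_eq_mul.mp e2).symm⟩)
  have hrel : ∀ m, m * T m * T (T m) = 1 := fun m => by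
    obtain ⟨u, rfl⟩ := hπ m
    rw [hT', hT']
    have hu3 : ((u : Y) * x) ^ 6 = 1 := hexp _
    have hprod : (u : Y) * (x * u * x⁻¹) * (x * (x * u * x⁻¹) * x⁻¹) = ((u : Y) * x) ^ 3 := by
      calc (u : Y) * (x * u * x⁻¹) * (x * (x * u * x⁻¹) * x⁻¹) = ((u : Y) * x) ^ 3 * (x ^ 3)⁻¹ := by
            simp only [pow_succ, pow_zero, one_mul]; group
        _ = ((u : Y) * x) ^ 3 := by rw [hx3, inv_one, mul_one]
    have hmem : ((u : Y) * x) ^ 3 ∈ U :=
      hprod ▸ U.mul_mem (U.mul_mem u.2 (hxcU u u.2)) (hxcU _ (hxcU u u.2))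
    have h1 : ((u : Y) * x) ^ 3 = 1 := hcu3 _ hmem (by rw [← pow_mul]; exact hu3)
    rw [← map_mul, ← map_mul, ← map_one π]
    exact congrArg π (Subtype.ext (hprod.trans h1))
  have hm3 : ∀ m : U ⧸ N, m ^ 3 = 1 := fun m => by
    obtain ⟨u, rfl⟩ := hπ m
    have h1 : ((u : Y) ^ 3) = 1 := hcu3 _ (U.pow_mem u.2 3) (by rw [← pow_mul]; exact hexp _)
    rw [← map_pow, show u ^ 3 = 1 from Subtype.ext (by simpa using h1), map_one]
  have hsq1 : ∀ m : U ⧸ N, m * m = 1 → m = 1 := fun m h => by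
    have := hm3 m
    rwa [pow_succ, pow_two, h, one_mul] at this
  have hAneg : ∀ m, m * A m = 1 := by
    intro m
    set v := m * A m with hv
    have hAv : A v = v := by rw [hv, map_mul, hAA, mul_comm]
    have hvB : v * B v = 1 := by
      refine hfix1 _ ?_ ?_
      · rw [map_mul, hAv, hAB, hAv]
      · rw [map_mul, hBB, mul_comm]
    have hBv : B v = v⁻¹ := eq_inv_of_mul_eq_one_right hvB
    have hBTv : B (T v) = T v := by rw [← hTA, hAv]
    have hATv : A (T v) = (T v)⁻¹ := by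
      have := hTB v
      rw [hBv, map_inv, hBTv] at this
      exact this.symm
    have hATTv : A (T (T v)) = (T (T v))⁻¹ := by
      have h1 : B (T (T v)) = (T (T v))⁻¹ := by rw [← hTA, hATv, map_inv]
      have h2 := hTB (T v)
      rw [hBTv, h1, map_inv] at h2
      exact inv_eq_iff_eq_inv.mp h2.symm
    have h := hrel v
    have h' := congrArg A h
    rw [map_mul, map_mul, hAv, hATv, hATTv, map_one] at h'
    have h'' : (v * T v * T (T v)) * (v * (T v)⁻¹ * (T (T v))⁻¹) = 1 := by rw [h, h', one_mul]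
    refine hsq1 v ?_
    rw [← h'']
    calc v * v = v * v * (T v * (T v)⁻¹) * (T (T v) * (T (T v))⁻¹) := by simp
      _ = _ := by ac_rfl
  have hone : ∀ m, A m = m → m = 1 := fun m h => hsq1 m (by
    have := hAneg m; rwa [h] at this)
  have hBneg : ∀ m, B m = m⁻¹ := by
    intro m
    have hTsurj : ∃ m', T m' = m := by
      refine ⟨T (T m), ?_⟩
      have h1 := hrel (T m)
      have h2 := hrel m
      have e : T m * T (T m) * T (T (T m)) = m * T m * T (T m) := by rw [h1, h2]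
      calc T (T (T m)) = (T m * T (T m))⁻¹ * (T m * T (T m) * T (T (T m))) := by rw [inv_mul_cancel_left]
        _ = (T m * T (T m))⁻¹ * (m * T m * T (T m)) := by rw [e]
        _ = m := by rw [mul_assoc m, mul_comm m, inv_mul_cancel_left]
    obtain ⟨m', rfl⟩ := hTsurj
    rw [← hTA, eq_inv_of_mul_eq_one_right (hAneg m'), map_inv]
  have htriv : ∀ m : U ⧸ N, m = 1 := by
    intro m
    have h := hTB m
    rw [hBneg, hBneg, map_inv, map_inv, eq_inv_of_mul_eq_one_right (hAneg (T m)), inv_inv] at h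
    have h1 : T m = 1 := hsq1 _ (by
      calc T m * T m = (T m)⁻¹ * T m := by rw [h]
        _ = 1 := inv_mul_cancel _)
    have h2 := hrel m
    rw [h1, map_one, mul_one, mul_one] at h2
    exact h2
  refine hUc (Subgroup.mem_centralizer_iff.mpr fun u hu => ?_)
  have h1 := htriv (π ⟨u, hu⟩)
  exact hCq u (Subgroup.mem_subgroupOf.mp ((QuotientGroup.eq_one_iff _).mp h1))

theorem length_one {G : Type*} [Group G] [Finite G] {p : ℕ} [hp : Fact p.Prime]
    (h : ¬ p ∣ (Cfsg.pCore p (G ⧸ (Cfsg.upperPSeries p G 1).1)).index) : Cfsg.PLengthLE p 1 G := by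
  show (Cfsg.upperPSeries p G (2 + 1)).1 = ⊤
  rw [CfsgLib.PLocalBasics.upperPSeries_succ_even (by norm_num)]
  have hidx : ¬ p ∣ Nat.card (G ⧸ (Cfsg.upperPSeries p G 2).1) := by
    rw [← Subgroup.index_eq_card, CfsgLib.PLocalBasics.upperPSeries_succ_odd (n := 1) (by norm_num),
      Subgroup.index_comap_of_surjective _ (QuotientGroup.mk'_surjective _)]
    exact h
  rw [show Cfsg.pPrimeCore p (G ⧸ (Cfsg.upperPSeries p G 2).1) = ⊤ from
    eq_top_iff.mpr (CfsgLib.PCore.le_pPrimeCore_of_not_dvd inferInstance (by rwa [Subgroup.card_top])),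
    Subgroup.comap_top]

/-- A finite group in which every element has order dividing `6` has `2`-length at most `1` and `3`-length at most `1`. -/
theorem result {G : Type*} [Group G] [Finite G] (h : ∀ x : G, x ^ 6 = 1) : Cfsg.PLengthLE 2 1 G ∧ Cfsg.PLengthLE 3 1 G := by
  have h2f : Fact (Nat.Prime 2) := ⟨Nat.prime_two⟩
  have h3f : Fact (Nat.Prime 3) := ⟨Nat.prime_three⟩
  have hsol : Group.IsSolvable G := by
    refine CfsgLib.CharBasics.isSolvable_two_primes 2 3 fun r hr hrd => ?_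
    have := Fact.mk hr
    obtain ⟨g, hg⟩ := exists_prime_orderOf_dvd_card' r hrd
    have h6 : r ∣ 2 * 3 := hg ▸ orderOf_dvd_of_pow_eq_one (h g)
    rcases hr.dvd_mul.mp h6 with h' | h'
    · exact Or.inl ((Nat.prime_dvd_prime_iff_eq hr Nat.prime_two).mp h')
    · exact Or.inr ((Nat.prime_dvd_prime_iff_eq hr Nat.prime_three).mp h')
  refine ⟨?_, ?_⟩
  · refine CfsgLib.PLocalBasics.pLengthLE_nilpotencyClass 1 G CfsgLib.PCore.isPSolvable_of_isSolvable default ?_
    let S : Sylow 2 G := default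
    have hsq : ∀ a : (S : Subgroup G), a * a = 1 := by
      intro a
      obtain ⟨k, hk⟩ := IsPGroup.iff_orderOf.mp S.2 a
      have h1 : (a : G) ^ 2 = 1 := by
        refine orderOf_dvd_iff_pow_eq_one.mp (Nat.Coprime.dvd_of_dvd_mul_right ?_
          (show orderOf (a : G) ∣ 2 * 3 from orderOf_dvd_of_pow_eq_one (h a)))
        rw [Subgroup.orderOf_coe, hk]
        exact Nat.Coprime.pow_left k (by norm_num)
      exact Subtype.ext (by rw [Subgroup.coe_mul, ← pow_two]; exact h1)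
    have hcm : ∀ a b : (S : Subgroup G), a * b = b * a := fun a b => by
      have ha : a⁻¹ = a := inv_eq_of_mul_eq_one_right (hsq a)
      have hb : b⁻¹ = b := inv_eq_of_mul_eq_one_right (hsq b)
      calc a * b = (a * b)⁻¹ := (inv_eq_of_mul_eq_one_right (hsq _)).symm
        _ = b * a := by rw [mul_inv_rev, ha, hb]
    letI : CommGroup (S : Subgroup G) := { (inferInstance : Group (S : Subgroup G)) with mul_comm := hcm }
    exact CommGroup.nilpotencyClass_le_one
  · refine length_one ?_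
    set K := (Cfsg.upperPSeries 3 G 1).1
    refine three_case (fun y => ?_) (CfsgLib.PCore.hall_higman CfsgLib.PCore.isPSolvable_of_isSolvable ?_)
    · obtain ⟨g, rfl⟩ := QuotientGroup.mk_surjective y
      rw [← QuotientGroup.mk_pow, h g]; rfl
    · rw [eq_bot_iff]
      intro q hq
      obtain ⟨g, rfl⟩ := QuotientGroup.mk'_surjective K q
      refine Subgroup.mem_bot.2 ((QuotientGroup.eq_one_iff g).2 ?_)
      show g ∈ (Cfsg.upperPSeries 3 G 1).1
      rw [CfsgLib.PLocalBasics.upperPSeries_one]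
      refine CfsgLib.PCore.le_pPrimeCore (N := (Cfsg.pPrimeCore 3 (G ⧸ K)).comap (QuotientGroup.mk' K)) inferInstance ?_ hq
      rw [CfsgLib.PCore.card_comap_mk']
      refine Nat.Coprime.mul_left ?_ (CfsgLib.PCore.pPrimeCore_coprime 3 _)
      show (Nat.card (Cfsg.upperPSeries 3 G 1).1).Coprime 3
      rw [CfsgLib.PLocalBasics.upperPSeries_one]
      exact CfsgLib.PCore.pPrimeCore_coprime 3 G

end Cfsg.Agent.S4227
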