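import Cfsg.Statements.S4230

set_option autoImplicit false
open Cfsg

namespace Cfsg.Agent.S4230

/-- Let p be an odd prime, q a natural number not divisible by p, and e the multiplicative order of q modulo p. For a natural number f, p divides the value at q of the f-th cyclotomic polynomial if and only if f = e·p^j for some j ≥ 0. -/
theorem result (p q f : ℕ) (hp : p.Prime) (hp2 : p ≠ 2) (hpq : ¬ p ∣ q) :
    ((p : ℤ) ∣ (Polynomial.cyclotomic f ℤ).eval (q : ℤ)) ↔ ∃ j : ℕ, f = orderOf (q : ZMod p) * p ^ j := by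
  have := Fact.mk hp
  set a : ZMod p := (q : ZMod p) with ha
  have ha0 : a ≠ 0 := by
    rw [ha, Ne, CharP.cast_eq_zero_iff (ZMod p) p]
    exact hpq
  have hord : 0 < orderOf a := orderOf_pos_iff.mpr
    (isOfFinOrder_iff_pow_eq_one.mpr ⟨p - 1, by have := hp.two_le; omega, ZMod.pow_card_sub_one_eq_one ha0⟩)
  have hnd : ¬ p ∣ orderOf a := fun h => by
    have h1 := Nat.le_of_dvd (by have := hp.two_le; omega) (h.trans (ZMod.orderOf_dvd_card_sub_one ha0))
    have := hp.two_le
    omega
  rcases Nat.eq_zero_or_pos f with rfl | hf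
  · simp only [Polynomial.cyclotomic_zero, Polynomial.eval_one]
    constructor
    · intro h
      rw [← Nat.cast_one, Int.natCast_dvd_natCast] at h
      exact absurd h hp.not_dvd_one
    · rintro ⟨j, hj⟩
      exact absurd hj.symm (Nat.mul_ne_zero hord.ne' (pow_ne_zero j hp.ne_zero))
  obtain ⟨k, m, hm, rfl⟩ := Nat.exists_eq_pow_mul_and_not_dvd hf.ne' p hp.ne_one
  have : NeZero (m : ZMod p) := ⟨by rwa [Ne, CharP.cast_eq_zero_iff (ZMod p) p]⟩
  have hkey : ((p : ℤ) ∣ (Polynomial.cyclotomic (p ^ k * m) ℤ).eval (q : ℤ)) ↔ IsPrimitiveRoot a m := by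
    rw [← Polynomial.isRoot_cyclotomic_prime_pow_mul_iff_of_charP (k := k) (p := p), Polynomial.IsRoot.def,
      ← ZMod.intCast_zmod_eq_zero_iff_dvd, ← Polynomial.map_cyclotomic_int (p ^ k * m) (ZMod p), ha]
    rw [Polynomial.eval_map]
    have := Polynomial.eval₂_at_apply (p := Polynomial.cyclotomic (p ^ k * m) ℤ) (Int.castRingHom (ZMod p)) (q : ℤ)
    simp only [eq_intCast, Int.cast_natCast] at this
    rw [this]
  rw [hkey]
  constructor
  · intro h
    exact ⟨k, by rw [h.eq_orderOf, mul_comm]⟩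
  · rintro ⟨j, hj⟩
    rw [mul_comm (orderOf a)] at hj
    have hm' : m = orderOf a := Nat.dvd_antisymm
      ((((hp.coprime_iff_not_dvd.mpr hm).pow_left j).symm).dvd_of_dvd_mul_left
        (hj ▸ dvd_mul_left m (p ^ k)))
      ((((hp.coprime_iff_not_dvd.mpr hnd).pow_left k).symm).dvd_of_dvd_mul_left
        (hj.symm ▸ dvd_mul_left (orderOf a) (p ^ j)))
    rw [hm']
    exact IsPrimitiveRoot.orderOf a

end Cfsg.Agent.S4230
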