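import Cfsg.Statements.S4234
import Cfsg.Agent.H29.NormMaxThirteen
import Cfsg.Agent.H29.NormMaxProduct

set_option autoImplicit false
open Cfsg

namespace Cfsg.Agent.S4234

/-- Let K be isomorphic to PSL(2, 13) or to SL(2, 13) and let S be a finite abelian group of order coprime to the order of K. Then in the direct product K × S every subgroup that is not normal has a normalizer that is a maximal subgroup. -/
theorem result {K S : Type*} [Group K] [CommGroup S] [Finite K] [Finite S]
    (hK : Nonempty (K ≃* Matrix.ProjectiveSpecialLinearGroup (Fin 2) (ZMod 13)) ∨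
      Nonempty (K ≃* Matrix.SpecialLinearGroup (Fin 2) (ZMod 13)))
    (hKS : (Nat.card K).Coprime (Nat.card S)) (H : Subgroup (K × S)) (hH : ¬ H.Normal) :
    IsCoatom (Subgroup.normalizer (H : Set (K × S))) := by
  classical
  haveI : Fact (Nat.Prime 13) := ⟨by norm_num⟩
  rw [CfsgLib.H29.NormMaxProduct.normalizer_prod_coprime hKS]
  refine CfsgLib.H29.NormMaxProduct.isCoatom_comap Prod.fst_surjective ?_
  set H₁ := H.map (MonoidHom.fst K S) with hH₁
  have hH₁n : ¬ H₁.Normal := by
    intro hn
    apply hH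
    rw [← Subgroup.normalizer_eq_top_iff, CfsgLib.H29.NormMaxProduct.normalizer_prod_coprime hKS,
      Subgroup.normalizer_eq_top_iff.mpr hn, Subgroup.comap_top]
  have hcard : Fintype.card (ZMod 13) = 13 := ZMod.card 13
  have hP : ∀ X : Subgroup (Matrix.ProjectiveSpecialLinearGroup (Fin 2) (ZMod 13)),
      X ≠ ⊥ → X ≠ ⊤ → IsCoatom (Subgroup.normalizer (X : Set (Matrix.ProjectiveSpecialLinearGroup (Fin 2) (ZMod 13)))) :=
    fun X h1 h2 =>
    CfsgLib.H29.NormMaxThirteen.isCoatom_normalizer_psl hcard h1 h2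
  rcases hK with ⟨⟨e⟩⟩ | ⟨⟨e⟩⟩
  · have hb : e.toMonoidHom.ker = ⊥ := (MonoidHom.ker_eq_bot_iff e.toMonoidHom).mpr e.injective
    exact CfsgLib.H29.NormMaxProduct.isCoatom_of_central_ext (π := e.toMonoidHom) e.surjective
      (hb.le.trans bot_le) (Or.inl hb) hP hH₁n
  · let π : K →* Matrix.ProjectiveSpecialLinearGroup (Fin 2) (ZMod 13) :=
      (QuotientGroup.mk' (Subgroup.center (Matrix.SpecialLinearGroup (Fin 2) (ZMod 13)))).comp
        e.toMonoidHom
    have hker : ∀ x, x ∈ π.ker ↔ e x ∈ Subgroup.center (Matrix.SpecialLinearGroup (Fin 2) (ZMod 13)) :=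
      fun x => by
        rw [MonoidHom.mem_ker]
        exact QuotientGroup.eq_one_iff _
    refine CfsgLib.H29.NormMaxProduct.isCoatom_of_central_ext (π := π)
      ((QuotientGroup.mk'_surjective _).comp e.surjective) (fun x hx => ?_) (Or.inr ⟨?_, ?_⟩) hP hH₁n
    · refine Subgroup.mem_center_iff.mpr fun g => e.injective ?_
      rw [map_mul, map_mul]
      exact Subgroup.mem_center_iff.mp ((hker x).mp hx) (e g)
    · intro x hx
      rw [hker]
      have hee : e x * e x = 1 := by rw [← map_mul, hx, map_one]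
      have hinv : e x = (e x)⁻¹ := eq_inv_of_mul_eq_one_left hee
      generalize e x = N at hinv ⊢
      have h' : (N : Matrix (Fin 2) (Fin 2) (ZMod 13)) =
          !![N.1 1 1, -N.1 0 1; -N.1 1 0, N.1 0 0] := by
        conv_lhs => rw [hinv]
        rw [Matrix.SpecialLinearGroup.coe_inv, Matrix.adjugate_fin_two]
      have h01 : N.1 0 1 = -N.1 0 1 := congrFun (congrFun h' 0) 1
      have h10 : N.1 1 0 = -N.1 1 0 := congrFun (congrFun h' 1) 0
      have h00 : N.1 0 0 = N.1 1 1 := congrFun (congrFun h' 0) 0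
      have h2 : (2 : ZMod 13) ≠ 0 := fun h => by
        have := (CharP.cast_eq_zero_iff (ZMod 13) 13 2).mp (by exact_mod_cast h)
        omega
      have z01 : N.1 0 1 = 0 :=
        (mul_eq_zero.mp (show (2 : ZMod 13) * N.1 0 1 = 0 by linear_combination h01)).resolve_left h2
      have z10 : N.1 1 0 = 0 :=
        (mul_eq_zero.mp (show (2 : ZMod 13) * N.1 1 0 = 0 by linear_combination h10)).resolve_left h2
      rw [Matrix.SpecialLinearGroup.mem_center_iff]
      refine ⟨N.1 0 0, ?_, ?_⟩
      · have hd := N.2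
        rw [Matrix.det_fin_two, z01, z10, ← h00] at hd
        simpa [pow_two] using hd
      · ext i j
        fin_cases i <;> fin_cases j <;> simp [z01, z10, h00]
    · have hk : π.ker = (Subgroup.center (Matrix.SpecialLinearGroup (Fin 2) (ZMod 13))).comap
          e.toMonoidHom := by
        ext x; exact hker x
      rw [hk]
      have h1 : Nat.card ↥((Subgroup.center (Matrix.SpecialLinearGroup (Fin 2) (ZMod 13))).comap
          e.toMonoidHom) = Nat.card ↥(Subgroup.center (Matrix.SpecialLinearGroup (Fin 2) (ZMod 13))) :=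
        Nat.card_congr (Equiv.subtypeEquiv e.toEquiv fun _ => Iff.rfl)
      rw [h1, CfsgLib.SL2.card_center_eq_gcd, hcard]
      decide

end Cfsg.Agent.S4234
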