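import Cfsg.Statements.S4236

set_option autoImplicit false
open Cfsg

namespace Cfsg.Agent.S4236

universe u

variable {G : Type*} [Group G] [Finite G]

theorem eq_of_le_normalizer {p : ℕ} {P Q : Sylow p G}
    (h : (P : Subgroup G) ≤ Subgroup.normalizer (Q : Set G)) : P = Q := by
  have h1 : (P : Subgroup G) ≤ Q := by
    have h2 := P.2.inf_normalizer_sylow Q
    rw [inf_eq_left.mpr h] at h2
    exact h2.le.trans inf_le_right
  exact (Sylow.ext (P.3 Q.2 h1)).symm

theorem card_sylow_of_le {p : ℕ} [Fact p.Prime] {N : Subgroup G}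
    (h : ∀ P : Sylow p G, (P : Subgroup G) ≤ N) : Nat.card (Sylow p N) = Nat.card (Sylow p G) := by
  refine (Nat.card_eq_of_bijective (fun P : Sylow p G => P.subtype (h P)) ⟨?_, ?_⟩).symm
  · intro P Q hPQ
    exact Sylow.subtype_injective hPQ
  · intro T
    obtain ⟨Q, hQ⟩ := Sylow.exists_comap_subtype_eq T
    exact ⟨Q, Sylow.ext hQ⟩

theorem card_sylow_quotient {p : ℕ} [Fact p.Prime] (K : Subgroup G) [K.Normal]
    (hK : ∀ k ∈ K, ∀ P : Sylow p G, k • P = P) :
    Nat.card (Sylow p (G ⧸ K)) = Nat.card (Sylow p G) := by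
  refine (Nat.card_eq_of_bijective (fun P : Sylow p G => P.mapSurjective (QuotientGroup.mk'_surjective K))
    ⟨?_, Sylow.mapSurjective_surjective _ p⟩).symm
  intro P Q hPQ
  have h1 : (P : Subgroup G).map (QuotientGroup.mk' K) = (Q : Subgroup G).map (QuotientGroup.mk' K) :=
    congrArg Sylow.toSubgroup hPQ
  refine eq_of_le_normalizer fun x hx => ?_
  have h2 : QuotientGroup.mk' K x ∈ (Q : Subgroup G).map (QuotientGroup.mk' K) :=
    h1 ▸ Subgroup.mem_map_of_mem _ hx
  obtain ⟨y, hy, hxy⟩ := h2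
  have hk : y⁻¹ * x ∈ K := QuotientGroup.eq.mp hxy
  have h3 := Sylow.smul_eq_iff_mem_normalizer.mp (hK _ hk Q)
  have h4 := Subgroup.mul_mem _ (Subgroup.le_normalizer hy) h3
  rwa [mul_inv_cancel_left] at h4

theorem relIndex_inf_eq_17 [hp : Fact (Nat.Prime 17)] (h35 : Nat.card (Sylow 17 G) = 35)
    {P Q : Sylow 17 G} (hPQ : P ≠ Q) : ((P : Subgroup G) ⊓ Q).relIndex P = 17 := by
  have hst : MulAction.stabilizer (P : Subgroup G) Q = ((P : Subgroup G) ⊓ Q).subgroupOf P := by
    ext x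
    rw [MulAction.mem_stabilizer_iff, Subgroup.mem_subgroupOf, Subgroup.mem_inf]
    constructor
    · intro hx
      have h1 : (x : G) ∈ (P : Subgroup G) ⊓ Subgroup.normalizer (Q : Set G) :=
        ⟨x.2, Sylow.smul_eq_iff_mem_normalizer.mp hx⟩
      rw [P.2.inf_normalizer_sylow Q] at h1
      exact h1
    · intro hx
      exact Sylow.smul_eq_iff_mem_normalizer.mpr (Subgroup.le_normalizer hx.2)
  have h1 : ((P : Subgroup G) ⊓ Q).relIndex P = Nat.card (MulAction.orbit (P : Subgroup G) Q) := by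
    rw [Subgroup.relIndex, ← hst, Subgroup.index_eq_card]
    exact (Nat.card_congr (MulAction.orbitEquivQuotientStabilizer (P : Subgroup G) Q)).symm
  have h2 : MulAction.orbit (P : Subgroup G) Q ⊆ ({P} : Set (Sylow 17 G))ᶜ := by
    rintro R ⟨x, rfl⟩ hR
    have hR' : (x : G) • Q = P := hR
    have h3 : (x : G)⁻¹ • P = P := Sylow.smul_eq_iff_mem_normalizer.mpr
      (Subgroup.le_normalizer (Subgroup.inv_mem _ x.2))
    exact hPQ (h3.symm.trans ((congrArg ((x : G)⁻¹ • ·) hR'.symm).trans (inv_smul_smul _ _)))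
  have h3 : Nat.card (MulAction.orbit (P : Subgroup G) Q) ≤ 34 := by
    rw [Nat.card_coe_set_eq]
    refine (Set.ncard_le_ncard h2 (Set.toFinite _)).trans_eq ?_
    rw [Set.ncard_compl, Set.ncard_singleton, h35]
  obtain ⟨a, ha⟩ := P.2.exists_card_eq
  have h4 : ((P : Subgroup G) ⊓ Q).relIndex P ∣ 17 ^ a :=
    ha ▸ Subgroup.relIndex_dvd_card _ _
  obtain ⟨j, -, hj⟩ := (Nat.dvd_prime_pow hp.out).mp h4
  rcases j with _ | _ | j
  · exfalso
    rw [pow_zero, Subgroup.relIndex_eq_one] at hj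
    exact hPQ (Sylow.ext (P.3 Q.2 (hj.trans inf_le_right)).symm)
  · simpa using hj
  · exfalso
    rw [h1] at hj
    rw [hj, pow_succ, pow_succ] at h3
    have : 1 ≤ 17 ^ j := Nat.one_le_pow _ _ (by norm_num)
    omega

theorem card_inf_mul [Fact (Nat.Prime 17)] (h35 : Nat.card (Sylow 17 G) = 35)
    {P Q : Sylow 17 G} (hPQ : P ≠ Q) :
    Nat.card ((P : Subgroup G) ⊓ Q : Subgroup G) * 17 = Nat.card (P : Subgroup G) := by
  have h := relIndex_inf_eq_17 h35 hPQ
  rw [Subgroup.relIndex] at h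
  have h2 := Subgroup.card_mul_index (((P : Subgroup G) ⊓ Q).subgroupOf (P : Subgroup G))
  rwa [h, Nat.card_congr (Subgroup.subgroupOfEquivOfLe (inf_le_left : (P : Subgroup G) ⊓ Q ≤ P)).toEquiv] at h2

/-- With 35 Sylow subgroups acting faithfully, a Sylow subgroup has order 17. -/
theorem card_sylow_eq [hp : Fact (Nat.Prime 17)] (h35 : Nat.card (Sylow 17 G) = 35)
    (hf : ∀ g : G, (∀ P : Sylow 17 G, g • P = P) → g = 1) (P : Sylow 17 G) :
    Nat.card (P : Subgroup G) = 17 := by
  classical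
  have := Fintype.ofFinite (Sylow 17 G)
  have hcard : ∀ Q : Sylow 17 G, Nat.card (Q : Subgroup G) = Nat.card (P : Subgroup G) := fun Q => by
    rw [Q.card_eq_multiplicity, P.card_eq_multiplicity]
  by_contra hP
  have hne : ∀ Q R : Sylow 17 G, Q ≠ R → ((Q : Subgroup G) ⊓ R) ≠ ⊥ := by
    intro Q R h hb
    apply hP
    have := card_inf_mul h35 h
    rw [hb, Subgroup.card_bot, one_mul, hcard] at this
    exact this.symm
  have key : ∀ I : Subgroup G, I ≠ ⊥ → Nat.card I * 17 = Nat.card (P : Subgroup G) →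
      (∃ Q R : Sylow 17 G, Q ≠ R ∧ I ≤ Q ∧ I ≤ R) →
      Nat.card {R : Sylow 17 G // I ≤ (R : Subgroup G)} = 18 := by
    intro I hI hIc hQR
    set N := Subgroup.normalizer (I : Set G)
    have hN : ∀ R : Sylow 17 G, I ≤ (R : Subgroup G) → (R : Subgroup G) ≤ N := by
      intro R hR
      rw [← Subgroup.normal_subgroupOf_iff_le_normalizer hR]
      refine Subgroup.normal_of_index_eq_minFac_card ?_
      have h1 : (I.subgroupOf (R : Subgroup G)).index = 17 := by
        have h2 := Subgroup.card_mul_index (I.subgroupOf (R : Subgroup G))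
        rw [Nat.card_congr (Subgroup.subgroupOfEquivOfLe hR).toEquiv, hcard, ← hIc] at h2
        exact Nat.eq_of_mul_eq_mul_left Nat.card_pos h2
      obtain ⟨a, ha⟩ := R.2.exists_card_eq
      rw [h1, ha, hp.out.pow_minFac]
      rintro rfl
      rw [hcard, ← hIc, pow_zero] at ha
      omega
    let f : {R : Sylow 17 G // I ≤ (R : Subgroup G)} → Sylow 17 N := fun R => R.1.subtype (hN R.1 R.2)
    have hf' : Function.Bijective f := by
      constructor
      · intro R S h
        exact Subtype.ext (Sylow.subtype_injective h)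
      · intro T
        obtain ⟨Q, hQ⟩ := Sylow.exists_comap_subtype_eq T
        have hIn : (I.subgroupOf N).Normal :=
          (Subgroup.normal_subgroupOf_iff_le_normalizer (Subgroup.le_normalizer)).mpr le_rfl
        have hIp : IsPGroup 17 (I.subgroupOf N) := by
          obtain ⟨Q', R', -, hQ', -⟩ := hQR
          exact (Q'.2.to_le hQ').of_equiv (Subgroup.subgroupOfEquivOfLe Subgroup.le_normalizer).symm
        have hIT : I.subgroupOf N ≤ T := IsPGroup.le_sylow_of_normal hIp T
        have hIQ : I ≤ (Q : Subgroup G) := by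
          intro x hx
          have hx' : x ∈ N := Subgroup.le_normalizer hx
          have h1 : (⟨x, hx'⟩ : N) ∈ (T : Subgroup N) := hIT hx
          rw [← hQ] at h1
          exact h1
        exact ⟨⟨Q, hIQ⟩, Sylow.ext hQ⟩
    have h1 : Nat.card {R : Sylow 17 G // I ≤ (R : Subgroup G)} ≡ 1 [MOD 17] := by
      rw [Nat.card_eq_of_bijective f hf']
      exact card_sylow_modEq_one 17 N
    have h2 : 2 ≤ Nat.card {R : Sylow 17 G // I ≤ (R : Subgroup G)} := by
      obtain ⟨Q, R, h, hQ, hR⟩ := hQR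
      exact Finite.one_lt_card_iff_nontrivial.mpr ⟨⟨⟨Q, hQ⟩, ⟨R, hR⟩, fun e => h (congrArg Subtype.val e)⟩⟩
    have h3 : Nat.card {R : Sylow 17 G // I ≤ (R : Subgroup G)} ≤ 35 :=
      h35 ▸ Finite.card_subtype_le _
    have h4 : Nat.card {R : Sylow 17 G // I ≤ (R : Subgroup G)} ≠ 35 := by
      intro h
      have hall : ∀ R : Sylow 17 G, I ≤ (R : Subgroup G) := by
        by_contra hc
        push Not at hc
        obtain ⟨R, hR⟩ := hc
        have := Finite.card_subtype_lt (p := fun R : Sylow 17 G => I ≤ (R : Subgroup G)) hR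
        omega
      refine hI ((Subgroup.eq_bot_iff_forall I).mpr fun x hx => hf x fun R => ?_)
      exact Sylow.smul_eq_iff_mem_normalizer.mpr (Subgroup.le_normalizer (hall R hx))
    unfold Nat.ModEq at h1
    omega
  let S := (Finset.univ : Finset (Sylow 17 G)).offDiag
  let inter : Sylow 17 G × Sylow 17 G → Subgroup G := fun q => (q.1 : Subgroup G) ⊓ q.2
  have hS : S.card = 1190 := by
    rw [Finset.offDiag_card, Finset.card_univ, ← Nat.card_eq_fintype_card, h35]
  have hfib : ∀ I ∈ S.image inter, (S.filter fun q => inter q = I).card = 306 := by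
    intro I hI
    obtain ⟨⟨Q, R⟩, hq, rfl⟩ := Finset.mem_image.mp hI
    have hQR : Q ≠ R := (Finset.mem_offDiag.mp hq).2.2
    set I := inter (Q, R) with hIdef
    have hIc : Nat.card I * 17 = Nat.card (P : Subgroup G) := by
      rw [← hcard Q]; exact card_inf_mul h35 hQR
    have h18 := key I (hne Q R hQR) hIc ⟨Q, R, hQR, inf_le_left, inf_le_right⟩
    have he : (S.filter fun q => inter q = I) =
        ((Finset.univ : Finset (Sylow 17 G)).filter fun T : Sylow 17 G => I ≤ (T : Subgroup G)).offDiag := by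
      ext ⟨A, B⟩
      simp only [S, Finset.mem_filter, Finset.mem_offDiag, Finset.mem_univ, true_and]
      constructor
      · rintro ⟨hAB, h⟩
        exact ⟨h ▸ inf_le_left, h ▸ inf_le_right, hAB⟩
      · rintro ⟨hA, hB, hAB⟩
        refine ⟨hAB, (Subgroup.eq_of_le_of_card_ge (le_inf hA hB) ?_).symm⟩
        have h1 := card_inf_mul h35 hAB
        rw [hcard, ← hIc] at h1
        exact (Nat.eq_of_mul_eq_mul_right (by norm_num) h1).le
    rw [he, Finset.offDiag_card, ← Fintype.card_subtype, ← Nat.card_eq_fintype_card, h18]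
  have := Finset.card_eq_sum_card_image inter S
  rw [Finset.sum_congr rfl hfib, Finset.sum_const, smul_eq_mul, hS] at this
  omega

theorem eq_one_of_pow {n : ℕ} {u : ℤˣ} (hn : Odd n) (h : u ^ n = 1) : u = 1 := by
  obtain ⟨k, rfl⟩ := hn
  rwa [pow_succ, pow_mul, Int.units_sq, one_pow, one_mul] at h

/-- In the faithful even action, a Sylow subgroup is self-centralising. -/
theorem mem_of_commute [hp : Fact (Nat.Prime 17)] (h35 : Nat.card (Sylow 17 G) = 35)
    (hf : ∀ g : G, (∀ P : Sylow 17 G, g • P = P) → g = 1) [Fintype (Sylow 17 G)] [DecidableEq (Sylow 17 G)]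
    (hsg : ∀ g : G, Equiv.Perm.sign (MulAction.toPerm g : Equiv.Perm (Sylow 17 G)) = 1)
    (P : Sylow 17 G) (c : G) (hc : ∀ x ∈ (P : Subgroup G), x * c = c * x) : c ∈ (P : Subgroup G) := by
  classical
  set p := (P : Subgroup G) with hpdef
  let C := Subgroup.centralizer (p : Set G)
  have hcC : c ∈ C := Subgroup.mem_centralizer_iff.mpr hc
  have hP17 := card_sylow_eq h35 hf P
  have hcomm : ∀ e ∈ C, ∀ x ∈ p, ∀ Q : Sylow 17 G, e • x • Q = x • e • Q := fun e he x hx Q => by
    rw [← mul_smul, ← mul_smul, Subgroup.mem_centralizer_iff.mp he x hx]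
  have hfixP : ∀ e ∈ C, e • P = P := fun e he =>
    Sylow.smul_eq_iff_mem_normalizer.mpr (Subgroup.centralizer_le_normalizer _ he)
  have hPC : p ≤ C := fun x hx => Subgroup.mem_centralizer_iff.mpr fun y hy => by
    have hcy : IsCyclic p := isCyclic_of_prime_card hP17
    letI := IsCyclic.commGroup (α := p)
    exact congrArg Subtype.val (mul_comm (⟨y, hy⟩ : p) ⟨x, hx⟩)
  have hPfix : ∀ x ∈ p, x • P = P := fun x hx => hfixP x (hPC hx)
  have hfree : ∀ x ∈ p, ∀ Q : Sylow 17 G, Q ≠ P → x • Q = Q → x = 1 := by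
    intro x hx Q hQ h
    have h1 : x ∈ (P : Subgroup G) ⊓ Q := by
      rw [← P.2.inf_normalizer_sylow Q]
      exact ⟨hx, Sylow.smul_eq_iff_mem_normalizer.mp h⟩
    have h2 := card_inf_mul h35 (Ne.symm hQ)
    rw [hP17] at h2
    have h3 : Nat.card ((P : Subgroup G) ⊓ Q : Subgroup G) = 1 := by omega
    rwa [Subgroup.card_eq_one.mp h3, Subgroup.mem_bot] at h1
  let O : Sylow 17 G → Finset (Sylow 17 G) := fun Q =>
    Finset.univ.filter fun R => ∃ x ∈ p, x • Q = R
  have hO : ∀ Q R, R ∈ O Q ↔ ∃ x ∈ p, x • Q = R := fun Q R => by simp [O]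
  have hsymm : ∀ Q R, R ∈ O Q → Q ∈ O R := fun Q R h => by
    obtain ⟨x, hx, rfl⟩ := (hO _ _).mp h
    exact (hO _ _).mpr ⟨x⁻¹, p.inv_mem hx, inv_smul_smul x Q⟩
  have htrans : ∀ A B D, B ∈ O A → D ∈ O B → D ∈ O A := fun A B D h h' => by
    obtain ⟨x, hx, rfl⟩ := (hO _ _).mp h
    obtain ⟨y, hy, rfl⟩ := (hO _ _).mp h'
    exact (hO _ _).mpr ⟨y * x, p.mul_mem hy hx, mul_smul y x A⟩
  have hself : ∀ Q, Q ∈ O Q := fun Q => (hO _ _).mpr ⟨1, p.one_mem, one_smul _ _⟩
  have hPO : ∀ Q, Q ≠ P → P ∉ O Q := fun Q hQ h => hQ (by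
    obtain ⟨x, hx, e⟩ := (hO _ _).mp (hsymm _ _ h)
    rw [← e, hPfix x hx])
  have hOcard : ∀ Q, Q ≠ P → (O Q).card = 17 := by
    intro Q hQ
    have he : O Q = (Set.range fun x : p => (x : G) • Q).toFinset := by
      ext R; simp [O]
    rw [he, Set.toFinset_card, ← Nat.card_eq_fintype_card]
    refine (Nat.card_congr (Equiv.ofInjective _ fun x y h => ?_)).symm.trans hP17
    have h1 : ((y : G)⁻¹ * x) • Q = Q := by
      rw [mul_smul]; exact inv_smul_eq_iff.mpr h
    exact Subtype.ext (inv_mul_eq_one.mp (hfree _ (p.mul_mem (p.inv_mem y.2) x.2) Q hQ h1)).symm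
  have hdisj : ∀ A B, B ∉ O A → Disjoint (O A) (O B) := fun A B h =>
    Finset.disjoint_left.mpr fun R hA hB => h (htrans _ _ _ hA (hsymm _ _ hB))
  obtain ⟨Q0, hQ0⟩ : ∃ Q : Sylow 17 G, Q ≠ P := by
    by_contra h
    push Not at h
    have : Subsingleton (Sylow 17 G) := ⟨fun a b => (h a).trans (h b).symm⟩
    rw [Nat.card_of_subsingleton P] at h35
    omega
  obtain ⟨R0, hR0, hR0'⟩ : ∃ R, R ≠ P ∧ R ∉ O Q0 := by
    by_contra h
    push Not at h
    have h1 : (Finset.univ : Finset (Sylow 17 G)) ⊆ insert P (O Q0) := fun R _ => by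
      by_cases hR : R = P
      · rw [hR]; exact Finset.mem_insert_self _ _
      · exact Finset.mem_insert_of_mem (h R hR)
    have h2 := (Finset.card_le_card h1).trans (Finset.card_insert_le _ _)
    rw [Finset.card_univ, ← Nat.card_eq_fintype_card, h35, hOcard Q0 hQ0] at h2
    omega
  have hcover : ∀ R, R ≠ P → R ∈ O Q0 ∨ R ∈ O R0 := by
    intro R hR
    by_contra h
    push Not at h
    have h1 : Disjoint (O Q0 ∪ O R0) (O R) :=
      Finset.disjoint_union_left.mpr ⟨hdisj _ _ h.1, hdisj _ _ h.2⟩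
    have h2 := Finset.card_le_univ (O Q0 ∪ O R0 ∪ O R)
    rw [Finset.card_union_of_disjoint h1, Finset.card_union_of_disjoint (hdisj _ _ hR0'),
      hOcard _ hQ0, hOcard _ hR0, hOcard _ hR, ← Nat.card_eq_fintype_card, h35] at h2
    omega
  have himg : ∀ e ∈ C, ∀ A B, B ∈ O A → e • B ∈ O (e • A) := fun e he A B h => by
    obtain ⟨x, hx, rfl⟩ := (hO _ _).mp h
    exact (hO _ _).mpr ⟨x, hx, (hcomm e he x hx A).symm⟩
  have hneP : ∀ e ∈ C, ∀ A, A ≠ P → e • A ≠ P := fun e he A hA h =>
    hA (smul_left_cancel e (h.trans (hfixP e he).symm))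
  have hstable : ∀ e ∈ C, e • Q0 ∈ O Q0 → e ∈ p := by
    intro e he h
    obtain ⟨x, hx, hxe⟩ := (hO _ _).mp h
    set d := x⁻¹ * e with hd
    have hdC : d ∈ C := C.mul_mem (C.inv_mem (hPC hx)) he
    have hdQ : d • Q0 = Q0 := by rw [hd, mul_smul, ← hxe, inv_smul_smul]
    have hd1 : ∀ R ∈ O Q0, d • R = R := fun R hR => by
      obtain ⟨y, hy, rfl⟩ := (hO _ _).mp hR
      rw [hcomm d hdC y hy, hdQ]
    have hdR : d • R0 ∈ O R0 := by
      rcases hcover _ (hneP d hdC R0 hR0) with h1 | h1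
      · have h2 : d • R0 = R0 := smul_left_cancel d (hd1 _ h1)
        exact absurd (h2 ▸ h1) hR0'
      · exact h1
    obtain ⟨y, hy, hyd⟩ := (hO _ _).mp hdR
    have hpow : ∀ k : ℕ, d ^ k • R0 = y ^ k • R0 := by
      intro k
      induction k with
      | zero => rw [pow_zero, pow_zero]
      | succ k ih =>
        rw [pow_succ', mul_smul, ih, hcomm d hdC _ (p.pow_mem hy k), ← hyd, pow_succ, mul_smul]
    have hd17 : d ^ 17 = 1 := by
      refine hf _ fun R => ?_
      by_cases hR : R = P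
      · rw [hR]; exact hfixP _ (C.pow_mem hdC 17)
      have hy17 : y ^ 17 = 1 := by
        have := pow_card_eq_one' (x := (⟨y, hy⟩ : p))
        rw [hP17] at this
        exact congrArg Subtype.val this
      rcases hcover R hR with h1 | h1
      · have hk : ∀ k : ℕ, d ^ k • R = R := fun k => by
          induction k with
          | zero => rw [pow_zero, one_smul]
          | succ k ih => rw [pow_succ, mul_smul, hd1 R h1, ih]
        exact hk 17
      · obtain ⟨z, hz, rfl⟩ := (hO _ _).mp h1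
        rw [hcomm _ (C.pow_mem hdC 17) z hz, hpow 17, hy17, one_smul]
    have hdp : d ∈ p := by
      have hz : IsPGroup 17 (Subgroup.zpowers d) := by
        refine IsPGroup.of_card_dvd_pow (n := 1) ?_
        rw [Nat.card_zpowers, pow_one]
        exact orderOf_dvd_of_pow_eq_one hd17
      have h0 : Subgroup.zpowers d ≤ Subgroup.normalizer (P : Set G) :=
        Subgroup.zpowers_le.mpr (Subgroup.centralizer_le_normalizer _ hdC)
      have h1 := hz.inf_normalizer_sylow P
      rw [inf_eq_left.mpr h0] at h1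
      exact (h1.le (Subgroup.mem_zpowers d)).2
    have h2 := p.mul_mem hx hdp
    rwa [hd, mul_inv_cancel_left] at h2
  by_cases h : c • Q0 ∈ O Q0
  · exact hstable c hcC h
  exfalso
  have h1 : c • Q0 ∈ O R0 := (hcover _ (hneP c hcC Q0 hQ0)).resolve_left h
  have h2 : c • R0 ∈ O Q0 := by
    rcases hcover _ (hneP c hcC R0 hR0) with h2 | h2
    · exact h2
    · have h3 := himg c⁻¹ (C.inv_mem hcC) _ _ (htrans _ _ _ (hsymm _ _ h1) h2)
      rw [inv_smul_smul, inv_smul_smul] at h3
      exact absurd h3 hR0'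
  have h3 : (c * c) • Q0 ∈ O Q0 := by
    rw [mul_smul]
    exact htrans _ _ _ h2 (himg c hcC _ _ h1)
  have hc2 : c * c ∈ p := hstable _ (C.mul_mem hcC hcC) h3
  have hpow17 : ∀ x ∈ p, x ^ 17 = 1 := fun x hx => by
    have := pow_card_eq_one' (x := (⟨x, hx⟩ : p))
    rw [hP17] at this
    exact congrArg Subtype.val this
  set t := c ^ 17 with ht
  have ht2 : t * t = 1 := by
    rw [ht, ← (Commute.refl c).mul_pow]; exact hpow17 _ hc2
  have htC : t ∈ C := C.pow_mem hcC 17
  have htc : t = c * (c * c) ^ 8 := by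
    rw [ht, ← pow_two, ← pow_mul, ← pow_succ']
  have htQ : t • Q0 ∉ O Q0 := by
    rw [htc, mul_smul]
    intro h4
    have h5 : c • Q0 ∈ O (c • (c * c) ^ 8 • Q0) := himg c hcC _ _ (hsymm _ _ ((hO _ _).mpr ⟨_, p.pow_mem hc2 8, rfl⟩))
    exact h (htrans _ _ _ h4 h5)
  have htfix : ∀ R, R ≠ P → t • R ≠ R := by
    intro R hR he
    rcases hcover R hR with h4 | h4
    · have h5 := himg t htC _ _ (hsymm _ _ h4)
      rw [he] at h5
      exact htQ (htrans _ _ _ h4 h5)
    · have h6 : t • Q0 ∈ O R0 := (hcover _ (hneP t htC Q0 hQ0)).resolve_left htQ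
      obtain ⟨x, hx, hxe⟩ := (hO _ _).mp (htrans _ _ _ (hsymm _ _ h4) h6)
      have h7 : t • t • Q0 = t • Q0 := by rw [← hxe, hcomm t htC x hx, he]
      exact htQ ((smul_left_cancel t h7).symm ▸ hself Q0)
  set σ : Equiv.Perm (Sylow 17 G) := MulAction.toPerm t with hσdef
  have hsupp : σ.support = Finset.univ.erase P := by
    ext R
    rw [Equiv.Perm.mem_support, Finset.mem_erase, hσdef, MulAction.toPerm_apply]
    exact ⟨fun h4 => ⟨fun h5 => h4 (by rw [h5]; exact hfixP t htC), Finset.mem_univ _⟩,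
      fun h4 => htfix R h4.1⟩
  have hσ : orderOf σ = 2 := by
    refine orderOf_eq_prime ?_ ?_
    · rw [pow_two, hσdef]
      ext R
      simp [← mul_smul, ht2]
    · intro h4
      have := Equiv.Perm.support_one (α := Sylow 17 G)
      rw [← h4, hsupp] at this
      have h5 : Q0 ∈ (∅ : Finset (Sylow 17 G)) := this ▸ Finset.mem_erase.mpr ⟨hQ0, Finset.mem_univ _⟩
      simp at h5
  obtain ⟨n, hn⟩ := Equiv.Perm.cycleType_prime_order (hσ ▸ Nat.prime_two)
  rw [hσ] at hn
  have hsum := σ.sum_cycleType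
  rw [hn, Multiset.sum_replicate, smul_eq_mul, hsupp, Finset.card_erase_of_mem (Finset.mem_univ _),
    Finset.card_univ, ← Nat.card_eq_fintype_card, h35] at hsum
  have hs := hsg t
  rw [← hσdef, Equiv.Perm.sign_of_cycleType, hn, Multiset.sum_replicate, Multiset.card_replicate,
    smul_eq_mul, show (n + 1) * 2 + (n + 1) = 51 by omega] at hs
  exact absurd hs (by decide)

theorem aux : ∀ (n : ℕ) (G : Type u) [Group G] [Finite G], Nat.card G = n →
    Nat.card (Sylow 17 G) ≠ 35 := by
  have hp : Fact (Nat.Prime 17) := ⟨by norm_num⟩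
  have h5f : Fact (Nat.Prime 5) := ⟨by norm_num⟩
  have h2f : Fact (Nat.Prime 2) := ⟨Nat.prime_two⟩
  intro n
  induction n using Nat.strong_induction_on with
  | _ n ih =>
  intro G _ _ hn h35
  classical
  have := Fintype.ofFinite (Sylow 17 G)
  let φ := MulAction.toPermHom G (Sylow 17 G)
  have hφ : ∀ g : G, ∀ P : Sylow 17 G, φ g P = g • P := fun g P => rfl
  have hf : ∀ g : G, (∀ P : Sylow 17 G, g • P = P) → g = 1 := by
    intro g hg
    by_contra hne
    have hgK : g ∈ φ.ker := MonoidHom.mem_ker.mpr (Equiv.ext fun P => hg P)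
    refine ih (Nat.card (G ⧸ φ.ker)) (hn ▸ ?_) (G ⧸ φ.ker) rfl
      ((card_sylow_quotient φ.ker fun k hk P => ?_).trans h35)
    · rw [Subgroup.card_eq_card_quotient_mul_card_subgroup φ.ker]
      refine lt_mul_of_one_lt_right Nat.card_pos ?_
      exact (Subgroup.one_lt_card_iff_ne_bot _).mpr fun hb => hne (Subgroup.mem_bot.mp (hb ▸ hgK))
    · rw [← hφ, MonoidHom.mem_ker.mp hk]; rfl
  have hsg : ∀ g : G, Equiv.Perm.sign (MulAction.toPerm g : Equiv.Perm (Sylow 17 G)) = 1 := by
    let ε : G →* ℤˣ := Equiv.Perm.sign.comp φ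
    suffices h : ε.ker = ⊤ by
      intro g
      exact MonoidHom.mem_ker.mp (h ▸ Subgroup.mem_top g : g ∈ ε.ker)
    by_contra hne
    have hle : ∀ P : Sylow 17 G, (P : Subgroup G) ≤ ε.ker := by
      intro P x hx
      obtain ⟨k, hk⟩ := P.2 ⟨x, hx⟩
      refine MonoidHom.mem_ker.mpr (eq_one_of_pow (n := 17 ^ k) (Odd.pow (by decide)) ?_)
      rw [← map_pow, show x ^ 17 ^ k = 1 from congrArg Subtype.val hk, map_one]
    refine ih (Nat.card ε.ker) (hn ▸ ?_) ε.ker rfl ((card_sylow_of_le hle).trans h35)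
    refine lt_of_le_of_ne (Nat.le_of_dvd Nat.card_pos (Subgroup.card_subgroup_dvd_card _)) ?_
    exact fun h => hne (Subgroup.eq_top_of_card_eq _ h)
  let P : Sylow 17 G := default
  have hP17 := card_sylow_eq h35 hf P
  have hC : Subgroup.centralizer ((P : Subgroup G) : Set G) ≤ P := fun c hc =>
    mem_of_commute h35 hf hsg P c (Subgroup.mem_centralizer_iff.mp hc)
  have hPcyc : IsCyclic (P : Subgroup G) := isCyclic_of_prime_card hP17
  set N := Subgroup.normalizer ((P : Subgroup G) : Set G) with hN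
  let ψ := (P : Subgroup G).normalizerMonoidHom
  have hker : ψ.ker = (Subgroup.centralizer ((P : Subgroup G) : Set G)).subgroupOf N :=
    Subgroup.normalizerMonoidHom_ker _
  have hkercard : Nat.card ψ.ker ∣ 17 := by
    rw [hker]
    refine (Subgroup.card_dvd_of_le (Subgroup.comap_mono hC)).trans (dvd_of_eq ?_)
    exact (Nat.card_congr (Subgroup.subgroupOfEquivOfLe (K := N) Subgroup.le_normalizer).toEquiv).trans hP17
  have hrange : Nat.card ψ.range ∣ 16 := by
    have h1 := Subgroup.card_subgroup_dvd_card ψ.range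
    rw [hPcyc.card_mulAut, hP17, Nat.totient_prime hp.out] at h1
    exact h1
  have hNcard : Nat.card N ∣ 17 * 16 := by
    rw [Subgroup.card_eq_card_quotient_mul_card_subgroup ψ.ker,
      Nat.card_congr (QuotientGroup.quotientKerEquivRange ψ).toEquiv, mul_comm]
    exact Nat.mul_dvd_mul hkercard hrange
  have hGcard : Nat.card G = 35 * Nat.card N := by
    rw [← h35, P.card_eq_index_normalizer, mul_comm]
    exact (Subgroup.card_mul_index N).symm
  -- a Sylow 2-subgroup is cyclic
  let T : Sylow 2 N := default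
  have hTinj : Function.Injective (ψ.comp (T : Subgroup N).subtype) := by
    rw [injective_iff_map_eq_one]
    intro t ht
    have h1 : orderOf (t : N) ∣ 17 := by
      refine dvd_trans ?_ hkercard
      exact Subgroup.orderOf_dvd_natCard _ (MonoidHom.mem_ker.mpr ht)
    obtain ⟨k, hk⟩ := IsPGroup.iff_orderOf.mp T.2 t
    rw [← Subgroup.orderOf_coe] at hk
    have h2 : orderOf (t : N) = 1 := Nat.eq_one_of_dvd_coprimes
      (Nat.Coprime.pow_left k (by norm_num : Nat.Coprime 2 17)) hk.dvd h1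
    exact Subtype.ext (orderOf_eq_one_iff.mp h2)
  have hTcyc : IsCyclic (T : Subgroup N) := by
    have h1 : IsCyclic (MulAut (P : Subgroup G)) := by
      have := ZMod.isCyclic_units_prime (p := Nat.card (P : Subgroup G)) (by rw [hP17]; exact hp.out)
      exact (hPcyc.mulAutMulEquiv (P : Subgroup G)).isCyclic.mpr this
    exact isCyclic_of_injective _ hTinj
  have hT' : IsPGroup 2 ((T : Subgroup N).map N.subtype) := T.2.map _
  obtain ⟨S, hS⟩ := hT'.exists_le_sylow
  have hScyc : IsCyclic (S : Subgroup G) := by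
    have h1 : Nat.card (S : Subgroup G) ∣ Nat.card N := by
      refine Nat.Coprime.dvd_of_dvd_mul_left ?_ (hGcard ▸ Subgroup.card_subgroup_dvd_card (S : Subgroup G))
      obtain ⟨k, hk⟩ := S.2.exists_card_eq
      rw [hk]; exact Nat.Coprime.pow_left k (by norm_num)
    have h2 : Nat.card (S : Subgroup G) ∣ Nat.card (T : Subgroup N) := by
      obtain ⟨k, hk⟩ := S.2.exists_card_eq
      rw [hk] at h1 ⊢
      exact T.pow_dvd_card_of_pow_dvd_card h1
    have h3 : ((T : Subgroup N).map N.subtype) = S := by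
      refine Subgroup.eq_of_le_of_card_ge hS ?_
      rw [Subgroup.card_subtype]
      exact Nat.le_of_dvd Nat.card_pos h2
    rw [← h3]
    exact ((T : Subgroup N).equivMapOfInjective _ N.subtype_injective).isCyclic.mp hTcyc
  obtain ⟨K, hKn, hKodd, hKidx⟩ : ∃ K : Subgroup G, K.Normal ∧ ¬ 2 ∣ Nat.card K ∧ ∃ a, K.index = 2 ^ a := by
    by_cases h2 : 2 ∣ Nat.card G
    · have hmin : (Nat.card G).minFac = 2 := (Nat.minFac_eq_two_iff _).mpr h2
      have hc := hScyc.isComplement' hmin
      refine ⟨(MonoidHom.transferSylow S (hScyc.normalizer_le_centralizer hmin)).ker,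
        MonoidHom.normal_ker _, ?_, ?_⟩
      · rw [← hc.index_eq_card]; exact S.not_dvd_index
      · obtain ⟨a, ha⟩ := S.2.exists_card_eq
        exact ⟨a, hc.symm.index_eq_card.trans ha⟩
    · exact ⟨⊤, inferInstance, by rwa [Subgroup.card_top], 0, by rw [Subgroup.index_top, pow_zero]⟩
  obtain ⟨a, ha⟩ := hKidx
  have hK595 : Nat.card K ∣ 35 * 17 := by
    have hGd : Nat.card G ∣ 35 * 17 * 16 := by
      rw [hGcard, mul_assoc]; exact Nat.mul_dvd_mul_left 35 hNcard
    refine Nat.Coprime.dvd_of_dvd_mul_right ?_ ((Subgroup.card_subgroup_dvd_card K).trans hGd)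
    exact (Nat.prime_two.coprime_iff_not_dvd.mpr hKodd).symm.pow_right 4
  have h17G : 17 ∣ Nat.card G := hP17 ▸ Subgroup.card_subgroup_dvd_card (P : Subgroup G)
  have hmulK := Subgroup.card_mul_index K
  have h5K : 5 ∣ Nat.card K := by
    have h1 : 5 ∣ Nat.card K * K.index := by rw [hmulK, hGcard]; exact Dvd.dvd.mul_right (by norm_num) _
    refine Nat.Coprime.dvd_of_dvd_mul_right ?_ h1
    rw [ha]; exact Nat.Coprime.pow_right a (by norm_num)
  let F : Sylow 5 K := default
  have hFcard : Nat.card (F : Subgroup K) = 5 := by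
    obtain ⟨k, hk⟩ := F.2.exists_card_eq
    have h1 : 5 ^ k ∣ 35 * 17 := hk ▸ (Subgroup.card_subgroup_dvd_card _).trans hK595
    have h2 := F.dvd_card_of_dvd_card h5K
    rw [hk] at h2 ⊢
    rcases k with _ | _ | k
    · norm_num at h2
    · norm_num
    · exact absurd ((pow_dvd_pow 5 (Nat.le_add_left 2 k)).trans h1) (by norm_num)
  have hFidx : (F : Subgroup K).index ∣ 119 := by
    have h1 := Subgroup.card_mul_index (F : Subgroup K)
    rw [hFcard] at h1
    have h2 : 5 * (F : Subgroup K).index ∣ 5 * 119 := h1 ▸ hK595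
    exact Nat.dvd_of_mul_dvd_mul_left (by norm_num) h2
  have hF1 : Nat.card (Sylow 5 K) = 1 := by
    have h1 := F.card_dvd_index.trans hFidx
    have h2 : Nat.card (Sylow 5 K) ≡ 1 [MOD 5] := card_sylow_modEq_one 5 K
    have h3 := (Nat.mem_divisors.mpr ⟨h1, by norm_num⟩ : Nat.card (Sylow 5 K) ∈ Nat.divisors 119)
    rw [show Nat.divisors 119 = {1, 7, 17, 119} by decide] at h3
    simp only [Finset.mem_insert, Finset.mem_singleton] at h3
    rcases h3 with h3 | h3 | h3 | h3 <;> rw [h3] at h2 ⊢ <;> simp [Nat.ModEq] at h2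
  have hFn : (F : Subgroup K).Normal := by
    have : Subsingleton (Sylow 5 K) := (Nat.card_eq_one_iff_unique.mp hF1).1
    exact Subgroup.normalizer_eq_top_iff.mp (eq_top_iff.mpr fun g _ =>
      Sylow.smul_eq_iff_mem_normalizer.mp (Subsingleton.elim _ _))
  have hPK : (P : Subgroup G) ≤ K := by
    intro x hx
    obtain ⟨k, hk⟩ := P.2 ⟨x, hx⟩
    have h1 : (QuotientGroup.mk' K x) ^ 17 ^ k = 1 := by
      rw [← map_pow, show x ^ 17 ^ k = 1 from congrArg Subtype.val hk, map_one]
    have h2 : (QuotientGroup.mk' K x) ^ 2 ^ a = 1 := by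
      rw [← ha, Subgroup.index_eq_card]; exact pow_card_eq_one'
    have h3 := orderOf_eq_one_iff.mp (Nat.eq_one_of_dvd_coprimes
      (((by norm_num : Nat.Coprime 17 2).pow k a)) (orderOf_dvd_of_pow_eq_one h1) (orderOf_dvd_of_pow_eq_one h2))
    exact (QuotientGroup.eq_one_iff x).mp h3
  have hFcyc : IsCyclic (F : Subgroup K) := isCyclic_of_prime_card hFcard
  let χ : K →* MulAut (F : Subgroup K) := MulAut.conjNormal
  have hχ : ∀ x : K, (x : G) ∈ (P : Subgroup G) → χ x = 1 := by
    intro x hx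
    have h1 : (χ x) ^ 17 = 1 := by
      have h3 := pow_card_eq_one' (x := (⟨(x : G), hx⟩ : (P : Subgroup G)))
      rw [hP17] at h3
      have h4 : x ^ 17 = 1 := Subtype.ext (by simpa using congrArg Subtype.val h3)
      rw [← map_pow, h4, map_one]
    have h2 : (χ x) ^ 4 = 1 := by
      have := pow_card_eq_one' (x := χ x)
      rwa [hFcyc.card_mulAut, hFcard, Nat.totient_prime h5f.out] at this
    exact orderOf_eq_one_iff.mp (Nat.eq_one_of_dvd_coprimes (by norm_num : Nat.Coprime 17 4)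
      (orderOf_dvd_of_pow_eq_one h1) (orderOf_dvd_of_pow_eq_one h2))
  have hFP : (F : Subgroup K).map K.subtype ≤ (P : Subgroup G) := by
    rintro _ ⟨f, hf', rfl⟩
    refine hC (Subgroup.mem_centralizer_iff.mpr fun x hx => ?_)
    have h1 := DFunLike.congr_fun (hχ ⟨x, hPK hx⟩ hx) ⟨f, hf'⟩
    have h2 : x * (f : G) * x⁻¹ = f := congrArg (fun w : (F : Subgroup K) => ((w : K) : G)) h1
    exact mul_inv_eq_iff_eq_mul.mp h2
  have := Subgroup.card_dvd_of_le hFP
  rw [Subgroup.card_subtype, hFcard, hP17] at this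
  norm_num at this

/-- No finite group has exactly 35 Sylow 17-subgroups. -/
theorem result {G : Type*} [Group G] [Finite G] : Nat.card (Sylow 17 G) ≠ 35 := by
  exact aux _ G rfl

end Cfsg.Agent.S4236
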