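import Cfsg.Statements.S4249
import Cfsg.Agent.ZJ.Hughes
-- import your own Cfsg.Agent.* helpers here

set_option autoImplicit false
open Cfsg

namespace Cfsg.Agent.S4249

/-- Let G be a finite group and p a prime such that G is not a p-group, and suppose the Hughes subgroup H_p(G), generated by all elements g with g^p ≠ 1, is a proper subgroup. Then H_p(G) is nilpotent and has index p in G. -/
theorem result {G : Type*} [Group G] [Finite G] (p : ℕ) (hp : p.Prime) (hG : ¬ IsPGroup p G)
    (hH : Subgroup.closure {g : G | g ^ p ≠ 1} ≠ ⊤) :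
    Group.IsNilpotent (Subgroup.closure {g : G | g ^ p ≠ 1}) ∧ (Subgroup.closure {g : G | g ^ p ≠ 1}).index = p := by
  haveI : Fact p.Prime := ⟨hp⟩
  set H := Subgroup.closure {g : G | g ^ p ≠ 1} with hHdef
  haveI : H.Normal := by
    refine ⟨fun x hx g => ?_⟩
    have : H ≤ H.comap (MulAut.conj g).toMonoidHom := by
      rw [hHdef, Subgroup.closure_le]
      intro y hy
      refine Subgroup.subset_closure ?_
      show (g * y * g⁻¹) ^ p ≠ 1
      rw [conj_pow]
      exact fun h => hy (by rwa [mul_inv_eq_one, mul_eq_left] at h)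
    exact this hx
  have hout : ∀ g : G, g ∉ H → g ^ p = 1 := fun g hg => by
    by_contra h
    exact hg (Subgroup.subset_closure h)
  exact ⟨CfsgLib.ZJ.isNilpotent_of_outside_pow_eq_one hp H hH hout,
    CfsgLib.ZJ.index_eq_of_outside_pow_eq_one H hH hout hG⟩

end Cfsg.Agent.S4249
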