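import Cfsg.Statements.S4250
import Cfsg.Agent.Fusion.GroupAlperin
import Cfsg.Agent.Transfer.Focal

set_option autoImplicit false
open Cfsg
open scoped commutatorElement

namespace Cfsg.Agent.S4250

theorem chain_mem {G : Type*} [Group G] {p : ℕ} (P : Sylow p G) (M : Subgroup G)
    (hstep : ∀ (Q : Sylow p G) (x : G), CfsgLib.GroupAlperin.Tame P Q →
      x ∈ Subgroup.normalizer (((P : Subgroup G) ⊓ (Q : Subgroup G) : Subgroup G) : Set G) →
      ((Q : Subgroup G) = P ∨ ∃ k : ℕ, orderOf x = p ^ k) →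
      ∀ t ∈ (P : Subgroup G) ⊓ (Q : Subgroup G), t * (x⁻¹ * t⁻¹ * x) ∈ M) :
    ∀ {T : Subgroup G} {x : G}, CfsgLib.GroupAlperin.AChain P T x → ∀ t ∈ T, t * (x⁻¹ * t⁻¹ * x) ∈ M := by
  intro T x h
  induction h with
  | nil _ => intro t _; simp
  | @cons T Q x y ht hx hp hT _ ih =>
    intro t htT
    have h1 := hstep Q x ht hx hp t (hT htT)
    have h2 := ih (x⁻¹ * t * x) (CfsgLib.GroupAlperin.mem_cj.mpr (by simpa [mul_assoc] using htT))
    have e : t * ((x * y)⁻¹ * t⁻¹ * (x * y)) =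
        t * (x⁻¹ * t⁻¹ * x) * (x⁻¹ * t * x * (y⁻¹ * (x⁻¹ * t * x)⁻¹ * y)) := by group
    rw [e]
    exact M.mul_mem h1 h2

/-- Let P be a Sylow p-subgroup of a finite group G. Call an intersection H = P ∩ Q with a Sylow p-subgroup Q tame when N_P(H) and N_Q(H) are Sylow p-subgroups of N_G(H). Then P ∩ G′ is generated by [P, N_G(P)] together with the commutator subgroups [P ∩ Q, ⟨x⟩] for all tame intersections P ∩ Q and all p-elements x of N_G(P ∩ Q). -/
theorem result {G : Type*} [Group G] [Finite G] (p : ℕ) [Fact p.Prime] (P : Sylow p G) :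
    (P : Subgroup G) ⊓ commutator G =
      ⁅(P : Subgroup G), Subgroup.normalizer ((P : Subgroup G) : Set G)⁆ ⊔
        ⨆ (Q : Sylow p G) (_ : (¬ p ∣ ((P : Subgroup G) ⊓ Subgroup.normalizer (((P : Subgroup G) ⊓ (Q : Subgroup G) : Subgroup G) : Set G)).relIndex (Subgroup.normalizer (((P : Subgroup G) ⊓ (Q : Subgroup G) : Subgroup G) : Set G)) ∧ ¬ p ∣ ((Q : Subgroup G) ⊓ Subgroup.normalizer (((P : Subgroup G) ⊓ (Q : Subgroup G) : Subgroup G) : Set G)).relIndex (Subgroup.normalizer (((P : Subgroup G) ⊓ (Q : Subgroup G) : Subgroup G) : Set G))))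
          (x : G) (_ : x ∈ Subgroup.normalizer (((P : Subgroup G) ⊓ (Q : Subgroup G) : Subgroup G) : Set G) ∧ ∃ k : ℕ, orderOf x = p ^ k),
          ⁅(P : Subgroup G) ⊓ (Q : Subgroup G), Subgroup.zpowers x⁆ := by
  refine le_antisymm ?_ (sup_le ?_ (iSup_le fun Q => iSup_le fun hQ => iSup_le fun x => iSup_le fun hx => ?_))
  · rw [CfsgLib.Transfer.inf_commutator_eq_focal P]
    refine CfsgLib.Transfer.focalSubgroup_le_of_forall fun t ht g hg => ?_
    have hle : CfsgLib.GroupAlperin.cj (Subgroup.zpowers t) g⁻¹ ≤ (P : Subgroup G) := by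
      intro s hs
      obtain ⟨i, hi⟩ := Subgroup.mem_zpowers_iff.mp (CfsgLib.GroupAlperin.mem_cj.mp hs)
      have e : s = (g * t * g⁻¹) ^ i := by rw [conj_zpow, hi]; group
      rw [e]
      exact zpow_mem hg i
    have hc := CfsgLib.GroupAlperin.exists_chain_of_fusion P (Subgroup.zpowers_le.mpr ht) hle
    rw [show t * (g * t⁻¹ * g⁻¹) = t * ((g⁻¹)⁻¹ * t⁻¹ * g⁻¹) from by rw [inv_inv]]
    refine chain_mem P _ ?_ hc t (Subgroup.mem_zpowers t)
    intro Q x hQ hx hp s hs
    have e : s * (x⁻¹ * s⁻¹ * x) = ⁅s, x⁻¹⁆ := by rw [commutatorElement_def]; group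
    rw [e]
    rcases hp with hp | hp
    · refine Subgroup.mem_sup_left (Subgroup.commutator_mem_commutator hs.1 (Subgroup.inv_mem _ ?_))
      rw [hp, inf_idem] at hx
      exact hx
    · exact Subgroup.mem_sup_right (Subgroup.mem_iSup_of_mem Q (Subgroup.mem_iSup_of_mem hQ
        (Subgroup.mem_iSup_of_mem x (Subgroup.mem_iSup_of_mem ⟨hx, hp⟩
          (Subgroup.commutator_mem_commutator hs (Subgroup.inv_mem _ (Subgroup.mem_zpowers x)))))))
  · refine le_inf ?_ (Subgroup.commutator_mono le_top le_top)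
    rw [Subgroup.commutator_comm, Subgroup.commutator_le]
    intro n hn t ht
    rw [commutatorElement_def]
    exact mul_mem ((Subgroup.mem_normalizer_iff.mp hn t).mp ht) (inv_mem ht)
  · refine le_inf ?_ (Subgroup.commutator_mono le_top le_top)
    rw [Subgroup.commutator_comm, Subgroup.commutator_le]
    intro n hn t ht
    rw [commutatorElement_def]
    have hn' := Subgroup.zpowers_le.mpr hx.1 hn
    exact mul_mem ((Subgroup.mem_normalizer_iff.mp hn' t).mp ht).1 (inv_mem ht.1)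

end Cfsg.Agent.S4250
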