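import Cfsg.Statements.S4251
import Cfsg.Agent.Fusion.GroupAlperin
import Cfsg.Agent.Transfer.Frobenius

set_option autoImplicit false
open Cfsg

namespace Cfsg.Agent.S4251

open CfsgLib.GroupAlperin in
theorem chain_conj {G : Type*} [Group G] [Finite G] {p : ℕ} [Fact p.Prime] (P : Sylow p G)
    (hN : ∀ Q : Sylow p G, Tame P Q → (P : Subgroup G) ⊓ Q ≠ ⊥ →
      ∀ x ∈ Subgroup.normalizer ((((P : Subgroup G) ⊓ Q) : Subgroup G) : Set G),
        ∃ s ∈ (P : Subgroup G), ∀ t ∈ (P : Subgroup G) ⊓ Q, x⁻¹ * t * x = s⁻¹ * t * s)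
    {T : Subgroup G} {g : G} (h : AChain P T g) :
    ∃ z ∈ (P : Subgroup G), ∀ t ∈ T, g⁻¹ * t * g = z⁻¹ * t * z := by
  induction h with
  | nil _ => exact ⟨1, one_mem _, fun t _ => rfl⟩
  | @cons T Q x y htame hx _ hT _ ih =>
    obtain ⟨z, hz, hzc⟩ := ih
    by_cases hb : (P : Subgroup G) ⊓ Q = ⊥
    · refine ⟨1, one_mem _, fun t ht => ?_⟩
      have := hT ht
      rw [hb, Subgroup.mem_bot] at this
      subst this; simp
    obtain ⟨s, hs, hsc⟩ := hN Q htame hb x hx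
    refine ⟨s * z, mul_mem hs hz, fun t ht => ?_⟩
    have h1 := hsc t (hT ht)
    have h2 := hzc (x⁻¹ * t * x) (mem_cj.2 (by simpa [mul_assoc] using ht))
    calc (x * y)⁻¹ * t * (x * y) = y⁻¹ * (x⁻¹ * t * x) * y := by group
      _ = z⁻¹ * (x⁻¹ * t * x) * z := h2
      _ = (s * z)⁻¹ * t * (s * z) := by rw [h1]; group

/-- Let P be a Sylow p-subgroup of a finite group G. Call an intersection H = P ∩ Q with a Sylow p-subgroup Q tame when N_P(H) and N_Q(H) are Sylow p-subgroups of N_G(H). If N_G(H)/C_G(H) is a p-group for every nontrivial tame intersection H = P ∩ Q, then G has a normal p-complement. -/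
theorem result {G : Type*} [Group G] [Finite G] (p : ℕ) [Fact p.Prime] (P : Sylow p G)
    (h : ∀ Q : Sylow p G, (P : Subgroup G) ⊓ (Q : Subgroup G) ≠ ⊥ → (¬ p ∣ ((P : Subgroup G) ⊓ Subgroup.normalizer (((P : Subgroup G) ⊓ (Q : Subgroup G) : Subgroup G) : Set G)).relIndex (Subgroup.normalizer (((P : Subgroup G) ⊓ (Q : Subgroup G) : Subgroup G) : Set G)) ∧ ¬ p ∣ ((Q : Subgroup G) ⊓ Subgroup.normalizer (((P : Subgroup G) ⊓ (Q : Subgroup G) : Subgroup G) : Set G)).relIndex (Subgroup.normalizer (((P : Subgroup G) ⊓ (Q : Subgroup G) : Subgroup G) : Set G))) →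
      IsPGroup p (Subgroup.normalizer (((P : Subgroup G) ⊓ (Q : Subgroup G) : Subgroup G) : Set G) ⧸
        (Subgroup.centralizer (((P : Subgroup G) ⊓ (Q : Subgroup G) : Subgroup G) : Set G)).subgroupOf
          (Subgroup.normalizer (((P : Subgroup G) ⊓ (Q : Subgroup G) : Subgroup G) : Set G)))) :
    Cfsg.HasNormalPComplement p G := by
  refine CfsgLib.Transfer.hasNormalPComplement_of_control P fun x hx g hgx => ?_
  have hN : ∀ Q : Sylow p G, CfsgLib.GroupAlperin.Tame P Q → (P : Subgroup G) ⊓ Q ≠ ⊥ →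
      ∀ y ∈ Subgroup.normalizer ((((P : Subgroup G) ⊓ Q) : Subgroup G) : Set G),
        ∃ s ∈ (P : Subgroup G), ∀ t ∈ (P : Subgroup G) ⊓ Q, y⁻¹ * t * y = s⁻¹ * t * s := by
    intro Q ht hne y hy
    set H := (P : Subgroup G) ⊓ (Q : Subgroup G)
    set N := Subgroup.normalizer (H : Set G)
    have hp := h Q hne ht
    set C := (Subgroup.centralizer (H : Set G)).subgroupOf N
    set S := ((P : Subgroup G) ⊓ N).subgroupOf N
    have hdvd := Subgroup.index_map_dvd S (f := QuotientGroup.mk' C) (QuotientGroup.mk'_surjective C)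
    obtain ⟨k, hk⟩ := IsPGroup.iff_card.1 hp
    have hd2 : (S.map (QuotientGroup.mk' C)).index ∣ p ^ k := hk ▸ Subgroup.index_dvd_card _
    have hidx : (S.map (QuotientGroup.mk' C)).index = 1 := by
      obtain ⟨j, -, hj⟩ := (Nat.dvd_prime_pow (Fact.out : p.Prime)).1 hd2
      rcases j.eq_zero_or_pos with rfl | hj0
      · simpa using hj
      · exact absurd ((hj.symm ▸ dvd_pow_self p hj0.ne' : p ∣ (S.map (QuotientGroup.mk' C)).index).trans hdvd) ht.1
    obtain ⟨s, hs, hse⟩ : QuotientGroup.mk' C ⟨y, hy⟩ ∈ S.map (QuotientGroup.mk' C) := by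
      rw [Subgroup.index_eq_one.1 hidx]; trivial
    refine ⟨s, (Subgroup.mem_subgroupOf.1 hs).1, fun t htH => ?_⟩
    have hc : (⟨y, hy⟩ * s⁻¹ : N) ∈ C := by
      rw [← QuotientGroup.eq_one_iff (N := C)]
      show QuotientGroup.mk' C (⟨y, hy⟩ * s⁻¹) = 1
      rw [map_mul, map_inv, hse, mul_inv_cancel]
    have := Subgroup.mem_centralizer_iff.1 (Subgroup.mem_subgroupOf.1 hc) t htH
    simp only [Subgroup.coe_mul, Subgroup.coe_inv] at this
    calc y⁻¹ * t * y = y⁻¹ * (t * (y * (s : G)⁻¹)) * (s : G) := by group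
      _ = (s : G)⁻¹ * t * (s : G) := by rw [this]; group
  obtain ⟨z, hz, hzc⟩ := chain_conj P hN (CfsgLib.GroupAlperin.exists_chain_of_fusion P (g := g⁻¹)
    (Subgroup.zpowers_le.2 hx) (fun y hy => by
      rw [CfsgLib.GroupAlperin.mem_cj] at hy
      obtain ⟨i, hi⟩ := Subgroup.mem_zpowers_iff.1 hy
      have : y = (g * x * g⁻¹) ^ i := by rw [conj_zpow, hi]; group
      rw [this]; exact zpow_mem hgx i))
  refine ⟨z⁻¹, inv_mem hz, ?_⟩
  have := hzc x (Subgroup.mem_zpowers x)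
  rw [inv_inv] at this
  rw [inv_inv, this]

end Cfsg.Agent.S4251
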