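import Cfsg.Statements.S4252
import Cfsg.Agent.Frob.Basic

set_option autoImplicit false
open Cfsg
open scoped Pointwise

namespace Cfsg.Agent.S4252

/-- Let a finite group G act on a finite set Ω with more than one point, transitively but not regularly, so that no non-identity element of G fixes two distinct points. Then the stabilizer H of any point is a Frobenius complement in G (nontrivial, proper, meeting its other conjugates trivially), and the Frobenius kernel of G with respect to H (the identity together with the elements lying in no conjugate of H) is exactly the set consisting of the identity and the elements fixing no point. -/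
theorem result {G Ω : Type*} [Group G] [Finite G] [Fintype Ω] [MulAction G Ω] (hΩ : 1 < Fintype.card Ω)
    (htrans : ∀ α β : Ω, ∃ g : G, g • α = β) (hnreg : ∃ g : G, g ≠ 1 ∧ ∃ α : Ω, g • α = α)
    (hfix : ∀ g : G, g ≠ 1 → ∀ α β : Ω, g • α = α → g • β = β → α = β) (α : Ω) :
    Cfsg.IsFrobeniusComplement (MulAction.stabilizer G α) ∧
      Cfsg.frobeniusKernel (MulAction.stabilizer G α) = {g : G | g = 1 ∨ ∀ ω : Ω, g • ω ≠ ω} := by
  set S := MulAction.stabilizer G α with hS
  constructor
  · refine ⟨?_, ?_, fun g hg => ?_⟩
    · obtain ⟨g, hg1, β, hβ⟩ := hnreg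
      obtain ⟨a, ha⟩ := htrans α β
      intro hb
      apply hg1
      have hmem : a⁻¹ * g * a ∈ S := by
        rw [hS, MulAction.mem_stabilizer_iff, mul_smul, mul_smul, ha, hβ, ← ha, inv_smul_smul]
      rw [hb, Subgroup.mem_bot] at hmem
      calc g = a * (a⁻¹ * g * a) * a⁻¹ := by group
        _ = 1 := by rw [hmem]; group
    · intro htop
      obtain ⟨β, hβ⟩ := Fintype.exists_ne_of_one_lt_card hΩ α
      obtain ⟨g, hg⟩ := htrans α β
      have : g ∈ S := htop ▸ Subgroup.mem_top g
      exact hβ (hg ▸ MulAction.mem_stabilizer_iff.mp this)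
    · rw [Subgroup.eq_bot_iff_forall]
      rintro x ⟨hx, hxg⟩
      change x ∈ MulAut.conj g • S at hxg
      rw [CfsgLib.Frob.mem_smul_iff, hS, MulAction.mem_stabilizer_iff, mul_smul, mul_smul] at hxg
      by_contra hx1
      apply hg
      rw [hS, MulAction.mem_stabilizer_iff]
      have h1 : x • g • α = g • α := by
        calc x • g • α = g • (g⁻¹ • x • g • α) := (smul_inv_smul g _).symm
          _ = g • α := by rw [hxg]
      exact (hfix x hx1 α (g • α) (MulAction.mem_stabilizer_iff.mp hx) h1).symm
  · ext x
    rw [CfsgLib.Frob.mem_kernel_iff, Set.mem_setOf_eq]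
    refine or_congr Iff.rfl ⟨fun h ω hω => ?_, fun h g hg => ?_⟩
    · obtain ⟨g, rfl⟩ := htrans α ω
      apply h g
      rw [hS, MulAction.mem_stabilizer_iff, mul_smul, mul_smul, hω, inv_smul_smul]
    · apply h (g • α)
      rw [hS, MulAction.mem_stabilizer_iff, mul_smul, mul_smul] at hg
      calc x • g • α = g • (g⁻¹ • x • g • α) := (smul_inv_smul g _).symm
        _ = g • α := by rw [hg]

end Cfsg.Agent.S4252
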