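import Cfsg.Statements.S4253
import Cfsg.Agent.Frob.Basic

set_option autoImplicit false
open Cfsg

namespace Cfsg.Agent.S4253

/-- Let H be a Frobenius complement in a finite group G (a nontrivial proper subgroup meeting each conjugate gHg⁻¹ with g outside H trivially). Then in the action of G on the left cosets of H by left multiplication, no non-identity element of G fixes two distinct cosets. -/
theorem result {G : Type*} [Group G] [Finite G] (H : Subgroup G) (hH : Cfsg.IsFrobeniusComplement H)
    (g : G) (hg : g ≠ 1) (a b : G ⧸ H) (ha : g • a = a) (hb : g • b = b) : a = b := by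
  induction a using QuotientGroup.induction_on with
  | H u =>
  induction b using QuotientGroup.induction_on with
  | H v =>
    have hu : u⁻¹ * g * u ∈ H := by
      have := QuotientGroup.eq.mp (Eq.symm ha)
      simpa [mul_assoc] using this
    have hv : v⁻¹ * g * v ∈ H := by
      have := QuotientGroup.eq.mp (Eq.symm hb)
      simpa [mul_assoc] using this
    have hu1 : u⁻¹ * g * u ≠ 1 := fun e => hg (by
      calc g = u * (u⁻¹ * g * u) * u⁻¹ := by group
        _ = 1 := by rw [e]; group)
    rw [QuotientGroup.eq]
    refine CfsgLib.Frob.mem_of_conj_mem' hH hu hu1 ?_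
    have : (u⁻¹ * v)⁻¹ * (u⁻¹ * g * u) * (u⁻¹ * v) = v⁻¹ * g * v := by group
    rwa [this]

end Cfsg.Agent.S4253
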