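import Cfsg.Statements.S4263
-- import your own Cfsg.Agent.* helpers here

set_option autoImplicit false
open Cfsg

namespace Cfsg.Agent.S4263

variable {G : Type*} [Group G] [Finite G]

lemma le_of_prime_power_mem {N L : Subgroup G} [hN : Group.IsNilpotent N]
    (h : ∀ (p : ℕ), p.Prime → ∀ y ∈ N, (∃ k : ℕ, y ^ p ^ k = 1) → y ∈ L) : N ≤ L := by
  have hdvd : Nat.card N ∣ Nat.card (N ⊓ L : Subgroup G) := by
    rw [Nat.dvd_iff_prime_pow_dvd_dvd]
    intro p k hp hk
    haveI : Fact p.Prime := ⟨hp⟩
    obtain ⟨P⟩ : Nonempty (Sylow p N) := inferInstance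
    have hle : (P : Subgroup N).map N.subtype ≤ N ⊓ L := by
      rintro y ⟨z, hz, rfl⟩
      refine ⟨z.2, h p hp _ z.2 ?_⟩
      obtain ⟨j, hj⟩ := P.isPGroup' ⟨z, hz⟩
      refine ⟨j, ?_⟩
      have hj' := congrArg (fun w : (P : Subgroup N) => ((w : N) : G)) hj
      simpa using hj'
    refine dvd_trans ?_ (Subgroup.card_dvd_of_le hle)
    rw [Subgroup.card_map_of_injective N.subtype_injective]
    exact P.pow_dvd_card_of_pow_dvd_card hk
  have heq : N ⊓ L = N := Subgroup.eq_of_le_of_card_ge inf_le_left (Nat.le_of_dvd Nat.card_pos hdvd)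
  exact heq ▸ inf_le_right

lemma pow_index_mem {N : Type*} [Group N] [Finite N] [Group.IsNilpotent N] :
    ∀ (K : Subgroup N) (x : N), x ^ K.index ∈ K := by
  intro K
  induction K using WellFoundedGT.induction with
  | ind K ih =>
    intro x
    rcases eq_or_ne K ⊤ with rfl | hK
    · simp
    · have hlt : K < Subgroup.normalizer (K : Set N) :=
        Group.normalizerCondition_of_isNilpotent K hK.lt_top
      have h1 := ih _ hlt x
      haveI : (K.subgroupOf (Subgroup.normalizer (K : Set N))).Normal :=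
        Subgroup.normal_subgroupOf_iff_le_normalizer hlt.le |>.mpr le_rfl
      have h2 := Subgroup.pow_index_mem (K.subgroupOf (Subgroup.normalizer (K : Set N))) ⟨_, h1⟩
      rw [Subgroup.mem_subgroupOf, SubgroupClass.coe_pow, ← pow_mul] at h2
      have h3 : K.relIndex (Subgroup.normalizer (K : Set N)) *
          (Subgroup.normalizer (K : Set N)).index = K.index := Subgroup.relIndex_mul_index hlt.le
      rw [← h3, mul_comm]
      exact h2

lemma isPGroup_pCore (p : ℕ) [Fact p.Prime] : IsPGroup p (Cfsg.pCore p G) :=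
  Sylow.sSup_of_normal _ (fun _ h => h.2) (fun _ h => h.1)

lemma pCore_normal (p : ℕ) : (Cfsg.pCore p G).Normal := by
  apply Subgroup.sSup_normal
  exact fun N h => h.1

lemma pCore_le_good (p : ℕ) [Fact p.Prime] {x : G} (hx : x ∈ Cfsg.pCore p G) (H : Subgroup G) :
    x ^ H.index ∈ H := by
  haveI : Group.IsNilpotent (Cfsg.pCore p G) := (isPGroup_pCore p).isNilpotent
  have h1 := pow_index_mem (H.subgroupOf (Cfsg.pCore p G)) ⟨x, hx⟩
  rw [Subgroup.mem_subgroupOf, SubgroupClass.coe_pow] at h1
  haveI := pCore_normal (G := G) p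
  have h2 : H.relIndex (Cfsg.pCore p G) ∣ H.index := by
    have h3 : (H.subgroupOf (Cfsg.pCore p G)).index = H.relIndex (Cfsg.pCore p G) := rfl
    have h4 : H.relIndex (Cfsg.pCore p G) = H.relIndex (H ⊔ Cfsg.pCore p G) := by
      set F := Cfsg.pCore p G with hF
      have e1 := Subgroup.relIndex_sup_right H F
      have hc : ∀ {A B : Subgroup G}, A ≤ B → Nat.card A * A.relIndex B = Nat.card B := by
        intro A B hAB
        rw [← Subgroup.relIndex_bot_left, ← Subgroup.relIndex_bot_left]
        exact Subgroup.relIndex_mul_relIndex ⊥ A B bot_le hAB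
      have e2 : Nat.card (H ⊓ F : Subgroup G) * F.relIndex H = Nat.card H := by
        rw [← Subgroup.inf_relIndex_left H F]
        exact hc inf_le_left
      have e3 : Nat.card F * F.relIndex (H ⊔ F) = Nat.card (H ⊔ F : Subgroup G) := hc le_sup_right
      have e4 : Nat.card (H ⊓ F : Subgroup G) * H.relIndex F = Nat.card F := by
        rw [← Subgroup.inf_relIndex_right H F]
        exact hc inf_le_right
      have e5 : Nat.card H * H.relIndex (H ⊔ F) = Nat.card (H ⊔ F : Subgroup G) := hc le_sup_left
      rw [e1] at e3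
      have hpos : 0 < Nat.card H := Nat.card_pos
      apply Nat.eq_of_mul_eq_mul_left hpos
      rw [e5, ← e3, ← e4, ← e2]
      ring
    rw [h4]
    exact Subgroup.relIndex_dvd_index_of_le le_sup_left
  obtain ⟨c, hc⟩ := h2
  rw [hc, pow_mul]
  exact H.pow_mem h1 c

lemma biSup_pCore_good (s : Finset ℕ) (hs : ∀ p ∈ s, p.Prime) :
    ∀ x ∈ s.sup (fun p => Cfsg.pCore p G), ∀ H : Subgroup G, x ^ H.index ∈ H := by
  induction s using Finset.induction with
  | empty => intro x hx H; simp at hx; simp [hx]
  | insert q s hq ih =>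
    intro x hx H
    haveI : Fact q.Prime := ⟨hs q (Finset.mem_insert_self q s)⟩
    rw [Finset.sup_insert] at hx
    haveI := pCore_normal (G := G) q
    obtain ⟨y, hy, z, hz, rfl⟩ := Subgroup.mem_sup_of_normal_left.mp hx
    have hc : s.sup (fun p => Cfsg.pCore p G) ≤ Subgroup.centralizer ({y} : Set G) := by
      apply Finset.sup_le
      intro p hp w hw
      haveI : Fact p.Prime := ⟨hs p (Finset.mem_insert_of_mem hp)⟩
      rw [Subgroup.mem_centralizer_singleton_iff]
      have hd := IsPGroup.disjoint_of_ne q p (fun h => hq (h ▸ hp)) _ _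
        (isPGroup_pCore (G := G) q) (isPGroup_pCore (G := G) p)
      exact (Subgroup.commute_of_normal_of_disjoint _ _ (pCore_normal q) (pCore_normal p) hd
        y w hy hw).symm
    have hcomm : Commute y z := (Subgroup.mem_centralizer_singleton_iff.mp (hc hz)).symm
    rw [hcomm.mul_pow]
    exact H.mul_mem (pCore_le_good q hy H)
      (ih (fun p hp => hs p (Finset.mem_insert_of_mem hp)) z hz H)

/-- Let G be a finite group. An element x lies in the Fitting subgroup F(G) if and only if, for every subgroup H of G, the power x^[G : H] lies in H. -/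
theorem result {G : Type*} [Group G] [Finite G] (x : G) :
    x ∈ Cfsg.fittingSubgroup G ↔ ∀ H : Subgroup G, x ^ H.index ∈ H := by
  constructor
  · intro hx
    refine biSup_pCore_good (G := G) (Nat.card G).primeFactors
      (fun p hp => Nat.prime_of_mem_primeFactors hp) x ?_
    revert x
    show Cfsg.fittingSubgroup G ≤ _
    apply sSup_le
    rintro N ⟨hNn, hNnil⟩
    apply le_of_prime_power_mem
    rintro p hp y hy ⟨k, hk⟩
    haveI : Fact p.Prime := ⟨hp⟩
    rcases eq_or_ne y 1 with rfl | hy1
    · exact Subgroup.one_mem _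
    have hord : p ∣ orderOf y := by
      obtain ⟨j, -, hj⟩ := (Nat.dvd_prime_pow hp).mp (orderOf_dvd_of_pow_eq_one hk)
      rcases j with _ | j
      · simp [orderOf_eq_one_iff, hy1] at hj
      · exact hj ▸ dvd_pow_self p (Nat.succ_ne_zero j)
    have hmem : p ∈ (Nat.card G).primeFactors := by
      simp [hp, hord.trans (orderOf_dvd_natCard y), Nat.card_pos.ne']
    refine Finset.le_sup (f := fun p => Cfsg.pCore p G) hmem ?_
    obtain ⟨P, hP⟩ : ∃ P : Sylow p N, Subgroup.zpowers (⟨y, hy⟩ : N) ≤ (P : Subgroup N) := by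
      refine IsPGroup.exists_le_sylow (P := Subgroup.zpowers (⟨y, hy⟩ : N)) ?_
      refine IsPGroup.of_card (n := ?_) ?_
      exact ((Nat.dvd_prime_pow hp).mp (orderOf_dvd_of_pow_eq_one hk)).choose
      rw [Nat.card_zpowers, Subgroup.orderOf_mk]
      exact ((Nat.dvd_prime_pow hp).mp (orderOf_dvd_of_pow_eq_one hk)).choose_spec.2
    haveI : (P : Subgroup N).Normal := inferInstance
    haveI : (P : Subgroup N).Characteristic := P.characteristic_of_normal inferInstance
    have hle : (P : Subgroup N).map N.subtype ≤ Cfsg.pCore p G :=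
      le_sSup ⟨inferInstance, P.isPGroup'.map _⟩
    exact hle ⟨⟨y, hy⟩, hP (Subgroup.mem_zpowers _), rfl⟩
  · intro hx
    haveI : Group.IsNilpotent (Subgroup.zpowers x) := by
      letI : CommGroup (Subgroup.zpowers x) :=
        { mul_comm := fun a b => Subtype.ext (by
            obtain ⟨i, hi⟩ := Subgroup.mem_zpowers_iff.mp a.2
            obtain ⟨j, hj⟩ := Subgroup.mem_zpowers_iff.mp b.2
            show (a : G) * (b : G) = (b : G) * (a : G)
            rw [← hi, ← hj, ← zpow_add, ← zpow_add, add_comm]) }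
      exact CommGroup.isNilpotent
    refine le_of_prime_power_mem (N := Subgroup.zpowers x) ?_ (Subgroup.mem_zpowers x)
    rintro p hp y hy ⟨k, hk⟩
    haveI : Fact p.Prime := ⟨hp⟩
    obtain ⟨n, rfl⟩ := Subgroup.mem_zpowers_iff.mp hy
    have hgood : ∀ H : Subgroup G, (x ^ n) ^ H.index ∈ H := by
      intro H
      rw [← zpow_natCast, ← zpow_mul, mul_comm, zpow_mul, zpow_natCast]
      exact H.zpow_mem (hx H) n
    have hall : ∀ P : Sylow p G, x ^ n ∈ (P : Subgroup G) := by
      intro P
      have hco : (p ^ k).Coprime (P : Subgroup G).index :=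
        ((hp.coprime_iff_not_dvd).mpr P.not_dvd_index).pow_left k
      have hg := Nat.gcd_eq_gcd_ab (p ^ k) (P : Subgroup G).index
      rw [hco.gcd_eq_one, Nat.cast_one] at hg
      have : x ^ n = ((x ^ n) ^ p ^ k) ^ Nat.gcdA (p ^ k) (P : Subgroup G).index *
          ((x ^ n) ^ (P : Subgroup G).index) ^ Nat.gcdB (p ^ k) (P : Subgroup G).index := by
        calc x ^ n = (x ^ n) ^ (1 : ℤ) := (zpow_one _).symm
          _ = _ := by rw [hg, zpow_add, zpow_mul, zpow_mul, zpow_natCast, zpow_natCast]
      rw [this, hk, one_zpow, one_mul]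
      exact Subgroup.zpow_mem _ (hgood _) _
    obtain ⟨P⟩ : Nonempty (Sylow p G) := inferInstance
    have hcore : x ^ n ∈ (P : Subgroup G).normalCore := by
      intro g
      have h1 : x ^ n ∈ ((MulAut.conj g⁻¹ • P : Sylow p G) : Subgroup G) := hall _
      have h2 : x ^ n ∈ (P : Subgroup G).map (MulAut.conj g⁻¹).toMonoidHom := h1
      obtain ⟨w, hw, hw2⟩ := h2
      have : g * x ^ n * g⁻¹ = w := by
        rw [← hw2]; simp [mul_assoc]
      rw [this]; exact hw
    haveI : IsPGroup p (P : Subgroup G).normalCore := P.isPGroup'.to_le (Subgroup.normalCore_le _)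
    have hle : (P : Subgroup G).normalCore ≤ Cfsg.fittingSubgroup G :=
      le_sSup ⟨Subgroup.normalCore_normal _,
        (P.isPGroup'.to_le (Subgroup.normalCore_le _)).isNilpotent⟩
    exact hle hcore

end Cfsg.Agent.S4263
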