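import Cfsg.Statements.S4303
import Mathlib
import Cfsg.Agent.SylowNumber.Basic

set_option autoImplicit false
universe u
open Cfsg

namespace Cfsg.Agent.S4303

universe v

/-- Either a finite group has a proper nontrivial normal subgroup, or it is trivial or simple. -/
theorem trichotomy (G : Type v) [Group G] : Subsingleton G ∨ IsSimpleGroup G ∨
    ∃ K : Subgroup G, K.Normal ∧ K ≠ ⊥ ∧ K ≠ ⊤ := by
  by_cases hs : Subsingleton G
  · exact Or.inl hs
  refine Or.inr ?_
  by_cases hK : ∃ K : Subgroup G, K.Normal ∧ K ≠ ⊥ ∧ K ≠ ⊤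
  · exact Or.inr hK
  haveI : Nontrivial G := not_subsingleton_iff_nontrivial.mp hs
  exact Or.inl ⟨fun K hKn => by
    by_contra hc
    rw [not_or] at hc
    exact hK ⟨K, hKn, hc.1, hc.2⟩⟩

/-- The statement, by induction on the order. -/
theorem aux (p : ℕ) [Fact p.Prime] : ∀ (N : ℕ) (G : Type v) [Group G] [Finite G], Nat.card G = N →
    ∃ l : List ℕ, l.prod = Nat.card (Sylow p G) ∧
      ∀ m ∈ l, (IsPrimePow m ∧ m % p = 1) ∨
        ∃ (S : Type v) (_ : Group S) (_ : Finite S), IsSimpleGroup S ∧ m = Nat.card (Sylow p S) := by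
  intro N
  induction N using Nat.strong_induction_on with
  | _ N ih => ?_
  intro G _ _ hN
  rcases trichotomy G with hs | hs | ⟨K, hKn, hK1, hK2⟩
  · refine ⟨[], ?_, by simp⟩
    rw [List.prod_nil, eq_comm, Nat.card_eq_one_iff_unique]
    exact ⟨⟨fun P Q => Sylow.ext (Subsingleton.elim _ _)⟩, inferInstance⟩
  · exact ⟨[Nat.card (Sylow p G)], by simp, fun m hm => Or.inr ⟨G, inferInstance, inferInstance, hs, by simpa using hm⟩⟩
  haveI := hKn
  have hmul := K.card_mul_index
  rw [hN] at hmul
  have hK1' : 1 < Nat.card K := (Subgroup.one_lt_card_iff_ne_bot K).mpr hK1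
  have hi1 : 1 < K.index := by
    have h0 : K.index ≠ 0 := Subgroup.index_ne_zero_of_finite
    have h1 : K.index ≠ 1 := fun h => hK2 (Subgroup.index_eq_one.mp h)
    omega
  obtain ⟨l1, h1, h1'⟩ := ih (Nat.card (G ⧸ K)) (by
    rw [← hmul]; exact (lt_mul_iff_one_lt_left (by omega : 0 < K.index)).mpr hK1') (G ⧸ K) rfl
  obtain ⟨l2, h2, h2'⟩ := ih (Nat.card K) (by
    rw [← hmul]; exact (lt_mul_iff_one_lt_right (by omega : 0 < Nat.card K)).mpr hi1) K rfl
  obtain ⟨m, hm, hm0, hmℓ⟩ := CfsgLib.SylowNumber.exists_factor (p := p) K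
  obtain ⟨l3, h3, h3'⟩ := CfsgLib.SylowNumber.exists_list hm0 hmℓ
  refine ⟨l1 ++ l2 ++ l3, by rw [List.prod_append, List.prod_append, h1, h2, h3, hm], fun x hx => ?_⟩
  rcases List.mem_append.mp hx with hx | hx
  · rcases List.mem_append.mp hx with hx | hx
    · exact h1' x hx
    · exact h2' x hx
  · exact Or.inl (h3' x hx)

/-- For a finite group `G` and a prime `p`, the number of Sylow `p`-subgroups of `G` is a product of natural numbers each of which is either a prime power congruent to 1 modulo `p` or the number of Sylow `p`-subgroups of some finite simple group. -/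
theorem result {G : Type u} [Group G] [Finite G]
    (p : ℕ) [Fact p.Prime] :
    ∃ l : List ℕ, l.prod = Nat.card (Sylow p G) ∧
      ∀ m ∈ l, (IsPrimePow m ∧ m % p = 1) ∨
        ∃ (S : Type u) (_ : Group S) (_ : Finite S), IsSimpleGroup S ∧ m = Nat.card (Sylow p S) := by
  exact aux p _ G rfl

end Cfsg.Agent.S4303
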