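import Cfsg.Statements.S4330
import Cfsg.Agent.OddRegular.Main
import Cfsg.Agent.Subnormal.BaerSuzuki
import Cfsg.Agent.Hall.Basic

set_option autoImplicit false
open Pointwise
open Cfsg

namespace Cfsg.Agent.S4330

universe u

/-- Subnormality inside a join is inherited by quotients. -/
theorem hyp_map {G H : Type*} [Group G] [Group H] (π : G →* H) {A J : Subgroup G} (hAJ : A ≤ J)
    (h : (A.subgroupOf J).IsSubnormal) : ((A.map π).subgroupOf (J.map π)).IsSubnormal := by
  have h1 := h.map (π.subgroupMap_surjective J)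
  have e : (A.subgroupOf J).map (π.subgroupMap J) = (A.map π).subgroupOf (J.map π) := by
    ext ⟨y, hy⟩
    constructor
    · rintro ⟨⟨x, hx⟩, hxA, e⟩
      exact ⟨x, hxA, congrArg Subtype.val e⟩
    · rintro ⟨x, hxA, e⟩
      exact ⟨⟨x, hAJ hxA⟩, hxA, Subtype.ext e⟩
  rwa [e] at h1

theorem le_pCore_of_hyp {p : ℕ} [hp : Fact p.Prime] (hp2 : p ≠ 2) : ∀ (n : ℕ) (G : Type u) [Group G] [Finite G],
    Nat.card G = n → Group.IsSolvable G → ∀ A : Subgroup G, IsPGroup p A →
    (∀ c : G, ∃ g : G, IsConj c g ∧ (A.subgroupOf (A ⊔ MulAut.conj g • A)).IsSubnormal) → A ≤ Cfsg.pCore p G := by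
  intro n
  induction n using Nat.strong_induction_on with
  | _ n ih =>
  intro G _ _ hn hG A hA h
  classical
  rcases subsingleton_or_nontrivial G with hs | hnt
  · intro a _; rw [Subsingleton.elim a 1]; exact Subgroup.one_mem _
  haveI := hG
  obtain ⟨N, hN⟩ := CfsgLib.Hall.exists_isMinNormal (G := G)
  obtain ⟨q, hq, hNc, hNq, hNe⟩ := hN.elementaryAbelian
  haveI := hN.1
  haveI : Fact q.Prime := ⟨hq⟩
  set π := QuotientGroup.mk' N with hπ
  have hπs : Function.Surjective π := QuotientGroup.mk'_surjective N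
  have hlt : Nat.card (G ⧸ N) < n := by
    rw [← hn, N.card_eq_card_quotient_mul_card_subgroup]
    haveI : Nontrivial N := (Subgroup.nontrivial_iff_ne_bot N).mpr hN.2.1
    exact lt_mul_of_one_lt_right Nat.card_pos Finite.one_lt_card
  have hAR : A.map π ≤ Cfsg.pCore p (G ⧸ N) := by
    refine ih _ hlt (G ⧸ N) rfl (solvable_of_surjective hπs) _ (hA.map π) fun c => ?_
    obtain ⟨c, rfl⟩ := hπs c
    obtain ⟨g, hg1, hg2⟩ := h c
    refine ⟨π g, π.map_isConj hg1, ?_⟩
    have hconj : (MulAut.conj g • A).map π = MulAut.conj (π g) • A.map π := by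
      ext y
      simp only [Subgroup.mem_map, Subgroup.mem_pointwise_smul_iff_inv_smul_mem, MulAut.smul_def, MulAut.conj_inv_apply]
      constructor
      · rintro ⟨x, hx, rfl⟩; exact ⟨g⁻¹ * x * g, hx, by simp⟩
      · rintro ⟨x, hx, e⟩
        refine ⟨g * x * g⁻¹, by simpa [mul_assoc] using hx, ?_⟩
        rw [map_mul, map_mul, map_inv, e]; group
    have := hyp_map π le_sup_left hg2
    rwa [Subgroup.map_sup, hconj] at this
  haveI : (Cfsg.pCore p (G ⧸ N)).Normal := CfsgLib.Subnormal.normal_pCore p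
  set R : Subgroup G := (Cfsg.pCore p (G ⧸ N)).comap π with hR
  have hAR' : A ≤ R := Subgroup.map_le_iff_le_comap.mp hAR
  have hRn : R.Normal := inferInstance
  by_cases hqp : q = p
  · subst hqp
    refine hAR'.trans (CfsgLib.Subnormal.le_pCore_of_isSubnormal hRn.isSubnormal ?_)
    exact (CfsgLib.Subnormal.isPGroup_pCore q).comap_of_ker_isPGroup π (by rw [hπ, QuotientGroup.ker_mk']; exact hNq)
  have hpow : ∀ r ∈ R, ∃ k : ℕ, r ^ p ^ k ∈ N := fun r hr => by
    obtain ⟨k, hk⟩ := CfsgLib.Subnormal.isPGroup_pCore p ⟨π r, hr⟩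
    exact ⟨k, (QuotientGroup.eq_one_iff _).mp ((map_pow π r _).trans (congrArg Subtype.val hk))⟩
  letI : CommGroup N := { (inferInstance : Group N) with mul_comm := hNc.is_comm.comm }
  let f : G →* MulAut N := MulAut.conjNormal
  by_cases hmove : ∀ a ∈ A, f a = 1
  · -- `A` lies in the nilpotent normal subgroup `R ⊓ C(N)`
    haveI := hRn
    set T : Subgroup G := R ⊓ f.ker with hT
    have hTn : T.Normal := Subgroup.normal_inf_normal _ _
    haveI : Group.IsNilpotent T := by
      haveI : Group.IsNilpotent (π.comp T.subtype).range := (IsPGroup.isNilpotent (p := p)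
        ((CfsgLib.Subnormal.isPGroup_pCore p).to_le (by rintro _ ⟨t, rfl⟩; exact t.2.1)))
      refine isNilpotent_of_ker_le_center (π.comp T.subtype).rangeRestrict ?_ 
      intro t ht
      rw [MonoidHom.ker_rangeRestrict] at ht
      have htN : (t : G) ∈ N := (QuotientGroup.eq_one_iff _).mp ht
      rw [Subgroup.mem_center_iff]
      intro s
      have := DFunLike.congr_fun (show f (s : G) = 1 from s.2.2) ⟨t, htN⟩
      have := congrArg Subtype.val this
      simp only [f, MulAut.conjNormal_apply, MulAut.one_apply] at this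
      exact Subtype.ext (mul_inv_eq_iff_eq_mul.mp this)
    exact CfsgLib.Subnormal.le_pCore_of_isSubnormal
      (Subgroup.IsSubnormal.trans (le_inf hAR' fun a ha => hmove a ha) (CfsgLib.Subnormal.isSubnormal_of_nilpotent _)
        hTn.isSubnormal) hA
  exfalso
  push Not at hmove
  obtain ⟨a, ha, hfa⟩ := hmove
  obtain ⟨x, hxA, hxp, hx1⟩ : ∃ x ∈ A, f x ^ p = 1 ∧ f x ≠ 1 := by
    obtain ⟨k, hk⟩ := hA ⟨a, ha⟩
    have hk' : f a ^ p ^ k = 1 := by
      rw [← map_pow]; exact (congrArg f (congrArg Subtype.val hk)).trans (map_one f)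
    have hex : ∃ k : ℕ, f a ^ p ^ k = 1 := ⟨k, hk'⟩
    obtain ⟨j, hj⟩ : ∃ j, Nat.find hex = j + 1 := Nat.exists_eq_add_one_of_ne_zero fun h0 => hfa (by
      have := Nat.find_spec hex; rwa [h0, pow_zero, pow_one] at this)
    refine ⟨a ^ p ^ j, A.pow_mem ha _, ?_, ?_⟩
    · rw [map_pow, ← pow_mul, ← pow_succ, ← hj]; exact Nat.find_spec hex
    · rw [map_pow]; exact Nat.find_min hex (by omega)
  let V := Additive N
  letI : DistribMulAction f.range V :=
    { smul := fun γ v => Additive.ofMul ((γ : MulAut N) (Additive.toMul v))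
      one_smul := fun v => rfl
      mul_smul := fun γ δ v => rfl
      smul_zero := fun γ => congrArg Additive.ofMul (map_one (γ : MulAut N))
      smul_add := fun γ v w => congrArg Additive.ofMul (map_mul (γ : MulAut N) _ _) }
  have hqN : ¬ p ∣ Nat.card V := fun hd => by
    obtain ⟨m, hm⟩ := IsPGroup.iff_card.mp hNq
    have hd' : p ∣ Nat.card N := hd
    rw [hm] at hd'
    exact hqp ((Nat.prime_dvd_prime_iff_eq hp.out hq).mp (hp.out.dvd_of_dvd_pow hd')).symm
  haveI : Finite (MulAut N) := Finite.of_injective (fun e => (e : N → N)) DFunLike.coe_injective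
  haveI : (R.map f.rangeRestrict).Normal := hRn.map _ f.rangeRestrict_surjective
  have hP : IsPGroup p (R.map f.rangeRestrict) := by
    rintro ⟨_, r, hr, rfl⟩
    obtain ⟨k, hk⟩ := hpow r hr
    refine ⟨k, Subtype.ext ?_⟩
    show f.rangeRestrict r ^ p ^ k = 1
    rw [← map_pow]
    refine Subtype.ext (MulEquiv.ext fun m => Subtype.ext ?_)
    show r ^ p ^ k * (m : G) * (r ^ p ^ k)⁻¹ = m
    have := congrArg Subtype.val (hNc.is_comm.comm (⟨_, hk⟩ : N) m)
    exact mul_inv_eq_iff_eq_mul.mpr this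
  have hmv : ∃ w : V, f.rangeRestrict x • w ≠ w := by
    by_contra hc
    push Not at hc
    exact hx1 (MulEquiv.ext fun m => congrArg Additive.toMul (hc (Additive.ofMul m)))
  obtain ⟨w, hw⟩ := CfsgLib.OddRegular.exists_moved hp2 _ V f.range (R.map f.rangeRestrict) (f.rangeRestrict x) rfl
    hP hqN (Subgroup.mem_map_of_mem _ (hAR' hxA)) (Subtype.ext hxp) hmv
  obtain ⟨g, hcg, hsub⟩ := h ((Additive.toMul w : N) : G)
  obtain ⟨k, rfl⟩ := isConj_iff.mp hcg
  set g := k * ((Additive.toMul w : N) : G) * k⁻¹ with hg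
  have hgN : g ∈ N := hN.1.conj_mem _ (Additive.toMul w : N).2 k
  set J : Subgroup G := A ⊔ MulAut.conj g • A with hJ
  have hxJ : x ∈ J := Subgroup.mem_sup_left hxA
  have hgxJ : g * x * g⁻¹ ∈ J := Subgroup.mem_sup_right (Subgroup.smul_mem_pointwise_smul x (MulAut.conj g) A hxA)
  have hw'N : g * x * g⁻¹ * x⁻¹ ∈ N := by
    rw [show g * x * g⁻¹ * x⁻¹ = g * (x * g⁻¹ * x⁻¹) by group]
    exact N.mul_mem hgN (hN.1.conj_mem _ (N.inv_mem hgN) x)
  have hxP : (⟨x, hxJ⟩ : J) ∈ Cfsg.pCore p J :=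
    CfsgLib.Subnormal.le_pCore_of_isSubnormal hsub (hA.comap_of_injective J.subtype J.subtype_injective) hxA
  haveI : Finite J := inferInstance
  have hdis : Disjoint (Cfsg.pCore p J) (N.subgroupOf J) :=
    (CfsgLib.Subnormal.isPGroup_pCore p).disjoint_of_ne p q (Ne.symm hqp) _ _
      (hNq.comap_of_injective J.subtype J.subtype_injective)
  have hcom : Commute (x : G) (g * x * g⁻¹ * x⁻¹) :=
    (Subgroup.commute_of_normal_of_disjoint _ _ (CfsgLib.Subnormal.normal_pCore p) inferInstance hdis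
      ⟨x, hxJ⟩ ⟨g * x * g⁻¹ * x⁻¹, J.mul_mem hgxJ (J.inv_mem hxJ)⟩ hxP hw'N).map J.subtype
  obtain ⟨m, hm⟩ := hA ⟨x, hxA⟩
  have hm' : x ^ p ^ m = 1 := congrArg Subtype.val hm
  have h2 : (g * x * g⁻¹ * x⁻¹) ^ p ^ m = 1 := by
    have h3 : (g * x * g⁻¹ * x⁻¹ * x) ^ p ^ m = 1 := by
      rw [inv_mul_cancel_right, conj_pow, hm', mul_one, mul_inv_cancel]
    rwa [hcom.symm.mul_pow, hm', mul_one] at h3
  have hone : g * x * g⁻¹ * x⁻¹ = 1 := by
    have h4 := pow_gcd_eq_one.mpr ⟨h2, hNe _ hw'N⟩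
    rwa [Nat.Coprime.gcd_eq_one (Nat.Coprime.pow_left m ((Nat.coprime_primes hp.out hq).mpr (Ne.symm hqp))), pow_one] at h4
  have hxg : g * x = x * g := mul_inv_eq_iff_eq_mul.mp (mul_inv_eq_one.mp hone)
  refine hw (f.rangeRestrict k⁻¹) (congrArg Additive.ofMul ?_)
  show ((f.rangeRestrict k⁻¹ * f.rangeRestrict x * (f.rangeRestrict k⁻¹)⁻¹ : f.range) : MulAut N) (Additive.toMul w) = _
  rw [← map_inv, ← map_mul, ← map_mul]
  refine Subtype.ext ?_
  show k⁻¹ * x * k⁻¹⁻¹ * ((Additive.toMul w : N) : G) * (k⁻¹ * x * k⁻¹⁻¹)⁻¹ = _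
  rw [show k⁻¹ * x * k⁻¹⁻¹ * ((Additive.toMul w : N) : G) * (k⁻¹ * x * k⁻¹⁻¹)⁻¹ = k⁻¹ * (x * g * x⁻¹) * k by
    rw [hg]; group, ← hxg, mul_inv_cancel_right, hg]
  group
  rfl

/-- Let G be a finite solvable group, p an odd prime and A a p-subgroup of G such that every conjugacy class of G contains an element g for which A is subnormal in the subgroup generated by A and its conjugate by g. Then A is contained in O_p(G). (The hypothesis that p is odd is needed.) -/
theorem result {G : Type*} [Group G] [Finite G]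
    (hG : Group.IsSolvable G) (p : ℕ) [Fact p.Prime] (hp : p ≠ 2) (A : Subgroup G) (hA : IsPGroup p A)
    (h : ∀ c : G, ∃ g : G, IsConj c g ∧ (A.subgroupOf (A ⊔ MulAut.conj g • A)).IsSubnormal) :
    A ≤ Cfsg.pCore p G :=
  le_pCore_of_hyp hp _ G rfl hG A hA h

end Cfsg.Agent.S4330
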