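import Cfsg.Statements.S4331
import Mathlib
import Cfsg.Agent.PCore.Basic

set_option autoImplicit false
open Cfsg

namespace Cfsg.Agent.S4331

/-- Vectors. -/
abbrev V0 := ZMod 3 × ZMod 3

/-- The exponent of the semilinear twist. -/
def rr (s : ZMod 2) : ZMod 8 := if s = 0 then 1 else 3

/-- Multiplication by a generator of the multiplicative group of the field of nine elements. -/
def mulW (v : V0) : V0 := (v.1 - v.2, v.1 + v.2)

/-- The action of the semilinear group of degree one. -/
def act (i : ZMod 8) (s : ZMod 2) (v : V0) : V0 := mulW^[i.val] (if s = 0 then v else (v.1, -v.2))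

theorem act_zero : ∀ v, act 0 0 v = v := by decide +kernel

theorem act_comp : ∀ (i j : ZMod 8) (s t : ZMod 2) (v : V0),
    act i s (act j t v) = act (i + rr s * j) (s + t) v := by decide +kernel

theorem act_add : ∀ (i : ZMod 8) (s : ZMod 2) (v w : V0), act i s (v + w) = act i s v + act i s w := by
  decide +kernel

theorem rr_mul : ∀ s t : ZMod 2, rr (s + t) = rr s * rr t := by decide

theorem inv_right' : ∀ (i : ZMod 8) (s : ZMod 2), i + rr s * (-(rr s * i)) = 0 ∧ s + s = 0 ∧
    (-(rr s * i)) + rr s * i = 0 := by decide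

/-- The twist as a homomorphism. -/
def psi : Multiplicative (ZMod 2) →* MulAut (Multiplicative (ZMod 8)) where
  toFun s :=
    { toFun := fun i => .ofAdd (rr s.toAdd * i.toAdd)
      invFun := fun i => .ofAdd (rr s.toAdd * i.toAdd)
      left_inv := fun i => Multiplicative.toAdd.injective (by
        show rr s.toAdd * (rr s.toAdd * i.toAdd) = i.toAdd
        revert s i; decide +kernel)
      right_inv := fun i => Multiplicative.toAdd.injective (by
        show rr s.toAdd * (rr s.toAdd * i.toAdd) = i.toAdd
        revert s i; decide +kernel)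
      map_mul' := fun i j => Multiplicative.toAdd.injective (mul_add _ _ _) }
  map_one' := MulEquiv.ext fun i => Multiplicative.toAdd.injective (one_mul _)
  map_mul' s t := MulEquiv.ext fun i => Multiplicative.toAdd.injective (by
    show rr (s.toAdd + t.toAdd) * i.toAdd = rr s.toAdd * (rr t.toAdd * i.toAdd)
    rw [rr_mul, mul_assoc])

/-- The semidihedral group of order sixteen. -/
abbrev SD := Multiplicative (ZMod 8) ⋊[psi] Multiplicative (ZMod 2)

/-- One element acting. -/
def actHom (h : SD) : Multiplicative V0 →* Multiplicative V0 where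
  toFun v := .ofAdd (act h.left.toAdd h.right.toAdd v.toAdd)
  map_one' := Multiplicative.toAdd.injective (by
    show act h.left.toAdd h.right.toAdd 0 = 0
    have := act_add h.left.toAdd h.right.toAdd 0 0
    simpa using this)
  map_mul' v w := Multiplicative.toAdd.injective (act_add _ _ _ _)

theorem actHom_mul (a b : SD) (v : Multiplicative V0) : actHom (a * b) v = actHom a (actHom b v) :=
  Multiplicative.toAdd.injective (act_comp _ _ _ _ _).symm

theorem actHom_one (v : Multiplicative V0) : actHom 1 v = v :=
  Multiplicative.toAdd.injective (act_zero _)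

/-- The action as a homomorphism. -/
def phi : SD →* MulAut (Multiplicative V0) where
  toFun h :=
    { toFun := actHom h
      invFun := actHom h⁻¹
      left_inv := fun v => by rw [← actHom_mul, inv_mul_cancel, actHom_one]
      right_inv := fun v => by rw [← actHom_mul, mul_inv_cancel, actHom_one]
      map_mul' := map_mul _ }
  map_one' := MulEquiv.ext actHom_one
  map_mul' a b := MulEquiv.ext (actHom_mul a b)

/-- The group of order `144`. -/
abbrev GG := Multiplicative V0 ⋊[phi] SD

/-- Elements as tuples. -/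
abbrev T := V0 × ZMod 8 × ZMod 2

/-- The element of a tuple. -/
def ofT (t : T) : GG := ⟨.ofAdd t.1, ⟨.ofAdd t.2.1, .ofAdd t.2.2⟩⟩

/-- The tuple of an element. -/
def toT (g : GG) : T := (g.left.toAdd, g.right.left.toAdd, g.right.right.toAdd)

/-- The product on tuples. -/
def mulT (x y : T) : T :=
  (x.1 + act x.2.1 x.2.2 y.1, x.2.1 + rr x.2.2 * y.2.1, x.2.2 + y.2.2)

/-- Inversion on tuples. -/
def invT (x : T) : T :=
  (act (-(rr x.2.2 * x.2.1)) x.2.2 (-x.1), -(rr x.2.2 * x.2.1), x.2.2)

theorem ofT_toT (g : GG) : ofT (toT g) = g := rfl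

theorem ofT_mul (x y : T) : ofT (mulT x y) = ofT x * ofT y := rfl

theorem mulT_invT : ∀ x : T, mulT x (invT x) = ((0, 0), 0, 0) := by decide +kernel

theorem ofT_inv (x : T) : ofT (invT x) = (ofT x)⁻¹ := by
  refine eq_inv_of_mul_eq_one_right ?_
  rw [← ofT_mul, mulT_invT]
  rfl

theorem key : ∀ c : T, ∃ (v : V0) (i : Fin 4),
    (mulT (mulT (v, (i.val : ZMod 8), 0) c) (invT (v, (i.val : ZMod 8), 0))).1 = 0 ∨
    mulT (mulT (mulT (v, (i.val : ZMod 8), 0) c) (invT (v, (i.val : ZMod 8), 0))) ((0, 0), 0, 1) =
      mulT ((0, 0), 0, 1) (mulT (mulT (v, (i.val : ZMod 8), 0) c) (invT (v, (i.val : ZMod 8), 0))) := by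
  decide +kernel

theorem a_sq : mulT ((0, 0), 0, 1) ((0, 0), 0, 1) = (((0, 0), 0, 0) : T) := by decide +kernel

theorem a_ne : (((0, 0), 0, 1) : T) ≠ ((0, 0), 0, 0) := by decide +kernel

/-- The commutator element. -/
def comT : T := mulT (mulT (mulT ((0, 1), 0, 0) ((0, 0), 0, 1)) (invT ((0, 1), 0, 0))) ((0, 0), 0, 1)

theorem comT_cube : mulT comT (mulT comT comT) = (((0, 0), 0, 0) : T) ∧ comT ≠ ((0, 0), 0, 0) := by
  decide +kernel

theorem isSubnormal_of_isNilpotent {G : Type*} [Group G] [Finite G] [Group.IsNilpotent G] :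
    ∀ H : Subgroup G, H.IsSubnormal := by
  intro H
  induction H using (wellFounded_gt : WellFounded ((· > ·) : Subgroup G → Subgroup G → Prop)).induction with
  | _ H ih =>
    rcases eq_or_ne H ⊤ with rfl | hne
    · exact Subgroup.IsSubnormal.top
    have hlt := Group.normalizerCondition_of_isNilpotent H (lt_top_iff_ne_top.mpr hne)
    exact Subgroup.IsSubnormal.step H _ hlt.le (ih _ hlt) Subgroup.normal_in_normalizer

/-- There is a finite solvable group G with a subgroup A of order 2 such that every conjugacy class of G contains an element g for which A is subnormal in the subgroup generated by A and g, and yet A is not contained in O_2(G). (So the corresponding criteria for odd primes fail at the prime 2, even for solvable groups.) -/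
theorem result :
    ∃ (G : Type) (_ : Group G) (_ : Finite G) (A : Subgroup G), Group.IsSolvable G ∧ Nat.card A = 2 ∧
      (∀ c : G, ∃ g : G, IsConj c g ∧ (A.subgroupOf (A ⊔ Subgroup.zpowers g)).IsSubnormal) ∧
      ¬ A ≤ Cfsg.pCore 2 G := by
  classical
  haveI : Finite GG := Finite.of_surjective ofT (fun g => ⟨toT g, ofT_toT g⟩)
  haveI : Fact (Nat.Prime 2) := ⟨Nat.prime_two⟩
  haveI : Group.IsSolvable SD := Group.isSolvable_of_ker_le_range (f := SemidirectProduct.inl)
    (g := SemidirectProduct.rightHom) (SemidirectProduct.range_inl_eq_ker_rightHom).ge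
  haveI hsolv : Group.IsSolvable GG := Group.isSolvable_of_ker_le_range (f := SemidirectProduct.inl)
    (g := SemidirectProduct.rightHom) (SemidirectProduct.range_inl_eq_ker_rightHom).ge
  set a : GG := ofT ((0, 0), 0, 1) with ha
  have ha2 : orderOf a = 2 := by
    refine orderOf_eq_prime (by
      rw [sq, ha, ← ofT_mul]
      exact congrArg ofT a_sq) (fun h => ?_)
    exact a_ne (congrArg toT h)
  refine ⟨GG, inferInstance, inferInstance, Subgroup.zpowers a, hsolv, by rw [Nat.card_zpowers, ha2], ?_, ?_⟩
  · intro c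
    obtain ⟨v, i, hQ⟩ := key (toT c)
    set x : GG := ofT (v, (i.val : ZMod 8), 0) with hx
    have hg : x * c * x⁻¹ = ofT (mulT (mulT (v, (i.val : ZMod 8), 0) (toT c)) (invT (v, (i.val : ZMod 8), 0))) := by
      rw [ofT_mul, ofT_mul, ofT_toT, ofT_inv]
    refine ⟨x * c * x⁻¹, isConj_iff.mpr ⟨x, rfl⟩, ?_⟩
    set g := x * c * x⁻¹
    rcases hQ with hQ | hQ
    · have hmem : ∀ y : GG, y.left = 1 → y ∈ (SemidirectProduct.inr : SD →* GG).range := fun y hy =>
        ⟨y.right, SemidirectProduct.ext (by simp [hy]) (by simp)⟩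
      have hle : Subgroup.zpowers a ⊔ Subgroup.zpowers g ≤ (SemidirectProduct.inr : SD →* GG).range :=
        sup_le (Subgroup.zpowers_le.mpr (hmem a rfl)) (Subgroup.zpowers_le.mpr (hmem g (by
          rw [hg]; exact congrArg Multiplicative.ofAdd hQ)))
      haveI : Finite SD := Finite.of_injective _ (SemidirectProduct.inr_injective (φ := phi))
      have hSD : IsPGroup 2 SD := IsPGroup.of_card (n := 4) (by
        rw [SemidirectProduct.card, Nat.card_congr Multiplicative.toAdd, Nat.card_congr Multiplicative.toAdd,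
          Nat.card_zmod, Nat.card_zmod]
        norm_num)
      have hr : IsPGroup 2 (SemidirectProduct.inr : SD →* GG).range :=
        hSD.of_surjective _ (MonoidHom.rangeRestrict_surjective _)
      haveI := (hr.to_le hle).isNilpotent
      exact isSubnormal_of_isNilpotent _
    · have hcomm : g * a = a * g := by
        rw [hg, ha, ← ofT_mul, ← ofT_mul, hQ]
      refine Subgroup.Normal.isSubnormal (Subgroup.normal_subgroupOf_of_le_normalizer
        (sup_le Subgroup.le_normalizer (Subgroup.zpowers_le.mpr ?_)))
      refine (Subgroup.centralizer_le_normalizer (Subgroup.zpowers a : Set GG)) ?_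
      rw [Subgroup.mem_centralizer_iff]
      intro h hh
      obtain ⟨k, rfl⟩ := Subgroup.mem_zpowers_iff.mp hh
      exact ((show Commute g a from hcomm).zpow_right k).eq.symm
  · intro hle
    have hp := CfsgLib.PCore.isPGroup_pCore 2 GG
    haveI := CfsgLib.PCore.pCore_characteristic 2 GG
    set t : GG := ofT ((0, 1), 0, 0) with ht
    have hmem : t * a * t⁻¹ * a ∈ Cfsg.pCore 2 GG := by
      have h1 := hle (Subgroup.mem_zpowers a)
      exact mul_mem ((inferInstance : (Cfsg.pCore 2 GG).Normal).conj_mem a h1 t) h1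
    obtain ⟨k, hk⟩ := hp ⟨_, hmem⟩
    have h3 : orderOf (t * a * t⁻¹ * a) = 3 := by
      haveI : Fact (Nat.Prime 3) := ⟨Nat.prime_three⟩
      rw [ht, ha, ← ofT_inv, ← ofT_mul, ← ofT_mul, ← ofT_mul]
      refine orderOf_eq_prime (by
        rw [pow_three, ← ofT_mul, ← ofT_mul]
        exact congrArg ofT comT_cube.1) (fun h => ?_)
      exact comT_cube.2 (congrArg toT h)
    have hd : orderOf (t * a * t⁻¹ * a) ∣ 2 ^ k := orderOf_dvd_of_pow_eq_one (congrArg Subtype.val hk)
    rw [h3] at hd
    exact absurd (Nat.prime_three.dvd_of_dvd_pow hd) (by norm_num)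

end Cfsg.Agent.S4331
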