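import Cfsg.Statements.S4332
import Mathlib

set_option autoImplicit false
open Pointwise
open Cfsg

namespace Cfsg.Agent.S4332

open Equiv in
/-- A permutation of at least eight points maps some `3`-set to itself or to a disjoint set. -/
theorem exists_three_set (c : Equiv.Perm (Fin 8)) :
    ∃ T : Finset (Fin 8), T.card = 3 ∧ ((∀ x ∈ T, c x ∉ T) ∨ (∀ x ∈ T, c x ∈ T)) := by
  classical
  obtain ⟨M, hM, hmax⟩ := Finset.exists_max_image
    ((Finset.univ : Finset (Finset (Fin 8))).filter fun M => ∀ x ∈ M, c x ∉ M) Finset.card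
    ⟨∅, by simp⟩
  simp only [Finset.mem_filter, Finset.mem_univ, true_and] at hM hmax
  by_cases h3 : 3 ≤ M.card
  · obtain ⟨T, hTM, hT⟩ := Finset.exists_subset_card_eq h3
    exact ⟨T, hT, Or.inl fun x hx h => hM x (hTM hx) (hTM h)⟩
  set F := (Finset.univ : Finset (Fin 8)).filter fun x => c x = x with hF
  by_cases hF3 : 3 ≤ F.card
  · obtain ⟨T, hTF, hT⟩ := Finset.exists_subset_card_eq hF3
    exact ⟨T, hT, Or.inr fun x hx => by rwa [(Finset.mem_filter.mp (hTF hx)).2]⟩
  have hcover : Finset.univ ⊆ F ∪ (M ∪ M.image c ∪ M.image ⇑(c⁻¹)) := by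
    intro x _
    simp only [Finset.mem_union, Finset.mem_image]
    by_contra hc
    push Not at hc
    obtain ⟨hxF, ⟨hxM, hx1⟩, hx2⟩ := hc
    have hxne : c x ≠ x := fun h => hxF (Finset.mem_filter.mpr ⟨Finset.mem_univ _, h⟩)
    have h := hmax (insert x M) (by
      intro y hy
      rw [Finset.mem_insert] at hy ⊢
      rw [not_or]
      rcases hy with rfl | hy
      · exact ⟨hxne, fun h => hx2 (c y) h (by simp)⟩
      · exact ⟨fun h => hx1 y hy h, hM y hy⟩)
    rw [Finset.card_insert_of_notMem hxM] at h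
    omega
  have hle := Finset.card_le_card hcover
  have h1 := Finset.card_union_le F (M ∪ M.image c ∪ M.image ⇑(c⁻¹))
  have h2 := Finset.card_union_le (M ∪ M.image c) (M.image ⇑(c⁻¹))
  have h4 := Finset.card_union_le M (M.image c)
  have h5 := Finset.card_image_le (s := M) (f := c)
  have h6 := Finset.card_image_le (s := M) (f := (c⁻¹ : Equiv.Perm (Fin 8)))
  simp only [Finset.card_univ, Fintype.card_fin] at hle
  have hM2 : M.card = 2 := by omega
  have hU : (M ∪ M.image c ∪ M.image ⇑(c⁻¹)).card = 6 := by omega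
  obtain ⟨a, b, hab, rfl⟩ := Finset.card_eq_two.mp hM2
  have hna : ∀ x, x ∈ F → x ∉ ({a, b} : Finset (Fin 8)) := by
    intro x hxF hx
    exact hM x hx (by rwa [(Finset.mem_filter.mp hxF).2])
  have key : ∀ a b : Fin 8, ({a, b, c a, c b, c⁻¹ a, c⁻¹ b} : Finset (Fin 8)).card = 6 →
      (c (c a) = c⁻¹ a ∨ c (c a) = c⁻¹ b) →
      ∃ T : Finset (Fin 8), T.card = 3 ∧ ((∀ x ∈ T, c x ∉ T) ∨ (∀ x ∈ T, c x ∈ T)) := by
    intro a b h hc2
    have hd : [a, b, c a, c b, c⁻¹ a, c⁻¹ b].Nodup := by
      rw [← List.dedup_eq_self]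
      refine (List.dedup_sublist _).eq_of_length ?_
      rw [← List.card_toFinset]
      simpa using h
    simp only [List.nodup_cons, List.mem_cons, List.not_mem_nil, or_false, not_or, List.nodup_nil, and_true,
      not_false_eq_true] at hd
    obtain ⟨⟨e1, e2, e3, e4, e5⟩, ⟨e6, e7, e8, e9⟩, ⟨e10, e11, e12⟩, ⟨e13, e14⟩, e15⟩ := hd
    rcases hc2 with hc2 | hc2
    · refine ⟨{a, c a, c⁻¹ a}, Finset.card_eq_three.mpr ⟨_, _, _, e2, e4, e11, rfl⟩, Or.inr ?_⟩
      simp [hc2]
    · refine ⟨{c⁻¹ a, c a, b}, Finset.card_eq_three.mpr ⟨_, _, _, Ne.symm e11, Ne.symm e8, Ne.symm e6, rfl⟩, Or.inl ?_⟩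
      simp [-Equiv.Perm.coe_inv, show ∀ m, c (c⁻¹ m) = m from fun m => c.apply_symm_apply m, Ne.symm e4, Ne.symm e8, Ne.symm e1, Ne.symm e2, e13, hc2, e2, e4, e1, e8, e14, e15, Ne.symm e9, Ne.symm e13, Ne.symm e7, Ne.symm e12, Ne.symm e10,
        Ne.symm e11, Ne.symm e6, e3, e5, Ne.symm e3]
  have hset : ({a, b} : Finset (Fin 8)) ∪ ({a, b} : Finset (Fin 8)).image c ∪ ({a, b} : Finset (Fin 8)).image ⇑(c⁻¹) =
      {a, b, c a, c b, c⁻¹ a, c⁻¹ b} := by
    ext x
    simp [Finset.image_insert, or_assoc]; tauto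
  rw [hset] at hU
  have hmem : c (c a) ∈ F ∪ ({a, b, c a, c b, c⁻¹ a, c⁻¹ b} : Finset (Fin 8)) := by
    rw [← hset]; exact hcover (Finset.mem_univ _)
  refine key a b hU ?_
  have hd : [a, b, c a, c b, c⁻¹ a, c⁻¹ b].Nodup := by
    rw [← List.dedup_eq_self]
    refine (List.dedup_sublist _).eq_of_length ?_
    rw [← List.card_toFinset]
    simpa using hU
  simp only [List.nodup_cons, List.mem_cons, List.not_mem_nil, or_false, not_or, List.nodup_nil, and_true,
    not_false_eq_true] at hd
  obtain ⟨⟨e1, e2, e3, e4, e5⟩, ⟨e6, e7, e8, e9⟩, ⟨e10, e11, e12⟩, ⟨e13, e14⟩, e15⟩ := hd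
  simp only [Finset.mem_union, Finset.mem_insert, Finset.mem_singleton] at hmem
  rcases hmem with hm | hm | hm | hm | hm | hm | hm
  · have hm' := (Finset.mem_filter.mp hm).2
    exact absurd (c.injective (c.injective hm')).symm e2
  · exact absurd (show c a = c⁻¹ a by nth_rewrite 2 [← hm]; simp) e11
  · exact absurd (show c a = c⁻¹ b by rw [← hm]; simp) e12
  · exact absurd (c.injective hm).symm e2
  · exact absurd (c.injective hm).symm e6
  · exact Or.inl hm
  · exact Or.inr hm

open Equiv Equiv.Perm in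
/-- Two three-cycles with the same support generate the same subgroup. -/
theorem mem_zpowers_of_support_eq {σ τ : Equiv.Perm (Fin 8)} (hσ : σ.IsThreeCycle) (hτ : τ.IsThreeCycle)
    (h : τ.support = σ.support) : τ ∈ Subgroup.zpowers σ := by
  classical
  have hcard : σ.support.card = 3 := hσ.card_support
  haveI : Nontrivial {x // x ∈ σ.support} := Fintype.one_lt_card_iff_nontrivial.mp (by
    rw [Fintype.card_coe, hcard]; norm_num)
  set A : Subgroup (Equiv.Perm (Fin 8)) :=
    (alternatingGroup {x // x ∈ σ.support}).map (Equiv.Perm.ofSubtype (p := (· ∈ σ.support))) with hA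
  have hAcard : Nat.card A = 3 := by
    rw [hA, Subgroup.card_map_of_injective Equiv.Perm.ofSubtype_injective, nat_card_alternatingGroup,
      Nat.card_eq_fintype_card, Fintype.card_coe, hcard]
    rfl
  have hmem : ∀ ρ : Equiv.Perm (Fin 8), ρ.IsThreeCycle → ρ.support = σ.support → ρ ∈ A := by
    intro ρ hρ hs
    have hmap : ∀ x, ρ x ∈ σ.support ↔ x ∈ σ.support := fun x => by rw [← hs]; exact Equiv.Perm.apply_mem_support
    refine ⟨ρ.subtypePerm hmap, ?_, ?_⟩
    · rw [SetLike.mem_coe, Equiv.Perm.mem_alternatingGroup, ← Equiv.Perm.sign_ofSubtype,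
        Equiv.Perm.ofSubtype_subtypePerm hmap (fun x hx => by rw [← hs]; exact Equiv.Perm.mem_support.mpr hx),
        hρ.sign]
    · exact Equiv.Perm.ofSubtype_subtypePerm hmap (fun x hx => by rw [← hs]; exact Equiv.Perm.mem_support.mpr hx)
  have heq : Subgroup.zpowers σ = A := Subgroup.eq_of_le_of_card_ge (Subgroup.zpowers_le.mpr (hmem σ hσ rfl))
    (by rw [hAcard, Nat.card_zpowers, hσ.orderOf])
  rw [heq]
  exact hmem τ hτ h

/-- In the symmetric group of degree 8, let A be the subgroup generated by a 3-cycle. Then every conjugacy class contains an element g for which A is subnormal in the subgroup generated by A and its conjugate by g, although O_3 of the symmetric group of degree 8 is trivial. -/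
theorem result
    (σ : Equiv.Perm (Fin 8)) (hσ : σ.IsThreeCycle) :
    (∀ c : Equiv.Perm (Fin 8), ∃ g : Equiv.Perm (Fin 8), IsConj c g ∧
      ((Subgroup.zpowers σ).subgroupOf (Subgroup.zpowers σ ⊔ MulAut.conj g • Subgroup.zpowers σ)).IsSubnormal) ∧
    Cfsg.pCore 3 (Equiv.Perm (Fin 8)) = ⊥ := by
  classical
  refine ⟨fun c => ?_, ?_⟩
  · obtain ⟨T, hT, hc⟩ := exists_three_set c
    have hS : σ.support.card = 3 := hσ.card_support
    let e : {x // x ∈ T} ≃ {x // x ∈ σ.support} := Fintype.equivOfCardEq (by rw [Fintype.card_coe, Fintype.card_coe, hT, hS])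
    set x : Equiv.Perm (Fin 8) := e.extendSubtype with hx
    have hxT : ∀ y, x y ∈ σ.support ↔ y ∈ T := fun y => by
      by_cases hy : y ∈ T
      · exact iff_of_true (Equiv.extendSubtype_mem e y hy) hy
      · exact iff_of_false (Equiv.extendSubtype_not_mem e y hy) hy
    set g := x * c * x⁻¹ with hg
    refine ⟨g, isConj_iff.mpr ⟨x, rfl⟩, ?_⟩
    have hτ : (g * σ * g⁻¹).IsThreeCycle := by
      rw [Equiv.Perm.IsThreeCycle, Equiv.Perm.cycleType_conj]; exact hσ
    have hconj : MulAut.conj g • Subgroup.zpowers σ = Subgroup.zpowers (g * σ * g⁻¹) :=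
      MonoidHom.map_zpowers (MulAut.conj g).toMonoidHom σ
    have hgx : ∀ y, g (x y) = x (c y) := fun y => by simp [hg]
    have hcomm : ∀ h ∈ Subgroup.zpowers (g * σ * g⁻¹), Commute σ h := by
      intro h hh
      obtain ⟨k, rfl⟩ := Subgroup.mem_zpowers_iff.mp hh
      refine Commute.zpow_right ?_ k
      rcases hc with hc | hc
      · refine Equiv.Perm.Disjoint.commute (Equiv.Perm.disjoint_iff_disjoint_support.mpr ?_)
        rw [Equiv.Perm.support_conj, Finset.disjoint_left]
        intro y hy hy'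
        rw [Finset.mem_map] at hy'
        obtain ⟨z, hz, rfl⟩ := hy'
        obtain ⟨w, rfl⟩ := x.surjective z
        rw [Equiv.coe_toEmbedding, hgx, hxT] at hy
        exact hc w ((hxT w).mp hz) hy
      · have hs : (g * σ * g⁻¹).support = σ.support := by
          refine Finset.eq_of_subset_of_card_le (fun y hy => ?_) (by rw [hτ.card_support, hS])
          rw [Equiv.Perm.support_conj, Finset.mem_map] at hy
          obtain ⟨z, hz, rfl⟩ := hy
          obtain ⟨w, rfl⟩ := x.surjective z
          rw [Equiv.coe_toEmbedding, hgx, hxT]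
          exact hc w ((hxT w).mp hz)
        obtain ⟨k, hk⟩ := Subgroup.mem_zpowers_iff.mp (mem_zpowers_of_support_eq hσ hτ hs)
        rw [← hk]
        exact (Commute.refl σ).zpow_right k
    refine Subgroup.Normal.isSubnormal (Subgroup.normal_subgroupOf_of_le_normalizer
      (sup_le Subgroup.le_normalizer ?_))
    rw [hconj]
    refine le_trans ?_ (Subgroup.centralizer_le_normalizer _)
    intro h hh
    rw [Subgroup.mem_centralizer_iff]
    intro a ha
    obtain ⟨k, rfl⟩ := Subgroup.mem_zpowers_iff.mp ha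
    exact ((hcomm h hh).zpow_left k).eq
  · rw [Cfsg.pCore, sSup_eq_bot]
    rintro N ⟨hNn, hNp⟩
    haveI := hNn
    haveI : Fact (Nat.Prime 3) := ⟨Nat.prime_three⟩
    haveI hsimp : IsSimpleGroup (alternatingGroup (Fin 8)) := alternatingGroup.isSimpleGroup (by simp)
    have hsign : N ≤ alternatingGroup (Fin 8) := by
      intro y hy
      obtain ⟨k, hk⟩ := hNp ⟨y, hy⟩
      have hk' : y ^ 3 ^ k = 1 := congrArg Subtype.val hk
      rw [Equiv.Perm.mem_alternatingGroup]
      rcases Int.units_eq_one_or (Equiv.Perm.sign y) with h | h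
      · exact h
      · exfalso
        have h1 := congrArg Equiv.Perm.sign hk'
        rw [map_pow, map_one, h, Odd.neg_one_pow (Odd.pow (by decide))] at h1
        exact absurd h1 (by decide)
    rcases (inferInstance : (N.subgroupOf (alternatingGroup (Fin 8))).Normal).eq_bot_or_eq_top with h | h
    · rw [Subgroup.subgroupOf_eq_bot, disjoint_iff] at h
      rwa [inf_eq_left.mpr hsign] at h
    · exfalso
      have h2 : N = alternatingGroup (Fin 8) := le_antisymm hsign (Subgroup.subgroupOf_eq_top.mp h)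
      obtain ⟨n, hn⟩ := IsPGroup.iff_card.mp hNp
      rw [h2, nat_card_alternatingGroup, Nat.card_fin] at hn
      have : 2 ∣ 3 ^ n := hn ▸ ⟨10080, by decide⟩
      exact absurd (Nat.prime_two.dvd_of_dvd_pow this) (by norm_num)

end Cfsg.Agent.S4332
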