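import Cfsg.Statements.S4337
import Cfsg.Agent.CoprimeAction.Transpositions
import Cfsg.Agent.CharBasics.Burnside

set_option autoImplicit false
open Cfsg

namespace Cfsg.Agent.S4337

/-- In a finite symmetric group, any three transpositions generate a solvable subgroup. -/
theorem result (n : ℕ) (a b c : Equiv.Perm (Fin n))
    (ha : a.IsSwap) (hb : b.IsSwap) (hc : c.IsSwap) :
    Group.IsSolvable (Subgroup.closure ({a, b, c} : Set (Equiv.Perm (Fin n)))) := by
  let t : Fin 3 → Equiv.Perm (Fin n) := ![a, b, c]
  have ht : ∀ i, (t i).IsSwap := by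
    intro i; fin_cases i <;> simp [t, ha, hb, hc]
  have hr : Set.range t = {a, b, c} := by
    ext x
    simp [t, eq_comm]
    tauto
  rw [← hr]
  refine CfsgLib.CharBasics.isSolvable_two_primes 2 3 fun r hr hd => ?_
  have := CfsgLib.CoprimeAction.prime_le_of_dvd_card 3 t ht hr hd
  have := hr.two_le
  by_contra hne
  push Not at hne
  obtain rfl : r = 4 := by omega
  norm_num at hr

end Cfsg.Agent.S4337
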