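import Cfsg.Statements.S4343
import Cfsg.Agent.S0060
import Mathlib.GroupTheory.Sylow
import Mathlib.GroupTheory.Nilpotent

set_option autoImplicit false
open scoped Pointwise
open Cfsg

namespace Cfsg.Agent.S4343

/-- Let S be a finite non-abelian simple group and p a prime dividing its order. If S has fewer than p² Sylow p-subgroups, then its Sylow p-subgroups have order p. -/
theorem result {S : Type*} [Group S] [Finite S]
    [IsSimpleGroup S] (hS : ¬ IsMulCommutative S) (p : ℕ) [Fact p.Prime] (hp : p ∣ Nat.card S)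
    (hn : Nat.card (Sylow p S) < p ^ 2) (P : Sylow p S) : Nat.card P = p := by
  classical
  have hcore : (P : Subgroup S).normalCore = ⊥ := by
    rcases IsSimpleGroup.eq_bot_or_eq_top_of_normal _ (P : Subgroup S).normalCore_normal with h | h
    · exact h
    exfalso
    have htop : (P : Subgroup S) = ⊤ := top_le_iff.1 (h ▸ (P : Subgroup S).normalCore_le)
    have hpS : IsPGroup p S := by
      have := P.isPGroup'
      rw [htop] at this
      exact this.of_equiv Subgroup.topEquiv
    haveI := hpS.isNilpotent
    exact hS ⟨⟨fun a b => IsSimpleGroup.comm_iff_isSolvable.2 inferInstance a b⟩⟩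
  obtain ⟨e, he⟩ := P.isPGroup'.exists_card_eq
  have he1 : 1 ≤ e := by
    by_contra h
    have h0 : e = 0 := by omega
    rw [h0, pow_zero] at he
    exact P.ne_bot_of_dvd_card hp (Subgroup.eq_bot_of_card_eq _ he)
  -- every intersection with another Sylow subgroup has index at most `p`
  have hidx : ∀ Q : Sylow p S, (Q : Subgroup S).relIndex P ≤ p := by
    intro Q
    have hst : (MulAction.stabilizer (P : Subgroup S) Q) = ((Q : Subgroup S)).subgroupOf P := by
      ext x
      rw [MulAction.mem_stabilizer_iff, Subgroup.mem_subgroupOf]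
      constructor
      · intro h
        have h1 : (x : S) ∈ Subgroup.normalizer (Q : Set S) := Sylow.smul_eq_iff_mem_normalizer.1 h
        have h2 : Subgroup.zpowers (x : S) ⊓ Subgroup.normalizer (Q : Set S) = Subgroup.zpowers (x : S) ⊓ Q :=
          (P.isPGroup'.to_le (Subgroup.zpowers_le.2 x.2)).inf_normalizer_sylow Q
        have h3 : (x : S) ∈ Subgroup.zpowers (x : S) ⊓ Subgroup.normalizer (Q : Set S) := ⟨Subgroup.mem_zpowers _, h1⟩
        rw [h2] at h3
        exact h3.2
      · intro h
        exact Sylow.smul_eq_iff_mem_normalizer.2 (Subgroup.le_normalizer h)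
    have horb := MulAction.index_stabilizer (P : Subgroup S) Q
    rw [hst] at horb
    have hlt : (MulAction.orbit (P : Subgroup S) Q).ncard < p ^ 2 :=
      lt_of_le_of_lt ((Set.ncard_le_ncard (Set.subset_univ _)).trans_eq (Set.ncard_univ _)) hn
    obtain ⟨k, -, hk⟩ := (Nat.dvd_prime_pow (Fact.out : p.Prime)).1
      (he ▸ (((Q : Subgroup S)).subgroupOf P).index_dvd_card)
    have h3 : p ^ k < p ^ 2 := by rw [← hk, horb]; exact hlt
    have h4 := (Nat.pow_lt_pow_iff_right (Fact.out : p.Prime).one_lt).1 h3
    show (((Q : Subgroup S)).subgroupOf P).index ≤ p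
    rw [hk]
    calc p ^ k ≤ p ^ 1 := Nat.pow_le_pow_right (Fact.out : p.Prime).pos (by omega)
      _ = p := pow_one p
  -- so each is normal with abelian quotient
  have hcomm : IsMulCommutative (P : Subgroup S) := by
    refine ⟨⟨fun a b => ?_⟩⟩
    have hall : ∀ g : S, ((a * b * a⁻¹ * b⁻¹ : (P : Subgroup S)) : S) ∈ MulAut.conj g • (P : Subgroup S) := by
      intro g
      set K := ((g • P : Sylow p S) : Subgroup S).subgroupOf P with hK
      have hle := hidx (g • P)
      obtain ⟨k, -, hk⟩ := (Nat.dvd_prime_pow (Fact.out : p.Prime)).1 (he ▸ K.index_dvd_card)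
      have hk1 : k ≤ 1 := by
        refine (Nat.pow_le_pow_iff_right (Fact.out : p.Prime).one_lt).1 ?_
        rw [pow_one, ← hk]
        exact hle
      interval_cases k
      · rw [pow_zero, Subgroup.index_eq_one] at hk
        have h : a * b * a⁻¹ * b⁻¹ ∈ K := by rw [hk]; exact Subgroup.mem_top _
        exact Subgroup.mem_subgroupOf.1 h
      · rw [pow_one] at hk
        haveI : K.Normal := Subgroup.normal_of_index_eq_minFac_card (by
          rw [hk, he, Nat.Prime.pow_minFac Fact.out (by omega)])
        haveI : IsCyclic ((P : Subgroup S) ⧸ K) := isCyclic_of_prime_card (p := p) (by rw [← Subgroup.index_eq_card, hk])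
        refine Subgroup.mem_subgroupOf.1 ((QuotientGroup.eq_one_iff _).1 ?_ : a * b * a⁻¹ * b⁻¹ ∈ K)
        rw [QuotientGroup.mk_mul, QuotientGroup.mk_mul, QuotientGroup.mk_mul]
        rw [QuotientGroup.mk_inv, QuotientGroup.mk_inv, IsCyclic.commGroup.mul_comm (a : (P : Subgroup S) ⧸ K) b]
        group
    have hmem : ((a * b * a⁻¹ * b⁻¹ : (P : Subgroup S)) : S) ∈ (P : Subgroup S).normalCore := fun g => by
      have h := hall g⁻¹
      rw [Subgroup.mem_pointwise_smul_iff_inv_smul_mem] at h
      simp [MulAut.smul_def] at h ⊢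
      simpa [mul_assoc] using h
    rw [hcore, Subgroup.mem_bot] at hmem
    have h1 : a * b * a⁻¹ * b⁻¹ = 1 := Subtype.ext hmem
    calc a * b = a * b * a⁻¹ * b⁻¹ * (b * a) := by group
      _ = b * a := by rw [h1, one_mul]
  have hOp : Cfsg.pCore p S = ⊥ := by
    refine le_bot_iff.1 (sSup_le fun N hN => ?_)
    rcases IsSimpleGroup.eq_bot_or_eq_top_of_normal N hN.1 with h | h
    · rw [h]
    · exfalso
      have hT : IsPGroup p S := (h ▸ hN.2).of_equiv Subgroup.topEquiv
      haveI := hT.isNilpotent
      exact hS ⟨⟨fun a b => IsSimpleGroup.comm_iff_isSolvable.2 inferInstance a b⟩⟩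
  obtain ⟨g, hg⟩ := Cfsg.Agent.S0060.result p P hcomm hOp
  have h5 := hidx (g • P)
  have h6 : ((g • P : Sylow p S) : Subgroup S).relIndex P = Nat.card P := by
    rw [← Subgroup.inf_relIndex_right, inf_comm]
    show ((P : Subgroup S) ⊓ MulAut.conj g • (P : Subgroup S)).relIndex P = _
    rw [hg, Subgroup.relIndex_bot_left]
  rw [h6] at h5
  refine le_antisymm h5 ?_
  rw [he]
  exact Nat.le_self_pow (by omega) p

end Cfsg.Agent.S4343
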