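import Cfsg.Statements.S4344


set_option autoImplicit false
open Cfsg

namespace Cfsg.Agent.S4344

/-- Let S be a finite non-abelian simple group, M a maximal subgroup of S and C a cyclic normal subgroup of M. If a Sylow p-subgroup P of S (for a prime p dividing the order of S) is contained in C, then the number of Sylow p-subgroups of S equals the index of M. -/
theorem result {S : Type*} [Group S] [Finite S]
    [IsSimpleGroup S] (hS : ¬ IsMulCommutative S) (p : ℕ) [Fact p.Prime] (hp : p ∣ Nat.card S)
    (M : Subgroup S) (hM : IsCoatom M) (C : Subgroup S) (hCM : C ≤ M) (hCn : (C.subgroupOf M).Normal)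
    (hC : IsCyclic C) (P : Sylow p S) (hP : (P : Subgroup S) ≤ C) :
    Nat.card (Sylow p S) = M.index := by
  haveI : IsCyclic C := hC
  have hPM : M ≤ Subgroup.normalizer ((P : Subgroup S) : Set S) := by
    intro m hm
    apply Sylow.smul_eq_iff_mem_normalizer.mp
    have hle : ((m • P : Sylow p S) : Subgroup S) ≤ C := by
      rw [Sylow.coe_subgroup_smul]
      rintro _ ⟨y, hy, rfl⟩
      exact hCn.conj_mem (⟨y, hCM (hP hy)⟩ : M) (hP hy) ⟨m, hm⟩
    haveI : ((P.subtype hP : Sylow p C) : Subgroup C).Normal := by
      refine ⟨fun n hn g => ?_⟩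
      letI := IsCyclic.commGroup (α := C)
      have : g * n * g⁻¹ = n := by rw [mul_comm g n, mul_inv_cancel_right]
      rwa [this]
    haveI := Sylow.unique_of_normal (P.subtype hP) inferInstance
    exact Sylow.subtype_injective (hP := hle) (hQ := hP) (Subsingleton.elim _ _)
  have hne : Subgroup.normalizer ((P : Subgroup S) : Set S) ≠ ⊤ := by
    intro htop
    have hn : (P : Subgroup S).Normal := Subgroup.normalizer_eq_top_iff.mp htop
    rcases hn.eq_bot_or_eq_top with h | h
    · exact P.ne_bot_of_dvd_card hp h
    · apply hS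
      have : C = ⊤ := top_le_iff.mp (h ▸ hP)
      haveI : IsCyclic (⊤ : Subgroup S) := this ▸ hC
      haveI : IsCyclic S := (Subgroup.topEquiv (G := S)).isCyclic.mp inferInstance
      letI := IsCyclic.commGroup (α := S)
      exact ⟨⟨mul_comm⟩⟩
  rw [Sylow.card_eq_index_normalizer P, ← Sylow.coe_coe]
  rcases hPM.eq_or_lt with h | h
  · rw [← h]
  · exact absurd (hM.2 _ h) hne

end Cfsg.Agent.S4344
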