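import Cfsg.Statements.S4345
import Mathlib
import Cfsg.Agent.S4303
import Cfsg.Agent.SylowNumber.Basic

set_option autoImplicit false
open Cfsg

namespace Cfsg.Agent.S4345

universe v

/-- The statement, by induction on the order. -/
theorem aux (p ℓ : ℕ) [Fact p.Prime] (hℓ : ℓ.Prime) : ∀ (N : ℕ) (G : Type v) [Group G] [Finite G],
    Nat.card G = N → Group.IsSolvable G → ℓ ^ (Nat.card (Sylow p G)).factorization ℓ ≡ 1 [MOD p] := by
  intro N
  induction N using Nat.strong_induction_on with
  | _ N ih => ?_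
  intro G _ _ hN hsol
  haveI := hsol
  rcases Cfsg.Agent.S4303.trichotomy G with hs | hs | ⟨K, hKn, hK1, hK2⟩
  · have h : Nat.card (Sylow p G) = 1 := Nat.card_eq_one_iff_unique.mpr
      ⟨⟨fun P Q => Sylow.ext (Subsingleton.elim _ _)⟩, inferInstance⟩
    simp [h, Nat.ModEq]
  · have h : Nat.card (Sylow p G) = 1 := by
      obtain ⟨P⟩ : Nonempty (Sylow p G) := inferInstance
      have hc : ∀ a b : G, a * b = b * a := IsSimpleGroup.comm_iff_isSolvable.mpr hsol
      haveI : (P : Subgroup G).Normal := ⟨fun n hn g => by rwa [hc g n, mul_inv_cancel_right]⟩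
      haveI := Sylow.unique_of_normal P inferInstance
      exact Nat.card_unique
    simp [h, Nat.ModEq]
  haveI := hKn
  have hmul := K.card_mul_index
  rw [hN] at hmul
  have hK1' : 1 < Nat.card K := (Subgroup.one_lt_card_iff_ne_bot K).mpr hK1
  have hi1 : 1 < K.index := by
    have h0 : K.index ≠ 0 := Subgroup.index_ne_zero_of_finite
    have h1 : K.index ≠ 1 := fun h => hK2 (Subgroup.index_eq_one.mp h)
    omega
  have h1 := ih (Nat.card (G ⧸ K)) (by
    rw [← hmul]; exact (lt_mul_iff_one_lt_left (by omega : 0 < K.index)).mpr hK1') (G ⧸ K) rfl inferInstance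
  have h2 := ih (Nat.card K) (by
    rw [← hmul]; exact (lt_mul_iff_one_lt_right (by omega : 0 < Nat.card K)).mpr hi1) K rfl inferInstance
  obtain ⟨m, hm, hm0, hmℓ⟩ := CfsgLib.SylowNumber.exists_factor (p := p) K
  rw [hm, Nat.factorization_mul (Nat.mul_ne_zero Nat.card_pos.ne' Nat.card_pos.ne') hm0,
    Nat.factorization_mul Nat.card_pos.ne' Nat.card_pos.ne', Finsupp.add_apply, Finsupp.add_apply, pow_add, pow_add]
  simpa using (h1.mul h2).mul (hmℓ ℓ hℓ)

/-- Let G be a finite solvable group and p, ℓ primes. Then the largest power of ℓ dividing the number of Sylow p-subgroups of G is congruent to 1 modulo p. -/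
theorem result {G : Type*} [Group G] [Finite G]
    (hG : Group.IsSolvable G) (p ℓ : ℕ) [Fact p.Prime] (hℓ : ℓ.Prime) :
    ℓ ^ (Nat.card (Sylow p G)).factorization ℓ ≡ 1 [MOD p] := by
  exact aux p ℓ hℓ _ G rfl hG

end Cfsg.Agent.S4345
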