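import Cfsg.Statements.S4354
-- import your own Cfsg.Agent.* helpers here

set_option autoImplicit false
open Cfsg

namespace Cfsg.Agent.S4354

variable {G : Type*} [Group G] [Finite G] {p : ℕ} [Fact p.Prime]

def Good (p : ℕ) (H : Type*) [Group H] : Prop :=
  ∀ x : H, (∃ k : ℕ, orderOf x = p ^ k) → ¬ p ∣ (Subgroup.centralizer ({x} : Set H)).index

lemma relIndex_dvd_index (C N : Subgroup G) [N.Normal] : C.relIndex N ∣ C.index := by
  have hc : ∀ {A B : Subgroup G}, A ≤ B → Nat.card A * A.relIndex B = Nat.card B := by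
    intro A B hAB
    rw [← Subgroup.relIndex_bot_left, ← Subgroup.relIndex_bot_left]
    exact Subgroup.relIndex_mul_relIndex ⊥ A B bot_le hAB
  have e1 := Subgroup.relIndex_sup_right C N
  have e2 : Nat.card (C ⊓ N : Subgroup G) * N.relIndex C = Nat.card C := by
    rw [← Subgroup.inf_relIndex_left C N]; exact hc inf_le_left
  have e3 : Nat.card N * N.relIndex (C ⊔ N) = Nat.card (C ⊔ N : Subgroup G) := hc le_sup_right
  have e4 : Nat.card (C ⊓ N : Subgroup G) * C.relIndex N = Nat.card N := by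
    rw [← Subgroup.inf_relIndex_right C N]; exact hc inf_le_right
  have e5 : Nat.card C * C.relIndex (C ⊔ N) = Nat.card (C ⊔ N : Subgroup G) := hc le_sup_left
  rw [e1] at e3
  have h4 : C.relIndex N = C.relIndex (C ⊔ N) := by
    apply Nat.eq_of_mul_eq_mul_left (Nat.card_pos (α := C))
    rw [e5, ← e3, ← e4, ← e2]; ring
  rw [h4]
  exact Subgroup.relIndex_dvd_index_of_le le_sup_left

lemma good_subgroup (h : Good p G) (N : Subgroup G) [N.Normal] : Good p N := by
  intro x hx hdvd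
  refine h (x : G) (by simpa [Subgroup.orderOf_coe] using hx) ?_
  refine dvd_trans ?_ (relIndex_dvd_index _ N)
  have : Subgroup.centralizer ({x} : Set N) =
      (Subgroup.centralizer ({(x : G)} : Set G)).subgroupOf N := by
    ext y
    simp [Subgroup.mem_subgroupOf, Subgroup.mem_centralizer_singleton_iff, Subtype.ext_iff]
  rw [this] at hdvd
  exact hdvd

lemma exists_sylow_centralizer (h : Good p G) {x : G} (hx : ∃ k : ℕ, orderOf x = p ^ k) :
    ∃ Q : Sylow p G, (Q : Subgroup G) ≤ Subgroup.centralizer ({x} : Set G) := by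
  obtain ⟨R⟩ : Nonempty (Sylow p (Subgroup.centralizer ({x} : Set G))) := inferInstance
  set C := Subgroup.centralizer ({x} : Set G)
  have hR : IsPGroup p ((R : Subgroup C).map C.subtype) := R.isPGroup'.map _
  have hidx : ¬ p ∣ ((R : Subgroup C).map C.subtype).index := by
    rw [Subgroup.index_map_subtype]
    exact (Fact.out : p.Prime).not_dvd_mul R.not_dvd_index (h x hx)
  exact ⟨hR.toSylow hidx, Subgroup.map_subtype_le _⟩

lemma good_quotient (h : Good p G) (N : Subgroup G) [N.Normal] : Good p (G ⧸ N) := by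
  intro y hy hdvd
  obtain ⟨k, hk⟩ := hy
  have hp : IsPGroup p (Subgroup.zpowers y) :=
    IsPGroup.of_card (n := k) (by rw [Nat.card_zpowers, hk])
  obtain ⟨Qb, hQb⟩ := hp.exists_le_sylow
  obtain ⟨Q, hQ⟩ := Sylow.mapSurjective_surjective (QuotientGroup.mk'_surjective N) p Qb
  have hy' : y ∈ (Q : Subgroup G).map (QuotientGroup.mk' N) := by
    have h1 := hQb (Subgroup.mem_zpowers y)
    rw [← hQ] at h1
    exact h1
  obtain ⟨x, hxQ, rfl⟩ := hy'
  obtain ⟨j, hj⟩ := Q.isPGroup' ⟨x, hxQ⟩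
  have hord : ∃ i : ℕ, orderOf x = p ^ i := by
    have hj' := congrArg (fun w : (Q : Subgroup G) => (w : G)) hj
    simp only [SubgroupClass.coe_pow, OneMemClass.coe_one] at hj'
    obtain ⟨i, -, hi⟩ := (Nat.dvd_prime_pow Fact.out).mp (orderOf_dvd_of_pow_eq_one hj')
    exact ⟨i, hi⟩
  refine h x hord (hdvd.trans ?_)
  refine dvd_trans (Subgroup.index_dvd_of_le ?_)
    (Subgroup.index_map_dvd (Subgroup.centralizer ({x} : Set G)) (QuotientGroup.mk'_surjective N))
  have := Subgroup.map_centralizer_le_centralizer_image ({x} : Set G) (QuotientGroup.mk' N)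
  rwa [Set.image_singleton] at this

/-- Let G be a finite group and p a prime such that the Sylow p-subgroups of G are non-abelian while every element of p-power order has conjugacy class size prime to p, and suppose no nontrivial proper normal subgroup N of G has this property and no quotient G/N by such an N has it. Then G is simple. -/
theorem result {G : Type*} [Group G] [Finite G]
    (p : ℕ) [Fact p.Prime] (h : ((∃ P : Sylow p G, ¬ IsMulCommutative P) ∧ ∀ x : G, (∃ k : ℕ, orderOf x = p ^ k) → ¬ p ∣ (Subgroup.centralizer ({x} : Set G)).index))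
    (hmin : ∀ (N : Subgroup G) [N.Normal], N ≠ ⊥ → N ≠ ⊤ →
      ¬ ((∃ P : Sylow p N, ¬ IsMulCommutative P) ∧ ∀ x : N, (∃ k : ℕ, orderOf x = p ^ k) → ¬ p ∣ (Subgroup.centralizer ({x} : Set N)).index) ∧
      ¬ ((∃ P : Sylow p (G ⧸ N), ¬ IsMulCommutative P) ∧ ∀ x : (G ⧸ N), (∃ k : ℕ, orderOf x = p ^ k) → ¬ p ∣ (Subgroup.centralizer ({x} : Set (G ⧸ N))).index)) :
    IsSimpleGroup G := by
  obtain ⟨⟨P₁, hP₁⟩, hgood⟩ := h
  have hgood : Good p G := hgood
  have hna : ∀ P : Sylow p G, ¬ IsMulCommutative P := by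
    intro P hP
    apply hP₁
    refine ⟨⟨fun a b => (P₁.equiv P).injective ?_⟩⟩
    rw [map_mul, map_mul, hP.is_comm.comm]
  have hnorm : ∀ (N : Subgroup G) [N.Normal], N ≠ ⊥ → N ≠ ⊤ →
      (∀ P : Sylow p N, IsMulCommutative P) ∧ (∀ P : Sylow p (G ⧸ N), IsMulCommutative P) := by
    intro N _ h1 h2
    obtain ⟨a, b⟩ := hmin N h1 h2
    refine ⟨fun P => ?_, fun P => ?_⟩
    · by_contra hc
      exact a ⟨⟨P, hc⟩, good_subgroup hgood N⟩
    · by_contra hc
      exact b ⟨⟨P, hc⟩, good_quotient hgood N⟩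
  have hP₁ne : (P₁ : Subgroup G) ≠ ⊥ := by
    intro hb
    apply hna P₁
    refine ⟨⟨fun a b => ?_⟩⟩
    have ha : (a : G) = 1 := (Subgroup.eq_bot_iff_forall _).mp hb a a.2
    have hb' : (b : G) = 1 := (Subgroup.eq_bot_iff_forall _).mp hb b b.2
    exact Subtype.ext (by simp [ha, hb'])
  haveI : Nontrivial G := by
    by_contra hc
    rw [not_nontrivial_iff_subsingleton] at hc
    exact hP₁ne (Subsingleton.elim _ _)
  set S : Set G := {g : G | ∃ k : ℕ, orderOf g = p ^ k} with hS
  haveI hMn : (Subgroup.closure S).Normal := by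
    refine ⟨fun n hn g => ?_⟩
    have : (Subgroup.closure S).map (MulAut.conj g).toMonoidHom ≤ Subgroup.closure S := by
      rw [MonoidHom.map_closure]
      apply Subgroup.closure_mono
      rintro _ ⟨y, hy, rfl⟩
      obtain ⟨k, hk⟩ := hy
      exact ⟨k, (MulEquiv.orderOf_eq (MulAut.conj g) y).trans hk⟩
    exact this ⟨n, hn, rfl⟩
  have hsyl : ∀ P : Sylow p G, ∀ y ∈ (P : Subgroup G), ∃ k : ℕ, orderOf y = p ^ k := by
    intro P y hy
    obtain ⟨j, hj⟩ := P.isPGroup' ⟨y, hy⟩
    have hj' := congrArg (fun w : (P : Subgroup G) => (w : G)) hj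
    simp only [SubgroupClass.coe_pow, OneMemClass.coe_one] at hj'
    obtain ⟨i, -, hi⟩ := (Nat.dvd_prime_pow Fact.out).mp (orderOf_dvd_of_pow_eq_one hj')
    exact ⟨i, hi⟩
  have hgen : Subgroup.closure S = ⊤ := by
    by_contra hc
    have hle : (P₁ : Subgroup G) ≤ Subgroup.closure S := fun y hy =>
      Subgroup.subset_closure (hsyl P₁ y hy)
    have h' := (hnorm (Subgroup.closure S) (fun hb => hP₁ne (le_bot_iff.mp (hb ▸ hle))) hc).1
      (P₁.subtype hle)
    apply hna P₁
    refine ⟨⟨fun a b => ?_⟩⟩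
    have := h'.is_comm.comm ⟨⟨a, hle a.2⟩, a.2⟩ ⟨⟨b, hle b.2⟩, b.2⟩
    apply Subtype.ext
    have := congrArg (fun w : ((P₁.subtype hle : Sylow p (Subgroup.closure S)) : Subgroup (Subgroup.closure S)) =>
      ((w : Subgroup.closure S) : G)) this
    exact this
  refine { eq_bot_or_eq_top_of_normal := fun N hN => ?_ }
  by_contra hc
  simp only [not_or] at hc
  obtain ⟨hNsyl, hQsyl⟩ := hnorm N hc.1 hc.2
  set P := P₁
  -- a Sylow subgroup of N inside P
  have hP0idx : ¬ p ∣ ((P : Subgroup G).subgroupOf N).index := by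
    intro hd
    exact P.not_dvd_index (hd.trans (relIndex_dvd_index (P : Subgroup G) N))
  have hP0p : IsPGroup p ((P : Subgroup G).subgroupOf N) :=
    P.isPGroup'.comap_of_injective N.subtype Subtype.coe_injective
  set P0 : Sylow p N := hP0p.toSylow hP0idx with hP0
  set C := Subgroup.centralizer (((P : Subgroup G) ⊓ N : Subgroup G) : Set G) with hC
  have hP0C : (P : Subgroup G) ⊓ N ≤ C := by
    intro a ha b hb
    have := (hNsyl P0).is_comm.comm ⟨⟨b, hb.2⟩, hb.1⟩ ⟨⟨a, ha.2⟩, ha.1⟩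
    exact congrArg (fun w : ((P0 : Sylow p N) : Subgroup N) => ((w : N) : G)) this
  have hsup : N ⊔ C = ⊤ := by
    rw [eq_top_iff, ← hgen, Subgroup.closure_le]
    intro y hy
    obtain ⟨Q, hQ⟩ := exists_sylow_centralizer hgood hy
    have hQ0p : IsPGroup p ((Q : Subgroup G).subgroupOf N) :=
      Q.isPGroup'.comap_of_injective N.subtype Subtype.coe_injective
    have hQ0idx : ¬ p ∣ ((Q : Subgroup G).subgroupOf N).index := by
      intro hd
      exact Q.not_dvd_index (hd.trans (relIndex_dvd_index (Q : Subgroup G) N))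
    obtain ⟨t, ht⟩ := MulAction.exists_smul_eq N P0 (hQ0p.toSylow hQ0idx)
    have key : (t : G)⁻¹ * y * t ∈ C := by
      intro b hb
      have hbP : (⟨b, hb.2⟩ : N) ∈ (P0 : Subgroup N) := hb.1
      have h2 : (MulAut.conj t) ⟨b, hb.2⟩ ∈ ((t • P0 : Sylow p N) : Subgroup N) := by
        rw [Sylow.coe_subgroup_smul]
        exact ⟨_, hbP, rfl⟩
      rw [ht] at h2
      have h3 : (t : G) * b * (t : G)⁻¹ ∈ (Q : Subgroup G) := h2
      have h4 := Subgroup.mem_centralizer_singleton_iff.mp (hQ h3)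
      calc b * ((t : G)⁻¹ * y * t)
          = (t : G)⁻¹ * (((t : G) * b * (t : G)⁻¹) * y) * t := by group
        _ = (t : G)⁻¹ * (y * ((t : G) * b * (t : G)⁻¹)) * t := by rw [h4]
        _ = ((t : G)⁻¹ * y * t) * b := by group
    have : y = (t : G) * ((t : G)⁻¹ * y * t) * (t : G)⁻¹ := by group
    rw [this]
    exact Subgroup.mul_mem _ (Subgroup.mul_mem _ (Subgroup.mem_sup_left t.2)
      (Subgroup.mem_sup_right key)) (Subgroup.mem_sup_left (N.inv_mem t.2))
  have hCidx : ¬ p ∣ C.index := by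
    intro hd
    have h1 : C.index = C.relIndex N := by
      apply Nat.dvd_antisymm ?_ (relIndex_dvd_index C N)
      have e1 : N.relIndex C = N.index := by
        rw [← Subgroup.relIndex_sup_right C N, sup_comm, hsup, Subgroup.relIndex_top_right]
      have hc : ∀ {A B : Subgroup G}, A ≤ B → Nat.card A * A.relIndex B = Nat.card B := by
        intro A B hAB
        rw [← Subgroup.relIndex_bot_left, ← Subgroup.relIndex_bot_left]
        exact Subgroup.relIndex_mul_relIndex ⊥ A B bot_le hAB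
      have e2 : Nat.card (C ⊓ N : Subgroup G) * N.relIndex C = Nat.card C := by
        rw [← Subgroup.inf_relIndex_left C N]; exact hc inf_le_left
      have e3 : Nat.card (C ⊓ N : Subgroup G) * C.relIndex N = Nat.card N := by
        rw [← Subgroup.inf_relIndex_right C N]; exact hc inf_le_right
      apply dvd_of_eq
      apply Nat.eq_of_mul_eq_mul_left (Nat.card_pos (α := C))
      rw [Subgroup.card_mul_index, ← Subgroup.card_mul_index N, ← e3, ← e2, e1]
      ring
    rw [h1] at hd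
    apply hP0idx
    refine hd.trans ?_
    have := Subgroup.relIndex_dvd_of_le_left N hP0C
    rw [Subgroup.inf_relIndex_right] at this
    exact this
  have hPC : (P : Subgroup G) ≤ C := by
    intro x hx
    have hnC : x ∈ Subgroup.normalizer (C : Set G) := by
      rw [Subgroup.mem_normalizer_iff]
      intro c
      have hstab : ∀ (z : G), z ∈ (P : Subgroup G) → ∀ b ∈ (P : Subgroup G) ⊓ N,
          z * b * z⁻¹ ∈ (P : Subgroup G) ⊓ N := fun z hz b hb =>
        ⟨(P : Subgroup G).mul_mem ((P : Subgroup G).mul_mem hz hb.1) ((P : Subgroup G).inv_mem hz),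
          hN.conj_mem b hb.2 z⟩
      constructor
      · intro hcC b hb
        have := hcC _ (hstab x⁻¹ ((P : Subgroup G).inv_mem hx) b hb)
        calc b * (x * c * x⁻¹) = x * ((x⁻¹ * b * x⁻¹⁻¹) * c) * x⁻¹ := by group
          _ = x * (c * (x⁻¹ * b * x⁻¹⁻¹)) * x⁻¹ := by rw [this]
          _ = (x * c * x⁻¹) * b := by group
      · intro hcC b hb
        have := hcC _ (hstab x hx b hb)
        calc b * c = x⁻¹ * ((x * b * x⁻¹) * (x * c * x⁻¹)) * x := by group
          _ = x⁻¹ * ((x * c * x⁻¹) * (x * b * x⁻¹)) * x := by rw [this]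
          _ = c * b := by group
    have h2 := Subgroup.pow_index_mem
      (C.subgroupOf (Subgroup.normalizer (C : Set G))) (⟨x, hnC⟩ : Subgroup.normalizer (C : Set G))
    rw [Subgroup.mem_subgroupOf, SubgroupClass.coe_pow] at h2
    obtain ⟨k, hk⟩ := hsyl P x hx
    have hco : (orderOf x).Coprime (C.relIndex (Subgroup.normalizer (C : Set G))) := by
      rw [hk]
      refine Nat.Coprime.pow_left k (((Fact.out : p.Prime).coprime_iff_not_dvd).mpr ?_)
      exact fun hd => hCidx (hd.trans (Subgroup.relIndex_dvd_index_of_le Subgroup.le_normalizer))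
    obtain ⟨m, hm⟩ := exists_pow_eq_self_of_coprime hco.symm
    rw [← hm]
    exact C.pow_mem h2 m
  -- main step
  apply hna P
  refine ⟨⟨fun x w => ?_⟩⟩
  obtain ⟨x, hx⟩ := x
  obtain ⟨w, hw⟩ := w
  apply Subtype.ext
  show x * w = w * x
  obtain ⟨Q, hQ⟩ := exists_sylow_centralizer hgood (hsyl P x hx)
  obtain ⟨g, rfl⟩ := MulAction.exists_smul_eq G P Q
  set z := g⁻¹ * x * g with hz
  have hzc : ∀ b ∈ (P : Subgroup G), z * b = b * z := by
    intro b hb
    have h3 : g * b * g⁻¹ ∈ ((g • P : Sylow p G) : Subgroup G) := by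
      rw [Sylow.coe_subgroup_smul]
      exact ⟨b, hb, rfl⟩
    have h4 := Subgroup.mem_centralizer_singleton_iff.mp (hQ h3)
    calc z * b = g⁻¹ * (x * (g * b * g⁻¹)) * g := by rw [hz]; group
      _ = g⁻¹ * ((g * b * g⁻¹) * x) * g := by rw [h4]
      _ = b * z := by rw [hz]; group
  have hzP : z ∈ (P : Subgroup G) := by
    have hzn : z ∈ Subgroup.normalizer ((P : Subgroup G) : Set G) := by
      rw [Subgroup.mem_normalizer_iff]
      intro b
      constructor
      · intro hb; rwa [hzc b hb, mul_inv_cancel_right]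
      · intro hb
        have := hzc _ hb
        have e : z * b * z⁻¹ = b := by
          calc z * b * z⁻¹ = z⁻¹ * (z * (z * b * z⁻¹)) := by group
            _ = z⁻¹ * ((z * b * z⁻¹) * z) := by rw [this]
            _ = b := by group
        rwa [e] at hb
    obtain ⟨k, hk⟩ := hsyl P x hx
    have hzord : orderOf z = p ^ k := by
      rw [← hk, hz, ← MulEquiv.orderOf_eq (MulAut.conj g⁻¹) x, MulAut.conj_apply, inv_inv]
    have hp : IsPGroup p (Subgroup.zpowers z) :=
      IsPGroup.of_card (n := k) (by rw [Nat.card_zpowers, hzord])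
    have := (hp.inf_normalizer_sylow P).le ⟨Subgroup.mem_zpowers z, hzn⟩
    exact this.2
  -- fusion in the quotient
  set f := QuotientGroup.mk' N with hf
  set Pb := P.mapSurjective (QuotientGroup.mk'_surjective N) with hPb
  haveI : IsMulCommutative (Pb : Subgroup (G ⧸ N)) := hQsyl Pb
  obtain ⟨nb, hnb, hconj⟩ := Sylow.conj_eq_normalizer_conj_of_mem Pb (f x) (f g)
    ⟨x, hx, rfl⟩ ⟨z, hzP, by rw [hz, map_mul, map_mul, map_inv]⟩
  obtain ⟨n, rfl⟩ := QuotientGroup.mk'_surjective N nb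
  have hPn : ((n • P : Sylow p G) : Subgroup G) ≤ (P : Subgroup G) ⊔ N := by
    rw [Sylow.coe_subgroup_smul]
    rintro _ ⟨b, hb, rfl⟩
    have h1 : f (n * b * n⁻¹) ∈ (Pb : Subgroup (G ⧸ N)) := by
      rw [map_mul, map_mul, map_inv]
      exact (Subgroup.mem_normalizer_iff.mp hnb (f b)).mp ⟨b, hb, rfl⟩
    obtain ⟨a, ha, hab⟩ := h1
    have h2 : a⁻¹ * (n * b * n⁻¹) ∈ N := by
      rw [← QuotientGroup.eq_one_iff]
      show f (a⁻¹ * (n * b * n⁻¹)) = 1
      rw [map_mul, map_inv, hab, inv_mul_cancel]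
    have h3 := Subgroup.mul_mem ((P : Subgroup G) ⊔ N) (Subgroup.mem_sup_left ha)
      (Subgroup.mem_sup_right h2)
    rwa [mul_inv_cancel_left] at h3
  obtain ⟨t, ht⟩ := MulAction.exists_smul_eq ((P : Subgroup G) ⊔ N : Subgroup G)
    (P.subtype le_sup_left) ((n • P).subtype hPn)
  have ht' : (t : G) • P = n • P := by
    rw [Sylow.smul_subtype] at ht
    exact Sylow.subtype_injective ht
  set m := (t : G)⁻¹ * n with hm
  have hmn : m ∈ Subgroup.normalizer ((P : Subgroup G) : Set G) := by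
    apply Sylow.smul_eq_iff_mem_normalizer.mp
    rw [hm, mul_smul, ← ht', inv_smul_smul]
  have hmP : m⁻¹ * x * m ∈ (P : Subgroup G) := by
    have := (Subgroup.mem_normalizer_iff'' (H := (P : Subgroup G))).mp hmn x
    exact this.mp hx
  have htf : f (t : G) ∈ (Pb : Subgroup (G ⧸ N)) := by
    obtain ⟨a, ha, b, hb, hab⟩ := Subgroup.mem_sup_of_normal_right.mp t.2
    rw [← hab, map_mul, (QuotientGroup.eq_one_iff b).mpr hb |> fun e => (e : f b = 1), mul_one]
    exact ⟨a, ha, rfl⟩
  have hfm : f (m⁻¹ * x * m) = f z := by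
    have hcm : f (t : G) * f x = f x * f (t : G) :=
      congrArg Subtype.val (‹IsMulCommutative (Pb : Subgroup (G ⧸ N))›.is_comm.comm
        ⟨f (t : G), htf⟩ ⟨f x, ⟨x, hx, rfl⟩⟩)
    rw [hz, map_mul f (g⁻¹ * x), map_mul f g⁻¹, map_inv, hconj, hm]
    simp only [map_mul, map_inv, mul_inv_rev, inv_inv]
    calc (f n)⁻¹ * f ↑t * f x * ((f ↑t)⁻¹ * f n)
        = (f n)⁻¹ * ((f ↑t * f x) * (f ↑t)⁻¹) * f n := by group
      _ = (f n)⁻¹ * f x * f n := by rw [hcm]; group
  have hN' : z⁻¹ * (m⁻¹ * x * m) ∈ (P : Subgroup G) ⊓ N := by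
    refine ⟨(P : Subgroup G).mul_mem ((P : Subgroup G).inv_mem hzP) hmP, ?_⟩
    show z⁻¹ * (m⁻¹ * x * m) ∈ N
    rw [← QuotientGroup.eq_one_iff]
    show f (z⁻¹ * (m⁻¹ * x * m)) = 1
    rw [map_mul, map_inv, hfm, inv_mul_cancel]
  have hcent : ∀ b ∈ (P : Subgroup G), (m⁻¹ * x * m) * b = b * (m⁻¹ * x * m) := by
    intro b hb
    have h1 : (z⁻¹ * (m⁻¹ * x * m)) * b = b * (z⁻¹ * (m⁻¹ * x * m)) := hPC hb _ hN'
    have h2 := hzc b hb
    calc (m⁻¹ * x * m) * b = z * ((z⁻¹ * (m⁻¹ * x * m)) * b) := by group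
      _ = z * (b * (z⁻¹ * (m⁻¹ * x * m))) := by rw [h1]
      _ = (z * b) * (z⁻¹ * (m⁻¹ * x * m)) := by group
      _ = (b * z) * (z⁻¹ * (m⁻¹ * x * m)) := by rw [h2]
      _ = b * (m⁻¹ * x * m) := by group
  have hw' : m⁻¹ * w * m ∈ (P : Subgroup G) :=
    ((Subgroup.mem_normalizer_iff'' (H := (P : Subgroup G))).mp hmn w).mp hw
  have := hcent _ hw'
  calc x * w = m * ((m⁻¹ * x * m) * (m⁻¹ * w * m)) * m⁻¹ := by group
    _ = m * ((m⁻¹ * w * m) * (m⁻¹ * x * m)) * m⁻¹ := by rw [this]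
    _ = w * x := by group

end Cfsg.Agent.S4354
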