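import Cfsg.Statements.S4376
import Mathlib
import Cfsg.Agent.OrderType.Tables

set_option autoImplicit false
open Cfsg

namespace Cfsg.Agent.S4376

open CfsgLib.OrderType

private abbrev Z (n : ℕ) := Multiplicative (ZMod n)
private abbrev X5 := fib d8Pair ((dihSgn 3).prodMap (dihSgn 7))
private abbrev X8 := fib d8Rot F42.sgn
private abbrev X10 := fib UT.sgn F42.sgn
private abbrev W7 := fib (dihSgn 7) (dihSgn 7)
private abbrev F21 := F42.sgn.ker
private abbrev X56 := fib d8Rot (dihSgn 7)
private abbrev X9 := fib F42.sgn (dihSgn 7)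
private abbrev X11 := fib UT.sgn (dihSgn 7)
private abbrev GG := Z 7 × (X5 × X5 × X5) × (AGamma × AGamma × AGamma) × (W7 × W7) × (X8 × X8 × X8) × (X10 × X10 × X10)
private abbrev HH := (L168 × L168 × L168) × ((Fin 9 → Z 2) × (Fin 4 → F21)) × (X56 × X56 × X56) × (X9 × X9) ×
  (Fin 3 → Z 3) × (X11 × X11 × X11)

private theorem counts_eq : counts GG = counts HH := by
  simp only [counts_prod, counts_pi, counts_fib₂, counts_fib, counts_ker,
    show counts AGamma = [1, 8, 57, 8, 120, 49, 120, 56, 105, 56, 168, 168] from counts_eq_tab.trans tab_AGamma,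
    show counts L168 = [1, 22, 57, 64, 78, 49, 120, 70, 105, 112, 126, 168] from counts_eq_tab.trans tab_L168,
    show counts (Z 2) = _ from counts_eq_tab.trans tab_C2,
    show counts (Z 3) = _ from counts_eq_tab.trans tab_C3,
    show counts (Z 7) = _ from counts_eq_tab.trans tab_C7,
    show (1 : Multiplicative (ZMod 2)) = Multiplicative.ofAdd 0 from rfl,
    tab_UT0, tab_UT1, tab_D8_0, tab_D8_1, tab_D14_0, tab_D14_1, tab_F42_0, tab_F42_1,
    tab_D8pair_00, tab_D8pair_01, tab_D8pair_10, tab_D8pair_11,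
    tab_S3D14_00, tab_S3D14_01, tab_S3D14_10, tab_S3D14_11]
  decide +kernel

private theorem solvable_dih (n : ℕ) [NeZero n] : Group.IsSolvable (DihedralGroup n) :=
  solvable_of_hom (dihSgn n) (by
    rintro (a | a) (b | b) hx hy
    · show DihedralGroup.r (a + b) = DihedralGroup.r (b + a)
      rw [add_comm]
    · exact absurd hy (by decide : Multiplicative.ofAdd (1 : ZMod 2) ≠ 1)
    · exact absurd hx (by decide : Multiplicative.ofAdd (1 : ZMod 2) ≠ 1)
    · exact absurd hx (by decide : Multiplicative.ofAdd (1 : ZMod 2) ≠ 1))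

private theorem solvable_UT : Group.IsSolvable UT := by
  haveI : Fact (Nat.Prime 2) := ⟨Nat.prime_two⟩
  have hp : IsPGroup 2 UT := IsPGroup.of_card (n := 6) (by rw [Nat.card_eq_fintype_card]; decide +kernel)
  haveI := hp.isNilpotent
  infer_instance

private theorem solvable_GG : Group.IsSolvable GG := by
  haveI := F42.solvable
  haveI := AGamma.solvable
  haveI := solvable_UT
  haveI := solvable_dih 3
  haveI := solvable_dih 4
  haveI := solvable_dih 7
  infer_instance

private def ga : L168 := ⟨⟨0, 0, 1, 0, 1, 0, 1, 0, 0⟩, by decide⟩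
private def gg : L168 := ⟨⟨0, 0, 1, 0, 1, 0, 1, 1, 0⟩, by decide⟩
private def gh : L168 := ⟨⟨0, 0, 1, 0, 1, 1, 1, 0, 0⟩, by decide⟩

open scoped commutatorElement in
private theorem not_solvable_L168 : ¬ Group.IsSolvable L168 := by
  refine not_isSolvable_of_mem_derivedSeries (g := ga) (by decide) fun n => ?_
  induction n with
  | zero => exact Subgroup.mem_top _
  | succ n ih =>
    haveI := derivedSeries_normal L168 n
    rw [show ga = ⁅gg * ga * gg⁻¹, gh * ga * gh⁻¹⁆ by decide +kernel, derivedSeries_succ]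
    exact Subgroup.commutator_mem_commutator (Subgroup.Normal.conj_mem this ga ih gg)
      (Subgroup.Normal.conj_mem this ga ih gh)

private theorem not_solvable_HH : ¬ Group.IsSolvable HH := fun h => by
  haveI := h
  exact not_solvable_L168 (Group.isSolvable_of_surjective
    (f := MonoidHom.mk' (fun x : HH => x.1.1) fun _ _ => rfl)
    fun x => ⟨((x, 1), 1), rfl⟩)

private theorem top_count (X : Type) [Group X] [Finite X] (h : ∀ x : X, x ^ 84 = 1) :
    solCount X 84 = Nat.card X :=
  Nat.card_congr (Equiv.subtypeUnivEquiv h)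

private theorem exp_of {M : Type} [Monoid M] [Fintype M] [DecidableEq M]
    (h : ∀ x : M, pw 7 x 84 = 1) : ∀ x : M, x ^ 84 = 1 := fun x => by
  rw [← pw_eq 7 x 84 (by norm_num)]
  exact h x

private theorem exp_prod {A B : Type} [Monoid A] [Monoid B] (ha : ∀ x : A, x ^ 84 = 1) (hb : ∀ x : B, x ^ 84 = 1) :
    ∀ x : A × B, x ^ 84 = 1 := fun x => Prod.ext (ha x.1) (hb x.2)

private theorem exp_pi {A : Type} [Monoid A] (n : ℕ) (ha : ∀ x : A, x ^ 84 = 1) :
    ∀ x : Fin n → A, x ^ 84 = 1 := fun x => funext fun i => ha (x i)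

private theorem exp_sub {A : Type} [Group A] (S : Subgroup A) (ha : ∀ x : A, x ^ 84 = 1) :
    ∀ x : S, x ^ 84 = 1 := fun x => Subtype.ext (ha x.1)

private theorem exp_all : (∀ x : GG, x ^ 84 = 1) ∧ ∀ x : HH, x ^ 84 = 1 := by
  have u : ∀ x : UT, x ^ 84 = 1 := exp_of (by decide +kernel)
  have f : ∀ x : F42, x ^ 84 = 1 := exp_of (by decide +kernel)
  have a : ∀ x : AGamma, x ^ 84 = 1 := exp_of (by decide +kernel)
  have l : ∀ x : L168, x ^ 84 = 1 := exp_of (by decide +kernel)
  have d3 : ∀ x : DihedralGroup 3, x ^ 84 = 1 := exp_of (by decide +kernel)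
  have d4 : ∀ x : DihedralGroup 4, x ^ 84 = 1 := exp_of (by decide +kernel)
  have d7 : ∀ x : DihedralGroup 7, x ^ 84 = 1 := exp_of (by decide +kernel)
  have z2 : ∀ x : Z 2, x ^ 84 = 1 := exp_of (by decide +kernel)
  have z3 : ∀ x : Z 3, x ^ 84 = 1 := exp_of (by decide +kernel)
  have z7 : ∀ x : Z 7, x ^ 84 = 1 := exp_of (by decide +kernel)
  have x5 := exp_sub X5 (exp_prod d4 (exp_prod d3 d7))
  have x8 := exp_sub X8 (exp_prod d4 f)
  have x10 := exp_sub X10 (exp_prod u f)
  have w7 := exp_sub W7 (exp_prod d7 d7)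
  have x56 := exp_sub X56 (exp_prod d4 d7)
  have x9 := exp_sub X9 (exp_prod f d7)
  have x11 := exp_sub X11 (exp_prod u d7)
  exact ⟨exp_prod z7 (exp_prod (exp_prod x5 (exp_prod x5 x5)) (exp_prod (exp_prod a (exp_prod a a))
      (exp_prod (exp_prod w7 w7) (exp_prod (exp_prod x8 (exp_prod x8 x8)) (exp_prod x10 (exp_prod x10 x10)))))),
    exp_prod (exp_prod l (exp_prod l l)) (exp_prod (exp_prod (exp_pi 9 z2) (exp_pi 4 (exp_sub F21 f)))
      (exp_prod (exp_prod x56 (exp_prod x56 x56)) (exp_prod (exp_prod x9 x9)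
        (exp_prod (exp_pi 3 z3) (exp_prod x11 (exp_prod x11 x11))))))⟩

/-- There are finite groups G and H having the same number of elements of each order (the same order type) with G solvable and H not solvable. -/
theorem result :
    ∃ (G : Type) (_ : Group G) (_ : Finite G) (H : Type) (_ : Group H) (_ : Finite H),
      Group.IsSolvable G ∧ ¬ Group.IsSolvable H ∧ ∀ n : ℕ, Nat.card {g : G // orderOf g = n} = Nat.card {h : H // orderOf h = n} := by
  refine ⟨GG, inferInstance, inferInstance, HH, inferInstance, inferInstance, solvable_GG, not_solvable_HH,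
    fun n => ?_⟩
  have hD : ∀ d ∈ Nat.divisors 84, d ∈ D84 := by decide
  exact orderType_eq (E := 84) (by norm_num)
    (fun d hd => List.map_inj_left.1 counts_eq d (hD d hd)) (top_count GG exp_all.1) (top_count HH exp_all.2) n

end Cfsg.Agent.S4376
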