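import Cfsg.Statements.S4377
-- import your own Cfsg.Agent.* helpers here

set_option autoImplicit false
open Cfsg

namespace Cfsg.Agent.S4377

theorem card_pow_eq_one (G : Type*) [Group G] [Finite G] (n : ℕ) (hn : n ≠ 0) :
    Nat.card {g : G // g ^ n = 1} = ∑ d ∈ n.divisors, Nat.card {g : G // orderOf g = d} := by
  classical
  haveI := Fintype.ofFinite G
  simp only [Nat.card_eq_fintype_card, Fintype.card_subtype]
  rw [Finset.card_eq_sum_card_fiberwise (f := orderOf) (t := n.divisors)
    (fun g hg => by simpa [orderOf_dvd_iff_pow_eq_one, hn] using hg)]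
  refine Finset.sum_congr rfl fun d hd => ?_
  congr 1
  ext g
  simp only [Finset.mem_filter, Finset.mem_univ, true_and, and_iff_right_iff_imp]
  rintro rfl
  exact orderOf_dvd_iff_pow_eq_one.1 (Nat.dvd_of_mem_divisors hd)

/-- Two finite groups have the same number of elements of each order if and only if, for every n, they have the same number of elements g with gⁿ = 1. -/
theorem result {G H : Type*} [Group G] [Finite G] [Group H] [Finite H] :
    (∀ n : ℕ, Nat.card {g : G // orderOf g = n} = Nat.card {h : H // orderOf h = n}) ↔
      ∀ n : ℕ, Nat.card {g : G // g ^ n = 1} = Nat.card {h : H // h ^ n = 1} := by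
  constructor
  · intro h n
    rcases Nat.eq_zero_or_pos n with rfl | hn
    · have hc : Nat.card G = Nat.card H := by
        have e1 := card_pow_eq_one G (Nat.card G * Nat.card H) (Nat.mul_ne_zero Nat.card_pos.ne' Nat.card_pos.ne')
        have e2 := card_pow_eq_one H (Nat.card G * Nat.card H) (Nat.mul_ne_zero Nat.card_pos.ne' Nat.card_pos.ne')
        have f1 : ∀ g : G, g ^ (Nat.card G * Nat.card H) = 1 := fun g => by rw [pow_mul, pow_card_eq_one', one_pow]
        have f2 : ∀ g : H, g ^ (Nat.card G * Nat.card H) = 1 := fun g => by rw [mul_comm, pow_mul, pow_card_eq_one', one_pow]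
        rw [Nat.card_congr (Equiv.subtypeUnivEquiv f1)] at e1
        rw [Nat.card_congr (Equiv.subtypeUnivEquiv f2)] at e2
        exact e1.trans ((Finset.sum_congr rfl fun d _ => h d).trans e2.symm)
      rw [Nat.card_congr (Equiv.subtypeUnivEquiv fun g : G => pow_zero g),
        Nat.card_congr (Equiv.subtypeUnivEquiv fun g : H => pow_zero g), hc]
    · rw [card_pow_eq_one G n hn.ne', card_pow_eq_one H n hn.ne']
      exact Finset.sum_congr rfl fun d _ => h d
  · intro h n
    induction n using Nat.strong_induction_on with
    | _ n ih =>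
      rcases Nat.eq_zero_or_pos n with rfl | hn
      · have e1 : IsEmpty {g : G // orderOf g = 0} := ⟨fun g => (orderOf_pos g.1).ne' g.2⟩
        have e2 : IsEmpty {g : H // orderOf g = 0} := ⟨fun g => (orderOf_pos g.1).ne' g.2⟩
        rw [Nat.card_of_isEmpty, Nat.card_of_isEmpty]
      · have e := h n
        rw [card_pow_eq_one G n hn.ne', card_pow_eq_one H n hn.ne',
          ← Nat.insert_self_properDivisors hn.ne',
          Finset.sum_insert Nat.self_notMem_properDivisors, Finset.sum_insert Nat.self_notMem_properDivisors] at e
        have hs : ∑ d ∈ n.properDivisors, Nat.card {g : G // orderOf g = d}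
            = ∑ d ∈ n.properDivisors, Nat.card {g : H // orderOf g = d} :=
          Finset.sum_congr rfl fun d hd => ih d (Nat.mem_properDivisors.1 hd).2
        omega

end Cfsg.Agent.S4377
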