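import Cfsg.Statements.S4396
import Cfsg.Agent.FrobModule.Main

set_option autoImplicit false
open Cfsg

open scoped Pointwise

namespace Cfsg.Agent.S4396

/-- Let the finite group A act faithfully and linearly on a finite-dimensional vector space V over a field k, and suppose A is a Frobenius group with nilpotent kernel F (every Frobenius kernel is nilpotent) and complement H such that F fixes no nonzero vector. Then V is free as a module for H: there is a subspace W with V the direct sum of the translates hW, h ∈ H. (No assumption on the characteristic of k.) -/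
theorem result {k V A : Type*} [Field k] [AddCommGroup V] [Module k V] [FiniteDimensional k V] [Group A] [Finite A] [DecidableEq A]
    (ρ : Representation k A V) (hρ : Function.Injective ρ)
    (Fk Hc : Subgroup A) [Fk.Normal] (hHc : Cfsg.IsFrobeniusComplement Hc) (hker : Cfsg.frobeniusKernel Hc = (Fk : Set A)) (hnil : Group.IsNilpotent ↥Fk)
    (hCF : ∀ v : V, (∀ f ∈ Fk, ρ f v = v) → v = 0) :
    ∃ W : Submodule k V, DirectSum.IsInternal (fun h : ↥Hc => W.map (ρ (h : A))) := by
  classical
  haveI := Fintype.ofFinite Hc
  have hfpf : ∀ h ∈ Hc, h ≠ 1 → ∀ f ∈ Fk, h * f * h⁻¹ = f → f = 1 := by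
    intro h hh h1 f hf hc
    by_contra hf1
    have hfH : f ∉ Hc := fun hm => by
      have hf' : f ∈ Cfsg.frobeniusKernel Hc := hker ▸ hf
      rcases hf' with e | hg
      · exact hf1 e
      · exact hg 1 (by simpa using hm)
    have hmem : h ∈ Hc ⊓ (MulAut.conj f • Hc) := by
      refine ⟨hh, ?_⟩
      refine Subgroup.mem_smul_pointwise_iff_exists h (MulAut.conj f) Hc |>.2 ⟨h, hh, ?_⟩
      show f * h * f⁻¹ = h
      rw [mul_inv_eq_iff_eq_mul] at hc ⊢
      exact hc.symm
    rw [hHc.2.2 f hfH, Subgroup.mem_bot] at hmem
    exact h1 hmem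
  exact CfsgLib.FrobModule.exists_isInternal (ρ.comp Hc.subtype)
    (CfsgLib.FrobModule.isFreeOn_of_frobenius ρ Fk Hc hnil hfpf _ ⊤ rfl (fun _ _ _ => Submodule.mem_top)
      fun x _ h => hCF x h)


end Cfsg.Agent.S4396
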