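import Cfsg.Statements.S4402
import Cfsg.Agent.WreathEight.Final
import Cfsg.Agent.WreathEight.Perm

set_option autoImplicit false
open Cfsg

namespace Cfsg.Agent.S4402

/-- Let S be a finite 2-group of sectional 2-rank at most 4 and P a proper subgroup isomorphic to the wreath product of the dihedral group of order 8 by a group of order 2 (equivalently, to a Sylow 2-subgroup of the symmetric group of degree 8; order 128). Then Z(S) = Z(P) has order 2, P has index 2 in its normalizer N_S(P), N_S(P)/Z(S) is again isomorphic to that wreath product, and every elementary abelian subgroup V of order 16 that is normal in P satisfies N_S(V) = P. -/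
theorem result {S : Type*} [Group S] [Finite S] (h2 : IsPGroup 2 S) (hr : Cfsg.SectionalPRankLE 2 4 S)
    (P : Subgroup S) (hPlt : P ≠ ⊤) (hP : ∃ T : Sylow 2 (Equiv.Perm (Fin 8)), Nonempty (↥P ≃* ↥(T : Subgroup (Equiv.Perm (Fin 8))))) :
    Subgroup.center S = (Subgroup.center ↥P).map P.subtype ∧ Nat.card ↥(Subgroup.center S) = 2 ∧
    P.relIndex (Subgroup.normalizer (P : Set S)) = 2 ∧
    (∃ (_ : ((Subgroup.center S).subgroupOf (Subgroup.normalizer (P : Set S))).Normal) (T : Sylow 2 (Equiv.Perm (Fin 8))),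
      Nonempty (↥(Subgroup.normalizer (P : Set S)) ⧸ (Subgroup.center S).subgroupOf (Subgroup.normalizer (P : Set S)) ≃*
        ↥(T : Subgroup (Equiv.Perm (Fin 8))))) ∧
    ∀ V : Subgroup S, V ≤ P → (∀ g ∈ P, ∀ v ∈ V, g * v * g⁻¹ ∈ V) → Cfsg.IsElementaryAbelian 2 V → Nat.card ↥V = 16 →
      Subgroup.normalizer (V : Set S) = P := by
  haveI : Fact (Nat.Prime 2) := ⟨Nat.prime_two⟩
  obtain ⟨T, ⟨e⟩⟩ := hP
  obtain ⟨eT⟩ := CfsgLib.WreathEight.nonempty_equiv T
  set ι : CfsgLib.WreathEight.W →* S := P.subtype.comp (eT.trans e.symm).toMonoidHom with hιdef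
  have hι : Function.Injective ι := Subtype.val_injective.comp (eT.trans e.symm).injective
  have hrange : ι.range = P := by
    rw [hιdef, MonoidHom.range_comp, MonoidHom.range_eq_top.mpr (eT.trans e.symm).surjective,
      ← MonoidHom.range_eq_map, Subgroup.range_subtype]
  have htop : ι.range ≠ ⊤ := hrange ▸ hPlt
  obtain ⟨hcen, -, hcard⟩ := CfsgLib.WreathEight.center_eq h2 hr ι hι
  have hmap : (Subgroup.center CfsgLib.WreathEight.W).map ι = (Subgroup.center ↥P).map P.subtype := by
    rw [hιdef, ← Subgroup.map_map]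
    congr 1
    ext u
    constructor
    · rintro ⟨w, hw, rfl⟩
      exact Subgroup.mem_center_iff.mpr fun g => by
        obtain ⟨v, rfl⟩ := (eT.trans e.symm).surjective g
        exact ((map_mul (eT.trans e.symm) v w).symm.trans
          (congrArg (eT.trans e.symm) (Subgroup.mem_center_iff.mp hw v))).trans (map_mul _ _ _)
    · intro hu
      obtain ⟨w, rfl⟩ := (eT.trans e.symm).surjective u
      exact ⟨w, Subgroup.mem_center_iff.mpr fun g => (eT.trans e.symm).injective (by
        rw [map_mul, map_mul]; exact Subgroup.mem_center_iff.mp hu _), rfl⟩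
  refine ⟨hcen.trans hmap, hcard, ?_, ?_, ?_⟩
  · rw [← hrange]
    exact CfsgLib.WreathEight.relIndex_eq_two h2 hr ι hι htop
  · rw [← hrange]
    obtain ⟨hn, ⟨q⟩⟩ := CfsgLib.WreathEight.normalizer_quotient h2 hr ι hι htop
    exact ⟨hn, T, ⟨q.symm.trans eT⟩⟩
  · intro V hV hn hel hc
    rw [← hrange] at hV hn ⊢
    exact CfsgLib.WreathEight.normalizer_eq h2 hr ι hι V hV hn hel hc

end Cfsg.Agent.S4402
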