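import Cfsg.Statements.S4404
import Cfsg.Agent.MovingFour.Solvable

set_option autoImplicit false
open Cfsg
open scoped commutatorElement

namespace Cfsg.Agent.S4404

/-- Let S be a finite solvable group and M a normal elementary abelian 2-subgroup of S. Suppose S contains an elementary abelian subgroup of order p³ for some odd prime p, and a cyclic 3-subgroup Q such that the cubes of the elements of Q centralize M and the commutator subgroup [Q, M] has order 4 (a four-group inside M). Then S contains an elementary abelian subgroup F of order r³, for some odd prime r, whose centralizer of [Q, M] in F — the subgroup C_F([Q, M]) — is not cyclic. -/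
theorem result {S : Type*} [Group S] [Finite S]
    [Group.IsSolvable S] (M : Subgroup S) [M.Normal] (hM : Cfsg.IsElementaryAbelian 2 M)
    (p : ℕ) (hp : p.Prime) (hp2 : p ≠ 2) (E : Subgroup S) (hE : Cfsg.IsElementaryAbelian p E) (hE3 : Nat.card ↥E = p ^ 3)
    (Q : Subgroup S) (hQc : IsCyclic ↥Q) (hQ3 : IsPGroup 3 ↥Q)
    (hQ1 : ∀ x ∈ Q, x ^ 3 ∈ Subgroup.centralizer (M : Set S)) (hQM : Nat.card ↥⁅Q, M⁆ = 4) :
    ∃ (r : ℕ) (F : Subgroup S), r.Prime ∧ r ≠ 2 ∧ Cfsg.IsElementaryAbelian r F ∧ Nat.card ↥F = r ^ 3 ∧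
      ¬ IsCyclic ↥(F ⊓ Subgroup.centralizer ((⁅Q, M⁆ : Subgroup S) : Set S)) := by
  classical
  haveI := hM.1
  letI : CommGroup M := { (inferInstance : Group M) with mul_comm := fun a b => Std.Commutative.comm a b }
  haveI := hE.1
  haveI : Fact p.Prime := ⟨hp⟩
  haveI : Fact (Nat.Prime 3) := ⟨Nat.prime_three⟩
  obtain ⟨⟨x, hxQ⟩, hgen⟩ := hQc.exists_generator
  have hQx : Q = Subgroup.zpowers x := le_antisymm
    (fun y hy => by
      obtain ⟨k, hk⟩ := Subgroup.mem_zpowers_iff.1 (hgen ⟨y, hy⟩)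
      exact Subgroup.mem_zpowers_iff.2 ⟨k, congrArg Subtype.val hk⟩)
    (Subgroup.zpowers_le.2 hxQ)
  set X := (MulAut.conjNormal (H := M) x) with hX
  set W := (CfsgLib.MovingFour.delta X).range.map M.subtype with hWdef
  have hmemW : ∀ m : M, x * m * x⁻¹ * (m : S)⁻¹ ∈ W := fun m => ⟨_, ⟨m, rfl⟩, by
    simp [CfsgLib.MovingFour.delta_apply, hX, MulAut.conjNormal_apply]⟩
  have hWeq : ⁅Q, M⁆ = W := by
    refine le_antisymm (Subgroup.commutator_le.2 fun q hq m hm => ?_) ?_
    · obtain ⟨n, rfl⟩ := (isOfFinOrder_of_finite x).mem_powers_iff_mem_zpowers.2 (hQx ▸ hq)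
      show ⁅x ^ n, m⁆ ∈ W
      induction n generalizing m with
      | zero => simp
      | succ n ih =>
        have hmem : x ^ n * m * (x ^ n)⁻¹ ∈ M := (inferInstance : M.Normal).conj_mem m hm _
        have e : ⁅x ^ (n + 1), m⁆ = x * (x ^ n * m * (x ^ n)⁻¹) * x⁻¹ * (x ^ n * m * (x ^ n)⁻¹)⁻¹ *
            ⁅x ^ n, m⁆ := by
          rw [commutatorElement_def, commutatorElement_def, pow_succ']
          group
        rw [e]
        exact mul_mem (hmemW ⟨_, hmem⟩) (ih m hm (pow_mem hxQ n))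
    · rintro _ ⟨_, ⟨m, rfl⟩, rfl⟩
      have : M.subtype (CfsgLib.MovingFour.delta X m) = ⁅x, (m : S)⁆ := by
        simp [CfsgLib.MovingFour.delta_apply, hX, MulAut.conjNormal_apply, commutatorElement_def]
      rw [this]
      exact Subgroup.commutator_mem_commutator hxQ m.2
  have h4 : Nat.card (CfsgLib.MovingFour.delta X).range = 4 := by
    rw [← hQM, hWeq, hWdef, Subgroup.card_map_of_injective M.subtype_injective]
  have hfinish : ∀ (r : ℕ) (F K : Subgroup S), r.Prime → Cfsg.IsElementaryAbelian r F → Nat.card F = r ^ 3 →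
      K ≤ F → Nat.card F ≤ r * Nat.card K →
      (∀ k ∈ K, ∀ m : M, k * (x * m * x⁻¹ * (m : S)⁻¹) = (x * m * x⁻¹ * (m : S)⁻¹) * k) →
      ¬ IsCyclic ↥(F ⊓ Subgroup.centralizer ((⁅Q, M⁆ : Subgroup S) : Set S)) := by
    intro r F K hr hF hcard hKF hK hcomm
    haveI : Fact r.Prime := ⟨hr⟩
    refine CfsgLib.MovingFour.not_isCyclic_of_lt (p := r) (fun a ha => hF.2 a ha.1) ?_
    have hKle : K ≤ F ⊓ Subgroup.centralizer ((⁅Q, M⁆ : Subgroup S) : Set S) := by
      refine fun k hk => ⟨hKF hk, Subgroup.mem_centralizer_iff.2 fun w hw => ?_⟩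
      rw [SetLike.mem_coe, hWeq] at hw
      obtain ⟨_, ⟨m, rfl⟩, rfl⟩ := hw
      have := (hcomm k hk m).symm
      simpa [CfsgLib.MovingFour.delta_apply, hX, MulAut.conjNormal_apply] using this
    have h1 := Subgroup.card_le_of_le hKle
    rw [hcard] at hK
    have h2 : r ^ 2 ≤ Nat.card K := by
      refine Nat.le_of_mul_le_mul_left ?_ hr.pos
      rw [← pow_succ']
      exact hK
    have := hr.two_le
    nlinarith
  obtain ⟨P, hP⟩ := hQ3.exists_le_sylow
  by_cases h : ∀ A : Subgroup P, A.Normal → IsMulCommutative A → (∀ a ∈ A, a ^ 3 = 1) → Nat.card A ≠ 3 ^ 3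
  · have hrk : ∀ B : Subgroup S, IsMulCommutative B → (∀ b ∈ B, b ^ 3 = 1) → Nat.card B ≤ 9 := by
      intro B hB hBe
      haveI := hB
      obtain ⟨P', hP'⟩ := (show IsPGroup 3 B from fun b => ⟨1, Subtype.ext (by simpa using hBe b b.2)⟩).exists_le_sylow
      obtain ⟨g, hg⟩ := MulAction.exists_smul_eq S P' P
      let B' := B.map (MulAut.conj g).toMonoidHom
      have hB'P : B' ≤ (P : Subgroup S) := by
        rintro _ ⟨b, hb, rfl⟩
        rw [← hg, Sylow.coe_subgroup_smul]
        exact Subgroup.smul_mem_pointwise_smul b (MulAut.conj g) _ (hP' hb)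
      have h2 := Cfsg.Agent.S0100.result (by norm_num) P.2 h (B'.subgroupOf P)
        inferInstance (by
          rintro ⟨b, hbP⟩ ⟨c, hc, hcb⟩
          refine Subtype.ext ?_
          rw [Subgroup.coe_pow, Subgroup.coe_one]
          show b ^ 3 = 1
          rw [show b = (MulAut.conj g).toMonoidHom c from hcb.symm, ← map_pow, hBe c hc, map_one])
      rwa [Nat.card_congr (Subgroup.subgroupOfEquivOfLe hB'P).toEquiv,
        Subgroup.card_map_of_injective (MulAut.conj g).injective] at h2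
    have hp3 : p ≠ 3 := by
      rintro rfl
      have := hrk E hE.1 hE.2
      omega
    have hp5 : 5 ≤ p := by
      have := hp.two_le
      have h4' : p ≠ 4 := by rintro rfl; exact absurd hp (by norm_num)
      omega
    have hEp : IsPGroup p E := IsPGroup.of_card (n := 3) hE3
    obtain ⟨O, g, hO, hxO, hEO⟩ :=
      CfsgLib.MovingFour.exists_normalized_pGroup hp5 hrk x (hQx ▸ hQ3) E hEp
    set F := E.map (MulAut.conj g).toMonoidHom with hF
    have hFel : Cfsg.IsElementaryAbelian p F := ⟨inferInstance, by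
      rintro _ ⟨e, he, rfl⟩
      rw [← map_pow, hE.2 e he, map_one]⟩
    have hFc : Nat.card F = p ^ 3 := by rw [hF, Subgroup.card_map_of_injective (MulAut.conj g).injective, hE3]
    haveI := hFel.1
    obtain ⟨K, hKF, hK, hcomm⟩ := CfsgLib.MovingFour.exists_centralizing_large M hM.2 hp5 O hO x hxO
      (hQ1 x hxQ) F hEO hFel.2 h4
    exact ⟨p, F, hp, hp2, hFel, hFc, hfinish p F K hp hFel hFc hKF hK hcomm⟩
  · push Not at h
    obtain ⟨A, hAn, hAc, hAe, hAcard⟩ := h
    haveI := hAc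
    set F := A.map (P : Subgroup S).subtype with hF
    have hFel : Cfsg.IsElementaryAbelian 3 F := ⟨inferInstance, by
      rintro _ ⟨a, ha, rfl⟩
      rw [← map_pow, hAe a ha, map_one]⟩
    have hFc : Nat.card F = 3 ^ 3 := by
      rw [hF, Subgroup.card_map_of_injective (P : Subgroup S).subtype_injective, hAcard]
    haveI := hFel.1
    have hxF : ∀ a ∈ F, x * a * x⁻¹ ∈ F := by
      rintro _ ⟨a, ha, rfl⟩
      exact ⟨⟨x, hP hxQ⟩ * a * ⟨x, hP hxQ⟩⁻¹, hAn.conj_mem a ha _, rfl⟩
    obtain ⟨K, hKF, hK, hcomm⟩ := CfsgLib.MovingFour.exists_index_le_centralizing M hM.2 3 (by norm_num)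
      F hFel.2 x hxF (hQ1 x hxQ) h4
    exact ⟨3, F, Nat.prime_three, by norm_num, hFel, hFc, hfinish 3 F K Nat.prime_three hFel hFc hKF hK hcomm⟩

end Cfsg.Agent.S4404
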