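import Cfsg.Statements.S4406
-- import your own Cfsg.Agent.* helpers here

set_option autoImplicit false
open Cfsg

set_option maxRecDepth 4000
set_option synthInstance.maxSize 1000

namespace Cfsg.Agent.S4406

theorem sq_one_of_pow_four : ∀ x : ↥(alternatingGroup (Fin 4)), x ^ 4 = 1 → x * x = 1 := by decide +kernel

theorem pow_three_of_nine (x : ↥(alternatingGroup (Fin 4))) (hA : Nat.card ↥(alternatingGroup (Fin 4)) = 12)
    (h : x ^ 9 = 1) : x ^ 3 = 1 :=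
  orderOf_dvd_iff_pow_eq_one.mp (by
    have := Nat.dvd_gcd (orderOf_dvd_of_pow_eq_one h) (hA ▸ orderOf_dvd_natCard x)
    simpa using this)

theorem conj_ne : ∀ a x : ↥(alternatingGroup (Fin 4)), a ^ 3 = 1 → a ≠ 1 → x * x = 1 → x ≠ 1 →
    a * x * a⁻¹ ≠ x := by decide +kernel

theorem conj_twice : ∀ a x : ↥(alternatingGroup (Fin 4)), a ^ 3 = 1 → a ≠ 1 → x * x = 1 →
    a * (a * x * a⁻¹) * a⁻¹ = x * (a * x * a⁻¹) := by decide +kernel

theorem involutions : ∀ a x y : ↥(alternatingGroup (Fin 4)), a ^ 3 = 1 → a ≠ 1 → x * x = 1 → x ≠ 1 →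
    y * y = 1 → y ≠ 1 → y = x ∨ y = a * x * a⁻¹ ∨ y = a⁻¹ * x * a := by decide +kernel

theorem four_cases : ∀ x x' z : ↥(alternatingGroup (Fin 4)), x * x = 1 → x ≠ 1 → x' * x' = 1 → x' ≠ 1 →
    x' ≠ x → z * z = 1 → z = 1 ∨ z = x ∨ z = x' ∨ z = x * x' := by decide +kernel

/-- In the direct product P = A₄ × A₄, let X be the Sylow 2-subgroup, X₁ and X₂ its intersections with the two direct factors, Q a Sylow 3-subgroup and Q₁, Q₂ its intersections with the two factors. Then every subgroup B of X of order 4 either meets X₁ or X₂ nontrivially, or is normalized by one of the two subgroups of Q of order 3 other than Q₁ and Q₂. -/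
theorem result
    (X : Sylow 2 (↥(alternatingGroup (Fin 4)) × ↥(alternatingGroup (Fin 4))))
    (Q : Sylow 3 (↥(alternatingGroup (Fin 4)) × ↥(alternatingGroup (Fin 4))))
    (B : Subgroup (↥(alternatingGroup (Fin 4)) × ↥(alternatingGroup (Fin 4)))) (hBX : B ≤ (X : Subgroup _)) (hB4 : Nat.card ↥B = 4) :
    B ⊓ ((X : Subgroup _) ⊓ Subgroup.prod ⊤ ⊥) ≠ ⊥ ∨ B ⊓ ((X : Subgroup _) ⊓ Subgroup.prod ⊥ ⊤) ≠ ⊥ ∨
      ∃ R : Subgroup (↥(alternatingGroup (Fin 4)) × ↥(alternatingGroup (Fin 4))), R ≤ (Q : Subgroup _) ∧ Nat.card ↥R = 3 ∧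
        R ≠ (Q : Subgroup _) ⊓ Subgroup.prod ⊤ ⊥ ∧ R ≠ (Q : Subgroup _) ⊓ Subgroup.prod ⊥ ⊤ ∧ R ≤ Subgroup.normalizer (B : Set _) := by
  obtain ⟨X1, hX1⟩ : ∃ S, S = B ⊓ ((X : Subgroup _) ⊓ Subgroup.prod ⊤ ⊥) := ⟨_, rfl⟩
  obtain ⟨X2, hX2⟩ : ∃ S, S = B ⊓ ((X : Subgroup _) ⊓ Subgroup.prod ⊥ ⊤) := ⟨_, rfl⟩
  rw [← hX1, ← hX2]
  by_cases h1 : X1 = ⊥
  swap
  · exact Or.inl h1
  by_cases h2 : X2 = ⊥
  swap
  · exact Or.inr (Or.inl h2)
  refine Or.inr (Or.inr ?_)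
  haveI : Fact (Nat.Prime 3) := ⟨Nat.prime_three⟩
  haveI : Fact (Nat.Prime 2) := ⟨Nat.prime_two⟩
  have hA : Nat.card ↥(alternatingGroup (Fin 4)) = 12 := by rw [Nat.card_eq_fintype_card]; decide
  have hsq : ∀ g ∈ B, g.1 * g.1 = 1 ∧ g.2 * g.2 = 1 := by
    intro g hg
    have h4 : g ^ 4 = 1 := by
      have := pow_card_eq_one' (G := B) (x := ⟨g, hg⟩)
      rw [hB4] at this
      exact congrArg Subtype.val this
    exact ⟨sq_one_of_pow_four g.1 (congrArg Prod.fst h4), sq_one_of_pow_four g.2 (congrArg Prod.snd h4)⟩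
  have hf1 : ∀ g ∈ B, g.1 = 1 → g = 1 := fun g hg h => Subgroup.mem_bot.mp (h2 ▸ hX2 ▸
    (show g ∈ B ⊓ ((X : Subgroup _) ⊓ Subgroup.prod ⊥ ⊤) from ⟨hg, hBX hg, h, trivial⟩))
  have hf2 : ∀ g ∈ B, g.2 = 1 → g = 1 := fun g hg h => Subgroup.mem_bot.mp (h1 ▸ hX1 ▸
    (show g ∈ B ⊓ ((X : Subgroup _) ⊓ Subgroup.prod ⊤ ⊥) from ⟨hg, hBX hg, trivial, h⟩))
  have hinj : Function.Injective (fun g : B => (⟨g.1.1, (hsq g g.2).1⟩ : {x : ↥(alternatingGroup (Fin 4)) // x * x = 1})) := by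
    intro g g' h
    have h' : g.1.1 = g'.1.1 := congrArg Subtype.val h
    apply Subtype.ext
    apply mul_inv_eq_one.mp
    exact hf1 _ (B.mul_mem g.2 (B.inv_mem g'.2)) (by simp [h'])
  have hbij := (Nat.bijective_iff_injective_and_card _).mpr ⟨hinj, by rw [hB4, Nat.card_eq_fintype_card]; decide⟩
  have hQ9 : Nat.card Q.toSubgroup = 9 := by
    rw [Q.card_eq_multiplicity, Nat.card_prod, hA, show 12 * 12 = 3 ^ 2 * 16 by norm_num,
      Nat.factorization_mul (by norm_num) (by norm_num), Finsupp.add_apply,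
      Nat.factorization_pow, Finsupp.smul_apply, Nat.Prime.factorization_self Nat.prime_three,
      Nat.factorization_eq_zero_of_not_dvd (show ¬ 3 ∣ 16 by norm_num)]
    norm_num
  have hthree : ∀ g ∈ Q.toSubgroup, g.1 ^ 3 = 1 ∧ g.2 ^ 3 = 1 := by
    intro g hg
    have h9 := pow_card_eq_one' (G := Q.toSubgroup) (x := ⟨g, hg⟩)
    rw [hQ9] at h9
    have h9' : g ^ 9 = 1 := congrArg Subtype.val h9
    refine ⟨?_, ?_⟩
    · exact pow_three_of_nine g.1 hA (congrArg Prod.fst h9')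
    · exact pow_three_of_nine g.2 hA (congrArg Prod.snd h9')
  obtain ⟨a, ha, ha1⟩ : ∃ a, (a, (1 : ↥(alternatingGroup (Fin 4)))) ∈ Q.toSubgroup ∧ a ≠ 1 := by
    by_contra hcon
    push_neg at hcon
    have hi : Function.Injective ((MonoidHom.snd _ _).comp Q.toSubgroup.subtype) := by
      rw [injective_iff_map_eq_one]
      rintro ⟨⟨a, b⟩, hg⟩ (h : b = 1)
      subst h
      exact Subtype.ext (Prod.ext (hcon a hg) rfl)
    have := Subgroup.card_dvd_of_injective _ hi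
    rw [hQ9, hA] at this
    norm_num at this
  obtain ⟨b, hb, hb1⟩ : ∃ b, ((1 : ↥(alternatingGroup (Fin 4))), b) ∈ Q.toSubgroup ∧ b ≠ 1 := by
    by_contra hcon
    push_neg at hcon
    have hi : Function.Injective ((MonoidHom.fst _ _).comp Q.toSubgroup.subtype) := by
      rw [injective_iff_map_eq_one]
      rintro ⟨⟨a, b⟩, hg⟩ (h : a = 1)
      subst h
      exact Subtype.ext (Prod.ext rfl (hcon b hg))
    have := Subgroup.card_dvd_of_injective _ hi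
    rw [hQ9, hA] at this
    norm_num at this
  have ha3 : a ^ 3 = 1 := (hthree _ ha).1
  have hb3 : b ^ 3 = 1 := (hthree _ hb).2
  obtain ⟨u, huB, hu1⟩ : ∃ u ∈ B, u ≠ 1 :=
    ((Subgroup.ne_bot_iff_exists_ne_one (H := B)).mp fun h => by
      rw [h, Subgroup.card_bot] at hB4; norm_num at hB4).elim
      fun g hg => ⟨g, g.2, fun h => hg (Subtype.ext h)⟩
  obtain ⟨x, y⟩ := u
  have hxy := hsq _ huB
  have hx1 : x ≠ 1 := fun h => hu1 (hf1 _ huB h)
  have hy1 : y ≠ 1 := fun h => hu1 (hf2 _ huB h)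
  have hx2 : a * x * a⁻¹ * (a * x * a⁻¹) = 1 := by
    rw [show a * x * a⁻¹ * (a * x * a⁻¹) = a * (x * x) * a⁻¹ by group, hxy.1]; simp
  obtain ⟨⟨⟨x', y'⟩, hwB⟩, hw⟩ := hbij.2 ⟨a * x * a⁻¹, hx2⟩
  have hx' : x' = a * x * a⁻¹ := congrArg Subtype.val hw
  have hne : x' ≠ x := hx' ▸ conj_ne a x ha3 ha1 hxy.1 hx1
  have hx'1 : x' ≠ 1 := hx' ▸ fun h => hx1 (conj_eq_one_iff.mp h)
  have hw1 : y' ≠ 1 := fun h => hx'1 (congrArg Prod.fst (hf2 _ hwB h))
  have hy' : y' ≠ y := fun h => hne (mul_inv_eq_one.mp (congrArg Prod.fst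
    (hf2 _ (B.mul_mem hwB (B.inv_mem huB)) (by simp [h]))))
  obtain ⟨c, hc, hc3, hc1, hcy⟩ : ∃ c, ((1 : ↥(alternatingGroup (Fin 4))), c) ∈ Q.toSubgroup ∧
      c ^ 3 = 1 ∧ c ≠ 1 ∧ y' = c * y * c⁻¹ := by
    rcases involutions b y y' hb3 hb1 hxy.2 hy1 (hsq _ hwB).2 hw1 with h | h | h
    · exact absurd h hy'
    · exact ⟨b, hb, hb3, hb1, h⟩
    · exact ⟨b⁻¹, by simpa using Q.toSubgroup.inv_mem hb, by rw [inv_pow, hb3, inv_one],
        inv_ne_one.mpr hb1, by rw [inv_inv]; exact h⟩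
  set r : ↥(alternatingGroup (Fin 4)) × ↥(alternatingGroup (Fin 4)) := (a, c) with hr
  have hrQ : r ∈ Q.toSubgroup := by
    have := Q.toSubgroup.mul_mem ha hc
    simpa [hr] using this
  have hr3 : orderOf r = 3 :=
    orderOf_eq_prime (Prod.ext ha3 hc3) fun h => ha1 (congrArg Prod.fst h)
  have g1 : r * (x, y) * r⁻¹ = (x', y') := Prod.ext hx'.symm hcy.symm
  have g2 : r * (x', y') * r⁻¹ = (x, y) * (x', y') :=
    Prod.ext (show a * x' * a⁻¹ = x * x' by rw [hx']; exact conj_twice a x ha3 ha1 hxy.1)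
      (show c * y' * c⁻¹ = y * y' by rw [hcy]; exact conj_twice c y hc3 hc1 hxy.2)
  have hcases : ∀ g ∈ B, g = 1 ∨ g = (x, y) ∨ g = (x', y') ∨ g = (x, y) * (x', y') := by
    intro g hg
    have key : ∀ k ∈ B, g.1 = k.1 → g = k := fun k hk h =>
      mul_inv_eq_one.mp (hf1 _ (B.mul_mem hg (B.inv_mem hk)) (by simp [h]))
    rcases four_cases x x' g.1 hxy.1 hx1 (hsq _ hwB).1 hx'1 hne (hsq g hg).1 with h | h | h | h
    · exact Or.inl (key 1 B.one_mem h)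
    · exact Or.inr (Or.inl (key _ huB h))
    · exact Or.inr (Or.inr (Or.inl (key _ hwB h)))
    · exact Or.inr (Or.inr (Or.inr (key _ (B.mul_mem huB hwB) h)))
  refine ⟨Subgroup.zpowers r, Subgroup.zpowers_le.mpr hrQ, by rw [Nat.card_zpowers, hr3], ?_, ?_, ?_⟩
  · exact fun h => hc1 (Subgroup.mem_prod.mp (h.le (Subgroup.mem_zpowers r)).2).2
  · exact fun h => ha1 (Subgroup.mem_prod.mp (h.le (Subgroup.mem_zpowers r)).2).1
  · rw [Subgroup.zpowers_le]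
    refine Subgroup.mem_normalizer_fintype fun g hg => ?_
    rcases hcases g hg with rfl | rfl | rfl | rfl
    · simp
    · rw [g1]; exact hwB
    · rw [g2]; exact B.mul_mem huB hwB
    · rw [show r * ((x, y) * (x', y')) * r⁻¹ = (r * (x, y) * r⁻¹) * (r * (x', y') * r⁻¹) by group, g1, g2]
      exact B.mul_mem hwB (B.mul_mem huB hwB)

end Cfsg.Agent.S4406
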