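import Mathlib
import Cfsg.Statements.S4407
-- import your own Cfsg.Agent.* helpers here

set_option autoImplicit false
open Cfsg

namespace Cfsg.Agent.S4407


variable {S : Type*} [Group S] {M : Type*} [AddCommGroup M] [Module (ZMod 2) M]

theorem char_two_add (_ρ : Representation (ZMod 2) S M) (m : M) : m + m = 0 := by
  rw [← two_smul (ZMod 2) m, show (2 : ZMod 2) = 0 from rfl, zero_smul]

theorem rho_mul (ρ : Representation (ZMod 2) S M) (g h : S) (m : M) :
    ρ (g * h) m = ρ g (ρ h m) := by rw [map_mul, Module.End.mul_apply]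

theorem cube_one {a : S} (h : a ^ 3 = 1) : a * (a * a) = 1 := by rw [← pow_three]; exact h

theorem inv_cube {a : S} (h : a ^ 3 = 1) : a⁻¹ = a * a :=
  inv_eq_of_mul_eq_one_right (cube_one h)

theorem nine (h : ∀ x : M, x + x = 0) (m A A' B B' C C' D D' : M) :
    (m + A + A') + (m + B + B') + (m + C + C') + (m + D + D') +
      (m + B + B' + (A + C + D') + (A' + D + C')) = m := by
  calc _ = m + ((m + m) + (m + m) + (A + A) + (A' + A') + (B + B) + (B' + B') + (C + C) +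
        (C' + C') + (D + D) + (D' + D')) := by abel
    _ = m := by simp [h]

/-- The fixed space of a list of elements. -/
def fixL (ρ : Representation (ZMod 2) S M) (T : Set S) : Submodule (ZMod 2) M where
  carrier := {m | ∀ g ∈ T, ρ g m = m}
  add_mem' hx hy g hg := by rw [map_add, hx g hg, hy g hg]
  zero_mem' g _ := map_zero _
  smul_mem' c x hx g hg := by rw [map_smul, hx g hg]

/-- A subspace invariant under generators is invariant. -/
theorem inv_of_gens [Finite S] (ρ : Representation (ZMod 2) S M) (N : Submodule (ZMod 2) M)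
    (T : Set S) (hT : Subgroup.closure T = ⊤) (h : ∀ g ∈ T, ∀ m ∈ N, ρ g m ∈ N) :
    ∀ g : S, ∀ m ∈ N, ρ g m ∈ N := by
  intro g
  have hg : g ∈ Submonoid.closure T := by
    have : (Subgroup.closure T).toSubmonoid = Submonoid.closure T :=
      Subgroup.closure_toSubmonoid_of_finite
    rw [← this, hT]; exact Subgroup.mem_top g
  refine Submonoid.closure_induction (motive := fun g _ => ∀ m ∈ N, ρ g m ∈ N) h ?_ ?_ hg
  · intro m hm; simpa using hm
  · intro a b _ _ ha hb m hm; rw [rho_mul]; exact ha _ (hb m hm)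

/-- The main computation. -/
theorem core [Finite S] [Finite M] (ρ : Representation (ZMod 2) S M)
    (hirr : ∀ N : Submodule (ZMod 2) M, (∀ s : S, ∀ m ∈ N, ρ s m ∈ N) → N = ⊥ ∨ N = ⊤)
    (r s a₁ a₂ : S) (h13 : a₁ ^ 3 = 1) (h23 : a₂ ^ 3 = 1) (hc : a₁ * a₂ = a₂ * a₁)
    (hr1 : r * a₁ = a₂ * r) (hr2 : r * a₂ = a₁⁻¹ * r) (hs1 : s * a₁ = a₁ * s)
    (hs2 : s * a₂ = a₂⁻¹ * s) (hss : s * s = 1) (hr4 : r ^ 4 = 1) (hsr : s * r = r⁻¹ * s)
    (hgen : Subgroup.closure {a₁, a₂, r, s} = ⊤) (hne : ρ a₂ ≠ 1)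
    (hex : ∃ m : M, m ≠ 0 ∧ ρ a₁ m = m) :
    Nat.card M = 16 ∧ Nat.card {m : M // ρ (r * r) m = m ∧ ρ s m = m} = 4 ∧
      Nat.card {m : M // ρ (r * r) m = m ∧ ρ (r * s) m = m} = 2 := by
  classical
  set z : S := r * r with hzdef
  have hzz : z * z = 1 := by rw [← hr4, hzdef]; simp only [pow_succ, pow_zero, one_mul, mul_assoc]
  have hz1 : z * a₁ = a₁⁻¹ * z := by
    rw [hzdef, mul_assoc, hr1, ← mul_assoc, hr2, mul_assoc]
  have hr2' : r * a₂⁻¹ = a₁ * r := by
    have := hr2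
    calc r * a₂⁻¹ = a₁ * (a₁⁻¹ * r) * a₂⁻¹ := by group
      _ = a₁ * r := by rw [← this]; group
  have hr1' : r * a₁⁻¹ = a₂⁻¹ * r := by
    calc r * a₁⁻¹ = a₂⁻¹ * (a₂ * r) * a₁⁻¹ := by group
      _ = a₂⁻¹ * r := by rw [← hr1]; group
  have hz2 : z * a₂ = a₂⁻¹ * z := by
    rw [hzdef, mul_assoc, hr2, ← mul_assoc, hr1', mul_assoc]
  have hrinv : r⁻¹ = r * z := by
    refine inv_eq_of_mul_eq_one_right ?_
    rw [← hr4, hzdef]; simp only [pow_succ, pow_zero, one_mul, mul_assoc]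
  have hsz : s * z = z * s := by
    calc s * z = (s * r) * r := by rw [hzdef]; group
      _ = r⁻¹ * (s * r) := by rw [← mul_assoc r⁻¹, ← hsr]
      _ = r⁻¹ * r⁻¹ * s := by rw [hsr, mul_assoc]
      _ = z * s := by rw [hzdef, ← mul_inv_rev, inv_eq_of_mul_eq_one_right hzz]
  have ez : ∀ m, ρ z (ρ z m) = m := fun m => by rw [← rho_mul, hzz, map_one]; rfl
  have es : ∀ m, ρ s (ρ s m) = m := fun m => by rw [← rho_mul, hss, map_one]; rfl
  have zs : ∀ m, ρ s (ρ z m) = ρ z (ρ s m) := fun m => by rw [← rho_mul, ← rho_mul, hsz]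
  have einv : ∀ (g : S) (m : M), ρ g m = m → ρ g⁻¹ m = m := fun g m h => by
    conv_lhs => rw [← h]
    rw [← rho_mul, inv_mul_cancel, map_one]; rfl
  -- no fixed points of `A`
  have hA0 : ∀ m, ρ a₁ m = m → ρ a₂ m = m → m = 0 := by
    intro m hm1 hm2
    have hinv := inv_of_gens ρ (fixL ρ {a₁, a₂}) _ hgen (by
      intro g hg x hx
      have x1 : ρ a₁ x = x := hx a₁ (by simp)
      have x2 : ρ a₂ x = x := hx a₂ (by simp)
      intro h hh
      rcases hg with rfl | rfl | rfl | rfl <;> rcases hh with rfl | rfl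
      · rw [x1, x1]
      · rw [x1, x2]
      · rw [x2, x1]
      · rw [x2, x2]
      · rw [← rho_mul]
        have : h * g = g * a₂⁻¹ := hr2'.symm
        rw [this, rho_mul, einv _ _ x2]
      · rw [← rho_mul, ← hr1, rho_mul, x1]
      · rw [← rho_mul, ← hs1, rho_mul, x1]
      · rw [← rho_mul]
        have : h * g = g * h⁻¹ := by
          calc h * g = h * (g * h) * h⁻¹ := by group
            _ = h * (h⁻¹ * g) * h⁻¹ := by rw [hs2]
            _ = g * h⁻¹ := by group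
        rw [this, rho_mul, einv _ _ x2])
    rcases hirr _ hinv with h | h
    · have : m ∈ fixL ρ {a₁, a₂} := by
        rintro g (rfl | rfl) <;> assumption
      rw [h] at this
      exact (Submodule.mem_bot _).1 this
    · exact absurd (LinearMap.ext fun x => (h ▸ Submodule.mem_top : x ∈ fixL ρ {a₁, a₂}) a₂
        (by simp)) hne
  -- the two pieces
  set C : Submodule (ZMod 2) M := fixL ρ {a₁} with hC
  have memC : ∀ m, m ∈ C ↔ ρ a₁ m = m := fun m =>
    ⟨fun h => h a₁ (by simp), fun h g hg => by rw [Set.mem_singleton_iff] at hg; rw [hg]; exact h⟩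
  have C2 : ∀ m ∈ C, ρ a₂ (ρ r m) = ρ r m := fun m hm => by
    rw [← rho_mul, ← hr1, rho_mul, (memC m).1 hm]
  have Ca2 : ∀ m ∈ C, ρ a₂ m ∈ C := fun m hm => by
    rw [memC, ← rho_mul, hc, rho_mul, (memC m).1 hm]
  have Cs : ∀ m ∈ C, ρ s m ∈ C := fun m hm => by
    rw [memC, ← rho_mul, ← hs1, rho_mul, (memC m).1 hm]
  have Cz : ∀ m ∈ C, ρ z m ∈ C := fun m hm => by
    rw [memC, ← rho_mul]
    have : a₁ * z = z * a₁⁻¹ := by
      calc a₁ * z = a₁ * (z * a₁) * a₁⁻¹ := by group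
        _ = z * a₁⁻¹ := by rw [hz1]; group
    rw [this, rho_mul, einv _ _ ((memC m).1 hm)]
  have hcomb : ∀ W : Submodule (ZMod 2) M, W ≤ C → W ≠ ⊥ → (∀ m ∈ W, ρ a₂ m ∈ W) →
      (∀ m ∈ W, ρ s m ∈ W) → (∀ m ∈ W, ρ z m ∈ W) → W ⊔ W.map (ρ r) = ⊤ ∧ W = C := by
    intro W hWC hW0 hWa hWs hWz
    have ha2i : a₂⁻¹ = a₂ * a₂ := inv_cube h23
    have hinv := inv_of_gens ρ (W ⊔ W.map (ρ r)) _ hgen (by
      intro g hg x hx
      obtain ⟨p, hp, q, hq, rfl⟩ := Submodule.mem_sup.1 hx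
      obtain ⟨q, hq', rfl⟩ := Submodule.mem_map.1 hq
      rw [map_add]
      rcases hg with rfl | rfl | rfl | rfl
      · refine Submodule.mem_sup.2 ⟨_, ?_, _, ?_, rfl⟩
        · rw [(memC p).1 (hWC hp)]; exact hp
        · refine Submodule.mem_map.2 ⟨ρ a₂⁻¹ q, ?_, ?_⟩
          · rw [ha2i, rho_mul]; exact hWa _ (hWa _ hq')
          · rw [← rho_mul, hr2', rho_mul]
      · refine Submodule.mem_sup.2 ⟨_, hWa _ hp, _, ?_, rfl⟩
        rw [C2 q (hWC hq')]; exact Submodule.mem_map_of_mem hq'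
      · refine Submodule.mem_sup.2 ⟨ρ z q, hWz _ hq', _, Submodule.mem_map_of_mem hp, ?_⟩
        rw [hzdef, rho_mul, add_comm]
      · refine Submodule.mem_sup.2 ⟨_, hWs _ hp, _, ?_, rfl⟩
        refine Submodule.mem_map.2 ⟨ρ z (ρ g q), hWz _ (hWs _ hq'), ?_⟩
        rw [← rho_mul, ← rho_mul, ← rho_mul, hsr, hrinv, mul_assoc])
    have htop : W ⊔ W.map (ρ r) = ⊤ := (hirr _ hinv).resolve_left
      (fun h => hW0 (eq_bot_iff.2 (h ▸ le_sup_left)))
    refine ⟨htop, le_antisymm hWC fun x hx => ?_⟩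
    obtain ⟨p, hp, q, hq, rfl⟩ := Submodule.mem_sup.1 (htop ▸ Submodule.mem_top : x ∈ _)
    obtain ⟨q, hq', rfl⟩ := Submodule.mem_map.1 hq
    have h1 : ρ a₁ (ρ r q) = ρ r q := by
      have := (memC _).1 hx
      rw [map_add, (memC p).1 (hWC hp)] at this
      exact add_left_cancel this
    rw [hA0 _ h1 (C2 q (hWC hq')), add_zero]
    exact hp
  obtain ⟨m₀, hm₀, hm₀C⟩ := hex
  have fix_of : ∀ (T : M → M) (x : M), x ≠ 0 → T (T x) = x → (∀ a b, T (a + b) = T a + T b) →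
      (x + T x ≠ 0 ∧ T (x + T x) = x + T x) ∨ T x = x := by
    intro T x _ hTT hadd
    by_cases h : x + T x = 0
    · right
      have := char_two_add ρ x
      exact (add_left_cancel (h.trans this.symm))
    · exact Or.inl ⟨h, by rw [hadd, hTT, add_comm]⟩
  -- `w = z s` is trivial on `C`
  have hw : ∀ m ∈ C, ρ z (ρ s m) = m := by
    let W : Submodule (ZMod 2) M := C ⊓ fixL ρ {z * s}
    have memW : ∀ m, m ∈ W ↔ m ∈ C ∧ ρ z (ρ s m) = m := fun m => by
      rw [← rho_mul]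
      exact ⟨fun h => ⟨h.1, h.2 _ (by simp)⟩,
        fun h => ⟨h.1, fun g hg => by rw [Set.mem_singleton_iff] at hg; rw [hg]; exact h.2⟩⟩
    have hW0 : W ≠ ⊥ := by
      intro hb
      have hCC := (memC m₀).2 hm₀C
      rcases fix_of (fun x => ρ z (ρ s x)) m₀ hm₀
        (by
          show ρ z (ρ s (ρ z (ρ s m₀))) = m₀
          rw [zs, es, ez])
        (fun a b => by rw [map_add, map_add]) with h | h
      · have : m₀ + ρ z (ρ s m₀) ∈ W := (memW _).2 ⟨C.add_mem hCC (Cz _ (Cs _ hCC)), h.2⟩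
        rw [hb] at this; exact h.1 ((Submodule.mem_bot _).1 this)
      · have : m₀ ∈ W := (memW _).2 ⟨hCC, h⟩
        rw [hb] at this; exact hm₀ ((Submodule.mem_bot _).1 this)
    have hzs2 : z * s * a₂ = a₂ * (z * s) := by
      rw [mul_assoc, hs2, ← mul_assoc, ← mul_assoc]
      congr 1
      calc z * a₂⁻¹ = a₂ * (a₂⁻¹ * z) * a₂⁻¹ := by group
        _ = a₂ * z := by rw [← hz2]; group
    obtain ⟨-, hWC⟩ := hcomb W inf_le_left hW0
      (fun m hm => by
        obtain ⟨h1, h2⟩ := (memW m).1 hm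
        refine (memW _).2 ⟨Ca2 m h1, ?_⟩
        rw [← rho_mul, ← rho_mul, hzs2, rho_mul, rho_mul, h2])
      (fun m hm => by
        obtain ⟨h1, h2⟩ := (memW m).1 hm
        refine (memW _).2 ⟨Cs m h1, ?_⟩
        conv_rhs => rw [← h2]
        rw [zs])
      (fun m hm => by
        obtain ⟨h1, h2⟩ := (memW m).1 hm
        refine (memW _).2 ⟨Cz m h1, ?_⟩
        conv_rhs => rw [← h2]
        rw [zs])
    intro m hm
    rw [← hWC] at hm
    exact ((memW m).1 hm).2
  have hzs : ∀ m ∈ C, ρ z m = ρ s m := fun m hm => by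
    conv_lhs => rw [← hw m hm]
    rw [ez]
  obtain ⟨v, hv0, hvC, hvs⟩ : ∃ v, v ≠ 0 ∧ v ∈ C ∧ ρ s v = v := by
    have hCC := (memC m₀).2 hm₀C
    rcases fix_of (fun x => ρ s x) m₀ hm₀ (es _) (fun a b => map_add _ _ _) with h | h
    · exact ⟨_, h.1, C.add_mem hCC (Cs _ hCC), h.2⟩
    · exact ⟨m₀, hm₀, hCC, h⟩
  set u := ρ a₂ v with hu
  have huC : u ∈ C := Ca2 v hvC
  have hsum : v + u + ρ a₂ u = 0 := by
    refine hA0 _ ?_ ?_
    · rw [map_add, map_add, (memC v).1 hvC, (memC u).1 huC, (memC _).1 (Ca2 u huC)]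
    · rw [map_add, map_add, ← hu]
      have : ρ a₂ (ρ a₂ u) = v := by
        rw [hu, ← rho_mul, ← rho_mul, mul_assoc, cube_one h23, map_one]; rfl
      rw [this]; abel
  have hau : ρ a₂ u = v + u := by
    have h := char_two_add ρ (v + u)
    exact add_left_cancel (hsum.trans h.symm)
  have huv : u ≠ v := fun h => hv0 (hA0 v ((memC v).1 hvC) h)
  have hu0 : u ≠ 0 := by
    intro h
    have := hsum
    rw [h, map_zero, add_zero, add_zero] at this
    exact hv0 this
  have hsu : ρ s u = v + u := by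
    rw [← hau, hu, ← rho_mul, hs2, rho_mul, hvs, ← rho_mul]
    rw [inv_cube h23]
  have hsvu : ρ s (v + u) = u := by
    rw [map_add, hvs, hsu, ← add_assoc, char_two_add ρ, zero_add]
  let W : Submodule (ZMod 2) M :=
    { carrier := {m | m = 0 ∨ m = v ∨ m = u ∨ m = v + u}
      zero_mem' := Or.inl rfl
      add_mem' := by
        have c1 := char_two_add ρ v
        have c2 := char_two_add ρ u
        have e1 : v + (v + u) = u := by rw [← add_assoc, c1, zero_add]
        have e2 : u + (v + u) = v := by rw [add_left_comm, c2, add_zero]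
        intro a b ha hb
        simp only [Set.mem_setOf_eq] at ha hb ⊢
        have e3 : v + u + v = u := by rw [add_comm v u, add_assoc, c1, add_zero]
        have e4 : v + u + u = v := by rw [add_assoc, c2, add_zero]
        rcases ha with ha | ha | ha | ha <;> rcases hb with hb | hb | hb | hb <;> rw [ha, hb] <;>
          simp [c1, c2, e1, e2, e3, e4, char_two_add ρ (v + u), add_comm u v]
      smul_mem' := by
        intro c x hx
        rcases (by revert c; decide : c = 0 ∨ c = 1) with rfl | rfl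
        · exact Or.inl (zero_smul _ _)
        · rwa [one_smul] }
  have memW : ∀ m, m ∈ W ↔ m = 0 ∨ m = v ∨ m = u ∨ m = v + u := fun m => Iff.rfl
  have hWC : W ≤ C := by
    intro m hm
    rcases (memW m).1 hm with h | h | h | h <;> rw [h]
    exacts [C.zero_mem, hvC, huC, C.add_mem hvC huC]
  have hWs : ∀ m ∈ W, ρ s m ∈ W := by
    intro m hm
    rw [memW]
    rcases (memW m).1 hm with h | h | h | h <;> rw [h]
    exacts [Or.inl (map_zero _), Or.inr (Or.inl hvs), Or.inr (Or.inr (Or.inr hsu)),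
      Or.inr (Or.inr (Or.inl hsvu))]
  obtain ⟨htop, hWeq⟩ := hcomb W hWC (fun hb => hv0 ((Submodule.mem_bot (ZMod 2)).1 (by
      rw [← hb]; exact Or.inr (Or.inl rfl))))
    (by
      intro m hm
      rw [memW]
      rcases (memW m).1 hm with h | h | h | h <;> rw [h]
      · exact Or.inl (map_zero _)
      · exact Or.inr (Or.inr (Or.inl rfl))
      · exact Or.inr (Or.inr (Or.inr hau))
      · refine Or.inr (Or.inl ?_)
        rw [map_add, ← hu, hau, add_left_comm, char_two_add ρ, add_zero])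
    hWs (fun m hm => by rw [hzs m (hWC hm)]; exact hWs m hm)
  have hvu : v + u ≠ 0 := fun h => huv (add_left_cancel (h.trans (char_two_add ρ v).symm))
  have hvu1 : v + u ≠ v := fun h => hu0 (add_eq_left.1 h)
  have hvu2 : v + u ≠ u := fun h => hv0 (add_eq_right.1 h)
  have hcardW : Nat.card W = 4 := by
    have e : (W : Set M) = ↑({0, v, u, v + u} : Finset M) := by
      ext m; simp [memW]
    rw [← SetLike.coe_sort_coe, e, Nat.card_coe_set_eq, Set.ncard_coe_finset]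
    rw [Finset.card_insert_of_notMem (by simp [hv0.symm, hu0.symm, hvu.symm]),
      Finset.card_insert_of_notMem (by simp [huv.symm, hvu1.symm]),
      Finset.card_insert_of_notMem (by simp [hvu2.symm]), Finset.card_singleton]
  have huniq : ∀ p q p' q', p ∈ W → q ∈ W → p' ∈ W → q' ∈ W →
      p + ρ r q = p' + ρ r q' → p = p' ∧ q = q' := by
    intro p q p' q' hp hq hp' hq' h
    have h1 : p - p' = ρ r (q' - q) := by rw [map_sub]; linear_combination (norm := abel) h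
    have hd : p - p' = 0 := hA0 _ ((memC _).1 (hWC (W.sub_mem hp hp')))
      (by rw [h1]; exact C2 _ (hWC (W.sub_mem hq' hq)))
    refine ⟨sub_eq_zero.1 hd, ?_⟩
    rw [sub_eq_zero.1 hd] at h
    have h2 := congrArg (fun x => ρ r⁻¹ x) (add_left_cancel h)
    simpa [← rho_mul] using h2
  let f : W × W → M := fun p => (p.1 : M) + ρ r p.2
  have hfb : Function.Bijective f := by
    constructor
    · intro p q h
      obtain ⟨a, b⟩ := huniq _ _ _ _ p.1.2 p.2.2 q.1.2 q.2.2 h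
      exact Prod.ext (Subtype.ext a) (Subtype.ext b)
    · intro m
      obtain ⟨p, hp, q, hq, rfl⟩ := Submodule.mem_sup.1 (htop ▸ Submodule.mem_top : m ∈ _)
      obtain ⟨q, hq', rfl⟩ := Submodule.mem_map.1 hq
      exact ⟨(⟨p, hp⟩, ⟨q, hq'⟩), rfl⟩
  have hzr : ∀ q, ρ z (ρ r q) = ρ r (ρ z q) := fun q => by
    rw [← rho_mul, ← rho_mul, hzdef, mul_assoc]
  have hsr' : ∀ q, ρ s (ρ r q) = ρ r (ρ z (ρ s q)) := fun q => by
    rw [← rho_mul, ← rho_mul, ← rho_mul, hsr, hrinv, mul_assoc]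
  have hfz : ∀ p ∈ W, ρ z p = p → p = 0 ∨ p = v := by
    intro p hp hzp
    rw [hzs p (hWC hp)] at hzp
    rcases (memW p).1 hp with h | h | h | h
    · exact Or.inl h
    · exact Or.inr h
    · rw [h, hsu] at hzp; exact absurd hzp hvu2
    · rw [h, hsvu] at hzp; exact absurd hzp hvu2.symm
  have hzv : ρ z v = v := (hzs v hvC).trans hvs
  have hsrv : ρ s (ρ r v) = ρ r v := by rw [hsr', hvs, hzv]
  have hfixz : ∀ m, ρ z m = m → m = 0 ∨ m = v ∨ m = ρ r v ∨ m = v + ρ r v := by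
    intro m hm
    obtain ⟨⟨⟨p, hp⟩, ⟨q, hq⟩⟩, rfl⟩ := hfb.2 m
    simp only [f, map_add, hzr] at hm ⊢
    have hzW : ∀ x ∈ W, ρ z x ∈ W := fun x hx => by rw [hzs x (hWC hx)]; exact hWs x hx
    obtain ⟨a, b⟩ := huniq _ _ _ _ (hzW p hp) (hzW q hq) hp hq hm
    rcases hfz p hp a with rfl | rfl <;> rcases hfz q hq b with rfl | rfl <;> simp
  have hrv0 : ρ r v ≠ 0 := by
    intro h
    have := congrArg (fun x => ρ r⁻¹ x) h
    simp [← rho_mul] at this
    exact hv0 this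
  have hvW : v ∈ W := Or.inr (Or.inl rfl)
  have hrvv : ρ r v ≠ v := fun h => hv0 ((huniq v 0 0 v hvW W.zero_mem W.zero_mem hvW
    (by rw [map_zero, add_zero, zero_add, h])).1)
  have hsum0 : v + ρ r v ≠ 0 := fun h => hv0 ((huniq v v 0 0 hvW hvW W.zero_mem W.zero_mem
    (by rw [map_zero, add_zero, h])).1)
  refine ⟨?_, ?_, ?_⟩
  · rw [← Nat.card_eq_of_bijective f hfb, Nat.card_prod, hcardW]
  · have e : {m : M | ρ z m = m ∧ ρ s m = m} = ↑({0, v, ρ r v, v + ρ r v} : Finset M) := by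
      ext m
      simp only [Set.mem_setOf_eq, Finset.coe_insert, Finset.coe_singleton, Set.mem_insert_iff,
        Set.mem_singleton_iff]
      refine ⟨fun h => hfixz m h.1, ?_⟩
      rintro (rfl | rfl | rfl | rfl)
      · simp
      · exact ⟨hzv, hvs⟩
      · exact ⟨by rw [hzr, hzv], hsrv⟩
      · exact ⟨by rw [map_add, hzr, hzv], by rw [map_add, hsrv, hvs]⟩
    show Nat.card ({m : M | ρ z m = m ∧ ρ s m = m} : Set M) = 4
    rw [e, Nat.card_coe_set_eq, Set.ncard_coe_finset]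
    rw [Finset.card_insert_of_notMem (by simp [hv0.symm, hrv0.symm, hsum0.symm]),
      Finset.card_insert_of_notMem (by
        simp only [Finset.mem_insert, Finset.mem_singleton, not_or]
        exact ⟨hrvv.symm, fun h => hrv0 (add_eq_left.1 h.symm)⟩),
      Finset.card_insert_of_notMem (by
        rw [Finset.mem_singleton]; exact fun h => hv0 (add_eq_right.1 h.symm)),
      Finset.card_singleton]
  · have hrs : ρ (r * s) v = ρ r v := by rw [rho_mul, hvs]
    have hrs2 : ρ (r * s) (ρ r v) = v := by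
      rw [rho_mul, hsrv, ← rho_mul, ← hzdef, hzv]
    have e : {m : M | ρ z m = m ∧ ρ (r * s) m = m} = ↑({0, v + ρ r v} : Finset M) := by
      ext m
      simp only [Set.mem_setOf_eq, Finset.coe_insert, Finset.coe_singleton, Set.mem_insert_iff,
        Set.mem_singleton_iff]
      constructor
      · rintro ⟨h1, h2⟩
        rcases hfixz m h1 with rfl | rfl | rfl | rfl
        · exact Or.inl rfl
        · exact absurd (hrs.symm.trans h2) hrvv
        · exact absurd (hrs2.symm.trans h2) hrvv.symm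
        · exact Or.inr rfl
      · rintro (rfl | rfl)
        · simp
        · exact ⟨by rw [map_add, hzr, hzv], by rw [map_add, hrs, hrs2, add_comm]⟩
    show Nat.card ({m : M | ρ z m = m ∧ ρ (r * s) m = m} : Set M) = 2
    rw [e, Nat.card_coe_set_eq, Set.ncard_coe_finset,
      Finset.card_insert_of_notMem (by simp [hsum0.symm]), Finset.card_singleton]

/-- Let S be a finite group with a normal elementary abelian subgroup A of order 9 that is self-centralizing (C_S(A) = A), and a dihedral subgroup X of order 8 with S = AX. Let M be a finite-dimensional module for S over the field with two elements that is faithful and irreducible. Then M has 16 elements, and X contains exactly one subgroup B of order 4 and exponent 2 whose fixed points on M form a subspace with exactly 2 elements (equivalently, M is free of rank one over the group algebra of B). -/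
theorem result {S : Type*} [Group S] [Finite S]
    (A : Subgroup S) [A.Normal] (hA : Cfsg.IsElementaryAbelian 3 A) (hA9 : Nat.card ↥A = 9)
    (hAC : Subgroup.centralizer (A : Set S) = A) (X : Subgroup S) (hX : Nonempty (↥X ≃* DihedralGroup 4)) (hAX : A ⊔ X = ⊤)
    {M : Type*} [AddCommGroup M] [Module (ZMod 2) M] [Finite M] (ρ : Representation (ZMod 2) S M)
    (hfaith : Function.Injective ρ)
    (hirr : ∀ N : Submodule (ZMod 2) M, (∀ s : S, ∀ m ∈ N, ρ s m ∈ N) → N = ⊥ ∨ N = ⊤) (hM : Nontrivial M) :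
    Nat.card M = 16 ∧
      ∃! B : Subgroup S, B ≤ X ∧ Nat.card ↥B = 4 ∧ (∀ b ∈ B, b ^ 2 = 1) ∧
        Nat.card {m : M // ∀ b ∈ B, ρ b m = m} = 2 := by
  classical
  obtain ⟨e⟩ := hX
  set φ : DihedralGroup 4 →* S := X.subtype.comp e.symm.toMonoidHom with hφ
  have hinj : Function.Injective φ := fun a b h => e.symm.injective (Subtype.ext h)
  have hφX : ∀ d, φ d ∈ X := fun d => (e.symm d).2
  set r := φ (DihedralGroup.r 1) with hr
  set s := φ (DihedralGroup.sr 0) with hs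
  set z := r * r with hz
  have hr4 : r ^ 4 = 1 := by rw [hr, ← map_pow, ← map_one φ]; congr 1
  have hss : s * s = 1 := by rw [hs, ← map_mul, ← map_one φ]; congr 1
  have hsr : s * r = r⁻¹ * s := by rw [hr, hs, ← map_inv, ← map_mul, ← map_mul]; congr 1
  have hzz : z * z = 1 := by rw [← hr4, hz]; simp only [pow_succ, pow_zero, one_mul, mul_assoc]
  have hsz : s * z = z * s := by
    rw [hz, hr, hs]; simp only [← map_mul]; congr 1
  obtain ⟨hcomm', h3A⟩ := hA
  have hcA : ∀ a ∈ A, ∀ b ∈ A, a * b = b * a := fun a ha b hb =>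
    congrArg Subtype.val (hcomm'.is_comm.comm ⟨a, ha⟩ ⟨b, hb⟩)
  have hcjA : ∀ (g : S), ∀ a ∈ A, g * a * g⁻¹ ∈ A := fun g a ha =>
    (inferInstance : A.Normal).conj_mem a ha g
  -- only the identity of `X` centralises `A`
  have hfaithA : ∀ d, (∀ a ∈ A, φ d * a * (φ d)⁻¹ = a) → d = 1 := by
    intro d hd
    have hmem : φ d ∈ A := by
      rw [← hAC, Subgroup.mem_centralizer_iff]
      intro a ha
      calc a * φ d = (φ d * a * (φ d)⁻¹) * φ d := by rw [hd a ha]
        _ = φ d * a := by group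
    have h1 : φ d ^ 3 = 1 := h3A _ hmem
    rw [← map_pow, ← map_one φ] at h1
    have h2 : d ^ 3 = 1 := hinj h1
    exact (by decide : ∀ d : DihedralGroup 4, d ^ 3 = 1 → d = 1) d h2
  -- decomposition for involutions
  have hdec : ∀ b : S, b * b = 1 → ∀ a ∈ A, ∃ c ∈ A, ∃ d ∈ A,
      b * c * b⁻¹ = c ∧ b * d * b⁻¹ = d⁻¹ ∧ a = c * d := by
    intro b hb a ha
    set a' := b * a * b⁻¹ with ha'
    have ha'A : a' ∈ A := hcjA b a ha
    have hb' : b * a' * b⁻¹ = a := by
      rw [ha']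
      calc b * (b * a * b⁻¹) * b⁻¹ = (b * b) * a * (b * b)⁻¹ := by group
        _ = a := by rw [hb]; simp
    refine ⟨(a * a') ^ 2, pow_mem (mul_mem ha ha'A) 2, (a * a'⁻¹) ^ 2,
      pow_mem (mul_mem ha (inv_mem ha'A)) 2, ?_, ?_, ?_⟩
    · rw [← conj_pow]
      congr 1
      calc b * (a * a') * b⁻¹ = (b * a * b⁻¹) * (b * a' * b⁻¹) := by group
        _ = a * a' := by rw [← ha', hb', hcA _ ha'A _ ha]
    · rw [← conj_pow, ← inv_pow]
      congr 1
      calc b * (a * a'⁻¹) * b⁻¹ = (b * a * b⁻¹) * (b * a' * b⁻¹)⁻¹ := by group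
        _ = (a * a'⁻¹)⁻¹ := by rw [← ha', hb']; group
    · have hc : Commute a a' := hcA _ ha _ ha'A
      rw [hc.mul_pow, hc.inv_right.mul_pow]
      calc a = a * (a ^ 3) := by rw [h3A a ha, mul_one]
        _ = a ^ 4 := by group
        _ = a ^ 2 * (a' ^ 2 * a'⁻¹ ^ 2) * a ^ 2 := by group
        _ = a ^ 2 * a' ^ 2 * (a'⁻¹ ^ 2 * a ^ 2) := by group
        _ = a ^ 2 * a' ^ 2 * (a ^ 2 * a'⁻¹ ^ 2) := by
            rw [((hc.inv_right).pow_pow 2 2).eq]
  have hodd : ∀ a ∈ A, a = a⁻¹ → a = 1 := by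
    intro a ha h
    have := h3A a ha
    calc a = a ^ 3 * (a * a)⁻¹ := by group
      _ = 1 := by rw [this]; conv_lhs => arg 2; arg 1; arg 1; rw [h]
                  simp
  have hZc : ∀ g, g = r ∨ g = s → g * z = z * g := by
    rintro g (rfl | rfl)
    · rw [hz]; group
    · exact hsz
  have hrel : ∀ (g : S) (a : S), (g * a * g⁻¹) ∈ A → ∀ x, g * a * g⁻¹ = x → g * a = x * g := by
    intro g a _ x hx; rw [← hx]; group
  -- `z` inverts `A`
  have hline : ∀ L : Subgroup S, L ≤ A → L ≠ ⊥ → L ≠ A → ∀ l ∈ L, l ≠ 1 → ∀ x ∈ L,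
      x = 1 ∨ x = l ∨ x = l⁻¹ := by
    intro L hLA hL0 hLne l hl hl1 x hx
    have hd : Nat.card L ∣ 3 ^ 2 := by
      have := Subgroup.card_dvd_of_le hLA
      rwa [hA9] at this
    obtain ⟨k, hk, hk'⟩ := (Nat.dvd_prime_pow Nat.prime_three).1 hd
    have hk1 : k = 1 := by
      rcases Nat.lt_or_ge k 1 with h | h
      · exact absurd (Subgroup.eq_bot_of_card_eq L (by rw [hk', show k = 0 by omega, pow_zero])) hL0
      · by_contra hne
        exact hLne (Subgroup.eq_of_le_of_card_ge hLA (by rw [hk', hA9, show k = 2 by omega]; norm_num))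
    have hz3 : Subgroup.zpowers l = L := by
      refine Subgroup.eq_of_le_of_card_ge (by rwa [Subgroup.zpowers_le]) ?_
      rw [hk', hk1, Nat.card_zpowers, orderOf_eq_prime (h3A l (hLA hl)) hl1, pow_one]
    rw [← hz3] at hx
    obtain ⟨j, rfl⟩ := Subgroup.mem_zpowers_iff.1 hx
    rw [← zpow_mod_orderOf, orderOf_eq_prime (h3A l (hLA hl)) hl1]
    have h0 := Int.emod_nonneg j (by norm_num : ((3 : ℕ) : ℤ) ≠ 0)
    have h1 := Int.emod_lt_of_pos j (by norm_num : (0 : ℤ) < ((3 : ℕ) : ℤ))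
    rcases (by omega : j % ((3 : ℕ) : ℤ) = 0 ∨ j % ((3 : ℕ) : ℤ) = 1 ∨ j % ((3 : ℕ) : ℤ) = 2) with
      h | h | h <;> rw [h]
    · simp
    · simp
    · refine Or.inr (Or.inr (eq_inv_of_mul_eq_one_left ?_))
      have := h3A l (hLA hl)
      calc l ^ (2 : ℤ) * l = l ^ 3 := by group
        _ = 1 := this
  let fixB : S → Subgroup S := fun b => A ⊓ Subgroup.centralizer {b}
  have memfix : ∀ b a, a ∈ fixB b ↔ a ∈ A ∧ b * a * b⁻¹ = a := by
    intro b a
    simp only [fixB, Subgroup.mem_inf, Subgroup.mem_centralizer_singleton_iff]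
    refine and_congr_right fun _ => ⟨fun h => by rw [← h]; group, fun h => ?_⟩
    calc a * b = (b * a * b⁻¹) * b := by rw [h]
      _ = b * a := by group
  have hzinv : ∀ a ∈ A, z * a * z⁻¹ = a⁻¹ := by
    intro a ha
    obtain ⟨c, hc, d, hd, h1, h2, rfl⟩ := hdec z hzz a ha
    suffices hc1 : c = 1 by rw [hc1, one_mul, h2]
    by_contra hc1
    have hd1 : d ≠ 1 ∨ d = 1 := ne_or_eq d 1
    -- the fixed line and an inverted line are permuted trivially by `r²`
    have hne : fixB z ≠ A := by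
      intro h
      have : DihedralGroup.r (2 : ZMod 4) = 1 := hfaithA _ fun x hx => by
        rw [show φ (DihedralGroup.r (2 : ZMod 4)) = z by rw [hz, hr, ← map_mul]; congr 1]
        exact ((memfix z x).1 (h.symm ▸ hx)).2
      exact absurd this (by decide)
    obtain ⟨a₀, ha₀, ha₀'⟩ : ∃ a₀ ∈ A, a₀ ∉ fixB z := by
      by_contra h
      exact hne (le_antisymm inf_le_left fun x hx => by
        by_contra hx'; exact h ⟨x, hx, hx'⟩)
    obtain ⟨c', hc', d', hd', k1, k2, rfl⟩ := hdec z hzz a₀ ha₀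
    have hd'1 : d' ≠ 1 := fun h => ha₀' (by
      rw [h, mul_one]; exact (memfix z c').2 ⟨hc', k1⟩)
    have hFl : ∀ x ∈ fixB z, x = 1 ∨ x = c ∨ x = c⁻¹ := hline _ inf_le_left
      (fun h => hc1 (Subgroup.mem_bot.1 (h ▸ (memfix z c).2 ⟨hc, h1⟩))) hne c
      ((memfix z c).2 ⟨hc, h1⟩) hc1
    have hrc : r * c * r⁻¹ ∈ fixB z := (memfix _ _).2 ⟨hcjA r c hc, by
      calc z * (r * c * r⁻¹) * z⁻¹ = r * (z * c * z⁻¹) * r⁻¹ := by rw [hz]; group
        _ = r * c * r⁻¹ := by rw [h1]⟩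
    have hzd' : z * d' * z⁻¹ = d'⁻¹ := k2
    have hz_c : ∀ x, r * x * r⁻¹ = x ∨ r * x * r⁻¹ = x⁻¹ → z * x * z⁻¹ = x := by
      rintro x (h | h)
      · calc z * x * z⁻¹ = r * (r * x * r⁻¹) * r⁻¹ := by rw [hz]; group
          _ = x := by rw [h, h]
      · calc z * x * z⁻¹ = r * (r * x * r⁻¹) * r⁻¹ := by rw [hz]; group
          _ = r * x⁻¹ * r⁻¹ := by rw [h]
          _ = (r * x * r⁻¹)⁻¹ := by group
          _ = x := by rw [h, inv_inv]
    -- the inverted line
    let inv' : Subgroup S :=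
      { carrier := {x | x ∈ A ∧ z * x * z⁻¹ = x⁻¹}
        one_mem' := ⟨one_mem _, by group⟩
        mul_mem' := fun {x y} hx hy => ⟨mul_mem hx.1 hy.1, by
          calc z * (x * y) * z⁻¹ = (z * x * z⁻¹) * (z * y * z⁻¹) := by group
            _ = x⁻¹ * y⁻¹ := by rw [hx.2, hy.2]
            _ = (x * y)⁻¹ := by rw [mul_inv_rev, hcA _ (inv_mem hy.1) _ (inv_mem hx.1)]⟩
        inv_mem' := fun {x} hx => ⟨inv_mem hx.1, by
          calc z * x⁻¹ * z⁻¹ = (z * x * z⁻¹)⁻¹ := by group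
            _ = x⁻¹⁻¹ := by rw [hx.2]⟩ }
    have hIne : inv' ≠ A := by
      intro h
      have hcI : c ∈ inv' := h.symm ▸ hc
      exact hc1 (hodd c hc (h1.symm.trans hcI.2))
    have hIl := hline inv' (fun x hx => hx.1)
      (fun h => hd'1 (Subgroup.mem_bot.1 (h ▸ (⟨hd', k2⟩ : d' ∈ inv')))) hIne d' ⟨hd', k2⟩ hd'1
    have hrd : r * d' * r⁻¹ ∈ inv' := ⟨hcjA r d' hd', by
      calc z * (r * d' * r⁻¹) * z⁻¹ = r * (z * d' * z⁻¹) * r⁻¹ := by rw [hz]; group
        _ = (r * d' * r⁻¹)⁻¹ := by rw [k2]; group⟩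
    rcases hIl _ hrd with h | h
    · exact hd'1 (by calc d' = r⁻¹ * (r * d' * r⁻¹) * r := by group
                      _ = 1 := by rw [h]; group)
    · exact hd'1 (hodd d' hd' ((hz_c d' h).symm.trans k2))
  -- the centraliser of `s`
  obtain ⟨a₁, ha₁, hs₁, ha₁1⟩ : ∃ a ∈ A, s * a * s⁻¹ = a ∧ a ≠ 1 := by
    by_contra hno
    have : DihedralGroup.sr (2 : ZMod 4) = 1 := hfaithA _ fun x hx => by
      rw [show φ (DihedralGroup.sr (2 : ZMod 4)) = z * s by
        rw [hz, hr, hs, ← map_mul, ← map_mul]; congr 1]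
      obtain ⟨c, hc, d, hd, h1, h2, rfl⟩ := hdec s hss x hx
      have hc1 : c = 1 := by by_contra h; exact hno ⟨c, hc, h1, h⟩
      rw [hc1, one_mul]
      calc z * s * d * (z * s)⁻¹ = z * (s * d * s⁻¹) * z⁻¹ := by group
        _ = d := by rw [h2, hzinv _ (inv_mem hd), inv_inv]
    exact absurd this (by decide)
  set a₂ := r * a₁ * r⁻¹ with ha₂
  have ha₂A : a₂ ∈ A := hcjA r a₁ ha₁
  have hr1 : r * a₁ = a₂ * r := by rw [ha₂]; group
  have hr2 : r * a₂ = a₁⁻¹ * r := by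
    calc r * a₂ = (z * a₁ * z⁻¹) * r := by rw [ha₂, hz]; group
      _ = a₁⁻¹ * r := by rw [hzinv a₁ ha₁]
  have hs1 : s * a₁ = a₁ * s := by
    calc s * a₁ = (s * a₁ * s⁻¹) * s := by group
      _ = a₁ * s := by rw [hs₁]
  have hs2c : s * a₂ * s⁻¹ = a₂⁻¹ := by
    calc s * a₂ * s⁻¹ = (s * r) * a₁ * (s * r)⁻¹ := by rw [ha₂]; group
      _ = r⁻¹ * (s * a₁ * s⁻¹) * r := by rw [hsr]; group
      _ = z⁻¹ * a₂ * z := by rw [hs₁, ha₂, hz]; group
      _ = a₂⁻¹ := by
        rw [inv_eq_of_mul_eq_one_right hzz]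
        conv_lhs => arg 2; rw [← inv_eq_of_mul_eq_one_right hzz]
        exact hzinv _ ha₂A
  have hs2 : s * a₂ = a₂⁻¹ * s := by rw [← hs2c]; group
  have ha₂1 : a₂ ≠ 1 := by
    intro h
    exact ha₁1 (by calc a₁ = r⁻¹ * a₂ * r := by rw [ha₂]; group
                    _ = 1 := by rw [h]; group)
  have ha12 : a₂ ∉ Subgroup.zpowers a₁ := by
    intro h
    obtain ⟨j, hj⟩ := Subgroup.mem_zpowers_iff.1 h
    have hcs : Commute s (a₁ ^ j) := Commute.zpow_right hs1 j
    rw [hj] at hcs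
    exact ha₂1 (hodd _ ha₂A (by rw [← hs2c, hcs.eq]; group))
  have hAgen : A = Subgroup.closure {a₁, a₂} := by
    have hle : Subgroup.closure {a₁, a₂} ≤ A := by
      rw [Subgroup.closure_le]; rintro x (rfl | rfl) <;> assumption
    symm
    refine Subgroup.eq_of_le_of_card_ge hle ?_
    have hd : Nat.card (Subgroup.closure {a₁, a₂}) ∣ 3 ^ 2 := by
      have := Subgroup.card_dvd_of_le hle
      rwa [hA9] at this
    obtain ⟨k, hk, hk'⟩ := (Nat.dvd_prime_pow Nat.prime_three).1 hd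
    have hlt : Nat.card (Subgroup.zpowers a₁) < Nat.card (Subgroup.closure {a₁, a₂}) := by
      have hle1 : Subgroup.zpowers a₁ ≤ Subgroup.closure {a₁, a₂} := by
        rw [Subgroup.zpowers_le]; exact Subgroup.subset_closure (by simp)
      refine lt_of_le_of_ne (Subgroup.card_le_of_le hle1) fun h => ha12 ?_
      rw [Subgroup.eq_of_le_of_card_ge hle1 h.ge]
      exact Subgroup.subset_closure (by simp)
    rw [Nat.card_zpowers, orderOf_eq_prime (h3A _ ha₁) ha₁1, hk'] at hlt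
    rw [hk', hA9]
    interval_cases k <;> first | (norm_num at hlt; done) | norm_num
  have hXgen : ∀ x ∈ X, x ∈ Subgroup.closure {r, s} := by
    intro x hx
    have hxe : x = φ (e ⟨x, hx⟩) := by simp [hφ]
    rw [hxe]
    generalize e ⟨x, hx⟩ = d
    have hrot : ∀ j : ZMod 4, φ (DihedralGroup.r j) ∈ Subgroup.closure {r, s} := by
      intro j
      rw [← ZMod.natCast_zmod_val j, ← DihedralGroup.r_one_pow, map_pow]
      exact pow_mem (Subgroup.subset_closure (by simp [hr])) _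
    rcases d with j | j
    · exact hrot j
    · rw [show DihedralGroup.sr j = DihedralGroup.sr 0 * DihedralGroup.r j by
        rw [DihedralGroup.sr_mul_r, zero_add], map_mul]
      exact mul_mem (Subgroup.subset_closure (by simp [hs])) (hrot j)
  have hgen : Subgroup.closure {a₁, a₂, r, s} = ⊤ := by
    rw [eq_top_iff, ← hAX, sup_le_iff]
    refine ⟨hAgen ▸ Subgroup.closure_mono (by intro x; simp; tauto), fun x hx => ?_⟩
    exact Subgroup.closure_mono (by intro x; simp; tauto) (hXgen x hx)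
  have hne2 : ∀ a ∈ A, a ≠ 1 → ρ a ≠ 1 := fun a _ ha h => ha (hfaith (h.trans (map_one ρ).symm))
  -- some line of `A` has fixed points
  obtain ⟨m, hm⟩ := exists_ne (0 : M)
  set b₁ := a₁ * a₂ with hb₁
  set b₂ := r * b₁ * r⁻¹ with hb₂
  have hb₁A : b₁ ∈ A := mul_mem ha₁ ha₂A
  have hb₂A : b₂ ∈ A := hcjA r b₁ hb₁A
  have hb₂' : b₂ = a₂ * a₁⁻¹ := by
    calc b₂ = (r * a₁) * (r⁻¹ * (r * a₂)) * r⁻¹ := by rw [hb₂, hb₁]; group
      _ = a₂ * a₁⁻¹ := by rw [hr1, hr2]; group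
  have hex : (∃ m : M, m ≠ 0 ∧ ρ a₁ m = m) ∨ ∃ m : M, m ≠ 0 ∧ ρ b₁ m = m := by
    by_contra hno
    obtain ⟨hno1, hno3⟩ := not_or.1 hno
    have hr' : ∀ g x, ρ (r * g * r⁻¹) x = x → ρ g (ρ r⁻¹ x) = ρ r⁻¹ x := fun g x h => by
      conv_rhs => rw [← h]
      rw [← rho_mul, ← rho_mul]; congr 2; group
    have hrne : ∀ x : M, x ≠ 0 → ρ r⁻¹ x ≠ 0 := fun x hx h => hx (by
      have := congrArg (fun y => ρ r y) h
      simpa [← rho_mul] using this)
    have E : ∀ g ∈ A, (∀ x : M, x ≠ 0 → ρ g x ≠ x) → ∀ x : M, x + ρ g x + ρ g (ρ g x) = 0 := by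
      intro g hg hfpf x
      by_contra h
      refine hfpf _ h ?_
      rw [map_add, map_add, show ρ g (ρ g (ρ g x)) = x by
        rw [← rho_mul, ← rho_mul, mul_assoc, cube_one (h3A g hg), map_one]; rfl]
      abel
    have e1 := E a₁ ha₁ (fun x hx h => hno1 ⟨x, hx, h⟩) m
    have e2 := E a₂ ha₂A (fun x hx h => hno1 ⟨_, hrne x hx, hr' a₁ x h⟩)
    have e3 := E b₁ hb₁A (fun x hx h => hno3 ⟨x, hx, h⟩) m
    have e4 := E b₂ hb₂A (fun x hx h => hno3 ⟨_, hrne x hx, hr' b₁ x h⟩) m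
    have e5 := E a₁ ha₁ (fun x hx h => hno1 ⟨x, hx, h⟩) (m + ρ a₂ m + ρ a₂ (ρ a₂ m))
    have q1 : a₁⁻¹ = a₁ * a₁ := inv_cube (h3A a₁ ha₁)
    have hc12 : Commute a₂ a₁ := hcA _ ha₂A _ ha₁
    have q4 : b₂ = a₁ * a₁ * a₂ := by rw [hb₂', q1, (hc12.mul_right hc12).eq]
    have q3 : b₁ * b₁ = a₁ * a₁ * (a₂ * a₂) := by
      rw [hb₁]
      calc a₁ * a₂ * (a₁ * a₂) = a₁ * (a₂ * a₁) * a₂ := by group
        _ = a₁ * a₁ * (a₂ * a₂) := by rw [hc12.eq]; group
    have q4' : b₂ * b₂ = a₁ * (a₂ * a₂) := by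
      rw [q4, hc12.symm.mul_left hc12.symm |>.eq]
      calc a₂ * (a₁ * a₁) * (a₂ * (a₁ * a₁)) = a₂ * ((a₁ * a₁) * a₂) * (a₁ * a₁) := by group
        _ = a₂ * a₂ * (a₁ * a₁ * a₁) * a₁ := by
            rw [(hc12.symm.mul_left hc12.symm).eq]; group
        _ = a₂ * a₂ * a₁ := by rw [show a₁ * a₁ * a₁ = 1 by rw [mul_assoc]; exact cube_one (h3A a₁ ha₁), mul_one]
        _ = a₁ * (a₂ * a₂) := (hc12.mul_left hc12).eq
    simp only [map_add, ← rho_mul] at e1 e2 e3 e4 e5
    have e2' := e2 m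
    rw [q3, hb₁] at e3
    rw [q4', q4] at e4
    simp only [mul_assoc] at e1 e2' e3 e4 e5
    apply hm
    have hsum : (m + ρ a₁ m + ρ (a₁ * a₁) m) + (m + ρ a₂ m + ρ (a₂ * a₂) m) +
        (m + ρ (a₁ * a₂) m + ρ (a₁ * (a₁ * (a₂ * a₂))) m) +
        (m + ρ (a₁ * (a₁ * a₂)) m + ρ (a₁ * (a₂ * a₂)) m) +
        (m + ρ a₂ m + ρ (a₂ * a₂) m + (ρ a₁ m + ρ (a₁ * a₂) m + ρ (a₁ * (a₂ * a₂)) m) +
          (ρ (a₁ * a₁) m + ρ (a₁ * (a₁ * a₂)) m + ρ (a₁ * (a₁ * (a₂ * a₂))) m)) = 0 := by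
      rw [e5, e1, e2', e3, e4]; simp
    rwa [nine (char_two_add ρ)] at hsum
  -- the two four-groups
  let B₀ : Finset (DihedralGroup 4) := {1, DihedralGroup.r 2, DihedralGroup.sr 0, DihedralGroup.sr 2}
  let B₁ : Finset (DihedralGroup 4) := {1, DihedralGroup.r 2, DihedralGroup.sr 1, DihedralGroup.sr 3}
  let P₀ : Subgroup (DihedralGroup 4) :=
    { carrier := ↑B₀
      one_mem' := by simp [B₀]
      mul_mem' := fun {x y} => by simp only [Finset.mem_coe, B₀]; revert x y; decide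
      inv_mem' := fun {x} => by simp only [Finset.mem_coe, B₀]; revert x; decide }
  let P₁ : Subgroup (DihedralGroup 4) :=
    { carrier := ↑B₁
      one_mem' := by simp [B₁]
      mul_mem' := fun {x y} => by simp only [Finset.mem_coe, B₁]; revert x y; decide
      inv_mem' := fun {x} => by simp only [Finset.mem_coe, B₁]; revert x; decide }
  have hP0 : Nat.card (P₀.map φ) = 4 := by
    rw [Subgroup.card_map_of_injective hinj]
    show Nat.card (↑B₀ : Set (DihedralGroup 4)) = 4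
    rw [Nat.card_coe_set_eq, Set.ncard_coe_finset]; decide
  have hP1 : Nat.card (P₁.map φ) = 4 := by
    rw [Subgroup.card_map_of_injective hinj]
    show Nat.card (↑B₁ : Set (DihedralGroup 4)) = 4
    rw [Nat.card_coe_set_eq, Set.ncard_coe_finset]; decide
  have hBle : ∀ (P : Subgroup (DihedralGroup 4)), P.map φ ≤ X := fun P x hx => by
    obtain ⟨d, -, rfl⟩ := Subgroup.mem_map.1 hx; exact hφX d
  have hBsq : ∀ P : Finset (DihedralGroup 4), P = B₀ ∨ P = B₁ → ∀ d ∈ P, d ^ 2 = 1 := by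
    rintro P (rfl | rfl) <;> decide
  have hBcases : ∀ B : Subgroup S, B ≤ X → Nat.card B = 4 → (∀ b ∈ B, b ^ 2 = 1) →
      B = P₀.map φ ∨ B = P₁.map φ := by
    intro B hBX hB4 hB2
    have hpre : ∀ b ∈ B, ∃ d, φ d = b := fun b hb => ⟨e ⟨b, hBX hb⟩, by simp [hφ]⟩
    have key : B ≤ P₀.map φ ∨ B ≤ P₁.map φ := by
      by_contra hk
      obtain ⟨h0, h1⟩ := not_or.1 hk
      obtain ⟨x, hx, hx'⟩ := SetLike.not_le_iff_exists.1 h0
      obtain ⟨y, hy, hy'⟩ := SetLike.not_le_iff_exists.1 h1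
      obtain ⟨dx, rfl⟩ := hpre x hx
      obtain ⟨dy, rfl⟩ := hpre y hy
      have f1 : dx ∉ B₀ := fun h => hx' (Subgroup.mem_map_of_mem _ (show dx ∈ P₀ from h))
      have f2 : dy ∉ B₁ := fun h => hy' (Subgroup.mem_map_of_mem _ (show dy ∈ P₁ from h))
      have g1 : dx ^ 2 = 1 := hinj (by rw [map_pow, map_one]; exact hB2 _ hx)
      have g2 : dy ^ 2 = 1 := hinj (by rw [map_pow, map_one]; exact hB2 _ hy)
      have g3 : (dx * dy) ^ 2 = 1 := hinj (by
        rw [map_pow, map_mul, map_one]; exact hB2 _ (mul_mem hx hy))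
      have : ∀ u w : DihedralGroup 4, u ∉ B₀ → w ∉ B₁ → u ^ 2 = 1 → w ^ 2 = 1 → (u * w) ^ 2 ≠ 1 := by
        decide
      exact this dx dy f1 f2 g1 g2 g3
    exact key.imp (fun h => Subgroup.eq_of_le_of_card_ge h (by rw [hB4, hP0]))
      (fun h => Subgroup.eq_of_le_of_card_ge h (by rw [hB4, hP1]))
  have hcount : ∀ (P : Subgroup (DihedralGroup 4)) (d : DihedralGroup 4),
      (∀ x, x ∈ P ↔ x = 1 ∨ x = DihedralGroup.r 2 ∨ x = d ∨ x = DihedralGroup.r 2 * d) →
      Nat.card {m : M // ∀ b ∈ P.map φ, ρ b m = m} =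
        Nat.card {m : M // ρ z m = m ∧ ρ (φ d) m = m} := by
    intro P d hP
    have hz' : φ (DihedralGroup.r 2) = z := by rw [hz, hr, ← map_mul]; congr 1
    refine Nat.card_congr (Equiv.subtypeEquivRight fun x => ⟨fun h => ⟨?_, ?_⟩, ?_⟩)
    · exact hz' ▸ h _ (Subgroup.mem_map_of_mem _ ((hP _).2 (by simp)))
    · exact h _ (Subgroup.mem_map_of_mem _ ((hP _).2 (by simp)))
    · rintro ⟨h1, h2⟩ b hb
      obtain ⟨u, hu, rfl⟩ := Subgroup.mem_map.1 hb
      rcases (hP u).1 hu with rfl | rfl | rfl | rfl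
      · simp
      · rw [hz']; exact h1
      · exact h2
      · rw [map_mul φ, rho_mul, h2, hz', h1]
  have hc0 := hcount P₀ (DihedralGroup.sr 0) (fun x => by
    show x ∈ B₀ ↔ _
    revert x; decide)
  have hc1 := hcount P₁ (DihedralGroup.sr 3) (fun x => by
    show x ∈ B₁ ↔ _
    revert x; decide)
  have hrsd : φ (DihedralGroup.sr 3) = r * s := by rw [hr, hs, ← map_mul]; congr 1
  rw [← hs] at hc0
  rw [hrsd] at hc1
  rcases hex with hex | hex
  · obtain ⟨h16, h4, h2⟩ := core ρ hirr r s a₁ a₂ (h3A _ ha₁) (h3A _ ha₂A) (hcA _ ha₁ _ ha₂A)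
      hr1 hr2 hs1 hs2 hss hr4 hsr hgen (hne2 _ ha₂A ha₂1) hex
    refine ⟨h16, P₁.map φ, ⟨hBle _, hP1, ?_, hc1.trans h2⟩, ?_⟩
    · intro b hb
      obtain ⟨u, hu, rfl⟩ := Subgroup.mem_map.1 hb
      rw [← map_pow, hBsq B₁ (Or.inr rfl) u hu, map_one]
    · rintro B ⟨hB1, hB2, hB3, hB4⟩
      rcases hBcases B hB1 hB2 hB3 with rfl | rfl
      · rw [hc0, h4] at hB4; exact absurd hB4 (by norm_num)
      · rfl
  · have hb1 : b₂ ≠ 1 := fun h => ha12 (by
      rw [hb₂'] at h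
      rw [mul_inv_eq_one.1 h]; exact Subgroup.mem_zpowers _)
    have k1 : r * b₁ = b₂ * r := by rw [hb₂]; group
    have k2 : r * b₂ = b₁⁻¹ * r := by
      calc r * b₂ = (z * b₁ * z⁻¹) * r := by rw [hb₂, hz]; group
        _ = b₁⁻¹ * r := by rw [hzinv b₁ hb₁A]
    have k3 : r * s * b₁ = b₁ * (r * s) := by
      calc r * s * b₁ = r * (s * a₁) * a₂ := by rw [hb₁]; group
        _ = (r * a₁) * (s * a₂) := by rw [hs1]; group
        _ = a₂ * (r * a₂⁻¹) * s := by rw [hr1, hs2]; group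
        _ = a₂ * (a₁ * r) * s := by
          have : r * a₂⁻¹ = a₁ * r := by
            calc r * a₂⁻¹ = a₁ * (a₁⁻¹ * r) * a₂⁻¹ := by group
              _ = a₁ * r := by rw [← hr2]; group
          rw [this]
        _ = b₁ * (r * s) := by rw [hb₁, ← mul_assoc a₂ a₁, hcA _ ha₂A _ ha₁]; group
    have k4 : r * s * b₂ = b₂⁻¹ * (r * s) := by
      have hrsr : r * s * r = s := by rw [mul_assoc, hsr]; group
      have e1 : s * r⁻¹ = r * s := by
        calc s * r⁻¹ = r * (r⁻¹ * s) * r⁻¹ := by group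
          _ = r * s := by rw [← hsr]; group
      calc r * s * b₂ = (r * s * r) * b₁ * r⁻¹ := by rw [hb₂]; group
        _ = r⁻¹ * (r * s * b₁) * r⁻¹ := by rw [hrsr]; group
        _ = r⁻¹ * b₁ * ((r * s * r) * (r⁻¹ * r⁻¹)) := by rw [k3]; group
        _ = r⁻¹ * b₁ * (s * r⁻¹) * r⁻¹ := by rw [hrsr]; group
        _ = r⁻¹ * b₁ * (r * s) * r⁻¹ := by rw [e1]
        _ = r⁻¹ * b₁ * r * (s * r⁻¹) := by group
        _ = b₂⁻¹ * (r * s) := by
          rw [e1]
          congr 1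
          rw [eq_inv_iff_mul_eq_one, hb₂]
          calc r⁻¹ * b₁ * r * (r * b₁ * r⁻¹) = r⁻¹ * (b₁ * (z * b₁ * z⁻¹)) * r := by rw [hz]; group
            _ = 1 := by rw [hzinv b₁ hb₁A]; group
    have hgen' : Subgroup.closure {b₁, b₂, r, r * s} = ⊤ := by
      set K := Subgroup.closure {b₁, b₂, r, r * s} with hK
      have m1 : b₁ ∈ K := Subgroup.subset_closure (by simp)
      have m2 : b₂ ∈ K := Subgroup.subset_closure (by simp)
      have m3 : r ∈ K := Subgroup.subset_closure (by simp)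
      have m4 : s ∈ K := by
        have := K.mul_mem (K.inv_mem m3) (Subgroup.subset_closure (show r * s ∈ ({b₁, b₂, r, r * s} : Set S) by simp))
        simpa using this
      have m5 : a₂ ∈ K := by
        have h5 : b₁ * b₂ = a₂ * a₂ := by
          rw [hb₂', hb₁, hcA _ ha₁ _ ha₂A, mul_assoc, ← mul_assoc a₁, hcA _ ha₁ _ ha₂A]; group
        have : a₂ = (b₁ * b₂)⁻¹ := by
          rw [h5, eq_inv_iff_mul_eq_one]; exact cube_one (h3A _ ha₂A)
        rw [this]; exact K.inv_mem (K.mul_mem m1 m2)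
      have m6 : a₁ ∈ K := by
        have := K.mul_mem m1 (K.inv_mem m5)
        rwa [hb₁, mul_inv_cancel_right] at this
      rw [eq_top_iff, ← hgen, Subgroup.closure_le]
      rintro x (rfl | rfl | rfl | rfl) <;> assumption
    have hrs2 : r * s * (r * s) = 1 := by
      rw [← mul_assoc, mul_assoc r s r, hsr]; group; simpa [pow_two] using hss
    obtain ⟨h16, h4, h2⟩ := core ρ hirr r (r * s) b₁ b₂ (h3A _ hb₁A) (h3A _ hb₂A)
      (hcA _ hb₁A _ hb₂A) k1 k2 k3 k4 hrs2 hr4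
      (by rw [mul_assoc, hsr]; group)
      hgen' (hne2 _ hb₂A hb1) hex
    have hflip : Nat.card {m : M // ρ z m = m ∧ ρ (r * (r * s)) m = m} =
        Nat.card {m : M // ρ z m = m ∧ ρ s m = m} := by
      refine Nat.card_congr (Equiv.subtypeEquivRight fun x => ?_)
      rw [← mul_assoc, ← hz, rho_mul ρ z s]
      have hzsx : ρ z (ρ s x) = ρ s (ρ z x) := by rw [← rho_mul, ← rho_mul, hsz]
      constructor
      · rintro ⟨u1, u2⟩
        rw [hzsx, u1] at u2
        exact ⟨u1, u2⟩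
      · rintro ⟨u1, u2⟩; exact ⟨u1, by rw [u2, u1]⟩
    rw [hflip] at h2
    refine ⟨h16, P₀.map φ, ⟨hBle _, hP0, ?_, hc0.trans h2⟩, ?_⟩
    · intro b hb
      obtain ⟨u, hu, rfl⟩ := Subgroup.mem_map.1 hb
      rw [← map_pow, hBsq B₀ (Or.inl rfl) u hu, map_one]
    · rintro B ⟨hB1, hB2, hB3, hB4⟩
      rcases hBcases B hB1 hB2 hB3 with rfl | rfl
      · rfl
      · rw [hc1, h4] at hB4; exact absurd hB4 (by norm_num)

end Cfsg.Agent.S4407
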