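import Cfsg.Statements.S4409
import Cfsg.Agent.MinEightTwo.Core
import Cfsg.Agent.Hall.Fitting
import Cfsg.Agent.Hall.StructBatch

set_option autoImplicit false
open Cfsg

namespace Cfsg.Agent.S4409

open Subgroup CfsgLib.MinEightTwo
open scoped commutatorElement

variable {S : Type*} [Group S] [Finite S]

theorem card_le_two_of {B A : Subgroup S} (hBA : B ≤ A)
    (h : ∀ a ∈ A, a ∉ B → ∀ b ∈ A, b ∉ B → a * b ∈ B) : Nat.card A ≤ 2 * Nat.card B := by
  classical
  have hinj : Function.Injective (fun q : A ⧸ B.subgroupOf A => decide ((q.out : S) ∈ B)) := by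
    intro a b hab
    simp only [decide_eq_decide] at hab
    rw [← QuotientGroup.out_eq' a, ← QuotientGroup.out_eq' b, QuotientGroup.eq, mem_subgroupOf, coe_mul, coe_inv]
    by_cases ha : (a.out : S) ∈ B
    · exact mul_mem (inv_mem ha) (hab.1 ha)
    · exact h _ (inv_mem a.out.2) (fun e => ha (inv_mem_iff.1 e)) _ b.out.2 (fun e => ha (hab.2 e))
  have h1 := Nat.card_le_card_of_injective _ hinj
  rw [Nat.card_eq_fintype_card (α := Bool), Fintype.card_bool] at h1
  have h2 := Subgroup.card_mul_index (B.subgroupOf A)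
  rw [Nat.card_congr (Subgroup.subgroupOfEquivOfLe hBA).toEquiv, Subgroup.index] at h2
  calc Nat.card A = Nat.card B * Nat.card (A ⧸ B.subgroupOf A) := h2.symm
    _ ≤ Nat.card B * 2 := Nat.mul_le_mul_left _ h1
    _ = 2 * Nat.card B := mul_comm _ _

theorem center_map (P : Subgroup S) :
    (Subgroup.center P).map P.subtype = P ⊓ centralizer (P : Set S) := by
  ext x
  constructor
  · rintro ⟨y, hy, rfl⟩
    exact ⟨y.2, mem_centralizer_iff.2 fun g hg => congrArg Subtype.val (Subgroup.mem_center_iff.1 hy ⟨g, hg⟩)⟩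
  · rintro ⟨hx, hc⟩
    exact ⟨⟨x, hx⟩, Subgroup.mem_center_iff.2 fun g => Subtype.ext (mem_centralizer_iff.1 hc g g.2), rfl⟩

theorem T8_derived {O : Subgroup S} (hT : T8 O) : ⁅O, O⁆ = O ⊓ centralizer (O : Set S) := by
  obtain ⟨Z, hZO, hZc, hZ, hcard, -⟩ := exists_data (H := (⊥ : Subgroup S)) bot_le (Or.inr hT)
  rw [hZ]
  refine eq_of_le_of_card_ge (fun z hz => ⟨hZO hz, mem_centralizer_iff.2 fun w hw => (hZc z hz w hw).symm⟩) ?_
  have := hT.card; have := hT.zcard; omega

theorem eq_of_card_two {Z : Subgroup S} (hZ : Nat.card Z = 2) {u v : S} (hu : u ∈ Z) (hu1 : u ≠ 1)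
    (hv : v ∈ Z) (hv1 : v ≠ 1) : u = v := by
  have := coset_two (bot_le : ⊥ ≤ Z) (by rw [hZ, Subgroup.card_bot]) hu (by rwa [Subgroup.mem_bot]) hv
    (by rwa [Subgroup.mem_bot])
  rwa [Subgroup.mem_bot, inv_mul_eq_one] at this

/-- An element acting trivially modulo the centre of a quaternion type `O` lies in `O`. -/
theorem inner_of_mod {O : Subgroup S} (hT : T8 O) (hO2 : IsPGroup 2 O) (hC : centralizer (O : Set S) ≤ O) {a : S}
    (ha : a ∈ normalizer (O : Set S))
    (h : ∀ x ∈ O, a * x * a⁻¹ * x⁻¹ ∈ O ⊓ centralizer (O : Set S)) : a ∈ O := by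
  set Z := O ⊓ centralizer (O : Set S) with hZdef
  have hder := T8_derived hT
  have haZ : ∀ t ∈ Z, a * t = t * a := by
    have hn : Subgroup.zpowers a ≤ normalizer (Z : Set S) := by
      rw [zpowers_le, hZdef, ← hder, mem_normalizer_iff_map_conj_eq, map_commutator,
        mem_normalizer_iff_map_conj_eq.1 ha]
    have := centralizes_card_two hn hT.zcard.le
    exact fun t ht => (mem_centralizer_iff.1 (this (mem_zpowers a)) t ht).symm
  obtain ⟨i, hi, hiZ, -⟩ := hT.exists_four
  set U := Subgroup.zpowers i ⊔ Z with hU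
  have hin : Subgroup.zpowers i ≤ normalizer (Z : Set S) := by
    refine (zpowers_le.2 ?_).trans (centralizer_le_normalizer _)
    exact mem_centralizer_iff.2 fun z hz => (mem_centralizer_iff.1 hz.2 i hi).symm
  have hU4 : Nat.card U ≤ 4 := card_sup_le_four hT.zcard (hT.sq i hi) hin
  obtain ⟨j, hj, hjU⟩ : ∃ j ∈ O, j ∉ U := by
    by_contra h'; push Not at h'
    have := Nat.le_of_dvd Nat.card_pos (card_dvd_of_le (show O ≤ U from h'))
    rw [hT.card] at this; omega
  have hUO : U ≤ O := sup_le (zpowers_le.2 hi) inf_le_left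
  have hMO : U ⊔ Subgroup.zpowers j = O := by
    refine eq_of_le_of_card_ge (sup_le hUO (zpowers_le.2 hj)) ?_
    rw [hT.card]
    refine eight_le (hO2.to_le (sup_le hUO (zpowers_le.2 hj))) (lt_of_le_of_lt ?_ (card_lt_sup hjU))
    have hlt : Nat.card Z < Nat.card U := by rw [hU, sup_comm]; exact card_lt_sup hiZ
    obtain ⟨m, hm⟩ : Nat.card Z ∣ Nat.card U := card_dvd_of_le le_sup_right
    rw [hT.zcard] at hm hlt
    omega
  have hiZc : i ∈ centralizer (Z : Set S) :=
    mem_centralizer_iff.2 fun z hz => (mem_centralizer_iff.1 hz.2 i hi).symm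
  have hij : ⁅j, i⁆ ≠ 1 := by
    intro e
    rw [commutatorElement_eq_one_iff_mul_comm] at e
    have hUc : ∀ x ∈ U, ∀ y ∈ U, x * y = y * x := by
      rw [hU, sup_comm]
      exact sup_zpowers_comm (fun x hx y hy => mem_centralizer_iff.1 hy.2 x hx.1) hiZc
    have hjc : j ∈ centralizer (U : Set S) := by
      have : U ≤ centralizer ({j} : Set S) := sup_le (zpowers_le.2 (mem_centralizer_singleton.2 e))
        (fun z hz => mem_centralizer_singleton.2 (mem_centralizer_iff.1 hz.2 j hj))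
      exact mem_centralizer_iff.2 fun x hx => (mem_centralizer_singleton.1 (this hx)).symm
    have hc := sup_zpowers_comm hUc hjc
    rw [hMO] at hc
    have h3 := hT.zcard
    rw [inf_eq_left.2 (fun x hx => mem_centralizer_iff.2 fun y hy => hc y hy x hx), hT.card] at h3
    norm_num at h3
  have hz : ∀ w ∈ O, ∀ x ∈ O, w * x * w⁻¹ * x⁻¹ ∈ Z := fun w hw x hx => by
    rw [hZdef, ← hder]; exact commutator_mem_commutator hw hx
  -- multiplying by elements of `O`
  have hmulw : ∀ b : S, (∀ t ∈ Z, b * t = t * b) → (∀ x ∈ O, b * x * b⁻¹ * x⁻¹ ∈ Z) → ∀ w ∈ O, ∀ x ∈ O,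
      (b * w) * x * (b * w)⁻¹ * x⁻¹ = (w * x * w⁻¹ * x⁻¹) * (b * x * b⁻¹ * x⁻¹) := by
    intro b hb hbx w hw x hx
    have := hb _ (hz w hw x hx)
    calc (b * w) * x * (b * w)⁻¹ * x⁻¹ = (b * (w * x * w⁻¹ * x⁻¹)) * (x * b⁻¹ * x⁻¹) := by group
      _ = ((w * x * w⁻¹ * x⁻¹) * b) * (x * b⁻¹ * x⁻¹) := by rw [this]
      _ = (w * x * w⁻¹ * x⁻¹) * (b * x * b⁻¹ * x⁻¹) := by group
  have hstep : ∀ b : S, (∀ t ∈ Z, b * t = t * b) → (∀ x ∈ O, b * x * b⁻¹ * x⁻¹ ∈ Z) → ∀ w ∈ O, ∀ x ∈ O,
      ⁅w, x⁆ ≠ 1 → ∃ w' : S, (w' = 1 ∨ w' = w) ∧ b * w' * x = x * (b * w') := by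
    intro b hb hbx w hw x hx hne
    by_cases hbc : b * x * b⁻¹ * x⁻¹ = 1
    · exact ⟨1, Or.inl rfl, by rw [mul_one]; exact mul_inv_eq_iff_eq_mul.1 (mul_inv_eq_one.1 hbc)⟩
    · refine ⟨w, Or.inr rfl, ?_⟩
      have e := hmulw b hb hbx w hw x hx
      rw [commutatorElement_def] at hne
      have e2 := eq_of_card_two hT.zcard (hz w hw x hx) hne (hbx x hx) hbc
      rw [← e2] at e
      have h2 := hT.sq _ (mul_mem hi (one_mem O))
      have e3 : (w * x * w⁻¹ * x⁻¹) * (w * x * w⁻¹ * x⁻¹) = 1 := by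
        have := Subgroup.orderOf_dvd_natCard Z (hz w hw x hx)
        rw [hT.zcard, orderOf_dvd_iff_pow_eq_one, pow_two] at this
        exact this
      rw [e3] at e
      exact mul_inv_eq_iff_eq_mul.1 (mul_inv_eq_one.1 e)
  have hmemZ : ∀ w ∈ O, ∀ t ∈ Z, w * t = t * w := fun w hw t ht => mem_centralizer_iff.1 ht.2 w hw
  obtain ⟨w₁, hw₁, h₁⟩ := hstep a haZ h j hj i hi hij
  have hw₁O : w₁ ∈ O := by rcases hw₁ with rfl | rfl <;> [exact one_mem O; exact hj]
  have ha1Z : ∀ t ∈ Z, a * w₁ * t = t * (a * w₁) := fun t ht => by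
    rw [mul_assoc, hmemZ w₁ hw₁O t ht, ← mul_assoc, haZ t ht, mul_assoc]
  have ha1x : ∀ x ∈ O, a * w₁ * x * (a * w₁)⁻¹ * x⁻¹ ∈ Z := fun x hx => by
    rw [hmulw a haZ h w₁ hw₁O x hx]; exact mul_mem (hz w₁ hw₁O x hx) (h x hx)
  obtain ⟨w₂, hw₂, h₂⟩ := hstep (a * w₁) ha1Z ha1x i hi j hj (fun e => hij (by
    rw [← commutatorElement_inv, e, inv_one]))
  have hw₂O : w₂ ∈ O := by rcases hw₂ with rfl | rfl <;> [exact one_mem O; exact hi]
  have h₂i : a * w₁ * w₂ * i = i * (a * w₁ * w₂) := by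
    rcases hw₂ with rfl | rfl
    · rw [mul_one]; exact h₁
    · rw [← mul_assoc (w₂), ← h₁]
  have hle : O ≤ centralizer ({a * w₁ * w₂} : Set S) := by
    rw [← hMO]
    refine sup_le (sup_le (zpowers_le.2 (mem_centralizer_singleton.2 h₂i)) fun t ht => ?_)
      (zpowers_le.2 (mem_centralizer_singleton.2 h₂))
    rw [mem_centralizer_singleton, mul_assoc (a * w₁), hmemZ w₂ hw₂O t ht, ← mul_assoc, ha1Z t ht, mul_assoc]
  have hmem := hC (mem_centralizer_iff.2 fun x hx => (mem_centralizer_singleton.1 (hle hx)).symm)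
  rwa [mul_mem_cancel_right hw₂O, mul_mem_cancel_right hw₁O] at hmem

/-- A self-centralizing four-group or quaternion group leaves no room for a bad subgroup. -/
theorem no_bad {O A : Subgroup S} (hO : IsPGroup 2 O) (hOn : O.Normal) (hT : T4 O ∨ T8 O)
    (hC : centralizer (O : Set S) ≤ O) (hAc : IsMulCommutative ↥A) (hAnc : ¬ IsCyclic ↥A)
    (hA : Nat.card A = 8) : False := by
  haveI := Fact.mk Nat.prime_two
  have hAp : IsPGroup 2 A := IsPGroup.of_card (n := 3) (by rw [hA]; rfl)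
  have hAcomm : ∀ x ∈ A, ∀ y ∈ A, x * y = y * x := fun x hx y hy =>
    congrArg Subtype.val (hAc.is_comm.comm (⟨x, hx⟩ : A) ⟨y, hy⟩)
  have hM : IsPGroup 2 ↥(A ⊔ O) := hAp.to_sup_of_normal_right hO
  have hAO : ¬ A ≤ O := by
    intro h
    rcases hT with hT | hT
    · have := Nat.le_of_dvd Nat.card_pos (card_dvd_of_le h); rw [hA, hT.card] at this; omega
    · have he : A = O := eq_of_le_of_card_ge h (by rw [hA, hT.card])
      have h3 := hT.zcard
      rw [inf_eq_left.2 (fun x hx => mem_centralizer_iff.2 fun y hy => hAcomm y (he ▸ hy) x (he ▸ hx)), hT.card] at h3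
      norm_num at h3
  haveI := hOn
  have hnorm : ∀ a : S, a ∈ normalizer (O : Set S) := fun a => by
    rw [Subgroup.normalizer_eq_top O]; exact Subgroup.mem_top a
  rcases hT with hT | hT
  · -- a fixed involution
    obtain ⟨z, hz, hz1, hzc⟩ : ∃ z ∈ O, z ≠ 1 ∧ ∀ a ∈ A ⊔ O, a * z = z * a := by
      haveI := hM.isNilpotent
      have hne : O.subgroupOf (A ⊔ O) ≠ ⊥ := by
        rw [Ne, subgroupOf_eq_bot, disjoint_iff, inf_eq_left.2 le_sup_right]
        exact ne_bot_of_card hT.card (by norm_num)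
      obtain ⟨⟨w, hw⟩, hne1⟩ := (Subgroup.bot_or_exists_ne_one _).resolve_left
        (CfsgLib.Hall.Struct.inf_center_ne_bot (O.subgroupOf (A ⊔ O)) hne)
      exact ⟨w, hne1.1.1, fun e => hne1.2 (Subtype.ext e),
        fun a ha => congrArg Subtype.val (Subgroup.mem_center_iff.1 hne1.1.2 ⟨a, ha⟩)⟩
    set Z := Subgroup.zpowers z with hZ
    have hz2 : Nat.card Z = 2 := by rw [hZ, Nat.card_zpowers]; exact orderOf_eq_prime (hT.sq z hz) hz1
    obtain ⟨u, hu, huZ⟩ : ∃ u ∈ O, u ∉ Z := by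
      by_contra h; push Not at h
      have := Nat.le_of_dvd Nat.card_pos (card_dvd_of_le (show O ≤ Z from h))
      rw [hT.card, hz2] at this; omega
    have hoz : Nat.card O = 2 * Nat.card Z := by rw [hT.card, hz2]
    have hzA : ∀ t ∈ Z, ∀ a ∈ A ⊔ O, t * a = a * t := fun t ht a ha => by
      obtain ⟨k, rfl⟩ := mem_zpowers_iff.1 ht
      exact ((show Commute z a from (hzc a ha).symm).zpow_left k).eq
    have hmem : ∀ a ∈ A, ⁅u, a⁆ ∈ Z := by
      intro a ha
      have hu' : a * u⁻¹ * a⁻¹ ∈ O := hOn.conj_mem _ (inv_mem hu) a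
      rw [commutatorElement_def, show u * a * u⁻¹ * a⁻¹ = (u⁻¹)⁻¹ * (a * u⁻¹ * a⁻¹) by group]
      refine coset_two (zpowers_le.2 hz) hoz (inv_mem hu) (fun e => huZ (inv_mem_iff.1 e)) hu' fun e => huZ ?_
      have h1 := hzA _ e a (mem_sup_left ha)
      have e2 : a * u⁻¹ * a⁻¹ = u⁻¹ := by
        have e3 : a * (a * u⁻¹ * a⁻¹) = a * u⁻¹ := by rw [← h1]; group
        exact mul_left_cancel e3
      rw [e2] at e
      exact inv_mem_iff.1 e
    have h2 := card_le_two_mul (M := A) (Z := Z) (g := u) hz2.le (fun t ht => hzA t ht u (mem_sup_right hu))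
      hmem (fun t ht a ha => hzA t ht a (mem_sup_left ha))
    set A₀ := A ⊓ centralizer ({u} : Set S) with hA0
    have hOgen : O = Z ⊔ Subgroup.zpowers u := by
      refine (eq_of_le_of_card_ge (sup_le (zpowers_le.2 hz) (zpowers_le.2 hu)) ?_).symm
      have h3 := card_lt_sup huZ
      obtain ⟨m, hm⟩ : Nat.card Z ∣ Nat.card ↥(Z ⊔ Subgroup.zpowers u) := card_dvd_of_le le_sup_left
      rw [hT.card, hm]; rw [hm, hz2] at h3; rw [hz2]; omega
    have hA0O : A₀ ≤ O := fun a ha => hC (mem_centralizer_iff.2 fun x hx => by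
      have hle : O ≤ centralizer ({a} : Set S) := hOgen.le.trans (sup_le
        (fun t ht => mem_centralizer_singleton.2 (hzA t ht a (mem_sup_left ha.1)).symm)
        (zpowers_le.2 (mem_centralizer_singleton.2 (mem_centralizer_singleton.1 ha.2).symm)))
      exact (mem_centralizer_singleton.1 (hle hx)).symm)
    have hA0eq : A₀ = O := eq_of_le_of_card_ge hA0O (by rw [hT.card]; omega)
    exact hAO fun a ha => hC (mem_centralizer_iff.2 fun x hx =>
      hAcomm x (hA0eq.symm.le hx).1 a ha)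
  · set Z := O ⊓ centralizer (O : Set S) with hZdef
    have hder := T8_derived hT
    set L := ⁅O, A ⊔ O⁆ with hL
    have hLO : L ≤ O := CfsgLib.CoprimeAction.commutator_le_of_normalizer fun x _ => hnorm x
    have hZL : Z ≤ L := by rw [hZdef, ← hder]; exact commutator_mono le_rfl le_sup_right
    have hLne : L ≠ O := fun e => ne_bot_of_card hT.card (by norm_num)
      (eq_bot_of_commutator_eq (W := O) (C := A ⊔ O) (by rwa [sup_eq_right.2 le_sup_right]) e)
    have hmemL : ∀ a ∈ A, ∀ x ∈ O, a * x * a⁻¹ * x⁻¹ ∈ L := by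
      intro a ha x hx
      have := inv_mem (commutator_mem_commutator hx (mem_sup_left ha : a ∈ A ⊔ O))
      rwa [commutatorElement_inv, commutatorElement_def] at this
    by_cases hLZ : L ≤ Z
    · exact hAO fun a ha => inner_of_mod hT hO hC (hnorm a) fun x hx => hLZ (hmemL a ha x hx)
    have hLc : Nat.card L = 2 * Nat.card Z := by
      have hd1 : Nat.card L ∣ 8 := hT.card ▸ card_dvd_of_le hLO
      have hd2 : 2 ∣ Nat.card L := hT.zcard ▸ card_dvd_of_le hZL
      have hn8 : Nat.card L ≠ 8 := fun e => hLne (eq_of_le_of_card_ge hLO (by rw [hT.card, e]))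
      have hn2 : Nat.card L ≠ 2 := fun e => hLZ (eq_of_le_of_card_ge hZL (by rw [e]; exact hT.zcard.ge)).ge
      have := Nat.le_of_dvd (by norm_num) hd1
      rw [hT.zcard]
      interval_cases h : Nat.card L <;> omega
    have hLM : A ⊔ O ≤ normalizer (L : Set S) := by
      intro g hg
      rw [mem_normalizer_iff_map_conj_eq, hL, map_commutator, mem_normalizer_iff_map_conj_eq.1 (hnorm g),
        mem_normalizer_iff_map_conj_eq.1 (le_normalizer hg)]
    have haZ : ∀ a : S, ∀ t ∈ Z, a * t = t * a := by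
      have hn : (⊤ : Subgroup S) ≤ normalizer (Z : Set S) := fun g _ => by
        rw [hZdef, ← hder, mem_normalizer_iff_map_conj_eq, map_commutator, mem_normalizer_iff_map_conj_eq.1 (hnorm g)]
      intro a t ht
      exact (mem_centralizer_iff.1 (centralizes_card_two hn hT.zcard.le (Subgroup.mem_top a)) t ht).symm
    -- the action on `L` is trivial modulo `Z`
    have hLtriv : ∀ a ∈ A ⊔ O, ∀ x ∈ L, a * x * a⁻¹ * x⁻¹ ∈ Z := by
      intro a ha x hx
      by_cases hxZ : x ∈ Z
      · rw [haZ a x hxZ, mul_inv_cancel_right, mul_inv_cancel]; exact one_mem Z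
      · have h1 : a * x⁻¹ * a⁻¹ ∈ L := CfsgLib.CoprimeAction.conj_mem hLM ha (inv_mem hx)
        have h2 := coset_two hZL hLc (inv_mem hx) (fun e => hxZ (inv_mem_iff.1 e)) h1 fun e => hxZ (by
          have h3 := haZ a⁻¹ _ e
          have e2 : x⁻¹ = a * x⁻¹ * a⁻¹ := by
            have h4 : a⁻¹ * (a * x⁻¹ * a⁻¹) = (a * x⁻¹ * a⁻¹) * a⁻¹ := h3
            have h5 : x⁻¹ * a⁻¹ = (a * x⁻¹ * a⁻¹) * a⁻¹ := by rw [← h4]; group
            exact mul_right_cancel h5
          exact inv_mem_iff.1 (e2 ▸ e))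
        have h3 := inv_mem h2
        simpa [mul_assoc] using h3
    obtain ⟨j₀, hj₀, hj₀L⟩ := SetLike.exists_of_lt (lt_of_le_of_ne hLO hLne)
    set B := A ⊓ O with hB
    have hOL : Nat.card O = 2 * Nat.card L := by rw [hT.card, hLc, hT.zcard]
    have hBmul : ∀ a ∈ A, a ∉ B → ∀ b ∈ A, b ∉ B → a * b ∈ B := by
      intro a ha haB b hb hbB
      have key : ∀ c ∈ A, c ∉ B → c * j₀ * c⁻¹ * j₀⁻¹ ∈ L ∧ c * j₀ * c⁻¹ * j₀⁻¹ ∉ Z := by
        intro c hc hcB
        refine ⟨hmemL c hc j₀ hj₀, fun hcz => hcB ⟨hc, inner_of_mod hT hO hC (hnorm c) fun x hx => ?_⟩⟩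
        by_cases hxL : x ∈ L
        · exact hLtriv c (mem_sup_left hc) x hxL
        have hl := coset_two hLO hOL hj₀ hj₀L hx hxL
        set l := j₀⁻¹ * x with hldef
        have hh := hLtriv c (mem_sup_left hc) l hl
        have hxeq : x = j₀ * l := by rw [hldef]; group
        have e : c * x * c⁻¹ * x⁻¹ = (c * j₀ * c⁻¹ * j₀⁻¹) * (j₀ * (c * l * c⁻¹ * l⁻¹) * j₀⁻¹) := by
          rw [hxeq]; group
        rw [e, haZ j₀ _ hh, mul_inv_cancel_right]
        exact mul_mem hcz hh
      refine ⟨mul_mem ha hb, inner_of_mod hT hO hC (hnorm _) fun x hx => ?_⟩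
      have hab : a * b ∈ A ⊔ O := mem_sup_left (mul_mem ha hb)
      by_cases hxL : x ∈ L
      · exact hLtriv _ hab x hxL
      -- on the outer coset
      set la := a * j₀ * a⁻¹ * j₀⁻¹ with hla
      set lb := b * j₀ * b⁻¹ * j₀⁻¹ with hlb
      obtain ⟨hla1, hla2⟩ := key a ha haB
      obtain ⟨hlb1, hlb2⟩ := key b hb hbB
      have hj : a * b * j₀ * (a * b)⁻¹ * j₀⁻¹ ∈ Z := by
        have e : a * b * j₀ * (a * b)⁻¹ * j₀⁻¹ = (a * lb * a⁻¹ * lb⁻¹) * (lb * la) := by
          rw [hla, hlb]; group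
        rw [e]
        refine mul_mem (hLtriv a (mem_sup_left ha) lb hlb1) ?_
        have := coset_two hZL hLc (inv_mem hlb1) (fun e => hlb2 (inv_mem_iff.1 e)) hla1 hla2
        rwa [inv_inv] at this
      have hl := coset_two hLO hOL hj₀ hj₀L hx hxL
      set l := j₀⁻¹ * x with hldef
      have hh := hLtriv _ hab l hl
      have hxeq : x = j₀ * l := by rw [hldef]; group
      have e : a * b * x * (a * b)⁻¹ * x⁻¹ =
          (a * b * j₀ * (a * b)⁻¹ * j₀⁻¹) * (j₀ * (a * b * l * (a * b)⁻¹ * l⁻¹) * j₀⁻¹) := by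
        rw [hxeq]; group
      rw [e, haZ j₀ _ hh, mul_inv_cancel_right]
      exact mul_mem hj hh
    have hB2 := card_le_two_of inf_le_left hBmul
    rw [hA] at hB2
    have hBc : ∀ x ∈ B, ∀ y ∈ B, x * y = y * x := fun x hx y hy => hAcomm x hx.1 y hy.1
    have hB4 : Nat.card B = 4 := by
      have hd : Nat.card B ∣ 8 := hT.card ▸ card_dvd_of_le inf_le_right
      have hn : Nat.card B ≠ 8 := fun e => by
        have h1 : B = O := eq_of_le_of_card_ge inf_le_right (by rw [hT.card, e])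
        have h3 := hT.zcard
        rw [inf_eq_left.2 (fun x hx => mem_centralizer_iff.2 fun y hy => hBc y (h1 ▸ hy) x (h1 ▸ hx)), hT.card] at h3
        norm_num at h3
      have := Nat.le_of_dvd (by norm_num) hd
      interval_cases h : Nat.card B <;> omega
    obtain ⟨i, hiB, hiZ⟩ : ∃ i ∈ B, i ∉ Z := by
      by_contra h; push Not at h
      have := Nat.le_of_dvd Nat.card_pos (card_dvd_of_le (show B ≤ Z from h))
      rw [hB4, hT.zcard] at this; omega
    have oi : orderOf i = 4 := by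
      refine orderOf_eq_prime_pow (p := 2) (n := 1) ?_ ?_
      · rw [pow_one]; exact fun h => hiZ (hT.inv i hiB.2 h)
      · have h := Subgroup.orderOf_dvd_natCard Z (hT.sq i hiB.2)
        rw [hT.zcard, orderOf_dvd_iff_pow_eq_one, ← pow_mul] at h
        simpa using h
    have hBi : Subgroup.zpowers i = B := eq_of_le_of_card_ge (zpowers_le.2 hiB) (by rw [hB4, Nat.card_zpowers, oi])
    obtain ⟨a, ha, haO⟩ := SetLike.not_le_iff_exists.1 hAO
    have haB : a ∉ B := fun h => haO h.2
    have ha2B : a ^ 2 ∈ B := by rw [pow_two]; exact hBmul a ha haB a ha haB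
    have ha2Z : a ^ 2 ∈ Z := by
      by_contra hnot
      -- then `a` has order eight
      refine hAnc (isCyclic_of_orderOf_eq_card (⟨a, ha⟩ : A) ?_)
      rw [Subgroup.orderOf_mk, hA]
      refine orderOf_eq_prime_pow (p := 2) (n := 2) ?_ ?_
      · intro e
        rw [show (2 : ℕ) ^ 2 = 2 * 2 from rfl, pow_mul] at e
        exact hnot (hT.inv _ ha2B.2 e)
      · have := Subgroup.orderOf_dvd_natCard A ha
        rw [hA, orderOf_dvd_iff_pow_eq_one] at this
        simpa using this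
    obtain ⟨j, hj, hjB⟩ : ∃ j ∈ O, j ∉ B := by
      by_contra h; push Not at h
      have := Nat.le_of_dvd Nat.card_pos (card_dvd_of_le (show O ≤ B from h))
      rw [hB4, hT.card] at this; omega
    have hZB : Z ≤ B := by
      intro t ht
      by_cases ht1 : t = 1
      · rw [ht1]; exact one_mem B
      have hi2 : i ^ 2 ≠ 1 := fun e => hiZ (hT.inv i hiB.2 e)
      rw [eq_of_card_two hT.zcard ht ht1 (hT.sq i hiB.2) hi2]
      exact pow_mem hiB 2
    have haBc : ∀ b ∈ B, a * b = b * a := fun b hb => hAcomm a ha b hb.1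
    have hBOc : Nat.card O = 2 * Nat.card B := by rw [hT.card, hB4]
    have hj'B : a * j * a⁻¹ ∉ B := fun e => hjB (by
      have h1 := haBc _ e
      have h2 : j * a⁻¹ = (a * j * a⁻¹) * a⁻¹ := by
        calc j * a⁻¹ = a⁻¹ * (a * (j * a⁻¹)) := by group
          _ = a⁻¹ * ((a * j * a⁻¹) * a * a⁻¹) := by group
          _ = a⁻¹ * (a * (a * j * a⁻¹) * a⁻¹) := by rw [h1]
          _ = (a * j * a⁻¹) * a⁻¹ := by group
      rwa [mul_right_cancel h2])
    set b := j⁻¹ * (a * j * a⁻¹) with hbdef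
    have hbB : b ∈ B := coset_two inf_le_right hBOc hj hjB (hOn.conj_mem j hj a) hj'B
    by_cases hbZ : b ∈ Z
    · -- then `a` would be inner
      refine haO (inner_of_mod hT hO hC (hnorm a) fun x hx => ?_)
      have hBfix : ∀ y ∈ B, a * y * a⁻¹ * y⁻¹ = 1 := fun y hy => by rw [haBc y hy]; group
      by_cases hxB : x ∈ B
      · rw [hBfix x hxB]; exact one_mem Z
      have hl := coset_two (inf_le_right : B ≤ O) hBOc hj hjB hx hxB
      set l := j⁻¹ * x with hldef
      have hxeq : x = j * l := by rw [hldef]; group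
      have e : a * x * a⁻¹ * x⁻¹ = (j * b * j⁻¹) * (j * (a * l * a⁻¹ * l⁻¹) * j⁻¹) := by
        rw [hxeq, hbdef]; group
      rw [e, hBfix l hl, mul_one, mul_inv_cancel, mul_one, haZ j b hbZ, mul_inv_cancel_right]
      exact hbZ
    · have hab := haBc b hbB
      have hbj : a * j * a⁻¹ = j * b := by rw [hbdef]; group
      have e2 : a ^ 2 * j * (a ^ 2)⁻¹ = j * b ^ 2 := by
        calc a ^ 2 * j * (a ^ 2)⁻¹ = a * (a * j * a⁻¹) * a⁻¹ := by rw [pow_two]; group
          _ = a * (j * b) * a⁻¹ := by rw [hbj]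
          _ = (a * j * a⁻¹) * (a * b * a⁻¹) := by group
          _ = j * b * b := by rw [hbj, hab, mul_inv_cancel_right]
          _ = j * b ^ 2 := by rw [pow_two, mul_assoc]
      rw [← haZ j _ ha2Z, mul_inv_cancel_right, left_eq_mul] at e2
      exact hbZ (hT.inv b hbB.2 e2)


/-- Let S be a finite solvable group with O_{2'}(S) = 1 that contains a non-cyclic abelian subgroup of order 8, while no proper subgroup of S of 2-power index contains one. Then a Sylow 2-subgroup X of S is normal in S, and one of the following holds: X is abelian; X is extraspecial of order at least 32; X has a generalized quaternion subgroup X₀ of index 2 with X = X₀·C_X(X₀); or X is special with centre of order 4. -/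
theorem result {S : Type*} [Group S] [Finite S]
    [Group.IsSolvable S] (hO : Cfsg.pPrimeCore 2 S = ⊥)
    (h8 : ∃ A : Subgroup S, IsMulCommutative ↥A ∧ ¬ IsCyclic ↥A ∧ Nat.card ↥A = 8)
    (hmin : ∀ R : Subgroup S, R ≠ ⊤ → (∃ k : ℕ, R.index = 2 ^ k) →
      ¬ ∃ A : Subgroup S, A ≤ R ∧ IsMulCommutative ↥A ∧ ¬ IsCyclic ↥A ∧ Nat.card ↥A = 8)
    (X : Sylow 2 S) :
    (X : Subgroup S).Normal ∧
      (IsMulCommutative ↥X ∨
        (Cfsg.IsExtraspecial 2 ↥X ∧ 32 ≤ Nat.card ↥X) ∨
        (∃ (X₀ : Subgroup S) (k : ℕ), X₀ ≤ (X : Subgroup S) ∧ X₀.relIndex (X : Subgroup S) = 2 ∧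
          Nonempty (↥X₀ ≃* QuaternionGroup (2 ^ (k + 1))) ∧ X₀ ⊔ ((X : Subgroup S) ⊓ Subgroup.centralizer (X₀ : Set S)) = (X : Subgroup S)) ∨
        (Cfsg.IsSpecial 2 ↥X ∧ Nat.card ↥(Subgroup.center ↥X) = 4)) := by
  classical
  haveI := Fact.mk Nat.prime_two
  obtain ⟨A, hAc, hAnc, hA⟩ := h8
  have hAp : IsPGroup 2 A := IsPGroup.of_card (n := 3) (by rw [hA]; rfl)
  set O := Cfsg.pCore 2 S with hOdef
  have hOp : IsPGroup 2 O := CfsgLib.PCore.isPGroup_pCore 2 S
  haveI hOn : O.Normal := Cfsg.pCore_normal 2 S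
  have hCO : centralizer (O : Set S) ≤ O := CfsgLib.Hall.centralizer_pCore_le 2 hO
  have hodd : Odd (X : Subgroup S).index := Nat.not_even_iff_odd.1 fun h => X.not_dvd_index (even_iff_two_dvd.1 h)
  obtain ⟨kX, hkX⟩ := IsPGroup.iff_card.1 X.isPGroup'
  have hcS : Nat.card S = (X : Subgroup S).index * Nat.card (X : Subgroup S) :=
    ((X : Subgroup S).index_mul_card).symm
  obtain ⟨H, hH⟩ := CfsgLib.Hall.exists_hall (X : Subgroup S).index (Nat.card (X : Subgroup S)) hcS
    (by rw [hkX]; exact (Nat.coprime_two_right.2 hodd).pow_right kX)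
  have hHodd : Odd (Nat.card H) := by rw [hH]; exact hodd
  -- subgroups of `2`-power index
  have hgood : ∀ Y : Subgroup S, IsPGroup 2 Y → H ≤ normalizer (Y : Set S) →
      Nat.card Y < Nat.card (X : Subgroup S) → ¬ CfsgLib.MinEightTwo.Bad Y := by
    intro Y hY hHY hlt hbad
    have hR := CfsgLib.ZJ.card_sup_mul_card_inf_of_le_normalizer hHY
    rw [Subgroup.inf_eq_bot_of_coprime (cop hHodd hY), Subgroup.card_bot, mul_one, hH] at hR
    obtain ⟨kY, hkY⟩ := IsPGroup.iff_card.1 hY
    refine hmin (H ⊔ Y) (fun e => ?_) ?_ (hbad.mono le_sup_right)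
    · rw [e, Subgroup.card_top, hcS] at hR
      exact absurd (Nat.eq_of_mul_eq_mul_left (Nat.pos_of_ne_zero Subgroup.index_ne_zero_of_finite) hR) hlt.ne'
    · have h1 := (H ⊔ Y).index_mul_card
      rw [hR, hcS] at h1
      have h2 : (H ⊔ Y).index * Nat.card Y = Nat.card (X : Subgroup S) := by
        refine Nat.eq_of_mul_eq_mul_left (Nat.pos_of_ne_zero ((X : Subgroup S).index_ne_zero_of_finite)) ?_
        rw [← h1]; ring
      rw [hkX] at h2
      obtain ⟨k, -, hk⟩ := (Nat.dvd_prime_pow Nat.prime_two).1 ⟨Nat.card Y, h2.symm⟩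
      exact ⟨k, hk⟩
  have hXO : (X : Subgroup S) ≤ O := by
    by_contra hnot
    have hOX : O ≤ (X : Subgroup S) := CfsgLib.PCore.pCore_le_sylow X
    have hlt : Nat.card O < Nat.card (X : Subgroup S) :=
      lt_of_le_of_ne (Nat.le_of_dvd Nat.card_pos (card_dvd_of_le hOX))
        (fun e => hnot (eq_of_le_of_card_ge hOX e.ge).ge)
    have hHO : H ≤ normalizer (O : Set S) := by rw [Subgroup.normalizer_eq_top O]; exact le_top
    have hOgood := hgood O hOp hHO hlt
    by_cases hOH : ⁅O, H⁆ = ⊥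
    · have hHle : H ≤ O := (le_centralizer_iff.1 (commutator_eq_bot_iff_le_centralizer.1 hOH)).trans hCO
      have h1 : Nat.card H = 1 := Nat.eq_one_of_dvd_coprimes (cop hHodd hOp) dvd_rfl (card_dvd_of_le hHle)
      refine hnot (le_trans le_top (CfsgLib.PCore.le_pCore (N := (⊤ : Subgroup S)) inferInstance ?_))
      refine IsPGroup.of_card (n := kX) ?_
      rw [Subgroup.card_top, hcS, ← hH, h1, one_mul, hkX]
    · obtain ⟨-, hT⟩ := good_eq hHodd hOp hHO hOgood hOH
        (fun W hW hHW hWH hWne hWg => classify hHodd _ W rfl (hOp.to_le hW) hHW hWH hWne hWg)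
      exact no_bad hOp hOn hT hCO hAc hAnc hA
  have hXeq : (X : Subgroup S) = O := le_antisymm hXO (CfsgLib.PCore.pCore_le_sylow X)
  have hXn : (X : Subgroup S).Normal := by rw [hXeq]; exact hOn
  refine ⟨hXn, ?_⟩
  have hXp : IsPGroup 2 (X : Subgroup S) := X.isPGroup'
  have hHX : H ≤ normalizer ((X : Subgroup S) : Set S) := by rw [Subgroup.normalizer_eq_top]; exact le_top
  have hAX : A ≤ (X : Subgroup S) := by
    rw [hXeq]
    have hs : IsPGroup 2 ↥(A ⊔ O) := hAp.to_sup_of_normal_right hOp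
    have hOA : (X : Subgroup S) ≤ A ⊔ O := hXeq.le.trans le_sup_right
    exact le_sup_left.trans ((X.is_maximal' hs hOA).le.trans hXeq.le)
  have hcard_lt : ∀ Y : Subgroup S, Y < (X : Subgroup S) → Nat.card Y < Nat.card (X : Subgroup S) := fun Y hY =>
    lt_of_le_of_ne (Nat.le_of_dvd Nat.card_pos (card_dvd_of_le hY.le))
      (fun e => hY.ne (eq_of_le_of_card_ge hY.le e.ge))
  have hprop : ∀ Y : Subgroup S, Y < (X : Subgroup S) → H ≤ normalizer (Y : Set S) → ¬ CfsgLib.MinEightTwo.Bad Y :=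
    fun Y hY hHY => hgood Y (hXp.to_le hY.le) hHY (hcard_lt Y hY)
  have hcomm_of : (∀ x ∈ (X : Subgroup S), ∀ y ∈ (X : Subgroup S), x * y = y * x) → IsMulCommutative ↥(X : Subgroup S) :=
    fun h => ⟨⟨fun a b => Subtype.ext (h a a.2 b b.2)⟩⟩
  by_cases hXH : ⁅(X : Subgroup S), H⁆ = ⊥
  · left
    have hHle : H ≤ O := (le_centralizer_iff.1 (commutator_eq_bot_iff_le_centralizer.1 hXH)).trans
      ((centralizer_le (by rw [hXeq])).trans hCO)
    have h1 : Nat.card H = 1 := Nat.eq_one_of_dvd_coprimes (cop hHodd hOp) dvd_rfl (card_dvd_of_le hHle)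
    have hAtop : A = ⊤ := by
      by_contra hne
      refine hmin A hne ?_ ⟨A, le_rfl, hAc, hAnc, hA⟩
      have h2 := A.index_mul_card
      rw [hcS, ← hH, h1, one_mul, hkX] at h2
      obtain ⟨k, -, hk⟩ := (Nat.dvd_prime_pow Nat.prime_two).1 ⟨Nat.card A, h2.symm⟩
      exact ⟨k, hk⟩
    refine hcomm_of fun x _ y _ => ?_
    exact congrArg Subtype.val (hAc.is_comm.comm (⟨x, hAtop ▸ mem_top x⟩ : A) ⟨y, hAtop ▸ mem_top y⟩)
  set W := ⁅(X : Subgroup S), H⁆ with hWdef
  have hWX : W ≤ (X : Subgroup S) := CfsgLib.CoprimeAction.commutator_le_of_normalizer hHX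
  have hHW := CfsgLib.CoprimeAction.le_normalizer_commutator hHX
  by_cases hWeq : W = (X : Subgroup S)
  · rcases core hHodd hXp hHX hWeq hprop (fun V hV hHV hVH hVne hVg =>
      classify hHodd _ V rfl (hXp.to_le hV.le) hHV hVH hVne hVg) with hc | hs
    · exact Or.inl (hcomm_of hc)
    have hspec : Cfsg.IsSpecial 2 ↥(X : Subgroup S) := by
      refine ⟨hXp, map_injective (X : Subgroup S).subtype_injective ?_, map_injective (X : Subgroup S).subtype_injective ?_⟩
      · rw [center_map]; exact hs.frat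
      · rw [center_map, _root_.commutator_def, map_commutator, ← MonoidHom.range_eq_map, range_subtype]
        exact hs.derived
    have hzc : Nat.card ↥(Subgroup.center ↥(X : Subgroup S)) =
        Nat.card ↥((X : Subgroup S) ⊓ centralizer ((X : Subgroup S) : Set S)) := by
      rw [← center_map, card_map_of_injective (X : Subgroup S).subtype_injective]
    rcases hs.zcard with hz | hz
    swap
    · exact Or.inr (Or.inr (Or.inr ⟨hspec, hzc.trans hz⟩))
    refine Or.inr (Or.inl ⟨⟨hspec, hzc.trans hz⟩, ?_⟩)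
    set P := (X : Subgroup S) with hPdef
    set Z := P ⊓ centralizer (P : Set S) with hZdef
    have hPA : ∀ x ∈ A, ∀ y ∈ A, x * y = y * x := fun x hx y hy =>
      congrArg Subtype.val (hAc.is_comm.comm (⟨x, hx⟩ : A) ⟨y, hy⟩)
    have h8le : 8 ≤ Nat.card P := hA ▸ Nat.le_of_dvd Nat.card_pos (card_dvd_of_le hAX)
    have hn8 : Nat.card P ≠ 8 := fun h8' =>
      hs.nc (by rw [← eq_of_le_of_card_ge hAX (by rw [h8', hA])]; exact hPA)
    have hn16 : Nat.card P ≠ 16 := by
      intro h16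
      obtain ⟨x, hx, hxZ⟩ : ∃ x ∈ P, x ∉ Z := by
        by_contra h; push Not at h
        exact hs.nc fun a ha b hb => mem_centralizer_iff.1 (h b hb).2 a ha
      have hxc : x ∈ centralizer (Z : Set S) :=
        mem_centralizer_iff.2 fun z hz => (mem_centralizer_iff.1 hz.2 x hx).symm
      have hxn : Subgroup.zpowers x ≤ normalizer (Z : Set S) :=
        (zpowers_le.2 hxc).trans (centralizer_le_normalizer _)
      have hcl : ∀ (M : Subgroup S), M ≤ P → ∀ g ∈ P,
          Nat.card M ≤ 2 * Nat.card ↥(M ⊓ centralizer ({g} : Set S)) := fun M hM g hg =>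
        card_le_two_mul hz.le (fun z hz' => (mem_centralizer_iff.1 hz'.2 g hg).symm)
          (fun m hm => hs.derived.le (commutator_mem_commutator hg (hM hm)))
          (fun z hz' m hm => (mem_centralizer_iff.1 hz'.2 m (hM hm)).symm)
      set C := P ⊓ centralizer ({x} : Set S) with hCdef
      have hC8 : Nat.card P ≤ 2 * Nat.card C := hcl P le_rfl x hx
      set U := Subgroup.zpowers x ⊔ Z with hU
      have hU4 : Nat.card U ≤ 4 := card_sup_le_four hz (hs.sq x hx) hxn
      obtain ⟨y, hy, hyU⟩ : ∃ y ∈ C, y ∉ U := by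
        by_contra h'; push Not at h'
        have := Nat.le_of_dvd Nat.card_pos (card_dvd_of_le (show C ≤ U from h'))
        omega
      have hUc : ∀ a ∈ U, ∀ b ∈ U, a * b = b * a := by
        rw [hU, sup_comm]
        exact sup_zpowers_comm (fun a ha b hb => mem_centralizer_iff.1 hb.2 a ha.1) hxc
      have hyc : y ∈ centralizer (U : Set S) := by
        have : U ≤ centralizer ({y} : Set S) := sup_le
          (zpowers_le.2 (mem_centralizer_singleton.2 (mem_centralizer_singleton.1 hy.2).symm))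
          (fun z hz' => mem_centralizer_singleton.2 (mem_centralizer_iff.1 hz'.2 y hy.1))
        exact mem_centralizer_iff.2 fun a ha => (mem_centralizer_singleton.1 (this ha)).symm
      set M := U ⊔ Subgroup.zpowers y with hMdef
      have hMP : M ≤ P := sup_le (sup_le (zpowers_le.2 hx) inf_le_left) (zpowers_le.2 hy.1)
      have hMc := sup_zpowers_comm hUc hyc
      have hU3 : 4 ≤ Nat.card U := by
        have hlt : Nat.card Z < Nat.card U := by rw [hU, sup_comm]; exact card_lt_sup hxZ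
        obtain ⟨m, hm⟩ : Nat.card Z ∣ Nat.card U := card_dvd_of_le le_sup_right
        rw [hz] at hm hlt
        omega
      have hM8 : 8 ≤ Nat.card M := eight_le (hXp.to_le hMP) (lt_of_le_of_lt hU3 (card_lt_sup hyU))
      have hMne : M ≠ P := fun e => hs.nc (by rw [← e]; exact hMc)
      obtain ⟨g, hg, hgM⟩ := SetLike.exists_of_lt (lt_of_le_of_ne hMP hMne)
      have hM' := hcl M hMP g hg
      have hKZ : M ⊓ centralizer ({g} : Set S) ≤ Z := by
        intro k hk
        refine ⟨hMP hk.1, mem_centralizer_iff.2 fun w hw => ?_⟩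
        have hle : M ⊔ Subgroup.zpowers g ≤ centralizer ({k} : Set S) := sup_le
          (fun m hm => mem_centralizer_singleton.2 (hMc k hk.1 m hm))
          (zpowers_le.2 (mem_centralizer_singleton.2 (mem_centralizer_singleton.1 hk.2).symm))
        have heq : M ⊔ Subgroup.zpowers g = P := by
          refine eq_of_le_of_card_ge (sup_le hMP (zpowers_le.2 hg)) ?_
          have h1 := card_lt_sup hgM
          obtain ⟨m, hm⟩ : Nat.card M ∣ Nat.card ↥(M ⊔ Subgroup.zpowers g) := card_dvd_of_le le_sup_left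
          have hm2 : 2 ≤ m := by
            by_contra hcon; interval_cases m <;> omega
          calc Nat.card P = 8 * 2 := by rw [h16]
            _ ≤ Nat.card M * m := Nat.mul_le_mul hM8 hm2
            _ = _ := hm.symm
        exact (mem_centralizer_singleton.1 (hle (heq.symm.le hw))).symm
      have h5 := Nat.le_of_dvd Nat.card_pos (card_dvd_of_le hKZ)
      omega
    obtain ⟨k, hk⟩ := IsPGroup.iff_card.1 hXp
    show 32 ≤ Nat.card P
    rw [hk] at h8le hn8 hn16 ⊢
    rcases Nat.lt_or_ge k 5 with h | h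
    · interval_cases k <;> omega
    · exact le_trans (by norm_num) (Nat.pow_le_pow_right two_pos h)
  -- `[X, H] < X`
  have hWlt : W < (X : Subgroup S) := lt_of_le_of_ne hWX hWeq
  have hWp : IsPGroup 2 W := hXp.to_le hWX
  have hWH : ⁅W, H⁆ = W :=
    CfsgLib.CoprimeAction.commutator_commutator_eq hHX (cop hHodd hXp) (Or.inr (solv hXp))
  have hT := classify hHodd _ W rfl hWp hHW hWH hXH (hprop W hWlt hHW)
  set C := (X : Subgroup S) ⊓ centralizer (H : Set S) with hC
  have hcent := le_centralizer_type hHodd hHW hWH hT (hXp.to_le (sup_le hWX inf_le_left))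
    (inf_le_left.trans CfsgLib.CoprimeAction.self_le_normalizer_commutator) inf_le_right
  have hXWC : W ⊔ C = (X : Subgroup S) :=
    CfsgLib.CoprimeAction.commutator_sup_centralizer hHX (cop hHodd hXp) (Or.inr (solv hXp))
  obtain ⟨c, hc, hcW⟩ : ∃ c ∈ C, c ∉ W := by
    by_contra h; push Not at h
    exact hWeq (le_antisymm hWX (hXWC.symm.le.trans (sup_le le_rfl h)))
  have hext : ∀ d ∈ C, d ∉ W → W ⊔ Subgroup.zpowers d = (X : Subgroup S) := by
    intro d hd hdW
    have hle : W ⊔ Subgroup.zpowers d ≤ (X : Subgroup S) := sup_le hWX (zpowers_le.2 hd.1)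
    by_contra hne
    have hp := hXp.to_le hle
    have hinv : H ≤ normalizer ((W ⊔ Subgroup.zpowers d : Subgroup S) : Set S) := by
      intro g hg
      rw [mem_normalizer_iff_map_conj_eq, Subgroup.map_sup, mem_normalizer_iff_map_conj_eq.1 (hHW hg),
        MonoidHom.map_zpowers]
      congr 2
      show g * d * g⁻¹ = d
      rw [mem_centralizer_iff.1 hd.2 g hg, mul_inv_cancel_right]
    refine hprop _ (lt_of_le_of_ne hle hne) hinv ?_
    rcases hT with h | h
    · exact bad_of_central_t4 h (hcent hd) hdW hp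
    · exact bad_of_central_t8 h (hcent hd) hdW hp
  have hXc := hext c hc hcW
  rcases hT with hT | hT
  · left
    refine hcomm_of ?_
    rw [← hXc]
    exact sup_zpowers_comm hT.comm (hcent hc)
  refine Or.inr (Or.inr (Or.inl ⟨W, 0, hWX, ?_, ?_, le_antisymm (sup_le hWX inf_le_left)
    (hXWC.symm.le.trans (sup_le_sup_left (le_inf inf_le_left hcent) _))⟩))
  · have hc2 : c ^ 2 ∈ W := by
      by_contra hnot
      have h2 := hext _ (pow_mem hc 2) hnot
      have htop : W.subgroupOf (X : Subgroup S) = ⊤ := by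
        refine frattini_nongenerating (eq_top_iff.2 ?_)
        have hle : (X : Subgroup S) ≤ (W.subgroupOf (X : Subgroup S) ⊔ frattini ↥(X : Subgroup S)).map
            (X : Subgroup S).subtype := by
          rw [Subgroup.map_sup, map_subgroupOf_eq_of_le hWX]
          refine h2.symm.le.trans (sup_le_sup_left (zpowers_le.2 ?_) _)
          exact ⟨(⟨c, hc.1⟩ : (X : Subgroup S)) ^ 2, CfsgLib.CoprimeAction.pow_mem_frattini hXp _, rfl⟩
        intro x _
        obtain ⟨y, hy, hyx⟩ := hle x.2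
        rwa [← Subtype.ext (a1 := y) (a2 := x) hyx]
      exact hcW (subgroupOf_eq_top.1 htop hc.1)
    have hn : Subgroup.zpowers c ≤ normalizer (W : Set S) :=
      zpowers_le.2 (centralizer_le_normalizer _ (hcent hc))
    have hci : Nat.card ↥(Subgroup.zpowers c ⊔ W) * Nat.card ↥(Subgroup.zpowers c ⊓ W) = _ :=
      CfsgLib.ZJ.card_sup_mul_card_inf_of_le_normalizer hn
    rw [sup_comm, hXc] at hci
    have hinf : Nat.card ↥(Subgroup.zpowers c) ≤ 2 * Nat.card ↥(Subgroup.zpowers c ⊓ W) := by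
      refine card_le_two_of inf_le_left ?_
      intro a ha ha' b hb hb'
      obtain ⟨i, rfl⟩ := mem_zpowers_iff.1 ha
      obtain ⟨j, rfl⟩ := mem_zpowers_iff.1 hb
      have hev : ∀ i : ℤ, c ^ i ∉ Subgroup.zpowers c ⊓ W → Odd i := by
        intro i hi
        by_contra hcon
        rw [Int.not_odd_iff_even] at hcon
        obtain ⟨m, rfl⟩ := hcon
        refine hi ⟨zpow_mem (mem_zpowers c) _, ?_⟩
        show c ^ (m + m) ∈ W
        rw [← two_mul, zpow_mul]
        exact zpow_mem (by exact_mod_cast hc2) m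
      obtain ⟨m, hm⟩ := Odd.add_odd (hev i ha') (hev j hb')
      refine ⟨mul_mem ha hb, ?_⟩
      show c ^ i * c ^ j ∈ W
      rw [← zpow_add, hm, ← two_mul, zpow_mul]
      exact zpow_mem (by exact_mod_cast hc2) m
    have hlt : Nat.card ↥(Subgroup.zpowers c ⊓ W) < Nat.card ↥(Subgroup.zpowers c) := by
      refine lt_of_le_of_ne (Nat.le_of_dvd Nat.card_pos (card_dvd_of_le inf_le_left)) fun e => hcW ?_
      exact (eq_of_le_of_card_ge inf_le_left e.ge).symm.le (mem_zpowers c) |>.2
    have h2eq : Nat.card ↥(Subgroup.zpowers c) = 2 * Nat.card ↥(Subgroup.zpowers c ⊓ W) := by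
      obtain ⟨m, hm⟩ : Nat.card ↥(Subgroup.zpowers c ⊓ W) ∣ Nat.card ↥(Subgroup.zpowers c) := card_dvd_of_le inf_le_left
      have hpos : 0 < Nat.card ↥(Subgroup.zpowers c ⊓ W) := Nat.card_pos
      have h1 : m ≤ 2 := Nat.le_of_mul_le_mul_left (by rw [← hm, mul_comm _ 2]; exact hinf) hpos
      interval_cases m <;> omega
    rw [h2eq, hT.card] at hci
    have hX16 : Nat.card (X : Subgroup S) = 16 :=
      Nat.eq_of_mul_eq_mul_right Nat.card_pos (hci.trans (by ring))
    have hrel := Subgroup.card_mul_index (W.subgroupOf (X : Subgroup S))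
    rw [Nat.card_congr (Subgroup.subgroupOfEquivOfLe hWX).toEquiv, hT.card, hX16] at hrel
    show (W.subgroupOf (X : Subgroup S)).index = 2
    omega
  · -- the isomorphism with the quaternion group
    obtain ⟨i, hi, hiZ, oi⟩ := hT.exists_four
    obtain ⟨j, hj, hjU⟩ : ∃ j ∈ W, j ∉ Subgroup.zpowers i := by
      by_contra h; push Not at h
      have := Nat.le_of_dvd Nat.card_pos (card_dvd_of_le (show W ≤ Subgroup.zpowers i from h))
      rw [hT.card, Nat.card_zpowers, oi] at this; omega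
    have hzi : i ^ 2 ≠ 1 := fun e => hiZ (hT.inv i hi e)
    have hjZ : j ∉ W ⊓ centralizer (W : Set S) := fun h => hjU (by
      by_cases hj1 : j = 1
      · rw [hj1]; exact one_mem _
      · rw [eq_of_card_two hT.zcard h hj1 (hT.sq i hi) hzi]; exact pow_mem (mem_zpowers i) 2)
    have hj2 : j ^ 2 = i ^ 2 :=
      eq_of_card_two hT.zcard (hT.sq j hj) (fun e => hjZ (hT.inv j hj e)) (hT.sq i hi) hzi
    have hjiU : j * i ∉ W ⊓ centralizer (W : Set S) := fun h => hjU (by
      by_cases h1 : j * i = 1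
      · rw [eq_inv_of_mul_eq_one_left h1]; exact inv_mem (mem_zpowers i)
      · have := eq_of_card_two hT.zcard h h1 (hT.sq i hi) hzi
        rw [pow_two] at this
        rw [mul_right_cancel this]; exact mem_zpowers i)
    have hji2 : (j * i) ^ 2 = j ^ 2 :=
      eq_of_card_two hT.zcard (hT.sq _ (mul_mem hj hi)) (fun e => hjiU (hT.inv _ (mul_mem hj hi) e))
        (hT.sq j hj) (fun e => hjZ (hT.inv j hj e))
    have hconj : j * i * j⁻¹ = i⁻¹ := by
      have h1 : j * i * (j * i) = j * j := by rw [← pow_two, hji2, pow_two]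
      have h2 : i * (j * i) = j := by
        have : j * (i * (j * i)) = j * j := by rw [← mul_assoc]; exact h1
        exact mul_left_cancel this
      calc j * i * j⁻¹ = i⁻¹ * (i * (j * i)) * j⁻¹ := by group
        _ = i⁻¹ := by rw [h2, mul_inv_cancel_right]
    have hmemU : (⟨j, hj⟩ : W) ∉ Subgroup.zpowers (⟨i, hi⟩ : W) := fun h => by
      obtain ⟨k, hk⟩ := mem_zpowers_iff.1 h
      exact hjU ⟨k, congrArg Subtype.val hk⟩
    refine CfsgLib.RankOneP.nonempty_mulEquiv_quaternion (n := 2 ^ (0 + 1)) (a := (⟨i, hi⟩ : W)) (y := ⟨j, hj⟩)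
      (by rw [Subgroup.orderOf_mk, oi]; rfl) (Subtype.ext (by simpa using hconj))
      (Subtype.ext (by simpa using hj2)) hmemU ?_
    refine Subgroup.eq_top_of_le_card _ ?_
    have h1 := card_lt_sup (M := Subgroup.zpowers (⟨i, hi⟩ : W)) hmemU
    rw [Nat.card_zpowers, Subgroup.orderOf_mk, oi] at h1
    rw [hT.card]
    exact eight_le (hWp.to_subgroup _) h1

end Cfsg.Agent.S4409
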