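import Cfsg.Statements.S4410
import Mathlib
import Cfsg.Agent.Hall.Fitting

set_option autoImplicit false
open Cfsg

namespace Cfsg.Agent.S4410

/-- Let V be a finite-dimensional vector space over the field with two elements and S a solvable group of linear automorphisms of V with O₂(S) = 1. If P ∈ S has order 4 and (P − 1)³ = 0 on V, then the image of (P − 1)² has at least 4 elements; equivalently, in the decomposition of V into indecomposable modules for the cyclic group generated by P, at least two summands have dimension 3. -/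
theorem result
    {V : Type*} [AddCommGroup V] [Module (ZMod 2) V] [Finite V]
    (S : Subgroup (V ≃ₗ[ZMod 2] V)) (hS : Group.IsSolvable ↥S) (hO2 : Cfsg.pCore 2 ↥S = ⊥)
    (P : V ≃ₗ[ZMod 2] V) (hPS : P ∈ S) (hP4 : orderOf P = 4)
    (hcub : ((P : V →ₗ[ZMod 2] V) - LinearMap.id) ^ 3 = 0) :
    4 ≤ Nat.card ↥(LinearMap.range (((P : V →ₗ[ZMod 2] V) - LinearMap.id) ^ 2)) := by
  classical
  by_contra hlt
  push Not at hlt
  haveI := hS
  haveI : Finite ↥S := Finite.of_injective (fun s => ((s : V ≃ₗ[ZMod 2] V) : V → V))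
    fun a b h => Subtype.ext (DFunLike.coe_injective h)
  let φ : ↥S →* Module.End (ZMod 2) V :=
    { toFun := fun s => ((s : V ≃ₗ[ZMod 2] V) : V →ₗ[ZMod 2] V)
      map_one' := rfl
      map_mul' := fun a b => rfl }
  have hφi : Function.Injective φ := fun a b h =>
    Subtype.ext (LinearEquiv.toLinearMap_injective h)
  have add2 : ∀ x : Module.End (ZMod 2) V, x + x = 0 := fun x => by
    ext w; exact ZModModule.add_self (x w)
  have add2v : ∀ x : V, x + x = 0 := ZModModule.add_self
  set p : ↥S := ⟨P, hPS⟩ with hpdef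
  set t : ↥S := p ^ 2 with htdef
  set N : Module.End (ZMod 2) V := (φ p - 1) ^ 2 with hNdef
  have hNN : N * N = 0 := by
    have h3 : (φ p - 1) ^ 3 = 0 := hcub
    rw [hNdef, ← pow_add, pow_succ (φ p - 1) 3, h3, zero_mul]
  have ht : φ t = 1 + N := by
    have h1 : φ p = 1 + (φ p - 1) := by abel
    rw [htdef, map_pow, hNdef]
    conv_lhs => rw [h1]
    rw [pow_two, pow_two, add_mul, one_mul, mul_add, mul_one]
    have := add2 (φ p - 1)
    calc 1 + (φ p - 1) + ((φ p - 1) + (φ p - 1) * (φ p - 1))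
        = 1 + ((φ p - 1) + (φ p - 1)) + (φ p - 1) * (φ p - 1) := by abel
      _ = _ := by rw [this, add_zero]
  have hord : orderOf p = 4 := by
    rw [← hP4, hpdef, ← Subgroup.orderOf_coe]
  have ht1 : t ≠ 1 := fun h => by
    have := orderOf_dvd_of_pow_eq_one (htdef ▸ h)
    rw [hord] at this
    omega
  have ht2 : t * t = 1 := by
    rw [htdef, ← pow_add, show 2 + 2 = orderOf p by rw [hord], pow_orderOf_eq_one]
  have hNne : N ≠ 0 := fun h => ht1 (hφi (by rw [ht, h, add_zero, map_one]))
  obtain ⟨a₀, ha₀⟩ : ∃ a, N a ≠ 0 := by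
    by_contra h
    push Not at h
    exact hNne (LinearMap.ext h)
  set v := N a₀ with hv
  have hrk : ∀ x, N x = 0 ∨ N x = v := by
    intro x
    by_contra h
    push Not at h
    obtain ⟨h1, h2⟩ := h
    have hne : N x + v ≠ 0 := fun h => h2 (by
      calc N x = N x + (v + v) := by rw [add2v, add_zero]
        _ = (N x + v) + v := by abel
        _ = v := by rw [h, zero_add])
    have hsub : (({0, v, N x, N x + v} : Finset V) : Set V) ⊆ (LinearMap.range N : Set V) := by
      intro y hy
      simp only [Finset.coe_insert, Finset.coe_singleton, Set.mem_insert_iff, Set.mem_singleton_iff] at hy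
      rcases hy with rfl | rfl | rfl | rfl
      · exact zero_mem _
      · exact ⟨a₀, rfl⟩
      · exact ⟨x, rfl⟩
      · exact ⟨x + a₀, by rw [map_add]⟩
    have hc := Set.ncard_le_ncard hsub (Set.toFinite _)
    rw [Set.ncard_coe_finset, ← Nat.card_coe_set_eq] at hc
    have h4 : ({0, v, N x, N x + v} : Finset V).card = 4 := by
      rw [Finset.card_insert_of_notMem, Finset.card_insert_of_notMem, Finset.card_insert_of_notMem,
        Finset.card_singleton]
      · simp only [Finset.mem_singleton]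
        intro h; exact ha₀ (by simpa using h)
      · simp only [Finset.mem_insert, Finset.mem_singleton, not_or]
        exact ⟨fun h => h2 h.symm, fun h => h1 (by simpa using h)⟩
      · simp only [Finset.mem_insert, Finset.mem_singleton, not_or]
        exact ⟨fun h => ha₀ h.symm, fun h => h1 h.symm, fun h => hne h.symm⟩
    rw [h4] at hc
    exact absurd hc (not_le.mpr hlt)
  have hNv : N v = 0 := by rw [hv, ← Module.End.mul_apply, hNN]; rfl
  -- conjugates
  let Ng : ↥S → Module.End (ZMod 2) V := fun g => φ g * N * φ g⁻¹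
  let vg : ↥S → V := fun g => φ g v
  have hcan : ∀ g : ↥S, φ g⁻¹ * φ g = 1 := fun g => by rw [← map_mul, inv_mul_cancel, map_one]
  have hcan' : ∀ g : ↥S, φ g * φ g⁻¹ = 1 := fun g => by rw [← map_mul, mul_inv_cancel, map_one]
  have hconj : ∀ g : ↥S, φ (g * t * g⁻¹) = 1 + Ng g := fun g => by
    rw [map_mul, map_mul, ht, mul_add, mul_one, add_mul, hcan']
  have hrg : ∀ g x, Ng g x = 0 ∨ Ng g x = vg g := fun g x => by
    rcases hrk (φ g⁻¹ x) with h | h
    · left; simp [Ng, Module.End.mul_apply, h]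
    · right; simp [Ng, vg, Module.End.mul_apply, h]
  have hNgg : ∀ g, Ng g * Ng g = 0 := fun g => by
    have : Ng g * Ng g = φ g * (N * N) * φ g⁻¹ := by
      simp only [Ng, mul_assoc, ← mul_assoc (φ g⁻¹) (φ g), hcan, one_mul]
    rw [this, hNN, mul_zero, zero_mul]
  have hvne : ∀ g, vg g ≠ 0 := fun g h => ha₀ (by
    have := congrArg (φ g⁻¹) h
    simpa [vg, ← Module.End.mul_apply, hcan] using this)
  have hvmem : ∀ g, ∃ x, Ng g x = vg g := fun g => ⟨φ g a₀, by
    simp [Ng, vg, ← Module.End.mul_apply, mul_assoc, hcan, hv]⟩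
  have hveq : ∀ g h, g * t * g⁻¹ = h * t * h⁻¹ → vg g = vg h := by
    intro g h he
    have hN : Ng g = Ng h := by
      have := congrArg φ he
      rw [hconj, hconj] at this
      exact add_left_cancel this
    obtain ⟨x, hx⟩ := hvmem g
    rw [hN] at hx
    rcases hrg h x with h' | h' <;> rw [h'] at hx
    · exact absurd hx.symm (hvne g)
    · exact hx.symm
  -- the odd normal subgroup
  set R := Cfsg.pPrimeCore 2 ↥S with hR
  haveI hRn : R.Normal := Subgroup.sSup_normal _ fun _ h => h.1
  have hRodd : (Nat.card ↥R).Coprime 2 := CfsgLib.PCore.pPrimeCore_coprime 2 ↥S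
  have hRc : t ∉ Subgroup.centralizer (R : Set ↥S) := by
    intro hc
    have hFR : Cfsg.fittingSubgroup ↥S ≤ R := by
      rw [CfsgLib.Hall.fitting_eq_iSup_primes]
      refine iSup_le fun q => ?_
      haveI : Fact (q : ℕ).Prime := ⟨q.2⟩
      by_cases hq : (q : ℕ) = 2
      · rw [hq, hO2]; exact bot_le
      · refine le_sSup ⟨Subgroup.sSup_normal _ fun _ h => h.1, ?_⟩
        obtain ⟨k, hk⟩ := IsPGroup.iff_card.mp (CfsgLib.Components.pCore_isPGroup (G := ↥S) (q : ℕ))
        rw [hk]
        exact Nat.Coprime.pow_left k ((Nat.coprime_primes q.2 Nat.prime_two).mpr hq)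
    have htR : t ∈ R := hFR (CfsgLib.Hall.centralizer_fitting_le
      (Subgroup.centralizer_le hFR hc))
    have h1 : orderOf t ∣ Nat.card ↥R := Subgroup.orderOf_dvd_natCard R htR
    have h2 : orderOf t ∣ 2 := orderOf_dvd_of_pow_eq_one (by rw [pow_two, ht2])
    exact ht1 (orderOf_eq_one_iff.mp (Nat.eq_one_of_dvd_coprimes hRodd h1 h2))
  have key : ∀ g h, g ∈ R → h ∈ R → g * t * g⁻¹ ≠ h * t * h⁻¹ → Ng h (vg g) = vg h := by
    intro g h hg hh hne
    rcases hrg h (vg g) with h0 | h0
    · exfalso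
      have hba : Ng h * Ng g = 0 := LinearMap.ext fun x => by
        rcases hrg g x with h' | h' <;> simp [Module.End.mul_apply, h', h0]
      set M := Ng g + Ng h + Ng g * Ng h with hM
      have hab : φ (g * t * g⁻¹ * (h * t * h⁻¹)) = 1 + M := by
        rw [map_mul, hconj, hconj, hM, mul_add, mul_one, add_mul, one_mul]; abel
      have hz : ∀ X, Ng g * (Ng g * X) = 0 ∧ Ng h * (Ng g * X) = 0 ∧ Ng h * (Ng h * X) = 0 := fun X => by
        simp only [← mul_assoc, hNgg, hba, zero_mul, and_self]
      have hM2 : M * M = Ng g * Ng h := by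
        simp only [hM, mul_add, add_mul, mul_assoc, hNgg, hba, fun X => (hz X).1, fun X => (hz X).2.1, mul_zero, add_zero, zero_add]
      have hM4 : (M * M) * (M * M) = 0 := by
        rw [hM2]; simp only [mul_assoc, fun X => (hz X).2.1, mul_zero]
      have hsq : ∀ X : Module.End (ZMod 2) V, (1 + X) * (1 + X) = 1 + X * X := fun X => by
        rw [mul_add, mul_one, add_mul, one_mul]
        calc 1 + X + (X + X * X) = 1 + (X + X) + X * X := by abel
          _ = _ := by rw [add2, add_zero]
      have h4 : (g * t * g⁻¹ * (h * t * h⁻¹)) ^ 4 = 1 := hφi (by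
        rw [map_pow, hab, map_one, show 4 = 2 * 2 from rfl, pow_mul, pow_two, pow_two, hsq, hsq, hM4, add_zero])
      have hmem : g * t * g⁻¹ * (h * t * h⁻¹) ∈ R := by
        have e : g * t * g⁻¹ * (h * t * h⁻¹) = g * (t * (g⁻¹ * h) * t⁻¹) * h⁻¹ := by
          rw [inv_eq_of_mul_eq_one_right ht2]; simp [mul_assoc]
        rw [e]
        exact R.mul_mem (R.mul_mem hg (hRn.conj_mem _ (R.mul_mem (R.inv_mem hg) hh) t)) (R.inv_mem hh)
      have h1 := Subgroup.orderOf_dvd_natCard R hmem
      have h2 := orderOf_dvd_of_pow_eq_one h4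
      have := orderOf_eq_one_iff.mp (Nat.eq_one_of_dvd_coprimes
        (Nat.Coprime.pow_right 2 hRodd) h1 (by simpa using h2))
      apply hne
      have hb : h * t * h⁻¹ * (h * t * h⁻¹) = 1 := by
        calc h * t * h⁻¹ * (h * t * h⁻¹) = h * (t * t) * h⁻¹ := by group
          _ = 1 := by rw [ht2]; group
      exact (eq_inv_of_mul_eq_one_left this).trans (inv_eq_of_mul_eq_one_right hb)
    · exact h0
  obtain ⟨u, hu, hut⟩ : ∃ u ∈ R, u * t ≠ t * u := by
    rw [Subgroup.mem_centralizer_iff] at hRc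
    push Not at hRc
    exact hRc
  have hu1 : u * t * u⁻¹ ≠ 1 * t * 1⁻¹ := fun h => hut (by
    rw [one_mul, inv_one, mul_one] at h
    exact mul_inv_eq_iff_eq_mul.mp h)
  have hv0 : vg 1 = v := by simp [vg]
  have hN1 : ∀ x, Ng 1 x = N x := fun x => by simp [Ng]
  have hNu : N (vg u) = v := by
    rw [← hN1, key u 1 hu R.one_mem hu1, hv0]
  have hPc : φ p * N = N * φ p := by
    rw [hNdef]
    exact (((Commute.refl (φ p)).sub_right (Commute.one_right _)).pow_right 2).eq
  have hPv : φ p v = v := by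
    have : φ p v = N (φ p a₀) := by rw [hv, ← Module.End.mul_apply, hPc]; rfl
    rcases hrk (φ p a₀) with h | h
    · exact absurd (this.trans h) (hvne p)
    · exact this.trans h
  have hPv' : φ p⁻¹ v = v := by
    conv_lhs => rw [← hPv, ← Module.End.mul_apply, hcan]
    rfl
  set u2 := p * u * p⁻¹ with hu2
  set u3 := t * u * t⁻¹ with hu3
  have hu2R : u2 ∈ R := hRn.conj_mem u hu p
  have hu3R : u3 ∈ R := hRn.conj_mem u hu t
  have hv2 : vg u2 = φ p (vg u) := by simp [vg, hu2, map_mul, Module.End.mul_apply, hPv']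
  have htv : φ t v = v := by rw [ht, LinearMap.add_apply, hNv, add_zero]; rfl
  have htv' : φ t⁻¹ v = v := by
    conv_lhs => rw [← htv, ← Module.End.mul_apply, hcan]
    rfl
  have htu : φ t (vg u) = vg u + v := by
    rw [ht, LinearMap.add_apply, hNu]; rfl
  have hv3 : vg u3 = vg u + v := by
    rw [← htu]; simp [vg, hu3, map_mul, Module.End.mul_apply, htv']
  have hpp : φ p (φ p (vg u)) = φ t (vg u) := by
    rw [← Module.End.mul_apply, ← map_mul, htdef, pow_two]
  have hbad : φ t (vg u) ≠ vg u := fun h => ha₀ (by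
    rw [htu] at h; simpa using h)
  have e21 : u2 * t * u2⁻¹ ≠ u * t * u⁻¹ := fun h => hbad (by
    have := hveq _ _ h
    rw [hv2] at this
    rw [← hpp, this, this])
  have e23 : u2 * t * u2⁻¹ ≠ u3 * t * u3⁻¹ := fun h => hbad (by
    have := hveq _ _ h
    rw [hv2, hv3] at this
    rw [← hpp, this, map_add, this, hPv, add_assoc, add2v, add_zero])
  have e20 : u2 * t * u2⁻¹ ≠ 1 * t * 1⁻¹ := fun h => hu1 (by
    have e : u2 * t * u2⁻¹ = p * (u * t * u⁻¹) * p⁻¹ := by
      rw [hu2, htdef]; group
    rw [e] at h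
    have hpt : p * (1 * t * 1⁻¹) * p⁻¹ = 1 * t * 1⁻¹ := by rw [htdef]; group
    conv at h => rhs; rw [← hpt]
    exact mul_left_cancel (mul_right_cancel h))
  have k1 := key u u2 hu hu2R e21.symm
  have k0 := key 1 u2 R.one_mem hu2R e20.symm
  have k3 := key u3 u2 hu3R hu2R e23.symm
  rw [hv0] at k0
  rw [hv3, map_add, k1, k0, add2v] at k3
  exact hvne u2 k3.symm

end Cfsg.Agent.S4410
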