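import Cfsg.Statements.S4411
import Cfsg.Agent.ZJ.ComplementTwo
import Cfsg.Agent.ZJ.Complement
import Cfsg.Agent.PCore.AxB
import Cfsg.Agent.PCore.PSolvable
import Cfsg.Agent.PReduced.Basic
import Cfsg.Agent.CoprimeAction.Invariant
import Cfsg.Agent.ConjFunctor.OmegaClosure
import Cfsg.Agent.Transfer.Residual

set_option autoImplicit false
open Cfsg

namespace Cfsg.Agent.S4411

open scoped Pointwise commutatorElement

universe u

/-- A lift of an element of `q`-power order can be replaced by a power of `q`-power order. -/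
theorem exists_qpart (q : ℕ) [Fact q.Prime] {M X : Type*} [Group M] [Finite M] [Group X] (f : M →* X)
    (m : M) {k : ℕ} (hk : orderOf (f m) = q ^ k) :
    ∃ a : ℕ, (∃ i, orderOf (m ^ a) = q ^ i) ∧ ∀ H : Subgroup X, f (m ^ a) ∈ H → f m ∈ H := by
  have hq : q.Prime := Fact.out
  set n := orderOf m with hn
  have hn0 : n ≠ 0 := (orderOf_pos m).ne'
  refine ⟨n / q ^ n.factorization q, ?_, fun H hH => ?_⟩
  · have h : (m ^ (n / q ^ n.factorization q)) ^ q ^ n.factorization q = 1 := by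
      rw [← pow_mul, mul_comm, Nat.ordProj_mul_ordCompl_eq_self n q, pow_orderOf_eq_one]
    obtain ⟨i, -, hi⟩ := (Nat.dvd_prime_pow hq).1 (orderOf_dvd_of_pow_eq_one h)
    exact ⟨i, hi⟩
  · have hcop : (n / q ^ n.factorization q).Coprime (orderOf (f m)) := by
      rw [hk]
      exact ((hq.coprime_iff_not_dvd.2 (Nat.not_dvd_ordCompl hq hn0)).symm).pow_right k
    obtain ⟨b, hb⟩ := exists_pow_eq_self_of_coprime hcop
    rw [← hb]
    apply H.pow_mem
    rw [← map_pow]; exact hH

theorem prime_dvd_sup {G : Type*} [Group G] [Finite G] {A B : Subgroup G}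
    (h : A ≤ Subgroup.normalizer (B : Set G)) {r : ℕ} (hr : r.Prime) (hd : r ∣ Nat.card ↥(A ⊔ B)) :
    r ∣ Nat.card A ∨ r ∣ Nat.card B := by
  set N := Subgroup.normalizer (B : Set G) with hN
  haveI : (B.subgroupOf N).Normal := Subgroup.normal_in_normalizer
  have hle : A ⊔ B ≤ N := sup_le h Subgroup.le_normalizer
  rw [← Nat.card_congr (Subgroup.subgroupOfEquivOfLe hle).toEquiv,
    Subgroup.subgroupOf_sup h Subgroup.le_normalizer] at hd
  have h2 := hd.trans (CfsgLib.PCore.card_sup_dvd (B.subgroupOf N) (A.subgroupOf N))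
  rw [Nat.card_congr (Subgroup.subgroupOfEquivOfLe h).toEquiv,
    Nat.card_congr (Subgroup.subgroupOfEquivOfLe (Subgroup.le_normalizer : B ≤ N)).toEquiv] at h2
  exact hr.dvd_mul.1 h2

theorem eq_one_of_pow_two_primes {p q : ℕ} (hp : p.Prime) (hq : q.Prime) (hpq : p ≠ q) {G : Type*} [Group G]
    {x : G} {i j : ℕ} (h1 : orderOf x = q ^ i) (h2 : orderOf x ∣ p ^ j) : x = 1 := by
  have h3 : (q ^ i).Coprime (p ^ j) := Nat.Coprime.pow _ _ ((Nat.coprime_primes hq hp).2 hpq.symm)
  exact orderOf_eq_one_iff.1 (Nat.eq_one_of_dvd_coprimes h3 h1.dvd h2)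

theorem orderOf_dvd_of_mem_pgroup {p : ℕ} [Fact p.Prime] {G : Type*} [Group G] [Finite G] {R : Subgroup G}
    (hR : IsPGroup p R) {x : G} (hx : x ∈ R) : ∃ j, orderOf x ∣ p ^ j := by
  obtain ⟨j, hj⟩ := IsPGroup.iff_card.1 hR
  exact ⟨j, hj ▸ Subgroup.orderOf_dvd_natCard R hx⟩

theorem isPGroup_of_not_dvd {p q : ℕ} [Fact p.Prime] {M : Type*} [Group M] [Finite M]
    (h : ∀ r : ℕ, r.Prime → r ∣ Nat.card M → r = p ∨ r = q) (hq : ¬ q ∣ Nat.card M) : IsPGroup p M :=
  IsPGroup.of_card (Nat.eq_prime_pow_of_unique_prime_dvd Nat.card_pos.ne'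
    fun {r} hr hd => (h r hr hd).resolve_right fun e => hq (e ▸ hd))

theorem exists_pq (p q : ℕ) [Fact p.Prime] [Fact q.Prime] (hpq : p ≠ q) :
    ∀ (n : ℕ) (X : Type u) [Group X] [Finite X], Nat.card X = n → Cfsg.IsPSolvable p X → ∀ T : Sylow p X,
      q ∣ Nat.card X → ∃ Y : Subgroup X, (T : Subgroup X) ≤ Y ∧ q ∣ Nat.card Y ∧
        ∀ r : ℕ, r.Prime → r ∣ Nat.card Y → r = p ∨ r = q := by
  have hp : p.Prime := Fact.out
  have hq : q.Prime := Fact.out
  intro n
  induction n using Nat.strong_induction_on with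
  | _ n ih =>
  intro X _ _ hn hs T hqX
  haveI : Nontrivial X := Finite.one_lt_card_iff_nontrivial.1
    (lt_of_lt_of_le hq.one_lt (Nat.le_of_dvd Nat.card_pos hqX))
  have key : ∀ N : Subgroup X, N.Normal → N ≠ ⊥ → q ∣ Nat.card (X ⧸ N) →
      ∃ (Y0 : Subgroup X) (m : ℕ), (T : Subgroup X) ≤ Y0 ∧ N ≤ Y0 ∧ Nat.card Y0 = Nat.card N * m ∧ q ∣ m ∧
        ∀ r : ℕ, r.Prime → r ∣ m → r = p ∨ r = q := by
    intro N hN hne hqN
    have hlt : Nat.card (X ⧸ N) < n := by
      rw [← hn, Subgroup.card_eq_card_quotient_mul_card_subgroup N]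
      exact lt_mul_of_one_lt_right Nat.card_pos ((Subgroup.one_lt_card_iff_ne_bot _).2 hne)
    obtain ⟨Y, hTY, hqY, hY⟩ := ih _ hlt (X ⧸ N) rfl (CfsgLib.PCore.isPSolvable_quotient hs N)
      (T.mapSurjective (QuotientGroup.mk'_surjective N)) hqN
    refine ⟨Y.comap (QuotientGroup.mk' N), Nat.card Y, Subgroup.map_le_iff_le_comap.1 hTY, fun x hx => ?_,
      CfsgLib.PCore.card_comap_mk' N Y, hqY, hY⟩
    rw [Subgroup.mem_comap, QuotientGroup.mk'_apply, (QuotientGroup.eq_one_iff x).2 hx]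
    exact Y.one_mem
  rcases CfsgLib.PCore.cores_ne_bot hs with hne | hne
  · set N := Cfsg.pCore p X with hNdef
    have hNp : IsPGroup p N := CfsgLib.PCore.isPGroup_pCore p X
    haveI hNn : N.Normal := Cfsg.pCore_normal p X
    obtain ⟨k, hk⟩ := IsPGroup.iff_card.1 hNp
    have hqN : q ∣ Nat.card (X ⧸ N) := by
      have h := hqX
      rw [Subgroup.card_eq_card_quotient_mul_card_subgroup N, hk] at h
      exact (hq.dvd_mul.1 h).resolve_right fun h' =>
        hpq ((Nat.prime_dvd_prime_iff_eq hq hp).1 (hq.dvd_of_dvd_pow h')).symm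
    obtain ⟨Y0, m, hT, -, hc, hqm, hm⟩ := key N hNn hne hqN
    refine ⟨Y0, hT, hc ▸ Dvd.dvd.mul_left hqm _, fun r hr hd => ?_⟩
    rw [hc] at hd
    rcases hr.dvd_mul.1 hd with h | h
    · rw [hk] at h
      exact Or.inl ((Nat.prime_dvd_prime_iff_eq hr hp).1 (hr.dvd_of_dvd_pow h))
    · exact hm r hr h
  · set N := Cfsg.pPrimeCore p X with hNdef
    obtain ⟨hNn, hNc⟩ := CfsgLib.PCore.pPrimeCore_mem p X
    haveI := hNn
    have hpN : ¬ p ∣ Nat.card N := hp.coprime_iff_not_dvd.1 hNc.symm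
    obtain ⟨kT, hkT⟩ := IsPGroup.iff_card.1 T.isPGroup'
    by_cases hqN : q ∣ Nat.card N
    · have hTN : (T : Subgroup X) ≤ Subgroup.normalizer (N : Set X) := by
        rw [Subgroup.normalizer_eq_top]; exact le_top
      have hcop : (Nat.card (T : Subgroup X)).Coprime (Nat.card N) := hkT ▸ (hNc.symm.pow_left kT)
      haveI : Group.IsNilpotent ↥(T : Subgroup X) := T.isPGroup'.isNilpotent
      obtain ⟨Q, hQ⟩ := CfsgLib.CoprimeAction.exists_invariant_sylow hTN hcop (Or.inl inferInstance) q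
      set Q' := (Q : Subgroup N).map N.subtype with hQ'
      have hQc : Nat.card Q' = q ^ (Nat.card N).factorization q := CfsgLib.CoprimeAction.card_sylow_map Q
      refine ⟨(T : Subgroup X) ⊔ Q', le_sup_left, ?_, fun r hr hd => ?_⟩
      · refine dvd_trans ?_ (Subgroup.card_dvd_of_le le_sup_right)
        rw [hQc]
        exact dvd_pow_self q (hq.factorization_pos_of_dvd Nat.card_pos.ne' hqN).ne'
      · rcases prime_dvd_sup hQ hr hd with h | h
        · exact Or.inl ((Nat.prime_dvd_prime_iff_eq hr hp).1 (hr.dvd_of_dvd_pow (hkT ▸ h)))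
        · exact Or.inr ((Nat.prime_dvd_prime_iff_eq hr hq).1 (hr.dvd_of_dvd_pow (hQc ▸ h)))
    · have hqq : q ∣ Nat.card (X ⧸ N) := by
        have h := hqX
        rw [Subgroup.card_eq_card_quotient_mul_card_subgroup N] at h
        exact (hq.dvd_mul.1 h).resolve_right hqN
      obtain ⟨Y0, m, hT, hNY, hc, hqm, hm⟩ := key N hNn hne hqq
      set N' := N.subgroupOf Y0 with hN'
      have hN'c : Nat.card N' = Nat.card N := Nat.card_congr (Subgroup.subgroupOfEquivOfLe hNY).toEquiv
      have hidx : N'.index = m := by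
        have h := Subgroup.card_mul_index N'
        rw [hN'c, hc] at h
        exact Nat.eq_of_mul_eq_mul_left Nat.card_pos h
      have hcop : (Nat.card N').Coprime N'.index := by
        rw [hN'c, hidx]
        refine Nat.coprime_of_dvd fun r hr h1 h2 => ?_
        rcases hm r hr h2 with rfl | rfl
        · exact hpN h1
        · exact hqN h1
      obtain ⟨K0, hK0⟩ := Subgroup.exists_left_complement'_of_coprime hcop
      have hK0c : Nat.card K0 = m := by
        have h := hK0.card_mul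
        rw [hN'c, hc, mul_comm (Nat.card N)] at h
        exact Nat.eq_of_mul_eq_mul_right Nat.card_pos h
      obtain ⟨S0⟩ := (inferInstance : Nonempty (Sylow p K0))
      have hfac : (Nat.card Y0).factorization p = (Nat.card K0).factorization p := by
        rw [hc, hK0c, Nat.factorization_mul Nat.card_pos.ne' (fun h => by
          have h' := hK0c.trans h
          exact Nat.card_pos.ne' h'), Finsupp.add_apply, Nat.factorization_eq_zero_of_not_dvd hpN, zero_add]
      let S1 : Sylow p Y0 := Sylow.ofCard ((S0 : Subgroup K0).map K0.subtype) (by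
        rw [CfsgLib.CoprimeAction.card_sylow_map, hfac])
      obtain ⟨g, hg⟩ := MulAction.exists_smul_eq Y0 S1 (T.subtype hT)
      refine ⟨(MulAut.conj g • K0).map Y0.subtype, fun x hx => ?_, ?_, fun r hr hd => ?_⟩
      · refine ⟨⟨x, hT hx⟩, ?_, rfl⟩
        have h1 : (⟨x, hT hx⟩ : Y0) ∈ ((g • S1 : Sylow p Y0) : Subgroup Y0) := by
          rw [hg]; exact hx
        rw [Sylow.coe_subgroup_smul] at h1
        exact Subgroup.pointwise_smul_le_pointwise_smul_iff.2 (Subgroup.map_subtype_le _) h1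
      · rw [Subgroup.card_map_of_injective Y0.subtype_injective, Nat.card_congr (Subgroup.equivSMul _ K0).toEquiv.symm,
          hK0c]
        exact hqm
      · rw [Subgroup.card_map_of_injective Y0.subtype_injective, Nat.card_congr (Subgroup.equivSMul _ K0).toEquiv.symm,
          hK0c] at hd
        exact hm r hr hd

theorem char_map_equiv {A B : Type*} [Group A] [Group B] (e : A ≃* B) {K : Subgroup A} (hK : K.Characteristic) :
    (K.map e.toMonoidHom).Characteristic := by
  rw [Subgroup.characteristic_iff_map_eq]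
  intro φ
  have h := (Subgroup.characteristic_iff_map_eq.1 hK) ((e.trans φ).trans e.symm)
  conv_rhs => rw [← h]
  rw [Subgroup.map_map, Subgroup.map_map]
  congr 1
  ext x
  simp

theorem char_comap_surjective {A B : Type*} [Group A] [Finite A] [Group B] (g : A →* B)
    (hg : Function.Surjective g) (hker : ∀ φ : MulAut A, ∀ a : A, g a = 1 → g (φ a) = 1)
    {K : Subgroup B} (hK : K.Characteristic) : (K.comap g).Characteristic := by
  refine ⟨fun φ => ?_⟩
  have hk : g.ker.map φ.toMonoidHom = g.ker := by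
    refine Subgroup.eq_of_le_of_card_ge ?_ (Subgroup.card_map_of_injective φ.injective).ge
    rintro _ ⟨a, ha, rfl⟩
    exact hker φ a ha
  let e := QuotientGroup.quotientKerEquivOfSurjective g hg
  let ψ : B ≃* B := (e.symm.trans (QuotientGroup.congr g.ker g.ker φ hk)).trans e
  have hψ : ∀ a : A, ψ (g a) = g (φ a) := by
    intro a
    have h1 : e.symm (g a) = (QuotientGroup.mk a : A ⧸ g.ker) := e.injective (by
      rw [e.apply_symm_apply]; rfl)
    show e (QuotientGroup.congr g.ker g.ker φ hk (e.symm (g a))) = g (φ a)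
    rw [h1]; rfl
  ext a
  show g (φ a) ∈ K ↔ g a ∈ K
  rw [← hψ a]
  exact SetLike.ext_iff.1 (hK.fixed ψ) (g a)

/-- `K` is characteristic in `T` and some `q`-element normalizes but does not centralize it. -/
def Good (q : ℕ) {M : Type*} [Group M] (T : Subgroup M) : Prop :=
  ∃ K : Subgroup T, K.Characteristic ∧ ∃ x : M, x ∈ Subgroup.normalizer ((K.map T.subtype : Subgroup M) : Set M) ∧
    x ∉ Subgroup.centralizer ((K.map T.subtype : Subgroup M) : Set M) ∧ ∃ i, orderOf x = q ^ i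

theorem core (p q : ℕ) [Fact p.Prime] [Fact q.Prime] (hpq : p ≠ q) :
    ∀ (n : ℕ) (M : Type u) [Group M] [Finite M], Nat.card M = n → (p = 2 → ¬ 3 ∣ Nat.card M) →
      Subgroup.centralizer (Cfsg.pCore p M : Set M) ≤ Cfsg.pCore p M → q ∣ Nat.card M →
      (∀ r : ℕ, r.Prime → r ∣ Nat.card M → r = p ∨ r = q) → ∀ T : Sylow p M, Good q (T : Subgroup M) := by
  have hp : p.Prime := Fact.out
  have hq : q.Prime := Fact.out
  intro n
  induction n using Nat.strong_induction_on with
  | _ n ih =>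
  intro M _ _ hn h3 hcp hqM hpr T
  set R := Cfsg.pCore p M with hR
  have hRp : IsPGroup p R := CfsgLib.PCore.isPGroup_pCore p M
  haveI hRn : R.Normal := Cfsg.pCore_normal p M
  have hRT : R ≤ (T : Subgroup M) := CfsgLib.PCore.pCore_le_sylow T
  obtain ⟨kR, hkR⟩ := IsPGroup.iff_card.1 hRp
  have hnR : ∀ A : Subgroup M, A ≤ Subgroup.normalizer (R : Set M) := fun A => by
    rw [Subgroup.normalizer_eq_top]; exact le_top
  have hone : ∀ x ∈ R, (∃ i, orderOf x = q ^ i) → x = 1 := by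
    rintro x hx ⟨i, hi⟩
    obtain ⟨j, hj⟩ := orderOf_dvd_of_mem_pgroup hRp hx
    exact eq_one_of_pow_two_primes hp hq hpq hi hj
  have hcop : ∀ x : M, (∃ i, orderOf x = q ^ i) → (Nat.card (Subgroup.zpowers x)).Coprime p := by
    rintro x ⟨i, hi⟩
    rw [Nat.card_zpowers, hi]
    exact ((Nat.coprime_primes hq hp).2 hpq.symm).pow_left i
  -- the Thompson subgroup
  set J := CfsgLib.ZJ.J p false (T : Subgroup M) with hJ
  have hCJ : (T : Subgroup M) ⊓ Subgroup.centralizer (J : Set M) ≤ J := by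
    intro x hx
    obtain ⟨A, hA⟩ := CfsgLib.ZJ.maxGood_nonempty p false (T : Subgroup M)
    exact CfsgLib.ZJ.maxGood_le_J hA (CfsgLib.ZJ.mem_of_maxGood hA hx.1
      (fun a ha => Subgroup.mem_centralizer_iff.1 hx.2 a (CfsgLib.ZJ.maxGood_le_J hA ha)) (fun h => by simp at h))
  by_cases hJq : ∃ x ∈ Subgroup.normalizer (J : Set M), x ≠ 1 ∧ ∃ i, orderOf x = q ^ i
  · obtain ⟨x, hxN, hx1, hxq⟩ := hJq
    refine ⟨CfsgLib.ZJ.J p false (⊤ : Subgroup ↥(T : Subgroup M)), ?_, x, ?_, ?_, hxq⟩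
    · rw [Subgroup.characteristic_iff_map_eq]
      intro φ
      rw [← CfsgLib.ZJ.J_map φ.toMonoidHom (fun a _ h => φ.injective (h.trans (map_one φ).symm)),
        Subgroup.map_top_of_surjective _ φ.surjective]
    · rw [← CfsgLib.ZJ.J_eq_map_top]; exact hxN
    · rw [← CfsgLib.ZJ.J_eq_map_top]
      intro hxC
      have hJp : IsPGroup p J := T.isPGroup'.to_le (CfsgLib.ZJ.J_le _)
      have hle : Subgroup.zpowers x ≤ Subgroup.centralizer (R : Set M) := by
        refine CfsgLib.PCore.thompson_AxB hJp (hcop x hxq) hRp (fun a ha b hb => ?_) (hnR _) (hnR _) ?_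
        · exact Subgroup.mem_centralizer_iff.1 ((Subgroup.zpowers_le.2 hxC) hb) a ha
        · exact (Subgroup.zpowers_le.2 hxC).trans
            (Subgroup.centralizer_le fun y hy => hCJ ⟨hRT hy.1, hy.2⟩)
      exact hx1 (hone x (hcp (hle (Subgroup.mem_zpowers x))) hxq)
  -- `N(J)` is a `p`-group
  have hNp : Cfsg.HasNormalPComplement p ↥(Subgroup.normalizer (J : Set M)) := by
    refine CfsgLib.Transfer.hasNormalPComplement_of_isPGroup (isPGroup_of_not_dvd (q := q)
      (fun r hr hd => hpr r hr (hd.trans (Subgroup.card_subgroup_dvd_card _))) fun hd => ?_)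
    obtain ⟨y, hy⟩ := exists_prime_orderOf_dvd_card' q hd
    refine hJq ⟨y, y.2, fun h => ?_, 1, by rw [pow_one, Subgroup.orderOf_coe, hy]⟩
    rw [show y = 1 from Subtype.ext h, orderOf_one] at hy
    exact hq.one_lt.ne hy
  set Z := (T : Subgroup M) ⊓ Subgroup.centralizer ((T : Subgroup M) : Set M) with hZdef
  set M' := Subgroup.centralizer (Z : Set M) with hM'
  by_cases hZc : M' = ⊤
  swap
  · have hTM : (T : Subgroup M) ≤ M' := fun t ht => Subgroup.mem_centralizer_iff.2 fun z hz =>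
      ((Subgroup.mem_centralizer_iff.1 hz.2) t ht).symm
    by_cases hqM' : q ∣ Nat.card M'
    · have hlt : Nat.card M' < n := hn ▸ lt_of_le_of_ne (Nat.le_of_dvd Nat.card_pos
        (Subgroup.card_subgroup_dvd_card _)) fun h => hZc (Subgroup.eq_top_of_card_eq _ h)
      have hR' : R.subgroupOf M' ≤ Cfsg.pCore p M' := CfsgLib.PCore.le_pCore inferInstance
        (hRp.of_equiv (Subgroup.subgroupOfEquivOfLe (hRT.trans hTM)).symm)
      have hcp' : Subgroup.centralizer (Cfsg.pCore p M' : Set M') ≤ Cfsg.pCore p M' := fun y hy => by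
        refine hR' (hcp (Subgroup.mem_centralizer_iff.2 fun r hr => ?_))
        exact congrArg Subtype.val (Subgroup.mem_centralizer_iff.1 hy ⟨r, hTM (hRT hr)⟩ (hR' hr))
      obtain ⟨K, hK, x, hxN, hxC, i, hi⟩ := ih _ hlt ↥M' rfl
        (fun h2 hd => h3 h2 (hd.trans (Subgroup.card_subgroup_dvd_card _))) hcp' hqM'
        (fun r hr hd => hpr r hr (hd.trans (Subgroup.card_subgroup_dvd_card _))) (T.subtype hTM)
      let e := Subgroup.subgroupOfEquivOfLe hTM
      have hm : (K.map e.toMonoidHom).map (T : Subgroup M).subtype =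
          (K.map (T.subtype hTM : Subgroup M').subtype).map M'.subtype := by
        ext m
        constructor
        · rintro ⟨_, ⟨k, hk, rfl⟩, rfl⟩
          exact ⟨_, ⟨k, hk, rfl⟩, rfl⟩
        · rintro ⟨_, ⟨k, hk, rfl⟩, rfl⟩
          exact ⟨_, ⟨k, hk, rfl⟩, rfl⟩
      refine ⟨K.map e.toMonoidHom, char_map_equiv e hK, x, ?_, ?_, i, by rw [Subgroup.orderOf_coe, hi]⟩
      · rw [hm]; exact Subgroup.le_normalizer_map _ ⟨x, hxN, rfl⟩
      · rw [hm]
        intro h
        exact hxC (Subgroup.mem_centralizer_iff.2 fun z hz =>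
          Subtype.ext (Subgroup.mem_centralizer_iff.1 h _ ⟨z, hz, rfl⟩))
    · exfalso
      have hC : Cfsg.HasNormalPComplement p M' := CfsgLib.Transfer.hasNormalPComplement_of_isPGroup
        (isPGroup_of_not_dvd (fun r hr hd => hpr r hr (hd.trans (Subgroup.card_subgroup_dvd_card _))) hqM')
      have hfree : p ≠ 2 ∨ ¬ Cfsg.Involves (Equiv.Perm (Fin 4)) M := by
        by_cases h2 : p = 2
        · refine Or.inr ?_
          rintro ⟨K, R', hn', ⟨e⟩⟩
          apply h3 h2
          have h24 : Nat.card (↥K ⧸ R'.subgroupOf K) = 24 := by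
            rw [Nat.card_congr e.toEquiv, Nat.card_perm, Nat.card_eq_fintype_card, Fintype.card_fin]; rfl
          exact (show 3 ∣ 24 by norm_num).trans (h24 ▸ (Subgroup.card_quotient_dvd_card _).trans
            (Subgroup.card_subgroup_dvd_card K))
        · exact Or.inl h2
      have hM := CfsgLib.ZJ.hasNormalPComplement_of_J_or (el := false) hfree T hNp hC
      haveI : (Cfsg.pResidual p M).Normal := CfsgLib.Transfer.pResidual_normal
      obtain ⟨hOn, hOc⟩ := CfsgLib.PCore.pPrimeCore_mem p M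
      haveI := hOn
      have hO : Cfsg.pPrimeCore p M = ⊥ := by
        rw [eq_bot_iff]
        intro o ho
        have hoR : o ∈ Subgroup.centralizer (R : Set M) := Subgroup.mem_centralizer_iff.2 fun r hr => by
          rw [← commutatorElement_eq_one_iff_mul_comm, ← Subgroup.mem_bot, ← CfsgLib.PCore.pCore_inf_pPrimeCore (p := p)]
          exact Subgroup.commutator_le_inf R (Cfsg.pPrimeCore p M) (Subgroup.commutator_mem_commutator hr ho)
        rw [← CfsgLib.PCore.pCore_inf_pPrimeCore (p := p)]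
        exact ⟨hcp hoR, ho⟩
      have h1 : Cfsg.pResidual p M = ⊥ := le_bot_iff.1 ((CfsgLib.PCore.le_pPrimeCore_of_not_dvd inferInstance
        (CfsgLib.Transfer.hasNormalPComplement_iff.1 hM)).trans hO.le)
      obtain ⟨k, hk⟩ := CfsgLib.Transfer.index_pResidual (p := p) (G := M)
      rw [h1, Subgroup.index_bot] at hk
      rw [hk] at hqM
      exact hpq ((Nat.prime_dvd_prime_iff_eq hq hp).1 (hq.dvd_of_dvd_pow hqM)).symm
  -- `Z(T)` is central: pass to the quotient
  have hZcen : ∀ z ∈ Z, ∀ m : M, m * z = z * m := fun z hz m =>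
    (Subgroup.mem_centralizer_iff.1 (show m ∈ M' from hZc ▸ Subgroup.mem_top m) z hz).symm
  haveI hZn : Z.Normal := ⟨fun z hz m => by rw [hZcen z hz m, mul_inv_cancel_right]; exact hz⟩
  have hZ1 : Z ≠ ⊥ := by
    intro h
    have hT1 : (T : Subgroup M) = ⊥ := by
      by_contra hne
      haveI : Nontrivial ↥(T : Subgroup M) := (Subgroup.nontrivial_iff_ne_bot _).2 hne
      haveI := T.isPGroup'.center_nontrivial
      obtain ⟨z, hz⟩ := exists_ne (1 : Subgroup.center ↥(T : Subgroup M))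
      refine hz (Subtype.ext (Subtype.ext ?_))
      rw [OneMemClass.coe_one, OneMemClass.coe_one, ← Subgroup.mem_bot, ← h]
      exact ⟨(z : ↥(T : Subgroup M)).2, Subgroup.mem_centralizer_iff.2 fun t ht =>
        congrArg Subtype.val (Subgroup.mem_center_iff.1 z.2 ⟨t, ht⟩)⟩
    have htop : (⊤ : Subgroup M) ≤ R := fun m _ => hcp (Subgroup.mem_centralizer_iff.2 fun r hr => by
      rw [Subgroup.mem_bot.1 (hT1.le (hRT hr)), one_mul, mul_one])
    have hb : R = ⊥ := le_bot_iff.1 (hRT.trans hT1.le)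
    have : Nat.card M = 1 := by
      rw [← Subgroup.card_top (G := M), le_bot_iff.1 (htop.trans hb.le), Subgroup.card_bot]
    rw [this] at hqM
    exact hq.one_lt.ne' (Nat.dvd_one.1 hqM)
  set f := QuotientGroup.mk' Z with hf
  have hfs : Function.Surjective f := QuotientGroup.mk'_surjective Z
  have hker : ∀ x : M, f x = 1 ↔ x ∈ Z := fun x => QuotientGroup.eq_one_iff x
  have hlt : Nat.card (M ⧸ Z) < n := by
    rw [← hn, Subgroup.card_eq_card_quotient_mul_card_subgroup Z]
    exact lt_mul_of_one_lt_right Nat.card_pos ((Subgroup.one_lt_card_iff_ne_bot _).2 hZ1)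
  obtain ⟨kZ, hkZ⟩ := IsPGroup.iff_card.1 (T.isPGroup'.to_le (inf_le_left : Z ≤ _))
  have hqZ : q ∣ Nat.card (M ⧸ Z) := by
    have h := hqM
    rw [Subgroup.card_eq_card_quotient_mul_card_subgroup Z, hkZ] at h
    exact (hq.dvd_mul.1 h).resolve_right fun h' =>
      hpq ((Nat.prime_dvd_prime_iff_eq hq hp).1 (hq.dvd_of_dvd_pow h')).symm
  -- characteristic `p` of the quotient
  have hcp' : Subgroup.centralizer (Cfsg.pCore p (M ⧸ Z) : Set (M ⧸ Z)) ≤ Cfsg.pCore p (M ⧸ Z) := by
    set D := (Subgroup.centralizer (Cfsg.pCore p (M ⧸ Z) : Set (M ⧸ Z))).comap f with hD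
    haveI : (Cfsg.pCore p (M ⧸ Z)).Normal := Cfsg.pCore_normal p _
    haveI : D.Normal := Subgroup.normal_comap f
    have hRle : R.map f ≤ Cfsg.pCore p (M ⧸ Z) := CfsgLib.PCore.map_pCore_le f hfs
    have hDp : IsPGroup p D := by
      refine isPGroup_of_not_dvd (q := q) (fun r hr hd => hpr r hr (hd.trans (Subgroup.card_subgroup_dvd_card _)))
        fun hd => ?_
      obtain ⟨y, hy⟩ := exists_prime_orderOf_dvd_card' q hd
      have hyq : ∃ i, orderOf (y : M) = q ^ i := ⟨1, by rw [pow_one, Subgroup.orderOf_coe, hy]⟩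
      have hcz : (Nat.card (Subgroup.zpowers (y : M))).Coprime (Nat.card Z) := hkZ ▸ (hcop _ hyq).pow_right kZ
      have hyR : Subgroup.zpowers (y : M) ≤ Subgroup.centralizer (R : Set M) := by
        refine CfsgLib.CoprimeAction.le_centralizer_of_chain hcz ?_ (Subgroup.commutator_le.2 fun r hr a ha => ?_)
        · exact fun a _ => Subgroup.mem_centralizer_iff.2 fun z hz => (hZcen z hz a).symm
        · rw [← hker, map_commutatorElement, commutatorElement_eq_one_iff_mul_comm]
          have haD : a ∈ D := (Subgroup.zpowers_le.2 y.2) ha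
          exact Subgroup.mem_centralizer_iff.1 haD (f r) (hRle ⟨r, hr, rfl⟩)
      have h1 := hone _ (hcp (hyR (Subgroup.mem_zpowers _))) hyq
      rw [show y = 1 from Subtype.ext h1, orderOf_one] at hy
      exact hq.one_lt.ne hy
    intro z hz
    obtain ⟨d, rfl⟩ := hfs z
    exact hRle ⟨d, CfsgLib.PCore.le_pCore inferInstance hDp hz, rfl⟩
  obtain ⟨Kb, hKb, xb, hxN, hxC, i, hi⟩ := ih _ hlt (M ⧸ Z) rfl
    (fun h2 hd => h3 h2 (hd.trans (Subgroup.card_quotient_dvd_card _))) hcp' hqZ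
    (fun r hr hd => hpr r hr (hd.trans (Subgroup.card_quotient_dvd_card _))) (T.mapSurjective hfs)
  let g : ↥(T : Subgroup M) →* ↥((T : Subgroup M).map f) := f.subgroupMap (T : Subgroup M)
  have hgs : Function.Surjective g := f.subgroupMap_surjective _
  have hTbe : (T.mapSurjective hfs : Subgroup (M ⧸ Z)) = (T : Subgroup M).map f := Sylow.coe_mapSurjective hfs T
  let Kb' : Subgroup ↥((T : Subgroup M).map f) := Kb.map (MulEquiv.subgroupCongr hTbe).toMonoidHom
  have hKb' : Kb'.Characteristic := char_map_equiv _ hKb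
  have hKbm : Kb'.map ((T : Subgroup M).map f).subtype = Kb.map (T.mapSurjective hfs : Subgroup (M ⧸ Z)).subtype := by
    rw [Subgroup.map_map]; rfl
  set K := Kb'.comap g with hKdef
  have hKc : K.Characteristic := by
    refine char_comap_surjective g hgs (fun φ a ha => ?_) hKb'
    have haZ : (a : M) ∈ Z := (hker _).1 (congrArg Subtype.val ha)
    refine Subtype.ext ((hker _).2 ⟨(φ a).2, Subgroup.mem_centralizer_iff.2 fun t ht => ?_⟩)
    obtain ⟨t', ht'⟩ := φ.surjective ⟨t, ht⟩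
    have hc : t' * a = a * t' := Subtype.ext (Subgroup.mem_centralizer_iff.1 haZ.2 t' t'.2)
    have h := congrArg (fun u => ((φ u : ↥(T : Subgroup M)) : M)) hc
    simp only [map_mul, ht'] at h
    exact h
  have hKm : K.map (T : Subgroup M).subtype = (Kb.map (T.mapSurjective hfs : Subgroup (M ⧸ Z)).subtype).comap f := by
    rw [← hKbm]
    ext m
    constructor
    · rintro ⟨t, ht, rfl⟩
      exact ⟨g t, ht, rfl⟩
    · rintro ⟨b, hb, hbm⟩
      obtain ⟨t, rfl⟩ := hgs b
      have hz : (t : M)⁻¹ * m ∈ Z := by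
        rw [← hker, map_mul, map_inv]
        exact inv_mul_eq_one.2 hbm
      have hmT : m ∈ (T : Subgroup M) := by
        have h := (T : Subgroup M).mul_mem t.2 hz.1
        rwa [mul_inv_cancel_left] at h
      refine ⟨⟨m, hmT⟩, ?_, rfl⟩
      show g ⟨m, hmT⟩ ∈ Kb'
      rw [show g ⟨m, hmT⟩ = g t from Subtype.ext hbm.symm]
      exact hb
  obtain ⟨x0, hx0⟩ := hfs xb
  subst hx0
  obtain ⟨a, hai, haH⟩ := exists_qpart q f x0 hi
  refine ⟨K, hKc, x0 ^ a, ?_, ?_, hai⟩
  · rw [hKm]
    refine Subgroup.le_normalizer_comap f ?_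
    rw [Subgroup.mem_comap, map_pow]; exact Subgroup.pow_mem _ hxN a
  · rw [hKm]
    intro h
    refine hxC (haH _ (Subgroup.mem_centralizer_iff.2 fun k hk => ?_))
    obtain ⟨k0, rfl⟩ := hfs k
    rw [← map_mul, ← map_mul, Subgroup.mem_centralizer_iff.1 h k0 hk]

/-- A `p`-subgroup of `P` with a `q`-element normalizing but not centralizing it. -/
def Valid (q : ℕ) {G : Type*} [Group G] (P K : Subgroup G) : Prop :=
  K ≤ P ∧ ∃ x ∈ Subgroup.normalizer (K : Set G), x ∉ Subgroup.centralizer (K : Set G) ∧ ∃ i, orderOf x = q ^ i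

theorem inf_normalizer_le_normalizer_sup' {G : Type*} [Group G] {A B : Subgroup G} {g : G}
    (hA : g ∈ Subgroup.normalizer (A : Set G)) (hB : g ∈ Subgroup.normalizer (B : Set G)) :
    g ∈ Subgroup.normalizer ((A ⊔ B : Subgroup G) : Set G) := by
  rw [Subgroup.mem_normalizer_iff_map_conj_eq] at hA hB ⊢
  exact (Subgroup.map_sup _ _ _).trans (congrArg₂ (· ⊔ ·) hA hB)

theorem centralizer_map_mem {A B : Type*} [Group A] [Group B] (f : A →* B) (hf : Function.Injective f)
    {K : Subgroup A} {x : A} : f x ∈ Subgroup.centralizer (K.map f : Set B) → x ∈ Subgroup.centralizer (K : Set A) :=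
  fun h => Subgroup.mem_centralizer_iff.2 fun k hk => hf (by
    rw [map_mul, map_mul, Subgroup.mem_centralizer_iff.1 h _ ⟨k, hk, rfl⟩])

/-- Let p and q be distinct primes with {p, q} ≠ {2, 3}, and let G be a finite group such that for every p-subgroup H of G the automizer N_G(H)/C_G(H) is p-solvable. If q divides the order of N_G(H)/C_G(H) for some p-subgroup H, then a Sylow p-subgroup of G has a normal subgroup K (normal in the Sylow subgroup) such that q divides the order of N_G(K)/C_G(K). -/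
theorem result {G : Type*} [Group G] [Finite G]
    (p q : ℕ) [Fact p.Prime] [Fact q.Prime] (hpq : p ≠ q) (h23 : ¬ ((p = 2 ∧ q = 3) ∨ (p = 3 ∧ q = 2)))
    (hsol : ∀ H : Subgroup G, IsPGroup p ↥H →
      Cfsg.IsPSolvable p (↥(Subgroup.normalizer (H : Set G)) ⧸ (Subgroup.centralizer (H : Set G)).subgroupOf (Subgroup.normalizer (H : Set G))))
    (H : Subgroup G) (hH : IsPGroup p ↥H)
    (hq : q ∣ ((Subgroup.centralizer (H : Set G)).subgroupOf (Subgroup.normalizer (H : Set G))).index)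
    (Gp : Sylow p G) :
    ∃ K : Subgroup G, K ≤ (Gp : Subgroup G) ∧ (Gp : Subgroup G) ≤ Subgroup.normalizer (K : Set G) ∧
      q ∣ ((Subgroup.centralizer (K : Set G)).subgroupOf (Subgroup.normalizer (K : Set G))).index := by
  classical
  have hp : p.Prime := Fact.out
  have hqp : q.Prime := Fact.out
  set P : Subgroup G := (Gp : Subgroup G) with hP
  suffices hmain : ∃ K, Valid q P K ∧ P ≤ Subgroup.normalizer (K : Set G) by
    obtain ⟨K, ⟨hKP, x, hxN, hxC, i, hi⟩, hPK⟩ := hmain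
    refine ⟨K, hKP, hPK, ?_⟩
    set N := Subgroup.normalizer (K : Set G)
    set C := (Subgroup.centralizer (K : Set G)).subgroupOf N
    haveI : C.Normal := Subgroup.normal_subgroupOf_of_le_normalizer
      (CfsgLib.PReduced.normalizer_le_normalizer_centralizer K)
    rw [Subgroup.index_eq_card]
    have h1 : orderOf (QuotientGroup.mk' C ⟨x, hxN⟩) ∣ q ^ i := by
      rw [← hi, ← Subgroup.orderOf_mk x hxN]; exact orderOf_map_dvd _ _
    obtain ⟨j, -, hj⟩ := (Nat.dvd_prime_pow hqp).1 h1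
    have hj0 : j ≠ 0 := by
      rintro rfl
      rw [pow_zero, orderOf_eq_one_iff, QuotientGroup.mk'_apply, QuotientGroup.eq_one_iff] at hj
      exact hxC hj
    exact (dvd_pow_self q hj0).trans (hj ▸ orderOf_dvd_natCard _)
  -- some valid subgroup
  haveI hCn : ((Subgroup.centralizer (H : Set G)).subgroupOf (Subgroup.normalizer (H : Set G))).Normal :=
    Subgroup.normal_subgroupOf_of_le_normalizer (CfsgLib.PReduced.normalizer_le_normalizer_centralizer H)
  obtain ⟨K₀, hK₀⟩ : ∃ K, Valid q P K := by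
    set C := (Subgroup.centralizer (H : Set G)).subgroupOf (Subgroup.normalizer (H : Set G)) with hC
    rw [Subgroup.index_eq_card] at hq
    obtain ⟨yb, hyb⟩ := exists_prime_orderOf_dvd_card' q hq
    obtain ⟨y, rfl⟩ := QuotientGroup.mk'_surjective C yb
    obtain ⟨a, ⟨i, hi⟩, haH⟩ := exists_qpart q (QuotientGroup.mk' C) y (k := 1) (by rw [hyb, pow_one])
    have hne : ((y ^ a : ↥(Subgroup.normalizer (H : Set G))) : G) ∉ Subgroup.centralizer (H : Set G) := by
      intro h
      have h2 := haH ⊥ (Subgroup.mem_bot.2 ((QuotientGroup.eq_one_iff _).2 h))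
      rw [Subgroup.mem_bot] at h2
      rw [h2, orderOf_one] at hyb
      exact hqp.one_lt.ne hyb
    obtain ⟨P', hP'⟩ := hH.exists_le_sylow
    obtain ⟨g, hg⟩ := MulAction.exists_smul_eq G P' Gp
    refine ⟨H.map (MulAut.conj g).toMonoidHom, ?_, MulAut.conj g ((y ^ a : ↥(Subgroup.normalizer (H : Set G))) : G), ?_, ?_, i, ?_⟩
    · rintro _ ⟨h, hh, rfl⟩
      rw [hP, ← hg, Sylow.coe_subgroup_smul]
      exact Subgroup.smul_mem_pointwise_smul h (MulAut.conj g) _ (hP' hh)
    · exact Subgroup.le_normalizer_map _ ⟨_, (y ^ a).2, rfl⟩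
    · exact fun h => hne (centralizer_map_mem _ (MulAut.conj g).injective h)
    · rw [MulEquiv.orderOf_eq, Subgroup.orderOf_coe, hi]
  -- choose a best one
  set n := Nat.card G with hn
  haveI : Nonempty {K // Valid q P K} := ⟨⟨K₀, hK₀⟩⟩
  obtain ⟨⟨K, hK⟩, hmax⟩ := Finite.exists_max (fun K : {K // Valid q P K} =>
    Nat.card ↥(P ⊓ Subgroup.normalizer ((K : Subgroup G) : Set G)) * (n + 1) + Nat.card (K : Subgroup G))
  set T := P ⊓ Subgroup.normalizer (K : Set G) with hT
  have hmax1 : ∀ K', Valid q P K' → Nat.card ↥(P ⊓ Subgroup.normalizer (K' : Set G)) ≤ Nat.card T := by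
    intro K' hK'
    have h : Nat.card ↥(P ⊓ Subgroup.normalizer (K' : Set G)) * (n + 1) + Nat.card K' ≤
      Nat.card T * (n + 1) + Nat.card K := hmax ⟨K', hK'⟩
    have hle : Nat.card K ≤ n := Nat.le_of_dvd Nat.card_pos (Subgroup.card_subgroup_dvd_card K)
    by_contra hlt
    push Not at hlt
    have := Nat.mul_le_mul_right (n + 1) hlt
    rw [Nat.succ_mul] at this
    omega
  refine ⟨K, hK, ?_⟩
  by_contra hnot
  obtain ⟨hKP, x, hxN, hxC, i, hi⟩ := hK
  set L := Subgroup.normalizer (K : Set G) with hL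
  have hKL : K ≤ L := Subgroup.le_normalizer
  have hKT : K ≤ T := le_inf hKP hKL
  have hTL : T ≤ L := inf_le_right
  have hTp : IsPGroup p T := Gp.isPGroup'.to_le inf_le_left
  -- `T` is a Sylow subgroup of `L`
  obtain ⟨TX, hTX⟩ : ∃ TX : Sylow p L, (TX : Subgroup L) = T.subgroupOf L := by
    obtain ⟨T', hT'⟩ := (hTp.of_equiv (Subgroup.subgroupOfEquivOfLe hTL).symm).exists_le_sylow
    refine ⟨T', (Subgroup.eq_of_le_of_card_ge hT' ?_).symm⟩
    set T1 := (T' : Subgroup L).map L.subtype with hT1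
    obtain ⟨P', hP'⟩ := (T'.isPGroup'.map L.subtype).exists_le_sylow
    obtain ⟨g, hg⟩ := MulAction.exists_smul_eq G P' Gp
    have hT1P : T1.map (MulAut.conj g).toMonoidHom ≤ P := by
      rintro _ ⟨h, hh, rfl⟩
      rw [hP, ← hg, Sylow.coe_subgroup_smul]
      exact Subgroup.smul_mem_pointwise_smul h (MulAut.conj g) _ (hP' hh)
    have hKT1 : K ≤ T1 := fun k hk => ⟨⟨k, hKL hk⟩, hT' (Subgroup.mem_subgroupOf.2 (hKT hk)), rfl⟩
    have hv : Valid q P (K.map (MulAut.conj g).toMonoidHom) :=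
      ⟨(Subgroup.map_mono hKT1).trans hT1P, MulAut.conj g x, Subgroup.le_normalizer_map _ ⟨x, hxN, rfl⟩,
        fun h => hxC (centralizer_map_mem _ (MulAut.conj g).injective h), i, by rw [MulEquiv.orderOf_eq, hi]⟩
    have h := (Subgroup.card_le_of_le (le_inf hT1P ((Subgroup.map_mono (Subgroup.map_subtype_le _)).trans
      (Subgroup.le_normalizer_map _)))).trans (hmax1 _ hv)
    rwa [Subgroup.card_map_of_injective (MulAut.conj g).injective, hT1,
      Subgroup.card_map_of_injective L.subtype_injective,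
      ← Nat.card_congr (Subgroup.subgroupOfEquivOfLe hTL).toEquiv] at h
  -- the automizer
  set KX := K.subgroupOf L with hKX
  haveI : KX.Normal := Subgroup.normal_in_normalizer
  set CX := Subgroup.centralizer (KX : Set L) with hCX
  haveI : CX.Normal := Subgroup.normal_centralizer
  have hCXiff : ∀ y : L, y ∈ CX ↔ (y : G) ∈ Subgroup.centralizer (K : Set G) := by
    intro y
    simp only [hCX, Subgroup.mem_centralizer_iff]
    exact ⟨fun h k hk => congrArg Subtype.val (h ⟨k, hKL hk⟩ hk), fun h k hk => Subtype.ext (h _ hk)⟩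
  have hCeq : (Subgroup.centralizer (K : Set G)).subgroupOf L = CX := Subgroup.ext fun y => (hCXiff y).symm
  haveI : ((Subgroup.centralizer (K : Set G)).subgroupOf L).Normal := hCeq ▸ inferInstance
  have hsX : Cfsg.IsPSolvable p (L ⧸ CX) :=
    CfsgLib.PCore.isPSolvable_of_equiv (QuotientGroup.quotientMulEquivOfEq hCeq)
      (hsol K (hTp.to_le hKT))
  have hqX : q ∣ Nat.card (L ⧸ CX) := by
    have h1 : orderOf (QuotientGroup.mk' CX ⟨x, hxN⟩) ∣ q ^ i := by
      rw [← hi, ← Subgroup.orderOf_mk x hxN]; exact orderOf_map_dvd _ _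
    obtain ⟨j, -, hj⟩ := (Nat.dvd_prime_pow hqp).1 h1
    have hj0 : j ≠ 0 := by
      rintro rfl
      rw [pow_zero, orderOf_eq_one_iff, QuotientGroup.mk'_apply, QuotientGroup.eq_one_iff, hCXiff] at hj
      exact hxC hj
    exact (dvd_pow_self q hj0).trans (hj ▸ orderOf_dvd_natCard _)
  obtain ⟨Yb, hTYb, hqYb, hYb⟩ := exists_pq.{_} p q hpq _ (L ⧸ CX) rfl hsX
    (TX.mapSurjective (QuotientGroup.mk'_surjective CX)) hqX
  set Y := Yb.comap (QuotientGroup.mk' CX) with hY
  have hCY : CX ≤ Y := fun y hy => by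
    rw [hY, Subgroup.mem_comap, QuotientGroup.mk'_apply, (QuotientGroup.eq_one_iff y).2 hy]; exact Yb.one_mem
  have hTY : (TX : Subgroup L) ≤ Y := Subgroup.map_le_iff_le_comap.1 hTYb
  -- `C_T(K) ≤ K`
  obtain ⟨PC, hPC⟩ := CfsgLib.PReduced.exists_sylow_inf TX CX
  set D := (TX : Subgroup L) ⊓ CX with hD
  have hDK : D ≤ KX := by
    obtain ⟨yb, hyb⟩ := exists_prime_orderOf_dvd_card' q hqYb
    obtain ⟨y0, hy0⟩ := QuotientGroup.mk'_surjective CX (yb : L ⧸ CX)
    have hfr : Subgroup.normalizer (D : Set L) ⊔ CX = ⊤ := by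
      have h := Sylow.normalizer_sup_eq_top PC
      rwa [hPC, Subgroup.map_subgroupOf_eq_of_le inf_le_right] at h
    obtain ⟨n0, hn0, c, hc, rfl⟩ := Subgroup.mem_sup_of_normal_right.1 (hfr.ge (Subgroup.mem_top y0))
    have hn1 : QuotientGroup.mk' CX n0 = (yb : L ⧸ CX) := by
      rw [← hy0, map_mul, show QuotientGroup.mk' CX c = 1 from (QuotientGroup.eq_one_iff c).2 hc, mul_one]
    obtain ⟨a, ⟨j, hj⟩, haH⟩ := exists_qpart q (QuotientGroup.mk' CX) n0 (k := 1)
      (by rw [hn1, Subgroup.orderOf_coe, hyb, pow_one])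
    have hna : ((n0 ^ a : L) : G) ∉ Subgroup.centralizer (K : Set G) := by
      intro h
      have h2 := haH ⊥ (Subgroup.mem_bot.2 ((QuotientGroup.eq_one_iff _).2 ((hCXiff _).2 h)))
      rw [Subgroup.mem_bot, hn1] at h2
      rw [show yb = 1 from Subtype.ext h2, orderOf_one] at hyb
      exact hqp.one_lt.ne hyb
    set H1 := K ⊔ D.map L.subtype with hH1
    have hDT : D.map L.subtype ≤ T := by
      rintro _ ⟨d, hd, rfl⟩
      exact Subgroup.mem_subgroupOf.1 (hTX ▸ hd.1)
    have hv : Valid q P H1 := by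
      refine ⟨sup_le hKP (hDT.trans inf_le_left), (n0 ^ a : L), ?_, ?_, j, by rw [Subgroup.orderOf_coe, hj]⟩
      · exact inf_normalizer_le_normalizer_sup' (n0 ^ a).2
          (Subgroup.le_normalizer_map L.subtype ⟨n0 ^ a, Subgroup.pow_mem _ hn0 a, rfl⟩)
      · exact fun h => hna ((Subgroup.centralizer_le (show K ≤ H1 from le_sup_left)) h)
    have hTH : T ≤ P ⊓ Subgroup.normalizer (H1 : Set G) := by
      refine le_inf inf_le_left fun t ht => inf_normalizer_le_normalizer_sup' (hTL ht) ?_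
      refine Subgroup.le_normalizer_map L.subtype ⟨⟨t, hTL ht⟩, ?_, rfl⟩
      refine Subgroup.inf_normalizer_le_normalizer_inf ⟨Subgroup.le_normalizer ?_, by
        rw [Subgroup.normalizer_eq_top]; trivial⟩
      rw [hTX]; exact Subgroup.mem_subgroupOf.2 ht
    have h := hmax ⟨H1, hv⟩
    have h' : Nat.card ↥(P ⊓ Subgroup.normalizer (H1 : Set G)) * (n + 1) + Nat.card H1 ≤
      Nat.card T * (n + 1) + Nat.card K := h
    have h1 := Nat.mul_le_mul_right (n + 1) (Subgroup.card_le_of_le hTH)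
    have hEq : K = H1 := Subgroup.eq_of_le_of_card_ge le_sup_left (by omega)
    intro d hd
    exact Subgroup.mem_subgroupOf.2 (hEq.ge (Subgroup.mem_sup_right ⟨d, hd, rfl⟩))
  -- `C(K) = O × Z(K)`
  haveI : (Cfsg.pPrimeCore p CX).Characteristic := CfsgLib.PCore.pPrimeCore_characteristic p _
  set O := (Cfsg.pPrimeCore p CX).map CX.subtype with hO
  haveI hOn : O.Normal := inferInstance
  have hOc : (Nat.card O).Coprime p := by
    rw [hO, Subgroup.card_map_of_injective CX.subtype_injective]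
    exact (CfsgLib.PCore.pPrimeCore_mem p CX).2
  have hdec : ∀ c ∈ CX, ∃ o ∈ O, ∃ d ∈ KX, c = o * d := by
    intro c hc
    have hPz : Subgroup.normalizer ((PC : Subgroup CX) : Set CX) ≤ Subgroup.centralizer ((PC : Subgroup CX) : Set CX) := by
      intro y _
      refine Subgroup.mem_centralizer_iff.2 fun z hz => Subtype.ext ?_
      rw [hPC] at hz
      exact Subgroup.mem_centralizer_iff.1 y.2 (z : L) (hDK (Subgroup.mem_subgroupOf.1 hz))
    have hcompl := MonoidHom.ker_transferSylow_isComplement' PC hPz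
    set N := (MonoidHom.transferSylow PC hPz).ker
    have hN : N ≤ Cfsg.pPrimeCore p CX := CfsgLib.PCore.le_pPrimeCore_of_not_dvd inferInstance
      (CfsgLib.Transfer.not_dvd_card_of_isComplement' hcompl)
    obtain ⟨⟨⟨o, ho⟩, ⟨d, hd⟩⟩, hod⟩ := hcompl.2 ⟨c, hc⟩
    rw [hPC] at hd
    exact ⟨o, ⟨o, hN ho, rfl⟩, d, hDK (Subgroup.mem_subgroupOf.1 hd),
      (congrArg Subtype.val hod).symm⟩
  have hOC : O ≤ CX := Subgroup.map_subtype_le _
  -- the group `Y / O`
  set OY := O.subgroupOf Y with hOY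
  haveI : OY.Normal := Subgroup.normal_subgroupOf
  have hOYc : (Nat.card OY).Coprime p := by
    rw [hOY, Nat.card_congr (Subgroup.subgroupOfEquivOfLe (hOC.trans hCY)).toEquiv]; exact hOc
  set f := QuotientGroup.mk' OY with hf
  have hfs : Function.Surjective f := QuotientGroup.mk'_surjective OY
  set TY := TX.subtype hTY with hTYdef
  set KY := KX.subgroupOf Y with hKY
  have hKYp : IsPGroup p KY := by
    refine TY.isPGroup'.to_le fun k hk => ?_
    show (k : L) ∈ (TX : Subgroup L)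
    rw [hTX]; exact Subgroup.mem_subgroupOf.2 (hKT hk)
  haveI : (KY.map f).Normal := Subgroup.Normal.map Subgroup.normal_subgroupOf f hfs
  have hKR : KY.map f ≤ Cfsg.pCore p (Y ⧸ OY) := CfsgLib.PCore.le_pCore inferInstance (hKYp.map f)
  have hcpM : Subgroup.centralizer (Cfsg.pCore p (Y ⧸ OY) : Set (Y ⧸ OY)) ≤ Cfsg.pCore p (Y ⧸ OY) := by
    intro z hz
    obtain ⟨y, rfl⟩ := hfs z
    have hyC : (y : L) ∈ CX := Subgroup.mem_centralizer_iff.2 fun k hk => by
      have hkY : k ∈ Y := hTY (hTX ▸ Subgroup.mem_subgroupOf.2 (hKT hk))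
      have h1 := Subgroup.mem_centralizer_iff.1 hz (f ⟨k, hkY⟩) (hKR ⟨⟨k, hkY⟩, hk, rfl⟩)
      rw [← map_mul, ← map_mul, ← inv_mul_eq_one, ← map_inv, ← map_mul, hf, QuotientGroup.mk'_apply,
        QuotientGroup.eq_one_iff] at h1
      have h2 : (k * y)⁻¹ * (y * k) ∈ O ⊓ KX := by
        refine ⟨h1, ?_⟩
        have hk1 : (y : L)⁻¹ * k⁻¹ * ((y : L)⁻¹)⁻¹ ∈ KX := (‹KX.Normal›).conj_mem _ (KX.inv_mem hk) _
        have h3 := KX.mul_mem hk1 hk
        rwa [show (y : L)⁻¹ * k⁻¹ * ((y : L)⁻¹)⁻¹ * k = (k * y)⁻¹ * (y * k) by group] at h3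
      rw [inf_comm, CfsgLib.PCore.inf_eq_bot_of_isPGroup_of_coprime
        ((hTp.to_le hKT).of_equiv (Subgroup.subgroupOfEquivOfLe hKL).symm) hOc, Subgroup.mem_bot,
        inv_mul_eq_one] at h2
      exact h2
    obtain ⟨o, ho, d, hd, hod⟩ := hdec y hyC
    have hoY : o ∈ Y := hCY (hOC ho)
    have hdY : d ∈ Y := hTY (hTX ▸ Subgroup.mem_subgroupOf.2 (hKT hd))
    rw [show y = ⟨o, hoY⟩ * ⟨d, hdY⟩ from Subtype.ext hod, map_mul,
      show f ⟨o, hoY⟩ = 1 from (QuotientGroup.eq_one_iff _).2 ho, one_mul]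
    exact hKR ⟨⟨d, hdY⟩, hd, rfl⟩
  -- cardinalities
  have hYcard : Nat.card Y = Nat.card CX * Nat.card Yb := CfsgLib.PCore.card_comap_mk' CX Yb
  obtain ⟨kK, hkK⟩ := IsPGroup.iff_card.1 ((hTp.to_le hKT).of_equiv (Subgroup.subgroupOfEquivOfLe hKL).symm)
  have hCc : Nat.card CX ∣ Nat.card KX * Nat.card O := by
    refine dvd_trans (Subgroup.card_dvd_of_le fun c hc => ?_) (CfsgLib.PCore.card_sup_dvd O KX)
    obtain ⟨o, ho, d, hd, rfl⟩ := hdec c hc
    exact mul_mem (Subgroup.mem_sup_right ho) (Subgroup.mem_sup_left hd)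
  have hMmul : Nat.card (Y ⧸ OY) * Nat.card O = Nat.card Y := by
    rw [Subgroup.card_eq_card_quotient_mul_card_subgroup OY, hOY,
      Nat.card_congr (Subgroup.subgroupOfEquivOfLe (hOC.trans hCY)).toEquiv]
  have hMpr : ∀ r : ℕ, r.Prime → r ∣ Nat.card (Y ⧸ OY) → r = p ∨ r = q := by
    intro r hr hd
    have h1 : Nat.card (Y ⧸ OY) * Nat.card O ∣ (Nat.card KX * Nat.card Yb) * Nat.card O := by
      rw [hMmul, hYcard, mul_right_comm]
      exact Nat.mul_dvd_mul_right hCc _
    have h2 := hd.trans (Nat.dvd_of_mul_dvd_mul_right Nat.card_pos h1)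
    rcases hr.dvd_mul.1 h2 with h | h
    · rw [hkK] at h
      exact Or.inl ((Nat.prime_dvd_prime_iff_eq hr hp).1 (hr.dvd_of_dvd_pow h))
    · exact hYb r hr h
  have hqM : q ∣ Nat.card (Y ⧸ OY) := by
    have h1 : Nat.card CX * q ∣ Nat.card (Y ⧸ OY) * Nat.card O := by
      rw [hMmul, hYcard]; exact Nat.mul_dvd_mul_left _ hqYb
    have h2 : Nat.card O * q ∣ Nat.card (Y ⧸ OY) * Nat.card O :=
      (Nat.mul_dvd_mul_right (Subgroup.card_dvd_of_le hOC) q).trans h1
    rw [mul_comm (Nat.card O)] at h2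
    exact Nat.dvd_of_mul_dvd_mul_right Nat.card_pos h2
  have h3 : p = 2 → ¬ 3 ∣ Nat.card (Y ⧸ OY) := by
    intro h2 hd
    rcases hMpr 3 Nat.prime_three hd with h | h
    · rw [h2] at h; omega
    · exact h23 (Or.inl ⟨h2, h.symm⟩)
  obtain ⟨Kb, hKb, xb, hxbN, hxbC, j, hj⟩ := core p q hpq _ (Y ⧸ OY) rfl h3 hcpM hqM hMpr
    (TY.mapSurjective hfs)
  have hinj : ∀ t ∈ (TY : Subgroup Y), f t = 1 → t = 1 := fun t ht h => by
    rw [hf, QuotientGroup.mk'_apply, QuotientGroup.eq_one_iff] at h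
    rw [← Subgroup.mem_bot, ← CfsgLib.PCore.inf_eq_bot_of_isPGroup_of_coprime TY.isPGroup' hOYc]
    exact ⟨ht, h⟩
  let g : ↥(TY : Subgroup Y) →* ↥((TY : Subgroup Y).map f) := f.subgroupMap (TY : Subgroup Y)
  have hgs : Function.Surjective g := f.subgroupMap_surjective _
  have hTbe : (TY.mapSurjective hfs : Subgroup (Y ⧸ OY)) = (TY : Subgroup Y).map f := Sylow.coe_mapSurjective hfs TY
  set Kb' : Subgroup ↥((TY : Subgroup Y).map f) := Kb.map (MulEquiv.subgroupCongr hTbe).toMonoidHom with hKb'def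
  have hKbm : Kb'.map ((TY : Subgroup Y).map f).subtype = Kb.map (TY.mapSurjective hfs : Subgroup (Y ⧸ OY)).subtype := by
    rw [hKb'def, Subgroup.map_map]; rfl
  set K1 := Kb'.comap g with hK1def
  have hK1c : K1.Characteristic := char_comap_surjective g hgs (fun φ t ht => by
    have h1 : t = 1 := Subtype.ext (hinj _ t.2 (congrArg Subtype.val ht))
    rw [h1, map_one, map_one]) (char_map_equiv _ hKb)
  set K1m := K1.map (TY : Subgroup Y).subtype with hK1m
  have himg : K1m.map f = Kb'.map ((TY : Subgroup Y).map f).subtype := by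
    conv_rhs => rw [← Subgroup.map_comap_eq_self_of_surjective hgs Kb']
    rw [hK1m, Subgroup.map_map, Subgroup.map_map]; rfl
  rw [← hKbm, ← himg] at hxbN hxbC
  obtain ⟨n1, hn1N, hn1⟩ := CfsgLib.ConjFunctor.OmegaClosure.exists_lift_normalizer hOYc
    (TY.isPGroup'.to_le (Subgroup.map_subtype_le K1)) hxbN
  obtain ⟨a, ⟨j', hj'⟩, haH⟩ := exists_qpart q f n1 (k := j) (by rw [← hj, ← hn1])
  have hn1C : n1 ^ a ∉ Subgroup.centralizer (K1m : Set Y) := by
    intro h
    apply hxbC
    rw [← hn1]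
    refine haH _ (Subgroup.mem_centralizer_iff.2 ?_)
    rintro _ ⟨k, hk, rfl⟩
    rw [← map_mul, ← map_mul, Subgroup.mem_centralizer_iff.1 h k hk]
  -- back in `G`
  set ι : ↥Y →* G := L.subtype.comp Y.subtype with hι
  have hιi : Function.Injective ι := L.subtype_injective.comp Y.subtype_injective
  have hTι : (TY : Subgroup Y).map ι = T := by
    ext t
    constructor
    · rintro ⟨y, hy, rfl⟩
      exact Subgroup.mem_subgroupOf.1 (hTX ▸ (hy : (y : L) ∈ (TX : Subgroup L)))
    · intro ht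
      have h1 : (⟨t, hTL ht⟩ : L) ∈ (TX : Subgroup L) := hTX ▸ Subgroup.mem_subgroupOf.2 ht
      exact ⟨⟨_, hTY h1⟩, h1, rfl⟩
  set KG := K1m.map ι with hKG
  have hv : Valid q P KG := by
    refine ⟨?_, ι (n1 ^ a), Subgroup.le_normalizer_map ι ⟨_, Subgroup.pow_mem _ hn1N a, rfl⟩,
      fun h => hn1C (centralizer_map_mem ι hιi h), j', by rw [orderOf_injective ι hιi, hj']⟩
    exact (Subgroup.map_mono (Subgroup.map_subtype_le K1)).trans (hTι.le.trans inf_le_left)
  -- the normalizer of `T` in `P`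
  let e : ↥(TY : Subgroup Y) ≃* ↥((TY : Subgroup Y).map ι) := Subgroup.equivMapOfInjective _ ι hιi
  haveI hec : (K1.map e.toMonoidHom).Characteristic := char_map_equiv e hK1c
  have hKGe : KG = (K1.map e.toMonoidHom).map ((TY : Subgroup Y).map ι).subtype := by
    rw [hKG, hK1m, Subgroup.map_map, Subgroup.map_map]; rfl
  have hNT : Subgroup.normalizer (T : Set G) ≤ Subgroup.normalizer (KG : Set G) := by
    intro t ht
    rw [← hTι] at ht
    let φ := ((TY : Subgroup Y).map ι).normalizerMonoidHom ⟨t, ht⟩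
    have hφ := (Subgroup.characteristic_iff_map_eq.1 hec) φ
    rw [hKGe, Subgroup.mem_normalizer_iff_map_conj_eq]
    conv_rhs => rw [← hφ]
    simp only [Subgroup.map_map]
    rfl
  obtain ⟨t, htP, htN, htT⟩ : ∃ t ∈ P, t ∈ Subgroup.normalizer (T : Set G) ∧ t ∉ T := by
    have hne : T.subgroupOf P ≠ ⊤ := fun h => hnot (by
      rw [Subgroup.subgroupOf_eq_top] at h
      exact h.trans inf_le_right)
    haveI : Group.IsNilpotent P := Gp.isPGroup'.isNilpotent
    obtain ⟨t, htN, htT⟩ := SetLike.exists_of_lt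
      (normalizerCondition_of_isNilpotent (T.subgroupOf P) (lt_top_iff_ne_top.2 hne))
    refine ⟨t, t.2, ?_, fun h => htT (Subgroup.mem_subgroupOf.2 h)⟩
    have := Subgroup.le_normalizer_map P.subtype ⟨t, htN, rfl⟩
    rwa [Subgroup.map_subgroupOf_eq_of_le inf_le_left] at this
  have hlt : T < P ⊓ Subgroup.normalizer (KG : Set G) := by
    refine lt_of_le_of_ne (le_inf inf_le_left ((Subgroup.le_normalizer).trans hNT)) fun he => htT ?_
    rw [he]
    exact ⟨htP, hNT htN⟩
  exact hlt.ne (Subgroup.eq_of_le_of_card_ge hlt.le (hmax1 _ hv))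

end Cfsg.Agent.S4411
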