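import Cfsg.Statements.S5432
import Cfsg.Agent.ExtraQuad.Out
import Cfsg.Agent.Forms.EvenType

set_option autoImplicit false
open Cfsg

namespace Cfsg.Agent.S5432

/-- Let E be an extraspecial 2-group of order 2^(2n+1), n ≥ 1. If E contains an elementary abelian subgroup of order 2^(n+1) (plus type), then its outer automorphism group is isomorphic to the full isometry group of the hyperbolic quadratic form in dimension 2n over the field with two elements; otherwise (minus type) it is isomorphic to the full isometry group of the elliptic quadratic form in dimension 2n over that field. -/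
theorem result {E : Type*} [Group E] [Finite E] (hE : Cfsg.IsExtraspecial 2 E) (n : ℕ) (hn : 1 ≤ n) (hcard : Nat.card E = 2 ^ (2 * n + 1)) : ((∃ A : Subgroup E, Cfsg.IsElementaryAbelian 2 A ∧ Nat.card ↥A = 2 ^ (n + 1)) → Nonempty (Cfsg.Out E ≃* Cfsg.isometryGroup (ZMod 2) (Cfsg.quadFormPlus n (ZMod 2)))) ∧ ((¬ ∃ A : Subgroup E, Cfsg.IsElementaryAbelian 2 A ∧ Nat.card ↥A = 2 ^ (n + 1)) → Nonempty (Cfsg.Out E ≃* Cfsg.isometryGroup (ZMod 2) (Cfsg.quadFormMinus (n - 1) (ZMod 2) 1 1))) := by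
  classical
  haveI : Fact (Nat.Prime 2) := ⟨Nat.prime_two⟩
  obtain ⟨z, e⟩ := CfsgLib.ExtraAut.exists_data hE
  obtain ⟨P, -⟩ := CfsgLib.ExtraQuad.exists_coord e hcard
  obtain ⟨Q, hsq, hbr, hQ⟩ := CfsgLib.ExtraQuad.exists_form e P
  have hV : Module.finrank (ZMod 2) (Fin (2 * n) → ZMod 2) = 2 * n := Module.finrank_fin_fun _
  constructor
  · rintro ⟨A, ⟨hAc, hA2⟩, hAcard⟩
    obtain ⟨S, hS⟩ : ∃ S : Submodule (ZMod 2) (Fin (2 * n) → ZMod 2), ∀ v, v ∈ S ↔ ∃ x ∈ A, P.π x = v := by
      let K : AddSubgroup (Fin (2 * n) → ZMod 2) :=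
        { carrier := {v | ∃ x ∈ A, P.π x = v}
          zero_mem' := ⟨1, one_mem A, P.map_one⟩
          add_mem' := by rintro _ _ ⟨x, hx, rfl⟩ ⟨y, hy, rfl⟩; exact ⟨x * y, mul_mem hx hy, P.map_mul x y⟩
          neg_mem' := by rintro _ ⟨x, hx, rfl⟩; exact ⟨x⁻¹, inv_mem hx, P.map_inv x⟩ }
      exact ⟨AddSubgroup.toZModSubmodule 2 K, fun v => Iff.rfl⟩
    have hSd : n ≤ Module.finrank (ZMod 2) S := by
      have h : Nat.card A ≤ Nat.card (S × ZMod 2) := by
        choose g hg using fun x : A => P.exists_eps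
          (show P.π (Function.surjInv P.surj (P.π x.1)) = P.π x.1 from Function.surjInv_eq P.surj _)
        refine Nat.card_le_card_of_injective (fun x => (⟨P.π x.1, (hS _).2 ⟨x, x.2, rfl⟩⟩, g x)) fun x y h => ?_
        simp only [Prod.mk.injEq, Subtype.mk.injEq] at h
        exact Subtype.ext (by rw [hg x, hg y, h.1, h.2])
      rw [hAcard, Nat.card_prod, Module.natCard_eq_pow_finrank (K := ZMod 2) (V := S), Nat.card_zmod, ← pow_succ,
        Nat.pow_le_pow_iff_right (le_refl 2)] at h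
      omega
    obtain ⟨g, hg⟩ := CfsgLib.Forms.exists_isometry_plus hn hV hQ S (fun v hv => by
      obtain ⟨x, hx, rfl⟩ := (hS v).1 hv
      exact CfsgLib.ExtraQuad.eps_injective e (by rw [← hsq, ← pow_two, hA2 x hx, CfsgLib.ExtraQuad.eps_zero])) hSd
    have hpol : ∀ u v, QuadraticMap.polar (CfsgLib.Forms.quadPlus (ZMod 2) n) (g u) (g v) = QuadraticMap.polar Q u v :=
      fun u v => by simp only [QuadraticMap.polar, ← map_add, CfsgLib.Forms.coe_quadPlus, hg]
    have h := CfsgLib.ExtraQuad.nonempty_out e (P.trans g) (CfsgLib.Forms.quadPlus (ZMod 2) n)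
      (fun x => by
        show _ = CfsgLib.ExtraQuad.eps z (CfsgLib.Forms.quadPlus (ZMod 2) n (g (P.π x)))
        rw [CfsgLib.Forms.coe_quadPlus, hg, ← hsq])
      (fun x y => by
        show _ = _ * CfsgLib.ExtraQuad.eps z (QuadraticMap.polar _ (g (P.π x)) (g (P.π y)))
        rw [hpol, ← hbr])
      (CfsgLib.Forms.nondegenerate_quadPlus n)
    rwa [CfsgLib.Forms.coe_quadPlus] at h
  · intro hno
    have hab : ∀ z₁ z₂ : ZMod 2, z₁ ^ 2 + 1 * z₁ * z₂ + 1 * z₂ ^ 2 = 0 → z₁ = 0 ∧ z₂ = 0 := by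
      intro z₁ z₂
      rcases CfsgLib.ExtraQuad.z2 z₁ with rfl | rfl <;> rcases CfsgLib.ExtraQuad.z2 z₂ with rfl | rfl <;>
        simp [show (1 : ZMod 2) + 1 = 0 from rfl]
    have hS : ¬ ∃ S : Submodule (ZMod 2) (Fin (2 * n) → ZMod 2), (∀ v ∈ S, Q v = 0) ∧ n ≤ Module.finrank (ZMod 2) S := by
      rintro ⟨S, hS0, hSd⟩
      apply hno
      let A : Subgroup E :=
        { carrier := {x | P.π x ∈ S}
          one_mem' := by show P.π 1 ∈ S; rw [P.map_one]; exact S.zero_mem
          mul_mem' := fun {x y} hx hy => by show P.π _ ∈ S; rw [P.map_mul]; exact S.add_mem hx hy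
          inv_mem' := fun {x} hx => by show P.π _ ∈ S; rw [P.map_inv]; exact S.neg_mem hx }
      have hA2 : ∀ a ∈ A, a ^ 2 = 1 := fun a ha => by rw [pow_two, hsq, hS0 _ ha, CfsgLib.ExtraQuad.eps_zero]
      have hAel : Cfsg.IsElementaryAbelian 2 A := by
        refine ⟨⟨⟨fun a b => Subtype.ext ?_⟩⟩, hA2⟩
        show a.1 * b.1 = b.1 * a.1
        rw [hbr, show QuadraticMap.polar Q (P.π a.1) (P.π b.1) = 0 by
          rw [QuadraticMap.polar, hS0 _ (S.add_mem a.2 b.2), hS0 _ a.2, hS0 _ b.2]; simp,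
          CfsgLib.ExtraQuad.eps_zero, mul_one]
      have hle : 2 ^ (n + 1) ≤ Nat.card A := by
        choose s hs using P.surj
        calc 2 ^ (n + 1) ≤ 2 ^ (Module.finrank (ZMod 2) S + 1) := Nat.pow_le_pow_right two_pos (by omega)
          _ = Nat.card (S × ZMod 2) := by
            rw [Nat.card_prod, Module.natCard_eq_pow_finrank (K := ZMod 2) (V := S), Nat.card_zmod, ← pow_succ]
          _ ≤ Nat.card A := by
            refine Nat.card_le_card_of_injective (fun p => (⟨s p.1.1 * CfsgLib.ExtraQuad.eps z p.2, ?_⟩ : A)) fun p p' h => ?_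
            · show P.π _ ∈ S
              rw [P.map_mul, P.map_eps, add_zero, hs]; exact p.1.2
            · have h1 := congrArg Subtype.val h
              have h2 := congrArg P.π h1
              rw [P.map_mul, P.map_mul, P.map_eps, P.map_eps, add_zero, add_zero, hs, hs] at h2
              simp only [h2, mul_right_inj] at h1
              exact Prod.ext (Subtype.ext h2) (CfsgLib.ExtraQuad.eps_injective e h1)
      haveI := hAel.1
      have hub := CfsgLib.Extraspecial.card_abelian_sq_le hE hAel.1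
      rw [hcard, ← pow_succ', show 2 * n + 1 + 1 = (n + 1) + (n + 1) by ring, pow_add] at hub
      exact ⟨A, hAel, le_antisymm (Nat.mul_self_le_mul_self_iff.1 hub) hle⟩
    obtain ⟨g, hg⟩ := CfsgLib.Forms.exists_isometry_minus hn hV hQ hS hab
    have hpol : ∀ u v, QuadraticMap.polar (CfsgLib.Forms.quadMinus (ZMod 2) (n - 1) 1 1) (g u) (g v) = QuadraticMap.polar Q u v :=
      fun u v => by simp only [QuadraticMap.polar, ← map_add, CfsgLib.Forms.coe_quadMinus, hg]
    have h := CfsgLib.ExtraQuad.nonempty_out e (P.trans g) (CfsgLib.Forms.quadMinus (ZMod 2) (n - 1) 1 1)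
      (fun x => by
        show _ = CfsgLib.ExtraQuad.eps z (CfsgLib.Forms.quadMinus (ZMod 2) (n - 1) 1 1 (g (P.π x)))
        rw [CfsgLib.Forms.coe_quadMinus, hg, ← hsq])
      (fun x y => by
        show _ = _ * CfsgLib.ExtraQuad.eps z (QuadraticMap.polar _ (g (P.π x)) (g (P.π y)))
        rw [hpol, ← hbr])
      (CfsgLib.Forms.nondegenerate_quadMinus (n - 1) hab)
    rwa [CfsgLib.Forms.coe_quadMinus] at h

end Cfsg.Agent.S5432
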