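import Cfsg.Statements.S4413
import Cfsg.Agent.S5432
import Cfsg.Agent.OrthOrder.Orders

set_option autoImplicit false
open Cfsg

namespace Cfsg.Agent.S4413

abbrev O4 := Cfsg.isometryGroup (ZMod 2) (Cfsg.quadFormMinus 1 (ZMod 2) 1 1)

abbrev W4 := (Fin 1 ⊕ Fin 1) ⊕ Fin 2 → ZMod 2

abbrev Pts := {v : W4 // v ≠ 0 ∧ Cfsg.quadFormMinus 1 (ZMod 2) 1 1 v = 0}

theorem card_pts : Fintype.card Pts = 5 := by decide +kernel

def pa : W4 := Sum.elim (Sum.elim ![1] ![0]) ![0, 0]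
def pb : W4 := Sum.elim (Sum.elim ![0] ![1]) ![0, 0]
def pc : W4 := Sum.elim (Sum.elim ![1] ![1]) ![1, 0]
def pd : W4 := Sum.elim (Sum.elim ![1] ![1]) ![0, 1]

theorem pts_spec : (pa ≠ 0 ∧ Cfsg.quadFormMinus 1 (ZMod 2) 1 1 pa = 0) ∧ (pb ≠ 0 ∧ Cfsg.quadFormMinus 1 (ZMod 2) 1 1 pb = 0) ∧
    (pc ≠ 0 ∧ Cfsg.quadFormMinus 1 (ZMod 2) 1 1 pc = 0) ∧ (pd ≠ 0 ∧ Cfsg.quadFormMinus 1 (ZMod 2) 1 1 pd = 0) := by
  decide +kernel

theorem span_pts : ∀ i, (Pi.single i 1 : W4) = pa ∨ (Pi.single i 1 : W4) = pb ∨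
    (Pi.single i 1 : W4) = pa + (pb + pc) ∨ (Pi.single i 1 : W4) = pa + (pb + pd) := by
  decide +kernel

theorem anis : ∀ z₁ z₂ : ZMod 2, z₁ ^ 2 + 1 * z₁ * z₂ + 1 * z₂ ^ 2 = 0 → z₁ = 0 ∧ z₂ = 0 := by decide

open Matrix in
theorem equiv_perm_five : Nonempty (O4 ≃* Equiv.Perm (Fin 5)) := by
  classical
  have hmem : ∀ g : O4, ∀ v : W4, v ≠ 0 ∧ Cfsg.quadFormMinus 1 (ZMod 2) 1 1 v = 0 →
      (g : GL ((Fin 1 ⊕ Fin 1) ⊕ Fin 2) (ZMod 2)).1 *ᵥ v ≠ 0 ∧
        Cfsg.quadFormMinus 1 (ZMod 2) 1 1 ((g : GL ((Fin 1 ⊕ Fin 1) ⊕ Fin 2) (ZMod 2)).1 *ᵥ v) = 0 := fun g v hv =>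
    ⟨fun h => hv.1 (Matrix.mulVec_injective_iff_isUnit.2 (g : GL ((Fin 1 ⊕ Fin 1) ⊕ Fin 2) (ZMod 2)).isUnit
      (by rw [h, Matrix.mulVec_zero])), by rw [CfsgLib.Forms.mem_isometryGroup.1 g.2]; exact hv.2⟩
  letI : MulAction O4 Pts :=
    { smul := fun g v => ⟨_, hmem g v.1 v.2⟩
      one_smul := fun v => Subtype.ext (Matrix.one_mulVec v.1)
      mul_smul := fun g h v => Subtype.ext (Matrix.mulVec_mulVec v.1 _ _).symm }
  let φ : O4 →* Equiv.Perm Pts := MulAction.toPermHom O4 Pts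
  have hinj : Function.Injective φ := by
    rw [injective_iff_map_eq_one]
    intro g hg
    have hf : ∀ v : W4, v ≠ 0 ∧ Cfsg.quadFormMinus 1 (ZMod 2) 1 1 v = 0 →
        (g : GL ((Fin 1 ⊕ Fin 1) ⊕ Fin 2) (ZMod 2)).1 *ᵥ v = v := fun v hv =>
      congrArg Subtype.val (DFunLike.congr_fun hg (⟨v, hv⟩ : Pts))
    refine Subtype.ext (Units.ext (Matrix.ext_of_mulVec_single fun i => ?_))
    obtain ⟨ha, hb, hc, hd⟩ := pts_spec
    rw [OneMemClass.coe_one, Units.val_one, Matrix.one_mulVec]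
    rcases span_pts i with e | e | e | e <;> rw [e] <;>
      simp only [Matrix.mulVec_add, hf _ ha, hf _ hb, hf _ hc, hf _ hd]
  have hcard : Nat.card O4 = Nat.card (Equiv.Perm Pts) := by
    rw [Nat.card_perm, show Nat.card Pts = 5 from Nat.card_eq_fintype_card.trans card_pts,
      CfsgLib.OrthOrder.natCard_isometryGroup (CfsgLib.Forms.quadMinus (ZMod 2) 1 1 1) (CfsgLib.Forms.coe_quadMinus (ZMod 2) 1 1 1),
      CfsgLib.OrthOrder.card_isom_minus anis 1]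
    simp
    rfl
  exact ⟨(MulEquiv.ofBijective φ ((Nat.bijective_iff_injective_and_card _).2 ⟨hinj, hcard⟩)).trans
    (Fintype.equivFinOfCardEq card_pts).permCongrHom⟩

/-- Let P be an extraspecial 2-group of order 32 with no elementary abelian subgroup of order 8 (the central product of a dihedral and a quaternion group of order 8). Then the inner automorphism group of P has order 16 and the outer automorphism group Aut(P)/Inn(P) is isomorphic to the symmetric group of degree 5; in particular Aut(P) has order 1920. -/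
theorem result {P : Type*} [Group P] [Finite P]
    (hex : Cfsg.IsExtraspecial 2 P) (h32 : Nat.card P = 32)
    (hminus : ∀ A : Subgroup P, Cfsg.IsElementaryAbelian 2 A → Nat.card ↥A ≤ 4)
    [(MulAut.conj : P →* MulAut P).range.Normal] :
    Nat.card ↥(MulAut.conj : P →* MulAut P).range = 16 ∧ Nat.card (MulAut P) = 1920 ∧
      Nonempty ((MulAut P ⧸ (MulAut.conj : P →* MulAut P).range) ≃* Equiv.Perm (Fin 5)) := by
  classical
  haveI : Fact (Nat.Prime 2) := ⟨Nat.prime_two⟩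
  have hker : (MulAut.conj : P →* MulAut P).ker = Subgroup.center P := by
    ext x
    rw [MonoidHom.mem_ker, Subgroup.mem_center_iff, MulEquiv.ext_iff]
    refine forall_congr' fun y => ?_
    rw [MulAut.conj_apply, MulAut.one_apply, mul_inv_eq_iff_eq_mul, eq_comm]
  have hI : Nat.card ↥(MulAut.conj : P →* MulAut P).range = 16 := by
    have h := Subgroup.card_mul_index (MulAut.conj : P →* MulAut P).ker
    rw [Subgroup.index_ker, hker, hex.2, h32] at h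
    omega
  obtain ⟨e₁⟩ := (Cfsg.Agent.S5432.result hex 2 (by norm_num) (by rw [h32]; norm_num)).2 (fun ⟨A, hA, hc⟩ => by
    have := hminus A hA
    rw [hc] at this
    norm_num at this)
  obtain ⟨e₂⟩ := equiv_perm_five
  have e : (MulAut P ⧸ (MulAut.conj : P →* MulAut P).range) ≃* Equiv.Perm (Fin 5) := e₁.trans e₂
  refine ⟨hI, ?_, ⟨e⟩⟩
  rw [Subgroup.card_eq_card_quotient_mul_card_subgroup (MulAut.conj : P →* MulAut P).range, hI, Nat.card_congr e.toEquiv,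
    Nat.card_perm, Nat.card_fin]
  rfl

end Cfsg.Agent.S4413
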