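import Cfsg.Statements.S4414
import Cfsg.Agent.FixedByTwo.Main
-- import your own Cfsg.Agent.* helpers here

set_option autoImplicit false
open Cfsg

namespace Cfsg.Agent.S4414

/-- Let S be a finite solvable group whose order is divisible only by the primes 2, p, q (p, q distinct odd primes), with a Sylow system S₂, S_p, S_q (pairwise permutable Sylow subgroups) such that: S_p is a minimal normal subgroup of S of order p or p²; S_q has order q and [S_p, S_q] = S_p; and O₂(S) = 1. Let E be an irreducible module for S over the field with two elements on which S_p acts faithfully, and E₀ the subspace of fixed points of S₂. Then either E₀ has at least 8 elements, or E₀ has exactly 4 elements and S_q does not leave E₀ invariant. -/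
theorem result {S : Type*} [Group S] [Finite S]
    [Group.IsSolvable S] (p q : ℕ) (hp : p.Prime) (hq : q.Prime) (hp2 : p ≠ 2) (hq2 : q ≠ 2) (hpq : p ≠ q)
    (hπ : ∀ r : ℕ, r.Prime → r ∣ Nat.card S → r = 2 ∨ r = p ∨ r = q)
    (S₂ : Sylow 2 S) (Sp : Sylow p S) (Sq : Sylow q S)
    (h2q : Nat.card ↥((S₂ : Subgroup S) ⊔ (Sq : Subgroup S)) = Nat.card ↥S₂ * Nat.card ↥Sq)
    (h2p : Nat.card ↥((S₂ : Subgroup S) ⊔ (Sp : Subgroup S)) = Nat.card ↥S₂ * Nat.card ↥Sp)
    (hpq' : Nat.card ↥((Sp : Subgroup S) ⊔ (Sq : Subgroup S)) = Nat.card ↥Sp * Nat.card ↥Sq)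
    (hSpN : (Sp : Subgroup S).Normal) (hSpmin : ∀ N : Subgroup S, N.Normal → N ≤ (Sp : Subgroup S) → N = ⊥ ∨ N = (Sp : Subgroup S))
    (hSpcard : Nat.card ↥Sp = p ∨ Nat.card ↥Sp = p ^ 2)
    (hSq : Nat.card ↥Sq = q) (hcomm : ⁅(Sp : Subgroup S), (Sq : Subgroup S)⁆ = (Sp : Subgroup S))
    (hO2 : Cfsg.pCore 2 S = ⊥)
    {E : Type*} [AddCommGroup E] [Module (ZMod 2) E] [Finite E] (ρ : Representation (ZMod 2) S E) (hE : Nontrivial E)
    (hirr : ∀ N : Submodule (ZMod 2) E, (∀ s : S, ∀ m ∈ N, ρ s m ∈ N) → N = ⊥ ∨ N = ⊤)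
    (hfaith : ∀ x ∈ (Sp : Subgroup S), ρ x = 1 → x = 1) :
    8 ≤ Nat.card {v : E // ∀ s ∈ (S₂ : Subgroup S), ρ s v = v} ∨
      (Nat.card {v : E // ∀ s ∈ (S₂ : Subgroup S), ρ s v = v} = 4 ∧
        ∃ x ∈ (Sq : Subgroup S), ∃ v : E, (∀ s ∈ (S₂ : Subgroup S), ρ s v = v) ∧ ¬ ∀ s ∈ (S₂ : Subgroup S), ρ s (ρ x v) = ρ x v) := by
  haveI := Fact.mk hp
  haveI := Fact.mk hq
  haveI := hSpN
  replace hSpcard : Nat.card ↥(Sp : Subgroup S) = p ∨ Nat.card ↥(Sp : Subgroup S) = p ^ 2 := hSpcard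
  have hP1 : (Sp : Subgroup S) ≠ ⊥ := fun h => by
    rw [Subgroup.eq_bot_iff_card] at h
    rcases hSpcard with h' | h' <;> rw [h] at h'
    · exact hp.one_lt.ne h'
    · exact (Nat.one_lt_pow two_ne_zero hp.one_lt).ne h'
  have hab : ∀ a ∈ (Sp : Subgroup S), ∀ b ∈ (Sp : Subgroup S), a * b = b * a := by
    intro a ha b hb
    rcases hSpcard with h | h
    · haveI := isCyclic_of_prime_card h
      exact congrArg Subtype.val (IsCyclic.commGroup.mul_comm (⟨a, ha⟩ : ↥(Sp : Subgroup S)) ⟨b, hb⟩)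
    · exact congrArg Subtype.val
        (IsPGroup.commutative_of_card_eq_prime_sq h (⟨a, ha⟩ : ↥(Sp : Subgroup S)) ⟨b, hb⟩)
  have hodd : Odd (Nat.card ↥(Sp : Subgroup S)) := by
    rcases hSpcard with h | h <;> rw [h]
    · exact hp.odd_of_ne_two hp2
    · exact (hp.odd_of_ne_two hp2).pow
  refine CfsgLib.FixedByTwo.eight_le_or ρ (Sp : Subgroup S) hq hq2 hab hodd S₂ Sq hSq ?_ hP1 hcomm hE hirr hfaith
  intro H hP h2 hQ
  refine Subgroup.index_eq_one.1 ?_
  by_contra hne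
  obtain ⟨r, hr, hrH⟩ := Nat.exists_prime_and_dvd hne
  haveI := Fact.mk hr
  rcases hπ r hr (hrH.trans (Subgroup.index_dvd_card H)) with rfl | rfl | rfl
  · exact S₂.not_dvd_index (hrH.trans (Subgroup.index_dvd_of_le h2))
  · exact Sp.not_dvd_index (hrH.trans (Subgroup.index_dvd_of_le hP))
  · exact Sq.not_dvd_index (hrH.trans (Subgroup.index_dvd_of_le hQ))

end Cfsg.Agent.S4414
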