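import Cfsg.Statements.S4420
-- import your own Cfsg.Agent.* helpers here

set_option autoImplicit false
open Cfsg

namespace Cfsg.Agent.S4420

/-- Structure of groups in which every element outside some proper subgroup has square 1. Let H be a finite group with a proper subgroup A such that every element outside A has square 1. Then H has an abelian normal subgroup B of index 2 such that every element outside B is an involution inverting every element of B; and if H is not an elementary abelian 2-group, B is the only abelian normal subgroup of index 2 with this property. -/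
theorem result {H : Type*} [Group H] [Finite H] (A : Subgroup H) (hA : A ≠ ⊤) (hD : ∀ x : H, x ∉ A → x ^ 2 = 1) :
    ∃ B : Subgroup H, B.Normal ∧ IsMulCommutative ↥B ∧ B.index = 2 ∧
      (∀ x : H, x ∉ B → x ^ 2 = 1 ∧ ∀ b ∈ B, x * b * x⁻¹ = b⁻¹) ∧
      (¬ (IsMulCommutative H ∧ ∀ x : H, x ^ 2 = 1) →
        ∀ B' : Subgroup H, B'.Normal → IsMulCommutative ↥B' → B'.index = 2 →
          (∀ x : H, x ∉ B' → x ^ 2 = 1 ∧ ∀ b ∈ B', x * b * x⁻¹ = b⁻¹) → B' = B) := by
  classical
  have hinv : ∀ x : H, x ∉ A → ∀ a ∈ A, x * a * x⁻¹ = a⁻¹ := by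
    intro x hx a ha
    have h1 : x * a ∉ A := fun h => hx (by simpa using A.mul_mem h (A.inv_mem ha))
    have h2 := hD _ h1
    rw [pow_two] at h2
    have h3 : x⁻¹ = x := inv_eq_of_mul_eq_one_right (by simpa [pow_two] using hD x hx)
    rw [h3, eq_inv_iff_mul_eq_one]
    simpa [mul_assoc] using h2
  by_cases hel : ∀ x : H, x ^ 2 = 1
  · have hcomm : ∀ a b : H, a * b = b * a := by
      intro a b
      have hi : ∀ c : H, c⁻¹ = c := fun c => inv_eq_of_mul_eq_one_right (by simpa [pow_two] using hel c)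
      calc a * b = (a * b)⁻¹ := (hi _).symm
        _ = b⁻¹ * a⁻¹ := mul_inv_rev a b
        _ = b * a := by rw [hi, hi]
    haveI : Nontrivial H := by
      by_contra hn
      rw [not_nontrivial_iff_subsingleton] at hn
      exact hA (Subsingleton.elim _ _)
    haveI : Fact (Nat.Prime 2) := ⟨Nat.prime_two⟩
    have hp2 : IsPGroup 2 H := fun x => ⟨1, by simpa using hel x⟩
    obtain ⟨k, hk⟩ := IsPGroup.iff_card.1 hp2
    have hk1 : 1 ≤ k := by
      rcases Nat.eq_zero_or_pos k with rfl | h
      · have := Finite.one_lt_card (α := H); simp at hk; omega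
      · exact h
    obtain ⟨B, hB⟩ := Sylow.exists_subgroup_card_pow_prime 2
      (show 2 ^ (k - 1) ∣ Nat.card H by rw [hk]; exact pow_dvd_pow 2 (by omega))
    refine ⟨B, ⟨fun x hx y => by rw [hcomm y x, mul_inv_cancel_right]; exact hx⟩, ⟨⟨fun a b => Subtype.ext (hcomm _ _)⟩⟩, ?_, ?_, ?_⟩
    · have := B.card_mul_index
      rw [hB, hk, show k = k - 1 + 1 by omega, pow_succ, Nat.add_sub_cancel] at this
      exact Nat.eq_of_mul_eq_mul_left (by positivity) this
    · intro x _
      refine ⟨hel x, fun b _ => ?_⟩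
      rw [hcomm x b, mul_inv_cancel_right]
      exact (inv_eq_of_mul_eq_one_right (by simpa [pow_two] using hel b)).symm
    · intro hne
      exact absurd ⟨⟨⟨hcomm⟩⟩, hel⟩ hne
  · push Not at hel
    obtain ⟨a₀, ha₀⟩ := hel
    have ha₀A : a₀ ∈ A := by by_contra h; exact ha₀ (hD a₀ h)
    have hidx : A.index = 2 := by
      rw [Subgroup.index_eq_two_iff]
      obtain ⟨c, -, hc⟩ := SetLike.exists_of_lt (lt_top_iff_ne_top.2 hA)
      refine ⟨c, fun b => ?_⟩
      by_cases hb : b ∈ A
      · exact Or.inr ⟨hb, fun h => hc (by simpa using A.mul_mem (A.inv_mem hb) h)⟩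
      · refine Or.inl ⟨?_, hb⟩
        by_contra hbc
        apply ha₀
        have e1 := hinv c hc a₀ ha₀A
        have e2 := hinv b hb a₀⁻¹ (A.inv_mem ha₀A)
        have e3 := hinv _ hbc a₀ ha₀A
        rw [inv_inv] at e2
        have : b * c * a₀ * (b * c)⁻¹ = a₀ := by
          calc b * c * a₀ * (b * c)⁻¹ = b * (c * a₀ * c⁻¹) * b⁻¹ := by group
            _ = a₀ := by rw [e1, e2]
        rw [this] at e3
        rw [pow_two]
        exact eq_inv_iff_mul_eq_one.1 e3
    haveI hAn : A.Normal := Subgroup.normal_of_index_eq_two hidx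
    obtain ⟨c, -, hc⟩ := SetLike.exists_of_lt (lt_top_iff_ne_top.2 hA)
    have hAc : IsMulCommutative A := ⟨⟨fun a b => Subtype.ext (by
      have e := hinv c hc _ (A.mul_mem a.2 b.2)
      have e1 := hinv c hc _ a.2
      have e2 := hinv c hc _ b.2
      have h4 : (a.1)⁻¹ * (b.1)⁻¹ = (b.1)⁻¹ * (a.1)⁻¹ := by
        calc (a.1)⁻¹ * (b.1)⁻¹ = (c * a.1 * c⁻¹) * (c * b.1 * c⁻¹) := by rw [e1, e2]
          _ = c * (a.1 * b.1) * c⁻¹ := by group
          _ = (a.1 * b.1)⁻¹ := e
          _ = _ := mul_inv_rev _ _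
      have := congrArg (fun t => t⁻¹) h4
      simpa [mul_inv_rev] using this.symm)⟩⟩
    refine ⟨A, hAn, hAc, hidx, fun x hx => ⟨hD x hx, hinv x hx⟩, ?_⟩
    intro _ B' _ _ hB'i hB'
    have hle : A ≤ B' := by
      have hbad : a₀ ∈ B' := by by_contra h; exact ha₀ (hB' a₀ h).1
      intro b hb
      by_contra hbB
      apply ha₀
      have e := (hB' b hbB).2 a₀ hbad
      have : b * a₀ * b⁻¹ = a₀ := by
        have := congrArg Subtype.val (hAc.1.1 ⟨b, hb⟩ ⟨a₀, ha₀A⟩)
        simp at this
        rw [this, mul_inv_cancel_right]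
      rw [this] at e
      rw [pow_two]
      exact eq_inv_iff_mul_eq_one.1 e
    refine (eq_of_le_of_not_lt hle fun hlt => ?_).symm
    have := Subgroup.index_strictAnti hlt
    omega

end Cfsg.Agent.S4420
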