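import Cfsg.Statements.S4460
import Cfsg.Agent.ThreeDeg.Main

set_option autoImplicit false
open Cfsg

namespace Cfsg.Agent.S4460

/-- A finite group with exactly three distinct irreducible character degrees is solvable of derived length at most 3: its third derived subgroup is trivial. -/
theorem result {G : Type*} [Group G] [Finite G] (hcd : Nat.card {n : ℕ // ∃ χ : Cfsg.IrrCharacter G, Cfsg.charDegree (χ : G → ℂ) = n} = 3) : derivedSeries G 3 = ⊥ := by
  classical
  obtain ⟨a, b, c, -, -, -, habc⟩ := Set.ncard_eq_three.1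
    (show {n : ℕ | ∃ χ : Cfsg.IrrCharacter G, Cfsg.charDegree (χ : G → ℂ) = n}.ncard = 3 from hcd)
  have h1 : (1 : ℕ) ∈ ({a, b, c} : Set ℕ) := habc ▸ ⟨CfsgLib.CharBasics.oneChar, by simp [Cfsg.charDegree, CfsgLib.CharBasics.oneChar]⟩
  have hmem : ∀ χ : Cfsg.IrrCharacter G, Cfsg.charDegree (χ : G → ℂ) = a ∨ Cfsg.charDegree (χ : G → ℂ) = b ∨
      Cfsg.charDegree (χ : G → ℂ) = c := fun χ => by
    have : Cfsg.charDegree (χ : G → ℂ) ∈ ({a, b, c} : Set ℕ) := habc ▸ ⟨χ, rfl⟩
    simpa using this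
  simp only [Set.mem_insert_iff, Set.mem_singleton_iff] at h1
  rcases h1 with h1 | h1 | h1
  · exact (CfsgLib.ThreeDeg.main _ G rfl b c fun χ => by have := hmem χ; omega).2
  · exact (CfsgLib.ThreeDeg.main _ G rfl a c fun χ => by have := hmem χ; omega).2
  · exact (CfsgLib.ThreeDeg.main _ G rfl a b fun χ => by have := hmem χ; omega).2

end Cfsg.Agent.S4460
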