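import Cfsg.Statements.S4762
import Cfsg.Agent.GaloisDegree.Basic
import Cfsg.Agent.Clifford.Ito
import Cfsg.Agent.Clifford.LinChar
import Cfsg.Agent.ZJ.Fpf
import Cfsg.Agent.PGroup.ExtraspecialChar
import Cfsg.Agent.PGroup.Basic
import Cfsg.Agent.Transfer.Frobenius
import Cfsg.Agent.PGroup.Critical
import Cfsg.Agent.Hall.SylowNormalizersComplement

set_option autoImplicit false
open Cfsg CfsgLib CfsgLib.CharBasics
open scoped commutatorElement

namespace Cfsg.Agent.S4762

/-- The order of a finite group in terms of the linear and the nonlinear characters. -/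
theorem card_eq_linear_add {G : Type*} [Group G] [Fintype G] [Fintype (IrrCharacter G)]
    [DecidablePred fun χ : IrrCharacter G => charDegree (χ : G → ℂ) ≠ 1] :
    Nat.card G = (commutator G).index +
      ∑ χ ∈ Finset.univ.filter (fun χ : IrrCharacter G => charDegree (χ : G → ℂ) ≠ 1), charDegree (χ : G → ℂ) ^ 2 := by
  classical
  haveI := finite_irrCharacter (G := G ⧸ commutator G)
  haveI := Fintype.ofFinite (G ⧸ commutator G)
  haveI := Fintype.ofFinite (IrrCharacter (G ⧸ commutator G))
  haveI : IsMulCommutative (G ⧸ commutator G) :=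
    Subgroup.Normal.quotient_commutative_iff_commutator_le.2 le_rfl
  have hab : (commutator G).index = ∑ ψ : IrrCharacter (G ⧸ commutator G), 1 := by
    rw [Subgroup.index_eq_card, ← sum_sq_degree]
    exact Finset.sum_congr rfl fun ψ _ => by rw [charDegree_comm ψ.2, one_pow]
  rw [← sum_sq_degree, ← Finset.sum_filter_add_sum_filter_not Finset.univ
    (fun χ : IrrCharacter G => charDegree (χ : G → ℂ) ≠ 1), add_comm, hab]
  congr 1
  refine (Finset.sum_bij (fun (ψ : IrrCharacter (G ⧸ commutator G)) _ => (⟨fun x => (ψ : G ⧸ commutator G → ℂ) (QuotientGroup.mk' _ x),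
    Clifford.isIrrCharacter_comp ψ.2 _ (QuotientGroup.mk'_surjective _)⟩ : IrrCharacter G)) ?_ ?_ ?_ ?_).symm
  · intro ψ _
    simp only [Finset.mem_filter, Finset.mem_univ, true_and, not_not]
    show ⌊((ψ : G ⧸ commutator G → ℂ) (QuotientGroup.mk' _ 1)).re⌋₊ = 1
    rw [map_one]
    exact charDegree_comm ψ.2
  · intro ψ _ ψ' _ he
    refine Subtype.ext (funext fun x => ?_)
    obtain ⟨y, rfl⟩ := QuotientGroup.mk'_surjective _ x
    exact congrFun (congrArg Subtype.val he) y
  · intro χ hχ
    simp only [Finset.mem_filter, Finset.mem_univ, true_and, not_not] at hχ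
    obtain ⟨ψ, hψ⟩ := exists_quotient_irr χ (commutator G) fun g hg =>
      GaloisDegree.apply_commutator_of_linear χ.2 hχ hg
    exact ⟨ψ, Finset.mem_univ _, Subtype.ext (funext hψ)⟩
  · intro ψ _
    show 1 = ⌊((ψ : G ⧸ commutator G → ℂ) (QuotientGroup.mk' _ 1)).re⌋₊ ^ 2
    rw [map_one]
    rw [show ⌊((ψ : G ⧸ commutator G → ℂ) 1).re⌋₊ = 1 from charDegree_comm ψ.2, one_pow]


/-- Let p be a prime and G a finite nilpotent group. Then G has exactly one irreducible complex character of degree divisible by p if and only if p = 2 and G is an extraspecial 2-group. -/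
theorem result {G : Type*} [Group G] [Finite G] [Group.IsNilpotent G] (p : ℕ) [Fact p.Prime] : Nat.card {χ : Cfsg.IrrCharacter G // p ∣ Cfsg.charDegree (χ : G → ℂ)} = 1 ↔ (p = 2 ∧ Cfsg.IsExtraspecial 2 G) := by
  classical
  haveI := Fintype.ofFinite G
  haveI := finite_irrCharacter (G := G)
  haveI := Fintype.ofFinite (IrrCharacter G)
  have hp : p.Prime := Fact.out
  constructor
  · intro huniq
    obtain ⟨⟨hu⟩, ⟨χ, hχp⟩⟩ := Nat.card_eq_one_iff_unique.1 huniq
    have honly : ∀ ψ : IrrCharacter G, p ∣ charDegree (ψ : G → ℂ) → ψ = χ := fun ψ h =>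
      congrArg Subtype.val (hu ⟨ψ, h⟩ ⟨χ, hχp⟩)
    obtain ⟨P, Q, hQn, hQP⟩ := CfsgLib.ZJ.hasNormalPComplement_of_isNilpotent (G := G) p
    haveI := hQn
    -- the quotient by the complement is not abelian
    have hQidx : Q.index = Nat.card (P : Subgroup G) := hQP.symm.index_eq_card
    have hq : IsPGroup p (G ⧸ Q) := by
      obtain ⟨j, hj⟩ := P.2.exists_card_eq
      exact IsPGroup.of_card (n := j) (by rw [← Subgroup.index_eq_card, hQidx]; exact hj)
    have hnab : ∃ ψ : IrrCharacter (G ⧸ Q), charDegree (ψ : G ⧸ Q → ℂ) ≠ 1 := by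
      by_contra hall
      push Not at hall
      -- then the Sylow subgroup is abelian and no degree is divisible by `p`
      have hPab : IsMulCommutative (P : Subgroup G) := by
        have hc : commutator (G ⧸ Q) = ⊥ := by
          by_contra hne
          obtain ⟨c, hc, hc1⟩ := (commutator (G ⧸ Q)).bot_or_exists_ne_one.resolve_left hne
          obtain ⟨ψ, hψ⟩ := GaloisDegree.exists_apply_ne hc1
          exact hψ (GaloisDegree.apply_commutator_of_linear ψ.2 (hall ψ) hc)
        refine ⟨⟨fun a b => ?_⟩⟩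
        have : (⁅(a : G), (b : G)⁆ : G) ∈ Q := by
          rw [← QuotientGroup.eq_one_iff]
          have h := Subgroup.commutator_mem_commutator (Subgroup.mem_top (QuotientGroup.mk' Q (a : G)))
            (Subgroup.mem_top (QuotientGroup.mk' Q (b : G)))
          rw [← commutator_def, hc, Subgroup.mem_bot, ← map_commutatorElement] at h
          exact h
        have h2 : (⁅(a : G), (b : G)⁆ : G) ∈ (P : Subgroup G) := (P : Subgroup G).mul_mem
          ((P : Subgroup G).mul_mem ((P : Subgroup G).mul_mem a.2 b.2) ((P : Subgroup G).inv_mem a.2)) ((P : Subgroup G).inv_mem b.2)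
        have h3 : (⁅(a : G), (b : G)⁆ : G) = 1 := by
          have := hQP.disjoint.le_bot ⟨this, h2⟩
          exact Subgroup.mem_bot.1 this
        exact Subtype.ext (commutatorElement_eq_one_iff_mul_comm.1 h3)
      haveI : (P : Subgroup G).Normal := CfsgLib.Hall.NormComplement.sylow_normal_of_nilpotent inferInstance p P
      exact P.not_dvd_index (hχp.trans (Clifford.ito_dvd χ.2 (P : Subgroup G)))
    obtain ⟨ψ, hψ⟩ := hnab
    have hψp : p ∣ charDegree (ψ : G ⧸ Q → ℂ) := by
      obtain ⟨j, hj⟩ := hq.exists_card_eq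
      obtain ⟨i, hi, he⟩ := (Nat.dvd_prime_pow hp).1 (hj ▸ degree_dvd ψ)
      rw [he] at hψ ⊢
      exact dvd_pow_self p (fun h0 => hψ (by rw [h0, pow_zero]))
    have hχQ : ∀ q ∈ Q, (χ : G → ℂ) q = (χ : G → ℂ) 1 := by
      intro q hq'
      have h := honly ⟨fun x => (ψ : G ⧸ Q → ℂ) (QuotientGroup.mk' Q x),
        Clifford.isIrrCharacter_comp ψ.2 _ (QuotientGroup.mk'_surjective Q)⟩
        (by unfold charDegree; simp only [map_one]; exact hψp)
      rw [← h]
      simp only
      rw [(QuotientGroup.eq_one_iff (N := Q) q).2 hq' |> (show QuotientGroup.mk' Q q = 1 from ·), map_one]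
    have hQc : Q ≤ commutator G := by
      intro q hq'
      by_contra hne
      have hne' : QuotientGroup.mk' (commutator G) q ≠ 1 := fun h => hne ((QuotientGroup.eq_one_iff q).1 h)
      haveI : IsMulCommutative (G ⧸ commutator G) :=
        Subgroup.Normal.quotient_commutative_iff_commutator_le.2 le_rfl
      obtain ⟨l, hl⟩ := GaloisDegree.exists_apply_ne hne'
      have hl1 := charDegree_comm l.2
      let L : IrrCharacter G := ⟨fun x => (l : G ⧸ commutator G → ℂ) (QuotientGroup.mk' _ x),
        Clifford.isIrrCharacter_comp l.2 _ (QuotientGroup.mk'_surjective _)⟩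
      have hL1 : (L : G → ℂ) 1 = 1 := by
        simp only [L, map_one]
        rw [apply_one (isCharacter_of_irr l.2), hl1, Nat.cast_one]
      obtain ⟨μ, hμ⟩ := Clifford.exists_hom_of_linear (isCharacter_of_irr L.2) hL1
      have hμx : ∀ x, μ x = (L : G → ℂ) x := fun x => (congrFun hμ x).symm
      have h := honly ⟨fun x => μ x * (χ : G → ℂ) x, Clifford.isIrrCharacter_linear_mul χ.2 μ⟩
        (by unfold charDegree; simp only [map_one, one_mul]; exact hχp)
      have h1 := congrFun (congrArg Subtype.val h) q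
      simp only [hμx, hχQ q hq'] at h1
      have h2 : (L : G → ℂ) q = 1 := mul_right_cancel₀ (apply_one_ne_zero χ.2) (h1.trans (one_mul _).symm)
      refine hl ?_
      rw [apply_one (isCharacter_of_irr l.2), hl1, Nat.cast_one]
      exact h2
    have hQ1 : Q = ⊥ := by
      haveI : (P : Subgroup G).Normal := CfsgLib.Hall.NormComplement.sylow_normal_of_nilpotent inferInstance p P
      have htop : commutator (G ⧸ (P : Subgroup G)) = ⊤ := by
        rw [eq_top_iff]
        intro x _
        obtain ⟨g, rfl⟩ := QuotientGroup.mk'_surjective (P : Subgroup G) x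
        obtain ⟨⟨⟨a, ha⟩, ⟨b, hb⟩⟩, rfl⟩ := hQP.2 g
        rw [map_mul, (QuotientGroup.eq_one_iff b).2 hb |> (show QuotientGroup.mk' (P : Subgroup G) b = 1 from ·), mul_one]
        have : (commutator G).map (QuotientGroup.mk' (P : Subgroup G)) ≤ commutator (G ⧸ (P : Subgroup G)) := by
          rw [commutator_def, commutator_def, Subgroup.map_commutator]
          exact Subgroup.commutator_mono le_top le_top
        exact this ⟨a, hQc ha, rfl⟩
      have htriv : (⊤ : Subgroup (G ⧸ (P : Subgroup G))) = ⊥ :=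
        CfsgLib.Transfer.eq_bot_of_le_commutator_top (by rw [← commutator_def, htop])
      have : Q ≤ (P : Subgroup G) := fun q hq' => (QuotientGroup.eq_one_iff q).1
        (Subgroup.mem_bot.1 (htriv ▸ Subgroup.mem_top (QuotientGroup.mk' (P : Subgroup G) q)))
      exact le_bot_iff.1 (le_trans (le_inf le_rfl this) hQP.disjoint.le_bot)
    have hG : IsPGroup p G := by
      obtain ⟨j, hj⟩ := P.2.exists_card_eq
      refine IsPGroup.of_card (n := j) ?_
      rw [← hQP.card_mul, hQ1, Subgroup.card_bot, one_mul, ← hj]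
    -- one nonlinear character
    have hone : ∀ ψ : IrrCharacter G, charDegree (ψ : G → ℂ) ≠ 1 → ψ = χ := by
      intro ψ h1
      refine honly ψ ?_
      obtain ⟨j, hj⟩ := hG.exists_card_eq
      obtain ⟨i, hi, he⟩ := (Nat.dvd_prime_pow hp).1 (hj ▸ degree_dvd ψ)
      rw [he] at h1 ⊢
      exact dvd_pow_self p (fun h0 => h1 (by rw [h0, pow_zero]))
    have hχ1 : charDegree (χ : G → ℂ) ≠ 1 := fun h => hp.ne_one (Nat.dvd_one.1 (h ▸ hχp))
    have hsum := card_eq_linear_add (G := G)
    rw [Finset.sum_eq_single χ (fun ψ hψ hne => absurd (hone ψ (Finset.mem_filter.1 hψ).2) hne)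
      (fun h => (h (Finset.mem_filter.2 ⟨Finset.mem_univ χ, hχ1⟩)).elim)] at hsum
    obtain ⟨n, hn⟩ := hG.exists_card_eq
    obtain ⟨b, hb, hbe⟩ := (Nat.dvd_prime_pow hp).1 (hn ▸ degree_dvd χ)
    obtain ⟨a, ha, hae⟩ := (Nat.dvd_prime_pow hp).1 (hn ▸ (commutator G).index_dvd_card)
    rw [hn, hbe, hae, ← pow_mul] at hsum
    have han : a < n := by
      by_contra h
      have : p ^ n ≤ p ^ a := Nat.pow_le_pow_right hp.pos (not_lt.1 h)
      have := Nat.pow_pos (n := b * 2) hp.pos
      omega
    have hbn : b * 2 < n := by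
      by_contra h
      have : p ^ n ≤ p ^ (b * 2) := Nat.pow_le_pow_right hp.pos (not_lt.1 h)
      have := Nat.pow_pos (n := a) hp.pos
      omega
    -- numerical consequences
    obtain ⟨m, rfl⟩ : ∃ m, n = m + 1 := ⟨n - 1, by omega⟩
    have h1 : p ^ a ≤ p ^ m := Nat.pow_le_pow_right hp.pos (by omega)
    have h2 : p ^ (b * 2) ≤ p ^ m := Nat.pow_le_pow_right hp.pos (by omega)
    have hp2 : p = 2 := by
      by_contra hne
      have : 3 * p ^ m ≤ p ^ (m + 1) := by
        rw [pow_succ, mul_comm (p ^ m)]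
        exact Nat.mul_le_mul_right _ (by have := hp.two_le; omega)
      have := Nat.pow_pos (n := m) hp.pos
      omega
    subst hp2
    rw [pow_succ] at hsum
    have ham : a = m := Nat.pow_right_injective le_rfl (show 2 ^ a = 2 ^ m by omega)
    have hbm : b * 2 = m := Nat.pow_right_injective le_rfl (show 2 ^ (b * 2) = 2 ^ m by omega)
    have hG' : Nat.card (commutator G) = 2 := by
      have h := (commutator G).card_mul_index
      rw [hn, hae, ham, pow_succ, mul_comm (2 ^ m)] at h
      exact Nat.eq_of_mul_eq_mul_right (Nat.pow_pos (n := m) two_pos) h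
    obtain ⟨hle, hfacts⟩ := GaloisDegree.derived_prime_facts hG hG'
    have hidx : (Subgroup.center G).index = 2 ^ m := by
      rw [← (hfacts χ hχ1).1, hbe, ← pow_mul, hbm]
    have hZ : Nat.card (Subgroup.center G) = 2 := by
      have h := (Subgroup.center G).card_mul_index
      rw [hn, hidx, pow_succ, mul_comm (2 ^ m)] at h
      exact Nat.eq_of_mul_eq_mul_right (Nat.pow_pos (n := m) two_pos) h
    have hZc : commutator G = Subgroup.center G :=
      Subgroup.eq_of_le_of_card_ge hle (by rw [hZ, hG'])
    refine ⟨rfl, ⟨hG, le_antisymm ?_ ?_, hZc⟩, hZ⟩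
    · -- every maximal subgroup contains the centre, and squares are central
      haveI : IsMulCommutative (G ⧸ Subgroup.center G) :=
        Subgroup.Normal.quotient_commutative_iff_commutator_le.2 hle
      refine CfsgLib.PGroup.frattini_le_of_elementary (p := 2) (fun a b => hle (by rw [commutator_def]; exact Subgroup.commutator_mem_commutator (Subgroup.mem_top a) (Subgroup.mem_top b))) fun x => ?_
      rw [Subgroup.mem_center_iff]
      intro y
      have hc : ∀ u v : G, ⁅u, v⁆ ∈ Subgroup.center G := fun u v =>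
        hle (by rw [commutator_def]; exact Subgroup.commutator_mem_commutator (Subgroup.mem_top u) (Subgroup.mem_top v))
      rw [← commutatorElement_eq_one_iff_mul_comm, CfsgLib.PGroup.commutator_pow_right hc]
      have hmem : ⁅y, x⁆ ∈ commutator G := by
        rw [commutator_def]; exact Subgroup.commutator_mem_commutator (Subgroup.mem_top y) (Subgroup.mem_top x)
      have := pow_card_eq_one' (x := (⟨_, hmem⟩ : commutator G))
      rw [hG'] at this
      exact congrArg Subtype.val this
    · rw [← hZc]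
      exact CfsgLib.PGroup.commutator_le_frattini hG
  · rintro ⟨rfl, h⟩
    obtain ⟨n, hn1, hcard⟩ := CfsgLib.Extraspecial.exists_card h
    have hG' : Nat.card (commutator G) = 2 := by rw [h.1.2.2]; exact h.2
    have hidx : (commutator G).index = 2 ^ (2 * n) := by
      have h' := (commutator G).card_mul_index
      rw [hG', hcard, pow_succ, mul_comm] at h'
      exact Nat.eq_of_mul_eq_mul_right two_pos h'
    have hiff : ∀ ψ : IrrCharacter G, 2 ∣ charDegree (ψ : G → ℂ) ↔ charDegree (ψ : G → ℂ) ≠ 1 := by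
      intro ψ
      refine ⟨fun hd he => by rw [he] at hd; omega, fun hne => ?_⟩
      rcases CfsgLib.Extraspecial.irr_dichotomy h hcard ψ with ⟨-, h1⟩ | ⟨h1, -⟩
      · exact absurd (by rw [apply_one (isCharacter_of_irr ψ.2)] at h1; exact_mod_cast h1) hne
      · rw [apply_one (isCharacter_of_irr ψ.2)] at h1
        rw [show charDegree (ψ : G → ℂ) = 2 ^ n by exact_mod_cast h1]
        exact dvd_pow_self 2 (by omega)
    rw [Nat.card_congr (Equiv.subtypeEquivRight hiff)]
    have hsum := card_eq_linear_add (G := G)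
    have hdeg : ∀ ψ ∈ Finset.univ.filter (fun ψ : IrrCharacter G => charDegree (ψ : G → ℂ) ≠ 1),
        charDegree (ψ : G → ℂ) ^ 2 = 2 ^ (2 * n) := by
      intro ψ hψ
      rcases CfsgLib.Extraspecial.irr_dichotomy h hcard ψ with ⟨-, h1⟩ | ⟨h1, -⟩
      · exact absurd (by rw [apply_one (isCharacter_of_irr ψ.2)] at h1; exact_mod_cast h1) (Finset.mem_filter.1 hψ).2
      · rw [apply_one (isCharacter_of_irr ψ.2)] at h1
        rw [show charDegree (ψ : G → ℂ) = 2 ^ n by exact_mod_cast h1, ← pow_mul, mul_comm]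
    rw [Finset.sum_congr rfl hdeg, Finset.sum_const, hcard, hidx, smul_eq_mul, pow_succ, mul_two,
      add_right_inj] at hsum
    rw [Nat.card_eq_fintype_card, Fintype.card_subtype]
    exact (Nat.eq_of_mul_eq_mul_right (Nat.pow_pos (n := 2 * n) two_pos) (by rw [one_mul]; exact hsum)).symm

end Cfsg.Agent.S4762
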