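import Cfsg.Statements.S4477
import Cfsg.Agent.S4762
import Cfsg.Agent.CharBasics.SqrtCount
import Cfsg.Agent.GaloisDegree.Basic
import Cfsg.Agent.PGroup.Critical

set_option autoImplicit false
open Cfsg CfsgLib CfsgLib.CharBasics
open scoped commutatorElement

namespace Cfsg.Agent.S4477

/-- Let G be a finite 2-group whose number of involutions is congruent to 1 modulo 4. Then G is cyclic or its commutator subgroup has index 4. -/
theorem result {G : Type*} [Group G] [Finite G] (hG : IsPGroup 2 G) (ht : Nat.card {x : G // orderOf x = 2} % 4 = 1) : IsCyclic G ∨ (commutator G).index = 4 := by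
  classical
  haveI := Fintype.ofFinite G
  haveI := finite_irrCharacter (G := G)
  haveI := Fintype.ofFinite (IrrCharacter G)
  haveI : Fact (Nat.Prime 2) := ⟨Nat.prime_two⟩
  -- indicator as an integer
  have hz : ∀ χ : IrrCharacter G, ∃ z : ℤ, BrauerInd.ind (χ : G → ℂ) = (z : ℂ) ∧
      ((∀ g, ((χ : G → ℂ) g).im = 0) → z = 1 ∨ z = -1) ∧ ((∃ g, ((χ : G → ℂ) g).im ≠ 0) → z = 0) := by
    intro χ
    by_cases hr : ∃ g, ((χ : G → ℂ) g).im ≠ 0
    · exact ⟨0, by rw [BrauerInd.ind_nonreal χ.2 hr, Int.cast_zero],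
        fun h => absurd hr (fun ⟨g, hg⟩ => hg (h g)), fun _ => rfl⟩
    · have hr' : ∀ g, ((χ : G → ℂ) g).im = 0 := fun g => not_not.1 fun hg => hr ⟨g, hg⟩
      rcases BrauerInd.ind_real χ.2 hr' with h | h
      · exact ⟨1, by rw [h, Int.cast_one], fun _ => Or.inl rfl, fun h' => absurd h' hr⟩
      · exact ⟨-1, by rw [h]; simp, fun _ => Or.inr rfl, fun h' => absurd h' hr⟩
  choose z hz hzr hzn using hz
  -- involutions
  have hcount : (Nat.card {u : G // u * u = 1} : ℤ) = ∑ χ : IrrCharacter G, z χ * charDegree (χ : G → ℂ) := by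
    have h := sqrt_count (G := G) (1 : G)
    simp only [hz, apply_one (isCharacter_of_irr (Subtype.prop _))] at h
    exact_mod_cast h
  have hinv : Nat.card {u : G // u * u = 1} = Nat.card {x : G // orderOf x = 2} + 1 := by
    have e : ∀ x : G, (orderOf x = 2) ↔ (x * x = 1 ∧ x ≠ 1) := fun x => by
      rw [orderOf_eq_prime_iff, pow_two]
    rw [Nat.card_eq_fintype_card, Nat.card_eq_fintype_card, Fintype.card_subtype, Fintype.card_subtype,
      Finset.filter_congr fun x _ => e x, ← Finset.card_insert_of_notMem (a := (1 : G)) (by simp)]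
    congr 1
    ext x
    by_cases hx : x = 1 <;> simp [hx]
  -- the Frattini quotient
  have hcyc : (frattini G).index ≤ 2 → IsCyclic G := by
    intro hle
    have h0 : (frattini G).index ≠ 0 := Subgroup.index_ne_zero_of_finite
    haveI : IsCyclic (G ⧸ frattini G) := by
      rcases (show (frattini G).index = 1 ∨ (frattini G).index = 2 by omega) with h | h
      · haveI : Subsingleton (G ⧸ frattini G) :=
          (Nat.card_eq_one_iff_unique.1 ((Subgroup.index_eq_card _).symm.trans h)).1
        exact isCyclic_of_subsingleton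
      · exact isCyclic_of_prime_card (p := 2) ((Subgroup.index_eq_card _).symm.trans h)
    obtain ⟨q, hq⟩ := IsCyclic.exists_generator (α := G ⧸ frattini G)
    obtain ⟨x, rfl⟩ := QuotientGroup.mk'_surjective _ q
    have htop : Subgroup.zpowers x ⊔ frattini G = ⊤ := by
      rw [eq_top_iff]
      intro y _
      obtain ⟨i, hi⟩ := hq (QuotientGroup.mk' _ y)
      have hi' : (x ^ i)⁻¹ * y ∈ frattini G := QuotientGroup.eq.1 (by
        simpa using hi)
      rw [show y = x ^ i * ((x ^ i)⁻¹ * y) by group]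
      exact Subgroup.mul_mem_sup (Subgroup.zpow_mem _ (Subgroup.mem_zpowers x) i) hi'
    have hx := frattini_nongenerating htop
    exact ⟨⟨x, fun y => (hx.symm ▸ Subgroup.mem_top y : y ∈ Subgroup.zpowers x)⟩⟩
  -- real linear characters
  have hlinreal : ∀ χ : IrrCharacter G, charDegree (χ : G → ℂ) = 1 →
      z χ = if ∀ g ∈ frattini G, (χ : G → ℂ) g = (χ : G → ℂ) 1 then 1 else 0 := by
    intro χ h1
    obtain ⟨μ, hμ⟩ := Clifford.exists_hom_of_linear (isCharacter_of_irr χ.2)
      (by rw [apply_one (isCharacter_of_irr χ.2), h1, Nat.cast_one])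
    have hind : BrauerInd.ind (χ : G → ℂ) = (Nat.card G : ℂ)⁻¹ * ∑ g : G, (χ : G → ℂ) g * (χ : G → ℂ) g := by
      simp only [BrauerInd.ind, hμ, map_mul]
    have hμ0 : ∀ g, μ g ≠ 0 := fun g h => one_ne_zero (α := ℂ) (by
      rw [← map_one μ, ← mul_inv_cancel g, map_mul, h, zero_mul])
    by_cases hr : ∃ g, ((χ : G → ℂ) g).im ≠ 0
    · rw [hzn χ hr, if_neg]
      intro hΦ
      obtain ⟨g, hg⟩ := hr
      have h2 := hΦ _ (CfsgLib.PGroup.pow_mem_frattini hG g)
      simp only [hμ, map_pow, map_one, sq_eq_one_iff] at h2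
      apply hg
      simp only [hμ]
      rcases h2 with e | e <;> simp [e]
    · have hr' : ∀ g, ((χ : G → ℂ) g).im = 0 := fun g => not_not.1 fun hg => hr ⟨g, hg⟩
      have h1' : z χ = 1 := by
        have := (BrauerInd.avg_sq χ.2).1 hr'
        rw [← hind, hz] at this
        exact_mod_cast this
      rw [h1', if_pos]
      let K : Subgroup G := μ.toHomUnits.ker
      have hsq : ∀ g : G, g ^ 2 ∈ K := by
        intro g
        have hm : ∀ y, μ y = 1 ∨ μ y = -1 := fun y => by
          have hre : μ y = ((μ y).re : ℂ) := Complex.ext rfl (by simpa [hμ] using hr' y)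
          have hfin : μ y ^ Nat.card G = 1 := by rw [← map_pow, pow_card_eq_one', map_one]
          rw [hre] at hfin ⊢
          rcases (pow_eq_one_iff_cases (R := ℝ)).1 (by exact_mod_cast hfin) with h | h | ⟨h, -⟩
          · exact absurd h Nat.card_pos.ne'
          · exact Or.inl (by rw [h, Complex.ofReal_one])
          · exact Or.inr (by rw [h]; simp)
        refine Units.ext ?_
        show μ (g ^ 2) = 1
        rw [map_pow]
        rcases hm g with h | h <;> simp [h]
      intro g hg
      have hle : frattini G ≤ K := CfsgLib.PGroup.frattini_le_of_elementary (p := 2) (fun a b => by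
        rw [MonoidHom.mem_ker, map_commutatorElement, commutatorElement_eq_one_iff_mul_comm, mul_comm]) hsq
      have := congrArg Units.val (hle hg)
      simp only [hμ, map_one]
      exact this
  haveI := finite_irrCharacter (G := G ⧸ frattini G)
  haveI := Fintype.ofFinite (IrrCharacter (G ⧸ frattini G))
  have hab : IsMulCommutative (G ⧸ frattini G) :=
    Subgroup.Normal.quotient_commutative_iff_commutator_le.2 (CfsgLib.PGroup.commutator_le_frattini hG)
  have hcq : Nat.card (G ⧸ frattini G) = Fintype.card (IrrCharacter (G ⧸ frattini G)) := by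
    haveI := Fintype.ofFinite (G ⧸ frattini G)
    rw [← sum_sq_degree, Finset.sum_congr rfl fun ψ _ => by rw [charDegree_comm ψ.2, one_pow], Finset.sum_const,
      Finset.card_univ, smul_eq_mul, mul_one]
  have hreal_count : ∑ χ ∈ Finset.univ.filter (fun χ : IrrCharacter G => charDegree (χ : G → ℂ) = 1),
      z χ * charDegree (χ : G → ℂ) = ((frattini G).index : ℤ) := by
    rw [Finset.sum_congr rfl (g := fun χ : IrrCharacter G =>
      if ∀ g ∈ frattini G, (χ : G → ℂ) g = (χ : G → ℂ) 1 then (1 : ℤ) else 0) fun χ hχ => by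
        rw [hlinreal χ (Finset.mem_filter.1 hχ).2, (Finset.mem_filter.1 hχ).2, Nat.cast_one, mul_one],
      Finset.sum_boole, Nat.cast_inj, Subgroup.index_eq_card, Finset.filter_filter,
      hcq, ← Finset.card_univ]
    symm
    refine Finset.card_bij (fun ψ _ => (⟨fun x => (ψ : G ⧸ frattini G → ℂ) (QuotientGroup.mk' _ x),
      Clifford.isIrrCharacter_comp ψ.2 _ (QuotientGroup.mk'_surjective _)⟩ : IrrCharacter G)) ?_ ?_ ?_
    · intro ψ _
      simp only [Finset.mem_filter, Finset.mem_univ, true_and]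
      constructor
      · simp only [charDegree, map_one]; exact charDegree_comm ψ.2
      · intro g hg
        simp only [QuotientGroup.mk'_apply, (QuotientGroup.eq_one_iff g).2 hg]
        rfl
    · intro ψ _ ψ' _ he
      refine Subtype.ext (funext fun x => ?_)
      obtain ⟨y, rfl⟩ := QuotientGroup.mk'_surjective _ x
      exact congrFun (congrArg Subtype.val he) y
    · intro χ hχ
      obtain ⟨ψ, hψ⟩ := exists_quotient_irr χ (frattini G) (Finset.mem_filter.1 hχ).2.2
      exact ⟨ψ, Finset.mem_univ _, Subtype.ext (funext hψ)⟩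
  -- degrees
  obtain ⟨n, hn⟩ := hG.exists_card_eq
  have hdeg : ∀ χ : IrrCharacter G, charDegree (χ : G → ℂ) ≠ 1 →
      charDegree (χ : G → ℂ) = 2 ∨ 4 ∣ charDegree (χ : G → ℂ) := by
    intro χ hχ
    obtain ⟨i, -, hi⟩ := (Nat.dvd_prime_pow Nat.prime_two).1 (hn ▸ degree_dvd χ)
    rw [hi] at hχ ⊢
    match i, hχ with
    | 0, h => exact absurd rfl h
    | 1, _ => exact Or.inl rfl
    | (j + 2), _ => exact Or.inr ⟨2 ^ j, by rw [pow_add]; ring⟩
  let D := Finset.univ.filter fun χ : IrrCharacter G => charDegree (χ : G → ℂ) = 2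
  have hlin := Cfsg.Agent.S4762.card_eq_linear_add (G := G)
  obtain ⟨a, han, hae⟩ := (Nat.dvd_prime_pow Nat.prime_two).1 (hn ▸ (commutator G).index_dvd_card)
  have hΦle : (frattini G).index ≤ (commutator G).index := by
    refine Nat.le_of_dvd (Nat.pos_of_ne_zero Subgroup.index_ne_zero_of_finite)
      (Subgroup.index_dvd_of_le (CfsgLib.PGroup.commutator_le_frattini hG))
  by_cases ha : a < 3
  · rcases (show a = 0 ∨ a = 1 ∨ a = 2 by omega) with rfl | rfl | rfl
    · exact Or.inl (hcyc (by rw [hae] at hΦle; omega))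
    · exact Or.inl (hcyc (by rw [hae] at hΦle; omega))
    · exact Or.inr hae
  left
  refine hcyc ?_
  -- an even number of characters of degree two
  have hG8 : 8 ∣ Nat.card G := hn ▸ (pow_dvd_pow 2 (show 3 ≤ n by omega))
  have hI8 : 8 ∣ (commutator G).index := hae ▸ (pow_dvd_pow 2 (show 3 ≤ a by omega))
  have hD : 2 ∣ D.card := by
    rw [← Finset.sum_filter_add_sum_filter_not (Finset.univ.filter fun χ : IrrCharacter G =>
        charDegree (χ : G → ℂ) ≠ 1) (fun χ : IrrCharacter G => charDegree (χ : G → ℂ) = 2)] at hlin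
    have h4 : ∀ χ ∈ (Finset.univ.filter fun χ : IrrCharacter G => charDegree (χ : G → ℂ) ≠ 1).filter
        (fun χ : IrrCharacter G => ¬ charDegree (χ : G → ℂ) = 2), 8 ∣ charDegree (χ : G → ℂ) ^ 2 := by
      intro χ hχ
      simp only [Finset.mem_filter] at hχ
      obtain ⟨c, hc⟩ := (hdeg χ hχ.1.2).resolve_left hχ.2
      exact ⟨2 * c * c, by rw [hc]; ring⟩
    have hrest := Finset.dvd_sum h4
    rw [Finset.sum_congr rfl (s₁ := (Finset.univ.filter fun χ : IrrCharacter G => charDegree (χ : G → ℂ) ≠ 1).filter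
        (fun χ : IrrCharacter G => charDegree (χ : G → ℂ) = 2)) (g := fun _ => 4)
        fun χ hχ => by rw [(Finset.mem_filter.1 hχ).2]; rfl,
      Finset.sum_const, Finset.filter_filter, smul_eq_mul] at hlin
    rw [Finset.filter_congr (q := fun χ : IrrCharacter G => charDegree (χ : G → ℂ) = 2)
      fun χ _ => ⟨fun h => h.2, fun h => ⟨by omega, h⟩⟩] at hlin
    change _ = _ + (D.card * 4 + _) at hlin
    omega
  have hDz : ((∑ χ ∈ D, z χ : ℤ) : ZMod 2) = 0 := by
    have hd2 : ((D.card : ℕ) : ZMod 2) = 0 := (ZMod.natCast_eq_zero_iff _ _).2 hD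
    have hnr : ∑ χ ∈ D.filter (fun χ : IrrCharacter G => z χ = 0), (1 : ZMod 2) = 0 := by
      let cj : IrrCharacter G → IrrCharacter G := fun χ =>
        ⟨fun g => (starRingEnd ℂ) ((χ : G → ℂ) g), BrauerInd.isIrr_star χ.2⟩
      have hnre : ∀ χ : IrrCharacter G, z χ = 0 → ∃ g, ((χ : G → ℂ) g).im ≠ 0 := fun χ h0 => by
        by_contra hr
        rcases hzr χ (fun g => not_not.1 fun hg => hr ⟨g, hg⟩) with h | h <;> rw [h0] at h <;> simp at h
      refine Finset.sum_involution (fun χ _ => cj χ) (fun _ _ => rfl) (fun χ hχ _ he => ?_) (fun χ hχ => ?_)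
        (fun χ _ => Subtype.ext (funext fun g => Complex.conj_conj _))
      · obtain ⟨g, hg⟩ := hnre χ (Finset.mem_filter.1 hχ).2
        exact hg (Complex.conj_eq_iff_im.1 (congrFun (congrArg Subtype.val he) g))
      · simp only [D, Finset.mem_filter, Finset.mem_univ, true_and] at hχ ⊢
        obtain ⟨g, hg⟩ := hnre χ hχ.2
        refine ⟨?_, hzn _ ⟨g, by simpa [cj] using hg⟩⟩
        rw [← hχ.1]
        simp [cj, charDegree]
    rw [Int.cast_sum, Finset.sum_congr rfl (g := fun χ : IrrCharacter G => if z χ = 0 then (0 : ZMod 2) else 1)]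
    · rw [← Finset.sum_filter_add_sum_filter_not D (fun χ : IrrCharacter G => z χ = 0)] at *
      rw [Finset.sum_const, nsmul_one] at hnr
      rw [← Finset.card_filter_add_card_filter_not (s := D) (fun χ : IrrCharacter G => z χ = 0), Nat.cast_add,
        hnr, zero_add] at hd2
      rw [Finset.sum_congr rfl (g := fun _ => (0 : ZMod 2)) fun χ hχ => if_pos (Finset.mem_filter.1 hχ).2,
        Finset.sum_congr rfl (g := fun _ => (1 : ZMod 2)) fun χ hχ => if_neg (Finset.mem_filter.1 hχ).2,
        Finset.sum_const_zero, Finset.sum_const, nsmul_one, hd2, zero_add]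
    · intro χ _
      by_cases h0 : z χ = 0
      · rw [if_pos h0, h0, Int.cast_zero]
      · rw [if_neg h0]
        by_cases hr : ∃ g, ((χ : G → ℂ) g).im ≠ 0
        · exact absurd (hzn χ hr) h0
        · rcases hzr χ (fun g => not_not.1 fun hg => hr ⟨g, hg⟩) with h | h <;> rw [h] <;> rfl
  rw [ZMod.intCast_zmod_eq_zero_iff_dvd] at hDz
  have hsplit : ∀ f : IrrCharacter G → ℤ, ∑ χ, f χ =
      (∑ χ ∈ Finset.univ.filter (fun χ : IrrCharacter G => charDegree (χ : G → ℂ) = 1), f χ) + ∑ χ ∈ D, f χ
      + ∑ χ ∈ (Finset.univ.filter (fun χ : IrrCharacter G => ¬ charDegree (χ : G → ℂ) = 1)).filter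
          (fun χ : IrrCharacter G => ¬ charDegree (χ : G → ℂ) = 2), f χ := by
    intro f
    rw [← Finset.sum_filter_add_sum_filter_not Finset.univ (fun χ : IrrCharacter G => charDegree (χ : G → ℂ) = 1),
      ← Finset.sum_filter_add_sum_filter_not (Finset.univ.filter (fun χ : IrrCharacter G => ¬ charDegree (χ : G → ℂ) = 1))
        (fun χ : IrrCharacter G => charDegree (χ : G → ℂ) = 2), Finset.filter_filter, add_assoc]
    congr 3
    exact Finset.filter_congr fun χ _ => ⟨fun h => h.2, fun h => ⟨by omega, h⟩⟩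
  have hrest4 : (4 : ℤ) ∣ ∑ χ ∈ (Finset.univ.filter (fun χ : IrrCharacter G => ¬ charDegree (χ : G → ℂ) = 1)).filter
      (fun χ : IrrCharacter G => ¬ charDegree (χ : G → ℂ) = 2), z χ * charDegree (χ : G → ℂ) := by
    refine Finset.dvd_sum fun χ hχ => ?_
    simp only [Finset.mem_filter] at hχ
    exact Dvd.dvd.mul_left (Int.natCast_dvd_natCast.2 ((hdeg χ hχ.1.2).resolve_left hχ.2)) _
  have hDsum : ∑ χ ∈ D, z χ * (charDegree (χ : G → ℂ) : ℤ) = (∑ χ ∈ D, z χ) * 2 := by
    rw [Finset.sum_mul]
    exact Finset.sum_congr rfl fun χ hχ => by rw [(Finset.mem_filter.1 hχ).2]; rfl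
  rw [hsplit, hreal_count, hDsum, hinv] at hcount
  obtain ⟨i, -, hi⟩ := (Nat.dvd_prime_pow Nat.prime_two).1 (hn ▸ (frattini G).index_dvd_card)
  match i, hi with
  | 0, h => omega
  | 1, h => omega
  | (j + 2), h =>
    exfalso
    have h4 : (4 : ℕ) ∣ (frattini G).index := ⟨2 ^ j, by rw [h, pow_add]; ring⟩
    push_cast at hcount
    omega

end Cfsg.Agent.S4477
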