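import Cfsg.Statements.S4479
import Cfsg.Agent.ZStar.KleinOrder
-- import your own Cfsg.Agent.* helpers here

set_option autoImplicit false
open Cfsg

namespace Cfsg.Agent.S4479

/-- An order formula from the principal 2-block. Let G be a finite group of order 4·g₀ with g₀ odd having no normal 2-complement (no normal subgroup of order g₀); let P be a Sylow 2-subgroup, J an involution of P, and fix a maximal ideal M of the algebraic integers containing 2. Suppose the principal 2-block consists of the principal character and three further distinct characters χ₁, χ₂, χ₃ of degrees x₁, x₂, x₃, with χ_i(J) = ε_i = ±1. Then, writing c(J) and c(P) for the orders of the centralizers of J and of P, the order of G equals 8·α·c(J)³/c(P)² with α = x₁x₂x₃ / ((x₁ + ε₁)(x₂ + ε₂)(x₃ + ε₃)). -/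
theorem result {G : Type*} [Group G] [Finite G] (M : Ideal Cfsg.AlgInt) (hM : Cfsg.IsPModular 2 M) (g₀ : ℕ) (hg₀ : Odd g₀) (hG : Nat.card G = 4 * g₀) (hnc : ¬ ∃ N : Subgroup G, N.Normal ∧ Nat.card N = g₀) (P : Sylow 2 G) (J : G) (hJ : J ∈ (P : Subgroup G)) (hJ2 : orderOf J = 2) (χ₁ χ₂ χ₃ : Cfsg.IrrCharacter G) (ε₁ ε₂ ε₃ : ℤ) (hB : Cfsg.principalBlock M G = {χ : Cfsg.IrrCharacter G | (χ : G → ℂ) = (fun _ => 1) ∨ χ = χ₁ ∨ χ = χ₂ ∨ χ = χ₃}) (hdist : (χ₁ : G → ℂ) ≠ (fun _ => 1) ∧ (χ₂ : G → ℂ) ≠ (fun _ => 1) ∧ (χ₃ : G → ℂ) ≠ (fun _ => 1) ∧ χ₁ ≠ χ₂ ∧ χ₁ ≠ χ₃ ∧ χ₂ ≠ χ₃) (hε : (ε₁ = 1 ∨ ε₁ = -1) ∧ (ε₂ = 1 ∨ ε₂ = -1) ∧ (ε₃ = 1 ∨ ε₃ = -1)) (hval : (χ₁ : G → ℂ) J = ε₁ ∧ (χ₂ : G → ℂ) J = ε₂ ∧ (χ₃ : G → ℂ) J = ε₃) : (Nat.card G : ℚ) = 8 * (((Cfsg.charDegree (χ₁ : G → ℂ) : ℚ) * Cfsg.charDegree (χ₂ : G → ℂ) * Cfsg.charDegree (χ₃ : G → ℂ)) / ((Cfsg.charDegree (χ₁ : G → ℂ) + ε₁) * (Cfsg.charDegree (χ₂ : G → ℂ) + ε₂) * (Cfsg.charDegree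 (χ₃ : G → ℂ) + ε₃))) * (Nat.card (Subgroup.centralizer ({J} : Set G)) : ℚ) ^ 3 / (Nat.card (Subgroup.centralizer ((P : Subgroup G) : Set G)) : ℚ) ^ 2 := by
  classical
  haveI := Fact.mk Nat.prime_two
  haveI : Fintype G := Fintype.ofFinite G
  have hcard4 : Nat.card (P : Subgroup G) = 4 := by
    rw [P.card_eq_multiplicity, hG, Nat.factorization_mul (by norm_num) (by obtain ⟨k, hk⟩ := hg₀; omega),
      Finsupp.add_apply, show (4 : ℕ) = 2 ^ 2 by norm_num, Nat.prime_two.factorization_pow, Finsupp.single_eq_same,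
      Nat.factorization_eq_zero_of_not_dvd (fun h => Nat.not_even_iff_odd.2 hg₀ (even_iff_two_dvd.2 h))]
  have hcompl : Subgroup.normalizer ((P : Subgroup G) : Set G) ≤ Subgroup.centralizer ((P : Subgroup G) : Set G) → False := by
    intro hle
    have hK := MonoidHom.ker_transferSylow_isComplement' P hle
    refine hnc ⟨(MonoidHom.transferSylow P hle).ker, inferInstance, ?_⟩
    have := hK.card_mul
    rw [hcard4, hG] at this
    omega
  have hKlein : IsKleinFour (P : Subgroup G) := by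
    refine ⟨hcard4, ?_⟩
    by_contra hexp
    have hcyc : IsCyclic (P : Subgroup G) := by
      have h2 : ∃ a : (P : Subgroup G), a ^ 2 ≠ 1 := by
        by_contra hno
        push Not at hno
        refine hexp ?_
        have hd := Monoid.exponent_dvd_of_forall_pow_eq_one hno
        rcases (Nat.dvd_prime Nat.prime_two).1 hd with h | h
        · rw [Monoid.exp_eq_one_iff] at h
          have := Nat.card_of_subsingleton (1 : (P : Subgroup G))
          omega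
        · exact h
      obtain ⟨a, ha⟩ := h2
      refine isCyclic_of_orderOf_eq_card a ?_
      rw [hcard4]
      have h4 : orderOf a ∣ 4 := hcard4 ▸ orderOf_dvd_natCard a
      have h5 : ¬ orderOf a ∣ 2 := fun h => ha (orderOf_dvd_iff_pow_eq_one.1 h)
      have h6 : orderOf a ≤ 4 := Nat.le_of_dvd (by norm_num) h4
      have h7 : 0 < orderOf a := orderOf_pos a
      interval_cases (orderOf a) <;> simp_all (config := { decide := true })
    refine hcompl (IsCyclic.normalizer_le_centralizer ((Nat.minFac_eq_two_iff _).2 ?_) hcyc)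
    omega
  have hone : ∀ s t : G, orderOf s = 2 → orderOf t = 2 → IsConj s t := by
    have hne : ¬ Function.Injective (CfsgLib.Invol.kleinMap P hKlein) := by
      intro hinj
      refine hcompl fun n hn => Subgroup.mem_centralizer_iff.2 fun w hw => ?_
      by_cases hw1 : w = 1
      · subst hw1; simp
      have hnw : n * w * n⁻¹ ∈ (P : Subgroup G) := (Subgroup.mem_normalizer_iff.1 hn w).1 hw
      have hnw1 : n * w * n⁻¹ ≠ 1 := fun e => hw1 (conj_eq_one_iff.1 e)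
      have e := @hinj ⟨⟨w, hw⟩, fun e => hw1 (congrArg Subtype.val e)⟩ ⟨⟨_, hnw⟩, fun e => hnw1 (congrArg Subtype.val e)⟩
        (Subtype.ext (ConjClasses.mk_eq_mk_iff_isConj.2 (isConj_iff.2 ⟨n, rfl⟩)))
      have e' : w = n * w * n⁻¹ := congrArg (fun x : {a : (P : Subgroup G) // a ≠ 1} => (x.1 : G)) e
      exact eq_mul_inv_iff_mul_eq.1 e'
    have hlt : Nat.card (CfsgLib.Invol.InvClass G) < 3 := by
      rw [← CfsgLib.Invol.card_kleinDom P hKlein]
      refine lt_of_le_of_ne (Nat.card_le_card_of_surjective _ (CfsgLib.Invol.kleinMap_surjective P hKlein)) fun e => hne ?_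
      exact ((Nat.bijective_iff_surjective_and_card _).2 ⟨CfsgLib.Invol.kleinMap_surjective P hKlein, e.symm⟩).1
    have h1 : Nat.card (CfsgLib.Invol.InvClass G) = 1 :=
      (CfsgLib.Invol.card_invClass_eq_one_or_three P hKlein).resolve_right hlt.ne
    intro s t hs ht
    have := (Nat.card_eq_one_iff_unique.1 h1).1.elim
      (⟨ConjClasses.mk s, s, hs, rfl⟩ : CfsgLib.Invol.InvClass G) ⟨ConjClasses.mk t, t, ht, rfl⟩
    exact ConjClasses.mk_eq_mk_iff_isConj.1 (congrArg Subtype.val this)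
  obtain ⟨T, a, hT, hT1, hpm, hB', hvalT, -, hrel⟩ := CfsgLib.ZStar.klein_main P hKlein hone hM
  obtain ⟨hd1, hd2, hd3, h12, h13, h23⟩ := hdist
  have hone' : ∀ χ : Cfsg.IrrCharacter G, (χ : G → ℂ) = (fun _ => 1) ↔ χ = CfsgLib.CharBasics.oneChar := fun χ =>
    ⟨fun e => Subtype.ext (e.trans (funext fun g => (CfsgLib.CharBasics.oneChar_apply g).symm)),
      fun e => e ▸ funext fun g => CfsgLib.CharBasics.oneChar_apply g⟩
  have hTset : T = {χ₁, χ₂, χ₃} := by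
    ext χ
    simp only [Finset.mem_insert, Finset.mem_singleton]
    have h := Set.ext_iff.1 (hB'.symm.trans hB) χ
    simp only [Set.mem_insert_iff, Finset.mem_coe, Set.mem_setOf_eq, hone'] at h
    constructor
    · intro hχ
      exact (h.1 (Or.inr hχ)).resolve_left fun e => hT1 (e ▸ hχ)
    · intro hχ
      refine (h.2 (Or.inr hχ)).resolve_left fun e => ?_
      rcases hχ with rfl | rfl | rfl
      · exact hd1 ((hone' _).2 e)
      · exact hd2 ((hone' _).2 e)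
      · exact hd3 ((hone' _).2 e)
  have hmem : χ₁ ∈ T ∧ χ₂ ∈ T ∧ χ₃ ∈ T := by rw [hTset]; simp
  have ha : ∀ {χ : Cfsg.IrrCharacter G} {e : ℤ}, χ ∈ T → (χ : G → ℂ) J = e → a χ = e := fun hχ he => by
    exact_mod_cast (hvalT _ hχ J hJ2).symm.trans he
  have hdeg : ∀ χ : Cfsg.IrrCharacter G, (χ : G → ℂ) 1 = (Cfsg.charDegree (χ : G → ℂ) : ℂ) := fun χ =>
    CfsgLib.CharBasics.apply_one (CfsgLib.CharBasics.isCharacter_of_irr χ.2)
  have key := CfsgLib.ZStar.klein_order hKlein hone hM (fun χ hχ => by rw [hB']; exact Or.inr hχ) hpm hT hvalT hrel hJ2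
  have hrel1 := hrel 1 (by rw [orderOf_one]; norm_num)
  have hex : ∀ f : Cfsg.IrrCharacter G → ℂ, ∑ χ ∈ T, f χ = f χ₁ + (f χ₂ + f χ₃) := fun f => by
    rw [hTset, Finset.sum_insert (by simp [h12, h13]), Finset.sum_pair h23]
  rw [hex] at key hrel1
  rw [hdeg, hdeg, hdeg, ha hmem.1 hval.1, ha hmem.2.1 hval.2.1, ha hmem.2.2 hval.2.2] at key hrel1
  have hpos : ∀ χ : Cfsg.IrrCharacter G, (0 : ℚ) < (Cfsg.charDegree (χ : G → ℂ) : ℚ) := fun χ => by
    exact_mod_cast CfsgLib.CharBasics.charDegree_pos χ.2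
  have p1 := hpos χ₁; have p2 := hpos χ₂; have p3 := hpos χ₃
  generalize Cfsg.charDegree (χ₁ : G → ℂ) = x₁ at key hrel1 p1 ⊢
  generalize Cfsg.charDegree (χ₂ : G → ℂ) = x₂ at key hrel1 p2 ⊢
  generalize Cfsg.charDegree (χ₃ : G → ℂ) = x₃ at key hrel1 p3 ⊢
  have k1 : (Nat.card G : ℚ) * (1 + ((ε₁ : ℚ) / x₁ + ((ε₂ : ℚ) / x₂ + (ε₃ : ℚ) / x₃)))
        * (Nat.card (Subgroup.centralizer ((P : Subgroup G) : Set G)) : ℚ) ^ 2
      = 8 * (Nat.card (Subgroup.centralizer ({J} : Set G)) : ℚ) ^ 3 :=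
    Rat.cast_injective (α := ℂ) (by push_cast; exact key)
  have k2 : 1 + ((ε₁ : ℚ) * x₁ + ((ε₂ : ℚ) * x₂ + (ε₃ : ℚ) * x₃)) = 0 :=
    Rat.cast_injective (α := ℂ) (by push_cast; exact hrel1)
  have hcJ : (Nat.card (Subgroup.centralizer ({J} : Set G)) : ℚ) ≠ 0 := Nat.cast_ne_zero.2 Nat.card_pos.ne'
  have hcP : (Nat.card (Subgroup.centralizer ((P : Subgroup G) : Set G)) : ℚ) ≠ 0 := Nat.cast_ne_zero.2 Nat.card_pos.ne'
  generalize (Nat.card G : ℚ) = g at k1 ⊢
  generalize (Nat.card (Subgroup.centralizer ({J} : Set G)) : ℚ) = c at k1 hcJ ⊢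
  generalize (Nat.card (Subgroup.centralizer ((P : Subgroup G) : Set G)) : ℚ) = d at k1 hcP ⊢
  have hprod : ((x₁ : ℚ) + ε₁) * (x₂ + ε₂) * (x₃ + ε₃)
      = x₁ * x₂ * x₃ * (1 + ((ε₁ : ℚ) / x₁ + ((ε₂ : ℚ) / x₂ + (ε₃ : ℚ) / x₃))) := by
    field_simp
    rcases hε.1 with rfl | rfl <;> rcases hε.2.1 with rfl | rfl <;> rcases hε.2.2 with rfl | rfl <;>
      push_cast at k2 ⊢ <;> first | linear_combination k2 | linear_combination (-k2)
  rw [hprod]
  set S := 1 + ((ε₁ : ℚ) / x₁ + ((ε₂ : ℚ) / x₂ + (ε₃ : ℚ) / x₃)) with hS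
  have hS0 : S ≠ 0 := fun e => by
    rw [e, mul_zero, zero_mul] at k1
    exact mul_ne_zero (by norm_num : (8 : ℚ) ≠ 0) (pow_ne_zero 3 hcJ) k1.symm
  field_simp
  linear_combination k1

end Cfsg.Agent.S4479
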