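import Cfsg.Statements.S4480
import Cfsg.Agent.ZStar.KleinSetup
import Cfsg.Agent.ZStar.RealBlock
import Cfsg.Agent.S0895
import Cfsg.Agent.S4479
-- import your own Cfsg.Agent.* helpers here

set_option autoImplicit false
open Cfsg

namespace Cfsg.Agent.S4480

/-- Same setting as the Klein-four order formula: G of order 4·g₀ (g₀ odd) with no normal 2-complement, P a Sylow 2-subgroup, J an involution of P, M over 2, principal 2-block {1, χ₁, χ₂, χ₃} with χ_i(J) = ε_i = ±1. Suppose ε₁ε₂ε₃ = −1 and ε₃ = −1, and put q = x₃ = χ₃(1). Then there is a natural number m with 4·c(J) = m·c(P)·(q + 1), and the order of G equals (m³·c(P)/4)·(q³ − q)/2, that is 8·#G = m³·c(P)·(q³ − q). -/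
theorem result {G : Type*} [Group G] [Finite G] (M : Ideal Cfsg.AlgInt) (hM : Cfsg.IsPModular 2 M) (g₀ : ℕ) (hg₀ : Odd g₀) (hG : Nat.card G = 4 * g₀) (hnc : ¬ ∃ N : Subgroup G, N.Normal ∧ Nat.card N = g₀) (P : Sylow 2 G) (J : G) (hJ : J ∈ (P : Subgroup G)) (hJ2 : orderOf J = 2) (χ₁ χ₂ χ₃ : Cfsg.IrrCharacter G) (ε₁ ε₂ ε₃ : ℤ) (hB : Cfsg.principalBlock M G = {χ : Cfsg.IrrCharacter G | (χ : G → ℂ) = (fun _ => 1) ∨ χ = χ₁ ∨ χ = χ₂ ∨ χ = χ₃}) (hdist : (χ₁ : G → ℂ) ≠ (fun _ => 1) ∧ (χ₂ : G → ℂ) ≠ (fun _ => 1) ∧ (χ₃ : G → ℂ) ≠ (fun _ => 1) ∧ χ₁ ≠ χ₂ ∧ χ₁ ≠ χ₃ ∧ χ₂ ≠ χ₃) (hε : (ε₁ = 1 ∨ ε₁ = -1) ∧ (ε₂ = 1 ∨ ε₂ = -1) ∧ (ε₃ = 1 ∨ ε₃ = -1)) (hval : (χ₁ : G → ℂ) J = ε₁ ∧ (χ₂ : G → ℂ) J = ε₂ ∧ (χ₃ : G → ℂ) J = ε₃) (hprod : ε₁ * ε₂ * ε₃ = -1) (hε₃ : ε₃ = -1) : ∃ m : ℕ, 4 * Nat.card (Subgroup.centralizer ({J} : Set G)) = m * Nat.card (Subgroup.centralizer ((P : Subgroup G) : Set G)) * (Cfsg.charDegree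 (χ₃ : G → ℂ) + 1) ∧ 8 * Nat.card G = m ^ 3 * Nat.card (Subgroup.centralizer ((P : Subgroup G) : Set G)) * (Cfsg.charDegree (χ₃ : G → ℂ) ^ 3 - Cfsg.charDegree (χ₃ : G → ℂ)) := by
  classical
  haveI := Fact.mk Nat.prime_two
  haveI : Fintype G := Fintype.ofFinite G
  have hform := Cfsg.Agent.S4479.result M hM g₀ hg₀ hG hnc P J hJ hJ2 χ₁ χ₂ χ₃ ε₁ ε₂ ε₃ hB hdist hε hval
  obtain ⟨hKlein, hone⟩ := CfsgLib.ZStar.klein_setup hg₀ hG hnc P
  obtain ⟨T, a, hT, hT1, hpm, hB', hvalT, hdvd, hrel⟩ := CfsgLib.ZStar.klein_main P hKlein hone hM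
  obtain ⟨hd1, hd2, hd3, h12, h13, h23⟩ := hdist
  obtain ⟨hv1, hv2, hv3⟩ := hval
  have hone' : ∀ χ : Cfsg.IrrCharacter G, (χ : G → ℂ) = (fun _ => 1) ↔ χ = CfsgLib.CharBasics.oneChar := fun χ =>
    ⟨fun e => Subtype.ext (e.trans (funext fun g => (CfsgLib.CharBasics.oneChar_apply g).symm)),
      fun e => e ▸ funext fun g => CfsgLib.CharBasics.oneChar_apply g⟩
  have hTset : T = {χ₁, χ₂, χ₃} := by
    ext χ
    simp only [Finset.mem_insert, Finset.mem_singleton]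
    have h := Set.ext_iff.1 (hB'.symm.trans hB) χ
    simp only [Set.mem_insert_iff, Finset.mem_coe, Set.mem_setOf_eq, hone'] at h
    constructor
    · intro hχ
      exact (h.1 (Or.inr hχ)).resolve_left fun e => hT1 (e ▸ hχ)
    · intro hχ
      refine (h.2 (Or.inr hχ)).resolve_left fun e => ?_
      rcases hχ with rfl | rfl | rfl
      · exact hd1 ((hone' _).2 e)
      · exact hd2 ((hone' _).2 e)
      · exact hd3 ((hone' _).2 e)
  have hmem : χ₁ ∈ T ∧ χ₂ ∈ T ∧ χ₃ ∈ T := by rw [hTset]; simp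
  obtain ⟨hm1, hm2, hm3⟩ := hmem
  have ha : ∀ {χ : Cfsg.IrrCharacter G} {e : ℤ}, χ ∈ T → (χ : G → ℂ) J = e → a χ = e := fun hχ he => by
    exact_mod_cast (hvalT _ hχ J hJ2).symm.trans he
  have a1 := ha hm1 hv1
  have a2 := ha hm2 hv2
  have a3 := ha hm3 hv3
  have hodd : ∀ χ ∈ T, Odd (Cfsg.charDegree (χ : G → ℂ)) := fun χ hχ => by
    obtain ⟨k, hk⟩ := hdvd χ hχ
    rw [Nat.odd_iff]
    rcases hpm χ hχ with e | e <;> rw [e] at hk <;> omega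
  have hdeg : ∀ χ : Cfsg.IrrCharacter G, (χ : G → ℂ) 1 = (Cfsg.charDegree (χ : G → ℂ) : ℂ) := fun χ =>
    CfsgLib.CharBasics.apply_one (CfsgLib.CharBasics.isCharacter_of_irr χ.2)
  have hex : ∀ f : Cfsg.IrrCharacter G → ℂ, ∑ χ ∈ T, f χ = f χ₁ + (f χ₂ + f χ₃) := fun f => by
    rw [hTset, Finset.sum_insert (by simp [h12, h13]), Finset.sum_pair h23]
  -- signs
  have hrel1 := hrel 1 (by rw [orderOf_one]; norm_num)
  rw [hex, hdeg, hdeg, hdeg, a1, a2, a3, hε₃] at hrel1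
  have hrelZ : 1 + (ε₁ * (Cfsg.charDegree (χ₁ : G → ℂ) : ℤ) + (ε₂ * (Cfsg.charDegree (χ₂ : G → ℂ) : ℤ) +
      -1 * (Cfsg.charDegree (χ₃ : G → ℂ) : ℤ))) = 0 := Int.cast_injective (α := ℂ) (by push_cast at hrel1 ⊢; exact hrel1)
  have hp1 := CfsgLib.CharBasics.charDegree_pos χ₁.2
  have hp2 := CfsgLib.CharBasics.charDegree_pos χ₂.2
  have hp3 := CfsgLib.CharBasics.charDegree_pos χ₃.2
  obtain ⟨he1, he2⟩ : ε₁ = 1 ∧ ε₂ = 1 := by
    obtain ⟨e1 | e1, e2 | e2, -⟩ := hε <;> rw [e1, e2] at hrelZ ⊢ <;> rw [e1, e2, hε₃] at hprod <;>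
      first | exact ⟨rfl, rfl⟩ | omega
  -- indicators
  have hindrel := CfsgLib.ZStar.klein_indicator hKlein hrel
  rw [hex, a1, a2, a3, he1, he2, hε₃] at hindrel
  have hind : ∀ χ ∈ T, CfsgLib.BrauerInd.ind (χ : G → ℂ) = 0 ∧ (∃ g, ((χ : G → ℂ) g).im ≠ 0) ∨
      CfsgLib.BrauerInd.ind (χ : G → ℂ) = 1 := by
    intro χ hχ
    by_cases hr : ∃ g, ((χ : G → ℂ) g).im ≠ 0
    · exact Or.inl ⟨CfsgLib.BrauerInd.ind_nonreal χ.2 hr, hr⟩
    · push Not at hr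
      exact Or.inr (Cfsg.Agent.S0895.result (χ : G → ℂ) χ.2 hr _ (hdeg χ) (hodd χ hχ))
  have hnonreal : ∃ g, ((χ₁ : G → ℂ) g).im ≠ 0 := by
    rcases hind χ₁ hm1 with ⟨-, h⟩ | h1
    · exact h
    exfalso
    rcases hind χ₂ hm2 with ⟨h2, -⟩ | h2 <;> rcases hind χ₃ hm3 with ⟨h3, -⟩ | h3 <;>
      rw [h1, h2, h3] at hindrel <;> norm_num at hindrel
  -- complex conjugation swaps the first two
  have hmemB : ∀ χ ∈ T, χ ∈ Cfsg.principalBlock M G := fun χ hχ => by rw [hB']; exact Or.inr hχ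
  set ψ := CfsgLib.Blocks.powChar (CfsgLib.ZStar.RealBlock.coprime_pred G) χ₁ with hψ
  have hψapp : ∀ g, (ψ : G → ℂ) g = (starRingEnd ℂ) ((χ₁ : G → ℂ) g) := fun g =>
    CfsgLib.ZStar.RealBlock.powChar_pred χ₁ g
  have hψB : ψ ∈ Cfsg.principalBlock M G :=
    CfsgLib.Blocks.powChar_mem_blockOf (χ := (CfsgLib.CharBasics.oneChar : Cfsg.IrrCharacter G)) _
      (fun g => by rw [CfsgLib.CharBasics.oneChar_apply, CfsgLib.CharBasics.oneChar_apply]) (hmemB χ₁ hm1)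
  rw [hB, Set.mem_setOf_eq] at hψB
  have hψ2 : ψ = χ₂ := by
    rcases hψB with h | h | h | h
    · refine absurd (funext fun g => ?_) hd1
      have := congrFun h g
      rw [hψapp] at this
      simpa using congrArg (starRingEnd ℂ) this
    · obtain ⟨g, hg⟩ := hnonreal
      exact absurd (Complex.conj_eq_iff_im.1 ((hψapp g).symm.trans (by rw [h]))) hg
    · exact h
    · have := hψapp J
      rw [h, hv3, hv1, hε₃, he1] at this
      norm_num at this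
  have hx : Cfsg.charDegree (χ₂ : G → ℂ) = Cfsg.charDegree (χ₁ : G → ℂ) := by
    have := hψapp 1
    rw [hψ2, hdeg, hdeg, Complex.conj_natCast, Nat.cast_inj] at this
    exact this
  -- divisibility of the class of `J`
  have hdiv : ∀ χ ∈ T, Cfsg.charDegree (χ : G → ℂ) ∣ (Subgroup.centralizer ({J} : Set G)).index := by
    intro χ hχ
    refine CfsgLib.CharBasics.nat_dvd_of_isIntegral _ _ (CfsgLib.CharBasics.charDegree_pos χ.2).ne' ?_
    have h := CfsgLib.CharBasics.isIntegral_centralChar χ.2 J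
    rw [Cfsg.centralChar, hvalT χ hχ J hJ2, hdeg] at h
    rcases hpm χ hχ with e | e <;> rw [e] at h <;> push_cast at h
    · simpa using h
    · have h' := h.neg
      simpa [neg_div] using h'
  have hd1' := hdiv χ₁ hm1
  have hd3' := hdiv χ₃ hm3
  rw [hx, he1, he2] at hrelZ
  rw [hx, he1, he2, hε₃] at hform
  push_cast at hform
  have hcard : Nat.card (Subgroup.centralizer ({J} : Set G)) * (Subgroup.centralizer ({J} : Set G)).index = Nat.card G :=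
    Subgroup.card_mul_index _
  have hc : 0 < Nat.card (Subgroup.centralizer ({J} : Set G)) := Nat.card_pos
  have hd : 0 < Nat.card (Subgroup.centralizer ((P : Subgroup G) : Set G)) := Nat.card_pos
  rw [← hcard]
  rw [← hcard] at hform
  generalize Nat.card (Subgroup.centralizer ({J} : Set G)) = c at hform hc ⊢
  generalize Nat.card (Subgroup.centralizer ((P : Subgroup G) : Set G)) = d at hform hd ⊢
  generalize (Subgroup.centralizer ({J} : Set G)).index = i at hd1' hd3' hform ⊢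
  generalize Cfsg.charDegree (χ₁ : G → ℂ) = x at hd1' hrelZ hp1 hform ⊢
  generalize Cfsg.charDegree (χ₃ : G → ℂ) = q at hd3' hrelZ hform ⊢
  obtain rfl : q = 2 * x + 1 := by omega
  obtain ⟨N, rfl⟩ : x * (2 * x + 1) ∣ i := by
    refine Nat.Coprime.mul_dvd_of_dvd_of_dvd ?_ hd1' hd3'
    simp
  have hN : N * ((x + 1) * d) ^ 2 = (2 * c) ^ 2 := by
    have hxq : (0 : ℚ) < x := by exact_mod_cast hp1
    have hcq : (0 : ℚ) < c := by exact_mod_cast hc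
    have hdq : (0 : ℚ) < d := by exact_mod_cast hd
    suffices h : ((N * ((x + 1) * d) ^ 2 : ℕ) : ℚ) = (((2 * c) ^ 2 : ℕ) : ℚ) by exact_mod_cast h
    push_cast at hform ⊢
    rw [show (2 * (x : ℚ) + 1 + -1) = 2 * x by ring] at hform
    field_simp at hform
    linear_combination hform / 2
  obtain ⟨m, hm⟩ : (x + 1) * d ∣ 2 * c :=
    (Nat.pow_dvd_pow_iff two_ne_zero).1 ⟨N, by rw [← hN, mul_comm]⟩
  have hNm : N = m ^ 2 := by
    rw [hm, mul_pow _ m, mul_comm] at hN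
    exact Nat.eq_of_mul_eq_mul_left (pow_pos (by positivity) 2) hN
  refine ⟨m, by rw [show 4 * c = 2 * (2 * c) by ring, hm]; ring, ?_⟩
  have hq3 : (2 * x + 1) ^ 3 - (2 * x + 1) = 4 * x * (x + 1) * (2 * x + 1) := Nat.sub_eq_of_eq_add (by ring)
  rw [hq3, hNm]
  calc 8 * (c * (x * (2 * x + 1) * m ^ 2)) = 4 * (2 * c) * (x * (2 * x + 1) * m ^ 2) := by ring
    _ = _ := by rw [hm]; ring

end Cfsg.Agent.S4480
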