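import Cfsg.Statements.S4488
import Cfsg.Agent.Blocks.RootsMod
import Cfsg.Agent.Blocks.Glauberman
import Cfsg.Agent.CharBasics.Avg
import Mathlib.Data.Nat.Choose.Factorization
import Mathlib.RingTheory.Polynomial.Cyclotomic.Roots

set_option autoImplicit false
open Cfsg

namespace Cfsg.Agent.S4488

open CfsgLib.CharBasics CfsgLib.Blocks Polynomial

/-- Character values at `p`-elements that lie in a `p'`-cyclotomic field are constant on the coprime powers. -/
theorem apply_pow_eq {G : Type*} [Group G] [Finite G] {χ : G → ℂ} (hχ : Cfsg.IsCharacter G χ)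
    {p r e : ℕ} (hp : p.Prime) (hr : 0 < r) (hpr : ¬ p ∣ r) (x : G) (hx : x ^ (p ^ e) = 1)
    (hv : χ x ∈ IntermediateField.adjoin ℚ ({Complex.exp (2 * Real.pi * Complex.I / r)} : Set ℂ))
    {j : ℕ} (hj : ¬ p ∣ j) : χ (x ^ j) = χ x := by
  set N := r * p ^ e with hN
  have hN0 : N ≠ 0 := mul_ne_zero hr.ne' (pow_ne_zero _ hp.ne_zero)
  haveI : NeZero (p ^ e) := ⟨pow_ne_zero _ hp.ne_zero⟩
  set Z := zetaRoot N with hZ
  have hZp := zetaRoot_prim hN0
  have hzr : Z ^ (p ^ e) = Complex.exp (2 * Real.pi * Complex.I / r) := by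
    rw [hZ, zetaRoot, ← Complex.exp_nat_mul]
    congr 1
    rw [hN]
    have : (r : ℂ) ≠ 0 := Nat.cast_ne_zero.2 hr.ne'
    have : (p : ℂ) ≠ 0 := Nat.cast_ne_zero.2 hp.ne_zero
    push_cast
    field_simp
  have hzp : IsPrimitiveRoot (Z ^ r) (p ^ e) := hZp.pow (Nat.pos_of_ne_zero hN0) hN
  have halg : IsAlgebraic ℚ (Complex.exp (2 * Real.pi * Complex.I / r)) :=
    (((Complex.isPrimitiveRoot_exp r hr.ne').isIntegral hr).tower_top (A := ℚ)).isAlgebraic
  rw [← IntermediateField.mem_toSubalgebra, IntermediateField.adjoin_simple_toSubalgebra_of_isAlgebraic halg,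
    Algebra.adjoin_singleton_eq_range_aeval] at hv
  obtain ⟨q, hq⟩ := hv
  obtain ⟨lam, hl, hlam⟩ := exists_eigen hχ x
  have hk : ∀ i, ∃ k < p ^ e, (Z ^ r) ^ k = lam i := fun i => by
    refine hzp.eq_pow_of_pow_eq_one ?_
    obtain ⟨d, hd⟩ := orderOf_dvd_of_pow_eq_one hx
    rw [hd, pow_mul, hl i, one_pow]
  choose kk hkk hkeq using hk
  set P : ℚ[X] := q.comp (X ^ p ^ e) - ∑ i, X ^ (r * kk i) with hP
  have hev : ∀ w : ℂ, aeval w P = aeval (w ^ p ^ e) q - ∑ i, w ^ (r * kk i) := fun w => by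
    simp [hP, aeval_comp]
  have h0 : aeval Z P = 0 := by
    have h1 := hlam 1
    simp only [pow_one] at h1
    rw [hev, hzr, Finset.sum_congr rfl (fun i _ => by rw [pow_mul, hkeq i] : ∀ i ∈ Finset.univ, Z ^ (r * kk i) = lam i),
      ← h1, sub_eq_zero]
    exact hq
  have hco : (p ^ e).Coprime r := (hp.coprime_iff_not_dvd.2 hpr).pow_left e
  set c := Nat.chineseRemainder hco j 1
  have hcN : Nat.Coprime c N := by
    rw [hN, Nat.coprime_mul_iff_right]
    constructor
    · rw [Nat.Coprime, c.2.2.gcd_eq]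
      exact Nat.gcd_one_left r
    · rw [Nat.Coprime, c.2.1.gcd_eq]
      exact ((hp.coprime_iff_not_dvd.2 hj).pow_left e).symm
  have hdvd : cyclotomic N ℚ ∣ P := by
    rw [cyclotomic_eq_minpoly_rat hZp (Nat.pos_of_ne_zero hN0)]
    exact minpoly.dvd ℚ Z h0
  have hc0 : aeval (Z ^ (c : ℕ)) P = 0 := by
    obtain ⟨P', hP'⟩ := hdvd
    rw [hP', map_mul, cyclotomic_eq_minpoly_rat (hZp.pow_of_coprime _ hcN) (Nat.pos_of_ne_zero hN0),
      minpoly.aeval, zero_mul]
  rw [hev, sub_eq_zero] at hc0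
  have h1 : (Z ^ (c : ℕ)) ^ p ^ e = Complex.exp (2 * Real.pi * Complex.I / r) := by
    rw [← pow_mul, mul_comm, pow_mul, hzr]
    conv_rhs => rw [← pow_one (Complex.exp _)]
    refine pow_eq_pow_of_modEq c.2.2 ?_
    exact (Complex.isPrimitiveRoot_exp r hr.ne').pow_eq_one
  have h2 : ∀ i, (Z ^ (c : ℕ)) ^ (r * kk i) = lam i ^ j := fun i => by
    rw [← hkeq i, ← pow_mul, ← pow_mul, ← pow_mul,
      show (c : ℕ) * (r * kk i) = r * kk i * c by ring,
      show r * (kk i * j) = r * kk i * j by ring,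
      pow_mul Z (r * kk i) c, pow_mul Z (r * kk i) j]
    refine pow_eq_pow_of_modEq c.2.1 ?_
    rw [pow_mul, ← pow_mul, mul_comm (kk i), pow_mul, hzp.pow_eq_one, one_pow]
  rw [h1, Finset.sum_congr rfl (fun i _ => h2 i), ← hlam] at hc0
  rw [← hc0]
  exact hq

theorem sum_pow_root {N : ℕ} {ω : ℂ} (h : ω ^ N = 1) :
    ∑ j ∈ Finset.range N, ω ^ j = if ω = 1 then (N : ℂ) else 0 := by
  split_ifs with h1
  · simp [h1]
  · rw [geom_sum_eq h1, h, sub_self, zero_div]

/-- Values of a rational character on `p`-elements. -/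
theorem value_spec {G : Type*} [Group G] [Finite G] {χ : G → ℂ} (hχ : Cfsg.IsCharacter G χ)
    {p r : ℕ} (hp : p.Prime) (hr : 0 < r) (hpr : ¬ p ∣ r) {n : ℕ} (hn : Cfsg.charDegree χ = n) (x : G)
    (e : ℕ) (hx : x ^ (p ^ (e + 1)) = 1)
    (hv : χ x ∈ IntermediateField.adjoin ℚ ({Complex.exp (2 * Real.pi * Complex.I / r)} : Set ℂ)) :
    ∃ i : ℕ, i ≤ n / (p - 1) ∧ χ x = (((n : ℤ) - p * i : ℤ) : ℂ) := by
  classical
  haveI := Fact.mk hp
  obtain ⟨lam, hl, hlam⟩ := exists_eigen hχ x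
  have hpow : ∀ i, lam i ^ p ^ (e + 1) = 1 := fun i => by
    obtain ⟨d, hd⟩ := orderOf_dvd_of_pow_eq_one hx
    rw [hd, pow_mul, hl i, one_pow]
  have hxv : χ x = ∑ i, lam i := by simpa using hlam 1
  have hfilter : (Finset.range (p ^ (e + 1))).filter (fun j => p ∣ j) = (Finset.range (p ^ e)).image (p * ·) := by
    ext j
    simp only [Finset.mem_filter, Finset.mem_range, Finset.mem_image]
    constructor
    · rintro ⟨h1, d, rfl⟩
      refine ⟨d, ?_, rfl⟩
      rw [pow_succ'] at h1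
      exact Nat.lt_of_mul_lt_mul_left h1
    · rintro ⟨d, hd, rfl⟩
      exact ⟨by rw [pow_succ']; exact Nat.mul_lt_mul_of_pos_left hd hp.pos, dvd_mul_right p d⟩
  have hall := Finset.sum_filter_add_sum_filter_not (Finset.range (p ^ (e + 1))) (fun j => p ∣ j)
    (fun j => χ (x ^ j))
  rw [hfilter, Finset.sum_image (fun a _ b _ h => Nat.eq_of_mul_eq_mul_left hp.pos h),
    Finset.sum_congr rfl (fun j hj => apply_pow_eq hχ hp hr hpr x hx hv (Finset.mem_filter.1 hj).2 :
      ∀ j ∈ (Finset.range (p ^ (e + 1))).filter (fun j => ¬ p ∣ j), χ (x ^ j) = χ x),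
    Finset.sum_const, nsmul_eq_mul] at hall
  have hcardf : ((Finset.range (p ^ (e + 1))).filter (fun j => ¬ p ∣ j)).card + p ^ e = p ^ (e + 1) := by
    have h1 := Finset.card_filter_add_card_filter_not (s := Finset.range (p ^ (e + 1))) (fun j => p ∣ j)
    rw [hfilter, Finset.card_image_of_injective _ (fun a b h => Nat.eq_of_mul_eq_mul_left hp.pos h),
      Finset.card_range, Finset.card_range] at h1
    omega
  set m₁ := (Finset.univ.filter fun i => lam i = 1).card
  set m₂ := (Finset.univ.filter fun i => lam i ^ p = 1).card with hm₂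
  have hA : ∑ j ∈ Finset.range (p ^ (e + 1)), χ (x ^ j) = ((p ^ (e + 1) : ℕ) : ℂ) * m₁ := by
    rw [Finset.sum_congr rfl (fun j _ => hlam j), Finset.sum_comm,
      Finset.sum_congr rfl (fun i _ => sum_pow_root (hpow i)), ← Finset.sum_filter, Finset.sum_const,
      nsmul_eq_mul, mul_comm]
  have hB : ∑ j ∈ Finset.range (p ^ e), χ (x ^ (p * j)) = ((p ^ e : ℕ) : ℂ) * m₂ := by
    rw [Finset.sum_congr rfl (fun j _ => hlam (p * j)), Finset.sum_comm,
      Finset.sum_congr rfl (fun i _ => by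
        rw [Finset.sum_congr rfl (fun j _ => pow_mul (lam i) p j),
          sum_pow_root (show (lam i ^ p) ^ p ^ e = 1 by rw [← pow_mul, ← pow_succ']; exact hpow i)]),
      ← Finset.sum_filter, Finset.sum_const, nsmul_eq_mul, mul_comm]
  rw [hA, hB] at hall
  have hkey : ((p : ℂ) - 1) * χ x = (p : ℂ) * m₁ - m₂ := by
    have hc : ((((Finset.range (p ^ (e + 1))).filter (fun j => ¬ p ∣ j)).card : ℕ) : ℂ) =
        (p : ℂ) ^ (e + 1) - (p : ℂ) ^ e := by
      rw [eq_sub_iff_add_eq]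
      exact_mod_cast hcardf
    rw [hc] at hall
    push_cast at hall
    refine mul_left_cancel₀ (pow_ne_zero e (Nat.cast_ne_zero.2 hp.ne_zero : (p : ℂ) ≠ 0)) ?_
    linear_combination hall
  obtain ⟨d, hd⟩ : ∃ d, p = d + 2 := ⟨p - 2, by have := hp.two_le; omega⟩
  have hint := isIntegral_apply hχ x
  obtain ⟨v, hv'⟩ : ∃ v : ℤ, χ x = (v : ℂ) := by
    have hq : χ x = algebraMap ℚ ℂ (((p : ℚ) * m₁ - m₂) / ((p : ℚ) - 1)) := by
      rw [map_div₀, map_sub, map_mul, map_sub, map_natCast, map_natCast, map_natCast, map_one, eq_div_iff,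
        mul_comm]
      · exact hkey
      · rw [sub_ne_zero]
        exact_mod_cast hp.one_lt.ne'
    rw [hq, isIntegral_algebraMap_iff (algebraMap ℚ ℂ).injective] at hint
    obtain ⟨v, hv⟩ := IsIntegrallyClosed.isIntegral_iff.1 hint
    exact ⟨v, by rw [hq, ← hv]; simp⟩
  have hm2n : (m₂ : ℤ) ≤ n := by
    rw [← hn]
    exact_mod_cast (Finset.card_le_univ _).trans (le_of_eq (Fintype.card_fin _))
  obtain ⟨M, hM⟩ := exists_modular hp
  have hmod : Cfsg.MemLocalIdeal M (((v - n : ℤ)) : ℂ) := by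
    have hsum : (((v - n : ℤ)) : ℂ) = ∑ i, (lam i - 1) := by
      rw [Finset.sum_sub_distrib, ← hxv, hv', Finset.sum_const, Finset.card_univ, Fintype.card_fin, hn]
      simp
    rw [hsum]
    exact memLocalIdeal_sum hM _ (fun i _ => eqMod_one_of_pow_eq_one hM (e + 1) (hpow i))
  rw [memLocalIdeal_intCast_iff hM] at hmod
  obtain ⟨w, hw⟩ := hmod
  have hkeyZ : ((p : ℤ) - 1) * v = (p : ℤ) * m₁ - m₂ := by
    rw [hv'] at hkey
    exact_mod_cast hkey
  have hvn : v ≤ n := by
    have h := norm_le hχ x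
    rw [hv', hn, Complex.norm_intCast] at h
    have h' : (v : ℝ) ≤ (n : ℝ) := (le_abs_self _).trans h
    exact_mod_cast h'
  have hppos : (0 : ℤ) < p := by exact_mod_cast hp.pos
  have hw0 : w ≤ 0 := by
    by_contra h
    push Not at h
    nlinarith
  refine ⟨(-w).toNat, ?_, ?_⟩
  · rw [Nat.le_div_iff_mul_le (by omega)]
    have h1 : ((((-w).toNat * (p - 1) : ℕ)) : ℤ) ≤ (n : ℤ) := by
      push_cast [Nat.cast_sub hp.one_le, Int.toNat_of_nonneg (by omega : 0 ≤ -w)]
      nlinarith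
    exact_mod_cast h1
  · rw [hv', Int.toNat_of_nonneg (by omega : 0 ≤ -w)]
    congr 1
    linarith


/-- Let the finite group G have a faithful p-rational character χ of degree n (all values of χ lie in the field generated over ℚ by a root of unity of order prime to p), and let p^a be the order of a Sylow p-subgroup of G. Then a ≤ Σ_{i ≥ 0} ⌊n / ((p − 1)·p^i)⌋ (a finite sum; the terms vanish once (p − 1)p^i > n). -/
theorem result {G : Type*} [Group G] [Finite G] (p : ℕ) (hp : p.Prime) (χ : G → ℂ) (hχ : Cfsg.IsCharacter G χ) (hfaith : ∀ g : G, χ g = χ 1 → g = 1) (hrat : (∃ r : ℕ, 0 < r ∧ ¬ p ∣ r ∧ ∀ g : G, χ g ∈ IntermediateField.adjoin ℚ ({Complex.exp (2 * Real.pi * Complex.I / r)} : Set ℂ))) (n : ℕ) (hn : Cfsg.charDegree χ = n) : (Nat.card G).factorization p ≤ ∑ i ∈ Finset.range (n + 1), n / ((p - 1) * p ^ i) := by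
  classical
  haveI := Fact.mk hp
  obtain ⟨r, hr, hpr, hvals⟩ := hrat
  let P : Sylow p G := default
  haveI : Fintype (P : Subgroup G) := Fintype.ofFinite _
  set a := (Nat.card G).factorization p with ha
  have hPcard : Nat.card (P : Subgroup G) = p ^ a := P.card_eq_multiplicity
  set m := n / (p - 1) with hm
  have hspec : ∀ x : (P : Subgroup G), ∃ i : ℕ, i ≤ m ∧ χ x = (((n : ℤ) - p * i : ℤ) : ℂ) := fun x => by
    refine value_spec hχ hp hr hpr hn (x : G) a ?_ (hvals _)
    have h1 : x ^ Nat.card (P : Subgroup G) = 1 := pow_card_eq_one'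
    rw [hPcard] at h1
    rw [pow_succ, pow_mul, ← Subgroup.coe_pow, h1, Subgroup.coe_one, one_pow]
  let q : ℤ[X] := ∏ i ∈ Finset.Icc 1 m, (X - C ((n : ℤ) - p * i))
  have hdvd : ∀ f : ℤ[X], ∃ z : ℤ, ∑ x : (P : Subgroup G), aeval (χ (x : G)) f = (z : ℂ) * p ^ a := by
    intro f
    induction f using Polynomial.induction_on' with
    | add f g hf hg =>
      obtain ⟨z, hz⟩ := hf
      obtain ⟨z', hz'⟩ := hg
      exact ⟨z + z', by simp only [map_add, Finset.sum_add_distrib, hz, hz']; push_cast; ring⟩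
    | monomial k c =>
      have hk : Cfsg.IsCharacter (P : Subgroup G) (fun x => χ (x : G) ^ k) := by
        induction k with
        | zero =>
          convert isCharacter_of_irr (isIrrCharacter_one (G := (P : Subgroup G))) using 1
          funext x; simp
        | succ k ih =>
          convert isCharacter_mul ih (isCharacter_restrict hχ (P : Subgroup G)) using 1
          funext x; simp [pow_succ]
      obtain ⟨t, ht⟩ := classInner_character_nat hk ⟨fun _ => 1, isIrrCharacter_one⟩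
      rw [classInner_one, inv_mul_eq_iff_eq_mul₀ (Nat.cast_ne_zero.2 Nat.card_pos.ne'), hPcard] at ht
      refine ⟨c * t, ?_⟩
      simp only [aeval_monomial, ← Finset.mul_sum, ht]
      push_cast
      simp
      ring
  obtain ⟨z, hz⟩ := hdvd q
  rw [Finset.sum_eq_single (1 : (P : Subgroup G))] at hz
  · have hval : aeval (χ ((1 : (P : Subgroup G)) : G)) q = ((((p ^ m * m.factorial : ℕ)) : ℤ) : ℂ) := by
      simp [q, map_prod, apply_one hχ, hn]
      rw [Finset.prod_mul_distrib, Finset.prod_const, Nat.card_Icc, Nat.add_sub_cancel]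
      congr 1
      rw [← Finset.prod_Ico_id_eq_factorial, Nat.cast_prod]
      rfl
    rw [hval] at hz
    have hz' : (((p ^ m * m.factorial : ℕ)) : ℤ) = z * (p : ℤ) ^ a := by exact_mod_cast hz
    have hd : p ^ a ∣ p ^ m * m.factorial := by
      rw [← Int.natCast_dvd_natCast]
      exact ⟨z, by rw [hz']; push_cast; ring⟩
    have hle := (hp.pow_dvd_iff_le_factorization
      (mul_ne_zero (pow_ne_zero _ hp.ne_zero) m.factorial_ne_zero)).1 hd
    rw [Nat.factorization_mul (pow_ne_zero _ hp.ne_zero) m.factorial_ne_zero, Finsupp.add_apply,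
      hp.factorization_pow, Finsupp.single_eq_same,
      Nat.factorization_factorial hp (b := n + 1) ((Nat.log_le_self p m).trans_lt
        (Nat.lt_succ_of_le (Nat.div_le_self n _)))] at hle
    refine hle.trans ?_
    rw [Finset.sum_range_eq_add_Ico _ (Nat.succ_pos n), pow_zero, mul_one]
    refine add_le_add le_rfl (le_of_eq (Finset.sum_congr rfl fun i _ => ?_))
    rw [hm, Nat.div_div_eq_div_mul]
  · intro x _ hx
    obtain ⟨i, hi, hxi⟩ := hspec x
    have hi0 : i ≠ 0 := by
      rintro rfl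
      refine hx (Subtype.ext (hfaith _ ?_))
      rw [hxi, apply_one hχ, hn]
      simp
    simp only [q, map_prod]
    refine Finset.prod_eq_zero (Finset.mem_Icc.2 ⟨Nat.one_le_iff_ne_zero.2 hi0, hi⟩) ?_
    simp [hxi]
  · simp

end Cfsg.Agent.S4488
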