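import Cfsg.Statements.S4492
import Cfsg.Agent.Blocks.PrincipalType
-- import your own Cfsg.Agent.* helpers here

set_option autoImplicit false
open Cfsg

namespace Cfsg.Agent.S4492

/-- Let G be a finite p-solvable group, N = O_{p'}(G) its largest normal subgroup of order prime to p, and θ an irreducible character of N invariant under conjugation by G; fix a maximal ideal M of the algebraic integers containing p. Then the irreducible characters of G lying over θ (those whose restriction to N contains θ) form a single p-block of G, and the defect groups of that block are exactly the Sylow p-subgroups of G. -/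
theorem result {G : Type*} [Group G] [Fintype G] (p : ℕ) [Fact p.Prime] (M : Ideal Cfsg.AlgInt) (hM : Cfsg.IsPModular p M) (hsolv : Cfsg.IsPSolvable p G) (N : Subgroup G) [hN : N.Normal] [Fintype N] (hNdef : N = Cfsg.pPrimeCore p G) (θ : Cfsg.IrrCharacter N) (hinv : ∀ (g : G) (n : N), (θ : N → ℂ) ⟨g * n * g⁻¹, hN.conj_mem n n.2 g⟩ = (θ : N → ℂ) n) : ∃ B : Set (Cfsg.IrrCharacter G), Cfsg.IsPBlock M B ∧ (∀ χ : Cfsg.IrrCharacter G, χ ∈ B ↔ Cfsg.classInner (fun n : N => (χ : G → ℂ) n) (θ : N → ℂ) ≠ 0) ∧ (∀ P : Sylow p G, Cfsg.IsDefectGroup p M B (P : Subgroup G)) ∧ ∀ D : Subgroup G, Cfsg.IsDefectGroup p M B D → ∃ P : Sylow p G, D = (P : Subgroup G) := by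
  obtain ⟨P₀⟩ : Nonempty (Sylow p ↥(Cfsg.pPrimePCore p G)) := inferInstance
  set Q := (P₀ : Subgroup ↥(Cfsg.pPrimePCore p G)).map (Cfsg.pPrimePCore p G).subtype with hQ
  have hQL : Q ≤ Cfsg.pPrimePCore p G := Subgroup.map_subtype_le _
  have hQp : IsPGroup p Q := P₀.isPGroup'.map _
  have hQS : ¬ p ∣ Q.relIndex (Cfsg.pPrimePCore p G) := by
    rw [Subgroup.relIndex, Subgroup.subgroupOf, hQ,
      Subgroup.comap_map_eq_self_of_injective (Cfsg.pPrimePCore p G).subtype_injective]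
    exact P₀.not_dvd_index
  have hCQ : Subgroup.centralizer (Q : Set G) ≤ Cfsg.pPrimePCore p G :=
    CfsgLib.PCore.isPConstrained_of_isPSolvable hsolv P₀
  have hθ : ∀ g : G, Cfsg.IsConjCharOf N g (θ : N → ℂ) (θ : N → ℂ) := by
    intro g k k' hk
    rw [← hinv g k]
    exact congrArg _ (Subtype.ext hk)
  refine ⟨{χ | Cfsg.classInner (fun n : N => (χ : G → ℂ) n) (θ : N → ℂ) ≠ 0}, ?_⟩
  obtain ⟨hB, hS, -⟩ := CfsgLib.Blocks.principal_type hM hNdef rfl hQL hQp hQS hCQ θ hθ
    (B := {χ | Cfsg.classInner (fun n : N => (χ : G → ℂ) n) (θ : N → ℂ) ≠ 0}) (fun χ => Iff.rfl)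
  refine ⟨hB, fun χ => Iff.rfl, hS, fun D hD => ?_⟩
  obtain ⟨S⟩ : Nonempty (Sylow p G) := inferInstance
  obtain ⟨c, hc⟩ := CfsgLib.Blocks.exists_conj_eq_defectGroup hM hB (hS S) hD
  refine ⟨c • S, ?_⟩
  rw [Sylow.coe_subgroup_smul, ← hc]
  rfl

end Cfsg.Agent.S4492
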