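import Cfsg.Statements.S4565
import Cfsg.Agent.Clifford.Gallagher
import Cfsg.Agent.Clifford.Extend

set_option autoImplicit false
set_option linter.style.haveILetI false
set_option linter.unusedSectionVars false
open Cfsg
open CfsgLib CfsgLib.CharBasics CfsgLib.Clifford
open scoped ComplexConjugate

namespace Cfsg.Agent.S4565

/-- A character orthogonal to the trivial character of a subgroup sums to zero on each coset. -/
theorem sum_coset_eq_zero {K : Type*} [Group K] {Φ : K → ℂ} (h : IsCharacter K Φ) (N : Subgroup K) [Fintype N]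
    (h0 : ∑ n : N, Φ n = 0) (g : K) : ∑ n : N, Φ (g * n) = 0 := by
  obtain ⟨m, ρ, rfl⟩ := h
  let σ : Representation ℂ N (Fin m → ℂ) := ρ.comp N.subtype
  haveI : Invertible (Fintype.card N : ℂ) := invertibleOfNonzero (Nat.cast_ne_zero.2 Fintype.card_ne_zero)
  have h1 : ⅟(Fintype.card N : ℂ) • ∑ n : N, σ.character n = (Module.finrank ℂ σ.invariants : ℂ) := by
    haveI : Invertible (Nat.card N : ℂ) := invertibleOfNonzero (Nat.cast_ne_zero.2 Nat.card_pos.ne')
    have := Representation.card_inv_mul_sum_char_eq_finrank (ρ := σ)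
    simp only [invOf_eq_inv, Nat.card_eq_fintype_card, smul_eq_mul] at this ⊢
    exact this
  have h2 : ∑ n : N, σ.character n = 0 := h0
  rw [h2, smul_zero] at h1
  have h3 : σ.invariants = ⊥ := Submodule.finrank_eq_zero.1 (by exact_mod_cast h1.symm)
  have h4 : ∑ n : N, ρ (n : K) = 0 := by
    refine LinearMap.ext fun v => ?_
    have : (∑ n : N, ρ (n : K)) v ∈ σ.invariants := by
      intro u
      show ρ (u : K) ((∑ n : N, ρ (n : K)) v) = _
      rw [LinearMap.coe_sum, Finset.sum_apply, map_sum]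
      refine Fintype.sum_equiv (Equiv.mulLeft u) _ _ fun n => ?_
      show _ = ρ ((u * n : N) : K) v
      rw [Subgroup.coe_mul, map_mul]
      rfl
    rw [h3] at this
    simpa using this
  calc ∑ n : N, ρ.character (g * n) = LinearMap.trace ℂ _ (ρ g * ∑ n : N, ρ (n : K)) := by
        rw [Finset.mul_sum, map_sum]
        exact Finset.sum_congr rfl fun n _ => by rw [Representation.character, map_mul]
    _ = 0 := by rw [h4, mul_zero, map_zero]

/-- The character below a fully ramified one has no other character above it. -/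
theorem classInner_restrict_eq_zero {H : Type*} [Group H] [Fintype H] {Z : Subgroup H} [Z.Normal] [Fintype Z]
    {θ : Z → ℂ} (hθ : IsIrrCharacter Z θ) {χ : H → ℂ} (hχ : IsIrrCharacter H χ) {e : ℕ} (he : e ^ 2 = Z.index)
    (hres : ∀ z : Z, χ z = (e : ℂ) * θ z) {ψ : H → ℂ} (hψ : IsIrrCharacter H ψ) (hne : ψ ≠ χ) :
    classInner θ (fun z : Z => ψ z) = 0 := by
  classical
  haveI : Fintype (IrrCharacter H) := @Fintype.ofFinite _ finite_irrCharacter
  have he0 : (e : ℂ) ≠ 0 := Nat.cast_ne_zero.2 fun h => Subgroup.index_ne_zero_of_finite (H := Z) (by rw [← he, h]; rfl)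
  have hinv : ∀ g : H, conjFun g θ = θ := fun g => by
    funext z
    have h1 := congrFun (conjFun_restrict (N := Z) (isClassFunction (isCharacter_of_irr hχ)) g) z
    simp only [conjFun_apply] at h1 ⊢
    rw [hres z] at h1
    exact mul_left_cancel₀ he0 ((hres ⟨_, _⟩).symm.trans h1)
  set F := indFun Z θ with hF
  choose a ha using fun φ : IrrCharacter H => classInner_character_nat (isCharacter_indFun Z (isCharacter_of_irr hθ)) φ
  have hnorm : classInner F F = ((e ^ 2 : ℕ) : ℂ) := by
    rw [hF, classInner_indFun_self_of_invariant hθ hinv, he]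
  have hsum : classInner F F = ((∑ φ : IrrCharacter H, a φ ^ 2 : ℕ) : ℂ) := by
    have h0 : classInner F F = classInner (∑ φ : IrrCharacter H, classInner F (φ : H → ℂ) • (φ : H → ℂ)) F :=
      congrArg (fun u => classInner u F) (classFun_expand (isClassFunction_indFun Z θ))
    rw [h0, classInner_sum_left]
    push_cast
    refine Finset.sum_congr rfl fun φ _ => ?_
    rw [classInner_smul_left, classInner_comm F (φ : H → ℂ), ha φ, Complex.conj_natCast, sq]
  have hχe : a ⟨χ, hχ⟩ = e := by
    have h1 : classInner F χ = (e : ℂ) := by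
      rw [hF, classInner_indFun Z θ (isClassFunction (isCharacter_of_irr hχ)),
        show (fun z : Z => χ z) = (e : ℂ) • θ from funext hres, classInner_comm, classInner_smul_left,
        classInner_self hθ, mul_one, Complex.conj_natCast]
    exact Nat.cast_injective ((ha ⟨χ, hχ⟩).symm.trans h1)
  have h2 : ∑ φ : IrrCharacter H, a φ ^ 2 = e ^ 2 := Nat.cast_injective (hsum.symm.trans hnorm)
  have h3 : a ⟨ψ, hψ⟩ = 0 := by
    have h4 := Finset.sum_le_sum_of_subset (f := fun φ => a φ ^ 2)
      (Finset.subset_univ ({⟨χ, hχ⟩, ⟨ψ, hψ⟩} : Finset (IrrCharacter H)))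
    rw [Finset.sum_pair (fun h => hne (congrArg Subtype.val h).symm), h2, hχe] at h4
    exact pow_eq_zero_iff (by norm_num : 2 ≠ 0) |>.1 (by omega)
  rw [← classInner_indFun Z θ (isClassFunction (isCharacter_of_irr hψ)), ← hF]
  exact (ha ⟨ψ, hψ⟩).trans (by rw [h3, Nat.cast_zero])

/-- A fully ramified character vanishes off the normal subgroup. -/
theorem apply_eq_zero_of_notMem {H : Type*} [Group H] [Fintype H] {Z : Subgroup H} [Fintype Z]
    {θ : Z → ℂ} (hθ : IsIrrCharacter Z θ) {χ : H → ℂ} (hχ : IsIrrCharacter H χ) {e : ℕ} (he : e ^ 2 = Z.index)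
    (hres : ∀ z : Z, χ z = (e : ℂ) * θ z) {g : H} (hg : g ∉ Z) : χ g = 0 := by
  classical
  have h1 : ∀ {A : Type _} [Group A] [Fintype A] {f : A → ℂ}, IsIrrCharacter A f →
      ∑ x, Complex.normSq (f x) = (Nat.card A : ℝ) := by
    intro A _ _ f hf
    have := classInner_self hf
    rw [classInner_eq, inv_mul_eq_iff_eq_mul₀ (Nat.cast_ne_zero.2 Nat.card_pos.ne'), mul_one] at this
    simp only [Complex.mul_conj] at this
    exact_mod_cast this
  have hH := h1 hχ
  have hZ := h1 hθ
  have h2 : ∑ x ∈ Finset.univ.filter (· ∈ Z), Complex.normSq (χ x) = (Nat.card H : ℝ) := by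
    rw [Finset.sum_subtype _ (p := fun x => x ∈ Z) (by simp)]
    rw [show ∑ x : {x // x ∈ Z}, Complex.normSq (χ x) = ∑ x : Z, (e : ℝ) ^ 2 * Complex.normSq (θ x) from
      Finset.sum_congr rfl fun x _ => by rw [hres, Complex.normSq_mul, Complex.normSq_natCast]; ring]
    rw [← Finset.mul_sum, hZ, ← Nat.cast_pow, he, ← Nat.cast_mul, Subgroup.index_mul_card]
  rw [← Finset.sum_filter_add_sum_filter_not Finset.univ (· ∈ Z), h2, add_eq_left,
    Finset.sum_eq_zero_iff_of_nonneg (fun x _ => Complex.normSq_nonneg _)] at hH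
  exact Complex.normSq_eq_zero.1 (hH g (Finset.mem_filter.2 ⟨Finset.mem_univ _, hg⟩))

/-- Let χ be an irreducible character of the finite group H that is fully ramified over the normal subgroup Z: the restriction of χ to Z is e times an irreducible character of Z with e ^ 2 equal to the index of Z. If Z ≠ H, then H/Z has no cyclic subgroup that is its own centralizer. -/
theorem result {H : Type*} [Group H] [Finite H] (Z : Subgroup H) [Z.Normal] (χ : Cfsg.IrrCharacter H) (hfr : ∃ (θ : Cfsg.IrrCharacter ↥Z) (e : ℕ), e ^ 2 = Z.index ∧ ∀ z : ↥Z, (χ : H → ℂ) z = (e : ℂ) * (θ : ↥Z → ℂ) z) (hZ : Z ≠ ⊤) (C : Subgroup (H ⧸ Z)) (hC : IsCyclic C) : Subgroup.centralizer (C : Set (H ⧸ Z)) ≠ C := by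
  classical
  haveI : Fintype H := Fintype.ofFinite H
  haveI : Fintype Z := Fintype.ofFinite Z
  obtain ⟨θ, e, he, hres⟩ := hfr
  intro hCC
  obtain ⟨⟨c, hcC⟩, hc⟩ := hC.exists_generator
  have hc1 : c ≠ 1 := by
    rintro rfl
    apply hZ
    have hb : C = ⊥ := by
      rw [eq_bot_iff]
      intro x hx
      obtain ⟨k, hk⟩ := Subgroup.mem_zpowers_iff.1 (hc ⟨x, hx⟩)
      have := congrArg Subtype.val hk
      simp only [SubgroupClass.coe_zpow, one_zpow] at this
      exact Subgroup.mem_bot.2 this.symm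
    rw [eq_top_iff]
    intro x _
    have h1 : (x : H ⧸ Z) ∈ C := by
      rw [← hCC, hb, Subgroup.mem_centralizer_iff]
      intro y hy
      rw [SetLike.mem_coe, Subgroup.mem_bot] at hy
      rw [hy, one_mul, mul_one]
    rw [hb, Subgroup.mem_bot] at h1
    exact (QuotientGroup.eq_one_iff x).1 h1
  obtain ⟨g₀, rfl⟩ := QuotientGroup.mk_surjective c
  set K : Subgroup H := C.comap (QuotientGroup.mk' Z) with hKdef
  haveI : Fintype K := Fintype.ofFinite K
  set N : Subgroup K := Z.subgroupOf K with hNdef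
  haveI : Fintype N := Fintype.ofFinite N
  have hZK : Z ≤ K := fun x hx => by
    show ((x : H) : H ⧸ Z) ∈ C
    rw [(QuotientGroup.eq_one_iff x).2 hx]; exact C.one_mem
  let eN : N ≃* Z := Subgroup.subgroupOfEquivOfLe hZK
  have he0 : (e : ℂ) ≠ 0 := Nat.cast_ne_zero.2 fun h => Subgroup.index_ne_zero_of_finite (H := Z) (by rw [← he, h]; rfl)
  -- the extension to `K`
  have hcyc : IsCyclic (K ⧸ N) := by
    let f : K →* C := ((QuotientGroup.mk' Z).comp K.subtype).codRestrict C fun x => x.2
    have hf : f.ker = N := by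
      ext x
      rw [MonoidHom.mem_ker, hNdef, Subgroup.mem_subgroupOf, ← QuotientGroup.eq_one_iff, Subtype.ext_iff]
      rfl
    have hs : Function.Surjective f := fun y => by
      obtain ⟨x, hx⟩ := QuotientGroup.mk_surjective y.1
      exact ⟨⟨x, show (x : H ⧸ Z) ∈ C from hx ▸ y.2⟩, Subtype.ext hx⟩
    let E : K ⧸ N ≃* C := (QuotientGroup.quotientMulEquivOfEq hf.symm).trans (QuotientGroup.quotientKerEquivOfSurjective f hs)
    exact E.isCyclic.2 hC
  obtain ⟨m, σ, hσ, hσθ⟩ := irr_comp_of_surjective θ.2 eN.toMonoidHom eN.surjective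
  have hinv : ∀ (x : K) (n : N), σ.character (MulAut.conjNormal x n) = σ.character n := by
    intro x n
    rw [hσθ]
    refine mul_left_cancel₀ he0 ?_
    show (e : ℂ) * (θ : Z → ℂ) (eN _) = (e : ℂ) * (θ : Z → ℂ) (eN n)
    rw [← hres, ← hres]
    exact isClassFunction (isCharacter_of_irr χ.2) ((n : K) : H) (x : H)
  obtain ⟨ρ, hρ, hρN⟩ := exists_extension_of_cyclic hcyc hσ hinv
  set η : K → ℂ := ρ.character with hη
  have hηirr : IsIrrCharacter K η := ⟨m, ρ, hρ, rfl⟩
  have hηN : ∀ n : N, η n = (θ : Z → ℂ) (eN n) := fun n => by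
    have := congrFun hσθ n
    refine Eq.trans ?_ this
    rw [hη]
    exact congrArg (LinearMap.trace ℂ _) (hρN n)
  have hg₀K : g₀ ∈ K := hcC
  set g : K := ⟨g₀, hg₀K⟩ with hg
  -- the second moment on the coset
  have hΦ : ∑ n : N, η (g * n) * conj (η (g * n)) = (Fintype.card N : ℂ) := by
    have hP : IsCharacter K (fun x => η x * conj (η x)) :=
      CharBasics.isCharacter_mul (isCharacter_of_irr hηirr) (isCharacter_star (isCharacter_of_irr hηirr))
    have h1 : classInner (fun x => η x * conj (η x)) (fun _ : K => (1 : ℂ)) ≠ 0 := by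
      rw [classInner_eq]
      have := classInner_self hηirr
      rw [classInner_eq] at this
      simp only [map_one, mul_one]
      rw [this]; exact one_ne_zero
    obtain ⟨R, hR, hsum⟩ := exists_eq_add_of_constituent hP isIrrCharacter_one h1
    have hR0 : ∑ n : N, R n = 0 := by
      have h2 : ∑ n : N, η n * conj (η n) = (Fintype.card N : ℂ) := by
        have := classInner_self θ.2
        rw [classInner_eq, inv_mul_eq_iff_eq_mul₀ (Nat.cast_ne_zero.2 Nat.card_pos.ne'), mul_one] at this
        rw [Fintype.card_congr eN.toEquiv, ← Nat.card_eq_fintype_card, ← this]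
        exact Fintype.sum_equiv eN.toEquiv _ _ fun n => by rw [hηN]; rfl
      rw [Finset.sum_congr rfl fun (n : N) _ => congrFun hsum (n : K)] at h2
      simpa [Finset.sum_add_distrib] using h2
    have h3 := sum_coset_eq_zero hR N hR0 g
    rw [Finset.sum_congr rfl fun (n : N) _ => congrFun hsum (g * n)]
    simp [Finset.sum_add_distrib, h3]
  obtain ⟨n₀, hn₀⟩ : ∃ n : N, η (g * n) ≠ 0 := by
    by_contra hcon
    push Not at hcon
    rw [Finset.sum_eq_zero fun n _ => by rw [hcon n, zero_mul]] at hΦ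
    exact (Nat.cast_ne_zero.2 Fintype.card_ne_zero) hΦ.symm
  set k : K := g * n₀ with hk
  set f : K → ℂ := fun x => if g⁻¹ * x ∈ N then η x else 0 with hf
  have hkZ : (k : H) ∉ Z := fun hmem => hc1 (by
    have hn : ((n₀ : K) : H) ∈ Z := n₀.2
    exact (QuotientGroup.eq_one_iff g₀).2 ((Subgroup.mul_mem_cancel_right Z hn).1 hmem))
  have hFk : indFun K f (k : H) = η k := by
    have hterm : ∀ x : H, extendByZero K f (x⁻¹ * (k : H) * x) = if x ∈ K then η k else 0 := by
      intro x
      by_cases hxK : x ∈ K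
      · have hy : x⁻¹ * (k : H) * x ∈ K := K.mul_mem (K.mul_mem (K.inv_mem hxK) k.2) hxK
        rw [if_pos hxK, CharBasics.extendByZero_coe K f ⟨_, hy⟩, hf]
        have he2 : (⟨x⁻¹ * (k : H) * x, hy⟩ : K) = (⟨x, hxK⟩ : K)⁻¹ * k * ⟨x, hxK⟩ := rfl
        simp only
        rw [he2, if_pos, apply_conj' (isCharacter_of_irr hηirr)]
        rw [hNdef, Subgroup.mem_subgroupOf, ← QuotientGroup.eq_one_iff]
        have hcomm : ((x : H) : H ⧸ Z) * (g₀ : H ⧸ Z) = (g₀ : H ⧸ Z) * (x : H ⧸ Z) := by
          have hxC : (x : H ⧸ Z) ∈ Subgroup.centralizer (C : Set (H ⧸ Z)) := hCC.symm ▸ (show (x : H ⧸ Z) ∈ C from hxK)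
          exact (Subgroup.mem_centralizer_iff.1 hxC _ hcC).symm
        simp only [hk, hg, Subgroup.coe_mul, Subgroup.coe_inv, QuotientGroup.mk_mul, QuotientGroup.mk_inv,
          (QuotientGroup.eq_one_iff _).2 (Subgroup.mem_subgroupOf.1 n₀.2), mul_one]
        rw [mul_assoc _ _ (x : H ⧸ Z), ← hcomm]
        group
      · rw [if_neg hxK]
        by_cases hy : x⁻¹ * (k : H) * x ∈ K
        · rw [CharBasics.extendByZero_coe K f ⟨_, hy⟩, hf]
          simp only
          rw [if_neg]
          intro hmem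
          apply hxK
          show (x : H ⧸ Z) ∈ C
          rw [← hCC, Subgroup.mem_centralizer_iff]
          intro y hy'
          obtain ⟨j, hj⟩ := Subgroup.mem_zpowers_iff.1 (hc ⟨y, hy'⟩)
          have hj' : (g₀ : H ⧸ Z) ^ j = y := congrArg Subtype.val hj
          rw [hNdef, Subgroup.mem_subgroupOf, ← QuotientGroup.eq_one_iff] at hmem
          simp only [hk, hg, Subgroup.coe_mul, Subgroup.coe_inv, QuotientGroup.mk_mul, QuotientGroup.mk_inv,
            (QuotientGroup.eq_one_iff _).2 (Subgroup.mem_subgroupOf.1 n₀.2), mul_one] at hmem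
          have hcomm : Commute (g₀ : H ⧸ Z) (x : H ⧸ Z) := by
            have h5 := inv_mul_eq_one.1 hmem
            show (g₀ : H ⧸ Z) * x = x * g₀
            conv_rhs => rw [h5]
            group
          rw [← hj']
          exact (hcomm.zpow_left j).eq
        · exact CharBasics.extendByZero_of_not_mem K f hy
    simp only [indFun, hterm]
    rw [← Finset.sum_filter, Finset.sum_const, nsmul_eq_mul, ← Fintype.card_subtype, ← Nat.card_eq_fintype_card,
      inv_mul_cancel_left₀ (Nat.cast_ne_zero.2 Nat.card_pos.ne')]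
  have horth : ∀ ψ : IrrCharacter H, ψ ≠ χ → classInner (indFun K f) (ψ : H → ℂ) = 0 := by
    intro ψ hne
    rw [classInner_indFun K f (isClassFunction (isCharacter_of_irr ψ.2)), classInner_eq]
    refine mul_eq_zero_of_right _ ?_
    have hP : IsCharacter K (fun x : K => η x * conj ((ψ : H → ℂ) x)) :=
      CharBasics.isCharacter_mul (isCharacter_of_irr hηirr) (isCharacter_star (CharBasics.isCharacter_restrict (isCharacter_of_irr ψ.2) K))
    have h0 : ∑ n : N, η n * conj ((ψ : H → ℂ) (n : K)) = 0 := by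
      have h1 := classInner_restrict_eq_zero θ.2 χ.2 he hres ψ.2 (fun h => hne (Subtype.ext h))
      rw [classInner_eq] at h1
      rw [← (mul_eq_zero.1 h1).resolve_left (inv_ne_zero (Nat.cast_ne_zero.2 Nat.card_pos.ne'))]
      exact Fintype.sum_equiv eN.toEquiv _ _ fun n => by rw [hηN]; rfl
    rw [← sum_coset_eq_zero hP N h0 g]
    simp only [hf, ite_mul, zero_mul]
    rw [← Finset.sum_filter]
    refine Finset.sum_bij' (fun x hx => ⟨g⁻¹ * x, (Finset.mem_filter.1 hx).2⟩) (fun n _ => g * n)
      (fun _ _ => Finset.mem_univ _) (fun n _ => Finset.mem_filter.2 ⟨Finset.mem_univ _, by simp⟩)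
      (fun x _ => by simp) (fun n _ => Subtype.ext (by simp)) (fun x _ => by simp)
  haveI : Fintype (IrrCharacter H) := @Fintype.ofFinite _ finite_irrCharacter
  have hexp := congrFun (classFun_expand (isClassFunction_indFun K f)) (k : H)
  rw [hFk, Finset.sum_apply, Finset.sum_eq_single χ (fun ψ _ hne => by simp [horth ψ hne]) (by simp),
    Pi.smul_apply, apply_eq_zero_of_notMem θ.2 χ.2 he hres hkZ, smul_zero] at hexp
  exact hn₀ hexp

end Cfsg.Agent.S4565
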