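import Cfsg.Statements.S4508
import Cfsg.Agent.S4565
import Cfsg.Agent.SelfCentP.Basic
import Cfsg.Agent.Clifford.EigenProd
import Cfsg.Agent.CharBasics.Extra

set_option autoImplicit false
set_option linter.style.haveILetI false
set_option linter.unusedSectionVars false
open Cfsg
open CfsgLib CfsgLib.CharBasics
open scoped ComplexConjugate

namespace Cfsg.Agent.S4508

variable {G : Type*} [Group G] [Fintype G]

/-- Bessel's inequality. -/
theorem bessel (F : G → ℂ) (hF : IsClassFunction G F) (s : Finset (IrrCharacter G)) :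
    ∑ φ ∈ s, Complex.normSq (classInner F (φ : G → ℂ)) ≤ (classInner F F).re := by
  classical
  haveI : Fintype (IrrCharacter G) := @Fintype.ofFinite _ finite_irrCharacter
  have h : classInner F F = ((∑ φ : IrrCharacter G, Complex.normSq (classInner F (φ : G → ℂ)) : ℝ) : ℂ) := by
    have h0 : classInner F F = classInner (∑ φ : IrrCharacter G, classInner F (φ : G → ℂ) • (φ : G → ℂ)) F :=
      congrArg (fun u => classInner u F) (classFun_expand hF)
    rw [h0, classInner_sum_left, Complex.ofReal_sum]
    exact Finset.sum_congr rfl fun φ _ => by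
      rw [classInner_smul_left, classInner_comm F (φ : G → ℂ), Complex.mul_conj]
  rw [h, Complex.ofReal_re]
  exact Finset.sum_le_sum_of_subset_of_nonneg (Finset.subset_univ s) (fun _ _ _ => Complex.normSq_nonneg _)

variable {p : ℕ} {x : G}

/-- Conjugation of the subgroup by an element of the normaliser. -/
def conjZ (x : G) (g : Subgroup.normalizer (Subgroup.zpowers x : Set G)) : Subgroup.zpowers x →* Subgroup.zpowers x where
  toFun u := ⟨(g : G)⁻¹ * u * g, by
    have := (Subgroup.mem_normalizer_iff.1 (Subgroup.inv_mem _ g.2) (u : G)).1 u.2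
    simpa using this⟩
  map_one' := Subtype.ext (by simp)
  map_mul' u v := Subtype.ext (by
    show (g : G)⁻¹ * (u * v) * g = (g : G)⁻¹ * u * g * ((g : G)⁻¹ * v * g)
    group)

theorem conjZ_bijective (g : Subgroup.normalizer (Subgroup.zpowers x : Set G)) : Function.Bijective (conjZ x g) := by
  have hinj : Function.Injective (conjZ x g) := fun u v h => by
    have : (g : G)⁻¹ * u * g = (g : G)⁻¹ * v * g := congrArg Subtype.val h
    exact Subtype.ext (mul_left_cancel (mul_right_cancel this))
  exact ⟨hinj, Finite.injective_iff_surjective.1 hinj⟩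

/-- The twist of an irreducible character of the subgroup. -/
def twist (g : Subgroup.normalizer (Subgroup.zpowers x : Set G)) (l : IrrCharacter (Subgroup.zpowers x)) :
    IrrCharacter (Subgroup.zpowers x) :=
  ⟨_, irr_comp_of_surjective l.2 (conjZ x g) (conjZ_bijective g).2⟩

theorem twist_apply (g : Subgroup.normalizer (Subgroup.zpowers x : Set G)) (l : IrrCharacter (Subgroup.zpowers x))
    (u : Subgroup.zpowers x) : (twist g l : Subgroup.zpowers x → ℂ) u = (l : Subgroup.zpowers x → ℂ) (conjZ x g u) := rfl

theorem twist_mul (g h : Subgroup.normalizer (Subgroup.zpowers x : Set G)) (l : IrrCharacter (Subgroup.zpowers x)) :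
    twist g (twist h l) = twist (g * h) l := by
  refine Subtype.ext (funext fun u => ?_)
  simp only [twist_apply]
  refine congrArg _ (Subtype.ext ?_)
  show (h : G)⁻¹ * ((g : G)⁻¹ * u * g) * h = ((g * h : _) : G)⁻¹ * u * ((g * h : _) : G)
  simp only [Subgroup.coe_mul]
  group

variable (S : SelfCentP.Setting p x)
include S

theorem linear (l : IrrCharacter (Subgroup.zpowers x)) :
    (l : Subgroup.zpowers x → ℂ) 1 = 1 ∧
      ∀ u v, (l : Subgroup.zpowers x → ℂ) (u * v) = (l : Subgroup.zpowers x → ℂ) u * (l : Subgroup.zpowers x → ℂ) v :=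
  irr_comm_hom l.2

theorem mem_of_twist {g : Subgroup.normalizer (Subgroup.zpowers x : Set G)} {l : IrrCharacter (Subgroup.zpowers x)}
    (hl : (l : Subgroup.zpowers x → ℂ) ≠ fun _ => 1) (h : twist g l = l) : (g : G) ∈ Subgroup.zpowers x := by
  by_contra hg
  obtain ⟨h1, hmul⟩ := linear S l
  -- the kernel contains a non-trivial element
  let x' : Subgroup.zpowers x := ⟨x, Subgroup.mem_zpowers x⟩
  set w := (conjZ x g x')⁻¹ * x' with hw
  have hwl : (l : Subgroup.zpowers x → ℂ) w = 1 := by
    have e : (l : Subgroup.zpowers x → ℂ) (conjZ x g x') = (l : Subgroup.zpowers x → ℂ) x' := by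
      rw [← twist_apply, h]
    rw [hw, hmul, ← e, ← hmul, inv_mul_cancel, h1]
  have hw1 : w ≠ 1 := by
    intro hw1
    apply hg
    refine S.mem_zpowers_of_commute ?_
    have : (g : G)⁻¹ * x * g = x := congrArg Subtype.val (inv_mul_eq_one.1 hw1)
    calc (g : G) * x = g * ((g : G)⁻¹ * x * g) := by rw [this]
      _ = x * g := by group
  apply hl
  funext u
  haveI := Fact.mk S.prime
  have hz : u ∈ Subgroup.zpowers w := mem_zpowers_of_prime_card (p := p) S.card_zpowers hw1
  obtain ⟨k, rfl⟩ := mem_powers_iff_mem_zpowers.2 hz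
  show (l : Subgroup.zpowers x → ℂ) (w ^ k) = 1
  induction k with
  | zero => simpa using h1
  | succ k ih => rw [pow_succ, hmul, ih (Subgroup.pow_mem _ (Subgroup.mem_zpowers w) k), hwl, mul_one]

/-- The induced function on the subgroup. -/
theorem indFun_apply_mem [Fintype (Subgroup.zpowers x)] [Fintype (Subgroup.normalizer (Subgroup.zpowers x : Set G))]
    {f : Subgroup.zpowers x → ℂ} (hf : f 1 = 0) (u : Subgroup.zpowers x) :
    indFun (Subgroup.zpowers x) f (u : G) =
      (Nat.card (Subgroup.zpowers x) : ℂ)⁻¹ * ∑ g : Subgroup.normalizer (Subgroup.zpowers x : Set G), f (conjZ x g u) := by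
  classical
  unfold indFun
  congr 1
  rcases eq_or_ne u 1 with rfl | hu
  · rw [Finset.sum_eq_zero, Finset.sum_eq_zero]
    · intro g _; rw [map_one, hf]
    · intro g _
      have : g⁻¹ * ((1 : Subgroup.zpowers x) : G) * g = ((1 : Subgroup.zpowers x) : G) := by simp
      rw [this, CharBasics.extendByZero_coe, hf]
  · have hz : ∀ g : G, g ∉ Subgroup.normalizer (Subgroup.zpowers x : Set G) →
        g⁻¹ * (u : G) * g ∉ Subgroup.zpowers x := by
      intro g hg hmem
      apply hg
      haveI := Fact.mk S.prime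
      have hgen : ∀ v : Subgroup.zpowers x, v ∈ Subgroup.zpowers u := fun v =>
        mem_zpowers_of_prime_card (p := p) S.card_zpowers hu
      have hone : ∀ v ∈ Subgroup.zpowers x, g⁻¹ * v * g ∈ Subgroup.zpowers x := by
        intro v hv
        obtain ⟨k, hk⟩ := Subgroup.mem_zpowers_iff.1 (hgen ⟨v, hv⟩)
        have hk' : (u : G) ^ k = v := congrArg Subtype.val hk
        have e : g⁻¹ * (u : G) ^ k * g = (g⁻¹ * u * g) ^ k := by
          have := conj_zpow (a := g⁻¹) (b := (u : G)) (i := k)
          rw [inv_inv] at this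
          exact this.symm
        rw [← hk', e]
        exact Subgroup.zpow_mem _ hmem k
      have hinv : g⁻¹ ∈ Subgroup.normalizer (Subgroup.zpowers x : Set G) := by
        refine Subgroup.mem_normalizer_iff.2 fun v => ⟨fun hv => by simpa using hone v hv, fun hv => ?_⟩
        let F : Subgroup.zpowers x → Subgroup.zpowers x := fun w => ⟨g⁻¹ * w * g, hone w w.2⟩
        have hF : Function.Injective F := fun a b h => by
          have : g⁻¹ * (a : G) * g = g⁻¹ * b * g := congrArg Subtype.val h
          exact Subtype.ext (mul_left_cancel (mul_right_cancel this))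
        obtain ⟨w, hw⟩ := (Finite.injective_iff_surjective.1 hF) ⟨g⁻¹ * v * g, by simpa using hv⟩
        have : g⁻¹ * (w : G) * g = g⁻¹ * v * g := congrArg Subtype.val hw
        rw [← mul_left_cancel (mul_right_cancel this)]
        exact w.2
      simpa using Subgroup.inv_mem _ hinv
    rw [← Finset.sum_subset (Finset.subset_univ
      (Finset.univ.filter fun g => g ∈ Subgroup.normalizer (Subgroup.zpowers x : Set G)))
      (fun g _ hg => CharBasics.extendByZero_of_not_mem _ _ (hz g (by simpa using hg))),
      Finset.sum_subtype (Finset.univ.filter fun g => g ∈ Subgroup.normalizer (Subgroup.zpowers x : Set G))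
        (p := fun g => g ∈ Subgroup.normalizer (Subgroup.zpowers x : Set G)) (by simp)]
    exact Finset.sum_congr rfl fun g _ => CharBasics.extendByZero_coe _ f (conjZ x g u)

/-- The norm of the induced difference of two characters of the subgroup. -/
theorem norm_le [Fintype (Subgroup.zpowers x)] [Fintype (Subgroup.normalizer (Subgroup.zpowers x : Set G))]
    [DecidableEq (IrrCharacter (Subgroup.zpowers x))] (l m : IrrCharacter (Subgroup.zpowers x)) :
    (classInner (indFun (Subgroup.zpowers x) ((l : Subgroup.zpowers x → ℂ) - (m : Subgroup.zpowers x → ℂ)))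
      (indFun (Subgroup.zpowers x) ((l : Subgroup.zpowers x → ℂ) - (m : Subgroup.zpowers x → ℂ)))).re * p ≤
      ((Finset.univ.filter fun g => twist g l = l).card : ℝ) + (Finset.univ.filter fun g => twist g m = m).card := by
  classical
  set f : Subgroup.zpowers x → ℂ := (l : Subgroup.zpowers x → ℂ) - (m : Subgroup.zpowers x → ℂ) with hf
  have hf1 : f 1 = 0 := by rw [hf, Pi.sub_apply, (linear S l).1, (linear S m).1, sub_self]
  rw [classInner_indFun (Subgroup.zpowers x) f (isClassFunction_indFun (Subgroup.zpowers x) f)]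
  have h1 : (fun u : (Subgroup.zpowers x) => indFun (Subgroup.zpowers x) f u) = (Nat.card (Subgroup.zpowers x) : ℂ)⁻¹ •
      ∑ g : Subgroup.normalizer (Subgroup.zpowers x : Set G), ((twist g l : (Subgroup.zpowers x) → ℂ) - (twist g m : (Subgroup.zpowers x) → ℂ)) := by
    funext u
    rw [indFun_apply_mem S hf1, Pi.smul_apply, Finset.sum_apply, smul_eq_mul]
    rfl
  rw [h1, classInner_comm, classInner_smul_left, classInner_sum_left, map_mul, map_inv₀, Complex.conj_natCast, map_sum]
  have h2 : ∀ g, conj (classInner ((twist g l : (Subgroup.zpowers x) → ℂ) - (twist g m : (Subgroup.zpowers x) → ℂ)) f) =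
      ((if twist g l = l then 1 else 0) - (if twist g l = m then 1 else 0) -
        (if twist g m = l then 1 else 0) + (if twist g m = m then 1 else 0) : ℝ) := by
    intro g
    have e : ∀ a b : IrrCharacter (Subgroup.zpowers x), classInner (a : (Subgroup.zpowers x) → ℂ) (b : (Subgroup.zpowers x) → ℂ) = ((if a = b then 1 else 0 : ℝ) : ℂ) := by
      intro a b
      split_ifs with h
      · rw [h, classInner_self b.2, Complex.ofReal_one]
      · rw [classInner_ne a.2 b.2 (fun h' => h (Subtype.ext h')), Complex.ofReal_zero]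
    have esub : ∀ a b c : (Subgroup.zpowers x) → ℂ, classInner (a - b) c = classInner a c - classInner b c := fun a b c => by
      simp only [classInner_eq, Pi.sub_apply, sub_mul, Finset.sum_sub_distrib, mul_sub]
    have esub' : ∀ a b c : (Subgroup.zpowers x) → ℂ, classInner a (b - c) = classInner a b - classInner a c := fun a b c => by
      simp only [classInner_eq, Pi.sub_apply, map_sub, mul_sub, Finset.sum_sub_distrib]
    rw [hf, esub, esub', esub', e, e, e, e, map_sub, map_sub, map_sub]
    simp only [Complex.conj_ofReal]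
    push_cast
    ring
  rw [Finset.sum_congr rfl fun g _ => h2 g, ← Complex.ofReal_sum, S.card_zpowers, ← Complex.ofReal_natCast,
    ← Complex.ofReal_inv, ← Complex.ofReal_mul, Complex.ofReal_re]
  rw [mul_comm ((p : ℝ)⁻¹), mul_assoc, inv_mul_cancel₀ (Nat.cast_ne_zero.2 S.prime.ne_zero), mul_one]
  rw [Finset.sum_add_distrib, Finset.sum_sub_distrib, Finset.sum_sub_distrib, Finset.sum_boole, Finset.sum_boole,
    Finset.sum_boole, Finset.sum_boole]
  have a1 : (0 : ℝ) ≤ ((Finset.univ.filter fun g => twist g l = m).card : ℝ) := Nat.cast_nonneg _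
  have a2 : (0 : ℝ) ≤ ((Finset.univ.filter fun g => twist g m = l).card : ℝ) := Nat.cast_nonneg _
  linarith

omit S in
theorem root_prod {e : ℕ} (he : Even e) (he0 : e ≠ 0) {t : ℕ} (ht : Odd t) {ζ : ℂ} (hζ : IsPrimitiveRoot ζ e) :
    (∏ j : Fin e, ζ ^ (j : ℕ)) ^ t = -1 := by
  obtain ⟨k, hk⟩ := he
  have hk0 : k ≠ 0 := fun h => he0 (by omega)
  have h1 : ζ ^ k = -1 := by
    have h2 : (ζ ^ k) ^ 2 = 1 := by rw [← pow_mul, show k * 2 = e by omega, hζ.pow_eq_one]
    rcases sq_eq_one_iff.1 h2 with h | h
    · exact absurd h (hζ.pow_ne_one_of_pos_of_lt hk0 (by omega))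
    · exact h
  rw [Finset.prod_pow_eq_pow_sum, Fin.sum_univ_eq_sum_range (fun i => i) e, Finset.sum_range_id,
    show e * (e - 1) / 2 = k * (e - 1) by
      rw [show e * (e - 1) = k * (e - 1) * 2 by rw [hk]; ring, Nat.mul_div_cancel _ (by norm_num : 0 < 2)]]
  rw [pow_mul, h1, ← pow_mul, Odd.neg_one_pow]
  exact (Nat.odd_mul.2 ⟨⟨k - 1, by omega⟩, ht⟩)

omit S in
set_option maxHeartbeats 2000000 in
/-- Let the finite group G contain an element x of prime order p with C_G(x) = ⟨x⟩, and let t be the number of conjugacy classes of elements of order p. If G has an irreducible character of degree p − 1, then t is even or the commutator subgroup has even index. -/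
theorem result {G : Type*} [Group G] [Finite G] (p : ℕ) (hp : p.Prime) (x : G) (hx : orderOf x = p) (hC : Subgroup.centralizer ({x} : Set G) = Subgroup.zpowers x) (t : ℕ) (ht : Nat.card {C : ConjClasses G // ∃ g ∈ C.carrier, orderOf g = p} = t) (χ : Cfsg.IrrCharacter G) (hχ : Cfsg.charDegree (χ : G → ℂ) + 1 = p) : Even t ∨ Even (commutator G).index := by
  classical
  haveI : Fintype G := Fintype.ofFinite G
  let S : SelfCentP.Setting p x := ⟨hp, hx, hC⟩
  haveI := Fact.mk hp
  haveI : Fintype (Subgroup.zpowers x) := Fintype.ofFinite _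
  haveI : Fintype (Subgroup.normalizer (Subgroup.zpowers x : Set G)) := Fintype.ofFinite _
  haveI : Fintype (IrrCharacter (Subgroup.zpowers x)) := @Fintype.ofFinite _ finite_irrCharacter
  by_cases heven : Even t
  · exact Or.inl heven
  refine Or.inr ?_
  set e := (Subgroup.zpowers x).relIndex (Subgroup.normalizer (Subgroup.zpowers x : Set G)) with he
  have hte : t * e = p - 1 := by rw [← ht]; exact S.classes_mul
  rcases hp.eq_two_or_odd with rfl | hodd
  · have he1 : e = 1 := Nat.eq_one_of_dvd_one ⟨t, by rw [mul_comm, hte]⟩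
    rw [(S.commutator_of_relIndex_one he1).2.1]
    exact even_two
  have hp3 : 3 ≤ p := by have := hp.two_le; omega
  have hee : Even e := by
    have h1 : Even (t * e) := by rw [hte, Nat.even_sub (by omega)]; simp [Nat.odd_iff.2 hodd, Nat.not_even_iff.2 hodd]
    exact (Nat.even_mul.1 h1).resolve_left heven
  have he0 : e ≠ 0 := by rw [he]; exact Subgroup.index_ne_zero_of_finite
  -- an element of order `e` of the normaliser
  set P : Subgroup (Subgroup.normalizer (Subgroup.zpowers x : Set G)) :=
    (Subgroup.zpowers x).subgroupOf (Subgroup.normalizer (Subgroup.zpowers x : Set G)) with hP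
  haveI : P.Normal := Subgroup.normal_in_normalizer
  haveI : IsCyclic P := (Subgroup.subgroupOfEquivOfLe
    (Subgroup.le_normalizer (H := Subgroup.zpowers x))).isCyclic.2 (Subgroup.isCyclic_zpowers x)
  set φ : Subgroup.normalizer (Subgroup.zpowers x : Set G) →* MulAut P := MulAut.conjNormal with hφ
  have hker : φ.ker = P := by
    ext g
    rw [MonoidHom.mem_ker]
    constructor
    · intro h
      refine S.mem_zpowers_of_commute ?_
      have hxN : x ∈ Subgroup.normalizer (Subgroup.zpowers x : Set G) := Subgroup.le_normalizer (Subgroup.mem_zpowers x)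
      have h1 := congrArg (fun a : MulAut P => ((a ⟨⟨x, hxN⟩, Subgroup.mem_zpowers x⟩ :
        Subgroup.normalizer (Subgroup.zpowers x : Set G)) : G)) h
      simp [hφ] at h1
      exact mul_inv_eq_iff_eq_mul.1 h1
    · intro hg
      refine MulEquiv.ext fun u => Subtype.ext (Subtype.ext ?_)
      have hc : Commute (g : G) ((u : Subgroup.normalizer (Subgroup.zpowers x : Set G)) : G) := by
        obtain ⟨i, hi⟩ := Subgroup.mem_zpowers_iff.1 (show (g : G) ∈ Subgroup.zpowers x from hg)
        obtain ⟨j, hj⟩ := Subgroup.mem_zpowers_iff.1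
          (show ((u : Subgroup.normalizer (Subgroup.zpowers x : Set G)) : G) ∈ Subgroup.zpowers x from u.2)
        rw [← hi, ← hj]; exact Commute.zpow_zpow_self x i j
      simp [hφ, hc.eq]
  have hPc : Nat.card P = p := by
    rw [hP, Nat.card_congr (Subgroup.subgroupOfEquivOfLe
      (Subgroup.le_normalizer (H := Subgroup.zpowers x))).toEquiv, S.card_zpowers]
  have hPp : ∀ u ∈ P, u ^ p = 1 := fun u hu => by
    have h := pow_card_eq_one' (G := P) (x := ⟨u, hu⟩)
    rw [hPc] at h
    exact congrArg Subtype.val h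
  haveI : IsCyclic (MulAut P) := by
    haveI : IsCyclic (ZMod (Nat.card P))ˣ := by rw [hPc]; infer_instance
    exact (IsCyclic.mulAutMulEquiv P).isCyclic.2 inferInstance
  obtain ⟨⟨a, g₀, hg₀⟩, hgen⟩ := IsCyclic.exists_generator (α := φ.range)
  have hcardR : Nat.card φ.range = e := by
    rw [← Subgroup.index_ker, hker, he, hP]; rfl
  have hord₀ : orderOf (φ g₀) = e := by
    rw [hg₀, ← hcardR, ← orderOf_eq_card_of_forall_mem_zpowers hgen]
    exact Subgroup.orderOf_coe (⟨a, g₀, hg₀⟩ : φ.range)
  have hcop : Nat.Coprime e p := by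
    refine (hp.coprime_iff_not_dvd.2 fun h => ?_).symm
    have h1 : e ≤ p - 1 := Nat.le_of_dvd (by omega) ⟨t, by rw [← hte, mul_comm]⟩
    have := Nat.le_of_dvd (Nat.pos_of_ne_zero he0) h
    omega
  set y := g₀ ^ p with hy
  have hyφ : orderOf (φ y) = e := by rw [hy, map_pow, Nat.Coprime.orderOf_pow (hord₀.symm ▸ hcop), hord₀]
  have hye : y ^ e = 1 := by
    rw [hy, ← pow_mul, mul_comm, pow_mul]
    refine hPp _ ?_
    rw [← hker, MonoidHom.mem_ker, map_pow, ← hord₀, pow_orderOf_eq_one]
  have hyP : ∀ k : ℕ, ((y ^ k : Subgroup.normalizer (Subgroup.zpowers x : Set G)) : G) ∈ Subgroup.zpowers x → e ∣ k := by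
    intro k hk
    have : y ^ k ∈ φ.ker := by rw [hker]; exact hk
    rw [MonoidHom.mem_ker, map_pow] at this
    rw [← hyφ]; exact orderOf_dvd_of_pow_eq_one this
  -- the multiplicities
  choose m hm using fun l : IrrCharacter (Subgroup.zpowers x) =>
    classInner_character_nat (isCharacter_restrict (isCharacter_of_irr χ.2) (Subgroup.zpowers x)) l
  have hsum : ∑ l, m l = p - 1 := by
    have h := congrFun (classFun_expand (isClassFunction (isCharacter_restrict (isCharacter_of_irr χ.2) (Subgroup.zpowers x)))) 1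
    simp only [Finset.sum_apply, Pi.smul_apply, smul_eq_mul, hm, fun l => (linear S l).1, mul_one,
      Subgroup.coe_one, apply_one (isCharacter_of_irr χ.2)] at h
    have h2 : charDegree (χ : G → ℂ) = ∑ l, m l := by exact_mod_cast h
    omega
  have hcardI : Fintype.card (IrrCharacter (Subgroup.zpowers x)) = p := by
    have h := sum_sq_degree (G := Subgroup.zpowers x)
    simp only [fun l : IrrCharacter (Subgroup.zpowers x) => charDegree_comm (A := Subgroup.zpowers x) l.2, one_pow,
      Finset.sum_const, Finset.card_univ, smul_eq_mul, mul_one] at h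
    rw [h, S.card_zpowers]
  let one' : IrrCharacter (Subgroup.zpowers x) := oneChar
  have hF : ∀ l l' : IrrCharacter (Subgroup.zpowers x),
      classInner (indFun (Subgroup.zpowers x) ((l : Subgroup.zpowers x → ℂ) - (l' : Subgroup.zpowers x → ℂ))) (χ : G → ℂ) =
        (((m l : ℝ) - m l' : ℝ) : ℂ) := by
    intro l l'
    rw [classInner_indFun _ _ (isClassFunction (isCharacter_of_irr χ.2))]
    have esub : ∀ a b c : Subgroup.zpowers x → ℂ, classInner (a - b) c = classInner a c - classInner b c := fun a b c => by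
      simp only [classInner_eq, Pi.sub_apply, sub_mul, Finset.sum_sub_distrib, mul_sub]
    rw [esub, classInner_comm (fun u : Subgroup.zpowers x => (χ : G → ℂ) u) (l : Subgroup.zpowers x → ℂ),
      classInner_comm (fun u : Subgroup.zpowers x => (χ : G → ℂ) u) (l' : Subgroup.zpowers x → ℂ), hm, hm]
    simp
  have hstab : ∀ l : IrrCharacter (Subgroup.zpowers x), l ≠ one' →
      (Finset.univ.filter fun g => twist g l = l).card ≤ p := by
    intro l hl
    rw [← hPc, Nat.card_eq_fintype_card, ← Finset.card_univ (α := P)]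
    refine le_trans (Finset.card_le_card (t := (Finset.univ : Finset P).map (Function.Embedding.subtype _)) ?_)
      (Finset.card_map _).le
    intro g hg
    refine Finset.mem_map.2 ⟨⟨g, ?_⟩, Finset.mem_univ _, rfl⟩
    exact mem_of_twist S (fun h => hl (Subtype.ext h)) (Finset.mem_filter.1 hg).2
  have hNcard : Fintype.card (Subgroup.normalizer (Subgroup.zpowers x : Set G)) = e * p := by
    rw [← Nat.card_eq_fintype_card, ← Subgroup.card_mul_index P, hPc, mul_comm]; rfl
  have hd1 : ∀ l l' : IrrCharacter (Subgroup.zpowers x), l ≠ one' → l' ≠ one' → m l ≤ m l' + 1 := by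
    intro l l' hl hl'
    have h1 := bessel _ (isClassFunction_indFun (Subgroup.zpowers x)
      ((l : Subgroup.zpowers x → ℂ) - (l' : Subgroup.zpowers x → ℂ))) {χ}
    rw [Finset.sum_singleton, hF, Complex.normSq_ofReal] at h1
    have h2 := norm_le S l l'
    have h3 : ((Finset.univ.filter fun g => twist g l = l).card : ℝ) +
        (Finset.univ.filter fun g => twist g l' = l').card ≤ 2 * p := by
      have a1 : ((Finset.univ.filter fun g => twist g l = l).card : ℝ) ≤ p := by exact_mod_cast hstab l hl
      have a2 : ((Finset.univ.filter fun g => twist g l' = l').card : ℝ) ≤ p := by exact_mod_cast hstab l' hl'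
      linarith
    have h4 : ((m l : ℝ) - m l') * ((m l : ℝ) - m l') * p ≤ 2 * p :=
      le_trans (le_trans (mul_le_mul_of_nonneg_right h1 (Nat.cast_nonneg _)) h2) h3
    have h5 := le_of_mul_le_mul_right h4 (by exact_mod_cast hp.pos)
    by_contra h6
    have h7 : (m l' : ℝ) + 2 ≤ m l := by exact_mod_cast (by omega : m l' + 2 ≤ m l)
    nlinarith
  have hd0 : ∀ l : IrrCharacter (Subgroup.zpowers x), l ≠ one' → ((m l : ℝ) - m one') ^ 2 ≤ e := by
    intro l hl
    have hχ1 : χ ≠ (oneChar : IrrCharacter G) := fun h => by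
      rw [h] at hχ
      simp [charDegree, oneChar_apply] at hχ
      omega
    have h1 := bessel _ (isClassFunction_indFun (Subgroup.zpowers x)
      ((l : Subgroup.zpowers x → ℂ) - (one' : Subgroup.zpowers x → ℂ))) {χ, oneChar}
    rw [Finset.sum_pair hχ1, hF, Complex.normSq_ofReal] at h1
    have hone : classInner (indFun (Subgroup.zpowers x) ((l : Subgroup.zpowers x → ℂ) - (one' : Subgroup.zpowers x → ℂ)))
        ((oneChar : IrrCharacter G) : G → ℂ) = -1 := by
      rw [classInner_indFun _ _ (isClassFunction (isCharacter_of_irr (oneChar : IrrCharacter G).2))]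
      have esub : ∀ a b c : Subgroup.zpowers x → ℂ, classInner (a - b) c = classInner a c - classInner b c := fun a b c => by
        simp only [classInner_eq, Pi.sub_apply, sub_mul, Finset.sum_sub_distrib, mul_sub]
      rw [esub, show (fun u : Subgroup.zpowers x => ((oneChar : IrrCharacter G) : G → ℂ) u) =
        (one' : Subgroup.zpowers x → ℂ) from rfl, classInner_self one'.2,
        classInner_ne l.2 one'.2 (fun h => hl (Subtype.ext h)), zero_sub]
    rw [hone, Complex.normSq_neg, Complex.normSq_one] at h1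
    have h2 := norm_le S l one'
    have h3 : ((Finset.univ.filter fun g => twist g l = l).card : ℝ) +
        (Finset.univ.filter fun g => twist g one' = one').card ≤ ((e : ℝ) + 1) * p := by
      have a1 : ((Finset.univ.filter fun g => twist g l = l).card : ℝ) ≤ p := by exact_mod_cast hstab l hl
      have a2 : ((Finset.univ.filter fun g => twist g one' = one').card : ℝ) ≤ e * p := by
        exact_mod_cast (Finset.card_le_univ _).trans hNcard.le
      linarith
    have h4 : (((m l : ℝ) - m one') * ((m l : ℝ) - m one') + 1) * p ≤ ((e : ℝ) + 1) * p :=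
      le_trans (le_trans (mul_le_mul_of_nonneg_right h1 (Nat.cast_nonneg _)) h2) h3
    have h5 := le_of_mul_le_mul_right h4 (by exact_mod_cast hp.pos)
    rw [sq]; linarith
  have hall : m one' = 0 ∧ ∀ l, l ≠ one' → m l = 1 := by
    set s := Finset.univ.erase one' with hs
    have hscard : s.card = p - 1 := by rw [hs, Finset.card_erase_of_mem (Finset.mem_univ _), Finset.card_univ, hcardI]
    have hsum' : m one' + ∑ l ∈ s, m l = p - 1 := by rw [hs, Finset.add_sum_erase _ _ (Finset.mem_univ _), hsum]
    by_cases hpos : ∀ l ∈ s, 1 ≤ m l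
    · have h1 : ∑ l ∈ s, 1 ≤ ∑ l ∈ s, m l := Finset.sum_le_sum hpos
      rw [Finset.sum_const, smul_eq_mul, mul_one, hscard] at h1
      refine ⟨by omega, fun l hl => ?_⟩
      have h2 : ∑ l ∈ s, 1 = ∑ l ∈ s, m l := by rw [Finset.sum_const, smul_eq_mul, mul_one, hscard]; omega
      exact ((Finset.sum_eq_sum_iff_of_le hpos).1 h2 l (Finset.mem_erase.2 ⟨hl, Finset.mem_univ _⟩)).symm
    · exfalso
      push Not at hpos
      obtain ⟨l₀, hl₀, hl₀'⟩ := hpos
      have hl₀1 := (Finset.mem_erase.1 hl₀).1
      set zs := s.filter (fun l => m l = 0) with hzs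
      have h1 : (∑ l ∈ s, m l) + zs.card ≤ p - 1 := by
        rw [hzs, Finset.card_filter, ← Finset.sum_add_distrib, ← hscard, Finset.card_eq_sum_ones s]
        refine Finset.sum_le_sum fun l hl => ?_
        have := hd1 l l₀ (Finset.mem_erase.1 hl).1 hl₀1
        split_ifs with h <;> omega
      have h2 : zs.card ≤ m one' := by omega
      have hze : e ≤ zs.card := by
        have hinj : Set.InjOn (fun k : ℕ => twist (y ^ k) l₀) (Finset.range e : Set ℕ) := by
          intro i hi j hj hij
          have hlt : i < e ∧ j < e := ⟨Finset.mem_range.1 hi, Finset.mem_range.1 hj⟩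
          have h3 : twist (y ^ (e - i + j)) l₀ = l₀ := by
            have h4 := congrArg (twist (y ^ (e - i))) hij
            simp only [twist_mul, ← pow_add] at h4
            rw [show e - i + i = e by omega, hye] at h4
            rw [← h4]
            exact Subtype.ext (funext fun u => by rw [twist_apply]; exact congrArg _ (Subtype.ext (by simp [conjZ])))
          obtain ⟨c, hc⟩ := hyP _ (mem_of_twist S (fun h => hl₀1 (Subtype.ext h)) h3)
          have hc1 : c = 1 := by
            rcases Nat.lt_or_ge c 2 with h | h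
            · interval_cases c
              · omega
              · rfl
            · have := Nat.mul_le_mul_left e h; omega
          rw [hc1, mul_one] at hc
          omega
        rw [← Finset.card_range e, ← Finset.card_image_of_injOn hinj]
        refine Finset.card_le_card fun l hl => ?_
        obtain ⟨k, -, rfl⟩ := Finset.mem_image.1 hl
        refine Finset.mem_filter.2 ⟨Finset.mem_erase.2 ⟨fun h => hl₀1 ?_, Finset.mem_univ _⟩, ?_⟩
        · refine Subtype.ext (funext fun u => ?_)
          obtain ⟨v, rfl⟩ := (conjZ_bijective (y ^ k)).2 u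
          rw [← twist_apply]
          exact congrFun (congrArg Subtype.val h) v
        · have h4 : (m (twist (y ^ k) l₀) : ℂ) = m l₀ := by
            rw [← hm, ← hm, classInner_eq, classInner_eq]
            congr 1
            refine Fintype.sum_equiv (Equiv.ofBijective _ (conjZ_bijective (y ^ k))) _ _ fun u => ?_
            show _ = (χ : G → ℂ) ((conjZ x (y ^ k) u : Subgroup.zpowers x) : G) * _
            rw [show ((conjZ x (y ^ k) u : Subgroup.zpowers x) : G) =
              ((y ^ k : Subgroup.normalizer (Subgroup.zpowers x : Set G)) : G)⁻¹ * u *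
                ((y ^ k : Subgroup.normalizer (Subgroup.zpowers x : Set G)) : G) from rfl,
              apply_conj' (isCharacter_of_irr χ.2)]
            rfl
          have := Nat.cast_injective (R := ℂ) h4
          omega
      have h5 := hd0 l₀ hl₀1
      rw [show m l₀ = 0 by omega, Nat.cast_zero, zero_sub, neg_sq] at h5
      have h6 : m one' ^ 2 ≤ e := by exact_mod_cast h5
      have h7 : e * e ≤ e := (Nat.mul_le_mul (hze.trans h2) (hze.trans h2)).trans (by rwa [← sq])
      have h8 : 2 ≤ e := by rcases hee with ⟨k, hk⟩; omega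
      nlinarith
  -- the character vanishes on the non-trivial powers of `y`
  have hvan : ∀ k : ℕ, ¬ e ∣ k →
      (χ : G → ℂ) ((y ^ k : Subgroup.normalizer (Subgroup.zpowers x : Set G)) : G) = 0 := by
    intro k hk
    set g := ((y ^ k : Subgroup.normalizer (Subgroup.zpowers x : Set G)) : G) with hg
    have hgP : g ∉ Subgroup.zpowers x := fun h => hk (hyP k h)
    have h0 : ∑ u : Subgroup.zpowers x, (χ : G → ℂ) u = 0 := by
      have h := hm one'
      rw [hall.1, Nat.cast_zero, show ((one' : IrrCharacter (Subgroup.zpowers x)) : Subgroup.zpowers x → ℂ) = fun _ => 1 from rfl,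
        classInner_one] at h
      exact (mul_eq_zero.1 h).resolve_left (inv_ne_zero (Nat.cast_ne_zero.2 Nat.card_pos.ne'))
    have h1 := Cfsg.Agent.S4565.sum_coset_eq_zero (isCharacter_of_irr χ.2) (Subgroup.zpowers x) h0 g
    let d : Subgroup.zpowers x → Subgroup.zpowers x := fun v =>
      ⟨g⁻¹ * v * g * (v : G)⁻¹, Subgroup.mul_mem _ (conjZ x (y ^ k) v).2 (Subgroup.inv_mem _ v.2)⟩
    have hd : Function.Bijective d := by
      refine Finite.injective_iff_bijective.1 fun v w hvw => ?_
      by_contra hne
      apply hgP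
      have e1 : g⁻¹ * v * g * (v : G)⁻¹ = g⁻¹ * w * g * (w : G)⁻¹ := congrArg Subtype.val hvw
      have hne' : (w : Subgroup.zpowers x)⁻¹ * v ≠ 1 := fun h => hne (inv_mul_eq_one.1 h).symm
      have hz := mem_zpowers_of_prime_card (p := p) (g' := (⟨x, Subgroup.mem_zpowers x⟩ : Subgroup.zpowers x))
        S.card_zpowers hne'
      obtain ⟨i, hi⟩ := Subgroup.mem_zpowers_iff.1 hz
      have hi' : ((w : G)⁻¹ * v) ^ i = x := congrArg Subtype.val hi
      refine S.mem_zpowers_of_commute ?_
      rw [← hi']
      refine (Commute.zpow_right ?_ i).eq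
      have hvwc : Commute (v : G) w := by
        obtain ⟨a, ha⟩ := Subgroup.mem_zpowers_iff.1 v.2
        obtain ⟨b, hb⟩ := Subgroup.mem_zpowers_iff.1 w.2
        rw [← ha, ← hb]; exact Commute.zpow_zpow_self x a b
      have e2 : g⁻¹ * ((w : G)⁻¹ * v) * g = (w : G)⁻¹ * v := by
        calc g⁻¹ * ((w : G)⁻¹ * v) * g = (g⁻¹ * w * g)⁻¹ * (g⁻¹ * v * g) := by group
          _ = (g⁻¹ * w * g)⁻¹ * ((g⁻¹ * v * g * (v : G)⁻¹) * v) := by group
          _ = (w : G)⁻¹ * v := by rw [e1]; group
      show g * ((w : G)⁻¹ * v) = (w : G)⁻¹ * v * g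
      conv_lhs => rw [← e2]
      group
    rw [← Equiv.sum_comp (Equiv.ofBijective d hd) (fun u : Subgroup.zpowers x => (χ : G → ℂ) (g * u))] at h1
    have hc : ∀ v : Subgroup.zpowers x, (χ : G → ℂ) (g * (d v : G)) = (χ : G → ℂ) g := fun v => by
      show (χ : G → ℂ) (g * (g⁻¹ * v * g * (v : G)⁻¹)) = _
      rw [show g * (g⁻¹ * (v : G) * g * (v : G)⁻¹) = (v : G)⁻¹⁻¹ * g * (v : G)⁻¹ by group,
        apply_conj' (isCharacter_of_irr χ.2)]
    simp only [Equiv.ofBijective_apply, hc, Finset.sum_const, nsmul_eq_mul] at h1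
    exact (mul_eq_zero.1 h1).resolve_left (Nat.cast_ne_zero.2 (Finset.card_ne_zero.2 Finset.univ_nonempty))
  -- the determinant at `y`
  obtain ⟨n, ρ, hirr, hρ⟩ := χ.2
  have hA : ρ (y : G) ^ e = 1 := by
    rw [← map_pow, ← Subgroup.coe_pow, hye, Subgroup.coe_one, map_one]
  obtain ⟨ι, _, μ, -, hμ1, hdet, htr⟩ := EigenProd.exists_eigenbasis he0 hA
  obtain ⟨ζ, hζ⟩ : ∃ ζ : ℂ, IsPrimitiveRoot ζ e := ⟨_, Complex.isPrimitiveRoot_exp e he0⟩
  let b : Fin t × Fin e → ℂ := fun ij => ζ ^ (ij.2 : ℕ)
  have hb : ∀ ij, b ij ^ e = 1 := fun ij => by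
    show (ζ ^ (ij.2 : ℕ)) ^ e = 1
    rw [← pow_mul, mul_comm, pow_mul, hζ.pow_eq_one, one_pow]
  have hps : ∀ j : ℕ, ∑ i, μ i ^ j = ∑ i, b i ^ j := by
    intro j
    rw [← htr j, ← map_pow, ← Subgroup.coe_pow]
    rw [show LinearMap.trace ℂ _ (ρ ((y ^ j : Subgroup.normalizer (Subgroup.zpowers x : Set G)) : G)) =
      (χ : G → ℂ) ((y ^ j : Subgroup.normalizer (Subgroup.zpowers x : Set G)) : G) from congrFun hρ _,
      Fintype.sum_prod_type]
    simp only [b]
    rw [Finset.sum_const, Finset.card_univ, Fintype.card_fin, nsmul_eq_mul]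
    show _ = (t : ℂ) * ∑ k : Fin e, (ζ ^ (k : ℕ)) ^ j
    rw [Fin.sum_univ_eq_sum_range (fun k => (ζ ^ k) ^ j) e]
    simp only [pow_right_comm ζ _ j]
    by_cases hj : e ∣ j
    · obtain ⟨c, rfl⟩ := hj
      rw [pow_mul, hye, one_pow, Subgroup.coe_one, apply_one (isCharacter_of_irr χ.2), pow_mul, hζ.pow_eq_one, one_pow]
      simp only [one_pow, Finset.sum_const, Finset.card_range, nsmul_eq_mul, mul_one]
      rw [← Nat.cast_mul, hte]
      congr 1
      omega
    · rw [hvan j hj, geom_sum_eq (fun h => hj ((hζ.pow_eq_one_iff_dvd j).1 h)), pow_right_comm, hζ.pow_eq_one, one_pow,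
        sub_self, zero_div, mul_zero]
  have hdety : LinearMap.det (ρ (y : G)) = -1 := by
    rw [hdet, EigenProd.prod_eq_of_powerSum he0 hμ1 hb hps, Fintype.prod_prod_type]
    simp only [b]
    rw [Finset.prod_const,
      Finset.card_univ, Fintype.card_fin]
    exact root_prod hee he0 (Nat.not_even_iff_odd.1 heven) hζ
  set f : G →* ℂˣ := (LinearMap.det.comp ρ).toHomUnits with hf
  have hfy : f (y : G) = -1 := Units.ext (by rw [hf]; simpa using hdety)
  have hle : commutator G ≤ f.ker := Abelianization.commutator_subset_ker f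
  have h2 : 2 ∣ f.ker.index := by
    rw [Subgroup.index_ker]
    have h3 : orderOf (-1 : ℂˣ) ∣ Nat.card f.range := Subgroup.orderOf_dvd_natCard _ ⟨(y : G), hfy⟩
    have h4 : orderOf (-1 : ℂˣ) = 2 := by
      rw [orderOf_eq_prime_iff]
      refine ⟨by simp, fun h => ?_⟩
      have := congrArg Units.val h
      norm_num at this
    rwa [h4] at h3
  exact even_iff_two_dvd.2 (h2.trans (Subgroup.index_dvd_of_le hle))

end Cfsg.Agent.S4508
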