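import Cfsg.Statements.S4518
import Cfsg.Agent.CharBasics.Extra
import Cfsg.Agent.Clifford.Basic
import Cfsg.Agent.BrauerInd.Galois

set_option autoImplicit false
open Cfsg

namespace Cfsg.Agent.S4518

/-- Let N be a normal subgroup of the finite group G whose index is not divisible by the prime p, and let k be coprime to the order of G with k ^ (p ^ e) ≡ 1 modulo the order of G for some e (so g ↦ g ^ k induces a field automorphism of p-power order on character values). If an irreducible character χ of G satisfies χ (g ^ k) = χ g for all g, then every irreducible constituent θ of the restriction of χ to N satisfies θ (n ^ k) = θ n for all n. -/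
theorem result {G : Type*} [Group G] [Fintype G] (p : ℕ) [Fact p.Prime] (N : Subgroup G) [N.Normal] [Fintype N] (hidx : ¬ p ∣ N.index) (k e : ℕ) (hk : Nat.Coprime k (Nat.card G)) (hke : k ^ (p ^ e) ≡ 1 [MOD Nat.card G]) (χ : Cfsg.IrrCharacter G) (hχ : ∀ g : G, (χ : G → ℂ) (g ^ k) = (χ : G → ℂ) g) (θ : Cfsg.IrrCharacter N) (hθ : Cfsg.classInner (fun n : N => (χ : G → ℂ) n) (θ : N → ℂ) ≠ 0) : ∀ n : N, (θ : N → ℂ) (n ^ k) = (θ : N → ℂ) n := by
  classical
  have hkN : k.Coprime (Nat.card N) := hk.coprime_dvd_right (Subgroup.card_subgroup_dvd_card N)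
  let res : N → ℂ := fun n => (χ : G → ℂ) n
  set X := Finset.univ.image (fun g : G => CfsgLib.Clifford.conjFun g (θ : N → ℂ)) with hX
  have hmem : ∀ φ : N → ℂ, φ ∈ X ↔ Cfsg.IsIrrCharacter N φ ∧ Cfsg.classInner res φ ≠ 0 := by
    intro φ
    constructor
    · intro h
      obtain ⟨g, -, rfl⟩ := Finset.mem_image.mp h
      refine ⟨CfsgLib.Clifford.isIrrCharacter_conjFun g θ.2, ?_⟩
      rw [show res = CfsgLib.Clifford.conjFun g res from
        (CfsgLib.Clifford.conjFun_restrict (CfsgLib.CharBasics.isClassFunction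
          (CfsgLib.CharBasics.isCharacter_of_irr χ.2)) g).symm,
        CfsgLib.Clifford.classInner_conjFun]
      exact hθ
    · rintro ⟨h1, h2⟩
      obtain ⟨g, rfl⟩ := CfsgLib.Clifford.constituent_conj χ.2 θ.2 h1 hθ h2
      exact Finset.mem_image.mpr ⟨g, Finset.mem_univ _, rfl⟩
  have hstable : ∀ φ ∈ X, (fun n : N => φ (n ^ k)) ∈ X := by
    intro φ hφ
    obtain ⟨h1, h2⟩ := (hmem φ).1 hφ
    refine (hmem _).2 ⟨CfsgLib.BrauerInd.isIrr_pow hkN h1, ?_⟩
    have hres : res = fun n : N => res (n ^ k) := funext fun n => by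
      show _ = (χ : G → ℂ) ((n ^ k : N) : G)
      rw [Subgroup.coe_pow, hχ]
    have hbij : ∀ f f' : N → ℂ, Cfsg.classInner (fun n => f (n ^ k)) (fun n => f' (n ^ k)) =
        Cfsg.classInner f f' := by
      intro f f'
      simp only [CfsgLib.CharBasics.classInner_eq]
      congr 1
      exact Fintype.sum_equiv (powCoprime hkN.symm) _ _ fun n => rfl
    rw [hres, hbij]
    exact h2
  have hord : ∀ (φ : N → ℂ) (n : N), φ (n ^ (k ^ p ^ e)) = φ n := by
    intro φ n
    refine congrArg φ ?_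
    conv_rhs => rw [← pow_one n]
    rw [pow_eq_pow_iff_modEq]
    exact hke.of_dvd (((orderOf_dvd_natCard n).trans (Subgroup.card_subgroup_dvd_card N)))
  let T : X → X := fun φ => ⟨fun n => φ.1 (n ^ k), hstable φ.1 φ.2⟩
  have hT : ∀ (j : ℕ) (φ : X) (n : N), ((T^[j]) φ).1 n = φ.1 (n ^ (k ^ j)) := by
    intro j
    induction j with
    | zero => intro φ n; simp
    | succ j ih =>
      intro φ n
      rw [Function.iterate_succ_apply', pow_succ', pow_mul]
      exact ih φ (n ^ k)
  have hTper : T^[p ^ e] = id := funext fun φ => Subtype.ext (funext fun n => by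
    rw [hT, hord φ.1 n, id_eq])
  let σ : Equiv.Perm X :=
    { toFun := T
      invFun := T^[p ^ e - 1]
      left_inv := fun φ => by
        rw [← Function.iterate_succ_apply, Nat.succ_eq_add_one,
          Nat.sub_add_cancel (Nat.one_le_pow _ _ (Nat.Prime.pos Fact.out)), hTper, id_eq]
      right_inv := fun φ => by
        rw [← Function.iterate_succ_apply' T, Nat.succ_eq_add_one,
          Nat.sub_add_cancel (Nat.one_le_pow _ _ (Nat.Prime.pos Fact.out)), hTper, id_eq] }
  have hσ : σ ^ (p ^ e) = 1 := Equiv.ext fun φ => by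
    rw [Equiv.Perm.coe_pow, Equiv.Perm.coe_one]
    exact congrFun hTper φ
  have hpg : IsPGroup p (Subgroup.zpowers σ) := by
    rintro ⟨x, hx⟩
    obtain ⟨i, rfl⟩ := Subgroup.mem_zpowers_iff.1 hx
    refine ⟨e, Subtype.ext ?_⟩
    show (σ ^ i) ^ (p ^ e) = 1
    rw [← zpow_natCast (σ ^ i), ← zpow_mul, mul_comm, zpow_mul, zpow_natCast, hσ, one_zpow]
  have hcard : ¬ p ∣ Nat.card X := by
    rw [Nat.card_eq_fintype_card, Fintype.card_coe, hX, CfsgLib.Clifford.card_orbit]
    exact fun h => hidx (h.trans (Subgroup.index_dvd_of_le (CfsgLib.Clifford.le_inertia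
      (CfsgLib.CharBasics.isClassFunction (CfsgLib.CharBasics.isCharacter_of_irr θ.2)))))
  obtain ⟨φ, hφ⟩ := hpg.nonempty_fixed_point_of_prime_not_dvd_card _ hcard
  have hfix : T φ = φ := hφ ⟨σ, Subgroup.mem_zpowers σ⟩
  have hval : ∀ n : N, φ.1 (n ^ k) = φ.1 n := fun n => congrFun (congrArg Subtype.val hfix) n
  obtain ⟨g, -, hg⟩ := Finset.mem_image.mp φ.2
  intro n
  have hθφ : (θ : N → ℂ) = CfsgLib.Clifford.conjFun g⁻¹ φ.1 := by
    rw [← hg, CfsgLib.Clifford.conjFun_inv_cancel]
  rw [hθφ]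
  simp only [CfsgLib.Clifford.conjFun_apply]
  rw [← hval ⟨g⁻¹ * n * g⁻¹⁻¹, _⟩]
  refine congrArg φ.1 (Subtype.ext ?_)
  simp only [Subgroup.coe_pow]
  exact map_pow (MulAut.conj g⁻¹) (n : G) k

end Cfsg.Agent.S4518
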