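import Cfsg.Statements.S4520
import Cfsg.Agent.Blocks.StableFullDefect
import Cfsg.Agent.Clifford.Basic
import Cfsg.Agent.CharBasics.Extra

set_option autoImplicit false
open Cfsg CfsgLib.Blocks CfsgLib.CharBasics

namespace Cfsg.Agent.S4520

/-- Let N be a normal subgroup of odd index in the finite group G, M a maximal ideal of the algebraic integers containing 2, and k coprime to the order of G with k ^ (2 ^ e) ≡ 1 modulo the order of G for some e and g ^ k = g⁻¹ for every element g of odd order. Let θ be an irreducible character of N and χ an irreducible character of G over θ, both unchanged by composing with g ↦ g ^ k. Then χ lies in the principal 2-block of G if and only if θ lies in the principal 2-block of N. -/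
theorem result {G : Type*} [Group G] [Fintype G] (M : Ideal Cfsg.AlgInt) (hM : Cfsg.IsPModular 2 M) (N : Subgroup G) [N.Normal] [Fintype N] (hidx : Odd N.index) (k e : ℕ) (hk : Nat.Coprime k (Nat.card G)) (hke : k ^ (2 ^ e) ≡ 1 [MOD Nat.card G]) (hk₂ : ∀ g : G, Odd (orderOf g) → g ^ k = g⁻¹) (θ : Cfsg.IrrCharacter N) (hθ : ∀ n : N, (θ : N → ℂ) (n ^ k) = (θ : N → ℂ) n) (χ : Cfsg.IrrCharacter G) (hχ : ∀ g : G, (χ : G → ℂ) (g ^ k) = (χ : G → ℂ) g) (hover : Cfsg.classInner (fun n : N => (χ : G → ℂ) n) (θ : N → ℂ) ≠ 0) : χ ∈ Cfsg.principalBlock M G ↔ θ ∈ Cfsg.principalBlock M N := by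
  classical
  haveI : Fintype (IrrCharacter G) := @Fintype.ofFinite _ finite_irrCharacter
  have hχc := isCharacter_of_irr χ.2
  set m := classInner (fun n : N => (χ : G → ℂ) n) (θ : N → ℂ) with hm
  set O := Finset.univ.image (fun g : G => CfsgLib.Clifford.conjFun g (θ : N → ℂ)) with hO
  have horb : ∀ φ ∈ O, regTotal 2 φ = regTotal 2 (θ : N → ℂ) := by
    intro φ hφ
    obtain ⟨g, -, rfl⟩ := Finset.mem_image.1 hφ
    refine Fintype.sum_equiv (MulAut.conjNormal g).toEquiv _ _ fun n => ?_
    rw [show ((MulAut.conjNormal g : MulAut N).toEquiv n) = (MulAut.conjNormal g : MulAut N) n from rfl,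
      MulEquiv.orderOf_eq, CfsgLib.Clifford.conjFun_eq_comp]
  have hS : regTotal 2 (fun n : N => (χ : G → ℂ) n) = m * O.card * regTotal 2 (θ : N → ℂ) := by
    rw [CfsgLib.Clifford.restrict_eq_orbit_sum χ.2 θ.2 hover, mul_assoc, ← nsmul_eq_mul,
      ← Finset.sum_const, ← Finset.sum_congr rfl horb]
    rw [show O.sum (regTotal 2) = ∑ φ ∈ O, regTotal 2 φ from rfl]
    simp only [regTotal, Finset.mul_sum]
    conv_rhs => rw [Finset.sum_comm]
    refine Finset.sum_congr rfl fun n _ => ?_
    split_ifs <;> simp [hm, hO, Finset.mul_sum]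
  have hO0 : (O.card : ℂ) ≠ 0 := by
    rw [Nat.cast_ne_zero]
    exact (Finset.card_pos.2 ⟨_, Finset.mem_image_of_mem _ (Finset.mem_univ (1 : G))⟩).ne'
  refine ⟨fun hB => ?_, fun hb => ?_⟩
  · rw [mem_principal_iff_regTotal hM]
    intro h0
    let z : MonoidAlgebra ℂ G := ofFun fun g => if g ∈ N ∧ ¬ 2 ∣ orderOf g then 1 else 0
    have hz : IsClassElt z := fun g h => by
      have e1 : h * g * h⁻¹ ∈ N ↔ g ∈ N :=
        ⟨fun k => by simpa [mul_assoc] using ‹N.Normal›.conj_mem _ k h⁻¹, fun k => ‹N.Normal›.conj_mem g k h⟩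
      have e2 : orderOf (h * g * h⁻¹) = orderOf g := by rw [← MulAut.conj_apply, MulEquiv.orderOf_eq]
      simp only [z, coeff_ofFun, e1, e2]
    have hzi : IsIntegralElt M z := fun g => by
      simp only [z, coeff_ofFun]
      split_ifs
      · exact memLocalRing_one hM
      · exact memLocalRing_zero hM
    have hω : ∀ f : G → ℂ, omega f z = regTotal 2 (fun n : N => f n) / f 1 := by
      intro f
      simp only [omega, z, coeff_ofFun, regTotal]
      congr 1
      rw [← Finset.sum_filter_add_sum_filter_not Finset.univ (fun g : G => g ∈ N),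
        Finset.sum_eq_zero (s := Finset.univ.filter fun g : G => ¬ g ∈ N) (fun g hg => by
          rw [if_neg fun h => (Finset.mem_filter.1 hg).2 h.1, zero_mul]), add_zero,
        Finset.sum_subtype (p := fun g : G => g ∈ N) _ (fun g => by simp)]
      refine Finset.sum_congr rfl fun n _ => ?_
      simp only [n.2, true_and, Subgroup.orderOf_coe]
      split_ifs <;> simp
    have h1 := omega_sub_mem_of_sameBlock hM (φ := oneChar) (ψ := χ)
      (show SameBlock M ((oneChar : IrrCharacter G) : G → ℂ) (χ : G → ℂ) from hB) hz hzi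
    have h2 : regTotal 2 (fun n : N => ((oneChar : IrrCharacter G) : G → ℂ) n) = CfsgLib.ZStar.regCard 2 N := by
      simp only [regTotal, oneChar_apply, CfsgLib.ZStar.regCard]
      rw [Nat.card_eq_fintype_card, Fintype.card_subtype, Finset.sum_ite, Finset.sum_const_zero, zero_add,
        Finset.sum_const, nsmul_one]
    rw [hω, hω, h2, hS, h0, mul_zero, zero_div, sub_zero, oneChar_apply, div_one] at h1
    exact CfsgLib.ZStar.not_small_regCard hM h1
  · rw [mem_principal_iff_regTotal hM] at hb
    let f : G → ℂ := fun g => if g ∈ N then 1 else 0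
    have hf : IsClassFunction G f := fun g h => by
      have e : h * g * h⁻¹ ∈ N ↔ g ∈ N :=
        ⟨fun k => by simpa [mul_assoc] using ‹N.Normal›.conj_mem _ k h⁻¹, fun k => ‹N.Normal›.conj_mem g k h⟩
      simp only [f, e]
    have hS' : ∑ g : G, (if 2 ∣ orderOf g then 0 else (χ : G → ℂ) g * (starRingEnd ℂ) (f g)) =
        regTotal 2 (fun n : N => (χ : G → ℂ) n) := by
      rw [← Finset.sum_filter_add_sum_filter_not Finset.univ (fun g : G => g ∈ N),
        Finset.sum_eq_zero (s := Finset.univ.filter fun g : G => ¬ g ∈ N) (fun g hg => by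
          simp [f, (Finset.mem_filter.1 hg).2]), add_zero,
        Finset.sum_subtype (p := fun g : G => g ∈ N) _ (fun g => by simp)]
      refine Finset.sum_congr rfl fun n _ => ?_
      simp [f, Subgroup.orderOf_coe]
    have hexp : ∑ β : IrrCharacter G, (starRingEnd ℂ) (classInner f (β : G → ℂ)) * regSum 2 (χ : G → ℂ) (β : G → ℂ) =
        regTotal 2 (fun n : N => (χ : G → ℂ) n) := by
      rw [← hS']
      conv_rhs => rw [classFun_expand hf]
      simp only [regSum, Finset.mul_sum]
      rw [Finset.sum_comm]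
      refine Finset.sum_congr rfl fun g _ => ?_
      split_ifs with h
      · simp
      · simp only [Finset.sum_apply, Pi.smul_apply, smul_eq_mul, map_sum, map_mul, Finset.mul_sum]
        exact Finset.sum_congr rfl fun β _ => by ring
    obtain ⟨β, -, hβ⟩ := Finset.exists_ne_zero_of_sum_ne_zero
      (hexp.trans_ne (by rw [hS]; exact mul_ne_zero (mul_ne_zero hover hO0) hb))
    obtain ⟨hβ1, hβ2⟩ := mul_ne_zero_iff.1 hβ
    have hker : ∀ g ∈ N, (β : G → ℂ) g = (β : G → ℂ) 1 := by
      rcases sum_normal_irr N β with ⟨h, -⟩ | ⟨-, h⟩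
      · exact h
      refine absurd ?_ hβ1
      have h' := h 1
      simp only [one_mul] at h'
      rw [classInner_eq, map_mul, map_sum]
      refine mul_eq_zero_of_right _ ?_
      rw [← Finset.sum_filter_add_sum_filter_not Finset.univ (fun g : G => g ∈ N),
        Finset.sum_eq_zero (s := Finset.univ.filter fun g : G => ¬ g ∈ N) (fun g hg => by
          simp [f, (Finset.mem_filter.1 hg).2]), add_zero,
        Finset.sum_subtype (p := fun g : G => g ∈ N) _ (fun g => by simp), ← h']
      exact Finset.sum_congr rfl fun n _ => by simp [f]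
    obtain ⟨ψ, hψ⟩ := exists_quotient_irr β N hker
    have hdvd : charDegree (β : G → ℂ) ∣ N.index := by
      have h := degree_dvd ψ
      rw [← Subgroup.index] at h
      rwa [show charDegree (ψ : G ⧸ N → ℂ) = charDegree (β : G → ℂ) by
        rw [charDegree, charDegree, ← hψ 1, QuotientGroup.mk_one]] at h
    have hβd : degExp 2 β = 0 :=
      Nat.factorization_eq_zero_of_not_dvd fun h => by
        have h3 := hidx
        rw [Nat.odd_iff] at h3
        have := h.trans hdvd
        omega
    have hB : IsPBlock M (blockOf M (χ : G → ℂ)) := isPBlock_blockOf M χ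
    have hβmem : β ∈ blockOf M (χ : G → ℂ) := by
      by_contra hn
      refine hβ2 ?_
      rw [regSum_eq_regInt hM.1 hχc (isCharacter_of_irr β.2),
        regInt_eq_zero_of_notMem hM hB (mem_blockOf_self hM χ) hn]
      simp
    have hdef : blockDefect 2 (blockOf M (χ : G → ℂ)) = (Nat.card G).factorization 2 := by
      have h : sInf ((fun φ : IrrCharacter G => (charDegree (φ : G → ℂ)).factorization 2) ''
          blockOf M (χ : G → ℂ)) = 0 := Nat.sInf_eq_zero.2 (Or.inl ⟨β, hβmem, hβd⟩)
      rw [blockDefect, h, Nat.sub_zero]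
    have hp := eq_principal_of_stable hM hk hk₂ hB hdef fun ψ hψ => powChar_mem_blockOf hk hχ hψ
    exact hp ▸ mem_blockOf_self hM χ

end Cfsg.Agent.S4520
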