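import Cfsg.Statements.S4521
import Cfsg.Agent.Blocks.PrincipalSum
import Cfsg.Agent.ZStar.PartChar
import Cfsg.Agent.Clifford.Basic

set_option autoImplicit false
open Cfsg CfsgLib.Blocks CfsgLib.CharBasics

namespace Cfsg.Agent.S4521

/-- Let the finite group G be generated by subgroups U₁ and U₂ that commute elementwise and whose intersection is a p-group, and let M be a maximal ideal of the algebraic integers containing the prime p. If the irreducible character χ of G has the irreducible constituents ψ₁ on U₁ and ψ₂ on U₂, then χ lies in the principal block of G if and only if ψ₁ and ψ₂ lie in the principal blocks of U₁ and U₂. -/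
theorem result {G : Type*} [Group G] [Fintype G] (p : ℕ) [Fact p.Prime] (M : Ideal Cfsg.AlgInt) (hM : Cfsg.IsPModular p M) (U₁ U₂ : Subgroup G) [Fintype U₁] [Fintype U₂] (hcomm : ∀ u ∈ U₁, ∀ v ∈ U₂, u * v = v * u) (hgen : U₁ ⊔ U₂ = ⊤) (hZ : IsPGroup p ↥(U₁ ⊓ U₂)) (χ : Cfsg.IrrCharacter G) (ψ₁ : Cfsg.IrrCharacter U₁) (ψ₂ : Cfsg.IrrCharacter U₂) (h₁ : Cfsg.classInner (fun u : U₁ => (χ : G → ℂ) u) (ψ₁ : U₁ → ℂ) ≠ 0) (h₂ : Cfsg.classInner (fun u : U₂ => (χ : G → ℂ) u) (ψ₂ : U₂ → ℂ) ≠ 0) : χ ∈ Cfsg.principalBlock M G ↔ (ψ₁ ∈ Cfsg.principalBlock M U₁ ∧ ψ₂ ∈ Cfsg.principalBlock M U₂) := by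
  classical
  have hp : p.Prime := Fact.out
  have hχc := isCharacter_of_irr χ.2
  have n₁ : U₁.Normal := Subgroup.normalizer_eq_top_iff.mp (top_le_iff.mp (hgen ▸ sup_le Subgroup.le_normalizer
    (fun v hv => Subgroup.mem_normalizer_iff.2 fun u => ⟨fun hu => by
        rw [← hcomm u hu v hv, mul_assoc, mul_inv_cancel, mul_one]; exact hu,
      fun hu => by
        have := hcomm _ hu v hv
        rw [inv_mul_cancel_right] at this
        rw [mul_left_cancel this]
        exact hu⟩)))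
  have n₂ : U₂.Normal := Subgroup.normalizer_eq_top_iff.mp (top_le_iff.mp (hgen ▸ sup_le
    (fun v hv => Subgroup.mem_normalizer_iff.2 fun u => ⟨fun hu => by
        rw [hcomm v hv u hu, mul_assoc, mul_inv_cancel, mul_one]; exact hu,
      fun hu => by
        have := hcomm v hv _ hu
        rw [inv_mul_cancel_right] at this
        rw [mul_left_cancel this.symm]
        exact hu⟩) Subgroup.le_normalizer))
  have hprod : ∀ g : G, ∃ u ∈ U₁, ∃ v ∈ U₂, u * v = g := fun g =>
    Subgroup.mem_sup_of_normal_right.1 (hgen ▸ Subgroup.mem_top g)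
  have hT : ∀ (U : Subgroup G) [Fintype U] [U.Normal] (ψ : IrrCharacter U),
      (∀ g : G, CfsgLib.Clifford.conjFun g (ψ : U → ℂ) = (ψ : U → ℂ)) →
      classInner (fun u : U => (χ : G → ℂ) u) (ψ : U → ℂ) ≠ 0 →
      (regTotal p (fun u : U => (χ : G → ℂ) u) = 0 ↔ ψ ∉ principalBlock M U) := by
    intro U _ _ ψ hinv hne
    rw [mem_principal_iff_regTotal hM, not_not,
      CfsgLib.Clifford.restrict_eq_smul_of_invariant χ.2 ψ.2 hinv hne]
    have e : ∀ c : ℂ, regTotal p (c • (ψ : U → ℂ)) = c * regTotal p (ψ : U → ℂ) := fun c => by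
      simp only [regTotal, Finset.mul_sum, Pi.smul_apply, smul_eq_mul]
      exact Finset.sum_congr rfl fun u _ => by split_ifs <;> simp
    rw [e, mul_eq_zero, or_iff_right hne]
  have hi₁ : ∀ g : G, CfsgLib.Clifford.conjFun g (ψ₁ : U₁ → ℂ) = (ψ₁ : U₁ → ℂ) := fun g => funext fun n => by
    obtain ⟨u, hu, v, hv, rfl⟩ := hprod g
    rw [CfsgLib.Clifford.conjFun_apply, ← isClassFunction (isCharacter_of_irr ψ₁.2) n ⟨u, hu⟩]
    refine congrArg (ψ₁ : U₁ → ℂ) (Subtype.ext ?_)
    have e : v * (n : G) * v⁻¹ = n := by rw [← hcomm n n.2 v hv, mul_assoc, mul_inv_cancel, mul_one]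
    simp only [Subgroup.coe_mul, Subgroup.coe_inv]
    conv_rhs => rw [← e]
    simp [mul_assoc]
  have hi₂ : ∀ g : G, CfsgLib.Clifford.conjFun g (ψ₂ : U₂ → ℂ) = (ψ₂ : U₂ → ℂ) := fun g => funext fun n => by
    obtain ⟨u, hu, v, hv, rfl⟩ := hprod g
    rw [CfsgLib.Clifford.conjFun_apply, ← isClassFunction (isCharacter_of_irr ψ₂.2) n ⟨v, hv⟩]
    refine congrArg (ψ₂ : U₂ → ℂ) (Subtype.ext ?_)
    have hm : v * (n : G) * v⁻¹ ∈ U₂ := U₂.mul_mem (U₂.mul_mem hv n.2) (U₂.inv_mem hv)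
    simp only [Subgroup.coe_mul, Subgroup.coe_inv]
    calc u * v * (n : G) * (u * v)⁻¹ = u * (v * (n : G) * v⁻¹) * u⁻¹ := by simp [mul_assoc]
      _ = v * (n : G) * v⁻¹ := by rw [hcomm u hu _ hm, mul_assoc, mul_inv_cancel, mul_one]
  have hcen : ∀ z ∈ U₁ ⊓ U₂, ∀ u ∈ U₁, Commute z u := fun z hz u hu => (hcomm u hu z hz.2).symm
  let P₁ := Finset.univ.filter fun u : U₁ => ¬ p ∣ orderOf u
  let P₂ := Finset.univ.filter fun v : U₂ => ¬ p ∣ orderOf v
  let z₁ : MonoidAlgebra ℂ G := ∑ u ∈ P₁, MonoidAlgebra.single (u : G) 1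
  let z₂ : MonoidAlgebra ℂ G := ∑ v ∈ P₂, MonoidAlgebra.single (v : G) 1
  have hz₁ : IsClassElt z₁ := fun g h => by
    simp only [z₁, MonoidAlgebra.coeff_sum, Finsupp.finsetSum_apply, MonoidAlgebra.coeff_single,
      Finsupp.single_apply]
    refine Finset.sum_bij' (fun u _ => MulAut.conjNormal h⁻¹ u) (fun u _ => MulAut.conjNormal h u)
      (fun u hu => by simpa [P₁, MulEquiv.orderOf_eq] using hu)
      (fun u hu => by simpa [P₁, MulEquiv.orderOf_eq] using hu)
      (fun u _ => Subtype.ext (by simp [mul_assoc])) (fun u _ => Subtype.ext (by simp [mul_assoc]))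
      (fun u _ => if_congr ⟨fun e => by simp [e, mul_assoc],
        fun e => by
          have e' : h⁻¹ * (u : G) * h = g := by simpa using e
          rw [← e']; simp [mul_assoc]⟩ rfl rfl)
  have hω : ∀ {ι : Type _} (s : Finset ι) (f : ι → G),
      omega (χ : G → ℂ) (∑ i ∈ s, MonoidAlgebra.single (f i) 1) = (∑ i ∈ s, (χ : G → ℂ) (f i)) / (χ : G → ℂ) 1 :=
    fun s f => by
      rw [CfsgLib.ZStar.omega_sum, Finset.sum_div]
      exact Finset.sum_congr rfl fun i _ => by rw [omega_single, one_mul]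
  have hbij : regTotal p (χ : G → ℂ) = ∑ x ∈ P₁ ×ˢ P₂, (χ : G → ℂ) ((x.1 : G) * (x.2 : G)) := by
    have hr : regTotal p (χ : G → ℂ) = ∑ g ∈ Finset.univ.filter (fun g : G => ¬ p ∣ orderOf g), (χ : G → ℂ) g := by
      rw [regTotal, Finset.sum_filter]
      exact Finset.sum_congr rfl fun g _ => by split_ifs <;> rfl
    rw [hr]
    symm
    refine Finset.sum_bij (fun x _ => (x.1 : G) * x.2) ?_ ?_ ?_ fun x _ => rfl
    · rintro ⟨u, v⟩ hx
      simp only [P₁, P₂, Finset.mem_product, Finset.mem_filter, Finset.mem_univ, true_and,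
        ← Subgroup.orderOf_coe] at hx ⊢
      intro hd
      have h := hd.trans (show Commute (u : G) (v : G) from hcomm _ u.2 _ v.2).orderOf_mul_dvd_mul_orderOf
      exact (hp.dvd_mul.1 h).elim hx.1 hx.2
    · rintro ⟨u, v⟩ hx ⟨u', v'⟩ hx' he
      simp only [P₁, P₂, Finset.mem_product, Finset.mem_filter, Finset.mem_univ, true_and,
        ← Subgroup.orderOf_coe] at hx hx'
      simp only at he
      have hz : (u' : G)⁻¹ * u ∈ U₁ ⊓ U₂ := by
        refine ⟨U₁.mul_mem (U₁.inv_mem u'.2) u.2, ?_⟩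
        rw [show (u' : G)⁻¹ * u = v' * (v : G)⁻¹ by rw [eq_mul_inv_iff_mul_eq, mul_assoc, he, inv_mul_cancel_left]]
        exact U₂.mul_mem v'.2 (U₂.inv_mem v.2)
      have hc : Commute (u : G) u' := by
        have h := (hcen _ hz _ u'.2).symm
        have : Commute (u' : G) u := by simpa using (Commute.refl (u' : G)).mul_right h
        exact this.symm
      have hreg : ¬ p ∣ orderOf ((u' : G)⁻¹ * u) := fun h => by
        have h' := h.trans hc.symm.inv_left.orderOf_mul_dvd_mul_orderOf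
        rw [orderOf_inv] at h'
        exact (hp.dvd_mul.1 h').elim hx'.1 hx.1
      obtain ⟨j, hj⟩ := hZ ⟨_, hz⟩
      have h1 : (u' : G)⁻¹ * u = 1 := CfsgLib.ZStar.eq_one_of_dvd (p := p) (k := j)
        (orderOf_dvd_of_pow_eq_one (congrArg Subtype.val hj)) hreg
      have hu : (u' : G) = u := inv_mul_eq_one.1 h1
      rw [hu] at he
      exact Prod.ext (Subtype.ext hu.symm) (Subtype.ext (mul_left_cancel he))
    · intro g hg
      simp only [Finset.mem_filter, Finset.mem_univ, true_and] at hg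
      obtain ⟨u, hu, v, hv, huv⟩ := hprod g
      obtain ⟨a1, -, ⟨k1, ha1⟩, b1, m1, m1'⟩ := CfsgLib.ZStar.part_spec (p := p) u
      obtain ⟨a2, -, ⟨k2, ha2⟩, b2, m2, m2'⟩ := CfsgLib.ZStar.part_spec (p := p) v
      set a := CfsgLib.ZStar.ppart p u
      set b := CfsgLib.ZStar.prest p u
      set c := CfsgLib.ZStar.ppart p v
      set d := CfsgLib.ZStar.prest p v
      have hau : a ∈ U₁ := (Subgroup.zpowers_le.2 hu) m1
      have hbu : b ∈ U₁ := (Subgroup.zpowers_le.2 hu) m1'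
      have hcv : c ∈ U₂ := (Subgroup.zpowers_le.2 hv) m2
      have hdv : d ∈ U₂ := (Subgroup.zpowers_le.2 hv) m2'
      have hab : Commute a b := (CfsgLib.ZStar.part_spec (p := p) u).2.1
      have hcd : Commute c d := (CfsgLib.ZStar.part_spec (p := p) v).2.1
      have e : a * c * (b * d) = g := by
        rw [← huv, ← a1, ← a2, mul_assoc, ← mul_assoc c b d, ← hcomm b hbu c hcv, mul_assoc, ← mul_assoc a]
      have hac : Commute a c := hcomm a hau c hcv
      have hpow : ∃ k : ℕ, orderOf (a * c) = p ^ k := by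
        have h := hac.orderOf_mul_dvd_mul_orderOf
        rw [ha1, ha2, ← pow_add] at h
        obtain ⟨i, -, hi⟩ := (Nat.dvd_prime_pow hp).1 h
        exact ⟨i, hi⟩
      have hbd : ¬ p ∣ orderOf (b * d) := fun h => by
        have h' := h.trans (show Commute b d from hcomm b hbu d hdv).orderOf_mul_dvd_mul_orderOf
        exact (hp.dvd_mul.1 h').elim b1 b2
      have h1 := (CfsgLib.ZStar.part_unique (p := p) e
        ((hab.mul_right (hcomm a hau d hdv)).mul_left ((show Commute c b from (hcomm b hbu c hcv).symm).mul_right hcd))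
        hpow hbd).2
      have h2 := (CfsgLib.ZStar.part_unique (p := p) (one_mul g) (Commute.one_left g) ⟨0, by simp⟩ hg).2
      refine ⟨(⟨b, hbu⟩, ⟨d, hdv⟩), ?_, h1.symm.trans h2⟩
      simp only [P₁, P₂, Finset.mem_product, Finset.mem_filter, Finset.mem_univ, true_and, ← Subgroup.orderOf_coe]
      exact ⟨b1, b2⟩
  have hsplit : regTotal p (χ : G → ℂ) / (χ : G → ℂ) 1 =
      (regTotal p (fun u : U₁ => (χ : G → ℂ) u) / (χ : G → ℂ) 1) *
        (regTotal p (fun v : U₂ => (χ : G → ℂ) v) / (χ : G → ℂ) 1) := by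
    have e1 : omega (χ : G → ℂ) (z₁ * z₂) = regTotal p (χ : G → ℂ) / (χ : G → ℂ) 1 := by
      rw [show z₁ * z₂ = ∑ x ∈ P₁ ×ˢ P₂, MonoidAlgebra.single ((x.1 : G) * (x.2 : G)) 1 by
        simp [z₁, z₂, Finset.sum_mul_sum, Finset.sum_product, MonoidAlgebra.single_mul_single], hω, hbij]
    rw [← e1, omega_mul χ.2 hz₁]
    congr 1 <;>
    · rw [hω, regTotal, Finset.sum_filter]
      congr 1
      exact Finset.sum_congr rfl fun u _ => by split_ifs <;> rfl
  rw [mem_principal_iff_regTotal hM]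
  have t1 := hT U₁ ψ₁ hi₁ h₁
  have t2 := hT U₂ ψ₂ hi₂ h₂
  refine ⟨fun h => ⟨?_, ?_⟩, fun h h0 => ?_⟩
  · by_contra hn
    rw [t1.2 hn] at hsplit
    exact h (by simpa [apply_one_ne_zero χ.2] using hsplit)
  · by_contra hn
    rw [t2.2 hn] at hsplit
    exact h (by simpa [apply_one_ne_zero χ.2] using hsplit)
  · rw [h0, zero_div] at hsplit
    rcases mul_eq_zero.1 hsplit.symm with h' | h' <;>
      have h'' := (div_eq_zero_iff.1 h').resolve_right (apply_one_ne_zero χ.2)
    · exact t1.1 h'' h.1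
    · exact t2.1 h'' h.2

end Cfsg.Agent.S4521
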