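import Cfsg.Statements.S4540
import Cfsg.Agent.Blocks.TwoMajor
-- import your own Cfsg.Agent.* helpers here

set_option autoImplicit false
set_option linter.style.haveILetI false
open Cfsg CfsgLib CfsgLib.Blocks CfsgLib.CharBasics

namespace Cfsg.Agent.S4540

/-- Let B be a 2-block of the finite group G (relative to a maximal ideal M of the algebraic integers containing 2) of defect d with defect group D. Let z be an element of D commuting with every element of D, and let b be a block of the centralizer C of z with defect group D that induces B (a major subsection (z, b)). If b has 2-regular rank at most three, then 3·k(B) ≤ 3·k₀(B) + 2·Σ 2 ^ h(χ), where k(B) is the number of members of B, k₀(B) the number of members of height zero, and the sum runs over the members χ of B of positive height h(χ); this bound is at most 3·2 ^ d, so in particular B contains at most 2 ^ d irreducible characters. -/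
theorem result {G : Type*} [Group G] [Finite G] (M : Ideal Cfsg.AlgInt) (hM : Cfsg.IsPModular 2 M) (B : Set (Cfsg.IrrCharacter G)) (hB : Cfsg.IsPBlock M B) (D : Subgroup G) (hD : Cfsg.IsDefectGroup 2 M B D) (z : G) (hzD : z ∈ D) (hzc : ∀ d ∈ D, d * z = z * d) (b : Set (Cfsg.IrrCharacter ↥(Subgroup.centralizer ({z} : Set G)))) (hb : Cfsg.IsInducedBlock M (Subgroup.centralizer ({z} : Set G)) b B) (hbD : Cfsg.IsDefectGroup 2 M b (D.subgroupOf (Subgroup.centralizer ({z} : Set G)))) (hl : Cfsg.blockRank 2 b ≤ 3) : 3 * Nat.card B ≤ 3 * Nat.card {χ : Cfsg.IrrCharacter G // χ ∈ B ∧ Cfsg.blockHeight 2 B (χ : G → ℂ) = 0} + 2 * (∑ᶠ χ ∈ {χ : Cfsg.IrrCharacter G | χ ∈ B ∧ 1 ≤ Cfsg.blockHeight 2 B (χ : G → ℂ)}, 2 ^ Cfsg.blockHeight 2 B (χ : G → ℂ)) ∧ 3 * Nat.card {χ : Cfsg.IrrCharacter G // χ ∈ B ∧ Cfsg.blockHeight 2 B (χ : G → ℂ) = 0} + 2 * (∑ᶠ χ ∈ {χ : Cfsg.IrrCharacter G | χ ∈ B ∧ 1 ≤ Cfsg.blockHeight 2 B (χ : G → ℂ)}, 2 ^ Cfsg.blockHeight 2 B (χ : G → ℂ)) ≤ 3 * 2 ^ Cfsg.blockDefect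 2 B := by
  classical
  haveI : Fintype G := Fintype.ofFinite G
  haveI : Fintype (IrrCharacter G) := @Fintype.ofFinite _ finite_irrCharacter
  haveI : Fintype (Subgroup.centralizer ({z} : Set G)) := Fintype.ofFinite _
  have hx : ∃ k : ℕ, orderOf z = 2 ^ k := by
    obtain ⟨k, -, hk⟩ := (Nat.dvd_prime_pow hM.1).1 (show orderOf z ∣ 2 ^ blockDefect 2 B by
      rw [← card_defectGroup hM hB hD]; exact Subgroup.orderOf_dvd_natCard D hzD)
    exact ⟨k, hk⟩
  have hle : D ≤ Subgroup.centralizer ({z} : Set G) := fun d hd =>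
    Subgroup.mem_centralizer_singleton_iff.2 (hzc d hd)
  have hdef : blockDefect 2 b = blockDefect 2 B := by
    have h1 := card_defectGroup hM hb.1 hbD
    rw [Nat.card_congr (Subgroup.subgroupOfEquivOfLe hle).toEquiv, card_defectGroup hM hB hD] at h1
    exact (Nat.pow_right_injective (le_refl 2) h1).symm
  have hT := two_major_bound hM hx hb hdef (Or.inl hl)
  set S := Finset.univ.filter (fun χ : IrrCharacter G => χ ∈ B) with hS
  have h0 : Nat.card {χ : IrrCharacter G // χ ∈ B ∧ blockHeight 2 B (χ : G → ℂ) = 0} =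
      (S.filter fun χ : IrrCharacter G => blockHeight 2 B (χ : G → ℂ) = 0).card := by
    rw [Nat.card_eq_fintype_card, hS, Finset.filter_filter, Fintype.card_subtype]
  have h1 : ∑ᶠ χ ∈ {χ : IrrCharacter G | χ ∈ B ∧ 1 ≤ blockHeight 2 B (χ : G → ℂ)}, 2 ^ blockHeight 2 B (χ : G → ℂ) =
      ∑ χ ∈ S.filter (fun χ : IrrCharacter G => ¬ blockHeight 2 B (χ : G → ℂ) = 0), 2 ^ blockHeight 2 B (χ : G → ℂ) := by
    rw [finsum_mem_eq_toFinset_sum]
    refine Finset.sum_congr ?_ fun _ _ => rfl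
    ext χ
    simp [hS, Nat.one_le_iff_ne_zero]
  have hsplit : ∑ χ ∈ S, twoWeight B χ = 3 * (S.filter fun χ : IrrCharacter G => blockHeight 2 B (χ : G → ℂ) = 0).card +
      2 * ∑ χ ∈ S.filter (fun χ : IrrCharacter G => ¬ blockHeight 2 B (χ : G → ℂ) = 0), 2 ^ blockHeight 2 B (χ : G → ℂ) := by
    simp only [twoWeight]
    rw [Finset.sum_ite, Finset.sum_const, smul_eq_mul, mul_comm, Finset.mul_sum]
  have hk : 3 * Nat.card B ≤ ∑ χ ∈ S, twoWeight B χ := by
    rw [Nat.card_eq_fintype_card (α := B), hS, ← Set.toFinset_card,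
      show B.toFinset = Finset.univ.filter (fun χ : IrrCharacter G => χ ∈ B) by ext; simp, mul_comm, ← smul_eq_mul,
      ← Finset.sum_const]
    refine Finset.sum_le_sum fun χ _ => ?_
    rw [twoWeight]
    split_ifs with h
    · exact le_rfl
    · have := Nat.pow_le_pow_right (show 0 < 2 by norm_num) (Nat.one_le_iff_ne_zero.2 h)
      omega
  rw [h0, h1, ← hsplit]
  exact ⟨hk, hT⟩

end Cfsg.Agent.S4540
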