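import Cfsg.Statements.S4550
import Cfsg.Agent.Blocks.Idempotent
import Cfsg.Agent.BrauerInd.Galois

set_option autoImplicit false
open Cfsg

namespace Cfsg.Agent.S4550

open CfsgLib.CharBasics CfsgLib.Blocks

theorem exists_apply_involution {G : Type*} [Group G] [Finite G] {χ : G → ℂ} (h : Cfsg.IsCharacter G χ)
    {u : G} (hu : orderOf u = 2) : ∃ j : ℕ, χ u = (((Cfsg.charDegree χ : ℤ) - 2 * j : ℤ) : ℂ) := by
  classical
  obtain ⟨lam, hl, hv⟩ := exists_eigen h u
  refine ⟨(Finset.univ.filter fun i => lam i = -1).card, ?_⟩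
  have h2 : χ u = ∑ i, lam i := by simpa using hv 1
  have hi : ∀ i, lam i = 1 - 2 * (if lam i = -1 then (1 : ℂ) else 0) := by
    intro i
    have := hl i
    rw [hu, sq_eq_one_iff] at this
    rcases this with h | h
    · have hne : (1 : ℂ) ≠ -1 := by norm_num
      rw [h, if_neg hne, mul_zero, sub_zero]
    · rw [h, if_pos rfl]; norm_num
  rw [h2, Finset.sum_congr rfl (fun i _ => hi i), Finset.sum_sub_distrib, ← Finset.mul_sum,
    Finset.sum_boole]
  simp


/-- Let G be a finite group of even order and M a maximal ideal of the algebraic integers containing 2. Let k be a natural number with g ^ k = g ^ 3 for every 2-element g and g ^ k = g for every element g of odd order (such k exist); an irreducible character χ is unchanged by g ↦ g ^ k exactly when it is fixed by the field automorphism that cubes the 2-power roots of unity and fixes the roots of unity of odd order. Then the number of members χ of the principal 2-block of odd degree with χ (g ^ k) = χ g for all g is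 even. -/
theorem result {G : Type*} [Group G] [Finite G] (M : Ideal Cfsg.AlgInt) (hM : Cfsg.IsPModular 2 M) (hev : Even (Nat.card G)) (k : ℕ) (hk₁ : ∀ g : G, (∃ j : ℕ, orderOf g = 2 ^ j) → g ^ k = g ^ 3) (hk₂ : ∀ g : G, Odd (orderOf g) → g ^ k = g) : Even (Nat.card {χ : Cfsg.IrrCharacter G // χ ∈ Cfsg.principalBlock M G ∧ Odd (Cfsg.charDegree (χ : G → ℂ)) ∧ ∀ g : G, (χ : G → ℂ) (g ^ k) = (χ : G → ℂ) g}) := by
  classical
  haveI := Fintype.ofFinite G
  haveI : Fintype (Cfsg.IrrCharacter G) := @Fintype.ofFinite _ finite_irrCharacter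
  set B := Cfsg.principalBlock M G with hB
  have hk : k.Coprime (Nat.card G) := by
    refine Nat.coprime_of_dvd fun q hq hqk hqG => ?_
    haveI : Fact q.Prime := ⟨hq⟩
    obtain ⟨x, hx⟩ := exists_prime_orderOf_dvd_card' (G := G) q hqG
    have h0 : x ^ k = 1 := orderOf_dvd_iff_pow_eq_one.1 (hx ▸ hqk)
    have hx1 : x ≠ 1 := fun h => hq.one_lt.ne (by rw [← hx, h, orderOf_one])
    rcases hq.eq_two_or_odd' with rfl | hodd
    · rw [hk₁ x ⟨1, by rw [hx, pow_one]⟩] at h0
      have := orderOf_dvd_iff_pow_eq_one.2 h0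
      rw [hx] at this
      omega
    · rw [hk₂ x (hx ▸ hodd)] at h0
      exact hx1 h0
  set e := (Nat.card G).factorization 2 with he
  have hper : ∀ g : G, g ^ (k ^ 2 ^ e) = g := by
    intro g
    conv_rhs => rw [← pow_one g]
    rw [pow_eq_pow_iff_modEq]
    obtain ⟨a, m, hm, ho⟩ := Nat.exists_eq_pow_mul_and_not_dvd (orderOf_pos g).ne' 2 (by norm_num)
    have hm0 : m ≠ 0 := fun h => hm (h ▸ dvd_zero 2)
    rw [ho]
    refine (Nat.modEq_and_modEq_iff_modEq_mul
      (((Nat.prime_two.coprime_iff_not_dvd).2 hm).pow_left a)).1 ⟨?_, ?_⟩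
    · have h1 : orderOf (g ^ m) = 2 ^ a := by
        rw [orderOf_pow_of_dvd hm0 (ho ▸ dvd_mul_left m _), ho,
          Nat.mul_div_cancel _ (Nat.pos_of_ne_zero hm0)]
      have h2 := hk₁ (g ^ m) ⟨a, h1⟩
      rw [pow_eq_pow_iff_modEq, h1] at h2
      refine (h2.pow _).trans ?_
      rcases Nat.eq_zero_or_pos a with rfl | ha
      · rw [pow_zero]; exact Nat.modEq_one
      · have hae : a ≤ e :=
          (Nat.prime_two.pow_dvd_iff_le_factorization Nat.card_pos.ne').1
            (((ho ▸ dvd_mul_right _ m : 2 ^ a ∣ orderOf g)).trans (orderOf_dvd_natCard g))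
        have hc : Nat.Coprime 3 (2 ^ a) := Nat.Coprime.pow_right a (by norm_num)
        obtain ⟨c, hc'⟩ : Nat.totient (2 ^ a) ∣ 2 ^ e := by
          rw [Nat.totient_prime_pow Nat.prime_two ha]
          simpa using pow_dvd_pow 2 (show a - 1 ≤ e by omega)
        rw [hc', pow_mul]
        simpa using (Nat.ModEq.pow_totient hc).pow c
    · have h1 : orderOf (g ^ 2 ^ a) = m := by
        rw [orderOf_pow_of_dvd (by positivity) (ho ▸ dvd_mul_right _ m), ho,
          Nat.mul_div_cancel_left _ (by positivity)]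
      have h2 := hk₂ (g ^ 2 ^ a) (by rw [h1]; exact Nat.odd_iff.2 (by omega))
      conv_rhs at h2 => rw [← pow_one (g ^ 2 ^ a)]
      rw [pow_eq_pow_iff_modEq, h1] at h2
      simpa using h2.pow (2 ^ e)
  let S := {χ : Cfsg.IrrCharacter G // χ ∈ B ∧ Odd (Cfsg.charDegree (χ : G → ℂ))}
  have hSeven : Even (Nat.card S) := by
    obtain ⟨u, hu⟩ := exists_prime_orderOf_dvd_card' (G := G) 2 (even_iff_two_dvd.1 hev)
    have horth := weak_block_orth hM (isPBlock_principal : Cfsg.IsPBlock M B) (x := (1 : G)) (y := u)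
      (by simp) (by simp [hu])
    choose j hj using fun χ : Cfsg.IrrCharacter G => exists_apply_involution (isCharacter_of_irr χ.2) hu
    simp only [finsum_eq_if, finsum_eq_sum_of_fintype, hj, apply_one (isCharacter_of_irr (Subtype.property _)),
      map_intCast] at horth
    rw [← Finset.sum_filter] at horth
    have hz : ∑ χ ∈ Finset.univ.filter (· ∈ B),
        (Cfsg.charDegree (χ : G → ℂ) : ℤ) * ((Cfsg.charDegree (χ : G → ℂ) : ℤ) - 2 * j χ) = 0 := by
      exact_mod_cast horth
    have h2 := congrArg (fun z : ℤ => (z : ZMod 2)) hz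
    have hcast : ∀ n : ℕ, (n : ZMod 2) * (n : ZMod 2) = if Odd n then 1 else 0 := by
      intro n
      split_ifs with h
      · rw [(ZMod.natCast_eq_one_iff_odd).2 h, mul_one]
      · rw [(ZMod.natCast_eq_zero_iff_even).2 (Nat.not_odd_iff_even.1 h), mul_zero]
    have h20 : (2 : ZMod 2) = 0 := rfl
    simp only [Int.cast_sum, Int.cast_mul, Int.cast_sub, Int.cast_natCast, Int.cast_ofNat, Int.cast_zero,
      h20, zero_mul, sub_zero, hcast, Finset.sum_boole, Finset.filter_filter] at h2
    rw [ZMod.natCast_eq_zero_iff_even] at h2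
    rwa [Nat.card_eq_fintype_card, Fintype.card_subtype]
  have hmem : ∀ χ : Cfsg.IrrCharacter G, χ ∈ B ∧ Odd (Cfsg.charDegree (χ : G → ℂ)) →
      (⟨fun g => (χ : G → ℂ) (g ^ k), CfsgLib.BrauerInd.isIrr_pow hk χ.2⟩ : Cfsg.IrrCharacter G) ∈ B ∧
      Odd (Cfsg.charDegree (fun g => (χ : G → ℂ) (g ^ k))) := by
    rintro χ ⟨h1, h2⟩
    refine ⟨fun g => ?_, ?_⟩
    · have hcen : Subgroup.centralizer ({g ^ k} : Set G) = Subgroup.centralizer ({g} : Set G) := by
        ext x
        simp only [Subgroup.mem_centralizer_singleton_iff]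
        refine ⟨fun h => ?_, fun h => (Commute.pow_left (show Commute g x from h.symm) k).eq.symm⟩
        obtain ⟨d, hd⟩ := exists_pow_eq_self_of_coprime (x := g) (n := k)
          (hk.coprime_dvd_right (orderOf_dvd_natCard g))
        rw [← hd]
        exact (Commute.pow_left (show Commute (g ^ k) x from h.symm) d).eq.symm
      have := h1 (g ^ k)
      simp only [Cfsg.centralChar, hcen, one_pow] at this ⊢
      exact this
    · simpa [Cfsg.charDegree] using h2
  let T : S → S := fun χ => ⟨⟨fun g => (χ.1 : G → ℂ) (g ^ k), CfsgLib.BrauerInd.isIrr_pow hk χ.1.2⟩,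
    hmem χ.1 χ.2⟩
  have hT : ∀ (j : ℕ) (χ : S) (g : G), (((T^[j]) χ).1 : G → ℂ) g = (χ.1 : G → ℂ) (g ^ (k ^ j)) := by
    intro j
    induction j with
    | zero => intro χ g; simp
    | succ j ih =>
      intro χ g
      rw [Function.iterate_succ_apply', pow_succ', pow_mul]
      exact ih χ (g ^ k)
  have hTper : T^[2 ^ e] = id := funext fun χ => Subtype.ext (Subtype.ext (funext fun g => by
    rw [hT, hper, id_eq]))
  let σ : Equiv.Perm S :=
    { toFun := T
      invFun := T^[2 ^ e - 1]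
      left_inv := fun χ => by
        rw [← Function.iterate_succ_apply, Nat.succ_eq_add_one,
          Nat.sub_add_cancel Nat.one_le_two_pow, hTper, id_eq]
      right_inv := fun χ => by
        rw [← Function.iterate_succ_apply' T, Nat.succ_eq_add_one,
          Nat.sub_add_cancel Nat.one_le_two_pow, hTper, id_eq] }
  have hσ : σ ^ (2 ^ e) = 1 := Equiv.ext fun χ => by
    rw [Equiv.Perm.coe_pow, Equiv.Perm.coe_one]
    exact congrFun hTper χ
  haveI : Fact (Nat.Prime 2) := ⟨Nat.prime_two⟩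
  have hpg : IsPGroup 2 (Subgroup.zpowers σ) := by
    rintro ⟨x, hx⟩
    obtain ⟨i, rfl⟩ := Subgroup.mem_zpowers_iff.1 hx
    refine ⟨e, Subtype.ext ?_⟩
    show (σ ^ i) ^ (2 ^ e) = 1
    rw [← zpow_natCast (σ ^ i), ← zpow_mul, mul_comm, zpow_mul, zpow_natCast, hσ, one_zpow]
  have hmod := hpg.card_modEq_card_fixedPoints S
  have hfix : Nat.card (MulAction.fixedPoints (Subgroup.zpowers σ) S) = Nat.card {χ : Cfsg.IrrCharacter G //
      χ ∈ B ∧ Odd (Cfsg.charDegree (χ : G → ℂ)) ∧ ∀ g : G, (χ : G → ℂ) (g ^ k) = (χ : G → ℂ) g} := by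
    refine Nat.card_congr ⟨fun x => ⟨x.1.1, x.1.2.1, x.1.2.2, fun g => ?_⟩,
      fun x => ⟨⟨x.1, x.2.1, x.2.2.1⟩, ?_⟩, fun x => rfl, fun x => rfl⟩
    · have h : T x.1 = x.1 := x.2 ⟨σ, Subgroup.mem_zpowers σ⟩
      exact congrFun (congrArg (fun s : S => (s.1 : G → ℂ)) h) g
    · rintro ⟨τ, hτ⟩
      have h : σ ∈ MulAction.stabilizer (Equiv.Perm S) (⟨x.1, x.2.1, x.2.2.1⟩ : S) :=
        Subtype.ext (Subtype.ext (funext x.2.2.2))
      exact (Subgroup.zpowers_le.2 h) hτ
  rw [hfix] at hmod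
  rw [Nat.even_iff]
  rw [Nat.even_iff] at hSeven
  have h3 := hmod.symm
  unfold Nat.ModEq at h3
  exact h3.trans hSeven

end Cfsg.Agent.S4550
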