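import Cfsg.Statements.S4558
import Cfsg.Agent.Blocks.Glauberman
import Cfsg.Agent.Blocks.RootsMod

set_option autoImplicit false
open Cfsg

namespace Cfsg.Agent.S4558

/-- Let χ be a character of the finite group G and g an element of p-power order for the prime p. If χ g = 0, then p divides the degree of χ. -/
theorem result {G : Type*} [Group G] [Finite G] (p : ℕ) [Fact p.Prime] (χ : G → ℂ) (hχ : Cfsg.IsCharacter G χ) (g : G) (hg : ∃ j : ℕ, orderOf g = p ^ j) (h0 : χ g = 0) : p ∣ Cfsg.charDegree χ := by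
  obtain ⟨M, hM⟩ := CfsgLib.Blocks.exists_modular (Fact.out : p.Prime)
  haveI := Fintype.ofFinite G
  obtain ⟨lam, hl, hv⟩ := CfsgLib.CharBasics.exists_eigen hχ g
  obtain ⟨j, hj⟩ := hg
  have key : ∀ i, CfsgLib.Blocks.EqMod M (lam i) 1 := fun i =>
    CfsgLib.Blocks.eqMod_one_of_pow_eq_one hM j (by rw [← hj]; exact hl i)
  have h1 : Cfsg.MemLocalIdeal M (∑ i, (lam i - 1)) := CfsgLib.Blocks.memLocalIdeal_sum hM _ fun i _ => key i
  have hg1 := hv 1
  have hg0 := hv 0
  simp only [pow_one, pow_zero] at hg1 hg0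
  rw [Finset.sum_sub_distrib, ← hg1, ← hg0, h0, zero_sub] at h1
  rw [← CfsgLib.Blocks.memLocalIdeal_natCast_iff hM, ← CfsgLib.CharBasics.apply_one hχ]
  simpa using CfsgLib.Blocks.memLocalIdeal_neg h1

end Cfsg.Agent.S4558
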