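import Cfsg.Statements.S4560
import Cfsg.Agent.AltPairs.Chars

set_option autoImplicit false
open Cfsg

namespace Cfsg.Agent.S4560

open CfsgLib.AltPairs in
/-- A permutation with no two-cycle interchanges no pair of letters. -/
theorem nT_zero {n : ℕ} {H : Subgroup (Equiv.Perm (Fin n))} (x : H)
    (h2 : (2 : ℕ) ∉ (x : Equiv.Perm (Fin n)).cycleType) : nT H (Fin n) x = 0 := by
  classical
  set σ : Equiv.Perm (Fin n) := (x : Equiv.Perm (Fin n))
  rw [nT_eq, Nat.card_eq_zero]
  left
  refine ⟨fun a => ?_⟩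
  have hmove : σ a.1 ≠ a.1 := a.2.2
  have hc := Equiv.Perm.isCycle_cycleOf σ hmove
  have hsq : (σ.cycleOf a.1 ^ 2) a.1 = a.1 := by
    rw [Equiv.Perm.cycleOf_pow_apply_self, pow_two, Equiv.Perm.mul_apply]
    exact a.2.1
  have hord : orderOf (σ.cycleOf a.1) = 2 := by
    have hne : σ.cycleOf a.1 a.1 ≠ a.1 := by rwa [Equiv.Perm.cycleOf_apply_self]
    have hpow : σ.cycleOf a.1 ^ 2 = 1 := (Equiv.Perm.IsCycle.pow_eq_one_iff' hc hne).2 hsq
    refine orderOf_eq_prime hpow fun h => hne (by rw [h]; rfl)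
  apply h2
  rw [Equiv.Perm.cycleType_def, Multiset.mem_map]
  exact ⟨σ.cycleOf a.1, (Finset.mem_val.symm ▸ Equiv.Perm.cycleOf_mem_cycleFactorsFinset_iff.2 (Equiv.Perm.mem_support.2 hmove) :),
    by rw [← hord, hc.orderOf]; rfl⟩

open CfsgLib.AltPairs in
theorem nF_sub {n : ℕ} {H : Subgroup (Equiv.Perm (Fin n))} (x : H) :
    nF H (Fin n) x + (x : Equiv.Perm (Fin n)).cycleType.sum = n := by
  classical
  rw [nF_eq, Equiv.Perm.sum_cycleType]
  have e : Nat.card (MulAction.fixedBy (Fin n) x) = ((x : Equiv.Perm (Fin n)).support)ᶜ.card := by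
    rw [← Nat.card_eq_finsetCard]
    exact Nat.card_congr (Equiv.subtypeEquivRight fun a => by
      rw [Finset.mem_compl, Equiv.Perm.mem_support, not_not]; rfl)
  rw [e, Finset.card_compl_add_card, Fintype.card_fin]

open CfsgLib.AltPairs in
/-- Either character vanishes at an element without two-cycles, according to its fixed points. -/
theorem vanish {G α : Type*} [Group G] [Fintype α] [DecidableEq α] [MulAction G α] (g : G)
    (hT : nT G α g = 0) :
    ((nF G α g = 0 ∨ nF G α g = 3) → chi2 G α g = 0) ∧ ((nF G α g = 1 ∨ nF G α g = 2) → chi3 G α g = 0) := by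
  have h := nP_add_nF (α := α) g
  constructor
  · rintro (hF | hF) <;> rw [hF] at h
    · rw [chi2, hT, hF, show nP G α g = 0 by omega]; simp
    · rw [chi2, hT, hF, show nP G α g = 6 by omega]; norm_num
  · rintro (hF | hF) <;> rw [hF] at h
    · rw [chi3, hT, hF, show nP G α g = 0 by omega]; simp
    · rw [chi3, hT, hF, show nP G α g = 2 by omega]; norm_num

open CfsgLib.AltPairs in
/-- The two extendible characters, and what a zero of one of them gives. -/
theorem extendible {n : ℕ} (hn : 7 ≤ n) :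
    (∃ χ : Cfsg.IrrCharacter (alternatingGroup (Fin n)), (∀ x, (χ : alternatingGroup (Fin n) → ℂ) x =
        chi2 (alternatingGroup (Fin n)) (Fin n) x) ∧
      ∃ ψ : Cfsg.IrrCharacter (Equiv.Perm (Fin n)), ∀ x : alternatingGroup (Fin n),
        (ψ : Equiv.Perm (Fin n) → ℂ) x = (χ : alternatingGroup (Fin n) → ℂ) x) ∧
    (∃ χ : Cfsg.IrrCharacter (alternatingGroup (Fin n)), (∀ x, (χ : alternatingGroup (Fin n) → ℂ) x =
        chi3 (alternatingGroup (Fin n)) (Fin n) x) ∧
      ∃ ψ : Cfsg.IrrCharacter (Equiv.Perm (Fin n)), ∀ x : alternatingGroup (Fin n),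
        (ψ : Equiv.Perm (Fin n) → ℂ) x = (χ : alternatingGroup (Fin n) → ℂ) x) := by
  classical
  haveI h1 : MulAction.IsMultiplyPretransitive (alternatingGroup (Fin n)) (Fin n) 4 := by
    haveI := alternatingGroup.isMultiplyPretransitive (Fin n)
    exact MulAction.isMultiplyPretransitive_of_le (n := Nat.card (Fin n) - 2)
      (by rw [Nat.card_fin]; omega) (Nat.sub_le _ _)
  haveI h2 : MulAction.IsMultiplyPretransitive (Equiv.Perm (Fin n)) (Fin n) 4 :=
    Equiv.Perm.isMultiplyPretransitive (Fin n) 4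
  have h4 : 4 ≤ Fintype.card (Fin n) := by rw [Fintype.card_fin]; omega
  obtain ⟨a2, a3⟩ := isIrr (G := alternatingGroup (Fin n)) (α := Fin n) h4
  obtain ⟨b2, b3⟩ := isIrr (G := Equiv.Perm (Fin n)) (α := Fin n) h4
  exact ⟨⟨⟨_, a2⟩, fun x => rfl, ⟨_, b2⟩, fun x => rfl⟩, ⟨⟨_, a3⟩, fun x => rfl, ⟨_, b3⟩, fun x => rfl⟩⟩

open CfsgLib.AltPairs in
/-- An even permutation with prescribed cycle type without two-cycles gives a zero. -/
theorem of_cycleType {n : ℕ} (hn : 7 ≤ n) (m : Multiset ℕ) (hm : ∀ a ∈ m, 3 ≤ a)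
    (hsum : m.sum ≤ n) (hf : n ≤ m.sum + 3) (heven : Even (m.sum + Multiset.card m)) :
    ∃ x : alternatingGroup (Fin n), orderOf x = m.lcm ∧
      ∃ χ : Cfsg.IrrCharacter (alternatingGroup (Fin n)), (χ : alternatingGroup (Fin n) → ℂ) x = 0 ∧
        ∃ ψ : Cfsg.IrrCharacter (Equiv.Perm (Fin n)), ∀ x : alternatingGroup (Fin n),
          (ψ : Equiv.Perm (Fin n) → ℂ) x = (χ : alternatingGroup (Fin n) → ℂ) x := by
  classical
  obtain ⟨σ, hσ⟩ := (Equiv.Perm.exists_with_cycleType_iff (α := Fin n) (m := m)).2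
    ⟨by rwa [Fintype.card_fin], fun a ha => le_trans (by norm_num) (hm a ha)⟩
  have hA : σ ∈ alternatingGroup (Fin n) := by
    rw [Equiv.Perm.mem_alternatingGroup, Equiv.Perm.sign_of_cycleType, hσ]
    exact heven.neg_one_pow
  refine ⟨⟨σ, hA⟩, by rw [Subgroup.orderOf_mk, ← Equiv.Perm.lcm_cycleType, hσ], ?_⟩
  have hT := nT_zero (⟨σ, hA⟩ : alternatingGroup (Fin n)) (by rw [hσ]; exact fun h => absurd (hm 2 h) (by norm_num))
  have hF := nF_sub (⟨σ, hA⟩ : alternatingGroup (Fin n))
  rw [hσ] at hF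
  obtain ⟨⟨χ, hχ, hψ⟩, ⟨χ', hχ', hψ'⟩⟩ := extendible hn
  obtain ⟨v2, v3⟩ := vanish _ hT
  by_cases h : n - m.sum = 0 ∨ n - m.sum = 3
  · exact ⟨χ, (hχ _).trans (v2 (by omega)), hψ⟩
  · exact ⟨χ', (hχ' _).trans (v3 (by omega)), hψ'⟩

/-- For n ≥ 7 the alternating group on n letters has an irreducible character that vanishes at some 2-element and is the restriction of an irreducible character of the symmetric group, and an irreducible character that vanishes at some element of order 3 and is the restriction of an irreducible character of the symmetric group. -/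
theorem result (n : ℕ) (hn : 7 ≤ n) : (∃ χ : Cfsg.IrrCharacter (alternatingGroup (Fin n)), (∃ x : alternatingGroup (Fin n), (∃ j : ℕ, orderOf x = 2 ^ j) ∧ (χ : alternatingGroup (Fin n) → ℂ) x = 0) ∧ ∃ ψ : Cfsg.IrrCharacter (Equiv.Perm (Fin n)), ∀ x : alternatingGroup (Fin n), (ψ : Equiv.Perm (Fin n) → ℂ) x = (χ : alternatingGroup (Fin n) → ℂ) x) ∧ (∃ χ : Cfsg.IrrCharacter (alternatingGroup (Fin n)), (∃ y : alternatingGroup (Fin n), orderOf y = 3 ∧ (χ : alternatingGroup (Fin n) → ℂ) y = 0) ∧ ∃ ψ : Cfsg.IrrCharacter (Equiv.Perm (Fin n)), ∀ x : alternatingGroup (Fin n), (ψ : Equiv.Perm (Fin n) → ℂ) x = (χ : alternatingGroup (Fin n) → ℂ) x) := by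
  constructor
  · by_cases h7 : n = 7
    · subst h7
      obtain ⟨⟨χ, hχ, hψ⟩, -⟩ := extendible (n := 7) le_rfl
      let σ : Equiv.Perm (Fin 7) := Equiv.swap 0 1 * (Equiv.swap 2 3 * (Equiv.swap 3 4 * Equiv.swap 4 5))
      have hA : σ ∈ alternatingGroup (Fin 7) := by
        rw [Equiv.Perm.mem_alternatingGroup]; decide +kernel
      have hord : orderOf σ = 2 ^ 2 := orderOf_eq_prime_pow (by decide +kernel) (by decide +kernel)
      refine ⟨χ, ⟨⟨σ, hA⟩, ⟨2, by rw [Subgroup.orderOf_mk, hord]⟩, ?_⟩, hψ⟩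
      rw [hχ]
      have hF : CfsgLib.AltPairs.nF (alternatingGroup (Fin 7)) (Fin 7) ⟨σ, hA⟩ = 1 := by
        rw [CfsgLib.AltPairs.nF_eq, show MulAction.fixedBy (Fin 7) (⟨σ, hA⟩ : alternatingGroup (Fin 7)) =
          {a : Fin 7 | σ a = a} from rfl, Nat.card_eq_fintype_card]
        decide +kernel
      have hT : CfsgLib.AltPairs.nT (alternatingGroup (Fin 7)) (Fin 7) ⟨σ, hA⟩ = 2 := by
        rw [CfsgLib.AltPairs.nT_eq]
        refine (Nat.card_congr (Equiv.subtypeEquivRight (q := fun a : Fin 7 => σ (σ a) = a ∧ σ a ≠ a)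
          fun a => Iff.rfl)).trans ?_
        rw [Nat.card_eq_fintype_card]
        decide +kernel
      have h := CfsgLib.AltPairs.nP_add_nF (α := Fin 7) (⟨σ, hA⟩ : alternatingGroup (Fin 7))
      rw [hF] at h
      rw [CfsgLib.AltPairs.chi2, hT, hF,
        show CfsgLib.AltPairs.nP (alternatingGroup (Fin 7)) (Fin 7) ⟨σ, hA⟩ = 0 by omega]
      norm_num
    · -- only four-cycles, or one eight-cycle as well, as the parity requires
      set k := n / 4 with hk
      have h8 : 2 ≤ k := by omega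
      let m : Multiset ℕ := if Even k then Multiset.replicate k 4 else 8 ::ₘ Multiset.replicate (k - 2) 4
      have hm : ∀ a ∈ m, a = 4 ∨ a = 8 := by
        intro a ha
        simp only [m] at ha
        split_ifs at ha
        · exact Or.inl (Multiset.eq_of_mem_replicate ha)
        · rcases Multiset.mem_cons.1 ha with h | h
          · exact Or.inr h
          · exact Or.inl (Multiset.eq_of_mem_replicate h)
      have hs : m.sum = 4 * k ∧ Even (Multiset.card m) := by
        simp only [m]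
        split_ifs with h
        · simp [h, Nat.mul_comm]
        · rw [Nat.not_even_iff] at h
          simp only [Multiset.sum_cons, Multiset.sum_replicate, smul_eq_mul, Multiset.card_cons,
            Multiset.card_replicate, Nat.even_iff]
          omega
      obtain ⟨x, hx, χ, hz, hψ⟩ := of_cycleType hn m (fun a ha => by have := hm a ha; omega)
        (by omega) (by omega) ((hs.1 ▸ ⟨2 * k, by ring⟩ : Even m.sum).add hs.2)
      refine ⟨χ, ⟨x, ?_, hz⟩, hψ⟩
      have hd : m.lcm ∣ 2 ^ 3 := Multiset.lcm_dvd.2 fun a ha => by rcases hm a ha with rfl | rfl <;> norm_num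
      obtain ⟨j, -, hj⟩ := (Nat.dvd_prime_pow Nat.prime_two).1 hd
      exact ⟨j, hx.trans hj⟩
  · obtain ⟨x, hx, χ, hz, hψ⟩ := of_cycleType hn (Multiset.replicate (n / 3) 3)
      (fun a ha => (Multiset.eq_of_mem_replicate ha).ge)
      (by rw [Multiset.sum_replicate, smul_eq_mul]; omega)
      (by rw [Multiset.sum_replicate, smul_eq_mul]; omega)
      (by rw [Multiset.sum_replicate, Multiset.card_replicate, smul_eq_mul]; exact ⟨2 * (n / 3), by ring⟩)
    refine ⟨χ, ⟨x, hx.trans (Nat.dvd_antisymm ?_ ?_), hz⟩, hψ⟩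
    · exact Multiset.lcm_dvd.2 fun a ha => by rw [Multiset.eq_of_mem_replicate ha]
    · exact Multiset.dvd_lcm (Multiset.mem_replicate.2 ⟨by omega, rfl⟩)

end Cfsg.Agent.S4560
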