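import Cfsg.Statements.S4561
import Cfsg.Agent.Clifford.ExtCriteria


set_option autoImplicit false
universe u
open Cfsg

namespace Cfsg.Agent.S4561

open CfsgLib.CharBasics
open scoped ComplexConjugate

/-- `G` embeds in a group `W` with a bijective cocycle onto a module of squarefree exponent, the primes being
the same. -/
def Good (G : Type u) [Group G] : Prop :=
  ∃ (W : Type u) (_ : Group W) (_ : Finite W) (A : Type u) (_ : CommGroup A) (act : W →* MulAut A) (π : W ≃ A),
    (∀ x y, π (x * y) = π x * act x (π y)) ∧ (∀ a : A, a ^ (∏ q ∈ (Nat.card W).primeFactors, q) = 1) ∧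
      (∃ f : G →* W, Function.Injective f) ∧ (Nat.card W).primeFactors = (Nat.card G).primeFactors

theorem good_of_subsingleton (G : Type u) [Group G] [Subsingleton G] : Good G := by
  refine ⟨PUnit.{u + 1}, inferInstance, inferInstance, PUnit.{u + 1}, inferInstance, 1, Equiv.refl _, ?_, ?_,
    ⟨1, fun a b _ => Subsingleton.elim a b⟩, ?_⟩
  · intro x y; rfl
  · intro a; rfl
  · rw [Nat.card_of_subsingleton (PUnit.unit : PUnit.{u + 1}), Nat.card_of_subsingleton (1 : G)]

/-- The shift of functions on a group. -/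
def shiftHom (Q W : Type u) [Group Q] [Group W] : Q →* MulAut (Q → W) where
  toFun q :=
    { toFun := fun f x => f (q⁻¹ * x)
      invFun := fun f x => f (q * x)
      left_inv := fun f => funext fun x => by simp
      right_inv := fun f => funext fun x => by simp
      map_mul' := fun f g => rfl }
  map_one' := MulEquiv.ext fun f => funext fun x => show f (1⁻¹ * x) = f x by simp
  map_mul' a b := MulEquiv.ext fun f => funext fun x =>
    show f ((a * b)⁻¹ * x) = f (b⁻¹ * (a⁻¹ * x)) by simp [mul_assoc]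

theorem shiftHom_apply {Q W : Type u} [Group Q] [Group W] (q : Q) (f : Q → W) (x : Q) :
    shiftHom Q W q f x = f (q⁻¹ * x) := rfl

/-- The Kaloujnine–Krasner step. -/
theorem good_step {G : Type u} [Group G] [Finite G] (N : Subgroup G) [N.Normal] (p : ℕ) (hp : p.Prime)
    (hidx : Nat.card (G ⧸ N) = p) (h : Good N) : Good G := by
  classical
  haveI := Fact.mk hp
  obtain ⟨W, _, _, A, _, act, π, hπ, hexp, ⟨f, hf⟩, hpr⟩ := h
  haveI : IsCyclic (G ⧸ N) := isCyclic_of_prime_card hidx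
  letI : CommGroup (G ⧸ N) := IsCyclic.commGroup
  haveI : Finite ((G ⧸ N → W) ⋊[shiftHom (G ⧸ N) W] (G ⧸ N)) := Finite.of_equiv _ SemidirectProduct.equivProd.symm
  have hcardW : Nat.card ((G ⧸ N → W) ⋊[shiftHom (G ⧸ N) W] (G ⧸ N)) = Nat.card W ^ p * p := by
    rw [SemidirectProduct.card, Nat.card_fun, hidx]
  let act' : ((G ⧸ N → W) ⋊[shiftHom (G ⧸ N) W] (G ⧸ N)) →* MulAut ((G ⧸ N → A) × (G ⧸ N)) :=
    { toFun := fun w =>
        { toFun := fun a => (fun x => act (w.left x) (a.1 (w.right⁻¹ * x)), a.2)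
          invFun := fun a => (fun x => (act (w.left (w.right * x)))⁻¹ (a.1 (w.right * x)), a.2)
          left_inv := fun a => Prod.ext (funext fun x => by simp) rfl
          right_inv := fun a => Prod.ext (funext fun x => by simp) rfl
          map_mul' := fun a b => Prod.ext (funext fun x => by simp) rfl }
      map_one' := MulEquiv.ext fun a => Prod.ext (funext fun x => by
        show act ((1 : ((G ⧸ N → W) ⋊[shiftHom (G ⧸ N) W] (G ⧸ N))).left x) (a.1 ((1 : ((G ⧸ N → W) ⋊[shiftHom (G ⧸ N) W] (G ⧸ N))).right⁻¹ * x)) = a.1 x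
        simp) rfl
      map_mul' := fun v w => MulEquiv.ext fun a => Prod.ext (funext fun x => by
        show act ((v * w).left x) (a.1 ((v * w).right⁻¹ * x)) =
          act (v.left x) (act (w.left (v.right⁻¹ * x)) (a.1 (w.right⁻¹ * (v.right⁻¹ * x))))
        simp only [SemidirectProduct.mul_left, SemidirectProduct.mul_right, Pi.mul_apply, shiftHom_apply, map_mul,
          MulAut.mul_apply, mul_inv_rev, mul_assoc]) rfl }
  let π' : ((G ⧸ N → W) ⋊[shiftHom (G ⧸ N) W] (G ⧸ N)) ≃ ((G ⧸ N → A) × (G ⧸ N)) := SemidirectProduct.equivProd.trans ((Equiv.arrowCongr (Equiv.refl _) π).prodCongr (Equiv.refl _))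
  have hprimes : (Nat.card ((G ⧸ N → W) ⋊[shiftHom (G ⧸ N) W] (G ⧸ N))).primeFactors = (Nat.card G).primeFactors := by
    rw [hcardW, Subgroup.card_eq_card_quotient_mul_card_subgroup N, hidx,
      Nat.primeFactors_mul (pow_ne_zero _ Nat.card_pos.ne') hp.ne_zero,
      Nat.primeFactors_mul hp.ne_zero Nat.card_pos.ne', Nat.primeFactors_pow _ hp.ne_zero, hpr, Finset.union_comm]
  refine ⟨((G ⧸ N → W) ⋊[shiftHom (G ⧸ N) W] (G ⧸ N)), inferInstance, inferInstance, ((G ⧸ N → A) × (G ⧸ N)), inferInstance, act', π', ?_, ?_, ?_, hprimes⟩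
  · intro v w
    refine Prod.ext (funext fun x => ?_) rfl
    show π ((v * w).left x) = π (v.left x) * act (v.left x) (π (w.left (v.right⁻¹ * x)))
    rw [SemidirectProduct.mul_left, Pi.mul_apply, shiftHom_apply, hπ]
  · intro a
    have hsub : (Nat.card W).primeFactors ⊆ (Nat.card ((G ⧸ N → W) ⋊[shiftHom (G ⧸ N) W] (G ⧸ N))).primeFactors :=
      Nat.primeFactors_mono (by rw [hcardW]; exact Dvd.dvd.mul_right (dvd_pow_self _ hp.ne_zero) _) Nat.card_pos.ne'
    have hpm : p ∈ (Nat.card ((G ⧸ N → W) ⋊[shiftHom (G ⧸ N) W] (G ⧸ N))).primeFactors := by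
      rw [Nat.mem_primeFactors]
      exact ⟨hp, by rw [hcardW]; exact dvd_mul_left _ _, Nat.card_pos.ne'⟩
    refine Prod.ext (funext fun x => ?_) ?_
    · obtain ⟨c, hc⟩ := Finset.prod_dvd_prod_of_subset _ _ (fun q : ℕ => q) hsub
      rw [Prod.pow_fst, Pi.pow_apply, hc, pow_mul, hexp, one_pow]
      rfl
    · obtain ⟨c, hc⟩ := Finset.dvd_prod_of_mem (fun q : ℕ => q) hpm
      rw [Prod.pow_snd, hc, pow_mul, ← hidx, pow_card_eq_one', one_pow]
      rfl
  · have hmem : ∀ (g : G) (q : G ⧸ N),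
        (Quotient.out q)⁻¹ * g * Quotient.out ((g : G ⧸ N)⁻¹ * q) ∈ N := fun g q => by
      rw [← QuotientGroup.eq_one_iff, QuotientGroup.mk_mul, QuotientGroup.mk_mul, QuotientGroup.mk_inv,
        QuotientGroup.out_eq', QuotientGroup.out_eq']
      group
    let F : G →* ((G ⧸ N → W) ⋊[shiftHom (G ⧸ N) W] (G ⧸ N)) :=
      MonoidHom.mk' (fun g => (⟨fun q => f ⟨_, hmem g q⟩, (g : G ⧸ N)⟩ : ((G ⧸ N → W) ⋊[shiftHom (G ⧸ N) W] (G ⧸ N)))) fun g h => by
        refine SemidirectProduct.ext (funext fun q => ?_) rfl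
        rw [SemidirectProduct.mul_left, Pi.mul_apply, shiftHom_apply, ← map_mul]
        refine congrArg f (Subtype.ext ?_)
        simp only [Subgroup.coe_mul, QuotientGroup.mk_mul, mul_inv_rev, mul_assoc]
        rw [mul_inv_cancel_left]
    refine ⟨F, (injective_iff_map_eq_one F).2 fun g hg => ?_⟩
    have h2 : (g : G ⧸ N) = 1 := congrArg SemidirectProduct.right hg
    have h1 : f ⟨_, hmem g 1⟩ = 1 := congrFun (congrArg SemidirectProduct.left hg) 1
    rw [← map_one f] at h1
    have h3 := congrArg Subtype.val (hf h1)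
    simp only [h2, inv_one, one_mul, Subgroup.coe_one] at h3
    have := congrArg (fun z => Quotient.out (1 : G ⧸ N) * z * (Quotient.out (1 : G ⧸ N))⁻¹) h3
    simpa [mul_assoc] using this

theorem good_of_solvable : ∀ (k : ℕ) (G : Type u) [Group G] [Finite G], Group.IsSolvable G → Nat.card G = k →
    Good G := by
  intro k
  induction k using Nat.strong_induction_on with
  | _ k ih =>
    intro G _ _ hs hk
    rcases subsingleton_or_nontrivial G with h | h
    · exact good_of_subsingleton G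
    haveI := hs
    have hne : commutator G ≠ ⊤ := (Group.IsSolvable.commutator_lt_top_of_nontrivial G).ne
    obtain ⟨N, hN, hle⟩ := (eq_top_or_exists_le_coatom (commutator G)).resolve_left hne
    haveI hNn : N.Normal := by
      refine ⟨fun n hn g => ?_⟩
      have h1 : g * n * g⁻¹ * n⁻¹ ∈ N :=
        hle (Subgroup.commutator_mem_commutator (Subgroup.mem_top g) (Subgroup.mem_top n))
      simpa using N.mul_mem h1 hn
    have hprime : (Nat.card (G ⧸ N)).Prime := by
      haveI hnt : Nontrivial (G ⧸ N) := QuotientGroup.nontrivial_iff.2 hN.1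
      obtain ⟨p, hp, hpd⟩ := Nat.exists_prime_and_dvd (Finite.one_lt_card (α := G ⧸ N)).ne'
      haveI := Fact.mk hp
      obtain ⟨x, hx⟩ := exists_prime_orderOf_dvd_card' p hpd
      obtain ⟨g, rfl⟩ := QuotientGroup.mk_surjective x
      have htop : (Subgroup.zpowers (g : G ⧸ N)).comap (QuotientGroup.mk' N) = ⊤ := by
        refine hN.2 _ (lt_of_le_of_ne (fun n hn => ?_) fun he => ?_)
        · rw [Subgroup.mem_comap, QuotientGroup.mk'_apply, (QuotientGroup.eq_one_iff n).2 hn]
          exact Subgroup.one_mem _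
        · have : g ∈ N := he ▸ (Subgroup.mem_zpowers (g : G ⧸ N))
          rw [(QuotientGroup.eq_one_iff g).2 this, orderOf_one] at hx
          exact hp.ne_one hx.symm
      have h2 : Subgroup.zpowers (g : G ⧸ N) = ⊤ := by
        rw [← Subgroup.map_comap_eq_self_of_surjective (QuotientGroup.mk'_surjective N)
          (Subgroup.zpowers (g : G ⧸ N)), htop, Subgroup.map_top_of_surjective _ (QuotientGroup.mk'_surjective N)]
      rw [← Subgroup.card_top (G := G ⧸ N), ← h2, Nat.card_zpowers, hx]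
      exact hp
    have hlt : Nat.card N < k := by
      rw [← hk, Subgroup.card_eq_card_quotient_mul_card_subgroup N]
      exact lt_mul_of_one_lt_left Nat.card_pos hprime.one_lt
    exact good_step N _ hprime rfl (ih _ hlt N inferInstance rfl)

variable {W A : Type u} [Group W] [CommGroup A]

/-- The Heisenberg construction over a bijective cocycle. -/
theorem heis [Finite W] [Finite A] (n : ℕ) [NeZero n] (act : W →* MulAut A) (π : W ≃ A) (ε : W → A)
    (hεdef : ∀ k, ε k = (act k)⁻¹ (π k)) (hεbij : Function.Bijective ε) (hπ1 : π 1 = 1)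
    (φ : W →* MulAut ((A →* ℂˣ) × rootsOfUnity n ℂ))
    (hφ1 : ∀ (k : W) (v : (A →* ℂˣ) × rootsOfUnity n ℂ) (a : A), (φ k v).1 a = v.1 ((act k)⁻¹ a))
    (hφ2 : ∀ (k : W) (v : (A →* ℂˣ) × rootsOfUnity n ℂ), ((φ k v).2 : ℂˣ) = (v.2 : ℂˣ) * v.1 (ε k)) :
    ∃ (H : Type u) (_ : Group H) (_ : Finite H) (χ : IrrCharacter H) (f : W →* H ⧸ Subgroup.center H),
      (∀ h : H, (χ : H → ℂ) h = (χ : H → ℂ) 1 → h = 1) ∧
      (charDegree (χ : H → ℂ)) ^ 2 = (Subgroup.center H).index ∧ Function.Injective f ∧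
      Nat.card (Subgroup.center H) = n ∧ Nat.card H = Nat.card W * n * Nat.card W := by
  classical
  haveI := Fintype.ofFinite W
  haveI := Fintype.ofFinite A
  have hn0 : 0 < n := Nat.pos_of_ne_zero (NeZero.ne n)
  haveI : NeZero (Monoid.exponent A) := ⟨Monoid.exponent_ne_zero_of_finite⟩
  haveI : Finite (A →* ℂˣ) := Finite.of_equiv A
    (CommGroup.monoidHom_mulEquiv_of_hasEnoughRootsOfUnity A ℂ).some.symm.toEquiv
  haveI : Finite ((A →* ℂˣ) × rootsOfUnity n ℂ) := inferInstanceAs (Finite ((A →* ℂˣ) × (rootsOfUnity n ℂ)))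
  haveI : Finite (((A →* ℂˣ) × rootsOfUnity n ℂ) ⋊[φ] W) := Finite.of_equiv _ SemidirectProduct.equivProd.symm
  haveI := Fintype.ofFinite (((A →* ℂˣ) × rootsOfUnity n ℂ) ⋊[φ] W)
  haveI := Fintype.ofFinite (A →* ℂˣ)
  haveI : Fintype (rootsOfUnity n ℂ) := Fintype.ofFinite _
  have hC : Nat.card (rootsOfUnity n ℂ) = n := by
    exact Complex.card_rootsOfUnity n
  have hA : Nat.card A = Nat.card W := (Nat.card_congr π).symm
  have hVcard : Nat.card ((A →* ℂˣ) × rootsOfUnity n ℂ) = Nat.card W * n := by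
    rw [Nat.card_prod, Nat.card_congr (CommGroup.monoidHom_mulEquiv_of_hasEnoughRootsOfUnity A ℂ).some.toEquiv,
      hA, hC]
  have hHcard : Nat.card (((A →* ℂˣ) × rootsOfUnity n ℂ) ⋊[φ] W) = Nat.card W * n * Nat.card W := by rw [SemidirectProduct.card, hVcard]
  have hsep : ∀ a : A, (∀ l : A →* ℂˣ, l a = 1) → a = 1 := by
    intro a ha
    by_contra hne
    obtain ⟨l, hl⟩ := CommGroup.exists_apply_ne_one_of_hasEnoughRootsOfUnity A ℂ hne
    exact hl (ha l)
  -- the centre
  let cH : (rootsOfUnity n ℂ) →* (((A →* ℂˣ) × rootsOfUnity n ℂ) ⋊[φ] W) := (SemidirectProduct.inl).comp (MonoidHom.inr (A →* ℂˣ) (rootsOfUnity n ℂ))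
  have hcinj : Function.Injective cH := SemidirectProduct.inl_injective.comp fun a b h => congrArg Prod.snd h
  have hcenter : Subgroup.center (((A →* ℂˣ) × rootsOfUnity n ℂ) ⋊[φ] W) = cH.range := by
    refine le_antisymm (fun h hh => ?_) ?_
    · rw [Subgroup.mem_center_iff] at hh
      have hk : h.right = 1 := by
        refine hεbij.1 ?_
        rw [show ε 1 = 1 by simp [hεdef, hπ1]]
        refine hsep _ fun l => ?_
        have h1 := congrArg SemidirectProduct.left (hh (SemidirectProduct.inl ((l, 1) : ((A →* ℂˣ) × rootsOfUnity n ℂ))))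
        simp only [SemidirectProduct.mul_left, SemidirectProduct.left_inl, SemidirectProduct.right_inl, map_one,
          MulAut.one_apply] at h1
        rw [mul_comm h.left] at h1
        have h2 := congrArg (fun v : ((A →* ℂˣ) × rootsOfUnity n ℂ) => (v.2 : ℂˣ)) (mul_right_cancel h1)
        try simp only at h2
        rw [hφ2] at h2
        simpa using h2.symm
      have hl : h.left.1 = 1 := by
        refine MonoidHom.ext fun a => ?_
        obtain ⟨k, rfl⟩ := hεbij.2 a
        have h1 := congrArg SemidirectProduct.left (hh (SemidirectProduct.inr k))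
        simp only [SemidirectProduct.mul_left, SemidirectProduct.left_inr, SemidirectProduct.right_inr, one_mul,
          map_one, mul_one] at h1
        have h2 := congrArg (fun v : ((A →* ℂˣ) × rootsOfUnity n ℂ) => (v.2 : ℂˣ)) h1
        try simp only at h2
        rw [hφ2] at h2
        simpa using h2
      exact ⟨h.left.2, SemidirectProduct.ext (Prod.ext hl.symm rfl) hk.symm⟩
    · rintro - ⟨c, rfl⟩
      rw [Subgroup.mem_center_iff]
      intro h
      refine SemidirectProduct.ext ?_ ?_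
      · show h.left * φ h.right ((1, c) : ((A →* ℂˣ) × rootsOfUnity n ℂ)) = ((1, c) : ((A →* ℂˣ) × rootsOfUnity n ℂ)) * φ 1 h.left
        rw [map_one, MulAut.one_apply]
        have hfix : φ h.right ((1, c) : (A →* ℂˣ) × rootsOfUnity n ℂ) = (1, c) :=
          Prod.ext (MonoidHom.ext fun a => by rw [hφ1]; rfl) (Subtype.ext (by rw [hφ2]; simp))
        rw [hfix]
        exact mul_comm (G := (A →* ℂˣ) × rootsOfUnity n ℂ) _ _
      · show h.right * 1 = 1 * h.right
        simp
  have hZcard : Nat.card (Subgroup.center (((A →* ℂˣ) × rootsOfUnity n ℂ) ⋊[φ] W)) = n := by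
    exact (congrArg (fun S : Subgroup _ => Nat.card S) hcenter).trans
      ((Nat.card_congr (MonoidHom.ofInjective hcinj).toEquiv).symm.trans hC)
  have hidx : (Subgroup.center (((A →* ℂˣ) × rootsOfUnity n ℂ) ⋊[φ] W)).index = Nat.card W ^ 2 := by
    have := (Subgroup.center (((A →* ℂˣ) × rootsOfUnity n ℂ) ⋊[φ] W)).index_mul_card
    rw [hZcard, hHcard] at this
    exact Nat.eq_of_mul_eq_mul_right hn0 (by rw [this]; ring)
  -- the character
  let N : Subgroup (((A →* ℂˣ) × rootsOfUnity n ℂ) ⋊[φ] W) := (SemidirectProduct.inl : ((A →* ℂˣ) × rootsOfUnity n ℂ) →* (((A →* ℂˣ) × rootsOfUnity n ℂ) ⋊[φ] W)).range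
  haveI := Fintype.ofFinite N
  let eN : ((A →* ℂˣ) × rootsOfUnity n ℂ) ≃* N := MonoidHom.ofInjective SemidirectProduct.inl_injective
  let lam : N →* ℂ := (Units.coeHom ℂ).comp (((rootsOfUnity n ℂ).subtype.comp (MonoidHom.snd (A →* ℂˣ) (rootsOfUnity n ℂ))).comp eN.symm.toMonoidHom)
  let χ : (((A →* ℂˣ) × rootsOfUnity n ℂ) ⋊[φ] W) → ℂ := indFun N fun m => lam m
  have hχc : IsCharacter (((A →* ℂˣ) × rootsOfUnity n ℂ) ⋊[φ] W) χ := isCharacter_indFun N (isCharacter_of_irr (CfsgLib.Clifford.isIrrCharacter_of_hom lam))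
  have hNmem : ∀ h : (((A →* ℂˣ) × rootsOfUnity n ℂ) ⋊[φ] W), h ∈ N ↔ h.right = 1 := fun h =>
    ⟨fun ⟨v, hv⟩ => by rw [← hv]; simp, fun hh => ⟨h.left, SemidirectProduct.ext (by simp) (by simp [hh])⟩⟩
  have hχoff : ∀ h : (((A →* ℂˣ) × rootsOfUnity n ℂ) ⋊[φ] W), h ∉ N → χ h = 0 := fun h hh => by
    refine mul_eq_zero_of_right _ (Finset.sum_eq_zero fun x _ => extendByZero_of_not_mem N _ fun hx => hh ?_)
    rw [hNmem] at hx ⊢
    simp only [SemidirectProduct.mul_right, SemidirectProduct.inv_right] at hx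
    simpa [mul_assoc] using congrArg (fun z => x.right * z * x.right⁻¹) hx
  have hNcard : Nat.card N = Nat.card ((A →* ℂˣ) × rootsOfUnity n ℂ) := (Nat.card_congr eN.toEquiv).symm
  have hχon : ∀ v : ((A →* ℂˣ) × rootsOfUnity n ℂ), χ (SemidirectProduct.inl v) =
      if v.1 = 1 then ((v.2 : ℂˣ) : ℂ) * (Nat.card W : ℂ) else 0 := by
    intro v
    have hterm : ∀ x : (((A →* ℂˣ) × rootsOfUnity n ℂ) ⋊[φ] W), extendByZero N (fun m => lam m) (x⁻¹ * SemidirectProduct.inl v * x) =
        ((v.2 : ℂˣ) : ℂ) * (((v.1 (ε x.right⁻¹)) : ℂˣ) : ℂ) := by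
      intro x
      have hx : x⁻¹ * SemidirectProduct.inl v * x = (eN (φ x.right⁻¹ v) : (((A →* ℂˣ) × rootsOfUnity n ℂ) ⋊[φ] W)) := by
        show _ = SemidirectProduct.inl (φ x.right⁻¹ v)
        refine SemidirectProduct.ext ?_ (by simp)
        simp only [SemidirectProduct.mul_left, SemidirectProduct.inv_left, SemidirectProduct.inv_right,
          SemidirectProduct.left_inl, SemidirectProduct.right_inl, SemidirectProduct.mul_right, mul_one]
        rw [mul_comm (φ x.right⁻¹ x.left⁻¹) (φ x.right⁻¹ v), map_inv (φ x.right⁻¹) x.left]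
        exact inv_mul_cancel_right (G := (A →* ℂˣ) × rootsOfUnity n ℂ) _ _
      rw [hx]
      refine (extendByZero_coe N _ _).trans ?_
      have h4 := congrArg (fun z : ℂˣ => (z : ℂ)) (hφ2 x.right⁻¹ v)
      simpa [lam] using h4
    show (Nat.card N : ℂ)⁻¹ * _ = _
    rw [Finset.sum_congr rfl fun x _ => hterm x, ← Finset.mul_sum,
      show (∑ x : (((A →* ℂˣ) × rootsOfUnity n ℂ) ⋊[φ] W), (((v.1 (ε x.right⁻¹)) : ℂˣ) : ℂ)) =
          ∑ z : ((A →* ℂˣ) × rootsOfUnity n ℂ) × W, (((v.1 (ε z.2⁻¹)) : ℂˣ) : ℂ) from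
        Fintype.sum_equiv SemidirectProduct.equivProd _ _ fun x => rfl,
      Fintype.sum_prod_type]
    simp only
    rw [Finset.sum_const, Finset.card_univ, ← Nat.card_eq_fintype_card, nsmul_eq_mul,
      Fintype.sum_bijective (fun k : W => ε k⁻¹) (hεbij.comp inv_involutive.bijective) _
        (fun a : A => ((v.1 a : ℂˣ) : ℂ)) fun k => rfl, hNcard, mul_left_comm,
      inv_mul_cancel_left₀ (Nat.cast_ne_zero.2 Nat.card_pos.ne')]
    split_ifs with h1
    · simp [h1, ← hA, Nat.card_eq_fintype_card, Fintype.card_congr π]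
    · have h3 : ∑ a : A, ((Units.coeHom ℂ).comp v.1) a = 0 := by
        refine sum_hom_units_eq_zero _ fun h2 => h1 (MonoidHom.ext fun a => Units.ext ?_)
        exact DFunLike.congr_fun h2 a
      simp only [MonoidHom.coe_comp, Function.comp_apply, Units.coeHom_apply] at h3
      rw [h3, mul_zero]
  have hχ1 : χ 1 = (Nat.card W : ℂ) := by
    rw [← map_one (SemidirectProduct.inl : ((A →* ℂˣ) × rootsOfUnity n ℂ) →* (((A →* ℂˣ) × rootsOfUnity n ℂ) ⋊[φ] W)), hχon]
    simp
  have hχirr : IsIrrCharacter (((A →* ℂˣ) × rootsOfUnity n ℂ) ⋊[φ] W) χ := by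
    refine isIrr_of_norm_one hχc ?_
    rw [classInner_indFun N _ (isClassFunction hχc), classInner_eq,
      ← Fintype.sum_equiv eN.toEquiv (fun v : ((A →* ℂˣ) × rootsOfUnity n ℂ) => lam (eN v) * conj (χ (eN v : (((A →* ℂˣ) × rootsOfUnity n ℂ) ⋊[φ] W)))) _ fun v => rfl,
      Fintype.sum_prod_type]
    have hinner : ∀ (l : A →* ℂˣ) (c : (rootsOfUnity n ℂ)), lam (eN (l, c)) * conj (χ (eN ((l, c) : ((A →* ℂˣ) × rootsOfUnity n ℂ)) : (((A →* ℂˣ) × rootsOfUnity n ℂ) ⋊[φ] W))) =
        if l = 1 then (Nat.card W : ℂ) else 0 := by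
      intro l c
      rw [show (eN ((l, c) : ((A →* ℂˣ) × rootsOfUnity n ℂ)) : (((A →* ℂˣ) × rootsOfUnity n ℂ) ⋊[φ] W)) = SemidirectProduct.inl ((l, c) : ((A →* ℂˣ) × rootsOfUnity n ℂ)) from rfl, hχon]
      have hnorm : ((c : ℂˣ) : ℂ) * conj ((c : ℂˣ) : ℂ) = 1 := by
        rw [Complex.mul_conj']
        rw [Complex.norm_eq_one_of_pow_eq_one (n := n) ?_ hn0.ne']
        · norm_num
        · exact (mem_rootsOfUnity' n (c : ℂˣ)).1 c.2
      by_cases hl : l = 1
      · simp only [hl, if_true, map_mul, Complex.conj_natCast]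
        rw [← mul_assoc]
        have hlam : lam (eN ((1, c) : ((A →* ℂˣ) × rootsOfUnity n ℂ))) = ((c : ℂˣ) : ℂ) := by simp [lam]
        rw [hlam, hnorm, one_mul]
      · simp [hl]
    simp only [hinner]
    rw [Finset.sum_eq_single (1 : A →* ℂˣ) (fun l _ hl => by simp [hl]) (by simp)]
    simp only [if_true, Finset.sum_const, Finset.card_univ, ← Nat.card_eq_fintype_card, nsmul_eq_mul, hC, hNcard,
      hVcard]
    have hW0 : (Nat.card W : ℂ) ≠ 0 := Nat.cast_ne_zero.2 Nat.card_pos.ne'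
    have hn0' : (n : ℂ) ≠ 0 := Nat.cast_ne_zero.2 hn0.ne'
    push_cast
    field_simp
  refine ⟨(((A →* ℂˣ) × rootsOfUnity n ℂ) ⋊[φ] W), inferInstance, inferInstance, ⟨χ, hχirr⟩,
    (QuotientGroup.mk' (Subgroup.center (((A →* ℂˣ) × rootsOfUnity n ℂ) ⋊[φ] W))).comp SemidirectProduct.inr, fun h hh => ?_, ?_, ?_,
    hZcard, hHcard⟩
  · change χ h = χ 1 at hh
    rw [hχ1] at hh
    have hW0 : (Nat.card W : ℂ) ≠ 0 := Nat.cast_ne_zero.2 Nat.card_pos.ne'
    by_cases hN : h ∈ N
    · obtain ⟨v, rfl⟩ := hN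
      rw [hχon] at hh
      split_ifs at hh with h1
      · have hc : ((v.2 : ℂˣ) : ℂ) = 1 := (mul_eq_right₀ hW0).1 hh
        rw [show v = 1 from Prod.ext h1 (Subtype.ext (Units.ext hc)), map_one]
      · exact absurd hh.symm hW0
    · rw [hχoff h hN] at hh
      exact absurd hh.symm hW0
  · rw [hidx]
    show (charDegree χ) ^ 2 = _
    rw [charDegree, hχ1, Complex.natCast_re, Nat.floor_natCast]
  · refine (injective_iff_map_eq_one _).2 fun k hk => ?_
    have h1 : (SemidirectProduct.inr k : (((A →* ℂˣ) × rootsOfUnity n ℂ) ⋊[φ] W)) ∈ Subgroup.center (((A →* ℂˣ) × rootsOfUnity n ℂ) ⋊[φ] W) := (QuotientGroup.eq_one_iff _).1 hk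
    rw [hcenter] at h1
    obtain ⟨c, hc⟩ := h1
    have := congrArg SemidirectProduct.right hc
    simpa [cH] using this.symm

/-- For every finite solvable group G there is a finite group H with a faithful irreducible character χ whose degree squared equals the index of the centre Z(H) (so χ is fully ramified over the centre), such that G is isomorphic to a subgroup of H/Z(H), the primes dividing the orders of H, of Z(H) and of G are the same, and the order of Z(H) is squarefree. -/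
theorem result {G : Type u} [Group G] [Finite G] (hsolv : Group.IsSolvable G) : ∃ (H : Type u) (_ : Group H) (_ : Finite H) (χ : Cfsg.IrrCharacter H), (∀ h : H, (χ : H → ℂ) h = (χ : H → ℂ) 1 → h = 1) ∧ (Cfsg.charDegree (χ : H → ℂ)) ^ 2 = (Subgroup.center H).index ∧ (∃ f : G →* H ⧸ Subgroup.center H, Function.Injective f) ∧ (∀ p : ℕ, p.Prime → ((p ∣ Nat.card H ↔ p ∣ Nat.card G) ∧ (p ∣ Nat.card (Subgroup.center H) ↔ p ∣ Nat.card G))) ∧ Squarefree (Nat.card (Subgroup.center H)) := by
  classical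
  obtain ⟨W, _, _, A, _, act, π, hπ, hexp, ⟨f, hf⟩, hpr⟩ := good_of_solvable _ G hsolv rfl
  haveI : Finite A := Finite.of_equiv W π
  haveI := Fintype.ofFinite W
  haveI := Fintype.ofFinite A
  set n := ∏ q ∈ (Nat.card W).primeFactors, q with hn
  have hn0 : 0 < n := Finset.prod_pos fun q hq => (Nat.prime_of_mem_primeFactors hq).pos
  haveI : NeZero n := ⟨hn0.ne'⟩
  haveI : NeZero (Monoid.exponent A) := ⟨Monoid.exponent_ne_zero_of_finite⟩
  -- the cocycle read backwards
  let ε : W → A := fun k => (act k)⁻¹ (π k)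
  have hε : ∀ k k', ε (k * k') = (act k')⁻¹ (ε k) * ε k' := fun k k' => by
    simp only [ε, map_mul, mul_inv_rev, MulAut.mul_apply, hπ, MulAut.inv_apply_self]
  have hπ1 : π 1 = 1 := by
    have := hπ 1 1
    simpa using this
  have hεbij : Function.Bijective ε := by
    have he : ε = fun k => (π k⁻¹)⁻¹ := funext fun k => by
      have h := hπ k⁻¹ k
      rw [inv_mul_cancel, hπ1, (map_inv act k : act k⁻¹ = (act k)⁻¹)] at h
      exact (eq_inv_of_mul_eq_one_right h.symm)
    rw [he]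
    exact inv_involutive.bijective.comp (π.bijective.comp inv_involutive.bijective)
  let C := rootsOfUnity n ℂ
  let μ : (A →* ℂˣ) → A → C := fun l a => ⟨l a, by rw [mem_rootsOfUnity, ← map_pow, hexp, map_one]⟩
  have hμmul : ∀ l l' a, μ (l * l') a = μ l a * μ l' a := fun l l' a => Subtype.ext rfl
  have hμmul' : ∀ l a b, μ l (a * b) = μ l a * μ l b := fun l a b => Subtype.ext (map_mul l a b)
  let V := (A →* ℂˣ) × C
  let φ₀ : W → V →* V := fun k =>
    { toFun := fun v => (v.1.comp ((act k)⁻¹).toMonoidHom, v.2 * μ v.1 (ε k))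
      map_one' := Prod.ext (MonoidHom.ext fun a => rfl) (Subtype.ext (by simp [μ]))
      map_mul' := fun v w => Prod.ext (MonoidHom.ext fun a => rfl) (by
        show v.2 * w.2 * μ (v.1 * w.1) (ε k) = v.2 * μ v.1 (ε k) * (w.2 * μ w.1 (ε k))
        rw [hμmul, mul_mul_mul_comm]) }
  have hφmul : ∀ k k' v, φ₀ (k * k') v = φ₀ k (φ₀ k' v) := fun k k' v => by
    refine Prod.ext (MonoidHom.ext fun a => ?_) ?_
    · show v.1 ((act (k * k'))⁻¹ a) = v.1 ((act k')⁻¹ ((act k)⁻¹ a))
      rw [map_mul, mul_inv_rev]; rfl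
    · show v.2 * μ v.1 (ε (k * k')) = v.2 * μ v.1 (ε k') * μ (v.1.comp ((act k')⁻¹).toMonoidHom) (ε k)
      rw [hε, hμmul', mul_assoc]
      congr 1
      exact mul_comm _ _
  have hφone : ∀ v, φ₀ 1 v = v := fun v => by
    refine Prod.ext (MonoidHom.ext fun a => ?_) ?_
    · show v.1 ((act 1)⁻¹ a) = v.1 a
      simp
    · show v.2 * μ v.1 (ε 1) = v.2
      refine mul_eq_left.2 (Subtype.ext ?_)
      simp [μ, ε, hπ1]
  let φ : W →* MulAut V :=
    { toFun := fun k => MulEquiv.mk ⟨φ₀ k, φ₀ k⁻¹, fun v => by rw [← hφmul, inv_mul_cancel, hφone],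
        fun v => by rw [← hφmul, mul_inv_cancel, hφone]⟩ (map_mul (φ₀ k))
      map_one' := MulEquiv.ext hφone
      map_mul' := fun k k' => MulEquiv.ext (hφmul k k') }
  obtain ⟨H, iH, iF, χ, F, hfaith, hdeg, hF, hZcard, hHcard⟩ :=
    heis n act π ε (fun k => rfl) hεbij hπ1 φ (fun k v a => rfl) (fun k v => rfl)
  refine ⟨H, iH, iF, χ, hfaith, hdeg, ⟨F.comp f, hF.comp hf⟩, fun p hp => ?_, ?_⟩
  · have hiff : p ∣ Nat.card W ↔ p ∣ Nat.card G := by
      constructor
      · intro h
        exact Nat.dvd_of_mem_primeFactors (hpr ▸ Nat.mem_primeFactors.2 ⟨hp, h, Nat.card_pos.ne'⟩)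
      · intro h
        exact Nat.dvd_of_mem_primeFactors (hpr.symm ▸ Nat.mem_primeFactors.2 ⟨hp, h, Nat.card_pos.ne'⟩)
    have hpn : p ∣ n ↔ p ∣ Nat.card W := by
      refine ⟨fun h => ?_, fun h => Finset.dvd_prod_of_mem (fun q : ℕ => q)
        (Nat.mem_primeFactors.2 ⟨hp, h, Nat.card_pos.ne'⟩)⟩
      obtain ⟨q, hq, hpq⟩ := (Prime.dvd_finset_prod_iff hp.prime _).1 h
      rw [(Nat.prime_dvd_prime_iff_eq hp (Nat.prime_of_mem_primeFactors hq)).1 hpq]
      exact Nat.dvd_of_mem_primeFactors hq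
    rw [hZcard, hHcard, hp.dvd_mul, hp.dvd_mul, hpn, ← hiff]
    simp
  · rw [hZcard, hn]
    refine Finset.squarefree_prod_of_pairwise_isCoprime (fun a ha b hb hab => ?_) fun q hq =>
      (Nat.prime_of_mem_primeFactors hq).squarefree
    exact Nat.coprime_iff_isRelPrime.1
      ((Nat.coprime_primes (Nat.prime_of_mem_primeFactors ha) (Nat.prime_of_mem_primeFactors hb)).2 hab)

end Cfsg.Agent.S4561
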