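import Cfsg.Statements.S4563
import Cfsg.Agent.Clifford.FullyRamifiedSection
import Cfsg.Agent.Hall.System


set_option autoImplicit false
open Cfsg

namespace Cfsg.Agent.S4563

open CfsgLib.CharBasics CfsgLib.Clifford CfsgLib.Clifford.RamifiedSection

/-- Let χ be an irreducible character of the finite group H that is fully ramified over the normal subgroup Z: the restriction of χ to Z is e times an irreducible character of Z with e ^ 2 equal to the index of Z. If K is a proper normal subgroup of H containing Z and χ is induced from a character of K, then H/K is solvable; in particular, if K is solvable then so is H. -/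
theorem result {H : Type*} [Group H] [Fintype H] (Z : Subgroup H) [Z.Normal] (χ : Cfsg.IrrCharacter H) (hfr : ∃ (θ : Cfsg.IrrCharacter ↥Z) (e : ℕ), e ^ 2 = Z.index ∧ ∀ z : ↥Z, (χ : H → ℂ) z = (e : ℂ) * (θ : ↥Z → ℂ) z) (K : Subgroup H) [K.Normal] [Fintype K] (hZK : Z ≤ K) (hK : K ≠ ⊤) (φ : ↥K → ℂ) (hφ : Cfsg.IsCharacter ↥K φ) (hind : Cfsg.indFun K φ = (χ : H → ℂ)) : Group.IsSolvable (H ⧸ K) ∧ (Group.IsSolvable ↥K → Group.IsSolvable H) := by
  classical
  haveI := Fintype.ofFinite Z
  obtain ⟨θ, e, hsq, hres⟩ := hfr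
  have h : Ramified Z (θ : Z → ℂ) (χ : H → ℂ) e := ⟨θ.2, χ.2, hsq, hres⟩
  -- the restriction of `φ` to `Z`
  have hinner : ∀ ω : Z → ℂ, classInner (fun z : Z => (χ : H → ℂ) z) ω =
      (Nat.card K : ℂ)⁻¹ * ∑ x : H, classInner (fun z : Z => conjFun x⁻¹ φ ⟨(z : H), hZK z.2⟩) ω := by
    intro ω
    have h1 : (fun z : Z => (χ : H → ℂ) z) =
        (Nat.card K : ℂ)⁻¹ • ∑ x : H, fun z : Z => conjFun x⁻¹ φ ⟨(z : H), hZK z.2⟩ := by
      funext z
      have h2 := congrFun (indFun_restrict_normal (G := H) (N := K) φ) ⟨(z : H), hZK z.2⟩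
      rw [← hind]
      simpa [Finset.sum_apply] using h2
    rw [h1, classInner_smul_left, classInner_sum_left]
  have hcomp : ∀ x : H, IsCharacter Z (fun z : Z => conjFun x φ ⟨(z : H), hZK z.2⟩) := fun x => by
    rw [conjFun_eq_comp]
    exact CfsgLib.CharBasics.isCharacter_comp
      (CfsgLib.CharBasics.isCharacter_comp hφ (MulAut.conjNormal x).toMonoidHom) (Subgroup.inclusion hZK)
  have honly : ∀ ω : Z → ℂ, IsIrrCharacter Z ω →
      classInner (fun z : Z => φ ⟨(z : H), hZK z.2⟩) ω ≠ 0 → ω = (θ : Z → ℂ) := by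
    intro ω hω hne
    by_contra hh
    have h0 : classInner (fun z : Z => (χ : H → ℂ) z) ω = 0 := by
      rw [show (fun z : Z => (χ : H → ℂ) z) = (e : ℂ) • (θ : Z → ℂ) from funext hres, classInner_smul_left,
        classInner_ne θ.2 hω (Ne.symm hh), mul_zero]
    rw [hinner, mul_eq_zero] at h0
    choose n hn using fun x : H => classInner_characters_nat (hcomp x⁻¹) (isCharacter_of_irr hω)
    have h0' := h0.resolve_left (inv_ne_zero (Nat.cast_ne_zero.mpr Nat.card_pos.ne'))
    simp only [hn, ← Nat.cast_sum, Nat.cast_eq_zero, Finset.sum_eq_zero_iff] at h0'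
    refine hne ?_
    have h1 := hn 1
    rw [h0' 1 (Finset.mem_univ _), Nat.cast_zero, inv_one, conjFun_one] at h1
    exact h1
  obtain ⟨c, hc⟩ := classInner_characters_nat
    (CfsgLib.CharBasics.isCharacter_comp hφ (Subgroup.inclusion hZK)) (isCharacter_of_irr θ.2)
  have hφZ : (fun z : Z => φ ⟨(z : H), hZK z.2⟩) = (c : ℂ) • (θ : Z → ℂ) := by
    rw [← hc]
    exact eq_smul_of_unique (isClassFunction (CfsgLib.CharBasics.isCharacter_comp hφ (Subgroup.inclusion hZK)))
      θ.2 honly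
  have hφ1 : φ 1 = (c : ℂ) * (θ : Z → ℂ) 1 := congrFun hφZ 1
  have hθ1 := apply_one_ne_zero θ.2
  have hce : c * K.index = e := by
    have h1 : (χ : H → ℂ) 1 = (K.index : ℂ) * φ 1 := by rw [← hind, indFun_apply_one]
    rw [hφ1, show (χ : H → ℂ) 1 = (e : ℂ) * (θ : Z → ℂ) 1 from hres 1] at h1
    have h2 : ((c * K.index : ℕ) : ℂ) * (θ : Z → ℂ) 1 = (e : ℂ) * (θ : Z → ℂ) 1 := by
      rw [h1]; push_cast; ring
    exact_mod_cast mul_right_cancel₀ hθ1 h2
  have hsolv : Group.IsSolvable (H ⧸ K) := by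
    refine CfsgLib.Hall.hall_converse fun p hp => ?_
    haveI := Fact.mk hp
    obtain ⟨Q⟩ : Nonempty (Sylow p (H ⧸ K)) := inferInstance
    have hcase : ∀ (R : Subgroup H) [Fintype R] (hZR : Z ≤ R), R ≤ K →
        ∀ f : ℕ, (∀ w : R → ℂ, IsIrrCharacter R w →
          classInner (fun z : Z => w ⟨(z : H), hZR z.2⟩) (θ : Z → ℂ) ≠ 0 → w 1 = (f : ℂ) * (θ : Z → ℂ) 1) →
          f * K.index ∣ e := by
      intro R _ hZR hRK f hf
      obtain ⟨r, F, hF, hdec⟩ := exists_decomp
        (CfsgLib.CharBasics.isCharacter_comp hφ (Subgroup.inclusion hRK))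
      have hFover : ∀ i, classInner (fun z : Z => F i ⟨(z : H), hZR z.2⟩) (θ : Z → ℂ) ≠ 0 := by
        intro i
        have hFi := CfsgLib.CharBasics.isCharacter_comp (isCharacter_of_irr (hF i)) (Subgroup.inclusion hZR)
        obtain ⟨ω, m, hm, hω⟩ := exists_constituent hFi (show F i (Subgroup.inclusion hZR 1) ≠ 0 from by
          rw [map_one]; exact apply_one_ne_zero (hF i))
        have hne : classInner (fun z : Z => F i ⟨(z : H), hZR z.2⟩) (ω : Z → ℂ) ≠ 0 :=
          fun h0 => Nat.cast_ne_zero.mpr hm.ne' (hω.symm.trans h0)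
        rw [← honly ω ω.2 ?_]
        · exact hne
        have hsplit : (fun z : Z => φ ⟨(z : H), hZK z.2⟩) = (fun z : Z => F i ⟨(z : H), hZR z.2⟩) +
            fun z : Z => (∑ j ∈ Finset.univ.erase i, F j) ⟨(z : H), hZR z.2⟩ := by
          funext z
          have h3 := congrFun hdec ⟨(z : H), hZR z.2⟩
          rw [← Finset.add_sum_erase _ _ (Finset.mem_univ i)] at h3
          exact h3
        rw [hsplit]
        exact classInner_add_ne_zero_left hFi
          (CfsgLib.CharBasics.isCharacter_comp (CfsgLib.CharBasics.isCharacter_sum _ _ fun j _ =>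
            isCharacter_of_irr (hF j)) (Subgroup.inclusion hZR)) (isCharacter_of_irr ω.2) hne
      have h3 := congrFun hdec 1
      simp only [map_one, Finset.sum_apply, fun i => hf (F i) (hF i) (hFover i), Finset.sum_const,
        Finset.card_univ, Fintype.card_fin, nsmul_eq_mul, hφ1] at h3
      have h4 : (c : ℂ) * (θ : Z → ℂ) 1 = ((r * f : ℕ) : ℂ) * (θ : Z → ℂ) 1 := by
        rw [h3]; push_cast; ring
      have h5 : c = r * f := by exact_mod_cast mul_right_cancel₀ hθ1 h4
      exact ⟨r, by rw [← hce, h5]; ring⟩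
    obtain ⟨M, hM⟩ := h.exists_complement (K := K) hZK p (Or.inr hcase) Q
    exact ⟨M, by rw [hM.symm.index_eq_card, Sylow.card_eq_multiplicity]⟩
  refine ⟨hsolv, fun hKs => ?_⟩
  haveI := hsolv
  haveI := hKs
  exact Group.isSolvable_of_ker_le_range K.subtype (QuotientGroup.mk' K) (by simp)

end Cfsg.Agent.S4563
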