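import Cfsg.Statements.S4566
import Cfsg.Agent.CharBasics.Central

set_option autoImplicit false
open Cfsg

namespace Cfsg.Agent.S4566

/-- Let N be a central subgroup of the finite group G, ψ a faithful irreducible (hence degree-one) character of N, and χ an irreducible character of G whose restriction to N contains ψ. If g ∈ G and some x ∈ G has commutator x⁻¹ g⁻¹ x g in N but different from 1, then χ g = 0. -/
theorem result {G : Type*} [Group G] [Fintype G] (N : Subgroup G) [Fintype N] (hN : N ≤ Subgroup.center G) (ψ : Cfsg.IrrCharacter ↥N) (hfaith : ∀ n : ↥N, (ψ : ↥N → ℂ) n = (ψ : ↥N → ℂ) 1 → n = 1) (χ : Cfsg.IrrCharacter G) (hover : Cfsg.classInner (fun n : ↥N => (χ : G → ℂ) n) (ψ : ↥N → ℂ) ≠ 0) (g x : G) (hcomm : x⁻¹ * g⁻¹ * x * g ∈ N) (hne : x⁻¹ * g⁻¹ * x * g ≠ 1) : (χ : G → ℂ) g = 0 := by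
  classical
  have hne' := hne
  clear hne
  by_contra hne
  set z : G := x⁻¹ * g⁻¹ * x * g with hz
  have hzc : z ∈ Subgroup.center G := hN hcomm
  have hm := CfsgLib.CharBasics.center_mul χ.2 hzc (x⁻¹ * g * x)
  have hconj : (χ : G → ℂ) (x⁻¹ * g * x) = (χ : G → ℂ) g :=
    CfsgLib.CharBasics.apply_conj' (CfsgLib.CharBasics.isCharacter_of_irr χ.2) x g
  have he : z * (x⁻¹ * g * x) = g := by
    rw [← Subgroup.mem_center_iff.1 hzc (x⁻¹ * g * x), hz]
    group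
  rw [he, hconj] at hm
  have hker : (χ : G → ℂ) z = (χ : G → ℂ) 1 := (mul_right_cancel₀ hne hm).symm
  let zn : ↥N := ⟨z, hcomm⟩
  let S : ℂ := ∑ n : ↥N, (χ : G → ℂ) n * (starRingEnd ℂ) ((ψ : ↥N → ℂ) n)
  have hS : S ≠ 0 := by
    intro h0
    exact hover (by rw [Cfsg.classInner]; show _ * S = 0; rw [h0, mul_zero])
  have hzcN : zn ∈ Subgroup.center ↥N := Subgroup.mem_center_iff.2 fun a =>
    Subtype.ext (Subgroup.mem_center_iff.1 hzc a)
  have hψ : ∀ n : ↥N, (ψ : ↥N → ℂ) 1 * (ψ : ↥N → ℂ) (zn * n) = (ψ : ↥N → ℂ) zn * (ψ : ↥N → ℂ) n :=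
    CfsgLib.CharBasics.center_mul ψ.2 hzcN
  have key : (starRingEnd ℂ) ((ψ : ↥N → ℂ) 1) * S = (starRingEnd ℂ) ((ψ : ↥N → ℂ) zn) * S := by
    simp only [S, Finset.mul_sum]
    rw [← Equiv.sum_comp (Equiv.mulLeft zn)]
    refine Finset.sum_congr rfl fun n _ => ?_
    simp only [Equiv.coe_mulLeft]
    have h1 : (χ : G → ℂ) ((zn * n : ↥N) : G) = (χ : G → ℂ) (n : G) :=
      CfsgLib.CharBasics.apply_mul_of_apply_eq (CfsgLib.CharBasics.isCharacter_of_irr χ.2) hker _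
    rw [h1, mul_left_comm, mul_left_comm ((starRingEnd ℂ) ((ψ : ↥N → ℂ) zn)), ← map_mul, ← map_mul, hψ n]
  have hψz : (ψ : ↥N → ℂ) zn = (ψ : ↥N → ℂ) 1 := (starRingEnd ℂ).injective (mul_right_cancel₀ hS key).symm
  exact hne' (congrArg Subtype.val (hfaith zn hψz))

end Cfsg.Agent.S4566
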