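import Cfsg.Statements.S4567
import Cfsg.Agent.CharBasics.Central
import Cfsg.Agent.CharBasics.Ortho

set_option autoImplicit false
open Cfsg CfsgLib.CharBasics
open scoped ComplexConjugate

namespace Cfsg.Agent.S4567

/-- Let N be a central subgroup of the finite group G and ψ a faithful irreducible (hence degree-one) character of N. Call a coset g N special when every x ∈ G whose commutator x⁻¹ g⁻¹ x g lies in N actually commutes with g (this depends only on the coset). Then the number of irreducible characters of G whose restriction to N contains ψ equals the number of conjugacy classes of G/N consisting of special cosets. -/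
theorem result {G : Type*} [Group G] [Fintype G] (N : Subgroup G) [N.Normal] [Fintype N] (hN : N ≤ Subgroup.center G) (ψ : Cfsg.IrrCharacter ↥N) (hfaith : ∀ n : ↥N, (ψ : ↥N → ℂ) n = (ψ : ↥N → ℂ) 1 → n = 1) : Nat.card {χ : Cfsg.IrrCharacter G // Cfsg.classInner (fun n : ↥N => (χ : G → ℂ) n) (ψ : ↥N → ℂ) ≠ 0} = Nat.card {C : ConjClasses (G ⧸ N) // ∃ g : G, ConjClasses.mk (g : G ⧸ N) = C ∧ ∀ x : G, x⁻¹ * g⁻¹ * x * g ∈ N → x * g = g * x} := by
  classical
  haveI := finite_irrCharacter (G := G)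
  haveI := Fintype.ofFinite (Cfsg.IrrCharacter G)
  haveI := Fintype.ofFinite (ConjClasses (G ⧸ N))
  haveI : IsMulCommutative N := ⟨⟨fun a b => Subtype.ext (Subgroup.mem_center_iff.1 (hN b.2) a)⟩⟩
  obtain ⟨hψ1, hψmul⟩ := irr_comm_hom ψ.2
  have hnc : ∀ (n : N) (y : G), (n : G) * y = y * n := fun n y => (Subgroup.mem_center_iff.1 (hN n.2) y).symm
  have hN0 : (Nat.card N : ℂ) ≠ 0 := Nat.cast_ne_zero.2 Nat.card_pos.ne'
  have hG0 : (Nat.card G : ℂ) ≠ 0 := Nat.cast_ne_zero.2 Nat.card_pos.ne'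
  let a : Cfsg.IrrCharacter G → ℂ := fun χ => classInner (fun n : N => (χ : G → ℂ) n) (ψ : N → ℂ)
  let Sp : G → Prop := fun g => ∀ x : G, x⁻¹ * g⁻¹ * x * g ∈ N → x * g = g * x
  have hSp : ∀ g : G, Sp g ↔ ∀ n : N, IsConj g ((n : G) * g) → n = 1 := by
    intro g
    constructor
    · intro h n hn
      obtain ⟨x, hx⟩ := isConj_iff.1 hn
      have e1 : x * g = g * x * n := by
        rw [mul_assoc, ← hnc n x, ← mul_assoc, ← hnc n g, ← hx]; simp [mul_assoc]
      have e2 : x * g = g * x := h x (by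
        have e3 : x⁻¹ * g⁻¹ * x * g = (n : G) := by
          rw [mul_assoc, e1]; simp [mul_assoc]
        rw [e3]; exact n.2)
      rw [e1, mul_eq_left] at e2
      exact Subtype.ext e2
    · intro h x hx
      have e : x * g * x⁻¹ = ((⟨_, hx⟩ : N) : G) * g := by
        have e1 : x * g = g * x * (x⁻¹ * g⁻¹ * x * g) := by simp [mul_assoc]
        calc x * g * x⁻¹ = g * (x * (((⟨_, hx⟩ : N) : G))) * x⁻¹ := by
              rw [← mul_assoc g x]; exact congrArg (· * x⁻¹) e1
          _ = g * (((⟨_, hx⟩ : N) : G) * x) * x⁻¹ := by rw [hnc ⟨_, hx⟩ x]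
          _ = g * ((⟨_, hx⟩ : N) : G) := by simp [mul_assoc]
          _ = _ := (hnc ⟨_, hx⟩ g).symm
      have := h ⟨_, hx⟩ (isConj_iff.2 ⟨x, e⟩)
      rw [this, OneMemClass.coe_one, one_mul, mul_inv_eq_iff_eq_mul] at e
      exact e
  have ha : ∀ χ : Cfsg.IrrCharacter G, a χ = 0 ∨ a χ = (χ : G → ℂ) 1 := by
    intro χ
    let r : N → ℂ := fun n => (χ : G → ℂ) n * conj ((ψ : N → ℂ) n)
    have hc : (χ : G → ℂ) 1 ≠ 0 := apply_one_ne_zero χ.2
    by_cases hr : ∀ n, r n = (χ : G → ℂ) 1
    · right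
      show classInner _ _ = _
      rw [classInner_eq]
      simp only [r] at hr
      simp only [hr, Finset.sum_const, Finset.card_univ, nsmul_eq_mul, ← Nat.card_eq_fintype_card]
      rw [inv_mul_cancel_left₀ hN0]
    · left
      push Not at hr
      obtain ⟨m, hm⟩ := hr
      have hmul : ∀ n : N, (χ : G → ℂ) 1 * r (m * n) = r m * r n := fun n => by
        simp only [r, Subgroup.coe_mul, hψmul, map_mul]
        linear_combination (conj ((ψ : N → ℂ) m) * conj ((ψ : N → ℂ) n)) * center_mul χ.2 (hN m.2) (n : G)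
      have hs : (χ : G → ℂ) 1 * ∑ n : N, r n = r m * ∑ n : N, r n := by
        rw [Finset.mul_sum, Finset.mul_sum]
        conv_lhs => rw [← Equiv.sum_comp (Equiv.mulLeft m) (fun n => (χ : G → ℂ) 1 * r n)]
        exact Finset.sum_congr rfl fun n _ => by simp only [Equiv.coe_mulLeft, hmul]
      show classInner _ _ = _
      rw [classInner_eq]
      refine mul_eq_zero_of_right _ ?_
      by_contra h0
      exact hm (mul_right_cancel₀ h0 hs).symm
  have hS : ∀ g : G, ∑ n : N, (if IsConj g ((n : G) * g) then conj ((ψ : N → ℂ) n) else 0) =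
      if Sp g then 1 else 0 := by
    intro g
    by_cases h : Sp g
    · rw [if_pos h, Finset.sum_eq_single (1 : N) (fun n _ hn => if_neg fun hc => hn ((hSp g).1 h n hc))
        (fun h => absurd (Finset.mem_univ _) h), if_pos (isConj_iff.2 ⟨1, by simp⟩), hψ1, map_one]
    · rw [if_neg h]
      rw [hSp] at h
      push Not at h
      obtain ⟨m, hm, hm1⟩ := h
      have hne : conj ((ψ : N → ℂ) m) ≠ 1 := fun e => hm1 (hfaith m (by
        have := congrArg conj e
        rw [Complex.conj_conj, map_one] at this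
        rw [this, hψ1]))
      obtain ⟨x, hx⟩ := isConj_iff.1 hm
      have hiff : ∀ n : N, IsConj g ((n : G) * g) ↔ IsConj g (((m * n : N) : G) * g) := by
        intro n
        have e : x * ((n : G) * g) * x⁻¹ = ((m * n : N) : G) * g := by
          rw [← mul_assoc x, ← hnc n x]; simp only [mul_assoc]; rw [← mul_assoc x, hx, Subgroup.coe_mul]
          rw [← mul_assoc, hnc m (n : G)]
        have hh : IsConj ((n : G) * g) (((m * n : N) : G) * g) := isConj_iff.2 ⟨x, e⟩
        exact ⟨fun h => h.trans hh, fun h => h.trans hh.symm⟩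
      set T := ∑ n : N, (if IsConj g ((n : G) * g) then conj ((ψ : N → ℂ) n) else 0) with hT
      have hs : T = conj ((ψ : N → ℂ) m) * T := by
        rw [hT, Finset.mul_sum]
        conv_lhs => rw [← Equiv.sum_comp (Equiv.mulLeft m)]
        refine Finset.sum_congr rfl fun n _ => ?_
        rw [Equiv.coe_mulLeft, mul_ite, mul_zero, ← map_mul, ← hψmul]
        exact if_congr (hiff n).symm rfl rfl
      by_contra h0
      exact hne (mul_eq_right₀ h0 |>.1 hs.symm)
  have hcol : ∀ g : G, ∑ χ : Cfsg.IrrCharacter G, a χ / (χ : G → ℂ) 1 * ((χ : G → ℂ) g * conj ((χ : G → ℂ) g)) =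
      (Nat.card N : ℂ)⁻¹ * if Sp g then (Nat.card (Subgroup.centralizer ({g} : Set G)) : ℂ) else 0 := by
    intro g
    have hterm : ∀ χ : Cfsg.IrrCharacter G, a χ / (χ : G → ℂ) 1 * ((χ : G → ℂ) g * conj ((χ : G → ℂ) g)) =
        ∑ n : N, (Nat.card N : ℂ)⁻¹ * (conj ((ψ : N → ℂ) n) * ((χ : G → ℂ) ((n : G) * g) * conj ((χ : G → ℂ) g))) := by
      intro χ
      simp only [a, classInner_eq, div_eq_mul_inv, Finset.mul_sum, Finset.sum_mul]
      refine Finset.sum_congr rfl fun n _ => ?_
      have h1 := center_mul χ.2 (hN n.2) g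
      have hc : (χ : G → ℂ) 1 ≠ 0 := apply_one_ne_zero χ.2
      field_simp
      linear_combination -(conj ((ψ : N → ℂ) n) * conj ((χ : G → ℂ) g)) * h1
    rw [Finset.sum_congr rfl fun χ _ => hterm χ, Finset.sum_comm]
    simp only [← Finset.mul_sum, sum_col]
    congr 1
    rw [Finset.sum_congr rfl (g := fun n : N => (if IsConj g ((n : G) * g) then conj ((ψ : N → ℂ) n) else 0) *
      (Nat.card (Subgroup.centralizer ({g} : Set G)) : ℂ)) fun n _ => ?_, ← Finset.sum_mul, hS]
    · split_ifs <;> simp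
    · by_cases h : IsConj g ((n : G) * g)
      · rw [if_pos h.symm, if_pos h]
        congr 2
        obtain ⟨x, hx⟩ := isConj_iff.1 h
        rw [show Subgroup.centralizer ({(n : G) * g} : Set G) = Subgroup.centralizer ({g} : Set G) from by
          ext y
          simp only [Subgroup.mem_centralizer_singleton_iff, mul_assoc]
          rw [← mul_assoc y, ← hnc n y, mul_assoc, mul_right_inj]]
      · rw [if_neg (fun h' => h h'.symm), if_neg h, mul_zero, zero_mul]
  have hcount : (Nat.card {χ : Cfsg.IrrCharacter G // a χ ≠ 0} : ℂ) =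
      (Nat.card G : ℂ)⁻¹ * ((Nat.card N : ℂ)⁻¹ *
        ∑ g : G, if Sp g then (Nat.card (Subgroup.centralizer ({g} : Set G)) : ℂ) else 0) := by
    rw [Finset.mul_sum (a := (Nat.card N : ℂ)⁻¹), ← Finset.sum_congr rfl fun g _ => hcol g, Finset.sum_comm,
      Finset.mul_sum, Nat.card_eq_fintype_card, Fintype.card_subtype, ← Finset.sum_boole]
    refine Finset.sum_congr rfl fun χ _ => ?_
    rw [← Finset.mul_sum, ← mul_assoc, mul_comm (Nat.card G : ℂ)⁻¹, mul_assoc, ← classInner_eq, classInner_self χ.2,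
      mul_one]
    rcases ha χ with h | h
    · rw [if_neg (not_not.2 h), h, zero_div]
    · rw [h, div_self (apply_one_ne_zero χ.2), if_pos (apply_one_ne_zero χ.2)]
  rw [← Nat.cast_inj (R := ℂ), hcount]
  let π : G → ConjClasses (G ⧸ N) := fun y => ConjClasses.mk (y : G ⧸ N)
  have hfib : ∀ C : ConjClasses (G ⧸ N), (∑ y ∈ Finset.univ.filter (fun y => π y = C),
      if Sp y then (Nat.card (Subgroup.centralizer ({y} : Set G)) : ℂ) else 0) =
      if (∃ g : G, π g = C ∧ Sp g) then (Nat.card N : ℂ) * Nat.card G else 0 := by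
    intro C
    have hinv : ∀ y z : G, π y = π z → ∃ n : N, IsConj ((n : G) * y) z := by
      intro y z h
      obtain ⟨q, hq⟩ := isConj_iff.1 (ConjClasses.mk_eq_mk_iff_isConj.1 h)
      obtain ⟨x, rfl⟩ := QuotientGroup.mk_surjective q
      rw [← QuotientGroup.mk_inv, ← QuotientGroup.mk_mul, ← QuotientGroup.mk_mul, QuotientGroup.eq] at hq
      refine ⟨⟨_, hq⟩, isConj_iff.2 ⟨x, ?_⟩⟩
      generalize hc : (⟨_, hq⟩ : N) = c
      have hc' : (c : G) = (x * y * x⁻¹)⁻¹ * z := congrArg Subtype.val hc.symm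
      calc x * ((c : G) * y) * x⁻¹ = (c : G) * (x * y * x⁻¹) := by
            rw [← mul_assoc x, ← hnc c x]; simp [mul_assoc]
        _ = x * y * x⁻¹ * c := hnc c _
        _ = z := by rw [hc', mul_inv_cancel_left]
    have hspn : ∀ (n : N) (y z : G), IsConj ((n : G) * y) z → Sp y → Sp z := by
      intro n y z hyz hy
      rw [hSp] at hy ⊢
      intro m hm
      obtain ⟨x, rfl⟩ := isConj_iff.1 hyz
      refine hy m ?_
      obtain ⟨w, hw⟩ := isConj_iff.1 hm
      refine isConj_iff.2 ⟨x⁻¹ * w * x, ?_⟩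
      apply mul_left_cancel (a := (n : G))
      have : x⁻¹ * (w * (x * ((n : G) * y) * x⁻¹) * w⁻¹) * x = x⁻¹ * ((m : G) * (x * ((n : G) * y) * x⁻¹)) * x := by
        rw [hw]
      calc (n : G) * (x⁻¹ * w * x * y * (x⁻¹ * w * x)⁻¹)
          = x⁻¹ * w * x * ((n : G) * y) * (x⁻¹ * w * x)⁻¹ := by
            rw [← mul_assoc _ (n : G), ← hnc n (x⁻¹ * w * x)]; simp [mul_assoc]
        _ = x⁻¹ * ((m : G) * (x * ((n : G) * y) * x⁻¹)) * x := by rw [← this]; simp [mul_assoc]
        _ = _ := by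
            rw [← mul_assoc x⁻¹, ← hnc m x⁻¹]
            simp only [mul_assoc, inv_mul_cancel, mul_one, inv_mul_cancel_left]
            rw [← mul_assoc, hnc m, mul_assoc]
    by_cases hex : ∃ g : G, π g = C ∧ Sp g
    · rw [if_pos hex]
      obtain ⟨g, hgC, hg⟩ := hex
      have hcard : (Finset.univ.filter fun y => π y = C).card = Nat.card N * Nat.card {x : G // IsConj g x} := by
        rw [← Fintype.card_subtype, ← Nat.card_eq_fintype_card, ← Nat.card_prod]
        symm
        refine Nat.card_eq_of_bijective (fun p => ⟨(p.1 : G) * p.2.1, ?_⟩) ⟨fun p q h => ?_, fun y => ?_⟩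
        · rw [← hgC]
          show ConjClasses.mk _ = ConjClasses.mk _
          rw [ConjClasses.mk_eq_mk_iff_isConj, QuotientGroup.mk_mul, (QuotientGroup.eq_one_iff _).2 p.1.2, one_mul]
          exact (MonoidHom.map_isConj (QuotientGroup.mk' N) p.2.2).symm
        · have h' : (p.1 : G) * p.2.1 = (q.1 : G) * q.2.1 := congrArg Subtype.val h
          have hz : q.2.1 = ((q.1⁻¹ * p.1 : N) : G) * p.2.1 := by
            rw [Subgroup.coe_mul, mul_assoc, h', Subgroup.coe_inv, inv_mul_cancel_left]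
          obtain ⟨x, hx⟩ := isConj_iff.1 p.2.2
          have hc : IsConj g (((q.1⁻¹ * p.1 : N) : G) * g) := by
            refine q.2.2.trans (isConj_iff.2 ⟨x⁻¹, ?_⟩)
            rw [hz, ← mul_assoc x⁻¹, ← hnc _ x⁻¹, ← hx]; simp [mul_assoc]
          have h1 := (hSp g).1 hg _ hc
          rw [inv_mul_eq_one] at h1
          exact Prod.ext h1.symm (Subtype.ext (mul_left_cancel (h1 ▸ h')))
        · obtain ⟨n, hn⟩ := hinv g y.1 (hgC.trans y.2.symm)
          obtain ⟨x, hx⟩ := isConj_iff.1 hn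
          refine ⟨(n, ⟨x * g * x⁻¹, isConj_iff.2 ⟨x, rfl⟩⟩), Subtype.ext ?_⟩
          show (n : G) * (x * g * x⁻¹) = y.1
          rw [← hx, ← mul_assoc x (n : G), ← hnc n x]; simp [mul_assoc]
      rw [Finset.sum_congr rfl (g := fun _ => (Nat.card (Subgroup.centralizer ({g} : Set G)) : ℂ)) fun y hy => ?_,
        Finset.sum_const, nsmul_eq_mul, hcard, card_conjClass, Nat.cast_mul, mul_assoc, ← Nat.cast_mul,
        Subgroup.index_mul_card]
      obtain ⟨n, hn⟩ := hinv g y (hgC.trans (Finset.mem_filter.1 hy).2.symm)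
      rw [if_pos (hspn n g y hn hg)]
      congr 1
      obtain ⟨x, hx⟩ := isConj_iff.1 hn
      refine (Nat.card_congr (Equiv.subtypeEquiv (MulAut.conj x).toEquiv fun z => ?_)).symm
      simp only [SetLike.mem_coe, MulEquiv.toEquiv_eq_coe, MulEquiv.coe_toEquiv, MulAut.conj_apply,
        Subgroup.mem_centralizer_singleton_iff, ← hx]
      simp only [mul_assoc, inv_mul_cancel_left, mul_right_inj]
      rw [← mul_assoc z, ← hnc n z, mul_assoc, ← mul_assoc g z, ← mul_assoc z g x⁻¹, mul_right_inj, mul_left_inj]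
    · rw [if_neg hex]
      refine Finset.sum_eq_zero fun y hy => if_neg fun h => hex ⟨y, (Finset.mem_filter.1 hy).2, h⟩
  have e : Nat.card {C : ConjClasses (G ⧸ N) // ∃ g : G, π g = C ∧ Sp g} =
      (Finset.univ.filter fun C => ∃ g : G, π g = C ∧ Sp g).card := by
    rw [Nat.card_eq_fintype_card, Fintype.card_subtype]
  rw [← Finset.sum_fiberwise Finset.univ π, Finset.sum_congr rfl fun C _ => hfib C, ← Finset.sum_filter,
    Finset.sum_const, nsmul_eq_mul]
  show _ = ((Nat.card {C : ConjClasses (G ⧸ N) // ∃ g : G, π g = C ∧ Sp g} : ℕ) : ℂ)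
  rw [e]
  field_simp

end Cfsg.Agent.S4567
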