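import Cfsg.Statements.S4571
import Cfsg.Agent.Blocks.RegularRank
import Cfsg.Agent.Blocks.PrincipalSum
import Cfsg.Agent.ZStar.PartChar

set_option autoImplicit false
set_option linter.style.haveILetI false
set_option linter.unusedSectionVars false
open Cfsg
open CfsgLib CfsgLib.CharBasics CfsgLib.Blocks

namespace Cfsg.Agent.S4571

variable {G : Type*} [Group G] [Fintype G] {p : ℕ} [Fact p.Prime] {Q : Subgroup G}

/-- Regular elements centralize. -/
theorem mem_centralizer_of_regular [Q.Normal] (hQ : IsPGroup p Q) (hsup : Q ⊔ Subgroup.centralizer (Q : Set G) = ⊤)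
    {a : G} (ha : ¬ p ∣ orderOf a) : a ∈ Subgroup.centralizer (Q : Set G) := by
  obtain ⟨q, hq, c, hc, rfl⟩ := Subgroup.mem_sup_of_normal_left.1 (hsup.symm ▸ Subgroup.mem_top a)
  set C := Subgroup.centralizer (Q : Set G) with hC
  obtain ⟨k, hk⟩ := hQ ⟨q, hq⟩
  have hk' : q ^ p ^ k = 1 := congrArg Subtype.val hk
  have h1 : ((q * c : G) : G ⧸ C) ^ p ^ k = 1 := by
    rw [QuotientGroup.mk_mul, (QuotientGroup.eq_one_iff c).2 hc, mul_one, ← QuotientGroup.mk_pow, hk']
    rfl
  have h2 : orderOf ((q * c : G) : G ⧸ C) = 1 :=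
    Nat.eq_one_of_dvd_coprimes (((Fact.out : p.Prime).coprime_iff_not_dvd.2 ha).pow_left k)
      (orderOf_dvd_of_pow_eq_one h1) (orderOf_map_dvd (QuotientGroup.mk' C) _)
  exact (QuotientGroup.eq_one_iff _).1 (orderOf_eq_one_iff.1 h2)

/-- A coset contains at most one regular element. -/
theorem eq_one_of_regular [Q.Normal] (hQ : IsPGroup p Q) (hsup : Q ⊔ Subgroup.centralizer (Q : Set G) = ⊤)
    {a u : G} (hu : u ∈ Q) (ha : ¬ p ∣ orderOf a) (hau : ¬ p ∣ orderOf (a * u)) : u = 1 := by
  have hc : Commute a u := (Subgroup.mem_centralizer_iff.1 (mem_centralizer_of_regular hQ hsup ha) u hu).symm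
  have hd : ¬ p ∣ orderOf u := fun h => by
    have hc' : Commute a⁻¹ (a * u) := ((Commute.refl a).mul_right hc).inv_left
    have h2 := h.trans (show orderOf u ∣ orderOf a⁻¹ * orderOf (a * u) by
      simpa using hc'.orderOf_mul_dvd_mul_orderOf)
    rw [orderOf_inv] at h2
    exact ((Fact.out : p.Prime).dvd_mul.1 h2).elim ha hau
  obtain ⟨k, hk⟩ := hQ ⟨u, hu⟩
  have hk' : u ^ p ^ k = 1 := congrArg Subtype.val hk
  exact orderOf_eq_one_iff.1 (Nat.eq_one_of_dvd_coprimes
    (((Fact.out : p.Prime).coprime_iff_not_dvd.2 hd).pow_left k) (orderOf_dvd_of_pow_eq_one hk') dvd_rfl)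

theorem exists_regular_lift [Q.Normal] {q : G ⧸ Q} (hq : ¬ p ∣ orderOf q) : ∃ g : G, ¬ p ∣ orderOf g ∧ (g : G ⧸ Q) = q := by
  obtain ⟨g, rfl⟩ := QuotientGroup.mk_surjective q
  obtain ⟨h1, h2, ⟨k, hk⟩, h4, -, -⟩ := ZStar.part_spec (p := p) g
  refine ⟨ZStar.prest p g, h4, ?_⟩
  obtain ⟨j, -, hj⟩ := (Nat.dvd_prime_pow (Fact.out : p.Prime)).1
    (hk ▸ orderOf_map_dvd (QuotientGroup.mk' Q) (ZStar.ppart p g))
  have hu := ZStar.part_unique (p := p) (g := (g : G ⧸ Q))
    (show (QuotientGroup.mk' Q) (ZStar.ppart p g) * (QuotientGroup.mk' Q) (ZStar.prest p g) = _ by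
      rw [← map_mul, h1]; rfl)
    (h2.map (QuotientGroup.mk' Q)) ⟨j, hj⟩ (fun h => h4 (h.trans (orderOf_map_dvd (QuotientGroup.mk' Q) _)))
  exact (hu.2.symm.trans (ZStar.part_of_regular hq).2)

theorem not_dvd_mk [Q.Normal] {g : G} (hg : ¬ p ∣ orderOf g) : ¬ p ∣ orderOf (g : G ⧸ Q) :=
  fun h => hg (h.trans (orderOf_map_dvd (QuotientGroup.mk' Q) g))

/-- Sum over the fibre of a function on the regular elements. -/
noncomputable def pushFun (Q : Subgroup G) [Fintype Q] : (G → ℂ) →ₗ[ℂ] (G ⧸ Q → ℂ) where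
  toFun F q := ∑ u : Q, F (q.out * u)
  map_add' F F' := by funext q; simp [Finset.sum_add_distrib]
  map_smul' c F := by funext q; simp [Finset.mul_sum]

theorem pushFun_mk [Fintype Q] (F : G → ℂ) (g : G) :
    pushFun Q F (g : G ⧸ Q) = ∑ u : Q, F (g * u) := by
  show ∑ u : Q, F ((g : G ⧸ Q).out * u) = _
  obtain ⟨v, hv⟩ := QuotientGroup.mk_out_eq_mul Q g
  rw [hv]
  exact Fintype.sum_equiv (Equiv.mulLeft v) _ _ fun u => by simp [mul_assoc]

/-- The cut of an inflation. -/
noncomputable def pullFun (p : ℕ) (Q : Subgroup G) : (G ⧸ Q → ℂ) →ₗ[ℂ] (G → ℂ) where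
  toFun h := pRegularPart p fun g : G => h (g : G ⧸ Q)
  map_add' h h' := by funext g; simp only [pRegularPart_eq, Pi.add_apply]; split_ifs <;> simp
  map_smul' c h := by funext g; simp only [pRegularPart_eq, RingHom.id_apply, Pi.smul_apply]; split_ifs <;> simp

variable [Q.Normal]

theorem pull_push [Fintype Q] (hQ : IsPGroup p Q) (hsup : Q ⊔ Subgroup.centralizer (Q : Set G) = ⊤) (F : G → ℂ) :
    pullFun p Q (pushFun Q (pRegularPart p F)) = pRegularPart p F := by
  classical
  funext g
  show pRegularPart p (fun g : G => pushFun Q (pRegularPart p F) (g : G ⧸ Q)) g = _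
  simp only [pRegularPart_eq, pushFun_mk]
  split_ifs with hg
  · rfl
  · rw [Finset.sum_eq_single (1 : Q)]
    · simp [hg]
    · intro u _ hu
      rw [if_pos]
      by_contra h
      exact hu (Subtype.ext (eq_one_of_regular hQ hsup u.2 hg h))
    · simp

theorem push_pull [Fintype Q] (hQ : IsPGroup p Q) (hsup : Q ⊔ Subgroup.centralizer (Q : Set G) = ⊤) (h : G ⧸ Q → ℂ) :
    pushFun Q (pullFun p Q h) = pRegularPart p h := by
  classical
  funext q
  obtain ⟨g₀, rfl⟩ := QuotientGroup.mk_surjective q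
  rw [pushFun_mk]
  show ∑ u : Q, pRegularPart p (fun g : G => h (g : G ⧸ Q)) (g₀ * u) = _
  simp only [pRegularPart_eq]
  split_ifs with hq
  · refine Finset.sum_eq_zero fun u _ => if_pos ?_
    by_contra hu
    exact not_dvd_mk (Q := Q) hu (by rwa [QuotientGroup.mk_mul_of_mem g₀ u.2])
  · obtain ⟨g, hg, hgq⟩ := exists_regular_lift hq
    have hmem : g₀⁻¹ * g ∈ Q := QuotientGroup.eq.1 hgq.symm
    rw [Finset.sum_eq_single (⟨g₀⁻¹ * g, hmem⟩ : Q)]
    · show (if p ∣ orderOf (g₀ * (g₀⁻¹ * g)) then 0 else h ((g₀ * (g₀⁻¹ * g) : G) : G ⧸ Q)) = _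
      rw [mul_inv_cancel_left, if_neg hg, hgq]
    · intro u _ hu
      rw [if_pos]
      by_contra hgu
      refine hu (Subtype.ext ?_)
      have hm : g⁻¹ * (g₀ * u) ∈ Q := by
        have : g⁻¹ * (g₀ * (u : G)) = (g₀⁻¹ * g)⁻¹ * u := by group
        rw [this]; exact Q.mul_mem (Q.inv_mem hmem) u.2
      have h1 := eq_one_of_regular hQ hsup hm hg (by rwa [mul_inv_cancel_left])
      show (u : G) = g₀⁻¹ * g
      rw [inv_mul_eq_one.1 h1]; group
    · simp

theorem sum_regular_mk [Fintype (G ⧸ Q)] [Fintype Q] (hQ : IsPGroup p Q)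
    (hsup : Q ⊔ Subgroup.centralizer (Q : Set G) = ⊤) (h : G ⧸ Q → ℂ) :
    regTotal p (fun g : G => h g) = regTotal p h := by
  classical
  have e1 : regTotal p (fun g : G => h g) = ∑ g, pullFun p Q h g :=
    Finset.sum_congr rfl fun g _ => (congrFun (pRegularPart_eq (fun g : G => h g)) g).symm
  have e2 : regTotal p h = ∑ q, pushFun Q (pullFun p Q h) q := by
    rw [push_pull hQ hsup]
    exact Finset.sum_congr rfl fun q _ => (congrFun (pRegularPart_eq h) q).symm
  rw [e1, e2]
  let E : (G ⧸ Q) × Q ≃ G :=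
    { toFun := fun x => x.1.out * x.2
      invFun := fun g => ((g : G ⧸ Q), ⟨(g : G ⧸ Q).out⁻¹ * g, QuotientGroup.eq.1 (QuotientGroup.out_eq' _)⟩)
      left_inv := fun x => by
        have h1 : ((x.1.out * x.2 : G) : G ⧸ Q) = x.1 := by
          rw [QuotientGroup.mk_mul_of_mem _ x.2.2, QuotientGroup.out_eq']
        refine Prod.ext h1 (Subtype.ext ?_)
        simp only [h1, inv_mul_cancel_left]
      right_inv := fun g => by simp }
  rw [← Equiv.sum_comp E (fun g : G => pullFun p Q h g), Fintype.sum_prod_type]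
  rfl

/-- Let Q be a normal p-subgroup of the finite group G with G = Q·C_G(Q), and M a maximal ideal of the algebraic integers containing p. Then the principal p-blocks of G and of G/Q have the same p-regular rank (the same number of irreducible Brauer characters). -/
theorem result {G : Type*} [Group G] [Finite G] (p : ℕ) [Fact p.Prime] (M : Ideal Cfsg.AlgInt) (hM : Cfsg.IsPModular p M) (Q : Subgroup G) [Q.Normal] (hQ : IsPGroup p Q) (hsup : Q ⊔ Subgroup.centralizer (Q : Set G) = ⊤) : Cfsg.blockRank p (Cfsg.principalBlock M G) = Cfsg.blockRank p (Cfsg.principalBlock M (G ⧸ Q)) := by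
  classical
  haveI : Fintype G := Fintype.ofFinite G
  haveI : Fintype Q := Fintype.ofFinite Q
  haveI : Fintype (G ⧸ Q) := Fintype.ofFinite _
  haveI : Fintype (IrrCharacter G) := @Fintype.ofFinite _ finite_irrCharacter
  haveI : Fintype (IrrCharacter (G ⧸ Q)) := @Fintype.ofFinite _ finite_irrCharacter
  let infl : IrrCharacter (G ⧸ Q) → IrrCharacter G := fun ψ =>
    ⟨_, irr_comp_of_surjective ψ.2 (QuotientGroup.mk' Q) (QuotientGroup.mk'_surjective Q)⟩
  have hiff : ∀ ψ, infl ψ ∈ principalBlock M G ↔ ψ ∈ principalBlock M (G ⧸ Q) := fun ψ => by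
    rw [mem_principal_iff_regTotal hM, mem_principal_iff_regTotal hM,
      ← sum_regular_mk hQ hsup (ψ : G ⧸ Q → ℂ)]
    rfl
  set V := Submodule.span ℂ ((fun χ : IrrCharacter G => pRegularPart p (χ : G → ℂ)) '' principalBlock M G) with hV
  set W := Submodule.span ℂ ((fun χ : IrrCharacter (G ⧸ Q) => pRegularPart p (χ : G ⧸ Q → ℂ)) '' principalBlock M (G ⧸ Q))
    with hW
  have hWV : W.map (pullFun p Q) ≤ V := by
    rw [hW, Submodule.map_span, Submodule.span_le]
    rintro _ ⟨_, ⟨ψ, hψ, rfl⟩, rfl⟩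
    refine Submodule.subset_span ⟨infl ψ, (hiff ψ).2 hψ, ?_⟩
    funext g
    show pRegularPart p (fun g : G => (ψ : G ⧸ Q → ℂ) g) g = pRegularPart p (fun g : G => pRegularPart p (ψ : G ⧸ Q → ℂ) g) g
    simp only [pRegularPart_eq]
    split_ifs with h1 h2
    · rfl
    · exact absurd h2 (not_dvd_mk h1)
    · rfl
  have hgen : ∀ χ ∈ principalBlock M G, pRegularPart p (χ : G → ℂ) ∈ W.map (pullFun p Q) := by
    intro χ hχ
    set B := principalBlock M G with hBdef
    have hB : IsPBlock M B := isPBlock_principal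
    set F := pRegularPart p (χ : G → ℂ) with hF
    set f := pushFun Q F with hf
    have hcl : IsClassFunction (G ⧸ Q) f := by
      intro q r
      obtain ⟨a, rfl⟩ := QuotientGroup.mk_surjective q
      obtain ⟨b, rfl⟩ := QuotientGroup.mk_surjective r
      rw [← QuotientGroup.mk_inv, ← QuotientGroup.mk_mul, ← QuotientGroup.mk_mul, hf, pushFun_mk, pushFun_mk]
      refine Fintype.sum_equiv (MulAut.conjNormal b⁻¹).toEquiv _ _ fun u => ?_
      show _ = F (a * ((MulAut.conjNormal b⁻¹ u : Q) : G))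
      rw [hF]
      rw [MulAut.conjNormal_apply, ← isClassFunction_regularPart χ (a * (b⁻¹ * u * b⁻¹⁻¹)) b]
      congr 1
      group
    have hexp : (fun g : G => f g) = ∑ ψ : IrrCharacter (G ⧸ Q), classInner f (ψ : G ⧸ Q → ℂ) • (infl ψ : G → ℂ) := by
      funext g
      have := congrFun (classFun_expand hcl) (g : G ⧸ Q)
      rw [Finset.sum_apply] at this ⊢
      exact this
    have hpart : ∀ g : G, blockPart B (fun g : G => f g) g =
        ∑ ψ : IrrCharacter (G ⧸ Q), if infl ψ ∈ B then classInner f (ψ : G ⧸ Q → ℂ) * (infl ψ : G → ℂ) g else 0 := by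
      intro g
      rw [hexp, ZStar.blockPart_apply, ← Finset.sum_subset (Finset.subset_univ (Finset.univ.image infl))]
      · have hinj : Function.Injective infl := fun a b hab => by
          refine Subtype.ext (funext fun q => ?_)
          obtain ⟨x, rfl⟩ := QuotientGroup.mk_surjective q
          exact congrFun (congrArg Subtype.val hab) x
        rw [Finset.sum_image fun a _ b _ h => hinj h]
        refine Finset.sum_congr rfl fun ψ _ => ?_
        split_ifs
        · rw [classInner_sum_left, Finset.sum_eq_single ψ]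
          · rw [classInner_smul_left, classInner_self (infl ψ).2, mul_one]
          · intro b _ hne
            rw [classInner_smul_left, classInner_ne (infl b).2 (infl ψ).2
              (fun e => hne (hinj (Subtype.ext e))), mul_zero]
          · simp
        · rfl
      · intro χ' _ hχ'
        split_ifs
        · rw [classInner_sum_left, Finset.sum_eq_zero, zero_mul]
          intro b _
          rw [classInner_smul_left, classInner_ne (infl b).2 χ'.2
            (fun e => hχ' (Finset.mem_image.2 ⟨b, Finset.mem_univ _, Subtype.ext e⟩)), mul_zero]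
        · rfl
    have hBF : blockPart B F = F := by
      funext g
      have h1 : blockPart B (χ : G → ℂ) g = (χ : G → ℂ) g := by
        rw [ZStar.blockPart_apply, Finset.sum_eq_single χ]
        · rw [if_pos hχ, classInner_self χ.2, one_mul]
        · intro ψ _ hne
          split_ifs
          · rw [classInner_ne χ.2 ψ.2 (fun e => hne (Subtype.ext e).symm), zero_mul]
          · rfl
        · simp
      rw [hF, pRegularPart_eq, blockPart_cut hM hB, h1]
    have hpp : pullFun p Q f = F := pull_push hQ hsup _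
    refine Submodule.mem_map.2 ⟨pRegularPart p (∑ ψ : IrrCharacter (G ⧸ Q),
      (if infl ψ ∈ B then classInner f (ψ : G ⧸ Q → ℂ) else 0) • (ψ : G ⧸ Q → ℂ)), ?_, ?_⟩
    · have e : pRegularPart p (∑ ψ : IrrCharacter (G ⧸ Q),
          (if infl ψ ∈ B then classInner f (ψ : G ⧸ Q → ℂ) else 0) • (ψ : G ⧸ Q → ℂ)) =
          ∑ ψ : IrrCharacter (G ⧸ Q), (if infl ψ ∈ B then classInner f (ψ : G ⧸ Q → ℂ) else 0) •
            pRegularPart p (ψ : G ⧸ Q → ℂ) := by
        funext q
        simp only [pRegularPart_eq, Finset.sum_apply, Pi.smul_apply]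
        split_ifs <;> simp
      rw [e]
      refine W.sum_mem fun ψ _ => ?_
      split_ifs with h
      · exact W.smul_mem _ (Submodule.subset_span ⟨ψ, (hiff ψ).1 h, rfl⟩)
      · simp
    · funext g
      conv_rhs => rw [← hBF, ← hpp]
      show pRegularPart p (fun g : G => _) g = blockPart B (pRegularPart p fun g : G => f g) g
      simp only [pRegularPart_eq]
      rw [blockPart_cut hM hB, hpart]
      split_ifs with h1 h2
      · rfl
      · exact absurd h2 (not_dvd_mk h1)
      · rw [Finset.sum_apply]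
        refine Finset.sum_congr rfl fun ψ _ => ?_
        split_ifs <;> simp [infl]
  have hVW : V ≤ W.map (pullFun p Q) := by
    rw [hV, Submodule.span_le]
    rintro _ ⟨χ, hχ, rfl⟩
    exact hgen χ hχ
  have heq : W.map (pullFun p Q) = V := le_antisymm hWV hVW
  refine le_antisymm ?_ ?_
  · show Module.finrank ℂ V ≤ Module.finrank ℂ W
    rw [← heq]
    exact Submodule.finrank_map_le _ _
  · show Module.finrank ℂ W ≤ Module.finrank ℂ V
    have h2 : W ≤ V.map (pushFun Q) := by
      rw [hW, Submodule.span_le]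
      rintro _ ⟨ψ, hψ, rfl⟩
      refine ⟨pullFun p Q (pRegularPart p (ψ : G ⧸ Q → ℂ)), hWV ⟨_, Submodule.subset_span ⟨ψ, hψ, rfl⟩, rfl⟩, ?_⟩
      rw [push_pull hQ hsup]
      funext q
      simp only [pRegularPart_eq]
      split_ifs <;> rfl
    exact (Submodule.finrank_mono h2).trans (Submodule.finrank_map_le _ _)

end Cfsg.Agent.S4571
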