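import Cfsg.Statements.S4574
import Cfsg.Agent.CharBasics.Central
import Cfsg.Agent.CharBasics.Avg

set_option autoImplicit false
open Cfsg

namespace Cfsg.Agent.S4574

open scoped ComplexConjugate
open CfsgLib.CharBasics

theorem norm_pow_eq {G : Type*} [Group G] [Finite G] {χ : G → ℂ} (h : Cfsg.IsIrrCharacter G χ)
    {g : G} (hg : ‖χ g‖ = (Cfsg.charDegree χ : ℝ)) (j : ℕ) :
    ‖χ (g ^ j)‖ = (Cfsg.charDegree χ : ℝ) := by
  obtain ⟨lam, hl, hv⟩ := exists_eigen (isCharacter_of_irr h) g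
  have h2 : χ g = ∑ i, lam i := by simpa using hv 1
  have hn : ∀ i, ‖lam i‖ = 1 := fun i =>
    Complex.norm_eq_one_of_pow_eq_one (hl i) (orderOf_pos g).ne'
  have hd : (Cfsg.charDegree χ : ℂ) ≠ 0 := Nat.cast_ne_zero.mpr (charDegree_pos h).ne'
  set c : ℂ := conj (χ g) / (Cfsg.charDegree χ : ℂ) with hc
  have hcn : ‖c‖ = 1 := by
    rw [hc, norm_div, Complex.norm_conj, hg, Complex.norm_natCast, div_self]
    exact Nat.cast_ne_zero.mpr (charDegree_pos h).ne'
  have hsum : ∑ i, c * lam i = (Fintype.card (Fin (Cfsg.charDegree χ)) : ℂ) := by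
    rw [← Finset.mul_sum, ← h2, hc, Fintype.card_fin, div_mul_eq_mul_div, Complex.conj_mul', hg,
      Complex.ofReal_natCast, sq, mul_div_assoc, div_self hd, mul_one]
  have h1 := eq_one_of_sum_eq_card (fun i => c * lam i)
    (fun i => by rw [norm_mul, hcn, hn i, one_mul]) hsum
  have hall : ∀ i, lam i = c⁻¹ := fun i => eq_inv_of_mul_eq_one_right (h1 i)
  rw [hv j, Finset.sum_congr rfl (fun i _ => by rw [hall i]), Finset.sum_const, Finset.card_univ,
    Fintype.card_fin, nsmul_eq_mul, norm_mul, norm_pow, norm_inv, hcn, inv_one, one_pow, mul_one,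
    Complex.norm_natCast]


/-- Let χ be an irreducible character of the finite group G, of degree d, and let Z(χ) be the set of elements g with |χ g| = d (the centre of χ). Then χ vanishes on at least (d ^ 2 - 1) · |Z(χ)| elements of G, with equality when every value |χ g| is 0, 1 or d. -/
theorem result {G : Type*} [Group G] [Fintype G] [DecidableEq G] (χ : G → ℂ) (hχ : Cfsg.IsIrrCharacter G χ) : (Cfsg.charDegree χ ^ 2 - 1) * (Finset.univ.filter (fun g : G => ‖χ g‖ = (Cfsg.charDegree χ : ℝ))).card ≤ (Finset.univ.filter (fun g : G => χ g = 0)).card ∧ ((∀ g : G, ‖χ g‖ = 0 ∨ ‖χ g‖ = 1 ∨ ‖χ g‖ = (Cfsg.charDegree χ : ℝ)) → (Cfsg.charDegree χ ^ 2 - 1) * (Finset.univ.filter (fun g : G => ‖χ g‖ = (Cfsg.charDegree χ : ℝ))).card = (Finset.univ.filter (fun g : G => χ g = 0)).card) := by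
  classical
  set d := Cfsg.charDegree χ with hd
  set Z := Finset.univ.filter (fun g : G => ‖χ g‖ = (d : ℝ)) with hZ
  set O := Finset.univ.filter (fun g : G => χ g = 0) with hO
  set T := Finset.univ.filter (fun g : G => ‖χ g‖ ≠ (d : ℝ) ∧ χ g ≠ 0) with hT
  have hd0 : 0 < d := charDegree_pos hχ
  have htot := sum_normSq_irr ⟨χ, hχ⟩
  have hG : Nat.card G ≠ 0 := Nat.card_pos.ne'
  have key : ∀ f : G → ℝ, ∑ g : G, f g = ∑ g ∈ Z, f g + ∑ g ∈ O, f g + ∑ g ∈ T, f g := by
    intro f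
    rw [hZ, hO, hT, Finset.sum_filter, Finset.sum_filter, Finset.sum_filter, ← Finset.sum_add_distrib,
      ← Finset.sum_add_distrib]
    refine Finset.sum_congr rfl fun g _ => ?_
    by_cases h1 : ‖χ g‖ = (d : ℝ)
    · have h2 : χ g ≠ 0 := by
        intro h0
        rw [h0, norm_zero] at h1
        exact Nat.cast_ne_zero.mpr hd0.ne' h1.symm
      simp [h1, h2]
    · by_cases h2 : χ g = 0
      · have : ¬ ((0 : ℝ) = (d : ℝ)) := fun h => Nat.cast_ne_zero.mpr hd0.ne' h.symm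
        simp [h2, this]
      · simp [h1, h2]
  have h1 := key (fun g => ‖χ g‖ ^ 2)
  have h2 := key (fun _ => 1)
  simp only [Finset.sum_const, nsmul_eq_mul, mul_one, Finset.card_univ] at h2
  have hZs : ∑ g ∈ Z, ‖χ g‖ ^ 2 = (Z.card : ℝ) * (d : ℝ) ^ 2 := by
    rw [Finset.sum_congr rfl (fun g hg => by rw [(Finset.mem_filter.mp hg).2]), Finset.sum_const,
      nsmul_eq_mul]
  have hOs : ∑ g ∈ O, ‖χ g‖ ^ 2 = 0 :=
    Finset.sum_eq_zero fun g hg => by simp [(Finset.mem_filter.mp hg).2]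
  simp only at htot
  rw [htot, hZs, hOs, Nat.card_eq_fintype_card] at h1
  have hle : (T.card : ℝ) ≤ ∑ g ∈ T, ‖χ g‖ ^ 2 := by
    refine card_le_sum_normSq hG dvd_rfl (cycPoly_character (isCharacter_of_irr hχ)) T ?_
      (fun g hg => (Finset.mem_filter.mp hg).2.2)
    intro g hg j hj
    obtain ⟨hg1, hg2⟩ := (Finset.mem_filter.mp hg).2
    refine Finset.mem_filter.mpr ⟨Finset.mem_univ _, fun h0 => hg1 ?_,
      (cycPoly_character (isCharacter_of_irr hχ)).ne_zero hG hj hg2⟩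
    obtain ⟨m, hm⟩ := exists_pow_eq_self_of_coprime (x := g) (n := j)
      (hj.coprime_dvd_right (orderOf_dvd_natCard g))
    have := norm_pow_eq hχ h0 m
    rwa [hm] at this
  have hd1 : 1 ≤ d ^ 2 := Nat.one_le_pow _ _ hd0
  constructor
  · rw [← @Nat.cast_le ℝ]
    push_cast [Nat.cast_sub hd1]
    linarith
  · intro hval
    have heq : ∑ g ∈ T, ‖χ g‖ ^ 2 = (T.card : ℝ) := by
      rw [Finset.sum_congr rfl (fun g hg => ?_), Finset.sum_const, nsmul_eq_mul, mul_one]
      obtain ⟨hg1, hg2⟩ := (Finset.mem_filter.mp hg).2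
      rcases hval g with h | h | h
      · exact absurd (norm_eq_zero.mp h) hg2
      · rw [h, one_pow]
      · exact absurd h hg1
    rw [← @Nat.cast_inj ℝ]
    push_cast [Nat.cast_sub hd1]
    linarith

end Cfsg.Agent.S4574
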