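import Cfsg.Statements.S4575
import Cfsg.Agent.Blocks.TwoMajor
-- import your own Cfsg.Agent.* helpers here

set_option autoImplicit false
set_option linter.style.haveILetI false
open Cfsg CfsgLib CfsgLib.Blocks CfsgLib.CharBasics

namespace Cfsg.Agent.S4575

/-- Let B be a 2-block of the finite group G (relative to a maximal ideal M of the algebraic integers containing 2) of defect d with defect group D. Let z be an element of D commuting with every element of D, and let b be a block of the centralizer of z with defect group D that induces B (a major subsection (z, b)). If the number of irreducible characters in B exceeds the 2-regular rank of b by at most three, then B contains at most 2 ^ d irreducible characters. -/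
theorem result {G : Type*} [Group G] [Finite G] (M : Ideal Cfsg.AlgInt) (hM : Cfsg.IsPModular 2 M) (B : Set (Cfsg.IrrCharacter G)) (hB : Cfsg.IsPBlock M B) (D : Subgroup G) (hD : Cfsg.IsDefectGroup 2 M B D) (z : G) (hzD : z ∈ D) (hzc : ∀ d ∈ D, d * z = z * d) (b : Set (Cfsg.IrrCharacter ↥(Subgroup.centralizer ({z} : Set G)))) (hb : Cfsg.IsInducedBlock M (Subgroup.centralizer ({z} : Set G)) b B) (hbD : Cfsg.IsDefectGroup 2 M b (D.subgroupOf (Subgroup.centralizer ({z} : Set G)))) (h : Nat.card B ≤ Cfsg.blockRank 2 b + 3) : Nat.card B ≤ 2 ^ Cfsg.blockDefect 2 B := by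
  classical
  haveI : Fintype G := Fintype.ofFinite G
  haveI : Fintype (IrrCharacter G) := @Fintype.ofFinite _ finite_irrCharacter
  haveI : Fintype (Subgroup.centralizer ({z} : Set G)) := Fintype.ofFinite _
  have hx : ∃ k : ℕ, orderOf z = 2 ^ k := by
    obtain ⟨k, -, hk⟩ := (Nat.dvd_prime_pow hM.1).1 (show orderOf z ∣ 2 ^ blockDefect 2 B by
      rw [← card_defectGroup hM hB hD]; exact Subgroup.orderOf_dvd_natCard D hzD)
    exact ⟨k, hk⟩
  have hle : D ≤ Subgroup.centralizer ({z} : Set G) := fun d hd =>
    Subgroup.mem_centralizer_singleton_iff.2 (hzc d hd)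
  have hdef : blockDefect 2 b = blockDefect 2 B := by
    have h1 := card_defectGroup hM hb.1 hbD
    rw [Nat.card_congr (Subgroup.subgroupOfEquivOfLe hle).toEquiv, card_defectGroup hM hB hD] at h1
    exact (Nat.pow_right_injective (le_refl 2) h1).symm
  have hT := two_major_bound hM hx hb hdef (Or.inr h)
  refine Nat.le_of_mul_le_mul_left (le_trans ?_ hT) (by norm_num : 0 < 3)
  rw [Nat.card_eq_fintype_card (α := B), ← Set.toFinset_card,
    show B.toFinset = Finset.univ.filter (fun χ : IrrCharacter G => χ ∈ B) by ext; simp, mul_comm, ← smul_eq_mul,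
    ← Finset.sum_const]
  refine Finset.sum_le_sum fun χ _ => ?_
  rw [twoWeight]
  split_ifs with h'
  · exact le_rfl
  · have := Nat.pow_le_pow_right (show 0 < 2 by norm_num) (Nat.one_le_iff_ne_zero.2 h')
    omega

end Cfsg.Agent.S4575
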