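import Cfsg.Statements.S4580
import Cfsg.Agent.Clifford.ExtCriteria
import Cfsg.Agent.Exceptional.OddReal
import Cfsg.Agent.ZStar.RealBlock
import Cfsg.Agent.Blocks.Contribution


set_option autoImplicit false
open Cfsg

namespace Cfsg.Agent.S4580

open CfsgLib.Blocks CfsgLib.CharBasics
open scoped ComplexConjugate

/-- Let N be a normal subgroup of the finite group G, M a maximal ideal of the algebraic integers containing 2, and θ a real-valued irreducible character of N of odd degree that extends to G (some irreducible character of G restricts to θ). Then θ has an extension to G lying in the principal 2-block of G. -/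
theorem result {G : Type*} [Group G] [Finite G] (N : Subgroup G) [N.Normal] (M : Ideal Cfsg.AlgInt) (hM : Cfsg.IsPModular 2 M) (θ : Cfsg.IrrCharacter N) (hreal : ∀ n : N, ((θ : N → ℂ) n).im = 0) (hodd : Odd (Cfsg.charDegree (θ : N → ℂ))) (hext : ∃ η : Cfsg.IrrCharacter G, ∀ n : N, (η : G → ℂ) n = (θ : N → ℂ) n) :
    ∃ η : Cfsg.IrrCharacter G, (∀ n : N, (η : G → ℂ) n = (θ : N → ℂ) n) ∧ η ∈ Cfsg.principalBlock M G := by

  classical
  haveI : Fintype G := Fintype.ofFinite G
  haveI : Fintype N := Fintype.ofFinite N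
  obtain ⟨η, hη⟩ := hext
  have hθc : ∀ n : N, conj ((θ : N → ℂ) n) = (θ : N → ℂ) n := fun n => Complex.conj_eq_iff_im.2 (hreal n)
  obtain ⟨f, hf1, hf⟩ := CfsgLib.Clifford.extension_eq_linear_mul θ.2 η.2 hη (χ' := Cfsg.conjFun (η : G → ℂ))
    (CfsgLib.Exceptional.irr_conjFun η.2) (fun n => by show conj _ = _; rw [hη, hθc])
  have hfpow : ∀ g, f g ^ Nat.card G = 1 := fun g => by rw [← map_pow, pow_card_eq_one', map_one]
  have hfabs : ∀ g, conj (f g) * f g = 1 := fun g => by
    rw [← Complex.normSq_eq_conj_mul_self, Complex.normSq_eq_norm_sq,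
      Complex.norm_eq_one_of_pow_eq_one (hfpow g) Nat.card_pos.ne']
    norm_num
  obtain ⟨a, ha⟩ : ∃ a, a = (Nat.card G).factorization 2 := ⟨_, rfl⟩
  obtain ⟨m, hm⟩ : ∃ m, m = Nat.card G / 2 ^ a := ⟨_, rfl⟩
  have hmodd : ¬ 2 ∣ m := by rw [hm, ha]; exact Nat.not_dvd_ordCompl Nat.prime_two Nat.card_pos.ne'
  have hGm : Nat.card G = 2 ^ a * m := by rw [hm, ha, Nat.ordProj_mul_ordCompl_eq_self]
  obtain ⟨j, hj⟩ : ∃ j, m = 2 * j + 1 := ⟨m / 2, by omega⟩
  let μ : G →* ℂ :=
    { toFun := fun g => f g ^ (j + 1)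
      map_one' := by rw [map_one, one_pow]
      map_mul' := fun x y => by rw [map_mul, mul_pow] }
  let η' : IrrCharacter G := ⟨_, CfsgLib.Clifford.isIrrCharacter_linear_mul η.2 μ⟩
  have hη'N : ∀ n : N, (η' : G → ℂ) n = (θ : N → ℂ) n := fun n => by
    show f n ^ (j + 1) * (η : G → ℂ) n = _
    rw [hf1, one_pow, one_mul, hη]
  refine ⟨η', hη'N, ?_⟩
  -- the conjugate differs by a linear character of `2`-power order
  have hconj : ∀ g, conj ((η' : G → ℂ) g) = conj (f g) ^ m * (η' : G → ℂ) g := fun g => by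
    show conj (f g ^ (j + 1) * (η : G → ℂ) g) = conj (f g) ^ m * (f g ^ (j + 1) * (η : G → ℂ) g)
    rw [map_mul, map_pow, show conj ((η : G → ℂ) g) = f g * (η : G → ℂ) g from congrFun hf g, hj]
    have h := hfabs g
    calc conj (f g) ^ (j + 1) * (f g * (η : G → ℂ) g)
        = conj (f g) ^ (j + 1) * (conj (f g) * f g) ^ j * (f g * (η : G → ℂ) g) := by rw [h, one_pow, mul_one]
      _ = _ := by ring
  have hsame : SameBlock M (η' : G → ℂ) (powChar (CfsgLib.ZStar.RealBlock.coprime_pred G) η' : G → ℂ) := by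
    intro g
    have h1 : centralChar (powChar (CfsgLib.ZStar.RealBlock.coprime_pred G) η' : G → ℂ) g =
        conj (f g) ^ m * centralChar (η' : G → ℂ) g := by
      simp only [centralChar, CfsgLib.ZStar.RealBlock.powChar_pred]
      rw [hconj g, hconj 1, map_one, map_one, one_pow, one_mul]
      ring
    have h2 : (conj (f g) ^ m) ^ 2 ^ a = 1 := by
      rw [← pow_mul, mul_comm, ← hGm, ← map_pow, hfpow, map_one]
    have h3 := aeval_sub_eval_one_mem hM h2 Polynomial.X
    simp only [Polynomial.aeval_X, Polynomial.eval_X, Int.cast_one] at h3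
    rw [h1, show centralChar (η' : G → ℂ) g - conj (f g) ^ m * centralChar (η' : G → ℂ) g =
      (-centralChar (η' : G → ℂ) g) * (conj (f g) ^ m - 1) by ring]
    exact memLocalIdeal_mul_left hM (memLocalRing_neg (memLocalRing_centralChar hM η' g)) h3
  have hdeg : Odd (charDegree (η' : G → ℂ)) := by
    have h1 : (η' : G → ℂ) 1 = (θ : N → ℂ) 1 := by
      have := hη'N 1
      rwa [OneMemClass.coe_one] at this
    rw [apply_one (isCharacter_of_irr η'.2), apply_one (isCharacter_of_irr θ.2)] at h1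
    rwa [Nat.cast_injective h1]
  have hst : ∀ ψ ∈ blockOf M (η' : G → ℂ), powChar (CfsgLib.ZStar.RealBlock.coprime_pred G) ψ ∈ blockOf M (η' : G → ℂ) := by
    intro ψ hψ
    refine sameBlock_trans hM hsame fun g => ?_
    rw [centralChar_powChar, centralChar_powChar]
    exact hψ _
  have hsI : sInf ((fun φ : IrrCharacter G => (charDegree (φ : G → ℂ)).factorization 2) '' blockOf M (η' : G → ℂ)) = 0 :=
    Nat.sInf_eq_zero.2 (Or.inl ⟨η', mem_blockOf_self hM η',
      Nat.factorization_eq_zero_of_not_dvd fun h => Nat.not_even_iff_odd.2 hdeg (even_iff_two_dvd.2 h)⟩)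
  have hp := CfsgLib.ZStar.RealBlock.eq_principal_of_real hM (isPBlock_blockOf M η')
    (by rw [blockDefect, hsI, Nat.sub_zero]) hst
  exact hp ▸ mem_blockOf_self hM η'

end Cfsg.Agent.S4580
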