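import Cfsg.Statements.S4582
import Mathlib.GroupTheory.Transfer
import Mathlib.GroupTheory.Focal

set_option autoImplicit false
open Cfsg

namespace Cfsg.Agent.S4582

open MulAction in
theorem core {H : Type*} [Group H] [Finite H] (N P : Subgroup H) [N.Normal]
    (hgen : ∀ g : H, ∃ a ∈ P, ∃ n ∈ N, g = a * n) (hP : IsPGroup 2 P) (hidx : Odd P.index)
    (hsq : ∀ x : P, x ^ 2 ∈ N.subgroupOf P ⊔ commutator P)
    (hQ : ∀ x : P, (x : H) ∈ N → x ^ 2 ∈ commutator P)
    (hodd : Odd (Nat.card (Abelianization N))) : ∀ x : P, x ^ 2 ∈ commutator P := by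
  have : Fintype (H ⧸ P) := Fintype.ofFinite _
  let φ : P →* Abelianization P := Abelianization.of
  let V : H →* Abelianization P := MonoidHom.transfer φ
  have hA : IsPGroup 2 (Abelianization P) := hP.to_quotient _
  have hVN : ∀ n ∈ N, V n = 1 := by
    intro n hn
    let f : N →* Abelianization P := V.comp N.subtype
    have h1 : f ⟨n, hn⟩ = Abelianization.lift f (Abelianization.of ⟨n, hn⟩) := by simp
    set y : Abelianization N := Abelianization.of ⟨n, hn⟩
    have h2 : orderOf (Abelianization.lift f y) ∣ Nat.card (Abelianization N) :=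
      (orderOf_map_dvd _ y).trans (orderOf_dvd_natCard y)
    obtain ⟨k, hk⟩ := IsPGroup.iff_orderOf.1 hA (Abelianization.lift f y)
    rw [hk] at h2
    have hk0 : k = 0 := by
      by_contra hk0
      exact hodd.not_two_dvd_nat ((dvd_pow_self 2 hk0).trans h2)
    rw [hk0, pow_zero, orderOf_eq_one_iff] at hk
    show f ⟨n, hn⟩ = 1
    rw [h1, hk]
  have hker : ∀ c : P, c ∈ commutator P → V c = 1 := by
    intro c hc
    have hle : commutator P ≤ (V.comp P.subtype).ker := Abelianization.commutator_subset_ker _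
    exact hle hc
  intro x
  have hV1 : V ((x : H) ^ 2) = 1 := by
    have hle : N.subgroupOf P ⊔ commutator P ≤ (V.comp P.subtype).ker :=
      sup_le (fun q hq => hVN _ hq) hker
    have h2 := hle (hsq x)
    simpa using h2
  have hQ' : ∀ q : P, (q : H) ∈ N → φ q ^ 2 = 1 := by
    intro q hq
    rw [← map_pow]
    exact (QuotientGroup.eq_one_iff _).2 (hQ q hq)
  have hconj : ∀ (h : P) (g : H) (hg : g⁻¹ * (h : H) * g ∈ P),
      φ ⟨g⁻¹ * (h : H) * g, hg⟩ ^ 2 = φ h ^ 2 := by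
    intro h g hg
    obtain ⟨a, ha, n, hn, rfl⟩ := hgen g
    let a' : P := ⟨a, ha⟩
    let d : P := (a'⁻¹ * h * a')⁻¹ * ⟨(a * n)⁻¹ * (h : H) * (a * n), hg⟩
    have hd : (d : H) ∈ N := by
      have e : (d : H) = ((a⁻¹ * (h : H) * a)⁻¹ * n⁻¹ * ((a⁻¹ * (h : H) * a)⁻¹)⁻¹) * n := by
        simp [d, a', mul_assoc]
      rw [e]
      exact N.mul_mem (‹N.Normal›.conj_mem _ (N.inv_mem hn) _) hn
    have e2 : (⟨(a * n)⁻¹ * (h : H) * (a * n), hg⟩ : P) = a'⁻¹ * h * a' * d :=
      (mul_inv_cancel_left _ _).symm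
    rw [e2, map_mul, mul_pow, hQ' d hd, mul_one]
    simp only [map_mul, map_inv, mul_comm (φ a')⁻¹, mul_assoc]
    simp
  have key : V (x : H) ^ 2 = (φ x ^ 2) ^ P.index := by
    have : Fintype (Quotient (orbitRel (Subgroup.zpowers (x : H)) (H ⧸ P))) := Fintype.ofFinite _
    rw [Subgroup.index_eq_sum_minimalPeriod P (x : H), ← Finset.prod_pow_eq_pow_sum,
      MonoidHom.transfer_eq_prod_quotient_orbitRel_zpowers_quot, ← Finset.prod_pow]
    refine Finset.prod_congr rfl fun q _ => ?_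
    have := hconj (x ^ Function.minimalPeriod ((x : H) • ·) q.out) q.out.out
      (by simpa using QuotientGroup.out_conj_pow_minimalPeriod_mem P (x : H) q.out)
    rw [map_pow, ← pow_mul, mul_comm, pow_mul] at this
    simpa using this
  rw [map_pow] at hV1
  rw [hV1] at key
  obtain ⟨k, hk⟩ := IsPGroup.iff_orderOf.1 hA (φ x ^ 2)
  have hd := orderOf_dvd_of_pow_eq_one key.symm
  rw [hk] at hd
  have hk0 : k = 0 := by
    by_contra hk0
    exact hidx.not_two_dvd_nat ((dvd_pow_self 2 hk0).trans hd)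
  rw [hk0, pow_zero, orderOf_eq_one_iff, ← map_pow] at hk
  exact (QuotientGroup.eq_one_iff _).1 hk


/-- Let N be a normal subgroup of the finite group G, P a Sylow 2-subgroup of G and Q = P ∩ N. Suppose that P/QP' and Q/Q' are elementary abelian (every square of an element of P lies in the subgroup generated by Q and the derived subgroup of P, and every square of an element of Q lies in the derived subgroup of Q), and that the commutator factor group N/N' has odd order. Then P/P' is elementary abelian. -/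
theorem result {G : Type*} [Group G] [Finite G] (N : Subgroup G) [N.Normal] (P : Sylow 2 G)
    (hP : ∀ x ∈ (P : Subgroup G), x ^ 2 ∈ ((P : Subgroup G) ⊓ N) ⊔ ⁅(P : Subgroup G), (P : Subgroup G)⁆)
    (hQ : ∀ x ∈ (P : Subgroup G) ⊓ N, x ^ 2 ∈ ⁅(P : Subgroup G) ⊓ N, (P : Subgroup G) ⊓ N⁆)
    (hodd : Odd (Nat.card (Abelianization N))) :
    ∀ x ∈ (P : Subgroup G), x ^ 2 ∈ ⁅(P : Subgroup G), (P : Subgroup G)⁆ := by
  intro x hx
  set H := (P : Subgroup G) ⊔ N with hH
  have hPH : (P : Subgroup G) ≤ H := le_sup_left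
  set P₀ := (P : Subgroup G).subgroupOf H
  let e : P₀ ≃* (P : Subgroup G) := Subgroup.subgroupOfEquivOfLe hPH
  have hcomm : ∀ (K : Subgroup G) (L : Subgroup P₀),
      (∀ y : P₀, ((y : H) : G) ∈ K ↔ y ∈ L) → K ≤ (P : Subgroup G) → ∀ y : P₀,
      ((y : H) : G) ∈ ⁅K, K⁆ ↔ y ∈ ⁅L, L⁆ := by
    intro K L hKL hKP y
    have hmap : L.map (H.subtype.comp P₀.subtype) = K := by
      ext g
      constructor
      · rintro ⟨y, hy, rfl⟩; exact (hKL y).2 hy
      · intro hg
        exact ⟨⟨⟨g, hPH (hKP hg)⟩, hKP hg⟩, (hKL _).1 hg, rfl⟩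
    rw [← hmap, ← Subgroup.map_commutator]
    exact ⟨fun ⟨z, hz, hzy⟩ => by
      rwa [show y = z from Subtype.ext (Subtype.ext hzy.symm)], fun hy => ⟨y, hy, rfl⟩⟩
  have hP' : ∀ y : P₀, ((y : H) : G) ∈ ⁅(P : Subgroup G), (P : Subgroup G)⁆ ↔ y ∈ commutator P₀ := by
    rw [commutator_def]
    exact hcomm _ ⊤ (fun y => ⟨fun _ => Subgroup.mem_top _, fun _ => y.2⟩) le_rfl
  have key := core (N.subgroupOf H) P₀ ?_ ?_ ?_ ?_ ?_ ?_ ⟨⟨x, hPH hx⟩, hx⟩
  · exact (hP' _).2 key
  · intro g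
    obtain ⟨a, ha, n, hn, h⟩ := Subgroup.mem_sup_of_normal_right.1 g.2
    exact ⟨⟨a, hPH ha⟩, ha, ⟨n, Subgroup.mem_sup_right hn⟩, hn, Subtype.ext h.symm⟩
  · exact P.2.of_equiv e.symm
  · rw [Nat.odd_iff, ← Nat.two_dvd_ne_zero]
    intro h
    exact P.not_dvd_index (h.trans (Subgroup.relIndex_dvd_index_of_le hPH))
  · intro y
    have h := hP _ y.2
    let ι : P₀ →* G := H.subtype.comp P₀.subtype
    have hι : Function.Injective ι := fun a b h => Subtype.ext (Subtype.ext h)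
    have hle : ((P : Subgroup G) ⊓ N) ⊔ ⁅(P : Subgroup G), (P : Subgroup G)⁆ ≤
        ((N.subgroupOf H).subgroupOf P₀ ⊔ commutator P₀).map ι := by
      rw [Subgroup.map_sup]
      refine sup_le_sup (fun g hg => ⟨⟨⟨g, hPH hg.1⟩, hg.1⟩, hg.2, rfl⟩) (fun g hg => ?_)
      have hgP := Subgroup.commutator_le_self _ hg
      exact ⟨⟨⟨g, hPH hgP⟩, hgP⟩, (hP' _).1 hg, rfl⟩
    obtain ⟨z, hz, hzy⟩ := hle h
    rwa [show y ^ 2 = z from hι (by rw [map_pow]; exact hzy.symm)]
  · intro y hy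
    apply (hP' _).1
    exact Subgroup.commutator_mono inf_le_left inf_le_left (by simpa using hQ _ ⟨y.2, hy⟩)
  · have : Nat.card (Abelianization (N.subgroupOf H)) = Nat.card (Abelianization N) :=
      Nat.card_congr ((Subgroup.subgroupOfEquivOfLe (le_sup_right : N ≤ H)).abelianizationCongr).toEquiv
    rwa [this]


end Cfsg.Agent.S4582
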