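import Cfsg.Statements.S4583
import Cfsg.Agent.Blocks.PrincipalSum
import Cfsg.Agent.CharBasics.Induced

set_option autoImplicit false
set_option linter.style.haveILetI false
set_option linter.unusedSectionVars false
open Cfsg
open CfsgLib CfsgLib.CharBasics CfsgLib.Blocks
open scoped ComplexConjugate

namespace Cfsg.Agent.S4583

/-- If every constituent were small, the total would be small. -/
theorem exists_unit_constituent {G : Type*} [Group G] [Fintype G] {p : ℕ} {M : Ideal AlgInt}
    (hM : IsPModular p M) {F : G → ℂ} {r : ℕ} {ψ : Fin r → G → ℂ} (hψ : ∀ i, IsIrrCharacter G (ψ i))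
    (hF : F = ∑ i, ψ i) (h : ¬ MemLocalIdeal M (regTotal p F)) :
    ∃ i, (⟨ψ i, hψ i⟩ : IrrCharacter G) ∈ principalBlock M G ∧ ¬ p ∣ charDegree (ψ i) := by
  classical
  by_contra hc
  push Not at hc
  refine h ?_
  have e : regTotal p F = ∑ i, regTotal p (ψ i) := by
    simp only [regTotal]
    rw [Finset.sum_comm]
    refine Finset.sum_congr rfl fun g _ => ?_
    split_ifs
    · simp
    · rw [hF, Finset.sum_apply]
  rw [e]
  refine memLocalIdeal_sum hM _ fun i _ => ?_
  by_cases hi : (⟨ψ i, hψ i⟩ : IrrCharacter G) ∈ principalBlock M G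
  · have e2 : regTotal p (ψ i) = ψ i 1 * omega (ψ i) (ZStar.regSum p G) := by
      rw [omega_regSum_eq, mul_div_cancel₀ _ (apply_one_ne_zero (hψ i))]
    rw [e2, apply_one (isCharacter_of_irr (hψ i))]
    exact memLocalIdeal_mul_right hM ((memLocalIdeal_natCast_iff hM _).2 (hc i hi))
      (memLocalRing_omega hM ⟨ψ i, hψ i⟩ ZStar.isClassElt_regSum (ZStar.isIntegralElt_regSum hM))
  · have := ZStar.sum_regular_eq_zero hM hi
    rw [show regTotal p (ψ i) = 0 from this]
    exact memLocalIdeal_zero hM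

/-- An irreducible constituent contributes to the inner product. -/
theorem exists_eq_of_classInner_ne {G : Type*} [Group G] [Fintype G] {r : ℕ} {ψ : Fin r → G → ℂ}
    (hψ : ∀ i, IsIrrCharacter G (ψ i)) {χ : G → ℂ} (hχ : IsIrrCharacter G χ)
    (h : classInner χ (∑ i, ψ i) ≠ 0) : ∃ i, ψ i = χ := by
  by_contra hc
  push Not at hc
  refine h ?_
  have e : classInner χ (∑ i, ψ i) = conj (classInner (∑ i, ψ i) χ) := classInner_comm _ _
  rw [e, classInner_sum_left, Finset.sum_eq_zero fun i _ => classInner_ne (hψ i) hχ (hc i), map_zero]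

theorem classInner_sum_ne_zero {G : Type*} [Group G] [Fintype G] {r : ℕ} {ψ : Fin r → G → ℂ}
    (hψ : ∀ i, IsCharacter G (ψ i)) {χ : G → ℂ} (hχ : IsIrrCharacter G χ) {i : Fin r} (hi : ψ i = χ) :
    classInner (∑ j, ψ j) χ ≠ 0 := by
  classical
  have hn : ∀ j, ∃ m : ℕ, classInner (ψ j) χ = m := fun j => classInner_characters_nat (hψ j) (isCharacter_of_irr hχ)
  choose m hm using hn
  rw [classInner_sum_left, Finset.sum_congr rfl fun j _ => hm j, ← Nat.cast_sum, Nat.cast_ne_zero]
  intro h0
  have h1 : m i = 0 := Finset.sum_eq_zero_iff.1 h0 i (Finset.mem_univ _)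
  have h2 := hm i
  rw [hi, classInner_self hχ, h1, Nat.cast_zero] at h2
  exact one_ne_zero h2

/-- Let N be a normal subgroup of the finite group G, p a prime, M a maximal ideal of the algebraic integers containing p, and P a Sylow p-subgroup of G. Let θ be an irreducible character of N of degree prime to p lying in the principal p-block of N, and suppose θ extends to the subgroup NP (some irreducible character of NP restricts to θ). Then some irreducible character χ of G of degree prime to p in the principal p-block of G lies over θ (θ is a constituent of the restriction of χ to N). -/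
theorem result {G : Type*} [Group G] [Finite G] (N : Subgroup G) [N.Normal] (p : ℕ) [Fact p.Prime] (M : Ideal Cfsg.AlgInt) (hM : Cfsg.IsPModular p M) (P : Sylow p G)
    (θ : Cfsg.IrrCharacter N) (hθ : θ ∈ Cfsg.principalBlock M N) (hdeg : ¬ p ∣ Cfsg.charDegree (θ : N → ℂ))
    (hext : ∃ η : Cfsg.IrrCharacter ↥(N ⊔ (P : Subgroup G)), ∀ n : N, (η : ↥(N ⊔ (P : Subgroup G)) → ℂ) (Subgroup.inclusion le_sup_left n) = (θ : N → ℂ) n) :
    ∃ χ : Cfsg.IrrCharacter G, χ ∈ Cfsg.principalBlock M G ∧ ¬ p ∣ Cfsg.charDegree (χ : G → ℂ) ∧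
      haveI := Fintype.ofFinite N; Cfsg.classInner (fun n : N => (χ : G → ℂ) n) (θ : N → ℂ) ≠ 0 := by
  classical
  haveI : Fintype G := Fintype.ofFinite G
  haveI := Fintype.ofFinite N
  set H : Subgroup G := N ⊔ (P : Subgroup G) with hHdef
  obtain ⟨η, hη⟩ := hext
  haveI : Fintype H := Fintype.ofFinite H
  set F : G → ℂ := indFun H (η : H → ℂ) with hFdef
  have hp : p.Prime := Fact.out
  -- regular elements of `H` lie in `N`
  have hreg : ∀ h : H, ¬ p ∣ orderOf h → (h : G) ∈ N := by
    intro h hh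
    obtain ⟨n, hn, x, hx, hnx⟩ := Subgroup.mem_sup_of_normal_left.1 (show (h : G) ∈ N ⊔ (P : Subgroup G) from h.2)
    obtain ⟨k, hk⟩ := P.2 ⟨x, hx⟩
    have hk' : x ^ p ^ k = 1 := congrArg Subtype.val hk
    have h1 : ((h : G) : G ⧸ N) ^ p ^ k = 1 := by
      rw [← hnx, QuotientGroup.mk_mul, (QuotientGroup.eq_one_iff n).2 hn, one_mul, ← QuotientGroup.mk_pow, hk']
      rfl
    have h2 : orderOf ((h : G) : G ⧸ N) ∣ p ^ k := orderOf_dvd_of_pow_eq_one h1
    have h3 : orderOf ((h : G) : G ⧸ N) ∣ orderOf (h : G) := orderOf_map_dvd (QuotientGroup.mk' N) _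
    rw [Subgroup.orderOf_coe] at h3
    have h4 : orderOf ((h : G) : G ⧸ N) = 1 :=
      Nat.eq_one_of_dvd_coprimes ((hp.coprime_iff_not_dvd.2 hh).pow_left k) h2 h3
    exact (QuotientGroup.eq_one_iff _).1 (orderOf_eq_one_iff.1 h4)
  -- the sum over the regular elements of the induced character
  have hFsum : regTotal p F = (H.index : ℂ) * regTotal p (θ : N → ℂ) := by
    have hcard : (Nat.card G : ℂ) = (H.index : ℂ) * Nat.card H := by
      rw [← Nat.cast_mul, Subgroup.index_mul_card]
    have hH0 : (Nat.card H : ℂ) ≠ 0 := Nat.cast_ne_zero.2 Nat.card_pos.ne'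
    have h1 : ∀ x : G, ∑ g, (if p ∣ orderOf g then 0 else extendByZero H (η : H → ℂ) (x⁻¹ * g * x)) =
        regTotal p (θ : N → ℂ) := by
      intro x
      have e1 : ∑ g, (if p ∣ orderOf g then 0 else extendByZero H (η : H → ℂ) (x⁻¹ * g * x)) =
          ∑ g : G, extendByZero H (η : H → ℂ) g * (if p ∣ orderOf g then 0 else 1) := by
        refine Fintype.sum_equiv (MulAut.conj x⁻¹).toEquiv _ _ fun g => ?_
        have eo : orderOf ((MulAut.conj x⁻¹) g) = orderOf g := MulEquiv.orderOf_eq _ g
        show _ = extendByZero H (η : H → ℂ) ((MulAut.conj x⁻¹) g) * _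
        show _ = extendByZero H (η : H → ℂ) ((MulAut.conj x⁻¹) g) * (if p ∣ orderOf ((MulAut.conj x⁻¹) g) then 0 else 1)
        rw [eo, MulAut.conj_apply, inv_inv]
        split_ifs <;> simp
      rw [e1, sum_extendByZero_mul]
      simp only [mul_ite, mul_zero, mul_one, Subgroup.orderOf_coe, regTotal]
      refine (Finset.sum_bij_ne_zero (fun n _ _ => Subgroup.inclusion le_sup_left n)
        (fun n _ _ => Finset.mem_univ _) (fun a _ _ b _ _ hab => Subgroup.inclusion_injective _ hab)
        (fun h _ hh => ?_) (fun n _ _ => ?_)).symm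
      · have hh' : ¬ p ∣ orderOf h := fun hd => hh (if_pos hd)
        refine ⟨⟨h, hreg h hh'⟩, Finset.mem_univ _, ?_, Subtype.ext rfl⟩
        rw [if_neg hh'] at hh
        rw [if_neg (by rwa [← Subgroup.orderOf_coe, Subgroup.coe_mk, Subgroup.orderOf_coe]), ← hη]
        exact hh
      · rw [hη, orderOf_injective _ (Subgroup.inclusion_injective _)]
    simp only [regTotal, hFdef, indFun]
    calc ∑ g, (if p ∣ orderOf g then 0 else (Nat.card H : ℂ)⁻¹ * ∑ x, extendByZero H (η : H → ℂ) (x⁻¹ * g * x))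
        = (Nat.card H : ℂ)⁻¹ * ∑ x : G, ∑ g, (if p ∣ orderOf g then 0 else extendByZero H (η : H → ℂ) (x⁻¹ * g * x)) := by
          rw [Finset.sum_comm, Finset.mul_sum]
          refine Finset.sum_congr rfl fun g _ => ?_
          split_ifs <;> simp
      _ = (H.index : ℂ) * regTotal p (θ : N → ℂ) := by
          rw [Finset.sum_congr rfl fun x _ => h1 x, Finset.sum_const, Finset.card_univ, nsmul_eq_mul,
            ← Nat.card_eq_fintype_card, hcard]
          field_simp
  have hHi : ¬ p ∣ H.index := fun hd =>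
    P.not_dvd_index (hd.trans (Subgroup.index_dvd_of_le (le_sup_right : (P : Subgroup G) ≤ H)))
  -- it is a unit
  have hunit : ¬ MemLocalIdeal M (regTotal p F) := by
    intro hs
    rw [hFsum] at hs
    rcases memLocalIdeal_of_mul hM (memLocalRing_natCast hM _) (memLocalRing_sum hM _ fun g _ => by split_ifs; exacts [memLocalRing_zero hM, memLocalRing_apply hM θ g]) hs with h | h
    · exact hHi ((memLocalIdeal_natCast_iff hM _).1 h)
    · have e : omega (θ : N → ℂ) (ZStar.regSum p N) = regTotal p (θ : N → ℂ) / (θ : N → ℂ) 1 :=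
        omega_regSum_eq _
      have h1 := ZStar.omega_regSum_congr hM hθ
      have h2 : MemLocalIdeal M (omega (θ : N → ℂ) (ZStar.regSum p N)) := by
        rw [e, div_eq_mul_inv, apply_one (isCharacter_of_irr θ.2)]
        exact memLocalIdeal_mul_right hM h (memLocalRing_natCast_inv hM hdeg)
      have h3 := memLocalIdeal_sub hM h2 h1
      rw [sub_sub_cancel] at h3
      exact ZStar.not_small_regCard hM h3
  have hFc : IsCharacter G F := isCharacter_indFun H (isCharacter_of_irr η.2)
  obtain ⟨r, ψ, hψ, hsum⟩ := exists_decomp hFc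
  obtain ⟨i, hiB, hid⟩ := exists_unit_constituent hM hψ hsum hunit
  refine ⟨⟨ψ i, hψ i⟩, hiB, hid, ?_⟩
  have h1 : classInner F (ψ i) ≠ 0 := hsum ▸ classInner_sum_ne_zero (fun j => isCharacter_of_irr (hψ j)) (hψ i) rfl
  rw [hFdef, classInner_indFun H _ (isClassFunction (isCharacter_of_irr (hψ i)))] at h1
  obtain ⟨r', φ, hφ, hφsum⟩ := exists_decomp (isCharacter_restrict (isCharacter_of_irr (hψ i)) H)
  rw [hφsum] at h1
  obtain ⟨j, hj⟩ := exists_eq_of_classInner_ne hφ η.2 h1
  let incl : N →* H := Subgroup.inclusion le_sup_left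
  have h2 : (fun n : N => ψ i n) = ∑ k, fun n : N => φ k (incl n) := by
    funext n
    have := congrFun hφsum (incl n)
    simp only [Finset.sum_apply] at this ⊢
    exact this
  show @classInner N _ (Fintype.ofFinite N) (fun n : N => ψ i n) (θ : N → ℂ) ≠ 0
  rw [h2]
  letI := Fintype.ofFinite N
  exact classInner_sum_ne_zero (fun k => isCharacter_comp (isCharacter_of_irr (hφ k)) incl) θ.2
    (i := j) (by rw [hj]; funext n; exact hη n)

end Cfsg.Agent.S4583
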