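import Cfsg.Statements.S4584
import Cfsg.Agent.PGroupSmall.Order4

set_option autoImplicit false
open Cfsg

namespace Cfsg.Agent.S4584

/-- Let p be a prime and P a group of order p^4. Then the derived subgroup P' has order p if and only if the centre Z(P) has index p^2 in P. -/
theorem result {P : Type*} [Group P] [Finite P] (p : ℕ) [Fact p.Prime] (hP : Nat.card P = p ^ 4) :
    Nat.card (commutator P) = p ↔ (Subgroup.center P).index = p ^ 2 := by
  exact ⟨CfsgLib.PGroupSmall.center_index_sq_of_card_commutator hP,
    CfsgLib.PGroupSmall.card_commutator_of_center_index_sq hP⟩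


end Cfsg.Agent.S4584
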