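import Cfsg.Statements.S4585
import Cfsg.Agent.PGroupSmall.Order4

set_option autoImplicit false
open Cfsg

namespace Cfsg.Agent.S4585

/-- Let p be a prime and P a group of order p^4. Then P' has index p^2 in P if and only if P has maximal nilpotency class, that is, nilpotency class exactly 3. -/
theorem result {P : Type*} [Group P] [Finite P] (p : ℕ) [Fact p.Prime] (hP : Nat.card P = p ^ 4) :
    (commutator P).index = p ^ 2 ↔ Group.nilpotencyClass P = 3 := by
  have hp : p.Prime := Fact.out
  have hPp : IsPGroup p P := IsPGroup.of_card hP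
  have : Group.IsNilpotent P := hPp.isNilpotent
  set L : ℕ → Subgroup P := fun n => (⊤ : Subgroup P).lowerCentralSeries n with hL
  have hanti : Antitone L := Subgroup.lowerCentralSeries_antitone _
  have hstep : ∀ n, L n ≠ ⊥ → p * Nat.card (L (n+1)) ∣ Nat.card (L n) := by
    intro n hn
    have hne : L (n+1) ≠ L n := CfsgLib.PGroupSmall.lcs_succ_ne hn
    obtain ⟨a, ha⟩ := IsPGroup.iff_card.1 (hPp.to_subgroup (L n))
    obtain ⟨b, hb⟩ := IsPGroup.iff_card.1 (hPp.to_subgroup (L (n+1)))
    rw [ha, hb, ← pow_succ']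
    apply pow_dvd_pow
    by_contra hab
    refine hne (Subgroup.eq_of_le_of_card_ge (hanti (Nat.le_succ n)) ?_)
    rw [ha, hb]
    exact Nat.pow_le_pow_right hp.pos (by omega)
  have hL1 : L 1 = commutator P := Subgroup.top_lowerCentralSeries_one
  have hmul := (commutator P).card_mul_index
  rw [hP] at hmul
  have hcls : ∀ n, L n = ⊥ ↔ Group.nilpotencyClass P ≤ n := fun n =>
    Subgroup.lowerCentralSeries_eq_bot_iff_nilpotencyClass_le
  have hclass2 : L 2 = ⊥ → commutator P ≤ Subgroup.center P := by
    intro h0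
    simp only [hL] at h0
    rw [Subgroup.lowerCentralSeries_succ, Subgroup.top_lowerCentralSeries_one,
      Subgroup.commutator_eq_bot_iff_le_centralizer, Subgroup.coe_top,
      Subgroup.centralizer_univ] at h0
    exact h0
  constructor
  · intro hi
    have hc : Nat.card (commutator P) = p ^ 2 := by
      rw [hi] at hmul
      exact Nat.eq_of_mul_eq_mul_right (pow_pos hp.pos 2) (hmul.trans (by ring))
    have h2 : L 2 ≠ ⊥ := by
      intro h0
      have hle := hclass2 h0
      obtain ⟨i, hi2, hi'⟩ := (Nat.dvd_prime_pow hp).1 (hi ▸ Subgroup.index_dvd_of_le hle)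
      interval_cases i
      · have hab := CfsgLib.PGroupSmall.comm_of_cyclic_center_index (P := P) (p := p) (by rw [hi']; simp)
        rw [(commutator_eq_bot_iff P).2 hab, Subgroup.card_bot] at hc
        exact (one_lt_pow₀ hp.one_lt (by norm_num : 2 ≠ 0)).ne hc
      · have hab := CfsgLib.PGroupSmall.comm_of_cyclic_center_index (P := P) (p := p) (by rw [hi']; simp)
        rw [(commutator_eq_bot_iff P).2 hab, Subgroup.card_bot] at hc
        exact (one_lt_pow₀ hp.one_lt (by norm_num : 2 ≠ 0)).ne hc
      · have h := CfsgLib.PGroupSmall.card_commutator_of_center_index_sq hP hi'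
        rw [h] at hc
        have h12 : p ^ 1 < p ^ 2 := Nat.pow_lt_pow_right hp.one_lt (by omega)
        rw [pow_one] at h12
        omega
    have h3 : L 3 = ⊥ := by
      by_contra h3
      have a1 := hstep 1 (by rw [hL1]; intro h; rw [h, Subgroup.card_bot] at hc; exact (one_lt_pow₀ hp.one_lt (by norm_num : 2 ≠ 0)).ne hc)
      rw [hL1, hc] at a1
      have a2 := hstep 2 h2
      have a3 := CfsgLib.PGroupSmall.card_pos_of_ne hPp _ h3
      have := Nat.le_of_dvd (pow_pos hp.pos 2)
        ((mul_dvd_mul_left p ((mul_dvd_mul_left p a3).trans a2)).trans a1)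
      nlinarith [hp.two_le, sq_nonneg p]
    have l3 := (hcls 3).1 h3
    have l2 : ¬ Group.nilpotencyClass P ≤ 2 := fun h => h2 ((hcls 2).2 h)
    omega
  · intro hclass
    have h2 : L 2 ≠ ⊥ := fun h => by have := (hcls 2).1 h; omega
    have h1 : L 1 ≠ ⊥ := fun h => by have := (hcls 1).1 h; omega
    have hd : p * p ∣ Nat.card (commutator P) := by
      rw [← hL1]
      exact (mul_dvd_mul_left p (CfsgLib.PGroupSmall.card_pos_of_ne hPp _ h2)).trans (hstep 1 h1)
    have hidx : ¬ (commutator P).index ∣ p := by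
      intro hdp
      have hle : L 1 ≤ L 2 := by
        let N := L 2
        have : N.Normal := inferInstanceAs (((⊤ : Subgroup P).lowerCentralSeries 2).Normal)
        rw [hL1, ← Subgroup.Normal.quotient_commutative_iff_commutator_le]
        apply CfsgLib.PGroupSmall.comm_of_cyclic_center_index (p := p)
        refine Nat.dvd_trans ?_ hdp
        refine Nat.dvd_trans (Subgroup.index_dvd_of_le (?_ : (commutator P).map (QuotientGroup.mk' (L 2)) ≤ _)) (Subgroup.index_map_dvd _ (QuotientGroup.mk'_surjective _))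
        rintro _ ⟨c, hc, rfl⟩
        apply Subgroup.mem_center_iff.2
        intro g
        obtain ⟨g, rfl⟩ := QuotientGroup.mk'_surjective _ g
        rw [← map_mul, ← map_mul, QuotientGroup.mk'_eq_mk']
        refine ⟨(g * c)⁻¹ * (c * g), ?_, by group⟩
        have h := Subgroup.commutator_mem_commutator (H₁ := commutator P) (H₂ := ⊤)
          ((commutator P).inv_mem hc) (Subgroup.mem_top g⁻¹)
        rw [← Subgroup.top_lowerCentralSeries_one, ← Subgroup.lowerCentralSeries_succ] at h
        show (g * c)⁻¹ * (c * g) ∈ (⊤ : Subgroup P).lowerCentralSeries (1 + 1)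
        have he : (g * c)⁻¹ * (c * g) = c⁻¹ * g⁻¹ * c⁻¹⁻¹ * g⁻¹⁻¹ := by group
        rw [he]; exact h
      exact CfsgLib.PGroupSmall.lcs_succ_ne h1 (le_antisymm (hanti (by omega)) hle)
    obtain ⟨j, hj, hj'⟩ := (Nat.dvd_prime_pow hp).1 (hP ▸ (commutator P).index_dvd_card)
    rw [hj'] at hidx hmul ⊢
    obtain ⟨m, hm⟩ := hd
    have hj2 : 2 ≤ j := by
      by_contra hc
      exact hidx (by interval_cases j <;> simp)
    have : j ≤ 2 := by
      by_contra hc
      rw [hm] at hmul
      have hdd : p ^ 2 * p ^ 3 ∣ p ^ 4 :=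
        ⟨m * p ^ (j - 3), by rw [← hmul, show j = 3 + (j - 3) by omega, pow_add]; ring_nf; simp [show 3 + (j - 3) - 3 = j - 3 by omega]⟩
      rw [← pow_add] at hdd
      exact absurd ((Nat.pow_dvd_pow_iff_le_right hp.one_lt).1 hdd) (by omega)
    rw [show j = 2 by omega]


end Cfsg.Agent.S4585
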