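import Cfsg.Statements.S4586
import Cfsg.Agent.PGroupSmall.Order4

set_option autoImplicit false
open Cfsg

namespace Cfsg.Agent.S4586

theorem card_comap {P : Type*} [Group P] [Finite P] (K : Subgroup P) [K.Normal]
    (S : Subgroup (P ⧸ K)) :
    Nat.card (S.comap (QuotientGroup.mk' K)) = Nat.card S * Nat.card K := by
  have h1 := (S.comap (QuotientGroup.mk' K)).card_mul_index
  rw [S.index_comap_of_surjective (QuotientGroup.mk'_surjective K), K.card_eq_card_quotient_mul_card_subgroup,
    ← S.card_mul_index] at h1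
  have hpos : 0 < S.index := Nat.pos_of_ne_zero Subgroup.index_ne_zero_of_finite
  exact Nat.eq_of_mul_eq_mul_right hpos (h1.trans (by ring))

theorem key {P : Type*} [Group P] [Finite P] (p : ℕ) [Fact p.Prime] (N : Subgroup P) [N.Normal]
    (hN : N.index = p) (x : P) (hx : x ∉ N) :
    Nat.card {n : N // x * n * x⁻¹ * (n : P)⁻¹ ∈ (commutator N).map N.subtype} *
      Nat.card (commutator P) = Nat.card N * Nat.card (commutator N) := by
  set K := (commutator N).map N.subtype with hK
  have hKn : K.Normal := inferInstance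
  have hKN : K ≤ N := Subgroup.map_subtype_le _
  have hKP : K ≤ commutator P := by
    rw [hK, Subgroup.map_subtype_commutator]
    exact Subgroup.commutator_mono le_top le_top
  have hKc : Nat.card K = Nat.card (commutator N) :=
    Subgroup.card_map_of_injective N.subtype_injective
  set π := QuotientGroup.mk' K
  have hπs : Function.Surjective π := QuotientGroup.mk'_surjective K
  set A := N.map π with hA
  have hAc : A.comap π = N := by
    rw [hA, Subgroup.comap_map_eq, QuotientGroup.ker_mk', sup_eq_left.2 hKN]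
  have hAn : A.Normal := ‹N.Normal›.map π hπs
  have hab : ∀ a ∈ A, ∀ b ∈ A, a * b = b * a := by
    rintro _ ⟨a, ha, rfl⟩ _ ⟨b, hb, rfl⟩
    rw [← map_mul, ← map_mul, QuotientGroup.mk'_eq_mk']
    refine ⟨(a * b)⁻¹ * (b * a), ?_, by group⟩
    have h := Subgroup.commutator_mem_commutator (H₁ := N) (H₂ := N) (N.inv_mem hb) (N.inv_mem ha)
    rw [← Subgroup.map_subtype_commutator, ← hK] at h
    have he : (a * b)⁻¹ * (b * a) = b⁻¹ * a⁻¹ * b⁻¹⁻¹ * a⁻¹⁻¹ := by group
    rw [he]; exact h
  have hAi : A.index = p := by
    rw [← hN, ← hAc, A.index_comap_of_surjective hπs]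
  have hQ' : commutator (P ⧸ K) = (commutator P).map π := by
    rw [commutator_def, commutator_def, Subgroup.map_commutator,
      Subgroup.map_top_of_surjective π hπs]
  have hP'c : Nat.card (commutator P) = Nat.card (commutator (P ⧸ K)) * Nat.card K := by
    rw [← card_comap K (commutator (P ⧸ K)), hQ', Subgroup.comap_map_eq, QuotientGroup.ker_mk',
      sup_eq_left.2 hKP]
  have hD : Nat.card {n : N // x * n * x⁻¹ * (n : P)⁻¹ ∈ K} =
      Nat.card (A ⊓ Subgroup.centralizer ({π x} : Set (P ⧸ K)) : Subgroup (P ⧸ K)) * Nat.card K := by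
    rw [← card_comap]
    refine Nat.card_congr ((Equiv.subtypeSubtypeEquivSubtypeInter (fun n => n ∈ N)
      (fun n => x * n * x⁻¹ * n⁻¹ ∈ K)).trans (Equiv.subtypeEquivRight fun n => ?_))
    rw [Subgroup.mem_comap, Subgroup.mem_inf, Subgroup.mem_centralizer_iff]
    have h1 : n ∈ N ↔ π n ∈ A := by rw [← Subgroup.mem_comap, hAc]
    refine and_congr h1 ?_
    rw [← QuotientGroup.eq_one_iff]
    change π (x * n * x⁻¹ * n⁻¹) = 1 ↔ _
    simp only [map_mul, map_inv, mul_inv_eq_one, mul_inv_eq_iff_eq_mul, Set.mem_singleton_iff,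
      forall_eq, one_mul]
    rfl
  have hNc : Nat.card N = Nat.card A * Nat.card K := by rw [← card_comap K A, hAc]
  rw [hD, hP'c, hNc, ← hKc]
  suffices h : Nat.card (A ⊓ Subgroup.centralizer ({π x} : Set (P ⧸ K)) : Subgroup (P ⧸ K)) *
      Nat.card (commutator (P ⧸ K)) = Nat.card A by
    rw [← h]; ring
  have hxA : π x ∉ A := by rw [← Subgroup.mem_comap, hAc]; exact hx
  by_cases hc : IsMulCommutative (P ⧸ K)
  · have hC : Subgroup.centralizer ({π x} : Set (P ⧸ K)) = ⊤ := by
      refine (Subgroup.eq_top_iff' _).2 fun g => Subgroup.mem_centralizer_iff.2 ?_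
      intro y _; exact hc.is_comm.comm _ _
    rw [hC, inf_top_eq, (commutator_eq_bot_iff _).2 hc, Subgroup.card_bot, mul_one]
  · have hZ : A ⊓ Subgroup.centralizer ({π x} : Set (P ⧸ K)) = Subgroup.center (P ⧸ K) := by
      apply le_antisymm
      · intro a ha
        have : (⊤ : Subgroup (P ⧸ K)) ≤ Subgroup.centralizer ({a} : Set (P ⧸ K)) := by
          rw [← CfsgLib.PGroupSmall.sup_zpowers_eq_top hAi hxA, sup_le_iff, Subgroup.zpowers_le]
          constructor
          · intro b hb
            exact Subgroup.mem_centralizer_iff.2 (by simpa using hab a ha.1 b hb)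
          · exact Subgroup.mem_centralizer_iff.2 (by
              simpa using (Subgroup.mem_centralizer_iff.1 ha.2 (π x) rfl).symm)
        exact Subgroup.mem_center_iff.2 fun g =>
          (Subgroup.mem_centralizer_iff.1 (this (Subgroup.mem_top g)) a rfl).symm
      · refine le_inf (fun z hz => ?_) (Subgroup.center_le_centralizer _)
        by_contra hzA
        apply hc
        rw [← Subgroup.center_eq_top_iff, eq_top_iff,
          ← CfsgLib.PGroupSmall.sup_zpowers_eq_top hAi hzA, sup_le_iff, Subgroup.zpowers_le]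
        refine ⟨fun a ha => ?_, hz⟩
        have : (⊤ : Subgroup (P ⧸ K)) ≤ Subgroup.centralizer ({a} : Set (P ⧸ K)) := by
          rw [← CfsgLib.PGroupSmall.sup_zpowers_eq_top hAi hzA, sup_le_iff, Subgroup.zpowers_le]
          constructor
          · intro b hb
            exact Subgroup.mem_centralizer_iff.2 (by simpa using hab a ha b hb)
          · exact Subgroup.mem_centralizer_iff.2 (by
              simpa using Subgroup.mem_center_iff.1 hz a)
        exact Subgroup.mem_center_iff.2 fun g =>
          (Subgroup.mem_centralizer_iff.1 (this (Subgroup.mem_top g)) a rfl).symm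
    rw [hZ, CfsgLib.PGroupSmall.card_eq_mul A hab hAi hc]
    ring


/-- Let p be a prime, P a finite p-group and N a normal subgroup of P of index p. For x ∈ P write c(x) for the number of elements n of N whose commutator x n x⁻¹ n⁻¹ lies in the derived subgroup N' (so c(x)/#N' is the order of the centralizer of x acting on N/N'). Then [P : P'] = p² if and only if c(x) = p·#N' for every x ∈ P outside N, and also if and only if c(x) = p·#N' for some x ∈ P outside N. -/
theorem result {P : Type*} [Group P] [Finite P] (p : ℕ) [Fact p.Prime] (hP : IsPGroup p P) (N : Subgroup P) [N.Normal] (hN : N.index = p) :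
    ((commutator P).index = p ^ 2 ↔ ∀ x : P, x ∉ N →
        Nat.card {n : N // x * n * x⁻¹ * (n : P)⁻¹ ∈ (commutator N).map N.subtype} = p * Nat.card (commutator N)) ∧
    ((commutator P).index = p ^ 2 ↔ ∃ x : P, x ∉ N ∧
        Nat.card {n : N // x * n * x⁻¹ * (n : P)⁻¹ ∈ (commutator N).map N.subtype} = p * Nat.card (commutator N)) := by
  have hpp : p.Prime := Fact.out
  obtain ⟨x₀, hx₀⟩ : ∃ x, x ∉ N := by
    by_contra h
    push Not at h
    rw [(Subgroup.eq_top_iff' N).2 h, Subgroup.index_top] at hN
    exact hpp.ne_one hN.symm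
  have main : ∀ x : P, x ∉ N → ((commutator P).index = p ^ 2 ↔
      Nat.card {n : N // x * n * x⁻¹ * (n : P)⁻¹ ∈ (commutator N).map N.subtype} =
        p * Nat.card (commutator N)) := by
    intro x hx
    have hk := key p N hN x hx
    have h1 := (commutator P).card_mul_index
    have h2 := N.card_mul_index
    rw [hN] at h2
    have hc : 0 < Nat.card (commutator P) := Nat.card_pos
    have hn : 0 < Nat.card (commutator N) := Nat.card_pos
    constructor
    · intro h
      rw [h, ← h2, sq, ← mul_assoc] at h1
      have h3 : Nat.card (commutator P) * p = Nat.card N := Nat.eq_of_mul_eq_mul_right hpp.pos h1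
      rw [← h3] at hk
      exact Nat.eq_of_mul_eq_mul_right hc (hk.trans (by ring))
    · intro h
      rw [h] at hk
      have h3 : p * Nat.card (commutator P) = Nat.card N :=
        Nat.eq_of_mul_eq_mul_right hn (by rw [← hk]; ring)
      rw [← h2, ← h3] at h1
      exact Nat.eq_of_mul_eq_mul_left hc (h1.trans (by ring))
  exact ⟨⟨fun h x hx => (main x hx).1 h, fun h => (main x₀ hx₀).2 (h x₀ hx₀)⟩,
    fun h => ⟨x₀, hx₀, (main x₀ hx₀).1 h⟩, fun ⟨x, hx, h⟩ => (main x hx).2 h⟩


end Cfsg.Agent.S4586
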