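import Cfsg.Statements.S4587
import Cfsg.Agent.MinNormal.Factors
import Cfsg.Agent.MinNormal.Burnside
import Cfsg.Agent.Transfer.Tate
import Cfsg.Agent.PReduced.Basic
import Cfsg.Agent.PCore.Descent
import Cfsg.Agent.CoprimeAction.Frattini
import Mathlib.GroupTheory.Abelianization.Defs

set_option autoImplicit false
set_option linter.style.haveILetI false
open Cfsg

namespace Cfsg.Agent.S4587

open Subgroup
open scoped commutatorElement

section PGroups

variable {p : ℕ} [Fact p.Prime] {R : Type*} [Group R] [Finite R]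

/-- A `p`-group whose abelianization has order at most `p` is commutative, so has that order. -/
theorem commute_of_index_le (hR : IsPGroup p R) (h : (commutator R).index ≤ p) (a b : R) : a * b = b * a := by
  have hp : p.Prime := Fact.out
  haveI : IsCyclic (R ⧸ commutator R) := by
    obtain ⟨k, hk⟩ := (hR.to_quotient (commutator R)).exists_card_eq
    rw [Subgroup.index_eq_card, hk] at h
    rcases Nat.eq_zero_or_pos k with rfl | hk0
    · rw [pow_zero] at hk
      haveI := (Nat.card_eq_one_iff_unique.1 hk).1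
      exact isCyclic_of_subsingleton
    · have : k ≤ 1 := (Nat.pow_le_pow_iff_right hp.one_lt).1 (h.trans (pow_one p).ge)
      exact isCyclic_of_prime_card (p := p) (by rw [hk, show k = 1 by omega, pow_one])
  obtain ⟨g, hg⟩ := IsCyclic.exists_generator (α := R ⧸ commutator R)
  obtain ⟨x, rfl⟩ := QuotientGroup.mk_surjective g
  have htop : zpowers x = ⊤ := by
    refine frattini_nongenerating (top_le_iff.1 fun r _ => ?_)
    obtain ⟨j, hj⟩ := mem_zpowers_iff.1 (hg r)
    rw [← QuotientGroup.mk_zpow, QuotientGroup.eq] at hj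
    have h2 := CfsgLib.CoprimeAction.commutator_le_frattini' hR hj
    rw [show r = x ^ j * ((x ^ j)⁻¹ * r) by group]
    exact mul_mem (mem_sup_left (zpow_mem (mem_zpowers x) j)) (mem_sup_right h2)
  obtain ⟨i, rfl⟩ := mem_zpowers_iff.1 (htop ▸ mem_top a)
  obtain ⟨j, rfl⟩ := mem_zpowers_iff.1 (htop ▸ mem_top b)
  exact (Commute.refl x).zpow_zpow i j

/-- In a `p`-group of order at least `p ^ 2` the derived subgroup has index at least `p ^ 2`. -/
theorem sq_le_index (hR : IsPGroup p R) (h : p ^ 2 ≤ Nat.card R) : p ^ 2 ≤ (commutator R).index := by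
  by_contra hlt
  obtain ⟨k, hk⟩ := hR.index (commutator R)
  have h1 : (commutator R).index ≤ p := by
    rw [hk]
    calc p ^ k ≤ p ^ 1 := Nat.pow_le_pow_right (Nat.pos_of_ne_zero (Fact.out : p.Prime).ne_zero) (by
          by_contra hk1
          exact hlt (hk ▸ Nat.pow_le_pow_right (Nat.pos_of_ne_zero (Fact.out : p.Prime).ne_zero) (by omega)))
      _ = p := pow_one p
  have hbot : commutator R = ⊥ := by
    rw [eq_bot_iff, _root_.commutator_def, commutator_le]
    exact fun a _ b _ => mem_bot.2 (commutatorElement_eq_one_iff_mul_comm.2 (commute_of_index_le hR h1 a b))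
  rw [hbot, index_bot] at h1 hlt
  exact hlt h

/-- A normal subgroup with large quotient lies in the derived subgroup when the latter has index `p ^ 2`. -/
theorem le_commutator_of_sq_le (hR : IsPGroup p R) (h2 : (commutator R).index = p ^ 2) (N : Subgroup R) [N.Normal]
    (h : p ^ 2 ≤ N.index) : N ≤ commutator R := by
  have h' := sq_le_index (hR.to_quotient N) (by rwa [← Subgroup.index_eq_card])
  have e : commutator (R ⧸ N) = (commutator R).map (QuotientGroup.mk' N) := by
    rw [_root_.commutator_def, _root_.commutator_def, map_commutator, map_top_of_surjective _ (QuotientGroup.mk'_surjective N)]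
  rw [e, Subgroup.index_map, MonoidHom.range_eq_top.2 (QuotientGroup.mk'_surjective N), index_top, mul_one, QuotientGroup.ker_mk'] at h'
  have heq : commutator R ⊔ N = commutator R := by
    refine le_antisymm ?_ le_sup_left
    have hdiv := index_dvd_of_le (le_sup_left : commutator R ≤ commutator R ⊔ N)
    have hcard : Nat.card (commutator R ⊔ N : Subgroup R) ≤ Nat.card (commutator R) := by
      have e1 := (commutator R ⊔ N).index_mul_card
      have e2 := (commutator R).index_mul_card
      by_contra hc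
      have : (commutator R).index * Nat.card (commutator R) < (commutator R ⊔ N).index * Nat.card (commutator R ⊔ N : Subgroup R) :=
        Nat.mul_lt_mul_of_le_of_lt (h2 ▸ h') (not_le.1 hc) (Nat.pos_of_ne_zero index_ne_zero_of_finite)
      omega
    exact (eq_of_le_of_card_ge le_sup_left hcard).ge
  exact le_sup_right.trans heq.le

/-- Two nontrivial normal subgroups meeting trivially cannot reach outside the derived subgroup. -/
theorem false_of_disjoint (hR : IsPGroup p R) (h2 : (commutator R).index = p ^ 2) (h3 : p ^ 2 < Nat.card R)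
    (R₁ R₂ : Subgroup R) [R₁.Normal] [R₂.Normal] (hd : R₁ ⊓ R₂ = ⊥) (h1 : R₁ ≠ ⊥) (h2' : R₂ ≠ ⊥)
    (hout : ¬ R₁ ⊔ R₂ ≤ commutator R) : False := by
  have hp : p.Prime := Fact.out
  suffices key : ∀ (A B : Subgroup R) [A.Normal] [B.Normal], A ⊓ B = ⊥ → B ≠ ⊥ → A.index < p ^ 2 → False by
    by_cases hA : R₁.index < p ^ 2
    · exact key R₁ R₂ hd h2' hA
    by_cases hB : R₂.index < p ^ 2
    · exact key R₂ R₁ (by rwa [inf_comm]) h1 hB
    exact hout (sup_le (le_commutator_of_sq_le hR h2 R₁ (not_lt.1 hA)) (le_commutator_of_sq_le hR h2 R₂ (not_lt.1 hB)))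
  intro A B _ _ hAB hB0 hA
  obtain ⟨k, hk⟩ := hR.index A
  have hk1 : k ≤ 1 := by
    rw [hk] at hA
    have := (Nat.pow_lt_pow_iff_right hp.one_lt).1 hA
    omega
  have hcyc : ∀ x y : R ⧸ A, x * y = y * x := fun x y => by
    refine commute_of_index_le (hR.to_quotient A) ?_ x y
    refine (Nat.le_of_dvd Nat.card_pos (Subgroup.index_dvd_card _)).trans ?_
    rw [← Subgroup.index_eq_card, hk]
    exact (Nat.pow_le_pow_right hp.pos hk1).trans (pow_one p).le
  have hcomA : commutator R ≤ A := by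
    rw [_root_.commutator_def, commutator_le]
    intro a _ b _
    rw [← QuotientGroup.eq_one_iff, ← QuotientGroup.mk'_apply, map_commutatorElement, commutatorElement_eq_one_iff_mul_comm]
    exact hcyc _ _
  have hBle : Nat.card B ≤ A.index := by
    rw [Subgroup.index_eq_card]
    refine Nat.card_le_card_of_injective (fun b : B => ((b : R) : R ⧸ A)) fun a b he => ?_
    have hmem : (a : R)⁻¹ * b ∈ A ⊓ B := ⟨QuotientGroup.eq.1 he, B.mul_mem (B.inv_mem a.2) b.2⟩
    rw [hAB, mem_bot, inv_mul_eq_one] at hmem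
    exact Subtype.ext hmem
  have hBi : p ^ 2 ≤ B.index := by
    by_contra hlt
    obtain ⟨j, hj⟩ := hR.index B
    have hcard := B.index_mul_card
    rw [hj] at hcard hlt
    have hj1 : j ≤ 1 := by
      by_contra hj2
      exact hlt (Nat.pow_le_pow_right hp.pos (by omega))
    have : p ^ j * Nat.card B ≤ p ^ 1 * p ^ 1 :=
      Nat.mul_le_mul (Nat.pow_le_pow_right hp.pos hj1) (hBle.trans (hk ▸ Nat.pow_le_pow_right hp.pos hk1))
    rw [hcard, ← pow_add] at this
    exact absurd this (not_le.2 h3)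
  exact hB0 (le_bot_iff.1 (hAB ▸ le_inf ((le_commutator_of_sq_le hR h2 B hBi).trans hcomA) le_rfl))

set_option maxHeartbeats 400000 in
/-- Outside an abelian subgroup of index `p` all centralizers have order `p ^ 2`. -/
theorem card_centralizer_of_abelian_index (hR : IsPGroup p R) (h2 : (commutator R).index = p ^ 2) (A : Subgroup R)
    [hA : A.Normal] (hab : ∀ a ∈ A, ∀ b ∈ A, a * b = b * a) (hidx : A.index = p) {y : R} (hy : y ∉ A) :
    Nat.card (centralizer ({y} : Set R)) = p ^ 2 := by
  have hp : p.Prime := Fact.out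
  have hmemA : ∀ a ∈ A, ⁅a, y⁆ ∈ A := fun a ha => by
    rw [commutatorElement_def, show a * y * a⁻¹ * y⁻¹ = a * (y * a⁻¹ * y⁻¹) by group]
    exact mul_mem ha (hA.conj_mem _ (inv_mem ha) y)
  let f : A →* R :=
    { toFun := fun a => ⁅(a : R), y⁆
      map_one' := by simp
      map_mul' := fun a b => by
        show ⁅(a : R) * b, y⁆ = ⁅(a : R), y⁆ * ⁅(b : R), y⁆
        have hc := hab _ (hmemA b b.2) _ a.2
        calc ⁅(a : R) * b, y⁆ = a * ⁅(b : R), y⁆ * (a : R)⁻¹ * ⁅(a : R), y⁆ := by simp only [commutatorElement_def]; group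
          _ = ⁅(b : R), y⁆ * ⁅(a : R), y⁆ := by rw [← hc, mul_inv_cancel_right]
          _ = _ := hab _ (hmemA b b.2) _ (hmemA a a.2) }
  -- every element is `a * y ^ i`
  have htop : A ⊔ zpowers y = ⊤ := by
    rw [← Subgroup.index_eq_one]
    have hd := index_dvd_of_le (le_sup_left : A ≤ A ⊔ zpowers y)
    rw [hidx] at hd
    refine (hp.eq_one_or_self_of_dvd _ hd).resolve_right fun he => hy ?_
    have : A ⊔ zpowers y = A := by
      refine (eq_of_le_of_card_ge le_sup_left ?_).symm
      have e1 := (A ⊔ zpowers y).index_mul_card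
      have e2 := A.index_mul_card
      rw [he] at e1
      rw [hidx] at e2
      exact (Nat.eq_of_mul_eq_mul_left hp.pos (e1.trans e2.symm)).le
    exact this ▸ mem_sup_right (mem_zpowers y)
  have hrA : f.range ≤ A := by
    rintro _ ⟨a, rfl⟩
    exact hmemA a a.2
  haveI hrn : f.range.Normal := by
    refine ⟨fun x hx g => ?_⟩
    have hg : g ∈ A ⊔ zpowers y := htop ▸ mem_top g
    obtain ⟨a, ha, z, hz, rfl⟩ := mem_sup_of_normal_left.1 hg
    obtain ⟨i, rfl⟩ := mem_zpowers_iff.1 hz
    obtain ⟨c, rfl⟩ := hx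
    have h1 : y ^ i * f c * (y ^ i)⁻¹ = f ⟨y ^ i * c * (y ^ i)⁻¹, hA.conj_mem _ c.2 _⟩ := by
      show _ = ⁅y ^ i * (c : R) * (y ^ i)⁻¹, y⁆
      show y ^ i * ⁅(c : R), y⁆ * (y ^ i)⁻¹ = _
      simp only [commutatorElement_def]
      group
    refine ⟨⟨y ^ i * c * (y ^ i)⁻¹, hA.conj_mem _ c.2 _⟩, ?_⟩
    rw [← h1, show a * y ^ i * f c * (a * y ^ i)⁻¹ = a * (y ^ i * f c * (y ^ i)⁻¹) * a⁻¹ by group, h1,
      hab _ ha _ (hrA ⟨_, rfl⟩), mul_inv_cancel_right]
  have hrange : f.range = commutator R := by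
    refine le_antisymm ?_ ?_
    · rintro _ ⟨a, rfl⟩
      exact commutator_mem_commutator (mem_top _) (mem_top _)
    rw [_root_.commutator_def, commutator_le]
    -- the quotient by the range is commutative
    have hAy : ∀ a ∈ A, Commute ((a : R) : R ⧸ f.range) ((y : R) : R ⧸ f.range) := fun a ha => by
      show _ * _ = _ * _
      rw [← commutatorElement_eq_one_iff_mul_comm, ← QuotientGroup.mk'_apply, ← QuotientGroup.mk'_apply,
        ← map_commutatorElement, QuotientGroup.mk'_apply, QuotientGroup.eq_one_iff]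
      exact ⟨⟨a, ha⟩, rfl⟩
    intro u _ v _
    rw [← QuotientGroup.eq_one_iff, ← QuotientGroup.mk'_apply, map_commutatorElement, commutatorElement_eq_one_iff_mul_comm]
    obtain ⟨a, ha, z, hz, rfl⟩ := mem_sup_of_normal_left.1 (htop ▸ mem_top u : u ∈ A ⊔ zpowers y)
    obtain ⟨b, hb, z', hz', rfl⟩ := mem_sup_of_normal_left.1 (htop ▸ mem_top v : v ∈ A ⊔ zpowers y)
    obtain ⟨i, rfl⟩ := mem_zpowers_iff.1 hz
    obtain ⟨j, rfl⟩ := mem_zpowers_iff.1 hz'
    simp only [map_mul, map_zpow, QuotientGroup.mk'_apply]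
    have hab' : Commute ((a : R) : R ⧸ f.range) ((b : R) : R ⧸ f.range) := by
      show _ * _ = _ * _
      rw [← QuotientGroup.mk_mul, ← QuotientGroup.mk_mul, hab a ha b hb]
    exact ((hab'.mul_right ((hAy a ha).zpow_right j)).mul_left
      (((hAy b hb).symm.zpow_left i).mul_right ((Commute.refl _).zpow_zpow i j))).eq
  have hker : Nat.card f.ker = p := by
    have e1 := f.ker.index_mul_card
    rw [index_ker, hrange] at e1
    have e2 := (commutator R).index_mul_card
    have e3 := A.index_mul_card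
    rw [h2] at e2
    rw [hidx, ← e2, ← e1] at e3
    have hc : 0 < Nat.card (commutator R) := Nat.card_pos
    rw [pow_two] at e3
    exact Nat.eq_of_mul_eq_mul_left (Nat.mul_pos hp.pos hc) (by linarith [e3])
  set Z := centralizer ({y} : Set R)
  have hAZ : Nat.card (A.subgroupOf Z) = p := by
    rw [← hker]
    refine Nat.card_congr
      { toFun := fun z => ⟨⟨_, z.2⟩, commutatorElement_eq_one_iff_mul_comm.2 (mem_centralizer_singleton_iff.1 z.1.2)⟩
        invFun := fun a => ⟨⟨(a.1 : R), mem_centralizer_singleton_iff.2 (commutatorElement_eq_one_iff_mul_comm.1 a.2)⟩, a.1.2⟩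
        left_inv := fun _ => rfl
        right_inv := fun _ => rfl }
  have hri : A.relIndex Z = p := by
    refine (hp.eq_one_or_self_of_dvd _ (hidx ▸ relIndex_dvd_index_of_normal A Z)).resolve_left fun h => hy ?_
    exact relIndex_eq_one.1 h (mem_centralizer_singleton_iff.2 rfl)
  rw [← (A.subgroupOf Z).index_mul_card, ← relIndex, hri, hAZ, pow_two]

end PGroups

theorem normalizer_le_normalizer_centralizer' {H : Type*} [Group H] {K : Subgroup H} :
    normalizer (K : Set H) ≤ normalizer ((centralizer (K : Set H) : Subgroup H) : Set H) :=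
  CfsgLib.MinNormal.le_normalizer_of_conj fun n hn c hc => mem_centralizer_iff.2 fun k hk => by
    have hk' : n⁻¹ * k * n ∈ K := (mem_normalizer_iff.1 hn _).2 (by simpa [mul_assoc] using hk)
    have h := mem_centralizer_iff.1 hc _ hk'
    calc k * (n * c * n⁻¹) = n * (n⁻¹ * k * n * c) * n⁻¹ := by group
      _ = n * (c * (n⁻¹ * k * n)) * n⁻¹ := by rw [h]
      _ = _ := by group

/-- The projection of a Sylow subgroup to a direct factor. -/
theorem sylow_factor {H : Type*} [Group H] [Finite H] {p : ℕ} [Fact p.Prime] (T : Sylow p H) (K C : Subgroup H) [K.Normal]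
    [C.Normal] (hd : K ⊓ C = ⊥) (htop : K ⊔ C = ⊤) {t : H} (ht : t ∈ (T : Subgroup H)) :
    ∃ k, k ∈ (T : Subgroup H) ∧ k ∈ K ∧ ∃ c, c ∈ (T : Subgroup H) ∧ c ∈ C ∧ t = k * c := by
  obtain ⟨Q, hQ⟩ := CfsgLib.PReduced.exists_sylow_inf T K
  set R := ((T : Subgroup H) ⊔ C) ⊓ K with hR
  have hRp : IsPGroup p (R.subgroupOf K) := by
    refine (T.isPGroup'.map (QuotientGroup.mk' C)).of_injective
      (((QuotientGroup.mk' C).comp (K.subtype.comp (R.subgroupOf K).subtype)).codRestrict _ fun r => ?_) ?_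
    · have h : ((r : K) : H) ∈ (T : Subgroup H) ⊔ C := r.2.1
      have := mem_map_of_mem (QuotientGroup.mk' C) h
      rwa [Subgroup.map_sup, (map_eq_bot_iff C).2 (by rw [QuotientGroup.ker_mk']), sup_bot_eq] at this
    · intro a b he
      have h : ((a : K) : H)⁻¹ * ((b : K) : H) ∈ K ⊓ C :=
        ⟨K.mul_mem (K.inv_mem a.1.2) b.1.2, QuotientGroup.eq.1 (congrArg Subtype.val he)⟩
      rw [hd, mem_bot, inv_mul_eq_one] at h
      exact Subtype.ext (Subtype.ext h)
  have hRQ : R.subgroupOf K = (Q : Subgroup K) := Q.is_maximal' hRp fun x hx => by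
    rw [hQ] at hx
    exact ⟨mem_sup_left hx.1, x.2⟩
  obtain ⟨k, hk, c, hc, hkc⟩ := mem_sup_of_normal_left.1 (htop ▸ mem_top t : t ∈ K ⊔ C)
  have hkR : (⟨k, hk⟩ : K) ∈ R.subgroupOf K := by
    refine ⟨?_, hk⟩
    show k ∈ (T : Subgroup H) ⊔ C
    rw [show k = t * c⁻¹ by rw [← hkc, mul_inv_cancel_right]]
    exact mul_mem (mem_sup_left ht) (mem_sup_right (inv_mem hc))
  rw [hRQ, hQ] at hkR
  refine ⟨k, hkR.1, hk, c, ?_, hc, hkc.symm⟩
  rw [show c = k⁻¹ * t by rw [← hkc, inv_mul_cancel_left]]
  exact mul_mem (inv_mem hkR.1) ht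

variable {G : Type*} [Group G] [Finite G] {p : ℕ} [Fact p.Prime]

/-- The `p`-part of a centralizer is that of a centralizer in a Sylow subgroup containing the element. -/
theorem exists_sylow_card (x : G) (hx : ∃ k : ℕ, orderOf x = p ^ k) :
    ∃ (R : Sylow p G) (hxR : x ∈ (R : Subgroup G)),
      Nat.card (centralizer ({(⟨x, hxR⟩ : (R : Subgroup G))} : Set (R : Subgroup G))) =
        p ^ (Nat.card (centralizer ({x} : Set G))).factorization p := by
  obtain ⟨k, hk⟩ := hx
  obtain ⟨T⟩ : Nonempty (Sylow p (centralizer ({x} : Set G))) := inferInstance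
  set T₁ := (T : Subgroup (centralizer ({x} : Set G))).map (centralizer ({x} : Set G)).subtype
  have hTC : T₁ ≤ centralizer ({x} : Set G) := Subgroup.map_subtype_le _
  have hxp : IsPGroup p (zpowers x) := IsPGroup.of_card (n := k) (by rw [Nat.card_zpowers, hk])
  have hnorm : T₁ ≤ normalizer ((zpowers x : Subgroup G) : Set G) := by
    refine hTC.trans ?_
    rw [← centralizer_closure, ← zpowers_eq_closure]
    exact Subgroup.centralizer_le_normalizer _
  have hsup : IsPGroup p (T₁ ⊔ zpowers x : Subgroup G) :=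
    (T.isPGroup'.map _).to_sup_of_normal_right' hxp hnorm
  obtain ⟨R, hR⟩ := hsup.exists_le_sylow
  have hxR : x ∈ (R : Subgroup G) := hR (mem_sup_right (mem_zpowers x))
  refine ⟨R, hxR, ?_⟩
  have hle : T₁ ≤ (R : Subgroup G) ⊓ centralizer ({x} : Set G) := le_inf (le_sup_left.trans hR) hTC
  have heq : ((R : Subgroup G) ⊓ centralizer ({x} : Set G)).subgroupOf (centralizer ({x} : Set G)) = (T : Subgroup _) :=
    T.is_maximal' ((R.isPGroup'.to_le inf_le_left).of_equiv (subgroupOfEquivOfLe inf_le_right).symm) fun z hz =>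
      hle ⟨z, hz, rfl⟩
  rw [← T.card_eq_multiplicity, ← heq, Nat.card_congr (subgroupOfEquivOfLe inf_le_right).toEquiv]
  exact Nat.card_congr
    { toFun := fun z => ⟨(z.1 : G), z.1.2, mem_centralizer_singleton_iff.2 (congrArg Subtype.val (mem_centralizer_singleton_iff.1 z.2))⟩
      invFun := fun z => ⟨⟨(z : G), z.2.1⟩, mem_centralizer_singleton_iff.2 (Subtype.ext (mem_centralizer_singleton_iff.1 z.2.2))⟩
      left_inv := fun _ => rfl
      right_inv := fun _ => rfl }

/-- Let G be a finite group, p a prime and P a Sylow p-subgroup of order at least p². Assume that G has no nontrivial normal subgroup of order prime to p, that the derived subgroup P' of P contains no nontrivial normal subgroup of G, and that G is not almost simple (there is no non-abelian simple normal subgroup of G with trivial centralizer). Then [P : P'] = p² if and only if some p-element x of G has centralizer whose order has p-part exactly p². -/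
theorem result {G : Type*} [Group G] [Finite G] (p : ℕ) [Fact p.Prime] (P : Sylow p G) (hbig : p ^ 2 ∣ Nat.card G) (hcore : Cfsg.pPrimeCore p G = ⊥)
    (hcore' : (⁅(P : Subgroup G), (P : Subgroup G)⁆).normalCore = ⊥) (hnas : ¬ ∃ S : Subgroup G, S.Normal ∧ IsSimpleGroup S ∧ ¬ IsMulCommutative S ∧ Subgroup.centralizer (S : Set G) = ⊥) :
    (⁅(P : Subgroup G), (P : Subgroup G)⁆).relIndex (P : Subgroup G) = p ^ 2 ↔
      ∃ x : G, (∃ k : ℕ, orderOf x = p ^ k) ∧ (Nat.card (Subgroup.centralizer ({x} : Set G))).factorization p = 2 := by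
  classical
  have hp : p.Prime := Fact.out
  have hrel : (⁅(P : Subgroup G), (P : Subgroup G)⁆).relIndex (P : Subgroup G) = (commutator (P : Subgroup G)).index := by
    rw [relIndex, show (⁅(P : Subgroup G), (P : Subgroup G)⁆).subgroupOf (P : Subgroup G) = commutator (P : Subgroup G) from by
      rw [← map_subtype_commutator, subgroupOf, comap_map_eq_self_of_injective (P : Subgroup G).subtype_injective]]
  have hPbig : p ^ 2 ≤ Nat.card (P : Subgroup G) :=
    Nat.le_of_dvd Nat.card_pos (Sylow.pow_dvd_card_of_pow_dvd_card P hbig)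
  rw [hrel]
  constructor
  swap
  · rintro ⟨x, hx, hxc⟩
    obtain ⟨R, hxR, hcard⟩ := exists_sylow_card x hx
    rw [hxc] at hcard
    set y : (R : Subgroup G) := ⟨x, hxR⟩
    have heR : (commutator (R : Subgroup G)).index = (commutator (P : Subgroup G)).index := by
      have e : (commutator (R : Subgroup G)).map (Sylow.equiv R P).toMonoidHom = commutator (P : Subgroup G) := by
        rw [_root_.commutator_def, _root_.commutator_def, map_commutator, map_top_of_surjective _ (Sylow.equiv R P).surjective]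
      rw [← e]
      exact (index_map_equiv (_root_.commutator (R : Subgroup G)) (Sylow.equiv R P)).symm
    rw [← heR]
    refine le_antisymm ?_ (sq_le_index R.isPGroup' (Sylow.card_eq_multiplicity R ▸ Sylow.card_eq_multiplicity P ▸ hPbig))
    -- the class of `y` lies in a coset of the derived subgroup
    have h1 : (centralizer ({y} : Set (R : Subgroup G))).index ≤ Nat.card (commutator (R : Subgroup G)) := by
      rw [Subgroup.index_eq_card]
      refine Nat.card_le_card_of_injective
        (Quotient.lift (fun r : (R : Subgroup G) => (⟨⁅r, y⁆, commutator_mem_commutator (mem_top _) (mem_top _)⟩ :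
          commutator (R : Subgroup G))) ?_) ?_
      · intro a b hab
        have hab' : a⁻¹ * b ∈ centralizer ({y} : Set (R : Subgroup G)) := QuotientGroup.leftRel_apply.1 hab
        rw [mem_centralizer_singleton_iff] at hab'
        refine Subtype.ext ?_
        show ⁅a, y⁆ = ⁅b, y⁆
        simp only [commutatorElement_def]
        have h : b * y * b⁻¹ = a * y * a⁻¹ := by
          rw [show b = a * (a⁻¹ * b) by group, show a * (a⁻¹ * b) * y = a * ((a⁻¹ * b) * y) by group, hab']
          group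
        rw [h]
      · intro u v
        induction u using QuotientGroup.induction_on with
        | H a =>
          induction v using QuotientGroup.induction_on with
          | H b =>
            intro he
            have he' : a * y * a⁻¹ * y⁻¹ = b * y * b⁻¹ * y⁻¹ := congrArg Subtype.val he
            refine QuotientGroup.eq.2 (mem_centralizer_singleton_iff.2 ?_)
            have h' := mul_right_cancel he'
            calc a⁻¹ * b * y = a⁻¹ * (b * y * b⁻¹) * b := by group
              _ = a⁻¹ * (a * y * a⁻¹) * b := by rw [h']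
              _ = y * (a⁻¹ * b) := by group
    have e1 := (centralizer ({y} : Set (R : Subgroup G))).index_mul_card
    have e2 := (commutator (R : Subgroup G)).index_mul_card
    rw [hcard] at e1
    have hpos : 0 < Nat.card (commutator (R : Subgroup G)) := Nat.card_pos
    refine Nat.le_of_mul_le_mul_right ?_ hpos
    rw [e2, ← e1, mul_comm (p ^ 2)]
    exact Nat.mul_le_mul_right _ h1
  intro h2
  rcases hPbig.lt_or_eq with hlt | heq
  swap
  · refine ⟨1, ⟨0, by simp⟩, ?_⟩
    rw [show centralizer ({(1 : G)} : Set G) = ⊤ from eq_top_iff.2 fun g _ => mem_centralizer_singleton_iff.2 (by simp), card_top]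
    have := P.card_eq_multiplicity
    rw [← heq] at this
    exact (Nat.pow_right_injective hp.two_le this).symm
  set P' := ⁅(P : Subgroup G), (P : Subgroup G)⁆ with hP'def
  have hnc : ∀ M : Subgroup G, M.Normal → M ≤ P' → M = ⊥ := fun M hMn hMP => by
    haveI := hMn
    exact le_bot_iff.1 (hcore' ▸ normal_le_normalCore.2 hMP)
  have hpc : ∀ M : Subgroup G, M.Normal → ¬ p ∣ Nat.card M → M = ⊥ := fun M hMn hMp =>
    le_bot_iff.1 (hcore ▸ CfsgLib.PCore.le_pPrimeCore_of_not_dvd hMn hMp)
  -- Tate: minimal normal subgroups leave the derived subgroup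
  have hout : ∀ M : Subgroup G, M.Normal → M ≠ ⊥ →
      (∀ L : Subgroup G, L.Normal → L ≤ M → L = ⊥ ∨ L = M) → ¬ M ⊓ (P : Subgroup G) ≤ P' := by
    intro M hMn hM0 hMmin hle
    haveI := hMn
    obtain ⟨S, L, hLn, hLc⟩ := CfsgLib.Transfer.tate P M (hle.trans (by
      rw [hP'def, ← map_subtype_commutator]
      exact map_mono (CfsgLib.CoprimeAction.commutator_le_frattini' P.isPGroup')))
    have hL : L = ⊥ := by
      have h1 : L ≤ Cfsg.pPrimeCore p M :=
        CfsgLib.PCore.le_pPrimeCore_of_not_dvd hLn (CfsgLib.Transfer.not_dvd_card_of_isComplement' hLc)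
      have h2 := CfsgLib.PCore.map_pPrimeCore_normal (p := p) M
      rw [hcore, bot_inf_eq, Subgroup.map_eq_bot_iff_of_injective _ M.subtype_injective] at h2
      exact le_bot_iff.1 (h2 ▸ h1)
    have hS : (S : Subgroup M) = ⊤ := by
      rw [hL] at hLc
      exact isComplement'_bot_left.1 hLc
    have hMp : IsPGroup p M := by
      have := S.isPGroup'
      rw [hS] at this
      exact this.of_equiv topEquiv
    obtain ⟨R, hR⟩ := hMp.exists_le_sylow
    obtain ⟨g, hg⟩ := MulAction.exists_smul_eq G R P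
    have hMP : M ≤ (P : Subgroup G) := by
      intro m hm
      rw [← hg, Sylow.coe_subgroup_smul, mem_pointwise_smul_iff_inv_smul_mem]
      exact hR (by simpa [MulAut.conj_inv_apply] using hMn.conj_mem m hm g⁻¹)
    exact hM0 (hnc M hMn fun m hm => hle ⟨hm, hMP hm⟩)
  haveI : Nontrivial G := by
    by_contra hns
    rw [not_nontrivial_iff_subsingleton] at hns
    have h1 : Nat.card (P : Subgroup G) ≤ 1 := Finite.card_le_one_iff_subsingleton.2 inferInstance
    have h4 : 1 < p ^ 2 := Nat.one_lt_pow two_ne_zero hp.one_lt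
    omega
  obtain ⟨N, ⟨hN, hN0⟩, hNmin'⟩ := Set.Finite.exists_minimal (s := {M : Subgroup G | M.Normal ∧ M ≠ ⊥}) (Set.toFinite _)
    ⟨⊤, inferInstance, top_ne_bot⟩
  haveI := hN
  have hmin : ∀ L : Subgroup G, L.Normal → L ≤ N → L = ⊥ ∨ L = N := fun L hL hLN =>
    or_iff_not_imp_left.2 fun h0 => le_antisymm hLN (hNmin' ⟨hL, h0⟩ hLN)
  have hNout := hout N hN hN0 hmin
  set A : Subgroup (P : Subgroup G) := N.subgroupOf (P : Subgroup G) with hAdef
  haveI hAn : A.Normal := hN.subgroupOf _
  have hAout : ¬ A ≤ commutator (P : Subgroup G) := fun h => hNout fun g hg => by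
    rw [hP'def, ← map_subtype_commutator]
    exact ⟨⟨g, hg.2⟩, h hg.1, rfl⟩
  have hAidx : A.index ≤ p := by
    obtain ⟨k, hk⟩ := P.isPGroup'.index A
    by_contra hlt
    refine hAout (le_commutator_of_sq_le P.isPGroup' h2 A ?_)
    rw [hk] at hlt ⊢
    refine Nat.pow_le_pow_right hp.pos ?_
    by_contra hk2
    exact hlt ((Nat.pow_le_pow_right hp.pos (show k ≤ 1 by omega)).trans (pow_one p).le)
  suffices hab : ∀ a b : G, a ∈ N → a ∈ (P : Subgroup G) → b ∈ N → b ∈ (P : Subgroup G) → a * b = b * a by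
    have hidx : A.index = p := by
      obtain ⟨k, hk⟩ := P.isPGroup'.index A
      rw [hk] at hAidx ⊢
      rcases Nat.eq_zero_or_pos k with rfl | hk0
      · exfalso
        have hA : A = ⊤ := Subgroup.index_eq_one.1 (by rw [hk, pow_zero])
        have hbot : commutator (P : Subgroup G) = ⊥ := by
          rw [eq_bot_iff, _root_.commutator_def, commutator_le]
          intro a _ b _
          have ha : a ∈ A := hA ▸ mem_top a
          have hb : b ∈ A := hA ▸ mem_top b
          exact mem_bot.2 (commutatorElement_eq_one_iff_mul_comm.2 (Subtype.ext (hab _ _ ha a.2 hb b.2)))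
        rw [hbot, index_bot] at h2
        omega
      · have : k ≤ 1 := (Nat.pow_le_pow_iff_right hp.one_lt).1 (hAidx.trans (pow_one p).ge)
        rw [show k = 1 by omega, pow_one]
    obtain ⟨y, hy⟩ : ∃ y : (P : Subgroup G), y ∉ A := by
      by_contra h
      push Not at h
      exact hp.ne_one (hidx ▸ Subgroup.index_eq_one.2 (eq_top_iff.2 fun z _ => h z))
    have hyp : ∃ k : ℕ, orderOf (y : G) = p ^ k := by
      obtain ⟨k, hk⟩ := IsPGroup.iff_orderOf.1 P.isPGroup' y
      exact ⟨k, by rw [Subgroup.orderOf_coe, hk]⟩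
    obtain ⟨R, hyR, hcard⟩ := exists_sylow_card (y : G) hyp
    obtain ⟨g, hg⟩ := MulAction.exists_smul_eq G R P
    refine ⟨y, hyp, ?_⟩
    let e : (R : Subgroup G) ≃* (P : Subgroup G) :=
      (equivSMul (MulAut.conj g) (R : Subgroup G)).trans (MulEquiv.subgroupCongr (by rw [← hg, Sylow.coe_subgroup_smul]))
    have he : ∀ r, ((e r : (P : Subgroup G)) : G) = g * r * g⁻¹ := fun r => rfl
    have hey : e ⟨y, hyR⟩ ∉ A := fun h => by
      have h' : g * (y : G) * g⁻¹ ∈ N := h
      exact hy (show (y : G) ∈ N by simpa [mul_assoc] using hN.conj_mem _ h' g⁻¹)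
    have hc := card_centralizer_of_abelian_index P.isPGroup' h2 A
      (fun a ha b hb => Subtype.ext (hab _ _ ha a.2 hb b.2)) hidx hey
    have hec : Nat.card (centralizer ({(⟨y, hyR⟩ : (R : Subgroup G))} : Set (R : Subgroup G))) =
        Nat.card (centralizer ({e ⟨y, hyR⟩} : Set (P : Subgroup G))) :=
      Nat.card_congr (e.toEquiv.subtypeEquiv fun r => by
        simp only [mem_centralizer_singleton_iff, MulEquiv.toEquiv_eq_coe, EquivLike.coe_coe]
        rw [← map_mul, ← map_mul, e.injective.eq_iff])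
    rw [hec, hc] at hcard
    exact (Nat.pow_right_injective hp.two_le hcard).symm
  -- no two normal pieces
  have hfalse : ∀ B₁ B₂ : Subgroup G, B₁ ⊓ B₂ = ⊥ → (P : Subgroup G) ≤ normalizer (B₁ : Set G) →
      (P : Subgroup G) ≤ normalizer (B₂ : Set G) → B₁.subgroupOf (P : Subgroup G) ≠ ⊥ → B₂.subgroupOf (P : Subgroup G) ≠ ⊥ →
      ¬ B₁.subgroupOf (P : Subgroup G) ⊔ B₂.subgroupOf (P : Subgroup G) ≤ commutator (P : Subgroup G) → False := by
    intro B₁ B₂ hd hn1 hn2 h10 h20 hnot
    haveI : (B₁.subgroupOf (P : Subgroup G)).Normal := normal_subgroupOf_of_le_normalizer hn1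
    haveI : (B₂.subgroupOf (P : Subgroup G)).Normal := normal_subgroupOf_of_le_normalizer hn2
    refine false_of_disjoint P.isPGroup' h2 hlt _ _ ?_ h10 h20 hnot
    rw [eq_bot_iff]
    intro z hz
    exact mem_bot.2 (Subtype.ext (mem_bot.1 (hd ▸ (⟨hz.1, hz.2⟩ : (z : G) ∈ B₁ ⊓ B₂))))
  have hnr : ∀ (M : Subgroup G) [M.Normal], (P : Subgroup G) ≤ normalizer (M : Set G) := fun M _ =>
    le_top.trans M.normalizer_eq_top.ge
  obtain ⟨m, K, hm, hKN, hNK, hKs, -, hKcomm, hKind, hKsup⟩ := CfsgLib.MinNormal.exists_factors N hN0 hmin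
  by_cases hNab : ∀ a ∈ N, ∀ b ∈ N, a * b = b * a
  · exact fun a b ha _ hb _ => hNab a ha b hb
  -- the centre of `N` is trivial
  have hZ : ∀ z ∈ N, (∀ n ∈ N, n * z = z * n) → z = 1 := by
    haveI : (N ⊓ centralizer (N : Set G)).Normal := inferInstance
    intro z hz hzc
    rcases hmin _ this inf_le_left with h | h
    · exact mem_bot.1 (h ▸ ⟨hz, mem_centralizer_iff.2 hzc⟩)
    · exact absurd (fun a ha b hb => mem_centralizer_iff.1 (h.ge hb).2 a ha) hNab
  have hNnot : ∀ i, K i ≠ N := by
    intro i hi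
    haveI := hKs i
    have hS : IsSimpleGroup N := hi ▸ hKs i
    have hna : ¬ IsMulCommutative N := fun h => hNab fun a ha b hb => congrArg Subtype.val (h.is_comm.comm ⟨a, ha⟩ ⟨b, hb⟩)
    have hcne : centralizer (N : Set G) ≠ ⊥ := fun h => hnas ⟨N, hN, hS, hna, h⟩
    obtain ⟨N₂, ⟨hN₂, hN₂0, hN₂c⟩, hN₂min⟩ := Set.Finite.exists_minimal
      (s := {M : Subgroup G | M.Normal ∧ M ≠ ⊥ ∧ M ≤ centralizer (N : Set G)}) (Set.toFinite _)
      ⟨_, inferInstance, hcne, le_rfl⟩
    have hmin₂ : ∀ L : Subgroup G, L.Normal → L ≤ N₂ → L = ⊥ ∨ L = N₂ := fun L hL hLN =>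
      or_iff_not_imp_left.2 fun h0 => le_antisymm hLN (hN₂min ⟨hL, h0, hLN.trans hN₂c⟩ hLN)
    haveI := hN₂
    have hd : N ⊓ N₂ = ⊥ := eq_bot_iff.2 fun z hz => mem_bot.2 (hZ z hz.1 fun n hn => mem_centralizer_iff.1 (hN₂c hz.2) n hn)
    have hne2 : N₂.subgroupOf (P : Subgroup G) ≠ ⊥ := fun h => hout N₂ hN₂ hN₂0 hmin₂ fun g hg => by
      have := mem_bot.1 (h ▸ (show (⟨g, hg.2⟩ : (P : Subgroup G)) ∈ N₂.subgroupOf (P : Subgroup G) from hg.1))
      rw [show g = 1 from congrArg Subtype.val this]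
      exact one_mem _
    exact hfalse N N₂ hd (hnr N) (hnr N₂) (fun h => hAout (by rw [hAdef, h]; exact bot_le)) hne2
      fun h => hAout (le_sup_left.trans h)
  suffices hK : ∀ i, ∀ a b : G, a ∈ N → a ∈ (P : Subgroup G) → b ∈ N → b ∈ (P : Subgroup G) →
      ⁅a, b⁆ ∈ centralizer (K i : Set G) by
    intro a b ha ha' hb hb'
    refine commutatorElement_eq_one_iff_mul_comm.1 (hZ _ ?_ fun n hn => ?_)
    · rw [commutatorElement_def]; exact mul_mem (mul_mem (mul_mem ha hb) (inv_mem ha)) (inv_mem hb)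
    · have : N ≤ centralizer ({⁅a, b⁆} : Set G) := by
        rw [← hKsup]
        exact iSup_le fun i k hk => mem_centralizer_singleton_iff.2 (mem_centralizer_iff.1 (hK i a b ha ha' hb hb') k hk)
      exact mem_centralizer_singleton_iff.1 (this hn)
  intro i
  set C := N ⊓ centralizer (K i : Set G) with hCdef
  have hNC : N ≤ normalizer (C : Set G) := CfsgLib.MinNormal.le_normalizer_inf Subgroup.le_normalizer
    ((hNK i).trans normalizer_le_normalizer_centralizer')
  have hdKC : K i ⊓ C = ⊥ := eq_bot_iff.2 fun z hz => mem_bot.2 (hZ z (hKN i hz.1) fun n hn => by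
    have : N ≤ centralizer ({z} : Set G) := by
      rw [← hKsup]
      refine iSup_le fun j k hk => mem_centralizer_singleton_iff.2 ?_
      rcases eq_or_ne j i with rfl | hji
      · exact mem_centralizer_iff.1 hz.2.2 k hk
      · exact hKcomm hji k z hk hz.1
    exact mem_centralizer_singleton_iff.1 (this hn))
  have htopKC : N ≤ K i ⊔ C := by
    conv_lhs => rw [← hKsup]
    refine iSup_le fun j => ?_
    rcases eq_or_ne j i with rfl | hji
    · exact le_sup_left
    · exact le_sup_of_le_right (le_inf (hKN j) fun k hk => mem_centralizer_iff.2 fun k' hk' => (hKcomm hji.symm k' k hk' hk).eq)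
  have hC0 : C ≠ ⊥ := fun h => hNnot i (le_antisymm (hKN i) (htopKC.trans (by rw [h, sup_bot_eq])))
  have hK0 : K i ≠ ⊥ := fun h => by
    haveI := hKs i
    exact not_subsingleton (K i) (by rw [h]; infer_instance)
  -- inside `N`
  haveI : ((K i).subgroupOf N).Normal := normal_subgroupOf_of_le_normalizer (hNK i)
  haveI : (C.subgroupOf N).Normal := normal_subgroupOf_of_le_normalizer hNC
  obtain ⟨T, hT⟩ := CfsgLib.PReduced.exists_sylow_inf P N
  have hdiv : ∀ L : Subgroup G, L ≤ N → N ≤ normalizer (L : Set G) → L ≠ ⊥ → ∃ z : G, z ∈ L ∧ z ∈ (P : Subgroup G) ∧ z ≠ 1 := by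
    intro L hLN hLn hL0
    haveI : (L.subgroupOf N).Normal := normal_subgroupOf_of_le_normalizer hLn
    obtain ⟨Q, hQ⟩ := CfsgLib.PReduced.exists_sylow_inf T (L.subgroupOf N)
    by_contra hno
    push Not at hno
    refine hL0 ?_
    have hQ1 : (Q : Subgroup (L.subgroupOf N)) = ⊥ := by
      rw [hQ, eq_bot_iff]
      intro z hz
      have hz1 : ((z : N) : G) ∈ (P : Subgroup G) := by
        have := hz.1
        rw [Subgroup.coe_subtype, hT] at this
        exact this.1
      exact mem_bot.2 (Subtype.ext (Subtype.ext (hno _ z.2 hz1)))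
    have hnd : ¬ p ∣ Nat.card (L.subgroupOf N) := fun h => by
      have := Q.dvd_card_of_dvd_card h
      rw [hQ1, card_bot] at this
      exact hp.not_dvd_one this
    have h1 : L.subgroupOf N ≤ Cfsg.pPrimeCore p N := CfsgLib.PCore.le_pPrimeCore_of_not_dvd inferInstance hnd
    have h2 := CfsgLib.PCore.map_pPrimeCore_normal (p := p) N
    rw [hcore, bot_inf_eq, Subgroup.map_eq_bot_iff_of_injective _ N.subtype_injective] at h2
    rw [h2, le_bot_iff, subgroupOf_eq_bot] at h1
    exact le_bot_iff.1 (h1.le_bot.trans' (le_inf le_rfl hLN))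
  have hsplit : ∀ a : G, a ∈ N → a ∈ (P : Subgroup G) → ∃ k, k ∈ (P : Subgroup G) ∧ k ∈ K i ∧ ∃ c, c ∈ (P : Subgroup G) ∧ c ∈ C ∧ a = k * c := by
    intro a ha ha'
    have hdN : (K i).subgroupOf N ⊓ C.subgroupOf N = ⊥ := by
      rw [eq_bot_iff]; exact fun z hz => mem_bot.2 (Subtype.ext (mem_bot.1 (hdKC ▸ (⟨hz.1, hz.2⟩ : (z : G) ∈ K i ⊓ C))))
    have htN : (K i).subgroupOf N ⊔ C.subgroupOf N = ⊤ := by
      rw [← subgroupOf_sup (hKN i) inf_le_left, subgroupOf_eq_top]
      exact htopKC
    obtain ⟨k, hkT, hkK, c, hcT, hcC, he⟩ := sylow_factor T _ _ hdN htN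
      (t := ⟨a, ha⟩) (by rw [hT]; exact ⟨ha', ha⟩)
    rw [hT] at hkT hcT
    exact ⟨k, hkT.1, hkK, c, hcT.1, hcC, congrArg Subtype.val he⟩
  have hnotnorm : ¬ (P : Subgroup G) ≤ normalizer (K i : Set G) := by
    intro hPK
    have hPC : (P : Subgroup G) ≤ normalizer (C : Set G) := CfsgLib.MinNormal.le_normalizer_inf (hnr N)
      (hPK.trans normalizer_le_normalizer_centralizer')
    refine hfalse (K i) C hdKC hPK hPC ?_ ?_ fun h => hAout fun z hz => h ?_
    · intro h
      obtain ⟨z, hz1, hz2, hz0⟩ := hdiv (K i) (hKN i) (hNK i) hK0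
      have h3 : (⟨z, hz2⟩ : (P : Subgroup G)) ∈ (⊥ : Subgroup (P : Subgroup G)) :=
        h ▸ (show (⟨z, hz2⟩ : (P : Subgroup G)) ∈ (K i).subgroupOf (P : Subgroup G) from hz1)
      exact hz0 (congrArg Subtype.val (mem_bot.1 h3))
    · intro h
      obtain ⟨z, hz1, hz2, hz0⟩ := hdiv C inf_le_left hNC hC0
      have h3 : (⟨z, hz2⟩ : (P : Subgroup G)) ∈ (⊥ : Subgroup (P : Subgroup G)) :=
        h ▸ (show (⟨z, hz2⟩ : (P : Subgroup G)) ∈ C.subgroupOf (P : Subgroup G) from hz1)
      exact hz0 (congrArg Subtype.val (mem_bot.1 h3))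
    · obtain ⟨k, hk1, hk2, c, hc1, hc2, he⟩ := hsplit _ hz z.2
      rw [show z = (⟨k, hk1⟩ : (P : Subgroup G)) * ⟨c, hc1⟩ from Subtype.ext he]
      exact mul_mem (mem_sup_left hk2) (mem_sup_right hc2)
  -- `P` permutes the conjugates of `K i` cyclically
  have hAK : ∀ z : (P : Subgroup G), z ∈ A → (z : G) ∈ normalizer (K i : Set G) := fun z hz => hNK i hz
  have hidx : A.index = p := by
    obtain ⟨k, hk⟩ := P.isPGroup'.index A
    rcases Nat.eq_zero_or_pos k with rfl | hk0
    · exfalso
      refine hnotnorm fun z hz => hAK ⟨z, hz⟩ ?_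
      rw [Subgroup.index_eq_one.1 (by rw [hk, pow_zero] : A.index = 1)]
      exact mem_top _
    · rw [hk] at hAidx ⊢
      have : k ≤ 1 := (Nat.pow_le_pow_iff_right hp.one_lt).1 (hAidx.trans (pow_one p).ge)
      rw [show k = 1 by omega, pow_one]
  obtain ⟨y, hy⟩ : ∃ y : (P : Subgroup G), y ∉ A := by
    by_contra h
    push Not at h
    exact hp.ne_one (hidx ▸ Subgroup.index_eq_one.2 (eq_top_iff.2 fun z _ => h z))
  have hcard : Nat.card ((P : Subgroup G) ⧸ A) = p := by rw [← Subgroup.index_eq_card, hidx]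
  have hyo : orderOf ((y : (P : Subgroup G) ⧸ A)) = p :=
    orderOf_eq_prime (by have := pow_card_eq_one' (x := (y : (P : Subgroup G) ⧸ A)); rwa [hcard] at this) fun h => hy ((QuotientGroup.eq_one_iff y).1 h)
  have hpow : ∀ j : ℕ, y ^ j ∈ A ↔ p ∣ j := fun j => by
    rw [← QuotientGroup.eq_one_iff, QuotientGroup.mk_pow, ← orderOf_dvd_iff_pow_eq_one, hyo]
  have htop : A ⊔ zpowers y = ⊤ := by
    have hd := index_dvd_of_le (le_sup_left : A ≤ A ⊔ zpowers y)
    rw [hidx] at hd
    refine Subgroup.index_eq_one.1 ((hp.eq_one_or_self_of_dvd _ hd).resolve_right fun he => hy ?_)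
    have hmul := relIndex_mul_index (le_sup_left : A ≤ A ⊔ zpowers y)
    rw [he, hidx] at hmul
    exact relIndex_eq_one.1 (Nat.eq_of_mul_eq_mul_right hp.pos (hmul.trans (one_mul p).symm))
      (mem_sup_right (mem_zpowers y))
  have hmove : ∀ j : ℕ, ¬ p ∣ j → ∀ k ∈ K i, (y : G) ^ j * k * ((y : G) ^ j)⁻¹ ∈ C := by
    intro j hj k hk
    set L := (K i).map (MulAut.conj ((y : G) ^ j)).toMonoidHom with hL
    have hLN : L ≤ N := by
      rintro _ ⟨x, hx, rfl⟩
      exact hN.conj_mem x (hKN i hx) _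
    have hLn : N ≤ normalizer (L : Set G) := CfsgLib.MinNormal.le_normalizer_of_conj fun n hn x hx => by
      obtain ⟨x, hx, rfl⟩ := hx
      set q := (y : G) ^ j
      refine ⟨(q⁻¹ * n * q) * x * (q⁻¹ * n * q)⁻¹, ?_, by simp only [MulEquiv.coe_toMonoidHom, MulAut.conj_apply, q]; group⟩
      exact (mem_normalizer_iff.1 (hNK i (by simpa using hN.conj_mem n hn q⁻¹)) x).1 hx
    have hd : L ⊓ K i = ⊥ := by
      haveI := hKs i
      haveI : ((L ⊓ K i).subgroupOf (K i)).Normal :=
        normal_subgroupOf_of_le_normalizer ((hKN i).trans (CfsgLib.MinNormal.le_normalizer_inf hLn (hNK i)))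
      rcases IsSimpleGroup.eq_bot_or_eq_top_of_normal _ this with h | h
      · rw [subgroupOf_eq_bot] at h
        exact eq_bot_iff.2 fun z hz => h.le_bot ⟨hz, hz.2⟩
      · exfalso
        rw [subgroupOf_eq_top, le_inf_iff] at h
        have heq : K i = L := eq_of_le_of_card_ge h.1 (by
          rw [hL, card_map_of_injective (f := (MulAut.conj ((y : G) ^ j)).toMonoidHom) (MulAut.conj _).injective])
        -- then `P` normalizes `K i`
        set S : Subgroup (P : Subgroup G) := (normalizer (K i : Set G)).subgroupOf (P : Subgroup G)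
        have hyS : y ^ j ∈ S := by
          refine mem_subgroupOf.2 ?_
          rw [SubgroupClass.coe_pow, mem_normalizer_iff]
          intro x
          conv_rhs => rw [heq]
          exact ⟨fun hx => ⟨x, hx, rfl⟩, fun ⟨x', hx', he⟩ => (MulAut.conj ((y : G) ^ j)).injective he ▸ hx'⟩
        have hS : S = ⊤ := by
          have hAS : A ≤ S := hAK
          have hd := index_dvd_of_le hAS
          rw [hidx] at hd
          refine Subgroup.index_eq_one.1 ((hp.eq_one_or_self_of_dvd _ hd).resolve_right fun he => hj ?_)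
          have hmul := relIndex_mul_index hAS
          rw [he, hidx] at hmul
          exact (hpow j).1 (relIndex_eq_one.1 (Nat.eq_of_mul_eq_mul_right hp.pos (hmul.trans (one_mul p).symm)) hyS)
        exact hnotnorm fun z hz => (hS.ge (mem_top (⟨z, hz⟩ : (P : Subgroup G))) : _)
    refine ⟨hLN ⟨k, hk, rfl⟩, mem_centralizer_iff.2 fun x hx => ?_⟩
    have hl : (y : G) ^ j * k * ((y : G) ^ j)⁻¹ ∈ L := ⟨k, hk, rfl⟩
    exact (CfsgLib.MinNormal.commute_of_disjoint (hLN.trans (hNK i)) ((hKN i).trans hLn) (by rwa [inf_comm] at hd) hx hl).eq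
  -- the transfer onto the piece in `K i`
  set CA : Subgroup A := (C.subgroupOf (P : Subgroup G)).subgroupOf A
  haveI : CA.Normal := by
    refine ⟨fun c hc a => ?_⟩
    exact (mem_normalizer_iff.1 (hNC (show ((a : (P : Subgroup G)) : G) ∈ N from a.2)) _).1 hc
  let π : A →* Abelianization (A ⧸ CA) := Abelianization.of.comp (QuotientGroup.mk' CA)
  let σ : ℕ → (A →* A) := fun j => (MulAut.conjNormal (y ^ j)).toMonoidHom
  let Φ : A →* Abelianization (A ⧸ CA) := ∏ j ∈ Finset.range p, π.comp (σ j)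
  have hσ : ∀ j (a : A), ((σ j a : (P : Subgroup G)) : G) = (y : G) ^ j * ((a : (P : Subgroup G)) : G) * ((y : G) ^ j)⁻¹ :=
    fun j a => by
      simp only [σ, MulEquiv.coe_toMonoidHom, MulAut.conjNormal_apply, Subgroup.coe_mul, InvMemClass.coe_inv, SubgroupClass.coe_pow]
  have hπσ : ∀ j (a : A), p ∣ j → π (σ j a) = π a := fun j a hj => by
    have hmem : y ^ j ∈ A := (hpow j).2 hj
    have : σ j a = ⟨y ^ j, hmem⟩ * a * ⟨y ^ j, hmem⟩⁻¹ := Subtype.ext (by simp only [σ, MulEquiv.coe_toMonoidHom, MulAut.conjNormal_apply, Subgroup.coe_mul, InvMemClass.coe_inv])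
    rw [this, map_mul, map_mul, map_inv, mul_comm (π _) (π a), mul_inv_cancel_right]
  have hΦapply : ∀ a, Φ a = ∏ j ∈ Finset.range p, π (σ j a) := fun a => by
    simp [Φ, MonoidHom.finsetProd_apply]
  have hΦσ : ∀ a, Φ (σ 1 a) = Φ a := fun a => by
    rw [hΦapply, hΦapply]
    have hcomp : ∀ j, σ j (σ 1 a) = σ (j + 1) a := fun j => Subtype.ext (Subtype.ext (by
      rw [hσ, hσ, hσ, pow_one, pow_succ]; group))
    simp only [hcomp]
    have gen : ∀ (n : ℕ) (F : ℕ → Abelianization (A ⧸ CA)), F n = F 0 →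
        ∏ j ∈ Finset.range n, F (j + 1) = ∏ j ∈ Finset.range n, F j := by
      intro n F h
      cases n with
      | zero => rfl
      | succ q => rw [Finset.prod_range_succ (fun j => F (j + 1)) q, Finset.prod_range_succ' F q, h]
    exact gen p (fun j => π (σ j a)) ((hπσ p a dvd_rfl).trans (hπσ 0 a (dvd_zero p)).symm)
  haveI hker : (Φ.ker.map A.subtype).Normal := by
    refine normalizer_eq_top_iff.1 (top_le_iff.1 ?_)
    rw [← htop, sup_le_iff, zpowers_le]
    constructor
    · refine CfsgLib.MinNormal.le_normalizer_of_conj fun a ha x hx => ?_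
      obtain ⟨x, hx, rfl⟩ := hx
      exact ⟨⟨a, ha⟩ * x * ⟨a, ha⟩⁻¹, MonoidHom.normal_ker Φ |>.conj_mem x hx _, rfl⟩
    · rw [mem_normalizer_iff]
      have hσy : ∀ a : A, ((σ 1 a : A) : (P : Subgroup G)) = y * a * y⁻¹ := fun a => by simp [σ, MulAut.conjNormal_apply]
      refine fun x => ⟨fun ⟨a, ha, he⟩ => ⟨σ 1 a, ?_, by rw [← he]; exact hσy a⟩, fun ⟨a, ha, he⟩ => ?_⟩
      · show Φ (σ 1 a) = 1
        rw [hΦσ]; exact ha
      · have hxA : x ∈ A := by
          have he' : (a : (P : Subgroup G)) = y * x * y⁻¹ := he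
          rw [show x = y⁻¹ * (y * x * y⁻¹) * y⁻¹⁻¹ by group, ← he']
          exact hAn.conj_mem _ a.2 _
        refine ⟨⟨x, hxA⟩, ?_, rfl⟩
        have ea : σ 1 ⟨x, hxA⟩ = a := Subtype.ext ((hσy _).trans he.symm)
        show Φ _ = 1
        rw [← hΦσ, ea]; exact ha
  have hsurj : Function.Surjective Φ := by
    intro q
    obtain ⟨q', rfl⟩ := QuotientGroup.mk_surjective q
    obtain ⟨a, rfl⟩ := QuotientGroup.mk_surjective q'
    obtain ⟨k, hkP, hkK, c, hcP, hcC, he⟩ := hsplit _ a.2 a.1.2
    let k' : A := ⟨⟨k, hkP⟩, hKN i hkK⟩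
    refine ⟨k', ?_⟩
    rw [hΦapply, Finset.prod_eq_single_of_mem 0 (Finset.mem_range.2 hp.pos) fun j hj hj0 => ?_]
    · rw [hπσ 0 k' (dvd_zero p)]
      refine congrArg Abelianization.of (QuotientGroup.eq.2 ?_)
      show k⁻¹ * ((a : (P : Subgroup G)) : G) ∈ C
      rw [show ((a : (P : Subgroup G)) : G) = k * c from he, inv_mul_cancel_left]
      exact hcC
    · have h1 : ((QuotientGroup.mk' CA) (σ j k')) = 1 := (QuotientGroup.eq_one_iff _).2 (by
        show ((σ j k' : (P : Subgroup G)) : G) ∈ C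
        rw [hσ]
        exact hmove j (fun h => hj0 (Nat.eq_zero_of_dvd_of_lt h (Finset.mem_range.1 hj))) k hkK)
      show Abelianization.of _ = 1
      rw [h1, map_one]
  have hsmall : (commutator (A ⧸ CA)).index ≤ p := by
    rw [Subgroup.index_eq_card]
    have h1 : Nat.card (Abelianization (A ⧸ CA)) = Φ.ker.index := by
      rw [index_ker, MonoidHom.range_eq_top.2 hsurj, card_top]
    refine le_trans (le_of_eq h1) ?_
    -- the quotient of `P` by the kernel is commutative
    set Kr := Φ.ker.map A.subtype with hKr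
    haveI hKrn : Kr.Normal := hker
    have hKA : Kr ≤ A := map_subtype_le _
    have hcomm : commutator (P : Subgroup G) ≤ Kr := by
      rw [_root_.commutator_def, commutator_le]
      have hgen : ∀ z : (P : Subgroup G), ∀ a ∈ A, ⁅z, a⁆ ∈ Kr → ⁅a, z⁆ ∈ Kr := fun z a _ h => by
        rw [← commutatorElement_inv]; exact inv_mem h
      have hAA : ∀ a ∈ A, ∀ b ∈ A, ⁅a, b⁆ ∈ Kr := fun a ha b hb =>
        ⟨⁅(⟨a, ha⟩ : A), ⟨b, hb⟩⁆, by
          show Φ _ = 1
          rw [map_commutatorElement, commutatorElement_eq_one_iff_mul_comm]; exact mul_comm _ _,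
          map_commutatorElement A.subtype _ _⟩
      have hyA : ∀ a ∈ A, ⁅y, a⁆ ∈ Kr := fun a ha =>
        ⟨σ 1 ⟨a, ha⟩ * (⟨a, ha⟩ : A)⁻¹, by
          show Φ _ = 1
          rw [map_mul, hΦσ, ← map_mul, mul_inv_cancel, map_one],
          by simp [σ, MulAut.conjNormal_apply, commutatorElement_def]⟩
      have hA' : ∀ a ∈ A, ((a : (P : Subgroup G)) : (P : Subgroup G) ⧸ Kr) ∈ centralizer (Set.univ : Set ((P : Subgroup G) ⧸ Kr)) := by
        intro a ha
        have hle : A ⊔ zpowers y ≤ (centralizer ({((a : (P : Subgroup G)) : (P : Subgroup G) ⧸ Kr)} : Set _)).comap (QuotientGroup.mk' Kr) := by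
          refine sup_le (fun b hb => ?_) (zpowers_le.2 ?_) <;>
            rw [mem_comap, mem_centralizer_singleton_iff, QuotientGroup.mk'_apply, ← commutatorElement_eq_one_iff_mul_comm]
          · rw [← QuotientGroup.mk'_apply, ← QuotientGroup.mk'_apply, ← map_commutatorElement, QuotientGroup.mk'_apply,
              QuotientGroup.eq_one_iff]
            exact hAA b hb a ha
          · rw [← QuotientGroup.mk'_apply, ← QuotientGroup.mk'_apply, ← map_commutatorElement, QuotientGroup.mk'_apply,
              QuotientGroup.eq_one_iff]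
            exact hyA a ha
        rw [mem_centralizer_iff]
        intro q _
        obtain ⟨r, rfl⟩ := QuotientGroup.mk_surjective q
        have hr : r ∈ A ⊔ zpowers y := htop ▸ mem_top r
        exact mem_centralizer_singleton_iff.1 (hle hr)
      intro u _ v _
      rw [← QuotientGroup.eq_one_iff, ← QuotientGroup.mk'_apply, map_commutatorElement, commutatorElement_eq_one_iff_mul_comm]
      set Z := center ((P : Subgroup G) ⧸ Kr)
      haveI : IsCyclic (((P : Subgroup G) ⧸ Kr) ⧸ Z) := by
        let g : (P : Subgroup G) ⧸ A →* ((P : Subgroup G) ⧸ Kr) ⧸ Z :=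
          QuotientGroup.lift A ((QuotientGroup.mk' Z).comp (QuotientGroup.mk' Kr)) fun a ha =>
            (QuotientGroup.eq_one_iff _).2 (mem_center_iff.2 fun q => mem_centralizer_iff.1 (hA' a ha) q trivial)
        haveI := isCyclic_of_prime_card (p := p) hcard
        refine isCyclic_of_surjective g fun q => ?_
        obtain ⟨q, rfl⟩ := QuotientGroup.mk_surjective q
        obtain ⟨r, rfl⟩ := QuotientGroup.mk_surjective q
        exact ⟨r, rfl⟩
      exact commutative_of_cyclic_center_quotient (QuotientGroup.mk' Z) (QuotientGroup.ker_mk' Z).le _ _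
    have hdvd := index_dvd_of_le hcomm
    rw [h2, hKr, index_map, A.subtype.ker_eq_bot A.subtype_injective, sup_bot_eq, range_subtype, hidx] at hdvd
    refine Nat.le_of_mul_le_mul_right ?_ hp.pos
    rw [← pow_two]
    exact Nat.le_of_dvd (pow_pos hp.pos 2) hdvd
  intro a b ha ha' hb hb'
  let a' : A := ⟨⟨a, ha'⟩, ha⟩
  let b' : A := ⟨⟨b, hb'⟩, hb⟩
  have h := commute_of_index_le ((P.isPGroup'.to_subgroup A).to_quotient CA) hsmall (a' : A ⧸ CA) (b' : A ⧸ CA)
  rw [← commutatorElement_eq_one_iff_mul_comm, ← QuotientGroup.mk'_apply, ← QuotientGroup.mk'_apply,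
    ← map_commutatorElement, QuotientGroup.mk'_apply, QuotientGroup.eq_one_iff] at h
  have h' : ⁅a, b⁆ ∈ C := h
  exact h'.2

end Cfsg.Agent.S4587
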