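import Cfsg.Statements.S4591
import Mathlib
import Cfsg.Agent.CharBasics.Extra
import Cfsg.Agent.CharBasics.Knorr
import Cfsg.Agent.CharBasics.ItoConverse
import Cfsg.Agent.Clifford.ExtCriteria
import Cfsg.Agent.Transfer.Tate
import Cfsg.Agent.PGroup.Basic

set_option autoImplicit false
open Cfsg

namespace Cfsg.Agent.S4591

open CfsgLib.CharBasics
open scoped commutatorElement ComplexConjugate

universe uA

/-- Orbit counting modulo `p`. -/
private theorem sum_fixed {P X : Type*} [Group P] [Finite P] [MulAction P X] [Fintype X] {p : ℕ} [Fact p.Prime]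
    (hP : IsPGroup p P) (f : X → ℂ) (hf : ∀ (a : P) (x : X), f (a • x) = f x) (hint : ∀ x, IsIntegral ℤ (f x))
    [DecidablePred fun x : X => ∀ a : P, a • x = x] :
    ∃ z : ℂ, IsIntegral ℤ z ∧
      ∑ x, f x = ∑ x ∈ Finset.univ.filter (fun x : X => ∀ a : P, a • x = x), f x + (p : ℂ) * z := by
  classical
  suffices h : ∀ s : Finset X, (∀ (a : P), ∀ x ∈ s, a • x ∈ s) → (∀ x ∈ s, ¬ ∀ a : P, a • x = x) →
      ∃ z : ℂ, IsIntegral ℤ z ∧ ∑ x ∈ s, f x = (p : ℂ) * z by
    obtain ⟨z, hz, he⟩ := h (Finset.univ.filter (fun x : X => ¬ ∀ a : P, a • x = x))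
      (fun a x hx => by
        simp only [Finset.mem_filter, Finset.mem_univ, true_and] at hx ⊢
        intro hall
        refine hx fun b => ?_
        have h1 : a⁻¹ • a • x = a • x := hall a⁻¹
        rw [inv_smul_smul] at h1
        rw [h1]; exact hall b)
      (fun x hx => (Finset.mem_filter.1 hx).2)
    exact ⟨z, hz, by rw [← he, Finset.sum_filter_add_sum_filter_not]⟩
  intro s
  induction s using Finset.strongInduction with
  | _ s ih =>
    intro hinv hnf
    rcases s.eq_empty_or_nonempty with rfl | ⟨x, hx⟩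
    · exact ⟨0, isIntegral_zero, by simp⟩
    set o := (MulAction.orbit P x).toFinset with ho
    have hos : o ⊆ s := fun y hy => by
      rw [ho, Set.mem_toFinset] at hy
      obtain ⟨a, rfl⟩ := hy
      exact hinv a x hx
    have hxo : x ∈ o := by rw [ho, Set.mem_toFinset]; exact MulAction.mem_orbit_self x
    obtain ⟨z, hz, he⟩ := ih (s \ o) (Finset.sdiff_ssubset hos ⟨x, hxo⟩) (fun a y hy => by
      rw [Finset.mem_sdiff] at hy ⊢
      refine ⟨hinv a y hy.1, fun h => hy.2 ?_⟩
      rw [ho, Set.mem_toFinset] at h ⊢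
      obtain ⟨b, hb⟩ := h
      exact ⟨a⁻¹ * b, by show (a⁻¹ * b) • x = y; rw [mul_smul, show b • x = a • y from hb, inv_smul_smul]⟩)
      (fun y hy => hnf y (Finset.mem_sdiff.1 hy).1)
    obtain ⟨k, hk⟩ := hP.card_orbit x
    have hcard : o.card = p ^ k := by rw [ho, Set.toFinset_card, ← Nat.card_eq_fintype_card, hk]
    have hk0 : k ≠ 0 := by
      rintro rfl
      refine hnf x hx fun a => ?_
      obtain ⟨w, hw⟩ := Finset.card_eq_one.1 (hcard.trans (pow_zero p))
      have h1 : a • x ∈ o := by rw [ho, Set.mem_toFinset]; exact MulAction.mem_orbit x a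
      rw [hw, Finset.mem_singleton] at h1 hxo
      rw [h1, hxo]
    obtain ⟨j, rfl⟩ := Nat.exists_eq_succ_of_ne_zero hk0
    have hconst : ∑ y ∈ o, f y = (o.card : ℂ) * f x := by
      rw [Finset.sum_eq_card_nsmul (fun y hy => ?_), nsmul_eq_mul]
      rw [ho, Set.mem_toFinset] at hy
      obtain ⟨a, rfl⟩ := hy
      exact hf a x
    refine ⟨z + (p : ℂ) ^ j * f x, hz.add ((by exact_mod_cast isIntegral_algebraMap (R := ℤ) (A := ℂ) (x := ((p : ℤ) ^ j)) :
      IsIntegral ℤ ((p : ℂ) ^ j)).mul (hint x)), ?_⟩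
    rw [← Finset.sum_sdiff hos, he, hconst, hcard, Nat.cast_pow, pow_succ]
    ring

private theorem dvd_of_eq' {a b : ℕ} (h : a = b) : a ∣ b := h ▸ dvd_rfl

private theorem dvd_of_eq {p d : ℕ} (hp : p ≠ 0) {z : ℂ} (hz : IsIntegral ℤ z) (h : (d : ℂ) = (p : ℂ) * z) :
    p ∣ d := by
  refine nat_dvd_of_isIntegral d p hp ?_
  rwa [h, mul_div_cancel_left₀ _ (Nat.cast_ne_zero.2 hp)]

variable {G : Type uA} [Group G] [Finite G] {p : ℕ} [Fact p.Prime]

/-- A character of degree prime to `p` has an irreducible constituent of degree prime to `p`. -/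
private theorem exists_constituent_pprime {H : Type*} [Group H] [Fintype H] {φ : H → ℂ}
    (hφ : Cfsg.IsCharacter H φ) (hd : ¬ p ∣ Cfsg.charDegree φ) :
    ∃ χ : Cfsg.IrrCharacter H, ¬ p ∣ Cfsg.charDegree (χ : H → ℂ) ∧ Cfsg.classInner φ (χ : H → ℂ) ≠ 0 := by
  classical
  obtain ⟨r, f, hf, rfl⟩ := exists_decomp hφ
  have hex : ∃ i, ¬ p ∣ Cfsg.charDegree (f i) := by
    by_contra hcon
    push_neg at hcon
    refine hd ?_
    have h1 : Cfsg.charDegree (∑ i, f i) = ∑ i, Cfsg.charDegree (f i) := by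
      have e := apply_one hφ
      rw [Finset.sum_apply, Finset.sum_congr rfl (fun i _ => apply_one (isCharacter_of_irr (hf i))),
        ← Nat.cast_sum] at e
      exact_mod_cast e.symm
    rw [h1]
    exact Finset.dvd_sum fun i _ => hcon i
  obtain ⟨i, hi⟩ := hex
  refine ⟨⟨f i, hf i⟩, hi, ?_⟩
  rw [classInner_sum_left]
  choose m hm using fun j => classInner_character_nat (isCharacter_of_irr (hf j)) ⟨f i, hf i⟩
  rw [Finset.sum_congr rfl (fun j _ => hm j), ← Nat.cast_sum, Nat.cast_ne_zero]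
  refine fun h0 => ?_
  have h1 := (Finset.sum_eq_zero_iff.1 h0) i (Finset.mem_univ i)
  have h2 := hm i
  rw [classInner_self (hf i), h1, Nat.cast_zero] at h2
  exact one_ne_zero h2

/-- A normal subgroup where `P` has no fixed point lies in all kernels of `p'`-degree. -/
private theorem le_kernel (P : Sylow p G) (N : Subgroup G) [N.Normal]
    (hN : N ⊓ Subgroup.centralizer ((P : Subgroup G) : Set G) = ⊥) (χ : Cfsg.IrrCharacter G)
    (hd : ¬ p ∣ Cfsg.charDegree (χ : G → ℂ)) : ∀ n ∈ N, (χ : G → ℂ) n = (χ : G → ℂ) 1 := by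
  classical
  haveI := Fintype.ofFinite G
  haveI := Fintype.ofFinite N
  have hc := isCharacter_of_irr χ.2
  rcases sum_normal_irr N χ with ⟨h, -⟩ | ⟨-, h⟩
  · exact h
  exfalso
  letI : MulAction (P : Subgroup G) N :=
    MulAction.compHom N ((MulAut.conjNormal : G →* MulAut N).comp (P : Subgroup G).subtype)
  obtain ⟨z, hz, he⟩ := sum_fixed P.2 (fun n : N => (χ : G → ℂ) n) (fun a n => by
    show (χ : G → ℂ) ((MulAut.conjNormal (a : G) n : N) : G) = (χ : G → ℂ) n
    rw [MulAut.conjNormal_apply]; exact isClassFunction hc (n : G) (a : G)) (fun n => isIntegral_apply hc _)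
  have hfix : Finset.univ.filter (fun x : N => ∀ a : (P : Subgroup G), a • x = x) = {1} := by
    ext x
    simp only [Finset.mem_filter, Finset.mem_univ, true_and, Finset.mem_singleton]
    refine ⟨fun hx => ?_, fun hx a => by rw [hx]; exact map_one (MulAut.conjNormal (a : G) : MulAut N)⟩
    have : (x : G) ∈ N ⊓ Subgroup.centralizer ((P : Subgroup G) : Set G) := ⟨x.2, Subgroup.mem_centralizer_iff.2
      fun y hy => by
        have h1 : ((MulAut.conjNormal y x : N) : G) = x := congrArg Subtype.val (hx ⟨y, hy⟩)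
        rwa [MulAut.conjNormal_apply, mul_inv_eq_iff_eq_mul] at h1⟩
    rw [hN, Subgroup.mem_bot] at this
    exact Subtype.ext this
  rw [hfix, Finset.sum_singleton, Subgroup.coe_one, apply_one hc] at he
  have h1 := h 1
  simp only [one_mul] at h1
  rw [h1] at he
  exact hd (dvd_of_eq (Fact.out : p.Prime).ne_zero hz.neg (by rw [mul_neg, eq_neg_iff_add_eq_zero]; exact he.symm))

/-- The core of `N P'` lies in all kernels of `p'`-degree. -/
private theorem core_le_kernel (P : Sylow p G) (N M : Subgroup G) [N.Normal] [M.Normal]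
    (hN : N ⊓ Subgroup.centralizer ((P : Subgroup G) : Set G) = ⊥)
    (hM : M ≤ N ⊔ ⁅(P : Subgroup G), (P : Subgroup G)⁆) (χ : Cfsg.IrrCharacter G)
    (hd : ¬ p ∣ Cfsg.charDegree (χ : G → ℂ)) : ∀ n ∈ M, (χ : G → ℂ) n = (χ : G → ℂ) 1 := by
  classical
  haveI := Fintype.ofFinite G
  haveI := Fintype.ofFinite M
  set D : Subgroup G := ⁅(P : Subgroup G), (P : Subgroup G)⁆ with hD
  haveI := Fintype.ofFinite D
  haveI := Fintype.ofFinite (P : Subgroup G)
  have hc := isCharacter_of_irr χ.2
  have hDP : D ≤ (P : Subgroup G) := Subgroup.commutator_le.2 fun x hx y hy =>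
    mul_mem (mul_mem (mul_mem hx hy) (inv_mem hx)) (inv_mem hy)
  rcases sum_normal_irr M χ with ⟨h, -⟩ | ⟨-, h⟩
  · exact h
  exfalso
  set S : ℂ := ∑ x : D, (χ : G → ℂ) x with hS
  have hconst : ∀ m : M, ∑ x : D, (χ : G → ℂ) ((x : G) * m) = S := by
    intro m
    obtain ⟨n, hn, y, hy, hm⟩ := Subgroup.mem_sup_of_normal_left.1 (hM m.2)
    rw [hS, ← Equiv.sum_comp (Equiv.mulRight (⟨y, hy⟩ : D)) (fun x : D => (χ : G → ℂ) x)]
    refine Finset.sum_congr rfl fun x _ => ?_
    rw [← hm, show (x : G) * (n * y) = ((x : G) * n * (x : G)⁻¹) * ((x : G) * y) by group,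
      apply_mul_of_apply_eq hc (le_kernel P N hN χ hd _ (‹N.Normal›.conj_mem n hn _))]
    rfl
  have h0 : (Nat.card M : ℂ) * S = 0 := by
    have : ∑ m : M, ∑ x : D, (χ : G → ℂ) ((x : G) * m) = (Nat.card M : ℂ) * S := by
      rw [Finset.sum_congr rfl (fun m _ => hconst m), Finset.sum_const, Finset.card_univ, nsmul_eq_mul,
        Nat.card_eq_fintype_card]
    rw [← this, Finset.sum_comm]
    exact Finset.sum_eq_zero fun x _ => h x
  have hS0 : S = 0 := (mul_eq_zero.1 h0).resolve_left (Nat.cast_ne_zero.2 Nat.card_pos.ne')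
  -- a linear constituent on `P`
  obtain ⟨l, hl, hne⟩ := exists_constituent_pprime (p := p) (isCharacter_restrict hc (P : Subgroup G)) (by
    rw [show Cfsg.charDegree (fun h : (P : Subgroup G) => (χ : G → ℂ) h) = Cfsg.charDegree (χ : G → ℂ) from rfl]
    exact hd)
  have hl1 : Cfsg.charDegree (l : ↥(P : Subgroup G) → ℂ) = 1 := by
    obtain ⟨k, hk⟩ := P.2.exists_card_eq
    have h1 : Cfsg.charDegree (l : ↥(P : Subgroup G) → ℂ) ∣ p ^ k := hk ▸ degree_dvd l
    obtain ⟨j, -, hj⟩ := (Nat.dvd_prime_pow (Fact.out : p.Prime)).1 h1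
    rcases j with _ | j
    · simpa using hj
    · exact absurd (hj ▸ dvd_pow_self p j.succ_ne_zero) hl
  obtain ⟨ψ, hψ, hsplit⟩ := split_constituent (isCharacter_restrict hc (P : Subgroup G)) l hne
  have hψD : Cfsg.IsCharacter D (fun x => ψ (Subgroup.inclusion hDP x)) := isCharacter_comp hψ _
  obtain ⟨m, hm⟩ := classInner_characters_nat hψD (isCharacter_of_irr (isIrrCharacter_one (G := D)))
  rw [classInner_one] at hm
  have hlD : ∀ x : D, (l : ↥(P : Subgroup G) → ℂ) (Subgroup.inclusion hDP x) = 1 := by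
    intro x
    have := CfsgLib.GaloisDegree.apply_commutator_of_linear l.2 hl1 (c := Subgroup.inclusion hDP x) (by
      have hmap : (commutator (P : Subgroup G)).map (P : Subgroup G).subtype = D := by
        rw [commutator_def, Subgroup.map_commutator, ← MonoidHom.range_eq_map, Subgroup.range_subtype]
      obtain ⟨y, hy, hye⟩ := hmap.ge x.2
      rwa [show Subgroup.inclusion hDP x = y from Subtype.ext hye.symm])
    rw [this, apply_one (isCharacter_of_irr l.2), hl1, Nat.cast_one]
  have hSval : S = (Nat.card D : ℂ) * (1 + m) := by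
    rw [hS, Finset.sum_congr rfl (fun (x : D) _ => show (χ : G → ℂ) x = 1 + ψ (Subgroup.inclusion hDP x) by
      rw [← hlD x]; exact congrFun hsplit (Subgroup.inclusion hDP x)), Finset.sum_add_distrib, Finset.sum_const,
      Finset.card_univ, nsmul_eq_mul, mul_one, ← Nat.card_eq_fintype_card, mul_add, mul_one, ← hm, ← mul_assoc,
      mul_inv_cancel₀ (Nat.cast_ne_zero.2 Nat.card_pos.ne'), one_mul]
  rw [hSval, ← Nat.cast_one, ← Nat.cast_add, ← Nat.cast_mul, Nat.cast_eq_zero, Nat.mul_eq_zero] at hS0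
  rcases hS0 with h1 | h1
  · exact Nat.card_pos.ne' h1
  · omega

/-- Elements of `P` in all kernels of `p'`-degree lie in `P'`. -/
private theorem mem_commutator_of (P : Sylow p G) {x : G} (hx : x ∈ (P : Subgroup G))
    (hK : ∀ χ : Cfsg.IrrCharacter G, ¬ p ∣ Cfsg.charDegree (χ : G → ℂ) → (χ : G → ℂ) x = (χ : G → ℂ) 1) :
    x ∈ ⁅(P : Subgroup G), (P : Subgroup G)⁆ := by
  classical
  haveI := Fintype.ofFinite G
  haveI := Fintype.ofFinite (P : Subgroup G)
  by_contra hcon
  have hxc : (⟨x, hx⟩ : (P : Subgroup G)) ∉ commutator (P : Subgroup G) := fun h => hcon (by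
    have := Subgroup.mem_map_of_mem (P : Subgroup G).subtype h
    rwa [commutator_def, Subgroup.map_commutator, ← MonoidHom.range_eq_map, Subgroup.range_subtype] at this)
  obtain ⟨l, -, hl⟩ := Knorr.exists_dual_ne_one (C := Abelianization (P : Subgroup G)) (K := ⊥)
    (c := Abelianization.of (⟨x, hx⟩ : (P : Subgroup G))) (fun h => hxc (by
      rw [Subgroup.mem_bot, ← MonoidHom.mem_ker, Abelianization.ker_of] at h; exact h))
  let lam : (P : Subgroup G) →* ℂ := ((Units.coeHom ℂ).comp l).comp Abelianization.of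
  have hlam : Cfsg.IsCharacter (P : Subgroup G) (fun g => lam g) :=
    isCharacter_of_irr (CfsgLib.Clifford.isIrrCharacter_of_hom lam)
  have hdeg : ¬ p ∣ Cfsg.charDegree (Cfsg.indFun (P : Subgroup G) fun g => lam g) := by
    rw [charDegree_indFun _ hlam, show Cfsg.charDegree (fun g => lam g) = 1 by simp [Cfsg.charDegree], mul_one]
    exact P.not_dvd_index
  obtain ⟨χ, hd, hne⟩ := exists_constituent_pprime (p := p) (isCharacter_indFun _ hlam) hdeg
  rw [classInner_indFun _ _ (isClassFunction (isCharacter_of_irr χ.2))] at hne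
  have hker := hK χ hd
  refine hl (Units.ext ?_)
  show lam ⟨x, hx⟩ = 1
  have e : lam ⟨x, hx⟩ * Cfsg.classInner (fun g => lam g) (fun h : (P : Subgroup G) => (χ : G → ℂ) h) =
      Cfsg.classInner (fun g => lam g) (fun h : (P : Subgroup G) => (χ : G → ℂ) h) := by
    rw [classInner_eq, ← mul_assoc, mul_comm (lam _), mul_assoc, Finset.mul_sum]
    congr 1
    conv_rhs => rw [← Equiv.sum_comp (Equiv.mulLeft (⟨x, hx⟩ : (P : Subgroup G)))]
    refine Finset.sum_congr rfl fun g _ => ?_
    simp only [Equiv.coe_mulLeft, map_mul, Subgroup.coe_mul, apply_mul_of_apply_eq (isCharacter_of_irr χ.2) hker]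
    ring
  exact (mul_eq_right₀ hne).1 e

/-- If all `p'`-degree characters are trivial on a normal `p'`-subgroup `L`, then `P` fixes no
nontrivial element of `L`. -/
private theorem fix_free (P : Sylow p G) (L : Subgroup G) [L.Normal] (hcop : ¬ p ∣ Nat.card L)
    (hL : ∀ χ : Cfsg.IrrCharacter G, ¬ p ∣ Cfsg.charDegree (χ : G → ℂ) → ∀ n ∈ L, (χ : G → ℂ) n = (χ : G → ℂ) 1) :
    L ⊓ Subgroup.centralizer ((P : Subgroup G) : Set G) = ⊥ := by
  classical
  haveI := Fintype.ofFinite G
  haveI := Fintype.ofFinite L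
  have hp : p.Prime := Fact.out
  rw [eq_bot_iff]
  intro c hc
  rw [Subgroup.mem_bot]
  by_contra hc1
  -- `P`-invariant characters of `L` are trivial
  have hfix : ∀ θ : Cfsg.IrrCharacter L,
      (∀ a ∈ (P : Subgroup G), ∀ n : L, (θ : L → ℂ) (MulAut.conjNormal a n) = (θ : L → ℂ) n) →
      ∀ n : L, (θ : L → ℂ) n = 1 := by
    intro θ hinv
    by_contra hθ
    set H : Subgroup G := L ⊔ (P : Subgroup G) with hH
    haveI := Fintype.ofFinite H
    set LH : Subgroup H := L.subgroupOf H with hLH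
    haveI : LH.Normal := Subgroup.Normal.subgroupOf inferInstance H
    haveI := Fintype.ofFinite LH
    let e : LH ≃* L := Subgroup.subgroupOfEquivOfLe le_sup_left
    let θ' : LH → ℂ := fun n => (θ : L → ℂ) (e n)
    have hθ' : Cfsg.IsIrrCharacter LH θ' := CfsgLib.Clifford.isIrrCharacter_comp θ.2 e.toMonoidHom e.surjective
    have hinv' : ∀ (g : H) (n : LH), θ' ⟨g * n * g⁻¹, (inferInstance : LH.Normal).conj_mem (n : H) n.2 g⟩ = θ' n := by
      intro g n
      obtain ⟨m, hm, a, ha, hga⟩ := Subgroup.mem_sup_of_normal_left.1 g.2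
      have h1 := hinv a ha (e n)
      show (θ : L → ℂ) (e _) = (θ : L → ℂ) (e n)
      rw [← h1]
      refine (?_ : _ = (θ : L → ℂ) (⟨m, hm⟩ * MulAut.conjNormal a (e n) * ⟨m, hm⟩⁻¹)).trans
        (isClassFunction (isCharacter_of_irr θ.2) _ _)
      refine congrArg (θ : L → ℂ) (Subtype.ext ?_)
      show (g : G) * ((n : H) : G) * (g : G)⁻¹ = m * ((MulAut.conjNormal a (e n) : L) : G) * m⁻¹
      rw [MulAut.conjNormal_apply, ← hga]
      show m * a * ((n : H) : G) * (m * a)⁻¹ = m * (a * ((n : H) : G) * a⁻¹) * m⁻¹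
      group
    have hLHc : ¬ p ∣ Nat.card LH := by rwa [Nat.card_congr e.toEquiv]
    have hidx : ∃ k, LH.index = p ^ k := by
      obtain ⟨k, hk⟩ := P.2.exists_card_eq
      have h1 : LH.index ∣ p ^ k := by
        rw [← hk]
        show L.relIndex (L ⊔ (P : Subgroup G)) ∣ _
        rw [Subgroup.relIndex_sup_left]
        exact L.relIndex_dvd_card (P : Subgroup G)
      obtain ⟨j, -, hj⟩ := (Nat.dvd_prime_pow hp).1 h1
      exact ⟨j, hj⟩
    obtain ⟨k, hk⟩ := hidx
    obtain ⟨η, hη, hres⟩ := CfsgLib.Clifford.exists_charExtension hθ' hinv' fun d σ hσ l hl => by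
      by_cases hlp : l = p
      · subst hlp
        refine ⟨_, CfsgLib.Clifford.goodExp_detOrder (σ := σ) (o := Nat.card LH) (fun n => ?_), fun hd => ?_⟩
        · rw [← map_pow, ← map_pow, pow_card_eq_one', map_one, map_one]
        · rw [Int.natCast_dvd_natCast, Module.finrank_fin_fun] at hd
          rcases hl.dvd_mul.1 hd with h | h
          · refine hLHc (h.trans ?_)
            have h2 := degree_dvd (⟨θ', hθ'⟩ : Cfsg.IrrCharacter LH)
            have h3 : Cfsg.charDegree θ' = d := by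
              rw [← hσ]
              simp [Cfsg.charDegree, Representation.char_one, Module.finrank_fin_fun]
            rwa [show ((⟨θ', hθ'⟩ : Cfsg.IrrCharacter LH) : LH → ℂ) = θ' from rfl, h3] at h2
          · exact hLHc h
      · refine ⟨_, CfsgLib.Clifford.goodExp_index (CfsgLib.Clifford.isIrreducible_of_character hθ' hσ) (fun g n => ?_),
          fun hd => ?_⟩
        · rw [hσ]
          exact (congrArg θ' (Subtype.ext (MulAut.conjNormal_apply g n))).trans (hinv' g n)
        · rw [Int.natCast_dvd_natCast, hk] at hd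
          exact hlp ((Nat.prime_dvd_prime_iff_eq hl hp).1 (hl.dvd_of_dvd_pow hd))
    have hηd : ¬ p ∣ Cfsg.charDegree η := by
      intro hd
      apply hLHc
      refine hd.trans ?_
      have h2 := degree_dvd (⟨θ', hθ'⟩ : Cfsg.IrrCharacter LH)
      rwa [show Cfsg.charDegree η = Cfsg.charDegree θ' by
        simp only [Cfsg.charDegree, ← hres 1, Subgroup.coe_one]]
    obtain ⟨χ, hd, hne⟩ := exists_constituent_pprime (p := p) (isCharacter_indFun H (isCharacter_of_irr hη)) (by
      rw [charDegree_indFun _ (isCharacter_of_irr hη)]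
      exact hp.not_dvd_mul (fun h => P.not_dvd_index (h.trans (Subgroup.index_dvd_of_le le_sup_right))) hηd)
    rw [classInner_indFun _ _ (isClassFunction (isCharacter_of_irr χ.2))] at hne
    have hker := hL χ hd
    rcases sum_normal_irr LH (⟨η, hη⟩ : Cfsg.IrrCharacter H) with ⟨h, -⟩ | ⟨-, h⟩
    · -- then `θ` is trivial
      apply hθ
      have hθc : ∀ n : L, (θ : L → ℂ) n = (θ : L → ℂ) 1 := by
        intro n
        obtain ⟨n', rfl⟩ := e.surjective n
        have h1 : θ' n' = θ' 1 := by rw [← hres, ← hres]; exact h _ n'.2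
        have h2 : θ' 1 = (θ : L → ℂ) 1 := by simp [θ']
        exact h1.trans h2
      intro n
      by_contra hn
      have hne1 : ((θ : L → ℂ)) ≠ fun _ => 1 := fun h => hn (congrFun h n)
      have h3 := sum_irr_eq_zero θ.2 hne1
      rw [Finset.sum_congr rfl (fun n _ => hθc n), Finset.sum_const, Finset.card_univ, nsmul_eq_mul,
        mul_eq_zero] at h3
      rcases h3 with h3 | h3
      · exact Fintype.card_ne_zero (Nat.cast_eq_zero.1 h3)
      · exact apply_one_ne_zero θ.2 h3
    · apply hne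
      have h4 : (Nat.card LH : ℂ) * Cfsg.classInner η (fun g : H => (χ : G → ℂ) g) = 0 := by
        rw [classInner_eq, ← mul_assoc, mul_comm (Nat.card LH : ℂ), mul_assoc]
        refine mul_eq_zero_of_right _ ?_
        have h5 : ∀ m : LH, ∑ g : H, η (g * m) * conj ((χ : G → ℂ) g) = ∑ g : H, η g * conj ((χ : G → ℂ) g) := by
          intro m
          refine Fintype.sum_equiv (Equiv.mulRight (m : H)) _ _ fun g => ?_
          show η (g * m) * conj ((χ : G → ℂ) g) = η (g * m) * conj ((χ : G → ℂ) ((g : G) * ((m : H) : G)))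
          rw [show (g : G) * ((m : H) : G) = ((g : G) * ((m : H) : G) * (g : G)⁻¹) * g by group,
            apply_mul_of_apply_eq (isCharacter_of_irr χ.2) (hker _ (‹L.Normal›.conj_mem ((m : H) : G) m.2 (g : G))) (g : G)]
        calc (Nat.card LH : ℂ) * ∑ g : H, η g * conj ((χ : G → ℂ) g)
            = ∑ m : LH, ∑ g : H, η (g * m) * conj ((χ : G → ℂ) g) := by
              rw [Finset.sum_congr rfl (fun m _ => h5 m), Finset.sum_const, Finset.card_univ, nsmul_eq_mul,
                Nat.card_eq_fintype_card]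
          _ = 0 := by
              rw [Finset.sum_comm]
              refine Finset.sum_eq_zero fun g _ => ?_
              rw [← Finset.sum_mul]
              exact mul_eq_zero_of_left (h g) _
      exact (mul_eq_zero.1 h4).resolve_left (Nat.cast_ne_zero.2 Nat.card_pos.ne')
  haveI := finite_irrCharacter (G := L)
  haveI := Fintype.ofFinite (Cfsg.IrrCharacter L)
  letI : MulAction (P : Subgroup G) (Cfsg.IrrCharacter L) :=
    { smul := fun a θ => ⟨fun n => (θ : L → ℂ) (MulAut.conjNormal (a : G)⁻¹ n),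
        CfsgLib.Clifford.isIrrCharacter_comp θ.2 (MulAut.conjNormal (a : G)⁻¹ : MulAut L).toMonoidHom
          (MulAut.conjNormal (a : G)⁻¹ : MulAut L).surjective⟩
      one_smul := fun θ => Subtype.ext (funext fun n => by
        show (θ : L → ℂ) (MulAut.conjNormal (((1 : (P : Subgroup G)) : G))⁻¹ n) = (θ : L → ℂ) n
        rw [Subgroup.coe_one, inv_one, map_one]; rfl)
      mul_smul := fun a b θ => Subtype.ext (funext fun n => by
        show (θ : L → ℂ) (MulAut.conjNormal ((a * b : (P : Subgroup G)) : G)⁻¹ n) =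
          (θ : L → ℂ) (MulAut.conjNormal (b : G)⁻¹ (MulAut.conjNormal (a : G)⁻¹ n))
        rw [Subgroup.coe_mul, mul_inv_rev, map_mul]; rfl) }
  let cL : L := ⟨c, hc.1⟩
  have hcfix : ∀ g ∈ (P : Subgroup G), MulAut.conjNormal g cL = cL := fun g hg => Subtype.ext (by
    rw [MulAut.conjNormal_apply]
    exact mul_inv_eq_iff_eq_mul.2 (Subgroup.mem_centralizer_iff.1 hc.2 g hg))
  obtain ⟨z, hz, he⟩ := sum_fixed P.2
    (fun θ : Cfsg.IrrCharacter L => (Cfsg.charDegree (θ : L → ℂ) : ℂ) * (θ : L → ℂ) cL)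
    (fun a θ => by
      have h1 : ((a • θ : Cfsg.IrrCharacter L) : L → ℂ) cL = (θ : L → ℂ) cL :=
        congrArg (θ : L → ℂ) (hcfix _ (inv_mem a.2))
      have h2 : Cfsg.charDegree ((a • θ : Cfsg.IrrCharacter L) : L → ℂ) = Cfsg.charDegree (θ : L → ℂ) := by
        show ⌊((θ : L → ℂ) (MulAut.conjNormal (a : G)⁻¹ 1)).re⌋₊ = _
        rw [map_one]; rfl
      show (Cfsg.charDegree ((a • θ : Cfsg.IrrCharacter L) : L → ℂ) : ℂ) * _ = _
      rw [h1, h2])
    (fun θ => (isIntegral_natCast _).mul (isIntegral_apply (isCharacter_of_irr θ.2) _))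
  let one : Cfsg.IrrCharacter L := ⟨fun _ => 1, isIrrCharacter_one⟩
  have hfilter : Finset.univ.filter (fun θ : Cfsg.IrrCharacter L => ∀ a : (P : Subgroup G), a • θ = θ) = {one} := by
    ext θ
    simp only [Finset.mem_filter, Finset.mem_univ, true_and, Finset.mem_singleton]
    refine ⟨fun h => Subtype.ext (funext (hfix θ fun a ha n => ?_)), fun h a => by subst h; rfl⟩
    have h1 : (θ : L → ℂ) (MulAut.conjNormal ((⟨a⁻¹, inv_mem ha⟩ : (P : Subgroup G)) : G)⁻¹ n) = (θ : L → ℂ) n :=
      congrFun (congrArg Subtype.val (h ⟨a⁻¹, inv_mem ha⟩)) n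
    simpa only [inv_inv] using h1
  rw [hfilter, Finset.sum_singleton, sum_mul_degree (g := cL) (fun h => hc1 (congrArg Subtype.val h))] at he
  have hone : (Cfsg.charDegree (one : L → ℂ) : ℂ) * (one : L → ℂ) cL = 1 := by simp [one, Cfsg.charDegree]
  rw [hone] at he
  exact hp.not_dvd_one (dvd_of_eq hp.ne_zero hz.neg (by
    rw [Nat.cast_one, mul_neg, eq_neg_iff_add_eq_zero]; exact he.symm))

/-- Let G be a finite group, p a prime and P a Sylow p-subgroup, and let N be the largest normal subgroup of G in which P has trivial centralizer (N is normal with C_N(P) = 1 and contains every normal subgroup with that property). Then the intersection of the kernels of the irreducible characters of G of degree prime to p is the normal core in G of the subgroup N·P' (P' the derived subgroup of P). In particular, when G has no nontrivial normal subgroup of order prime to p, that intersection is the normal core of P'. -/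
theorem result {G : Type*} [Group G] [Finite G] (p : ℕ) [Fact p.Prime] (P : Sylow p G) (N : Subgroup G) [N.Normal]
    (hN : N ⊓ Subgroup.centralizer ((P : Subgroup G) : Set G) = ⊥)
    (hmax : ∀ L : Subgroup G, L.Normal → L ⊓ Subgroup.centralizer ((P : Subgroup G) : Set G) = ⊥ → L ≤ N) :
    {g : G | ∀ χ : Cfsg.IrrCharacter G, ¬ p ∣ Cfsg.charDegree (χ : G → ℂ) → (χ : G → ℂ) g = (χ : G → ℂ) 1} =
      ((N ⊔ ⁅(P : Subgroup G), (P : Subgroup G)⁆).normalCore : Set G) := by
  classical
  haveI := Fintype.ofFinite G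
  set T : Subgroup G := N ⊔ ⁅(P : Subgroup G), (P : Subgroup G)⁆ with hT
  haveI := Subgroup.normalCore_normal T
  let K : Subgroup G := ⨅ χ : {χ : Cfsg.IrrCharacter G // ¬ p ∣ Cfsg.charDegree (χ : G → ℂ)},
    charKer (χ.1 : G → ℂ) (isCharacter_of_irr χ.1.2)
  have hKmem : ∀ g, g ∈ K ↔ ∀ χ : Cfsg.IrrCharacter G, ¬ p ∣ Cfsg.charDegree (χ : G → ℂ) →
      (χ : G → ℂ) g = (χ : G → ℂ) 1 := fun g => by
    simp only [K, Subgroup.mem_iInf, Subtype.forall, mem_charKer]
  haveI hKn : K.Normal := Subgroup.normal_iInf_normal fun χ => charKer_normal _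
  suffices hK : K = T.normalCore by
    ext g
    rw [Set.mem_setOf_eq, SetLike.mem_coe, ← hK, hKmem]
  refine le_antisymm ?_ fun g hg => (hKmem g).2 fun χ hd =>
    core_le_kernel P N T.normalCore hN T.normalCore_le χ hd g hg
  rw [Subgroup.normal_le_normalCore]
  have hKP : K ⊓ (P : Subgroup G) ≤ ⁅(P : Subgroup G), (P : Subgroup G)⁆ := fun x hx =>
    mem_commutator_of P hx.2 ((hKmem x).1 hx.1)
  have hfr : ⁅(P : Subgroup G), (P : Subgroup G)⁆ ≤ (frattini (P : Subgroup G)).map (P : Subgroup G).subtype := by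
    refine le_trans (le_of_eq ?_) (Subgroup.map_mono (CfsgLib.PGroup.commutator_le_frattini P.2))
    rw [commutator_def, Subgroup.map_commutator, ← MonoidHom.range_eq_map, Subgroup.range_subtype]
  obtain ⟨Q, Nc, hNc, hcompl⟩ := CfsgLib.Transfer.tate P K (hKP.trans hfr)
  have hcop : ¬ p ∣ Nat.card Nc := by
    rw [← hcompl.index_eq_card]
    exact Q.not_dvd_index
  set L : Subgroup G := Nc.map K.subtype with hL
  have hLcard : Nat.card L = Nat.card Nc := Subgroup.card_map_of_injective K.subtype_injective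
  haveI hLn : L.Normal := by
    refine ⟨?_⟩
    rintro _ ⟨x, hx, rfl⟩ g
    refine ⟨⟨g * (x : G) * g⁻¹, hKn.conj_mem _ x.2 g⟩, ?_, rfl⟩
    set y : K := ⟨g * (x : G) * g⁻¹, hKn.conj_mem _ x.2 g⟩ with hy
    show y ∈ Nc
    rw [← QuotientGroup.eq_one_iff (N := Nc)]
    obtain ⟨k, hk⟩ := Q.2.exists_card_eq
    refine orderOf_eq_one_iff.1 (Nat.eq_one_of_dvd_coprimes
      (Nat.Coprime.pow_left k ((Fact.out : p.Prime).coprime_iff_not_dvd.2 hcop)) ?_ ?_)
    · rw [← hk, ← hcompl.symm.index_eq_card, Subgroup.index]; exact orderOf_dvd_natCard _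
    · refine (orderOf_map_dvd (QuotientGroup.mk' Nc) y).trans ?_
      rw [← Subgroup.orderOf_coe, show ((y : K) : G) = g * (x : G) * g⁻¹ from rfl,
        show orderOf (g * (x : G) * g⁻¹) = orderOf x from
          (MulEquiv.orderOf_eq (MulAut.conj g) (x : G)).trans (Subgroup.orderOf_coe x)]
      exact Subgroup.orderOf_dvd_natCard Nc hx
  have hLK : L ≤ K := Subgroup.map_subtype_le _
  have hLN : L ≤ N := hmax L hLn (fix_free P L (hLcard ▸ hcop) fun χ hd n hn => (hKmem n).1 (hLK hn) χ hd)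
  -- `K = L (K ∩ P)`
  have hidx : ¬ p ∣ ((P : Subgroup G).subgroupOf K).index := by
    intro hd
    obtain ⟨R, hR⟩ := (Q.2.map K.subtype).exists_le_sylow
    obtain ⟨g, hg⟩ := MulAction.exists_smul_eq G R P
    have hle : (Q : Subgroup K).map (MulAut.conjNormal g : MulAut K).toMonoidHom ≤ (P : Subgroup G).subgroupOf K := by
      rintro _ ⟨y, hy, rfl⟩
      rw [Subgroup.mem_subgroupOf, ← hg]
      exact ⟨(y : G), hR ⟨y, hy, rfl⟩, (MulAut.conjNormal_apply g y).symm⟩
    refine Q.not_dvd_index (hd.trans ((Subgroup.index_dvd_of_le hle).trans ?_))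
    exact dvd_of_eq' (Subgroup.index_map_of_bijective (MulEquiv.bijective _) _)
  have htop : Nc ⊔ (P : Subgroup G).subgroupOf K = ⊤ := by
    rw [← Subgroup.index_eq_one]
    obtain ⟨k, hk⟩ := Q.2.exists_card_eq
    refine Nat.eq_one_of_dvd_coprimes ?_ (Subgroup.index_dvd_of_le le_sup_left)
      (Subgroup.index_dvd_of_le le_sup_right)
    rw [hcompl.symm.index_eq_card, hk]
    exact Nat.Coprime.pow_left k ((Fact.out : p.Prime).coprime_iff_not_dvd.2 hidx)
  intro x hx
  obtain ⟨a, ha, b, hb, hab⟩ := Subgroup.mem_sup_of_normal_left.1 (htop.ge (Subgroup.mem_top (⟨x, hx⟩ : K)))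
  have : x = (a : G) * b := congrArg Subtype.val hab.symm
  rw [this]
  exact mul_mem (Subgroup.mem_sup_left (hLN ⟨a, ha, rfl⟩)) (Subgroup.mem_sup_right (hKP ⟨b.2, hb⟩))

end Cfsg.Agent.S4591
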