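import Cfsg.Statements.S4601
import Cfsg.Agent.PCore.Basic
import Cfsg.Agent.PCore.PSolvable
import Cfsg.Agent.CoprimeAction.Invariant
import Cfsg.Agent.CoprimeAction.Factorization

set_option autoImplicit false
open Cfsg

namespace Cfsg.Agent.S4601

open CfsgLib
open scoped Pointwise

/-- `[HN : H] = [N : H ⊓ N]` for normal `N`. -/
theorem relIndex_sup_of_normal {G : Type*} [Group G] [Finite G] (H N : Subgroup G) [N.Normal] :
    H.relIndex (H ⊔ N) = H.relIndex N := by
  have h1 := Subgroup.relIndex_mul_relIndex (H ⊓ N) H (H ⊔ N) inf_le_left le_sup_left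
  have h2 := Subgroup.relIndex_mul_relIndex (H ⊓ N) N (H ⊔ N) inf_le_right le_sup_right
  rw [Subgroup.inf_relIndex_right, Subgroup.relIndex_sup_right] at h2
  have h3 : (H ⊓ N).relIndex H = N.relIndex H := by rw [inf_comm, Subgroup.inf_relIndex_right]
  rw [h3, ← h2, mul_comm (H.relIndex N)] at h1
  exact Nat.eq_of_mul_eq_mul_left (Nat.pos_of_ne_zero (Subgroup.index_ne_zero_of_finite (H := Subgroup.subgroupOf _ _))) h1

theorem not_dvd_relIndex_centralizer {G : Type*} [Group G] [Finite G] {p : ℕ} (N : Subgroup G)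
    [N.Normal] (y : G) (h : ¬ p ∣ (Subgroup.centralizer ({y} : Set G)).index) :
    ¬ p ∣ (Subgroup.centralizer ({y} : Set G)).relIndex N := fun hd => by
  rw [← relIndex_sup_of_normal] at hd
  exact h (hd.trans (Dvd.intro _ (Subgroup.relIndex_mul_index le_sup_left)))

/-- The key local step: `p` does not divide `[N : N_N(Q)]`. -/
theorem key {G : Type*} [Group G] [Finite G] (p q : ℕ) [Fact p.Prime] [Fact q.Prime] (Q : Sylow q G)
    (h : ∀ y : G, (∃ k : ℕ, orderOf y = q ^ k) → ¬ p ∣ (Subgroup.centralizer ({y} : Set G)).index)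
    (N : Subgroup G) [N.Normal]
    (hN : ¬ p ∣ Nat.card N ∨ IsPGroup p N ∨ IsPGroup q N ∨ (Nat.card N).Coprime q) :
    ¬ p ∣ (Subgroup.normalizer ((Q : Subgroup G) : Set G)).relIndex N := by
  classical
  have hp : p.Prime := Fact.out
  have hcn : Subgroup.centralizer ((Q : Subgroup G) : Set G) ≤
      Subgroup.normalizer ((Q : Subgroup G) : Set G) := Subgroup.centralizer_le_normalizer _
  have hord : ∀ y ∈ (Q : Subgroup G), ∃ k : ℕ, orderOf y = q ^ k := fun y hy => by
    obtain ⟨k, hk⟩ := Q.2 ⟨y, hy⟩
    obtain ⟨i, -, hi⟩ := (Nat.dvd_prime_pow Fact.out).1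
      (orderOf_dvd_of_pow_eq_one (congrArg Subtype.val hk))
    exact ⟨i, hi⟩
  rcases hN with hN | hN | hN | hN
  · exact fun hd => hN (hd.trans (Subgroup.relIndex_dvd_card _ _))
  · -- each element of `Q` centralizes `N`
    have hNC : N ≤ Subgroup.centralizer ((Q : Subgroup G) : Set G) := by
      intro n hn
      rw [Subgroup.mem_centralizer_iff]
      intro y hy
      set C := Subgroup.centralizer ({y} : Set G)
      obtain ⟨k, hk⟩ := IsPGroup.iff_card.1 hN
      obtain ⟨i, -, hi⟩ := (Nat.dvd_prime_pow hp).1 (hk ▸ Subgroup.relIndex_dvd_card C N)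
      have hi0 : i = 0 := by
        by_contra hi0
        exact not_dvd_relIndex_centralizer N y (h y (hord y hy)) (hi ▸ dvd_pow_self p hi0)
      rw [hi0, pow_zero, Subgroup.relIndex_eq_one] at hi
      exact (Subgroup.mem_centralizer_singleton_iff.1 (hi hn)).symm
    rw [Subgroup.relIndex_eq_one.2 (hNC.trans hcn)]
    exact hp.not_dvd_one
  · have hle : N ≤ Subgroup.normalizer ((Q : Subgroup G) : Set G) :=
      (hN.le_sylow_of_normal Q).trans Subgroup.le_normalizer
    rw [Subgroup.relIndex_eq_one.2 hle]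
    exact hp.not_dvd_one
  · have hQN : (Q : Subgroup G) ≤ Subgroup.normalizer (N : Set G) := by
      rw [Subgroup.normalizer_eq_top_iff.2 ‹N.Normal›]; exact le_top
    obtain ⟨e, he⟩ := IsPGroup.iff_card.1 Q.2
    have hcop : (Nat.card (Q : Subgroup G)).Coprime (Nat.card N) := by
      rw [he]; exact hN.symm.pow_left e
    haveI : Group.IsNilpotent (Q : Subgroup G) := Q.2.isNilpotent
    obtain ⟨R₀, hR₀⟩ := CoprimeAction.exists_invariant_sylow hQN hcop (Or.inl inferInstance) p
    set R := (R₀ : Subgroup N).map N.subtype with hR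
    have hRc : Nat.card R = p ^ (Nat.card N).factorization p := CoprimeAction.card_sylow_map R₀
    have hRC : R ≤ Subgroup.centralizer ((Q : Subgroup G) : Set G) := by
      intro r hr
      rw [Subgroup.mem_centralizer_iff]
      intro y hy
      set A := Subgroup.zpowers y with hA
      have hAQ : A ≤ (Q : Subgroup G) := Subgroup.zpowers_le.2 hy
      have hinv : Factorization.IsInvSylow p A N R :=
        ⟨Subgroup.map_subtype_le _, hRc, hAQ.trans hR₀⟩
      have hc := hinv.card_centralizer (hAQ.trans hQN) (hcop.coprime_dvd_left (Subgroup.card_dvd_of_le hAQ))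
        (Subgroup.mem_zpowers y)
      set C := Subgroup.centralizer ({y} : Set G)
      have hv : (Nat.card ↥(N ⊓ C)).factorization p = (Nat.card N).factorization p := by
        have h1 : Nat.card ↥(N ⊓ C) * C.relIndex N = Nat.card N := by
          rw [← Subgroup.inf_relIndex_left N C, ← Subgroup.card_mul_index ((N ⊓ C).subgroupOf N),
            Nat.card_congr (Subgroup.subgroupOfEquivOfLe (inf_le_left : N ⊓ C ≤ N)).toEquiv]
          rfl
        have hne : C.relIndex N ≠ 0 := Subgroup.index_ne_zero_of_finite (H := C.subgroupOf N)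
        conv_rhs => rw [← h1, Nat.factorization_mul Nat.card_pos.ne' hne,
          Finsupp.add_apply,
          Nat.factorization_eq_zero_of_not_dvd (not_dvd_relIndex_centralizer N y (h y (hord y hy))), add_zero]
      rw [hv, ← hRc] at hc
      have hRy : R ⊓ C = R := Subgroup.eq_of_le_of_card_ge inf_le_left hc.ge
      have : r ∈ R ⊓ C := hRy.symm ▸ hr
      exact (Subgroup.mem_centralizer_singleton_iff.1 (Subgroup.mem_inf.1 this).2).symm
    intro hd
    have h2 : (Subgroup.normalizer ((Q : Subgroup G) : Set G)).relIndex N ∣ R.relIndex N :=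
      Subgroup.relIndex_dvd_of_le_left _ (hRC.trans hcn)
    have h3 : R.relIndex N = (R₀ : Subgroup N).index := by
      show (R.subgroupOf N).index = _
      rw [hR, Subgroup.subgroupOf, Subgroup.comap_map_eq_self_of_injective N.subtype_injective]
    exact R₀.not_dvd_index (h3 ▸ hd.trans h2)

universe v

theorem aux (p q r : ℕ) [Fact p.Prime] [Fact q.Prime] [Fact r.Prime] (hr : r = p ∨ r = q) :
    ∀ (n : ℕ) (G : Type v) [Group G] [Finite G], Nat.card G = n → Cfsg.IsPSolvable r G →
      (∀ y : G, (∃ k : ℕ, orderOf y = q ^ k) → ¬ p ∣ (Subgroup.centralizer ({y} : Set G)).index) →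
      ∃ Q : Sylow q G, ¬ p ∣ (Subgroup.normalizer ((Q : Subgroup G) : Set G)).index := by
  intro n
  induction n using Nat.strong_induction_on with
  | _ n ih =>
    intro G _ _ hn hs h
    classical
    have hp : p.Prime := Fact.out
    rcases subsingleton_or_nontrivial G with hG | hG
    · obtain ⟨Q⟩ : Nonempty (Sylow q G) := inferInstance
      refine ⟨Q, ?_⟩
      rw [Subgroup.index_eq_one.2 (Subsingleton.elim _ _)]
      exact hp.not_dvd_one
    obtain ⟨N, hNn, hNb, hN⟩ : ∃ N : Subgroup G, N.Normal ∧ N ≠ ⊥ ∧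
        (¬ p ∣ Nat.card N ∨ IsPGroup p N ∨ IsPGroup q N ∨ (Nat.card N).Coprime q) := by
      rcases PCore.cores_ne_bot hs with hb | hb
      · haveI := PCore.pCore_characteristic r G
        refine ⟨_, inferInstance, hb, ?_⟩
        rcases hr with rfl | rfl
        · exact Or.inr (Or.inl (PCore.isPGroup_pCore _ G))
        · exact Or.inr (Or.inr (Or.inl (PCore.isPGroup_pCore _ G)))
      · haveI := PCore.pPrimeCore_characteristic r G
        refine ⟨_, inferInstance, hb, ?_⟩
        rcases hr with rfl | rfl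
        · exact Or.inl (PCore.not_dvd_card_pPrimeCore _ G)
        · exact Or.inr (Or.inr (Or.inr (PCore.pPrimeCore_coprime _ G)))
    haveI := hNn
    let f := QuotientGroup.mk' N
    have hlt : Nat.card (G ⧸ N) < n := by
      rw [← hn, ← Subgroup.index_eq_card]
      refine lt_of_le_of_ne (Nat.le_of_dvd Nat.card_pos N.index_dvd_card) fun he => hNb ?_
      have := N.card_mul_index
      rw [he] at this
      exact Subgroup.card_eq_one.1 (Nat.eq_of_mul_eq_mul_right Nat.card_pos (this.trans (one_mul _).symm))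
    have hquot : ∀ y : G ⧸ N, (∃ k : ℕ, orderOf y = q ^ k) →
        ¬ p ∣ (Subgroup.centralizer ({y} : Set (G ⧸ N))).index := by
      rintro y ⟨k, hk⟩
      obtain ⟨x, rfl⟩ := QuotientGroup.mk_surjective y
      -- a lift of `q`-power order
      obtain ⟨t, ht⟩ : q ^ k ∣ orderOf x := hk ▸ orderOf_map_dvd f x
      have hq : q.Prime := Fact.out
      have hx0 : orderOf x ≠ 0 := (orderOf_pos x).ne'
      have hA : ((q ^ (orderOf x).factorization q)).Coprime (orderOf x / q ^ (orderOf x).factorization q) :=
        Nat.Coprime.pow_left _ ((hq.coprime_iff_not_dvd).2 (Nat.not_dvd_ordCompl hq hx0))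
      obtain ⟨c, hc1, hc2⟩ := Nat.chineseRemainder hA 1 0
      have hxc : (x ^ c) ^ (q ^ (orderOf x).factorization q) = 1 := by
        rw [← pow_mul]
        refine orderOf_dvd_iff_pow_eq_one.1 ?_
        obtain ⟨d, hd⟩ := (Nat.modEq_zero_iff_dvd.1 hc2)
        refine ⟨d, ?_⟩
        conv_rhs => rw [← Nat.ordProj_mul_ordCompl_eq_self (orderOf x) q]
        rw [hd]; ring
      obtain ⟨i, -, hi⟩ := (Nat.dvd_prime_pow hq).1 (orderOf_dvd_of_pow_eq_one hxc)
      have hk' : k ≤ (orderOf x).factorization q :=
        (hq.pow_dvd_iff_le_factorization hx0).1 ⟨t, ht⟩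
      have hmap : (f (x ^ c)) = (x : G ⧸ N) := by
        rw [map_pow]
        show (x : G ⧸ N) ^ c = (x : G ⧸ N)
        conv_rhs => rw [← pow_one (x : G ⧸ N)]
        refine pow_eq_pow_iff_modEq.2 ?_
        rw [hk]
        exact hc1.of_dvd (pow_dvd_pow q hk')
      rw [← hmap]
      intro hd
      refine h (x ^ c) ⟨i, hi⟩ (hd.trans ?_)
      have hle : (Subgroup.centralizer ({x ^ c} : Set G)).map f ≤
          Subgroup.centralizer ({f (x ^ c)} : Set (G ⧸ N)) := by
        rintro _ ⟨z, hz, rfl⟩
        rw [Subgroup.mem_centralizer_singleton_iff, ← map_mul, ← map_mul,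
          Subgroup.mem_centralizer_singleton_iff.1 hz]
      exact (Subgroup.index_dvd_of_le hle).trans
        (Subgroup.index_map_dvd _ (QuotientGroup.mk'_surjective N))
    obtain ⟨Qb, hQb⟩ := ih _ hlt (G ⧸ N) rfl (PCore.isPSolvable_quotient hs N) hquot
    obtain ⟨Q⟩ : Nonempty (Sylow q G) := inferInstance
    refine ⟨Q, fun hd => ?_⟩
    set H := Subgroup.normalizer ((Q : Subgroup G) : Set G) with hH
    rw [← Subgroup.relIndex_mul_index (le_sup_left : H ≤ H ⊔ N), relIndex_sup_of_normal] at hd
    rcases hp.dvd_mul.1 hd with hd | hd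
    · exact key p q Q h N hN hd
    · -- the image of `H` is the normalizer of the image of `Q`
      set Q' : Sylow q (G ⧸ N) := Q.mapSurjective (QuotientGroup.mk'_surjective N) with hQ'
      have himg : Subgroup.normalizer ((Q' : Subgroup (G ⧸ N)) : Set (G ⧸ N)) ≤ H.map f := by
        intro y hy
        obtain ⟨g, rfl⟩ := QuotientGroup.mk_surjective y
        set L := (Q : Subgroup G) ⊔ N with hL
        have hcomap : (Q' : Subgroup (G ⧸ N)).comap f = L := by
          rw [hQ', Sylow.coe_mapSurjective, Subgroup.comap_map_eq, QuotientGroup.ker_mk']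
        have hgL : ∀ z ∈ L, g * z * g⁻¹ ∈ L := by
          intro z hz
          rw [← hcomap, Subgroup.mem_comap] at hz ⊢
          have := (Subgroup.mem_normalizer_iff.1 hy (f z)).1 hz
          simpa [f] using this
        have hle1 : (Q : Subgroup G) ≤ L := le_sup_left
        have hgQ : ((g • Q : Sylow q G) : Subgroup G) ≤ L := by
          intro z hz
          rw [Sylow.coe_subgroup_smul, Subgroup.mem_pointwise_smul_iff_inv_smul_mem, ← map_inv,
            MulAut.smul_def, MulAut.conj_apply, inv_inv] at hz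
          have := hgL _ (hle1 hz)
          simpa [mul_assoc] using this
        obtain ⟨l, hl⟩ := MulAction.exists_smul_eq L ((g • Q).subtype hgQ) (Q.subtype hle1)
        rw [Sylow.smul_subtype] at hl
        have hlQ : (((l : G) • g • Q : Sylow q G)) = Q := Sylow.subtype_injective hl
        have hlg : (l : G) * g ∈ H := by
          exact Sylow.smul_eq_iff_mem_normalizer.1 ((mul_smul _ _ _).trans hlQ)
        obtain ⟨u, hu, w, hw, hwl⟩ := Subgroup.mem_sup_of_normal_right.1 l.2
        have hm : f ((l : G) * g) ∈ H.map f := Subgroup.mem_map_of_mem _ hlg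
        have hu' : f u ∈ H.map f := Subgroup.mem_map_of_mem _ (hH ▸ Subgroup.le_normalizer hu)
        have hf : f (l : G) = f u := by
          rw [← hwl, map_mul, show f w = 1 from (QuotientGroup.eq_one_iff w).2 hw, mul_one]
        rw [map_mul, hf] at hm
        exact ((H.map f).mul_mem_cancel_left hu').1 hm
      have e : (H ⊔ N).index = (H.map f).index := by
        rw [Subgroup.index_map, QuotientGroup.ker_mk', f.range_eq_top.2 (QuotientGroup.mk'_surjective N),
          Subgroup.index_top, mul_one]
      rw [e] at hd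
      obtain ⟨z, hz⟩ := MulAction.exists_smul_eq (G ⧸ N) Q' Qb
      refine hQb (hd.trans ((Subgroup.index_dvd_of_le himg).trans (dvd_of_eq ?_)))
      have e1 : ∀ P : Sylow q (G ⧸ N),
          (Subgroup.normalizer ((P : Subgroup (G ⧸ N)) : Set (G ⧸ N))).index =
            (MulAction.orbit (G ⧸ N) P).ncard := fun P => by
        rw [← MulAction.index_stabilizer, Sylow.stabilizer_eq_normalizer]
        rfl
      rw [← hz, e1, e1, MulAction.orbit_smul]

/-- Let p and q be primes and G a finite group that is p-solvable or q-solvable, in which no q-element has conjugacy class size divisible by p. Then some Sylow p-subgroup of G normalizes some Sylow q-subgroup of G. -/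
theorem result {G : Type*} [Group G] [Finite G] (p q : ℕ) [Fact p.Prime] [Fact q.Prime] (hsolv : Cfsg.IsPSolvable p G ∨ Cfsg.IsPSolvable q G)
    (h : ∀ y : G, (∃ k : ℕ, orderOf y = q ^ k) → ¬ p ∣ (Subgroup.centralizer ({y} : Set G)).index) :
    ∃ (P : Sylow p G) (Q : Sylow q G), (P : Subgroup G) ≤ Subgroup.normalizer ((Q : Subgroup G) : Set G) := by
  suffices h' : ∃ Q : Sylow q G, ¬ p ∣ (Subgroup.normalizer ((Q : Subgroup G) : Set G)).index by
    obtain ⟨Q, hQ⟩ := h'
    set H := Subgroup.normalizer ((Q : Subgroup G) : Set G) with hH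
    obtain ⟨R⟩ : Nonempty (Sylow p H) := inferInstance
    refine ⟨(R.2.map H.subtype).toSylow ?_, Q, Subgroup.map_subtype_le _⟩
    rw [Subgroup.index_map_subtype]
    exact (Nat.Prime.not_dvd_mul Fact.out R.not_dvd_index hQ)
  rcases hsolv with hs | hs
  · exact aux p q p (Or.inl rfl) _ G rfl hs h
  · exact aux p q q (Or.inr rfl) _ G rfl hs h

end Cfsg.Agent.S4601
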