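import Cfsg.Statements.S4602
import Mathlib.Tactic
import Cfsg.Agent.PCore.Descent

set_option autoImplicit false
open Cfsg
open scoped commutatorElement

namespace Cfsg.Agent.S4602

/-- Let G be a finite p-solvable group and q a prime different from p. Some Sylow p-subgroup of G normalizes some Sylow q-subgroup of G if and only if q does not divide the order of G/O_{p'}(G), the quotient by the largest normal subgroup of order prime to p. -/
theorem result {G : Type*} [Group G] [Finite G] (p q : ℕ) [Fact p.Prime] [Fact q.Prime] (hpq : p ≠ q) (hsolv : Cfsg.IsPSolvable p G) :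
    (∃ (P : Sylow p G) (Q : Sylow q G), (P : Subgroup G) ≤ Subgroup.normalizer ((Q : Subgroup G) : Set G)) ↔ ¬ q ∣ (Cfsg.pPrimeCore p G).index := by
  set O := Cfsg.pPrimeCore p G with hO
  have hOc := CfsgLib.PCore.pPrimeCore_coprime p G
  have hp : p.Prime := Fact.out
  have hq : q.Prime := Fact.out
  constructor
  · rintro ⟨P, Q, hPQ⟩
    set π := QuotientGroup.mk' O
    have hP : (Cfsg.pCore p (G ⧸ O)) ≤ (P : Subgroup G).map π := by
      have := CfsgLib.PCore.pCore_le_sylow (P.mapSurjective (QuotientGroup.mk'_surjective O))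
      simpa using this
    have hQb : IsPGroup q ↥((Q : Subgroup G).map π) := Q.2.map π
    have hQcop : (Nat.card ↥((Q : Subgroup G).map π)).Coprime p := by
      obtain ⟨m, hm⟩ := IsPGroup.iff_card.1 hQb
      rw [hm]; exact ((Nat.coprime_primes hq hp).2 hpq.symm).pow_left m
    have hQC : (Q : Subgroup G).map π ≤ Subgroup.centralizer (Cfsg.pCore p (G ⧸ O) : Set (G ⧸ O)) := by
      intro b hb
      refine Subgroup.mem_centralizer_iff.2 fun a (ha : a ∈ Cfsg.pCore p (G ⧸ O)) => ?_
      have hd := CfsgLib.PCore.inf_eq_bot_of_isPGroup_of_coprime (CfsgLib.PCore.isPGroup_pCore p (G ⧸ O)) hQcop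
      have h1 : ⁅a, b⁆ ∈ Cfsg.pCore p (G ⧸ O) ⊓ (Q : Subgroup G).map π := by
        refine ⟨?_, ?_⟩
        · rw [commutatorElement_def, mul_assoc, mul_assoc]
          refine mul_mem ha ?_
          rw [← mul_assoc]
          exact (Cfsg.pCore_normal p _).conj_mem _ (inv_mem ha) b
        · rw [commutatorElement_def]
          refine mul_mem ?_ (((Q : Subgroup G).map π).inv_mem hb)
          have hn : a ∈ Subgroup.normalizer (((Q : Subgroup G).map π : Subgroup _) : Set (G ⧸ O)) :=
            Subgroup.le_normalizer_map _ (Subgroup.map_mono hPQ (hP ha))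
          exact (Subgroup.mem_normalizer_iff.1 hn b).1 hb
      rw [hd, Subgroup.mem_bot, commutatorElement_eq_one_iff_mul_comm] at h1
      exact h1
    have hQO : (Q : Subgroup G) ≤ O := by
      have h2 : (Q : Subgroup G).map π ≤ Cfsg.pCore p (G ⧸ O) := hQC.trans
        (CfsgLib.PCore.hall_higman (CfsgLib.PCore.isPSolvable_quotient hsolv O) CfsgLib.PCore.pPrimeCore_quotient)
      have h3 : (Q : Subgroup G).map π = ⊥ := by
        rw [← inf_eq_right.2 h2]
        exact CfsgLib.PCore.inf_eq_bot_of_isPGroup_of_coprime (CfsgLib.PCore.isPGroup_pCore p _) hQcop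
      have := (Subgroup.map_eq_bot_iff _).1 h3
      rwa [QuotientGroup.ker_mk'] at this
    exact fun hd => Q.not_dvd_index (hd.trans (Subgroup.index_dvd_of_le hQO))
  · intro hqO
    obtain ⟨Q₀⟩ : Nonempty (Sylow q ↥O) := inferInstance
    set Q := (Q₀ : Subgroup ↥O).map O.subtype
    have hQO : Q ≤ O := Subgroup.map_subtype_le _
    have hidx : ¬ q ∣ Q.index := by
      rw [← Subgroup.relIndex_mul_index hQO]
      intro hd
      rcases (Nat.Prime.dvd_mul hq).1 hd with h | h
      · rw [Subgroup.relIndex, Subgroup.subgroupOf,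
          Subgroup.comap_map_eq_self_of_injective Subtype.val_injective] at h
        exact Q₀.not_dvd_index h
      · exact hqO h
    set N := Subgroup.normalizer (Q : Set G)
    have hfr : N ⊔ O = ⊤ := Sylow.normalizer_sup_eq_top Q₀
    obtain ⟨P₀⟩ : Nonempty (Sylow p ↥N) := inferInstance
    have hPidx : ¬ p ∣ ((P₀ : Subgroup ↥N).map N.subtype).index := by
      rw [← Subgroup.relIndex_mul_index (Subgroup.map_subtype_le _ : (P₀ : Subgroup ↥N).map N.subtype ≤ N)]
      intro hd
      rcases (Nat.Prime.dvd_mul hp).1 hd with h | h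
      · rw [Subgroup.relIndex, Subgroup.subgroupOf,
          Subgroup.comap_map_eq_self_of_injective Subtype.val_injective] at h
        exact P₀.not_dvd_index h
      · have h1 : O.relIndex N = O.index := by
          rw [← Subgroup.relIndex_top_right O, ← hfr, Subgroup.relIndex_sup_right]
        have h2 : Nat.card N * N.index = Nat.card G := Subgroup.card_mul_index N
        have h3 : Nat.card ↥(O ⊓ N) * O.relIndex N = Nat.card N := by
          rw [← Subgroup.relIndex_bot_left (O ⊓ N), ← Subgroup.relIndex_bot_left N, ← Subgroup.inf_relIndex_right O N]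
          exact Subgroup.relIndex_mul_relIndex _ _ _ bot_le inf_le_right
        have h4 : Nat.card ↥(O ⊓ N) * N.index = Nat.card O := by
          refine Nat.eq_of_mul_eq_mul_right (Nat.pos_of_ne_zero (Subgroup.index_ne_zero_of_finite (H := O))) ?_
          rw [Subgroup.card_mul_index, ← h2, ← h3, h1]; ring
        exact hp.coprime_iff_not_dvd.1 hOc.symm (h.trans (h4 ▸ Dvd.intro_left _ rfl))
    exact ⟨(P₀.2.map N.subtype).toSylow hPidx, (Q₀.2.map O.subtype).toSylow hidx,
      Subgroup.map_subtype_le _⟩

end Cfsg.Agent.S4602
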