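import Cfsg.Statements.S4604
import Cfsg.Agent.BrauerInd.RegularSep
import Cfsg.Agent.Blocks.Glauberman

set_option autoImplicit false
open Cfsg

namespace Cfsg.Agent.S4604

/-- Let G be a finite group, p a prime and p^a the p-part of the order of G. Let x, y ∈ G and let x′, y′ be their p-regular parts: x′ has order prime to p, commutes with x·x′⁻¹, and x·x′⁻¹ has p-power order (likewise for y). Then x′ and y′ are conjugate in G if and only if for every irreducible character χ of G the algebraic integer χ(x)^(p^a) − χ(y)^(p^a) is p times an algebraic integer. -/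
theorem result {G : Type*} [Group G] [Finite G] (p : ℕ) [Fact p.Prime] (x y x' y' : G)
    (hx : (∃ k : ℕ, orderOf (x * x'⁻¹) = p ^ k) ∧ Commute (x * x'⁻¹) x' ∧ ¬ p ∣ orderOf x')
    (hy : (∃ k : ℕ, orderOf (y * y'⁻¹) = p ^ k) ∧ Commute (y * y'⁻¹) y' ∧ ¬ p ∣ orderOf y') :
    IsConj x' y' ↔ ∀ χ : Cfsg.IrrCharacter G, ∃ γ : Cfsg.AlgInt,
      (χ : G → ℂ) x ^ (p ^ (Nat.card G).factorization p) - (χ : G → ℂ) y ^ (p ^ (Nat.card G).factorization p) = (p : ℂ) * (γ : ℂ) := by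
  have hp : p.Prime := Fact.out
  have ex : x * x'⁻¹ * x' = x := inv_mul_cancel_right x x'
  have ey : y * y'⁻¹ * y' = y := inv_mul_cancel_right y y'
  constructor
  · intro h χ
    obtain ⟨c, hc⟩ := isConj_iff.1 h
    have hχ := CfsgLib.CharBasics.isCharacter_of_irr χ.2
    obtain ⟨γ, hγ⟩ := CfsgLib.BrauerInd.pow_sub_apply_pow hp hχ x ((Nat.card G).factorization p)
    obtain ⟨δ, hδ⟩ := CfsgLib.BrauerInd.pow_sub_apply_pow hp hχ y ((Nat.card G).factorization p)
    have h1 := CfsgLib.BrauerInd.mul_pow_eq_of_pelt hp hx.2.1 hx.1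
    have h2 := CfsgLib.BrauerInd.mul_pow_eq_of_pelt hp hy.2.1 hy.1
    rw [ex] at h1; rw [ey] at h2
    rw [h1] at hγ
    rw [h2, ← hc, conj_pow, CfsgLib.CharBasics.isClassFunction hχ] at hδ
    refine ⟨γ - δ, ?_⟩
    push_cast
    linear_combination hγ - hδ
  · intro h
    by_contra hcon
    obtain ⟨M, hM⟩ := CfsgLib.Blocks.exists_modular hp
    obtain ⟨χ, hχ⟩ := CfsgLib.BrauerInd.exists_sep hM hx.2.2 hy.2.2 hcon
    have hch := CfsgLib.CharBasics.isCharacter_of_irr χ.2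
    obtain ⟨γ, hγ⟩ := h χ
    have h0 := CfsgLib.BrauerInd.sub_mem_of_pow_sub hM (CfsgLib.CharBasics.isIntegral_apply hch x)
      (CfsgLib.CharBasics.isIntegral_apply hch y) ((Nat.card G).factorization p) hγ
    have h1 := CfsgLib.BrauerInd.apply_mul_sub_mem hM hch hx.2.1 hx.1
    have h2 := CfsgLib.BrauerInd.apply_mul_sub_mem hM hch hy.2.1 hy.1
    rw [ex] at h1; rw [ey] at h2
    refine hχ ?_
    have e : (χ : G → ℂ) x' - (χ : G → ℂ) y' = ((χ : G → ℂ) x - (χ : G → ℂ) y) - ((χ : G → ℂ) x - (χ : G → ℂ) x')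
        + ((χ : G → ℂ) y - (χ : G → ℂ) y') := by ring
    rw [e]
    exact CfsgLib.Blocks.memLocalIdeal_add hM (CfsgLib.Blocks.memLocalIdeal_sub hM h0 h1) h2

end Cfsg.Agent.S4604
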