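import Cfsg.Statements.S4611
import Cfsg.Agent.S4487
import Cfsg.Agent.Blocks.Covering
import Cfsg.Agent.PCore.Basic
import Cfsg.Agent.SolvTwoCore.Basic
import Cfsg.Agent.CharBasics.Extra

set_option autoImplicit false
set_option linter.style.haveILetI false
set_option linter.unusedSectionVars false
open Cfsg
open CfsgLib CfsgLib.CharBasics CfsgLib.Blocks

namespace Cfsg.Agent.S4611

theorem core_in_kernel {G : Type*} [Group G] [Fintype G] {p : ℕ} [Fact p.Prime] {M : Ideal AlgInt}
    (hM : IsPModular p M) {χ : IrrCharacter G} (hχ : χ ∈ principalBlock M G) {n : G} (hn : n ∈ pPrimeCore p G) :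
    (χ : G → ℂ) n = (χ : G → ℂ) 1 := by
  haveI := (PCore.pPrimeCore_mem p G).1
  haveI := Fintype.ofFinite (pPrimeCore p G)
  refine eq_one_of_constituent_one ?_ hn
  have h1 : classInner (fun n : pPrimeCore p G => ((oneChar : IrrCharacter G) : G → ℂ) n) (fun _ => (1 : ℂ)) ≠ 0 := by
    rw [show (fun n : pPrimeCore p G => ((oneChar : IrrCharacter G) : G → ℂ) n) = fun _ => (1 : ℂ) from rfl,
      classInner_self isIrrCharacter_one]
    exact one_ne_zero
  exact constituent_of_sameBlock hM (PCore.not_dvd_card_pPrimeCore p G) (ψ := χ) (χ := oneChar) hχ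
    (θ := ⟨fun _ => 1, isIrrCharacter_one⟩) h1

theorem mem_principal_of_kernel {G : Type*} [Group G] [Fintype G] [Group.IsSolvable G] {p : ℕ} [Fact p.Prime]
    {M : Ideal AlgInt} (hM : IsPModular p M) {χ : IrrCharacter G}
    (hχ : ∀ n ∈ pPrimeCore p G, (χ : G → ℂ) n = (χ : G → ℂ) 1) : χ ∈ principalBlock M G := by
  haveI := (PCore.pPrimeCore_mem p G).1
  obtain ⟨ψ, hψ⟩ := exists_quotient_irr χ (pPrimeCore p G) hχ
  haveI : Group.IsSolvable (G ⧸ pPrimeCore p G) :=
    solvable_of_surjective (f := QuotientGroup.mk' (pPrimeCore p G)) (QuotientGroup.mk'_surjective _)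
  have hq : pPrimeCore p (G ⧸ pPrimeCore p G) = ⊥ := PCore.pPrimeCore_quotient
  have hs := Cfsg.Agent.S4487.result p M hM hq
    (SolvTwoCore.centralizer_pCore_le fun N hN hcop => eq_bot_iff.2 (hq ▸ PCore.le_pPrimeCore hN hcop))
    (oneChar : IrrCharacter (G ⧸ pPrimeCore p G)) ψ
  have h2 := sameBlock_inflate hM (χ := oneChar) (ψ := ψ) hs
  have e : (χ : G → ℂ) = (ψ : G ⧸ pPrimeCore p G → ℂ) ∘ QuotientGroup.mk := funext fun g => (hψ g).symm
  show SameBlock M (_ : G → ℂ) (χ : G → ℂ)
  rw [e]
  exact h2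

/-- Let G be a finite solvable group and π a nonempty set of primes, each dividing the order of G; fix for each p in π a maximal ideal M p of the algebraic integers containing p. Then the only irreducible character lying in the principal p-block for every p in π is the principal character if and only if G is generated by the subgroups O_{p'}(G), p in π (the largest normal subgroups of order prime to p). -/
theorem result {G : Type*} [Group G] [Finite G] [Group.IsSolvable G] (π : Set ℕ) (hπ : ∀ p ∈ π, p.Prime ∧ p ∣ Nat.card G) (hne : π.Nonempty) (M : ℕ → Ideal Cfsg.AlgInt) (hM : ∀ p ∈ π, Cfsg.IsPModular p (M p)) :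
    (∀ χ : Cfsg.IrrCharacter G, (∀ p ∈ π, χ ∈ Cfsg.principalBlock (M p) G) → (χ : G → ℂ) = fun _ => 1) ↔
      ⨆ p ∈ π, Cfsg.pPrimeCore p G = ⊤ := by
  classical
  haveI : Fintype G := Fintype.ofFinite G
  set K := ⨆ p ∈ π, Cfsg.pPrimeCore p G with hK
  have hnK : ∀ p, (pPrimeCore p G).Normal := fun p => (PCore.pPrimeCore_mem p G).1
  haveI hKn : K.Normal := by
    rw [hK]
    exact Subgroup.biSup_normal π _ fun p _ => hnK p
  constructor
  · intro h
    by_contra hne'
    haveI : Nontrivial (G ⧸ K) := QuotientGroup.nontrivial_iff.2 hne'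
    haveI : Fintype (G ⧸ K) := Fintype.ofFinite _
    haveI : Fintype (IrrCharacter (G ⧸ K)) := @Fintype.ofFinite _ finite_irrCharacter
    obtain ⟨ψ, hψ⟩ : ∃ ψ : IrrCharacter (G ⧸ K), ψ ≠ oneChar := by
      by_contra hc
      push Not at hc
      have h1 := sum_sq_degree (G := G ⧸ K)
      rw [Finset.sum_eq_single (oneChar : IrrCharacter (G ⧸ K)) (fun b _ hb => absurd (hc b) hb) (by simp)] at h1
      have h2 : charDegree ((oneChar : IrrCharacter (G ⧸ K)) : G ⧸ K → ℂ) = 1 := by simp [charDegree, oneChar_apply]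
      rw [h2, one_pow] at h1
      exact (Finite.one_lt_card (α := G ⧸ K)).ne h1
    apply hψ
    let χ : IrrCharacter G := ⟨_, irr_comp_of_surjective ψ.2 (QuotientGroup.mk' K) (QuotientGroup.mk'_surjective K)⟩
    have hχ := h χ fun p hp => by
      haveI := Fact.mk (hπ p hp).1
      refine mem_principal_of_kernel (hM p hp) fun n hn => ?_
      have hnK : n ∈ K := by
        rw [hK]
        exact Subgroup.mem_iSup_of_mem p (Subgroup.mem_iSup_of_mem hp hn)
      show (ψ : G ⧸ K → ℂ) (n : G ⧸ K) = (ψ : G ⧸ K → ℂ) ((1 : G) : G ⧸ K)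
      rw [(QuotientGroup.eq_one_iff n).2 hnK]; rfl
    refine Subtype.ext (funext fun q => ?_)
    obtain ⟨g, rfl⟩ := QuotientGroup.mk_surjective q
    exact congrFun hχ g
  · intro htop χ hχ
    obtain ⟨n, ρ, hirr, hρ⟩ := χ.2
    have hker : K ≤ ρ.ker := by
      rw [hK]
      refine iSup₂_le fun p hp g hg => ?_
      haveI := Fact.mk (hπ p hp).1
      have h1 := core_in_kernel (hM p hp) (hχ p hp) hg
      rw [← hρ] at h1
      exact MonoidHom.mem_ker.2 (eq_id_of_character_eq ρ g h1)
    have hconst : ∀ g, (χ : G → ℂ) g = (χ : G → ℂ) 1 := by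
      intro g
      have hg : ρ g = 1 := MonoidHom.mem_ker.1 (hker (htop ▸ Subgroup.mem_top g))
      rw [← hρ]
      simp [Representation.character, hg]
    by_contra hne''
    have h0 := classInner_ne χ.2 isIrrCharacter_one hne''
    rw [classInner_eq] at h0
    simp [hconst, apply_one_ne_zero χ.2, Nat.card_pos.ne'] at h0

end Cfsg.Agent.S4611
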