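import Cfsg.Statements.S4613
import Cfsg.Agent.SylowRigid.Families

set_option autoImplicit false
open Cfsg

namespace Cfsg.Agent.S4613

/-- Let G be a finite simple group of Lie type in characteristic p and α an automorphism of G of order prime to p that fixes some Sylow p-subgroup of G elementwise. Then α is the identity. -/
theorem result {G : Type*} [Group G] [Finite G] [IsSimpleGroup G] (p : ℕ) [Fact p.Prime] (hG : Cfsg.IsLieTypeChar p G) (α : MulAut G) (hα : ¬ p ∣ orderOf α) (U : Sylow p G) (hfix : ∀ x ∈ (U : Subgroup G), α x = x) : α = 1 := by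
  have key : ∀ {Q : Type} [Group Q] (e : G ≃* Q),
      ([IsSimpleGroup Q] → CfsgLib.SylowRigid.Rigid p Q) → α = 1 := by
    intro Q _ e h
    haveI : IsSimpleGroup Q := e.isSimpleGroup_congr.1 inferInstance
    exact CfsgLib.SylowRigid.Rigid.of_equiv e h α hα U hfix
  rcases hG with ⟨F, iF, iT, iC, n, hn, -, ⟨e⟩⟩ | ⟨F, iF, iT, iC, m, hm, -, ⟨e⟩⟩ |
    ⟨F, iF, iT, iC, n, q, hF, hn, -, ⟨e⟩⟩ | ⟨F, iF, iT, iC, m, hm, hodd, ⟨e⟩⟩ |
    ⟨F, iF, iT, iC, m, hm, ⟨e⟩⟩ | ⟨F, iF, iT, iC, m, a, b, hm, hab, ⟨e⟩⟩ |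
    ⟨F, iF, iT, iC, h⟩ | ⟨K, iF, iT, iC, q, hq, h⟩ | ⟨h2, F, iF, iT, m, hm, hF, ⟨e⟩⟩ |
    ⟨h2, K, iF, iT, m, hm, hK, ⟨e⟩⟩ | ⟨h3, K, iF, iT, m, hm, hK, ⟨e⟩⟩
  · exact key e (CfsgLib.SylowRigid.SL.rigid_psl hn)
  · exact key e (CfsgLib.SylowRigid.rigid_psp (by omega))
  · exact key e (CfsgLib.SylowRigid.rigid_psu (by omega) hF)
  · exact key e (CfsgLib.SylowRigid.rigid_odd (by omega) hodd)
  · exact key e (CfsgLib.SylowRigid.rigid_plus (by omega))
  · exact key e (CfsgLib.SylowRigid.rigid_minus (by omega) hab)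
  · rcases h with ⟨-, ⟨e⟩⟩ | ⟨⟨e⟩⟩ | ⟨⟨e⟩⟩ | ⟨⟨e⟩⟩ | ⟨⟨e⟩⟩
    · exact key e (CfsgLib.SylowRigid.rigid_chev CfsgLib.Chev.sysG2 (by decide))
    · exact key e (CfsgLib.SylowRigid.rigid_chev CfsgLib.Chev.sysF4 (by decide))
    · exact key e (CfsgLib.SylowRigid.rigid_chev CfsgLib.Chev.sysE6 (by decide))
    · exact key e (CfsgLib.SylowRigid.rigid_chev CfsgLib.Chev.sysE7 (by decide))
    · exact key e (CfsgLib.SylowRigid.rigid_chev CfsgLib.Chev.sysE8 (by decide))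
  · rcases h with ⟨hK, ⟨e⟩⟩ | ⟨hK, ⟨e⟩⟩
    · refine key e ?_
      intro hs
      haveI : IsSimpleGroup (CfsgLib.Chev.Twisted.E6.gdata hq hK).G1 := hs
      exact CfsgLib.SylowRigid.rigid_gdata (by norm_num) (CfsgLib.Chev.Twisted.E6.gdata hq hK)
    · refine key e ?_
      intro hs
      haveI : IsSimpleGroup (CfsgLib.Chev.Twisted.D4.gdata hq hK).G1 := hs
      exact CfsgLib.SylowRigid.rigid_gdata (by norm_num) (CfsgLib.Chev.Twisted.D4.gdata hq hK)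
  · subst h2
    exact key e (CfsgLib.SylowRigid.rigid_sz (m := m) ⟨hm, hF⟩)
  · subst h2
    haveI := CfsgLib.Chev.Ree4.charP_two hK
    have hK' : Nat.card K = 2 ^ (2 * m + 1) := by rw [Nat.card_eq_fintype_card, hK]
    refine key e ?_
    intro hs
    haveI : IsSimpleGroup (CfsgLib.Chev.Ree4.gdata K m hK').G1 := hs
    exact CfsgLib.SylowRigid.rigid_gdata (by norm_num) (CfsgLib.Chev.Ree4.gdata K m hK')
  · subst h3
    haveI := CfsgLib.Chev.Ree.charP_three hK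
    have hK' : Nat.card K = 3 ^ (2 * m + 1) := by rw [Nat.card_eq_fintype_card, hK]
    refine key e ?_
    intro hs
    haveI : IsSimpleGroup (CfsgLib.Chev.Ree.gdata K m hK').G1 := hs
    exact CfsgLib.SylowRigid.rigid_gdata (by norm_num) (CfsgLib.Chev.Ree.gdata K m hK')

end Cfsg.Agent.S4613
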