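import Cfsg.Statements.S4620
import Cfsg.Agent.PCore.Basic

set_option autoImplicit false
set_option linter.style.haveILetI false
set_option linter.unusedSectionVars false
open scoped Pointwise
open Cfsg
open CfsgLib

namespace Cfsg.Agent.S4620

variable {H : Type*} [Group H] [Finite H] {p : ℕ} [Fact p.Prime]

/-- Membership in a conjugate. -/
theorem mem_conj {G : Type*} [Group G] {K : Subgroup G} {g x : G} :
    x ∈ MulAut.conj g • K ↔ g⁻¹ * x * g ∈ K := by
  rw [Subgroup.mem_pointwise_smul_iff_inv_smul_mem, ← map_inv, MulAut.smul_def, MulAut.conj_apply, inv_inv]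

/-- Every Sylow subgroup has the trivial intersection property. -/
theorem ti_all {P : Sylow p H}
    (hTI : ∀ g : H, g ∉ Subgroup.normalizer ((P : Subgroup H) : Set H) → (P : Subgroup H) ⊓ (MulAut.conj g • (P : Subgroup H)) = ⊥)
    (R : Sylow p H) {n x : H} (hx : x ∈ (R : Subgroup H)) (hx1 : x ≠ 1) (hnx : n⁻¹ * x * n ∈ (R : Subgroup H)) :
    n ∈ Subgroup.normalizer ((R : Subgroup H) : Set H) := by
  obtain ⟨g, rfl⟩ := MulAction.exists_smul_eq H P R
  rw [Sylow.coe_subgroup_smul] at hx hnx ⊢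
  rw [mem_conj] at hx hnx
  by_contra hn
  have hn' : g⁻¹ * n * g ∉ Subgroup.normalizer ((P : Subgroup H) : Set H) := by
    intro hk
    apply hn
    rw [Subgroup.mem_normalizer_iff] at hk ⊢
    intro y
    rw [mem_conj, mem_conj, hk]
    have e : g⁻¹ * n * g * (g⁻¹ * y * g) * (g⁻¹ * n * g)⁻¹ = g⁻¹ * (n * y * n⁻¹) * g := by group
    rw [e]
  have h1 : g⁻¹ * x * g ∈ (P : Subgroup H) ⊓ MulAut.conj (g⁻¹ * n * g) • (P : Subgroup H) := by
    refine Subgroup.mem_inf.2 ⟨hx, ?_⟩
    rw [mem_conj]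
    have e : (g⁻¹ * n * g)⁻¹ * (g⁻¹ * x * g) * (g⁻¹ * n * g) = g⁻¹ * (n⁻¹ * x * n) * g := by group
    rw [e]; exact hnx
  rw [hTI _ hn', Subgroup.mem_bot] at h1
  apply hx1
  have : x = g * (g⁻¹ * x * g) * g⁻¹ := by group
  rw [this, h1]; group

/-- A commuting pair of normal subgroups with `p`-elements forces a normal `p`-subgroup. -/
theorem absurd_commuting {N : Subgroup H} {P : Sylow p H}
    (hTI : ∀ g : H, g ∉ Subgroup.normalizer ((P : Subgroup H) : Set H) → (P : Subgroup H) ⊓ (MulAut.conj g • (P : Subgroup H)) = ⊥)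
    {K L : Subgroup N} (hL : L.Normal) (hcore : pCore p N = ⊥)
    (hcomm : ∀ k ∈ K, ∀ l ∈ L, k * l = l * k) (hK : p ∣ Nat.card K) (hLp : p ∣ Nat.card L) : False := by
  classical
  haveI := hL
  obtain ⟨x, hx⟩ := exists_prime_orderOf_dvd_card' p hK
  have hx' : orderOf ((x : N) : H) = p ^ 1 := by
    rw [Subgroup.orderOf_coe, Subgroup.orderOf_coe, hx, pow_one]
  obtain ⟨R, hR⟩ := (IsPGroup.of_card (G := Subgroup.zpowers ((x : N) : H)) (p := p) (n := 1)
    (by rw [Nat.card_zpowers, hx'])).exists_le_sylow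
  have hxR := hR (Subgroup.mem_zpowers _)
  have hx1 : ((x : N) : H) ≠ 1 := fun h => by
    rw [h, orderOf_one, pow_one] at hx'
    exact (Fact.out : p.Prime).one_lt.ne hx'
  have hLN : ∀ l : L, ((l : N) : H) ∈ Subgroup.normalizer ((R : Subgroup H) : Set H) := by
    intro l
    refine ti_all hTI R hxR hx1 ?_
    have h1 := congrArg (fun u : N => (u : H)) (hcomm x x.2 l l.2)
    simp only [Subgroup.coe_mul] at h1
    rw [mul_assoc, h1, inv_mul_cancel_left]
    exact hxR
  obtain ⟨y, hy⟩ := exists_prime_orderOf_dvd_card' p hLp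
  have hy' : orderOf ((y : N) : H) = p := by rw [Subgroup.orderOf_coe, Subgroup.orderOf_coe, hy]
  have hyR : ((y : N) : H) ∈ (R : Subgroup H) := by
    have hY : IsPGroup p (Subgroup.zpowers ((y : N) : H)) :=
      IsPGroup.of_card (n := 1) (by rw [Nat.card_zpowers, hy', pow_one])
    have hle : Subgroup.zpowers ((y : N) : H) ≤ Subgroup.normalizer ((R : Subgroup H) : Set H) :=
      Subgroup.zpowers_le.2 (hLN y)
    have := R.3 (R.2.to_sup_of_normal_left' hY hle) le_sup_left
    rw [← this]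
    exact Subgroup.mem_sup_right (Subgroup.mem_zpowers _)
  let RL : Subgroup L := (R : Subgroup H).comap (N.subtype.comp L.subtype)
  have hRLn : RL.Normal := ⟨fun a ha l => by
    show ((((l * a * l⁻¹ : L) : N)) : H) ∈ (R : Subgroup H)
    exact ((Subgroup.mem_normalizer_iff.1 (hLN l)) _).1 ha⟩
  have hRLp : IsPGroup p RL := R.2.comap_of_injective _ (Subtype.val_injective.comp Subtype.val_injective)
  have hmem : (y : N) ∈ (pCore p L).map L.subtype := ⟨y, PCore.le_pCore hRLn hRLp hyR, rfl⟩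
  rw [PCore.map_pCore_normal, hcore, bot_inf_eq, Subgroup.mem_bot] at hmem
  rw [hmem] at hy'
  simp at hy'
  exact (Fact.out : p.Prime).one_lt.ne hy'

/-- Let H be a finite group with no nontrivial normal p-subgroup and no nontrivial normal subgroup of order prime to p, whose Sylow p-subgroup P is nontrivial and a trivial-intersection set (P meets its conjugates by elements outside N_H(P) trivially). Then H has a unique minimal normal subgroup N; N is non-abelian simple with trivial centralizer in H (so H embeds in Aut(N)), and a Sylow p-subgroup of N is again a nontrivial trivial-intersection set in N. -/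
theorem result {H : Type*} [Group H] [Finite H] (p : ℕ) [Fact p.Prime] (hOp : Cfsg.pCore p H = ⊥) (hOp' : Cfsg.pPrimeCore p H = ⊥) (P : Sylow p H) (hP1 : (P : Subgroup H) ≠ ⊥)
    (hTI : ∀ g : H, g ∉ Subgroup.normalizer ((P : Subgroup H) : Set H) → (P : Subgroup H) ⊓ (MulAut.conj g • (P : Subgroup H)) = ⊥) :
    ∃ N : Subgroup H, N.Normal ∧ N ≠ ⊥ ∧ (∀ K : Subgroup H, K.Normal → K ≠ ⊥ → N ≤ K) ∧
      IsSimpleGroup N ∧ ¬ IsMulCommutative N ∧ Subgroup.centralizer (N : Set H) = ⊥ ∧
      ∀ Q : Sylow p N, (Q : Subgroup N) ≠ ⊥ ∧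
        ∀ n : N, n ∉ Subgroup.normalizer ((Q : Subgroup N) : Set N) → (Q : Subgroup N) ⊓ (MulAut.conj n • (Q : Subgroup N)) = ⊥ := by
  classical
  have hHne : (⊤ : Subgroup H) ≠ ⊥ := fun h => hP1 (eq_bot_iff.2 (h ▸ le_top))
  obtain ⟨N, hNS, hmin⟩ := (Set.toFinite {K : Subgroup H | K.Normal ∧ K ≠ ⊥}).exists_minimal
    ⟨⊤, inferInstance, hHne⟩
  obtain ⟨hNn, hN1⟩ := hNS
  have hdvd : ∀ K : Subgroup H, K.Normal → K ≠ ⊥ → p ∣ Nat.card K := by
    intro K hK hK1
    by_contra hd
    exact hK1 (eq_bot_iff.2 (hOp' ▸ PCore.le_pPrimeCore_of_not_dvd hK hd))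
  have hcoreN : ∀ M : Subgroup H, M.Normal → pCore p M = ⊥ := by
    intro M hM
    haveI := hM
    have := PCore.map_pCore_normal (p := p) M
    rw [hOp, bot_inf_eq, Subgroup.map_eq_bot_iff, Subgroup.ker_subtype] at this
    exact le_bot_iff.1 this
  have hcore'N : pPrimeCore p N = ⊥ := by
    have := PCore.map_pPrimeCore_normal (p := p) N
    rw [hOp', bot_inf_eq, Subgroup.map_eq_bot_iff, Subgroup.ker_subtype] at this
    exact le_bot_iff.1 this
  have huniq : ∀ K : Subgroup H, K.Normal → K ≠ ⊥ → N ≤ K := by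
    intro K hK hK1
    by_contra hle
    haveI := hK
    have hinf : N ⊓ K = ⊥ := by
      by_contra hne
      exact hle ((hmin ⟨inferInstance, hne⟩ inf_le_left).trans inf_le_right)
    have hT : pCore p (⊤ : Subgroup H) = ⊥ := hcoreN ⊤ inferInstance
    refine absurd_commuting hTI (N := ⊤) (K := N.subgroupOf ⊤) (L := K.subgroupOf ⊤) inferInstance hT ?_ ?_ ?_
    · intro a ha b hb
      exact Subtype.ext (Subgroup.commute_of_normal_of_disjoint N K hNn hK (disjoint_iff.2 hinf) _ _ ha hb)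
    · rw [Nat.card_congr (Subgroup.subgroupOfEquivOfLe (le_top : N ≤ ⊤)).toEquiv]
      exact hdvd N hNn hN1
    · rw [Nat.card_congr (Subgroup.subgroupOfEquivOfLe (le_top : K ≤ ⊤)).toEquiv]
      exact hdvd K hK hK1
  have hpN : p ∣ Nat.card N := hdvd N hNn hN1
  have hnc : ¬ IsMulCommutative N := by
    intro hc
    obtain ⟨x, hx⟩ := exists_prime_orderOf_dvd_card' p hpN
    have hn : (Subgroup.zpowers x).Normal := ⟨fun a ha b => by
      rw [hc.is_comm.comm b a, mul_inv_cancel_right]; exact ha⟩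
    have := PCore.le_pCore hn (IsPGroup.of_card (p := p) (n := 1) (by rw [Nat.card_zpowers, hx, pow_one]))
      (Subgroup.mem_zpowers x)
    rw [hcoreN N hNn, Subgroup.mem_bot] at this
    rw [this, orderOf_one] at hx
    exact (Fact.out : p.Prime).one_lt.ne hx
  have hC : Subgroup.centralizer (N : Set H) = ⊥ := by
    by_contra hne
    haveI := hNn
    have hle := huniq _ inferInstance hne
    exact hnc ⟨⟨fun a b => Subtype.ext (Subgroup.mem_centralizer_iff.1 (hle b.2) a a.2)⟩⟩
  have hsimple : IsSimpleGroup N := by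
    haveI : Nontrivial N := Subgroup.nontrivial_iff_ne_bot N |>.2 hN1
    refine ⟨fun K₀ hK₀ => ?_⟩
    by_contra hK₀'
    push Not at hK₀'
    obtain ⟨K, ⟨hKn, hK1, hKle⟩, hKmin⟩ :=
      (Set.toFinite {K : Subgroup N | K.Normal ∧ K ≠ ⊥ ∧ K ≤ K₀}).exists_minimal ⟨K₀, hK₀, hK₀'.1, le_rfl⟩
    haveI := hKn
    haveI := hNn
    have hKtop : K ≠ ⊤ := fun h => hK₀'.2 (top_le_iff.1 (h ▸ hKle))
    have hpK : p ∣ Nat.card K := by
      by_contra hd
      exact hK1 (eq_bot_iff.2 (hcore'N ▸ PCore.le_pPrimeCore_of_not_dvd hKn hd))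
    obtain ⟨h, hh⟩ : ∃ h : H, K.map (MulAut.conjNormal h).toMonoidHom ≠ K := by
      by_contra hc
      push Not at hc
      have hn : (K.map N.subtype).Normal := ⟨by
        rintro _ ⟨a, ha, rfl⟩ g
        exact ⟨MulAut.conjNormal g a, (hc g).le ⟨a, ha, rfl⟩, by simp⟩⟩
      have h1 := huniq _ hn (fun h0 => hK1 (by
        rwa [Subgroup.map_eq_bot_iff, Subgroup.ker_subtype, le_bot_iff] at h0))
      refine hKtop (eq_top_iff.2 fun a _ => ?_)
      obtain ⟨b, hb, hba⟩ := h1 a.2
      rwa [← Subtype.ext hba]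
    set K' := K.map (MulAut.conjNormal h).toMonoidHom with hK'
    haveI hK'n : K'.Normal := hKn.map _ (MulAut.conjNormal h).surjective
    have hinf : K ⊓ K' = ⊥ := by
      by_contra hne
      have h1 : K ≤ K' :=
        ((hKmin (y := K ⊓ K') ⟨inferInstance, hne, inf_le_left.trans hKle⟩ inf_le_left)).trans inf_le_right
      exact hh (Subgroup.eq_of_le_of_card_ge h1 (by
        exact le_of_eq (Nat.card_congr (K.equivMapOfInjective _ (MulAut.conjNormal h).injective).toEquiv).symm)).symm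
    refine absurd_commuting hTI (K := K) (L := K') hK'n (hcoreN N hNn) (fun a ha b hb =>
      Subgroup.commute_of_normal_of_disjoint K K' hKn hK'n (disjoint_iff.2 hinf) _ _ ha hb) hpK ?_
    rwa [← Nat.card_congr (K.equivMapOfInjective (MulAut.conjNormal h).toMonoidHom (MulAut.conjNormal h).injective).toEquiv]
  refine ⟨N, hNn, hN1, huniq, hsimple, hnc, hC, fun Q => ⟨?_, fun n hn => ?_⟩⟩
  · intro h0
    have := Q.card_eq_multiplicity
    rw [h0, Subgroup.card_bot] at this
    have h2 : 0 < (Nat.card N).factorization p :=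
      (Fact.out : p.Prime).factorization_pos_of_dvd Nat.card_pos.ne' hpN
    exact (Nat.one_lt_pow h2.ne' (Fact.out : p.Prime).one_lt).ne this
  · obtain ⟨R, hR⟩ := (Q.2.map N.subtype).exists_le_sylow
    have hQR : (Q : Subgroup N) = (R : Subgroup H).subgroupOf N :=
      (Q.3 (R.2.comap_of_injective N.subtype Subtype.val_injective) fun a ha => hR ⟨a, ha, rfl⟩).symm
    by_contra hne
    obtain ⟨⟨x, hx⟩, hx1⟩ := (Subgroup.ne_bot_iff_exists_ne_one).1 hne
    apply hn
    rw [Subgroup.mem_inf, mem_conj] at hx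
    have hxR : (x : H) ∈ (R : Subgroup H) := by
      have := hx.1; rw [hQR] at this; exact this
    have hxR' : (n : H)⁻¹ * (x : H) * (n : H) ∈ (R : Subgroup H) := by
      have := hx.2; rw [hQR] at this; exact this
    have hnR := ti_all hTI R hxR (fun h => hx1 (Subtype.ext (Subtype.ext h))) hxR'
    rw [Subgroup.mem_normalizer_iff] at hnR ⊢
    intro y
    rw [hQR, Subgroup.mem_subgroupOf, Subgroup.mem_subgroupOf]
    exact hnR (y : H)

end Cfsg.Agent.S4620
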