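import Cfsg.Statements.S4625
import Cfsg.Agent.SquareComm.Classical
import Cfsg.Agent.SquareComm.Root
import Cfsg.Agent.Chev.Ree4.Results

set_option autoImplicit false
open Cfsg

namespace Cfsg.Agent.S4625

theorem transfer {G H : Type*} [Group G] [Group H] [Finite G] (e : G ≃* H)
    (h : ∀ Q : Sylow 2 H, ∀ x : (Q : Subgroup H), x ^ 2 ∈ commutator (Q : Subgroup H)) (P : Sylow 2 G) :
    ∀ x : (P : Subgroup G), x ^ 2 ∈ commutator (P : Subgroup G) := by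
  haveI : Finite H := Finite.of_equiv G e.toEquiv
  exact CfsgLib.SquareComm.of_surjective e.symm.toMonoidHom e.symm.surjective h P

/-- Let G be a finite simple group of Lie type in characteristic 2, not counting the Tits group ²F₄(2)′. Then a Sylow 2-subgroup P of G has P/P' elementary abelian: the square of every element of P lies in the derived subgroup of P. -/
theorem result {G : Type*} [Group G] [Finite G] [IsSimpleGroup G] (hG : Cfsg.IsLieTypeChar 2 G) (P : Sylow 2 G) :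
    ∀ x : (P : Subgroup G), x ^ 2 ∈ commutator (P : Subgroup G) := by
  rcases hG with ⟨F, iF, iT, iC, n, -, -, ⟨e⟩⟩ | ⟨F, iF, iT, iC, m, -, -, ⟨e⟩⟩ |
    ⟨F, iF, iT, iC, n, q, hF, -, -, ⟨e⟩⟩ | ⟨F, iF, iT, iC, m, -, hodd, -⟩ |
    ⟨F, iF, iT, iC, m, hm, ⟨e⟩⟩ | ⟨F, iF, iT, iC, m, a, b, hm, hab, ⟨e⟩⟩ |
    ⟨F, iF, iT, iC, h⟩ | ⟨K, iF, iT, iC, q, hq, h⟩ | ⟨-, F, iF, iT, m, hm, hF, ⟨e⟩⟩ |
    ⟨-, K, iF, iT, m, hm, hK, ⟨e⟩⟩ | ⟨h, -⟩
  · exact transfer e CfsgLib.SquareComm.psl_sylow P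
  · exact transfer e CfsgLib.SquareComm.psp_sylow P
  · exact transfer e (CfsgLib.SquareComm.psu_sylow hF) P
  · obtain ⟨n, -, hn⟩ := FiniteField.card F 2
    rw [hn] at hodd
    exact absurd hodd (Nat.not_odd_iff_even.2 (Nat.even_pow.2 ⟨even_two, n.2.ne'⟩))
  · exact transfer e (CfsgLib.SquareComm.pomega_plus_sylow hm) P
  · exact transfer e (CfsgLib.SquareComm.pomega_minus_sylow hm hab) P
  · haveI : ∀ D : Cfsg.Lie.ChevalleyDatum, Finite (GL D.Idx F) := fun D => inferInstance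
    rcases h with ⟨-, ⟨e⟩⟩ | ⟨⟨e⟩⟩ | ⟨⟨e⟩⟩ | ⟨⟨e⟩⟩ | ⟨⟨e⟩⟩ <;>
      exact transfer e (CfsgLib.SquareComm.chev_sylow _ (by simp)) P
  · rcases h with ⟨hK, ⟨e⟩⟩ | ⟨hK, ⟨e⟩⟩
    · exact transfer e (CfsgLib.SquareComm.twE6_sylow hq hK) P
    · exact transfer e (CfsgLib.SquareComm.twD4_sylow hq hK) P
  · exact transfer e (CfsgLib.SquareComm.sz_sylow (m := m) ⟨hm, hF⟩) P
  · haveI := CfsgLib.Chev.Ree4.charP_two hK
    exact transfer e (CfsgLib.SquareComm.ree_sylow m hm (by rw [Nat.card_eq_fintype_card, hK])) P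
  · omega

end Cfsg.Agent.S4625
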