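import Cfsg.Statements.S4627
import Cfsg.Agent.Sylow2Ab.GLBlocks

set_option autoImplicit false
open Cfsg

namespace Cfsg.Agent.S4627

open Matrix

theorem four_sylow {q : ℕ} (hq : 4 ∣ q + 1) : (q - 1).factorization 2 = 1 := by
  obtain ⟨r, hr⟩ := hq
  have h : q - 1 = 2 * (2 * r - 1) := by omega
  rw [h, Nat.factorization_mul (by norm_num) (by omega), Finsupp.add_apply, Nat.prime_two.factorization_self,
    Nat.factorization_eq_zero_of_not_dvd (show ¬ 2 ∣ 2 * r - 1 by omega)]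

theorem zmod_two : ∀ a b : ZMod 2, a - b + a = b := by decide

/-- A Sylow `2`-subgroup of `S_{2^j}` generated by involutions and transitive through involutions. -/
theorem exists_perm (j : ℕ) : ∃ T : Subgroup (Equiv.Perm (Fin (2 ^ j))), IsPGroup 2 T ∧
    CfsgLib.Sylow2Ab.GenSq T ∧ Nat.card T = 2 ^ (2 ^ j).factorial.factorization 2 ∧
    ∀ i k, ∃ t ∈ T, t i = k ∧ t k = i := by
  classical
  haveI : Fact (Nat.Prime 2) := ⟨Nat.prime_two⟩
  obtain ⟨S, hSg, hSp, hSc⟩ := Cfsg.Agent.S4623.exists_gen 2 (2 ^ j)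
  let e : (Fin j → ZMod 2) ≃ Fin (2 ^ j) := Fintype.equivFinOfCardEq (by simp)
  let h : Multiplicative (Fin j → ZMod 2) →* Equiv.Perm (Fin (2 ^ j)) :=
    MonoidHom.mk' (fun v => e.permCongr (Equiv.addLeft v.toAdd)) fun a b => Equiv.ext fun x => by
      simp [Equiv.permCongr_apply, add_assoc]
  have hV : IsPGroup 2 h.range := by
    rw [MonoidHom.range_eq_map]
    exact (IsPGroup.of_card (n := j) (by simp)).map h
  obtain ⟨Q, hQ⟩ := hV.exists_le_sylow
  obtain ⟨g, hg⟩ := MulAction.exists_smul_eq (Equiv.Perm (Fin (2 ^ j)))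
    (Sylow.ofCard S (by rw [hSc, Nat.card_perm, Nat.card_fin])) Q
  have hgen : CfsgLib.Sylow2Ab.GenSq (Q : Subgroup (Equiv.Perm (Fin (2 ^ j)))) := by
    subst hg
    exact CfsgLib.Sylow2Ab.genSq_map (CfsgLib.Sylow2Ab.genSq_of_genP hSg) (MulAut.conj g).toMonoidHom
  refine ⟨Q, Q.2, hgen, by rw [Q.card_eq_multiplicity, Nat.card_perm, Nat.card_fin], fun i k => ?_⟩
  refine ⟨h (Multiplicative.ofAdd (e.symm k - e.symm i)), hQ ⟨_, rfl⟩, ?_, ?_⟩
  · show e ((e.symm k - e.symm i) + e.symm i) = k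
    simp
  · show e ((e.symm k - e.symm i) + e.symm k) = i
    rw [show (e.symm k - e.symm i) + e.symm k = e.symm i from funext fun x => ?_, Equiv.apply_symm_apply]
    show e.symm k x - e.symm i x + e.symm k x = e.symm i x
    exact zmod_two _ _

/-- Let F be a finite field of odd order q and m ≥ 1. If 4 divides q + 1, or if 4 divides q − 1 and m is a power of 2, then a Sylow 2-subgroup P of SL_{2m}(F) has P/P' elementary abelian: the square of every element of P lies in the derived subgroup of P. -/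
theorem result {F : Type*} [Field F] [Fintype F] (hF : Odd (Fintype.card F)) (m : ℕ) (hm : 1 ≤ m)
    (hq : 4 ∣ Fintype.card F + 1 ∨ (4 ∣ Fintype.card F - 1 ∧ ∃ j : ℕ, m = 2 ^ j)) (P : Sylow 2 (Matrix.SpecialLinearGroup (Fin (2 * m)) F)) :
    ∀ x : (P : Subgroup (Matrix.SpecialLinearGroup (Fin (2 * m)) F)), x ^ 2 ∈ commutator (P : Subgroup (Matrix.SpecialLinearGroup (Fin (2 * m)) F)) := by
  classical
  haveI : Fact (Nat.Prime 2) := ⟨Nat.prime_two⟩
  obtain ⟨T, hTp, hTg, hTc, hinv⟩ : ∃ T : Subgroup (Equiv.Perm (Fin m)), IsPGroup 2 T ∧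
      CfsgLib.Sylow2Ab.GenSq T ∧ Nat.card T = 2 ^ m.factorial.factorization 2 ∧
      (4 ∣ Fintype.card F + 1 ∨ ∀ i k, ∃ t ∈ T, t i = k ∧ t k = i) := by
    rcases hq with h | ⟨-, j, rfl⟩
    · obtain ⟨S, hSg, hSp, hSc⟩ := Cfsg.Agent.S4623.exists_gen 2 m
      exact ⟨S, hSp, CfsgLib.Sylow2Ab.genSq_of_genP hSg, hSc, Or.inl h⟩
    · obtain ⟨T, h1, h2, h3, h4⟩ := exists_perm j
      exact ⟨T, h1, h2, h3, Or.inr h4⟩
  obtain ⟨μ, hμc, hbig⟩ := CfsgLib.Sylow2Ab.GLBlocks.exists_big hF T hTp hTg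
  set gens := {c : Fin m → Fˣ | ∃ i k, ∃ u ∈ μ, Pi.mulSingle i u * Pi.mulSingle k u⁻¹ = c} with hgens
  set K := Subgroup.closure gens with hK
  have hKμ : ∀ c ∈ K, ∀ i, c i ∈ μ := by
    intro c hc i
    refine (Subgroup.closure_le (μ.comap (Pi.evalMonoidHom (fun _ : Fin m => Fˣ) i))).2 ?_ hc
    rintro _ ⟨a, b, u, hu, rfl⟩
    refine Subgroup.mul_mem _ ?_ ?_
    · show (Pi.mulSingle a u : Fin m → Fˣ) i ∈ μ
      rw [Pi.mulSingle_apply]; split <;> [exact hu; exact one_mem _]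
    · show (Pi.mulSingle b u⁻¹ : Fin m → Fˣ) i ∈ μ
      rw [Pi.mulSingle_apply]; split <;> [exact inv_mem hu; exact one_mem _]
  have hKp : ∀ c ∈ K, ∏ i, c i = 1 := by
    intro c hc
    let pr : (Fin m → Fˣ) →* Fˣ := MonoidHom.mk' (fun c => ∏ i, c i) fun a b => Finset.prod_mul_distrib
    refine (Subgroup.closure_le pr.ker).2 ?_ hc
    rintro _ ⟨a, b, u, -, rfl⟩
    show ∏ i, (Pi.mulSingle a u * Pi.mulSingle b u⁻¹ : Fin m → Fˣ) i = 1
    simp [Finset.prod_mul_distrib, Finset.prod_pi_mulSingle']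
  obtain ⟨S, hSg, hSp, hSd, hSc⟩ := hbig K hKμ (by
    refine Subgroup.closure_mono ?_
    intro c hc
    refine ⟨Subgroup.subset_closure hc, ?_⟩
    obtain ⟨i, k, u, hu, rfl⟩ := hc
    rcases hinv with h | h
    · left
      have hu2 : u * u = 1 := by
        have h1 : (⟨u, hu⟩ : μ) ^ Nat.card μ = 1 := pow_card_eq_one'
        rw [hμc, four_sylow h, pow_one, sq] at h1
        exact congrArg Subtype.val h1
      rw [mul_mul_mul_comm, ← Pi.mulSingle_mul, ← Pi.mulSingle_mul, hu2, ← mul_inv, hu2]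
      simp
    · by_cases hik : i = k
      · left; subst hik; simp [← Pi.mulSingle_mul]
      obtain ⟨t, ht, hti, htk⟩ := h i k
      refine Or.inr ⟨t, ht, fun x => ?_⟩
      by_cases hxi : x = i
      · subst hxi; simp [hti, hik, Ne.symm hik]
      by_cases hxk : x = k
      · subst hxk; simp [htk, hik, Ne.symm hik]
      have h1 : t x ≠ k := fun e => hxi (t.injective (e.trans hti.symm))
      have h2 : t x ≠ i := fun e => hxk (t.injective (e.trans htk.symm))
      simp [h1, h2, hxi, hxk])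
  have hS1 := hSd hKp
  let e : Fin 2 × Fin m ≃ Fin (2 * m) := finProdFinEquiv
  let re : GL (Fin 2 × Fin m) F ≃* GL (Fin (2 * m)) F := Units.mapEquiv (Matrix.reindexAlgEquiv F F e).toMulEquiv
  let toGL : SpecialLinearGroup (Fin (2 * m)) F →* GL (Fin (2 * m)) F := SpecialLinearGroup.toGL
  have hinj : Function.Injective toGL := SpecialLinearGroup.toGL_injective
  have hle : S.map re.toMonoidHom ≤ toGL.range := by
    rintro _ ⟨s, hs, rfl⟩
    have h1 := congrArg Units.val (hS1 s hs)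
    rw [GeneralLinearGroup.val_det_apply, Units.val_one] at h1
    refine ⟨⟨((re s : GL (Fin (2 * m)) F) : Matrix (Fin (2 * m)) (Fin (2 * m)) F), ?_⟩, Units.ext rfl⟩
    show det (Matrix.reindexAlgEquiv F F e (s : Matrix (Fin 2 × Fin m) (Fin 2 × Fin m) F)) = 1
    rw [Matrix.det_reindexAlgEquiv, h1]
  refine CfsgLib.Sylow2Ab.sylow_prop (CfsgLib.Sylow2Ab.genSq_comap (CfsgLib.Sylow2Ab.genSq_map hSg re.toMonoidHom)
    toGL hinj hle) ((hSp.map _).comap_of_injective toGL hinj) ?_ P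
  have hcc : Nat.card ↥((S.map re.toMonoidHom).comap toGL) = Nat.card S := by
    refine ((Subgroup.card_map_of_injective (f := toGL) hinj).symm.trans ?_)
    rw [Subgroup.map_comap_eq_self hle, Subgroup.card_map_of_injective (f := re.toMonoidHom) re.injective]
  rw [hcc]
  have hi0 : 0 < m := hm
  set i0 : Fin m := ⟨0, hi0⟩
  have hKc : Nat.card μ ^ (m - 1) ≤ Nat.card K := by
    refine le_trans (le_of_eq ?_) (Nat.card_le_card_of_injective (fun f : {x : Fin m // x ≠ i0} → μ =>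
      (⟨∏ x : {x : Fin m // x ≠ i0}, (Pi.mulSingle (x : Fin m) ((f x : μ) : Fˣ) * Pi.mulSingle i0 ((f x : μ) : Fˣ)⁻¹),
        Subgroup.prod_mem _ fun x _ => Subgroup.subset_closure ⟨_, _, _, (f x).2, rfl⟩⟩ : K)) ?_)
    · rw [Nat.card_fun, Nat.card_eq_fintype_card (α := {x : Fin m // x ≠ i0}), Fintype.card_subtype_compl,
        Fintype.card_fin, Fintype.card_subtype_eq]
    · intro f g h
      funext y
      have h1 := congrFun (congrArg Subtype.val h) (y : Fin m)
      simp only [Finset.prod_apply, Pi.mul_apply, Pi.mulSingle_eq_of_ne y.2, mul_one] at h1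
      rw [Finset.prod_eq_single y, Finset.prod_eq_single y] at h1
      · simpa using h1
      all_goals intros
      all_goals first
        | exact absurd (Finset.mem_univ _) ‹_›
        | exact Pi.mulSingle_eq_of_ne (fun e => ‹_ ≠ y› (Subtype.ext e.symm)) _
  have h1 : (Nat.card (SpecialLinearGroup (Fin (2 * m)) F)).factorization 2 + (Fintype.card F - 1).factorization 2 =
      m * (Nat.card (GL (Fin 2) F)).factorization 2 + m.factorial.factorization 2 := by
    rw [← CfsgLib.Sylow2Ab.GLBlocks.factorization_GL_two_mul hF, ← CfsgLib.SL2.card_SL_mul (2 * m) (by omega),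
      Nat.factorization_mul Nat.card_pos.ne' (by have := Fintype.one_lt_card (α := F); omega), Finsupp.add_apply]
  rw [hTc, Fintype.card_fin] at hSc
  have h2 := le_trans (Nat.mul_le_mul_right _ (Nat.mul_le_mul_left _ hKc)) hSc
  have h3 : Nat.card μ ^ m = Nat.card μ ^ (m - 1) * Nat.card μ := by rw [← pow_succ, Nat.sub_add_cancel hm]
  rw [h3, mul_right_comm, ← mul_assoc, mul_right_comm (Nat.card S)] at h2
  have h4 := Nat.le_of_mul_le_mul_right h2 (pow_pos Nat.card_pos _)
  rw [← pow_add, ← h1, pow_add, hμc] at h4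
  exact Nat.le_of_mul_le_mul_right h4 (pow_pos two_pos _)

end Cfsg.Agent.S4627
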