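import Cfsg.Statements.S4628
import Cfsg.Agent.S4627

set_option autoImplicit false
open Cfsg

namespace Cfsg.Agent.S4628

open Matrix

variable {F : Type*} [Field F] {κ : Type*} [Fintype κ] [DecidableEq κ]

/-- `A ↦ diag(A, det A⁻¹)`. -/
def emb : GL κ F →* SpecialLinearGroup (κ ⊕ Fin 1) F :=
  MonoidHom.mk' (fun A => ⟨fromBlocks (A : Matrix κ κ F) 0 0
    (diagonal fun _ => (((GeneralLinearGroup.det A)⁻¹ : Fˣ) : F)), by
      rw [det_fromBlocks_zero₁₂, det_diagonal, Finset.prod_const, Finset.card_univ, Fintype.card_fin, pow_one,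
        ← GeneralLinearGroup.val_det_apply, ← Units.val_mul, mul_inv_cancel, Units.val_one]⟩) fun A B => by
    refine Subtype.ext ?_
    show fromBlocks ((A * B : GL κ F) : Matrix κ κ F) 0 0
        (diagonal fun _ => (((GeneralLinearGroup.det (A * B))⁻¹ : Fˣ) : F)) =
      fromBlocks (A : Matrix κ κ F) 0 0 (diagonal fun _ => (((GeneralLinearGroup.det A)⁻¹ : Fˣ) : F)) *
        fromBlocks (B : Matrix κ κ F) 0 0 (diagonal fun _ => (((GeneralLinearGroup.det B)⁻¹ : Fˣ) : F))
    rw [fromBlocks_multiply, diagonal_mul_diagonal, map_mul]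
    simp [mul_comm]

theorem emb_injective : Function.Injective (emb : GL κ F → SpecialLinearGroup (κ ⊕ Fin 1) F) := by
  intro A B h
  exact Units.ext (fromBlocks_inj.1 (congrArg Subtype.val h)).1

/-- Let F be a finite field of odd order q with 4 dividing q + 1, and m ≥ 1. Then a Sylow 2-subgroup P of SL_{2m+1}(F) has P/P' elementary abelian: the square of every element of P lies in the derived subgroup of P. -/
theorem result {F : Type*} [Field F] [Fintype F] (hF : Odd (Fintype.card F)) (hq : 4 ∣ Fintype.card F + 1) (m : ℕ) (hm : 1 ≤ m) (P : Sylow 2 (Matrix.SpecialLinearGroup (Fin (2 * m + 1)) F)) :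
    ∀ x : (P : Subgroup (Matrix.SpecialLinearGroup (Fin (2 * m + 1)) F)), x ^ 2 ∈ commutator (P : Subgroup (Matrix.SpecialLinearGroup (Fin (2 * m + 1)) F)) := by
  classical
  haveI : Fact (Nat.Prime 2) := ⟨Nat.prime_two⟩
  obtain ⟨T, hTg, hTp, hTc⟩ := Cfsg.Agent.S4623.exists_gen 2 m
  obtain ⟨μ, hμc, hbig⟩ := CfsgLib.Sylow2Ab.GLBlocks.exists_big hF T hTp (CfsgLib.Sylow2Ab.genSq_of_genP hTg)
  have hμ1 := Cfsg.Agent.S4627.four_sylow hq
  have hu2 : ∀ u ∈ μ, u * u = 1 := fun u hu => by
    have h1 : (⟨u, hu⟩ : μ) ^ Nat.card μ = 1 := pow_card_eq_one'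
    rw [hμc, hμ1, pow_one, sq] at h1
    exact congrArg Subtype.val h1
  obtain ⟨S, hSg, hSp, -, hSc⟩ := hbig (Subgroup.pi Set.univ fun _ => μ) (fun c hc i => hc i (Set.mem_univ i))
    (fun c hc => Subgroup.subset_closure ⟨hc, Or.inl (funext fun i => hu2 _ (hc i (Set.mem_univ i)))⟩)
  let e : (Fin 2 × Fin m) ⊕ Fin 1 ≃ Fin (2 * m + 1) := (Equiv.sumCongr finProdFinEquiv (Equiv.refl _)).trans finSumFinEquiv
  let re : SpecialLinearGroup ((Fin 2 × Fin m) ⊕ Fin 1) F →* SpecialLinearGroup (Fin (2 * m + 1)) F :=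
    MonoidHom.mk' (fun A => ⟨Matrix.reindexAlgEquiv F F e A.1, by rw [Matrix.det_reindexAlgEquiv]; exact A.2⟩)
      fun A B => Subtype.ext (map_mul (Matrix.reindexAlgEquiv F F e) A.1 B.1)
  have hre : Function.Injective re := fun A B h => Subtype.ext ((Matrix.reindexAlgEquiv F F e).injective (congrArg Subtype.val h))
  refine CfsgLib.Sylow2Ab.sylow_prop (CfsgLib.Sylow2Ab.genSq_map hSg (re.comp emb)) (hSp.map _) ?_ P
  rw [Subgroup.card_map_of_injective (f := re.comp emb) (hre.comp emb_injective)]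
  have hK : Nat.card (Subgroup.pi Set.univ fun _ : Fin m => μ) = Nat.card μ ^ m := by
    rw [Nat.card_congr ({ toFun := fun z i => ⟨z.1 i, z.2 i (Set.mem_univ i)⟩
                          invFun := fun z => ⟨fun i => z i, fun i _ => (z i).2⟩
                          left_inv := fun z => rfl
                          right_inv := fun z => rfl } :
        (Subgroup.pi Set.univ fun _ : Fin m => μ) ≃ (Fin m → μ)), Nat.card_fun, Nat.card_fin]
  have h1 : (Nat.card (SpecialLinearGroup (Fin (2 * m + 1)) F)).factorization 2 =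
      m * (Nat.card (GL (Fin 2) F)).factorization 2 + m.factorial.factorization 2 := by
    have h2 := CfsgLib.Sylow2Ab.GLBlocks.factorization_GL_succ hF (2 * m)
    rw [CfsgLib.Sylow2Ab.GLBlocks.factorization_GL_two_mul hF,
      CfsgLib.Sylow2Ab.GLBlocks.factorization_odd_pow hF Fintype.one_lt_card,
      ← CfsgLib.SL2.card_SL_mul (2 * m + 1) (by omega), Nat.factorization_mul Nat.card_pos.ne'
        (by have := Fintype.one_lt_card (α := F); omega), Finsupp.add_apply] at h2
    omega
  rw [h1, pow_add]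
  rw [hK, hTc, Fintype.card_fin, mul_right_comm] at hSc
  exact Nat.le_of_mul_le_mul_right hSc (pow_pos Nat.card_pos _)

end Cfsg.Agent.S4628
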