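import Cfsg.Statements.S4629
import Cfsg.Agent.Sylow2Ab.Orth
import Cfsg.Agent.OrthOrder.Center

set_option autoImplicit false
open Cfsg

namespace Cfsg.Agent.S4629

/-- Let F be a finite field of odd order and m ≥ 3. For the commutator subgroup Ω of the isometry group of the non-singular quadratic form x₀² + Σ x_i y_i in dimension 2m + 1 over F, a Sylow 2-subgroup P of Ω has P/P' elementary abelian: the square of every element of P lies in the derived subgroup of P. -/
theorem result {F : Type*} [Field F] [Fintype F] (hF : Odd (Fintype.card F)) (m : ℕ) (hm : 3 ≤ m) (P : Sylow 2 (Cfsg.Omega F (Cfsg.quadFormOdd m F))) : ∀ x : (P : Subgroup (Cfsg.Omega F (Cfsg.quadFormOdd m F))), x ^ 2 ∈ commutator (P : Subgroup (Cfsg.Omega F (Cfsg.quadFormOdd m F))) := by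
  classical
  have h2 : (2 : F) ≠ 0 := CfsgLib.OrthOrder.two_ne_zero_of_odd hF
  revert P
  rw [← CfsgLib.Forms.coe_quadOdd]
  intro P
  refine CfsgLib.Sylow2Ab.Orth.result_of_normal hF (CfsgLib.Forms.quadOdd F m) (CfsgLib.Forms.nondegenerate_quadOdd m h2)
    m 1 (by omega) (by simp; omega) (fun h => absurd h one_ne_zero) ?_ P
  rw [CfsgLib.OrthOrder.natCard_isometryGroup (CfsgLib.Forms.quadOdd F m) rfl, CfsgLib.OrthOrder.card_isom_odd h2]
  have := CfsgLib.Sylow2Ab.Orth.factorization_isom hF m (m ^ 2) 1 one_ne_zero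
  rw [mul_one, Nat.factorization_one, Finsupp.zero_apply] at this
  omega

end Cfsg.Agent.S4629
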