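import Cfsg.Statements.S4630
import Cfsg.Agent.Sylow2Ab.Orth
import Cfsg.Agent.OrthOrder.Center

set_option autoImplicit false
open Cfsg

namespace Cfsg.Agent.S4630

/-- Let F be a finite field of odd order and m ≥ 1 with m even or m ≥ 4. For the commutator subgroup Ω of the isometry group of the plus-type quadratic form Σ_{i<m} x_i y_i in dimension 2m over F, a Sylow 2-subgroup P of Ω has P/P' elementary abelian: the square of every element of P lies in the derived subgroup of P. -/
theorem result {F : Type*} [Field F] [Fintype F] (hF : Odd (Fintype.card F)) (m : ℕ) (hm : 1 ≤ m) (hm' : Even m ∨ 4 ≤ m) (P : Sylow 2 (Cfsg.Omega F (Cfsg.quadFormPlus m F))) : ∀ x : (P : Subgroup (Cfsg.Omega F (Cfsg.quadFormPlus m F))), x ^ 2 ∈ commutator (P : Subgroup (Cfsg.Omega F (Cfsg.quadFormPlus m F))) := by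
  classical
  have h2 : (2 : F) ≠ 0 := CfsgLib.OrthOrder.two_ne_zero_of_odd hF
  have hq1 : 1 < Fintype.card F := Fintype.one_lt_card
  revert P
  rw [← CfsgLib.Forms.coe_quadPlus]
  intro P
  obtain ⟨h1, h3⟩ := CfsgLib.Sylow2Ab.Orth.factorization_pm hF hq1 m hm
  have hcard : (Nat.card (Cfsg.isometryGroup F ⇑(CfsgLib.Forms.quadPlus F m))).factorization 2 =
      1 + (Fintype.card F ^ m - 1).factorization 2 + (m - 1) * (Fintype.card F ^ 2 - 1).factorization 2 +
        (m - 1).factorial.factorization 2 := by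
    obtain ⟨j, rfl⟩ : ∃ j, m = j + 1 := ⟨m - 1, by omega⟩
    rw [CfsgLib.OrthOrder.natCard_isometryGroup _ rfl, CfsgLib.OrthOrder.card_isom_plus,
      CfsgLib.Sylow2Ab.Orth.factorization_isom hF, Nat.add_sub_cancel]
    have := Nat.one_lt_pow (n := j + 1) (by omega) hq1
    omega
  have hmod : Fintype.card F ^ m % 4 = 1 ∨ Fintype.card F ^ m % 4 = 3 := by
    have h : Fintype.card F ^ m % 2 = 1 := Nat.odd_iff.1 hF.pow
    omega
  have hmf : m.factorial.factorization 2 = m.factorization 2 + (m - 1).factorial.factorization 2 := by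
    rw [← Finsupp.add_apply, ← Nat.factorization_mul (by omega) (Nat.factorial_pos _).ne',
      Nat.mul_factorial_pred (by omega)]
  have hmt : m * (Fintype.card F ^ 2 - 1).factorization 2 =
      (Fintype.card F ^ 2 - 1).factorization 2 + (m - 1) * (Fintype.card F ^ 2 - 1).factorization 2 := by
    conv_lhs => rw [show m = (m - 1) + 1 by omega, add_one_mul, add_comm]
  rcases hmod with h | h
  · have hm2 : 2 ≤ m := by
      rcases hm' with ⟨j, rfl⟩ | h4 <;> omega
    refine CfsgLib.Sylow2Ab.Orth.result_of_normal hF (CfsgLib.Forms.quadPlus F m)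
      (CfsgLib.Forms.nondegenerate_quadPlus m) m 0 hm2 (by simp; omega) (fun _ c hc => ?_) ?_ P
    · rw [CfsgLib.Sylow2Ab.Orth.isSquare_prod_iff hF ⟨m, by omega⟩ _ (CfsgLib.Forms.nondegenerate_quadPlus m) c hc,
        show ⇑(Pi.basisFun F (Fin m ⊕ Fin m)) = Sum.elim (fun i => Pi.single (Sum.inl i) (1 : F))
          (fun i => Pi.single (Sum.inr i) 1) from by funext i; rcases i with i | i <;> simp,
        CfsgLib.Forms.det_gram_pairs (CfsgLib.Forms.standard_pairs m),
        CfsgLib.Forms.isSquare_neg_one_pow rfl hF]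
      exact h
    · have := (h1 h).2
      omega
  · rcases Nat.lt_or_ge m 3 with h4 | h4
    · exfalso
      rcases hm' with ⟨j, rfl⟩ | h5
      · obtain rfl : j = 1 := by omega
        obtain ⟨t, ht⟩ := hF
        rcases (show Fintype.card F % 4 = 1 ∨ Fintype.card F % 4 = 3 by omega) with e | e <;>
          simp [Nat.pow_mod, e] at h
      · omega
    refine CfsgLib.Sylow2Ab.Orth.result_of_normal hF (CfsgLib.Forms.quadPlus F m)
      (CfsgLib.Forms.nondegenerate_quadPlus m) (m - 1) 2 (by omega) (by simp; omega)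
      (fun h => absurd h two_ne_zero) ?_ P
    have := (h3 h).1
    omega

end Cfsg.Agent.S4630
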