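import Cfsg.Statements.S4632
import Cfsg.Agent.Sylow2Ab.G2

set_option autoImplicit false
open Cfsg

namespace Cfsg.Agent.S4632

open Matrix
open CfsgLib.Sylow2Ab.GLBlocks (dd det_dd comm_of_conj)
open CfsgLib.Sylow2Ab.G2

variable {F : Type*} [Field F] [Fintype F]

/-- The swap. -/
def wsw : GL (Fin 2) F := ⟨!![0, 1; 1, 0], !![0, 1; 1, 0],
  by ext i j; fin_cases i <;> fin_cases j <;> simp, by ext i j; fin_cases i <;> fin_cases j <;> simp⟩

theorem wsw_sq : (wsw : GL (Fin 2) F) * wsw = 1 := Units.ext (by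
  ext i j; fin_cases i <;> fin_cases j <;> simp [wsw])

theorem dd_val (u : Fˣ) : ((dd u : GL (Fin 2) F) : M2 F) = diagonal ![(u : F), 1] := rfl

theorem wsw_conj (u : Fˣ) : wsw * dd u * wsw⁻¹ * dd u = GeneralLinearGroup.scalar (Fin 2) u := by
  rw [inv_eq_of_mul_eq_one_right wsw_sq]
  refine Units.ext ?_
  ext i j; fin_cases i <;> fin_cases j <;> simp [wsw, dd_val, Matrix.mul_apply, Fin.sum_univ_two, Matrix.vecMul, dotProduct]

/-- Local data in `GL₂(q)` containing the swap. -/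
theorem exists_local (hF : Odd (Fintype.card F)) : ∃ (S : Subgroup (GL (Fin 2) F)) (Q : Subgroup (SpecialLinearGroup (Fin 2) F))
    (M : Subgroup Fˣ),
    IsPGroup 2 S ∧ Q.map SpecialLinearGroup.toGL ≤ S ∧ M.map dd ≤ S ∧ wsw ∈ S ∧ CfsgLib.Sylow2Ab.GenSq Q ∧
    (∀ u : Fˣ, (∃ a : ℕ, u ^ 2 ^ a = 1) → u ∈ M) ∧ (-1 : SpecialLinearGroup (Fin 2) F) ∈ Q ∧
    (∃ a ∈ Q, ∃ b ∈ Q, (a : M2 F) * (b : M2 F) ≠ (b : M2 F) * (a : M2 F)) ∧
    Nat.card Q = 2 ^ (Nat.card (SpecialLinearGroup (Fin 2) F)).factorization 2 := by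
  classical
  haveI : Fact (Nat.Prime 2) := ⟨Nat.prime_two⟩
  obtain ⟨M⟩ : Nonempty (Sylow 2 Fˣ) := inferInstance
  have hMmem : ∀ u : Fˣ, (∃ a : ℕ, u ^ 2 ^ a = 1) → u ∈ (M : Subgroup Fˣ) := by
    rintro u ⟨a, ha⟩
    have hz : IsPGroup 2 (Subgroup.zpowers u) := by
      intro g
      obtain ⟨n, hn⟩ := g.2
      refine ⟨a, Subtype.ext ?_⟩
      show (g : Fˣ) ^ 2 ^ a = 1
      rw [← hn, ← zpow_natCast, ← _root_.zpow_mul, mul_comm, _root_.zpow_mul, zpow_natCast, ha, _root_.one_zpow]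
    obtain ⟨M', hM'⟩ := hz.exists_le_sylow
    haveI := Sylow.unique_of_normal M inferInstance
    rw [Subsingleton.elim M' M] at hM'
    exact hM' (Subgroup.mem_zpowers u)
  let di : Fˣ →* GL (Fin 2) F := (MulAut.conj wsw).toMonoidHom.comp dd
  have hcomm : ∀ u v : Fˣ, Commute (dd u : GL (Fin 2) F) (di v) := fun u v => by
    refine Units.ext ?_
    show ((dd u * (wsw * dd v * wsw⁻¹) : GL (Fin 2) F) : M2 F) = ((wsw * dd v * wsw⁻¹ * dd u : GL (Fin 2) F) : M2 F)
    rw [inv_eq_of_mul_eq_one_right wsw_sq]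
    ext i j; fin_cases i <;> fin_cases j <;> simp [wsw, dd_val, Matrix.mul_apply, Fin.sum_univ_two, Matrix.vecMul, dotProduct, mul_comm]
  let D2 : Fˣ × Fˣ →* GL (Fin 2) F := MonoidHom.noncommCoprod dd di hcomm
  have hMM : IsPGroup 2 ((M : Subgroup Fˣ).prod (M : Subgroup Fˣ)) := by
    obtain ⟨a, ha⟩ := IsPGroup.iff_card.1 M.2
    refine IsPGroup.of_card (n := a + a) ?_
    rw [Nat.card_congr (Subgroup.prodEquiv _ _).toEquiv, Nat.card_prod, ha, pow_add]
  have hwn : Subgroup.zpowers (wsw : GL (Fin 2) F) ≤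
      Subgroup.normalizer ((((M : Subgroup Fˣ).prod (M : Subgroup Fˣ)).map D2 : Subgroup _) : Set (GL (Fin 2) F)) := by
    rw [Subgroup.zpowers_le, Subgroup.mem_normalizer_iff_map_conj_eq]
    refine Subgroup.eq_of_le_of_card_ge ?_ (Subgroup.card_map_of_injective (MulAut.conj _).injective).ge
    rintro _ ⟨_, ⟨⟨u, v⟩, ⟨hu, hv⟩, rfl⟩, rfl⟩
    refine ⟨(v, u), ⟨hv, hu⟩, ?_⟩
    show dd v * (wsw * dd u * wsw⁻¹) = wsw * (dd u * (wsw * dd v * wsw⁻¹)) * wsw⁻¹
    rw [show dd v * (wsw * dd u * wsw⁻¹) = (wsw * dd u * wsw⁻¹) * dd v from (hcomm v u).eq]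
    have hi := inv_eq_of_mul_eq_one_right (wsw_sq (F := F))
    show wsw * dd u * wsw⁻¹ * dd v = _
    rw [hi]
    simp only [mul_assoc, wsw_sq, mul_one]
  have hH0 : IsPGroup 2 (((M : Subgroup Fˣ).prod (M : Subgroup Fˣ)).map D2 ⊔ Subgroup.zpowers wsw : Subgroup _) := by
    refine (hMM.map D2).to_sup_of_normal_left' ?_ hwn
    intro g
    obtain ⟨n, hn⟩ := g.2
    refine ⟨1, Subtype.ext ?_⟩
    show (g : GL (Fin 2) F) ^ 2 ^ 1 = 1
    rw [← hn, pow_one, ← zpow_natCast, ← _root_.zpow_mul, mul_comm, _root_.zpow_mul, zpow_natCast, sq, wsw_sq,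
      _root_.one_zpow]
  obtain ⟨S, hS⟩ := hH0.exists_le_sylow
  have hdd : ∀ u ∈ (M : Subgroup Fˣ), dd u ∈ (S : Subgroup (GL (Fin 2) F)) := fun u hu => by
    refine hS (Subgroup.mem_sup_left ⟨(u, 1), ⟨hu, one_mem _⟩, ?_⟩)
    show dd u * di 1 = dd u
    rw [map_one, mul_one]
  have hw : wsw ∈ (S : Subgroup (GL (Fin 2) F)) := hS (Subgroup.mem_sup_right (Subgroup.mem_zpowers _))
  let toGL : SpecialLinearGroup (Fin 2) F →* GL (Fin 2) F := SpecialLinearGroup.toGL
  have hinj : Function.Injective toGL := SpecialLinearGroup.toGL_injective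
  let Q : Subgroup (SpecialLinearGroup (Fin 2) F) := (S : Subgroup (GL (Fin 2) F)).comap toGL
  have hQp : IsPGroup 2 Q := S.2.comap_of_injective toGL hinj
  have hmu : Nat.card (M : Subgroup Fˣ) = 2 ^ (Fintype.card F - 1).factorization 2 := by
    rw [M.card_eq_multiplicity, Nat.card_units, Nat.card_eq_fintype_card]
  have hmem : ∀ s ∈ (S : Subgroup (GL (Fin 2) F)), GeneralLinearGroup.det s ∈ (M : Subgroup Fˣ) := by
    intro s hs
    obtain ⟨a, ha⟩ := IsPGroup.iff_card.1 S.2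
    refine hMmem _ ⟨a, ?_⟩
    have h1 : (⟨s, hs⟩ : (S : Subgroup (GL (Fin 2) F))) ^ Nat.card (S : Subgroup (GL (Fin 2) F)) = 1 := pow_card_eq_one'
    rw [ha] at h1
    rw [← map_pow, show s ^ 2 ^ a = 1 from congrArg Subtype.val h1, map_one]
  have hcardS : Nat.card (S : Subgroup (GL (Fin 2) F)) ≤ Nat.card Q * Nat.card (M : Subgroup Fˣ) := by
    rw [← Nat.card_prod]
    let q : ↥(S : Subgroup (GL (Fin 2) F)) → SpecialLinearGroup (Fin 2) F := fun s =>
      ⟨(((s : GL (Fin 2) F) * (dd (GeneralLinearGroup.det (s : GL (Fin 2) F)))⁻¹ : GL (Fin 2) F) : M2 F), by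
        rw [← GeneralLinearGroup.val_det_apply, map_mul, map_inv, det_dd, mul_inv_cancel, Units.val_one]⟩
    have hq : ∀ s : (S : Subgroup (GL (Fin 2) F)), toGL (q s) =
        (s : GL (Fin 2) F) * (dd (GeneralLinearGroup.det (s : GL (Fin 2) F)))⁻¹ := fun s => Units.ext rfl
    have hqQ : ∀ s, q s ∈ Q := fun s => by
      show toGL (q s) ∈ (S : Subgroup (GL (Fin 2) F))
      rw [hq]
      exact Subgroup.mul_mem _ s.2 (Subgroup.inv_mem _ (hdd _ (hmem _ s.2)))
    refine Nat.card_le_card_of_injective (fun s =>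
      ((⟨q s, hqQ s⟩ : Q), (⟨_, hmem _ s.2⟩ : (M : Subgroup Fˣ)))) ?_
    intro s t h
    simp only [Prod.mk.injEq, Subtype.mk.injEq] at h
    have h1 := congrArg toGL h.1
    rw [hq, hq, h.2] at h1
    exact Subtype.ext (mul_right_cancel h1)
  have hGL : (Nat.card (GL (Fin 2) F)).factorization 2 =
      (Nat.card (SpecialLinearGroup (Fin 2) F)).factorization 2 + (Fintype.card F - 1).factorization 2 := by
    rw [← CfsgLib.SL2.card_SL_mul 2 (by norm_num), Nat.factorization_mul Nat.card_pos.ne' (by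
      have := Fintype.one_lt_card (α := F); omega), Finsupp.add_apply]
  rw [S.card_eq_multiplicity, hmu, hGL, pow_add] at hcardS
  have hQge := Nat.le_of_mul_le_mul_right hcardS (by positivity)
  obtain ⟨Q', hQ'⟩ := hQp.exists_le_sylow
  have heq : Nat.card Q = 2 ^ (Nat.card (SpecialLinearGroup (Fin 2) F)).factorization 2 :=
    le_antisymm ((Subgroup.card_le_of_le hQ').trans Q'.card_eq_multiplicity.le) hQge
  obtain ⟨k, hk, ⟨e⟩⟩ := Cfsg.Agent.S0261.result hF (Sylow.ofCard Q heq)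
  refine ⟨S, Q, M, S.2, Subgroup.map_comap_le _ _, ?_, hw, CfsgLib.Sylow2Ab.genSq_of_quaternion hk e,
    hMmem, ?_, ?_, heq⟩
  · rintro _ ⟨u, hu, rfl⟩
    exact hdd u hu
  · show toGL (-1) ∈ (S : Subgroup (GL (Fin 2) F))
    have hm1 : (-1 : Fˣ) ∈ (M : Subgroup Fˣ) := hMmem _ ⟨1, by simp⟩
    have : toGL (-1) = wsw * dd (-1) * wsw⁻¹ * dd (-1) := by
      rw [wsw_conj]; refine Units.ext ?_
      ext i j; fin_cases i <;> fin_cases j <;> simp [toGL]
    rw [this]
    exact mul_mem (mul_mem (mul_mem hw (hdd _ hm1)) (inv_mem hw)) (hdd _ hm1)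
  · refine ⟨(e.symm (QuaternionGroup.a 1) : SpecialLinearGroup (Fin 2) F), (e.symm (QuaternionGroup.a 1)).2,
      (e.symm (QuaternionGroup.xa 0) : SpecialLinearGroup (Fin 2) F), (e.symm (QuaternionGroup.xa 0)).2, fun h => ?_⟩
    have h1 : e.symm (QuaternionGroup.a 1) * e.symm (QuaternionGroup.xa 0) =
        e.symm (QuaternionGroup.xa 0) * e.symm (QuaternionGroup.a 1) := Subtype.ext (Subtype.ext h)
    rw [← map_mul, ← map_mul] at h1
    have h2 := e.symm.injective h1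
    rw [QuaternionGroup.a_mul_xa, QuaternionGroup.xa_mul_a, QuaternionGroup.xa.injEq, zero_sub, zero_add] at h2
    have h4 : 4 ∣ 2 * 2 ^ k := by
      obtain ⟨l, rfl⟩ : ∃ l, k = l + 1 := ⟨k - 1, by omega⟩
      exact ⟨2 ^ l, by ring⟩
    have h5 := congrArg (ZMod.castHom h4 (ZMod 4)) h2
    rw [map_neg, map_one] at h5
    exact absurd h5 (by decide)

/-- Let F be a finite field of odd order and G₂(F) the automorphism group of the split octonion algebra over F (realized on F⁸ with the Zorn vector-matrix multiplication). A Sylow 2-subgroup P of G₂(F) has P/P' elementary abelian: the square of every element of P lies in the derived subgroup of P. -/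
theorem result {F : Type*} [Field F] [Fintype F] (hF : Odd (Fintype.card F)) (P : Sylow 2 (Cfsg.Lie.G2 F)) : ∀ x : (P : Subgroup (Cfsg.Lie.G2 F)), x ^ 2 ∈ commutator (P : Subgroup (Cfsg.Lie.G2 F)) := by
  classical
  haveI : Fact (Nat.Prime 2) := ⟨Nat.prime_two⟩
  have h2 : (2 : F) ≠ 0 := Ring.two_ne_zero (FiniteField.even_card_iff_char_two.not.2 (by
    rw [Nat.odd_iff.1 hF]; norm_num))
  obtain ⟨S₂, Q, M, hS₂, hQS, hMS, hwS, hQg, hMmem, hQneg, ⟨a₀, ha₀, b₀, hb₀, hab⟩, hQc⟩ := exists_local hF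
  let toGL : SpecialLinearGroup (Fin 2) F →* GL (Fin 2) F := SpecialLinearGroup.toGL
  let e1 : SpecialLinearGroup (Fin 2) F →* K F :=
    ((MonoidHom.inl _ _).comp toGL).codRestrict _ fun r => mem_K.2 (by simp [toGL])
  let e2 : SpecialLinearGroup (Fin 2) F →* K F :=
    ((MonoidHom.inr _ _).comp toGL).codRestrict _ fun r => mem_K.2 (by simp [toGL])
  let e3 : Fˣ →* K F := (dd.prod dd).codRestrict _ fun u => mem_K.2 rfl
  let wK : K F := ⟨(wsw, wsw), mem_K.2 rfl⟩
  set Kp : Subgroup (K F) := Q.map e1 ⊔ Q.map e2 ⊔ M.map e3 ⊔ Subgroup.zpowers wK with hKp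
  have hKS : Kp ≤ (S₂.prod S₂).comap (K F).subtype := by
    refine sup_le (sup_le (sup_le ?_ ?_) ?_) ?_
    · rintro _ ⟨r, hr, rfl⟩; exact ⟨hQS (Subgroup.mem_map_of_mem _ hr), one_mem _⟩
    · rintro _ ⟨r, hr, rfl⟩; exact ⟨one_mem _, hQS (Subgroup.mem_map_of_mem _ hr)⟩
    · rintro _ ⟨u, hu, rfl⟩; exact ⟨hMS (Subgroup.mem_map_of_mem _ hu), hMS (Subgroup.mem_map_of_mem _ hu)⟩
    · rw [Subgroup.zpowers_le]; exact ⟨hwS, hwS⟩
  have hKpp : IsPGroup 2 Kp := by
    have hprod : IsPGroup 2 (S₂.prod S₂) := by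
      obtain ⟨a, ha⟩ := IsPGroup.iff_card.1 hS₂
      refine IsPGroup.of_card (n := a + a) ?_
      rw [Nat.card_congr (Subgroup.prodEquiv _ _).toEquiv, Nat.card_prod, ha, pow_add]
    exact (hprod.comap_of_injective (K F).subtype (K F).subtype_injective).to_le hKS
  set S : Subgroup (Cfsg.Lie.G2 F) := Kp.map f with hSdef
  have hSp : IsPGroup 2 S := hKpp.map f
  have hwS' : f wK ∈ S := Subgroup.mem_map_of_mem _ (Subgroup.mem_sup_right (Subgroup.mem_zpowers _))
  have hSg : CfsgLib.Sylow2Ab.GenSq S := by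
    have h12 : CfsgLib.Sylow2Ab.GenSq ((Q.map e1 ⊔ Q.map e2).map f) :=
      CfsgLib.Sylow2Ab.genSq_map (CfsgLib.Sylow2Ab.genSq_sup (CfsgLib.Sylow2Ab.genSq_map hQg e1)
        (CfsgLib.Sylow2Ab.genSq_map hQg e2)) f
    rw [CfsgLib.Sylow2Ab.GenSq]
    refine (Subgroup.map_le_iff_le_comap).2 (sup_le (sup_le ?_ ?_) ?_)
    · refine Subgroup.map_le_iff_le_comap.1 (h12.trans (Subgroup.closure_mono fun s hs => ?_))
      have hle : (Q.map e1 ⊔ Q.map e2).map f ≤ S := Subgroup.map_mono (le_sup_left.trans le_sup_left)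
      exact ⟨hle hs.1, Subgroup.commutator_mono hle hle hs.2⟩
    · rintro _ ⟨u, hu, rfl⟩
      have huS : f (e3 u) ∈ S :=
        Subgroup.mem_map_of_mem _ (Subgroup.mem_sup_left (Subgroup.mem_sup_right (Subgroup.mem_map_of_mem _ hu)))
      refine Subgroup.subset_closure ⟨huS, ?_⟩
      rw [comm_of_conj (b := f wK) ?_]
      · exact Subgroup.commutator_mem_commutator huS hwS'
      · refine eq_inv_of_mul_eq_one_left ?_
        rw [← map_inv, ← map_mul, ← map_mul, ← map_mul,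
          show wK * e3 u * wK⁻¹ * e3 u = ⟨_, scalar_mem u⟩ from Subtype.ext (Prod.ext (wsw_conj u) (wsw_conj u))]
        exact f_scalar u _
    · rw [Subgroup.zpowers_le]
      refine Subgroup.subset_closure ⟨hwS', ?_⟩
      rw [sq, ← map_mul, show wK * wK = 1 from Subtype.ext (Prod.ext wsw_sq wsw_sq), map_one]
      exact one_mem _
  have hzS : f (zK F) ∈ S := by
    refine Subgroup.mem_map_of_mem _ (Subgroup.mem_sup_left (Subgroup.mem_sup_left (Subgroup.mem_sup_left
      ⟨-1, hQneg, Subtype.ext (Prod.ext (Units.ext ?_) rfl)⟩)))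
    show ((toGL (-1) : GL (Fin 2) F) : M2 F) = ((GeneralLinearGroup.scalar (Fin 2) (-1 : Fˣ) : GL (Fin 2) F) : M2 F)
    ext i j; fin_cases i <;> fin_cases j <;> simp [toGL]
  have hlow : 2 ^ (2 * (Nat.card (SpecialLinearGroup (Fin 2) F)).factorization 2) ≤ Nat.card S := by
    let g : Kp →* S := (f.comp Kp.subtype).codRestrict S fun k => Subgroup.mem_map_of_mem _ k.2
    have hr : Nat.card g.range ≤ Nat.card S := Subgroup.card_le_card_group _
    have hker : Nat.card g.ker ≤ Nat.card M := by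
      have hsc : ∀ k : g.ker, ∃ r : M, ((((k : Kp) : K F) : GL (Fin 2) F × GL (Fin 2) F).1 : M2 F) = ((r : Fˣ) : F) • 1 ∧
          ((((k : Kp) : K F) : GL (Fin 2) F × GL (Fin 2) F).2 : M2 F) = ((r : Fˣ) : F) • 1 := by
        intro k
        have hk : f ((k : Kp) : K F) = 1 := congrArg Subtype.val k.2
        obtain ⟨r, hr1, hr2⟩ := f_eq_one hk
        obtain ⟨a, ha⟩ := hKpp (k : Kp)
        refine ⟨⟨r, hMmem r ⟨a, ?_⟩⟩, hr1, hr2⟩
        have h3 := congrArg (fun z : Kp => ((((z : K F) : GL (Fin 2) F × GL (Fin 2) F).1) : M2 F)) ha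
        simp only [Subgroup.coe_pow, Prod.pow_fst, Units.val_pow_eq_pow_val, hr1, Subgroup.coe_one, Prod.fst_one,
          Units.val_one, smul_pow, one_pow] at h3
        refine Units.ext ?_
        have := congrFun (congrFun h3 0) 0
        simpa using this
      choose r hr1 hr2 using hsc
      refine Nat.card_le_card_of_injective r fun k k' h => ?_
      refine Subtype.ext (Subtype.ext (Subtype.ext (Prod.ext (Units.ext ?_) (Units.ext ?_))))
      · rw [hr1, hr1, h]
      · rw [hr2, hr2, h]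
    have hK3 : Nat.card Q * Nat.card Q * Nat.card M ≤ Nat.card Kp := by
      rw [← Nat.card_prod, ← Nat.card_prod]
      refine Nat.card_le_card_of_injective (fun q : (Q × Q) × M => (⟨e1 q.1.1 * e2 q.1.2 * e3 q.2,
        mul_mem (mul_mem (Subgroup.mem_sup_left (Subgroup.mem_sup_left (Subgroup.mem_sup_left (Subgroup.mem_map_of_mem _ q.1.1.2))))
          (Subgroup.mem_sup_left (Subgroup.mem_sup_left (Subgroup.mem_sup_right (Subgroup.mem_map_of_mem _ q.1.2.2)))))
          (Subgroup.mem_sup_left (Subgroup.mem_sup_right (Subgroup.mem_map_of_mem _ q.2.2)))⟩ : Kp)) ?_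
      rintro ⟨⟨x₁, y₁⟩, u₁⟩ ⟨⟨x₂, y₂⟩, u₂⟩ h
      have h1 := congrArg (fun z : Kp => ((z : K F) : GL (Fin 2) F × GL (Fin 2) F)) h
      simp only [Subgroup.coe_mul, MonoidHom.codRestrict_apply, MonoidHom.comp_apply, MonoidHom.inl_apply,
        MonoidHom.inr_apply, MonoidHom.prod_apply, Prod.mk_mul_mk, one_mul, mul_one, Prod.mk.injEq, e1, e2, e3] at h1
      obtain ⟨h1, h1'⟩ := h1
      have hu : u₁ = u₂ := by
        have := congrArg GeneralLinearGroup.det h1
        have hd : ∀ r : SpecialLinearGroup (Fin 2) F, GeneralLinearGroup.det (toGL r) = 1 := fun r =>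
          Units.ext (by rw [GeneralLinearGroup.val_det_apply]; exact r.2)
        simp only [map_mul, hd, one_mul, det_dd] at this
        exact Subtype.ext this
      subst hu
      rw [mul_left_inj] at h1 h1'
      exact Prod.ext (Prod.ext (Subtype.ext (SpecialLinearGroup.toGL_injective h1))
        (Subtype.ext (SpecialLinearGroup.toGL_injective h1'))) rfl
    have hKc : Nat.card Kp = Nat.card g.range * Nat.card g.ker := by
      rw [← Subgroup.index_ker, Subgroup.index_mul_card]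
    have h4 : Nat.card Q * Nat.card Q * Nat.card M ≤ Nat.card S * Nat.card M :=
      hK3.trans (hKc.le.trans (Nat.mul_le_mul hr hker))
    have h5 := Nat.le_of_mul_le_mul_right h4 Nat.card_pos
    rwa [hQc, ← pow_add, ← two_mul] at h5
  refine CfsgLib.Sylow2Ab.sylow_prop hSg hSp (le_trans (Nat.pow_le_pow_right two_pos ?_) hlow) P
  -- the upper bound
  obtain ⟨P', hP'⟩ := hSp.exists_le_sylow
  have hzne : f (zK F) ≠ 1 := fun h => by
    obtain ⟨r, hr1, hr2⟩ := f_eq_one h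
    have e1' := congrFun (congrFun hr1 0) 0
    have e2' := congrFun (congrFun hr2 0) 0
    simp [zK] at e1' e2'
    exact h2 (by linear_combination -e1' + -e2' + 2 * e2')
  haveI : Nontrivial (P' : Subgroup (Cfsg.Lie.G2 F)) :=
    ⟨⟨⟨_, hP' hzS⟩, 1, fun h => hzne (congrArg Subtype.val h)⟩⟩
  haveI := P'.2.center_nontrivial
  have hdvd : 2 ∣ Nat.card (Subgroup.center (P' : Subgroup (Cfsg.Lie.G2 F))) := by
    obtain ⟨n, hn, hn'⟩ := (IsPGroup.nontrivial_iff_card (P'.2.to_subgroup (Subgroup.center (P' : Subgroup (Cfsg.Lie.G2 F))))).1 inferInstance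
    rw [hn']; exact dvd_pow_self 2 hn.ne'
  obtain ⟨⟨⟨y, hyP⟩, hyc⟩, hy⟩ := exists_prime_orderOf_dvd_card' 2 hdvd
  have hycomm : ∀ x ∈ (P' : Subgroup (Cfsg.Lie.G2 F)), y * x = x * y := fun x hx =>
    (congrArg Subtype.val (Subgroup.mem_center_iff.1 hyc ⟨x, hx⟩)).symm
  have hy2 : y * y = 1 := by
    have := pow_orderOf_eq_one (⟨⟨y, hyP⟩, hyc⟩ : Subgroup.center (P' : Subgroup (Cfsg.Lie.G2 F)))
    rw [hy, sq] at this
    exact congrArg Subtype.val (congrArg Subtype.val this)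
  have hy1 : y ≠ 1 := fun h => by
    have : (⟨⟨y, hyP⟩, hyc⟩ : Subgroup.center (P' : Subgroup (Cfsg.Lie.G2 F))) = 1 := Subtype.ext (Subtype.ext h)
    rw [this, orderOf_one] at hy
    omega
  obtain ⟨⟨⟨p, c⟩, hk⟩, rfl⟩ := mem_range_of_commute h2 (hycomm _ (hP' hzS))
  have hpc : ∀ r ∈ Q, (p : M2 F) * (r : M2 F) = (r : M2 F) * (p : M2 F) ∧
      (c : M2 F) * (r : M2 F) = (r : M2 F) * (c : M2 F) := by
    intro r hr
    have h1 : f (⟨(p, c), hk⟩ * e1 r * (⟨(p, c), hk⟩ : K F)⁻¹ * (e1 r)⁻¹) = 1 := by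
      rw [map_mul, map_mul, map_mul, map_inv, map_inv, hycomm _ (hP' (Subgroup.mem_map_of_mem _ (Subgroup.mem_sup_left
        (Subgroup.mem_sup_left (Subgroup.mem_sup_left (Subgroup.mem_map_of_mem _ hr))))))]
      group
    have h1' : f (⟨(p, c), hk⟩ * e2 r * (⟨(p, c), hk⟩ : K F)⁻¹ * (e2 r)⁻¹) = 1 := by
      rw [map_mul, map_mul, map_mul, map_inv, map_inv, hycomm _ (hP' (Subgroup.mem_map_of_mem _ (Subgroup.mem_sup_left
        (Subgroup.mem_sup_left (Subgroup.mem_sup_right (Subgroup.mem_map_of_mem _ hr))))))]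
      group
    have key : ∀ (x : GL (Fin 2) F) (r : SpecialLinearGroup (Fin 2) F) (l : Fˣ),
        (((x * 1 * x⁻¹ * 1⁻¹ : GL (Fin 2) F)) : M2 F) = (l : F) • 1 →
        (((x * toGL r * x⁻¹ * (toGL r)⁻¹ : GL (Fin 2) F)) : M2 F) = (l : F) • 1 → l = 1 := by
      intro x r l h _
      have := congrFun (congrFun h 0) 0
      simp at this
      exact Units.ext this.symm
    have fin : ∀ (x : GL (Fin 2) F), (((x * toGL r * x⁻¹ * (toGL r)⁻¹ : GL (Fin 2) F)) : M2 F) = 1 →
        (x : M2 F) * (r : M2 F) = (r : M2 F) * (x : M2 F) := by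
      intro x h
      have h' : x * toGL r * x⁻¹ * (toGL r)⁻¹ = 1 := Units.ext h
      rw [mul_inv_eq_one, mul_inv_eq_iff_eq_mul] at h'
      exact congrArg Units.val h'
    obtain ⟨l, hl1, hl2⟩ := f_eq_one h1
    obtain ⟨l', hl1', hl2'⟩ := f_eq_one h1'
    have el : l = 1 := by
      have := congrFun (congrFun hl2 0) 0
      simp [e1] at this
      exact Units.ext this.symm
    have el' : l' = 1 := by
      have := congrFun (congrFun hl1' 0) 0
      simp [e2] at this
      exact Units.ext this.symm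
    rw [el, Units.val_one, one_smul] at hl1
    rw [el', Units.val_one, one_smul] at hl2'
    exact ⟨fin p hl1, fin c hl2'⟩
  obtain ⟨α, hα⟩ := commute_scalar (hpc a₀ ha₀).1 (hpc b₀ hb₀).1 hab
  obtain ⟨β, hβ⟩ := commute_scalar (hpc a₀ ha₀).2 (hpc b₀ hb₀).2 hab
  obtain ⟨l, hl1, hl2⟩ := f_eq_one (show f (⟨(p, c), hk⟩ * ⟨(p, c), hk⟩) = 1 by rw [map_mul]; exact hy2)
  simp only [Subgroup.coe_mul, Prod.mk_mul_mk, Units.val_mul, hα, hβ, smul_mul_smul_comm, mul_one] at hl1 hl2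
  have ea := congrFun (congrFun hl1 0) 0
  have eb := congrFun (congrFun hl2 0) 0
  simp at ea eb
  have hβ0 : β ≠ 0 := fun e => by
    have := GeneralLinearGroup.det_ne_zero c
    rw [hβ, e, zero_smul] at this
    simp at this
  have hfs : ∀ (k : K F) (r : Fˣ), ((k : GL (Fin 2) F × GL (Fin 2) F).1 : M2 F) = (r : F) • 1 →
      ((k : GL (Fin 2) F × GL (Fin 2) F).2 : M2 F) = (r : F) • 1 → f k = 1 := by
    intro k r h1 h2'
    have : k = ⟨_, scalar_mem r⟩ := Subtype.ext (Prod.ext (Units.ext (by rw [h1]; ext i j; fin_cases i <;> fin_cases j <;> simp))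
      (Units.ext (by rw [h2']; ext i j; fin_cases i <;> fin_cases j <;> simp)))
    rw [this]; exact f_scalar r _
  have hsq : α * α = β * β := by rw [ea, eb]
  rcases mul_self_eq_mul_self_iff.1 hsq with h | h
  · exact absurd (hfs _ (Units.mk0 β hβ0) (by simpa [h] using hα) (by simpa using hβ)) hy1
  have hyz : f (⟨(p, c), hk⟩ : K F) = f (zK F) := by
    rw [← mul_inv_eq_one, ← map_inv, ← map_mul]
    have hzz : zK F * zK F = 1 := Subtype.ext (Prod.ext (by
      show GeneralLinearGroup.scalar (Fin 2) (-1 : Fˣ) * GeneralLinearGroup.scalar (Fin 2) (-1 : Fˣ) = 1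
      rw [← map_mul, neg_mul_neg, one_mul, map_one]) (mul_one _))
    rw [inv_eq_of_mul_eq_one_right hzz]
    refine hfs _ (Units.mk0 β hβ0) ?_ ?_
    · show (p : M2 F) * ((GeneralLinearGroup.scalar (Fin 2) (-1 : Fˣ) : GL (Fin 2) F) : M2 F) = _
      rw [hα, h]
      ext i j; fin_cases i <;> fin_cases j <;> simp
    · show (c : M2 F) * ((1 : GL (Fin 2) F) : M2 F) = _
      rw [hβ, Units.val_one, mul_one, Units.val_mk0]
  have hPC : (P' : Subgroup (Cfsg.Lie.G2 F)) ≤ (f (F := F)).range := by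
    intro x hx
    exact mem_range_of_commute h2 (by rw [← hyz]; exact (hycomm x hx).symm)
  have hpow : 2 ^ (Nat.card (Cfsg.Lie.G2 F)).factorization 2 ∣ Nat.card (f (F := F)).range := by
    rw [← P'.card_eq_multiplicity]
    exact Subgroup.card_dvd_of_le hPC
  have hrv := (Nat.prime_two.pow_dvd_iff_le_factorization Nat.card_pos.ne').1 hpow
  let sc : Fˣ →* (f (F := F)).ker := MonoidHom.mk' (fun r => ⟨⟨_, scalar_mem r⟩, f_scalar r _⟩) fun a b =>
    Subtype.ext (Subtype.ext (Prod.ext (map_mul _ a b) (map_mul _ a b)))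
  have hsc : Function.Injective sc := fun a b h => by
    have := congrArg (fun z : (f (F := F)).ker => ((((z : K F) : GL (Fin 2) F × GL (Fin 2) F).1) : M2 F) 0 0) h
    simp [sc] at this
    exact Units.ext this
  have hd : Nat.card Fˣ ∣ Nat.card (f (F := F)).ker := by
    rw [Nat.card_congr (MonoidHom.ofInjective hsc).toEquiv]
    exact Subgroup.card_subgroup_dvd_card _
  have hKcard : Nat.card (K F) = Nat.card (GL (Fin 2) F) * Nat.card (SpecialLinearGroup (Fin 2) F) := by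
    rw [← Nat.card_prod]
    refine Nat.card_congr
      { toFun := fun k => ((k : GL (Fin 2) F × GL (Fin 2) F).2,
          ⟨(((k : GL (Fin 2) F × GL (Fin 2) F).1 * (k : GL (Fin 2) F × GL (Fin 2) F).2⁻¹ : GL (Fin 2) F) : M2 F), by
            rw [Units.val_mul, det_mul, mem_K.1 k.2, ← det_mul, ← Units.val_mul, mul_inv_cancel, Units.val_one, det_one]⟩)
        invFun := fun z => ⟨(SpecialLinearGroup.toGL z.2 * z.1, z.1), mem_K.2 (by simp)⟩
        left_inv := fun k => Subtype.ext (Prod.ext (Units.ext (by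
          rw [Units.val_mul]
          show ((((k : GL (Fin 2) F × GL (Fin 2) F).1 * (k : GL (Fin 2) F × GL (Fin 2) F).2⁻¹ : GL (Fin 2) F)) : M2 F) * _ = _
          rw [← Units.val_mul, inv_mul_cancel_right])) rfl)
        right_inv := fun z => Prod.ext rfl (Subtype.ext (by simp)) }
  have hK2 : Nat.card (K F) = Nat.card (f (F := F)).range * Nat.card (f (F := F)).ker := by
    rw [← Subgroup.index_ker, Subgroup.index_mul_card]
  have hq1 : 1 < Fintype.card F := Fintype.one_lt_card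
  have hle := (Nat.factorization_le_iff_dvd Nat.card_pos.ne' Nat.card_pos.ne').2 hd 2
  have hv := congrArg (fun n => Nat.factorization n 2) (hK2.symm.trans hKcard)
  simp only [Nat.factorization_mul Nat.card_pos.ne' Nat.card_pos.ne', Finsupp.add_apply] at hv
  rw [← CfsgLib.SL2.card_SL_mul 2 (by norm_num), Nat.factorization_mul Nat.card_pos.ne' (by omega),
    Finsupp.add_apply] at hv
  rw [Nat.card_units, Nat.card_eq_fintype_card] at hle
  omega

end Cfsg.Agent.S4632
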