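import Cfsg.Statements.S4635
import Cfsg.Agent.Blocks.CyclicExc.Isometry
import Cfsg.Agent.Blocks.CyclicExc.Partner

set_option autoImplicit false
open Cfsg

namespace Cfsg.Agent.S4635

open CfsgLib CfsgLib.Blocks CfsgLib.PairAlg

attribute [local instance] CfsgLib.Blocks.residueField CfsgLib.Blocks.residue_charP

/-- Let B be a block of the finite group G relative to a maximal ideal M of the algebraic integers containing the prime p, with a nontrivial cyclic defect group P; let Z be the subgroup of order p of P and H = N_G(Z), which contains N_G(P). Let c be the block of H with defect group P that induces B. Then B and c contain the same number of irreducible characters, have the same p-regular rank, and there is a perfect isometry from c onto B. -/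
theorem result {G : Type*} [Group G] [Finite G] (p : ℕ) [Fact p.Prime] (M : Ideal Cfsg.AlgInt) (hM : Cfsg.IsPModular p M) (B : Set (Cfsg.IrrCharacter G)) (hB : Cfsg.IsPBlock M B) (P : Subgroup G) (hPD : Cfsg.IsDefectGroup p M B P) (hP1 : P ≠ ⊥) (hcyc : IsCyclic P) (Z : Subgroup G) (hZ : Z ≤ P) (hZcard : Nat.card Z = p) (H : Subgroup G) (hH : H = Subgroup.normalizer (Z : Set G)) (c : Set (Cfsg.IrrCharacter H)) (hcD : Cfsg.IsDefectGroup p M c (P.subgroupOf H)) (hc : Cfsg.IsInducedBlock M H c B) : Nat.card c = Nat.card B ∧ Cfsg.blockRank p c = Cfsg.blockRank p B ∧ ∃ (I : Cfsg.IrrCharacter H → Cfsg.IrrCharacter G) (ε : Cfsg.IrrCharacter H → ℤ), Cfsg.IsPerfectIsometry p M c B I ε := by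
  classical
  haveI : Fintype G := Fintype.ofFinite G
  haveI : Fintype H := Fintype.ofFinite H
  haveI : Fintype (IrrCharacter G) := @Fintype.ofFinite _ CfsgLib.CharBasics.finite_irrCharacter
  haveI : Fintype (IrrCharacter H) := @Fintype.ofFinite _ CfsgLib.CharBasics.finite_irrCharacter
  have hpp : p.Prime := Fact.out
  have hPp : IsPGroup p P := isPGroup_of_isDefectGroup hPD
  obtain ⟨a, hP⟩ := IsPGroup.iff_card.1 hPp
  have ha : 1 ≤ a := Nat.one_le_iff_ne_zero.2 fun h => hP1 (Subgroup.card_eq_one.1 (by rw [hP, h, pow_zero]))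
  -- the normalizer of the defect group normalizes the subgroup of order `p`
  have hN : Subgroup.normalizer (P : Set G) ≤ H := by
    intro g hg
    rw [hH]
    set S := Finset.univ.filter (fun x : P => x ^ p = 1) with hS
    have hle : S.card ≤ p := IsCyclic.card_pow_eq_one_le hpp.pos
    have hin : ∀ x : G, x ∈ Z → ∀ h : x ∈ P, (⟨x, h⟩ : P) ∈ S := fun x hx h => by
      refine Finset.mem_filter.2 ⟨Finset.mem_univ _, Subtype.ext ?_⟩
      have h1 := pow_card_eq_one' (x := (⟨x, hx⟩ : Z))
      rw [hZcard] at h1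
      have h2 : x ^ p = 1 := congrArg (fun z : Z => (z : G)) h1
      push_cast
      exact h2
    have hSZ : ∀ x : P, x ∈ S → (x : G) ∈ Z := by
      have hsub : (Finset.univ : Finset Z).image (fun z : Z => (⟨z.1, hZ z.2⟩ : P)) ⊆ S := fun x hx => by
        obtain ⟨z, -, rfl⟩ := Finset.mem_image.1 hx
        exact hin _ z.2 _
      have hinj : Function.Injective (fun z : Z => (⟨z.1, hZ z.2⟩ : P)) := fun z z' h =>
        Subtype.ext (congrArg (fun w : P => (w : G)) h)
      have heq := Finset.eq_of_subset_of_card_le hsub (by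
        rw [Finset.card_image_of_injective _ hinj, Finset.card_univ, ← Nat.card_eq_fintype_card, hZcard]
        exact hle)
      intro x hx
      rw [← heq] at hx
      obtain ⟨z, -, rfl⟩ := Finset.mem_image.1 hx
      exact z.2
    refine Subgroup.mem_normalizer_iff.2 fun x => ⟨fun hx => ?_, fun hx => ?_⟩
    · have hxP := (Subgroup.mem_normalizer_iff.1 hg x).1 (hZ hx)
      refine hSZ ⟨_, hxP⟩ (Finset.mem_filter.2 ⟨Finset.mem_univ _, Subtype.ext ?_⟩)
      have h1 := congrArg Subtype.val (Finset.mem_filter.1 (hin x hx (hZ hx))).2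
      push_cast at h1 ⊢
      rw [conj_pow, h1, mul_one, mul_inv_cancel]
    · have hxP := (Subgroup.mem_normalizer_iff.1 hg x).2 (hZ hx)
      refine hSZ ⟨x, hxP⟩ (Finset.mem_filter.2 ⟨Finset.mem_univ _, Subtype.ext ?_⟩)
      have h1 := congrArg Subtype.val (Finset.mem_filter.1 (hin _ hx (hZ hx))).2
      push_cast at h1 ⊢
      rwa [conj_pow, mul_inv_eq_one, mul_eq_left] at h1
  have hPH : P ≤ H := Subgroup.le_normalizer.trans hN
  obtain ⟨b, b', hb, hb', hidx⟩ := CyclicExc.partner_index hM hB hPD hN hcD hc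
  have hT : ∀ g : G, g ∈ stab P (bc hM P b) ↔ (g ∈ Subgroup.normalizer (P : Set G) ∧
      StabilizesBlock (Subgroup.centralizer (P : Set G)) b g) := fun g =>
    ⟨fun h => ⟨h.1, (stabilizesBlock_bc_iff hM hb.1 h.1).2 h.2⟩,
      fun h => ⟨h.1, (stabilizesBlock_bc_iff hM hb.1 h.1).1 h.2⟩⟩
  have hT' : ∀ g : H, g ∈ stab (P.subgroupOf H) (bc hM (P.subgroupOf H) b') ↔
      (g ∈ Subgroup.normalizer ((P.subgroupOf H : Subgroup H) : Set H) ∧
        StabilizesBlock (Subgroup.centralizer ((P.subgroupOf H : Subgroup H) : Set H)) b' g) := fun g =>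
    ⟨fun h => ⟨h.1, (stabilizesBlock_bc_iff hM hb'.1 h.1).2 h.2⟩,
      fun h => ⟨h.1, (stabilizesBlock_bc_iff hM hb'.1 h.1).1 h.2⟩⟩
  have hcyc' : IsCyclic (P.subgroupOf H) := by
    haveI := hcyc
    exact isCyclic_of_surjective (Subgroup.subgroupOfEquivOfLe hPH).symm.toMonoidHom (Subgroup.subgroupOfEquivOfLe hPH).symm.surjective
  have hP' : Nat.card (P.subgroupOf H) = p ^ a := by
    rw [← hP]; exact Nat.card_congr (Subgroup.subgroupOfEquivOfLe hPH).toEquiv
  have hP1' : P.subgroupOf H ≠ ⊥ := fun h => by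
    rw [h, Subgroup.card_bot] at hP'
    exact (Nat.one_lt_pow (by omega : a ≠ 0) hpp.one_lt).ne hP'
  obtain ⟨hdvd, R, ⟨FB⟩⟩ := CyclicExc.exists_frame hM hB hPD hcyc ha hP hb hT rfl
  obtain ⟨-, R', ⟨Fc⟩⟩ := CyclicExc.exists_frame hM hc.1 hcD hcyc' ha hP' hb' hT' hidx.symm
  obtain rfl : R = R' := FB.mult.unique Fc.mult hdvd
  obtain ⟨I, ε, hI, -⟩ := CyclicExc.exists_perfect hM FB Fc
  refine ⟨Nat.card_congr hI.1.equiv, ?_, I, ε, hI⟩
  rw [CyclicRank.blockRank_eq_relIndex hM hc.1 hcD hP1' hcyc' hb' hT',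
    CyclicRank.blockRank_eq_relIndex hM hB hPD hP1 hcyc hb hT, hidx]
  convert rfl

end Cfsg.Agent.S4635
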