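import Cfsg.Statements.S4648
import Cfsg.Agent.Blocks.CyclicRankOne.Main
import Cfsg.Agent.Blocks.KleinFour.Partner
import Cfsg.Agent.BrauerFeit.AbelianBound
import Cfsg.Agent.Blocks.FirstMain
import Cfsg.Agent.S4637
import Cfsg.Agent.S4649
import Cfsg.Agent.S4687
-- import your own Cfsg.Agent.* helpers here

set_option autoImplicit false
open Cfsg

namespace Cfsg.Agent.S4648

open CfsgLib CfsgLib.Blocks

attribute [local instance] CfsgLib.Blocks.residueField CfsgLib.Blocks.residue_charP


/-- Let B be a block of the finite group G relative to a maximal ideal M of the algebraic integers containing the prime p, with a nontrivial defect group D. If B has p-regular rank 1 and at most four irreducible characters, then B is nilpotent, D has exactly as many elements as B has irreducible characters, and p is 2 or 3. -/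
theorem result {G : Type*} [Group G] [Finite G] (p : ℕ) [Fact p.Prime] (M : Ideal Cfsg.AlgInt) (hM : Cfsg.IsPModular p M) (B : Set (Cfsg.IrrCharacter G)) (hB : Cfsg.IsPBlock M B) (D : Subgroup G) (hD : Cfsg.IsDefectGroup p M B D) (hD1 : D ≠ ⊥) (hl : Cfsg.blockRank p B = 1) (hk : Nat.card B ≤ 4) : Cfsg.IsNilpotentBlock p M B ∧ Nat.card D = Nat.card B ∧ (p = 2 ∨ p = 3) := by
  
  classical
  haveI : Fintype G := Fintype.ofFinite G
  haveI : Fintype D := Fintype.ofFinite D
  have hcard := card_defectGroup hM hB hD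
  have hle := CyclicRankOne.pow_le_card_of_small hM hB hl hk
  have hp := (Fact.out : p.Prime)
  have hd0 : blockDefect p B ≠ 0 := fun h => hD1 (by
    rw [h, pow_zero] at hcard
    exact Subgroup.eq_bot_of_card_eq _ hcard)
  have hp4 : p ^ blockDefect p B ≤ 4 := hle.trans hk
  have hpp : p ≤ p ^ blockDefect p B := Nat.le_self_pow hd0 p
  have hp23 : p = 2 ∨ p = 3 := by
    have h2 := hp.two_le
    rcases (show p = 2 ∨ p = 3 ∨ p = 4 by omega) with h | h | h
    · exact Or.inl h
    · exact Or.inr h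
    · exact absurd (h ▸ hp) (by norm_num)
  have hnil : IsNilpotentBlock p M B := by
    by_cases hcyc : IsCyclic D
    · exact (Cfsg.Agent.S4649.result p M hM B hB D hD hcyc).2 hl
    have h4 : p = 2 ∧ blockDefect p B = 2 := by
      have hd1 : blockDefect p B ≠ 1 := fun h => hcyc (isCyclic_of_prime_card (p := p) (by rw [hcard, h, pow_one]))
      have h2 : p ^ 2 ≤ 4 := (Nat.pow_le_pow_right hp.pos (by omega)).trans hp4
      have hp2 : p = 2 := by
        rcases hp23 with h | h
        · exact h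
        · rw [h] at h2; norm_num at h2
      subst hp2
      refine ⟨rfl, ?_⟩
      by_contra h
      have : (2 : ℕ) ^ 3 ≤ 4 := (Nat.pow_le_pow_right (by norm_num) (by omega)).trans hp4
      norm_num at this
    obtain ⟨rfl, hd2⟩ := h4
    rw [hd2] at hcard
    have hV : IsKleinFour D := by
      have hc4 : Nat.card D = 4 := by rw [hcard]; norm_num
      refine { card_four := hc4, exponent_two := ?_ }
      haveI : Nontrivial D := Finite.one_lt_card_iff_nontrivial.1 (by omega)
      refine (Monoid.exponent_eq_prime_iff Nat.prime_two).2 fun x hx => ?_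
      have hdvd : orderOf x ∣ 2 ^ 2 := hcard ▸ orderOf_dvd_natCard x
      obtain ⟨i, hi, he⟩ := (Nat.dvd_prime_pow Nat.prime_two).1 hdvd
      have h1 : orderOf x ≠ 1 := fun h => hx (orderOf_eq_one_iff.1 h)
      interval_cases i
      · exact absurd he (by simpa using h1)
      · simpa using he
      · exact absurd (isCyclic_of_orderOf_eq_card x (by rw [he, hcard])) hcyc
    obtain ⟨c, hmax⟩ := exists_maximal_on_defect hM hB hD
    have hc := KleinFour.induced_of_pairOf hM hmax.1
    let T := PairAlg.stab D (PairAlg.bc hM D c)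
    have hT : ∀ g : G, g ∈ T ↔ (g ∈ Subgroup.normalizer (D : Set G) ∧
        StabilizesBlock (Subgroup.centralizer (D : Set G)) c g) := fun g =>
      ⟨fun h => ⟨h.1, (PairAlg.stabilizesBlock_bc_iff hM hc.1 h.1).2 h.2⟩,
        fun h => ⟨h.1, (PairAlg.stabilizesBlock_bc_iff hM hc.1 h.1).1 h.2⟩⟩
    obtain ⟨-, -, he⟩ := Cfsg.Agent.S4637.result M hM B hB D hD hV c hc T hT _ rfl
    have hab : ∀ x ∈ D, ∀ y ∈ D, x * y = y * x := fun x hx y hy =>
      congrArg Subtype.val (mul_comm_of_exponent_two hV.exponent_two (⟨x, hx⟩ : D) ⟨y, hy⟩)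
    refine (Cfsg.Agent.S4687.result 2 M hM B D c hmax hab).2 fun x hxN hst => ?_
    exact Subgroup.relIndex_eq_one.1 (by rw [← he, hl]) ((hT x).2 ⟨hxN, hst⟩)
  refine ⟨hnil, ?_, hp23⟩
  refine le_antisymm (hcard ▸ hle) ?_
  by_cases hcyc : IsCyclic D
  · obtain ⟨g, hg⟩ := hcyc.exists_generator
    refine BrauerFeit.card_le_of_cyclic_factor hM hB hD ?_ g.2 g.2 fun x hx => Subgroup.mem_sup_left ?_
    · intro x hx y hy
      obtain ⟨i, hi⟩ := Subgroup.mem_zpowers_iff.1 (hg ⟨x, hx⟩)
      obtain ⟨j, hj⟩ := Subgroup.mem_zpowers_iff.1 (hg ⟨y, hy⟩)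
      exact congrArg Subtype.val (show (⟨x, hx⟩ : D) * ⟨y, hy⟩ = ⟨y, hy⟩ * ⟨x, hx⟩ by
        rw [← hi, ← hj, ← zpow_add, ← zpow_add, add_comm])
    · obtain ⟨i, hi⟩ := Subgroup.mem_zpowers_iff.1 (hg ⟨x, hx⟩)
      exact Subgroup.mem_zpowers_iff.2 ⟨i, congrArg Subtype.val hi⟩
  · have hd1 : blockDefect p B ≠ 1 := fun h => hcyc (isCyclic_of_prime_card (p := p) (by rw [hcard, h, pow_one]))
    refine hk.trans ?_
    rw [hcard]
    calc (4 : ℕ) = 2 ^ 2 := by norm_num
      _ ≤ p ^ 2 := Nat.pow_le_pow_left hp.two_le 2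
      _ ≤ _ := Nat.pow_le_pow_right hp.pos (by omega)

end Cfsg.Agent.S4648
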