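import Cfsg.Statements.S4697
import Cfsg.Agent.BrauerFeit.AbelianBound

set_option autoImplicit false
open Cfsg

namespace Cfsg.Agent.S4697

/-- Let p be a prime, M a maximal ideal of the algebraic integers containing p, and B a p-block of the finite group G with an abelian defect group D of order p^d. If D has rank 2 (its least number of generators is 2) then B contains at most p^d irreducible characters; if D has rank 3 then the number k of irreducible characters in B satisfies k^3 ≤ p^(5d). -/
theorem result {G : Type*} [Group G] [Finite G] (p : ℕ) [Fact p.Prime] (M : Ideal Cfsg.AlgInt) (hM : Cfsg.IsPModular p M) (B : Set (Cfsg.IrrCharacter G)) (hB : Cfsg.IsPBlock M B) (D : Subgroup G) (hBD : Cfsg.IsDefectGroup p M B D) (hab : IsMulCommutative D) (d : ℕ) (hDd : Nat.card D = p ^ d) : (Group.rank D = 2 → Nat.card B ≤ p ^ d) ∧ (Group.rank D = 3 → Nat.card B ^ 3 ≤ p ^ (5 * d)) := by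
  classical
  haveI : Fintype G := Fintype.ofFinite G
  have hab' : ∀ x ∈ D, ∀ y ∈ D, x * y = y * x := fun x hx y hy =>
    congrArg Subtype.val (hab.is_comm.comm (⟨x, hx⟩ : D) ⟨y, hy⟩)
  obtain ⟨S, hScard, hStop⟩ := Group.rank_spec D
  have hgen : ∀ K : Subgroup G, (∀ s ∈ S, (s : G) ∈ K) → D ≤ K := fun K hK x hx => by
    have h : Subgroup.closure (S : Set D) ≤ K.subgroupOf D :=
      (Subgroup.closure_le _).2 fun s hs => Subgroup.mem_subgroupOf.2 (hK s hs)
    exact Subgroup.mem_subgroupOf.1 (h (hStop ▸ Subgroup.mem_top (⟨x, hx⟩ : D)))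
  refine ⟨fun h2 => ?_, fun h3 => ?_⟩
  · obtain ⟨a, b, -, rfl⟩ := Finset.card_eq_two.1 (hScard.trans h2)
    rw [← hDd]
    refine CfsgLib.BrauerFeit.card_le_of_cyclic_factor hM hB hBD hab' a.2 b.2 (hgen _ fun s hs => ?_)
    rcases Finset.mem_insert.1 hs with rfl | hs'
    · exact Subgroup.mem_sup_left (Subgroup.mem_zpowers _)
    · rw [Finset.mem_singleton.1 hs']
      exact Subgroup.mem_sup_right (Subgroup.mem_zpowers _)
  · obtain ⟨a, b, c, -, -, -, rfl⟩ := Finset.card_eq_three.1 (hScard.trans h3)
    have hmax : ∃ x w z : D, orderOf w ≤ orderOf x ∧ orderOf z ≤ orderOf x ∧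
        ({x, w, z} : Finset D) = {a, b, c} := by
      rcases le_total (orderOf b) (orderOf a) with h | h <;> rcases le_total (orderOf c) (orderOf a) with h' | h' <;>
        rcases le_total (orderOf c) (orderOf b) with h'' | h''
      all_goals first
        | exact ⟨a, b, c, by omega, by omega, rfl⟩
        | exact ⟨b, a, c, by omega, by omega, by ext; simp; tauto⟩
        | exact ⟨c, a, b, by omega, by omega, by ext; simp; tauto⟩
    obtain ⟨x, w, z, hw, hz, he⟩ := hmax
    have hsub : D ≤ Subgroup.zpowers (x : G) ⊔ Subgroup.zpowers (w : G) ⊔ Subgroup.zpowers (z : G) :=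
      hgen _ fun s hs => by
        rw [← he] at hs
        simp only [Finset.mem_insert, Finset.mem_singleton] at hs
        rcases hs with rfl | rfl | rfl
        · exact Subgroup.mem_sup_left (Subgroup.mem_sup_left (Subgroup.mem_zpowers _))
        · exact Subgroup.mem_sup_left (Subgroup.mem_sup_right (Subgroup.mem_zpowers _))
        · exact Subgroup.mem_sup_right (Subgroup.mem_zpowers _)
    have h := CfsgLib.BrauerFeit.card_le_of_three hM hB hBD hab' x.2 w.2 z.2 hsub
    have hD3 : Nat.card D ≤ orderOf x ^ 3 := by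
      letI : CommGroup D := { (inferInstance : Group D) with mul_comm := hab.is_comm.comm }
      have htop : Subgroup.zpowers x ⊔ Subgroup.zpowers w ⊔ Subgroup.zpowers z = (⊤ : Subgroup D) := by
        refine top_le_iff.1 (hStop.ge.trans ((Subgroup.closure_le _).2 fun s hs => ?_))
        rw [Finset.mem_coe, ← he] at hs
        simp only [Finset.mem_insert, Finset.mem_singleton] at hs
        rcases hs with rfl | rfl | rfl
        · exact Subgroup.mem_sup_left (Subgroup.mem_sup_left (Subgroup.mem_zpowers _))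
        · exact Subgroup.mem_sup_left (Subgroup.mem_sup_right (Subgroup.mem_zpowers _))
        · exact Subgroup.mem_sup_right (Subgroup.mem_zpowers _)
      have hsup : ∀ A C : Subgroup D, Nat.card ↥(A ⊔ C) ≤ Nat.card A * Nat.card C := fun A C => by
        rw [← SetLike.coe_sort_coe, Subgroup.mul_normal A C]
        exact Set.natCard_mul_le
      calc Nat.card D = Nat.card ↥(⊤ : Subgroup D) := (Subgroup.card_top).symm
        _ ≤ Nat.card ↥(Subgroup.zpowers x ⊔ Subgroup.zpowers w) * Nat.card (Subgroup.zpowers z) := htop ▸ hsup _ _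
        _ ≤ Nat.card (Subgroup.zpowers x) * Nat.card (Subgroup.zpowers w) * Nat.card (Subgroup.zpowers z) :=
          Nat.mul_le_mul_right _ (hsup _ _)
        _ ≤ _ := by
          simp only [Nat.card_zpowers]
          rw [pow_succ, pow_two]
          exact Nat.mul_le_mul (Nat.mul_le_mul_left _ hw) hz
    rw [Subgroup.orderOf_coe, hDd] at h
    rw [hDd] at hD3
    refine Nat.le_of_mul_le_mul_right (c := p ^ d) ?_ (pow_pos hM.1.pos d)
    calc Nat.card B ^ 3 * p ^ d ≤ Nat.card B ^ 3 * orderOf x ^ 3 := Nat.mul_le_mul_left _ hD3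
      _ = (Nat.card B * orderOf x) ^ 3 := (mul_pow _ _ _).symm
      _ ≤ ((p ^ d) ^ 2) ^ 3 := Nat.pow_le_pow_left h 3
      _ = _ := by rw [← pow_mul, ← pow_mul, ← pow_add]; congr 1; ring

end Cfsg.Agent.S4697
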