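import Cfsg.Statements.S4735
import Cfsg.Agent.S4611
import Cfsg.Agent.Blocks.PrincipalSum


set_option autoImplicit false
open Cfsg

namespace Cfsg.Agent.S4735

open CfsgLib CfsgLib.CharBasics CfsgLib.Blocks
open scoped ComplexConjugate
open Polynomial

/-- The sum of the squared absolute values over a set stable under the power maps is a rational integer. -/
theorem exists_int_sum_normSq {G : Type*} [Group G] [Fintype G] (T : Finset (IrrCharacter G))
    (hT : ∀ {k : ℕ} (hk : k.Coprime (Nat.card G)), ∀ χ ∈ T, powChar hk χ ∈ T) (g : G) :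
    ∃ z : ℤ, ∑ χ ∈ T, Complex.normSq ((χ : G → ℂ) g) = z := by
  classical
  choose P hP using fun χ : IrrCharacter G => cycPoly_character (isCharacter_of_irr χ.2) g
  have hval : ∀ j : ℕ, ((∑ χ ∈ T, Complex.normSq ((χ : G → ℂ) (g ^ j)) : ℝ) : ℂ) =
      aeval (zetaRoot (Nat.card G) ^ j) (∑ χ ∈ T, P χ * (P χ).comp (X ^ (Nat.card G - 1))) := by
    intro j
    rw [Complex.ofReal_sum, map_sum]
    refine Finset.sum_congr rfl fun χ _ => ?_
    have hinv : (g ^ j)⁻¹ = g ^ (j * (Nat.card G - 1)) := by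
      rw [pow_mul, inv_eq_iff_mul_eq_one, ← pow_succ', Nat.sub_add_cancel Nat.card_pos, pow_card_eq_one']
    rw [map_mul, aeval_comp, ← hP χ j, map_pow, aeval_X, ← pow_mul, ← hP χ (j * (Nat.card G - 1)), ← hinv,
      apply_inv (isCharacter_of_irr χ.2), Complex.mul_conj]
  obtain ⟨z, hz⟩ := CfsgLib.BrauerInd.int_of_conjugates_eq (Nat.card_pos (α := G)).ne'
    (∑ χ ∈ T, P χ * (P χ).comp (X ^ (Nat.card G - 1)))
    ((∑ χ ∈ T, Complex.normSq ((χ : G → ℂ) g) : ℝ) : ℂ) fun j hj => by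
      rw [← hval]
      congr 1
      have hmaps : ∀ χ ∈ T, powChar hj χ ∈ T := hT hj
      exact Finset.sum_bij (fun χ _ => powChar hj χ) hmaps (fun a _ b _ h => powChar_injective hj h)
        (fun b hb => by
          have himg : T.image (powChar hj) = T := Finset.eq_of_subset_of_card_le
            (Finset.image_subset_iff.2 hmaps)
            (Finset.card_image_of_injective T (powChar_injective hj)).ge
          rw [← himg, Finset.mem_image] at hb
          obtain ⟨a, ha, he⟩ := hb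
          exact ⟨a, ha, he⟩)
        fun χ _ => rfl
  exact ⟨z, by exact_mod_cast hz⟩

/-- Let p be a prime, M a maximal ideal of the algebraic integers containing p, G a finite group, H = O_p'(G) and Ḡ = G/H. For x ∈ G write λ(G, x) for the sum of |χ(x)|^2 over the irreducible characters χ in the principal p-block of G. Then λ(G, x) is a positive integer, λ(G, x) = λ(Ḡ, x̄) where x̄ is the image of x, and λ(G, x) ≤ #C_Ḡ(x̄). Moreover λ(G, 1) = [G : H] if and only if the principal block is the only p-block of Ḡ. -/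
theorem result {G : Type*} [Group G] [Finite G] (p : ℕ) [Fact p.Prime] (M : Ideal Cfsg.AlgInt) (hM : Cfsg.IsPModular p M) (x : G) : (∃ n : ℕ, 0 < n ∧ ∑ᶠ χ ∈ Cfsg.principalBlock M G, Complex.normSq ((χ : G → ℂ) x) = n) ∧ ∑ᶠ χ ∈ Cfsg.principalBlock M G, Complex.normSq ((χ : G → ℂ) x) = ∑ᶠ ψ ∈ Cfsg.principalBlock M (G ⧸ Cfsg.pPrimeCore p G), Complex.normSq ((ψ : G ⧸ Cfsg.pPrimeCore p G → ℂ) (QuotientGroup.mk x)) ∧ ∑ᶠ χ ∈ Cfsg.principalBlock M G, Complex.normSq ((χ : G → ℂ) x) ≤ (Nat.card ↥(Subgroup.centralizer ({(QuotientGroup.mk x : G ⧸ Cfsg.pPrimeCore p G)} : Set (G ⧸ Cfsg.pPrimeCore p G))) : ℝ) ∧ ((∑ᶠ χ ∈ Cfsg.principalBlock M G, Cfsg.charDegree (χ : G → ℂ) ^ 2) = (Cfsg.pPrimeCore p G).index ↔ ∀ B : Set (Cfsg.IrrCharacter (G ⧸ Cfsg.pPrimeCore p G)), Cfsg.IsPBlock M B → B = Cfsg.principalBlock M (G ⧸ Cfsg.pPrimeCore p G)) := by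
  classical
  haveI := Fintype.ofFinite G
  haveI := (CfsgLib.PCore.pPrimeCore_mem p G).1
  set K := pPrimeCore p G with hK
  haveI := Fintype.ofFinite (G ⧸ K)
  haveI : Finite (IrrCharacter G) := finite_irrCharacter
  haveI : Finite (IrrCharacter (G ⧸ K)) := finite_irrCharacter
  haveI := Fintype.ofFinite (IrrCharacter (G ⧸ K))
  let I : IrrCharacter (G ⧸ K) → IrrCharacter G := fun ψ =>
    ⟨(ψ : G ⧸ K → ℂ) ∘ QuotientGroup.mk,
      irr_comp_of_surjective ψ.2 (QuotientGroup.mk' K) (QuotientGroup.mk'_surjective K)⟩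
  have hbij : Set.BijOn I (principalBlock M (G ⧸ K)) (principalBlock M G) := by
    refine ⟨fun ψ hψ => ?_, fun a _ b _ h => ?_, fun χ hχ => ?_⟩
    · exact sameBlock_inflate hM (χ := oneChar) (ψ := ψ) hψ
    · refine Subtype.ext (funext fun q => ?_)
      obtain ⟨g, rfl⟩ := QuotientGroup.mk_surjective q
      exact congrFun (congrArg Subtype.val h) g
    · obtain ⟨ψ, hψ⟩ := exists_quotient_irr χ K fun n hn => Cfsg.Agent.S4611.core_in_kernel hM hχ hn
      have he : I ψ = χ := Subtype.ext (funext hψ)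
      refine ⟨ψ, sameBlock_of_inflate hM (CfsgLib.PCore.not_dvd_card_pPrimeCore p G) (χ := oneChar) (ψ := ψ) ?_, he⟩
      show SameBlock M (fun _ : G => (1 : ℂ)) ((I ψ : IrrCharacter G) : G → ℂ)
      rw [he]
      exact hχ
  have heq : ∑ᶠ χ ∈ principalBlock M G, Complex.normSq ((χ : G → ℂ) x) =
      ∑ᶠ ψ ∈ principalBlock M (G ⧸ K), Complex.normSq ((ψ : G ⧸ K → ℂ) (QuotientGroup.mk x)) :=
    (finsum_mem_eq_of_bijOn I hbij fun ψ _ => rfl).symm
  refine ⟨?_, heq, ?_, ?_⟩
  · set T := (Set.toFinite (principalBlock M G)).toFinset with hT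
    rw [finsum_mem_eq_finite_toFinset_sum _ (Set.toFinite _), ← hT]
    obtain ⟨z, hz⟩ := exists_int_sum_normSq T (fun {k} hk χ hχ => by
      rw [hT, Set.Finite.mem_toFinset] at hχ ⊢
      exact powChar_mem_principal hk hχ) x
    have h1 : (1 : ℝ) ≤ (z : ℝ) := by
      rw [← hz]
      refine le_trans (le_of_eq ?_) (Finset.single_le_sum (fun χ _ => Complex.normSq_nonneg _)
        ((Set.Finite.mem_toFinset _).2 (oneChar_mem_principal hM) : (oneChar : IrrCharacter G) ∈ T))
      rw [oneChar_apply, map_one]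
    have hz1 : 1 ≤ z := by exact_mod_cast h1
    obtain ⟨n, rfl⟩ := Int.eq_ofNat_of_zero_le (le_trans zero_le_one hz1)
    exact ⟨n, by omega, by rw [hz, Int.cast_natCast]⟩
  · rw [heq, finsum_mem_eq_finite_toFinset_sum _ (Set.toFinite _), ← sum_normSq_col]
    simp only [Complex.normSq_eq_norm_sq]
    exact Finset.sum_le_sum_of_subset_of_nonneg (Finset.subset_univ _) fun χ _ _ => sq_nonneg _
  · have h1 : ∑ᶠ χ ∈ principalBlock M G, charDegree (χ : G → ℂ) ^ 2 =
        ∑ᶠ ψ ∈ principalBlock M (G ⧸ K), charDegree (ψ : G ⧸ K → ℂ) ^ 2 :=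
      (finsum_mem_eq_of_bijOn I hbij fun ψ _ => rfl).symm
    have hall : (∀ B : Set (IrrCharacter (G ⧸ K)), IsPBlock M B → B = principalBlock M (G ⧸ K)) ↔
        ∀ ψ : IrrCharacter (G ⧸ K), ψ ∈ principalBlock M (G ⧸ K) := by
      refine ⟨fun h ψ => h _ (isPBlock_blockOf M ψ) ▸ mem_blockOf_self hM ψ, fun h B hB => ?_⟩
      obtain ⟨ψ, hψ⟩ := IsPBlock.nonempty hM hB
      exact IsPBlock.eq_of_mem hM hB isPBlock_principal hψ (h ψ)
    rw [hall, h1, finsum_mem_eq_finite_toFinset_sum _ (Set.toFinite _), Subgroup.index, ← sum_sq_degree]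
    constructor
    · intro h ψ
      by_contra hψ
      refine (Finset.sum_lt_sum_of_subset (i := ψ) (Finset.subset_univ _) (Finset.mem_univ _) ?_ ?_
        fun _ _ _ => Nat.zero_le _).ne h
      · rwa [Set.Finite.mem_toFinset]
      · exact pow_pos (charDegree_pos ψ.2) 2
    · intro h
      refine Finset.sum_congr (Finset.eq_univ_iff_forall.2 fun ψ => ?_) fun _ _ => rfl
      exact (Set.Finite.mem_toFinset _).2 (h ψ)

end Cfsg.Agent.S4735
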