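import Cfsg.Statements.S4741
import Cfsg.Agent.Blocks.PElementTrace
import Cfsg.Agent.Blocks.DefectGroup
import Cfsg.Agent.ZStar.Second
import Cfsg.Agent.Blocks.Subsection

set_option autoImplicit false
set_option linter.style.haveILetI false
open Cfsg

namespace Cfsg.Agent.S4741

open CfsgLib CfsgLib.CharBasics CfsgLib.Blocks

/-- A spanning family of vectors of `Fin r → k` contains a basis with nonzero determinant. -/
theorem exists_det_ne_zero {k : Type*} [Field k] {r : ℕ} {W : Type*} (v : W → Fin r → k)
    (h : ∀ c : Fin r → k, (∀ w, ∑ j, c j * v w j = 0) → c = 0) :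
    ∃ f : Fin r → W, Function.Injective f ∧ (Matrix.of fun i j => v (f i) j).det ≠ 0 := by
  classical
  have hspan : Submodule.span k (Set.range v) = ⊤ := by
    by_contra hne
    obtain ⟨φ, hφ0, hφ⟩ := Submodule.exists_le_ker_of_lt_top _ (lt_top_iff_ne_top.2 hne)
    have hrep : ∀ u : Fin r → k, φ u = ∑ j, (φ fun l => if j = l then 1 else 0) * u j := fun u => by
      rw [LinearMap.pi_apply_eq_sum_univ φ u]
      exact Finset.sum_congr rfl fun j _ => by rw [smul_eq_mul, mul_comm]
    have hc := h (fun j => φ fun l => if j = l then 1 else 0) fun w => by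
      rw [← hrep]
      exact hφ (Submodule.subset_span ⟨w, rfl⟩)
    refine hφ0 (LinearMap.ext fun u => ?_)
    rw [hrep, LinearMap.zero_apply]
    exact Finset.sum_eq_zero fun j _ => by rw [show (φ fun l => if j = l then 1 else 0) = 0 from congrFun hc j, zero_mul]
  obtain ⟨b, hbv, hbs, hbli⟩ := exists_linearIndependent k (Set.range v)
  haveI : Finite b := hbli.finite
  haveI := Fintype.ofFinite b
  have B := Module.Basis.mk hbli (by rw [Subtype.range_coe, hbs, hspan])
  have hcard : Fintype.card b = r := by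
    rw [← Module.finrank_eq_card_basis B, Module.finrank_fin_fun]
  let e : Fin r ≃ b := (Fintype.equivFinOfCardEq hcard).symm
  choose f hf using fun i : Fin r => hbv (e i).2
  refine ⟨f, fun i j hij => e.injective (Subtype.ext (by rw [← hf i, ← hf j, hij])), ?_⟩
  have hli : LinearIndependent k (Matrix.of fun i j => v (f i) j).row := by
    have h2 := hbli.comp e e.injective
    have he : (Matrix.of fun i j => v (f i) j).row = Subtype.val ∘ e := funext hf
    rw [he]
    exact h2
  exact ((Matrix.isUnit_iff_isUnit_det _).1 (Matrix.linearIndependent_rows_iff_isUnit.1 hli)).ne_zero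

/-- Let p be a prime, M a maximal ideal of the algebraic integers containing p, and D a subgroup of the finite group G. Let x₁, …, x_r be pairwise non-conjugate elements of G such that D is a Sylow p-subgroup of the centralizer of each xᵢ, and such that for any conjugates g of some xᵢ and h of some xⱼ the element g h⁻¹ is never a non-identity p-element. Then there are r distinct p-blocks B₁, …, B_r of G, each having D as a defect group, such that for every choice of characters χᵢ ∈ Bᵢ of height zero the determinant of the r × r matrix (χᵢ(xⱼ)) does not lie in the local ideal at M. -/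
theorem result {G : Type*} [Group G] [Finite G] (p : ℕ) [Fact p.Prime] (M : Ideal Cfsg.AlgInt) (hM : Cfsg.IsPModular p M) (D : Subgroup G) {r : ℕ} (x : Fin r → G) (hx : ∀ i j : Fin r, IsConj (x i) (x j) → i = j) (hD : ∀ i : Fin r, ∃ S : Sylow p ↥(Subgroup.centralizer ({x i} : Set G)), (S : Subgroup ↥(Subgroup.centralizer ({x i} : Set G))).map (Subgroup.centralizer ({x i} : Set G)).subtype = D) (hsep : ∀ i j : Fin r, ∀ g h : G, IsConj (x i) g → IsConj (x j) h → ∀ k : ℕ, 0 < k → orderOf (g * h⁻¹) ≠ p ^ k) : ∃ B : Fin r → Set (Cfsg.IrrCharacter G), Function.Injective B ∧ (∀ i : Fin r, Cfsg.IsPBlock M (B i) ∧ Cfsg.IsDefectGroup p M (B i) D) ∧ ∀ χ : Fin r → Cfsg.IrrCharacter G, (∀ i : Fin r, χ i ∈ B i ∧ Cfsg.blockHeight p (B i) (χ i : G → ℂ) = 0) → ¬ Cfsg.MemLocalIdeal M (Matrix.det (Matrix.of fun i j : Fin r => (χ i : G → ℂ) (x j))) := by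
  classical
  haveI : Fintype G := Fintype.ofFinite G
  haveI : Fintype (IrrCharacter G) := @Fintype.ofFinite _ finite_irrCharacter
  rcases Nat.eq_zero_or_pos r with hr0 | hr0
  · subst hr0
    exact ⟨Fin.elim0, fun i => i.elim0, fun i => i.elim0,
      fun χ _ => by rw [Matrix.det_fin_zero]; exact not_memLocalIdeal_one hM⟩
  have hDC : ∀ j, ∀ q ∈ D, q * x j = x j * q := fun j q hq => by
    obtain ⟨S, hS⟩ := hD j
    rw [← hS] at hq
    exact Subgroup.mem_centralizer_singleton_iff.1 (Subgroup.map_subtype_le _ hq)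
  have hDp : IsPGroup p D := by
    obtain ⟨S, hS⟩ := hD ⟨0, hr0⟩
    rw [← hS]
    exact S.2.map _
  have hDcard : ∀ j, Nat.card D = p ^ centExp p (x j) := fun j => by
    obtain ⟨S, hS⟩ := hD j
    rw [← hS, Subgroup.card_map_of_injective (Subgroup.centralizer ({x j} : Set G)).subtype_injective,
      S.card_eq_multiplicity]
    rfl
  haveI : Fintype (Subgroup.centralizer (D : Set G)) := Fintype.ofFinite _
  set C := Subgroup.centralizer (D : Set G) with hC
  have hCmem : ∀ g, g ∈ C ↔ ∀ q ∈ D, q * g = g * q := fun g => Subgroup.mem_centralizer_iff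
  haveI : Fintype (IrrCharacter C) := @Fintype.ofFinite _ finite_irrCharacter
  have hone : ∑ B ∈ blockFinset M G, blockElt B = (1 : MonoidAlgebra ℂ G) := by
    refine eq_of_omega_eq (fun g h => ?_) isClassElt_one fun ψ => ?_
    · simp only [MonoidAlgebra.coeff_sum, Finsupp.finsetSum_apply]
      exact Finset.sum_congr rfl fun B _ => isClassElt_blockElt B g h
    · rw [ZStar.omega_sum, omega_one ψ.2,
        Finset.sum_eq_single_of_mem (blockOf M (ψ : G → ℂ)) (mem_blockFinset.2 (isPBlock_blockOf M ψ))
          (fun B hB hne => ?_), omega_blockElt, if_pos (mem_blockOf_self hM ψ)]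
      rw [omega_blockElt, if_neg fun h => hne (IsPBlock.eq_blockOf hM (mem_blockFinset.1 hB) h)]
  -- the combinations killed by every block with defect group `D`
  have key : ∀ c : Fin r → ℂ, (∀ j, MemLocalRing M (c j)) →
      (∀ B, IsPBlock M B → IsDefectGroup p M B D → ∀ χ ∈ B,
        MemLocalIdeal M (∑ j, c j * centralChar (χ : G → ℂ) (x j))) → ∀ i, MemLocalIdeal M (c i) := by
    intro c hc hzero i
    set z : MonoidAlgebra ℂ G := ∑ j, c j • classElt (x j) with hz
    have hzc : IsClassElt z := fun g h => by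
      simp only [hz, MonoidAlgebra.coeff_sum, Finsupp.finsetSum_apply]
      exact Finset.sum_congr rfl fun j _ => (isClassElt_classElt (x j)).smul (c j) g h
    have hcoeff : ∀ g, z.coeff g = ∑ j, if IsConj (x j) g then c j else 0 := fun g => by
      simp only [hz, MonoidAlgebra.coeff_sum, Finsupp.finsetSum_apply, MonoidAlgebra.coeff_smul,
        Finsupp.smul_apply, smul_eq_mul, coeff_classElt, mul_ite, mul_one, mul_zero]
    have hzi : IsIntegralElt M z := fun g => by
      rw [hcoeff]
      refine memLocalRing_sum hM _ fun j _ => ?_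
      split_ifs
      · exact hc j
      · exact memLocalRing_zero hM
    have hω : ∀ χ : IrrCharacter G, omega (χ : G → ℂ) z = ∑ j, c j * centralChar (χ : G → ℂ) (x j) := fun χ => by
      simp only [hz, ZStar.omega_sum, omega_smul, omega_classElt χ.2]
    have hres : ∀ ξ : IrrCharacter C, MemLocalIdeal M (omega (ξ : C → ℂ) (ZStar.res C z)) := by
      intro ξ
      obtain ⟨B, hB, hns⟩ : ∃ B ∈ blockFinset M G,
          ¬ MemLocalIdeal M (omega (ξ : C → ℂ) (ZStar.res C (blockElt B))) := by
        by_contra hcon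
        push Not at hcon
        refine not_memLocalIdeal_one hM ?_
        rw [← omega_one ξ.2, ← ZStar.res_one C, ← hone, ZStar.res_sum, ZStar.omega_sum]
        exact memLocalIdeal_sum hM _ hcon
      have hB' := mem_blockFinset.1 hB
      obtain ⟨χ, hχ⟩ := IsPBlock.nonempty hM hB'
      have hind := ZStar.isInducedBlock_of_not_small hM hDp hCmem (isPBlock_blockOf M ξ) hB'
        (mem_blockOf_self hM ξ) hns
      have h1 := ZStar.omega_res_induced hM hind (mem_blockOf_self hM ξ) hχ hzc hzi
      suffices h2 : MemLocalIdeal M (omega (χ : G → ℂ) z) by simpa using memLocalIdeal_add hM h1 h2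
      obtain ⟨g, hg⟩ : ∃ g : C, ¬ MemLocalIdeal M (blockCoeff B (g : G)) := by
        by_contra hcon
        push Not at hcon
        exact hns (ZStar.memLocalIdeal_omega hM ξ (ZStar.isClassElt_res (isClassElt_blockElt B) C) fun g => by
          rw [ZStar.coeff_res, coeff_blockElt]; exact hcon g)
      obtain ⟨D', hD', hle⟩ := exists_defectGroup_ge hM hB' hg hDp (fun q hq => (hCmem g).1 g.2 q hq)
      by_cases hDD : D' = D
      · rw [hω]
        exact hzero B hB' (hDD ▸ hD') χ hχ
      · rw [hω]
        refine memLocalIdeal_sum hM _ fun j _ => memLocalIdeal_mul_left hM (hc j) ?_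
        by_contra hu
        obtain ⟨y, hy⟩ := exists_defectClass hM hB'
        have h3 := centExp_le hM hB' hχ hy.2.1 hu
        rw [centExp_eq_blockDefect hM hB' hy] at h3
        refine hDD (Subgroup.eq_of_le_of_card_ge hle ?_).symm
        rw [card_defectGroup hM hB' hD', hDcard j]
        exact Nat.pow_le_pow_right hM.1.pos h3
    obtain ⟨N₀, -, hN₀⟩ := ZStar.exists_pow_isSmall hM (ZStar.isClassElt_res hzc C) hres
    have hxC : x i ∈ C := (hCmem _).2 (hDC i)
    set u : MonoidAlgebra ℂ C := MonoidAlgebra.single (⟨x i, hxC⟩⁻¹ : C) (1 : ℂ) with hu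
    have hui : IsIntegralElt M u := fun g => by
      rw [hu, MonoidAlgebra.coeff_single, Finsupp.single_apply]
      split_ifs
      · exact memLocalRing_one hM
      · exact memLocalRing_zero hM
    have hzres : IsIntegralElt M (ZStar.res C z) := ZStar.isIntegralElt_res hzi C
    have hsum := pEltSum_mem_of_nilpotent hM (IsIntegralElt.mul hM hzres hui) ⟨N₀, fun N hN => by
      rw [((ZStar.isClassElt_res hzc C).commute u).mul_pow]
      refine ZStar.IsSmall.mul_right hM ?_ (IsIntegralElt.pow hM hui N)
      obtain ⟨d, rfl⟩ := Nat.exists_eq_add_of_le hN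
      rw [pow_add]
      exact hN₀.mul_right hM (IsIntegralElt.pow hM hzres d)⟩
    have hF : ∀ g : C, (ZStar.res C z * u).coeff g = ∑ j, if IsConj (x j) ((g : G) * x i) then c j else 0 := by
      intro g
      rw [hu, MonoidAlgebra.coeff_mul_single_apply, mul_one, inv_inv, ZStar.coeff_res, hcoeff]
      rfl
    have hval : pEltSum p (ZStar.res C z * u) = c i := by
      rw [pEltSum, Finset.sum_eq_single_of_mem (1 : C) (Finset.mem_univ _) ?_,
        if_pos ⟨0, by rw [orderOf_one, pow_zero]⟩, hF,
        Finset.sum_eq_single_of_mem i (Finset.mem_univ _) ?_, if_pos (by rw [Subgroup.coe_one, one_mul])]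
      · intro j _ hji
        rw [if_neg fun h => hji (hx j i (by simpa using h))]
      · intro g _ hg
        split_ifs with hgp
        · rw [hF]
          refine Finset.sum_eq_zero fun j _ => if_neg fun hconj => ?_
          obtain ⟨k, hk⟩ := hgp
          refine hsep j i _ _ hconj (IsConj.refl _) k ?_ (by rw [mul_inv_cancel_right, Subgroup.orderOf_coe, hk])
          rcases Nat.eq_zero_or_pos k with rfl | hkp
          · rw [pow_zero, orderOf_eq_one_iff] at hk
            exact absurd hk hg
          · exact hkp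
        · rfl
    rwa [hval] at hsum
  -- choose blocks with independent central characters
  letI := residueField hM
  set q := Ideal.Quotient.mk (localIdeal hM) with hq
  let W := {B : Set (IrrCharacter G) // IsPBlock M B ∧ IsDefectGroup p M B D}
  choose ρ hρ using fun B : W => IsPBlock.nonempty hM B.2.1
  let Ω : IrrCharacter G → Fin r → localRing hM := fun χ j =>
    ⟨centralChar (χ : G → ℂ) (x j), memLocalRing_centralChar hM χ (x j)⟩
  obtain ⟨f, hfinj, hdet⟩ := exists_det_ne_zero (fun (B : W) j => q (Ω (ρ B) j)) (by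
    intro cbar hcbar
    choose c hc using fun j => Ideal.Quotient.mk_surjective (cbar j)
    funext i
    rw [← hc i, Pi.zero_apply, Ideal.Quotient.eq_zero_iff_mem, mem_localIdeal]
    refine key (fun j => (c j : ℂ)) (fun j => (c j).2) (fun B hB hBD χ hχ => ?_) i
    have h := hcbar ⟨B, hB, hBD⟩
    simp only [← hc, hq, ← map_mul, ← map_sum, Ideal.Quotient.eq_zero_iff_mem, mem_localIdeal,
      AddSubmonoidClass.coe_finsetSum, Subring.coe_mul] at h
    refine (sub_add_cancel (∑ j, (c j : ℂ) * centralChar (χ : G → ℂ) (x j))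
      (∑ j, (c j : ℂ) * (Ω (ρ ⟨B, hB, hBD⟩) j : ℂ))) ▸ memLocalIdeal_add hM ?_ h
    rw [← Finset.sum_sub_distrib]
    refine memLocalIdeal_sum hM _ fun j _ => ?_
    rw [← mul_sub]
    refine memLocalIdeal_mul_left hM (c j).2 ?_
    show MemLocalIdeal M (centralChar (χ : G → ℂ) (x j) - centralChar (ρ ⟨B, hB, hBD⟩ : G → ℂ) (x j))
    simpa using memLocalIdeal_neg ((IsPBlock.mem_iff hM hB (hρ ⟨B, hB, hBD⟩)).1 hχ (x j)))
  refine ⟨fun i => (f i).1, fun i j hij => hfinj (Subtype.ext hij), fun i => (f i).2, fun χ hχ hmem => hdet ?_⟩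
  -- the scalars
  haveI := Fact.mk hM.1
  set a := (Nat.card G).factorization p with ha
  have hidx : ∀ j, ∃ m : ℕ, ¬ p ∣ m ∧
      (Subgroup.centralizer ({x j} : Set G)).index = p ^ (a - centExp p (x j)) * m := by
    intro j
    set Cj := Subgroup.centralizer ({x j} : Set G) with hCj
    have hne : Cj.index ≠ 0 := Subgroup.index_ne_zero_of_finite
    have e : Cj.index.factorization p = a - centExp p (x j) := by
      have h := congrArg Nat.factorization (Subgroup.card_mul_index Cj)
      rw [Nat.factorization_mul Nat.card_pos.ne' hne] at h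
      have h' := DFunLike.congr_fun h p
      simp only [Finsupp.coe_add, Pi.add_apply] at h'
      have e1 : (Nat.card Cj).factorization p = centExp p (x j) := rfl
      omega
    exact ⟨Cj.index / p ^ Cj.index.factorization p, Nat.not_dvd_ordCompl hM.1 hne,
      by rw [← e]; exact (Nat.ordProj_mul_ordCompl_eq_self _ _).symm⟩
  choose m hm hmeq using hidx
  have hdegs : ∀ i, ∃ d : ℕ, ¬ p ∣ d ∧ ∀ j, charDegree (χ i : G → ℂ) = p ^ (a - centExp p (x j)) * d := by
    intro i
    set d := charDegree (χ i : G → ℂ) with hd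
    have hd0 : d ≠ 0 := (charDegree_pos (χ i).2).ne'
    refine ⟨d / p ^ d.factorization p, Nat.not_dvd_ordCompl hM.1 hd0, fun j => ?_⟩
    obtain ⟨hmemB, hh⟩ := hχ i
    obtain ⟨φ, hφ, hmin, hs⟩ := exists_min_degExp hM (f i).2.1
    rw [blockHeight_eq hs] at hh
    have h1 := card_defectGroup hM (f i).2.1 (f i).2.2
    rw [blockDefect_eq hs, hDcard j] at h1
    have h1' : centExp p (x j) = a - degExp p φ := Nat.pow_right_injective hM.1.two_le h1
    have h2 := hmin (χ i) hmemB
    have h3 : degExp p φ ≤ a := (Nat.factorization_le_iff_dvd (charDegree_pos φ.2).ne' Nat.card_pos.ne').2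
      (CharBasics.degree_dvd φ) p
    have e : d.factorization p = a - centExp p (x j) := by
      show degExp p (χ i) = _
      omega
    rw [← e]
    exact (Nat.ordProj_mul_ordCompl_eq_self _ _).symm
  choose d hd hdeq using hdegs
  let du : Fin r → localRing hM := fun i => ⟨(d i : ℂ), memLocalRing_natCast hM _⟩
  let mu : Fin r → localRing hM := fun j => ⟨(m j : ℂ)⁻¹, memLocalRing_natCast_inv hM (hm j)⟩
  let A : Matrix (Fin r) (Fin r) (localRing hM) := Matrix.diagonal du * (Matrix.of fun i j => Ω (χ i) j) *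
    Matrix.diagonal mu
  have hA : A.map (localRing hM).subtype = Matrix.of fun i j => (χ i : G → ℂ) (x j) := by
    ext i j
    simp only [A, Matrix.map_apply, Matrix.of_apply, Matrix.mul_diagonal, Matrix.diagonal_mul]
    show (d i : ℂ) * centralChar (χ i : G → ℂ) (x j) * ((m j : ℂ))⁻¹ = _
    rw [centralChar, apply_one (isCharacter_of_irr (χ i).2), hdeq i j, hmeq j]
    push_cast
    have h1 : (p : ℂ) ≠ 0 := Nat.cast_ne_zero.2 hM.1.ne_zero
    have h2 : (m j : ℂ) ≠ 0 := Nat.cast_ne_zero.2 fun h => hm j (h ▸ dvd_zero p)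
    have h3 : (d i : ℂ) ≠ 0 := Nat.cast_ne_zero.2 fun h => hd i (h ▸ dvd_zero p)
    field_simp
  have hAdet : q A.det = 0 := by
    rw [hq, Ideal.Quotient.eq_zero_iff_mem, mem_localIdeal,
      show ((A.det : localRing hM) : ℂ) = (localRing hM).subtype A.det from rfl, RingHom.map_det]
    rw [show (localRing hM).subtype.mapMatrix A = A.map (localRing hM).subtype from rfl, hA]
    exact hmem
  simp only [A, Matrix.det_mul, Matrix.det_diagonal, map_mul, map_prod, mul_eq_zero,
    Finset.prod_eq_zero_iff, RingHom.map_det] at hAdet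
  rcases hAdet with (⟨i, -, h⟩ | h) | ⟨j, -, h⟩
  · rw [hq, Ideal.Quotient.eq_zero_iff_mem, mem_localIdeal] at h
    exact absurd ((memLocalIdeal_natCast_iff hM _).1 h) (hd i)
  · rw [← h]
    congr 1
    ext i j
    simp only [RingHom.mapMatrix_apply, Matrix.map_apply, Matrix.of_apply]
    rw [hq, Ideal.Quotient.eq, mem_localIdeal]
    show MemLocalIdeal M (centralChar (ρ (f i) : G → ℂ) (x j) - centralChar (χ i : G → ℂ) (x j))
    exact (IsPBlock.mem_iff hM (f i).2.1 (hρ (f i))).1 (hχ i).1 (x j)
  · rw [hq, Ideal.Quotient.eq_zero_iff_mem, mem_localIdeal] at h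
    refine absurd ?_ (not_memLocalIdeal_one hM)
    have h4 := memLocalIdeal_mul_left hM (memLocalRing_natCast hM (m j)) h
    rwa [mul_inv_cancel₀ (Nat.cast_ne_zero.2 fun h0 => hm j (by rw [h0]; exact dvd_zero p))] at h4

end Cfsg.Agent.S4741
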