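import Cfsg.Statements.S4743
import Cfsg.Agent.Blocks.SeparatedPQ
-- import your own Cfsg.Agent.* helpers here

set_option autoImplicit false
open Cfsg

namespace Cfsg.Agent.S4743

/-- Let p ≠ q be primes dividing the order of the finite group G, suppose the centralizer of every non-identity p-element has order prime to q, and suppose G is p-solvable or q-solvable. Then G has an irreducible character of p-defect zero or an irreducible character of q-defect zero. -/
theorem result {G : Type*} [Group G] [Finite G] (p q : ℕ) [Fact p.Prime] [Fact q.Prime] (hppq : p ≠ q) (hpG : p ∣ Nat.card G) (hqG : q ∣ Nat.card G) (hC : ∀ g : G, g ≠ 1 → (∃ k : ℕ, orderOf g = p ^ k) → ¬ q ∣ Nat.card ↥(Subgroup.centralizer ({g} : Set G))) (hsolv : Cfsg.IsPSolvable p G ∨ Cfsg.IsPSolvable q G) : (∃ χ : Cfsg.IrrCharacter G, (Cfsg.charDegree (χ : G → ℂ)).factorization p = (Nat.card G).factorization p) ∨ (∃ χ : Cfsg.IrrCharacter G, (Cfsg.charDegree (χ : G → ℂ)).factorization q = (Nat.card G).factorization q) := by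
  classical
  have hsep : CfsgLib.SeparatedPQ.Separated G p q := by
    intro x hxp hxq
    have hgo : orderOf (x ^ (orderOf x / p)) = p := orderOf_pow_orderOf_div (orderOf_pos x).ne' hxp
    refine hC (x ^ (orderOf x / p)) (fun h => (Fact.out : p.Prime).ne_one (by rw [← hgo, h, orderOf_one]))
      ⟨1, by rw [hgo, pow_one]⟩ (hxq.trans (Subgroup.orderOf_dvd_natCard _ ?_))
    exact Subgroup.mem_centralizer_singleton_iff.2 (Commute.self_pow x _).eq
  rcases hsolv with h | h
  · exact CfsgLib.SeparatedPQ.exists_full_either hppq hsep h hpG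
  · exact (CfsgLib.SeparatedPQ.exists_full_either hppq.symm (fun x hxq hxp => hsep x hxp hxq) h hqG).symm

end Cfsg.Agent.S4743
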