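import Cfsg.Statements.S4746
import Cfsg.Agent.S4742
import Cfsg.Agent.Blocks.OddCentralizerInverted
-- import your own Cfsg.Agent.* helpers here

set_option autoImplicit false
open Cfsg

namespace Cfsg.Agent.S4746

/-- Let p be an odd prime and G a finite group of even order divisible by p in which the centralizer of every non-identity p-element has odd order. Then G has an irreducible character of p-defect zero or an irreducible character of even degree. -/
theorem result {G : Type*} [Group G] [Finite G] (p : ℕ) [Fact p.Prime] (hp2 : p ≠ 2) (hpG : p ∣ Nat.card G) (h2G : 2 ∣ Nat.card G) (hC : ∀ g : G, g ≠ 1 → (∃ k : ℕ, orderOf g = p ^ k) → Odd (Nat.card ↥(Subgroup.centralizer ({g} : Set G)))) : (∃ χ : Cfsg.IrrCharacter G, (Cfsg.charDegree (χ : G → ℂ)).factorization p = (Nat.card G).factorization p) ∨ ∃ χ : Cfsg.IrrCharacter G, Even (Cfsg.charDegree (χ : G → ℂ)) := by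
  classical
  haveI : Fact (Nat.Prime 2) := ⟨Nat.prime_two⟩
  refine (Cfsg.Agent.S4742.result p 2 hp2 hpG h2G
    (fun g hg hk => fun h => Nat.not_even_iff_odd.2 (hC g hg hk) (even_iff_two_dvd.2 h))).imp_right fun hsep => ?_
  obtain ⟨g, x, hg2, hg1, hx1, hxp, hinv⟩ := CfsgLib.Blocks.exists_inverted_of_no_defect_zero h2G hsep
  exact CfsgLib.Blocks.exists_even_degree_of_real hx1 (isConj_iff.2 ⟨g, hinv⟩) (hC x hx1 hxp)

end Cfsg.Agent.S4746
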