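import Cfsg.Statements.S4748
import Cfsg.Agent.PCore.Basic
import Cfsg.Agent.PCore.PSolvable
import Cfsg.Agent.CoprimeAction.Invariant
import Cfsg.Agent.CharBasics.Ortho
import Cfsg.Agent.CharBasics.Central
import Cfsg.Agent.IndFun.Basic
import Cfsg.Agent.BrauerInd.Induction

set_option autoImplicit false
set_option linter.style.haveILetI false
open scoped Pointwise
open Cfsg

namespace Cfsg.Agent.S4748

open CfsgLib
open scoped ComplexConjugate Pointwise commutatorElement

universe w

/-- With trivial `p`-core, a `p`-solvable group has self-centralizing `p'`-core. -/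
theorem centralizer_core_le {G : Type*} [Group G] [Finite G] (p : ℕ) [Fact p.Prime]
    (hs : Cfsg.IsPSolvable p G) (hO : Cfsg.pCore p G = ⊥) :
    Subgroup.centralizer (Cfsg.pPrimeCore p G : Set G) ≤ Cfsg.pPrimeCore p G := by
  classical
  haveI := PCore.pPrimeCore_characteristic p G
  set K := Cfsg.pPrimeCore p G with hK
  set C := Subgroup.centralizer (K : Set G) with hC
  haveI : C.Normal := Subgroup.normal_centralizer
  haveI := PCore.pPrimeCore_characteristic p C
  have hOC : Cfsg.pCore p C = ⊥ := by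
    have h := PCore.map_pCore_normal (p := p) C
    rw [hO, bot_inf_eq, Subgroup.map_eq_bot_iff, Subgroup.ker_subtype] at h
    exact le_bot_iff.1 h
  have hZK : ∀ z ∈ Cfsg.pPrimeCore p C, (z : G) ∈ K := fun z hz => by
    have : (z : G) ∈ K ⊓ C := PCore.map_pPrimeCore_normal (p := p) C ▸ Subgroup.mem_map_of_mem _ hz
    exact this.1
  have hZc : ∀ z ∈ Cfsg.pPrimeCore p C, ∀ c : C, Commute z c := fun z hz c =>
    Subtype.ext (Subgroup.mem_centralizer_iff.1 c.2 z (hZK z hz))
  obtain ⟨S⟩ : Nonempty (Sylow p ↥(Cfsg.pPrimePCore p C)) := inferInstance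
  set S' := (S : Subgroup ↥(Cfsg.pPrimePCore p C)).map (Cfsg.pPrimePCore p C).subtype with hS'
  have hsup := PCore.sylow_pPrimePCore_sup S
  have hS'p : IsPGroup p S' := S.2.map _
  haveI := PCore.pPrimePCore_normal p C
  have hS'n : S'.Normal := ⟨fun s hs c => by
    have hmem : c * s * c⁻¹ ∈ Cfsg.pPrimePCore p C :=
      ‹(Cfsg.pPrimePCore p C).Normal›.conj_mem _ (Subgroup.map_subtype_le _ hs) c
    rw [← hsup] at hmem
    obtain ⟨z, hz, t, ht, hzt⟩ := Subgroup.mem_sup_of_normal_left.1 hmem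
    obtain ⟨a, ha⟩ := hS'p ⟨s, hs⟩
    obtain ⟨b, hb⟩ := hS'p ⟨t, ht⟩
    have ha' : s ^ p ^ a = 1 := congrArg Subtype.val ha
    have hb' : t ^ p ^ b = 1 := congrArg Subtype.val hb
    have hcsc : (c * s * c⁻¹) ^ p ^ (a + b) = 1 := by
      rw [conj_pow, pow_add, pow_mul, ha', one_pow, mul_one, mul_inv_cancel]
    have ht2 : t ^ p ^ (a + b) = 1 := by
      rw [pow_add, mul_comm, pow_mul, hb', one_pow]
    have hz1 : z ^ p ^ (a + b) = 1 := by
      rw [← hzt, (hZc z hz t).mul_pow, ht2, mul_one] at hcsc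
      exact hcsc
    have : z = 1 := orderOf_eq_one_iff.1 (Nat.eq_one_of_dvd_coprimes
      ((PCore.pPrimeCore_coprime p C).pow_right (a + b))
      (Subgroup.orderOf_dvd_natCard _ hz) (orderOf_dvd_of_pow_eq_one hz1))
    rw [this, one_mul] at hzt
    exact hzt ▸ ht⟩
  have hS'b : S' ≤ ⊥ := hOC ▸ PCore.le_pCore hS'n hS'p
  rw [← hS', le_bot_iff.1 hS'b, sup_bot_eq] at hsup
  have hq1 : Cfsg.pCore p (C ⧸ Cfsg.pPrimeCore p C) = ⊥ := by
    rw [← PCore.map_pPrimePCore, ← hsup, QuotientGroup.map_mk'_self]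
  have htriv : Subsingleton (C ⧸ Cfsg.pPrimeCore p C) := by
    rcases subsingleton_or_nontrivial (C ⧸ Cfsg.pPrimeCore p C) with h | h
    · exact h
    · rcases PCore.cores_ne_bot (PCore.isPSolvable_quotient (PCore.isPSolvable_subgroup hs C)
        (Cfsg.pPrimeCore p C)) with h1 | h1
      · exact absurd hq1 h1
      · exact absurd PCore.pPrimeCore_quotient h1
  intro x hx
  have : ((⟨x, hx⟩ : C) : C ⧸ Cfsg.pPrimeCore p C) = 1 := Subsingleton.elim _ _
  exact hZK _ ((QuotientGroup.eq_one_iff _).1 this)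

section Orbit

variable {Q : Type w} [Group Q] [Fintype Q] {A : Type*} [Group A] [Finite A]

theorem irr_linear (l : Q →* ℂˣ) : Cfsg.IsIrrCharacter Q (fun u => (l u : ℂ)) := by
  have hc := BrauerInd.isCharacter_linear l
  refine CharBasics.isIrr_of_norm_one hc ?_
  rw [CharBasics.classInner_eq]
  have : ∀ u : Q, (l u : ℂ) * conj (l u : ℂ) = 1 := fun u => by
    rw [← CharBasics.apply_inv hc u, ← Units.val_mul, ← map_mul, mul_inv_cancel, map_one, Units.val_one]
  rw [Finset.sum_congr rfl fun u _ => this u, Finset.sum_const, Finset.card_univ, nsmul_eq_mul,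
    mul_one, ← Nat.card_eq_fintype_card, inv_mul_cancel₀ (Nat.cast_ne_zero.mpr Nat.card_pos.ne')]

theorem classInner_decomp {φ : Q → ℂ} {r : ℕ} {ψ : Fin r → Q → ℂ}
    (hψ : ∀ i, Cfsg.IsIrrCharacter Q (ψ i)) (hsum : φ = ∑ i, ψ i) {μ : Q → ℂ}
    (hμ : Cfsg.IsIrrCharacter Q μ) (hne : Cfsg.classInner φ μ ≠ 0) : ∃ i, ψ i = μ := by
  by_contra h
  push Not at h
  refine hne ?_
  rw [hsum, CharBasics.classInner_sum_left]
  exact Finset.sum_eq_zero fun i _ => CharBasics.classInner_ne (hψ i) hμ (h i)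

/-- An invariant character containing a moved linear character has many constituents. -/
theorem orbit_injective (act : A →* MulAut Q) (l : Q →* ℂˣ)
    (hl : ∀ x : A, x ≠ 1 → ∃ u, l (act x u) ≠ l u) {φ : Q → ℂ} {r : ℕ} {ψ : Fin r → Q → ℂ}
    (hψ : ∀ i, Cfsg.IsIrrCharacter Q (ψ i)) (hsum : φ = ∑ i, ψ i)
    (hinv : ∀ (a : A) u, φ (act a u) = φ u)
    (hne : Cfsg.classInner φ (fun u => (l u : ℂ)) ≠ 0) :
    ∃ f : A → Fin r, Function.Injective f ∧ (l ≠ 1 → ∀ a, ψ (f a) ≠ fun _ => (1 : ℂ)) := by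
  have hex : ∀ a : A, ∃ i, ψ i = fun u => (l (act a u) : ℂ) := by
    intro a
    refine classInner_decomp hψ hsum (irr_linear (l.comp (act a).toMonoidHom)) fun h0 => hne ?_
    rw [← h0, CharBasics.classInner_eq, CharBasics.classInner_eq]
    congr 1
    refine (Fintype.sum_equiv (act a).toEquiv _ _ fun u => ?_).symm
    show _ = φ (act a u) * conj ((l (act a u) : ℂ))
    rw [hinv]
  choose f hf using hex
  refine ⟨f, fun a b hab => ?_, fun hl1 a ha => ?_⟩
  · by_contra hne'
    obtain ⟨u, hu⟩ := hl (a * b⁻¹) (fun h => hne' (mul_inv_eq_one.1 h))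
    have h := congrFun ((hf a).symm.trans ((congrArg ψ hab).trans (hf b))) ((act b).symm u)
    refine hu (Units.ext ?_)
    rw [map_mul, map_inv, MulAut.mul_apply]
    have e : (act b)⁻¹ u = (act b).symm u := rfl
    rw [e, h, MulEquiv.apply_symm_apply]
  · refine hl1 (MonoidHom.ext fun u => Units.ext ?_)
    have h := congrFun ((hf a).symm.trans ha) ((act a).symm u)
    simpa using h

/-- A nonlinear irreducible character of a `q`-group times its conjugate has a nontrivial linear
constituent. -/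
theorem exists_linear_in_square {q : ℕ} [Fact q.Prime] (hQ : IsPGroup q Q) {θ : Q → ℂ}
    (hθ : Cfsg.IsIrrCharacter Q θ) (hd : Cfsg.charDegree θ ≠ 1) :
    ∃ l : Q →* ℂˣ, l ≠ 1 ∧ Cfsg.classInner (θ * fun u => conj (θ u)) (fun u => (l u : ℂ)) ≠ 0 ∧
      Cfsg.classInner (θ * fun u => conj (θ u)) (fun _ => (1 : ℂ)) = 1 := by
  classical
  have hq : q.Prime := Fact.out
  obtain ⟨N, hN⟩ := IsPGroup.iff_card.1 hQ
  have hc := CharBasics.isCharacter_of_irr hθ
  have hqd : ∀ ψ : Cfsg.IrrCharacter Q, Cfsg.charDegree ψ.1 ≠ 1 → q ∣ Cfsg.charDegree ψ.1 := by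
    intro ψ hne
    obtain ⟨i, -, hi⟩ := (Nat.dvd_prime_pow hq).1 (hN ▸ CharBasics.degree_dvd ψ)
    rw [hi] at hne ⊢
    exact dvd_pow_self q fun h0 => hne (by rw [h0, pow_zero])
  have h11 : Cfsg.classInner (θ * fun u => conj (θ u)) (fun _ => (1 : ℂ)) = 1 := by
    rw [CharBasics.classInner_one]
    exact (CharBasics.classInner_eq θ θ).symm.trans (CharBasics.classInner_self hθ)
  obtain ⟨r, ψ, hψ, hsum⟩ :=
    CharBasics.exists_decomp (CharBasics.isCharacter_mul hc (CharBasics.isCharacter_star hc))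
  by_contra hcon
  push Not at hcon
  have hcase : ∀ i, Cfsg.charDegree (ψ i) = 1 → ψ i = fun _ => (1 : ℂ) := by
    intro i hi
    have hci := CharBasics.isCharacter_of_irr (hψ i)
    have h1 : ψ i 1 = 1 := by rw [CharBasics.apply_one hci, hi, Nat.cast_one]
    by_contra hne
    let l := IndFun.linHom hci h1
    have hl : (fun u => (l u : ℂ)) = ψ i := funext fun u => IndFun.linHom_val hci h1 u
    have hl1 : l ≠ 1 := fun h0 => hne (by rw [← hl, h0]; rfl)
    refine hcon l hl1 ?_ h11
    rw [hl, hsum, CharBasics.classInner_sum_left]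
    rw [Finset.sum_congr rfl (g := fun j => if ψ j = ψ i then (1 : ℂ) else 0) fun j _ => ?_,
      Finset.sum_boole, Nat.cast_ne_zero]
    · exact (Finset.card_pos.2 ⟨i, by simp⟩).ne'
    · split_ifs with h
      · rw [h]; exact CharBasics.classInner_self (hψ i)
      · exact CharBasics.classInner_ne (hψ j) (hψ i) h
  have hone : (Finset.univ.filter fun i => ψ i = fun _ => (1 : ℂ)).card = 1 := by
    have h := h11
    rw [hsum, CharBasics.classInner_sum_left,
      Finset.sum_congr rfl (g := fun j => if ψ j = (fun _ => (1 : ℂ)) then (1 : ℂ) else 0) fun j _ => ?_,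
      Finset.sum_boole] at h
    · exact_mod_cast h
    · split_ifs with h
      · rw [h]; exact CharBasics.classInner_self CharBasics.isIrrCharacter_one
      · exact CharBasics.classInner_ne (hψ j) CharBasics.isIrrCharacter_one h
  have hdeg : Cfsg.charDegree θ * Cfsg.charDegree θ = ∑ i, Cfsg.charDegree (ψ i) := by
    have h1 := congrFun hsum 1
    simp only [Pi.mul_apply, Finset.sum_apply, CharBasics.apply_one hc, Complex.conj_natCast,
      CharBasics.apply_one (CharBasics.isCharacter_of_irr (hψ _))] at h1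
    exact_mod_cast h1
  rw [← Finset.sum_filter_add_sum_filter_not Finset.univ fun i => ψ i = fun _ => (1 : ℂ)] at hdeg
  have e1 : ∑ i ∈ Finset.univ.filter (fun i => ψ i = fun _ => (1 : ℂ)), Cfsg.charDegree (ψ i) = 1 := by
    rw [Finset.sum_congr rfl (g := fun _ => 1) fun i hi => ?_, Finset.sum_const, hone, one_smul]
    rw [(Finset.mem_filter.1 hi).2]
    simp [Cfsg.charDegree]
  have e2 : q ∣ ∑ i ∈ Finset.univ.filter (fun i => ¬ ψ i = fun _ => (1 : ℂ)), Cfsg.charDegree (ψ i) :=
    Finset.dvd_sum fun i hi => hqd ⟨ψ i, hψ i⟩ fun h => (Finset.mem_filter.1 hi).2 (hcase i h)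
  rw [e1] at hdeg
  exact hq.not_dvd_one ((Nat.dvd_add_left e2).1 (hdeg ▸ (hqd ⟨θ, hθ⟩ hd).mul_right _))

end Orbit

/-- Let G be a finite p-solvable group whose Sylow p-subgroup P meets each conjugate g P g⁻¹ with g outside N_G(P) trivially, and let χ be a faithful character of G (χ g = χ 1 only for g = 1) whose degree d satisfies d² ≤ |P|. Then P is normal in G. -/
theorem result {G : Type*} [Group G] [Finite G] (p : ℕ) [Fact p.Prime] (hsolv : Cfsg.IsPSolvable p G) (P : Sylow p G) (hTI : ∀ g : G, g ∉ Subgroup.normalizer ((P : Subgroup G) : Set G) → (P : Subgroup G) ⊓ (MulAut.conj g • (P : Subgroup G)) = ⊥) (χ : G → ℂ) (hχ : Cfsg.IsCharacter G χ) (hfaith : ∀ g : G, χ g = χ 1 → g = 1) (hdeg : Cfsg.charDegree χ ^ 2 ≤ Nat.card ↥(P : Subgroup G)) : (P : Subgroup G).Normal := by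
  classical
  by_contra hnn
  have hp : p.Prime := Fact.out
  haveI := Fintype.ofFinite G
  -- the `p`-core is trivial
  have hO : Cfsg.pCore p G = ⊥ := by
    by_contra hO
    haveI := PCore.pCore_characteristic p G
    refine hnn (Subgroup.normalizer_eq_top_iff.1 (eq_top_iff.2 fun g _ => ?_))
    by_contra hg
    refine hO (le_bot_iff.1 (hTI g hg ▸ le_inf (PCore.pCore_le_sylow P) ?_))
    intro y hy
    rw [Subgroup.mem_pointwise_smul_iff_inv_smul_mem, ← map_inv, MulAut.smul_def, MulAut.conj_apply]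
    exact PCore.pCore_le_sylow P ((inferInstance : (Cfsg.pCore p G).Normal).conj_mem y hy g⁻¹)
  have hP1 : (P : Subgroup G) ≠ ⊥ := fun h => hnn (h ▸ inferInstance)
  haveI := PCore.pPrimeCore_characteristic p G
  set K := Cfsg.pPrimeCore p G with hKdef
  have hPK : (P : Subgroup G) ≤ Subgroup.normalizer (K : Set G) := by
    rw [Subgroup.normalizer_eq_top_iff.2 inferInstance]; exact le_top
  obtain ⟨e, he⟩ := IsPGroup.iff_card.1 P.2
  have hcop : (Nat.card (P : Subgroup G)).Coprime (Nat.card K) := by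
    rw [he]; exact (PCore.pPrimeCore_coprime p G).symm.pow_left e
  haveI : Group.IsNilpotent (P : Subgroup G) := P.2.isNilpotent
  have hsol : Group.IsSolvable (P : Subgroup G) := inferInstance
  -- `P` moves some invariant Sylow subgroup of `K`
  obtain ⟨q, hq, R, hRK, hRq, hPR, hRC⟩ : ∃ q : ℕ, q.Prime ∧ ∃ R : Subgroup G, R ≤ K ∧ IsPGroup q R ∧
      (P : Subgroup G) ≤ Subgroup.normalizer (R : Set G) ∧
      ¬ R ≤ Subgroup.centralizer ((P : Subgroup G) : Set G) := by
    by_contra hcon
    push Not at hcon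
    set W := K ⊓ Subgroup.centralizer ((P : Subgroup G) : Set G) with hW
    have hWK : K ≤ W := by
      have hdvd : Nat.card K ∣ Nat.card W := by
        rw [← Nat.factorization_prime_le_iff_dvd Nat.card_pos.ne' Nat.card_pos.ne']
        intro q hq
        haveI : Fact q.Prime := ⟨hq⟩
        obtain ⟨S, hS⟩ := CoprimeAction.exists_invariant_sylow hPK hcop (Or.inl hsol) q
        refine (hq.pow_dvd_iff_le_factorization Nat.card_pos.ne').1 ?_
        rw [← CoprimeAction.card_sylow_map S]
        exact Subgroup.card_dvd_of_le (le_inf (Subgroup.map_subtype_le _)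
          (hcon q hq _ (Subgroup.map_subtype_le _) (S.2.map _) hS))
      exact (Subgroup.eq_of_le_of_card_ge (inf_le_left : W ≤ K) (Nat.le_of_dvd Nat.card_pos hdvd)).ge
    have hPC : (P : Subgroup G) ≤ K := by
      refine le_trans (fun y hy => Subgroup.mem_centralizer_iff.2 fun k hk => ?_)
        (centralizer_core_le p hsolv hO)
      exact (Subgroup.mem_centralizer_iff.1 (hWK hk).2 y hy).symm
    exact hP1 (Subgroup.card_eq_one.1 (Nat.eq_one_of_dvd_coprimes hcop dvd_rfl
      (Subgroup.card_dvd_of_le hPC)))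
  haveI : Fact q.Prime := ⟨hq⟩
  have hcopR : (Nat.card (P : Subgroup G)).Coprime (Nat.card R) :=
    hcop.coprime_dvd_right (Subgroup.card_dvd_of_le hRK)
  set Q := ⁅R, (P : Subgroup G)⁆ with hQdef
  have hQR : Q ≤ R := CoprimeAction.commutator_le_of_normalizer hPR
  have hPQ : (P : Subgroup G) ≤ Subgroup.normalizer (Q : Set G) :=
    CoprimeAction.le_normalizer_commutator hPR
  have hQne : Q ≠ ⊥ := fun h => hRC (Subgroup.commutator_eq_bot_iff_le_centralizer.1 h)
  have hQQ : ⁅Q, (P : Subgroup G)⁆ = Q := CoprimeAction.commutator_commutator_eq hPR hcopR (Or.inl hsol)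
  have hcopQ : (Nat.card (P : Subgroup G)).Coprime (Nat.card Q) :=
    hcopR.coprime_dvd_right (Subgroup.card_dvd_of_le hQR)
  haveI := Fintype.ofFinite Q
  haveI := Fintype.ofFinite (P : Subgroup G)
  let act : (P : Subgroup G) →* MulAut Q :=
    (Subgroup.normalizerMonoidHom Q).comp (Subgroup.inclusion hPQ)
  have hact : ∀ (a : (P : Subgroup G)) (u : Q), ((act a u : Q) : G) = a * u * (a : G)⁻¹ := fun _ _ => rfl
  -- centralizers of nontrivial elements
  have hcent : ∀ x ∈ (P : Subgroup G), x ≠ 1 → ∀ c ∈ Q, Commute c x →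
      c ∈ Subgroup.centralizer ((P : Subgroup G) : Set G) := by
    intro x hx hx1 c hc hcx
    have hcN : c ∈ Subgroup.normalizer ((P : Subgroup G) : Set G) := by
      by_contra hcN
      have hmem : x ∈ (P : Subgroup G) ⊓ (MulAut.conj c • (P : Subgroup G)) := by
        refine Subgroup.mem_inf.2 ⟨hx, ?_⟩
        rw [Subgroup.mem_pointwise_smul_iff_inv_smul_mem, ← map_inv, MulAut.smul_def,
          MulAut.conj_apply, inv_inv, mul_assoc, ← hcx.eq, inv_mul_cancel_left]
        exact hx
      rw [hTI c hcN, Subgroup.mem_bot] at hmem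
      exact hx1 hmem
    rw [Subgroup.mem_centralizer_iff]
    intro y hy
    have h1 : c * y * c⁻¹ * y⁻¹ ∈ (P : Subgroup G) :=
      mul_mem ((Subgroup.mem_normalizer_iff.1 hcN y).1 hy) (inv_mem hy)
    have h2 : c * y * c⁻¹ * y⁻¹ ∈ Q := by
      rw [show c * y * c⁻¹ * y⁻¹ = c * (y * c⁻¹ * y⁻¹) by group]
      exact mul_mem hc (CoprimeAction.conj_mem hPQ hy (inv_mem hc))
    have h3 : c * y * c⁻¹ * y⁻¹ ∈ (P : Subgroup G) ⊓ Q := Subgroup.mem_inf.2 ⟨h1, h2⟩
    rw [CoprimeAction.inf_eq_bot_of_coprime hcopQ, Subgroup.mem_bot, mul_inv_eq_one,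
      mul_inv_eq_iff_eq_mul] at h3
    exact h3.symm
  -- only the trivial linear character is fixed
  have hmove : ∀ l : Q →* ℂˣ, l ≠ 1 → ∀ x : (P : Subgroup G), x ≠ 1 → ∃ u, l (act x u) ≠ l u := by
    intro l hl x hx
    by_contra hfix
    push Not at hfix
    apply hl
    let L : Q →* ℂˣ :=
      { toFun := fun u => ∏ a : (P : Subgroup G), l (act a u)
        map_one' := by simp
        map_mul' := fun u v => by simp [Finset.prod_mul_distrib] }
    have hLinv : ∀ (b : (P : Subgroup G)) u, L (act b u) = L u := fun b u => by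
      show ∏ a, l (act a (act b u)) = ∏ a, l (act a u)
      exact Fintype.prod_equiv (Equiv.mulRight b) _ _ fun a => by
        rw [Equiv.coe_mulRight, map_mul, MulAut.mul_apply]
    have hL : ∀ u : Q, L u = 1 := by
      have hle : Q ≤ L.ker.map Q.subtype := by
        refine hQQ.ge.trans ((Subgroup.commutator_le).2 fun u hu a ha => ?_)
        refine ⟨⟨u, hu⟩ * act ⟨a, ha⟩ (⟨u, hu⟩ : Q)⁻¹, ?_, ?_⟩
        · show L _ = 1
          rw [map_mul, hLinv, map_inv, mul_inv_cancel]
        · show u * ((act ⟨a, ha⟩ (⟨u, hu⟩ : Q)⁻¹ : Q) : G) = _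
          rw [hact, commutatorElement_def]
          simp [mul_assoc]
      intro u
      obtain ⟨v, hv, hvu⟩ := hle u.2
      rw [← show v = u from Subtype.ext hvu]
      exact hv
    have hC : ∀ c : Q, Commute (c : G) x → l c = 1 := by
      intro c hc
      have hcc := hcent x x.2 (fun h => hx (Subtype.ext h)) c c.2 hc
      have h1 : L c = l c ^ Nat.card (P : Subgroup G) := by
        show ∏ a : (P : Subgroup G), l (act a c) = _
        rw [Nat.card_eq_fintype_card, ← Finset.card_univ, ← Finset.prod_const]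
        refine Finset.prod_congr rfl fun a _ => ?_
        congr 1
        refine Subtype.ext ?_
        rw [hact, Subgroup.mem_centralizer_iff.1 hcc a a.2, mul_inv_cancel_right]
      rw [hL] at h1
      exact orderOf_eq_one_iff.1 (Nat.eq_one_of_dvd_coprimes hcopQ
        (orderOf_dvd_of_pow_eq_one h1.symm) ((orderOf_map_dvd l c).trans (orderOf_dvd_natCard c)))
    set X := Subgroup.zpowers (x : G) with hX
    have hXP : X ≤ (P : Subgroup G) := Subgroup.zpowers_le.2 x.2
    let F : Subgroup (P : Subgroup G) :=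
      { carrier := {a | ∀ u, l (act a u) = l u}
        one_mem' := fun u => by simp
        mul_mem' := fun {a b} ha hb u => by rw [map_mul, MulAut.mul_apply, ha, hb]
        inv_mem' := fun {a} ha u => by
          conv_rhs => rw [← MulEquiv.apply_symm_apply (act a) u]
          rw [ha, map_inv]; rfl }
    refine MonoidHom.ext fun u => ?_
    obtain ⟨n, hn, c, hc, hnc⟩ := CoprimeAction.exists_commutator_mul_centralizer (A := X)
      (hXP.trans hPQ) (hcopQ.coprime_dvd_left (Subgroup.card_dvd_of_le hXP))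
      (Or.inl (Group.isSolvable_of_comm fun a b => mul_comm' a b)) u.2
    have hn' : n ∈ l.ker.map Q.subtype := by
      refine (Subgroup.commutator_le (H₃ := l.ker.map Q.subtype)).2 (fun v hv a ha => ?_) hn
      refine ⟨⟨v, hv⟩ * act ⟨a, hXP ha⟩ (⟨v, hv⟩ : Q)⁻¹, ?_, ?_⟩
      · obtain ⟨k, hk⟩ := Subgroup.mem_zpowers_iff.1 ha
        have haF : (⟨a, hXP ha⟩ : (P : Subgroup G)) ∈ F := by
          rw [show (⟨a, hXP ha⟩ : (P : Subgroup G)) = x ^ k from Subtype.ext (by simpa using hk.symm)]
          exact F.zpow_mem hfix k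
        show l _ = 1
        rw [map_mul, haF, map_inv, mul_inv_cancel]
      · show v * ((act ⟨a, hXP ha⟩ (⟨v, hv⟩ : Q)⁻¹ : Q) : G) = _
        rw [hact, commutatorElement_def]
        simp [mul_assoc]
    obtain ⟨n₁, hn₁, hn₂⟩ := hn'
    have hcQ : c ∈ Q := (Subgroup.mem_inf.1 hc).1
    have e : u = n₁ * ⟨c, hcQ⟩ := Subtype.ext (by rw [Subgroup.coe_mul]; exact hnc.symm.trans (congrArg (· * c) hn₂.symm))
    rw [e, map_mul, show l n₁ = 1 from hn₁, one_mul, MonoidHom.one_apply]
    exact hC _ (Subgroup.mem_centralizer_iff.1 (Subgroup.mem_inf.1 hc).2 (x : G) (Subgroup.mem_zpowers _)).symm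
  -- the restriction of the character
  have hcQ' := CharBasics.isCharacter_restrict hχ Q
  obtain ⟨r, θ, hθ, hsum⟩ := CharBasics.exists_decomp hcQ'
  have hd1 : (Cfsg.charDegree χ : ℂ) = ((∑ i, Cfsg.charDegree (θ i) : ℕ) : ℂ) := by
    rw [← CharBasics.apply_one hχ, Nat.cast_sum]
    have := congrFun hsum 1
    simp only [Finset.sum_apply, Subgroup.coe_one] at this
    rw [this]
    exact Finset.sum_congr rfl fun i _ => CharBasics.apply_one (CharBasics.isCharacter_of_irr (hθ i))
  have hd2 : Cfsg.charDegree χ = ∑ i, Cfsg.charDegree (θ i) := by exact_mod_cast hd1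
  have hinv : ∀ (a : (P : Subgroup G)) (u : Q), χ ((act a u : Q) : G) = χ u := fun a u => by
    rw [hact]; exact CharBasics.isClassFunction hχ _ _
  have hP2 : 1 < Nat.card (P : Subgroup G) := (Subgroup.one_lt_card_iff_ne_bot _).2 hP1
  by_cases hlin : ∀ i, Cfsg.charDegree (θ i) = 1
  · obtain ⟨i, hi⟩ : ∃ i, θ i ≠ fun _ => (1 : ℂ) := by
      by_contra hall
      push Not at hall
      refine hQne ((Subgroup.eq_bot_iff_forall _).2 fun u hu => hfaith u ?_)
      have h1 := congrFun hsum ⟨u, hu⟩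
      have h2 := congrFun hsum 1
      simp only [Finset.sum_apply, hall, Subgroup.coe_one] at h1 h2
      rw [h1, h2]
    have hci := CharBasics.isCharacter_of_irr (hθ i)
    have h1 : θ i 1 = 1 := by rw [CharBasics.apply_one hci, hlin i, Nat.cast_one]
    let l := IndFun.linHom hci h1
    have hl : (fun u => (l u : ℂ)) = θ i := funext fun u => IndFun.linHom_val hci h1 u
    have hl1 : l ≠ 1 := fun h0 => hi (by rw [← hl, h0]; rfl)
    obtain ⟨f, hf, -⟩ := orbit_injective act l (hmove l hl1) hθ hsum hinv (by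
      rw [hl, hsum, CharBasics.classInner_sum_left,
        Finset.sum_congr rfl (g := fun j => if θ j = θ i then (1 : ℂ) else 0) fun j _ => ?_,
        Finset.sum_boole, Nat.cast_ne_zero]
      · exact (Finset.card_pos.2 ⟨i, by simp⟩).ne'
      · split_ifs with h
        · rw [h]; exact CharBasics.classInner_self (hθ i)
        · exact CharBasics.classInner_ne (hθ j) (hθ i) h)
    have h3 := Nat.card_le_card_of_injective f hf
    rw [Nat.card_eq_fintype_card (α := Fin r), Fintype.card_fin] at h3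
    have h4 : r = Cfsg.charDegree χ := by rw [hd2]; simp [hlin]
    nlinarith [h3, h4, hdeg, hP2]
  · push Not at hlin
    obtain ⟨i, hi⟩ := hlin
    obtain ⟨l, hl1, hl2, hl3⟩ := exists_linear_in_square (hRq.to_le hQR) (hθ i) hi
    have hφc : Cfsg.IsCharacter Q ((fun u : Q => χ u) * fun u : Q => conj (χ u)) :=
      CharBasics.isCharacter_mul hcQ' (CharBasics.isCharacter_star hcQ')
    obtain ⟨m, ψ, hψ, hψs⟩ := CharBasics.exists_decomp hφc
    have hsplit : ∀ μ : Q → ℂ, Cfsg.IsIrrCharacter Q μ →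
        Cfsg.classInner (θ i * fun u => conj (θ i u)) μ ≠ 0 →
        Cfsg.classInner ((fun u : Q => χ u) * fun u : Q => conj (χ u)) μ ≠ 0 := by
      intro μ hμ hne
      have e : ((fun u : Q => χ u) * fun u : Q => conj (χ u)) =
          ∑ p : Fin r × Fin r, θ p.1 * fun u => conj (θ p.2 u) := by
        funext u
        simp only [Pi.mul_apply, Finset.sum_apply, Fintype.sum_prod_type]
        rw [show χ (u : G) = ∑ j, θ j u by simpa using congrFun hsum u, map_sum, Finset.sum_mul_sum]
      rw [e, CharBasics.classInner_sum_left]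
      choose k hk using fun p : Fin r × Fin r => CharBasics.classInner_character_nat
        (CharBasics.isCharacter_mul (CharBasics.isCharacter_of_irr (hθ p.1))
          (CharBasics.isCharacter_star (CharBasics.isCharacter_of_irr (hθ p.2)))) ⟨μ, hμ⟩
      rw [Finset.sum_congr rfl fun p _ => hk p, ← Nat.cast_sum, Nat.cast_ne_zero]
      intro h0
      refine hne ((hk (i, i)).trans ?_)
      rw [(Finset.sum_eq_zero_iff.1 h0) (i, i) (Finset.mem_univ _), Nat.cast_zero]
    obtain ⟨f, hf, hf1⟩ := orbit_injective act l (hmove l hl1) hψ hψs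
      (fun a u => by simp only [Pi.mul_apply, hinv]) (hsplit _ (irr_linear l) hl2)
    obtain ⟨j, hj⟩ := classInner_decomp hψ hψs CharBasics.isIrrCharacter_one
      (hsplit _ CharBasics.isIrrCharacter_one (by rw [hl3]; exact one_ne_zero))
    have hinj : Function.Injective (fun o : Option (P : Subgroup G) => o.elim j f) := by
      rintro (_ | a) (_ | b) hab
      · rfl
      · exact absurd ((congrArg ψ hab.symm).trans hj) (hf1 hl1 b)
      · exact absurd ((congrArg ψ hab).trans hj) (hf1 hl1 a)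
      · exact congrArg some (hf hab)
    have h3 := Fintype.card_le_of_injective _ hinj
    rw [Fintype.card_option, Fintype.card_fin] at h3
    have hmdeg : Cfsg.charDegree χ * Cfsg.charDegree χ = ∑ k, Cfsg.charDegree (ψ k) := by
      have h5 := congrFun hψs 1
      simp only [Pi.mul_apply, Finset.sum_apply, Subgroup.coe_one, CharBasics.apply_one hχ,
        Complex.conj_natCast, CharBasics.apply_one (CharBasics.isCharacter_of_irr (hψ _))] at h5
      exact_mod_cast h5
    have h6 : m ≤ ∑ k, Cfsg.charDegree (ψ k) :=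
      le_trans (by simp) (Finset.sum_le_sum (s := Finset.univ) (f := fun _ : Fin m => 1)
        fun k _ => CharBasics.charDegree_pos (hψ k))
    rw [Nat.card_eq_fintype_card, pow_two] at hdeg
    omega

end Cfsg.Agent.S4748
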