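import Cfsg.Statements.S4750
import Cfsg.Agent.BrauerInd.FreeBound
import Cfsg.Agent.CharBasics.Ortho

set_option autoImplicit false
set_option linter.style.haveILetI false
open scoped Pointwise
open Cfsg

namespace Cfsg.Agent.S4750

/-- Let P be a Sylow p-subgroup of the finite group G that meets each conjugate g P g⁻¹ with g outside N_G(P) trivially, χ a character of G with χ(1)² ≤ |P|, and H a subgroup of G containing N_G(P). Then the inner product of χ with itself over G equals the inner product over H of the restriction of χ to H. -/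
theorem result {G : Type*} [Group G] [Fintype G] [DecidableEq G] (p : ℕ) [Fact p.Prime] (P : Sylow p G) (hTI : ∀ g : G, g ∉ Subgroup.normalizer ((P : Subgroup G) : Set G) → (P : Subgroup G) ⊓ (MulAut.conj g • (P : Subgroup G)) = ⊥) (χ : G → ℂ) (hχ : Cfsg.IsCharacter G χ) (hdeg : Cfsg.charDegree χ ^ 2 ≤ Nat.card ↥(P : Subgroup G)) (H : Subgroup G) [Fintype ↥H] (hH : Subgroup.normalizer ((P : Subgroup G) : Set G) ≤ H) : Cfsg.classInner χ χ = Cfsg.classInner (fun h : ↥H => χ h) (fun h : ↥H => χ h) := by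
  classical
  obtain ⟨n, ρ, rfl⟩ := hχ
  haveI : Invertible (Nat.card G : ℂ) := invertibleOfNonzero (Nat.cast_ne_zero.mpr Nat.card_pos.ne')
  haveI : Invertible (Nat.card H : ℂ) := invertibleOfNonzero (Nat.cast_ne_zero.mpr Nat.card_pos.ne')
  have hc : Cfsg.IsCharacter G ρ.character := ⟨n, ρ, rfl⟩
  let σ := Representation.linHom ρ ρ
  let σH : Representation ℂ H ((Fin n → ℂ) →ₗ[ℂ] (Fin n → ℂ)) := σ.comp H.subtype
  have hchar : ∀ g : G, σ.character g = ρ.character g * (starRingEnd ℂ) (ρ.character g) := fun g => by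
    rw [Representation.char_linHom, CfsgLib.CharBasics.apply_inv hc g, mul_comm]
  have e1 : Cfsg.classInner ρ.character ρ.character = (Module.finrank ℂ (Representation.invariants σ) : ℂ) := by
    rw [← Representation.card_inv_mul_sum_char_eq_finrank, CfsgLib.CharBasics.classInner_eq]
    exact congrArg _ (Finset.sum_congr rfl fun g _ => (hchar g).symm)
  have e2 : Cfsg.classInner (fun h : ↥H => ρ.character h) (fun h : ↥H => ρ.character h) =
      (Module.finrank ℂ (Representation.invariants σH) : ℂ) := by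
    rw [← Representation.card_inv_mul_sum_char_eq_finrank, CfsgLib.CharBasics.classInner_eq]
    exact congrArg _ (Finset.sum_congr rfl fun g _ => (hchar g).symm)
  rw [e1, e2]
  suffices h : Representation.invariants σ = Representation.invariants σH by rw [h]
  refine le_antisymm (fun v hv h => hv (h : G)) fun v hv => ?_
  by_contra hvn
  have hP : (P : Subgroup G) ≤ H := Subgroup.le_normalizer.trans hH
  have hidx : ¬ p ∣ H.index := fun h => P.not_dvd_index (h.trans (Subgroup.index_dvd_of_le hP))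
  have hHfix : ∀ h ∈ H, σ h v = v := fun h hh => hv ⟨h, hh⟩
  have hi : (H.index : ℂ) ≠ 0 := Nat.cast_ne_zero.mpr Subgroup.index_ne_zero_of_finite
  set Tr : (Fin n → ℂ) →ₗ[ℂ] (Fin n → ℂ) := ∑ᶠ q : G ⧸ H, σ q.out v with hTr
  haveI := Fintype.ofFinite (G ⧸ H)
  have hout : ∀ (g : G) (q : G ⧸ H), σ (g • q).out v = σ g (σ q.out v) := by
    intro g q
    have : (g * q.out)⁻¹ * (g • q).out ∈ H := by
      rw [← QuotientGroup.eq, QuotientGroup.out_eq']
      exact congrArg (g • ·) (QuotientGroup.out_eq' q)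
    conv_rhs => rw [← hHfix _ this, ← Module.End.mul_apply, ← Module.End.mul_apply, ← map_mul, ← map_mul,
      mul_assoc, ← mul_assoc g, mul_inv_cancel_left]
  have hTrG : ∀ g, σ g Tr = Tr := fun g => by
    rw [hTr, finsum_eq_sum_of_fintype, map_sum]
    exact Fintype.sum_equiv (MulAction.toPerm g) _ _ fun q => (hout g q).symm
  set v₀ := v - (H.index : ℂ)⁻¹ • Tr with hv₀def
  have hv₀ : v₀ ≠ 0 := by
    intro h0
    refine hvn fun g => ?_
    rw [sub_eq_zero.1 h0, map_smul, hTrG]
  have hv₀H : ∀ h ∈ H, σ h v₀ = v₀ := fun h hh => by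
    rw [hv₀def, map_sub, map_smul, hTrG, hHfix h hh]
  have htr : ∑ᶠ q : G ⧸ H, σ q.out v₀ = 0 := by
    rw [finsum_eq_sum_of_fintype]
    simp only [hv₀def, map_sub, map_smul, hTrG, Finset.sum_sub_distrib, Finset.sum_const, Finset.card_univ]
    rw [← finsum_eq_sum_of_fintype, ← hTr, ← Nat.card_eq_fintype_card, ← Subgroup.index_eq_card,
      ← Nat.cast_smul_eq_nsmul ℂ, smul_smul, mul_inv_cancel₀ hi, one_smul, sub_self]
  have hn : n ≠ 0 := by
    rintro rfl
    exact hv₀ (Subsingleton.elim _ _)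
  have hw₀ : (LinearMap.id : (Fin n → ℂ) →ₗ[ℂ] (Fin n → ℂ)) ≠ 0 := fun h => by
    have := congrFun (LinearMap.congr_fun h fun _ => 1) ⟨0, Nat.pos_of_ne_zero hn⟩
    simp at this
  have hid : ∀ g, σ g LinearMap.id = LinearMap.id := fun g => by
    rw [Representation.linHom_apply, LinearMap.id_comp, ← Module.End.mul_eq_comp, ← map_mul,
      mul_inv_cancel, map_one]
    rfl
  have hfree : ∀ x ∈ (P : Subgroup G), x ≠ 1 → ∀ q : G ⧸ H, x • q = q → q = ((1 : G) : G ⧸ H) := by
    intro x hx hx1 q hq
    induction q using QuotientGroup.induction_on with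
    | H g =>
      have hy : g⁻¹ * x * g ∈ H := by
        have h : ((g : G) : G ⧸ H) = ((x * g : G) : G ⧸ H) := hq.symm
        rw [QuotientGroup.eq] at h
        simpa [mul_assoc] using h
      have hyp : IsPGroup p (Subgroup.zpowers (⟨g⁻¹ * x * g, hy⟩ : H)) := by
        obtain ⟨k, hk⟩ := P.2 ⟨x, hx⟩
        have hk' : x ^ p ^ k = 1 := congrArg Subtype.val hk
        have hyk : (⟨g⁻¹ * x * g, hy⟩ : H) ^ p ^ k = 1 := Subtype.ext (by
          simp only [SubmonoidClass.coe_pow, OneMemClass.coe_one]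
          have := map_pow (MulAut.conj g⁻¹) x (p ^ k)
          simp only [MulAut.conj_apply, inv_inv, hk', mul_one, inv_mul_cancel] at this
          exact this.symm)
        obtain ⟨i, -, hi'⟩ := (Nat.dvd_prime_pow Fact.out).1 (orderOf_dvd_of_pow_eq_one hyk)
        exact IsPGroup.of_card (n := i) (by rw [Nat.card_zpowers, hi'])
      obtain ⟨R, hR⟩ := hyp.exists_le_sylow
      obtain ⟨h, hh⟩ := MulAction.exists_smul_eq H R (P.subtype hP)
      have hmem : h * ⟨g⁻¹ * x * g, hy⟩ * h⁻¹ ∈ ((h • R : Sylow p H) : Subgroup H) := by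
        rw [Sylow.coe_subgroup_smul, Subgroup.mem_pointwise_smul_iff_inv_smul_mem, ← map_inv,
          MulAut.smul_def, MulAut.conj_apply]
        simpa [mul_assoc] using hR (Subgroup.mem_zpowers _)
      rw [hh, Sylow.coe_subtype, Subgroup.mem_subgroupOf] at hmem
      have hk : g * (h : G)⁻¹ ∈ Subgroup.normalizer ((P : Subgroup G) : Set G) := by
        by_contra hk
        have h2 : x ∈ (P : Subgroup G) ⊓ MulAut.conj (g * (h : G)⁻¹) • (P : Subgroup G) := by
          refine Subgroup.mem_inf.2 ⟨hx, ?_⟩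
          rw [Subgroup.mem_pointwise_smul_iff_inv_smul_mem, ← map_inv, MulAut.smul_def, MulAut.conj_apply]
          simpa [mul_assoc] using hmem
        rw [hTI _ hk, Subgroup.mem_bot] at h2
        exact hx1 h2
      rw [QuotientGroup.eq]
      simpa using H.mul_mem (hH hk) h.2
  have hb := CfsgLib.BrauerInd.card_succ_le_finrank σ H (P : Subgroup G) hP P.2 hidx hfree v₀ hv₀ hv₀H htr
    LinearMap.id hw₀ hid
  have hd : Cfsg.charDegree ρ.character = n := by simp [Cfsg.charDegree]
  rw [Module.finrank_linearMap, Module.finrank_fin_fun] at hb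
  rw [hd, pow_two] at hdeg
  omega

end Cfsg.Agent.S4750
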