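import Cfsg.Statements.S4754
import Cfsg.Agent.BrauerInd.ClassProd

set_option autoImplicit false
open Cfsg

namespace Cfsg.Agent.S4754

/-- For elements x, y of a finite group G, the conjugacy class of x y equals the set of all products of a conjugate of x with a conjugate of y if and only if χ(1) χ(a x a⁻¹ b y b⁻¹) = χ(x) χ(y) for all a, b ∈ G and every irreducible character χ. -/
theorem result {G : Type*} [Group G] [Finite G] (x y : G) : (∀ z : G, IsConj (x * y) z ↔ ∃ a b : G, z = a * x * a⁻¹ * (b * y * b⁻¹)) ↔ ∀ (a b : G) (χ : Cfsg.IrrCharacter G), (χ : G → ℂ) 1 * (χ : G → ℂ) (a * x * a⁻¹ * (b * y * b⁻¹)) = (χ : G → ℂ) x * (χ : G → ℂ) y := by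
  haveI := Fintype.ofFinite G
  constructor
  · intro h a b χ
    have hc : ∀ z, (∃ a b : G, z = a * x * a⁻¹ * (b * y * b⁻¹)) → χ.1 z = χ.1 (x * y) := fun z hz =>
      (CfsgLib.CharBasics.apply_isConj (CfsgLib.CharBasics.isCharacter_of_irr χ.2) ((h z).2 hz)).symm
    rw [hc _ ⟨a, b, rfl⟩]
    exact CfsgLib.BrauerInd.mul_apply_of_const χ.2 x y _ fun a => hc _ ⟨a, 1, by group⟩
  · intro h z
    refine CfsgLib.BrauerInd.isConj_mul_iff x y (fun a b χ => ?_) z
    have h1 := h a b χ
    have h2 := h 1 1 χ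
    simp only [one_mul, inv_one, mul_one] at h2
    exact mul_left_cancel₀ (CfsgLib.CharBasics.apply_one_ne_zero χ.2) (h1.trans h2.symm)

end Cfsg.Agent.S4754
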