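import Cfsg.Statements.S4755
import Cfsg.Agent.BrauerInd.ClassProd
import Cfsg.Agent.IndFun.Basic

set_option autoImplicit false
open Cfsg

namespace Cfsg.Agent.S4755

/-- Let x, y be non-identity elements of the finite group G such that χ(x' y') = χ(x') χ(y') for all conjugates x' of x, y' of y and every irreducible character χ. Then the conjugacy class of x y is the set of all products of a conjugate of x with a conjugate of y; every irreducible character of degree greater than 1 vanishes at x y; and the conjugacy class of x y is the coset of the commutator subgroup containing x y. -/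
theorem result {G : Type*} [Group G] [Finite G] (x y : G) (hx : x ≠ 1) (hy : y ≠ 1) (h : ∀ (a b : G) (χ : Cfsg.IrrCharacter G), (χ : G → ℂ) (a * x * a⁻¹ * (b * y * b⁻¹)) = (χ : G → ℂ) (a * x * a⁻¹) * (χ : G → ℂ) (b * y * b⁻¹)) : (∀ z : G, IsConj (x * y) z ↔ ∃ a b : G, z = a * x * a⁻¹ * (b * y * b⁻¹)) ∧ (∀ χ : Cfsg.IrrCharacter G, (χ : G → ℂ) 1 ≠ 1 → (χ : G → ℂ) (x * y) = 0) ∧ (∀ z : G, IsConj (x * y) z ↔ (x * y)⁻¹ * z ∈ commutator G) := by
  classical
  haveI := Fintype.ofFinite G
  haveI := Fintype.ofFinite (Cfsg.IrrCharacter G)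
  have hval : ∀ (a b : G) (χ : Cfsg.IrrCharacter G),
      χ.1 (a * x * a⁻¹ * (b * y * b⁻¹)) = χ.1 x * χ.1 y := fun a b χ => by
    rw [h a b χ, CfsgLib.CharBasics.isClassFunction (CfsgLib.CharBasics.isCharacter_of_irr χ.2),
      CfsgLib.CharBasics.isClassFunction (CfsgLib.CharBasics.isCharacter_of_irr χ.2)]
  have hxy : ∀ χ : Cfsg.IrrCharacter G, χ.1 (x * y) = χ.1 x * χ.1 y := fun χ => by
    simpa using hval 1 1 χ
  have h2 : ∀ χ : Cfsg.IrrCharacter G, χ.1 1 ≠ 1 → χ.1 (x * y) = 0 := fun χ hne => by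
    have h1 := CfsgLib.BrauerInd.mul_apply_of_const χ.2 x y (χ.1 x * χ.1 y)
      (fun a => by simpa using hval a 1 χ)
    rw [hxy]
    by_contra h0
    exact hne ((mul_eq_right₀ h0).1 h1)
  refine ⟨CfsgLib.BrauerInd.isConj_mul_iff x y fun a b χ => by rw [hval, hxy], h2, fun z => ?_⟩
  constructor
  · intro hz
    obtain ⟨c, rfl⟩ := isConj_iff.1 hz
    open scoped commutatorElement in
    have he : (x * y)⁻¹ * (c * (x * y) * c⁻¹) = ⁅(x * y)⁻¹, c⁆ := by
      rw [commutatorElement_def]; group
    rw [he]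
    exact Subgroup.commutator_mem_commutator (Subgroup.mem_top _) (Subgroup.mem_top _)
  · intro hz
    by_contra hn
    have hcol := CfsgLib.CharBasics.sum_col (x * y) z
    rw [if_neg hn] at hcol
    have hterm : ∀ χ : Cfsg.IrrCharacter G, χ.1 (x * y) * (starRingEnd ℂ) (χ.1 z) =
        ((‖χ.1 (x * y)‖ ^ 2 : ℝ) : ℂ) := by
      intro χ
      by_cases h1 : χ.1 1 = 1
      · have hc := CfsgLib.CharBasics.isCharacter_of_irr χ.2
        have hk := Abelianization.commutator_subset_ker (CfsgLib.IndFun.linHom hc h1) hz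
        rw [MonoidHom.mem_ker] at hk
        have hk' := congrArg Units.val hk
        rw [CfsgLib.IndFun.linHom_val, Units.val_one] at hk'
        have : χ.1 z = χ.1 (x * y) := by
          conv_lhs => rw [← mul_inv_cancel_left (x * y) z]
          rw [CfsgLib.IndFun.linChar_mul hc h1, hk', mul_one]
        rw [this, Complex.mul_conj']
        push_cast; rfl
      · rw [h2 χ h1]; simp
    rw [Finset.sum_congr rfl fun χ _ => hterm χ, ← Complex.ofReal_sum,
      CfsgLib.CharBasics.sum_normSq_col] at hcol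
    have hpos : 0 < Nat.card (Subgroup.centralizer ({x * y} : Set G)) := Nat.card_pos
    norm_cast at hcol
    omega

end Cfsg.Agent.S4755
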