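import Cfsg.Statements.S4758
import Cfsg.Agent.ValueGapFour.Structure
import Cfsg.Agent.S0494

set_option autoImplicit false
open Cfsg

namespace Cfsg.Agent.S4758

open CfsgLib in
theorem card_psl25 :
    Nat.card (Matrix.ProjectiveSpecialLinearGroup (Fin 2) (ZMod 5)) = 60 ∧
      commutator (Matrix.ProjectiveSpecialLinearGroup (Fin 2) (ZMod 5)) = ⊤ := by
  set Z := Subgroup.center (Matrix.SpecialLinearGroup (Fin 2) (ZMod 5))
  have hperf : commutator (Matrix.ProjectiveSpecialLinearGroup (Fin 2) (ZMod 5)) = ⊤ :=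
    Zass.commutator_eq_top_of_surjective (QuotientGroup.mk' Z) (QuotientGroup.mk'_surjective Z) Zass.perfect_SL25
  have hm := Z.card_mul_index
  rw [Zass.card_SL25] at hm
  have hZ : Nat.card Z ≠ 1 := fun e => by
    have h1 : (-1 : Matrix.SpecialLinearGroup (Fin 2) (ZMod 5)) ∈ Z := by
      rw [Subgroup.mem_center_iff]
      intro g
      exact Subtype.ext (by simp)
    rw [Subgroup.card_eq_one.1 e, Subgroup.mem_bot] at h1
    exact absurd h1 (by decide +kernel)
  have hZtop : Z.index ≠ 1 := fun e => by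
    have h1 : Z = ⊤ := Subgroup.index_eq_one.1 e
    haveI : IsMulCommutative (Matrix.SpecialLinearGroup (Fin 2) (ZMod 5)) :=
      ⟨⟨fun a b => (Subgroup.mem_center_iff.1 (h1 ▸ Subgroup.mem_top b : b ∈ Z) a)⟩⟩
    haveI : Nontrivial (Matrix.SpecialLinearGroup (Fin 2) (ZMod 5)) := by
      rw [← Finite.one_lt_card_iff_nontrivial, Zass.card_SL25]; norm_num
    have h2 : commutator (Matrix.SpecialLinearGroup (Fin 2) (ZMod 5)) = ⊥ := (commutator_eq_bot_iff _).2 inferInstance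
    exact bot_ne_top (h2.symm.trans Zass.perfect_SL25)
  haveI : Nontrivial (Matrix.ProjectiveSpecialLinearGroup (Fin 2) (ZMod 5)) := by
    show Nontrivial (Matrix.SpecialLinearGroup (Fin 2) (ZMod 5) ⧸ Z)
    rw [← Finite.one_lt_card_iff_nontrivial, ← Subgroup.index_eq_card]
    have := Z.index_ne_zero_of_finite
    omega
  refine ⟨?_, hperf⟩
  rcases Zass.card_of_perfect hperf (show Z.index ∣ 120 from Dvd.intro_left _ hm) with e | e
  · exact e
  · exfalso
    have e' : Z.index = 120 := e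
    rw [e'] at hm
    omega

/-- Let u ≠ 1 be an element of the finite group G such that every non-principal irreducible character χ satisfies χ(1) − χ(u) = 4 or χ(u) = 0. Then O(G), the largest normal subgroup of odd order, is abelian, and either G ⧸ O(G) ≅ PSL₂(5) and u is an involution, or G ⧸ O(G) ≅ SL₂(5) and u has order 4. -/
theorem result {G : Type*} [Group G] [Finite G] (u : G) (hu : u ≠ 1) (hyp : ∀ χ : Cfsg.IrrCharacter G, (χ : G → ℂ) ≠ (fun _ => (1 : ℂ)) → ((χ : G → ℂ) 1 - (χ : G → ℂ) u = 4 ∨ (χ : G → ℂ) u = 0)) : IsMulCommutative ↥(Cfsg.oddCore G) ∧ ((Nonempty (G ⧸ Cfsg.oddCore G ≃* Matrix.ProjectiveSpecialLinearGroup (Fin 2) (ZMod 5)) ∧ orderOf u = 2) ∨ (Nonempty (G ⧸ Cfsg.oddCore G ≃* Matrix.SpecialLinearGroup (Fin 2) (ZMod 5)) ∧ orderOf u = 4)) := by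
  classical
  haveI := Fintype.ofFinite G
  have hgap := CfsgLib.ValueGapFour.gap_of u hu hyp
  obtain ⟨hc, hn, hor⟩ := CfsgLib.ValueGapFour.structure_theorem hgap
  haveI := hn
  have hperf : commutator (G ⧸ Cfsg.oddCore G) = ⊤ := CfsgLib.Zass.commutator_eq_top_of_surjective
    (QuotientGroup.mk' _) (QuotientGroup.mk'_surjective _) (CfsgLib.ValueGapFour.perfect hgap)
  refine ⟨hc, ?_⟩
  rcases hor with ⟨ho, hi⟩ | ⟨ho, hi⟩
  · left
    refine ⟨?_, ho⟩
    obtain ⟨hP, hPperf⟩ := card_psl25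
    haveI := CfsgLib.Zass.isSimpleGroup_of_perfect_sixty hperf hi
    haveI := CfsgLib.Zass.isSimpleGroup_of_perfect_sixty hPperf hP
    obtain ⟨e1⟩ := Cfsg.Agent.S0494.result (G := G ⧸ Cfsg.oddCore G) hi
    obtain ⟨e2⟩ := Cfsg.Agent.S0494.result (G := Matrix.ProjectiveSpecialLinearGroup (Fin 2) (ZMod 5)) hP
    exact ⟨e1.trans e2.symm⟩
  · exact Or.inr ⟨CfsgLib.Zass.iso_SL25 hperf hi, ho⟩

end Cfsg.Agent.S4758
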