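import Cfsg.Statements.S4763
import Cfsg.Agent.CoprimeClasses.Count
import Cfsg.Agent.CharBasics.ItoConverse


set_option autoImplicit false
open Cfsg

namespace Cfsg.Agent.S4763

open CfsgLib CfsgLib.CharBasics CfsgLib.ItoConverse

/-- Let p be a prime and G a finite group that is not nilpotent and has a normal p-complement (a normal subgroup of order prime to p and index a power of p). If G has exactly one irreducible complex character of degree divisible by p, then G has exactly one conjugacy class whose size is divisible by p. -/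
theorem result {G : Type*} [Group G] [Finite G] (p : ℕ) [Fact p.Prime] (hnil : ¬ Group.IsNilpotent G) (N : Subgroup G) [N.Normal] (hN : (Nat.card N).Coprime p) (hidx : ∃ k : ℕ, N.index = p ^ k) (hone : Nat.card {χ : Cfsg.IrrCharacter G // p ∣ Cfsg.charDegree (χ : G → ℂ)} = 1) : Nat.card {C : ConjClasses G // p ∣ Nat.card C.carrier} = 1 := by
  classical
  haveI : Fintype G := Fintype.ofFinite G
  haveI : Fintype N := Fintype.ofFinite N
  have hp : p.Prime := Fact.out
  obtain ⟨k, hk⟩ := hidx
  have hcop : (Nat.card N).Coprime N.index := by rw [hk]; exact hN.pow_right k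
  obtain ⟨H, hH⟩ := Subgroup.exists_right_complement'_of_coprime hcop
  have hHcard : Nat.card H = p ^ k := by rw [← hH.symm.index_eq_card, hk]
  have hHp : IsPGroup p H := IsPGroup.of_card hHcard
  have hcopH : (Nat.card N).Coprime (Nat.card H) := by rw [hHcard]; exact hN.pow_right k
  have hN1 : N ≠ ⊥ := fun h => by
    haveI := Fact.mk hp
    refine hnil (IsPGroup.isNilpotent (p := p) (IsPGroup.of_card (n := k) ?_))
    rw [← hk, h, Subgroup.index_bot]
  -- the degree and the index
  have hdiv : ∀ χ : IrrCharacter G, (charDegree (χ : G → ℂ)).Coprime N.index ↔ (k = 0 ∨ ¬ p ∣ charDegree (χ : G → ℂ)) := by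
    intro χ
    rw [hk]
    rcases Nat.eq_zero_or_pos k with h | h
    · simp [h]
    · rw [Nat.coprime_pow_right_iff h, Nat.coprime_comm, hp.coprime_iff_not_dvd]
      exact ⟨Or.inr, fun e => e.resolve_left h.ne'⟩
  have hk0 : k ≠ 0 := by
    intro h0
    obtain ⟨χ, hχ⟩ := Finite.card_pos_iff.1 (hone.symm ▸ Nat.one_pos : 0 < Nat.card {χ : Cfsg.IrrCharacter G // p ∣ Cfsg.charDegree (χ : G → ℂ)})
    have htop : N = ⊤ := Subgroup.index_eq_one.1 (by rw [hk, h0, pow_zero])
    rw [htop, Subgroup.card_top] at hN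
    exact hp.ne_one (Nat.Coprime.eq_one_of_dvd hN.symm (hχ.trans (degree_dvd χ)))
  have hdiv' : ∀ χ : IrrCharacter G, (charDegree (χ : G → ℂ)).Coprime N.index ↔ ¬ p ∣ charDegree (χ : G → ℂ) :=
    fun χ => (hdiv χ).trans ⟨fun e => e.resolve_left hk0, Or.inr⟩
  haveI hsub : Subsingleton {χ : Cfsg.IrrCharacter G // p ∣ Cfsg.charDegree (χ : G → ℂ)} :=
    (Nat.card_eq_one_iff_unique.1 hone).1
  -- the complement is abelian
  have hab : IsMulCommutative (G ⧸ N) := by
    refine isMulCommutative_of_all_linear fun lam => ?_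
    by_contra hne
    have hdvd : charDegree (lam : G ⧸ N → ℂ) ∣ p ^ k := by
      rw [← hk]
      exact degree_dvd lam
    obtain ⟨i, -, hi⟩ := (Nat.dvd_prime_pow hp).1 hdvd
    have hi0 : i ≠ 0 := fun h => hne (by rw [hi, h, pow_zero])
    set L : IrrCharacter G := ⟨_, Clifford.isIrrCharacter_comp lam.2 (QuotientGroup.mk' N) (QuotientGroup.mk'_surjective N)⟩ with hL
    have hLd : charDegree (L : G → ℂ) = charDegree (lam : G ⧸ N → ℂ) := by simp [hL, charDegree]
    have hLp : p ∣ charDegree (L : G → ℂ) := by rw [hLd, hi]; exact dvd_pow_self p hi0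
    have hLN : ∀ n ∈ N, (L : G → ℂ) n = (L : G → ℂ) 1 := fun n hn => by
      show (lam : G ⧸ N → ℂ) (QuotientGroup.mk' N n) = (lam : G ⧸ N → ℂ) (QuotientGroup.mk' N 1)
      rw [map_one, show QuotientGroup.mk' N n = 1 from (QuotientGroup.eq_one_iff n).2 hn]
    obtain ⟨θ, hθ⟩ : ∃ θ : IrrCharacter N, (θ : N → ℂ) ≠ fun _ => 1 := by
      by_contra hcon
      push Not at hcon
      haveI : Subsingleton (IrrCharacter N) := ⟨fun a b => Subtype.ext ((hcon a).trans (hcon b).symm)⟩
      haveI : Nonempty (IrrCharacter N) := ⟨⟨_, isIrrCharacter_one⟩⟩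
      have h1 : Nat.card (ConjClasses N) = 1 := by rw [← card_irr, Nat.card_unique]
      haveI := (Nat.card_eq_one_iff_unique.1 h1).1
      refine hN1 ((Subgroup.eq_bot_iff_forall N).2 fun n hn => ?_)
      obtain ⟨c, hc⟩ := isConj_iff.1 (ConjClasses.mk_eq_mk_iff_isConj.1
        (Subsingleton.elim (ConjClasses.mk (1 : N)) (ConjClasses.mk ⟨n, hn⟩)))
      simpa using (congrArg Subtype.val hc).symm
    have hnot : ∀ χ : IrrCharacter G, p ∣ charDegree (χ : G → ℂ) → χ = L := fun χ hχ =>
      congrArg Subtype.val (hsub.elim ⟨χ, hχ⟩ ⟨L, hLp⟩)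
    have h1θ : classInner (fun _ : N => (1 : ℂ)) (θ : N → ℂ) = 0 :=
      classInner_ne isIrrCharacter_one θ.2 (Ne.symm hθ)
    have hLθ : classInner (fun n : N => (L : G → ℂ) n) (θ : N → ℂ) = 0 := by
      rw [show (fun n : N => (L : G → ℂ) n) = (L : G → ℂ) 1 • (fun _ : N => (1 : ℂ)) from funext fun n => by
        simp [hLN n n.2], classInner_smul_left, h1θ, mul_zero]
    obtain ⟨χ, e, he, -, hev⟩ := exists_over N θ
    have hχ : classInner (fun n : N => (χ : G → ℂ) n) (θ : N → ℂ) ≠ 0 := by rw [hev]; exact Nat.cast_ne_zero.2 he.ne'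
    by_cases hinv : ∀ g : G, Clifford.conjFun g (θ : N → ℂ) = (θ : N → ℂ)
    · obtain ⟨η, hη⟩ := CoprimeDegree.exists_extension hcop.symm θ hinv
      have h1θ' : ((fun _ => 1) * (θ : N → ℂ) : N → ℂ) = (θ : N → ℂ) := funext fun n => one_mul _
      obtain ⟨hirr, -⟩ := (Clifford.gallagher_bijOn (G := G) (φ := fun _ : N => (1 : ℂ)) isIrrCharacter_one
        (fun g => rfl) (h1θ'.symm ▸ θ.2) (isCharacter_of_irr η.2) hη).mapsTo
        (show (L : G → ℂ) ∈ _ from ⟨L.2, (Clifford.mem_over_one_iff L.2).2 hLN⟩)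
      have hpd : p ∣ charDegree ((L : G → ℂ) * (η : G → ℂ)) := by
        have h : ((charDegree ((L : G → ℂ) * (η : G → ℂ)) : ℕ) : ℂ) =
            ((charDegree (L : G → ℂ) * charDegree (η : G → ℂ) : ℕ) : ℂ) := by
          rw [← apply_one (isCharacter_of_irr hirr), Nat.cast_mul, ← apply_one (isCharacter_of_irr L.2),
            ← apply_one (isCharacter_of_irr η.2)]
          rfl
        rw [Nat.cast_inj.1 h]
        exact hLp.mul_right _
      have heq := congrArg Subtype.val (hnot ⟨_, hirr⟩ hpd)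
      refine hθ (funext fun n => ?_)
      have h2 := congrFun heq n
      have h0 := apply_one_ne_zero L.2
      simp only [Pi.mul_apply, hη n, hLN n n.2] at h2
      exact (mul_eq_left₀ h0).1 h2
    · have hpχ : p ∣ charDegree (χ : G → ℂ) := by
        by_contra hc
        exact hinv (CoprimeDegree.restrict_of_coprime ((hdiv' χ).2 hc) hχ).1
      exact hχ (by rw [hnot χ hpχ]; exact hLθ)
  have hHab : IsMulCommutative H := by
    refine ⟨⟨fun a b => Subtype.ext ?_⟩⟩
    have h := hab.1.1 (QuotientGroup.mk' N (a : G)) (QuotientGroup.mk' N (b : G))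
    rw [← map_mul, ← map_mul] at h
    have h' : ((a : G) * b)⁻¹ * ((b : G) * a) ∈ N ⊓ H :=
      ⟨QuotientGroup.eq.1 h, H.mul_mem (H.inv_mem (H.mul_mem a.2 b.2)) (H.mul_mem b.2 a.2)⟩
    rw [disjoint_iff.1 hH.disjoint, Subgroup.mem_bot, inv_mul_eq_one] at h'
    exact h'
  -- counting the characters
  have hchar : Nat.card {χ : IrrCharacter G // ¬ p ∣ charDegree (χ : G → ℂ)} =
      Nat.card (ConjClasses (N ⊓ Subgroup.centralizer (H : Set G) : Subgroup G)) * Nat.card H := by
    have h := CoprimeDegree.card_eq_classes_mul hH.sup_eq_top hcopH (by haveI := hHp.isNilpotent; infer_instance)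
    rw [CfsgLib.CoprimeClasses.card_hom_complex] at h
    rw [← h]
    refine Nat.card_congr (Equiv.subtypeEquivRight fun χ => ?_)
    rw [← hdiv', hH.symm.index_eq_card]
  have hcls := CfsgLib.CoprimeClasses.card_classes_prime_to (N := N) (H := H) hH hcopH hHcard hk0
  have e1 : Nat.card (IrrCharacter G) = Nat.card {χ : IrrCharacter G // p ∣ charDegree (χ : G → ℂ)} +
      Nat.card {χ : IrrCharacter G // ¬ p ∣ charDegree (χ : G → ℂ)} := by
    rw [← Nat.card_sum]; exact (Nat.card_congr (Equiv.sumCompl _)).symm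
  have e2 : Nat.card (ConjClasses G) = Nat.card {C : ConjClasses G // p ∣ Nat.card C.carrier} +
      Nat.card {C : ConjClasses G // ¬ p ∣ Nat.card C.carrier} := by
    rw [← Nat.card_sum]; exact (Nat.card_congr (Equiv.sumCompl _)).symm
  rw [card_irr, e2, hcls, hone, hchar] at e1
  omega

end Cfsg.Agent.S4763
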