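import Cfsg.Statements.S4765
import Cfsg.Agent.SL2Char.Degrees
import Cfsg.Agent.CharBasics.Extra
-- import your own Cfsg.Agent.* helpers here

set_option autoImplicit false
open Cfsg

namespace Cfsg.Agent.S4765

/-- Let F be a finite field of characteristic p with at least 4 elements. Then PSL(2,F) has exactly one irreducible complex character of degree divisible by p, and its degree is the order of F. -/
theorem result (p : ℕ) [Fact p.Prime] (F : Type*) [Field F] [Fintype F] [CharP F p] (hF : 4 ≤ Fintype.card F) : Nat.card {χ : Cfsg.IrrCharacter (Matrix.ProjectiveSpecialLinearGroup (Fin 2) F) // p ∣ Cfsg.charDegree (χ : Matrix.ProjectiveSpecialLinearGroup (Fin 2) F → ℂ)} = 1 ∧ ∀ χ : Cfsg.IrrCharacter (Matrix.ProjectiveSpecialLinearGroup (Fin 2) F), p ∣ Cfsg.charDegree (χ : Matrix.ProjectiveSpecialLinearGroup (Fin 2) F → ℂ) → Cfsg.charDegree (χ : Matrix.ProjectiveSpecialLinearGroup (Fin 2) F → ℂ) = Fintype.card F := by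
  classical
  have hp : p.Prime := Fact.out
  have hpq : p ∣ Fintype.card F := by
    obtain ⟨n, -, hn⟩ := FiniteField.card F p
    rw [hn]; exact dvd_pow_self p n.ne_zero
  haveI : Finite (Matrix.ProjectiveSpecialLinearGroup (Fin 2) F) :=
    inferInstanceAs (Finite ((Matrix.SpecialLinearGroup (Fin 2) F) ⧸ Subgroup.center (Matrix.SpecialLinearGroup (Fin 2) F)))
  have hsurj : Function.Surjective (QuotientGroup.mk' (Subgroup.center (Matrix.SpecialLinearGroup (Fin 2) F))) :=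
    QuotientGroup.mk'_surjective _
  have hinf : ∀ χ : Cfsg.IrrCharacter (Matrix.ProjectiveSpecialLinearGroup (Fin 2) F),
      p ∣ Cfsg.charDegree (χ : Matrix.ProjectiveSpecialLinearGroup (Fin 2) F → ℂ) →
      (∀ x : Matrix.SpecialLinearGroup (Fin 2) F, (χ : Matrix.ProjectiveSpecialLinearGroup (Fin 2) F → ℂ) (QuotientGroup.mk x) = CfsgLib.SL2Char.St x) ∧
      Cfsg.charDegree (χ : Matrix.ProjectiveSpecialLinearGroup (Fin 2) F → ℂ) = Fintype.card F := by
    intro χ hd
    have hi : Cfsg.IsIrrCharacter (Matrix.SpecialLinearGroup (Fin 2) F) (fun x => (χ : Matrix.ProjectiveSpecialLinearGroup (Fin 2) F → ℂ) (QuotientGroup.mk' _ x)) :=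
      CfsgLib.CharBasics.irr_comp_of_surjective χ.2 _ hsurj
    have hone : (χ : Matrix.ProjectiveSpecialLinearGroup (Fin 2) F → ℂ) (QuotientGroup.mk' _ (1 : Matrix.SpecialLinearGroup (Fin 2) F)) =
        (Cfsg.charDegree (χ : Matrix.ProjectiveSpecialLinearGroup (Fin 2) F → ℂ) : ℂ) := by
      rw [map_one]; exact CfsgLib.CharBasics.apply_one (CfsgLib.CharBasics.isCharacter_of_irr χ.2)
    obtain ⟨C, T⟩ := CfsgLib.SL2Char.exists_torus (F := F)
    have un : ∀ d : ℕ, (χ : Matrix.ProjectiveSpecialLinearGroup (Fin 2) F → ℂ) (QuotientGroup.mk' _ (1 : Matrix.SpecialLinearGroup (Fin 2) F)) = (d : ℂ) →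
        p ∣ d := fun d hd' => Nat.cast_injective (hone.symm.trans hd') ▸ hd
    have hdq : Cfsg.charDegree (χ : Matrix.ProjectiveSpecialLinearGroup (Fin 2) F → ℂ) = Fintype.card F := by
      have key : ∀ a b : ℕ, p ∣ a → p ∣ b → a = b + 1 → False := fun a b h1 h2 e =>
        hp.not_dvd_one ((Nat.dvd_add_right h2).1 (e ▸ h1))
      have hq := Fintype.one_lt_card (α := F)
      by_cases hodd : Odd (Fintype.card F)
      · obtain ⟨O⟩ := CfsgLib.SL2Char.nonempty_oddTable hodd T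
        obtain ⟨k, hk⟩ := hodd
        rcases O.cases ⟨_, hi⟩ with ⟨-, h⟩ | ⟨-, h⟩ | ⟨-, h⟩ | ⟨-, h⟩ | ⟨-, h⟩ | ⟨-, h⟩
        · exact absurd (un _ h) hp.not_dvd_one
        · exact Nat.cast_injective (hone.symm.trans h)
        · exact (key _ _ (un _ h) hpq rfl).elim
        · exact (key _ _ hpq (un _ h) (by omega)).elim
        · exact (key _ _ (dvd_mul_of_dvd_right (un _ h) 2) hpq (by omega)).elim
        · exact (key _ _ hpq (dvd_mul_of_dvd_right (un _ h) 2) (by omega)).elim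
      · haveI := CfsgLib.SL2Char.charP_two_of_not_odd hodd
        rcases CfsgLib.SL2Char.deg_even T ⟨_, hi⟩ with ⟨-, h⟩ | ⟨-, h⟩ | ⟨-, h⟩ | ⟨-, h⟩
        · exact absurd (un _ h) hp.not_dvd_one
        · exact Nat.cast_injective (hone.symm.trans h)
        · exact (key _ _ (un _ h) hpq rfl).elim
        · exact (key _ _ hpq (un _ h) (by omega)).elim
    exact ⟨congrFun (CfsgLib.SL2Char.eq_St_of_deg hi (hone.trans (by rw [hdq]))), hdq⟩
  have hz : ∀ z ∈ Subgroup.center (Matrix.SpecialLinearGroup (Fin 2) F),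
      (CfsgLib.SL2Char.St : Matrix.SpecialLinearGroup (Fin 2) F → ℂ) z = CfsgLib.SL2Char.St (1 : Matrix.SpecialLinearGroup (Fin 2) F) := by
    intro z hz
    obtain ⟨r, hr, hrz⟩ := Matrix.SpecialLinearGroup.mem_center_iff.1 hz
    have hr0 : r ≠ 0 := fun e => by simp [e] at hr
    have e : ∀ i j : Fin 2, z.1 i j = if i = j then r else 0 := fun i j => by
      rw [← hrz]; simp [Matrix.scalar_apply, Matrix.diagonal_apply]
    have hs := CfsgLib.SL2Char.Rf_scalar (1 : MulChar F ℂ) z (by simp [e]) (by simp [e]) (by simp [e])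
    simp [CfsgLib.SL2Char.St, hs, CfsgLib.SL2Char.Rf_one, e, MulChar.one_apply (IsUnit.mk0 r hr0)]
  obtain ⟨ψ, hψ⟩ := CfsgLib.CharBasics.exists_quotient_irr
    ⟨(CfsgLib.SL2Char.St : Matrix.SpecialLinearGroup (Fin 2) F → ℂ), CfsgLib.SL2Char.isIrr_St⟩ _ hz
  have hψd : Cfsg.charDegree (ψ : Matrix.ProjectiveSpecialLinearGroup (Fin 2) F → ℂ) = Fintype.card F := by
    have h1 : (ψ : Matrix.ProjectiveSpecialLinearGroup (Fin 2) F → ℂ) 1 = (Fintype.card F : ℂ) := (hψ 1).trans CfsgLib.SL2Char.St_one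
    rw [CfsgLib.CharBasics.apply_one (CfsgLib.CharBasics.isCharacter_of_irr ψ.2)] at h1
    exact_mod_cast h1
  haveI : Nonempty {χ : Cfsg.IrrCharacter (Matrix.ProjectiveSpecialLinearGroup (Fin 2) F) // p ∣ Cfsg.charDegree (χ : Matrix.ProjectiveSpecialLinearGroup (Fin 2) F → ℂ)} :=
    ⟨⟨ψ, hψd ▸ hpq⟩⟩
  haveI : Subsingleton {χ : Cfsg.IrrCharacter (Matrix.ProjectiveSpecialLinearGroup (Fin 2) F) // p ∣ Cfsg.charDegree (χ : Matrix.ProjectiveSpecialLinearGroup (Fin 2) F → ℂ)} :=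
    ⟨fun a b => Subtype.ext (Subtype.ext (funext fun g => by
      obtain ⟨x, rfl⟩ := QuotientGroup.mk_surjective g
      rw [(hinf a.1 a.2).1 x, (hinf b.1 b.2).1 x]))⟩
  exact ⟨Nat.card_unique, fun χ h => (hinf χ h).2⟩

end Cfsg.Agent.S4765
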