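import Cfsg.Statements.S4774
import Cfsg.Agent.SL2Char.DegreeGraph
-- import your own Cfsg.Agent.* helpers here

set_option autoImplicit false
open Cfsg

namespace Cfsg.Agent.S4774

/-- Let F be a finite field of odd characteristic t with q > 5 elements and let S be isomorphic to PSL(2,F) or to SL(2,F). Then the vertices of the character degree graph of S are the primes dividing q(q²−1); the prime t is adjacent to no vertex; two distinct primes dividing q² − 1 are adjacent exactly when one of them is 2, or both divide q + 1, or both divide q − 1. -/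
theorem result (F : Type*) [Field F] [Fintype F] (t : ℕ) [Fact t.Prime] [CharP F t] (ht : t ≠ 2) (q : ℕ) (hq : Fintype.card F = q) (h5 : 5 < q) {S : Type*} [Group S] [Finite S] (hS : Nonempty (S ≃* Matrix.ProjectiveSpecialLinearGroup (Fin 2) F) ∨ Nonempty (S ≃* Matrix.SpecialLinearGroup (Fin 2) F)) : Cfsg.degreePrimes S = {r : ℕ | r.Prime ∧ r ∣ q * (q ^ 2 - 1)} ∧ ∀ r s : ℕ, (Cfsg.degreeGraph S).Adj r s ↔ (r ≠ s ∧ r.Prime ∧ s.Prime ∧ r ∣ q ^ 2 - 1 ∧ s ∣ q ^ 2 - 1 ∧ (r = 2 ∨ s = 2 ∨ (r ∣ q + 1 ∧ s ∣ q + 1) ∨ (r ∣ q - 1 ∧ s ∣ q - 1))) := by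
  classical
  obtain ⟨hP, hA⟩ := CfsgLib.SL2Char.degree_graph (F := F) (by omega) (by omega) hS
  subst hq
  refine ⟨hP, fun r s => (hA r s).trans ?_⟩
  have hfac : Fintype.card F ^ 2 - 1 = (Fintype.card F + 1) * (Fintype.card F - 1) := by
    rw [← Nat.sq_sub_sq]
  obtain ⟨k, hk⟩ : Odd (Fintype.card F) := by
    obtain ⟨n, hn', hn⟩ := FiniteField.card F t
    rw [hn]; exact ((Fact.out : t.Prime).odd_of_ne_two ht).pow
  refine ⟨fun ⟨hne, hr, hs, h⟩ => ⟨hne, hr, hs, ?_⟩, fun ⟨hne, hr, hs, h1, h2, h⟩ => ⟨hne, hr, hs, ?_⟩⟩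
  · rw [hfac]
    rcases h with ⟨a, b⟩ | ⟨a, b⟩
    · exact ⟨dvd_mul_of_dvd_left a _, dvd_mul_of_dvd_left b _, Or.inr (Or.inr (Or.inl ⟨a, b⟩))⟩
    · exact ⟨dvd_mul_of_dvd_right a _, dvd_mul_of_dvd_right b _, Or.inr (Or.inr (Or.inr ⟨a, b⟩))⟩
  · have e1 : 2 ∣ Fintype.card F + 1 := ⟨k + 1, by omega⟩
    have e2 : 2 ∣ Fintype.card F - 1 := ⟨k, by omega⟩
    rw [hfac] at h1 h2
    rcases h with rfl | rfl | h | h
    · exact (hs.dvd_mul.1 h2).imp (fun b => ⟨e1, b⟩) fun b => ⟨e2, b⟩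
    · exact (hr.dvd_mul.1 h1).imp (fun a => ⟨a, e1⟩) fun a => ⟨a, e2⟩
    · exact Or.inl h
    · exact Or.inr h

end Cfsg.Agent.S4774
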