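import Cfsg.Statements.S4775
import Cfsg.Agent.SzDegrees.Main

set_option autoImplicit false
open Cfsg

namespace Cfsg.Agent.S4775

/-- Let F be a finite field with q = 2^(2m+1) ≥ 8 elements and let S be isomorphic to the Suzuki group over F. Then the vertices of the character degree graph of S are 2 and the primes dividing (q − 1)(q² + 1); the primes dividing (q − 1)(q² + 1) are pairwise adjacent, and 2 is adjacent exactly to the primes dividing q − 1. -/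
theorem result (F : Type*) [Field F] [Fintype F] (m : ℕ) (hm : 1 ≤ m) (q : ℕ) (hq : Fintype.card F = q) (hqm : q = 2 ^ (2 * m + 1)) {S : Type*} [Group S] [Finite S] (hS : Nonempty (S ≃* ↥(Cfsg.Lie.Sz F (2 ^ (m + 1))))) : Cfsg.degreePrimes S = {r : ℕ | r.Prime ∧ (r = 2 ∨ r ∣ (q - 1) * (q ^ 2 + 1))} ∧ ∀ r s : ℕ, (Cfsg.degreeGraph S).Adj r s ↔ (r ≠ s ∧ r.Prime ∧ s.Prime ∧ ((r ∣ (q - 1) * (q ^ 2 + 1) ∧ s ∣ (q - 1) * (q ^ 2 + 1)) ∨ (r = 2 ∧ s ∣ q - 1) ∨ (s = 2 ∧ r ∣ q - 1))) := by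
  classical
  obtain ⟨e⟩ := hS
  have h : CfsgLib.Sz.Hyp F m := ⟨hm, hq.trans hqm⟩
  obtain ⟨q', M, A, B, hq', hM, hAB, hdeg⟩ := CfsgLib.SzDegrees.degrees h
  rw [hq] at hq'
  subst q'
  have hS' : charDegrees S = {1, q ^ 2, q ^ 2 + 1, (q - 1) * A, (q - 1) * B, (q - 1) * M} := by
    rw [← hdeg]
    ext d
    constructor
    · rintro ⟨χ, rfl⟩
      exact ⟨⟨_, CfsgLib.CharBasics.irr_comp_of_surjective χ.2 e.symm.toMonoidHom e.symm.surjective⟩,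
        by simp [charDegree]⟩
    · rintro ⟨χ, rfl⟩
      exact ⟨⟨_, CfsgLib.CharBasics.irr_comp_of_surjective χ.2 e.toMonoidHom e.surjective⟩,
        by simp [charDegree]⟩
  have hq2 : 2 ∣ q := hqm ▸ dvd_pow_self 2 (Nat.succ_ne_zero _)
  have hq8 : 8 ≤ q := hqm ▸ (Nat.pow_le_pow_right two_pos (show 3 ≤ 2 * m + 1 by omega) : 2 ^ 3 ≤ _)
  have hpM : ∀ r, r.Prime → r ∣ M → r = 2 := fun r hr hd =>
    (Nat.prime_dvd_prime_iff_eq hr Nat.prime_two).mp (hr.dvd_of_dvd_pow (hM ▸ hd))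
  have hp2 : ∀ r, r.Prime → r ∣ q → r = 2 := fun r hr hd =>
    (Nat.prime_dvd_prime_iff_eq hr Nat.prime_two).mp (hr.dvd_of_dvd_pow (hqm ▸ hd))
  have hodd1 : ¬ 2 ∣ q - 1 := by omega
  have hodd2 : ¬ 2 ∣ q ^ 2 + 1 := by
    have : 2 ∣ q ^ 2 := dvd_pow hq2 two_ne_zero
    omega
  have hM2 : 2 ∣ M := hM ▸ dvd_pow_self 2 (by omega)
  have hoddD : ∀ r, r.Prime → r ∣ (q - 1) * (q ^ 2 + 1) → r ≠ 2 := fun r hr hd e => by
    subst e
    exact (hr.dvd_mul.mp hd).elim hodd1 hodd2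
  have hfac : ∀ r, r.Prime → r ∣ (q - 1) * (q ^ 2 + 1) → r ∣ q - 1 ∨ r ∣ A ∨ r ∣ B := fun r hr hd => by
    rw [← hAB] at hd
    rcases hr.dvd_mul.mp hd with h1 | h1
    · exact Or.inl h1
    · exact Or.inr (hr.dvd_mul.mp h1)
  have hAd : A ∣ q ^ 2 + 1 := hAB ▸ dvd_mul_right A B
  have hBd : B ∣ q ^ 2 + 1 := hAB ▸ dvd_mul_left B A
  have hdvd : ∀ r, r.Prime → (∃ d ∈ charDegrees S, r ∣ d) → r = 2 ∨ r ∣ (q - 1) * (q ^ 2 + 1) := by
    rintro r hr ⟨d, hd, hrd⟩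
    rw [hS'] at hd
    simp only [Set.mem_insert_iff, Set.mem_singleton_iff] at hd
    rcases hd with rfl | rfl | rfl | rfl | rfl | rfl
    · exact absurd hrd hr.not_dvd_one
    · exact Or.inl (hp2 r hr (hr.dvd_of_dvd_pow hrd))
    · exact Or.inr (Dvd.dvd.mul_left hrd _)
    · exact Or.inr (hrd.trans (mul_dvd_mul_left _ hAd))
    · exact Or.inr (hrd.trans (mul_dvd_mul_left _ hBd))
    · exact (hr.dvd_mul.mp hrd).elim (fun h1 => Or.inr (Dvd.dvd.mul_right h1 _)) (fun h1 => Or.inl (hpM r hr h1))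
  refine ⟨Set.ext fun r => ⟨fun hr => ⟨hr.1, hdvd r hr.1 hr.2⟩, ?_⟩, fun r s => ⟨?_, ?_⟩⟩
  · rintro ⟨hr, rfl | hd⟩
    · exact ⟨hr, q ^ 2, by rw [hS']; simp, dvd_pow hq2 two_ne_zero⟩
    · rcases hr.dvd_mul.mp hd with h1 | h1
      · exact ⟨hr, (q - 1) * A, by rw [hS']; simp, Dvd.dvd.mul_right h1 _⟩
      · exact ⟨hr, q ^ 2 + 1, by rw [hS']; simp, h1⟩
  · rintro ⟨hne, hr, hs, d, hd, hrs⟩
    refine ⟨hne, hr, hs, ?_⟩
    have key : ∀ x y : ℕ, y.Prime → x = 2 → x ≠ y → x ∣ d → y ∣ d → y ∣ q - 1 := by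
      intro x y hy hx hxy hxd hyd
      subst hx
      have hd' := hd
      rw [hS'] at hd'
      simp only [Set.mem_insert_iff, Set.mem_singleton_iff] at hd'
      rcases hd' with rfl | rfl | rfl | rfl | rfl | rfl
      · exact absurd hyd hy.not_dvd_one
      · exact absurd (hp2 y hy (hy.dvd_of_dvd_pow hyd)) hxy.symm
      · exact absurd hxd hodd2
      · exact absurd hxd (fun h2 => (Nat.prime_two.dvd_mul.mp h2).elim hodd1 fun h3 => hodd2 (h3.trans hAd))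
      · exact absurd hxd (fun h2 => (Nat.prime_two.dvd_mul.mp h2).elim hodd1 fun h3 => hodd2 (h3.trans hBd))
      · exact (hy.dvd_mul.mp hyd).resolve_right fun h3 => hxy (hpM y hy h3).symm
    have hrd : r ∣ d := (dvd_mul_right r s).trans hrs
    have hsd : s ∣ d := (dvd_mul_left s r).trans hrs
    rcases hdvd r hr ⟨d, hd, hrd⟩ with rfl | h1
    · exact Or.inr (Or.inl ⟨rfl, key 2 s hs rfl hne hrd hsd⟩)
    · rcases hdvd s hs ⟨d, hd, hsd⟩ with rfl | h2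
      · exact Or.inr (Or.inr ⟨rfl, key 2 r hr rfl hne.symm hsd hrd⟩)
      · exact Or.inl ⟨h1, h2⟩
  · rintro ⟨hne, hr, hs, hcase⟩
    refine ⟨hne, hr, hs, ?_⟩
    have hc : r.Coprime s := (Nat.coprime_primes hr hs).mpr hne
    have mk : ∀ d ∈ charDegrees S, r ∣ d → s ∣ d → ∃ d ∈ charDegrees S, r * s ∣ d := fun d hd h1 h2 =>
      ⟨d, hd, hc.mul_dvd_of_dvd_of_dvd h1 h2⟩
    rcases hcase with ⟨h1, h2⟩ | ⟨rfl, h2⟩ | ⟨rfl, h1⟩
    · have dA : (q - 1) * A ∈ charDegrees S := by rw [hS']; simp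
      have dB : (q - 1) * B ∈ charDegrees S := by rw [hS']; simp
      have dq : q ^ 2 + 1 ∈ charDegrees S := by rw [hS']; simp
      rcases hfac r hr h1 with a | a | a <;> rcases hfac s hs h2 with b | b | b
      · exact mk _ dA (Dvd.dvd.mul_right a _) (Dvd.dvd.mul_right b _)
      · exact mk _ dA (Dvd.dvd.mul_right a _) (Dvd.dvd.mul_left b _)
      · exact mk _ dB (Dvd.dvd.mul_right a _) (Dvd.dvd.mul_left b _)
      · exact mk _ dA (Dvd.dvd.mul_left a _) (Dvd.dvd.mul_right b _)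
      · exact mk _ dq (a.trans hAd) (b.trans hAd)
      · exact mk _ dq (a.trans hAd) (b.trans hBd)
      · exact mk _ dB (Dvd.dvd.mul_left a _) (Dvd.dvd.mul_right b _)
      · exact mk _ dq (a.trans hBd) (b.trans hAd)
      · exact mk _ dq (a.trans hBd) (b.trans hBd)
    · exact mk ((q - 1) * M) (by rw [hS']; simp) (Dvd.dvd.mul_left hM2 _) (Dvd.dvd.mul_right h2 _)
    · exact mk ((q - 1) * M) (by rw [hS']; simp) (Dvd.dvd.mul_right h1 _) (Dvd.dvd.mul_left hM2 _)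

end Cfsg.Agent.S4775
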