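import Cfsg.Statements.S4784
import Cfsg.Agent.CharBasics.Extra
import Cfsg.Agent.BrauerInd.FSInd

set_option autoImplicit false
open Cfsg CfsgLib.CharBasics CfsgLib.BrauerInd
open scoped ComplexConjugate

namespace Cfsg.Agent.S4784

/-- Let H be a subgroup of the finite group G and consider the permutation character of G on the cosets of H (the function induced from the principal character of H). Then exactly one irreducible constituent of it is real-valued with Frobenius–Schur indicator +1 (namely the principal character) if and only if the normal core of H has odd index in G. -/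
theorem result {G : Type*} [Group G] [Fintype G] (H : Subgroup G) : Nat.card {χ : Cfsg.IrrCharacter G // Cfsg.classInner (Cfsg.indFun H (fun _ : H => (1 : ℂ))) (χ : G → ℂ) ≠ 0 ∧ (∀ g : G, (starRingEnd ℂ) ((χ : G → ℂ) g) = (χ : G → ℂ) g) ∧ (Nat.card G : ℂ)⁻¹ * ∑ g : G, (χ : G → ℂ) (g * g) = 1} = 1 ↔ Odd H.normalCore.index := by
  classical
  haveI : Fintype H := Fintype.ofFinite H
  haveI : Fintype (IrrCharacter G) := Fintype.ofFinite _
  set π := indFun H (fun _ : H => (1 : ℂ)) with hπ
  have hπc : IsCharacter G π := isCharacter_indFun H (isCharacter_of_irr isIrrCharacter_one)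
  -- multiplicities
  have hmult : ∀ χ : IrrCharacter G, classInner π (χ : G → ℂ) =
      conj ((Nat.card H : ℂ)⁻¹ * ∑ h : H, (χ : G → ℂ) h) := by
    intro χ
    rw [hπ, classInner_indFun H _ (isClassFunction (isCharacter_of_irr χ.2)), classInner_comm, classInner_one]
  have hone : classInner π ((oneChar : IrrCharacter G) : G → ℂ) = 1 := by
    rw [hmult]; simp [oneChar_apply, Nat.card_eq_fintype_card]
  have hind1 : ind ((oneChar : IrrCharacter G) : G → ℂ) = 1 := by
    simp [ind, oneChar, Nat.card_eq_fintype_card]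
  constructor
  · intro hcard
    haveI : Subsingleton {χ : IrrCharacter G // classInner π (χ : G → ℂ) ≠ 0 ∧
        (∀ g : G, (starRingEnd ℂ) ((χ : G → ℂ) g) = (χ : G → ℂ) g) ∧
        (Nat.card G : ℂ)⁻¹ * ∑ g : G, (χ : G → ℂ) (g * g) = 1} := (Nat.card_eq_one_iff_unique.1 hcard).1
    have hle : ∀ χ : IrrCharacter G, χ ≠ oneChar →
        (classInner π (χ : G → ℂ) * ind (χ : G → ℂ)).re ≤ 0 := by
      intro χ hne
      obtain ⟨m, hm⟩ := classInner_character_nat hπc χ
      rw [hm]
      rcases (fs_trichotomy χ.2).1 with e | e | e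
      · simp [e]
      · rcases Nat.eq_zero_or_pos m with rfl | hm0
        · simp
        · have hreal : ∀ g : G, (starRingEnd ℂ) ((χ : G → ℂ) g) = (χ : G → ℂ) g := fun g =>
            Complex.conj_eq_iff_im.2 (by
              by_contra hg; rw [ind_nonreal χ.2 ⟨g, hg⟩] at e; exact zero_ne_one e)
          exact absurd (congrArg Subtype.val (Subsingleton.elim
            (⟨χ, by rw [hm]; exact Nat.cast_ne_zero.2 hm0.ne', hreal, e⟩ : {χ : IrrCharacter G //
              classInner π (χ : G → ℂ) ≠ 0 ∧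
              (∀ g : G, (starRingEnd ℂ) ((χ : G → ℂ) g) = (χ : G → ℂ) g) ∧
              (Nat.card G : ℂ)⁻¹ * ∑ g : G, (χ : G → ℂ) (g * g) = 1})
            ⟨oneChar, by rw [hone]; exact one_ne_zero, fun g => by simp [oneChar_apply], hind1⟩)) hne
      · simp [e]
    set S := Finset.univ.filter fun g : G => g * g ∈ H with hS
    have hcount : (Nat.card H : ℂ)⁻¹ * S.card = ∑ χ : IrrCharacter G, classInner π (χ : G → ℂ) * ind (χ : G → ℂ) := by
      have h1 : (Nat.card G : ℂ)⁻¹ * ∑ g : G, π (g * g) =
          ∑ χ : IrrCharacter G, classInner π (χ : G → ℂ) * ind (χ : G → ℂ) := by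
        conv_lhs => rw [classFun_expand (isClassFunction hπc)]
        simp only [Finset.sum_apply, Pi.smul_apply, smul_eq_mul, ind]
        rw [Finset.sum_comm, Finset.mul_sum]
        exact Finset.sum_congr rfl fun χ _ => by rw [← Finset.mul_sum]; ring
      rw [← h1]
      simp only [hπ, indFun]
      rw [← Finset.mul_sum, Finset.sum_comm]
      have h2 : ∀ x : G, ∑ g : G, extendByZero H (fun _ : H => (1 : ℂ)) (x⁻¹ * (g * g) * x) = S.card := by
        intro x
        rw [← Equiv.sum_comp (MulAut.conj x).toEquiv, hS, ← Finset.sum_boole]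
        refine Finset.sum_congr rfl fun g _ => ?_
        have e : x⁻¹ * (((MulAut.conj x).toEquiv g) * ((MulAut.conj x).toEquiv g)) * x = g * g := by
          simp [mul_assoc]
        rw [e]
        by_cases h : g * g ∈ H
        · rw [if_pos h]; exact extendByZero_coe H _ ⟨_, h⟩
        · rw [if_neg h]; exact extendByZero_of_not_mem H _ h
      rw [Finset.sum_congr rfl (fun x _ => h2 x), Finset.sum_const, Finset.card_univ, nsmul_eq_mul,
        Nat.card_eq_fintype_card (α := G)]
      have : (Fintype.card G : ℂ) ≠ 0 := Nat.cast_ne_zero.2 Fintype.card_ne_zero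
      field_simp
    have hSle : S.card ≤ Nat.card H := by
      have h1 : ((Nat.card H : ℂ)⁻¹ * S.card).re ≤ 1 := by
        rw [hcount, Complex.re_sum, ← Finset.add_sum_erase _ _ (Finset.mem_univ (oneChar : IrrCharacter G)),
          hone, hind1, mul_one, Complex.one_re, add_le_iff_nonpos_right]
        exact Finset.sum_nonpos fun χ hχ => hle χ (Finset.mem_erase.1 hχ).1
      rw [show (Nat.card H : ℂ)⁻¹ * S.card = (((Nat.card H : ℝ)⁻¹ * S.card : ℝ) : ℂ) by push_cast; rfl,
        Complex.ofReal_re, inv_mul_le_iff₀ (by exact_mod_cast Nat.card_pos), mul_one] at h1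
      exact_mod_cast h1
    have hsq : ∀ g : G, g * g ∈ H → g ∈ H := by
      intro g hg
      have hsub : (Finset.univ.filter fun g : G => g ∈ H) ⊆ S := fun a ha => by
        simp only [hS, Finset.mem_filter, Finset.mem_univ, true_and] at ha ⊢
        exact mul_mem ha ha
      have heq := Finset.eq_of_subset_of_card_le hsub (hSle.trans_eq (by
        rw [Nat.card_eq_fintype_card, ← Fintype.card_subtype]))
      have : g ∈ Finset.univ.filter fun g : G => g ∈ H := heq ▸ (Finset.mem_filter.2 ⟨Finset.mem_univ _, hg⟩)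
      exact (Finset.mem_filter.1 this).2
    rw [← Nat.not_even_iff_odd, even_iff_two_dvd]
    intro h2
    rw [Subgroup.index_eq_card] at h2
    obtain ⟨q, hq⟩ := exists_prime_orderOf_dvd_card' 2 h2
    obtain ⟨g, rfl⟩ := QuotientGroup.mk_surjective q
    have hg2 : g * g ∈ H.normalCore := by
      rw [← QuotientGroup.eq_one_iff, ← sq, QuotientGroup.mk_pow, ← hq, pow_orderOf_eq_one]
    have hg : g ∈ H.normalCore := fun b => hsq _ (by simpa [mul_assoc] using hg2 b)
    rw [(QuotientGroup.eq_one_iff g).2 hg, orderOf_one] at hq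
    exact one_ne_zero (by omega : (1 : ℕ) = 0)
  · intro hodd
    refine Nat.card_eq_one_iff_unique.2 ⟨⟨fun a b => Subtype.ext ?_⟩,
      ⟨⟨oneChar, by rw [hone]; exact one_ne_zero, fun g => by simp [oneChar_apply], hind1⟩⟩⟩
    suffices ∀ χ : IrrCharacter G, classInner π (χ : G → ℂ) ≠ 0 → ind (χ : G → ℂ) = 1 → χ = oneChar from
      (this a.1 a.2.1 a.2.2.2).trans (this b.1 b.2.1 b.2.2.2).symm
    intro χ hm hi
    set N := H.normalCore
    haveI : Fintype N := Fintype.ofFinite N
    rcases sum_normal_irr N χ with ⟨htriv, -⟩ | ⟨-, hz⟩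
    · obtain ⟨ψ, hψ⟩ := exists_quotient_irr χ N htriv
      haveI : Fintype (G ⧸ N) := Fintype.ofFinite _
      by_contra hne
      have hψ1 : (ψ : G ⧸ N → ℂ) ≠ fun _ => 1 := fun h => hne (Subtype.ext (funext fun g => by
        rw [← hψ g, h]; rfl))
      have h0 : ∑ q : G ⧸ N, (ψ : G ⧸ N → ℂ) (q * q) = 0 := by
        rw [← sum_irr_eq_zero ψ.2 hψ1]
        refine (powCoprime (n := 2) ?_).sum_comp (fun q => (ψ : G ⧸ N → ℂ) q) |>.symm.trans ?_ |>.symm
        · rw [← Subgroup.index_eq_card]; exact Nat.coprime_two_right.2 hodd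
        · simp [powCoprime, sq]
      apply one_ne_zero (α := ℂ)
      rw [← hi, ind]
      simp only [← hψ, QuotientGroup.mk_mul]
      rw [← Finset.sum_fiberwise Finset.univ (fun s : G => (s : G ⧸ N))
        (fun s => (ψ : G ⧸ N → ℂ) ((s : G ⧸ N) * s))]
      rw [Finset.sum_congr rfl (g := fun q : G ⧸ N => (Nat.card N : ℂ) * (ψ : G ⧸ N → ℂ) (q * q)) fun q _ => ?_,
        ← Finset.mul_sum, h0, mul_zero, mul_zero]
      rw [Finset.sum_congr rfl (g := fun _ => (ψ : G ⧸ N → ℂ) (q * q))
        (fun s hs => by rw [(Finset.mem_filter.1 hs).2]), Finset.sum_const, nsmul_eq_mul]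
      congr 2
      obtain ⟨x, rfl⟩ := QuotientGroup.mk_surjective q
      rw [← Fintype.card_subtype, ← Nat.card_eq_fintype_card]
      refine Nat.card_congr (((Equiv.mulLeft x).subtypeEquiv fun m => ?_).symm)
      show m ∈ N ↔ ((x * m : G) : G ⧸ N) = (x : G ⧸ N)
      rw [eq_comm, QuotientGroup.eq, inv_mul_cancel_left]
    · refine absurd ?_ hm
      rw [hmult]
      have h1 : ∑ m : N, ∑ h : H, (χ : G → ℂ) ((h : G) * m) = 0 := by
        rw [Finset.sum_comm]; exact Finset.sum_eq_zero fun h _ => hz _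
      have h2 : ∀ m : N, ∑ h : H, (χ : G → ℂ) ((h : G) * m) = ∑ h : H, (χ : G → ℂ) h := fun m =>
        Equiv.sum_comp (Equiv.mulRight (⟨(m : G), H.normalCore_le m.2⟩ : H)) fun h : H => (χ : G → ℂ) (h : G)
      rw [Finset.sum_congr rfl (fun m _ => h2 m), Finset.sum_const, nsmul_eq_mul] at h1
      rw [(mul_eq_zero.1 h1).resolve_left (Nat.cast_ne_zero.2 (by simp)), mul_zero, map_zero]

end Cfsg.Agent.S4784
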