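import Cfsg.Statements.S4796
import Cfsg.Agent.CharBasics.Extra
import Mathlib.GroupTheory.SchurZassenhaus
import Mathlib.GroupTheory.SpecificGroups.Cyclic
import Mathlib.GroupTheory.Sylow
import Mathlib.Tactic.Group

set_option autoImplicit false
open Cfsg

namespace Cfsg.Agent.S4796

open CfsgLib.CharBasics
open scoped Pointwise

/-- The structure forced by a faithful irreducible character of codegree `p`. -/
theorem structure_of_cod_prime {G : Type*} [Group G] [Finite G] (χ : Cfsg.IrrCharacter G)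
    (hfaith : ∀ g : G, (χ : G → ℂ) g = (χ : G → ℂ) 1 → g = 1) (p : ℕ) (hp : p.Prime)
    (hcod : Nat.card G = p * Cfsg.charDegree (χ : G → ℂ)) :
    Nat.card G = p ∨ ∃ P : Subgroup G, P.Normal ∧ IsMulCommutative P ∧ Nat.card P = p ∧
      P.index = Cfsg.charDegree (χ : G → ℂ) ∧ 1 < P.index ∧ P.index < p ∧
      ∀ x ∈ P, x ≠ 1 → ∀ g : G, g * x = x * g → g ∈ P := by
  classical
  haveI := Fintype.ofFinite G
  haveI := Fintype.ofFinite (Cfsg.IrrCharacter G)
  set n := Cfsg.charDegree (χ : G → ℂ) with hn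
  have hnpos : 0 < n := charDegree_pos χ.2
  by_cases hn1 : n = 1
  · exact Or.inl (by rw [hcod, hn1, mul_one])
  haveI : Fact p.Prime := ⟨hp⟩
  have hsq : n ^ 2 ≤ Nat.card G := by
    rw [← sum_sq_degree (G := G)]
    exact Finset.single_le_sum (f := fun ψ : Cfsg.IrrCharacter G => Cfsg.charDegree (ψ : G → ℂ) ^ 2) (fun ψ _ => Nat.zero_le _) (Finset.mem_univ χ)
  have hnp : n < p := by
    rw [hcod, sq] at hsq
    rcases Nat.lt_or_eq_of_le (Nat.le_of_mul_le_mul_right hsq hnpos) with h | h
    · exact h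
    · exfalso
      have hcard : Nat.card G = p ^ 2 := by rw [hcod, h, sq]
      haveI : IsMulCommutative G := IsPGroup.isMulCommutative_of_card_eq_prime_sq hcard
      exact hn1 (charDegree_comm χ.2)
  have hpn : ¬ p ∣ n := fun hd => absurd (Nat.le_of_dvd hnpos hd) (not_le.mpr hnp)
  obtain ⟨S⟩ : Nonempty (Sylow p G) := inferInstance
  have hScard : Nat.card (S : Subgroup G) = p := by
    rw [S.card_eq_multiplicity, hcod, Nat.factorization_mul hp.ne_zero hnpos.ne', Finsupp.add_apply,
      hp.factorization_self, Nat.factorization_eq_zero_of_not_dvd hpn, add_zero, pow_one]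
  have hidx : (S : Subgroup G).index = n := by
    have h := (S : Subgroup G).index_mul_card
    rw [hScard, hcod, mul_comm p] at h
    exact Nat.eq_of_mul_eq_mul_right hp.pos h
  have hone : Nat.card (Sylow p G) = 1 := by
    have h1 : Nat.card (Sylow p G) ≡ 1 [MOD p] := card_sylow_modEq_one p G
    have h2 : Nat.card (Sylow p G) ≤ n := hidx ▸ Nat.le_of_dvd (hidx ▸ hnpos) S.card_dvd_index
    rw [Nat.ModEq, Nat.mod_eq_of_lt (lt_of_le_of_lt h2 hnp), Nat.one_mod_eq_one.mpr hp.ne_one] at h1
    exact h1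
  haveI : Subsingleton (Sylow p G) := (Nat.card_eq_one_iff_unique.mp hone).1
  haveI hcyc : IsCyclic (S : Subgroup G) := isCyclic_of_prime_card hScard
  have hcomm : IsMulCommutative (S : Subgroup G) := ⟨⟨fun a b => IsCyclic.commGroup.mul_comm a b⟩⟩
  refine Or.inr ⟨S, Sylow.normal_of_subsingleton S, hcomm, hScard, hidx, by omega, by omega, ?_⟩
  intro x hxS hx1 g hg
  by_contra hgS
  have hcl : IsMulCommutative (Subgroup.closure ({x, g} : Set G)) :=
    Subgroup.isMulCommutative_closure (fun a ha b hb => by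
      rcases ha with rfl | ha <;> rcases hb with rfl | hb
      · rfl
      · rw [Set.mem_singleton_iff] at hb; subst hb; exact hg.symm
      · rw [Set.mem_singleton_iff] at ha; subst ha; exact hg
      · rw [Set.mem_singleton_iff] at ha hb; rw [ha, hb])
  set A := Subgroup.closure ({x, g} : Set G) with hA
  have hSA : (S : Subgroup G) ≤ A := by
    have hxx : Subgroup.zpowers x = (S : Subgroup G) :=
      Subgroup.eq_of_le_of_card_ge (Subgroup.zpowers_le.mpr hxS) (by
        rw [Nat.card_zpowers, hScard]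
        have h1 : orderOf x ∣ p := by
          have h2 : orderOf (⟨x, hxS⟩ : (S : Subgroup G)) ∣ Nat.card (S : Subgroup G) := orderOf_dvd_natCard _
          rwa [hScard, Subgroup.orderOf_mk] at h2
        rcases (Nat.dvd_prime hp).mp h1 with h | h
        · exact absurd (orderOf_eq_one_iff.mp h) hx1
        · exact h.ge)
    rw [← hxx]
    exact Subgroup.zpowers_le.mpr (Subgroup.subset_closure (Set.mem_insert _ _))
  have hlt : (S : Subgroup G) < A := lt_of_le_of_ne hSA fun h =>
    hgS (h ▸ Subgroup.subset_closure (Set.mem_insert_of_mem _ rfl))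
  have h1 := degree_le_index_of_comm A χ
  have h2 := Subgroup.index_strictAnti hlt
  omega

/-- Let G be a finite group with a faithful irreducible complex character χ whose codegree #G / χ(1) is a prime p (for a faithful character the kernel is trivial, so the codegree is #G / χ(1)). Then either G is cyclic of order p, or G is a Frobenius group whose Frobenius kernel has order p: some proper non-trivial subgroup H satisfies H ∩ gHg⁻¹ = 1 for every element g outside H, and the set of elements lying in no conjugate of H, together with the identity, has exactly p elements. -/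
theorem result {G : Type*} [Group G] [Finite G] (χ : Cfsg.IrrCharacter G) (hfaith : ∀ g : G, (χ : G → ℂ) g = (χ : G → ℂ) 1 → g = 1) (p : ℕ) (hp : p.Prime) (hcod : Nat.card G = p * Cfsg.charDegree (χ : G → ℂ)) : (IsCyclic G ∧ Nat.card G = p) ∨ ∃ H : Subgroup G, Cfsg.IsFrobeniusComplement H ∧ Nat.card ↥(Cfsg.frobeniusKernel H) = p := by
  classical
  rcases structure_of_cod_prime χ hfaith p hp hcod with h | ⟨P, hPn, hPc, hPcard, hPidx, hP1, hPlt, hPC⟩
  · haveI : Fact p.Prime := ⟨hp⟩
    exact Or.inl ⟨isCyclic_of_prime_card h, h⟩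
  refine Or.inr ?_
  haveI := hPn
  have hcop : Nat.Coprime (Nat.card P) P.index := by
    rw [hPcard]
    exact (hp.coprime_iff_not_dvd).mpr fun hd => absurd (Nat.le_of_dvd (by omega) hd) (not_le.mpr hPlt)
  obtain ⟨H, hH⟩ := Subgroup.exists_right_complement'_of_coprime hcop
  have hHcard : Nat.card H = P.index := by
    rw [hH.symm.index_eq_card]
  have hdisj : ∀ x : G, x ∈ P → x ∈ H → x = 1 := fun x hxP hxH =>
    Subgroup.mem_bot.mp (hH.disjoint.le_bot ⟨hxP, hxH⟩)
  have hfix : ∀ a ∈ P, ∀ b ∈ H, a ≠ 1 → a * b = b * a → b = 1 := fun a ha b hb ha1 hc =>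
    hdisj b (hPC a ha ha1 b hc.symm) hb
  have hcj : ∀ (g x : G), x ∈ MulAut.conj g • H ↔ ∃ h ∈ H, g * h * g⁻¹ = x := by
    intro g x
    constructor
    · intro hx
      refine ⟨g⁻¹ * x * g, ?_, by group⟩
      have := Subgroup.mem_pointwise_smul_iff_inv_smul_mem.mp hx
      simpa [MulAut.smul_def] using this
    · rintro ⟨h, hh, rfl⟩
      exact (Subgroup.smul_mem_pointwise_smul h (MulAut.conj g) H hh : _)
  refine ⟨H, ⟨?_, ?_, ?_⟩, ?_⟩
  · intro hbot
    rw [hbot, Subgroup.card_bot] at hHcard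
    omega
  · intro htop
    have : P = ⊥ := Subgroup.isComplement'_top_right.mp (htop ▸ hH)
    rw [this, Subgroup.card_bot] at hPcard
    exact hp.ne_one hPcard.symm
  · intro g hg
    rw [eq_bot_iff]
    rintro x ⟨hxH, hx⟩
    rw [Subgroup.mem_bot]
    obtain ⟨h, hh, hhx⟩ := (hcj g x).mp hx
    obtain ⟨⟨a, b⟩, hab⟩ := hH.surjective g
    have hab' : (a : G) * b = g := hab
    set h' := (b : G) * h * (b : G)⁻¹ with hh'
    have hh'H : h' ∈ H := H.mul_mem (H.mul_mem b.2 hh) (H.inv_mem b.2)
    have hxa : x = (a : G) * h' * (a : G)⁻¹ := by rw [← hhx, ← hab', hh']; group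
    have hcom : x * h'⁻¹ ∈ P := by
      rw [hxa, show (a : G) * h' * (a : G)⁻¹ * h'⁻¹ = (a : G) * (h' * (a : G)⁻¹ * h'⁻¹) by group]
      exact P.mul_mem a.2 (hPn.conj_mem _ (P.inv_mem a.2) _)
    have heq : x = h' := mul_inv_eq_one.mp (hdisj _ hcom (H.mul_mem hxH (H.inv_mem hh'H)))
    have ha1 : (a : G) ≠ 1 := fun h1 => hg (by rw [← hab', h1, one_mul]; exact b.2)
    rw [heq]
    refine hfix _ a.2 _ hh'H ha1 ?_
    rw [heq, eq_mul_inv_iff_mul_eq] at hxa
    exact hxa.symm
  · rw [← hPcard]
    refine Nat.card_congr (Equiv.setCongr (t := (P : Set G)) ?_)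
    ext x
    simp only [Cfsg.frobeniusKernel, Set.mem_setOf_eq, SetLike.mem_coe]
    constructor
    · rintro (rfl | hx)
      · exact P.one_mem
      · by_contra hxP
        obtain ⟨⟨a, b⟩, hab⟩ := hH.surjective x
        have hab' : (a : G) * b = x := hab
        have hb1 : (b : G) ≠ 1 := fun h1 => hxP (by rw [← hab', h1, mul_one]; exact a.2)
        let f : P → P := fun c => ⟨(c : G) * ((b : G) * (c : G)⁻¹ * (b : G)⁻¹),
          P.mul_mem c.2 (hPn.conj_mem _ (P.inv_mem c.2) _)⟩
        have hfinj : Function.Injective f := by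
          intro c d hcd
          have h1 : (c : G) * ((b : G) * (c : G)⁻¹ * (b : G)⁻¹) = (d : G) * ((b : G) * (d : G)⁻¹ * (b : G)⁻¹) :=
            congrArg Subtype.val hcd
          have h2 : ((d : G)⁻¹ * c) * b = b * ((d : G)⁻¹ * c) :=
            calc ((d : G)⁻¹ * c) * b = (d : G)⁻¹ * ((c : G) * ((b : G) * (c : G)⁻¹ * (b : G)⁻¹)) * b * c := by group
              _ = (d : G)⁻¹ * ((d : G) * ((b : G) * (d : G)⁻¹ * (b : G)⁻¹)) * b * c := by rw [h1]
              _ = _ := by group
          by_contra hne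
          exact hb1 (hfix _ (P.mul_mem (P.inv_mem d.2) c.2) _ b.2
            (fun h => hne (Subtype.ext (inv_mul_eq_one.mp h).symm)) h2)
        obtain ⟨c, hc⟩ := (Finite.injective_iff_surjective.mp hfinj) a
        have hc' : (c : G) * ((b : G) * (c : G)⁻¹ * (b : G)⁻¹) = a := congrArg Subtype.val hc
        exact hx (c : G) ((hcj _ _).mpr ⟨b, b.2, by rw [← hab', ← hc']; group⟩)
    · intro hx
      refine or_iff_not_imp_left.mpr fun hx1 g hg => ?_
      obtain ⟨h, hh, hhx⟩ := (hcj g x).mp hg
      refine hx1 ?_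
      have hhP : h ∈ P := by
        have h1 := hPn.conj_mem _ hx g⁻¹
        rw [← hhx] at h1
        simpa [mul_assoc] using h1
      rw [← hhx, hdisj h hhP hh, mul_one, mul_inv_cancel]

end Cfsg.Agent.S4796
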