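import Cfsg.Statements.S4797
import Cfsg.Agent.S4796
import Mathlib.GroupTheory.Abelianization.Defs
import Mathlib.Order.Atoms.Finite

set_option autoImplicit false
open Cfsg

namespace Cfsg.Agent.S4797

open CfsgLib.CharBasics
open scoped commutatorElement

/-- The codegree of an irreducible complex character χ of a finite group G is [G : ker χ] / χ(1), where ker χ is the set of elements at which χ takes the value χ(1). A non-trivial finite group is perfect if and only if no irreducible complex character of it has prime codegree. -/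
theorem result {G : Type*} [Group G] [Finite G] [Nontrivial G] : commutator G = ⊤ ↔ ∀ χ : Cfsg.IrrCharacter G, ¬ ((Nat.card G / (Nat.card {g : G // (χ : G → ℂ) g = (χ : G → ℂ) 1} * Cfsg.charDegree (χ : G → ℂ)))).Prime := by
  classical
  constructor
  · intro hperf χ hcod
    have hc := isCharacter_of_irr χ.2
    set K := charKer _ hc with hK
    haveI : K.Normal := charKer_normal hc
    obtain ⟨φ, hφ⟩ := exists_quotient_irr χ K (fun g hg => hg)
    have hdeg : Cfsg.charDegree (φ : G ⧸ K → ℂ) = Cfsg.charDegree (χ : G → ℂ) := by
      simp only [Cfsg.charDegree, ← hφ 1]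
      rfl
    have hker : Nat.card {g : G // (χ : G → ℂ) g = (χ : G → ℂ) 1} = Nat.card K := rfl
    rw [hker, Subgroup.card_eq_card_quotient_mul_card_subgroup K, mul_comm (Nat.card (G ⧸ K)),
      Nat.mul_div_mul_left _ _ Nat.card_pos, ← hdeg] at hcod
    set Q := G ⧸ K
    set p := Nat.card Q / Cfsg.charDegree (φ : Q → ℂ) with hp
    have hQ : Nat.card Q = p * Cfsg.charDegree (φ : Q → ℂ) := (Nat.div_mul_cancel (degree_dvd φ)).symm
    have hfaith : ∀ x : Q, (φ : Q → ℂ) x = (φ : Q → ℂ) 1 → x = 1 := by
      intro x
      induction x using QuotientGroup.induction_on with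
      | H g =>
        intro h
        refine (QuotientGroup.eq_one_iff g).mpr ?_
        show (χ : G → ℂ) g = (χ : G → ℂ) 1
        rw [← hφ, ← hφ, h]
        rfl
    have hperfQ : commutator Q = ⊤ := by
      have h : (commutator G).map (QuotientGroup.mk' K) = commutator Q := by
        rw [commutator_def, commutator_def, Subgroup.map_commutator, Subgroup.map_top_of_surjective _ (QuotientGroup.mk'_surjective K)]
      rw [hperf, Subgroup.map_top_of_surjective _ (QuotientGroup.mk'_surjective K)] at h
      exact h.symm
    rcases Cfsg.Agent.S4796.structure_of_cod_prime φ hfaith p hcod hQ with h | ⟨P, hPn, hPc, hPcard, hPidx, hP1, hPlt, hPC⟩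
    · haveI : Fact p.Prime := ⟨hcod⟩
      haveI : IsCyclic Q := isCyclic_of_prime_card h
      letI : CommGroup Q := IsCyclic.commGroup
      haveI : Nontrivial Q := (Finite.one_lt_card_iff_nontrivial).mp (h ▸ hcod.one_lt)
      have : commutator Q = ⊥ := by
        rw [eq_bot_iff, commutator_def, Subgroup.commutator_le]
        intro a _ b _
        rw [Subgroup.mem_bot, commutatorElement_eq_one_iff_mul_comm]
        exact mul_comm a b
      rw [this] at hperfQ
      exact bot_ne_top hperfQ
    · haveI := hPn
      haveI : Fact p.Prime := ⟨hcod⟩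
      haveI : IsCyclic P := isCyclic_of_prime_card hPcard
      let f : Q →* MulAut P := MulAut.conjNormal
      have hcommAut : ∀ a b : MulAut P, a * b = b * a := by
        intro a b
        have e := (IsCyclic.mulAutMulEquiv P).symm
        apply e.symm.symm.symm.injective
        rw [map_mul, map_mul, mul_comm]
      have hle : commutator Q ≤ f.ker := by
        rw [commutator_def, Subgroup.commutator_le]
        intro a _ b _
        rw [MonoidHom.mem_ker, map_commutatorElement, commutatorElement_def, hcommAut (f a), mul_inv_cancel_right,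
          mul_inv_cancel]
      obtain ⟨x, hx, hx1⟩ : ∃ x ∈ P, x ≠ (1 : Q) := by
        by_contra h
        push Not at h
        have : P = ⊥ := (Subgroup.eq_bot_iff_forall _).mpr h
        rw [this, Subgroup.card_bot] at hPcard
        exact hcod.ne_one hPcard.symm
      have hkP : f.ker ≤ P := fun g hg => hPC x hx hx1 g (by
        have h1 : ((f g ⟨x, hx⟩ : P) : Q) = x := by rw [MonoidHom.mem_ker.mp hg]; rfl
        rw [show ((f g ⟨x, hx⟩ : P) : Q) = g * x * g⁻¹ from MulAut.conjNormal_apply _ _, mul_inv_eq_iff_eq_mul] at h1
        exact h1)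
      have : P = ⊤ := eq_top_iff.mpr (hperfQ ▸ hle.trans hkP)
      rw [this, Subgroup.index_top] at hP1
      omega
  · intro h
    by_contra hne
    obtain ⟨K, hK, hle⟩ := (eq_top_or_exists_le_coatom (commutator G)).resolve_left hne
    haveI : K.Normal := ⟨fun a ha g => by
      have h1 : g * a * g⁻¹ * a⁻¹ ∈ K := hle (by
        rw [commutator_def, show g * a * g⁻¹ * a⁻¹ = ⁅g, a⁆ from (commutatorElement_def g a).symm]
        exact Subgroup.commutator_mem_commutator trivial trivial)
      simpa using K.mul_mem h1 ha⟩
    set Q := G ⧸ K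
    have hcommQ : ∀ a b : Q, a * b = b * a := by
      intro a b
      induction a using QuotientGroup.induction_on with
      | H a =>
        induction b using QuotientGroup.induction_on with
        | H b =>
          rw [← QuotientGroup.mk_mul, ← QuotientGroup.mk_mul, QuotientGroup.eq, mul_inv_rev, mul_assoc]
          refine hle ?_
          rw [commutator_def, show b⁻¹ * (a⁻¹ * (b * a)) = ⁅b⁻¹, a⁻¹⁆ by simp [commutatorElement_def, mul_assoc]]
          exact Subgroup.commutator_mem_commutator trivial trivial
    letI : CommGroup Q := { (inferInstance : Group Q) with mul_comm := hcommQ }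
    haveI : Nontrivial Q := by
      rw [← Finite.one_lt_card_iff_nontrivial, ← Subgroup.index_eq_card]
      exact K.one_lt_index_of_ne_top hK.1
    have hsimple : IsSimpleGroup Q := ⟨fun N hN => by
      rcases eq_or_ne (N.comap (QuotientGroup.mk' K)) K with h1 | h1
      · left
        rw [← Subgroup.map_comap_eq_self_of_surjective (QuotientGroup.mk'_surjective K) N, h1]
        exact QuotientGroup.map_mk'_self K
      · right
        have hlt : K < N.comap (QuotientGroup.mk' K) := lt_of_le_of_ne (QuotientGroup.le_comap_mk' K N) (Ne.symm h1)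
        rw [← Subgroup.map_comap_eq_self_of_surjective (QuotientGroup.mk'_surjective K) N, hK.2 _ hlt]
        exact Subgroup.map_top_of_surjective _ (QuotientGroup.mk'_surjective K)⟩
    have hprime : (Nat.card Q).Prime := hsimple.prime_card
    haveI := Fintype.ofFinite Q
    have hcardI : Nat.card (Cfsg.IrrCharacter Q) = Nat.card Q := by
      rw [card_irr]
      exact (Nat.card_congr (Equiv.ofBijective ConjClasses.mk ⟨fun a b hab => isConj_iff_eq.mp (ConjClasses.mk_eq_mk_iff_isConj.mp hab), ConjClasses.mk_surjective⟩)).symm
    haveI : Nontrivial (Cfsg.IrrCharacter Q) := Finite.one_lt_card_iff_nontrivial.mp (hcardI ▸ hprime.one_lt)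
    obtain ⟨μ, hμ⟩ := exists_ne (oneChar : Cfsg.IrrCharacter Q)
    have hμirr := irr_comp_of_surjective μ.2 (QuotientGroup.mk' K) (QuotientGroup.mk'_surjective K)
    have hμ1 : (μ : Q → ℂ) 1 = 1 := (irr_comm_hom μ.2).1
    apply h ⟨_, hμirr⟩
    have hd : Cfsg.charDegree (fun x => (μ : Q → ℂ) (QuotientGroup.mk' K x)) = 1 := by
      simp [Cfsg.charDegree, hμ1]
    have hkerμ : Nat.card {g : G // (μ : Q → ℂ) (QuotientGroup.mk' K g) = (μ : Q → ℂ) (QuotientGroup.mk' K 1)} = Nat.card K := by
      refine Nat.card_congr (Equiv.subtypeEquivRight fun g => ?_)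
      rw [map_one]
      rcases hsimple.eq_bot_or_eq_top_of_normal _ (charKer_normal (isCharacter_of_irr μ.2)) with hb | hb
      · rw [← mem_charKer (isCharacter_of_irr μ.2), hb, Subgroup.mem_bot]
        exact QuotientGroup.eq_one_iff g
      · exfalso
        refine hμ (Subtype.ext (funext fun x => ?_))
        have : (μ : Q → ℂ) x = (μ : Q → ℂ) 1 := by
          rw [← mem_charKer (isCharacter_of_irr μ.2), hb]; trivial
        rw [this, hμ1, oneChar_apply]
    show (Nat.card G / (Nat.card {g : G // (μ : Q → ℂ) (QuotientGroup.mk' K g) = (μ : Q → ℂ) (QuotientGroup.mk' K 1)} * Cfsg.charDegree (fun x => (μ : Q → ℂ) (QuotientGroup.mk' K x)))).Prime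
    rw [hkerμ, hd, mul_one, ← Subgroup.index_mul_card K, Nat.mul_div_cancel _ Nat.card_pos, Subgroup.index_eq_card]
    exact hprime

end Cfsg.Agent.S4797
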