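import Cfsg.Statements.S4798
import Cfsg.Agent.CharBasics.Extra
import Mathlib.GroupTheory.Sylow

set_option autoImplicit false
open Cfsg

namespace Cfsg.Agent.S4798

open CfsgLib.CharBasics

/-- Let p be a prime and χ a faithful irreducible complex character of the finite group G (χ(g) = χ(1) only for g = 1), so that its codegree is #G / χ(1). Then #G / χ(1) is a power of p if and only if χ is induced from a character of a Sylow p-subgroup of G. -/
theorem result {G : Type*} [Group G] [Fintype G] (p : ℕ) [Fact p.Prime] (χ : Cfsg.IrrCharacter G) (hfaith : ∀ g : G, (χ : G → ℂ) g = (χ : G → ℂ) 1 → g = 1) : (∃ k : ℕ, Nat.card G = p ^ k * Cfsg.charDegree (χ : G → ℂ)) ↔ ∃ (P : Sylow p G) (θ : ↥(P : Subgroup G) → ℂ), Cfsg.IsCharacter ↥(P : Subgroup G) θ ∧ (χ : G → ℂ) = Cfsg.indFun (P : Subgroup G) θ := by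
  classical
  constructor
  · rintro ⟨k, hk⟩
    obtain ⟨P⟩ : Nonempty (Sylow p G) := inferInstance
    set n := Cfsg.charDegree (χ : G → ℂ) with hn
    haveI := Fintype.ofFinite (P : Subgroup G)
    set m := (P : Subgroup G).index with hm
    have hpm : ¬ p ∣ m := P.not_dvd_index
    have hp : p.Prime := Fact.out
    have hmn : m ∣ n := by
      have h : m * Nat.card (P : Subgroup G) = p ^ k * n := by rw [Subgroup.index_mul_card]; exact hk
      exact (Nat.Coprime.dvd_mul_left ((Nat.Coprime.pow_right k ((hp.coprime_iff_not_dvd).mpr hpm).symm))).mp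
        (h ▸ Dvd.intro _ rfl)
    obtain ⟨d, hd⟩ := hmn
    have hres := isCharacter_restrict (isCharacter_of_irr χ.2) (P : Subgroup G)
    obtain ⟨r, f, hf, hfs⟩ := exists_decomp hres
    have hsum : n = ∑ i, Cfsg.charDegree (f i) := by
      rw [← charDegree_sum _ _ (fun i _ => isCharacter_of_irr (hf i)), ← hfs]
      simp [Cfsg.charDegree, hn]
    have hpow : ∀ i, ∃ e, Cfsg.charDegree (f i) = p ^ e := fun i => by
      obtain ⟨N, hN⟩ := IsPGroup.iff_card.mp P.isPGroup'
      obtain ⟨e, -, he⟩ := (Nat.dvd_prime_pow hp).mp (hN ▸ degree_dvd ⟨f i, hf i⟩)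
      exact ⟨e, he⟩
    have hdp : ∃ b, d = p ^ b := by
      obtain ⟨N, hN⟩ := IsPGroup.iff_card.mp P.isPGroup'
      have h : m * Nat.card (P : Subgroup G) = p ^ k * n := by rw [Subgroup.index_mul_card]; exact hk
      rw [hd, hN] at h
      have hmpos : 0 < m := Nat.pos_of_ne_zero Subgroup.index_ne_zero_of_finite
      have : d ∣ p ^ N := ⟨p ^ k, Nat.eq_of_mul_eq_mul_left hmpos (by rw [h]; ring)⟩
      obtain ⟨b, -, hb⟩ := (Nat.dvd_prime_pow hp).mp this
      exact ⟨b, hb⟩
    obtain ⟨b, hb⟩ := hdp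
    obtain ⟨i, hi⟩ : ∃ i, Cfsg.charDegree (f i) ≤ d := by
      by_contra hno
      push Not at hno
      have h1 : p * d ∣ n := by
        rw [hsum]
        refine Finset.dvd_sum fun i _ => ?_
        obtain ⟨e, he⟩ := hpow i
        have hlt := hno i
        rw [he, hb] at hlt ⊢
        rw [← pow_succ']
        exact pow_dvd_pow p ((Nat.pow_lt_pow_iff_right hp.one_lt).mp hlt)
      rw [hd, mul_comm m, mul_comm p d] at h1
      exact hpm (Nat.dvd_of_mul_dvd_mul_left (by rw [hb]; exact pow_pos hp.pos b) h1)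
    refine ⟨P, f i, isCharacter_of_irr (hf i), ?_⟩
    have hne : Cfsg.classInner (f i) (fun h : (P : Subgroup G) => (χ : G → ℂ) h) ≠ 0 := by
      rw [hfs, classInner_sum_right]
      choose c hc using fun j => classInner_characters_nat (isCharacter_of_irr (hf i)) (isCharacter_of_irr (hf j))
      rw [Finset.sum_congr rfl (fun j _ => hc j), ← Nat.cast_sum, Nat.cast_ne_zero]
      have hci : c i = 1 := by
        have := (hc i).symm.trans (classInner_self (hf i))
        exact_mod_cast this
      refine (Nat.lt_of_lt_of_le (by omega : 0 < c i) (Finset.single_le_sum (fun j _ => Nat.zero_le _) (Finset.mem_univ i))).ne'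
    refine ((degree_le_index_mul _ (isCharacter_of_irr (hf i)) χ hne).2 ?_).symm
    rw [← hm, ← hn, hd]
    exact Nat.mul_le_mul_left m hi
  · rintro ⟨P, θ, hθ, hind⟩
    haveI := Fintype.ofFinite (P : Subgroup G)
    have hp : p.Prime := Fact.out
    obtain ⟨r, f, hf, hfs⟩ := exists_decomp hθ
    have hdeg : Cfsg.charDegree (χ : G → ℂ) = (P : Subgroup G).index * Cfsg.charDegree θ := by
      rw [hind, charDegree_indFun _ hθ]
    have h1 : Cfsg.classInner θ (fun h : (P : Subgroup G) => (χ : G → ℂ) h) = 1 := by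
      rw [← classInner_indFun _ θ (isClassFunction (isCharacter_of_irr χ.2)), ← hind, classInner_self χ.2]
    rw [hfs, classInner_sum_left] at h1
    obtain ⟨i, -, hi⟩ := Finset.exists_ne_zero_of_sum_ne_zero (h1 ▸ one_ne_zero)
    have hle := (degree_le_index_mul _ (isCharacter_of_irr (hf i)) χ hi).1
    have hge : Cfsg.charDegree (f i) ≤ Cfsg.charDegree θ := by
      rw [hfs, charDegree_sum _ _ (fun j _ => isCharacter_of_irr (hf j))]
      exact Finset.single_le_sum (f := fun j => Cfsg.charDegree (f j)) (fun j _ => Nat.zero_le _) (Finset.mem_univ i)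
    rw [hdeg] at hle
    have heq : Cfsg.charDegree θ = Cfsg.charDegree (f i) :=
      le_antisymm (Nat.le_of_mul_le_mul_left hle (Nat.pos_of_ne_zero Subgroup.index_ne_zero_of_finite)) hge
    obtain ⟨N, hN⟩ := IsPGroup.iff_card.mp P.isPGroup'
    obtain ⟨e, heN, he⟩ := (Nat.dvd_prime_pow hp).mp (hN ▸ degree_dvd ⟨f i, hf i⟩)
    refine ⟨N - e, ?_⟩
    rw [hdeg, heq, he, ← Subgroup.index_mul_card (P : Subgroup G), hN,
      ← Nat.sub_add_cancel heN, pow_add, Nat.sub_add_cancel heN]
    ring

end Cfsg.Agent.S4798
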