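import Cfsg.Statements.S4801
import Cfsg.Agent.CharBasics.Extra
import Mathlib.GroupTheory.Subgroup.Simple

set_option autoImplicit false
open Cfsg

namespace Cfsg.Agent.S4801

open CfsgLib.CharBasics

theorem cod_dvd {G : Type*} [Group G] [Finite G] (ψ : Cfsg.IrrCharacter G) :
    Nat.card G / (Nat.card {g : G // (ψ : G → ℂ) g = (ψ : G → ℂ) 1} * Cfsg.charDegree (ψ : G → ℂ)) ∣ Nat.card G := by
  have hc := isCharacter_of_irr ψ.2
  set K := charKer _ hc with hK
  haveI : K.Normal := charKer_normal hc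
  obtain ⟨φ, hφ⟩ := exists_quotient_irr ψ K (fun g hg => hg)
  have hdeg : Cfsg.charDegree (φ : G ⧸ K → ℂ) = Cfsg.charDegree (ψ : G → ℂ) := by
    simp only [Cfsg.charDegree, ← hφ 1]
    rfl
  have h1 : Cfsg.charDegree (ψ : G → ℂ) ∣ Nat.card (G ⧸ K) := hdeg ▸ degree_dvd φ
  have h2 : Nat.card {g : G // (ψ : G → ℂ) g = (ψ : G → ℂ) 1} = Nat.card K := rfl
  refine Nat.div_dvd_of_dvd ?_
  rw [h2, Subgroup.card_eq_card_quotient_mul_card_subgroup K, mul_comm (Nat.card (G ⧸ K))]
  exact mul_dvd_mul_left _ h1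

/-- The codegree of an irreducible complex character χ of a finite group G is [G : ker χ] / χ(1), where ker χ is the set of elements at which χ takes the value χ(1). Let S be a finite simple group and G a finite group such that every codegree of an irreducible character of S is a codegree of an irreducible character of G. Then the order of S divides the order of G. -/
theorem result {S : Type*} [Group S] [Finite S] (hS : IsSimpleGroup S) {G : Type*} [Group G] [Finite G] (hsub : ∀ χ : Cfsg.IrrCharacter S, ∃ ψ : Cfsg.IrrCharacter G, (Nat.card S / (Nat.card {g : S // (χ : S → ℂ) g = (χ : S → ℂ) 1} * Cfsg.charDegree (χ : S → ℂ))) = (Nat.card G / (Nat.card {g : G // (ψ : G → ℂ) g = (ψ : G → ℂ) 1} * Cfsg.charDegree (ψ : G → ℂ)))) : Nat.card S ∣ Nat.card G := by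
  classical
  haveI := Fintype.ofFinite S
  haveI := Fintype.ofFinite (Cfsg.IrrCharacter S)
  refine (Nat.factorization_prime_le_iff_dvd Nat.card_pos.ne' Nat.card_pos.ne').mp fun r hr => ?_
  by_cases hrS : r ∣ Nat.card S
  swap
  · rw [Nat.factorization_eq_zero_of_not_dvd hrS]; exact Nat.zero_le _
  obtain ⟨χ, hχ1, hχr⟩ : ∃ χ : Cfsg.IrrCharacter S, χ ≠ oneChar ∧ ¬ r ∣ Cfsg.charDegree (χ : S → ℂ) := by
    by_contra hno
    push Not at hno
    have h := sum_sq_degree (G := S)
    rw [← Finset.add_sum_erase _ _ (Finset.mem_univ oneChar)] at h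
    have h1 : Cfsg.charDegree ((oneChar : Cfsg.IrrCharacter S) : S → ℂ) = 1 := by
      simp [Cfsg.charDegree, oneChar]
    rw [h1, one_pow] at h
    have h2 : r ∣ ∑ χ ∈ Finset.univ.erase (oneChar : Cfsg.IrrCharacter S), Cfsg.charDegree (χ : S → ℂ) ^ 2 :=
      Finset.dvd_sum fun χ hχ => dvd_pow (hno χ (Finset.mem_erase.mp hχ).1) two_ne_zero
    exact hr.not_dvd_one ((Nat.dvd_add_left h2).mp (h ▸ hrS))
  have hc := isCharacter_of_irr χ.2
  have hker : Nat.card {g : S // (χ : S → ℂ) g = (χ : S → ℂ) 1} = 1 := by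
    show Nat.card (charKer _ hc) = 1
    rcases hS.eq_bot_or_eq_top_of_normal _ (charKer_normal hc) with h | h
    · rw [h, Subgroup.card_bot]
    · exfalso
      have hall : ∀ x : S, (χ : S → ℂ) x = (χ : S → ℂ) 1 := fun x => by
        rw [← mem_charKer hc, h]; trivial
      have h0 := sum_irr_eq_zero χ.2 (fun hh => hχ1 (Subtype.ext hh))
      rw [Finset.sum_congr rfl (fun x _ => hall x), Finset.sum_const, nsmul_eq_mul] at h0
      rcases mul_eq_zero.mp h0 with h' | h'
      · exact (Fintype.card_ne_zero (α := S)) (Nat.cast_eq_zero (R := ℂ) |>.mp (by simpa using h'))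
      · exact apply_one_ne_zero χ.2 h'
  obtain ⟨ψ, hψ⟩ := hsub χ
  have hdvd := cod_dvd ψ
  rw [← hψ, hker, one_mul] at hdvd
  have h1 := (Nat.factorization_prime_le_iff_dvd (Nat.div_pos (Nat.le_of_dvd Nat.card_pos (degree_dvd χ)) (charDegree_pos χ.2)).ne' Nat.card_pos.ne').mpr hdvd r hr
  rw [Nat.factorization_div (degree_dvd χ), Finsupp.tsub_apply, Nat.factorization_eq_zero_of_not_dvd hχr, Nat.sub_zero] at h1
  exact h1

end Cfsg.Agent.S4801
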