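import Cfsg.Statements.S4802
import Cfsg.Agent.CharBasics.Extra

set_option autoImplicit false
open Cfsg CfsgLib.CharBasics

namespace Cfsg.Agent.S4802

/-- Let N < M be normal subgroups of the finite group G and g ∈ M ∖ N. Then the conjugacy class of g is exactly M ∖ N if and only if every irreducible complex character of G whose kernel contains N takes the same value at all elements of M ∖ N, and every irreducible complex character of G whose kernel does not contain N vanishes at g. -/
theorem result {G : Type*} [Group G] [Finite G] (N M : Subgroup G) [N.Normal] [M.Normal] (hNM : N < M) (g : G) (hgM : g ∈ M) (hgN : g ∉ N) : {h : G | IsConj g h} = (M : Set G) \ (N : Set G) ↔ ((∀ χ : Cfsg.IrrCharacter G, (∀ x ∈ N, (χ : G → ℂ) x = (χ : G → ℂ) 1) → ∀ x ∈ M, x ∉ N → ∀ y ∈ M, y ∉ N → (χ : G → ℂ) x = (χ : G → ℂ) y) ∧ (∀ χ : Cfsg.IrrCharacter G, (∃ x ∈ N, (χ : G → ℂ) x ≠ (χ : G → ℂ) 1) → (χ : G → ℂ) g = 0)) := by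
  classical
  haveI : Fintype G := Fintype.ofFinite G
  haveI : Fintype N := Fintype.ofFinite N
  haveI : Fintype (IrrCharacter G) := Fintype.ofFinite _
  constructor
  · intro h
    have hconj : ∀ x ∈ M, x ∉ N → IsConj g x := fun x hx hx' =>
      (h.symm ▸ ⟨hx, hx'⟩ : x ∈ {h : G | IsConj g h})
    refine ⟨fun χ _ x hx hx' y hy hy' => ?_, fun χ hχ => ?_⟩
    · exact apply_isConj (isCharacter_of_irr χ.2) ((hconj x hx hx').symm.trans (hconj y hy hy'))
    · obtain ⟨x, hx, hne⟩ := hχ
      rcases sum_normal_irr N χ with ⟨h1, _⟩ | ⟨_, h2⟩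
      · exact absurd (h1 x hx) hne
      · have h3 := h2 g
        have he : ∀ m : N, (χ : G → ℂ) (g * m) = (χ : G → ℂ) g := fun m =>
          (apply_isConj (isCharacter_of_irr χ.2) (hconj _ (mul_mem hgM (hNM.le m.2))
            fun h' => hgN ((N.mul_mem_cancel_right m.2).1 h'))).symm
        rw [Finset.sum_congr rfl (fun m _ => he m), Finset.sum_const, nsmul_eq_mul] at h3
        exact (mul_eq_zero.1 h3).resolve_left (Nat.cast_ne_zero.2 (by simp))
  · rintro ⟨hA, hB⟩
    ext h
    refine ⟨fun hc => ?_, fun hh => ?_⟩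
    · obtain ⟨c, rfl⟩ := isConj_iff.1 (hc : IsConj g h)
      refine ⟨‹M.Normal›.conj_mem g hgM c, fun h' => hgN ?_⟩
      have := ‹N.Normal›.conj_mem _ h' c⁻¹
      simpa [mul_assoc] using this
    · by_contra hnc
      have h0 := sum_col g h
      rw [if_neg (fun k : IsConj g h => hnc k)] at h0
      have h1 := sum_col g g
      rw [if_pos (IsConj.refl g)] at h1
      have he : ∀ χ : IrrCharacter G, (χ : G → ℂ) g * (starRingEnd ℂ) ((χ : G → ℂ) h)
          = (χ : G → ℂ) g * (starRingEnd ℂ) ((χ : G → ℂ) g) := fun χ => by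
        by_cases hker : ∀ x ∈ N, (χ : G → ℂ) x = (χ : G → ℂ) 1
        · rw [hA χ hker h hh.1 hh.2 g hgM hgN]
        · push Not at hker
          rw [hB χ hker, zero_mul, zero_mul]
      rw [Finset.sum_congr rfl (fun χ _ => he χ), h1] at h0
      exact Nat.card_pos.ne' (Nat.cast_eq_zero.1 h0)

end Cfsg.Agent.S4802
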