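import Cfsg.Statements.S4808
import Cfsg.Agent.CharBasics.ModP
import Cfsg.Agent.Blocks.Glauberman
import Cfsg.Agent.S4801

set_option autoImplicit false
open Cfsg CfsgLib.CharBasics CfsgLib.Blocks

namespace Cfsg.Agent.S4808

/-- The codegree of an irreducible complex character χ of a finite group G is [G : ker χ] / χ(1), where ker χ is the set of elements at which χ takes the value χ(1). A prime divides the order of G if and only if it divides the codegree of some irreducible complex character of G. -/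
theorem result {G : Type*} [Group G] [Finite G] (p : ℕ) (hp : p.Prime) : p ∣ Nat.card G ↔ ∃ χ : Cfsg.IrrCharacter G, p ∣ (Nat.card G / (Nat.card {g : G // (χ : G → ℂ) g = (χ : G → ℂ) 1} * Cfsg.charDegree (χ : G → ℂ))) := by
  classical
  refine ⟨fun hpG => ?_, fun ⟨χ, hχ⟩ => hχ.trans (Cfsg.Agent.S4801.cod_dvd χ)⟩
  haveI : Fact p.Prime := ⟨hp⟩
  haveI : Fintype G := Fintype.ofFinite G
  haveI : Fintype (IrrCharacter G) := Fintype.ofFinite _
  obtain ⟨M, hM⟩ := exists_modular hp
  by_contra hno
  push Not at hno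
  obtain ⟨x, hx⟩ := exists_prime_orderOf_dvd_card' p hpG
  obtain ⟨P⟩ := (inferInstance : Nonempty (Sylow p G))
  set N := Subgroup.normalClosure ((P : Subgroup G) : Set G) with hN
  haveI : Fintype N := Fintype.ofFinite N
  have hPN : (P : Subgroup G) ≤ N := Subgroup.subset_normalClosure
  have hNidx : ¬ p ∣ N.index := fun h => P.not_dvd_index (h.trans (Subgroup.index_dvd_of_le hPN))
  have hxN : x ∈ N := by
    have h1 : (x : G ⧸ N) ^ p = 1 := by
      rw [← QuotientGroup.mk_pow, orderOf_dvd_iff_pow_eq_one.1 hx.dvd, QuotientGroup.mk_one]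
    refine (QuotientGroup.eq_one_iff x).1 (orderOf_eq_one_iff.1 ?_)
    exact ((Nat.dvd_prime hp).1 (orderOf_dvd_of_pow_eq_one h1)).resolve_right
      fun h => hNidx (h ▸ orderOf_dvd_natCard _)
  -- degree prime to `p` iff trivial on `N`
  have hker : ∀ χ : IrrCharacter G,
      (∀ m ∈ N, (χ : G → ℂ) m = (χ : G → ℂ) 1) ↔ ¬ p ∣ charDegree (χ : G → ℂ) := by
    intro χ
    have hc := isCharacter_of_irr χ.2
    haveI : (charKer _ hc).Normal := charKer_normal hc
    obtain ⟨φ, hφ⟩ := exists_quotient_irr χ (charKer _ hc) (fun g hg => hg)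
    have hdeg : charDegree (χ : G → ℂ) ∣ (charKer _ hc).index := by
      have : charDegree (φ : G ⧸ charKer _ hc → ℂ) = charDegree (χ : G → ℂ) := by
        simp only [charDegree, ← hφ 1]; rfl
      exact this ▸ degree_dvd φ
    refine ⟨fun h hd => hNidx (hd.trans (hdeg.trans (Subgroup.index_dvd_of_le fun m hm => h m hm))),
      fun hd m hm => ?_⟩
    have hidx : ¬ p ∣ (charKer _ hc).index := by
      intro h
      refine hno χ ?_
      show p ∣ Nat.card G / (Nat.card (charKer _ hc) * charDegree (χ : G → ℂ))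
      rw [← Nat.div_div_eq_div_mul, ← Subgroup.index_mul_card (charKer _ hc),
        Nat.mul_div_cancel _ Nat.card_pos]
      rw [← Nat.div_mul_cancel hdeg] at h
      exact (hp.dvd_mul.1 h).resolve_right hd
    suffices N ≤ charKer _ hc from this hm
    refine Subgroup.normalClosure_le_normal fun y hy => ?_
    obtain ⟨k, hk⟩ := P.isPGroup' ⟨y, hy⟩
    have h1 : (y : G ⧸ charKer _ hc) ^ p ^ k = 1 := by
      rw [← QuotientGroup.mk_pow, show y ^ p ^ k = 1 from congrArg Subtype.val hk, QuotientGroup.mk_one]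
    refine (QuotientGroup.eq_one_iff y).1 (orderOf_eq_one_iff.1 ?_)
    obtain ⟨i, -, hi⟩ := (Nat.dvd_prime_pow hp).1 (orderOf_dvd_of_pow_eq_one h1)
    rcases i with _ | i
    · rw [hi, pow_zero]
    · exact absurd (((dvd_pow_self p (Nat.succ_ne_zero i)).trans hi.symm.dvd).trans (orderOf_dvd_natCard _)) hidx
  set T := Finset.univ.filter fun χ : IrrCharacter G => ∀ m ∈ N, (χ : G → ℂ) m = (χ : G → ℂ) 1
  -- the squares of the degrees of the characters trivial on `N` add up to the index
  have hsum : (∑ χ ∈ T, charDegree (χ : G → ℂ) ^ 2) * Nat.card N = Nat.card G := by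
    have h1 : ∑ m : N, ∑ χ : IrrCharacter G, (charDegree (χ : G → ℂ) : ℂ) * (χ : G → ℂ) (m : G) = (Nat.card G : ℂ) := by
      rw [Finset.sum_eq_single (1 : N) (fun m _ hm => sum_mul_degree (fun h => hm (Subtype.ext h)))
        (fun h => absurd (Finset.mem_univ _) h), ← sum_sq_degree (G := G)]
      push_cast
      refine Finset.sum_congr rfl fun χ _ => ?_
      rw [apply_one (isCharacter_of_irr χ.2), sq]
    rw [Finset.sum_comm] at h1
    have h2 : ∀ χ : IrrCharacter G, ∑ m : N, (charDegree (χ : G → ℂ) : ℂ) * (χ : G → ℂ) (m : G)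
        = if ∀ m ∈ N, (χ : G → ℂ) m = (χ : G → ℂ) 1 then
          (charDegree (χ : G → ℂ) : ℂ) ^ 2 * (Nat.card N : ℂ) else 0 := by
      intro χ
      rw [← Finset.mul_sum]
      rcases sum_normal_irr N χ with ⟨h, e⟩ | ⟨h, e⟩
      · have := e 1
        simp only [one_mul] at this
        rw [if_pos h, this, apply_one (isCharacter_of_irr χ.2)]; ring
      · have := e 1
        simp only [one_mul] at this
        rw [if_neg h, this, mul_zero]
    rw [Finset.sum_congr rfl (fun χ _ => h2 χ), ← Finset.sum_filter, ← Finset.sum_mul] at h1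
    exact_mod_cast h1
  have hT : ∑ χ ∈ T, charDegree (χ : G → ℂ) ^ 2 = N.index := by
    rw [← Subgroup.index_mul_card N] at hsum
    exact Nat.eq_of_mul_eq_mul_right Nat.card_pos hsum
  have h0 := sum_mul_degree (G := G) (g := x) (fun h => hp.one_lt.ne (by rw [← hx, h, orderOf_one]))
  rw [← Finset.sum_sdiff (Finset.subset_univ T), Finset.sum_congr rfl (s₂ := T)
    (g := fun χ => ((charDegree (χ : G → ℂ) ^ 2 : ℕ) : ℂ)) fun χ hχ => by
      rw [(Finset.mem_filter.1 hχ).2 x hxN, apply_one (isCharacter_of_irr χ.2)]; push_cast; ring,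
    ← Nat.cast_sum, hT] at h0
  refine hNidx ((memLocalIdeal_natCast_iff hM _).1 ?_)
  rw [eq_neg_of_add_eq_zero_right h0]
  refine memLocalIdeal_neg (memLocalIdeal_sum hM _ fun χ hχ => ?_)
  refine memLocalIdeal_mul_right hM ((memLocalIdeal_natCast_iff hM _).2 ?_)
    (memLocalRing_of_isIntegral hM (isIntegral_apply (isCharacter_of_irr χ.2) x))
  by_contra hd
  exact (Finset.mem_sdiff.1 hχ).2 (Finset.mem_filter.2 ⟨Finset.mem_univ _, (hker χ).2 hd⟩)

end Cfsg.Agent.S4808
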