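import Cfsg.Statements.S4835
import Cfsg.Agent.CharBasics.Extra

set_option autoImplicit false
open Cfsg

namespace Cfsg.Agent.S4835

open CfsgLib.CharBasics
open scoped ComplexConjugate

theorem sum_supp {G : Type*} [Group G] [Fintype G] {x : G} (hx : x ≠ 1) (F : G → ℂ)
    (h0 : ∀ g, g ≠ 1 → ¬ IsConj x g → F g = 0) (hc : ∀ g, IsConj x g → F g = F x) :
    ∑ g : G, F g = F 1 + ((Subgroup.centralizer ({x} : Set G)).index : ℂ) * F x := by
  classical
  rw [← card_conjClass, Nat.card_eq_fintype_card, Fintype.card_subtype]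
  have h1 : (1 : G) ∉ Finset.univ.filter (fun g => IsConj x g) := by
    simp only [Finset.mem_filter, Finset.mem_univ, true_and]
    exact fun h => hx (isConj_one_left.mp h)
  rw [← Finset.sum_subset (Finset.subset_univ (insert (1 : G) (Finset.univ.filter fun g => IsConj x g)))
    (fun g _ hg => by
      simp only [Finset.mem_insert, Finset.mem_filter, Finset.mem_univ, true_and, not_or] at hg
      exact h0 g hg.1 hg.2), Finset.sum_insert h1]
  congr 1
  rw [Finset.sum_congr rfl (fun g hg => hc g (Finset.mem_filter.mp hg).2), Finset.sum_const, nsmul_eq_mul]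

theorem gagola_data {G : Type*} [Group G] [Finite G] (hG : 2 < Nat.card G) (χ : Cfsg.IrrCharacter G)
    (hχ : Nat.card {C : ConjClasses G // ∃ g ∈ C.carrier, (χ : G → ℂ) g ≠ 0} = 2) :
    ∃ (N : Subgroup G) (x : G), N.Normal ∧ x ≠ 1 ∧ (∀ g, g ∈ N ↔ g = 1 ∨ IsConj x g) ∧
      (∀ g : G, (χ : G → ℂ) g ≠ 0 ↔ g ∈ N) ∧
      (∀ ψ : Cfsg.IrrCharacter G, ψ ≠ χ → ∀ g ∈ N, (ψ : G → ℂ) g = (ψ : G → ℂ) 1) ∧
      (∀ g : G, (χ : G → ℂ) g = (χ : G → ℂ) 1 → g = 1) ∧
      ((χ : G → ℂ) 1 + ((Subgroup.centralizer ({x} : Set G)).index : ℂ) * (χ : G → ℂ) x = 0) ∧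
      χ ≠ oneChar := by
  classical
  haveI := Fintype.ofFinite G
  haveI := Fintype.ofFinite (Cfsg.IrrCharacter G)
  have hc := isCharacter_of_irr χ.2
  set F := (χ : G → ℂ) with hF
  have hF1 : F 1 ≠ 0 := apply_one_ne_zero χ.2
  let c1 : {C : ConjClasses G // ∃ g ∈ C.carrier, F g ≠ 0} :=
    ⟨ConjClasses.mk 1, 1, ConjClasses.mem_carrier_mk, hF1⟩
  obtain ⟨⟨C, x, hxC, hxF⟩, hne, huniq⟩ := (Nat.card_eq_two_iff' c1).mp hχ
  have hCx : ConjClasses.mk x = C := ConjClasses.mem_carrier_iff_mk_eq.mp hxC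
  have hx1 : x ≠ 1 := fun h => hne (Subtype.ext ((hCx.symm.trans (congrArg ConjClasses.mk h))))
  have hsupp : ∀ g, F g ≠ 0 ↔ g = 1 ∨ IsConj x g := by
    intro g
    constructor
    · intro hg
      let cg : {C : ConjClasses G // ∃ g ∈ C.carrier, F g ≠ 0} :=
        ⟨ConjClasses.mk g, g, ConjClasses.mem_carrier_mk, hg⟩
      by_cases h : cg = c1
      · have h' : IsConj g 1 := ConjClasses.mk_eq_mk_iff_isConj.mp (congrArg Subtype.val h)
        exact Or.inl (isConj_one_left.mp h')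
      · have h' : ConjClasses.mk g = ConjClasses.mk x := by
          rw [hCx]; exact congrArg Subtype.val (huniq cg h)
        exact Or.inr (ConjClasses.mk_eq_mk_iff_isConj.mp h').symm
    · rintro (rfl | h)
      · exact hF1
      · rwa [← apply_isConj hc h]
  have hzero : ∀ g, g ≠ 1 → ¬ IsConj x g → F g = 0 := fun g h1 h2 => by
    by_contra h
    exact ((hsupp g).mp h).elim h1 h2
  have hsumψ : ∀ ψ : Cfsg.IrrCharacter G, ∑ g : G, F g * conj ((ψ : G → ℂ) g) =
      F 1 * conj ((ψ : G → ℂ) 1) + ((Subgroup.centralizer ({x} : Set G)).index : ℂ) * (F x * conj ((ψ : G → ℂ) x)) :=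
    fun ψ => sum_supp hx1 (fun g => F g * conj ((ψ : G → ℂ) g)) (fun g h1 h2 => by simp only [hzero g h1 h2, zero_mul])
      (fun g h => by simp only [apply_isConj hc h, apply_isConj (isCharacter_of_irr ψ.2) h])
  set c := (Subgroup.centralizer ({x} : Set G)).index with hcdef
  have hne1 : χ ≠ oneChar := by
    intro h
    have hall : ∀ g, g = 1 ∨ IsConj x g := fun g => (hsupp g).mp (by rw [hF, h, oneChar_apply]; exact one_ne_zero)
    have hcard : ((Nat.card G : ℕ) : ℂ) = ((1 + c : ℕ) : ℂ) := by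
      have h2 := sum_supp hx1 (fun _ => (1 : ℂ)) (fun g h1 h2 => ((hall g).elim h1 h2).elim) (fun _ _ => rfl)
      simp only [Finset.sum_const, Finset.card_univ, nsmul_eq_mul, mul_one] at h2
      rw [Nat.card_eq_fintype_card, h2]
      push_cast; rfl
    have hcard' : Nat.card G = 1 + c := by exact_mod_cast hcard
    have hdvd : c ∣ 1 + c := hcard' ▸ Subgroup.index_dvd_card _
    have : c ∣ 1 := (Nat.dvd_add_left dvd_rfl).mp hdvd
    rw [Nat.dvd_one] at this
    omega
  have hbal : F 1 + (c : ℂ) * F x = 0 := by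
    have h := sum_mul_conj χ oneChar
    rw [if_neg hne1, hsumψ oneChar] at h
    simpa [oneChar_apply] using h
  have hker : ∀ ψ : Cfsg.IrrCharacter G, ψ ≠ χ → (ψ : G → ℂ) x = (ψ : G → ℂ) 1 := by
    intro ψ hψ
    have h := sum_mul_conj χ ψ
    rw [if_neg hψ.symm, hsumψ ψ] at h
    have h2 : F 1 * (conj ((ψ : G → ℂ) 1) - conj ((ψ : G → ℂ) x)) = 0 := by
      linear_combination h - conj ((ψ : G → ℂ) x) * hbal
    have h3 := (mul_eq_zero.mp h2).resolve_left hF1
    rw [sub_eq_zero] at h3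
    exact (RingHom.injective (starRingEnd ℂ) h3).symm
  let N : Subgroup G := ⨅ (ψ : {ψ : Cfsg.IrrCharacter G // ψ ≠ χ}),
    charKer _ (isCharacter_of_irr ψ.1.2)
  have hmemN : ∀ g, g ∈ N ↔ ∀ ψ : Cfsg.IrrCharacter G, ψ ≠ χ → (ψ : G → ℂ) g = (ψ : G → ℂ) 1 := by
    intro g
    rw [Subgroup.mem_iInf]
    exact ⟨fun h ψ hψ => h ⟨ψ, hψ⟩, fun h ψ => h ψ.1 ψ.2⟩
  have hN : ∀ g, g ∈ N ↔ g = 1 ∨ IsConj x g := by
    intro g
    rw [hmemN]
    constructor
    · intro hg
      by_contra hno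
      push Not at hno
      have h0 := sum_mul_degree (G := G) hno.1
      have h1 : ∀ ψ : Cfsg.IrrCharacter G, (Cfsg.charDegree (ψ : G → ℂ) : ℂ) * (ψ : G → ℂ) g =
          ((if ψ = χ then 0 else Cfsg.charDegree (ψ : G → ℂ) ^ 2 : ℕ) : ℂ) := by
        intro ψ
        by_cases h : ψ = χ
        · rw [h, if_pos rfl, ← hF, hzero g hno.1 hno.2]; simp
        · rw [if_neg h, hg ψ h, apply_one (isCharacter_of_irr ψ.2)]; push_cast; ring
      rw [Finset.sum_congr rfl (fun ψ _ => h1 ψ), ← Nat.cast_sum, Nat.cast_eq_zero,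
        Finset.sum_eq_zero_iff] at h0
      have h2 := h0 oneChar (Finset.mem_univ _)
      rw [if_neg (Ne.symm hne1)] at h2
      exact (pow_pos (charDegree_pos (oneChar : Cfsg.IrrCharacter G).2) 2).ne' h2
    · rintro (rfl | h) ψ hψ
      · rfl
      · rw [← apply_isConj (isCharacter_of_irr ψ.2) h, hker ψ hψ]
  refine ⟨N, x, ?_, hx1, hN, fun g => (hsupp g).trans (hN g).symm, fun ψ hψ g hg => (hmemN g).mp hg ψ hψ, ?_, hbal, hne1⟩
  · exact Subgroup.normal_iInf_normal fun ψ => charKer_normal (isCharacter_of_irr ψ.1.2)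
  · intro g hg
    rcases (hsupp g).mp (hg ▸ hF1) with h | h
    · exact h
    · exfalso
      rw [← apply_isConj hc h] at hg
      rw [hg] at hbal
      have : ((1 + c : ℕ) : ℂ) * F 1 = 0 := by push_cast; linear_combination hbal
      rcases mul_eq_zero.mp this with h' | h'
      · rw [Nat.cast_eq_zero] at h'; omega
      · exact hF1 h'

theorem gagola_minimal {G : Type*} [Group G] [Finite G] (χ : Cfsg.IrrCharacter G) (N : Subgroup G) (x : G)
    (hN : ∀ g, g ∈ N ↔ g = 1 ∨ IsConj x g) (hsupp : ∀ g : G, (χ : G → ℂ) g ≠ 0 ↔ g ∈ N)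
    (hfaith : ∀ g : G, (χ : G → ℂ) g = (χ : G → ℂ) 1 → g = 1)
    (K : Subgroup G) (hK : K.Normal) (hK1 : K ≠ ⊥) : N ≤ K := by
  classical
  haveI := Fintype.ofFinite G
  haveI := Fintype.ofFinite K
  obtain ⟨k, hk1, hkN⟩ : ∃ k : K, (k : G) ≠ 1 ∧ (k : G) ∈ N := by
    by_contra hno
    push Not at hno
    rcases sum_normal_irr K χ with ⟨hall, -⟩ | ⟨-, hz⟩
    · exact hK1 ((Subgroup.eq_bot_iff_forall _).mpr fun g hg => hfaith g (hall g hg))
    · have h := hz 1
      simp only [one_mul] at h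
      rw [Finset.sum_eq_single (1 : K) (fun k _ hk => by
        by_contra hne
        exact hno k (fun h1 => hk (Subtype.ext h1)) ((hsupp _).mp hne)) (fun hh => absurd (Finset.mem_univ _) hh)] at h
      exact apply_one_ne_zero χ.2 h
  intro g hg
  rcases (hN g).mp hg with rfl | h
  · exact K.one_mem
  · have h2 : IsConj (k : G) g := (((hN k).mp hkN).resolve_left hk1).symm.trans h
    obtain ⟨y, hy⟩ := isConj_iff.mp h2
    rw [← hy]
    exact hK.conj_mem _ k.2 y

theorem gagola_elementary {G : Type*} [Group G] [Finite G] (N : Subgroup G) (x : G) [N.Normal] (hx : x ≠ 1)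
    (hN : ∀ g, g ∈ N ↔ g = 1 ∨ IsConj x g) (hmin : ∀ K : Subgroup G, K.Normal → K ≠ ⊥ → N ≤ K) :
    ∃ p : ℕ, p.Prime ∧ Cfsg.IsElementaryAbelian p N := by
  classical
  have hxN : x ∈ N := (hN x).mpr (Or.inr (IsConj.refl x))
  obtain ⟨p, hp, hpx⟩ := Nat.exists_prime_and_dvd (orderOf_eq_one_iff.not.mpr hx)
  haveI : Fact p.Prime := ⟨hp⟩
  have hord : orderOf x = p := by
    have hy : orderOf (x ^ (orderOf x / p)) = p :=
      orderOf_pow_orderOf_div (orderOf_pos x).ne' hpx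
    rcases (hN _).mp (N.pow_mem hxN (orderOf x / p)) with h | h
    · rw [h, orderOf_one] at hy; exact absurd hy hp.ne_one.symm
    · obtain ⟨g, hg⟩ := isConj_iff.mp h
      rw [← hy, ← hg]
      exact ((MulAut.conj g).orderOf_eq x).symm
  have hpow : ∀ a ∈ N, a ^ p = 1 := by
    intro a ha
    rcases (hN a).mp ha with rfl | h
    · exact one_pow _
    · obtain ⟨g, hg⟩ := isConj_iff.mp h
      rw [← hg, conj_pow, ← hord, pow_orderOf_eq_one, mul_one, mul_inv_cancel]
  refine ⟨p, hp, ⟨?_, hpow⟩⟩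
  have hNp : IsPGroup p N := fun a => ⟨1, Subtype.ext (by rw [pow_one]; exact hpow a a.2)⟩
  haveI : Nontrivial N := ⟨⟨⟨x, hxN⟩, 1, fun h => hx (congrArg Subtype.val h)⟩⟩
  have hZ := hNp.center_nontrivial
  have hle := hmin ((Subgroup.center N).map N.subtype) inferInstance (by
    rw [Ne, Subgroup.map_eq_bot_iff_of_injective _ N.subtype_injective]
    exact (Subgroup.nontrivial_iff_ne_bot _).mp hZ)
  refine ⟨⟨fun a b => ?_⟩⟩
  obtain ⟨a', ha', hae⟩ := hle a.2
  have : a' = a := Subtype.ext hae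
  subst this
  exact (Subgroup.mem_center_iff.mp ha' b).symm

/-- Let G be a finite group of order greater than 2 with an irreducible character χ that is nonzero on exactly two conjugacy classes. Then G has a unique minimal normal subgroup N; N is an elementary abelian p-group for some prime p; χ is nonzero exactly at the elements of N; and any two nonidentity elements of N are conjugate in G. -/
theorem result {G : Type*} [Group G] [Finite G] (hG : 2 < Nat.card G) (χ : Cfsg.IrrCharacter G) (hχ : Nat.card {C : ConjClasses G // ∃ g ∈ C.carrier, (χ : G → ℂ) g ≠ 0} = 2) :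
    ∃ N : Subgroup G, N.Normal ∧ N ≠ ⊥ ∧ (∀ K : Subgroup G, K.Normal → K ≠ ⊥ → N ≤ K) ∧
      (∃ p : ℕ, p.Prime ∧ Cfsg.IsElementaryAbelian p N) ∧
      (∀ g : G, (χ : G → ℂ) g ≠ 0 ↔ g ∈ N) ∧
      (∀ x ∈ N, ∀ y ∈ N, x ≠ 1 → y ≠ 1 → ∃ g : G, g * x * g⁻¹ = y) := by
  classical
  obtain ⟨N, x, hNn, hx, hN, hsupp, hker, hfaith, hbal, hne⟩ := gagola_data hG χ hχ
  have hmin := gagola_minimal χ N x hN hsupp hfaith
  refine ⟨N, hNn, ?_, hmin, gagola_elementary N x hx hN hmin, hsupp, ?_⟩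
  · intro h
    exact hx (Subgroup.mem_bot.mp (h ▸ (hN x).mpr (Or.inr (IsConj.refl x))))
  · intro a ha b hb ha1 hb1
    exact isConj_iff.mp ((((hN a).mp ha).resolve_left ha1).symm.trans (((hN b).mp hb).resolve_left hb1))

end Cfsg.Agent.S4835
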