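import Cfsg.Statements.S4837
import Cfsg.Agent.S4835
import Mathlib.GroupTheory.Sylow
import Mathlib.Tactic.Group

set_option autoImplicit false
open Cfsg

namespace Cfsg.Agent.S4837

open CfsgLib.CharBasics
open scoped ComplexConjugate

/-- The centraliser of a nontrivial element of the support is a Sylow subgroup. -/
theorem centralizer_sylow {G : Type*} [Group G] [Finite G] (hG : 2 < Nat.card G) (χ : Cfsg.IrrCharacter G)
    (hχ : Nat.card {C : ConjClasses G // ∃ g ∈ C.carrier, (χ : G → ℂ) g ≠ 0} = 2) (p : ℕ) [Fact p.Prime]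
    (N : Subgroup G) (hN : ∀ g : G, g ∈ N ↔ (χ : G → ℂ) g ≠ 0) (hNp : IsPGroup p N)
    {y : G} (hy : y ∈ N) (hy1 : y ≠ 1) :
    IsPGroup p (Subgroup.centralizer ({y} : Set G)) ∧ ¬ p ∣ (Subgroup.centralizer ({y} : Set G)).index ∧
      Nat.card N = (Subgroup.centralizer ({y} : Set G)).index + 1 := by
  classical
  haveI := Fintype.ofFinite G
  obtain ⟨N', x, hN'n, hx, hN', hsupp, -, -, hbal, -⟩ := Cfsg.Agent.S4835.gagola_data hG χ hχ
  have hNN : N' = N := by ext g; rw [← hsupp, hN]
  subst hNN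
  have hxy : IsConj x y := ((hN' y).mp hy).resolve_left hy1
  have hc := isCharacter_of_irr χ.2
  have hidx : (Subgroup.centralizer ({y} : Set G)).index = (Subgroup.centralizer ({x} : Set G)).index := by
    rw [← card_conjClass, ← card_conjClass]
    exact Nat.card_congr (Equiv.subtypeEquivRight fun g => ⟨fun h => hxy.trans h, fun h => hxy.symm.trans h⟩)
  rw [← hidx, apply_isConj hc hxy] at hbal
  set Cy := Subgroup.centralizer ({y} : Set G) with hCy
  set c := Cy.index with hcdef
  set n := Cfsg.charDegree (χ : G → ℂ) with hn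
  have hcpos : 0 < c := Nat.pos_of_ne_zero Subgroup.index_ne_zero_of_finite
  have hc0 : (c : ℂ) ≠ 0 := Nat.cast_ne_zero.mpr hcpos.ne'
  have hN'y : ∀ g, g ∈ N' ↔ g = 1 ∨ IsConj y g := fun g => (hN' g).trans
    (or_congr_right ⟨fun h => hxy.symm.trans h, fun h => hxy.trans h⟩)
  have hNcard : Nat.card N' = c + 1 := by
    have h2 := Cfsg.Agent.S4835.sum_supp hy1 (fun g => if g ∈ N' then (1 : ℂ) else 0)
      (fun g h1 h2 => by rw [if_neg (fun h => ((hN'y g).mp h).elim h1 h2)])
      (fun g h => by rw [if_pos hy, if_pos ((hN'y g).mpr (Or.inr h))])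
    rw [if_pos N'.one_mem, if_pos hy, mul_one, Finset.sum_boole] at h2
    rw [Nat.card_eq_fintype_card, Fintype.card_subtype]
    have h3 : ((Finset.univ.filter fun g => g ∈ N').card : ℂ) = ((c + 1 : ℕ) : ℂ) := by
      rw [h2, hcdef, hCy]; push_cast; ring
    exact_mod_cast h3
  have hχy : (χ : G → ℂ) y = -((n : ℂ) / c) := by
    rw [apply_one hc, ← hn] at hbal
    field_simp
    linear_combination hbal
  obtain ⟨a, ha⟩ : c ∣ n := nat_dvd_of_isIntegral n c hcpos.ne' (by
    have := (isIntegral_apply hc y).neg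
    rwa [hχy, neg_neg] at this)
  have hχy' : (χ : G → ℂ) y = -(a : ℂ) := by
    rw [hχy, ha]; push_cast; field_simp
  have hG : Nat.card G = c * (a ^ 2 * (c + 1)) := by
    have h := sum_mul_conj χ χ
    rw [if_pos rfl, Cfsg.Agent.S4835.sum_supp hy1 (fun g => (χ : G → ℂ) g * conj ((χ : G → ℂ) g))
      (fun g h1 h2 => by
        have : (χ : G → ℂ) g = 0 := by
          by_contra hne
          exact ((hN'y g).mp ((hN g).mpr hne)).elim h1 h2
        simp only [this, zero_mul])
      (fun g h => by simp only [apply_isConj hc h]), apply_one hc, hχy', ← hn, ha] at h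
    simp only [map_neg, Complex.conj_natCast] at h
    have h2 : ((Nat.card G : ℕ) : ℂ) = ((c * (a ^ 2 * (c + 1)) : ℕ) : ℂ) := by
      rw [← h]; push_cast [← hcdef, ← hCy]; ring
    exact_mod_cast h2
  have hCcard : Nat.card Cy = a ^ 2 * (c + 1) := by
    have h := Cy.index_mul_card
    rw [← hcdef, hG] at h
    exact Nat.eq_of_mul_eq_mul_left hcpos h
  have hapos : 0 < a := by
    rcases Nat.eq_zero_or_pos a with h | h
    · rw [h] at hG; simp at hG
    · exact h
  obtain ⟨e, he⟩ := IsPGroup.iff_card.mp hNp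
  have hp : p.Prime := Fact.out
  have hpc : ¬ p ∣ c := by
    intro hd
    have : p ∣ c + 1 := by
      rw [← hNcard, he]
      exact dvd_pow_self p (fun h0 => by rw [h0, pow_zero, hNcard] at he; omega)
    exact hp.not_dvd_one ((Nat.dvd_add_right hd).mp this)
  have hadiv : ∀ r, r.Prime → r ∣ a → r = p := by
    intro r hr hra
    by_contra hrp
    haveI : Fact r.Prime := ⟨hr⟩
    have hyC : y ∈ Cy := Subgroup.mem_centralizer_singleton_iff.mpr rfl
    obtain ⟨R⟩ : Nonempty (Sylow r Cy) := inferInstance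
    haveI := Fintype.ofFinite (R : Subgroup Cy)
    have hres := isCharacter_restrict hc Cy
    have hycent : (⟨y, hyC⟩ : Cy) ∈ Subgroup.center Cy := Subgroup.mem_center_iff.mpr fun g =>
      Subtype.ext (Subgroup.mem_centralizer_singleton_iff.mp g.2)
    have hint := isIntegral_avg_central hres hycent (R : Subgroup Cy)
    have hsum : ∑ k : (R : Subgroup Cy), (χ : G → ℂ) ((⟨y, hyC⟩ : Cy) * (k : Cy) : Cy) = (χ : G → ℂ) y := by
      rw [Finset.sum_eq_single (1 : (R : Subgroup Cy))]
      · simp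
      · intro k _ hk
        by_contra hne
        have hmem := (hN _).mpr hne
        rw [Subgroup.coe_mul] at hmem
        have hkN : ((k : Cy) : G) ∈ N' := (N'.mul_mem_cancel_left hy).mp hmem
        refine hk (Subtype.ext (Subtype.ext ?_))
        obtain ⟨i, hi⟩ := R.isPGroup' k
        obtain ⟨j, hj⟩ := hNp ⟨_, hkN⟩
        have h1 : ((k : Cy) : G) ^ (r ^ i) = 1 := congrArg (fun z : (R : Subgroup Cy) => ((z : Cy) : G)) hi
        have h2 : ((k : Cy) : G) ^ (p ^ j) = 1 := congrArg Subtype.val hj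
        have h3 := pow_gcd_eq_one.mpr ⟨h1, h2⟩
        rwa [(Nat.Coprime.pow i j ((Nat.coprime_primes hr hp).mpr hrp)).gcd_eq_one, pow_one] at h3
      · exact fun h => absurd (Finset.mem_univ _) h
    rw [hsum, hχy', mul_neg, ← div_eq_inv_mul] at hint
    have hdvd : Nat.card (R : Subgroup Cy) ∣ a :=
      nat_dvd_of_isIntegral a _ Nat.card_pos.ne' (by simpa using hint.neg)
    rw [R.card_eq_multiplicity, hCcard, Nat.factorization_mul (pow_ne_zero 2 hapos.ne') (Nat.succ_ne_zero c),
      Finsupp.add_apply, Nat.factorization_pow, Finsupp.smul_apply, smul_eq_mul] at hdvd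
    have hv : 0 < a.factorization r := hr.factorization_pos_of_dvd hapos.ne' hra
    have h1 := (hr.pow_dvd_iff_le_factorization hapos.ne').mp hdvd
    omega
  refine ⟨?_, hpc, hNcard⟩
  have hap : a = p ^ a.factorization p := by
    have := Nat.eq_prime_pow_of_unique_prime_dvd hapos.ne' (fun {r} hr hd => hadiv r hr hd)
    conv_rhs => rw [this, Nat.factorization_pow, Finsupp.smul_apply, hp.factorization_self, smul_eq_mul, mul_one]
    exact this
  refine IsPGroup.of_card (n := a.factorization p * 2 + e) ?_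
  rw [hCcard, ← hNcard, he, pow_add, pow_mul, ← hap]

/-- Let G be a finite group of order greater than 2 with an irreducible character χ nonzero on exactly two conjugacy classes, and let N be the set of elements where χ is nonzero, given as a nontrivial normal p-subgroup of G for the prime p. Then for every nonidentity x in N the centralizer C_G(x) is a Sylow p-subgroup of G, and for every irreducible character λ ≠ 1 of N the stabilizer of λ in G (its inertia group) is a Sylow p-subgroup of G. -/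
theorem result {G : Type*} [Group G] [Finite G] (hG : 2 < Nat.card G) (χ : Cfsg.IrrCharacter G) (hχ : Nat.card {C : ConjClasses G // ∃ g ∈ C.carrier, (χ : G → ℂ) g ≠ 0} = 2) (p : ℕ) [Fact p.Prime] (N : Subgroup G) [N.Normal] (hN : ∀ g : G, g ∈ N ↔ (χ : G → ℂ) g ≠ 0) (hNp : IsPGroup p N) (hN1 : N ≠ ⊥) :
    (∀ x ∈ N, x ≠ 1 → ∃ P : Sylow p G, Subgroup.centralizer ({x} : Set G) = P) ∧
      (∀ μ : Cfsg.IrrCharacter N, (μ : N → ℂ) ≠ (fun _ => (1 : ℂ)) → ∃ P : Sylow p G, ∀ g : G, g ∈ (P : Subgroup G) ↔ ∀ n n' : N, (n' : G) = g * n * g⁻¹ → (μ : N → ℂ) n' = (μ : N → ℂ) n) := by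
  classical
  haveI := Fintype.ofFinite G
  haveI := Fintype.ofFinite N
  have key := fun (y : G) (hy : y ∈ N) (hy1 : y ≠ 1) => centralizer_sylow hG χ hχ p N hN hNp hy hy1
  refine ⟨fun y hy hy1 => ⟨(key y hy hy1).1.toSylow (key y hy hy1).2.1, rfl⟩, ?_⟩
  intro μ hμ
  obtain ⟨N', x, -, hx, hN', hsupp, -, hfaith, -, -⟩ := Cfsg.Agent.S4835.gagola_data hG χ hχ
  have hNN : N' = N := by ext g; rw [← hsupp, hN]
  subst hNN
  obtain ⟨r, -, ⟨hcomm, -⟩⟩ := Cfsg.Agent.S4835.gagola_elementary N' x hx hN'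
    (Cfsg.Agent.S4835.gagola_minimal χ N' x hN' hsupp hfaith)
  haveI := hcomm
  have hxN : x ∈ N' := (hN' x).mpr (Or.inr (IsConj.refl x))
  obtain ⟨-, hpidx, hcard⟩ := key x hxN hx
  set c := (Subgroup.centralizer ({x} : Set G)).index with hcdef
  let S : Subgroup G :=
    { carrier := {g | ∀ n : N', (μ : N' → ℂ) (MulAut.conjNormal g n) = (μ : N' → ℂ) n}
      one_mem' := fun n => by rw [map_one, MulAut.one_apply]
      mul_mem' := fun {a b} ha hb n => by rw [map_mul, MulAut.mul_apply, ha, hb]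
      inv_mem' := fun {a} ha n => by
        rw [← ha (MulAut.conjNormal a⁻¹ n), ← MulAut.mul_apply, ← map_mul, mul_inv_cancel, map_one, MulAut.one_apply] }
  let Φ : N' → ℂ := fun n => ∑ g : G, (μ : N' → ℂ) (MulAut.conjNormal g n)
  have hμ1 : (μ : N' → ℂ) 1 = 1 := (irr_comm_hom μ.2).1
  let n0 : N' := ⟨x, hxN⟩
  have hΦ1 : Φ 1 = (Nat.card G : ℂ) := by
    simp only [Φ, map_one, hμ1, Finset.sum_const, Finset.card_univ, nsmul_eq_mul, mul_one, Nat.card_eq_fintype_card]
  have hΦx : ∀ n : N', n ≠ 1 → Φ n = Φ n0 := by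
    intro n hn
    obtain ⟨h, hh⟩ := isConj_iff.mp (((hN' n).mp n.2).resolve_left (fun e => hn (Subtype.ext e)))
    refine Fintype.sum_equiv (Equiv.mulRight h) _ _ fun g => ?_
    show _ = (μ : N' → ℂ) (MulAut.conjNormal (g * h) n0)
    refine congrArg (μ : N' → ℂ) (Subtype.ext ?_)
    rw [MulAut.conjNormal_apply, MulAut.conjNormal_apply, ← hh]
    show g * (h * x * h⁻¹) * g⁻¹ = g * h * x * (g * h)⁻¹
    group
  have hsumΦ : ∑ n : N', Φ n = 0 := by
    simp only [Φ]
    rw [Finset.sum_comm]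
    refine Finset.sum_eq_zero fun g _ => ?_
    rw [← sum_irr_eq_zero μ.2 hμ]
    exact Fintype.sum_equiv (MulAut.conjNormal g).toEquiv _ _ fun n => rfl
  have hNc : Fintype.card N' = c + 1 := by rw [← Nat.card_eq_fintype_card, hcard]
  have hΦeq : (Nat.card G : ℂ) + (c : ℂ) * Φ n0 = 0 := by
    rw [← hsumΦ, ← Finset.add_sum_erase _ _ (Finset.mem_univ (1 : N')), hΦ1,
      Finset.sum_congr rfl (fun n hn => hΦx n (Finset.mem_erase.mp hn).1), Finset.sum_const,
      Finset.card_erase_of_mem (Finset.mem_univ _), Finset.card_univ, hNc, Nat.add_sub_cancel, nsmul_eq_mul]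
  have horth : ∀ g : G, ∑ n : N', (μ : N' → ℂ) (MulAut.conjNormal g n) * conj ((μ : N' → ℂ) n) =
      if g ∈ S then (Nat.card N' : ℂ) else 0 := by
    intro g
    let μg : Cfsg.IrrCharacter N' := ⟨_, irr_comp_of_surjective μ.2 (MulAut.conjNormal g : MulAut N').toMonoidHom (MulAut.conjNormal g : MulAut N').surjective⟩
    rw [show ∑ n : N', (μ : N' → ℂ) (MulAut.conjNormal g n) * conj ((μ : N' → ℂ) n) =
      ∑ n : N', (μg : N' → ℂ) n * conj ((μ : N' → ℂ) n) from rfl, sum_mul_conj μg μ]
    refine if_congr ?_ rfl rfl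
    exact ⟨fun h n => congrFun (congrArg Subtype.val h) n, fun h => Subtype.ext (funext h)⟩
  have hsum : ∑ n : N', Φ n * conj ((μ : N' → ℂ) n) = (Nat.card S : ℂ) * (Nat.card N' : ℂ) := by
    simp only [Φ, Finset.sum_mul]
    rw [Finset.sum_comm, Finset.sum_congr rfl (fun g _ => horth g), ← Finset.sum_filter, Finset.sum_const,
      nsmul_eq_mul, Nat.card_eq_fintype_card (α := S), Fintype.card_subtype]
  have hμsum : ∑ n ∈ (Finset.univ : Finset N').erase 1, conj ((μ : N' → ℂ) n) = -1 := by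
    have h := congrArg (fun z => conj z) (sum_irr_eq_zero μ.2 hμ)
    simp only [map_sum, map_zero] at h
    rw [← Finset.add_sum_erase _ _ (Finset.mem_univ (1 : N')), hμ1, map_one] at h
    linear_combination h
  rw [← Finset.add_sum_erase _ _ (Finset.mem_univ (1 : N')), hΦ1, hμ1, map_one, mul_one,
    Finset.sum_congr rfl (fun n hn => by rw [hΦx n (Finset.mem_erase.mp hn).1]), ← Finset.mul_sum, hμsum] at hsum
  have hSc : Nat.card S * c = Nat.card G := by
    have h1 : ((Nat.card S * c : ℕ) : ℂ) * ((c + 1 : ℕ) : ℂ) = (Nat.card G : ℂ) * ((c + 1 : ℕ) : ℂ) := by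
      rw [hcard] at hsum
      push_cast at hsum ⊢
      linear_combination (-(c : ℂ)) * hsum - hΦeq
    exact_mod_cast mul_right_cancel₀ (Nat.cast_ne_zero.mpr (Nat.succ_ne_zero c)) h1
  have hSidx : S.index = c := by
    refine Nat.eq_of_mul_eq_mul_right (Nat.card_pos : 0 < Nat.card S) ?_
    rw [Subgroup.index_mul_card, mul_comm c, hSc]
  have hSp : IsPGroup p S := by
    obtain ⟨e, he⟩ := IsPGroup.iff_card.mp (key x hxN hx).1
    refine IsPGroup.of_card (n := e) ?_
    rw [← he]
    refine Nat.eq_of_mul_eq_mul_right (Nat.pos_of_ne_zero Subgroup.index_ne_zero_of_finite : 0 < c) ?_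
    rw [hSc, mul_comm, hcdef, Subgroup.index_mul_card]
  refine ⟨hSp.toSylow (hSidx ▸ hpidx), fun g => ?_⟩
  show g ∈ S ↔ _
  constructor
  · intro h n n' hn
    rw [show n' = MulAut.conjNormal g n from Subtype.ext (by rw [MulAut.conjNormal_apply]; exact hn)]
    exact h n
  · intro h n
    exact h n _ (MulAut.conjNormal_apply g n)

end Cfsg.Agent.S4837
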