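import Cfsg.Statements.S4838
import Cfsg.Agent.S4837
import Mathlib.GroupTheory.Nilpotent

set_option autoImplicit false
open Cfsg

namespace Cfsg.Agent.S4838

open CfsgLib.CharBasics
open scoped ComplexConjugate commutatorElement

/-- Let G be a finite group of order greater than 2 with an irreducible character χ nonzero on exactly two conjugacy classes, N the normal p-subgroup of elements where χ is nonzero, and P a Sylow p-subgroup of G. Then (a) for every x outside N the centralizer of x in G has the same order as the centralizer of xN in G/N; (b) the centre of P lies in N, and equals N exactly when P is normal in G; (c) N, viewed inside P, is a term of the upper central series of P. -/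
theorem result {G : Type*} [Group G] [Finite G] (hG : 2 < Nat.card G) (χ : Cfsg.IrrCharacter G) (hχ : Nat.card {C : ConjClasses G // ∃ g ∈ C.carrier, (χ : G → ℂ) g ≠ 0} = 2) (p : ℕ) [Fact p.Prime] (N : Subgroup G) [N.Normal] (hN : ∀ g : G, g ∈ N ↔ (χ : G → ℂ) g ≠ 0) (hNp : IsPGroup p N) (hN1 : N ≠ ⊥) (P : Sylow p G) :
    (∀ x : G, x ∉ N → Nat.card (Subgroup.centralizer ({x} : Set G)) = Nat.card (Subgroup.centralizer ({(x : G ⧸ N)} : Set (G ⧸ N)))) ∧
      ((Subgroup.center ↥(P : Subgroup G)).map (P : Subgroup G).subtype ≤ N ∧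
        ((Subgroup.center ↥(P : Subgroup G)).map (P : Subgroup G).subtype = N ↔ (P : Subgroup G).Normal)) ∧
      (∃ i : ℕ, Subgroup.upperCentralSeries ↥(P : Subgroup G) i = N.subgroupOf (P : Subgroup G)) := by
  classical
  haveI := Fintype.ofFinite G
  haveI := Fintype.ofFinite (G ⧸ N)
  haveI := Fintype.ofFinite (Cfsg.IrrCharacter G)
  haveI := Fintype.ofFinite (Cfsg.IrrCharacter (G ⧸ N))
  obtain ⟨N', x, -, hx, hN', hsupp, hker, hfaith, -, -⟩ := Cfsg.Agent.S4835.gagola_data hG χ hχ
  have hNN : N' = N := by ext g; rw [← hsupp, hN]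
  subst hNN
  have hmin := Cfsg.Agent.S4835.gagola_minimal χ N' x hN' hsupp hfaith
  have hp : p.Prime := Fact.out
  have hxN : x ∈ N' := (hN' x).mpr (Or.inr (IsConj.refl x))
  have hpart : ∀ z : G, z ∉ N' → Nat.card (Subgroup.centralizer ({z} : Set G)) =
      Nat.card (Subgroup.centralizer ({(z : G ⧸ N')} : Set (G ⧸ N'))) := by
    intro z hz
    have hz0 : (χ : G → ℂ) z = 0 := by
      by_contra h
      exact hz ((hN z).mpr h)
    have h1 := sum_normSq_col (G := G) z
    rw [← Finset.add_sum_erase _ _ (Finset.mem_univ χ), hz0, norm_zero, zero_pow two_ne_zero, zero_add] at h1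
    have h2 : ((Nat.card (Subgroup.centralizer ({z} : Set G)) : ℕ) : ℝ) =
        (Nat.card (Subgroup.centralizer ({(z : G ⧸ N')} : Set (G ⧸ N'))) : ℝ) := by
      rw [← h1, ← sum_normSq_col (G := G ⧸ N') (z : G ⧸ N')]
      symm
      refine Finset.sum_bij (fun ψ _ => (⟨_, irr_comp_of_surjective ψ.2 (QuotientGroup.mk' N') (QuotientGroup.mk'_surjective N')⟩ : Cfsg.IrrCharacter G))
        (fun ψ _ => Finset.mem_erase.mpr ⟨fun he => ?_, Finset.mem_univ _⟩) (fun a _ b _ hab => ?_) (fun ψ hψ => ?_) (fun ψ _ => rfl)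
      · refine hx (hfaith x ?_)
        rw [← congrFun (congrArg Subtype.val he) x, ← congrFun (congrArg Subtype.val he) 1]
        show (ψ : G ⧸ N' → ℂ) (QuotientGroup.mk' N' x) = (ψ : G ⧸ N' → ℂ) (QuotientGroup.mk' N' 1)
        rw [(QuotientGroup.eq_one_iff x).mpr hxN |> fun h => (show QuotientGroup.mk' N' x = 1 from h), map_one]
      · refine Subtype.ext (funext fun q => ?_)
        induction q using QuotientGroup.induction_on with
        | H g => exact congrFun (congrArg Subtype.val hab) g
      · obtain ⟨φ, hφ⟩ := exists_quotient_irr ψ N' (hker ψ (Finset.mem_erase.mp hψ).1)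
        exact ⟨φ, Finset.mem_univ _, Subtype.ext (funext hφ)⟩
    exact_mod_cast h2
  have hNP : N' ≤ (P : Subgroup G) := sup_eq_left.mp (P.is_maximal' (P.isPGroup'.to_sup_of_normal_right hNp) le_sup_left)
  have hxP : x ∈ (P : Subgroup G) := hNP hxN
  obtain ⟨eP, heP⟩ := IsPGroup.iff_card.mp P.isPGroup'
  obtain ⟨eN, heN⟩ := IsPGroup.iff_card.mp hNp
  have heN0 : eN ≠ 0 := fun h0 => hN1 ((Subgroup.card_eq_one).mp (by rw [heN, h0, pow_zero]))
  have hnofull : ∀ z : G, z ∉ N' → ∀ H : Subgroup G, H ≤ (P : Subgroup G) → H ≤ Subgroup.centralizer ({z} : Set G) →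
      Nat.card H * Nat.card N' ≤ Nat.card (P : Subgroup G) := by
    intro z hz H hHP hH
    have hd : Nat.card H ∣ Nat.card (G ⧸ N') :=
      (Subgroup.card_dvd_of_le hH).trans (hpart z hz ▸ Subgroup.card_subgroup_dvd_card _)
    obtain ⟨eH, heH⟩ := IsPGroup.iff_card.mp (P.isPGroup'.to_le hHP)
    have h2 : p ^ (eH + eN) ∣ Nat.card G := by
      rw [pow_add, ← heH, ← heN, Subgroup.card_eq_card_quotient_mul_card_subgroup N']
      exact mul_dvd_mul_right hd _
    have h3 := (hp.pow_dvd_iff_le_factorization Nat.card_pos.ne').mp h2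
    rw [P.card_eq_multiplicity, heH, heN, ← pow_add]
    exact Nat.pow_le_pow_right hp.pos h3
  have hNcard : 1 < Nat.card N' := heN ▸ Nat.one_lt_pow heN0 hp.one_lt
  have hZle : (Subgroup.center ↥(P : Subgroup G)).map (P : Subgroup G).subtype ≤ N' := by
    rintro _ ⟨z, hz, rfl⟩
    by_contra hzN
    have h := hnofull _ hzN (P : Subgroup G) le_rfl (fun y hy => Subgroup.mem_centralizer_singleton_iff.mpr
      (congrArg Subtype.val (Subgroup.mem_center_iff.mp hz ⟨y, hy⟩)))
    have hpos : 0 < Nat.card (P : Subgroup G) := Nat.card_pos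
    nlinarith
  refine ⟨hpart, ⟨hZle, ⟨fun heq => ?_, fun hnormal => le_antisymm hZle ?_⟩⟩, ?_⟩
  · have hCP : ∀ y ∈ N', y ≠ 1 → Subgroup.centralizer ({y} : Set G) = (P : Subgroup G) := by
      intro y hy hy1
      obtain ⟨hCp, -, -⟩ := Cfsg.Agent.S4837.centralizer_sylow hG χ hχ p N' hN hNp hy hy1
      refine P.is_maximal' hCp ?_
      intro g hg
      rw [← heq] at hy
      obtain ⟨z, hz, rfl⟩ := hy
      exact Subgroup.mem_centralizer_singleton_iff.mpr (congrArg Subtype.val (Subgroup.mem_center_iff.mp hz ⟨g, hg⟩))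
    refine ⟨fun a ha g => ?_⟩
    have hgx : g * x * g⁻¹ ∈ N' := Subgroup.Normal.conj_mem inferInstance x hxN g
    have hgx1 : g * x * g⁻¹ ≠ 1 := fun h => hx (conj_eq_one_iff.mp h)
    rw [← hCP x hxN hx, Subgroup.mem_centralizer_singleton_iff] at ha
    rw [← hCP _ hgx hgx1, Subgroup.mem_centralizer_singleton_iff]
    calc g * a * g⁻¹ * (g * x * g⁻¹) = g * (a * x) * g⁻¹ := by group
      _ = g * (x * a) * g⁻¹ := by rw [ha]
      _ = _ := by group
  · haveI := hnormal
    haveI : Nontrivial (P : Subgroup G) := ⟨⟨⟨x, hxP⟩, 1, fun h => hx (congrArg Subtype.val h)⟩⟩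
    refine hmin _ inferInstance ?_
    rw [Ne, Subgroup.map_eq_bot_iff_of_injective _ (P : Subgroup G).subtype_injective]
    exact (Subgroup.nontrivial_iff_ne_bot _).mp P.isPGroup'.center_nontrivial
  · haveI : Group.IsNilpotent (P : Subgroup G) := P.isPGroup'.isNilpotent
    obtain ⟨k, hk⟩ := Group.IsNilpotent.nilpotent (P : Subgroup G)
    set M := N'.subgroupOf (P : Subgroup G) with hM
    let U := fun i => Subgroup.upperCentralSeries (P : Subgroup G) i
    have hstep : ∀ i, U i ≤ M → U i ≠ M → U (i + 1) ≤ M := by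
      intro i hi hne z hz
      by_contra hzM
      have hzN : (z : G) ∉ N' := hzM
      set H := (Subgroup.centralizer ({z} : Set (P : Subgroup G))).map (P : Subgroup G).subtype with hH
      have h := hnofull _ hzN H (Subgroup.map_subtype_le _) (by
        rintro _ ⟨y, hy, rfl⟩
        exact Subgroup.mem_centralizer_singleton_iff.mpr (congrArg Subtype.val (Subgroup.mem_centralizer_singleton_iff.mp hy)))
      rw [hH, Subgroup.card_map_of_injective (P : Subgroup G).subtype_injective,
        ← (Subgroup.centralizer ({z} : Set (P : Subgroup G))).index_mul_card, mul_comm] at h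
      have h1 := Nat.le_of_mul_le_mul_right h Nat.card_pos
      rw [← card_conjClass] at h1
      have h2 : Nat.card {y : (P : Subgroup G) // IsConj z y} ≤ Nat.card (U i) := by
        refine Nat.card_le_card_of_injective (fun y => ⟨z⁻¹ * y.1, ?_⟩) (fun a b hab => Subtype.ext (mul_left_cancel (congrArg Subtype.val hab)))
        obtain ⟨w, hw⟩ := isConj_iff.mp y.2
        have h3 := Subgroup.mem_upperCentralSeries_succ_iff.mp ((Subgroup.upperCentralSeries (P : Subgroup G) (i + 1)).inv_mem hz) w
        rw [commutatorElement_def, inv_inv] at h3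
        rw [← hw]
        simpa [U, mul_assoc] using h3
      have h4 : Nat.card (U i) < Nat.card M := by
        have := Subgroup.card_dvd_of_le hi
        rcases lt_or_eq_of_le (Nat.le_of_dvd Nat.card_pos this) with h | h
        · exact h
        · exact absurd (Subgroup.eq_of_le_of_card_ge hi h.ge) hne
      have h5 : Nat.card M = Nat.card N' := Nat.card_congr (Subgroup.subgroupOfEquivOfLe hNP).toEquiv
      omega
    by_contra hno
    push Not at hno
    have hall : ∀ i, U i ≤ M := fun i => by
      induction i with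
      | zero => exact bot_le
      | succ i ih => exact hstep i ih (hno i)
    exact hno k (le_antisymm (hall k) (by show M ≤ Subgroup.upperCentralSeries (P : Subgroup G) k; rw [hk]; exact le_top))

end Cfsg.Agent.S4838
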