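import Cfsg.Statements.S4839
import Cfsg.Agent.S4838
import Cfsg.Agent.Gagola.PCore

set_option autoImplicit false
open Cfsg

namespace Cfsg.Agent.S4839

open scoped Pointwise

/-- Let G be a finite group of order greater than 2 with an irreducible character χ nonzero on exactly two conjugacy classes, and let N be the normal p-subgroup of elements where χ is nonzero. Then N is the whole p-core O_p(G) if and only if G is a doubly transitive Frobenius group with kernel N: G has a Frobenius complement H whose Frobenius kernel is N and whose order is one less than that of N. -/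
theorem result {G : Type*} [Group G] [Finite G] (hG : 2 < Nat.card G) (χ : Cfsg.IrrCharacter G) (hχ : Nat.card {C : ConjClasses G // ∃ g ∈ C.carrier, (χ : G → ℂ) g ≠ 0} = 2) (p : ℕ) [Fact p.Prime] (N : Subgroup G) [N.Normal] (hN : ∀ g : G, g ∈ N ↔ (χ : G → ℂ) g ≠ 0) (hNp : IsPGroup p N) (hN1 : N ≠ ⊥) :
    N = Cfsg.pCore p G ↔ ∃ H : Subgroup G, Cfsg.IsFrobeniusComplement H ∧ Cfsg.frobeniusKernel H = (N : Set G) ∧ Nat.card H + 1 = Nat.card N := by
  classical
  haveI := Fintype.ofFinite G
  have hp : p.Prime := Fact.out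
  obtain ⟨N', x₀, -, hx0, hN', hsupp, -, hfaith, -, -⟩ := Cfsg.Agent.S4835.gagola_data hG χ hχ
  have hNN : N' = N := by ext g; rw [← hsupp, hN]
  subst hNN
  obtain ⟨q, hq, hqe⟩ := Cfsg.Agent.S4835.gagola_elementary N' x₀ hx0 hN'
    (fun K hK hK1 => Cfsg.Agent.S4835.gagola_minimal χ N' x₀ hN' hsupp hfaith K hK hK1)
  have hx0N : x₀ ∈ N' := (hN' x₀).mpr (Or.inr (IsConj.refl x₀))
  obtain ⟨hC0p, -, hC0i⟩ := Cfsg.Agent.S4837.centralizer_sylow hG χ hχ p N' hN hNp hx0N hx0
  have hpow : ∀ n ∈ N', n ^ q = 1 := hqe.2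
  have hqp : q = p := by
    haveI : Fact q.Prime := ⟨hq⟩
    have h1 : orderOf x₀ = q := orderOf_eq_prime (hpow x₀ hx0N) hx0
    obtain ⟨k, hk⟩ := IsPGroup.iff_orderOf.1 hNp ⟨x₀, hx0N⟩
    rw [Subgroup.orderOf_mk, h1] at hk
    have hd : q ∣ p := hq.dvd_of_dvd_pow (n := k) (dvd_of_eq hk)
    exact (Nat.prime_dvd_prime_iff_eq hq hp).1 hd
  subst hqp
  have hNc : ∀ a ∈ N', ∀ b ∈ N', a * b = b * a := fun a ha b hb =>
    congrArg Subtype.val (hqe.1.is_comm.comm (⟨a, ha⟩ : N') ⟨b, hb⟩)
  obtain ⟨P⟩ : Nonempty (Sylow q G) := inferInstance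
  have hcard := (Cfsg.Agent.S4838.result hG χ hχ q N' hN hNp hN1 P).1
  have hcam : ∀ g : G, g ∉ N' → ∀ n ∈ N', ∃ t : G, t * g * t⁻¹ = g * n :=
    fun g hg n hn => CfsgLib.Gagola.camina N' (hcard g hg) hn
  have hNfin : 2 ≤ Nat.card N' := Finite.one_lt_card_iff_nontrivial.2 ((Subgroup.nontrivial_iff_ne_bot _).2 hN1)
  constructor
  · intro hcoreN
    have hcen : Subgroup.centralizer (N' : Set G) ≤ N' := by
      refine le_of_le_of_eq ?_ hcoreN.symm
      exact le_sSup ⟨Subgroup.normal_centralizer, hC0p.to_le (Subgroup.centralizer_le (Set.singleton_subset_iff.2 hx0N))⟩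
    have hcore : Cfsg.pCore q (G ⧸ N') = ⊥ := by
      set K := (Cfsg.pCore q (G ⧸ N')).comap (QuotientGroup.mk' N')
      have hK : IsPGroup q K := (CfsgLib.Subnormal.isPGroup_pCore q).comap_of_ker_isPGroup _
        (by rw [QuotientGroup.ker_mk']; exact hNp)
      haveI : (Cfsg.pCore q (G ⧸ N')).Normal := CfsgLib.Subnormal.normal_pCore q
      have hKN : K ≤ N' := hcoreN.symm ▸ le_sSup ⟨inferInstance, hK⟩
      rw [eq_bot_iff]
      intro a ha
      obtain ⟨g, rfl⟩ := QuotientGroup.mk'_surjective N' a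
      exact Subgroup.mem_bot.2 ((QuotientGroup.eq_one_iff g).2 (hKN ha))
    have hndvd : ¬ q ∣ N'.index := by
      by_cases h2 : q = 2
      · subst h2
        exact CfsgLib.Gagola.not_dvd_index_two N'
          (fun n hn => by rw [← pow_two]; exact hpow n hn) hcen hcam hcore
      · refine CfsgLib.Gagola.not_dvd_index_odd N' h2 hNp hNc hN1 hcen hcam ?_
        obtain ⟨k, hk⟩ := IsPGroup.iff_card.1 hNp
        obtain ⟨j, hj⟩ : Odd (Nat.card N') := hk ▸ (hp.odd_of_ne_two h2).pow
        refine dvd_trans ⟨j, ?_⟩ (Subgroup.index_dvd_card (Subgroup.centralizer ({x₀} : Set G)))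
        omega
    obtain ⟨k, hk⟩ := IsPGroup.iff_card.1 hNp
    have hcop : (Nat.card N').Coprime N'.index := hk ▸ Nat.Coprime.pow_left _ (hp.coprime_iff_not_dvd.2 hndvd)
    obtain ⟨H, hH⟩ := Subgroup.exists_right_complement'_of_coprime hcop
    have hHcard : Nat.card H = N'.index := by rw [← hH.symm.index_eq_card]
    have hHN : ∀ a ∈ H, a ∈ N' → a = 1 := fun a ha ha' => by
      have h1 : a ∈ (⊥ : Subgroup G) := hH.disjoint.le_bot ⟨ha', ha⟩
      rwa [Subgroup.mem_bot] at h1
    -- |H| + 1 = |N|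
    have hC0 : Subgroup.centralizer ({x₀} : Set G) = N' := by
      refine (Subgroup.eq_of_le_of_card_ge (fun a ha => Subgroup.mem_centralizer_singleton_iff.2 (hNc a ha x₀ hx0N)) ?_).symm
      have hd : Nat.card (Subgroup.centralizer ({x₀} : Set G)) ∣ Nat.card N' * N'.index := by
        rw [N'.card_mul_index]; exact Subgroup.card_subgroup_dvd_card _
      obtain ⟨j, hj⟩ := IsPGroup.iff_card.1 hC0p
      refine Nat.le_of_dvd Nat.card_pos ?_
      rw [hj] at hd ⊢
      exact (Nat.Coprime.pow_left _ (hp.coprime_iff_not_dvd.2 hndvd)).dvd_of_dvd_mul_right hd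
    rw [hC0] at hC0i
    have hfree : ∀ a ∈ H, a ≠ 1 → ∀ n ∈ N', a * n = n * a → n = 1 := by
      intro a ha ha1 n hn hc
      refine CfsgLib.Gagola.free_of_coprime N' hNp hcam (fun hd => hndvd ?_) ha1 hn hc
      exact hHcard ▸ hd.trans (by rw [← Subgroup.orderOf_mk a ha]; exact orderOf_dvd_natCard _)
    refine ⟨H, ⟨?_, ?_, ?_⟩, ?_, ?_⟩
    · intro hb
      rw [hb, Subgroup.card_bot] at hHcard
      have := N'.card_mul_index
      rw [← hHcard] at this hC0i
      omega
    · intro ht
      exact hN1 ((Subgroup.eq_bot_iff_forall _).2 fun a ha => hHN a (ht ▸ Subgroup.mem_top a) ha)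
    · intro g hg
      rw [eq_bot_iff]
      rintro a ⟨ha, ha'⟩
      rw [Subgroup.mem_bot]
      replace ha' : (MulAut.conj g)⁻¹ • a ∈ H := Subgroup.mem_pointwise_smul_iff_inv_smul_mem.1 ha'
      by_contra ha1
      have hgN : g ∈ ((N' : Set G) * (H : Set G)) := by rw [hH.mul_eq]; trivial
      obtain ⟨n, hn, h, hh, rfl⟩ := hgN
      have ha'' : (n * h)⁻¹ * a * (n * h) ∈ H := by simpa [mul_assoc] using ha'
      have hb : n⁻¹ * a * n ∈ H := by
        have := H.mul_mem (H.mul_mem hh ha'') (H.inv_mem hh)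
        rwa [show h * ((n * h)⁻¹ * a * (n * h)) * h⁻¹ = n⁻¹ * a * n by group] at this
      have hbn : a⁻¹ * (n⁻¹ * a * n) ∈ N' := by
        rw [show a⁻¹ * (n⁻¹ * a * n) = a⁻¹ * n⁻¹ * a⁻¹⁻¹ * n by group]
        exact mul_mem (Subgroup.Normal.conj_mem inferInstance _ (inv_mem hn) _) hn
      have heq : a⁻¹ * (n⁻¹ * a * n) = 1 := hHN _ (H.mul_mem (H.inv_mem ha) hb) hbn
      have hc : a * n = n * a := by
        calc a * n = n * (a * (a⁻¹ * (n⁻¹ * a * n))) := by group
          _ = n * a := by rw [heq, mul_one]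
      have hn1 : n = 1 := hfree a ha ha1 n hn hc
      exact hg (by rw [hn1]; simpa using hh)
    · ext g
      constructor
      · rintro (rfl | hg)
        · exact one_mem _
        · by_contra hgN
          have hgt : g ∈ ((N' : Set G) * (H : Set G)) := by rw [hH.mul_eq]; trivial
          obtain ⟨n, hn, h, hh, rfl⟩ := hgt
          obtain ⟨t, ht⟩ := hcam h (fun hhN => hgN (mul_mem hn hhN)) (h⁻¹ * n * h)
            (by simpa using Subgroup.Normal.conj_mem inferInstance n hn h⁻¹)
          refine hg t ?_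
          rw [Subgroup.mem_pointwise_smul_iff_inv_smul_mem]
          have : t⁻¹ * (n * h) * t = h := by
            rw [show n * h = h * (h⁻¹ * n * h) by group, ← ht]; group
          have h2 : t⁻¹ * (n * h) * t ∈ H := this.symm ▸ hh
          simpa [mul_assoc] using h2
      · intro hgN
        by_cases hg1 : g = 1
        · exact Or.inl hg1
        · refine Or.inr fun a ha => hg1 ?_
          rw [Subgroup.mem_pointwise_smul_iff_inv_smul_mem] at ha
          have ha' : a⁻¹ * g * a ∈ H := by simpa [mul_assoc] using ha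
          have := hHN _ ha' (by simpa using Subgroup.Normal.conj_mem inferInstance g hgN a⁻¹)
          calc g = a * (a⁻¹ * g * a) * a⁻¹ := by group
            _ = 1 := by rw [this]; group
    · rw [hHcard]; omega
  · rintro ⟨H, hH, hker, hHc⟩
    haveI := CfsgLib.Subnormal.normal_pCore (G := G) q
    refine le_antisymm (le_sSup (s := {K : Subgroup G | K.Normal ∧ IsPGroup q K}) ⟨inferInstance, hNp⟩) ?_
    have hdisj : ∀ a ∈ H, a ∈ N' → a = 1 := by
      intro a ha haN
      have : a ∈ Cfsg.frobeniusKernel H := by rw [hker]; exact haN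
      rcases this with h | h
      · exact h
      · exact absurd (by simpa using ha) (h 1)
    -- |G| = |N| |H|
    have hge : Nat.card N' * Nat.card H ≤ Nat.card G := by
      let F : N' × H → G := fun ab => (ab.1 : G) * ab.2
      have hF : Function.Injective F := by
        rintro ⟨a, b⟩ ⟨a', b'⟩ h
        have h1 : (a : G) * b = (a' : G) * b' := h
        have h2 : (a' : G)⁻¹ * a = (b' : G) * (b : G)⁻¹ := by
          calc (a' : G)⁻¹ * a = (a' : G)⁻¹ * ((a : G) * b) * (b : G)⁻¹ := by group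
            _ = _ := by rw [h1]; group
        have h3 : (a' : G)⁻¹ * a = 1 := hdisj _ (h2 ▸ mul_mem b'.2 (inv_mem b.2)) (mul_mem (inv_mem a'.2) a.2)
        rw [h3] at h2
        exact Prod.ext (Subtype.ext (inv_mul_eq_one.1 h3).symm) (Subtype.ext (mul_inv_eq_one.1 h2.symm).symm)
      have := Nat.card_le_card_of_injective F hF
      rwa [Nat.card_prod] at this
    have hle : Nat.card G ≤ Nat.card N' + H.index * (Nat.card H - 1) := by
      let Φ : N' ⊕ ((G ⧸ H) × {a : H // a ≠ 1}) → G :=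
        Sum.elim (fun n => (n : G)) (fun qa => qa.1.out * ((qa.2.1 : H) : G) * qa.1.out⁻¹)
      have hΦ : Function.Surjective Φ := by
        intro g
        by_cases hgN : g ∈ N'
        · exact ⟨Sum.inl ⟨g, hgN⟩, rfl⟩
        · have hnk : g ∉ Cfsg.frobeniusKernel H := by rw [hker]; exact hgN
          simp only [Cfsg.frobeniusKernel, Set.mem_ofPred_eq, not_or, not_forall, not_not] at hnk
          obtain ⟨hg1, a, ha⟩ := hnk
          rw [Subgroup.mem_pointwise_smul_iff_inv_smul_mem] at ha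
          have ha' : a⁻¹ * g * a ∈ H := by simpa [mul_assoc] using ha
          obtain ⟨⟨b, hb⟩, hab⟩ : ∃ b : H, ((a : G ⧸ H)).out = a * (b : G) := by
            obtain ⟨b, hb⟩ := QuotientGroup.mk_out_eq_mul H a
            exact ⟨b, hb⟩
          refine ⟨Sum.inr ((a : G ⧸ H), ⟨⟨b⁻¹ * (a⁻¹ * g * a) * b, mul_mem (mul_mem (inv_mem hb) ha') hb⟩, ?_⟩), ?_⟩
          · intro h
            refine hg1 ?_
            have h' : b⁻¹ * (a⁻¹ * g * a) * b = 1 := congrArg Subtype.val h
            calc g = (a * b) * (b⁻¹ * (a⁻¹ * g * a) * b) * (a * b)⁻¹ := by group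
              _ = 1 := by rw [h']; group
          · simp only [Φ, Sum.elim_inr, hab]; group
      have := Nat.card_le_card_of_surjective Φ hΦ
      have h2 : Nat.card {a : H // a ≠ 1} = Nat.card H - 1 := by
        haveI := Fintype.ofFinite H
        rw [Nat.card_eq_fintype_card, Nat.card_eq_fintype_card, Fintype.card_subtype_compl, Fintype.card_subtype_eq]
      rwa [Nat.card_sum, Nat.card_prod, h2, ← Subgroup.index_eq_card] at this
    have hGH := H.card_mul_index
    obtain ⟨k, hk⟩ := IsPGroup.iff_card.1 hNp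
    have hH2 : 1 ≤ Nat.card H := Nat.card_pos
    have hidx : H.index = Nat.card N' := by
      obtain ⟨c, hc⟩ : ∃ c, Nat.card H = c + 1 := ⟨Nat.card H - 1, by omega⟩
      rw [hc] at hge hle hGH
      simp only [Nat.add_sub_cancel] at hle
      apply le_antisymm <;> nlinarith
    have hcopH : q.Coprime (Nat.card H) := by
      rw [hp.coprime_iff_not_dvd]
      intro hd
      have hk0 : k ≠ 0 := fun h0 => by rw [h0, pow_zero] at hk; omega
      have h1 : q ∣ Nat.card H + 1 := hHc ▸ hk ▸ dvd_pow_self q hk0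
      exact hp.one_lt.ne' (Nat.dvd_one.1 ((Nat.dvd_add_right hd).1 h1))
    obtain ⟨j, hj⟩ := IsPGroup.iff_card.1 (CfsgLib.Subnormal.isPGroup_pCore (G := G) q)
    have hle' : N' ≤ Cfsg.pCore q G := le_sSup ⟨inferInstance, hNp⟩
    refine (Subgroup.eq_of_le_of_card_ge hle' ?_).ge
    refine Nat.le_of_dvd Nat.card_pos ?_
    have hd := Subgroup.card_subgroup_dvd_card (Cfsg.pCore q G)
    rw [← hGH, hidx, hj] at hd
    rw [hj]
    exact (Nat.Coprime.pow_left _ hcopH).dvd_of_dvd_mul_left hd

end Cfsg.Agent.S4839
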