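import Cfsg.Statements.S4843
import Cfsg.Agent.CharBasics.Knorr
import Cfsg.Agent.CharBasics.Extra
import Cfsg.Agent.BrauerInd.Galois
import Cfsg.Agent.Components.Cores

set_option autoImplicit false
open Cfsg CfsgLib.CharBasics
open scoped ComplexConjugate commutatorElement

namespace Cfsg.Agent.S4843

open Representation

/-- The trace splits along invariant complements. -/
theorem trace_split {M : Type*} [AddCommGroup M] [Module ℂ M] [FiniteDimensional ℂ M] (p q : Submodule ℂ M)
    (hc : IsCompl p q) (f : M →ₗ[ℂ] M) (f₁ : p →ₗ[ℂ] p) (f₂ : q →ₗ[ℂ] q)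
    (h₁ : ∀ x, (f₁ x : M) = f x) (h₂ : ∀ x, (f₂ x : M) = f x) :
    LinearMap.trace ℂ M f = LinearMap.trace ℂ p f₁ + LinearMap.trace ℂ q f₂ := by
  have : (Submodule.prodEquivOfIsCompl p q hc).conj (f₁.prodMap f₂) = f := by
    refine LinearMap.ext fun v => ?_
    obtain ⟨⟨x, y⟩, rfl⟩ := (Submodule.prodEquivOfIsCompl p q hc).surjective v
    simp [LinearEquiv.conj_apply, h₁, h₂]
  rw [← this, LinearMap.trace_conj', LinearMap.trace_prodMap']

/-- An equivariant independent family of operators, stable under the power map, contradicts irreducibility of the product. -/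
theorem no_stable_family {G : Type*} [Group G] [Finite G] {n : ℕ} (ρ : Representation ℂ G (Fin n → ℂ))
    (hρ : IsIrrCharacter G ρ.character) (k : ℕ) (hk : k.Coprime (Nat.card G))
    (hirr : IsIrrCharacter G (fun g => ρ.character g * ρ.character (g ^ k)))
    {ι : Type*} [Fintype ι] [DecidableEq ι] (hι : 2 ≤ Fintype.card ι) (b : ι → Module.End ℂ (Fin n → ℂ))
    (hb : LinearIndependent ℂ b) (π : G → ι → ι) (c : G → ι → ℂ)
    (hact : ∀ g i, ρ g * b i * ρ g⁻¹ = c g i • b (π g i))
    (hW : ∀ g, (∑ i, if π (g ^ k) i = i then c (g ^ k) i else 0) = ∑ i, if π g i = i then c g i else 0) :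
    False := by
  classical
  haveI : Fintype G := Fintype.ofFinite G
  haveI : Fintype (IrrCharacter G) := Fintype.ofFinite _
  set R := Representation.linHom ρ ρ
  let S : Subrepresentation R := ⟨Submodule.span ℂ (Set.range b), fun g v hv => by
    induction hv using Submodule.span_induction with
    | mem x hx =>
      obtain ⟨i, rfl⟩ := hx
      have : R g (b i) = c g i • b (π g i) := by
        rw [← hact g i, mul_assoc]; rfl
      rw [this]
      exact Submodule.smul_mem _ _ (Submodule.subset_span ⟨_, rfl⟩)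
    | zero => rw [map_zero]; exact zero_mem _
    | add x y _ _ hx hy => rw [map_add]; exact add_mem hx hy
    | smul a x _ hx => rw [map_smul]; exact Submodule.smul_mem _ _ hx⟩
  let bb : Module.Basis ι ℂ S.toSubmodule := Module.Basis.span hb
  have hbb : ∀ i, (bb i : Module.End ℂ (Fin n → ℂ)) = b i := fun i => congrArg _ (Module.Basis.span_apply hb i)|>.trans rfl
  set W : G → ℂ := Representation.character (V := S.toSubmodule) S.toRepresentation with hWdef
  have hWeq : ∀ g, W g = ∑ i, if π g i = i then c g i else 0 := by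
    intro g
    rw [hWdef, Representation.character, LinearMap.trace_eq_matrix_trace ℂ bb, Matrix.trace]
    refine Finset.sum_congr rfl fun i _ => ?_
    rw [Matrix.diag_apply, LinearMap.toMatrix_apply]
    have h1 : S.toRepresentation g (bb i) = c g i • bb (π g i) := Subtype.ext (by
      show R g (bb i : Module.End ℂ (Fin n → ℂ)) = c g i • (bb (π g i) : Module.End ℂ (Fin n → ℂ))
      rw [hbb, hbb, ← hact g i, mul_assoc]; rfl)
    rw [h1, map_smul, Module.Basis.repr_self, Finsupp.smul_apply, Finsupp.single_apply, smul_eq_mul]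
    by_cases h : π g i = i <;> simp [h]
  -- a complement
  haveI : NeZero (Nat.card G : ℂ) := ⟨Nat.cast_ne_zero.mpr Nat.card_pos.ne'⟩
  obtain ⟨U, hU⟩ := exists_isCompl S
  have hc : IsCompl S.toSubmodule U.toSubmodule := by
    constructor
    · rw [disjoint_iff]
      exact congrArg Subrepresentation.toSubmodule hU.inf_eq_bot
    · rw [codisjoint_iff]
      exact congrArg Subrepresentation.toSubmodule hU.sup_eq_top
  set χ := ρ.character with hχ
  set F : G → ℂ := fun g => χ g⁻¹ * χ g with hF
  have hsplit : F = W + (Representation.character (V := U.toSubmodule) U.toRepresentation) := by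
    funext g
    exact (Representation.char_linHom ρ ρ g).symm.trans
      (trace_split (M := Module.End ℂ (Fin n → ℂ)) S.toSubmodule U.toSubmodule hc (R g)
        (S.toRepresentation g) (U.toRepresentation g) (fun x => rfl) (fun x => rfl))
  have hρc := isCharacter_of_irr hρ
  have hFc : IsCharacter G F := isCharacter_mul (isCharacter_inv hρc) hρc
  have hWc : IsCharacter G W := isCharacter_rep _
  have hUc : IsCharacter G (Representation.character (V := U.toSubmodule) U.toRepresentation) := isCharacter_rep _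
  have hFσc : IsCharacter G fun g => F (g ^ k) := CfsgLib.BrauerInd.isCharacter_pow hk hFc
  -- multiplicities
  choose a ha using fun ψ : IrrCharacter G => classInner_character_nat hFc ψ
  choose a' ha' using fun ψ : IrrCharacter G => classInner_character_nat hFσc ψ
  choose w hw using fun ψ : IrrCharacter G => classInner_character_nat hWc ψ
  have hwa : ∀ ψ, w ψ ≤ a ψ := fun ψ => by
    obtain ⟨u, hu⟩ := classInner_character_nat hUc ψ
    have := ha ψ
    rw [hsplit, classInner_add_left, hw, hu, ← Nat.cast_add, Nat.cast_inj] at this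
    omega
  have hwa' : ∀ ψ, w ψ ≤ a' ψ := fun ψ => by
    obtain ⟨u, hu⟩ := classInner_character_nat (CfsgLib.BrauerInd.isCharacter_pow hk hUc) ψ
    have := ha' ψ
    have e : (fun g => F (g ^ k)) = W + fun g => (Representation.character (V := U.toSubmodule) U.toRepresentation) (g ^ k) := by
      funext g
      rw [Pi.add_apply, hWeq g, ← hW g, ← hWeq]
      exact congrFun hsplit _
    rw [e, classInner_add_left, hw, hu, ← Nat.cast_add, Nat.cast_inj] at this
    omega
  have hone : a oneChar = 1 ∧ a' oneChar = 1 := by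
    have h1 : classInner F ((oneChar : IrrCharacter G) : G → ℂ) = 1 := by
      rw [← classInner_self hρ, classInner_eq, classInner_eq]
      congr 1
      refine Finset.sum_congr rfl fun g _ => ?_
      rw [oneChar_apply, map_one, mul_one, hF, ← apply_inv hρc, mul_comm]
    refine ⟨by exact_mod_cast (ha oneChar).symm.trans h1, ?_⟩
    have h2 : classInner (fun g => F (g ^ k)) ((oneChar : IrrCharacter G) : G → ℂ) = 1 := by
      rw [← h1, classInner_eq, classInner_eq]
      congr 1
      simp only [oneChar_apply, map_one, mul_one]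
      exact Equiv.sum_comp (powCoprime hk.symm) F
    exact_mod_cast (ha' oneChar).symm.trans h2
  have hex : ∃ ψ : IrrCharacter G, ψ ≠ oneChar ∧ w ψ ≠ 0 := by
    by_contra hno
    push Not at hno
    have h1 := congrFun (classFun_expand (isClassFunction hWc)) 1
    rw [Finset.sum_apply, Finset.sum_eq_single (oneChar : IrrCharacter G)
      (fun ψ _ hψ => by rw [Pi.smul_apply, hw, hno ψ hψ, Nat.cast_zero, zero_smul])
      (fun h => absurd (Finset.mem_univ _) h), Pi.smul_apply, hw, oneChar_apply, smul_eq_mul, mul_one,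
      hWdef, Representation.char_one, Module.finrank_eq_card_basis bb, Nat.cast_inj] at h1
    have := hwa oneChar
    omega
  obtain ⟨ψ₀, hψ₀, hw₀⟩ := hex
  have hprod : classInner F (fun g => F (g ^ k)) = 1 := by
    rw [← classInner_self hirr, classInner_eq, classInner_eq]
    congr 1
    refine Finset.sum_congr rfl fun g _ => ?_
    simp only [hF, map_mul, apply_inv hρc, Complex.conj_conj]
    ring
  have hsum : classInner F (fun g => F (g ^ k)) = ∑ ψ : IrrCharacter G, ((a ψ * a' ψ : ℕ) : ℂ) := by
    rw [congrArg (fun f : G → ℂ => classInner f fun g => F (g ^ k)) (classFun_expand (isClassFunction hFc))]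
    rw [classInner_sum_left]
    refine Finset.sum_congr rfl fun ψ _ => ?_
    rw [classInner_smul_left, ha, classInner_comm (fun g => F (g ^ k)) (ψ : G → ℂ), ha', Complex.conj_natCast,
      Nat.cast_mul]
  rw [hsum, ← Nat.cast_sum, Nat.cast_eq_one] at hprod
  have hle : ∑ ψ ∈ ({oneChar, ψ₀} : Finset (IrrCharacter G)), a ψ * a' ψ ≤ 1 :=
    hprod ▸ Finset.sum_le_sum_of_subset (Finset.subset_univ _)
  rw [Finset.sum_pair hψ₀.symm, hone.1, hone.2] at hle
  have : 0 < a ψ₀ * a' ψ₀ := Nat.mul_pos (by have := hwa ψ₀; omega) (by have := hwa' ψ₀; omega)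
  omega

theorem apply_scalar {G : Type*} [Group G] [Finite G] {n : ℕ} (ρ : Representation ℂ G (Fin n → ℂ))
    [ρ.IsIrreducible] {z : G} (hz : z ∈ Subgroup.center G) : ∃ a : ℂ, ρ z = a • (1 : Module.End ℂ (Fin n → ℂ)) := by
  obtain ⟨a, ha⟩ := commute_eq_scalar ρ (ρ z) fun x => by
    show ρ x * ρ z = ρ z * ρ x
    rw [← map_mul, ← map_mul, Subgroup.mem_center_iff.1 hz x]
  exact ⟨a, ha.1⟩

/-- Let G be a finite group with a faithful irreducible character χ (taking the value χ(1) only at the identity) and let k be prime to the order of G, so that g ↦ χ(g^k) is a Galois conjugate of χ. If the pointwise product g ↦ χ(g)·χ(g^k) is again an irreducible character, then the Fitting subgroup of G equals its centre. -/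
theorem result {G : Type*} [Group G] [Finite G] (χ : Cfsg.IrrCharacter G) (hfaith : ∀ g : G, (χ : G → ℂ) g = (χ : G → ℂ) 1 → g = 1) (k : ℕ) (hk : Nat.Coprime k (Nat.card G)) (hirr : Cfsg.IsIrrCharacter G (fun g => (χ : G → ℂ) g * (χ : G → ℂ) (g ^ k))) : Cfsg.fittingSubgroup G = Subgroup.center G := by
  classical
  obtain ⟨n, ρ, hρi, hρ⟩ := χ.2
  haveI := hρi
  have hρirr : IsIrrCharacter G ρ.character := ⟨n, ρ, hρi, rfl⟩
  have hn : n ≠ 0 := by
    intro h
    have h1 := apply_one_ne_zero hρirr
    rw [Representation.char_one, Module.finrank_fin_fun, h, Nat.cast_zero] at h1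
    exact h1 rfl
  have hone : (1 : Module.End ℂ (Fin n → ℂ)) ≠ 0 := fun h => by
    have := congrFun (LinearMap.congr_fun h (fun _ => 1)) ⟨0, Nat.pos_of_ne_zero hn⟩
    simp at this
  have hfaith' : ∀ g : G, ρ g = 1 → g = 1 := fun g h => hfaith g (by
    rw [← hρ]; simp [Representation.character, h])
  have hirr' : IsIrrCharacter G (fun g => ρ.character g * ρ.character (g ^ k)) := by rw [hρ]; exact hirr
  set Z := Subgroup.center G
  set F := fittingSubgroup G
  haveI : Fintype G := Fintype.ofFinite G
  refine le_antisymm ?_ (CfsgLib.Components.le_fittingSubgroup inferInstance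
    (by letI : CommGroup Z := { (inferInstance : Group Z) with mul_comm := fun a b => Subtype.ext (Subgroup.mem_center_iff.1 b.2 a) }; exact CommGroup.isNilpotent))
  by_contra hFZ
  haveI hFn : F.Normal := CfsgLib.Components.fittingSubgroup_normal
  obtain ⟨N, hN⟩ := (Subgroup.isNilpotent_iff_lowerCentralSeries F).1 CfsgLib.Components.fittingSubgroup_isNilpotent
  have hex : ∃ i, F.lowerCentralSeries i ≤ Z := ⟨N, hN ▸ bot_le⟩
  obtain ⟨i, hi, hi'⟩ : ∃ i, ¬ F.lowerCentralSeries i ≤ Z ∧ F.lowerCentralSeries (i + 1) ≤ Z := by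
    have h := Nat.find_spec hex
    rcases Nat.eq_zero_or_pos (Nat.find hex) with h0 | h0
    · rw [h0] at h; exact absurd h hFZ
    · refine ⟨Nat.find hex - 1, Nat.find_min hex (by omega), ?_⟩
      rwa [Nat.sub_add_cancel h0]
  have hiF : F.lowerCentralSeries i ≤ F := by
    clear hi hi'
    induction i with
    | zero => exact le_rfl
    | succ i ih => rw [Subgroup.lowerCentralSeries_succ]; exact (Subgroup.commutator_le_right _ _)
  -- class two
  have hclass : ∀ x ∈ F.lowerCentralSeries i, ∀ y ∈ F.lowerCentralSeries i, ⁅x, y⁆ ∈ Z := fun x hx y hy =>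
    hi' (Subgroup.lowerCentralSeries_succ (S := F) i ▸ Subgroup.commutator_mem_commutator hx (hiF hy))
  set T₀ := F.lowerCentralSeries i ⊔ Z with hT₀
  have hT₀c : ∀ x ∈ T₀, ∀ y ∈ T₀, ⁅x, y⁆ ∈ Z := by
    intro x hx y hy
    obtain ⟨a, ha, z, hz, rfl⟩ := Subgroup.mem_sup_of_normal_right.1 hx
    obtain ⟨b, hb, z', hz', rfl⟩ := Subgroup.mem_sup_of_normal_right.1 hy
    have hz1 := Subgroup.mem_center_iff.1 hz
    have hz2 := Subgroup.mem_center_iff.1 hz'
    have e : ⁅a * z, b * z'⁆ = ⁅a, b⁆ := by
      rw [commutatorElement_def, commutatorElement_def]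
      have e1 : a * z * (b * z') * (a * z)⁻¹ = a * (b * z') * a⁻¹ := by
        rw [mul_inv_rev, mul_assoc a z, ← hz1 (b * z')]; group
      rw [e1, ← mul_assoc a b z', mul_assoc (a * b) z' a⁻¹, ← hz2 a⁻¹]
      group
    rw [e]; exact hclass a ha b hb
  have hT₀Z : ¬ T₀ ≤ Z := fun h => hi (le_sup_left.trans h)
  -- choose `T`
  by_cases hab : ∃ T : Subgroup G, T.Normal ∧ (∀ x ∈ T, ∀ y ∈ T, x * y = y * x) ∧ ¬ T ≤ Z
  · obtain ⟨T, hTn, hTc, hTZ⟩ := hab
    letI : CommGroup T :=
      { (inferInstance : Group T) with mul_comm := fun a b => Subtype.ext (hTc a a.2 b b.2) }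
    haveI : Fintype T := Fintype.ofFinite T
    let E : (T →* ℂˣ) → Module.End ℂ (Fin n → ℂ) := fun μ =>
      (Nat.card T : ℂ)⁻¹ • ∑ t : T, (((μ⁻¹ : T →* ℂˣ) t : ℂˣ) : ℂ) • ρ t
    have hT0 : (Nat.card T : ℂ) ≠ 0 := Nat.cast_ne_zero.2 Nat.card_pos.ne'
    have hEρ : ∀ (μ : T →* ℂˣ) (s : T), ρ s * E μ = ((μ s : ℂˣ) : ℂ) • E μ := by
      intro μ s
      simp only [E, mul_smul_comm, Finset.mul_sum]
      rw [smul_comm ((μ s : ℂˣ) : ℂ), Finset.smul_sum, Finset.smul_sum, Finset.smul_sum]
      refine Fintype.sum_equiv (Equiv.mulLeft s) _ _ fun t => ?_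
      simp only [smul_smul, Equiv.coe_mulLeft, Subgroup.coe_mul, map_mul, MonoidHom.inv_apply, Units.val_mul,
        Units.val_inv_eq_inv_val, mul_inv]
      rw [mul_inv_cancel_left₀ (Units.ne_zero _)]
    have hmul : ∀ μ ν, E μ * E ν = if μ = ν then E ν else 0 := by
      intro μ ν
      conv_lhs => arg 1; simp only [E]
      rw [smul_mul_assoc, Finset.sum_mul,
        Finset.sum_congr rfl (fun t _ => by rw [smul_mul_assoc, hEρ ν t, smul_smul] :
          ∀ t ∈ (Finset.univ : Finset T), _ = ((((μ⁻¹ : T →* ℂˣ) t : ℂˣ) : ℂ) * ((ν t : ℂˣ) : ℂ)) • E ν),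
        ← Finset.sum_smul,
        Finset.sum_congr rfl (fun t _ => by rw [← Units.val_mul, ← MonoidHom.mul_apply] :
          ∀ t ∈ (Finset.univ : Finset T), _ = ((((μ⁻¹ * ν : T →* ℂˣ) t : ℂˣ) : ℂ))),
        Knorr.sum_hom]
      by_cases h : μ = ν
      · rw [if_pos (by rw [h]; exact inv_mul_cancel ν), if_pos h, smul_smul, inv_mul_cancel₀ hT0, one_smul]
      · rw [if_neg (fun h' => h (inv_mul_eq_one.1 h')), if_neg h, zero_smul, smul_zero]
    have hsum : ∑ μ : T →* ℂˣ, E μ = 1 := by
      simp only [E]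
      rw [← Finset.smul_sum, Finset.sum_comm, Finset.sum_congr rfl (fun t _ => (Finset.sum_smul).symm),
        Finset.sum_eq_single (1 : T)]
      · simp [Knorr.card_dual, smul_smul, hT0]
      · intro t _ ht
        rw [show (∑ μ : T →* ℂˣ, (((μ⁻¹ : T →* ℂˣ) t : ℂˣ) : ℂ)) = 0 from ?_, zero_smul]
        obtain ⟨l, -, hl⟩ := Knorr.exists_dual_ne_one (K := (⊥ : Subgroup T)) (c := t) (fun h => ht (Subgroup.mem_bot.1 h))
        refine (Equiv.sum_comp (Equiv.inv (T →* ℂˣ)) fun μ => ((μ t : ℂˣ) : ℂ)).trans ?_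
        have e : ((l t : ℂˣ) : ℂ) * ∑ μ : T →* ℂˣ, ((μ t : ℂˣ) : ℂ) = ∑ μ : T →* ℂˣ, ((μ t : ℂˣ) : ℂ) := by
          rw [Finset.mul_sum]
          conv_rhs => rw [← Equiv.sum_comp (Equiv.mulLeft l)]
          simp
        exact (mul_left_eq_self₀.1 e).resolve_left fun h1 => hl (Units.ext h1)
      · exact fun h => absurd (Finset.mem_univ _) h
    let act : G → (T →* ℂˣ) → (T →* ℂˣ) := fun g μ => μ.comp (MulAut.conjNormal g⁻¹ : MulAut T).toMonoidHom
    have hconj : ∀ g μ, ρ g * E μ * ρ g⁻¹ = E (act g μ) := by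
      intro g μ
      simp only [E, mul_smul_comm, smul_mul_assoc, Finset.mul_sum, Finset.sum_mul, ← map_mul]
      congr 1
      refine Fintype.sum_equiv (MulAut.conjNormal g : MulAut T).toEquiv _ _ fun t => ?_
      simp [act, mul_assoc]
    have hne : ∀ g μ, E μ ≠ 0 → E (act g μ) ≠ 0 := fun g μ h h0 => h (by
      have := hconj g μ
      rw [h0] at this
      calc E μ = ρ g⁻¹ * (ρ g * E μ * ρ g⁻¹) * ρ g := by
            rw [← mul_assoc, ← mul_assoc, ← map_mul, inv_mul_cancel, map_one, one_mul, mul_assoc, ← map_mul,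
              inv_mul_cancel, map_one, mul_one]
        _ = 0 := by rw [this, mul_zero, zero_mul])
    refine no_stable_family ρ hρirr k hk hirr' (ι := {μ : T →* ℂˣ // E μ ≠ 0}) ?_ (fun μ => E μ.1) ?_
      (fun g μ => ⟨act g μ.1, hne g μ.1 μ.2⟩) (fun _ _ => 1) (fun g μ => by rw [one_smul, hconj]) ?_
    · by_contra hcard
      push Not at hcard
      obtain ⟨t, ht, htZ⟩ := SetLike.not_le_iff_exists.1 hTZ
      have hsub : Subsingleton {μ : T →* ℂˣ // E μ ≠ 0} := Fintype.card_le_one_iff_subsingleton.1 (by omega)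
      obtain ⟨μ, -, hμ⟩ := Finset.exists_ne_zero_of_sum_ne_zero (hsum ▸ hone)
      have hμ1 : E μ = 1 := by
        rw [← hsum, Finset.sum_eq_single μ (fun ν _ hν => by
          by_contra h
          exact hν (congrArg Subtype.val (Subsingleton.elim (⟨ν, h⟩ : {μ : T →* ℂˣ // E μ ≠ 0}) ⟨μ, hμ⟩)))
          (fun h => absurd (Finset.mem_univ _) h)]
      have hsc : ρ t = ((μ ⟨t, ht⟩ : ℂˣ) : ℂ) • (1 : Module.End ℂ (Fin n → ℂ)) := by
        have := hEρ μ ⟨t, ht⟩
        rwa [hμ1, mul_one] at this
      refine htZ (Subgroup.mem_center_iff.2 fun x => ?_)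
      refine mul_inv_eq_one.1 (hfaith' _ ?_)
      have hcom : ρ x * ρ t = ρ t * ρ x := by
        rw [hsc, mul_smul_comm, smul_mul_assoc, mul_one, one_mul]
      rw [map_mul, map_mul, hcom, ← map_mul, ← map_mul, mul_inv_cancel, map_one]
    · rw [Fintype.linearIndependent_iff]
      intro a ha μ
      have h1 := congrArg (fun A => E μ.1 * A) ha
      simp only [mul_zero, Finset.mul_sum, mul_smul_comm, hmul] at h1
      rw [Finset.sum_eq_single μ (fun ν _ hν => by rw [if_neg (fun h => hν (Subtype.ext h).symm), smul_zero])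
        (fun h => absurd (Finset.mem_univ _) h), if_pos rfl] at h1
      exact (smul_eq_zero.1 h1).resolve_right μ.2
    · intro g
      have key : ∀ (y : G) (μ : T →* ℂˣ), act y μ = μ → ∀ j : ℕ, act (y ^ j) μ = μ := by
        intro y μ h j
        induction j with
        | zero => ext t; simp [act]
        | succ j ih =>
          have e : act (y ^ (j + 1)) μ = act y (act (y ^ j) μ) := by
            ext t; simp [act, pow_succ', mul_inv_rev, map_mul, MulAut.mul_apply]
          rw [e, ih, h]
      refine Finset.sum_congr rfl fun μ _ => ?_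
      simp only [Subtype.ext_iff]
      refine if_congr ⟨fun h => ?_, fun h => key g _ h k⟩ rfl rfl
      obtain ⟨m, hm⟩ := exists_pow_eq_self_of_coprime (hk.coprime_dvd_right (orderOf_dvd_natCard g))
      have := key _ _ h m
      rwa [hm] at this
  · -- the extraspecial-like case
    push Not at hab
    haveI hT₀n : T₀.Normal := by rw [hT₀]; infer_instance
    haveI : Fintype T₀ := Fintype.ofFinite T₀
    have hnd : ∀ t ∈ T₀, t ∉ Z → ∃ y ∈ T₀, ⁅y, t⁆ ≠ 1 := by
      intro t ht htZ
      by_contra hno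
      push Not at hno
      refine htZ (hab (T₀ ⊓ Subgroup.centralizer (T₀ : Set G)) inferInstance ?_ ⟨ht, ?_⟩)
      · intro x hx y hy
        exact (Subgroup.mem_centralizer_iff.1 hy.2 x hx.1)
      · exact Subgroup.mem_centralizer_iff.2 fun y hy => commutatorElement_eq_one_iff_mul_comm.1 (hno y hy)
    choose sc hsc using fun z : Z => apply_scalar ρ z.2
    have hsc1 : ∀ z : Z, sc z = 1 → (z : G) = 1 := fun z h => hfaith' _ (by rw [hsc z, h, one_smul])
    have hχ0 : ∀ t ∈ T₀, t ∉ Z → ρ.character t = 0 := by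
      intro t ht htZ
      obtain ⟨y, hy, hyt⟩ := hnd t ht htZ
      have h1 : ρ.character (⁅y, t⁆ * t) = ρ.character t := by
        rw [show ⁅y, t⁆ * t = y * t * y⁻¹ by rw [commutatorElement_def]; group]
        exact Representation.char_conj ρ t y
      simp only [Representation.character, map_mul, hsc ⟨⁅y, t⁆, hT₀c y hy t ht⟩, smul_mul_assoc, one_mul,
        map_smul, smul_eq_mul] at h1
      exact (mul_left_eq_self₀.1 h1).resolve_left fun h => hyt (hsc1 ⟨_, hT₀c y hy t ht⟩ h)
    set Q := T₀ ⧸ Z.subgroupOf T₀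
    haveI : Fintype Q := Fintype.ofFinite Q
    let b : Q → Module.End ℂ (Fin n → ℂ) := fun x => ρ (Quotient.out x : T₀)
    let π : G → Q → Q := fun g x => ((MulAut.conjNormal g (Quotient.out x) : T₀) : Q)
    have hzdiff : ∀ (g : G) (x : Q), g * (Quotient.out x : T₀) * g⁻¹ * ((Quotient.out (π g x) : T₀) : G)⁻¹ ∈ Z := by
      intro g x
      have h : ((Quotient.out (π g x) : T₀) : Q) = ((MulAut.conjNormal g (Quotient.out x) : T₀) : Q) :=
        QuotientGroup.out_eq' _
      rw [QuotientGroup.eq, Subgroup.mem_subgroupOf] at h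
      have := (inferInstance : Z.Normal).conj_mem _ h ((Quotient.out (π g x) : T₀) : G)
      simpa [mul_assoc] using this
    let c : G → Q → ℂ := fun g x => sc ⟨_, hzdiff g x⟩
    refine no_stable_family ρ hρirr k hk hirr' (ι := Q) ?_ b ?_ π c (fun g x => ?_) ?_
    · rw [← Nat.card_eq_fintype_card, ← Subgroup.index_eq_card]
      exact (Subgroup.one_lt_index_of_ne_top fun h => hT₀Z fun t ht => by
        have : (⟨t, ht⟩ : T₀) ∈ Z.subgroupOf T₀ := h ▸ Subgroup.mem_top _
        exact this)
    · rw [Fintype.linearIndependent_iff]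
      intro a ha x
      have h1 := congrArg (fun A : Module.End ℂ (Fin n → ℂ) =>
        LinearMap.trace ℂ _ (ρ ((Quotient.out x : T₀) : G)⁻¹ * A)) ha
      simp only [mul_zero, map_zero, Finset.mul_sum, mul_smul_comm, map_sum, map_smul, b, ← map_mul] at h1
      rw [Finset.sum_eq_single x] at h1
      · rw [inv_mul_cancel, map_one, LinearMap.trace_one, Module.finrank_fin_fun, smul_eq_mul] at h1
        exact (mul_eq_zero.1 h1).resolve_right (Nat.cast_ne_zero.2 hn)
      · intro y _ hy
        refine smul_eq_zero_of_right _ (hχ0 _ (mul_mem (inv_mem (Quotient.out x : T₀).2) (Quotient.out y : T₀).2) fun h => hy ?_)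
        rw [← QuotientGroup.out_eq' y, ← QuotientGroup.out_eq' x, eq_comm, QuotientGroup.eq]
        exact Subgroup.mem_subgroupOf.2 h
      · exact fun h => absurd (Finset.mem_univ _) h
    · have h1 := hsc ⟨_, hzdiff g x⟩
      simp only [b, c, ← map_mul]
      calc ρ (g * (Quotient.out x : T₀) * g⁻¹) = ρ ((g * (Quotient.out x : T₀) * g⁻¹ * ((Quotient.out (π g x) : T₀) : G)⁻¹)
            * (Quotient.out (π g x) : T₀)) := by rw [inv_mul_cancel_right]
        _ = _ := by rw [map_mul, h1, smul_mul_assoc, one_mul]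
    · -- stability under powers
      intro g
      have hfix : ∀ (g : G) (t : T₀), π g (t : Q) = (t : Q) ↔ g * t * g⁻¹ * (t : G)⁻¹ ∈ Z := by
        intro g t
        have e : π g (t : Q) = ((MulAut.conjNormal g t : T₀) : Q) := by
          show ((MulAut.conjNormal g (Quotient.out (t : Q)) : T₀) : Q) = _
          have h := QuotientGroup.eq.1 (QuotientGroup.out_eq' (t : Q))
          rw [Subgroup.mem_subgroupOf] at h
          rw [QuotientGroup.eq, Subgroup.mem_subgroupOf]
          have h2 := Subgroup.mem_center_iff.1 h g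
          simp only [Subgroup.coe_mul, Subgroup.coe_inv] at h h2 ⊢
          simp only [MulAut.conjNormal_apply]
          rw [show (g * ((Quotient.out (t : Q) : T₀) : G) * g⁻¹)⁻¹ * (g * t * g⁻¹)
            = g * (((Quotient.out (t : Q) : T₀) : G)⁻¹ * t) * g⁻¹ by group, h2, mul_inv_cancel_right]
          exact h
        rw [e, eq_comm, QuotientGroup.eq, Subgroup.mem_subgroupOf]
        simp only [Subgroup.coe_mul, Subgroup.coe_inv, MulAut.conjNormal_apply]
        constructor
        · intro h; have := (inferInstance : Z.Normal).conj_mem _ h (t : G); simpa [mul_assoc] using this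
        · intro h; have := (inferInstance : Z.Normal).conj_mem _ h (t : G)⁻¹; simpa [mul_assoc] using this
      -- the scalar does not depend on the representative
      have hc : ∀ (g : G) (t : T₀) (h : g * t * g⁻¹ * (t : G)⁻¹ ∈ Z), c g (t : Q) = sc ⟨_, h⟩ := by
        intro g t h
        show sc _ = sc _
        congr 1
        refine Subtype.ext ?_
        show g * ((Quotient.out (t : Q) : T₀) : G) * g⁻¹ * ((Quotient.out (π g (t : Q)) : T₀) : G)⁻¹ = _
        rw [(hfix g t).2 h]
        have h0 := QuotientGroup.eq.1 (QuotientGroup.out_eq' (t : Q))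
        rw [Subgroup.mem_subgroupOf] at h0
        simp only [Subgroup.coe_mul, Subgroup.coe_inv] at h0
        set o := ((Quotient.out (t : Q) : T₀) : G) with ho
        have h2 := Subgroup.mem_center_iff.1 h0 g
        calc g * o * g⁻¹ * o⁻¹ = (g * o * g⁻¹) * (o⁻¹ * t) * (t : G)⁻¹ := by group
          _ = g * o * ((o⁻¹ * t) * g⁻¹) * (t : G)⁻¹ := by
              rw [← Subgroup.mem_center_iff.1 h0 g⁻¹]; group
          _ = g * t * g⁻¹ * (t : G)⁻¹ := by group
      -- commutators with powers
      have hpow : ∀ (g : G) (t : T₀) (h : g * t * g⁻¹ * (t : G)⁻¹ ∈ Z) (j : ℕ),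
          g ^ j * t * (g ^ j)⁻¹ * (t : G)⁻¹ = (g * t * g⁻¹ * (t : G)⁻¹) ^ j ∧
          g * (t : G) ^ j * g⁻¹ * ((t : G) ^ j)⁻¹ = (g * t * g⁻¹ * (t : G)⁻¹) ^ j := by
        intro g t h j
        set z := g * t * g⁻¹ * (t : G)⁻¹ with hz
        have hgt : g * t * g⁻¹ = z * t := by rw [hz]; group
        have hzc : ∀ x, x * z = z * x := Subgroup.mem_center_iff.1 h
        constructor
        · have : g ^ j * t * (g ^ j)⁻¹ = z ^ j * t := by
            induction j with
            | zero => simp
            | succ j ih =>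
              calc g ^ (j + 1) * t * (g ^ (j + 1))⁻¹ = g * (z ^ j * t) * g⁻¹ := by
                    rw [pow_succ' g, ← ih]; group
                _ = z ^ j * (g * t * g⁻¹) := by
                    rw [← mul_assoc g, ((show Commute g z from hzc g).pow_right j).eq]
                    simp only [mul_assoc]
                _ = z ^ (j + 1) * t := by rw [hgt, pow_succ, mul_assoc (z ^ j) z]
          rw [this, mul_inv_cancel_right]
        · rw [← conj_pow, hgt, Commute.mul_pow (show Commute z (t : G) from (hzc t).symm), mul_inv_cancel_right]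
      have hscpow : ∀ (z : Z) (j : ℕ), sc (z ^ j) = sc z ^ j := by
        intro z j
        refine smul_left_injective ℂ hone ?_
        show sc (z ^ j) • (1 : Module.End ℂ (Fin n → ℂ)) = sc z ^ j • 1
        rw [← hsc, Subgroup.coe_pow, map_pow, hsc, smul_pow, one_pow]
      obtain ⟨m, hm⟩ := exists_pow_eq_self_of_coprime (hk.coprime_dvd_right (orderOf_dvd_natCard g))
      have hkQ : (Nat.card Q).Coprime k := (hk.coprime_dvd_right
        ((Subgroup.card_quotient_dvd_card _).trans (Subgroup.card_subgroup_dvd_card T₀))).symm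
      rw [← Finset.sum_filter, ← Finset.sum_filter]
      have hiff : ∀ x : Q, π (g ^ k) x = x ↔ π g x = x := by
        intro x
        obtain ⟨t, rfl⟩ := QuotientGroup.mk_surjective x
        rw [hfix, hfix]
        refine ⟨fun h => ?_, fun h => by rw [(hpow g t h k).1]; exact pow_mem h k⟩
        have := (hpow (g ^ k) t h m).1
        rw [hm] at this
        rw [this]; exact pow_mem h m
      rw [Finset.filter_congr (fun x _ => hiff x)]
      symm
      refine Finset.sum_bij' (fun x _ => powCoprime hkQ x) (fun x _ => (powCoprime hkQ).symm x) ?_ ?_ ?_ ?_ ?_ |>.symm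
      · intro x hx
        obtain ⟨t, rfl⟩ := QuotientGroup.mk_surjective x
        have h := (hfix g t).1 (Finset.mem_filter.1 hx).2
        refine Finset.mem_filter.2 ⟨Finset.mem_univ _, ?_⟩
        rw [powCoprime_apply, ← QuotientGroup.mk_pow, hfix, Subgroup.coe_pow, (hpow g t h k).2]
        exact pow_mem h k
      · intro x hx
        obtain ⟨y, rfl⟩ := (powCoprime hkQ).surjective x
        obtain ⟨t, rfl⟩ := QuotientGroup.mk_surjective y
        rw [Equiv.symm_apply_apply]
        have h := (hfix g (t ^ k)).1 (by simpa using (Finset.mem_filter.1 hx).2)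
        refine Finset.mem_filter.2 ⟨Finset.mem_univ _, (hfix g t).2 ?_⟩
        obtain ⟨m', hm'⟩ := exists_pow_eq_self_of_coprime (x := (t : G)) (hk.coprime_dvd_right (orderOf_dvd_natCard (t : G)))
        have h2 := (hpow g (t ^ k) h m').2
        rw [Subgroup.coe_pow, hm'] at h2
        rw [h2]; exact pow_mem (by simpa using h) m'
      · intro x _; exact Equiv.symm_apply_apply _ _
      · intro x _; exact Equiv.apply_symm_apply _ _
      · intro x hx
        obtain ⟨t, rfl⟩ := QuotientGroup.mk_surjective x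
        have h := (hfix g t).1 (Finset.mem_filter.1 hx).2
        have hA : g ^ k * t * (g ^ k)⁻¹ * (t : G)⁻¹ ∈ Z := by rw [(hpow g t h k).1]; exact pow_mem h k
        have hB : g * ((t ^ k : T₀) : G) * g⁻¹ * ((t ^ k : T₀) : G)⁻¹ ∈ Z := by
          rw [Subgroup.coe_pow, (hpow g t h k).2]; exact pow_mem h k
        rw [powCoprime_apply, ← QuotientGroup.mk_pow, hc (g ^ k) t hA, hc g (t ^ k) hB]
        congr 1
        refine Subtype.ext ?_
        show g ^ k * t * (g ^ k)⁻¹ * (t : G)⁻¹ = g * ((t ^ k : T₀) : G) * g⁻¹ * ((t ^ k : T₀) : G)⁻¹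
        rw [Subgroup.coe_pow, (hpow g t h k).1, (hpow g t h k).2]

end Cfsg.Agent.S4843
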