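import Cfsg.Statements.S4850
import Cfsg.Agent.VanishingP.Sylow
import Cfsg.Agent.Subnormal.BaerSuzuki

set_option autoImplicit false
open Cfsg

namespace Cfsg.Agent.S4850

/-- Let p be a prime and G a finite solvable group whose vanishing elements (elements at which some irreducible character is zero) of order divisible by p all have the same order, with at least one such element. Let P be a Sylow p-subgroup of G. Then the derived subgroup of P is subnormal in G and the image of P in G/O_p(G) is cyclic. -/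
theorem result {G : Type*} [Group G] [Finite G] [hs : Group.IsSolvable G] (p : ℕ) [Fact p.Prime] (b : ℕ) (hvo : {n : ℕ | p ∣ n ∧ ∃ (g : G) (χ : Cfsg.IrrCharacter G), orderOf g = n ∧ (χ : G → ℂ) g = 0} = {b}) (P : Sylow p G) :
    ((commutator ↥(P : Subgroup G)).map (P : Subgroup G).subtype).IsSubnormal ∧ IsCyclic ↥((P : Subgroup G).map (QuotientGroup.mk' (Cfsg.pCore p G))) := by
  have H : ∀ a c : G, p ∣ orderOf a → p ∣ orderOf c → CfsgLib.VanishingP.Vanish a →
      CfsgLib.VanishingP.Vanish c → orderOf a = orderOf c := by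
    intro a c ha hc ⟨χ, hχ⟩ ⟨ψ, hψ⟩
    have h1 : orderOf a ∈ {n : ℕ | p ∣ n ∧ ∃ (g : G) (χ : Cfsg.IrrCharacter G), orderOf g = n ∧ (χ : G → ℂ) g = 0} :=
      ⟨ha, a, χ, rfl, hχ⟩
    have h2 : orderOf c ∈ {n : ℕ | p ∣ n ∧ ∃ (g : G) (χ : Cfsg.IrrCharacter G), orderOf g = n ∧ (χ : G → ℂ) g = 0} :=
      ⟨hc, c, ψ, rfl, hψ⟩
    rw [hvo] at h1 h2
    exact h1.trans h2.symm
  haveI := Cfsg.pCore_normal p G
  have hcard := CfsgLib.VanishingP.card_map_sylow_le H P
  set π := QuotientGroup.mk' (Cfsg.pCore p G) with hπ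
  have hPp : IsPGroup p ↥((P : Subgroup G).map π) := P.2.map π
  have hcyc : IsCyclic ↥((P : Subgroup G).map π) := by
    obtain ⟨n, hn⟩ := IsPGroup.iff_card.1 hPp
    have hn1 : n ≤ 1 := by
      rw [← Nat.pow_le_pow_iff_right (Fact.out : p.Prime).one_lt, ← hn, pow_one]; exact hcard
    interval_cases n
    · haveI : Subsingleton ↥((P : Subgroup G).map π) := (Nat.card_eq_one_iff_unique.1 (by rw [hn, pow_zero])).1
      infer_instance
    · exact isCyclic_of_prime_card (p := p) (by rw [hn, pow_one])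
  refine ⟨?_, hcyc⟩
  have hle : (commutator ↥(P : Subgroup G)).map (P : Subgroup G).subtype ≤ Cfsg.pCore p G := by
    rw [Subgroup.map_subtype_commutator, ← QuotientGroup.ker_mk' (Cfsg.pCore p G), ← Subgroup.map_eq_bot_iff,
      Subgroup.map_commutator, Subgroup.commutator_eq_bot_iff_le_centralizer]
    intro x hx y hy
    haveI := hcyc
    obtain ⟨g, hg⟩ := IsCyclic.exists_generator (α := ↥((P : Subgroup G).map π))
    obtain ⟨i, hi⟩ := Subgroup.mem_zpowers_iff.1 (hg ⟨x, hx⟩)
    obtain ⟨j, hj⟩ := Subgroup.mem_zpowers_iff.1 (hg ⟨y, hy⟩)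
    have := congrArg Subtype.val ((Commute.zpow_zpow_self g j i).eq)
    rw [hi, hj] at this
    exact this
  have hnil : Group.IsNilpotent ↥(Cfsg.pCore p G) := (CfsgLib.PCore.isPGroup_pCore p G).isNilpotent
  rw [← Subgroup.map_subgroupOf_eq_of_le hle]
  exact Subgroup.IsSubnormal.trans' (CfsgLib.Subnormal.isSubnormal_of_nilpotent _)
    (Subgroup.Normal.isSubnormal inferInstance)

end Cfsg.Agent.S4850
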