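import Cfsg.Statements.S4871
import Mathlib
import Cfsg.Agent.CharBasics.Corr
import Cfsg.Agent.CharBasics.Knorr
import Cfsg.Agent.Clifford.ExtCriteria

set_option autoImplicit false
open Cfsg

namespace Cfsg.Agent.S4871

open CfsgLib.CharBasics CfsgLib.Clifford
open scoped IsMulCommutative ComplexConjugate

theorem card_signChars_le {G : Type*} [Group G] [Finite G] (T : Subgroup G) :
    Nat.card {θ : G →* ℂˣ // θ ^ 2 = 1} ≤ T.index * Nat.card {θ : T →* ℂˣ // θ ^ 2 = 1} := by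
  classical
  haveI : Finite (G →* ℂˣ) :=
    Finite.of_equiv (Abelianization G →* ℂˣ) (Abelianization.lift (G := G) (A := ℂˣ)).symm
  haveI : Finite (T →* ℂˣ) :=
    Finite.of_equiv (Abelianization T →* ℂˣ) (Abelianization.lift (G := T) (A := ℂˣ)).symm
  let L : Subgroup (G →* ℂˣ) := (powMonoidHom 2 : (G →* ℂˣ) →* (G →* ℂˣ)).ker
  let L' : Subgroup (T →* ℂˣ) := (powMonoidHom 2 : (T →* ℂˣ) →* (T →* ℂˣ)).ker
  have e1 : Nat.card L = Nat.card {θ : G →* ℂˣ // θ ^ 2 = 1} :=
    Nat.card_congr (Equiv.subtypeEquivRight fun θ => Iff.rfl)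
  have e2 : Nat.card L' = Nat.card {θ : T →* ℂˣ // θ ^ 2 = 1} :=
    Nat.card_congr (Equiv.subtypeEquivRight fun θ => Iff.rfl)
  rw [← e1, ← e2]
  let r : L →* L' :=
    { toFun := fun θ => ⟨θ.1.comp T.subtype, by
        have h : θ.1 ^ 2 = 1 := θ.2
        show (θ.1.comp T.subtype) ^ 2 = 1
        ext t
        simpa using congrArg (fun f : G →* ℂˣ => (f t : ℂ)) h⟩
      map_one' := rfl
      map_mul' := fun _ _ => rfl }
  rw [← r.ker.index_mul_card, Subgroup.index_ker, mul_comm]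
  refine Nat.mul_le_mul ?_ (Nat.card_le_card_of_injective _ Subtype.val_injective)
  let K : Subgroup (Abelianization G) := T.map Abelianization.of
  have hK : Nat.card r.ker ≤ Nat.card (CfsgLib.CharBasics.Knorr.dual K) := by
    refine Nat.card_le_card_of_injective
      (fun θ => (⟨Abelianization.lift θ.1.1, ?_⟩ : CfsgLib.CharBasics.Knorr.dual K)) ?_
    · rintro _ ⟨t, ht, rfl⟩
      have h : r θ.1 = 1 := θ.2
      have h2 := congrArg (fun f : L' => f.1 ⟨t, ht⟩) h
      simpa [r] using h2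
    · intro a b h
      exact Subtype.ext (Subtype.ext (Abelianization.lift.injective (congrArg Subtype.val h)))
  refine hK.trans ?_
  rw [CfsgLib.CharBasics.Knorr.card_dual_eq_index]
  exact Nat.le_of_dvd (Nat.pos_of_ne_zero Subgroup.index_ne_zero_of_finite)
    (T.index_map_dvd (f := Abelianization.of) (fun x => QuotientGroup.mk'_surjective _ x))

theorem sum_hom_ne {W : Type*} [Group W] [Fintype W] (l : W →* ℂˣ) (h : l ≠ 1) :
    ∑ c : W, ((l c : ℂˣ) : ℂ) = 0 := by
  obtain ⟨b, hb⟩ : ∃ b, l b ≠ 1 := by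
    by_contra hh
    push Not at hh
    exact h (MonoidHom.ext hh)
  have e : ((l b : ℂˣ) : ℂ) * ∑ c : W, ((l c : ℂˣ) : ℂ) = ∑ c : W, ((l c : ℂˣ) : ℂ) := by
    rw [Finset.mul_sum]
    conv_rhs => rw [← Equiv.sum_comp (Equiv.mulLeft b)]
    simp
  exact (mul_left_eq_self₀.1 e).resolve_left fun h1 => hb (Units.ext h1)

/-- Let G be a finite group that is the semidirect product of a normal elementary abelian subgroup N of odd order by a non-trivial 2-subgroup P, with N the unique minimal normal subgroup of G. Consider the strongly real irreducible complex characters of G (Frobenius–Schur indicator +1) whose degree is 1 or even. Then their average degree is at least 4/3: four times their number is at most three times the sum of their degrees. -/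
theorem result {G : Type*} [Group G] [Finite G] (N P : Subgroup G) (hN : N.Normal) (q : ℕ) [Fact q.Prime] (hq : q ≠ 2) (hNel : Cfsg.IsElementaryAbelian q N) (hP : IsPGroup 2 ↥P) (hP1 : P ≠ ⊥) (hdisj : N ⊓ P = ⊥) (hprod : N ⊔ P = ⊤) (hmin : N ≠ ⊥ ∧ ∀ M : Subgroup G, M.Normal → M ≠ ⊥ → N ≤ M) : 4 * Nat.card {χ : Cfsg.IrrCharacter G // (Cfsg.charDegree (χ : G → ℂ) = 1 ∨ 2 ∣ Cfsg.charDegree (χ : G → ℂ)) ∧ (Nat.card G : ℂ)⁻¹ * ∑ᶠ g : G, (χ : G → ℂ) (g * g) = 1} ≤ 3 * (∑ᶠ χ : {χ : Cfsg.IrrCharacter G // (Cfsg.charDegree (χ : G → ℂ) = 1 ∨ 2 ∣ Cfsg.charDegree (χ : G → ℂ)) ∧ (Nat.card G : ℂ)⁻¹ * ∑ᶠ g : G, (χ : G → ℂ) (g * g) = 1}, Cfsg.charDegree (χ.1 : G → ℂ)) := by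
  classical
  haveI : Fintype G := Fintype.ofFinite G
  haveI := hN
  haveI : IsMulCommutative N := hNel.1
  have hq' : q.Prime := Fact.out
  -- semidirect decomposition
  have hdec : ∀ g : G, ∃ n : N, ∃ p : P, g = (n : G) * p := fun g => by
    have hg : g ∈ ((N ⊔ P : Subgroup G) : Set G) := by rw [hprod]; trivial
    rw [Subgroup.normal_mul] at hg
    obtain ⟨n, hn, p, hp, rfl⟩ := hg
    exact ⟨⟨n, hn⟩, ⟨p, hp⟩, rfl⟩
  have huniq : ∀ (n n' : N) (p p' : P), (n : G) * p = n' * p' → n = n' ∧ p = p' := by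
    intro n n' p p' h
    have h1 : (n' : G)⁻¹ * n = p' * (p : G)⁻¹ := by
      rw [eq_mul_inv_iff_mul_eq, mul_assoc, h, inv_mul_cancel_left]
    have h2 : (n' : G)⁻¹ * n ∈ N ⊓ P :=
      ⟨mul_mem (N.inv_mem n'.2) n.2, by rw [h1]; exact mul_mem p'.2 (P.inv_mem p.2)⟩
    rw [hdisj, Subgroup.mem_bot, inv_mul_eq_one] at h2
    have hn : n = n' := Subtype.ext h2.symm
    subst hn
    exact ⟨rfl, Subtype.ext (mul_left_cancel h)⟩
  let e : N × P ≃ G := Equiv.ofBijective (fun x => (x.1 : G) * x.2)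
    ⟨fun a b h => Prod.ext (huniq _ _ _ _ h).1 (huniq _ _ _ _ h).2, fun g => by
      obtain ⟨n, p, h⟩ := hdec g
      exact ⟨(n, p), h.symm⟩⟩
  let pr : G → N := fun g => (e.symm g).1
  have hpr : ∀ (n : N) (p : P), pr ((n : G) * p) = n := fun n p => by
    show (e.symm (e (n, p))).1 = n
    rw [Equiv.symm_apply_apply]
  let cj : G → N → N := fun g n => ⟨g * n * g⁻¹, hN.conj_mem _ n.2 g⟩
  -- the central involution of P inverts N
  haveI : Nontrivial P := (Subgroup.nontrivial_iff_ne_bot P).2 hP1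
  obtain ⟨z, hzc, hz2, hz1⟩ : ∃ z : P, z ∈ Subgroup.center P ∧ z * z = 1 ∧ z ≠ 1 := by
    haveI := hP.center_nontrivial
    obtain ⟨n, hn⟩ := IsPGroup.iff_card.1 (hP.to_subgroup (Subgroup.center P))
    have h2 : 2 ∣ Nat.card (Subgroup.center P) := by
      rw [hn]
      refine dvd_pow_self 2 ?_
      rintro rfl
      exact absurd hn (Finite.one_lt_card (α := Subgroup.center P)).ne'
    obtain ⟨x, hx⟩ := exists_prime_orderOf_dvd_card' 2 h2
    refine ⟨x.1, x.2, ?_, fun h => ?_⟩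
    · have := congrArg Subtype.val (pow_orderOf_eq_one x)
      rw [hx] at this
      simpa [pow_two] using this
    · rw [show x = 1 from Subtype.ext h, orderOf_one] at hx
      omega
  have hzp : ∀ p : P, (z : G) * p = p * z := fun p =>
    (congrArg Subtype.val (Subgroup.mem_center_iff.1 hzc p)).symm
  have hzz : (z : G) * z = 1 := congrArg Subtype.val hz2
  have hzi : (z : G)⁻¹ = z := inv_eq_of_mul_eq_one_right hzz
  have hsq : ∀ p : P, (z : G) * p * ((z : G) * p) = (p : G) * p := fun p => by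
    nth_rewrite 1 [hzp p]
    rw [mul_assoc, ← mul_assoc (z : G) (z : G), hzz, one_mul]
  have hNcomm : ∀ a b : N, (a : G) * b = b * a := fun a b => congrArg Subtype.val (mul_comm a b)
  let M : Subgroup G := N ⊓ Subgroup.centralizer {(z : G)}
  have hmM : ∀ m, m ∈ M ↔ m ∈ N ∧ (z : G) * m = m * z := fun m =>
    Subgroup.mem_inf.trans (and_congr Iff.rfl ⟨fun h => h _ rfl, fun h y hy => by
      rw [Set.mem_singleton_iff.1 hy]; exact h⟩)
  have hMn : M.Normal := ⟨fun m hm g => by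
    obtain ⟨n, p, rfl⟩ := hdec g
    obtain ⟨hm1, hm2⟩ := (hmM m).1 hm
    have hm' : (p : G) * m * (p : G)⁻¹ ∈ N := hN.conj_mem _ hm1 _
    have e1 : (n : G) * p * m * ((n : G) * p)⁻¹ = (n : G) * ((p : G) * m * (p : G)⁻¹) * (n : G)⁻¹ := by group
    rw [e1, hNcomm n ⟨_, hm'⟩, mul_inv_cancel_right, hmM]
    refine ⟨hm', ?_⟩
    have e2 : (p : G)⁻¹ * z = z * (p : G)⁻¹ := by
      rw [inv_mul_eq_iff_eq_mul, ← mul_assoc, ← hzp p, mul_inv_cancel_right]
    calc (z : G) * ((p : G) * m * (p : G)⁻¹) = ((z : G) * p) * m * (p : G)⁻¹ := by group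
      _ = (p : G) * ((z : G) * m) * (p : G)⁻¹ := by rw [hzp p]; group
      _ = (p : G) * m * ((z : G) * (p : G)⁻¹) := by rw [hm2]; group
      _ = _ := by rw [← e2]; group⟩
  have hMbot : M = ⊥ := by
    by_contra hM
    have hle : ∀ n : N, (z : G) * n = n * z := fun n => ((hmM _).1 (hmin.2 M hMn hM n.2)).2
    have hzG : ∀ g : G, g * z = z * g := fun g => by
      obtain ⟨n, p, rfl⟩ := hdec g
      rw [mul_assoc, ← hzp p, ← mul_assoc, ← hle n, mul_assoc]
    have hZn : (Subgroup.zpowers (z : G)).Normal := ⟨fun x hx g => by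
      have hc : x ∈ Subgroup.center G :=
        Subgroup.zpowers_le.2 (Subgroup.mem_center_iff.2 hzG) hx
      rw [Subgroup.mem_center_iff.1 hc g, mul_inv_cancel_right]
      exact hx⟩
    have h1 : N ≤ P := (hmin.2 _ hZn (Subgroup.zpowers_ne_bot.2 (fun h => hz1 (Subtype.ext h)))).trans
      (Subgroup.zpowers_le.2 z.2)
    exact hmin.1 (le_bot_iff.1 (hdisj ▸ le_inf le_rfl h1))
  have hinvert : ∀ n : N, cj z n = n⁻¹ := fun n => by
    have hmem : ((n * cj z n : N) : G) ∈ M := by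
      refine (hmM _).2 ⟨(n * cj z n).2, ?_⟩
      have h := hNcomm n (cj z n)
      show (z : G) * ((n : G) * ((z : G) * n * (z : G)⁻¹)) = (n : G) * ((z : G) * n * (z : G)⁻¹) * z
      change (n : G) * ((z : G) * n * (z : G)⁻¹) = (z : G) * n * (z : G)⁻¹ * n at h
      rw [hzi] at h ⊢
      calc (z : G) * ((n : G) * ((z : G) * n * z)) = (z : G) * ((z : G) * n * z * n) := by rw [h]
        _ = ((z : G) * z) * ((n : G) * z * n) := by group
        _ = (n : G) * z * n := by rw [hzz, one_mul]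
        _ = (n : G) * ((z : G) * n) * ((z : G) * z) := by rw [hzz, mul_one, mul_assoc]
        _ = _ := by group
    rw [hMbot, Subgroup.mem_bot] at hmem
    exact (inv_eq_of_mul_eq_one_right (Subtype.ext hmem : n * cj z n = 1)).symm
  -- a nontrivial character of N
  haveI : Nontrivial N := (Subgroup.nontrivial_iff_ne_bot N).2 hmin.1
  obtain ⟨a, ha⟩ := exists_ne (1 : N)
  obtain ⟨lam, -, hla⟩ := CfsgLib.CharBasics.Knorr.exists_dual_ne_one (K := (⊥ : Subgroup N)) (c := a)
    (by rwa [Subgroup.mem_bot])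
  have hnq : ∀ n : N, n ^ q = 1 := fun n => Subtype.ext (by simpa using hNel.2 n n.2)
  have hodd : ∀ (x : ℂˣ), x ^ 2 = 1 → x ^ q = 1 → x = 1 := fun x h2 hq1 => by
    obtain ⟨k, hk⟩ := hq'.odd_of_ne_two hq
    rw [hk, pow_succ, pow_mul, h2, one_pow, one_mul] at hq1
    exact hq1
  let φ : N → ℂ := fun n => (lam n : ℂ)
  have hφ : Cfsg.IsIrrCharacter N φ := isIrrCharacter_of_hom ((Units.coeHom ℂ).comp lam)
  let T : Subgroup G := inertia φ
  have hmT : ∀ g, g ∈ T ↔ ∀ n, lam (cj g n) = lam n := fun g =>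
    ⟨fun h n => Units.ext (congrFun h n), fun h => funext fun n => congrArg Units.val (h n)⟩
  have hNT : N ≤ T := fun x hx => (hmT x).2 fun n => congrArg lam (Subtype.ext (by
    show x * n * x⁻¹ = n
    rw [show x * (n : G) = n * x from hNcomm ⟨x, hx⟩ n, mul_inv_cancel_right]))
  have hzT : (z : G) ∉ T := fun h => hla (hodd _ (by
      have h1 := (hmT _).1 h a
      rw [hinvert, map_inv, inv_eq_iff_mul_eq_one] at h1
      rw [pow_two]; exact h1) (by rw [← map_pow, hnq, map_one]))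
  have hnpT : ∀ (n : N) (p : P), (n : G) * p ∈ T ↔ (p : G) ∈ T := fun n p =>
    T.mul_mem_cancel_left (hNT n.2)
  -- the extension of lam
  let η₀ : T →* ℂˣ :=
    { toFun := fun t => lam (pr t)
      map_one' := by
        have := hpr 1 1
        simp only [OneMemClass.coe_one, mul_one] at this
        show lam (pr ((1 : T) : G)) = 1
        rw [OneMemClass.coe_one, this, map_one]
      map_mul' := fun t1 t2 => by
        obtain ⟨n1, p1, h1⟩ := hdec t1
        obtain ⟨n2, p2, h2⟩ := hdec t2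
        have hp1 : (p1 : G) ∈ T := (hnpT n1 p1).1 (h1 ▸ t1.2)
        show lam (pr ((t1 * t2 : T) : G)) = lam (pr t1) * lam (pr t2)
        have h12 : ((t1 * t2 : T) : G) = ((n1 * cj p1 n2 : N) : G) * ((p1 * p2 : P) : G) := by
          show (t1 : G) * t2 = (n1 : G) * ((p1 : G) * n2 * (p1 : G)⁻¹) * ((p1 : G) * p2)
          rw [h1, h2]; group
        rw [h12, hpr, h1, hpr, h2, hpr, map_mul, (hmT _).1 hp1] }
  have hη₀N : ∀ n : N, η₀ ⟨(n : G), hNT n.2⟩ = lam n := fun n => by
    show lam (pr (n : G)) = lam n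
    have := hpr n 1
    rw [OneMemClass.coe_one, mul_one] at this
    rw [this]
  -- sign characters of T are trivial on N
  have hθN : ∀ θ : T →* ℂˣ, θ ^ 2 = 1 → ∀ n : N, θ ⟨(n : G), hNT n.2⟩ = 1 := fun θ hθ n =>
    hodd _ (by simpa using DFunLike.congr_fun hθ ⟨(n : G), hNT n.2⟩)
      (by rw [← map_pow, show (⟨(n : G), hNT n.2⟩ : T) ^ q = 1 from Subtype.ext (hNel.2 n n.2), map_one])
  let η : {θ : T →* ℂˣ // θ ^ 2 = 1} → T → ℂ := fun θ t => ((η₀ t * θ.1 t : ℂˣ) : ℂ)
  have hη : ∀ θ, Cfsg.IsIrrCharacter T (η θ) := fun θ =>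
    isIrrCharacter_of_hom ((Units.coeHom ℂ).comp (η₀ * θ.1))
  have hηN : ∀ θ, Cfsg.classInner (fun n : N => η θ ⟨(n : G), hNT n.2⟩) φ ≠ 0 := fun θ => by
    rw [show (fun n : N => η θ ⟨(n : G), hNT n.2⟩) = φ from funext fun n => by
      show ((η₀ _ * θ.1 _ : ℂˣ) : ℂ) = _
      rw [hη₀N, hθN θ.1 θ.2 n, mul_one]]
    rw [CfsgLib.CharBasics.classInner_self hφ]
    exact one_ne_zero
  have hirr := fun θ => isIrr_indFun_of_inertia hφ T rfl hNT (hη θ) (hηN θ)
  -- index of T is even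
  have hTpow : T.index ≠ 1 := fun h => hzT (Subgroup.index_eq_one.1 h ▸ trivial)
  have hTeven : 2 ∣ T.index := by
    obtain ⟨k, hk⟩ := IsPGroup.iff_card.1 hP
    have h1 : Nat.card N * Nat.card P = Nat.card G := by rw [← Nat.card_prod]; exact Nat.card_congr e
    have hNidx : N.index = 2 ^ k := by
      have h2 := N.card_mul_index
      rw [← h1, hk] at h2
      exact Nat.eq_of_mul_eq_mul_left Nat.card_pos h2
    have h3 : T.index ∣ 2 ^ k := hNidx ▸ Subgroup.index_dvd_of_le hNT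
    obtain ⟨j, -, hj⟩ := (Nat.dvd_prime_pow Nat.prime_two).1 h3
    rw [hj] at hTpow ⊢
    exact dvd_pow_self 2 (by rintro rfl; exact hTpow rfl)
  -- Frobenius-Schur indicator
  have hext : ∀ (θ : T → ℂ) g (h : g ∈ T), Cfsg.extendByZero T θ g = θ ⟨g, h⟩ := fun θ g h =>
    extendByZero_coe T θ ⟨g, h⟩
  have hind : ∀ θ, (Nat.card G : ℂ)⁻¹ * ∑ g : G, Cfsg.indFun T (η θ) (g * g) = 1 := by
    intro θ
    have h1 : ∀ x : G, ∑ g : G, Cfsg.extendByZero T (η θ) (x⁻¹ * (g * g) * x) =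
        ∑ g : G, Cfsg.extendByZero T (η θ) (g * g) := fun x =>
      Fintype.sum_equiv (MulAut.conj x⁻¹).toEquiv _ _ fun g => by
        show _ = Cfsg.extendByZero T (η θ) ((x⁻¹ * g * x⁻¹⁻¹) * (x⁻¹ * g * x⁻¹⁻¹))
        congr 1
        group
    have h2 : ∀ p : P, ∑ n : N, Cfsg.extendByZero T (η θ) (((n : G) * p) * ((n : G) * p)) =
        if ((z * p : P) : G) ∈ T then (Nat.card N : ℂ) else 0 := by
      intro p
      have hrw : ∀ n : N, ((n : G) * p) * ((n : G) * p) = ((n * cj p n : N) : G) * ((p * p : P) : G) :=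
        fun n => by
          show _ = (n : G) * ((p : G) * n * (p : G)⁻¹) * ((p : G) * p)
          group
      by_cases hp : (((p * p : P)) : G) ∈ T
      · let μ : N →* ℂˣ :=
          { toFun := fun n => lam n * lam (cj p n)
            map_one' := by
              rw [show cj (p : G) 1 = 1 from Subtype.ext (by simp [cj])]; simp
            map_mul' := fun x y => by
              rw [show cj (p : G) (x * y) = cj p x * cj p y from Subtype.ext
                (show (p : G) * ((x : G) * y) * (p : G)⁻¹ = ((p : G) * x * (p : G)⁻¹) * ((p : G) * y * (p : G)⁻¹) by group),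
                map_mul, map_mul, mul_mul_mul_comm] }
        have hval : ∀ n : N, Cfsg.extendByZero T (η θ) (((n : G) * p) * ((n : G) * p)) =
            ((μ n : ℂˣ) : ℂ) * ((θ.1 ⟨_, hp⟩ : ℂˣ) : ℂ) := fun n => by
          rw [hrw, hext _ _ ((hnpT _ _).2 hp)]
          show ((η₀ _ * θ.1 _ : ℂˣ) : ℂ) = _
          rw [Units.val_mul]
          congr 2
          · show lam (pr _) = lam n * lam (cj p n)
            rw [hpr, map_mul]
          · rw [show (⟨((n * cj p n : N) : G) * ((p * p : P) : G), (hnpT _ _).2 hp⟩ : T) =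
              ⟨((n * cj p n : N) : G), hNT (n * cj p n).2⟩ * ⟨((p * p : P) : G), hp⟩ from rfl,
              map_mul, hθN θ.1 θ.2, one_mul]
        simp only [hval, ← Finset.sum_mul]
        rw [CfsgLib.CharBasics.Knorr.sum_hom]
        have hiff : μ = 1 ↔ ((z * p : P) : G) ∈ T := by
          rw [hmT, MonoidHom.ext_iff]
          refine forall_congr' fun n => ?_
          have hc : cj ((z * p : P) : G) n = (cj p n)⁻¹ := by
            rw [← hinvert]
            exact Subtype.ext (by simp [cj]; group)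
          show lam n * lam (cj p n) = 1 ↔ _
          rw [hc, map_inv, mul_eq_one_iff_eq_inv, eq_comm]
        split_ifs with hμ hz hz
        · rw [show θ.1 ⟨_, hp⟩ = 1 from ?_, Units.val_one, mul_one]
          have e1 : (⟨((p * p : P) : G), hp⟩ : T) =
              ⟨((z * p : P) : G), hz⟩ * ⟨((z * p : P) : G), hz⟩ := Subtype.ext (by
            show (p : G) * p = (z : G) * p * ((z : G) * p)
            exact (hsq p).symm)
          rw [e1, map_mul, ← pow_two, ← MonoidHom.pow_apply, θ.2, MonoidHom.one_apply]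
        · exact absurd (hiff.1 hμ) hz
        · exact absurd (hiff.2 hz) hμ
        · rw [zero_mul]
      · rw [if_neg]
        · refine Finset.sum_eq_zero fun n _ => extendByZero_of_not_mem T _ ?_
          rw [hrw]
          exact fun h => hp ((hnpT _ _).1 h)
        · intro hz
          apply hp
          have := T.mul_mem hz hz
          rwa [show ((z * p : P) : G) * ((z * p : P) : G) = ((p * p : P) : G) by
            show (z : G) * p * ((z : G) * p) = (p : G) * p
            exact hsq p] at this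
    have h3 : ∑ g : G, Cfsg.extendByZero T (η θ) (g * g) = (Nat.card T : ℂ) := by
      have hT : (Nat.card T : ℂ) = ∑ g : G, if g ∈ T then (1 : ℂ) else 0 := by
        rw [Finset.sum_boole, Nat.card_eq_fintype_card, Fintype.card_subtype]
      rw [hT, ← Equiv.sum_comp e, ← Equiv.sum_comp e, Fintype.sum_prod_type_right,
        Fintype.sum_prod_type_right]
      rw [show (∑ p : P, ∑ n : N, Cfsg.extendByZero T (η θ) (e (n, p) * e (n, p))) =
        ∑ p : P, if ((z * p : P) : G) ∈ T then (Nat.card N : ℂ) else 0 from Finset.sum_congr rfl (fun p _ => h2 p)]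
      refine Fintype.sum_equiv (Equiv.mulLeft z) _ _ fun p => ?_
      show _ = ∑ n : N, if (n : G) * ((z * p : P) : G) ∈ T then (1 : ℂ) else 0
      simp only [hnpT]
      rw [Finset.sum_const, Finset.card_univ, nsmul_eq_mul, ← Nat.card_eq_fintype_card]
      split_ifs <;> simp
    simp only [Cfsg.indFun, ← Finset.mul_sum]
    rw [Finset.sum_comm, Finset.sum_congr rfl (fun x _ => h1 x), Finset.sum_const, h3, nsmul_eq_mul,
      Finset.card_univ, ← Nat.card_eq_fintype_card]
    have : (Nat.card G : ℂ) ≠ 0 := Nat.cast_ne_zero.2 Nat.card_pos.ne'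
    have : (Nat.card T : ℂ) ≠ 0 := Nat.cast_ne_zero.2 Nat.card_pos.ne'
    field_simp
  have hdeg : ∀ θ, Cfsg.charDegree (Cfsg.indFun T (η θ)) = T.index := fun θ => by
    show ⌊(Cfsg.indFun T (η θ) 1).re⌋₊ = _
    rw [indFun_apply_one, show η θ 1 = 1 by simp [η], mul_one]
    simp
  -- counting
  haveI : Fintype (Cfsg.IrrCharacter G) := Fintype.ofFinite _
  rw [finsum_eq_sum_of_fintype, Nat.card_eq_fintype_card]
  let S := {χ : Cfsg.IrrCharacter G // (Cfsg.charDegree (χ : G → ℂ) = 1 ∨ 2 ∣ Cfsg.charDegree (χ : G → ℂ)) ∧ (Nat.card G : ℂ)⁻¹ * ∑ᶠ g : G, (χ : G → ℂ) (g * g) = 1}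
  let deg : S → ℕ := fun χ => Cfsg.charDegree (χ.1 : G → ℂ)
  show 4 * Fintype.card S ≤ 3 * ∑ χ : S, deg χ
  let f : {θ : T →* ℂˣ // θ ^ 2 = 1} → {χ : S // deg χ ≠ 1} := fun θ =>
    ⟨⟨⟨_, (hirr θ).1⟩, Or.inr (by rw [hdeg θ]; exact hTeven), by
      rw [finsum_eq_sum_of_fintype]; exact hind θ⟩, by
      show Cfsg.charDegree (Cfsg.indFun T (η θ)) ≠ 1
      rw [hdeg]; exact hTpow⟩
  have hf : Function.Injective f := fun θ θ' h => by
    have h1 : Cfsg.indFun T (η θ) = Cfsg.indFun T (η θ') :=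
      congrArg (fun x : {χ : S // deg χ ≠ 1} => (x.1.1 : G → ℂ)) h
    have h2 := (hirr θ').2 (η θ) (hη θ) (hηN θ) h1
    refine Subtype.ext (MonoidHom.ext fun t => ?_)
    exact mul_left_cancel (Units.ext (congrFun h2 t))
  haveI : Finite (G →* ℂˣ) :=
    Finite.of_equiv (Abelianization G →* ℂˣ) (Abelianization.lift (G := G) (A := ℂˣ)).symm
  haveI : Finite (T →* ℂˣ) :=
    Finite.of_equiv (Abelianization T →* ℂˣ) (Abelianization.lift (G := T) (A := ℂˣ)).symm
  haveI : Fintype {θ : T →* ℂˣ // θ ^ 2 = 1} := Fintype.ofFinite _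
  have hlin : ∀ χ : {χ : S // deg χ = 1}, ∃ θ : {θ : G →* ℂˣ // θ ^ 2 = 1},
      ∀ g, (χ.1.1 : G → ℂ) g = ((θ.1 g : ℂˣ) : ℂ) := fun χ => by
    have hc := isCharacter_of_irr χ.1.1.2
    obtain ⟨ψ, hψ⟩ := exists_hom_of_linear hc (by
      rw [CfsgLib.CharBasics.apply_one hc, show Cfsg.charDegree _ = 1 from χ.2, Nat.cast_one])
    have hne : ∀ g, IsUnit (ψ g) := fun g => IsUnit.map ψ ⟨⟨g, g⁻¹, by simp, by simp⟩, rfl⟩
    let θ : G →* ℂˣ := ψ.toHomUnits
    refine ⟨⟨θ, ?_⟩, fun g => by rw [hψ]; rfl⟩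
    by_contra hne2
    have hs := χ.1.2.2
    rw [finsum_eq_sum_of_fintype] at hs
    have h0 : ∑ g : G, (χ.1.1 : G → ℂ) (g * g) = 0 := by
      have := sum_hom_ne (θ ^ 2) hne2
      refine Eq.trans (Finset.sum_congr rfl fun g _ => ?_) this
      rw [hψ]
      show ψ (g * g) = _
      simp [θ, pow_two]
    rw [h0, mul_zero] at hs
    exact zero_ne_one hs
  choose g hg using hlin
  have hginj : Function.Injective g := fun x y h =>
    Subtype.ext (Subtype.ext (Subtype.ext (funext fun t => by rw [hg x t, hg y t, h])))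
  have hA : Fintype.card {χ : S // deg χ = 1} ≤ T.index * Fintype.card {θ : T →* ℂˣ // θ ^ 2 = 1} := by
    rw [← Nat.card_eq_fintype_card, ← Nat.card_eq_fintype_card]
    exact (Nat.card_le_card_of_injective g hginj).trans (card_signChars_le T)
  have hsplit : ∀ F : S → ℤ, ∑ χ : S, F χ =
      ∑ χ : {χ : S // deg χ = 1}, F χ.1 + ∑ χ : {χ : S // deg χ ≠ 1}, F χ.1 := fun F =>
    (Fintype.sum_subtype_add_sum_subtype (fun χ : S => deg χ = 1) F).symm
  have hge : ∀ χ : {χ : S // deg χ ≠ 1}, (0 : ℤ) ≤ 3 * deg χ.1 - 4 := fun χ => by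
    have h1 := χ.2
    have h2 : 0 < deg χ.1 := CfsgLib.CharBasics.charDegree_pos χ.1.1.2
    omega
  have hB : (Fintype.card {θ : T →* ℂˣ // θ ^ 2 = 1} : ℤ) * T.index ≤
      ∑ χ : {χ : S // deg χ ≠ 1}, (3 * (deg χ.1 : ℤ) - 4) := by
    refine le_trans ?_ (Finset.sum_le_sum_of_subset_of_nonneg
      (Finset.subset_univ (Finset.univ.image f)) fun χ _ _ => hge χ)
    rw [Finset.sum_image hf.injOn, ← Finset.card_univ, ← nsmul_eq_mul, ← Finset.sum_const]
    refine Finset.sum_le_sum fun θ _ => ?_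
    show (T.index : ℤ) ≤ 3 * ((Cfsg.charDegree (Cfsg.indFun T (η θ)) : ℕ) : ℤ) - 4
    rw [hdeg]
    have : 2 ≤ T.index := Nat.le_of_dvd (Nat.pos_of_ne_zero Subgroup.index_ne_zero_of_finite) hTeven
    omega
  have key : (0 : ℤ) ≤ ∑ χ : S, (3 * (deg χ : ℤ) - 4) := by
    rw [hsplit]
    have hA' : ∑ χ : {χ : S // deg χ = 1}, (3 * (deg χ.1 : ℤ) - 4) = -(Fintype.card {χ : S // deg χ = 1} : ℤ) := by
      rw [Finset.sum_congr rfl (fun χ _ => show (3 * (deg χ.1 : ℤ) - 4) = -1 by rw [χ.2]; norm_num)]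
      simp
    rw [hA']
    have : (Fintype.card {χ : S // deg χ = 1} : ℤ) ≤ T.index * Fintype.card {θ : T →* ℂˣ // θ ^ 2 = 1} := by
      exact_mod_cast hA
    nlinarith
  rw [Finset.sum_sub_distrib, ← Finset.mul_sum, Finset.sum_const, Finset.card_univ, nsmul_eq_mul] at key
  have : (4 * Fintype.card S : ℤ) ≤ 3 * ∑ χ : S, (deg χ : ℤ) := by linarith
  exact_mod_cast this

end Cfsg.Agent.S4871
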