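import Cfsg.Statements.S4872
import Cfsg.Agent.S0904
import Cfsg.Agent.CharBasics.IndSub
import Cfsg.Agent.CharBasics.RealOddDegree
import Cfsg.Agent.Blocks.Weight

set_option autoImplicit false
open Cfsg CfsgLib CfsgLib.CharBasics CfsgLib.BrauerInd CfsgLib.RealOdd
open scoped ComplexConjugate Matrix

namespace Cfsg.Agent.S4872

universe u

variable {G : Type u} [Group G] [Fintype G]

/-- A character of indicator minus one has even-dimensional fixed spaces. -/
theorem even_fixed (χ : IrrCharacter G) (hind : ind (χ : G → ℂ) = -1) (P : Subgroup G) [Fintype P] (a : ℕ)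
    (ha : classInner (fun x : P => (χ : G → ℂ) x) (fun _ => 1) = (a : ℂ)) : Even a := by
  classical
  obtain ⟨χ, hχirr⟩ := χ
  obtain ⟨n, ρ, hρ, rfl⟩ := id hχirr
  simp only at hind ha
  have hχr : ∀ g, (ρ.character g).im = 0 := by
    by_contra hc
    push Not at hc
    rw [ind_nonreal hχirr hc] at hind
    norm_num at hind
  set A := matHom ρ
  have htr : ∀ g, (A g).trace = ρ.character g := fun g => congrFun (trace_matHom ρ) g
  have hfr := (finrank_invForms_irr ρ hχirr).1 hχr
  obtain ⟨⟨M, hM⟩, hne, -⟩ := finrank_eq_one_iff'.1 hfr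
  have hM0 : M ≠ 0 := fun h0 => hne (Subtype.ext h0)
  have hskew : Mᵀ = -M := by
    have h := (transpose_eq_ind A hfr hM).1
    rw [trace_matHom, hind] at h
    rw [h, neg_one_smul]
  have hMA : ∀ g, M * A g = (A g⁻¹)ᵀ * M := by
    intro g
    have h3 := (mem_invForms.1 hM) g
    calc M * A g = ((A g⁻¹)ᵀ * (A g)ᵀ) * (M * A g) := by
          rw [← Matrix.transpose_mul, ← map_mul, mul_inv_cancel, map_one, Matrix.transpose_one, Matrix.one_mul]
      _ = (A g⁻¹)ᵀ * ((A g)ᵀ * M * A g) := by simp only [Matrix.mul_assoc]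
      _ = _ := by rw [h3]
  -- `M` is invertible
  let W : Subrepresentation ρ := ⟨LinearMap.ker M.mulVecLin, fun g v hv => by
    rw [LinearMap.mem_ker, Matrix.mulVecLin_apply] at hv ⊢
    have h4 : ρ g v = (A g).mulVec v := by
      show _ = (matHom ρ g).mulVec v
      rw [matHom_apply, ← Matrix.toLin'_apply, Matrix.toLin'_toMatrix']
    rw [h4, Matrix.mulVec_mulVec, hMA, ← Matrix.mulVec_mulVec, hv, Matrix.mulVec_zero]⟩
  have hinj : ∀ v, M.mulVec v = 0 → v = 0 := by
    intro v hv
    rcases hρ.eq_bot_or_eq_top W with h' | h'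
    · have h5 : W.toSubmodule = ⊥ := congrArg Subrepresentation.toSubmodule h'
      exact (Submodule.mem_bot ℂ).1 (h5 ▸ (show v ∈ W.toSubmodule from LinearMap.mem_ker.2 hv))
    · refine absurd (Matrix.ext fun i j => ?_) hM0
      have h5 : W.toSubmodule = ⊤ := congrArg Subrepresentation.toSubmodule h'
      have h6 : M.mulVec (Pi.single j 1) = 0 :=
        LinearMap.mem_ker.1 (show Pi.single j (1 : ℂ) ∈ W.toSubmodule from h5 ▸ Submodule.mem_top)
      simpa using congrFun h6 i
  -- the projection onto the fixed vectors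
  set c : ℂ := (Nat.card P : ℂ)⁻¹ with hc
  have hP : (Nat.card P : ℂ) ≠ 0 := Nat.cast_ne_zero.2 Nat.card_pos.ne'
  set e : Matrix (Fin n) (Fin n) ℂ := ∑ i : P, c • A i with he
  have hcomm : ∀ x : P, A x * e = e := by
    intro x
    simp only [he, Finset.mul_sum, mul_smul_comm, ← map_mul, ← Subgroup.coe_mul]
    exact Fintype.sum_equiv (Equiv.mulLeft x) _ _ fun y => rfl
  have hidem : e * e = e := by
    conv_lhs => arg 1; rw [he]
    rw [Finset.sum_mul, Finset.sum_congr rfl fun i _ => by rw [smul_mul_assoc, hcomm i],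
      Finset.sum_const, Finset.card_univ, ← Nat.card_eq_fintype_card, ← Nat.cast_smul_eq_nsmul ℂ, smul_smul, hc,
      mul_inv_cancel₀ hP, one_smul]
  have heM : eᵀ * M = M * e := by
    rw [he, Matrix.transpose_sum, Finset.sum_mul, Finset.mul_sum]
    refine Fintype.sum_equiv (Equiv.inv P) _ _ fun i => ?_
    rw [Equiv.inv_apply, Matrix.transpose_smul, Matrix.smul_mul, Matrix.mul_smul, hMA]
    simp
  obtain ⟨d, J, L, hLJ, hJL⟩ := idempotent_factor hidem
  have had : (a : ℂ) = (d : ℂ) := by
    have h1 : e.trace = (d : ℂ) := by rw [← hJL, Matrix.trace_mul_comm, hLJ, Matrix.trace_one, Fintype.card_fin]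
    rw [← h1, ← ha, classInner_eq]
    simp [he, Matrix.trace_sum, Matrix.trace_smul, htr, hc, Finset.mul_sum]
  obtain rfl : a = d := Nat.cast_injective had
  -- the restricted form is skew and invertible
  set W' : Matrix (Fin a) (Fin a) ℂ := Jᵀ * M * J with hW'
  have hW'skew : W'ᵀ = -W' := by
    simp [hW', Matrix.transpose_mul, hskew, Matrix.mul_assoc]
  have hW'det : W'.det ≠ 0 := by
    intro h0
    obtain ⟨v, hv0, hv⟩ := Matrix.exists_mulVec_eq_zero_iff.2 h0
    refine hv0 ?_
    have h1 : (M * e).mulVec (J.mulVec v) = 0 := by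
      have h2 : M * e = Lᵀ * W' * L := by
        calc M * e = M * (e * e) := by rw [hidem]
          _ = eᵀ * M * e := by rw [heM, Matrix.mul_assoc]
          _ = Lᵀ * W' * L := by rw [← hJL, hW']; simp only [Matrix.transpose_mul, Matrix.mul_assoc]
      rw [h2, Matrix.mulVec_mulVec, Matrix.mul_assoc, hLJ, Matrix.mul_one, ← Matrix.mulVec_mulVec, hv,
        Matrix.mulVec_zero]
    rw [Matrix.mulVec_mulVec, Matrix.mul_assoc, ← hJL, Matrix.mul_assoc J, hLJ, Matrix.mul_one,
      ← Matrix.mulVec_mulVec] at h1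
    have h3 := congrArg L.mulVec (hinj _ h1)
    rwa [Matrix.mulVec_mulVec, hLJ, Matrix.one_mulVec, Matrix.mulVec_zero] at h3
  by_contra hodd
  rw [Nat.not_even_iff_odd] at hodd
  apply hW'det
  have h := congrArg Matrix.det hW'skew
  rw [Matrix.det_transpose, Matrix.det_neg, Fintype.card_fin, hodd.neg_one_pow, neg_one_mul] at h
  exact CharZero.eq_neg_self_iff.1 h

theorem main (N : Subgroup G) [N.Normal] [Fintype N] (h2 : IsPGroup 2 (G ⧸ N)) (φ : IrrCharacter N)
    (hdef : 2 ^ (Nat.card N).factorization 2 ∣ charDegree (φ : N → ℂ)) (g : G)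
    (hg : Clifford.conjFun g (φ : N → ℂ) = fun n => conj ((φ : N → ℂ) n)) :
    ∃ χ : IrrCharacter G, ind (χ : G → ℂ) = 1 ∧
      classInner (fun n : N => (χ : G → ℂ) n) (φ : N → ℂ) = 1 := by
  classical
  haveI : Fintype (IrrCharacter G) := @Fintype.ofFinite _ finite_irrCharacter
  haveI : Fact (Nat.Prime 2) := ⟨Nat.prime_two⟩
  obtain ⟨P⟩ : Nonempty (Sylow 2 G) := inferInstance
  haveI : Fintype (P : Subgroup G) := Fintype.ofFinite _
  have hφc := isCharacter_of_irr φ.2
  set Φ := indFun N (φ : N → ℂ) with hΦ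
  have hcl := fun χ : IrrCharacter G => CharBasics.isClassFunction (isCharacter_of_irr χ.2)
  choose m hm using fun χ : IrrCharacter G =>
    classInner_characters_nat (isCharacter_restrict (isCharacter_of_irr χ.2) N) hφc
  choose a ha using fun χ : IrrCharacter G =>
    classInner_characters_nat (isCharacter_restrict (isCharacter_of_irr χ.2) (P : Subgroup G))
      (isCharacter_of_irr (oneChar : IrrCharacter (P : Subgroup G)).2)
  have hmΦ : ∀ χ : IrrCharacter G, classInner Φ (χ : G → ℂ) = (m χ : ℂ) := fun χ => by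
    rw [hΦ, CharBasics.classInner_indFun N _ (hcl χ), CharBasics.classInner_comm]
    change conj (classInner (fun n : N => (χ : G → ℂ) n) (φ : N → ℂ)) = _
    rw [hm χ, Complex.conj_natCast]
  -- the parity count
  set vN := (Nat.card N).factorization 2 with hvN
  obtain ⟨r, hr⟩ := hdef
  obtain ⟨k, hk⟩ : ∃ k, N.index = 2 ^ k := IsPGroup.iff_card.1 h2
  have hrodd : Odd r := by
    by_contra hev
    rw [Nat.not_odd_iff_even] at hev
    obtain ⟨s, rfl⟩ := hev
    have h := degree_dvd φ
    rw [hr] at h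
    have h' : 2 ^ (vN + 1) ∣ Nat.card N := Dvd.dvd.trans ⟨s, by ring⟩ h
    have := (Nat.prime_two.pow_dvd_iff_le_factorization Nat.card_pos.ne').1 h'
    omega
  have hcount : ∑ χ : IrrCharacter G, m χ * a χ = r := by
    have hexp := classFun_expand (CharBasics.isClassFunction (CharBasics.isCharacter_indFun N hφc))
    have h1 : classInner (fun x : (P : Subgroup G) => Φ x) (fun _ => 1) = ((∑ χ, m χ * a χ : ℕ) : ℂ) := by
      have he : (fun x : (P : Subgroup G) => Φ x) =
          ∑ χ : IrrCharacter G, (m χ : ℂ) • fun x : (P : Subgroup G) => (χ : G → ℂ) x := by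
        funext x
        rw [show Φ x = _ from congrFun hexp x]
        simp only [Finset.sum_apply, Pi.smul_apply, smul_eq_mul, ← hΦ, hmΦ]
      rw [he, classInner_sum_left, Nat.cast_sum]
      refine Finset.sum_congr rfl fun χ _ => ?_
      rw [classInner_smul_left, Nat.cast_mul]
      congr 1
      exact ha χ
    have h2 : classInner (fun x : (P : Subgroup G) => Φ x) (fun _ => 1) = (r : ℂ) := by
      rw [classInner_eq, Finset.sum_eq_single (1 : (P : Subgroup G))]
      · rw [Subgroup.coe_one, hΦ, indFun_apply_one, apply_one hφc, hr, hk, map_one, mul_one,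
          P.card_eq_multiplicity, ← N.card_mul_index, hk,
          Nat.factorization_mul Nat.card_pos.ne' (by positivity), Finsupp.add_apply,
          Nat.prime_two.factorization_pow, Finsupp.single_eq_same, ← hvN, pow_add]
        push_cast
        field_simp
      · intro x _ hx
        rw [hΦ, indFun, Finset.sum_eq_zero, mul_zero, zero_mul]
        intro y _
        by_cases hy : y⁻¹ * ((x : (P : Subgroup G)) : G) * y ∈ N
        · rw [show y⁻¹ * ((x : (P : Subgroup G)) : G) * y = ((⟨_, hy⟩ : N) : G) from rfl, extendByZero_coe]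
          refine Cfsg.Agent.S0904.vanish_of_full 2 φ (hr ▸ dvd_mul_right _ _) _ ?_
          rw [← Subgroup.orderOf_coe]
          change 2 ∣ orderOf (y⁻¹ * ((x : (P : Subgroup G)) : G) * y)
          rw [show y⁻¹ * (x : G) * y = (MulAut.conj y⁻¹) (x : G) by simp,
            MulEquiv.orderOf_eq, Subgroup.orderOf_coe]
          obtain ⟨j, hj⟩ := IsPGroup.iff_orderOf.1 P.isPGroup' x
          rw [hj]
          refine dvd_pow_self 2 fun h0 => hx ?_
          rw [h0, pow_zero, orderOf_eq_one_iff] at hj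
          exact hj
        · exact extendByZero_of_not_mem N _ hy
      · exact fun h => absurd (Finset.mem_univ _) h
    exact_mod_cast h1.symm.trans h2
  -- a real character with odd contributions
  let σ : IrrCharacter G → IrrCharacter G := fun β => ⟨fun g => conj ((β : G → ℂ) g), isIrr_star β.2⟩
  have hinner_conj : ∀ {H : Type u} [Group H] [Fintype H] (f f' : H → ℂ),
      classInner (fun x => conj (f x)) f' = conj (classInner f (fun x => conj (f' x))) := by
    intro H _ _ f f'
    simp [classInner_eq, map_sum]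
  have hσa : ∀ χ, a (σ χ) = a χ := by
    intro χ
    have h : classInner (fun x : (P : Subgroup G) => conj ((χ : G → ℂ) x)) (fun _ => 1) = (a (σ χ) : ℂ) :=
      ha (σ χ)
    rw [hinner_conj] at h
    simp only [map_one] at h
    have h' : classInner (fun x : (P : Subgroup G) => (χ : G → ℂ) x) (fun _ => 1) = (a χ : ℂ) := ha χ
    rw [h', Complex.conj_natCast] at h
    exact (Nat.cast_injective h).symm
  have hσm : ∀ χ, m (σ χ) = m χ := by
    intro χ
    have h : classInner (fun n : N => conj ((χ : G → ℂ) n)) (φ : N → ℂ) = (m (σ χ) : ℂ) := hm (σ χ)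
    rw [hinner_conj, ← hg] at h
    conv at h => lhs; arg 2; rw [← Clifford.conjFun_restrict (hcl χ) g]
    rw [Clifford.classInner_conjFun] at h
    have h' : classInner (fun n : N => (χ : G → ℂ) n) (φ : N → ℂ) = (m χ : ℂ) := hm χ
    rw [h', Complex.conj_natCast] at h
    exact (Nat.cast_injective h).symm
  obtain ⟨χ, hfix, hodd⟩ := fixed_odd_invol σ (fun β => Subtype.ext (funext fun g => Complex.conj_conj _))
    (fun χ => m χ * a χ) (fun χ => by show _ * _ = _; rw [hσm, hσa]) (hcount ▸ hrodd)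
  rw [Nat.odd_mul] at hodd
  have hreal : ∀ x, ((χ : G → ℂ) x).im = 0 := fun x =>
    Complex.conj_eq_iff_im.1 (congrFun (congrArg Subtype.val hfix) x)
  refine ⟨χ, (ind_real χ.2 hreal).resolve_right fun hneg => ?_, ?_⟩
  · exact Nat.not_even_iff_odd.2 hodd.2 (even_fixed χ hneg (P : Subgroup G) (a χ) (ha χ))
  · have hne : classInner (fun n : N => (χ : G → ℂ) n) (φ : N → ℂ) ≠ 0 := by
      rw [show classInner (fun n : N => (χ : G → ℂ) n) (φ : N → ℂ) = (m χ : ℂ) from hm χ]
      exact Nat.cast_ne_zero.2 hodd.1.pos.ne'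
    have h1 := Clifford.restrict_one_eq χ.2 φ.2 hne
    rw [show classInner (fun n : N => (χ : G → ℂ) n) (φ : N → ℂ) = (m χ : ℂ) from hm χ,
      apply_one (isCharacter_of_irr χ.2), apply_one hφc, ← Nat.cast_mul, ← Nat.cast_mul, Nat.cast_inj] at h1
    have h3 := CfsgLib.Blocks.degree_dvd_constituent_mul_index χ.2 N φ.2 hne
    rw [h1, mul_comm (charDegree (φ : N → ℂ)) N.index] at h3
    have h4 := Nat.dvd_of_mul_dvd_mul_right (charDegree_pos φ.2) h3
    rw [hk] at h4
    obtain ⟨j, -, hj⟩ := (Nat.dvd_prime_pow Nat.prime_two).1 ((dvd_mul_right _ _).trans h4)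
    have hm1 : m χ = 1 := by
      rcases Nat.eq_zero_or_pos j with rfl | hj0
      · rw [hj, pow_zero]
      · exact absurd (hj ▸ hodd.1) (Nat.not_odd_iff_even.2 (Even.pow_of_ne_zero even_two hj0.ne'))
    rw [show classInner (fun n : N => (χ : G → ℂ) n) (φ : N → ℂ) = (m χ : ℂ) from hm χ, hm1, Nat.cast_one]

/-- Let N be a normal subgroup of the finite group G with G/N a 2-group, and let φ be an irreducible complex character of N of 2-defect zero (the 2-part of #N divides φ(1)) whose complex conjugate is G-conjugate to φ. Then some irreducible character of G with Frobenius–Schur indicator +1 contains φ with multiplicity exactly one on restriction to N. -/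
theorem result {G : Type*} [Group G] [Finite G] (N : Subgroup G) [N.Normal] (h2 : IsPGroup 2 (G ⧸ N)) (φ : Cfsg.IrrCharacter ↥N) (hdef : 2 ^ (Nat.card ↥N).factorization 2 ∣ Cfsg.charDegree (φ : ↥N → ℂ)) (hconj : ∃ g : G, ∀ n n' : ↥N, (n' : G) = g * (n : G) * g⁻¹ → (φ : ↥N → ℂ) n' = (starRingEnd ℂ) ((φ : ↥N → ℂ) n)) : ∃ χ : Cfsg.IrrCharacter G, (Nat.card G : ℂ)⁻¹ * ∑ᶠ g : G, (χ : G → ℂ) (g * g) = 1 ∧ (Nat.card ↥N : ℂ)⁻¹ * ∑ᶠ n : ↥N, (χ : G → ℂ) n * (starRingEnd ℂ) ((φ : ↥N → ℂ) n) = 1 := by
  classical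
  haveI : Fintype G := Fintype.ofFinite G
  haveI : Fintype N := Fintype.ofFinite N
  obtain ⟨g, hg⟩ := hconj
  obtain ⟨χ, h1, h3⟩ := main N h2 φ hdef g (funext fun n => hg n _ rfl)
  refine ⟨χ, ?_, ?_⟩
  · rw [finsum_eq_sum_of_fintype]; exact h1
  · rw [finsum_eq_sum_of_fintype]; rw [classInner_eq] at h3; exact h3

end Cfsg.Agent.S4872
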