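import Cfsg.Statements.S4911
import Cfsg.Agent.Blocks.GlaubermanReal

set_option autoImplicit false
open Cfsg CfsgLib.CharBasics

namespace Cfsg.Agent.S4911

/-- Let P and K be subgroups of a finite group with P a p-group normalizing K and K of order prime to p. Then the number of P-invariant real-valued irreducible complex characters of K equals the number of conjugacy classes of K that are real (closed under inversion) and P-invariant. Moreover, if every real-valued irreducible character of K is P-invariant, then every real element of K (one conjugate in K to its inverse) is conjugate in K to an element centralized by P. -/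
theorem result {G : Type*} [Group G] [Finite G] (p : ℕ) [Fact p.Prime] (P K : Subgroup G) (hP : IsPGroup p ↥P) (hK : ¬ p ∣ Nat.card ↥K) (hPK : P ≤ Subgroup.normalizer (K : Set G)) : Nat.card {θ : Cfsg.IrrCharacter ↥K // (∀ k : ↥K, ((θ : ↥K → ℂ) k).im = 0) ∧ (∀ x ∈ P, ∀ k k' : ↥K, (k' : G) = x * (k : G) * x⁻¹ → (θ : ↥K → ℂ) k' = (θ : ↥K → ℂ) k)} = Nat.card {c : ConjClasses ↥K // (∀ k : ↥K, ConjClasses.mk k = c → IsConj k k⁻¹) ∧ ∀ k : ↥K, ConjClasses.mk k = c → ∀ x ∈ P, ∀ k' : ↥K, (k' : G) = x * (k : G) * x⁻¹ → ConjClasses.mk k' = c} ∧ ((∀ θ : Cfsg.IrrCharacter ↥K, (∀ k : ↥K, ((θ : ↥K → ℂ) k).im = 0) → (∀ x ∈ P, ∀ k k' : ↥K, (k' : G) = x * (k : G) * x⁻¹ → (θ : ↥K → ℂ) k' = (θ : ↥K → ℂ) k)) → ∀ k : ↥K, IsConj k k⁻¹ → ∃ k' : ↥K, IsConj k k' ∧ ∀ x ∈ P, x * (k' : G) * x⁻¹ = (k' : G)) := by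
  classical
  obtain ⟨M, hM⟩ := CfsgLib.Blocks.exists_modular (Fact.out : p.Prime)
  haveI : Fintype K := Fintype.ofFinite _
  let φ : P →* MulAut K :=
    { toFun := fun x =>
        { toFun := fun k => ⟨x * k * (x : G)⁻¹, (Subgroup.mem_normalizer_iff.1 (hPK x.2) _).1 k.2⟩
          invFun := fun k => ⟨(x : G)⁻¹ * k * x, by
            have := (Subgroup.mem_normalizer_iff.1 (hPK (P.inv_mem x.2)) _).1 k.2
            simpa using this⟩
          left_inv := fun k => Subtype.ext (by simp [mul_assoc])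
          right_inv := fun k => Subtype.ext (by simp [mul_assoc])
          map_mul' := fun a b => Subtype.ext (by simp [mul_assoc]) }
      map_one' := MulEquiv.ext fun k => Subtype.ext (by simp)
      map_mul' := fun a b => MulEquiv.ext fun k => Subtype.ext (by simp [mul_assoc]) }
  have hiff : ∀ f : K → ℂ, (∀ x ∈ P, ∀ k k' : K, (k' : G) = x * (k : G) * x⁻¹ → f k' = f k) ↔
      CfsgLib.Blocks.IsInvariant φ f :=
    fun f => ⟨fun h s k => h s s.2 k _ rfl, fun h x hx k k' e => by
      rw [show k' = φ ⟨x, hx⟩ k from Subtype.ext e]; exact h _ _⟩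
  refine ⟨?_, fun hall k hk => ?_⟩
  · refine (Nat.card_congr (Equiv.subtypeEquivRight fun θ => and_congr_right fun _ => hiff _)).trans
      ((CfsgLib.Blocks.card_real_invariant φ hM hP hK).trans (Nat.card_congr (Equiv.subtypeEquivRight fun c =>
        and_congr_right fun _ => ⟨fun h k hk x hx k' e => ?_, fun h k hk s => h k hk s s.2 _ rfl⟩)))
    rw [show k' = φ ⟨x, hx⟩ k from Subtype.ext e]
    exact h k hk _
  · obtain ⟨c, hc, hfix⟩ := CfsgLib.Blocks.real_classes_fixed φ hM hP hK (fun χ h => (hiff _).1 (hall χ h)) hk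
    exact ⟨c, hc, fun x hx => congrArg Subtype.val (hfix ⟨x, hx⟩)⟩

end Cfsg.Agent.S4911
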