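import Cfsg.Statements.S4914
import Cfsg.Agent.Clifford.GlaubermanNormalSylow

set_option autoImplicit false
open Cfsg CfsgLib.CharBasics

namespace Cfsg.Agent.S4914

/-- Let P and K be subgroups of a finite group G with P a p-group normalizing K, and suppose K has a normal Sylow p-subgroup Q. Let C be the subgroup of those k ∈ K whose commutator with every element of P lies in Q (so that C/Q is the fixed-point subgroup of P on K/Q). Then there is a bijection f from the P-invariant irreducible complex characters of K onto the P-invariant irreducible complex characters of C such that, for every P-invariant irreducible character χ of K, the multiplicity of f(χ) in the restriction of χ to C is a natural number congruent to 1 or to −1 modulo p, every other P-invariant irreducible character of C occurs in that restriction with multiplicity divisible by p, and the degrees of χ and f(χ) are congruent modulo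 p up to sign. -/
theorem result {G : Type*} [Group G] [Finite G] (p : ℕ) [Fact p.Prime] (P K Q C : Subgroup G) (hP : IsPGroup p ↥P) (hPK : P ≤ Subgroup.normalizer (K : Set G)) (hQK : Q ≤ K) (hQn : ∀ k ∈ K, ∀ q ∈ Q, k * q * k⁻¹ ∈ Q) (hQp : ∃ a : ℕ, Nat.card ↥Q = p ^ a) (hQsyl : ¬ p ∣ Q.relIndex K) (hCK : C ≤ K) (hC : ∀ k : G, k ∈ C ↔ (k ∈ K ∧ ∀ x ∈ P, x * k * x⁻¹ * k⁻¹ ∈ Q)) : ∃ f : {χ : Cfsg.IrrCharacter ↥K // (∀ x ∈ P, ∀ k k' : ↥K, (k' : G) = x * (k : G) * x⁻¹ → (χ : ↥K → ℂ) k' = (χ : ↥K → ℂ) k)} → {ξ : Cfsg.IrrCharacter ↥C // (∀ x ∈ P, ∀ k k' : ↥C, (k' : G) = x * (k : G) * x⁻¹ → (ξ : ↥C → ℂ) k' = (ξ : ↥C → ℂ) k)}, Function.Bijective f ∧ ∀ χ, (∀ ξ : {ξ : Cfsg.IrrCharacter ↥C // (∀ x ∈ P, ∀ k k' : ↥C, (k' : G) = x * (k : G) * x⁻¹ → (ξ : ↥C → ℂ) k' = (ξ : ↥C → ℂ) k)}, ∃ m : ℕ, (Nat.card ↥C : ℂ)⁻¹ * ∑ᶠ c : ↥C, (χ.1 : ↥K → ℂ) (Subgroup.inclusion hCK c) * (starRingEnd ℂ) ((ξ.1 : ↥C → ℂ) c) = (m : ℂ) ∧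 (ξ = f χ → ((m : ZMod p) = 1 ∨ (m : ZMod p) = -1)) ∧ (ξ ≠ f χ → p ∣ m)) ∧ ((Cfsg.charDegree ((f χ).1 : ↥C → ℂ) : ZMod p) = (Cfsg.charDegree (χ.1 : ↥K → ℂ) : ZMod p) ∨ (Cfsg.charDegree ((f χ).1 : ↥C → ℂ) : ZMod p) = -(Cfsg.charDegree (χ.1 : ↥K → ℂ) : ZMod p)) := by
  classical
  haveI := Fintype.ofFinite G
  haveI : Fintype K := Fintype.ofFinite K
  have hp : p.Prime := Fact.out
  let c : ↥P → ↥K → ↥K := fun x k => ⟨(x : G) * k * (x : G)⁻¹, (Subgroup.mem_normalizer_iff.1 (hPK x.2) _).1 k.2⟩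
  let φ : ↥P →* MulAut ↥K :=
    { toFun := fun x =>
        { toFun := c x
          invFun := c x⁻¹
          left_inv := fun k => Subtype.ext (by simp [c, mul_assoc])
          right_inv := fun k => Subtype.ext (by simp [c, mul_assoc])
          map_mul' := fun a b => Subtype.ext (by simp [c, mul_assoc]) }
      map_one' := MulEquiv.ext fun k => Subtype.ext (by simp [c])
      map_mul' := fun x y => MulEquiv.ext fun k => Subtype.ext (by simp [c, mul_assoc]) }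
  set Q' : Subgroup ↥K := Q.subgroupOf K with hQ'
  haveI : Q'.Normal := ⟨fun q hq k => hQn _ k.2 _ hq⟩
  haveI : Fintype Q' := Fintype.ofFinite Q'
  set C' : Subgroup ↥K := C.subgroupOf K with hC'
  haveI : Fintype C' := Fintype.ofFinite C'
  haveI : Fintype ↥C := Fintype.ofFinite C
  obtain ⟨a, ha⟩ := hQp
  have hQ'p : IsPGroup p Q' :=
    IsPGroup.of_card (n := a) (by rw [Nat.card_congr (Subgroup.subgroupOfEquivOfLe hQK).toEquiv, ha])
  have hC'' : ∀ k : ↥K, k ∈ C' ↔ ∀ s, φ s k * k⁻¹ ∈ Q' := fun k =>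
    ⟨fun h s => ((hC _).1 h).2 s s.2, fun h => (hC _).2 ⟨k.2, fun x hx => h ⟨x, hx⟩⟩⟩
  obtain ⟨hA, hB⟩ := CfsgLib.NormalSylowCorr.corr_main φ Q' C' hP hQ'p hQsyl hC''
  let e : C' ≃* ↥C := Subgroup.subgroupOfEquivOfLe hCK
  let down : IrrCharacter ↥C → IrrCharacter C' := fun ξ =>
    ⟨fun x => (ξ : ↥C → ℂ) (e x), CfsgLib.Clifford.isIrrCharacter_comp ξ.2 e.toMonoidHom e.surjective⟩
  let up : IrrCharacter C' → IrrCharacter ↥C := fun ξ =>
    ⟨fun x => (ξ : C' → ℂ) (e.symm x), CfsgLib.Clifford.isIrrCharacter_comp ξ.2 e.symm.toMonoidHom e.symm.surjective⟩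
  have hud : ∀ ξ, up (down ξ) = ξ := fun ξ => Subtype.ext (funext fun x => congrArg (ξ : ↥C → ℂ) (e.apply_symm_apply x))
  have hdu : ∀ ξ, down (up ξ) = ξ := fun ξ => Subtype.ext (funext fun x => congrArg (ξ : C' → ℂ) (e.symm_apply_apply x))
  have hinvK : ∀ χ : IrrCharacter ↥K,
      (∀ x ∈ P, ∀ k k' : ↥K, (k' : G) = x * (k : G) * x⁻¹ → (χ : ↥K → ℂ) k' = (χ : ↥K → ℂ) k) ↔
        CfsgLib.Blocks.IsInvariant φ (χ : ↥K → ℂ) := fun χ =>
    ⟨fun h s k => h s s.2 k _ rfl, fun h x hx k k' hk => by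
      rw [show k' = φ ⟨x, hx⟩ k from Subtype.ext hk]; exact h _ k⟩
  have hinvC : ∀ ξ : IrrCharacter ↥C,
      (∀ x ∈ P, ∀ k k' : ↥C, (k' : G) = x * (k : G) * x⁻¹ → (ξ : ↥C → ℂ) k' = (ξ : ↥C → ℂ) k) ↔
        (∀ (s : ↥P) (d d' : C'), (d' : ↥K) = φ s d → (down ξ : C' → ℂ) d' = (down ξ : C' → ℂ) d) := fun ξ =>
    ⟨fun h s d d' hd => h s s.2 (e d) (e d') (congrArg Subtype.val hd), fun h x hx k k' hk => by
      have := h ⟨x, hx⟩ (e.symm k) (e.symm k') (Subtype.ext hk)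
      simpa [down] using this⟩
  have hm : ∀ (χ : IrrCharacter ↥K) (ξ : IrrCharacter ↥C),
      (Nat.card ↥C : ℂ)⁻¹ * ∑ᶠ z : ↥C, (χ : ↥K → ℂ) (Subgroup.inclusion hCK z) * (starRingEnd ℂ) ((ξ : ↥C → ℂ) z) =
        classInner (fun x : C' => (χ : ↥K → ℂ) x) (down ξ : C' → ℂ) := fun χ ξ => by
    rw [finsum_eq_sum_of_fintype]
    exact (CfsgLib.Clifford.classInner_comp_equiv e (fun z : ↥C => (χ : ↥K → ℂ) (Subgroup.inclusion hCK z)) (ξ : ↥C → ℂ)).symm
  choose F hFi hF using hA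
  let fv : {χ : IrrCharacter ↥K // (∀ x ∈ P, ∀ k k' : ↥K, (k' : G) = x * (k : G) * x⁻¹ → (χ : ↥K → ℂ) k' = (χ : ↥K → ℂ) k)} →
      {ξ : IrrCharacter ↥C // (∀ x ∈ P, ∀ k k' : ↥C, (k' : G) = x * (k : G) * x⁻¹ → (ξ : ↥C → ℂ) k' = (ξ : ↥C → ℂ) k)} :=
    fun χ => ⟨up (F χ.1 ((hinvK _).1 χ.2)), (hinvC _).2 (by rw [hdu]; exact hFi _ _)⟩
  refine ⟨fv, ⟨fun χ χ' h => ?_, fun ξ => ?_⟩, fun χ => ⟨fun ξ => ?_, ?_⟩⟩
  · have hFe : F χ.1 ((hinvK _).1 χ.2) = F χ'.1 ((hinvK _).1 χ'.2) := by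
      have := congrArg (fun z => down z.1) h
      simpa [fv, hdu] using this
    obtain ⟨u, -, hu⟩ := hB (F χ.1 ((hinvK _).1 χ.2)) (hFi _ _)
    have e1 : χ.1 = u := hu _ ⟨(hinvK _).1 χ.2, fun m hm hd => ((hF _ _ _ (hFi _ _) m hm).1.1 hd) rfl⟩
    have e2 : χ'.1 = u := hu _ ⟨(hinvK _).1 χ'.2, fun m hm hd => by
      rw [hFe] at hm; exact ((hF _ _ _ (hFi _ _) m hm).1.1 hd) rfl⟩
    exact Subtype.ext (e1.trans e2.symm)
  · obtain ⟨u, ⟨hui, hu⟩, -⟩ := hB (down ξ.1) ((hinvC _).1 ξ.2)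
    refine ⟨⟨u, (hinvK _).2 hui⟩, Subtype.ext ?_⟩
    obtain ⟨m, hm'⟩ := classInner_characters_nat (CfsgLib.CharBasics.isCharacter_restrict (isCharacter_of_irr u.2) C')
      (isCharacter_of_irr (down ξ.1).2)
    have he : down ξ.1 = F u hui := by
      by_contra hne
      exact hu m hm' ((hF u hui _ ((hinvC _).1 ξ.2) m hm').1.2 hne)
    show up (F u _) = ξ.1
    rw [← he, hud]
  · obtain ⟨m, hm'⟩ := classInner_characters_nat (CfsgLib.CharBasics.isCharacter_restrict (isCharacter_of_irr χ.1.2) C')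
      (isCharacter_of_irr (down ξ.1).2)
    obtain ⟨h1, h2⟩ := hF χ.1 ((hinvK _).1 χ.2) _ ((hinvC _).1 ξ.2) m hm'
    have hiff : ξ = fv χ ↔ down ξ.1 = F χ.1 ((hinvK _).1 χ.2) := by
      constructor
      · rintro rfl; exact hdu _
      · intro h
        refine Subtype.ext ?_
        show ξ.1 = up _
        rw [← h, hud]
    exact ⟨m, (hm _ _).trans hm', fun h => h2 (hiff.1 h), fun h => h1.2 (fun h' => h (hiff.2 h'))⟩
  · haveI : Fintype (IrrCharacter C') := Fintype.ofFinite _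
    obtain ⟨M, hM⟩ := CfsgLib.Blocks.exists_modular hp
    set χ' := χ.1
    have hχi := (hinvK χ').1 χ.2
    set β := F χ' hχi
    have hres := CfsgLib.CharBasics.isCharacter_restrict (isCharacter_of_irr χ'.2) C'
    choose μ hμ using fun ξ : IrrCharacter C' => classInner_character_nat hres ξ
    have hCinv : ∀ s, ∀ k ∈ C', φ s k ∈ C' := by
      intro s k hk
      rw [hC''] at hk ⊢
      intro t
      rw [show φ t (φ s k) * (φ s k)⁻¹ = φ (t * s) k * k⁻¹ * (φ s k * k⁻¹)⁻¹ by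
        rw [map_mul, MulAut.mul_apply]; group]
      exact Q'.mul_mem (hk _) (Q'.inv_mem (hk _))
    let φC := CfsgLib.NormalSylowCorr.restrictAct φ C' hCinv
    letI : MulAction ↥P (IrrCharacter C') :=
      { smul := fun s ξ => CfsgLib.Blocks.twistChar (φC s⁻¹) ξ
        one_smul := fun ξ => Subtype.ext (funext fun g => by
          show (ξ : C' → ℂ) (φC (1 : ↥P)⁻¹ g) = _; rw [inv_one, map_one]; rfl)
        mul_smul := fun s t ξ => Subtype.ext (funext fun g => by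
          show (ξ : C' → ℂ) (φC (s * t)⁻¹ g) = (ξ : C' → ℂ) (φC t⁻¹ (φC s⁻¹ g)); rw [mul_inv_rev, map_mul]; rfl) }
    have hinv' : ∀ ξ : IrrCharacter C', (∀ s : ↥P, s • ξ = ξ) ↔
        (∀ (s : ↥P) (d d' : C'), (d' : ↥K) = φ s d → (ξ : C' → ℂ) d' = (ξ : C' → ℂ) d) := by
      intro ξ
      constructor
      · intro h s d d' hd
        have h1 : CfsgLib.Blocks.twistChar (φC s⁻¹⁻¹) ξ = ξ := h s⁻¹
        rw [inv_inv] at h1
        rw [show d' = φC s d from Subtype.ext hd]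
        exact congrFun (congrArg Subtype.val h1) d
      · exact fun h s => Subtype.ext (funext fun d => h s⁻¹ d _ rfl)
    have hμs : ∀ (s : ↥P) (ξ : IrrCharacter C'), μ (s • ξ) = μ ξ := by
      intro s ξ
      refine Nat.cast_injective (R := ℂ) ?_
      rw [← hμ, ← hμ]
      conv_rhs => rw [← CfsgLib.Clifford.classInner_comp_equiv (φC s⁻¹)]
      congr 1
      funext d
      exact (hχi s⁻¹ (d : ↥K)).symm
    have hsum := CfsgLib.Blocks.sum_sub_fixed_mem hM hP (W := IrrCharacter C')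
      (fun ξ => ((μ ξ * charDegree (ξ : C' → ℂ) : ℕ) : ℂ)) (fun s ξ => by
        show ((μ (s • ξ) * charDegree (fun g => (ξ : C' → ℂ) (φC s⁻¹ g)) : ℕ) : ℂ) = _
        rw [hμs]
        simp only [charDegree, map_one]) (fun ξ => CfsgLib.Blocks.memLocalRing_natCast hM _)
    have htot : ∑ ξ : IrrCharacter C', ((μ ξ * charDegree (ξ : C' → ℂ) : ℕ) : ℂ) = (charDegree (χ' : ↥K → ℂ) : ℂ) := by
      have := congrFun (classFun_expand (isClassFunction hres)) 1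
      simp only [Finset.sum_apply, Pi.smul_apply, smul_eq_mul, hμ] at this
      rw [← apply_one (isCharacter_of_irr χ'.2), ← Subgroup.coe_one C', this]
      exact Finset.sum_congr rfl fun ξ _ => by rw [Nat.cast_mul, apply_one (isCharacter_of_irr ξ.2)]
    rw [htot, ← Finset.sum_filter, ← Nat.cast_sum,
      show (((charDegree (χ' : ↥K → ℂ) : ℕ) : ℂ) - ((∑ ξ ∈ Finset.univ.filter (fun ξ : IrrCharacter C' => ∀ s : ↥P, s • ξ = ξ), μ ξ * charDegree (ξ : C' → ℂ) : ℕ) : ℂ)) =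
        (((charDegree (χ' : ↥K → ℂ) : ℤ) - ((∑ ξ ∈ Finset.univ.filter (fun ξ : IrrCharacter C' => ∀ s : ↥P, s • ξ = ξ), μ ξ * charDegree (ξ : C' → ℂ) : ℕ) : ℤ) : ℤ) : ℂ) by push_cast; ring,
      CfsgLib.Blocks.memLocalIdeal_intCast_iff hM, ← ZMod.intCast_zmod_eq_zero_iff_dvd] at hsum
    push_cast at hsum
    rw [sub_eq_zero, Finset.sum_eq_single β] at hsum
    · have hd : charDegree ((fv χ).1 : ↥C → ℂ) = charDegree (β : C' → ℂ) := by
        simp only [charDegree]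
        show ⌊((β : C' → ℂ) (e.symm 1)).re⌋₊ = _
        rw [map_one]
      rw [hd, hsum]
      rcases (hF χ' hχi β (hFi _ _) (μ β) (hμ β)).2 rfl with h | h <;> rw [h]
      · left; rw [one_mul]
      · right; rw [neg_one_mul, neg_neg]
    · intro ξ hξ hne
      have := (hF χ' hχi ξ ((hinv' ξ).1 (Finset.mem_filter.1 hξ).2) (μ ξ) (hμ ξ)).1.2 hne
      rw [(ZMod.natCast_eq_zero_iff _ _).2 this, zero_mul]
    · exact fun h => absurd (Finset.mem_filter.2 ⟨Finset.mem_univ _, (hinv' β).2 (hFi _ _)⟩) h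

end Cfsg.Agent.S4914
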