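import Cfsg.Statements.S4916
import Cfsg.Agent.CharBasics.ModP
import Cfsg.Agent.Blocks.Idempotent

set_option autoImplicit false
open Cfsg CfsgLib.CharBasics CfsgLib.Blocks
open scoped ComplexConjugate

namespace Cfsg.Agent.S4916

/-- Let G be a finite group, p a prime and M a maximal ideal of the algebraic integers containing p. Then the principal character is the only irreducible character of degree prime to p in the principal p-block of G if and only if p does not divide the order of G. -/
theorem result {G : Type*} [Group G] [Finite G] (p : ℕ) [Fact p.Prime] (M : Ideal Cfsg.AlgInt) (hM : Cfsg.IsPModular p M) : (∀ χ : Cfsg.IrrCharacter G, χ ∈ Cfsg.principalBlock M G → ¬ p ∣ Cfsg.charDegree (χ : G → ℂ) → (χ : G → ℂ) = fun _ => (1 : ℂ)) ↔ ¬ p ∣ Nat.card G := by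
  classical
  haveI : Fintype G := Fintype.ofFinite G
  haveI : Fintype (IrrCharacter G) := @Fintype.ofFinite _ finite_irrCharacter
  constructor
  · intro h hpG
    obtain ⟨x, hx⟩ := exists_prime_orderOf_dvd_card' p hpG
    have hw := weak_block_orth' hM (isPBlock_principal (G := G)) (x := 1) (y := x) (by simp [(Fact.out : p.Prime).ne_one])
      (by rw [hx])
    rw [finsum_mem_def, finsum_eq_sum_of_fintype,
      ← Finset.add_sum_erase _ _ (Finset.mem_univ (oneChar : IrrCharacter G))] at hw
    rw [Set.indicator_of_mem (oneChar_mem_principal hM)] at hw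
    simp only [oneChar_apply, map_one, mul_one] at hw
    refine not_memLocalIdeal_one hM ?_
    rw [eq_neg_of_add_eq_zero_left hw]
    refine memLocalIdeal_neg (memLocalIdeal_sum hM _ fun χ hχ => ?_)
    rw [Set.indicator_apply]
    split_ifs with hmem
    · refine memLocalIdeal_mul_left hM (memLocalRing_apply hM χ x) ?_
      rw [← apply_inv (isCharacter_of_irr χ.2), inv_one, apply_one (isCharacter_of_irr χ.2),
        memLocalIdeal_natCast_iff hM]
      by_contra hd
      exact (Finset.mem_erase.1 hχ).1 (Subtype.ext (h χ hmem hd))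
    · exact memLocalIdeal_zero hM
  · intro hpG χ hmem _
    by_contra hne
    have hsum := sum_irr_eq_zero χ.2 hne
    refine hpG ((memLocalIdeal_natCast_iff hM _).1 ?_)
    have hterm : ∀ g : G, MemLocalIdeal M ((χ : G → ℂ) g / (χ : G → ℂ) 1 - 1) := by
      intro g
      have h1 := hmem g
      set n := (Subgroup.centralizer ({g} : Set G)).index with hn
      have hnd : ¬ p ∣ n := fun h' => hpG (h'.trans (Subgroup.index_dvd_card _))
      have e : (χ : G → ℂ) g / (χ : G → ℂ) 1 - 1 = -((n : ℂ)⁻¹ *
          (centralChar (fun _ : G => (1 : ℂ)) g - centralChar (χ : G → ℂ) g)) := by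
        have hn0 : (n : ℂ) ≠ 0 := Nat.cast_ne_zero.2 (fun h0 => hnd (h0 ▸ dvd_zero p))
        have := apply_one_ne_zero χ.2
        simp only [centralChar, ← hn]
        field_simp
        ring
      rw [e]
      exact memLocalIdeal_neg (memLocalIdeal_mul_left hM (memLocalRing_natCast_inv hM hnd) h1)
    have := memLocalIdeal_neg (memLocalIdeal_sum hM Finset.univ fun g _ => hterm g)
    rw [Finset.sum_sub_distrib, ← Finset.sum_div, hsum, zero_div, zero_sub, neg_neg, Finset.sum_const,
      Finset.card_univ, nsmul_eq_mul, mul_one] at this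
    rwa [Nat.card_eq_fintype_card]

end Cfsg.Agent.S4916
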