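import Cfsg.Statements.S4937
import Cfsg.Agent.Blocks.CosetScalar
import Cfsg.Agent.Clifford.Extend
import Mathlib.GroupTheory.GroupAction.Quotient

set_option autoImplicit false
set_option linter.style.haveILetI false
open Cfsg CfsgLib CfsgLib.CharBasics CfsgLib.Clifford CfsgLib.Blocks

namespace Cfsg.Agent.S4937

/-- The orbit under a normal subgroup of an element centralizing one of its Sylow subgroups. -/
theorem not_dvd_orbit {G : Type*} [Group G] [Finite G] {p : ℕ} [Fact p.Prime] {N : Subgroup G} (P : Sylow p N) {c : G}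
    (hc : c ∈ Subgroup.centralizer (((P : Subgroup N).map N.subtype : Subgroup G) : Set G)) :
    ¬ p ∣ Nat.card {x : G // ∃ n ∈ N, n * c * n⁻¹ = x} := by
  letI : MulAction N G := MulAction.compHom G ((MulAut.conj : G →* MulAut G).comp N.subtype)
  have hact : ∀ (n : N) (x : G), n • x = (n : G) * x * (n : G)⁻¹ := fun n x => rfl
  have e : Nat.card {x : G // ∃ n ∈ N, n * c * n⁻¹ = x} = (MulAction.stabilizer N c).index := by
    rw [MulAction.index_stabilizer, ← Nat.card_coe_set_eq]
    refine Nat.card_congr (Equiv.subtypeEquivRight fun x => ⟨fun ⟨n, hn, h⟩ => ⟨⟨n, hn⟩, h⟩, ?_⟩)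
    rintro ⟨n, h⟩
    exact ⟨n, n.2, h⟩
  rw [e]
  refine fun h => P.not_dvd_index (h.trans (Subgroup.index_dvd_of_le fun n hn => ?_))
  rw [MulAction.mem_stabilizer_iff, hact, Subgroup.mem_centralizer_iff.1 hc n ⟨n, hn, rfl⟩, mul_inv_cancel_right]

/-- Let G be a finite group, p a prime, M a maximal ideal of the algebraic integers containing p, N a normal subgroup of G and P a Sylow p-subgroup of N such that G = N·C_G(P). Let θ be an irreducible character in the principal p-block of N that is the restriction of some irreducible character of G. Then θ is the restriction of an irreducible character χ of G lying in the principal p-block of G such that, for every subgroup J of G containing N, the restriction of χ to J is an irreducible character of J lying in the principal p-block of J. -/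
theorem result {G : Type*} [Group G] [Finite G] (p : ℕ) [Fact p.Prime] (M : Ideal Cfsg.AlgInt) (hM : Cfsg.IsPModular p M) (N : Subgroup G) [N.Normal] (P : Sylow p ↥N)
    (hcov : N ⊔ Subgroup.centralizer (((P : Subgroup ↥N).map N.subtype : Subgroup G) : Set G) = ⊤)
    (θ : Cfsg.IrrCharacter ↥N) (hθ : θ ∈ Cfsg.principalBlock M ↥N)
    (hext : ∃ ψ : Cfsg.IrrCharacter G, ∀ x : ↥N, (ψ : G → ℂ) x = (θ : ↥N → ℂ) x) :
    ∃ χ : Cfsg.IrrCharacter G, χ ∈ Cfsg.principalBlock M G ∧ (∀ x : ↥N, (χ : G → ℂ) x = (θ : ↥N → ℂ) x) ∧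
      ∀ J : Subgroup G, N ≤ J → ∃ ξ : Cfsg.IrrCharacter ↥J, ξ ∈ Cfsg.principalBlock M ↥J ∧ ∀ y : ↥J, (ξ : ↥J → ℂ) y = (χ : G → ℂ) y := by
  classical
  letI : Fintype G := Fintype.ofFinite G
  letI : Fintype N := Fintype.ofFinite N
  obtain ⟨ψ, hψ⟩ := hext
  have hcov' : ∀ g : G, ∃ c : G, c⁻¹ * g ∈ N ∧ ¬ p ∣ Nat.card {x : G // ∃ n ∈ N, n * c * n⁻¹ = x} := by
    intro g
    have hg : g ∈ N ⊔ Subgroup.centralizer (((P : Subgroup ↥N).map N.subtype : Subgroup G) : Set G) := hcov ▸ Subgroup.mem_top g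
    obtain ⟨n, hn, c, hc, rfl⟩ := Subgroup.mem_sup_of_normal_left.1 hg
    exact ⟨c, by simpa [mul_assoc] using (‹N.Normal›).conj_mem n hn c⁻¹, not_dvd_orbit P hc⟩
  obtain ⟨l, hlN, hl⟩ := CosetScalar.exists_twist ψ.2 hψ hM hθ hcov'
  let χ : Cfsg.IrrCharacter G := ⟨fun x => l x * (ψ : G → ℂ) x, isIrrCharacter_linear_mul ψ.2 l⟩
  have hχN : ∀ x : N, (χ : G → ℂ) x = (θ : N → ℂ) x := fun x => by
    show l x * _ = _
    rw [hlN x x.2, one_mul, hψ]
  have hJ : ∀ J : Subgroup G, N ≤ J → ∃ ξ : Cfsg.IrrCharacter J, ξ ∈ Cfsg.principalBlock M J ∧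
      ∀ y : J, (ξ : J → ℂ) y = (χ : G → ℂ) y := by
    intro J hNJ
    letI : Fintype J := Fintype.ofFinite J
    obtain ⟨d, ρ, hρ, hc⟩ := χ.2
    have hN' : Representation.IsIrreducible (ρ.comp N.subtype : Representation ℂ N (Fin d → ℂ)) :=
      isIrreducible_of_character θ.2 (ρ := (ρ.comp N.subtype : Representation ℂ N (Fin d → ℂ)))
        (funext fun n => by rw [← hχN, ← hc]; rfl)
    have hJ' : Representation.IsIrreducible (ρ.comp J.subtype : Representation ℂ J (Fin d → ℂ)) := by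
      haveI := hN'
      refine IsSimpleOrder.mk (toNontrivial := ?_) fun U => ?_
      · exact nontrivial_of_ne ⊥ ⊤ fun e =>
          bot_ne_top (α := Subrepresentation (ρ.comp N.subtype : Representation ℂ N (Fin d → ℂ)))
            (Subrepresentation.toSubmodule_injective (congrArg Subrepresentation.toSubmodule e :))
      · let U' : Subrepresentation (ρ.comp N.subtype : Representation ℂ N (Fin d → ℂ)) :=
          ⟨U.toSubmodule, fun n v hv => U.apply_mem_toSubmodule (⟨n, hNJ n.2⟩ : J) hv⟩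
        rcases IsSimpleOrder.eq_bot_or_eq_top U' with h0 | h0
        · exact Or.inl (Subrepresentation.toSubmodule_injective (congrArg Subrepresentation.toSubmodule h0 :))
        · exact Or.inr (Subrepresentation.toSubmodule_injective (congrArg Subrepresentation.toSubmodule h0 :))
    let ξ : Cfsg.IrrCharacter J := ⟨fun y => (χ : G → ℂ) y, d, ρ.comp J.subtype, hJ', funext fun y => by rw [← hc]; rfl⟩
    refine ⟨ξ, fun j => ?_, fun y => rfl⟩
    let D : G → MonoidAlgebra ℂ G := fun q => ofFun fun x =>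
      if (∃ h : x ∈ J, IsConj j ⟨x, h⟩) ∧ (x : G ⧸ N) = (q : G ⧸ N) then 1 else 0
    have hD : ∀ q : G, MemLocalIdeal M (omega (χ : G → ℂ) (D q) - ∑ x, (D q).coeff x) := by
      intro q
      refine hl q (D q) (fun n hn x => ?_) (fun x => ?_) (fun x hx => ?_)
      · simp only [D, coeff_ofFun]
        refine if_congr (and_congr ⟨fun ⟨h, hjx⟩ => ?_, fun ⟨h, hjx⟩ => ?_⟩ ?_) rfl rfl
        · have hxJ : x ∈ J := by
            rw [show x = n⁻¹ * (n * x * n⁻¹) * n by group]
            exact J.mul_mem (J.mul_mem (J.inv_mem (hNJ hn)) h) (hNJ hn)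
          exact ⟨hxJ, hjx.trans (isConj_iff.2 ⟨⟨n, hNJ hn⟩⁻¹, Subtype.ext (show n⁻¹ * (n * x * n⁻¹) * n⁻¹⁻¹ = x by group)⟩)⟩
        · exact ⟨J.mul_mem (J.mul_mem (hNJ hn) h) (J.inv_mem (hNJ hn)),
            hjx.trans (isConj_iff.2 ⟨⟨n, hNJ hn⟩, rfl⟩)⟩
        · rw [QuotientGroup.mk_mul, QuotientGroup.mk_mul, QuotientGroup.mk_inv, (QuotientGroup.eq_one_iff n).2 hn, one_mul,
            inv_one, mul_one]
      · simp only [D, coeff_ofFun]
        split_ifs
        · exact ⟨1, Nat.cast_one.symm⟩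
        · exact ⟨0, Nat.cast_zero.symm⟩
      · simp only [D, coeff_ofFun]
        exact if_neg fun h => hx (QuotientGroup.eq.1 h.2)
    haveI : Fintype (G ⧸ N) := Fintype.ofFinite _
    have hsum : MemLocalIdeal M (∑ q : G ⧸ N, (omega (χ : G → ℂ) (D q.out) - ∑ x, (D q.out).coeff x)) :=
      memLocalIdeal_sum hM _ fun q _ => hD q.out
    have hall : ∀ f : G → ℂ, ∑ q : G ⧸ N, ∑ x, (D q.out).coeff x * f x = ∑ y : J, (classElt j).coeff y * f y := by
      intro f
      rw [Finset.sum_comm]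
      simp only [D, coeff_ofFun, QuotientGroup.out_eq', ite_mul, one_mul, zero_mul, coeff_classElt]
      simp only [ite_and, Finset.sum_ite_irrel, Finset.sum_const_zero, Finset.sum_ite_eq, Finset.mem_univ, if_true]
      rw [← Finset.sum_subset (Finset.subset_univ (Finset.univ.filter (· ∈ J))) (fun g _ hg => by
          rw [if_neg fun h => hg (Finset.mem_filter.2 ⟨Finset.mem_univ _, h.1⟩)]),
        Finset.sum_subtype (p := (· ∈ J)) (Finset.univ.filter (· ∈ J)) (by simp)
          (fun g => if ∃ h : g ∈ J, IsConj j ⟨g, h⟩ then f g else 0)]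
      exact Finset.sum_congr rfl fun y _ => if_congr ⟨fun ⟨_, h⟩ => h, fun h => ⟨y.2, h⟩⟩ rfl rfl
    have h1 : omega (ξ : J → ℂ) (classElt j) = ∑ q : G ⧸ N, omega (χ : G → ℂ) (D q.out) := by
      simp only [omega]
      rw [← Finset.sum_div, hall]
      rfl
    have h2 : omega ((oneChar : IrrCharacter J) : J → ℂ) (classElt j) = ∑ q : G ⧸ N, ∑ x, (D q.out).coeff x := by
      rw [ZStar.omega_oneChar]
      simpa using (hall fun _ => 1).symm
    rw [Finset.sum_sub_distrib, ← h1, ← h2, omega_classElt ξ.2, omega_classElt (oneChar : IrrCharacter J).2] at hsum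
    rw [← neg_sub]
    exact memLocalIdeal_neg hsum
  refine ⟨χ, ?_, hχN, hJ⟩
  obtain ⟨ξ, hξ, hval⟩ := hJ ⊤ le_top
  intro g
  have hcc : ∀ f : G → ℂ, centralChar (fun y : (⊤ : Subgroup G) => f y) ⟨g, Subgroup.mem_top g⟩ = centralChar f g := by
    intro f
    simp only [centralChar, Subgroup.coe_one]
    rw [show (Subgroup.centralizer ({(⟨g, Subgroup.mem_top g⟩ : (⊤ : Subgroup G))} : Set (⊤ : Subgroup G))) =
      (Subgroup.centralizer ({g} : Set G)).comap (⊤ : Subgroup G).subtype from by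
        ext y
        simp only [Subgroup.mem_comap, Subgroup.mem_centralizer_singleton_iff, Subgroup.coe_subtype, Subtype.ext_iff,
          Subgroup.coe_mul],
      Subgroup.index_comap_of_surjective _ fun y => ⟨⟨y, Subgroup.mem_top y⟩, rfl⟩]
  have h := hξ ⟨g, Subgroup.mem_top g⟩
  rw [show (ξ : (⊤ : Subgroup G) → ℂ) = fun y : (⊤ : Subgroup G) => (χ : G → ℂ) (y : G) from funext hval, hcc (χ : G → ℂ)] at h
  rwa [show (fun _ : (⊤ : Subgroup G) => (1 : ℂ)) = fun y : (⊤ : Subgroup G) => (fun _ : G => (1 : ℂ)) (y : G) from rfl, hcc (fun _ => 1)] at h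

end Cfsg.Agent.S4937
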