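import Cfsg.Statements.S4989
import Cfsg.Agent.CharBasics.Avg

set_option autoImplicit false
open Cfsg

namespace Cfsg.Agent.S4989

open CfsgLib.CharBasics

/-- Let H be a subgroup of the finite group G and χ an irreducible complex character of G. Then the inner product of the restriction of χ to H with itself, (1/#H)·Σ_{h ∈ H} |χ(h)|², is at most 1 + #(Z ∖ H)/#H, where Z is the set of zeros of χ in G. -/
theorem result {G : Type*} [Group G] [Finite G] (H : Subgroup G) (χ : Cfsg.IrrCharacter G) : (Nat.card ↥H : ℝ)⁻¹ * ∑ᶠ h : ↥H, ‖(χ : G → ℂ) h‖ ^ 2 ≤ 1 + (Set.ncard ({x : G | (χ : G → ℂ) x = 0} \ (H : Set G)) : ℝ) / (Nat.card ↥H : ℝ) := by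
  classical
  haveI := Fintype.ofFinite G
  haveI := Fintype.ofFinite H
  rw [finsum_eq_sum_of_fintype]
  let F := (χ : G → ℂ)
  let SH := Finset.univ.filter fun x : G => x ∈ H
  let SZ := Finset.univ.filter fun x : G => x ∉ H ∧ F x = 0
  let SN := Finset.univ.filter fun x : G => x ∉ H ∧ F x ≠ 0
  have hHsum : ∑ h : H, ‖F h‖ ^ 2 = ∑ x ∈ SH, ‖F x‖ ^ 2 := by
    refine Finset.sum_bij' (fun (h : H) _ => (h : G)) (fun x hx => ⟨x, (Finset.mem_filter.mp hx).2⟩)
      (fun h _ => Finset.mem_filter.mpr ⟨Finset.mem_univ _, h.2⟩) (fun _ _ => Finset.mem_univ _)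
      (fun _ _ => rfl) (fun _ _ => rfl) (fun _ _ => rfl)
  have htot : ∑ x ∈ SH, ‖F x‖ ^ 2 + ∑ x ∈ SZ, ‖F x‖ ^ 2 + ∑ x ∈ SN, ‖F x‖ ^ 2 = (Nat.card G : ℝ) := by
    rw [← sum_normSq_irr χ, add_assoc, ← Finset.sum_filter_add_sum_filter_not (Finset.univ : Finset G) (fun x => x ∈ H)]
    congr 1
    rw [← Finset.sum_filter_add_sum_filter_not (Finset.univ.filter fun x : G => x ∉ H) (fun x => F x = 0),
      Finset.filter_filter, Finset.filter_filter]
  have hcard : SH.card + SZ.card + SN.card = Nat.card G := by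
    rw [Nat.card_eq_fintype_card, ← Finset.card_univ, add_assoc,
      ← Finset.card_filter_add_card_filter_not (s := (Finset.univ : Finset G)) (fun x => x ∈ H)]
    congr 1
    rw [← Finset.card_filter_add_card_filter_not (s := Finset.univ.filter fun x : G => x ∉ H) (fun x => F x = 0),
      Finset.filter_filter, Finset.filter_filter]
  have hSN : (SN.card : ℝ) ≤ ∑ x ∈ SN, ‖F x‖ ^ 2 := by
    refine card_le_sum_normSq Nat.card_pos.ne' dvd_rfl (cycPoly_character (isCharacter_of_irr χ.2)) SN ?_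
      (fun g hg => (Finset.mem_filter.mp hg).2.2)
    intro g hg j hj
    obtain ⟨-, hgH, hgF⟩ := Finset.mem_filter.mp hg
    refine Finset.mem_filter.mpr ⟨Finset.mem_univ _, fun hmem => hgH ?_,
      (cycPoly_character (isCharacter_of_irr χ.2)).ne_zero Nat.card_pos.ne' hj hgF⟩
    obtain ⟨m, hm⟩ := exists_pow_eq_self_of_coprime (hj.coprime_dvd_right (orderOf_dvd_natCard g))
    exact hm ▸ H.pow_mem hmem m
  have hSH : SH.card = Nat.card H := by
    rw [Nat.card_eq_fintype_card, Fintype.card_subtype]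
  have hSZ : Set.ncard ({x : G | F x = 0} \ (H : Set G)) = SZ.card := by
    rw [← Set.ncard_coe_finset]
    congr 1
    ext x
    simp [SZ, and_comm]
  have hnn : 0 ≤ ∑ x ∈ SZ, ‖F x‖ ^ 2 := Finset.sum_nonneg fun x _ => by positivity
  have hGc : (Nat.card G : ℝ) = (SH.card : ℝ) + SZ.card + SN.card := by rw [← hcard]; push_cast; ring
  have hHpos : (0 : ℝ) < (Nat.card H : ℝ) := by exact_mod_cast Nat.card_pos
  show _ ≤ 1 + ((Set.ncard ({x : G | F x = 0} \ (H : Set G)) : ℕ) : ℝ) / (Nat.card H : ℝ)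
  rw [hSZ, hHsum, inv_mul_le_iff₀ hHpos, mul_add, mul_one, mul_div_cancel₀ _ hHpos.ne', ← hSH]
  linarith

end Cfsg.Agent.S4989
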