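import Cfsg.Statements.S4993
import Cfsg.Agent.Clifford.Ito
import Cfsg.Agent.Clifford.InertiaAbelian
import Cfsg.Agent.Clifford.Monomial
import Cfsg.Agent.KegelWielandt.Base
import Cfsg.Agent.Subnormal.BaerSuzuki
import Cfsg.Agent.PReduced.Hom
-- import your own Cfsg.Agent.* helpers here

set_option autoImplicit false
open Cfsg

namespace Cfsg.Agent.S4993

open CfsgLib CfsgLib.CharBasics CfsgLib.Clifford

theorem sum_normSq {K : Type*} [Group K] [Fintype K] {χ : K → ℂ} (hχ : Cfsg.IsIrrCharacter K χ) :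
    ∑ g : K, Complex.normSq (χ g) = (Nat.card K : ℝ) := by
  have h := classInner_self hχ
  rw [Cfsg.classInner, inv_mul_eq_one₀ (Nat.cast_ne_zero.mpr Nat.card_pos.ne')] at h
  have h2 : ((∑ g : K, Complex.normSq (χ g) : ℝ) : ℂ) = ((Nat.card K : ℝ) : ℂ) := by
    push_cast
    rw [h]
    exact Finset.sum_congr rfl fun g _ => (Complex.mul_conj _).symm
  exact_mod_cast h2

/-- A homogeneous restriction, for a primitive character. -/
theorem homog {G : Type*} [Group G] [Fintype G] {χ : G → ℂ} (hχ : Cfsg.IsIrrCharacter G χ)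
    (hprim : ¬ ∃ (H : Subgroup G), H ≠ ⊤ ∧ ∃ θ : ↥H → ℂ, Cfsg.IsCharacter ↥H θ ∧ Cfsg.indFun H θ = χ)
    (N : Subgroup G) [N.Normal] :
    ∃ (e : ℕ) (θ : N → ℂ), Cfsg.IsIrrCharacter N θ ∧ (∀ g : G, conjFun g θ = θ) ∧
      ∀ n : N, χ n = (e : ℂ) * θ n := by
  classical
  have := Fintype.ofFinite N
  obtain ⟨φ, hφ⟩ := exists_restrict_constituent N ⟨χ, hχ⟩
  have hne : Cfsg.classInner (fun n : N => χ n) (φ : N → ℂ) ≠ 0 := by
    rw [classInner_comm, Ne, map_eq_zero]; exact hφ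
  have hNT : N ≤ inertia (φ : N → ℂ) := le_inertia (CfsgLib.CharBasics.isClassFunction (isCharacter_of_irr φ.2))
  obtain ⟨T, hT⟩ : ∃ T, T = inertia (φ : N → ℂ) := ⟨_, rfl⟩
  have := Fintype.ofFinite T
  obtain ⟨ψ, hψ, hind, -, -⟩ := exists_inertia_correspondent hχ φ.2 hne T hT (hT ▸ hNT)
  have htop : T = ⊤ := by
    by_contra h
    exact hprim ⟨T, h, ψ, isCharacter_of_irr hψ, hind⟩
  have hinv : ∀ g : G, conjFun g (φ : N → ℂ) = φ := fun g =>
    mem_inertia.mp (hT ▸ htop ▸ Subgroup.mem_top g)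
  obtain ⟨e, he⟩ := classInner_characters_nat
    (CfsgLib.CharBasics.isCharacter_restrict (isCharacter_of_irr hχ) N) (isCharacter_of_irr φ.2)
  change Cfsg.classInner (fun n : N => χ n) (φ : N → ℂ) = (e : ℂ) at he
  refine ⟨e, φ, φ.2, hinv, fun n => ?_⟩
  have h := congrFun (restrict_eq_smul_of_invariant hχ φ.2 hinv hne) n
  simpa [he] using h

/-- Prime index: no multiplicity. -/
theorem mult_one {K : Type*} [Group K] [Fintype K] {ψ : K → ℂ} (hψ : Cfsg.IsIrrCharacter K ψ)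
    {N : Subgroup K} [N.Normal] [Fintype N] (hidx : N.index.Prime) {θ : N → ℂ} (hθ : Cfsg.IsIrrCharacter N θ)
    (hinv : ∀ g : K, conjFun g θ = θ) (e : ℕ) (he : ∀ n : N, ψ n = (e : ℂ) * θ n) : e = 1 := by
  classical
  have hd := charMult_dvd_index hψ hθ hinv e he
  have h1 : (e : ℝ) ^ 2 * Nat.card N ≤ Nat.card K := by
    rw [← sum_normSq hψ, ← sum_normSq hθ, Finset.mul_sum]
    have h2 : ∀ n : N, (e : ℝ) ^ 2 * Complex.normSq (θ n) = Complex.normSq (ψ n) := fun n => by
      rw [he n, map_mul, Complex.normSq_natCast]; ring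
    rw [Finset.sum_congr rfl fun n _ => h2 n]
    calc ∑ n : N, Complex.normSq (ψ n)
        = ∑ g ∈ (Finset.univ.filter fun g : K => g ∈ N), Complex.normSq (ψ g) :=
          (Finset.sum_subtype _ (fun x => by simp) fun g => Complex.normSq (ψ g)).symm
      _ ≤ _ := Finset.sum_le_sum_of_subset_of_nonneg (Finset.subset_univ _)
          (fun g _ _ => Complex.normSq_nonneg _)
  have h3 : e ^ 2 * Nat.card N ≤ Nat.card K := by exact_mod_cast h1
  rw [← Subgroup.card_mul_index N, mul_comm (e ^ 2)] at h3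
  have h4 := Nat.le_of_mul_le_mul_left h3 Nat.card_pos
  rcases (Nat.dvd_prime hidx).mp hd with h | h
  · exact h
  · rw [h] at h4
    have := hidx.two_le
    nlinarith

/-- Nilpotent quotient: the restriction stays irreducible. -/
theorem irr_restrict {G : Type*} [Group G] [Fintype G] {χ : G → ℂ} (hχ : Cfsg.IsIrrCharacter G χ)
    (hprim : ¬ ∃ (H : Subgroup G), H ≠ ⊤ ∧ ∃ θ : ↥H → ℂ, Cfsg.IsCharacter ↥H θ ∧ Cfsg.indFun H θ = χ)
    (k : ℕ) : ∀ (N : Subgroup G) [N.Normal], N.index = k → Group.IsNilpotent (G ⧸ N) →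
      Cfsg.IsIrrCharacter N (fun n : N => χ n) := by
  induction k using Nat.strong_induction_on with
  | _ k ih =>
  intro N _ hk hnil
  classical
  by_cases htop : N = ⊤
  · subst htop
    exact CfsgLib.Clifford.isIrrCharacter_comp hχ (⊤ : Subgroup G).subtype (fun g => ⟨⟨g, trivial⟩, rfl⟩)
  · haveI : Nontrivial (G ⧸ N) := by
      obtain ⟨g, -, hg⟩ := SetLike.exists_of_lt (lt_top_iff_ne_top.mpr htop)
      exact nontrivial_of_ne (g : G ⧸ N) 1 fun h => hg ((QuotientGroup.eq_one_iff g).mp h)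
    haveI := hnil
    have hc : Subgroup.center (G ⧸ N) ≠ ⊥ := Group.IsNilpotent.center_ne_bot _
    obtain ⟨r, hr, hrd⟩ := Nat.exists_prime_and_dvd
      (show Nat.card (Subgroup.center (G ⧸ N)) ≠ 1 from fun h => hc (Subgroup.card_eq_one.mp h))
    haveI := Fact.mk hr
    obtain ⟨z, hz⟩ := exists_prime_orderOf_dvd_card' r hrd
    let Zq : Subgroup (G ⧸ N) := Subgroup.zpowers (z : G ⧸ N)
    have hZc : Zq ≤ Subgroup.center (G ⧸ N) := Subgroup.zpowers_le.mpr z.2
    haveI hZn : Zq.Normal := ⟨fun a ha g => by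
      rwa [Subgroup.mem_center_iff.mp (hZc ha) g, mul_inv_cancel_right]⟩
    let M : Subgroup G := Zq.comap (QuotientGroup.mk' N)
    haveI hMn : M.Normal := hZn.comap _
    have hNM : N ≤ M := fun x hx => by
      show (x : G ⧸ N) ∈ Zq
      rw [(QuotientGroup.eq_one_iff x).mpr hx]; exact Zq.one_mem
    have hrel : N.relIndex M = r := by
      have h1 : (⊥ : Subgroup (G ⧸ N)).comap (QuotientGroup.mk' N) = N := by
        rw [MonoidHom.comap_bot, QuotientGroup.ker_mk']
      calc N.relIndex M = ((⊥ : Subgroup (G ⧸ N)).comap (QuotientGroup.mk' N)).relIndex M := by rw [h1]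
        _ = Nat.card Zq := by
          rw [Subgroup.relIndex_comap, Subgroup.map_comap_eq_self_of_surjective (QuotientGroup.mk'_surjective N),
            Subgroup.relIndex_bot_left]
        _ = r := by
          rw [Nat.card_zpowers, Subgroup.orderOf_coe, hz]
    have hlt : M.index < k := by
      rw [← hk, ← Subgroup.relIndex_mul_index hNM, hrel]
      exact lt_mul_of_one_lt_left (Nat.pos_of_ne_zero Subgroup.index_ne_zero_of_finite) hr.one_lt
    have hψ : Cfsg.IsIrrCharacter M (fun n : M => χ n) := by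
      refine ih _ hlt M rfl ?_
      let f : G ⧸ N →* G ⧸ M := QuotientGroup.map N M (MonoidHom.id G) hNM
      exact Group.nilpotent_of_surjective f fun y => by
        obtain ⟨g, rfl⟩ := QuotientGroup.mk_surjective y
        exact ⟨(g : G ⧸ N), rfl⟩
    obtain ⟨e, θ, hθ, hinv, he⟩ := homog hχ hprim N
    let E : N.subgroupOf M ≃* N := Subgroup.subgroupOfEquivOfLe hNM
    have hθ' : Cfsg.IsIrrCharacter (N.subgroupOf M) (fun m => θ (E m)) :=
      CfsgLib.Clifford.isIrrCharacter_comp hθ E.toMonoidHom E.surjective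
    have := Fintype.ofFinite M
    have := Fintype.ofFinite (N.subgroupOf M)
    have he1 : e = 1 := mult_one hψ (N := N.subgroupOf M) (show (N.relIndex M).Prime by rw [hrel]; exact hr) hθ'
      (fun t => funext fun m => congrFun (hinv (t : G)) (E m)) e (fun m => he (E m))
    have heq : (fun n : N => χ n) = θ := funext fun n => by rw [he n, he1, Nat.cast_one, one_mul]
    rw [heq]; exact hθ

/-- A normal subgroup with commutative image consists of scalars. -/
theorem scalar_of_comm_image {G : Type*} [Group G] [Fintype G] {d : ℕ} (ρ : Representation ℂ G (Fin d → ℂ))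
    (hρ : ρ.IsIrreducible)
    (hprim : ¬ ∃ (H : Subgroup G), H ≠ ⊤ ∧ ∃ θ : ↥H → ℂ, Cfsg.IsCharacter ↥H θ ∧ Cfsg.indFun H θ = ρ.character)
    (A : Subgroup G) [A.Normal] (hA : ∀ a ∈ A, ∀ b ∈ A, ρ (a * b) = ρ (b * a)) :
    A ≤ scalarSubgroup ρ := by
  classical
  have hχ : Cfsg.IsIrrCharacter G ρ.character := ⟨d, ρ, hρ, rfl⟩
  obtain ⟨e, θ, hθ, -, he⟩ := homog hχ hprim A
  have he0 : (e : ℂ) ≠ 0 := fun h => apply_one_ne_zero hχ (by simpa [h] using he 1)
  have hθ1 : θ 1 = 1 := by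
    refine apply_one_eq_one_of_commutators hθ fun x y => mul_left_cancel₀ he0 ?_
    rw [← he, ← he, Subgroup.coe_mul, Subgroup.coe_mul, Subgroup.coe_mul, Subgroup.coe_inv, Subgroup.coe_inv,
      Subgroup.coe_one, Representation.character, Representation.character]
    congr 1
    rw [map_mul, map_mul ρ ((x : G) * y), hA x x.2 y y.2, ← map_mul, ← map_mul]
    congr 1
    group
  obtain ⟨f, hf⟩ := exists_hom_of_linear (isCharacter_of_irr hθ) hθ1
  subst hf
  let σ : Representation ℂ A (Fin d → ℂ) :=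
    { toFun := fun a => f a⁻¹ • ρ (a : G)
      map_one' := by simp
      map_mul' := fun a b => by
        rw [mul_inv_rev, map_mul f, Subgroup.coe_mul, map_mul, smul_mul_smul_comm, mul_comm (f b⁻¹)] }
  have hσ : ∀ a : A, σ.character a = (e : ℂ) := fun a => by
    show LinearMap.trace ℂ _ (f a⁻¹ • ρ (a : G)) = _
    rw [map_smul, smul_eq_mul]
    show f a⁻¹ * ρ.character a = _
    rw [he a, mul_left_comm, ← map_mul, inv_mul_cancel, map_one, mul_one]
  intro a ha x
  have h := eq_id_of_character_eq σ ⟨a, ha⟩ ((hσ _).trans (hσ 1).symm)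
  change f (⟨a, ha⟩ : A)⁻¹ • ρ a = LinearMap.id at h
  have h2 : ρ a = f ⟨a, ha⟩ • (1 : Module.End ℂ (Fin d → ℂ)) := by
    rw [Module.End.one_eq_id, ← h, smul_smul, ← map_mul, mul_inv_cancel, map_one, one_smul]
  rw [map_mul, map_mul, h2, smul_one_mul, mul_smul_one]

/-- Average fixed points of a `q`-group on an abelian group of order prime to `q`. -/
theorem avg {G : Type*} [Group G] [Finite G] (q : ℕ) [hq : Fact q.Prime] (Q : Subgroup G) [Fintype Q]
    (hQ : IsPGroup q Q) (k : ℕ) : ∀ (U : Subgroup G), Nat.card U = k →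
    (∀ u ∈ U, ∀ v ∈ U, u * v = v * u) → Q ≤ Subgroup.normalizer (U : Set G) → ¬ q ∣ Nat.card U →
    U ⊓ Subgroup.centralizer (Q : Set G) = ⊥ →
    ∏ x : Q, Nat.card ↥(U ⊓ Subgroup.centralizer {(x : G)}) ^ 2 ≤ Nat.card U ^ Nat.card Q := by
  classical
  induction k using Nat.strong_induction_on with
  | _ k ih =>
  intro U hk hcomm hN hdvd hfix
  by_cases hU : U = ⊥
  · subst hU; simp
  have hconj : ∀ x ∈ Q, ∀ u ∈ U, x * u * x⁻¹ ∈ U := fun x hx u hu =>
    (Subgroup.mem_normalizer_iff.mp (hN hx) u).mp hu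
  -- the kernel
  let K : Subgroup Q := (Subgroup.centralizer (U : Set G)).subgroupOf Q
  haveI hKn : K.Normal := ⟨fun k hk g => by
    rw [Subgroup.mem_subgroupOf, Subgroup.mem_centralizer_iff] at hk ⊢
    intro u hu
    have h1 := hk _ (by simpa using hconj _ (Q.inv_mem g.2) u hu : (g : G)⁻¹ * u * g ∈ (U : Set G))
    simp only [Subgroup.coe_mul, Subgroup.coe_inv]
    calc u * ((g : G) * k * (g : G)⁻¹) = (g : G) * (((g : G)⁻¹ * u * g) * k) * (g : G)⁻¹ := by group
      _ = (g : G) * (k * ((g : G)⁻¹ * u * g)) * (g : G)⁻¹ := by rw [h1]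
      _ = (g : G) * k * (g : G)⁻¹ * u := by group⟩
  have hK : K ≠ ⊤ := by
    intro h
    apply hU
    rw [← le_bot_iff, ← hfix]
    refine le_inf le_rfl fun u hu => Subgroup.mem_centralizer_iff.mpr fun x hx => ?_
    have h1 : (⟨x, hx⟩ : Q) ∈ K := h ▸ Subgroup.mem_top _
    exact (Subgroup.mem_centralizer_iff.mp h1 u hu).symm
  haveI : Nontrivial (Q ⧸ K) := by
    obtain ⟨g, -, hg⟩ := SetLike.exists_of_lt (lt_top_iff_ne_top.mpr hK)
    exact nontrivial_of_ne (g : Q ⧸ K) 1 fun h => hg ((QuotientGroup.eq_one_iff g).mp h)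
  haveI : Group.IsNilpotent (Q ⧸ K) := (hQ.to_quotient K).isNilpotent
  obtain ⟨c, hc⟩ := Subgroup.ne_bot_iff_exists_ne_one.mp (Group.IsNilpotent.center_ne_bot (Q ⧸ K))
  obtain ⟨z, hz⟩ := QuotientGroup.mk_surjective (c : Q ⧸ K)
  have hzK : z ∉ K := fun h => hc (Subtype.ext (hz.symm.trans ((QuotientGroup.eq_one_iff z).mpr h)))
  have hzU : ∃ u ∈ U, (z : G) * u ≠ u * z := by
    by_contra h
    push Not at h
    exact hzK (Subgroup.mem_centralizer_iff.mpr fun u hu => (h u hu).symm)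
  -- `x` and `z` commute on `U`
  have hxz : ∀ x : Q, ∀ u ∈ U, (x : G) * (z * u * (z : G)⁻¹) * (x : G)⁻¹ = z * (x * u * (x : G)⁻¹) * (z : G)⁻¹ := by
    intro x u hu
    have h1 : z⁻¹ * x⁻¹ * z * x ∈ K := by
      rw [← QuotientGroup.eq_one_iff, QuotientGroup.mk_mul, QuotientGroup.mk_mul, QuotientGroup.mk_mul,
        QuotientGroup.mk_inv, QuotientGroup.mk_inv, hz, mul_assoc (_ * _),
        ← Subgroup.mem_center_iff.mp c.2 (x : Q ⧸ K)]
      group
    have h2 := Subgroup.mem_centralizer_iff.mp h1 u hu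
    try simp only [Subgroup.coe_mul, Subgroup.coe_inv, Subgroup.coe_subtype] at h2
    calc (x : G) * (z * u * (z : G)⁻¹) * (x : G)⁻¹
        = (x : G) * z * (u * ((z : G)⁻¹ * (x : G)⁻¹ * z * x)) * (x : G)⁻¹ * (z : G)⁻¹ := by group
      _ = (x : G) * z * (((z : G)⁻¹ * (x : G)⁻¹ * z * x) * u) * (x : G)⁻¹ * (z : G)⁻¹ := by rw [h2]
      _ = _ := by group
  let δ : U →* G :=
    { toFun := fun u => (z : G) * u * (z : G)⁻¹ * (u : G)⁻¹
      map_one' := by simp
      map_mul' := fun u v => by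
        have h2 := hcomm _ (U.mul_mem (hconj _ z.2 v v.2) (U.inv_mem v.2)) _ (U.inv_mem u.2)
        simp only [Subgroup.coe_mul, mul_inv_rev]
        calc (z : G) * ((u : G) * v) * (z : G)⁻¹ * ((v : G)⁻¹ * (u : G)⁻¹)
            = (z : G) * u * (z : G)⁻¹ * ((z * v * (z : G)⁻¹ * (v : G)⁻¹) * (u : G)⁻¹) := by group
          _ = (z : G) * u * (z : G)⁻¹ * ((u : G)⁻¹ * (z * v * (z : G)⁻¹ * (v : G)⁻¹)) := by rw [h2]
          _ = _ := by group }
  let U1 := U ⊓ Subgroup.centralizer {(z : G)}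
  let U2 := δ.range
  have hU2U : U2 ≤ U := by
    rintro _ ⟨u, rfl⟩
    exact U.mul_mem (hconj _ z.2 u u.2) (U.inv_mem u.2)
  have hker : δ.ker = U1.subgroupOf U := by
    ext u
    rw [MonoidHom.mem_ker, Subgroup.mem_subgroupOf]
    show (z : G) * u * (z : G)⁻¹ * (u : G)⁻¹ = 1 ↔ (u : G) ∈ U ⊓ Subgroup.centralizer {(z : G)}
    rw [mul_inv_eq_one, mul_inv_eq_iff_eq_mul, Subgroup.mem_inf, Subgroup.mem_centralizer_singleton_iff]
    exact ⟨fun h => ⟨u.2, h.symm⟩, fun h => h.2.symm⟩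
  have hcard : Nat.card U1 * Nat.card U2 = Nat.card U := by
    rw [← Subgroup.card_mul_index δ.ker, Subgroup.index_ker, hker,
      Nat.card_congr (Subgroup.subgroupOfEquivOfLe (inf_le_left : U1 ≤ U)).toEquiv]
  have hdisj : ∀ w ∈ U2, w * (z : G) = z * w → w = 1 := by
    rintro _ ⟨u, rfl⟩ hfx
    set w := δ u with hw
    have hwu : (z : G) * u * (z : G)⁻¹ = w * u := by rw [hw]; simp only [δ, MonoidHom.coe_mk, OneHom.coe_mk]; group
    have hpow : ∀ n : ℕ, (z : G) ^ n * u * ((z : G) ^ n)⁻¹ = w ^ n * u := by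
      intro n
      induction n with
      | zero => simp
      | succ n ihn =>
        calc (z : G) ^ (n + 1) * u * ((z : G) ^ (n + 1))⁻¹
            = (z : G) * ((z : G) ^ n * u * ((z : G) ^ n)⁻¹) * (z : G)⁻¹ := by group
          _ = (z : G) * w ^ n * (z : G)⁻¹ * ((z : G) * u * (z : G)⁻¹) := by rw [ihn]; group
          _ = _ := by
            rw [((show Commute w (z : G) from hfx).pow_left n).symm.eq, mul_inv_cancel_right, hwu, ← mul_assoc,
              ← pow_succ]
    have h1 := hpow (orderOf (z : G))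
    rw [pow_orderOf_eq_one, one_mul, inv_one, mul_one] at h1
    have h2 : orderOf w ∣ orderOf (z : G) := orderOf_dvd_of_pow_eq_one (mul_eq_right.mp h1.symm)
    obtain ⟨a, ha⟩ := IsPGroup.iff_card.mp hQ
    have h3 : orderOf w ∣ q ^ a := h2.trans (ha ▸ Subgroup.orderOf_dvd_natCard _ z.2)
    have h4 : orderOf w ∣ Nat.card U := Subgroup.orderOf_dvd_natCard _ (hU2U ⟨u, rfl⟩)
    exact orderOf_eq_one_iff.mp (Nat.eq_one_of_dvd_coprimes
      ((Nat.Coprime.pow_left a (hq.out.coprime_iff_not_dvd.mpr hdvd))) h3 h4)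
  have hlt : Nat.card U1 < k := by
    rw [← hk]
    rcases (Nat.le_of_dvd Nat.card_pos (Subgroup.card_dvd_of_le (inf_le_left : U1 ≤ U))).lt_or_eq with h | h
    · exact h
    · exfalso
      obtain ⟨u, hu, hne⟩ := hzU
      have := (Subgroup.eq_of_le_of_card_ge (inf_le_left : U1 ≤ U) h.ge).ge hu
      exact hne (Subgroup.mem_centralizer_singleton_iff.mp this.2).symm
  have hinv1 : Q ≤ Subgroup.normalizer (U1 : Set G) := by
    intro x hx
    refine Subgroup.mem_normalizer_fintype fun u hu => ?_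
    obtain ⟨hu1, hu2⟩ := hu
    refine ⟨hconj x hx u hu1, Subgroup.mem_centralizer_singleton_iff.mpr ?_⟩
    have h1 := hxz ⟨x, hx⟩ u hu1
    rw [← Subgroup.mem_centralizer_singleton_iff.mp hu2, mul_inv_cancel_right] at h1
    exact eq_mul_inv_iff_mul_eq.mp h1
  have hinv2 : ∀ x : Q, ∀ v ∈ U2, (x : G) * v * (x : G)⁻¹ ∈ U2 := by
    rintro x _ ⟨u, rfl⟩
    refine ⟨⟨_, hconj _ x.2 u u.2⟩, ?_⟩
    simp only [δ, MonoidHom.coe_mk, OneHom.coe_mk]
    rw [← hxz x u u.2]
    group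
  have hIH := ih _ hlt U1 rfl (fun u hu v hv => hcomm u hu.1 v hv.1) hinv1
    (fun h => hdvd (h.trans (Subgroup.card_dvd_of_le inf_le_left)))
    (le_bot_iff.mp (le_trans (inf_le_inf_right _ inf_le_left) hfix.le))
  set c1 : Q → ℕ := fun x => Nat.card ↥(U1 ⊓ Subgroup.centralizer {(x : G)}) with hc1
  set c2 : Q → ℕ := fun x => Nat.card ↥(U2 ⊓ Subgroup.centralizer {(x : G)}) with hc2
  have hsplit : ∀ x : Q, Nat.card ↥(U ⊓ Subgroup.centralizer {(x : G)}) ≤ c1 x * c2 x := by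
    intro x
    let V := U ⊓ Subgroup.centralizer {(x : G)}
    let δ' : V →* G := δ.comp (Subgroup.inclusion inf_le_left)
    have hk' : Nat.card δ'.ker ≤ c1 x := by
      refine Nat.card_le_card_of_injective (fun v => (⟨((v : V) : G), ?_⟩ : ↥(U1 ⊓ Subgroup.centralizer {(x : G)}))) ?_
      · refine ⟨?_, (v : V).2.2⟩
        have h1 : Subgroup.inclusion (inf_le_left : V ≤ U) (v : V) ∈ δ.ker := v.2
        rw [hker] at h1
        exact h1
      · intro v v' hv
        exact Subtype.ext (Subtype.ext (congrArg (fun t : ↥(U1 ⊓ Subgroup.centralizer {(x : G)}) => (t : G)) hv))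
    have hr' : Nat.card δ'.range ≤ c2 x := by
      refine Nat.le_of_dvd Nat.card_pos (Subgroup.card_dvd_of_le ?_)
      rintro _ ⟨v, rfl⟩
      refine ⟨⟨_, rfl⟩, Subgroup.mem_centralizer_singleton_iff.mpr ?_⟩
      show _ * _ = _ * _
      obtain ⟨v, hv1, hv2⟩ := v
      have h1 := hxz x v hv1
      have h2 : (x : G) * v * (x : G)⁻¹ = v := by
        rw [← Subgroup.mem_centralizer_singleton_iff.mp hv2, mul_inv_cancel_right]
      rw [h2] at h1
      show (z : G) * v * (z : G)⁻¹ * v⁻¹ * x = x * ((z : G) * v * (z : G)⁻¹ * v⁻¹)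
      have e1 : (x : G) * ((z : G) * v * (z : G)⁻¹ * v⁻¹) * (x : G)⁻¹ =
          ((x : G) * ((z : G) * v * (z : G)⁻¹) * (x : G)⁻¹) * ((x : G) * v * (x : G)⁻¹)⁻¹ := by group
      rw [h1, h2] at e1
      exact (mul_inv_eq_iff_eq_mul.mp e1).symm
    calc Nat.card V = Nat.card δ'.ker * Nat.card δ'.range := by rw [← Subgroup.index_ker, Subgroup.card_mul_index]
      _ ≤ _ := Nat.mul_le_mul hk' hr'
  have hpair : ∀ x : Q, c2 x * c2 (x * z) ≤ Nat.card U2 := by
    intro x
    rw [hc2, ← Nat.card_prod]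
    refine Nat.card_le_card_of_injective (fun p => (⟨(p.1 : G) * p.2, U2.mul_mem p.1.2.1 p.2.2.1⟩ : U2)) ?_
    rintro ⟨⟨a, ha⟩, ⟨b, hb⟩⟩ ⟨⟨a', ha'⟩, ⟨b', hb'⟩⟩ h
    have h' : a * b = a' * b' := congrArg Subtype.val h
    have hw : a'⁻¹ * a = b' * b⁻¹ := by
      rw [inv_mul_eq_iff_eq_mul, ← mul_assoc, ← h', mul_inv_cancel_right]
    have hwm := (U2 ⊓ Subgroup.centralizer {(x : G)}).mul_mem
      ((U2 ⊓ Subgroup.centralizer {(x : G)}).inv_mem ha') ha
    have hwm' := (U2 ⊓ Subgroup.centralizer {((x * z : Q) : G)}).mul_mem hb'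
      ((U2 ⊓ Subgroup.centralizer {((x * z : Q) : G)}).inv_mem hb)
    rw [← hw] at hwm'
    have hw1 : a'⁻¹ * a = 1 := by
      refine hdisj _ hwm.1 ?_
      have e1 : Commute (a'⁻¹ * a) (x : G) := Subgroup.mem_centralizer_singleton_iff.mp hwm.2
      have e2 : Commute (a'⁻¹ * a) ((x : G) * z) := Subgroup.mem_centralizer_singleton_iff.mp hwm'.2
      have e3 := e1.inv_right.mul_right e2
      rw [inv_mul_cancel_left] at e3
      exact e3.eq
    rw [hw1] at hw
    obtain rfl : a = a' := (inv_mul_eq_one.mp hw1).symm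
    obtain rfl : b = b' := mul_left_cancel h'
    rfl
  have h2' : ∏ x : Q, c2 x ^ 2 ≤ Nat.card U2 ^ Nat.card Q := by
    have e1 : ∏ x : Q, c2 (x * z) = ∏ x : Q, c2 x := Equiv.prod_comp (Equiv.mulRight z) c2
    rw [Finset.prod_pow, sq]
    nth_rewrite 2 [← e1]
    rw [← Finset.prod_mul_distrib, Nat.card_eq_fintype_card (α := Q)]
    calc ∏ x : Q, c2 x * c2 (x * z) ≤ ∏ _x : Q, Nat.card U2 := Finset.prod_le_prod' fun x _ => hpair x
      _ = _ := by rw [Finset.prod_const, Finset.card_univ]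
  calc ∏ x : Q, Nat.card ↥(U ⊓ Subgroup.centralizer {(x : G)}) ^ 2
      ≤ ∏ x : Q, c1 x ^ 2 * c2 x ^ 2 :=
        Finset.prod_le_prod' fun x _ => by rw [← mul_pow]; exact Nat.pow_le_pow_left (hsplit x) 2
    _ = (∏ x : Q, c1 x ^ 2) * ∏ x : Q, c2 x ^ 2 := Finset.prod_mul_distrib
    _ ≤ Nat.card U1 ^ Nat.card Q * Nat.card U2 ^ Nat.card Q := Nat.mul_le_mul hIH h2'
    _ = _ := by rw [← mul_pow, hcard]

theorem commutator_conj {Γ : Type*} [Group Γ] (a x y c d : Γ) (hc : ∀ t, Commute c t) (hd : ∀ t, Commute d t)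
    (hx : a * x * a⁻¹ = c * x) (hy : a * y * a⁻¹ = d * y) :
    a * (x * y * x⁻¹ * y⁻¹) * a⁻¹ = x * y * x⁻¹ * y⁻¹ := by
  have h1 : a * (x * y * x⁻¹ * y⁻¹) * a⁻¹ =
      (a * x * a⁻¹) * (a * y * a⁻¹) * (a * x * a⁻¹)⁻¹ * (a * y * a⁻¹)⁻¹ := by group
  rw [h1, hx, hy]
  calc c * x * (d * y) * (c * x)⁻¹ * (d * y)⁻¹
      = c * (x * d) * y * x⁻¹ * (c⁻¹ * y⁻¹) * d⁻¹ := by group
    _ = c * (d * x) * y * x⁻¹ * (y⁻¹ * c⁻¹) * d⁻¹ := by rw [(hd x).eq, ((hc y⁻¹).inv_left).eq]
    _ = c * d * (x * y * x⁻¹ * y⁻¹) * c⁻¹ * d⁻¹ := by group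
    _ = (x * y * x⁻¹ * y⁻¹) * (c * d) * c⁻¹ * d⁻¹ := by rw [((hc _).mul_left (hd _)).eq]
    _ = (x * y * x⁻¹ * y⁻¹) * (c * (d * c⁻¹) * d⁻¹) := by group
    _ = _ := by rw [(hd c⁻¹).eq]; group

/-- The contribution of one prime. -/
theorem one_side {G : Type*} [Group G] [Fintype G] {d : ℕ} (ρ : Representation ℂ G (Fin d → ℂ))
    (hρ : ρ.IsIrreducible)
    (hprim : ¬ ∃ (H : Subgroup G), H ≠ ⊤ ∧ ∃ θ : ↥H → ℂ, Cfsg.IsCharacter ↥H θ ∧ Cfsg.indFun H θ = ρ.character)
    [hF : (Cfsg.fittingSubgroup G).Normal] (hmeta : Group.IsNilpotent (G ⧸ Cfsg.fittingSubgroup G))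
    (p q : ℕ) [hp : Fact p.Prime] [hq : Fact q.Prime] (hpq : p ≠ q)
    (hG : ∀ r : ℕ, r.Prime → r ∣ Nat.card G → r = p ∨ r = q) (Q : Sylow q G) :
    ∃ g ∈ (Q : Subgroup G), ∀ x : G, g ∈ Cfsg.fittingSubgroup G ⊔ Subgroup.zpowers x →
      ∀ k, p ^ k ∣ d → p ^ k ∣ (Subgroup.centralizer ({x} : Set G)).index := by
  classical
  have hχ : Cfsg.IsIrrCharacter G ρ.character := ⟨d, ρ, hρ, rfl⟩
  set F := Cfsg.fittingSubgroup G with hFdef
  let Fp := Cfsg.pCore p G
  have hFpF : Fp ≤ F := CfsgLib.Subnormal.pCore_le_fitting p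
  have hFpp : IsPGroup p Fp := CfsgLib.PCore.isPGroup_pCore p G
  haveI hFpn : Fp.Normal := CfsgLib.Subnormal.normal_pCore p
  let Z := Fp ⊓ scalarSubgroup ρ
  haveI := scalarSubgroup_normal ρ
  haveI hZn : Z.Normal := inferInstance
  let π := QuotientGroup.mk' Z
  have hπ : Function.Surjective π := QuotientGroup.mk'_surjective Z
  let U := Fp.map π
  haveI hUn : U.Normal := hFpn.map π hπ
  have hUp : IsPGroup p U := hFpp.map π
  have hπ1 : ∀ a : G, π a = 1 ↔ a ∈ Z := fun a => QuotientGroup.eq_one_iff a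
  -- scalars
  have key : ∀ A : Subgroup G, A.Normal → A ≤ Fp → (∀ a ∈ A, ∀ b ∈ A, ρ (a * b) = ρ (b * a)) → A.map π = ⊥ := by
    intro A hAn hAF hA
    haveI := hAn
    rw [eq_bot_iff]
    rintro _ ⟨a, ha, rfl⟩
    exact Subgroup.mem_bot.mpr ((hπ1 a).mpr ⟨hAF ha, scalar_of_comm_image ρ hρ hprim A hA ha⟩)
  -- `U` is abelian
  have hUab : ∀ u ∈ U, ∀ v ∈ U, u * v = v * u := by
    suffices h : ⁅U, U⁆ = ⊥ by
      intro u hu v hv
      exact commutatorElement_eq_one_iff_mul_comm.mp (Subgroup.mem_bot.mp (h ▸ Subgroup.commutator_mem_commutator hu hv))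
    by_contra hne
    let W := ⁅U, U⁆ ⊓ Subgroup.centralizer (U : Set (G ⧸ Z))
    haveI : W.Normal := inferInstance
    have hW : W ≠ ⊥ := by
      have hle : ⁅U, U⁆ ≤ U := Subgroup.commutator_le_left U U
      have h0 : (⁅U, U⁆.subgroupOf U) ≠ ⊥ := fun h => hne (le_bot_iff.mp fun w hw => by
        have : (⟨w, hle hw⟩ : U) ∈ (⊥ : Subgroup U) := h ▸ hw
        exact congrArg Subtype.val (Subgroup.mem_bot.mp this))
      obtain ⟨⟨w, hw, hwc⟩, hw1⟩ := Subgroup.ne_bot_iff_exists_ne_one.1 (CfsgLib.PReduced.inf_center_ne_bot hUp h0)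
      intro h
      have : (w : G ⧸ Z) ∈ W :=
        ⟨hw, Subgroup.mem_centralizer_iff.mpr fun u hu => congrArg Subtype.val (Subgroup.mem_center_iff.mp hwc ⟨u, hu⟩)⟩
      rw [h] at this
      exact hw1 (Subtype.ext (Subtype.ext (Subgroup.mem_bot.mp this)))
    let A := Fp ⊓ W.comap π
    have hAn : A.Normal := inferInstance
    have hcomm : ∀ a ∈ A, ∀ b ∈ A, ρ (a * b) = ρ (b * a) := by
      intro a ha
      let r := Representation.asGroupHom ρ
      let Cz : Subgroup G := (Subgroup.centralizer {r a}).comap r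
      suffices h : A ≤ Cz by
        intro b hb
        have := congrArg Units.val (Subgroup.mem_centralizer_singleton_iff.mp (h hb))
        rw [map_mul, map_mul]
        exact this.symm
      have hZC : Z ≤ Cz := fun t ht => by
        refine Subgroup.mem_centralizer_singleton_iff.mpr (Units.ext ?_)
        show ρ t * ρ a = ρ a * ρ t
        rw [← map_mul, ← map_mul]; exact ht.2 a
      have hcomC : ⁅Fp, Fp⁆ ≤ Cz := by
        rw [Subgroup.commutator_le]
        intro x hx y hy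
        have hsc : ∀ t ∈ Fp, a * t * a⁻¹ * t⁻¹ ∈ scalarSubgroup ρ := by
          intro t ht
          refine ((hπ1 _).mp ?_).2
          have hc := Subgroup.mem_centralizer_iff.mp ha.2.2 (π t) ⟨t, ht, rfl⟩
          rw [map_mul, map_mul, map_mul, map_inv, map_inv, ← hc, mul_inv_cancel_right, mul_inv_cancel]
        refine Subgroup.mem_centralizer_singleton_iff.mpr ?_
        rw [commutatorElement_def, eq_comm, ← mul_inv_eq_iff_eq_mul]
        have hc : ∀ t ∈ Fp, ∀ g : G, Commute (r (a * t * a⁻¹ * t⁻¹)) (r g) := fun t ht g => Units.ext (by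
          show ρ _ * ρ g = ρ g * ρ _
          rw [← map_mul, ← map_mul]; exact hsc t ht g)
        have h := commutator_conj (Γ := r.range) (r.rangeRestrict a) (r.rangeRestrict x) (r.rangeRestrict y)
          (r.rangeRestrict (a * x * a⁻¹ * x⁻¹)) (r.rangeRestrict (a * y * a⁻¹ * y⁻¹))
          (by rintro ⟨_, g, rfl⟩; exact Subtype.ext (hc x hx g).eq)
          (by rintro ⟨_, g, rfl⟩; exact Subtype.ext (hc y hy g).eq)
          (by rw [← map_inv, ← map_mul, ← map_mul, ← map_mul]; congr 1; group)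
          (by rw [← map_inv, ← map_mul, ← map_mul, ← map_mul]; congr 1; group)
        have h' := congrArg Subtype.val h
        simpa [map_mul, map_inv] using h'
      intro b hb
      have h1 : π b ∈ (⁅Fp, Fp⁆).map π := by
        rw [Subgroup.map_commutator]; exact hb.2.1
      obtain ⟨c, hc, hcb⟩ := h1
      have h2 : c⁻¹ * b ∈ Z := (hπ1 _).mp (by rw [map_mul, map_inv, hcb, inv_mul_cancel])
      simpa using Cz.mul_mem (hcomC hc) (hZC h2)
    apply hW
    rw [eq_bot_iff]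
    intro w hw
    obtain ⟨a, ha, rfl⟩ := (Subgroup.commutator_le_left U U hw.1 : w ∈ U)
    exact (key A hAn inf_le_left hcomm).le ⟨a, ⟨ha, hw⟩, rfl⟩
  -- `F` centralizes `U`
  have hFC : F ≤ (Subgroup.centralizer (U : Set (G ⧸ Z))).comap π := by
    refine CfsgLib.KegelWielandt.le_of_forall_isPGroup fun r hr R hRF hR => ?_
    haveI := Fact.mk hr
    intro y hy
    have hyp : IsPGroup r (Subgroup.zpowers y) := hR.to_le (Subgroup.zpowers_le.mpr hy)
    have hyF := CfsgLib.KegelWielandt.mem_pCore_of_mem_fitting (hRF hy) hyp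
    refine Subgroup.mem_centralizer_iff.mpr ?_
    rintro _ ⟨t, ht, rfl⟩
    by_cases hrp : r = p
    · subst hrp
      exact hUab _ ⟨t, ht, rfl⟩ _ ⟨y, hyF, rfl⟩
    · have hdis : Disjoint Fp (Cfsg.pCore r G) :=
        IsPGroup.disjoint_of_ne p r (Ne.symm hrp) _ _ hFpp (CfsgLib.PCore.isPGroup_pCore r G)
      have := Subgroup.commute_of_normal_of_disjoint Fp (Cfsg.pCore r G) hFpn (CfsgLib.Subnormal.normal_pCore r)
        hdis t y ht hyF
      exact (Commute.map this π).eq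
  let Qb := (Q : Subgroup G).map π
  -- `FQ` is normal
  let FQ := F ⊔ (Q : Subgroup G)
  haveI hFQn : FQ.Normal := by
    haveI := hmeta
    haveI hn : ((Q : Subgroup G).map (QuotientGroup.mk' F)).Normal :=
      CfsgLib.Hall.NormComplement.sylow_normal_of_nilpotent hmeta q (Q.mapSurjective (QuotientGroup.mk'_surjective F))
    have h := hn.comap (QuotientGroup.mk' F)
    rw [Subgroup.comap_map_eq, QuotientGroup.ker_mk', sup_comm] at h
    exact h
  have hfix : U ⊓ Subgroup.centralizer (Qb : Set (G ⧸ Z)) = ⊥ := by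
    let N' := FQ.map π
    haveI : N'.Normal := hFQn.map π hπ
    let C' := U ⊓ Subgroup.centralizer (N' : Set (G ⧸ Z))
    have hsub : U ⊓ Subgroup.centralizer (Qb : Set (G ⧸ Z)) ≤ C' := by
      refine le_inf inf_le_left ?_
      rintro u ⟨hu, hu2⟩
      have : N' ≤ Subgroup.centralizer {u} := by
        rw [Subgroup.map_le_iff_le_comap]
        refine sup_le ?_ ?_
        · intro f hf
          exact Subgroup.mem_centralizer_singleton_iff.mpr (Subgroup.mem_centralizer_iff.mp (hFC hf) u hu).symm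
        · intro f hf
          exact Subgroup.mem_centralizer_singleton_iff.mpr (Subgroup.mem_centralizer_iff.mp hu2 _ ⟨f, hf, rfl⟩)
      exact Subgroup.mem_centralizer_iff.mpr fun n hn => Subgroup.mem_centralizer_singleton_iff.mp (this hn)
    refine le_bot_iff.mp (hsub.trans (le_of_eq ?_))
    by_contra hC
    obtain ⟨P⟩ : Nonempty (Sylow p G) := inferInstance
    let Pb := (P : Subgroup G).map π
    have hPF : Fp ≤ P := hFpp.le_sylow_of_normal P
    have hCP : C' ≤ Pb := inf_le_left.trans (Subgroup.map_mono hPF)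
    haveI : C'.Normal := inferInstance
    have h0 : C'.subgroupOf Pb ≠ ⊥ := fun h => hC (le_bot_iff.mp fun w hw => by
      have : (⟨w, hCP hw⟩ : Pb) ∈ (⊥ : Subgroup Pb) := h ▸ hw
      exact congrArg Subtype.val (Subgroup.mem_bot.mp this))
    obtain ⟨⟨w, hw, hwc⟩, hw1⟩ :=
      Subgroup.ne_bot_iff_exists_ne_one.1 (CfsgLib.PReduced.inf_center_ne_bot (P.2.map π) h0)
    have htop : (P : Subgroup G) ⊔ FQ = ⊤ := by
      refine Subgroup.eq_top_of_card_eq _ (Nat.dvd_antisymm (Subgroup.card_subgroup_dvd_card _) ?_)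
      rw [Nat.dvd_iff_prime_pow_dvd_dvd]
      intro r k hr hrk
      rcases Nat.eq_zero_or_pos k with rfl | hk0
      · simp
      rcases hG r hr ((dvd_pow_self r hk0.ne').trans hrk) with rfl | rfl
      · exact (P.pow_dvd_card_of_pow_dvd_card hrk).trans (Subgroup.card_dvd_of_le le_sup_left)
      · exact (Q.pow_dvd_card_of_pow_dvd_card hrk).trans (Subgroup.card_dvd_of_le (le_sup_right.trans le_sup_right))
    have hwcen : (w : G ⧸ Z) ∈ Subgroup.center (G ⧸ Z) := by
      have hle : (⊤ : Subgroup (G ⧸ Z)) ≤ Subgroup.centralizer {(w : G ⧸ Z)} := by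
        rw [← Subgroup.map_top_of_surjective π hπ, ← htop, Subgroup.map_sup]
        refine sup_le ?_ ?_
        · intro t ht
          exact Subgroup.mem_centralizer_singleton_iff.mpr (congrArg Subtype.val (Subgroup.mem_center_iff.mp hwc ⟨t, ht⟩))
        · intro t ht
          exact Subgroup.mem_centralizer_singleton_iff.mpr (Subgroup.mem_centralizer_iff.mp hw.2 t ht)
      exact Subgroup.mem_center_iff.mpr fun g => Subgroup.mem_centralizer_singleton_iff.mp (hle (Subgroup.mem_top g))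
    let A := Fp ⊓ (Subgroup.zpowers (w : G ⧸ Z)).comap π
    haveI hzn : (Subgroup.zpowers (w : G ⧸ Z)).Normal := ⟨fun a ha g => by
      rwa [Subgroup.mem_center_iff.mp ((Subgroup.zpowers_le.mpr hwcen : _ ≤ Subgroup.center (G ⧸ Z)) ha) g,
        mul_inv_cancel_right]⟩
    have hAn : A.Normal := inferInstance
    obtain ⟨a₀, ha₀, ha₀w⟩ := hw.1
    have hform : ∀ b ∈ A, ∃ (j : ℤ) (t : G), t ∈ scalarSubgroup ρ ∧ b = a₀ ^ j * t := by
      intro b hb
      obtain ⟨j, hj⟩ := Subgroup.mem_zpowers_iff.mp hb.2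
      refine ⟨j, (a₀ ^ j)⁻¹ * b, ((hπ1 _).mp ?_).2, by group⟩
      rw [map_mul, map_inv, map_zpow, ha₀w, ← hj]
      exact inv_mul_cancel _
    have hA : ∀ a ∈ A, ∀ b ∈ A, ρ (a * b) = ρ (b * a) := by
      intro a ha b hb
      obtain ⟨i, t, ht, rfl⟩ := hform a ha
      obtain ⟨j, s, hs, rfl⟩ := hform b hb
      have e1 : ρ t * ρ (a₀ ^ j * s) = ρ (a₀ ^ j * s) * ρ t := by rw [← map_mul, ← map_mul]; exact ht _
      have e2 : ρ s * ρ (a₀ ^ i) = ρ (a₀ ^ i) * ρ s := by rw [← map_mul, ← map_mul]; exact hs _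
      have e3 : ρ (a₀ ^ i) * ρ (a₀ ^ j) = ρ (a₀ ^ j) * ρ (a₀ ^ i) := by
        rw [← map_mul, ← map_mul, ← zpow_add, ← zpow_add, add_comm]
      rw [map_mul, map_mul ρ (a₀ ^ i), mul_assoc, e1, ← mul_assoc, map_mul ρ (a₀ ^ j) s, ← mul_assoc, e3,
        mul_assoc (ρ (a₀ ^ j)), ← e2, map_mul, map_mul ρ (a₀ ^ j) s, map_mul ρ (a₀ ^ i) t]
      simp only [mul_assoc]
    have := (key A hAn inf_le_left hA).le ⟨a₀, ⟨ha₀, Subgroup.mem_zpowers_iff.mpr ⟨1, by rw [zpow_one, ha₀w]; rfl⟩⟩, ha₀w⟩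
    exact hw1 (Subtype.ext (Subtype.ext (Subgroup.mem_bot.mp this)))
  have := Fintype.ofFinite Qb
  obtain ⟨a, hca⟩ := IsPGroup.iff_card.mp hUp
  have hqU : ¬ q ∣ Nat.card U := fun h => hpq ((Nat.prime_dvd_prime_iff_eq hq.out hp.out).mp
    (hq.out.dvd_of_dvd_pow (hca ▸ h))).symm
  have hav := avg q Qb (Q.2.map π) (Nat.card U) U rfl hUab
    (fun x _ => by rw [Subgroup.normalizer_eq_top]; exact Subgroup.mem_top x) hqU hfix
  obtain ⟨gb, hgb⟩ : ∃ x : Qb, Nat.card ↥(U ⊓ Subgroup.centralizer {(x : G ⧸ Z)}) ^ 2 ≤ Nat.card U := by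
    by_contra hne
    push Not at hne
    refine absurd hav (not_le.mpr ?_)
    rw [Nat.card_eq_fintype_card (α := Qb), ← Finset.card_univ, ← Finset.prod_const]
    exact Finset.prod_lt_prod_of_nonempty (fun _ _ => Nat.card_pos) (fun x _ => hne x) Finset.univ_nonempty
  obtain ⟨g, hgQ, hg⟩ := gb.2
  refine ⟨g, hgQ, fun x hx k hk => ?_⟩
  -- fixed points of `x` are fixed points of `g`
  have hCle : U ⊓ Subgroup.centralizer {π x} ≤ U ⊓ Subgroup.centralizer {π g} := by
    rintro u ⟨hu, hux⟩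
    refine ⟨hu, ?_⟩
    have hle : F ⊔ Subgroup.zpowers x ≤ (Subgroup.centralizer {u}).comap π := by
      refine sup_le (fun f hf => ?_) (Subgroup.zpowers_le.mpr ?_)
      · exact Subgroup.mem_centralizer_singleton_iff.mpr (Subgroup.mem_centralizer_iff.mp (hFC hf) u hu).symm
      · exact Subgroup.mem_centralizer_singleton_iff.mpr (Subgroup.mem_centralizer_singleton_iff.mp hux).symm
    exact Subgroup.mem_centralizer_singleton_iff.mpr (Subgroup.mem_centralizer_singleton_iff.mp (hle hx)).symm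
  set c := Nat.card ↥(U ⊓ Subgroup.centralizer {π x}) with hc
  have hc2 : c ^ 2 ≤ Nat.card U := by
    refine le_trans (Nat.pow_le_pow_left ?_ 2) hgb
    rw [← hg]
    exact Nat.le_of_dvd Nat.card_pos (Subgroup.card_dvd_of_le hCle)
  set N := (Subgroup.centralizer {π x}).relIndex U with hN
  have hNc : c * N = Nat.card U := by
    have h0 := Subgroup.relIndex_mul_relIndex (⊥ : Subgroup (G ⧸ Z)) (Subgroup.centralizer {π x} ⊓ U) U bot_le
      inf_le_right
    rw [Subgroup.relIndex_bot_left, Subgroup.relIndex_bot_left, Subgroup.inf_relIndex_right, inf_comm] at h0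
    rw [hc, hN]
    exact h0
  have hNdvd : N ∣ (Subgroup.centralizer ({x} : Set G)).index := by
    have h1 : Subgroup.centralizer ({x} : Set G) ≤ (Subgroup.centralizer {π x}).comap π := fun y hy =>
      Subgroup.mem_centralizer_singleton_iff.mpr (by
        rw [← map_mul, Subgroup.mem_centralizer_singleton_iff.mp hy, map_mul])
    rw [hN, ← Subgroup.relIndex_comap]
    refine (Subgroup.relIndex_dvd_of_le_left _ h1).trans ?_
    set C := Subgroup.centralizer ({x} : Set G)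
    have hcd : ∀ A B : Subgroup G, A ≤ B → A.relIndex B * Nat.card A = Nat.card B := fun A B h => by
      rw [Subgroup.relIndex, ← Nat.card_congr (Subgroup.subgroupOfEquivOfLe h).toEquiv, mul_comm,
        Subgroup.card_mul_index]
    have e1 := hcd (C ⊓ Fp) Fp inf_le_right
    have e2 := hcd (C ⊓ Fp) C inf_le_left
    have e3 := hcd Fp (C ⊔ Fp) le_sup_right
    have e4 := hcd C (C ⊔ Fp) le_sup_left
    rw [Subgroup.inf_relIndex_right] at e1
    rw [inf_comm, Subgroup.inf_relIndex_right, inf_comm] at e2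
    rw [Subgroup.relIndex_sup_right, ← e1] at e3
    rw [← e3, ← e2] at e4
    have e5 : C.relIndex (C ⊔ Fp) = C.relIndex Fp := by
      have h0 : 0 < Fp.relIndex C * Nat.card ↥(C ⊓ Fp) := e2 ▸ Nat.card_pos
      refine Nat.eq_of_mul_eq_mul_right h0 ?_
      rw [e4]; ring
    rw [← e5, ← Subgroup.relIndex_mul_index (le_sup_left : C ≤ C ⊔ Fp)]
    exact dvd_mul_right _ _
  -- the degree
  haveI := hF
  have hirr : Cfsg.IsIrrCharacter F (fun n : F => ρ.character n) := irr_restrict hχ hprim _ F rfl hmeta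
  obtain ⟨e, η, hη, hinv, he⟩ := homog hχ hprim Fp
  let E : Fp.subgroupOf F ≃* Fp := Subgroup.subgroupOfEquivOfLe hFpF
  have hη' : Cfsg.IsIrrCharacter (Fp.subgroupOf F) (fun m => η (E m)) :=
    CfsgLib.Clifford.isIrrCharacter_comp hη E.toMonoidHom E.surjective
  have hed : e ∣ (Fp.subgroupOf F).index :=
    charMult_dvd_index hirr hη' (fun t => funext fun m => congrFun (hinv (t : G)) (E m)) e (fun m => he (E m))
  have hep : ¬ p ∣ e := by
    intro h
    obtain ⟨S⟩ : Nonempty (Sylow p F) := inferInstance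
    refine S.not_dvd_index ((h.trans hed).trans (Subgroup.index_dvd_of_le fun y hy => ?_))
    refine CfsgLib.KegelWielandt.mem_pCore_of_mem_fitting y.2 ?_
    exact ((S.2.map F.subtype).to_le (Subgroup.zpowers_le.mpr ⟨y, hy, rfl⟩))
  set m := Cfsg.charDegree η with hm
  have hdem : d = e * m := by
    have h := he 1
    rw [Subgroup.coe_one, Representation.char_one, Module.finrank_fin_fun, apply_one (isCharacter_of_irr hη)] at h
    exact_mod_cast h
  have hkm : p ^ k ∣ m := by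
    refine Nat.Coprime.dvd_of_dvd_mul_left (Nat.Coprime.pow_left k (hp.out.coprime_iff_not_dvd.mpr hep)) ?_
    rw [← hdem]; exact hk
  -- `m ^ 2 ≤ |U|`
  have := Fintype.ofFinite Fp
  have hm2 : m ^ 2 ≤ Nat.card U := by
    have hsc : ∀ t : Fp, (t : G) ∈ Z → Complex.normSq (η t) = (m : ℝ) ^ 2 := by
      intro t ht
      obtain ⟨c', hc'⟩ := schur_scalar hρ (ρ (t : G)) (fun g => by rw [← map_mul, ← map_mul]; exact ht.2 g)
      have hd0 : (d : ℂ) ≠ 0 := by
        have := apply_one_ne_zero hχ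
        rwa [Representation.char_one, Module.finrank_fin_fun] at this
      have hone : ‖c'‖ = 1 := by
        refine Complex.norm_eq_one_of_pow_eq_one (n := orderOf (t : G)) ?_ (orderOf_pos _).ne'
        have h1 : c' ^ orderOf (t : G) • (1 : Module.End ℂ (Fin d → ℂ)) = 1 := by
          have h2 : ρ (t : G) ^ orderOf (t : G) = 1 := by rw [← map_pow, pow_orderOf_eq_one, map_one]
          rwa [hc', smul_pow, one_pow] at h2
        have h3 := congrArg (LinearMap.trace ℂ (Fin d → ℂ)) h1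
        rw [map_smul, LinearMap.trace_one, Module.finrank_fin_fun, smul_eq_mul] at h3
        exact (mul_eq_right₀ hd0).mp h3
      have hval : ρ.character (t : G) = c' * d := by
        rw [Representation.character, hc', map_smul, LinearMap.trace_one, Module.finrank_fin_fun, smul_eq_mul]
      have h4 : (e : ℂ) * η t = (e : ℂ) * (c' * m) := by
        rw [← he t, hval, hdem]; push_cast; ring
      have he0 : (e : ℂ) ≠ 0 := fun h => hd0 (by rw [hdem]; push_cast; rw [h, zero_mul])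
      rw [mul_left_cancel₀ he0 h4, map_mul, Complex.normSq_eq_norm_sq, hone, Complex.normSq_natCast]
      ring
    have h1 : (m : ℝ) ^ 2 * Nat.card (Z.subgroupOf Fp) ≤ Nat.card Fp := by
      rw [← sum_normSq hη]
      calc (m : ℝ) ^ 2 * Nat.card (Z.subgroupOf Fp)
          = ∑ t ∈ (Finset.univ.filter fun t : Fp => (t : G) ∈ Z), Complex.normSq (η t) := by
            rw [Finset.sum_congr rfl (fun t ht => hsc t (Finset.mem_filter.mp ht).2), Finset.sum_const, nsmul_eq_mul,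
              mul_comm]
            congr 2
            rw [← Fintype.card_subtype, ← Nat.card_eq_fintype_card]
            rfl
        _ ≤ _ := Finset.sum_le_sum_of_subset_of_nonneg (Finset.subset_univ _) (fun t _ _ => Complex.normSq_nonneg _)
    have h2 : m ^ 2 * Nat.card (Z.subgroupOf Fp) ≤ Nat.card Fp := by exact_mod_cast h1
    rw [← Subgroup.card_mul_index (Z.subgroupOf Fp), mul_comm (m ^ 2)] at h2
    refine (Nat.le_of_mul_le_mul_left h2 Nat.card_pos).trans (le_of_eq ?_)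
    show Z.relIndex Fp = _
    have hbot : (⊥ : Subgroup (G ⧸ Z)).comap π = Z := by rw [MonoidHom.comap_bot, QuotientGroup.ker_mk']
    calc Z.relIndex Fp = ((⊥ : Subgroup (G ⧸ Z)).comap π).relIndex Fp := by rw [hbot]
      _ = _ := by rw [Subgroup.relIndex_comap, Subgroup.relIndex_bot_left]
  obtain ⟨i, hia, hi⟩ := (Nat.dvd_prime_pow hp.out).mp (hca ▸ Dvd.intro_left c hNc : N ∣ p ^ a)
  have hle : p ^ k ≤ p ^ i := by
    rw [← hi]
    have hm0 : 0 < m := charDegree_pos hη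
    have h1 : (p ^ k) ^ 2 ≤ Nat.card U := (Nat.pow_le_pow_left (Nat.le_of_dvd hm0 hkm) 2).trans hm2
    nlinarith [h1, hc2, hNc, sq_nonneg ((c : ℤ) - N), Nat.card_pos (α := U)]
  exact ((pow_dvd_pow p ((Nat.pow_le_pow_iff_right hp.out.one_lt).mp hle)).trans (hi ▸ dvd_rfl)).trans hNdvd

theorem mem_sup_zpowers {G : Type*} [Group G] [Finite G] {F : Subgroup G} [F.Normal] {g h : G}
    (hc : Commute (g : G ⧸ F) (h : G ⧸ F)) (hcop : (orderOf (g : G ⧸ F)).Coprime (orderOf (h : G ⧸ F))) :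
    g ∈ F ⊔ Subgroup.zpowers (g * h) := by
  have hg : (g : G ⧸ F) ∈ Subgroup.zpowers ((g * h : G) : G ⧸ F) := by
    set n := orderOf (h : G ⧸ F) with hn
    have h1 : ((g * h : G) : G ⧸ F) ^ n = (g : G ⧸ F) ^ n := by
      rw [QuotientGroup.mk_mul, hc.mul_pow, hn, pow_orderOf_eq_one, mul_one]
    obtain ⟨j, hj⟩ := exists_pow_eq_self_of_coprime hcop.symm
    rw [← hj, ← h1, ← pow_mul]
    exact Subgroup.npow_mem_zpowers _ _
  obtain ⟨j, hj⟩ := Subgroup.mem_zpowers_iff.mp hg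
  have h2 : g * ((g * h) ^ j)⁻¹ ∈ F := by
    rw [← QuotientGroup.eq_one_iff, QuotientGroup.mk_mul, QuotientGroup.mk_inv, QuotientGroup.mk_zpow, hj,
      mul_inv_cancel]
  simpa using Subgroup.mul_mem_sup h2 (Subgroup.zpow_mem_zpowers (g * h) j)

/-- Let G be a group of odd order whose order has exactly two prime divisors and whose quotient by its Fitting subgroup is nilpotent (G is metanilpotent), and let χ be a primitive irreducible complex character of G (not induced from a character of any proper subgroup). Then χ(1) divides the size of some conjugacy class of G. -/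
theorem result {G : Type*} [Group G] [Fintype G] (hodd : Odd (Nat.card G)) (h2 : (Nat.card G).primeFactors.card = 2) [hF : (Cfsg.fittingSubgroup G).Normal] (hmeta : Group.IsNilpotent (G ⧸ Cfsg.fittingSubgroup G)) (χ : Cfsg.IrrCharacter G) (hprim : ¬ ∃ (H : Subgroup G), H ≠ ⊤ ∧ ∃ θ : ↥H → ℂ, Cfsg.IsCharacter ↥H θ ∧ Cfsg.indFun H θ = (χ : G → ℂ)) : ∃ g : G, Cfsg.charDegree (χ : G → ℂ) ∣ (Subgroup.centralizer ({g} : Set G)).index := by
  classical
  obtain ⟨p, q, hpq, hpf⟩ := Finset.card_eq_two.mp h2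
  have hmem : ∀ r : ℕ, r.Prime → r ∣ Nat.card G → r = p ∨ r = q := fun r hr hrd => by
    have : r ∈ (Nat.card G).primeFactors := Nat.mem_primeFactors.mpr ⟨hr, hrd, Nat.card_pos.ne'⟩
    rw [hpf] at this
    simpa using this
  haveI hp : Fact p.Prime := ⟨Nat.prime_of_mem_primeFactors (n := Nat.card G) (by rw [hpf]; simp)⟩
  haveI hq : Fact q.Prime := ⟨Nat.prime_of_mem_primeFactors (n := Nat.card G) (by rw [hpf]; simp)⟩
  obtain ⟨d, ρ, hρ, hρχ⟩ := χ.2
  have hprim' : ¬ ∃ (H : Subgroup G), H ≠ ⊤ ∧ ∃ θ : ↥H → ℂ, Cfsg.IsCharacter ↥H θ ∧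
      Cfsg.indFun H θ = ρ.character := by rw [hρχ]; exact hprim
  obtain ⟨Q⟩ : Nonempty (Sylow q G) := inferInstance
  obtain ⟨P⟩ : Nonempty (Sylow p G) := inferInstance
  obtain ⟨g, hgQ, hg⟩ := one_side ρ hρ hprim' hmeta p q hpq hmem Q
  obtain ⟨h, hhP, hh⟩ := one_side ρ hρ hprim' hmeta q p hpq.symm (fun r hr hrd => (hmem r hr hrd).symm) P
  have hdeg : Cfsg.charDegree (χ : G → ℂ) = d := by
    rw [← hρχ, Cfsg.charDegree, Representation.char_one, Module.finrank_fin_fun]
    simp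
  let f := QuotientGroup.mk' (Cfsg.fittingSubgroup G)
  have hf : Function.Surjective f := QuotientGroup.mk'_surjective _
  have hgQ' : (g : G ⧸ Cfsg.fittingSubgroup G) ∈ (Q : Subgroup G).map f := ⟨g, hgQ, rfl⟩
  have hhP' : (h : G ⧸ Cfsg.fittingSubgroup G) ∈ (P : Subgroup G).map f := ⟨h, hhP, rfl⟩
  have hQn : ((Q : Subgroup G).map f).Normal :=
    CfsgLib.Hall.NormComplement.sylow_normal_of_nilpotent hmeta q (Q.mapSurjective hf)
  have hPn : ((P : Subgroup G).map f).Normal :=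
    CfsgLib.Hall.NormComplement.sylow_normal_of_nilpotent hmeta p (P.mapSurjective hf)
  have hdis : Disjoint ((Q : Subgroup G).map f) ((P : Subgroup G).map f) :=
    IsPGroup.disjoint_of_ne q p hpq.symm _ _ (Q.2.map f) (P.2.map f)
  have hc := Subgroup.commute_of_normal_of_disjoint _ _ hQn hPn hdis _ _ hgQ' hhP'
  obtain ⟨i, hi⟩ := (IsPGroup.iff_orderOf.mp (Q.2.map f)) ⟨_, hgQ'⟩
  obtain ⟨j, hj⟩ := (IsPGroup.iff_orderOf.mp (P.2.map f)) ⟨_, hhP'⟩
  rw [Subgroup.orderOf_mk] at hi hj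
  have hcop : (orderOf (g : G ⧸ Cfsg.fittingSubgroup G)).Coprime (orderOf (h : G ⧸ Cfsg.fittingSubgroup G)) := by
    rw [hi, hj]
    exact Nat.Coprime.pow _ _ ((Nat.coprime_primes hq.out hp.out).mpr hpq.symm)
  refine ⟨g * h, ?_⟩
  have hx1 := mem_sup_zpowers hc hcop
  have hx2 : h ∈ Cfsg.fittingSubgroup G ⊔ Subgroup.zpowers (g * h) := by
    have := Subgroup.mul_mem _ (Subgroup.inv_mem _ hx1) (Subgroup.mem_sup_right (Subgroup.mem_zpowers (g * h)))
    rwa [inv_mul_cancel_left] at this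
  rw [hdeg, Nat.dvd_iff_prime_pow_dvd_dvd]
  intro r k hr hrk
  rcases Nat.eq_zero_or_pos k with rfl | hk0
  · simp
  have hdG : d ∣ Nat.card G := by
    have := finrank_dvd_index_of_scalar hρ (⊥ : Subgroup G) (fun z hz => ⟨1, by
      rw [Subgroup.mem_bot.mp hz, map_one, one_smul]⟩)
    rwa [Module.finrank_fin_fun, Subgroup.index_bot] at this
  rcases hmem r hr (((dvd_pow_self r hk0.ne').trans hrk).trans hdG) with rfl | rfl
  · exact hg _ hx1 k hrk
  · exact hh _ hx2 k hrk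

end Cfsg.Agent.S4993
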