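import Cfsg.Statements.S4994
import Cfsg.Agent.ClassPPart.Main

set_option autoImplicit false
open Cfsg

namespace Cfsg.Agent.S4994

/-- Let G be a finite solvable group, χ a primitive irreducible complex character of G (not induced from a character of any proper subgroup) and p a prime dividing the order of G. Then there is an element g of G such that the p-part of χ(1) divides the cube of the p-part of the size of the conjugacy class of g. -/
theorem result {G : Type*} [Group G] [Fintype G] (hsolv : Group.IsSolvable G) (χ : Cfsg.IrrCharacter G) (hprim : ¬ ∃ (H : Subgroup G), H ≠ ⊤ ∧ ∃ θ : ↥H → ℂ, Cfsg.IsCharacter ↥H θ ∧ Cfsg.indFun H θ = (χ : G → ℂ)) (p : ℕ) [Fact p.Prime] (hp : p ∣ Nat.card G) : ∃ g : G, (Cfsg.charDegree (χ : G → ℂ)).factorization p ≤ 3 * ((Subgroup.centralizer ({g} : Set G)).index).factorization p := by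
  classical
  haveI := hsolv
  haveI := Fintype.ofFinite ↥(⊤ : Subgroup G)
  have hθ : Cfsg.IsIrrCharacter ↥(⊤ : Subgroup G) (fun n => (χ : G → ℂ) n) :=
    CfsgLib.Clifford.isIrrCharacter_comp χ.2 (Subgroup.topEquiv : ↥(⊤ : Subgroup G) ≃* G).toMonoidHom
      (Subgroup.topEquiv : ↥(⊤ : Subgroup G) ≃* G).surjective
  have h := CfsgLib.ClassPPart.main_bound χ.2 hprim p ⊤ (fun n => (χ : G → ℂ) n) hθ
    (by rw [CfsgLib.CharBasics.classInner_self hθ]; exact one_ne_zero)
  by_contra hcon
  push Not at hcon
  have hlt : ∑ g : G, 3 * CfsgLib.ClassPPart.cw p ⊤ g <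
      ∑ _g : G, (Cfsg.charDegree (χ : G → ℂ)).factorization p :=
    Finset.sum_lt_sum_of_nonempty Finset.univ_nonempty fun g _ => by
      have := hcon g
      simpa [CfsgLib.ClassPPart.cw, CfsgLib.ClassPPart.cz, Subgroup.relIndex_top_right] using this
  rw [← Finset.mul_sum, Finset.sum_const, Finset.card_univ, smul_eq_mul, ← Nat.card_eq_fintype_card] at hlt
  exact absurd h (not_le.2 hlt)

end Cfsg.Agent.S4994
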