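import Cfsg.Statements.S4996
import Cfsg.Agent.CharBasics.Extra

set_option autoImplicit false
open Cfsg

namespace Cfsg.Agent.S4996

open CfsgLib.CharBasics
open scoped ComplexConjugate

/-- Let N be a normal subgroup of the finite group G and χ an irreducible complex character of G. Then the restriction of χ to N is not irreducible if and only if χ vanishes on some whole coset Nx of N in G. -/
theorem result {G : Type*} [Group G] [Finite G] (N : Subgroup G) [N.Normal] (χ : Cfsg.IrrCharacter G) : ¬ Cfsg.IsIrrCharacter ↥N (fun n : ↥N => (χ : G → ℂ) n) ↔ ∃ x : G, ∀ n : ↥N, (χ : G → ℂ) ((n : G) * x) = 0 := by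
  classical
  haveI := Fintype.ofFinite G
  haveI := Fintype.ofFinite N
  have hc := isCharacter_of_irr χ.2
  let φ : G → ℂ := fun g => (Nat.card N : ℂ)⁻¹ * ∑ m : N,
    ((χ : G → ℂ) * fun y => conj ((χ : G → ℂ) y)) (g * m)
  have hφ : Cfsg.IsCharacter G φ := isCharacter_cosetAvg N (isCharacter_mul hc (isCharacter_star hc))
  have hφval : ∀ g, φ g = (((Nat.card N : ℝ)⁻¹ * ∑ m : N, ‖(χ : G → ℂ) (g * m)‖ ^ 2 : ℝ) : ℂ) := by
    intro g
    simp only [φ, Pi.mul_apply, Complex.mul_conj']
    push_cast
    rfl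
  have hφ1 : φ 1 = Cfsg.classInner (fun n : N => (χ : G → ℂ) n) (fun n : N => (χ : G → ℂ) n) := by
    simp only [φ, classInner_eq, one_mul, Pi.mul_apply]
  have hzero : ∀ g, φ g = 0 → ∀ m : N, (χ : G → ℂ) ((m : G) * g) = 0 := by
    intro g hg m
    have hN : (0 : ℝ) < (Nat.card N : ℝ) := by exact_mod_cast Nat.card_pos
    rw [hφval g, Complex.ofReal_eq_zero, mul_eq_zero] at hg
    have h2 := (Finset.sum_eq_zero_iff_of_nonneg (fun m _ => by positivity)).mp
      (hg.resolve_left (inv_ne_zero hN.ne')) m (Finset.mem_univ _)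
    rw [apply_mul_comm hc]
    exact norm_eq_zero.mp (pow_eq_zero_iff two_ne_zero |>.mp h2)
  constructor
  · intro hred
    by_contra hall
    push Not at hall
    refine hred (isIrr_of_norm_one (isCharacter_restrict hc N) ?_)
    have hne : ∀ g : G, φ g ≠ 0 := fun g hg => by
      obtain ⟨m, hm⟩ := hall g
      exact hm (hzero g hg m)
    have hle := card_le_sum_norm Nat.card_pos.ne' dvd_rfl (cycPoly_character hφ)
      ((Finset.univ : Finset G).erase 1) (fun g hg j hj => by
        refine Finset.mem_erase.mpr ⟨fun h1 => (Finset.mem_erase.mp hg).1 ?_, Finset.mem_univ _⟩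
        obtain ⟨m, hm⟩ := exists_pow_eq_self_of_coprime (hj.coprime_dvd_right (orderOf_dvd_natCard g))
        rw [← hm, h1, one_pow]) (fun g _ => hne g)
    have hreal : ∀ g, ((‖φ g‖ : ℝ) : ℂ) = φ g := by
      intro g
      rw [hφval g, Complex.norm_real, Real.norm_eq_abs, abs_of_nonneg (by positivity)]
    have hsum : ∑ g : G, φ g = (Nat.card G : ℂ) := by
      simp only [φ, Pi.mul_apply, ← Finset.mul_sum]
      rw [Finset.sum_comm]
      have : ∀ m : N, ∑ g : G, (χ : G → ℂ) (g * m) * conj ((χ : G → ℂ) (g * m)) = (Nat.card G : ℂ) := by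
        intro m
        have h := sum_mul_conj χ χ
        rw [if_pos rfl] at h
        rw [← h]
        exact Fintype.sum_equiv (Equiv.mulRight (m : G)) _ _ fun g => rfl
      rw [Finset.sum_congr rfl (fun m _ => this m), Finset.sum_const, Finset.card_univ, nsmul_eq_mul,
        ← Nat.card_eq_fintype_card, inv_mul_cancel_left₀ (Nat.cast_ne_zero.mpr Nat.card_pos.ne')]
    have hsumR : ∑ g : G, ‖φ g‖ = (Nat.card G : ℝ) := by
      have : ((∑ g : G, ‖φ g‖ : ℝ) : ℂ) = ((Nat.card G : ℝ) : ℂ) := by
        push_cast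
        rw [Finset.sum_congr rfl (fun g _ => hreal g), hsum]
      exact_mod_cast this
    rw [← Finset.add_sum_erase _ _ (Finset.mem_univ (1 : G))] at hsumR
    obtain ⟨k, hk⟩ := classInner_characters_nat (isCharacter_restrict hc N) (isCharacter_restrict hc N)
    have hk1 : (k : ℝ) ≤ 1 := by
      have h1 : ‖φ 1‖ = (k : ℝ) := by rw [hφ1, hk, Complex.norm_natCast]
      rw [Finset.card_erase_of_mem (Finset.mem_univ _), Finset.card_univ, ← Nat.card_eq_fintype_card,
        Nat.cast_sub Nat.card_pos, Nat.cast_one] at hle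
      linarith
    have hk0 : k ≠ 0 := fun h0 => hne 1 (by rw [hφ1, hk, h0, Nat.cast_zero])
    have : k = 1 := by
      have : k ≤ 1 := by exact_mod_cast hk1
      omega
    rw [hk, this, Nat.cast_one]
  · rintro ⟨g, hg⟩ hirr
    have hd : Cfsg.charDegree φ = 1 := by
      have h1 : φ 1 = 1 := by rw [hφ1]; exact classInner_self hirr
      simp [Cfsg.charDegree, h1]
    obtain ⟨lam, hl, hv⟩ := exists_eigen hφ g
    have h1 : φ g = 0 := by
      simp only [φ, Pi.mul_apply]
      have : ∀ m : N, (χ : G → ℂ) (g * m) * conj ((χ : G → ℂ) (g * m)) = 0 := fun m => by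
        rw [apply_mul_comm hc g m, hg m, zero_mul]
      rw [Finset.sum_congr rfl (fun m _ => this m), Finset.sum_const_zero, mul_zero]
    have h2 := hv 1
    simp only [pow_one, h1] at h2
    haveI : Unique (Fin (Cfsg.charDegree φ)) := by rw [hd]; infer_instance
    rw [Fintype.sum_unique] at h2
    have h3 := hl default
    rw [← h2, zero_pow (orderOf_pos g).ne'] at h3
    exact zero_ne_one h3

end Cfsg.Agent.S4996
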