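import Cfsg.Statements.S5001
import Cfsg.Agent.Blocks.DefectGroup
import Cfsg.Agent.IndFun.Basic

set_option autoImplicit false
open Cfsg CfsgLib.CharBasics CfsgLib.Blocks
open scoped ComplexConjugate

namespace Cfsg.Agent.S5001

/-- Let p be a prime, G a finite group and B a p-block of G (relative to a maximal ideal M of the algebraic integers containing p) with defect group D. Let Z be a central p-subgroup of G contained in D and λ a linear character of Z (a homomorphism to the nonzero complex numbers). Say an irreducible character χ of G lies over λ when χ(z) = χ(1)λ(z) for all z ∈ Z. If some irreducible character in B lying over λ has height zero, then λ extends to a linear character of D. -/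
theorem result {G : Type*} [Group G] [Finite G] (p : ℕ) [Fact p.Prime] (M : Ideal Cfsg.AlgInt) (hM : Cfsg.IsPModular p M) (B : Set (Cfsg.IrrCharacter G)) (hB : Cfsg.IsPBlock M B) (D : Subgroup G) (hD : Cfsg.IsDefectGroup p M B D) (Z : Subgroup G) (hZc : Z ≤ Subgroup.center G) (hZp : IsPGroup p ↥Z) (hZD : Z ≤ D) (lam : ↥Z →* ℂˣ) (χ : Cfsg.IrrCharacter G) (hχ : χ ∈ B) (hover : (∀ z : ↥Z, (χ : G → ℂ) z = (χ : G → ℂ) 1 * (lam z : ℂ))) (h0 : Cfsg.blockHeight p B (χ : G → ℂ) = 0) : (∃ μ : ↥D →* ℂˣ, ∀ z : ↥Z, μ ⟨(z : G), hZD z.2⟩ = lam z) := by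
  classical
  haveI := Fintype.ofFinite G
  have hpp := hM.1
  obtain ⟨g, hg, P, rfl⟩ := hD
  obtain ⟨χ₀, hχ₀, hmin, hs⟩ := exists_min_degExp hM hB
  have he : degExp p χ = degExp p χ₀ := by
    have h1 := hmin χ hχ
    rw [blockHeight_eq hs] at h0
    omega
  have hcent : centExp p g = (Nat.card G).factorization p - degExp p χ := by
    rw [centExp_eq_blockDefect hM hB hg, blockDefect_eq hs, he]
  haveI := Fintype.ofFinite (Subgroup.centralizer ({g} : Set G))
  have hgC : g ∈ (Subgroup.centralizer ({g} : Set G)) := Subgroup.mem_centralizer_singleton_iff.2 rfl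
  have hχg : ¬ MemLocalIdeal M ((χ : G → ℂ) g) := by
    intro hmem
    apply hg.2.2 χ hχ
    obtain ⟨c, c', hc, hχ1, hm, hc'⟩ := exists_degree_eq hpp χ
    set a := (Nat.card G).factorization p
    set m' := Nat.card (Subgroup.centralizer ({g} : Set G)) / p ^ centExp p g with hm'
    have hCc : (Nat.card (Subgroup.centralizer ({g} : Set G)) : ℂ) = (p : ℂ) ^ centExp p g * (m' : ℂ) := by
      rw [← Nat.cast_pow, ← Nat.cast_mul, hm', centExp, Nat.ordProj_mul_ordCompl_eq_self]
    have hGc : (Nat.card G : ℂ) = (p : ℂ) ^ a * ((c : ℂ) * c') := by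
      rw [← Nat.cast_pow, ← Nat.cast_mul (c : ℕ), ← hm, ← Nat.cast_mul, Nat.ordProj_mul_ordCompl_eq_self]
    have hpm' : ¬ p ∣ m' := Nat.not_dvd_ordCompl hpp Nat.card_pos.ne'
    have h1 : (c : ℂ) ≠ 0 := Nat.cast_ne_zero.2 fun h => hc (h ▸ dvd_zero p)
    have h2 : (c' : ℂ) ≠ 0 := Nat.cast_ne_zero.2 fun h => hc' (h ▸ dvd_zero p)
    have h3 : (m' : ℂ) ≠ 0 := Nat.cast_ne_zero.2 fun h => hpm' (h ▸ dvd_zero p)
    have h4 : (p : ℂ) ≠ 0 := Nat.cast_ne_zero.2 hpp.ne_zero
    have hle : degExp p χ + centExp p g = a := by have := degExp_le hpp χ; omega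
    have e : centralChar (χ : G → ℂ) g = (χ : G → ℂ) g * ((c' : ℂ) * (m' : ℂ)⁻¹) := by
      rw [centralChar_eq_smul χ g, hχ1, hCc, hGc, ← hle, pow_add]
      field_simp
    rw [e]
    exact memLocalIdeal_mul_right hM hmem (memLocalRing_mul hM (memLocalRing_natCast hM c')
      (memLocalRing_natCast_inv hM hpm'))
  obtain ⟨r, η, hη, hsum⟩ := exists_decomp (isCharacter_restrict (isCharacter_of_irr χ.2) (Subgroup.centralizer ({g} : Set G)))
  -- some constituent on the centralizer has degree prime to `p`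
  obtain ⟨i₀, hi₀⟩ : ∃ i, ¬ p ∣ charDegree (η i) := by
    by_contra hall
    push Not at hall
    refine hχg ?_
    have hval : (χ : G → ℂ) g = ∑ i, η i ⟨g, hgC⟩ := (congrFun hsum ⟨g, hgC⟩).trans (Finset.sum_apply _ _ _)
    rw [hval]
    refine memLocalIdeal_sum hM _ fun i _ => ?_
    have hidx : (Subgroup.centralizer ({(⟨g, hgC⟩ : (Subgroup.centralizer ({g} : Set G)))} : Set (Subgroup.centralizer ({g} : Set G)))).index = 1 := by
      rw [Subgroup.index_eq_one, Subgroup.eq_top_iff']
      intro x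
      rw [Subgroup.mem_centralizer_singleton_iff]
      exact Subtype.ext (Subgroup.mem_centralizer_singleton_iff.1 x.2)
    have e : η i ⟨g, hgC⟩ = (charDegree (η i) : ℂ) * centralChar (η i) ⟨g, hgC⟩ := by
      have := apply_one_ne_zero (hη i)
      rw [centralChar, hidx, Nat.cast_one, one_mul, ← apply_one (isCharacter_of_irr (hη i))]
      field_simp
    rw [e]
    exact memLocalIdeal_mul_right hM ((memLocalIdeal_natCast_iff hM _).2 (hall i))
      (memLocalRing_centralChar hM ⟨η i, hη i⟩ _)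
  -- and so a linear constituent on the Sylow subgroup
  haveI := Fintype.ofFinite (P : Subgroup (Subgroup.centralizer ({g} : Set G)))
  choose s ξ hξ hξsum using fun i => exists_decomp (isCharacter_restrict (isCharacter_of_irr (hη i)) (P : Subgroup (Subgroup.centralizer ({g} : Set G))))
  obtain ⟨j₀, hj₀⟩ : ∃ j, charDegree (ξ i₀ j) = 1 := by
    by_contra hall
    push Not at hall
    refine hi₀ ?_
    have h1 := congrFun (hξsum i₀) 1
    rw [Finset.sum_apply] at h1
    simp only [Subgroup.coe_one, apply_one (isCharacter_of_irr (hη i₀)),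
      fun j => apply_one (isCharacter_of_irr (hξ i₀ j)), ← Nat.cast_sum, Nat.cast_inj] at h1
    rw [h1]
    refine Finset.dvd_sum fun j _ => ?_
    obtain ⟨k, hk⟩ := P.isPGroup'.exists_card_eq
    obtain ⟨l, -, hl⟩ := (Nat.dvd_prime_pow hpp).1
      (hk ▸ degree_dvd (⟨ξ i₀ j, hξ i₀ j⟩ : IrrCharacter (P : Subgroup (Subgroup.centralizer ({g} : Set G)))))
    rcases l with _ | l
    · exact absurd (by simpa using hl) (hall j)
    · exact ⟨p ^ l, by rw [← pow_succ', ← hl]⟩
  have hξ₁ : ξ i₀ j₀ 1 = 1 := by rw [apply_one (isCharacter_of_irr (hξ i₀ j₀)), hj₀, Nat.cast_one]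
  let L := CfsgLib.IndFun.linHom (isCharacter_of_irr (hξ i₀ j₀)) hξ₁
  let E := (P : Subgroup (Subgroup.centralizer ({g} : Set G))).equivMapOfInjective (Subgroup.centralizer ({g} : Set G)).subtype (Subgroup.centralizer ({g} : Set G)).subtype_injective
  refine ⟨L.comp E.symm.toMonoidHom, fun z => Units.ext ?_⟩
  obtain ⟨d, hd⟩ : ∃ d : (P : Subgroup (Subgroup.centralizer ({g} : Set G))), E d = ⟨(z : G), hZD z.2⟩ := ⟨_, E.apply_symm_apply _⟩
  have hdz : ((d : (Subgroup.centralizer ({g} : Set G))) : G) = z := congrArg Subtype.val hd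
  rw [MonoidHom.comp_apply, MulEquiv.coe_toMonoidHom, ← hd, E.symm_apply_apply, CfsgLib.IndFun.linHom_val]
  choose lm hlm hlmv using fun k : (Σ i, Fin (s i)) => exists_eigen (isCharacter_of_irr (hξ k.1 k.2)) d
  have hzord : ∀ k i, ‖lm k i‖ = 1 := fun k i => Complex.norm_eq_one_of_pow_eq_one (hlm k i) (orderOf_pos d).ne'
  have hw : (lam z : ℂ) ^ orderOf z = 1 := by
    rw [← Units.val_pow_eq_pow_val, ← map_pow, pow_orderOf_eq_one, map_one, Units.val_one]
  have hwn : ‖(lam z : ℂ)‖ = 1 := Complex.norm_eq_one_of_pow_eq_one hw (orderOf_pos z).ne'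
  have hw0 : (lam z : ℂ) ≠ 0 := Units.ne_zero _
  have hall := eq_one_of_sum_eq_card
    (fun ki : (Σ k : (Σ i, Fin (s i)), Fin (charDegree (ξ k.1 k.2))) => lm ki.1 ki.2 / (lam z : ℂ))
    (fun ki => by rw [norm_div, hzord, hwn, div_one]) (by
      rw [← Finset.sum_div, Fintype.sum_sigma, Fintype.card_sigma]
      have hk : ∀ k : (Σ i, Fin (s i)), ∑ i, lm k i = ξ k.1 k.2 d := fun k => by simpa using (hlmv k 1).symm
      rw [Finset.sum_congr rfl (fun k _ => hk k), Fintype.sum_sigma, div_eq_iff hw0]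
      simp only [Fintype.card_fin]
      have h1 : ∀ x : (P : Subgroup (Subgroup.centralizer ({g} : Set G))), ((χ : G → ℂ) ((x : (Subgroup.centralizer ({g} : Set G))) : G)) = ∑ i, ∑ j, ξ i j x := fun x => by
        rw [show (χ : G → ℂ) ((x : (Subgroup.centralizer ({g} : Set G))) : G) = ∑ i, η i (x : (Subgroup.centralizer ({g} : Set G))) from
          (congrFun hsum (x : (Subgroup.centralizer ({g} : Set G)))).trans (Finset.sum_apply _ _ _)]
        exact Finset.sum_congr rfl fun i _ => (congrFun (hξsum i) x).trans (Finset.sum_apply _ _ _)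
      rw [← h1 d, hdz, hover z]
      congr 1
      have h2 := h1 1
      simp only [Subgroup.coe_one] at h2
      rw [h2, Fintype.sum_sigma, Nat.cast_sum]
      refine Finset.sum_congr rfl fun i _ => ?_
      rw [Nat.cast_sum]
      exact Finset.sum_congr rfl fun j _ => apply_one (isCharacter_of_irr (hξ i j)))
  have hlast : ξ i₀ j₀ d = ∑ i, lm ⟨i₀, j₀⟩ i := by simpa using hlmv ⟨i₀, j₀⟩ 1
  rw [hlast, Finset.sum_congr rfl (fun i _ => (div_eq_one_iff_eq hw0).1 (hall ⟨⟨i₀, j₀⟩, i⟩)), Finset.sum_const,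
    Finset.card_univ, Fintype.card_fin, hj₀, one_smul]

end Cfsg.Agent.S5001
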