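import Cfsg.Statements.S5011

set_option autoImplicit false
open Cfsg

namespace Cfsg.Agent.S5011

/-- Let G be a finite non-abelian simple group and ρ an irreducible complex representation of G on a space of dimension greater than one (irreducible in the sense that the only subspaces invariant under every ρ(x) are 0 and the whole space). Then for every non-identity element g of G, the centralizer of g does not act irreducibly: there is a non-zero proper subspace invariant under ρ(c) for every c commuting with g. -/
theorem result {G : Type*} [Group G] [Finite G] [IsSimpleGroup G]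
    (hG : ¬ IsMulCommutative G) {V : Type*} [AddCommGroup V] [Module ℂ V] [FiniteDimensional ℂ V]
    (ρ : Representation ℂ G V)
    (hirr : ∀ W : Submodule ℂ V, (∀ x : G, ∀ v ∈ W, ρ x v ∈ W) → W = ⊥ ∨ W = ⊤)
    (hdim : 1 < Module.finrank ℂ V) (g : G) (hg : g ≠ 1) :
    ∃ W : Submodule ℂ V, W ≠ ⊥ ∧ W ≠ ⊤ ∧ ∀ c ∈ Subgroup.centralizer ({g} : Set G), ∀ v ∈ W, ρ c v ∈ W := by
  classical
  by_contra hcon
  push Not at hcon
  haveI : Nontrivial V := Module.nontrivial_of_finrank_pos (R := ℂ) (by omega)
  obtain ⟨μ, hμ⟩ := Module.End.exists_eigenvalue (ρ g)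
  set W := Module.End.eigenspace (ρ g) μ with hW
  have hWC : ∀ c ∈ Subgroup.centralizer ({g} : Set G), ∀ v ∈ W, ρ c v ∈ W := by
    intro c hc v hv
    rw [Subgroup.mem_centralizer_singleton_iff] at hc
    rw [hW, Module.End.mem_eigenspace_iff] at hv ⊢
    have := LinearMap.congr_fun (congrArg ρ hc) v
    rw [map_mul, map_mul, Module.End.mul_apply, Module.End.mul_apply] at this
    rw [← this, hv, map_smul]
  have hWtop : W = ⊤ := by
    by_contra hne
    obtain ⟨c, hc, v, hv, hnot⟩ := hcon W hμ hne
    exact hnot (hWC c hc v hv)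
  have hscal : ∀ v, ρ g v = μ • v := fun v => by
    have : v ∈ W := hWtop ▸ Submodule.mem_top
    exact Module.End.mem_eigenspace_iff.1 this
  have hinj : ∀ x : G, ρ x = 1 → x = 1 := by
    intro x hx
    rcases IsSimpleGroup.eq_bot_or_eq_top_of_normal (MonoidHom.ker (MonoidHom.toHomUnits ρ))
      inferInstance with h | h
    · have : x ∈ MonoidHom.ker (MonoidHom.toHomUnits ρ) := Units.ext hx
      rwa [h, Subgroup.mem_bot] at this
    · exfalso
      have hall : ∀ y : G, ρ y = 1 := fun y =>
        congrArg Units.val (MonoidHom.mem_ker.1 (show y ∈ (MonoidHom.toHomUnits ρ).ker from h.symm ▸ Subgroup.mem_top y))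
      obtain ⟨v, hv⟩ := exists_ne (0 : V)
      rcases hirr (Submodule.span ℂ {v}) (fun y w hw => by rw [hall]; exact hw) with hb | hb
      · exact hv (Submodule.span_singleton_eq_bot.1 hb)
      · have := finrank_span_singleton (K := ℂ) hv
        rw [hb, finrank_top] at this
        omega
  have hcenter : g ∈ Subgroup.center G := by
    rw [Subgroup.mem_center_iff]
    intro x
    have h1 : ρ (x * g) = ρ (g * x) := by
      ext v
      rw [map_mul, map_mul, Module.End.mul_apply, Module.End.mul_apply, hscal, hscal, map_smul]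
    have h2 := hinj (x * g * (g * x)⁻¹) (by rw [map_mul, h1, ← map_mul, mul_inv_cancel, map_one])
    exact mul_inv_eq_one.1 h2
  rcases IsSimpleGroup.eq_bot_or_eq_top_of_normal (Subgroup.center G) inferInstance with h | h
  · exact hg (by rwa [h, Subgroup.mem_bot] at hcenter)
  · exact hG ⟨⟨fun a b => (Subgroup.mem_center_iff.1 (h ▸ Subgroup.mem_top b) a)⟩⟩

end Cfsg.Agent.S5011
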