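import Cfsg.Statements.S5075
import Cfsg.Agent.TvGenerated.Main
-- import your own Cfsg.Agent.* helpers here

set_option autoImplicit false
open Cfsg

namespace Cfsg.Agent.S5075

/-- Let p be an odd prime, V a finite-dimensional vector space over the field with p elements, and H a group of linear automorphisms of V generated by transvections (elements of order p fixing a hyperplane pointwise) and having no nontrivial normal p-subgroup. Then for some n ≥ 1 there are a decomposition V = V₀ ⊕ V₁ ⊕ ⋯ ⊕ Vₙ into H-invariant subspaces and a decomposition of H as the internal direct product of normal subgroups H₁, …, Hₙ such that Hⱼ acts trivially on every Vᵢ with i ≠ j, and Hⱼ induces on Vⱼ exactly the special linear group of Vⱼ or exactly the isometry group of a non-degenerate alternating form on Vⱼ. -/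
theorem result {p : ℕ} [Fact p.Prime] (hp : Odd p) {V : Type*} [AddCommGroup V] [Module (ZMod p) V] [Finite V]
    (H : Subgroup (V ≃ₗ[ZMod p] V)) (T : Set (V ≃ₗ[ZMod p] V)) (hHT : H = Subgroup.closure T)
    (hT : ∀ t ∈ T, orderOf t = p ∧
      Module.finrank (ZMod p) ↥(LinearMap.ker ((t : V →ₗ[ZMod p] V) - LinearMap.id)) + 1 =
        Module.finrank (ZMod p) V)
    (hOp : Cfsg.pCore p ↥H = ⊥) :
    ∃ (n : ℕ) (W : Fin (n + 1) → Submodule (ZMod p) V) (K : Fin n → Subgroup (V ≃ₗ[ZMod p] V)),
      1 ≤ n ∧ DirectSum.IsInternal W ∧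
      (∀ h ∈ H, ∀ i, (W i).map (h : V →ₗ[ZMod p] V) = W i) ∧
      (∀ j, K j ≤ H ∧ ((K j).subgroupOf H).Normal) ∧ ⨆ j, K j = H ∧
      (∀ j, K j ⊓ (⨆ j' ∈ {j' : Fin n | j' ≠ j}, K j') = ⊥) ∧
      (∀ j j', j ≠ j' → ∀ a ∈ K j, ∀ b ∈ K j', a * b = b * a) ∧
      (∀ j, ∀ h ∈ K j, ∀ i : Fin (n + 1), i ≠ j.succ → ∀ v ∈ W i, h v = v) ∧
      (∀ j, ∃ ρ : ↥(K j) →* (↥(W j.succ) ≃ₗ[ZMod p] ↥(W j.succ)),
        (∀ (h : ↥(K j)) (v : ↥(W j.succ)), ((ρ h v : ↥(W j.succ)) : V) = (h : V ≃ₗ[ZMod p] V) (v : V)) ∧
        ((ρ.range : Set (↥(W j.succ) ≃ₗ[ZMod p] ↥(W j.succ))) =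
            {f : ↥(W j.succ) ≃ₗ[ZMod p] ↥(W j.succ) | LinearMap.det (f : ↥(W j.succ) →ₗ[ZMod p] ↥(W j.succ)) = 1} ∨
          ∃ B : LinearMap.BilinForm (ZMod p) ↥(W j.succ), B.IsAlt ∧ B.Nondegenerate ∧
            (ρ.range : Set (↥(W j.succ) ≃ₗ[ZMod p] ↥(W j.succ))) = {f : ↥(W j.succ) ≃ₗ[ZMod p] ↥(W j.succ) | ∀ x y, B (f x) (f y) = B x y})) := by
  classical
  have hp2 : p ≠ 2 := by rintro rfl; exact absurd hp (by decide)
  have hPt := CfsgLib.TvGenerated.partner_of_pCore hp2 hOp
  have hTmem : ∀ t ∈ T, t ∈ H := fun t ht => hHT ▸ Subgroup.subset_closure ht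
  obtain ⟨n, U, R, hn, hc, hperp, hshape, hcover⟩ := CfsgLib.TvGenerated.decomposition hp2 T
    (fun t ht => CfsgLib.TvGenerated.exists_tv (hTmem t ht) (hT t ht).1 (hT t ht).2) hPt
  set K : Fin n → Subgroup (V ≃ₗ[ZMod p] V) := fun j => CfsgLib.TvGenerated.factor H (U j) (R j) with hK
  have hKH : ∀ j, K j ≤ H := fun j => CfsgLib.TvGenerated.factor_le
  have hsup : ⨆ j, K j = H := by
    refine le_antisymm (iSup_le hKH) ?_
    conv_lhs => rw [hHT]
    exact (Subgroup.closure_le _).mpr fun t ht => by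
      obtain ⟨j, hj⟩ := hcover t ht
      exact le_iSup K j hj
  have hcomm : ∀ j j', j ≠ j' → ∀ a ∈ K j, ∀ b ∈ K j', a * b = b * a := fun j j' hne a ha b hb =>
    CfsgLib.TvGenerated.commute_factor (hperp j j' hne) (hperp j' j hne.symm) ha hb
  let W0 : Submodule (ZMod p) V := ⨅ j, R j
  let W : Fin (n + 1) → Submodule (ZMod p) V := Fin.cons W0 U
  have hfixW : ∀ j, ∀ h ∈ K j, ∀ i : Fin (n + 1), i ≠ j.succ → ∀ v ∈ W i, h v = v := by
    intro j h hh i hi v hv
    refine CfsgLib.TvGenerated.factor_fix hh v ?_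
    induction i using Fin.cases with
    | zero => exact (Submodule.mem_iInf _).mp hv j
    | succ i => exact hperp i j (fun e => hi (by rw [e])) hv
  have hmaps : ∀ h ∈ H, ∀ i, ∀ v ∈ W i, h v ∈ W i := by
    intro h hh i v hv
    rw [← hsup, Subgroup.iSup_eq_closure] at hh
    induction hh using Subgroup.closure_induction generalizing v with
    | mem g hg =>
      obtain ⟨j, hj⟩ := Set.mem_iUnion.mp hg
      by_cases hi : i = j.succ
      · subst hi
        exact CfsgLib.TvGenerated.factor_mapsTo hj hv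
      · rw [hfixW j g hj i hi v hv]; exact hv
    | one => exact hv
    | mul g k _ _ hg hk => exact hg _ (hk v hv)
    | inv g _ hg =>
      have hle : (W i).map (g : V →ₗ[ZMod p] V) ≤ W i := by
        rintro _ ⟨x, hx, rfl⟩
        exact hg x hx
      have heq : (W i).map (g : V →ₗ[ZMod p] V) = W i :=
        Submodule.eq_of_le_of_finrank_eq hle (LinearEquiv.finrank_map_eq g (W i))
      obtain ⟨x, hx, hxv⟩ := heq.ge hv
      rw [show (g⁻¹ : V ≃ₗ[ZMod p] V) v = x by rw [← hxv]; exact LinearEquiv.symm_apply_apply g x]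
      exact hx
  -- the sum of the projections
  let P : V →ₗ[ZMod p] V := ∑ j, (U j).projection (R j) (hc j)
  have hPU : ∀ j, ∀ x ∈ U j, P x = x := by
    intro j x hx
    show (∑ i, (U i).projection (R i) (hc i)) x = x
    rw [LinearMap.sum_apply, Finset.sum_eq_single j (fun i _ hij => Submodule.projection_apply_of_mem_right (hc i)
      (hperp j i (Ne.symm hij) hx)) (fun h => absurd (Finset.mem_univ j) h)]
    exact Submodule.projection_apply_left (hc j) ⟨x, hx⟩
  refine ⟨n, W, K, hn, ?_, fun h hh i => ?_, fun j => ⟨hKH j, ⟨fun a ha g => ?_⟩⟩, hsup, fun j => ?_,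
    hcomm, hfixW, fun j => ?_⟩
  · refine DirectSum.isInternal_submodule_of_iSupIndep_of_iSup_eq_top ?_ ?_
    · intro i
      rw [Submodule.disjoint_def]
      intro x hx hxs
      induction i using Fin.cases with
      | zero =>
        have h1 : P x = 0 := by
          show (∑ j, (U j).projection (R j) (hc j)) x = 0
          rw [LinearMap.sum_apply]
          exact Finset.sum_eq_zero fun j _ =>
            Submodule.projection_apply_of_mem_right (hc j) ((Submodule.mem_iInf _).mp hx j)
        have h2 : x ∈ LinearMap.eqLocus P LinearMap.id := by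
          refine SetLike.le_def.mp (iSup₂_le fun i hi => ?_) hxs
          induction i using Fin.cases with
          | zero => exact absurd rfl hi
          | succ i => exact fun y hy => hPU i y hy
        rw [LinearMap.mem_eqLocus, h1] at h2
        exact h2.symm
      | succ i =>
        refine CfsgLib.TvGenerated.eq_zero_of_mem_both (hc i) hx (SetLike.le_def.mp (iSup₂_le fun k hk => ?_) hxs)
        induction k using Fin.cases with
        | zero => exact iInf_le R i
        | succ k => exact hperp k i (fun e => hk (by rw [e]))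
    · refine eq_top_iff.mpr fun x _ => ?_
      have hdiff : x - P x ∈ W 0 := by
        refine (Submodule.mem_iInf _).mpr fun j => ?_
        show x - (∑ i, (U i).projection (R i) (hc i)) x ∈ R j
        rw [LinearMap.sum_apply, ← Finset.add_sum_erase _ _ (Finset.mem_univ j), ← sub_sub]
        refine sub_mem ?_ (sum_mem fun i hi => hperp i j (Finset.ne_of_mem_erase hi) ?_)
        · rw [← Submodule.projection_eq_self_sub_projection (hc j)]
          exact Submodule.coe_mem _
        · exact Submodule.coe_mem _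
      rw [← sub_add_cancel x (P x)]
      refine add_mem (Submodule.mem_iSup_of_mem 0 hdiff) ?_
      show (∑ i, (U i).projection (R i) (hc i)) x ∈ _
      rw [LinearMap.sum_apply]
      exact sum_mem fun j _ => Submodule.mem_iSup_of_mem j.succ (Submodule.coe_mem _)
  · refine Submodule.eq_of_le_of_finrank_eq ?_ (LinearEquiv.finrank_map_eq h (W i))
    rintro _ ⟨x, hx, rfl⟩
    exact hmaps h hh i x hx
  · rw [Subgroup.mem_subgroupOf] at ha ⊢
    obtain ⟨g, hg⟩ := g
    show g * (a : V ≃ₗ[ZMod p] V) * g⁻¹ ∈ K j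
    have key : ∀ g ∈ H, ∀ b ∈ K j, g * b * g⁻¹ ∈ K j := by
      intro g hg
      rw [← hsup, Subgroup.iSup_eq_closure] at hg
      induction hg using Subgroup.closure_induction'' with
      | mem g hg =>
        intro b hb
        obtain ⟨i, hi⟩ := Set.mem_iUnion.mp hg
        by_cases hij : i = j
        · subst hij; exact mul_mem (mul_mem hi hb) (inv_mem hi)
        · rwa [hcomm i j hij g hi b hb, mul_inv_cancel_right]
      | inv_mem g hg =>
        intro b hb
        obtain ⟨i, hi⟩ := Set.mem_iUnion.mp hg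
        by_cases hij : i = j
        · subst hij; exact mul_mem (mul_mem (inv_mem hi) hb) (inv_mem (inv_mem hi))
        · rwa [hcomm i j hij g⁻¹ (inv_mem hi) b hb, mul_inv_cancel_right]
      | one => exact fun b hb => by simpa using hb
      | mul g k _ _ ihg ihk =>
        intro b hb
        rw [show g * k * b * (g * k)⁻¹ = g * (k * b * k⁻¹) * g⁻¹ by group]
        exact ihg _ (ihk b hb)
    exact key g hg _ ha
  · exact CfsgLib.TvGenerated.factor_inf_eq_bot hc hperp j
  · refine ⟨CfsgLib.TvGenerated.act H (U j) (R j), fun h v => rfl, ?_⟩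
    rcases hshape j with hS | ⟨B, hB, hin⟩
    · exact Or.inl (CfsgLib.TvGenerated.sl_range hS)
    · exact Or.inr (CfsgLib.TvGenerated.sp_range hB hin)

end Cfsg.Agent.S5075
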