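import Cfsg.Statements.S5126
import Cfsg.Agent.S5098
import Cfsg.Agent.Fusion.ModelUnique

set_option autoImplicit false
open Cfsg

namespace Cfsg.Agent.S5126

open CfsgLib.Fusion Cfsg.FusionSystem in
lemma normalizerSystem_props {Ω : Type*} [Group Ω] {S : Subgroup Ω} (F : Cfsg.FusionSystem S) {R : Subgroup Ω} (hRS : R ≤ S) (hRc : F.IsCentric R) (E : Cfsg.FusionSystem (Cfsg.FusionSystem.normalizerIn S R)) (hE : F.IsNormalizerSystem R E) :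
    E.IsNormal R ∧ E.IsCentric R := by
  have hRN : R ≤ normalizerIn S R := le_inf hRS Subgroup.le_normalizer
  refine ⟨⟨hRN, fun P φ hφ => ?_⟩, hRN, fun T hT => ?_⟩
  · rw [hE P] at hφ
    obtain ⟨-, hP, hN, ψ, hψ, hext, hR⟩ := hφ
    refine ⟨ψ, ?_, hext, hR⟩
    rw [hE (P ⊔ R)]
    have hle : P ⊔ R ≤ ((normalizerIn S R).comap ψ).map (P ⊔ R).subtype := by
      refine sup_le (fun x hx => ⟨⟨x, Subgroup.mem_sup_left hx⟩, ?_, rfl⟩)
        fun x hx => ⟨⟨x, Subgroup.mem_sup_right hx⟩, hRN (hR.le ⟨_, hx, rfl⟩), rfl⟩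
      show ψ (Subgroup.inclusion le_sup_left ⟨x, hx⟩) ∈ normalizerIn S R
      rw [hext]; exact hN _
    have heq : (P ⊔ R) ⊔ R = P ⊔ R := sup_eq_left.2 le_sup_right
    refine ⟨hψ, sup_le hP hRN, fun x => ?_, ψ.comp (Subgroup.inclusion heq.le), restrict hψ heq.le, fun x => rfl,
      le_antisymm ?_ fun y hy => ?_⟩
    · obtain ⟨z, hz, hzx⟩ := hle x.2
      rwa [← (Subtype.ext hzx : z = x)]
    · rintro _ ⟨x, hx, rfl⟩
      exact hR.le ⟨Subgroup.inclusion heq.le x, hx, rfl⟩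
    · obtain ⟨x, hx, rfl⟩ := hR.ge hy
      exact ⟨Subgroup.inclusion heq.ge x, hx, rfl⟩
  · obtain ⟨φ, hφ, rfl⟩ := hT
    intro x hx
    rw [hE R] at hφ
    exact hRc.2 _ ⟨φ, hφ.1, rfl⟩ ⟨hx.1.1, hx.2⟩

/-- In a saturated fusion system over a finite p-group S, the normalizer system of a fully normalized, centric, radical subgroup R is constrained, and in every model of that normalizer system the largest normal p-subgroup is the image of R. -/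
theorem result {Ω : Type*} [Group Ω] {S : Subgroup Ω} [Finite S] (p : ℕ) [Fact p.Prime] (hS : IsPGroup p S) (F : Cfsg.FusionSystem S) (hF : F.IsSaturated p) (R : Subgroup Ω) (hRn : F.IsFullyNormalized R) (hRc : F.IsCentric R) (hRr : F.IsRadical p R) (E : Cfsg.FusionSystem (Cfsg.FusionSystem.normalizerIn S R)) (hE : F.IsNormalizerSystem R E) {G : Type*} [Group G] (ι : ↥(Cfsg.FusionSystem.normalizerIn S R) →* G) : E.IsConstrained p ∧ (E.IsModel p G ι → (Cfsg.pCore p G : Subgroup G) = (R.subgroupOf (Cfsg.FusionSystem.normalizerIn S R)).map ι) := by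
  haveI := CfsgLib.Fusion.finite_normalizerIn (S := S) R
  obtain ⟨hn, hc⟩ := normalizerSystem_props F hRn.1 hRc E hE
  refine ⟨⟨Cfsg.Agent.S5098.result p hS F hF R hRn E hE, R, hn, hc⟩, fun hG => ?_⟩
  have hRN : R ≤ Cfsg.FusionSystem.normalizerIn S R := le_inf hRn.1 Subgroup.le_normalizer
  have hSN : IsPGroup p (Cfsg.FusionSystem.normalizerIn S R) := hS.to_le inf_le_left
  obtain ⟨hnorm, -⟩ := CfsgLib.Fusion.normal_of_model hSN hG hn hc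
  obtain ⟨hfin, hR, ⟨T, hT⟩, -⟩ := hG
  refine le_antisymm ?_ (CfsgLib.PCore.le_pCore hnorm ?_)
  swap
  · exact ((hSN.to_le hRN).of_equiv (CfsgLib.Fusion.imageEquiv hR.1 hRN))
  intro y hy
  obtain ⟨w, rfl⟩ := (hT ▸ CfsgLib.PCore.pCore_le_sylow T : Cfsg.pCore p G ≤ ι.range) hy
  haveI := CfsgLib.Fusion.finite_mulAut hRn.1
  set W := Cfsg.FusionSystem.preimageAlong ι (Cfsg.pCore p G)
  haveI hWn : (Cfsg.pCore p G).Normal := (haveI := CfsgLib.PCore.pCore_characteristic p G; inferInstance)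
  set X := Cfsg.autInducedBy W R with hX
  have hXA : X ≤ F.autGroup R := by
    intro α hα
    obtain ⟨g, hg, hgα⟩ := CfsgLib.Fusion.mem_autInducedBy.1 hα
    exact CfsgLib.Fusion.autInducedBy_le_autGroup hRn.1 (CfsgLib.Fusion.mem_autInducedBy.2
      ⟨g, (CfsgLib.Fusion.preimageAlong_le (ι := ι) _ hg).1, hgα⟩)
  have hXp : IsPGroup p X :=
    CfsgLib.Fusion.isPGroup_autInducedBy p (hSN.to_le (CfsgLib.Fusion.preimageAlong_le (ι := ι) _)) R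
  have hXn : (X.subgroupOf (F.autGroup R)).Normal := by
    constructor
    rintro ⟨α, hα⟩ hαX ⟨β, hβ⟩
    obtain ⟨v, hv, hvα⟩ := CfsgLib.Fusion.mem_autInducedBy.1 hαX
    obtain ⟨hvN, hvW⟩ := CfsgLib.Fusion.mem_preimageAlong.1 hv
    have hβE : R.subtype.comp β.toMonoidHom ∈ E.Hom R := by
      rw [hE R]
      have hβ' := (CfsgLib.Fusion.mem_autGroup hRn.1).1 hβ
      refine ⟨hβ', hRN, fun x => hRN (β x).2, (R.subtype.comp β.toMonoidHom).comp (Subgroup.inclusion (sup_idem R).le),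
        CfsgLib.Fusion.restrict hβ' _, fun x => rfl, le_antisymm ?_ fun z hz => ?_⟩
      · rintro _ ⟨x, -, rfl⟩; exact (β _).2
      · exact ⟨Subgroup.inclusion le_sup_left (β.symm ⟨z, hz⟩), (β.symm ⟨z, hz⟩).2,
          congrArg Subtype.val (β.apply_symm_apply ⟨z, hz⟩)⟩
    obtain ⟨g, hg⟩ := CfsgLib.Fusion.exists_of_hom hR hβE
    obtain ⟨u, hu⟩ := (hT ▸ CfsgLib.PCore.pCore_le_sylow T : Cfsg.pCore p G ≤ ι.range) (hWn.conj_mem _ hvW g)
    refine CfsgLib.Fusion.mem_autInducedBy.2 ⟨u, CfsgLib.Fusion.mem_preimageAlong.2 ⟨u.2, hu.symm ▸ hWn.conj_mem _ hvW g⟩, fun x => ?_⟩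
    have h1 := hg (α (β⁻¹ x))
    have h2 := hg (β⁻¹ x)
    show ((β (α (β⁻¹ x)) : R) : Ω) = _
    refine congrArg Subtype.val (hR.1 (h1.trans ?_) : (⟨_, CfsgLib.Fusion.val_mem hβE (α (β⁻¹ x))⟩ : Cfsg.FusionSystem.normalizerIn S R) = u * ⟨x, hRN x.2⟩ * u⁻¹)
    rw [map_mul, map_mul, map_inv, hu]
    have e1 : (⟨((α (β⁻¹ x) : R) : Ω), CfsgLib.Fusion.le_of_hom hβE (α (β⁻¹ x)).2⟩ : Cfsg.FusionSystem.normalizerIn S R) =
        ⟨v, hvN⟩ * ⟨((β⁻¹ x : R) : Ω), CfsgLib.Fusion.le_of_hom hβE (β⁻¹ x).2⟩ * ⟨v, hvN⟩⁻¹ := Subtype.ext (hvα _)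
    have e2 : ι ⟨x, hRN x.2⟩ = g * ι ⟨((β⁻¹ x : R) : Ω), CfsgLib.Fusion.le_of_hom hβE (β⁻¹ x).2⟩ * g⁻¹ := by
      refine Eq.trans (congrArg ι (Subtype.ext ?_)) h2
      show (x : Ω) = ((β (β⁻¹ x) : R) : Ω)
      rw [MulAut.apply_inv_self]
    rw [e1, map_mul, map_mul, map_inv, e2]
    group
  have h1 : X.subgroupOf (F.autGroup R) ≤ Cfsg.pCore p (F.autGroup R) :=
    CfsgLib.PCore.le_pCore hXn (hXp.of_equiv (Subgroup.subgroupOfEquivOfLe hXA).symm)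
  have hwW : (w : Ω) ∈ W := CfsgLib.Fusion.mem_preimageAlong.2 ⟨w.2, hy⟩
  have hα : CfsgLib.Fusion.conjAut R W ⟨w, hwW, w.2.2⟩ ∈ X := by
    rw [hX, ← CfsgLib.Fusion.range_conjAut]; exact ⟨_, rfl⟩
  have h2 : CfsgLib.Fusion.conjAut R W ⟨w, hwW, w.2.2⟩ ∈ Cfsg.Inn R := by
    rw [← hRr.2]
    exact ⟨⟨_, hXA hα⟩, h1 hα, rfl⟩
  obtain ⟨r, hr⟩ := h2
  have h3 : (r : Ω)⁻¹ * w ∈ Cfsg.FusionSystem.centralizerIn S R := by
    refine ⟨S.mul_mem (S.inv_mem (hRn.1 r.2)) w.2.1, Subgroup.mem_centralizer_iff.2 fun x hx => ?_⟩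
    have h4 : (r : Ω) * x * (r : Ω)⁻¹ = w * x * (w : Ω)⁻¹ :=
      congrArg Subtype.val (DFunLike.congr_fun hr (⟨x, hx⟩ : R))
    calc x * ((r : Ω)⁻¹ * w) = (r : Ω)⁻¹ * (r * x * (r : Ω)⁻¹) * w := by group
      _ = (r : Ω)⁻¹ * (w * x * (w : Ω)⁻¹) * w := by rw [h4]
      _ = (r : Ω)⁻¹ * w * x := by group
  have h5 : (w : Ω) ∈ R := by
    have := R.mul_mem r.2 (hRc.2 R (CfsgLib.Fusion.IsConj.refl hRn.1) h3)
    rwa [mul_inv_cancel_left] at this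
  exact ⟨w, h5, rfl⟩

end Cfsg.Agent.S5126
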