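import Cfsg.Statements.S5135
import Cfsg.Agent.Fusion.Factor

set_option autoImplicit false
open Cfsg

namespace Cfsg.Agent.S5135

/-- Let G be a finite group, S a Sylow p-subgroup and H a normal subgroup of G. Then the fusion system of G/H on the image SH/H of S is the factor system of the fusion system of G on S modulo S ∩ H, read through the quotient map restricted to S: for each subgroup P' of SH/H, the conjugation maps by elements of G/H defined on P' with values in SH/H are exactly the homomorphisms induced by the conjugation maps by elements of G defined on the full preimage of P' in S with values in S. -/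
theorem result {G : Type*} [Group G] [Finite G] (p : ℕ) [Fact p.Prime] (S : Sylow p G) (H : Subgroup G) [H.Normal] : (Cfsg.groupFusionSystem (S : Subgroup G)).IsFactorSystem ((S : Subgroup G) ⊓ H) ((QuotientGroup.mk' H).comp (S : Subgroup G).subtype) (Cfsg.groupFusionSystem ((S : Subgroup G).map (QuotientGroup.mk' H))) := by
  set π := QuotientGroup.mk' H with hπ
  set θ := π.comp (S : Subgroup G).subtype
  have hmem : ∀ {P' : Subgroup (G ⧸ H)} {x : G}, x ∈ Cfsg.FusionSystem.preimageAlong θ P' ↔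
      ∃ hx : x ∈ (S : Subgroup G), π x ∈ P' := fun {P' x} => CfsgLib.Fusion.mem_preimageAlong
  refine ⟨inf_le_left, fun s => ⟨fun h => ⟨s.2, (QuotientGroup.eq_one_iff (s : G)).1 h⟩,
    fun h => (QuotientGroup.eq_one_iff (s : G)).2 h.2⟩, ?_, fun P' φ' => ⟨?_, ?_⟩⟩
  · rw [MonoidHom.range_comp, Subgroup.range_subtype]
  · rintro ⟨hP', hv, g', hg'⟩
    obtain ⟨g, rfl⟩ := QuotientGroup.mk'_surjective H g'
    set X := Cfsg.FusionSystem.preimageAlong θ P' with hX
    set W := H ⊔ (S : Subgroup G) with hW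
    have hXS : X ≤ S := CfsgLib.Fusion.preimageAlong_le P'
    have hKW : X.map (MulAut.conj g).toMonoidHom ≤ W := by
      rintro _ ⟨x, hx, rfl⟩
      obtain ⟨hxS, hxP⟩ := hmem.1 hx
      obtain ⟨s, hs, hse⟩ : π (g * x * g⁻¹) ∈ (S : Subgroup G).map π := by
        have := hv ⟨π x, hxP⟩
        rw [hg'] at this
        rw [map_mul, map_mul, map_inv]
        exact this
      have h1 : (g * x * g⁻¹) * s⁻¹ ∈ H := (QuotientGroup.eq_one_iff _).1 (by
        rw [QuotientGroup.mk_mul, QuotientGroup.mk_inv]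
        exact mul_inv_eq_one.2 hse.symm)
      have := Subgroup.mul_mem_sup h1 hs
      rw [inv_mul_cancel_right] at this
      exact this
    have hK : IsPGroup p ((X.map (MulAut.conj g).toMonoidHom).subgroupOf W) :=
      ((S.2.to_le hXS).map _).of_equiv (Subgroup.subgroupOfEquivOfLe hKW).symm
    obtain ⟨V, hV⟩ := hK.exists_le_sylow
    obtain ⟨w, hw⟩ := MulAction.exists_smul_eq W (S.subtype (le_sup_right : (S : Subgroup G) ≤ W)) V
    have hw2 : (w : G) ∈ ((H ⊔ (S : Subgroup G) : Subgroup G) : Set G) := w.2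
    rw [Subgroup.normal_mul] at hw2
    obtain ⟨h, hh, s, hs, hhs⟩ := hw2
    have hconj : ∀ x : X, (h⁻¹ * g) * x * (h⁻¹ * g)⁻¹ ∈ (S : Subgroup G) := fun x => by
      have hx : g * x * g⁻¹ ∈ X.map (MulAut.conj g).toMonoidHom := ⟨x, x.2, rfl⟩
      have h1 : (⟨_, hKW hx⟩ : W) ∈ (V : Subgroup W) := hV hx
      rw [← hw, Sylow.coe_subgroup_smul] at h1
      obtain ⟨y, hy, hy'⟩ := h1
      have h2 : (w : G) * y * (w : G)⁻¹ = g * x * g⁻¹ := congrArg Subtype.val hy'
      have h3 : (h⁻¹ * g) * x * (h⁻¹ * g)⁻¹ = s * (y : G) * s⁻¹ := by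
        calc (h⁻¹ * g) * x * (h⁻¹ * g)⁻¹ = h⁻¹ * (g * x * g⁻¹) * h := by group
          _ = _ := by rw [← h2, ← hhs]; group
      rw [h3]
      exact (S : Subgroup G).mul_mem ((S : Subgroup G).mul_mem hs hy) ((S : Subgroup G).inv_mem hs)
    refine ⟨hP', Cfsg.conjHom X (h⁻¹ * g), ⟨hXS, hconj, _, fun x => rfl⟩, hXS, hconj,
      fun x => (hmem.1 x.2).2, fun x => ?_⟩
    rw [hg']
    show _ = π ((h⁻¹ * g) * x * (h⁻¹ * g)⁻¹)
    have hh1 : π h = 1 := (QuotientGroup.eq_one_iff h).2 hh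
    simp only [map_mul, map_inv, hh1, inv_one, one_mul]
    rfl
  · rintro ⟨hP', φ, ⟨hXS, hv, g, hg⟩, hP, hφ, hx', he⟩
    have key : ∀ x : P', φ' x = π g * x * (π g)⁻¹ ∧ φ' x ∈ (S : Subgroup G).map π := by
      intro x
      obtain ⟨s, hs, hse⟩ := hP' x.2
      have hsX : s ∈ Cfsg.FusionSystem.preimageAlong θ P' := hmem.2 ⟨hs, by rw [hse]; exact x.2⟩
      have e := he ⟨s, hsX⟩
      rw [show x = ⟨π s, hx' ⟨s, hsX⟩⟩ from Subtype.ext hse.symm]
      refine ⟨e.trans ?_, e ▸ ⟨_, hφ ⟨s, hsX⟩, rfl⟩⟩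
      show π (φ ⟨s, hsX⟩) = _
      rw [hg, map_mul, map_mul, map_inv]
    exact ⟨hP', fun x => (key x).2, π g, fun x => (key x).1⟩

end Cfsg.Agent.S5135
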