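import Cfsg.Statements.S5153
import Cfsg.Agent.Fusion.Alperin
import Cfsg.Prelude.Def_FusionComponents
-- import your own Cfsg.Agent.* helpers here

set_option autoImplicit false
open Cfsg

namespace Cfsg.Agent.S5153

open CfsgLib.Fusion Cfsg.FusionSystem

theorem aux {Ω : Type*} [Group Ω] {p : ℕ} {T : Subgroup Ω} {E : Cfsg.FusionSystem T}
    {S : Subgroup Ω} {F : Cfsg.FusionSystem S} (hE : E.IsSubnormalIn F p) :
    Fact p.Prime → Finite S → IsPGroup p S → F.IsSaturated p →
      T ≤ S ∧ ∀ P : Subgroup Ω, P ≤ T → F.IsFullyNormalized P → E.IsFullyNormalized P := by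
  induction hE with
  | refl => exact fun _ _ _ _ => ⟨le_rfl, fun P _ hP => hP⟩
  | @step U S₁ E₁ D F₁ q h1 hDF ih =>
    intro hp hfin hS hF
    obtain ⟨⟨hDs, -, hsub, hU, -⟩, -⟩ := hDF
    haveI := hfin
    obtain ⟨hTU, hrest⟩ := ih hp (Finite.of_injective (Subgroup.inclusion hU.1) (Subgroup.inclusion_injective hU.1))
      (hS.to_le hU.1) hDs
    refine ⟨hTU.trans hU.1, fun P hPT hP => hrest P hPT ⟨hPT.trans hTU, fun Q hQ => ?_⟩⟩
    obtain ⟨φ, hφ, hφP⟩ := hQ
    obtain ⟨ψ, hψ, hψP, -, -⟩ := exists_inv hφ hφP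
    obtain ⟨χ, hχ, hQN, hχP, hχN⟩ := exists_map_normalizer q hS (fullyAutomized_of_fullyNormalized hS hF hP)
      (receptive_of_fullyNormalized hS hF hP) ⟨ψ, hsub _ hψ, hψP⟩
    have hle : normalizerIn U Q ≤ normalizerIn S₁ Q := inf_le_inf_right _ hU.1
    let f : normalizerIn U Q → normalizerIn U P := fun x => ⟨χ (Subgroup.inclusion hle x),
      hU.2 (normalizerIn U Q) inf_le_left _ (restrict hχ hle) x, (hχN _).2⟩
    haveI : Finite ↥(normalizerIn U P) := Finite.of_injective
      (Subgroup.inclusion ((inf_le_left : normalizerIn U P ≤ U).trans hU.1)) (Subgroup.inclusion_injective _)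
    exact Nat.card_le_card_of_injective f fun a b h =>
      Subgroup.inclusion_injective hle (F₁.injective_of_mem hχ (congrArg Subtype.val h))


/-- Let F be a saturated fusion system over a finite p-group S and E a subnormal subsystem of F over T. Then every subgroup of T that is fully normalized in F is fully normalized in E. -/
theorem result {Ω : Type*} [Group Ω] {S : Subgroup Ω} [Finite S] (p : ℕ) [Fact p.Prime] (hS : IsPGroup p S) (F : Cfsg.FusionSystem S) (hF : F.IsSaturated p) {T : Subgroup Ω} (E : Cfsg.FusionSystem T) (hE : E.IsSubnormalIn F p) (P : Subgroup Ω) (hPT : P ≤ T) (hP : F.IsFullyNormalized P) : E.IsFullyNormalized P := by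
    exact (aux hE inferInstance inferInstance hS hF).2 P hPT hP

end Cfsg.Agent.S5153
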