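import Cfsg.Statements.S5154
import Cfsg.Agent.Fusion.TransportNormal
-- import your own Cfsg.Agent.* helpers here

set_option autoImplicit false
open Cfsg

namespace Cfsg.Agent.S5154

/-- Let F be a saturated fusion system over a finite p-group S, C a component of F over T, and γ a map of F with source T. Then the image of C under γ — the fusion system over γ(T) whose maps are the homomorphisms induced along γ by the maps of C — is again a component of F. -/
theorem result {Ω : Type*} [Group Ω] {S : Subgroup Ω} [Finite S] (p : ℕ) [Fact p.Prime] (hS : IsPGroup p S) (F : Cfsg.FusionSystem S) (hF : F.IsSaturated p) {T : Subgroup Ω} (C : Cfsg.FusionSystem T) (hC : C.IsComponentIn F p) (γ : T →* Ω) (hγ : γ ∈ F.Hom T) (E : Cfsg.FusionSystem γ.range) (hE : C.IsFactorSystem ⊥ γ E) : E.IsComponentIn F p := by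

  obtain ⟨R, E₀, g, hg, hc, hsn⟩ := CfsgLib.Fusion.Transport.exists_conjugate hS hC.1 hγ
  obtain rfl : R = γ.range := by
    ext y
    constructor
    · intro hy
      exact ⟨g.symm ⟨y, hy⟩, by rw [← hg, g.apply_symm_apply]⟩
    · rintro ⟨x, rfl⟩
      rw [← hg]; exact (g x).2
  have hTS : T ≤ S := CfsgLib.Fusion.le_of_hom hγ
  haveI := CfsgLib.Fusion.finite_of_le hTS
  have hE' : C.IsFactorSystem ⊥
      ((γ.range.subtype.comp g.toMonoidHom).comp (Subgroup.inclusion (le_refl T))) E := by
    convert hE using 1
    exact MonoidHom.ext fun x => hg x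
  have heq := (CfsgLib.Fusion.Transport.carries_of_factor le_rfl le_rfl hE').unique hc
  rw [heq]
  exact ⟨hsn, hc.quasisimple (hS.to_le hTS) hC.2⟩

end Cfsg.Agent.S5154
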