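import Cfsg.Statements.S5214
import Cfsg.Agent.SuzukiTwo.Higman
import Cfsg.Agent.Fusion.NormalCriteria

set_option autoImplicit false
open Cfsg

namespace Cfsg.Agent.S5214

/-- Let S be a Suzuki 2-group (a finite nonabelian 2-group with more than one involution admitting a cyclic group of automorphisms permuting its involutions regularly). Then S is normal in every saturated fusion system over S (such a group is resistant). -/
theorem result {Ω : Type*} [Group Ω] {S : Subgroup Ω} [Finite S] (hS : IsPGroup 2 S) (F : Cfsg.FusionSystem S) (hF : F.IsSaturated 2) (hsz : Cfsg.IsSuzukiTwoGroup ↥S) : F.IsNormal S := by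
  haveI : Fact (Nat.Prime 2) := ⟨Nat.prime_two⟩
  obtain ⟨D⟩ := CfsgLib.SuzukiTwo.exists_sdata hsz
  let Z : Subgroup Ω := (Subgroup.center ↥S).map S.subtype
  have hSsc : F.StronglyClosed S := ⟨le_rfl, fun R _ φ hφ x => (F.le_of_mem hφ).2 x⟩
  have hZsc : F.StronglyClosed Z := by
    refine ⟨Subgroup.map_subtype_le _, fun R hR φ hφ x => ?_⟩
    obtain ⟨z, hz, hzx⟩ := hR x.2
    have hx2 : x ^ 2 = 1 := Subtype.ext (by
      have h := congrArg Subtype.val (D.center_sq hz)
      simp only [SubmonoidClass.coe_pow, Subgroup.coe_one] at h ⊢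
      rw [show (z : Ω) = (x : Ω) from hzx] at h
      exact h)
    have h2 : (⟨φ x, (F.le_of_mem hφ).2 x⟩ : S) ^ 2 = 1 := Subtype.ext (by
      show φ x ^ 2 = 1
      rw [← map_pow, hx2, map_one])
    exact ⟨_, D.mem_center_of_sq h2, rfl⟩
  refine CfsgLib.Fusion.isNormal_of_series hS hF hSsc
    (fun i => if i = 0 then ⊥ else if i = 1 then Z else S) (fun a b h => ?_) rfl (fun i => ?_)
    (fun i => ?_) (fun i => ?_) 2 rfl
  · show (if a = 0 then ⊥ else if a = 1 then Z else S) ≤ if b = 0 then ⊥ else if b = 1 then Z else S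
    split_ifs <;> first
      | exact le_rfl
      | exact bot_le
      | exact Subgroup.map_subtype_le _
      | omega
  · split_ifs
    · exact bot_le
    · exact Subgroup.map_subtype_le _
    · exact le_rfl
  · rcases i with _ | _ | i
    · refine le_of_eq ?_
      show ⁅Z, S⁆ = ⊥
      rw [Subgroup.commutator_eq_bot_iff_le_centralizer]
      rintro _ ⟨z, hz, rfl⟩
      exact Subgroup.mem_centralizer_iff.mpr fun y hy =>
        congrArg Subtype.val (Subgroup.mem_center_iff.mp hz ⟨y, hy⟩)
    · show ⁅S, S⁆ ≤ Z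
      rw [Subgroup.commutator_le]
      exact fun g hg k hk => ⟨_, D.commutator_mem_center ⟨g, hg⟩ ⟨k, hk⟩, rfl⟩
    · show ⁅S, S⁆ ≤ S
      rw [Subgroup.commutator_le]
      exact fun g hg k hk => S.mul_mem (S.mul_mem (S.mul_mem hg hk) (S.inv_mem hg)) (S.inv_mem hk)
  · rcases i with _ | _ | i
    · exact CfsgLib.Fusion.weaklyClosed_bot
    · exact CfsgLib.Fusion.weaklyClosed_of_stronglyClosed hZsc
    · exact CfsgLib.Fusion.weaklyClosed_of_stronglyClosed hSsc

end Cfsg.Agent.S5214
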