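import Cfsg.Statements.S5219
import Cfsg.Agent.Fusion.PowerCenterNormal

set_option autoImplicit false
open Cfsg
open scoped commutatorElement

namespace Cfsg.Agent.S5219

/-- Let p be a prime, n a natural number, S a nontrivial finite p-group of nilpotence class at most n(p−1)+1, and F a saturated fusion system over S with no nontrivial normal subgroup (O_p(F) = 1). Then S has exponent dividing p^(n²(p−1)+n). -/
theorem result {Ω : Type*} [Group Ω] {S : Subgroup Ω} [Finite S] (p : ℕ) [Fact p.Prime] (hS : IsPGroup p S) (F : Cfsg.FusionSystem S) (hF : F.IsSaturated p) (n : ℕ) (hS1 : S ≠ ⊥) (hcl : Subgroup.lowerCentralSeries S (n * (p - 1) + 1) = ⊥) (hcore : F.core = ⊥) : Monoid.exponent ↥S ∣ p ^ (n ^ 2 * (p - 1) + n) := by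
  classical
  have hK := CfsgLib.Fusion.isNormal_powers_center hS hF n hcl
  have hKbot : Cfsg.powerClosure p n (S ⊓ Subgroup.centralizer (S : Set Ω)) = ⊥ :=
    le_bot_iff.1 ((show _ ≤ F.core from le_sSup hK).trans hcore.le)
  set m := p ^ n with hm
  have hcen : ∀ x ∈ Subgroup.center ↥S, x ^ m = 1 := fun x hx => Subtype.ext (Subgroup.mem_bot.1 (hKbot.le
    (Subgroup.subset_closure ⟨x, ⟨x.2, Subgroup.mem_centralizer_iff.2 fun y hy =>
      congrArg Subtype.val (Subgroup.mem_center_iff.1 hx ⟨y, hy⟩)⟩, by simp [hm]⟩)))
  have hstep : ∀ i, ∀ x ∈ Subgroup.upperCentralSeries ↥S (i + 1), x ^ m ∈ Subgroup.upperCentralSeries ↥S i := by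
    intro i
    induction i with
    | zero =>
      intro x hx
      rw [Subgroup.upperCentralSeries_zero, Subgroup.mem_bot]
      refine hcen x (Subgroup.mem_center_iff.2 fun y => ?_)
      have h := Subgroup.mem_upperCentralSeries_succ_iff.1 hx y
      rw [Subgroup.upperCentralSeries_zero, Subgroup.mem_bot, commutatorElement_eq_one_iff_mul_comm] at h
      exact h.symm
    | succ i ih =>
      intro x hx
      rw [Subgroup.mem_upperCentralSeries_succ_iff]
      intro s
      have h1 := Subgroup.mem_upperCentralSeries_succ_iff.1 hx s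
      set π := QuotientGroup.mk' (Subgroup.upperCentralSeries ↥S i)
      set c := π ⁅x, s⁆ with hc
      have hcent : ∀ q, Commute c q := by
        intro q
        obtain ⟨y, rfl⟩ := QuotientGroup.mk'_surjective _ q
        have h2 := (QuotientGroup.eq_one_iff _).2 (Subgroup.mem_upperCentralSeries_succ_iff.1 h1 y)
        change π _ = 1 at h2
        rw [map_commutatorElement, commutatorElement_eq_one_iff_mul_comm] at h2
        exact h2
      have hcm : c ^ m = 1 := by
        rw [hc, ← map_pow]
        exact (QuotientGroup.eq_one_iff _).2 (ih _ h1)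
      have hconj : ∀ j : ℕ, π x ^ j * π s * (π x ^ j)⁻¹ = c ^ j * π s := by
        intro j
        induction j with
        | zero => simp
        | succ j ihj =>
          calc π x ^ (j + 1) * π s * (π x ^ (j + 1))⁻¹ = π x * (π x ^ j * π s * (π x ^ j)⁻¹) * (π x)⁻¹ := by
                rw [pow_succ']; group
            _ = π x * c ^ j * π s * (π x)⁻¹ := by rw [ihj]; group
            _ = c ^ j * π x * π s * (π x)⁻¹ := by rw [((hcent (π x)).pow_left j).eq]
            _ = c ^ j * (c * π s) := by rw [hc, map_commutatorElement, commutatorElement_def]; group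
            _ = c ^ (j + 1) * π s := by rw [pow_succ, mul_assoc]
      have h3 := hconj m
      rw [hcm, one_mul] at h3
      rw [← QuotientGroup.eq_one_iff]
      show π _ = 1
      rw [map_commutatorElement, commutatorElement_def, map_pow, h3, mul_inv_cancel]
  haveI := hS.isNilpotent
  set k := n * (p - 1) + 1 with hk
  have htop : Subgroup.upperCentralSeries ↥S k = ⊤ := by
    have hbot : (⊤ : Subgroup ↥S).lowerCentralSeries k = ⊥ := by
      apply Subgroup.map_injective S.subtype_injective
      rw [Subgroup.top_subtype_lowerCentralSeries, Subgroup.map_bot]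
      exact hcl
    exact Subgroup.upperCentralSeries_eq_top_iff_nilpotencyClass_le.2
      (Subgroup.lowerCentralSeries_eq_bot_iff_nilpotencyClass_le.1 hbot)
  have hpow : ∀ j, ∀ x ∈ Subgroup.upperCentralSeries ↥S j, x ^ m ^ j = 1 := by
    intro j
    induction j with
    | zero => intro x hx; rwa [pow_zero, pow_one, ← Subgroup.mem_bot, ← Subgroup.upperCentralSeries_zero]
    | succ j ihj => intro x hx; rw [pow_succ', pow_mul]; exact ihj _ (hstep j x hx)
  rw [show p ^ (n ^ 2 * (p - 1) + n) = m ^ k by rw [hm, ← pow_mul, hk]; congr 1; ring]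
  exact Monoid.exponent_dvd_of_forall_pow_eq_one fun x => hpow k x (htop.ge (Subgroup.mem_top x))

end Cfsg.Agent.S5219
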