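import Cfsg.Statements.S5222
import Cfsg.Agent.Fusion.TateModel

set_option autoImplicit false
open Cfsg
open scoped commutatorElement

namespace Cfsg.Agent.S5222

/-- Let F be a saturated fusion system over a finite p-group S whose normalizer fusion system of S is the inner fusion system of S (Aut_F(S) is a p-group). Then for every subgroup Q of S with [S, S] ≤ Q ≤ Φ(S), the normalizer fusion system of Q in F is the inner fusion system of N_S(Q) = S. -/
theorem result {Ω : Type*} [Group Ω] {S : Subgroup Ω} [Finite S] (p : ℕ) [Fact p.Prime] (hS : IsPGroup p S) (F : Cfsg.FusionSystem S) (hF : F.IsSaturated p) (hN : ∀ N : Cfsg.FusionSystem (Cfsg.FusionSystem.normalizerIn S S), F.IsNormalizerSystem S N → ∀ P : Subgroup Ω, N.Hom P = (Cfsg.innerFusionSystem (Cfsg.FusionSystem.normalizerIn S S)).Hom P) (Q : Subgroup Ω) (h1 : (commutator ↥S).map S.subtype ≤ Q) (h2 : Q ≤ (frattini ↥S).map S.subtype) : ∀ N : Cfsg.FusionSystem (Cfsg.FusionSystem.normalizerIn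 S Q), F.IsNormalizerSystem Q N → ∀ P : Subgroup Ω, N.Hom P = (Cfsg.innerFusionSystem (Cfsg.FusionSystem.normalizerIn S Q)).Hom P := by
  classical
  have hQS : Q ≤ S := h2.trans (Subgroup.map_subtype_le _)
  haveI hQn : (Q.subgroupOf S).Normal := by
    refine ⟨fun q hq g => ?_⟩
    show ((g * q * g⁻¹ : S) : Ω) ∈ Q
    have h3 : ((⁅g, q⁆ : S) : Ω) ∈ Q :=
      h1 ⟨⁅g, q⁆, Subgroup.commutator_mem_commutator (Subgroup.mem_top g) (Subgroup.mem_top q), rfl⟩
    have h4 := Q.mul_mem h3 hq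
    simpa [commutatorElement_def] using h4
  have hSQ : S ≤ Subgroup.normalizer (Q : Set Ω) := (Subgroup.normal_subgroupOf_iff_le_normalizer hQS).1 hQn
  have e : Cfsg.FusionSystem.normalizerIn S Q = S := inf_eq_left.2 hSQ
  have hSS : S ≤ Cfsg.FusionSystem.normalizerIn S S := le_inf le_rfl Subgroup.le_normalizer
  set M := CfsgLib.Fusion.retarget (CfsgLib.Fusion.normalizerSystem F hQS) e with hMdef
  have hMsat : M.IsSaturated p := CfsgLib.Fusion.isSaturated_retarget _ e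
    (CfsgLib.Fusion.isSaturated_normalizerSystem hS hF (CfsgLib.Fusion.isFullyNormalized_of_le_normalizer hQS hSQ))
  have hMn : M.IsNormal Q := ⟨hQS, fun P φ hφ => by
    obtain ⟨ψ, hψ, hag, hmap⟩ := hφ.2.2.2
    refine ⟨ψ, ?_, hag, hmap⟩
    have h5 := CfsgLib.Fusion.mem_normalizerSystem_of_invariant hQS hψ le_rfl le_sup_right
      ((CfsgLib.Fusion.le_of_hom hψ).trans e.ge) fun y hy => hmap.le ⟨⟨y, Subgroup.mem_sup_right hy⟩, hy, rfl⟩
    exact CfsgLib.Fusion.mem_of_eq h5 fun x => rfl⟩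
  have hMsc := CfsgLib.Fusion.stronglyClosed_of_isNormal hMn
  set θ : S →* S ⧸ Q.subgroupOf S := QuotientGroup.mk' (Q.subgroupOf S) with hθ
  have hker : ∀ s : S, θ s = 1 ↔ (s : Ω) ∈ Q := fun s => QuotientGroup.eq_one_iff s
  set E := CfsgLib.Fusion.factorSystem M θ hker hMsc with hEdef
  have hE := CfsgLib.Fusion.isFactorSystem_factorSystem hker hMsc
  have hEsat := CfsgLib.Fusion.isSaturated_factor hS hMsat hMsc hE
  have hab : ∀ x ∈ θ.range, ∀ y ∈ θ.range, x * y = y * x := by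
    rintro _ ⟨a, rfl⟩ _ ⟨b, rfl⟩
    rw [← commutatorElement_eq_one_iff_mul_comm, ← map_commutatorElement, hker]
    exact h1 ⟨⁅a, b⁆, Subgroup.commutator_mem_commutator (Subgroup.mem_top a) (Subgroup.mem_top b), rfl⟩
  have hpR : IsPGroup p θ.range := (hS.to_quotient _).to_subgroup _
  have hin : ∀ P' : Subgroup (S ⧸ Q.subgroupOf S), E.Hom P' = (Cfsg.innerFusionSystem θ.range).Hom P' := by
    intro P'
    refine Set.Subset.antisymm (fun φ' hφ' => ?_) (CfsgLib.Fusion.inner_le E P')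
    obtain ⟨α, hα, hαφ⟩ := CfsgLib.Fusion.exists_aut_of_hom hpR hEsat hab hφ'
    obtain ⟨-, ψ, hψ, hi⟩ := (CfsgLib.Fusion.mem_autGroup le_rfl).1 hα
    have hSpre : S ≤ Cfsg.FusionSystem.preimageAlong θ θ.range := fun x hx =>
      CfsgLib.Fusion.mem_preimageAlong.2 ⟨hx, ⟨x, hx⟩, rfl⟩
    have hχF : ψ.comp (Subgroup.inclusion hSpre) ∈ F.Hom S := CfsgLib.Fusion.restrict hψ.1 hSpre
    have h6 := CfsgLib.Fusion.mem_normalizerSystem_of_invariant le_rfl hχF le_rfl le_rfl hSS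
      fun y hy => CfsgLib.Fusion.val_mem hχF _
    rw [hN _ (CfsgLib.Fusion.isNormalizerSystem_normalizerSystem F le_rfl) S] at h6
    obtain ⟨-, g, hg, hgψ⟩ := h6
    refine ⟨CfsgLib.Fusion.le_of_hom hφ', θ ⟨g, hg.1⟩, ⟨_, rfl⟩, fun x => ?_⟩
    obtain ⟨d, hd⟩ := CfsgLib.Fusion.le_of_hom hφ' x.2
    rw [← hαφ x]
    have h7 := CfsgLib.Fusion.induced_apply hi (hSpre d.2) (CfsgLib.Fusion.val_mem hψ.1 _)
      (x := ⟨x, CfsgLib.Fusion.le_of_hom hφ' x.2⟩) hd
    refine Eq.trans h7 ?_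
    rw [← hd]
    rw [← map_inv, ← map_mul, ← map_mul]
    exact congrArg θ (Subtype.ext (hgψ d))
  have hle := CfsgLib.Fusion.le_inner_of_frattini hS hMsat hMn h2 hE hin
  intro N hNsys P
  refine Set.Subset.antisymm (fun φ hφ => ?_) (CfsgLib.Fusion.inner_le N P)
  rw [hNsys P] at hφ
  have h8 : φ ∈ M.Hom P := hφ
  obtain ⟨hP, g, hg, hgφ⟩ := hle P h8
  exact ⟨hP.trans e.ge, g, e.ge hg, hgφ⟩

end Cfsg.Agent.S5222
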