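import Cfsg.Statements.S5223
import Cfsg.Agent.Fusion.AlperinCor
-- import your own Cfsg.Agent.* helpers here

set_option autoImplicit false
open Cfsg

namespace Cfsg.Agent.S5223

open CfsgLib.Fusion in
theorem aux {Ω : Type*} [Group Ω] {S : Subgroup Ω} [Finite S] {p : ℕ} [Fact p.Prime]
    (hS : IsPGroup p S) {F : Cfsg.FusionSystem S} (n : ℕ) (Q : Fin (n + 1) → Subgroup Ω)
    (hQ0 : Q 0 = S) (hQn : Q (Fin.last n) = ⊥)
    (hstep : ∀ i : Fin n, Subgroup.closure {y : Ω | ∃ x ∈ Q i.castSucc,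
      ∃ φ ∈ F.Hom (Subgroup.zpowers x), y = x⁻¹ * φ ⟨x, Subgroup.mem_zpowers x⟩} ≤ Q i.succ)
    {P : Subgroup Ω} (hP : P ≤ S) {α : MulAut P} (hα : α ∈ F.autGroup P) {k : ℕ}
    (hk : k.Coprime p) (hαk : α ^ k = 1) : α = 1 := by
  have key : ∀ (i : Fin (n + 1)) (x : P), (x : Ω) ∈ Q i → α x = x := by
    intro i
    induction i using Fin.reverseInduction with
    | last =>
      intro x hx
      rw [hQn, Subgroup.mem_bot] at hx
      rw [show x = 1 from Subtype.ext hx, map_one]
    | cast i ih =>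
      intro x hx
      have hd : ((x⁻¹ * α x : P) : Ω) ∈ Q i.succ := by
        refine hstep i (Subgroup.subset_closure ⟨x, hx, _,
          restrict ((mem_autGroup hP).1 hα) (Subgroup.zpowers_le.2 x.2), rfl⟩)
      set d := x⁻¹ * α x with hddef
      have hfix : α d = d := ih d hd
      have hx' : α x = x * d := by rw [hddef, mul_inv_cancel_left]
      have hpow : ∀ m : ℕ, (α ^ m) x = x * d ^ m := by
        intro m
        induction m with
        | zero => simp
        | succ m ihm =>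
          rw [pow_succ', MulAut.mul_apply, ihm, map_mul, map_pow, hfix, hx', mul_assoc, ← pow_succ']
      have h1 := hpow k
      rw [hαk, MulAut.one_apply, left_eq_mul] at h1
      obtain ⟨a, ha⟩ := (hS.to_le hP) d
      have : orderOf d ∣ Nat.gcd k (p ^ a) :=
        Nat.dvd_gcd (orderOf_dvd_of_pow_eq_one h1) (orderOf_dvd_of_pow_eq_one ha)
      rw [Nat.Coprime.gcd_eq_one (hk.pow_right a), Nat.dvd_one, orderOf_eq_one_iff] at this
      rw [hx', this, mul_one]
  exact MulEquiv.ext fun x => key 0 x (hQ0.symm ▸ hP x.2)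


/-- Let F be a saturated fusion system over a finite p-group S. Suppose there are subgroups Q₀ = S, Q₁, …, Qₙ = 1 (not required to be nested) such that for each i < n the focal subgroup of Qᵢ (generated by the elements x⁻¹φ(x), x ∈ Qᵢ, φ a map of F defined on the cyclic group generated by x) lies in Qᵢ₊₁. Then F is the inner fusion system of S. -/
theorem result {Ω : Type*} [Group Ω] {S : Subgroup Ω} [Finite S] (p : ℕ) [Fact p.Prime] (hS : IsPGroup p S) (F : Cfsg.FusionSystem S) (hF : F.IsSaturated p) (n : ℕ) (Q : Fin (n + 1) → Subgroup Ω) (hQ0 : Q 0 = S) (hQn : Q (Fin.last n) = ⊥) (hstep : ∀ i : Fin n, Subgroup.closure {y : Ω | ∃ x ∈ Q i.castSucc, ∃ φ ∈ F.Hom (Subgroup.zpowers x), y = x⁻¹ * φ ⟨x, Subgroup.mem_zpowers x⟩} ≤ Q i.succ) : ∀ P : Subgroup Ω, F.Hom P = (Cfsg.innerFusionSystem S).Hom P := by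
  refine fun P => congrArg (fun E : Cfsg.FusionSystem S => E.Hom P)
    (CfsgLib.Fusion.eq_inner_of_isPGroup_aut hS hF fun R hR => fun β => ?_)
  haveI := CfsgLib.Fusion.finite_mulAut (S := S) hR.1
  obtain ⟨m, hm, hcop⟩ : ∃ m, orderOf β = p ^ (orderOf β).factorization p * m ∧ m.Coprime p :=
    ⟨_, (Nat.ordProj_mul_ordCompl_eq_self _ p).symm,
      (Nat.coprime_ordCompl Fact.out (orderOf_pos β).ne').symm⟩
  refine ⟨(orderOf β).factorization p, Subtype.ext ?_⟩
  refine aux hS n Q hQ0 hQn hstep hR.1 (Subtype.mem _) hcop ?_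
  rw [← SubgroupClass.coe_pow, ← pow_mul, ← hm, pow_orderOf_eq_one, Subgroup.coe_one]

end Cfsg.Agent.S5223
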