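import Cfsg.Statements.S5226
import Cfsg.Agent.Fusion.SeriesNormal
-- import your own Cfsg.Agent.* helpers here

set_option autoImplicit false
open Cfsg

namespace Cfsg.Agent.S5226

open CfsgLib.Fusion


/-- Let F be a saturated fusion system over a finite p-group S and Q a subgroup of S. Then Q is normal in F (F equals the normalizer system of Q) if and only if Q is strongly closed in F and admits a central series 1 = Q₀ ≤ Q₁ ≤ ⋯ ≤ Qₙ = Q ([Qᵢ₊₁, Q] ≤ Qᵢ) all of whose proper terms are weakly closed in F. -/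
theorem result {Ω : Type*} [Group Ω] {S : Subgroup Ω} [Finite S] (p : ℕ) [Fact p.Prime] (hS : IsPGroup p S) (F : Cfsg.FusionSystem S) (hF : F.IsSaturated p) (Q : Subgroup Ω) : F.IsNormal Q ↔ F.StronglyClosed Q ∧ ∃ (n : ℕ) (C : Fin (n + 1) → Subgroup Ω), C 0 = ⊥ ∧ C (Fin.last n) = Q ∧ Monotone C ∧ (∀ i : Fin n, ⁅C i.succ, Q⁆ ≤ C i.castSucc) ∧ ∀ i : Fin n, F.WeaklyClosed (C i.castSucc) := by
  constructor
  · intro hN
    have hQ := stronglyClosed_of_isNormal hN
    haveI := finite_of_le hQ.1
    haveI : Group.IsNilpotent Q := (hS.to_le hQ.1).isNilpotent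
    obtain ⟨n, hn⟩ := (Subgroup.isNilpotent_iff_lowerCentralSeries Q).1 inferInstance
    refine ⟨hQ, n, fun i => Q.lowerCentralSeries (n - i), by simpa using hn, by simp,
      fun a b hab => Q.lowerCentralSeries_antitone (Nat.sub_le_sub_left hab n), fun i => ?_, fun i => ?_⟩
    · have : n - (i : ℕ) = (n - ((i : ℕ) + 1)) + 1 := by have := i.2; omega
      simp only [Fin.val_succ, Fin.val_castSucc]
      rw [this, Subgroup.lowerCentralSeries_succ]
    · have hle : Q.lowerCentralSeries (n - (i : ℕ)) ≤ Q := Q.lowerCentralSeries_antitone (Nat.zero_le _)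
      refine ⟨hle.trans hQ.1, fun φ hφ => ?_⟩
      simp only [Fin.val_castSucc]
      haveI := finite_of_le (hle.trans hQ.1)
      obtain ⟨α, -, hα⟩ := exists_aut_of_isNormal hN hle hφ
      refine Subgroup.eq_of_le_of_card_ge ?_ (le_of_eq ?_)
      · rintro _ ⟨x, rfl⟩
        rw [hα]
        exact aut_mem_lowerCentralSeries α _ x.2
      · exact Nat.card_congr (MonoidHom.ofInjective (F.injective_of_mem hφ)).toEquiv
  · rintro ⟨hQ, n, C, h0, hlast, hmono, hcomm, hwc⟩
    let D : ℕ → Subgroup Ω := fun i => C ⟨min i n, Nat.lt_succ_of_le (min_le_right i n)⟩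
    have hD : ∀ i (hi : i < n + 1), D i = C ⟨i, hi⟩ := fun i hi =>
      congrArg C (Fin.ext (min_eq_left (Nat.le_of_lt_succ hi)))
    have hDn : ∀ i, n ≤ i → D i = Q := fun i hi => by
      rw [← hlast]; exact congrArg C (Fin.ext (min_eq_right hi))
    refine isNormal_of_series hS hF hQ D (fun a b hab => hmono (min_le_min_right n hab))
      ((hD 0 (Nat.succ_pos n)).trans h0) (fun i => hlast ▸ hmono (Fin.le_last _)) (fun i => ?_) (fun i => ?_) n
      (hDn n le_rfl)
    · rcases Nat.lt_or_ge i n with hi | hi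
      · rw [hD i (by omega), hD (i + 1) (by omega)]
        exact hcomm ⟨i, hi⟩
      · rw [hDn (i + 1) (by omega), hDn i hi, Subgroup.commutator_le]
        intro a ha b hb
        rw [commutatorElement_def]
        exact Q.mul_mem (Q.mul_mem (Q.mul_mem ha hb) (Q.inv_mem ha)) (Q.inv_mem hb)
    · rcases Nat.lt_or_ge i n with hi | hi
      · rw [hD i (by omega)]
        exact hwc ⟨i, hi⟩
      · rw [hDn i hi]
        exact weaklyClosed_of_stronglyClosed hQ

end Cfsg.Agent.S5226
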