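import Cfsg.Statements.S5236
import Cfsg.Agent.Fusion.SeriesNormal
import Cfsg.Agent.Transfer.Blackburn
import Cfsg.Agent.PGroup.SmallExponent
-- import your own Cfsg.Agent.* helpers here

set_option autoImplicit false
open Cfsg

namespace Cfsg.Agent.S5236

open CfsgLib.Fusion Cfsg.FusionSystem
open scoped commutatorElement Pointwise

theorem pow_fixes_chain {Ω : Type*} [Group Ω] {P : Subgroup Ω} [Finite P] {p : ℕ} [Fact p.Prime]
    (hP : IsPGroup p P) {L : ℕ → Subgroup Ω} {m : ℕ} (hL : Monotone L) (h0 : L 0 = ⊥) {α : MulAut P}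
    (hα : StabilizesChain L m α) :
    ∃ e, ∀ x : P, (x : Ω) ∈ L m → (α ^ p ^ e) x = x := by
  obtain ⟨k, hk⟩ := IsPGroup.iff_card.1 hP
  refine ⟨m * k, ?_⟩
  have key : ∀ i, i ≤ m → ∀ x : P, (x : Ω) ∈ L i → (α ^ p ^ (i * k)) x = x := by
    intro i
    induction i with
    | zero =>
      intro _ x hx
      rw [h0, Subgroup.mem_bot] at hx
      rw [show x = 1 from Subtype.ext hx, map_one]
    | succ i ih =>
      intro hi x hx
      set β := α ^ p ^ (i * k)
      have hfix : β (x⁻¹ * β x) = x⁻¹ * β x :=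
        ih (by omega) _ (hα.pow hL (p ^ (i * k)) i (Nat.lt_of_succ_le hi) x hx)
      set d := x⁻¹ * β x with hddef
      have hx' : β x = x * d := by rw [hddef, mul_inv_cancel_left]
      have hpow : ∀ n : ℕ, (β ^ n) x = x * d ^ n := by
        intro n
        induction n with
        | zero => simp
        | succ n ihn => rw [pow_succ', MulAut.mul_apply, ihn, map_mul, map_pow, hfix, hx', mul_assoc, ← pow_succ']
      have hpk : d ^ p ^ k = 1 := by rw [← hk]; exact pow_card_eq_one'
      rw [show (i + 1) * k = i * k + k by ring, pow_add, pow_mul, hpow, hpk, mul_one]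
  exact key m le_rfl

theorem fixes_of_small {M : Type*} [Group M] [Finite M] {p : ℕ} [Fact p.Prime] (hM : IsPGroup p M)
    (α : MulAut M) (hα : (orderOf α).Coprime p) (V : Subgroup M)
    (hinv : ∀ x ∈ V, α x ∈ V) (hinv' : ∀ x ∈ V, α⁻¹ x ∈ V)
    (hfix : ∀ x ∈ V, (x ^ p = 1 ∨ (p = 2 ∧ x ^ 4 = 1)) → α x = x) : ∀ x ∈ V, α x = x := by
  haveI : Finite (MulAut M) :=
    Finite.of_injective (fun a : MulAut M => (a : M → M)) DFunLike.coe_injective
  let A := Subgroup.zpowers α
  let G' := M ⋊[A.subtype] A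
  haveI : Finite G' := Finite.of_equiv _ SemidirectProduct.equivProd.symm
  let ι : M →* G' := SemidirectProduct.inl
  let a : A := ⟨α, Subgroup.mem_zpowers α⟩
  let n : G' := SemidirectProduct.inr a
  have hn : ∀ y, n * ι y * n⁻¹ = ι (α y) := fun y => by
    show SemidirectProduct.inr a * SemidirectProduct.inl y * (SemidirectProduct.inr a)⁻¹ = SemidirectProduct.inl (A.subtype a y)
    rw [SemidirectProduct.inl_aut, map_inv]
  have hnord : (orderOf n).Coprime p := by
    refine Nat.Coprime.coprime_dvd_left ((orderOf_map_dvd _ a).trans ?_) hα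
    rw [← Subgroup.orderOf_coe]
  have hιinj : Function.Injective ι := SemidirectProduct.inl_injective
  have hVn : n ∈ Subgroup.normalizer ((V.map ι : Subgroup G') : Set G') := by
    refine Subgroup.mem_normalizer_iff.2 fun z => ⟨?_, fun hz => ?_⟩
    · rintro ⟨y, hy, rfl⟩
      exact ⟨α y, hinv y hy, (hn y).symm⟩
    · obtain ⟨y, hy, he⟩ := hz
      refine ⟨α⁻¹ y, hinv' y hy, ?_⟩
      have h := hn (α⁻¹ y)
      rw [MulAut.apply_inv_self, he] at h
      exact mul_left_cancel (mul_right_cancel h)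
  have hc : ∀ y, Commute n (ι y) ↔ α y = y := fun y => by
    constructor
    · intro h
      apply hιinj
      rw [← hn, h.eq, mul_inv_cancel_right]
    · intro h
      have := hn y
      rw [h] at this
      exact mul_inv_eq_iff_eq_mul.1 this
  intro x hx
  refine (hc x).1 (CfsgLib.Transfer.commute_of_fixes_small ((hM.to_subgroup V).map ι) hnord hVn ?_ _
    ⟨x, hx, rfl⟩)
  rintro _ ⟨y, hy, rfl⟩ hs
  refine (hc y).2 (hfix y hy ?_)
  rcases hs with h | ⟨h2, h⟩
  · exact Or.inl (hιinj (by rw [map_pow, h, map_one]))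
  · exact Or.inr ⟨h2, hιinj (by rw [map_pow, h, map_one])⟩


/-- The descending series from the subgroup generated by the elements of order `p`. -/
def omegaSeries {Q : Type*} [Group Q] (p : ℕ) : ℕ → Subgroup Q
  | 0 => Subgroup.closure {x : Q | x ^ p = 1}
  | k + 1 => ⁅omegaSeries (Q := Q) p k, (⊤ : Subgroup Q)⁆

theorem omegaSeries_invariant {Q : Type*} [Group Q] (p : ℕ) (α : MulAut Q) :
    ∀ k, (omegaSeries p k).map α.toMonoidHom ≤ omegaSeries (Q := Q) p k
  | 0 => by
    rw [omegaSeries, MonoidHom.map_closure]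
    refine Subgroup.closure_mono ?_
    rintro _ ⟨x, hx, rfl⟩
    show α x ^ p = 1
    rw [← map_pow, show x ^ p = 1 from hx, map_one]
  | k + 1 => by
    rw [omegaSeries, Subgroup.map_commutator, Subgroup.map_top_of_surjective _ α.surjective]
    exact Subgroup.commutator_mono (omegaSeries_invariant p α k) le_rfl

theorem omegaSeries_le_lcs {Q : Type*} [Group Q] (p : ℕ) :
    ∀ k, omegaSeries (Q := Q) p k ≤ (⊤ : Subgroup Q).lowerCentralSeries k
  | 0 => by simp
  | k + 1 => by
    rw [omegaSeries, Subgroup.lowerCentralSeries_succ]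
    exact Subgroup.commutator_mono (omegaSeries_le_lcs p k) le_rfl

theorem omegaSeries_succ_le {Q : Type*} [Group Q] (p : ℕ) :
    ∀ k, omegaSeries (Q := Q) p (k + 1) ≤ omegaSeries p k := fun k => by
  haveI : (omegaSeries (Q := Q) p k).Normal :=
    ⟨fun x hx g => omegaSeries_invariant p (MulAut.conj g) k ⟨x, hx, rfl⟩⟩
  rw [omegaSeries]
  exact Subgroup.commutator_le_left _ _

theorem map_omegaSeries_zero {Ω : Type*} [Group Ω] (p : ℕ) (P : Subgroup Ω) :
    (omegaSeries (Q := P) p 0).map P.subtype = Cfsg.omegaOne p P := by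
  rw [omegaSeries, MonoidHom.map_closure, Cfsg.omegaOne]
  congr 1
  ext x
  constructor
  · rintro ⟨y, hy, rfl⟩
    exact ⟨y.2, by rw [← map_pow, show y ^ p = 1 from hy, map_one]⟩
  · rintro ⟨hx, hxp⟩
    exact ⟨⟨x, hx⟩, Subtype.ext hxp, rfl⟩


/-- Let p be an odd prime, F a saturated fusion system over a finite p-group S and P a subgroup of S strongly closed in F. Then P is normal in F if and only if Ω₁(P) (the subgroup generated by the elements of order p of P) has a chain of subgroups 1 = Q₀ ≤ Q₁ ≤ ⋯ ≤ Qₙ = Ω₁(P), each strongly closed in F, with [Qᵢ₊₁, P] ≤ Qᵢ for all i. -/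
theorem result {Ω : Type*} [Group Ω] {S : Subgroup Ω} [Finite S] (p : ℕ) [Fact p.Prime] (hS : IsPGroup p S) (F : Cfsg.FusionSystem S) (hF : F.IsSaturated p) (hp : p ≠ 2) (P : Subgroup Ω) (hP : F.StronglyClosed P) : F.IsNormal P ↔ ∃ (n : ℕ) (Q : Fin (n + 1) → Subgroup Ω), Q 0 = ⊥ ∧ Q (Fin.last n) = Cfsg.omegaOne p P ∧ Monotone Q ∧ (∀ i : Fin (n + 1), F.StronglyClosed (Q i)) ∧ ∀ i : Fin n, ⁅Q i.succ, P⁆ ≤ Q i.castSucc := by
  constructor
  · intro hN
    haveI := finite_of_le hP.1
    haveI := (hS.to_le hP.1).isNilpotent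
    obtain ⟨m, hm⟩ := (Subgroup.isNilpotent_iff_lowerCentralSeries P).1 inferInstance
    let W : ℕ → Subgroup Ω := fun k => (omegaSeries (Q := P) p k).map P.subtype
    have hanti : Antitone (fun k => omegaSeries (Q := P) p k) := antitone_nat_of_succ_le (omegaSeries_succ_le p)
    refine ⟨m, fun i => W (m - i), ?_, ?_, fun a b hab => Subgroup.map_mono (hanti (Nat.sub_le_sub_left hab m)),
      fun i => ?_, fun i => ?_⟩
    · show W (m - ((0 : Fin (m + 1)) : ℕ)) = ⊥
      have h0 : omegaSeries (Q := P) p m = ⊥ := by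
        refine (Subgroup.map_eq_bot_iff_of_injective _ P.subtype_injective).1 (le_bot_iff.1 ?_)
        refine (Subgroup.map_mono (omegaSeries_le_lcs p m)).trans ?_
        rw [Subgroup.top_subtype_lowerCentralSeries, hm]
      simp [W, h0]
    · show W (m - ((Fin.last m : Fin (m + 1)) : ℕ)) = _
      rw [Fin.val_last, Nat.sub_self]
      exact map_omegaSeries_zero p P
    · refine ⟨(Subgroup.map_subtype_le _).trans hP.1, fun R hR φ hφ x => ?_⟩
      have hRP : R ≤ P := hR.trans (Subgroup.map_subtype_le _)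
      obtain ⟨α, -, hα⟩ := exists_aut_of_isNormal hN hRP hφ
      obtain ⟨y, hy, e⟩ := hR x.2
      rw [hα]
      refine ⟨α ⟨x, hRP x.2⟩, omegaSeries_invariant p α _ ⟨y, hy, ?_⟩, rfl⟩
      exact congrArg α (Subtype.ext e)
    · simp only [Fin.val_succ, Fin.val_castSucc]
      rw [show m - (i : ℕ) = (m - ((i : ℕ) + 1)) + 1 by have := i.2; omega]
      simp only [W]
      rw [omegaSeries, Subgroup.map_commutator, ← MonoidHom.range_eq_map, Subgroup.range_subtype]
  · rintro ⟨n, Q, h0, hlast, hmono, hsc, hcomm⟩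
    have hn0 : S ≤ Subgroup.normalizer (P : Set Ω) :=
      le_normalizer_of_weaklyClosed_fusion (weaklyClosed_of_stronglyClosed hP)
    refine isNormal_of_centricRadical hS hF hP.1 hn0 fun R hn hc hr => ?_
    have hinv : ∀ {U : Subgroup Ω}, F.StronglyClosed U → ∀ α ∈ F.autGroup R, ∀ q : R, (q : Ω) ∈ U →
        ((α q : R) : Ω) ∈ U := by
      intro U hU α hα q hq
      exact hU.2 (Subgroup.zpowers (q : Ω)) (Subgroup.zpowers_le.2 hq) _
        (restrict ((mem_autGroup hn.1).1 hα) (Subgroup.zpowers_le.2 q.2)) ⟨q, Subgroup.mem_zpowers _⟩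
    refine ⟨?_, hinv hP⟩
    haveI := finite_of_le hn.1
    haveI := finite_mulAut (S := S) hn.1
    set A := F.autGroup R
    let C : ℕ → Subgroup Ω := fun i => Q ⟨min i n, Nat.lt_succ_of_le (min_le_right i n)⟩
    have hC : Monotone C := fun a b hab => hmono (min_le_min_right n hab)
    let W : Subgroup A := ((chainStab C n hC).subgroupOf A) ⊓
      (chainStab (fun i => if i = 0 then P else ⊤) 1 (fun a b hab => by
        simp only
        split_ifs with h1 h2
        · exact le_rfl
        · exact le_top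
        · omega
        · exact le_rfl)).subgroupOf A
    have hWn : W.Normal := by
      refine ⟨fun β hβ γ => ⟨fun i hi x hx => ?_, fun i hi x hx => ?_⟩⟩
      · have hy := hinv (hsc _) _ (inv_mem γ.2) x hx
        have h1 := hinv (hsc ⟨min i n, Nat.lt_succ_of_le (min_le_right i n)⟩) _ γ.2 _
          ((mem_chainStab (hL := hC).1 hβ.1) i hi _ hy)
        simp only [map_mul, map_inv, MulAut.apply_inv_self] at h1
        exact h1
      · obtain rfl : i = 0 := by omega
        have h0' := hβ.2 0 (by omega) (((γ : MulAut R)⁻¹) x) (by simp)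
        simp only [if_true] at h0' ⊢
        have h1 := hinv hP _ γ.2 _ h0'
        simp only [map_mul, map_inv, MulAut.apply_inv_self] at h1
        exact h1
    have hWp : IsPGroup p W := by
      rintro ⟨β, hβ⟩
      obtain ⟨e, he⟩ := pow_fixes_chain (hS.to_le hn.1) hC (by simpa [C] using h0) (mem_chainStab (hL := hC).1 hβ.1)
      set δ := β ^ p ^ e
      obtain ⟨m, hm, hcop⟩ : ∃ m, orderOf δ = p ^ (orderOf δ).factorization p * m ∧ m.Coprime p :=
        ⟨_, (Nat.ordProj_mul_ordCompl_eq_self _ p).symm,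
          (Nat.coprime_ordCompl Fact.out (orderOf_pos δ).ne').symm⟩
      set f := (orderOf δ).factorization p
      refine ⟨e + f, Subtype.ext ?_⟩
      show β ^ p ^ (e + f) = 1
      rw [pow_add, pow_mul]
      apply Subtype.ext
      set ε := ((δ ^ p ^ f : A) : MulAut R) with hε
      have hεord : (orderOf ε).Coprime p := by
        rw [hε, Subgroup.orderOf_coe]
        refine Nat.Coprime.coprime_dvd_left (orderOf_dvd_of_pow_eq_one ?_) hcop
        rw [← pow_mul, ← hm, pow_orderOf_eq_one]
      have hfix : ∀ d ∈ P.subgroupOf R, ε d = d := by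
        refine fixes_of_small (hS.to_le hn.1) ε hεord _ (fun d hd => hinv hP _ (δ ^ p ^ f).2 d hd)
          (fun d hd => hinv hP _ (inv_mem (δ ^ p ^ f).2) d hd) fun d hd hds => ?_
        have hdp : d ^ p = 1 := hds.resolve_right fun h => hp h.1
        have hdC : (d : Ω) ∈ C n := by
          have : (d : Ω) ∈ Cfsg.omegaOne p P :=
            Subgroup.subset_closure ⟨hd, by rw [← SubgroupClass.coe_pow, hdp, Subgroup.coe_one]⟩
          rw [← hlast] at this
          simpa [C, Fin.last] using this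
        rw [hε, SubgroupClass.coe_pow]
        exact MulAction.mem_stabilizer_iff.1
          (pow_mem (MulAction.mem_stabilizer_iff.2 (he d hdC) : (δ : MulAut R) ∈ MulAction.stabilizer (MulAut R) d) _)
      show ε = (1 : MulAut R)
      refine MulEquiv.ext fun x => ?_
      have hd : x⁻¹ * ε x ∈ P.subgroupOf R := by
        have hεW := pow_mem (pow_mem hβ.2 (p ^ e)) (p ^ f)
        have h := hεW 0 (by omega) x (by simp)
        simp only [if_true] at h
        exact h
      exact CfsgLib.PGroup.apply_eq_of_diff_fixed (hS.to_le hn.1) hεord (hfix _ hd)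
    by_contra hnot
    haveI : Finite ↥(R ⊔ P) := finite_of_le (sup_le hn.1 hP.1)
    obtain ⟨g, hg, hgN, hgR⟩ := exists_normalizer_not_mem (Q := R) (P := R ⊔ P)
      (hS.to_le (sup_le hn.1 hP.1))
      (lt_of_le_of_ne le_sup_left fun e => hnot (e ▸ le_sup_right))
    have hg' : g ∈ ((R : Set Ω) * (P : Set Ω)) := by
      rw [← Subgroup.coe_mul_of_left_le_normalizer_right _ _ (hn.1.trans hn0)]
      exact hg
    obtain ⟨a, ha, d, hd, rfl⟩ := hg'
    refine hgR (R.mul_mem ha ?_)
    have hdN : d ∈ Subgroup.normalizer (R : Set Ω) := by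
      simpa using mul_mem (inv_mem (Subgroup.le_normalizer ha)) hgN
    have hdS := hP.1 hd
    refine mem_self_of_inn hc hdS (α := conjAut R S ⟨d, hdS, hdN⟩) (fun x => rfl) (hr.2.le ?_)
    have hgA : conjAut R S ⟨d, hdS, hdN⟩ ∈ A :=
      autInducedBy_le_autGroup hn.1 (range_conjAut (P := R) S ▸ ⟨_, rfl⟩)
    refine ⟨⟨_, hgA⟩, (le_sSup ⟨hWn, hWp⟩ : W ≤ Cfsg.pCore p A) ⟨?_, ?_⟩, rfl⟩
    · refine stabilizesChain_conj (g := d) (α := conjAut R S ⟨d, hdS, hdN⟩) (fun x => rfl) fun i hi x hxR hx => ?_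
      have e1 : C (i + 1) = Q ((⟨i, hi⟩ : Fin n).succ) := congrArg Q (Fin.ext (min_eq_left hi))
      have e2 : C i = Q ((⟨i, hi⟩ : Fin n).castSucc) := congrArg Q (Fin.ext (min_eq_left hi.le))
      rw [e1] at hx
      rw [e2]
      exact hcomm ⟨i, hi⟩ (Subgroup.commutator_mem_commutator (inv_mem hx) hd)
    · show StabilizesChain (fun i => if i = 0 then P else ⊤) 1 (conjAut R S ⟨d, hdS, hdN⟩)
      refine stabilizesChain_conj (g := d) (α := conjAut R S ⟨d, hdS, hdN⟩) (fun x => rfl) fun i hi x hxR hx => ?_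
      obtain rfl : i = 0 := by omega
      simp only [if_true]
      rw [commutatorElement_def]
      exact P.mul_mem (conj_mem_of_normalizer (hn0 (S.inv_mem (hn.1 hxR))) hd) (P.inv_mem hd)

end Cfsg.Agent.S5236
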