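import Cfsg.Statements.S5244
import Cfsg.Agent.Fusion.AbelianIndexPCore

set_option autoImplicit false
open Cfsg
open scoped commutatorElement

namespace Cfsg.Agent.S5244

/-- Let p be an odd prime, S a finite nonabelian p-group with a unique abelian subgroup A of index p, and F a saturated fusion system over S with no nontrivial normal subgroup (O_p(F) = 1) in which A is not F-essential. Then some subgroup Z(S)⟨x⟩ with x ∈ S outside A is F-essential, the centre Z(S) is contained in the commutator subgroup of S, and S has maximal nilpotency class (if S has order pⁿ with n ≥ 3, the term of index n − 2 of its lower central series, counting S itself as the term of index 0, is nontrivial). -/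
theorem result {Ω : Type*} [Group Ω] {S : Subgroup Ω} [Finite S] (p : ℕ) [Fact p.Prime] (hS : IsPGroup p S) (F : Cfsg.FusionSystem S) (hF : F.IsSaturated p) (hp : p ≠ 2) (hna : ¬ IsMulCommutative ↥S) (A : Subgroup Ω) (hA : A ≤ S ∧ IsMulCommutative ↥A ∧ (A.subgroupOf S).index = p) (huniq : ∀ B : Subgroup Ω, B ≤ S → IsMulCommutative ↥B → (B.subgroupOf S).index = p → B = A) (hcore : F.core = ⊥) (hAe : ¬ F.IsEssential p A) : (∃ x ∈ S, x ∉ A ∧ F.IsEssential p ((S ⊓ Subgroup.centralizer (S : Set Ω)) ⊔ Subgroup.zpowers x)) ∧ (S ⊓ Subgroup.centralizer (S : Set Ω)) ≤ (commutator ↥S).map S.subtype ∧ ∀ n : ℕ, Nat.card S = p ^ n → 3 ≤ n → Subgroup.lowerCentralSeries S (n - 2) ≠ ⊥ := by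
  have h : CfsgLib.Fusion.AIP S A p :=
    ⟨hA.1, fun a ha b hb => congrArg Subtype.val (hA.2.1.is_comm.comm ⟨a, ha⟩ ⟨b, hb⟩), hA.2.2,
      fun hc => hna ⟨⟨fun a b => Subtype.ext (hc a a.2 b b.2)⟩⟩,
      fun B hB hc hi => huniq B hB ⟨⟨fun a b => Subtype.ext (hc a a.2 b b.2)⟩⟩ hi⟩
  obtain ⟨P, hP, hab⟩ := h.exists_abelian_essential hS hF hAe hcore
  have hZR : (S ⊓ Subgroup.centralizer (S : Set Ω)) ≤ ⁅S, S⁆ := h.center_le_commutator_of_core hS hF hAe hp hcore
  obtain ⟨hz, hc, -, x, hx', hxA, hor⟩ := h.essential_structure hS hF hP (fun e => hAe (e ▸ hP))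
  have hx := hP.1.1 hx'
  have hPeq : P = (S ⊓ Subgroup.centralizer (S : Set Ω)) ⊔ Subgroup.zpowers x := by
    rcases hor with ⟨-, hPeq, -, -⟩ | ⟨-, -, hcen⟩
    · exact hPeq
    · exact absurd (h.center_le hS (hcen x hx' fun y hy => hab y hy x hx')) hxA
  refine ⟨⟨x, hx, hxA, hPeq ▸ hP⟩, ?_, fun n hn h3 => ?_⟩
  · rw [Subgroup.map_subtype_commutator]
    exact hZR
  have hZcard : Nat.card ↥(S ⊓ Subgroup.centralizer (S : Set Ω)) = p := by
    have h1 : Nat.card ↥((S ⊓ Subgroup.centralizer (S : Set Ω)) ⊓ (h.kappa hS hx).range) = p :=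
      h.card_center_inf hS hx hxA hz hc
    rwa [inf_eq_left.2 (hZR.trans (h.commutator_eq_range hS hx hxA).le)] at h1
  haveI : Finite ↥(S ⊓ Subgroup.centralizer (S : Set Ω)) := CfsgLib.Fusion.finite_of_le (S := S) inf_le_left
  intro hbot
  rcases eq_or_lt_of_le h3 with h3' | h4
  · rw [← h3', Subgroup.lowerCentralSeries_succ, Subgroup.lowerCentralSeries_zero] at hbot
    rw [hbot, le_bot_iff] at hZR
    rw [hZR, Subgroup.card_bot] at hZcard
    exact (Fact.out : p.Prime).ne_one hZcard.symm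
  have hidx : ((S ⊓ Subgroup.centralizer (S : Set Ω)).subgroupOf S).index = p ^ (n - 1) := by
    have h1 := ((S ⊓ Subgroup.centralizer (S : Set Ω)).subgroupOf S).card_mul_index
    rw [Nat.card_congr (Subgroup.subgroupOfEquivOfLe inf_le_left).toEquiv, hZcard, hn,
      show p ^ n = p * p ^ (n - 1) by rw [← pow_succ', show n - 1 + 1 = n by omega]] at h1
    exact Nat.eq_of_mul_eq_mul_left (Fact.out : p.Prime).pos h1
  refine h.not_lcs_le_center hS hx hxA hz hc hidx (by omega) fun a ha => ?_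
  have haS : a ∈ S := Subgroup.lowerCentralSeries_antitone (S := S) (Nat.zero_le _) ha
  refine CfsgLib.Fusion.mem_centerIn.2 ⟨haS, fun s hs => ?_⟩
  rw [show n - 2 = n - 1 - 2 + 1 by omega, Subgroup.lowerCentralSeries_succ] at hbot
  have h1 : ⁅a, s⁆ = 1 := Subgroup.mem_bot.1 (hbot.le (Subgroup.commutator_mem_commutator ha hs))
  exact (commutatorElement_eq_one_iff_mul_comm.1 h1).symm

end Cfsg.Agent.S5244
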