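import Cfsg.Statements.S5245
import Cfsg.Agent.Fusion.NormalSub
import Cfsg.Agent.Fusion.RestrictionSystem
import Cfsg.Agent.PGroup.SmallExponent
-- import your own Cfsg.Agent.* helpers here

set_option autoImplicit false
open Cfsg

namespace Cfsg.Agent.S5245

open CfsgLib.Fusion Cfsg.FusionSystem

theorem key {Ω : Type*} [Group Ω] {S : Subgroup Ω} [Finite S] {p : ℕ} [Fact p.Prime] (hS : IsPGroup p S)
    {F : Cfsg.FusionSystem S}
    (hmin : ∀ (T : Subgroup Ω) (E : Cfsg.FusionSystem T), E.IsSaturated p → E.IsSubsystemOf F →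
      (T = S ∧ ∀ P : Subgroup Ω, E.Hom P = F.Hom P) ∨
      (∀ P : Subgroup Ω, E.Hom P = (Cfsg.innerFusionSystem T).Hom P))
    {P : Subgroup Ω} (hP : P ≤ S) (β : MulAut P) (hβF : β ∈ F.autGroup P) {q : ℕ} (hq : q.Prime)
    (hqp : q ≠ p) (hβ : orderOf β = q) :
    P = S ∧ ∃ h : Cfsg.Inn P ≤ Cfsg.Inn P ⊔ Subgroup.zpowers β,
      ∀ U : Subgroup Ω, (restrictionSystem _ h).Hom U = F.Hom U := by
  set A := Cfsg.Inn P ⊔ Subgroup.zpowers β with hA
  have hAF : A ≤ F.autGroup P := sup_le (inn_le_autGroup hP) (Subgroup.zpowers_le.2 hβF)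
  haveI := finite_of_le hP
  haveI := finite_mulAut (S := S) hP
  haveI : (Cfsg.Inn P).Normal := inn_normal
  have hi : ¬ p ∣ (Cfsg.Inn P).relIndex A := by
    let π := QuotientGroup.mk' (Cfsg.Inn P)
    have e : (Cfsg.Inn P).subgroupOf A = (π.comp A.subtype).ker := by
      rw [← MonoidHom.comap_ker, QuotientGroup.ker_mk']
      rfl
    rw [Subgroup.relIndex, e, Subgroup.index_ker, MonoidHom.range_comp, Subgroup.range_subtype, hA,
      Subgroup.map_sup, (Subgroup.map_eq_bot_iff _).2 (QuotientGroup.ker_mk' _).ge, bot_sup_eq,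
      MonoidHom.map_zpowers, Nat.card_zpowers]
    intro h
    have h2 := h.trans (orderOf_map_dvd π β)
    rw [hβ] at h2
    exact hqp ((Nat.prime_dvd_prime_iff_eq Fact.out hq).1 h2).symm
  have hsat := isSaturated_restrictionSystem (hA := le_sup_left) (hS.to_le hP) hi
  have hsub : (restrictionSystem A le_sup_left).IsSubsystemOf F := by
    rintro U φ ⟨hU, α, hα, ha⟩
    exact restrict_of_eq ((mem_autGroup hP).1 (hAF hα)) hU fun x => ha x (hU x.2)
  rcases hmin P _ hsat hsub with ⟨h, h'⟩ | h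
  · exact ⟨h, le_sup_left, h'⟩
  · exfalso
    have hβE : β ∈ (restrictionSystem A le_sup_left).autGroup P := by
      rw [autGroup_restrictionSystem_self]
      exact Subgroup.mem_sup_right (Subgroup.mem_zpowers β)
    rw [mem_autGroup le_rfl, h P] at hβE
    obtain ⟨-, g, hg, hgx⟩ := hβE
    obtain ⟨k, hk⟩ := IsPGroup.iff_orderOf.1 (isPGroup_autInducedBy p (hS.to_le hP) P)
      ⟨β, mem_autInducedBy.2 ⟨g, hg, hgx⟩⟩
    rw [Subgroup.orderOf_mk, hβ] at hk
    rcases Nat.eq_zero_or_pos k with rfl | hk0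
    · exact hq.ne_one (by simpa using hk)
    · exact hqp ((Nat.prime_dvd_prime_iff_eq Fact.out hq).1 (hk ▸ dvd_pow_self p hk0.ne')).symm


/-- Let F be an extremely sparse fusion system over a finite p-group S (saturated, not the inner system, and every saturated fusion system over any subgroup T of S contained in F is F itself or the inner system of T). Then S is normal in F, the focal and hyperfocal subgroups of F are both S, and Aut_F(S) is generated by the inner automorphisms of S together with a single automorphism of prime order q ≠ p (F is the fusion system of the semidirect product of S by a cyclic group of prime order). -/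
theorem result {Ω : Type*} [Group Ω] {S : Subgroup Ω} [Finite S] (p : ℕ) [Fact p.Prime] (hS : IsPGroup p S) (F : Cfsg.FusionSystem S) (hF : F.IsSaturated p) (hxs : ¬ (∀ P : Subgroup Ω, F.Hom P = (Cfsg.innerFusionSystem S).Hom P) ∧ ∀ (T : Subgroup Ω) (E : Cfsg.FusionSystem T), E.IsSaturated p → E.IsSubsystemOf F → (T = S ∧ ∀ P : Subgroup Ω, E.Hom P = F.Hom P) ∨ (∀ P : Subgroup Ω, E.Hom P = (Cfsg.innerFusionSystem T).Hom P)) : F.IsNormal S ∧ F.focalSubgroup = S ∧ F.hyperfocalSubgroup p = S ∧ ∃ (q : ℕ) (β : MulAut ↥S), q.Prime ∧ q ≠ p ∧ β ∈ F.autGroup S ∧ orderOf β = q ∧ (F.autGroup S : Subgroup (MulAut ↥S)) = Cfsg.Inn ↥S ⊔ Subgroup.zpowers β := by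
  obtain ⟨hne, hmin⟩ := hxs
  obtain ⟨P, hn, hnp⟩ : ∃ P, F.IsFullyNormalized P ∧ ¬ IsPGroup p (F.autGroup P) := by
    by_contra h
    push Not at h
    exact hne fun U => congrArg (fun E : Cfsg.FusionSystem S => E.Hom U) (eq_inner_of_isPGroup_aut hS hF h)
  haveI := finite_of_le hn.1
  haveI := finite_mulAut (S := S) hn.1
  obtain ⟨q, hq, hqd, hqp⟩ : ∃ q : ℕ, q.Prime ∧ q ∣ Nat.card (F.autGroup P) ∧ q ≠ p := by
    by_contra h
    push Not at h
    exact hnp (IsPGroup.of_card (Nat.eq_prime_pow_of_unique_prime_dvd Nat.card_pos.ne' fun {d} hd hdd => h d hd hdd))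
  haveI := Fact.mk hq
  obtain ⟨b, hb⟩ := exists_prime_orderOf_dvd_card' q hqd
  obtain ⟨hPS, -, -⟩ := key hS hmin hn.1 (b : MulAut P) b.2 hq hqp (by rw [Subgroup.orderOf_coe, hb])
  subst hPS
  set β : MulAut P := (b : MulAut P)
  have hβord : orderOf β = q := by rw [Subgroup.orderOf_coe, hb]
  obtain ⟨-, hA, hEF⟩ := key hS hmin le_rfl β b.2 hq hqp hβord
  have haut : F.autGroup P = Cfsg.Inn P ⊔ Subgroup.zpowers β := by
    rw [← autGroup_restrictionSystem_self (hA := hA)]
    ext α
    rw [mem_autGroup le_rfl, mem_autGroup le_rfl, hEF]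
  have hN : F.IsNormal P := by
    refine isNormal_of_extends le_rfl fun U φ hφ => ?_
    rw [← hEF] at hφ
    obtain ⟨hU, α, hα, ha⟩ := hφ
    exact ⟨_, restrict ((mem_autGroup le_rfl).1 (haut ▸ hα)) (sup_le hU le_rfl),
      fun x => (ha x (hU x.2)).symm, fun s hs => (α _).2⟩
  set K : Subgroup P := Subgroup.closure {y | ∃ x : P, y = x⁻¹ * β x} with hK
  have hcop : (orderOf b).Coprime p := by rw [hb]; exact (Nat.coprime_primes hq Fact.out).2 hqp
  have hKH : K.map P.subtype ≤ F.hyperfocalSubgroup p := by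
    rw [hK, MonoidHom.map_closure, Subgroup.closure_le]
    rintro _ ⟨_, ⟨x, rfl⟩, rfl⟩
    exact Subgroup.subset_closure ⟨P, b, x, le_rfl,
      Subgroup.subset_closure (show b ∈ {g : F.autGroup P | Nat.Coprime (orderOf g) p} from hcop), rfl⟩
  have hKinv : ∀ k : ℕ, ∀ y ∈ K, (β ^ k) y ∈ K := by
    intro k
    induction k with
    | zero => simp
    | succ k ih =>
      intro y hy
      rw [pow_succ', MulAut.mul_apply]
      have hle : K ≤ K.comap β.toMonoidHom := by
        rw [hK, Subgroup.closure_le]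
        rintro _ ⟨x, rfl⟩
        exact Subgroup.subset_closure ⟨β x, by simp⟩
      exact hle (ih y hy)
  have hord : β ^ (q - 1) * β = 1 := by
    rw [← pow_succ, Nat.sub_add_cancel hq.one_le, ← hβord, pow_orderOf_eq_one]
  set R := K.map P.subtype with hR
  have hRS : R = P := by
    let e : R →* R := ((P.subtype.comp β.toMonoidHom).comp (Subgroup.inclusion (Subgroup.map_subtype_le K))).codRestrict R
      fun y => by
        obtain ⟨z, hz, hzy⟩ := y.2
        refine ⟨β ⟨y, Subgroup.map_subtype_le K y.2⟩, ?_, rfl⟩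
        rw [show (⟨(y : Ω), Subgroup.map_subtype_le K y.2⟩ : P) = z from Subtype.ext hzy.symm]
        simpa using hKinv 1 z hz
    haveI := finite_of_le (Subgroup.map_subtype_le K : R ≤ P)
    have he : Function.Bijective e := Finite.injective_iff_bijective.1 fun y y' h =>
      Subgroup.inclusion_injective (Subgroup.map_subtype_le K) (β.injective (Subtype.ext (Subtype.ext_iff.1 h :)))
    let β' : MulAut R := MulEquiv.ofBijective e he
    have hβ'F : β' ∈ F.autGroup R :=
      mem_autGroup_of_eq (restrict ((mem_autGroup le_rfl).1 b.2) (Subgroup.map_subtype_le K)) fun y => rfl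
    have hpow : ∀ (k : ℕ) (y : R), (((β' ^ k) y : R) : Ω) = (((β ^ k) ⟨y, Subgroup.map_subtype_le K y.2⟩ : P) : Ω) := by
      intro k
      induction k with
      | zero => simp
      | succ k ih =>
        intro y
        rw [pow_succ', MulAut.mul_apply, pow_succ', MulAut.mul_apply]
        show ((β ⟨((β' ^ k) y : R), _⟩ : P) : Ω) = _
        exact congrArg (fun z : P => ((β z : P) : Ω)) (Subtype.ext (ih y))
    have hβ'q : orderOf β' = q := by
      refine orderOf_eq_prime (MulEquiv.ext fun y => Subtype.ext ?_) fun h1 => ?_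
      · rw [hpow, ← hβord, pow_orderOf_eq_one]; rfl
      · have hfix : ∀ z ∈ K, β z = z := fun z hz => by
          have hy : ((z : P) : Ω) ∈ R := ⟨z, hz, rfl⟩
          have h2 : ((β' ⟨_, hy⟩ : R) : Ω) = z := by rw [h1]; rfl
          exact Subtype.ext h2
        have : β = 1 := MulEquiv.ext fun x => CfsgLib.PGroup.apply_eq_of_diff_fixed hS
          (by rw [hβord]; exact (Nat.coprime_primes hq Fact.out).2 hqp)
          (hfix _ (Subgroup.subset_closure ⟨x, rfl⟩))
        rw [this, orderOf_one] at hβord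
        exact hq.ne_one hβord.symm
    exact (key hS hmin (Subgroup.map_subtype_le K) β' hβ'F hq hqp hβ'q).1
  have hhyp : F.hyperfocalSubgroup p = P := by
    refine le_antisymm ((Subgroup.closure_le _).2 ?_) (hRS.ge.trans hKH)
    rintro _ ⟨U, α, x, hU, -, rfl⟩
    exact P.mul_mem (P.inv_mem (hU x.2)) (hU ((α : MulAut U) x).2)
  refine ⟨hN, le_antisymm ((Subgroup.closure_le _).2 ?_) ?_, hhyp, q, β, hq, hqp, b.2, hβord, haut⟩
  · rintro _ ⟨U, φ, x, hφ, rfl⟩
    exact P.mul_mem (P.inv_mem (le_of_hom hφ x.2)) (val_mem hφ x)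
  · refine hRS.ge.trans ?_
    rw [hR, hK, MonoidHom.map_closure, Subgroup.closure_le]
    rintro _ ⟨_, ⟨x, rfl⟩, rfl⟩
    exact Subgroup.subset_closure ⟨P, _, x, (mem_autGroup le_rfl).1 b.2, rfl⟩

end Cfsg.Agent.S5245
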