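import Cfsg.Statements.S5247
import Cfsg.Agent.Fusion.Normalizer
import Cfsg.Agent.PCore.Basic
import Mathlib.NumberTheory.Basic
-- import your own Cfsg.Agent.* helpers here

set_option autoImplicit false
open Cfsg

namespace Cfsg.Agent.S5247

open CfsgLib.Fusion Cfsg.FusionSystem

/-- Let p be an odd prime and F a saturated fusion system over a finite p-group S. Call a fusion system E (over any subgroup) p-stable when, for every fully E-normalized subgroup Q and every χ ∈ Aut_E(Q) with χ(a⁻¹)·a·χ(a⁻¹)·χ(χ(a)) = 1 for all a ∈ Q (χ acts quadratically), χ lies in O_p(Aut_E(Q)). Then F is p-stable if and only if every normalizer fusion system N_F(R) of every non-cyclic fully F-normalized subgroup R of S is p-stable. -/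
theorem result {Ω : Type*} [Group Ω] {S : Subgroup Ω} [Finite S] (p : ℕ) [Fact p.Prime] (hS : IsPGroup p S) (F : Cfsg.FusionSystem S) (hF : F.IsSaturated p) (hp : p ≠ 2) : (∀ Q : Subgroup Ω, F.IsFullyNormalized Q → ∀ χ : MulAut ↥Q, χ ∈ F.autGroup Q → (∀ a : ↥Q, (χ a⁻¹) * a * (χ a⁻¹) * (χ (χ a)) = 1) → χ ∈ ((Cfsg.pCore p ↥(F.autGroup Q)).map (F.autGroup Q).subtype : Subgroup (MulAut ↥Q))) ↔ ∀ R : Subgroup Ω, F.IsFullyNormalized R → ¬ IsCyclic ↥R → ∀ N : Cfsg.FusionSystem (Cfsg.FusionSystem.normalizerIn S R), F.IsNormalizerSystem R N → (∀ Q : Subgroup Ω, N.IsFullyNormalized Q → ∀ χ : MulAut ↥Q, χ ∈ N.autGroup Q → (∀ a : ↥Q, (χ a⁻¹) * a * (χ a⁻¹) * (χ (χ a)) = 1) → χ ∈ ((Cfsg.pCore p ↥(N.autGroup Q)).map (N.autGroup Q).subtype : Subgroup (MulAut ↥Q))) := by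
    constructor
    · intro h R hR _ N hN Q hQ χ hχ hquad
      have hNhom : ∀ P : Subgroup Ω, N.Hom P = F.normalizerHom R P := hN
      have hQN : Q ≤ normalizerIn S R := hQ.1
      have hQS : Q ≤ S := hQN.trans inf_le_left
      haveI := finite_mulAut (S := S) hQS
      have hsub : N.autGroup Q ≤ F.autGroup Q := fun γ hγ => by
        have h1 := (mem_autGroup hQN).1 hγ
        rw [hNhom] at h1
        exact (mem_autGroup hQS).2 h1.1
      obtain ⟨Q', hc, hQ'⟩ := exists_fullyNormalized (F := F) hQS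
      obtain ⟨φ, hφ, hr⟩ := hc
      haveI := finite_mulAut (S := S) hQ'.1
      set e := isoOfHom (F.injective_of_mem hφ) hr
      have hq' : ∀ a, (MulAut.congr e χ a⁻¹) * a * (MulAut.congr e χ a⁻¹) *
          (MulAut.congr e χ (MulAut.congr e χ a)) = 1 := by
        intro a
        obtain ⟨b, rfl⟩ := e.surjective a
        have := congrArg e (hquad b)
        simpa [map_mul, MulAut.congr] using this
      have hO := h Q' hQ' _ (congr_mem_autGroup hφ hr (hsub hχ)) hq'
      let f : ↥(N.autGroup Q) →* ↥(F.autGroup Q') :=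
        ((MulAut.congr e).toMonoidHom.comp (N.autGroup Q).subtype).codRestrict _
          fun γ => congr_mem_autGroup hφ hr (hsub γ.2)
      have hfi : Function.Injective f := fun a b hab =>
        Subtype.ext ((MulAut.congr e).injective (congrArg Subtype.val hab))
      obtain ⟨o, ho, hoe⟩ := hO
      refine ⟨⟨χ, hχ⟩, CfsgLib.PCore.le_pCore (N := (Cfsg.pCore p ↥(F.autGroup Q')).comap f) inferInstance
        ((CfsgLib.PCore.isPGroup_pCore p _).comap_of_injective f hfi) ?_, rfl⟩
      show f ⟨χ, hχ⟩ ∈ Cfsg.pCore p ↥(F.autGroup Q')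
      rwa [show f ⟨χ, hχ⟩ = o from Subtype.ext hoe.symm]
    · intro h Q hQ χ hχ hquad
      by_cases hcyc : IsCyclic Q
      · haveI := finite_of_le hQ.1
        haveI := finite_mulAut (S := S) hQ.1
        obtain ⟨g, hg⟩ := hcyc.exists_generator
        have hpow : ∀ γ : MulAut Q, ∃ k : ℤ, γ g = g ^ k := fun γ => by
          obtain ⟨k, hk⟩ := Subgroup.mem_zpowers_iff.1 (hg (γ g))
          exact ⟨k, hk.symm⟩
        have hext : ∀ γ δ : MulAut Q, γ g = δ g → γ = δ := fun γ δ hgd => MulEquiv.ext fun x => by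
          obtain ⟨j, rfl⟩ := Subgroup.mem_zpowers_iff.1 (hg x)
          rw [map_zpow, map_zpow, hgd]
        obtain ⟨k, hk⟩ := hpow χ
        obtain ⟨n, hn⟩ := IsPGroup.iff_orderOf.1 (hS.to_le hQ.1) g
        have hd : ((p : ℤ) ^ n) ∣ (k - 1) ^ 2 := by
          rw [← Nat.cast_pow, ← hn, orderOf_dvd_iff_zpow_eq_one]
          have := hquad g
          rw [map_inv, hk, map_zpow, hk, ← zpow_mul] at this
          rw [← this, ← zpow_neg]
          nth_rw 3 [← zpow_one g]
          rw [← zpow_add, ← zpow_add, ← zpow_add]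
          congr 1
          ring
        have hpk : n = 0 ∨ (p : ℤ) ∣ k - 1 := by
          rcases n with _ | n
          · exact Or.inl rfl
          · exact Or.inr (Int.Prime.dvd_pow' (Fact.out : p.Prime) ((dvd_pow_self (p : ℤ) n.succ_ne_zero).trans hd))
        have hχp : χ ^ p ^ n = 1 := by
          refine hext _ _ ?_
          have hit : ∀ j : ℕ, (χ ^ j) g = g ^ (k ^ j) := by
            intro j
            induction j with
            | zero => simp
            | succ j ih => rw [pow_succ', MulAut.mul_apply, ih, map_zpow, hk, ← zpow_mul, pow_succ']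
          rw [hit, MulAut.one_apply]
          rcases hpk with rfl | hp1
          · rw [pow_zero, orderOf_eq_one_iff] at hn
            simp [hn]
          · have h2 := dvd_sub_pow_of_dvd_sub (R := ℤ) (p := p) (a := k) (b := 1) hp1 n
            rw [one_pow] at h2
            nth_rw 2 [← zpow_one g]
            rw [zpow_eq_zpow_iff_modEq, hn, Nat.cast_pow, Int.modEq_comm, Int.modEq_iff_dvd]
            exact (pow_dvd_pow (p : ℤ) (Nat.le_succ n)).trans h2
        have hcomm : ∀ γ δ : MulAut Q, Commute γ δ := fun γ δ => hext _ _ (by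
          obtain ⟨a, ha⟩ := hpow γ
          obtain ⟨b, hb⟩ := hpow δ
          rw [MulAut.mul_apply, MulAut.mul_apply, hb, map_zpow, ha, map_zpow, hb, ← zpow_mul, ← zpow_mul, mul_comm])
        refine ⟨⟨χ, hχ⟩, CfsgLib.PCore.le_pCore (N := Subgroup.zpowers (⟨χ, hχ⟩ : F.autGroup Q)) ?_ ?_
          (Subgroup.mem_zpowers _), rfl⟩
        · refine ⟨fun a ha b => ?_⟩
          rwa [show b * a * b⁻¹ = a by rw [mul_inv_eq_iff_eq_mul]; exact Subtype.ext (hcomm b a)]
        · refine IsPGroup.iff_orderOf.2 fun x => ?_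
          obtain ⟨j, -, hj⟩ := (Nat.dvd_prime_pow (Fact.out : p.Prime)).1 ((orderOf_dvd_natCard x).trans
            ((dvd_of_eq (Nat.card_zpowers (⟨χ, hχ⟩ : F.autGroup Q))).trans (orderOf_dvd_of_pow_eq_one (n := p ^ n)
              (Subtype.ext hχp : (⟨χ, hχ⟩ : F.autGroup Q) ^ p ^ n = 1))))
          exact ⟨j, hj⟩
      · set N := normalizerSystem F hQ.1
        have hQN : Q ≤ normalizerIn S Q := le_inf hQ.1 Subgroup.le_normalizer
        have haut : N.autGroup Q = F.autGroup Q := by
          ext γ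
          rw [mem_autGroup hQN, mem_autGroup hQ.1]
          refine ⟨fun h1 => h1.1, fun h1 => ⟨h1, hQN, fun x => hQN (γ x).2,
            (Q.subtype.comp γ.toMonoidHom).comp (Subgroup.inclusion (sup_idem Q).le),
            restrict h1 (sup_idem Q).le, fun x => rfl, ?_⟩⟩
          ext y
          constructor
          · rintro ⟨x, -, rfl⟩
            exact (γ _).2
          · intro hy
            refine ⟨⟨γ⁻¹ ⟨y, hy⟩, Subgroup.mem_sup_left (Subtype.prop _)⟩, Subtype.prop _, ?_⟩
            show ((γ (γ⁻¹ ⟨y, hy⟩) : Q) : Ω) = y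
            rw [MulAut.apply_inv_self]
        have hfn : N.IsFullyNormalized Q := ⟨hQN, fun Q' hQ' => by
          have hle : normalizerIn (normalizerIn S Q) Q = normalizerIn S Q :=
            inf_eq_left.2 inf_le_right
          rw [hle]
          haveI : Finite ↥(normalizerIn S Q) := Finite.of_injective _ (Subgroup.inclusion_injective (inf_le_left : normalizerIn S Q ≤ S))
          exact Subgroup.card_le_of_le inf_le_left⟩
        have := h Q hQ hcyc N (isNormalizerSystem_normalizerSystem F hQ.1) Q hfn χ (haut ▸ hχ) hquad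
        rwa [haut] at this

end Cfsg.Agent.S5247
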