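import Cfsg.Statements.S5252
import Cfsg.Agent.S5197
import Cfsg.Agent.S1984
import Cfsg.Agent.ConjFunctor.KInfFusion
import Cfsg.Agent.ConjFunctor.TransferTransport
import Mathlib.Tactic

set_option autoImplicit false
open Cfsg
open scoped commutatorElement

namespace Cfsg.Agent.S5252

/-- Let p ≥ 5 be a prime and F a saturated fusion system over a nontrivial finite p-group S such that Aut_F(S) is a p-group. Then the focal subgroup of F is a proper subgroup of S. -/
theorem result {Ω : Type*} [Group Ω] {S : Subgroup Ω} [Finite S] (p : ℕ) [Fact p.Prime] (hS : IsPGroup p S) (F : Cfsg.FusionSystem S) (hF : F.IsSaturated p) (hp : 5 ≤ p) (hS1 : S ≠ ⊥) (haut : IsPGroup p ↥(F.autGroup S)) : F.focalSubgroup < S := by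
  have hle := CfsgLib.KInfFusion.kSub_le (S := S)
  have hN := CfsgLib.Fusion.isNormalizerSystem_normalizerSystem F hle
  have hT : ∀ (G : Type _) [Group G] [Finite G] (P : Sylow p G),
      Subgroup.centralizer ((Cfsg.pCore p G : Subgroup G) : Set G) ≤ Cfsg.pCore p G →
      Cfsg.pCore p G ⊓ commutator G = Cfsg.pCore p G ⊓
        (commutator ↥(Subgroup.normalizer (((Cfsg.kInfLower ↥(P : Subgroup G)).map (P : Subgroup G).subtype : Subgroup G) : Set G))).map
          (Subgroup.normalizer (((Cfsg.kInfLower ↥(P : Subgroup G)).map (P : Subgroup G).subtype : Subgroup G) : Set G)).subtype := by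
    intro G _ _ P _
    have h := CfsgLib.ConjFunctor.transfer_transport
      (CfsgLib.ConjFunctor.TransferSection.isConjugacyFunctor_induced CfsgLib.KInf.isCharPFunctor_kInfLower)
      (Cfsg.Agent.S1984.result (G := G) hp) le_top P.isPGroup'
      (by rw [Subgroup.relIndex_top_right]; exact P.not_dvd_index)
    rw [Subgroup.map_subtype_commutator]
    rw [top_inf_eq, ← commutator_def] at h
    calc Cfsg.pCore p G ⊓ commutator G = Cfsg.pCore p G ⊓ ((P : Subgroup G) ⊓ commutator G) := by
          rw [← inf_assoc, inf_eq_left.2 (CfsgLib.PCore.pCore_le_sylow P)]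
      _ = _ := by rw [h, ← inf_assoc, inf_eq_left.2 (CfsgLib.PCore.pCore_le_sylow P)]; rfl
  have heq := Cfsg.Agent.S5197.result (p := p) Cfsg.kInfLower CfsgLib.KInf.isCharPFunctor_kInfLower.1
    CfsgLib.KInf.isCharPFunctor_kInfLower.2 hT hS F hF _ hN
  rw [← heq]
  exact CfsgLib.KInfFusion.focal_lt hp hS hS1 F hF haut _ hN

end Cfsg.Agent.S5252
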