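import Cfsg.Statements.S5254
import Cfsg.Agent.Fusion.EssentialAbelianIndexP

set_option autoImplicit false
open Cfsg

namespace Cfsg.Agent.S5254

/-- Let p be an odd prime, S a finite nonabelian p-group with a unique abelian subgroup A of index p, and F a saturated fusion system over S. Then every F-essential subgroup P is A, or Z(S)⟨x⟩ for some x ∈ S outside A, or (when the second centre Z₂(S) lies in A) Z₂(S)⟨x⟩ for some x ∈ S outside A; and P has index p in its normalizer in S. -/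
theorem result {Ω : Type*} [Group Ω] {S : Subgroup Ω} [Finite S] (p : ℕ) [Fact p.Prime] (hS : IsPGroup p S) (F : Cfsg.FusionSystem S) (hF : F.IsSaturated p) (hp : p ≠ 2) (hna : ¬ IsMulCommutative ↥S) (A : Subgroup Ω) (hA : A ≤ S ∧ IsMulCommutative ↥A ∧ (A.subgroupOf S).index = p) (huniq : ∀ B : Subgroup Ω, B ≤ S → IsMulCommutative ↥B → (B.subgroupOf S).index = p → B = A) (P : Subgroup Ω) (hP : F.IsEssential p P) : (P = A ∨ (∃ x ∈ S, x ∉ A ∧ P = (S ⊓ Subgroup.centralizer (S : Set Ω)) ⊔ Subgroup.zpowers x) ∨ (((upperCentralSeries ↥S 2).map S.subtype) ≤ A ∧ ∃ x ∈ S, x ∉ A ∧ P = ((upperCentralSeries ↥S 2).map S.subtype) ⊔ Subgroup.zpowers x)) ∧ (P.subgroupOf (S ⊓ Subgroup.normalizer (P : Set Ω))).index = p := by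
  have h : CfsgLib.Fusion.AIP S A p :=
    ⟨hA.1, fun a ha b hb => congrArg Subtype.val (hA.2.1.is_comm.comm ⟨a, ha⟩ ⟨b, hb⟩), hA.2.2,
      fun hc => hna ⟨⟨fun a b => Subtype.ext (hc a a.2 b b.2)⟩⟩,
      fun B hB hc hi => huniq B hB ⟨⟨fun a b => Subtype.ext (hc a a.2 b b.2)⟩⟩ hi⟩
  have hidx : Nat.card ↥(FusionSystem.normalizerIn S P) = p * Nat.card P →
      (P.subgroupOf (S ⊓ Subgroup.normalizer (P : Set Ω))).index = p := fun hN => by
    haveI := CfsgLib.Fusion.finite_of_le (S := S) hP.1.1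
    have h1 := (P.subgroupOf (FusionSystem.normalizerIn S P)).card_mul_index
    rw [Nat.card_congr (Subgroup.subgroupOfEquivOfLe
      (show P ≤ FusionSystem.normalizerIn S P from le_inf hP.1.1 Subgroup.le_normalizer)).toEquiv, hN, mul_comm p] at h1
    exact Nat.eq_of_mul_eq_mul_left Nat.card_pos h1
  by_cases hPA : P = A
  · refine ⟨Or.inl hPA, ?_⟩
    subst hPA
    have hN : FusionSystem.normalizerIn S P = S := le_antisymm inf_le_left (le_inf le_rfl fun s hs =>
      CfsgLib.Fusion.mem_normalizer_of_map_le (S := S) h.le fun y hy => h.conj_mem hS hs hy)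
    show (P.subgroupOf (FusionSystem.normalizerIn S P)).index = p
    rw [hN]
    exact hA.2.2
  · obtain ⟨hz, -, hN, x, hx, hxA, hor⟩ := h.essential_structure hS hF hP hPA
    refine ⟨?_, hidx hN⟩
    rcases hor with ⟨-, e, -, -⟩ | ⟨-, e, -⟩
    · exact Or.inr (Or.inl ⟨x, hP.1.1 hx, hxA, e⟩)
    · exact Or.inr (Or.inr ⟨hz, x, hP.1.1 hx, hxA, e⟩)

end Cfsg.Agent.S5254
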