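import Cfsg.Statements.S5255
import Cfsg.Agent.Fusion.FactorSat
-- import your own Cfsg.Agent.* helpers here

set_option autoImplicit false
open Cfsg

namespace Cfsg.Agent.S5255

open CfsgLib.Fusion Cfsg.FusionSystem

/-- Let F be a saturated fusion system over a finite p-group S and T a subgroup of S strongly closed in F. Then T·C_S(T) is strongly closed in F. -/
theorem result {Ω : Type*} [Group Ω] {S : Subgroup Ω} [Finite S] (p : ℕ) [Fact p.Prime] (hS : IsPGroup p S) (F : Cfsg.FusionSystem S) (hF : F.IsSaturated p) (T : Subgroup Ω) (hT : F.StronglyClosed T) : F.StronglyClosed (T ⊔ Cfsg.FusionSystem.centralizerIn S T) := by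
    set C := centralizerIn S T
    refine ⟨sup_le hT.1 inf_le_left, fun R hR φ hφ x => ?_⟩
    obtain ⟨D, ψ, hψ, hRD, hTD, hn⟩ := nearMap_of_mem hS hF hT (Nat.card S + 1) R φ hφ (by omega)
    have hN : C ≤ Subgroup.normalizer (T : Set Ω) :=
      (centralizerIn_le_normalizerIn S T).trans inf_le_right
    have hx : (x : Ω) ∈ ((T ⊔ C : Subgroup Ω) : Set Ω) := hR x.2
    rw [Subgroup.coe_mul_of_right_le_normalizer_left T C hN] at hx
    obtain ⟨t, ht, c, hc, e⟩ := hx
    have hcD : c ∈ D := by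
      rw [show c = t⁻¹ * (x : Ω) by rw [← e, inv_mul_cancel_left]]
      exact D.mul_mem (D.inv_mem (hTD ht)) (hRD x.2)
    have hψT := stronglyClosed_mapsTo hT hψ
    have hsurj : ∀ t' ∈ T, ∃ y : T, ψ ⟨y, hTD y.2⟩ = t' := by
      haveI := finite_of_le hT.1
      let f : T → T := fun y => ⟨ψ ⟨y, hTD y.2⟩, hψT _ y.2⟩
      have hf : Function.Injective f := fun a b h => Subtype.ext
        (congrArg Subtype.val (F.injective_of_mem hψ (congrArg Subtype.val h)) :)
      intro t' ht'
      obtain ⟨y, hy⟩ := (Finite.injective_iff_surjective.1 hf) ⟨t', ht'⟩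
      exact ⟨y, congrArg Subtype.val hy⟩
    have hψc : ψ ⟨c, hcD⟩ ∈ C := by
      refine ⟨val_mem hψ _, Subgroup.mem_centralizer_iff.2 fun t' ht' => ?_⟩
      obtain ⟨y, rfl⟩ := hsurj t' ht'
      rw [← map_mul, ← map_mul]
      exact congrArg ψ (Subtype.ext (Subgroup.mem_centralizer_iff.1 hc.2 _ y.2))
    have h1 : ψ (Subgroup.inclusion hRD x) ∈ T ⊔ C := by
      rw [show Subgroup.inclusion hRD x = (⟨t, hTD ht⟩ : D) * ⟨c, hcD⟩ from Subtype.ext e.symm, map_mul]
      exact Subgroup.mul_mem_sup (hψT _ ht) hψc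
    have h2 := Subgroup.mul_mem _ h1 (Subgroup.inv_mem _ (Subgroup.mem_sup_left (T := C) (hn x)))
    rwa [mul_inv_rev, inv_inv, mul_inv_cancel_left] at h2

end Cfsg.Agent.S5255
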