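import Cfsg.Statements.S5256
import Cfsg.Agent.Fusion.FactorSat
import Cfsg.Agent.Transfer.Residual
-- import your own Cfsg.Agent.* helpers here

set_option autoImplicit false
open Cfsg

namespace Cfsg.Agent.S5256

open CfsgLib.Fusion Cfsg.FusionSystem

/-- Let F be a saturated fusion system over a finite p-group S, T a subgroup of S strongly closed in F, and E a factor system F/T realised along a homomorphism θ of S with kernel T. Then the hyperfocal subgroup of E is the image under θ of the hyperfocal subgroup of F (hyp(F/T) = T·hyp(F)/T). -/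
theorem result {Ω : Type*} [Group Ω] {S : Subgroup Ω} [Finite S] (p : ℕ) [Fact p.Prime] (hS : IsPGroup p S) (F : Cfsg.FusionSystem S) (hF : F.IsSaturated p) (T : Subgroup Ω) (hT : F.StronglyClosed T) {Ω' : Type*} [Group Ω'] {S' : Subgroup Ω'} (θ : ↥S →* Ω') (E : Cfsg.FusionSystem S') (hE : F.IsFactorSystem T θ E) : E.hyperfocalSubgroup p = ((F.hyperfocalSubgroup p).subgroupOf S).map θ := by
    obtain ⟨⟨-, hmor⟩, hrange, -⟩ := isSurjectiveMorphism_factor hS hF hT hE
    obtain ⟨-, hker, -, hEhom⟩ := hE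
    have hfin : ∀ P : Subgroup Ω, Finite ↥(imageAlong θ P) := fun P =>
      Finite.of_surjective (fun x : ↥(P.subgroupOf S) => (⟨θ x, x, x.2, rfl⟩ : ↥(imageAlong θ P)))
        fun ⟨_, x, hx, rfl⟩ => ⟨⟨x, hx⟩, rfl⟩
    -- the map between automizers
    have hrel : ∀ (P : Subgroup Ω) (hP : P ≤ S) (P' : Subgroup Ω'), imageAlong θ P = P' →
        ∃ h : F.autGroup P →* E.autGroup P', ∀ (α : F.autGroup P) (x : P) (hx : θ ⟨x, hP x.2⟩ ∈ P'),
          ((((h α : E.autGroup P') : MulAut P') ⟨θ ⟨x, hP x.2⟩, hx⟩ : P') : Ω') =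
            θ ⟨((α : MulAut P) x : P), hP (Subtype.prop _)⟩ := by
      rintro P hP _ rfl
      have hP' : imageAlong θ P ≤ S' := hrange ▸ imageAlong_le_range P
      have hex : ∀ α : F.autGroup P, ∃ α' : E.autGroup (imageAlong θ P), ∀ (x : P) (hx),
          (((α' : MulAut ↥(imageAlong θ P)) ⟨θ ⟨x, hP x.2⟩, hx⟩ : ↥(imageAlong θ P)) : Ω') =
            θ ⟨((α : MulAut P) x : P), hP (Subtype.prop _)⟩ := by
        intro α
        obtain ⟨φ', hφ', _, _, hmem, hag⟩ := hmor P _ ((mem_autGroup hP).1 α.2)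
        have hr : φ'.range = imageAlong θ P := by
          haveI := hfin P
          refine Subgroup.eq_of_le_of_card_ge ?_
            (le_of_eq (Nat.card_congr (MonoidHom.ofInjective (E.injective_of_mem hφ')).toEquiv))
          rintro _ ⟨⟨_, y, hy, rfl⟩, rfl⟩
          exact ⟨⟨((α : MulAut P) ⟨y, hy⟩ : P), hP (Subtype.prop _)⟩, Subtype.prop ((α : MulAut P) ⟨y, hy⟩),
            (hag ⟨y, hy⟩).symm⟩
        exact ⟨⟨_, mem_autGroup_of_eq hφ' (α := isoOfHom (E.injective_of_mem hφ') hr) fun _ => rfl⟩,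
          fun x _ => hag x⟩
      choose g hg using hex
      refine ⟨MonoidHom.mk' g fun a b => ?_, hg⟩
      apply Subtype.ext
      refine MulEquiv.ext fun z => ?_
      obtain ⟨_, y, hy, rfl⟩ := z
      apply Subtype.ext
      refine (hg (a * b) ⟨y, hy⟩ ⟨y, hy, rfl⟩).trans ?_
      have hmem : θ ⟨((b : MulAut P) ⟨y, hy⟩ : P), hP (Subtype.prop _)⟩ ∈ imageAlong θ P :=
        ⟨⟨_, hP (Subtype.prop _)⟩, Subtype.prop ((b : MulAut P) ⟨y, hy⟩), rfl⟩
      have e : (g b : MulAut ↥(imageAlong θ P)) ⟨θ y, ⟨y, hy, rfl⟩⟩ =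
          ⟨θ ⟨((b : MulAut P) ⟨y, hy⟩ : P), hP (Subtype.prop _)⟩, hmem⟩ := Subtype.ext (hg b ⟨y, hy⟩ _)
      show _ = (((g a : MulAut ↥(imageAlong θ P)) ((g b : MulAut ↥(imageAlong θ P)) ⟨θ y, ⟨y, hy, rfl⟩⟩)) : Ω')
      rw [e, hg a ((b : MulAut P) ⟨y, hy⟩) hmem]
      rfl
    refine le_antisymm ((Subgroup.closure_le _).2 ?_) ?_
    · rintro _ ⟨P', α', x', hP', hα', rfl⟩
      set P := preimageAlong θ P'
      have hP : P ≤ S := preimageAlong_le P'
      haveI := finite_mulAut (S := S) hP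
      obtain ⟨h, hh⟩ := hrel P hP P' (imageAlong_preimageAlong (hrange ▸ hP'))
      haveI : Finite P' := by
        have := hfin P
        rwa [imageAlong_preimageAlong (hrange ▸ hP')] at this
      haveI : Finite (MulAut P') := Finite.of_injective (fun α : MulAut P' => (α : P' → P')) DFunLike.coe_injective
      have hsurj : Function.Surjective h := by
        rintro ⟨β, hβ⟩
        obtain ⟨-, φ, hφ, _, _, hm', hag⟩ := (hEhom _ _).1 ((mem_autGroup hP').1 hβ)
        have hr : φ.range ≤ P := by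
          rintro _ ⟨x, rfl⟩
          refine mem_preimageAlong.2 ⟨val_mem hφ x, ?_⟩
          rw [← hag x]
          exact Subtype.prop (β _)
        haveI := finite_of_le hP
        have hr' : φ.range = P := Subgroup.eq_of_le_of_card_ge hr
          (le_of_eq (Nat.card_congr (MonoidHom.ofInjective (F.injective_of_mem hφ)).toEquiv))
        refine ⟨⟨_, mem_autGroup_of_eq hφ (α := isoOfHom (F.injective_of_mem hφ) hr') fun _ => rfl⟩, ?_⟩
        apply Subtype.ext
        refine MulEquiv.ext fun z => ?_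
        obtain ⟨d, hd⟩ := exists_section (hrange ▸ hP') z
        obtain ⟨z, hz⟩ := z
        dsimp only at hd
        subst hd
        exact Subtype.ext ((hh _ d hz).trans (hag d).symm)
      obtain ⟨α, hα, rfl⟩ := (CfsgLib.Transfer.map_pResidual_eq (p := p) h hsurj).ge hα'
      obtain ⟨d, hd⟩ := exists_section (hrange ▸ hP') x'
      obtain ⟨x', hx'⟩ := x'
      dsimp only at hd
      subst hd
      refine ⟨⟨(d : Ω)⁻¹ * ((α : MulAut P) d : P), S.mul_mem (S.inv_mem (hP d.2)) (hP (Subtype.prop _))⟩, ?_, ?_⟩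
      · exact Subgroup.subset_closure ⟨P, α, d, hP, hα, rfl⟩
      · show θ (⟨(d : Ω), hP d.2⟩⁻¹ * ⟨((α : MulAut P) d : P), hP (Subtype.prop _)⟩) = _
        rw [map_mul, map_inv, hh α d hx']
    · rw [Subgroup.map_le_iff_le_comap]
      intro s hs
      have hle : F.hyperfocalSubgroup p ≤ ((E.hyperfocalSubgroup p).comap θ).map S.subtype := by
        refine (Subgroup.closure_le _).2 ?_
        rintro _ ⟨P, α, x, hP, hα, rfl⟩
        obtain ⟨h, hh⟩ := hrel P hP _ rfl
        refine ⟨⟨(x : Ω), hP x.2⟩⁻¹ * ⟨((α : MulAut P) x : P), hP (Subtype.prop _)⟩, ?_, rfl⟩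
        refine Subgroup.mem_comap.2 (Subgroup.subset_closure ⟨imageAlong θ P, h α,
          ⟨θ ⟨x, hP x.2⟩, ⟨x, hP x.2⟩, x.2, rfl⟩, hrange ▸ imageAlong_le_range P,
          CfsgLib.Transfer.map_pResidual_le h ⟨α, hα, rfl⟩, ?_⟩)
        rw [map_mul, map_inv]
        exact congrArg ((θ ⟨x, hP x.2⟩)⁻¹ * ·) (hh α x _).symm
      obtain ⟨t, ht, e⟩ := hle hs
      rwa [← (Subtype.ext e : t = s)]

end Cfsg.Agent.S5256
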