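import Cfsg.Statements.S5257
import Cfsg.Agent.Fusion.AbelianIndexPSeries

set_option autoImplicit false
open Cfsg

namespace Cfsg.Agent.S5257

/-- Let p be an odd prime, S a finite nonabelian p-group with a unique abelian subgroup A of index p, and F a saturated fusion system over S having an F-essential subgroup other than A. Then the second centre Z₂(S) lies in A; Z(S) ∩ [S, S] has order p; Z(S)[S, S] has index p in A; Z(S) has index p in Z₂(S); and S/Z(S) has maximal nilpotency class (if S/Z(S) has order pᵐ with m ≥ 3 then the term of index m − 2 of the lower central series of S, counting S as index 0, is not contained in Z(S)). -/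
theorem result {Ω : Type*} [Group Ω] {S : Subgroup Ω} [Finite S] (p : ℕ) [Fact p.Prime] (hS : IsPGroup p S) (F : Cfsg.FusionSystem S) (hF : F.IsSaturated p) (hp : p ≠ 2) (hna : ¬ IsMulCommutative ↥S) (A : Subgroup Ω) (hA : A ≤ S ∧ IsMulCommutative ↥A ∧ (A.subgroupOf S).index = p) (huniq : ∀ B : Subgroup Ω, B ≤ S → IsMulCommutative ↥B → (B.subgroupOf S).index = p → B = A) (P : Subgroup Ω) (hP : F.IsEssential p P) (hPA : P ≠ A) : ((upperCentralSeries ↥S 2).map S.subtype) ≤ A ∧ Nat.card ↥((S ⊓ Subgroup.centralizer (S : Set Ω)) ⊓ ((commutator ↥S).map S.subtype)) = p ∧ (((S ⊓ Subgroup.centralizer (S : Set Ω)) ⊔ ((commutator ↥S).map S.subtype)).subgroupOf A).index = p ∧ (((S ⊓ Subgroup.centralizer (S : Set Ω))).subgroupOf ((upperCentralSeries ↥S 2).map S.subtype)).index = p ∧ ∀ m : ℕ, ((S ⊓ Subgroup.centralizer (S : Set Ω)).subgroupOf S).index = p ^ m → 3 ≤ m → ¬ Subgroup.lowerCentralSeries S (m - 2) ≤ (S ⊓ Subgroup.centralizer (S : Set Ω)) := by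
  have h : CfsgLib.Fusion.AIP S A p :=
    ⟨hA.1, fun a ha b hb => congrArg Subtype.val (hA.2.1.is_comm.comm ⟨a, ha⟩ ⟨b, hb⟩), hA.2.2,
      fun hc => hna ⟨⟨fun a b => Subtype.ext (hc a a.2 b b.2)⟩⟩,
      fun B hB hc hi => huniq B hB ⟨⟨fun a b => Subtype.ext (hc a a.2 b b.2)⟩⟩ hi⟩
  obtain ⟨hz, hc, -, x, hx', hxA, -⟩ := h.essential_structure hS hF hP hPA
  have hx := hP.1.1 hx'
  have hcom : (commutator ↥S).map S.subtype = (h.kappa hS hx).range := by
    rw [Subgroup.map_subtype_commutator, h.commutator_eq_range hS hx hxA]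
  have hsupA : (S ⊓ Subgroup.centralizer (S : Set Ω)) ⊔ (h.kappa hS hx).range ≤ A :=
    sup_le (h.center_le hS) (by rintro _ ⟨a, rfl⟩; exact h.kappa_mem hS hx a)
  haveI : Finite ↥((S ⊓ Subgroup.centralizer (S : Set Ω)) ⊔ (h.kappa hS hx).range) :=
    CfsgLib.Fusion.finite_of_le (S := S) (hsupA.trans hA.1)
  refine ⟨hz, ?_, ?_, ?_, fun m hm h3 => h.not_lcs_le_center hS hx hxA hz hc hm h3⟩
  · rw [hcom]; exact h.card_center_inf hS hx hxA hz hc
  · rw [hcom]
    have h1 := (((S ⊓ Subgroup.centralizer (S : Set Ω)) ⊔ (h.kappa hS hx).range).subgroupOf A).card_mul_index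
    rw [Nat.card_congr (Subgroup.subgroupOfEquivOfLe hsupA).toEquiv] at h1
    have h2 : Nat.card A = p * Nat.card ↥((S ⊓ Subgroup.centralizer (S : Set Ω)) ⊔ (h.kappa hS hx).range) :=
      h.card_sup_range hS hx hxA hz hc
    rw [h2, mul_comm p] at h1
    exact Nat.eq_of_mul_eq_mul_left Nat.card_pos h1
  · haveI : Finite ↥(S ⊓ Subgroup.centralizer (S : Set Ω)) := CfsgLib.Fusion.finite_of_le (S := S) inf_le_left
    have hle : (S ⊓ Subgroup.centralizer (S : Set Ω)) ≤ (Subgroup.upperCentralSeries ↥S 2).map S.subtype :=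
      h.center_le_zTwo
    have h1 := ((S ⊓ Subgroup.centralizer (S : Set Ω)).subgroupOf ((Subgroup.upperCentralSeries ↥S 2).map S.subtype)).card_mul_index
    have h2 : Nat.card ↥((Subgroup.upperCentralSeries ↥S 2).map S.subtype) =
        p * Nat.card ↥(S ⊓ Subgroup.centralizer (S : Set Ω)) := hc
    rw [Nat.card_congr (Subgroup.subgroupOfEquivOfLe hle).toEquiv, h2, mul_comm p] at h1
    exact Nat.eq_of_mul_eq_mul_left Nat.card_pos h1

end Cfsg.Agent.S5257
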