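import Cfsg.Statements.S5271
import Cfsg.Agent.Fusion.WeaklyEmbedded

set_option autoImplicit false
open Cfsg

namespace Cfsg.Agent.S5271

/-- A nilpotency criterion for fusion systems. Let F be a saturated fusion system over a finite p-group S of order at least p². Call a subgroup Q of S weakly embedded in F when there is a subgroup P of S strongly closed in F such that both the product QP and the intersection Q ∩ P are strongly closed in F. Then F is the inner fusion system of S if and only if there is a subgroup D of S with 1 < D < S such that every subgroup of S of the same order as D is weakly embedded in F and, for every fully normalized subgroup H of S of that order, the normalizer fusion system of H in F is the inner fusion system of N_S(H). -/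
theorem result {Ω : Type*} [Group Ω] {S : Subgroup Ω} [Finite S] (p : ℕ) [Fact p.Prime] (hS : IsPGroup p ↥S) (F : Cfsg.FusionSystem S) (hF : F.IsSaturated p) (hcard : p ^ 2 ≤ Nat.card S) : (∀ P : Subgroup Ω, F.Hom P = (Cfsg.innerFusionSystem S).Hom P) ↔ ∃ D : Subgroup Ω, ⊥ < D ∧ D < S ∧ (∀ Q : Subgroup Ω, Q ≤ S → Nat.card ↥Q = Nat.card ↥D → ∃ P : Subgroup Ω, F.StronglyClosed P ∧ F.StronglyClosed (Q ⊔ P) ∧ F.StronglyClosed (Q ⊓ P)) ∧ (∀ H : Subgroup Ω, F.IsFullyNormalized H → Nat.card ↥H = Nat.card ↥D → ∀ N : Cfsg.FusionSystem (Cfsg.FusionSystem.normalizerIn S H), F.IsNormalizerSystem H N → ∀ P : Subgroup Ω, N.Hom P = (Cfsg.innerFusionSystem (Cfsg.FusionSystem.normalizerIn S H)).Hom P) := by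
  open CfsgLib.Fusion Cfsg.FusionSystem in
  classical
  have hp : 1 < p := (Fact.out : p.Prime).one_lt
  constructor
  · intro hin
    have hinF : F = Cfsg.innerFusionSystem S := ext_hom hin
    obtain ⟨z, hz, hzp⟩ := WeakEmb.exists_orderOf_eq_p hS (le_refl S) (fun h => by
      have h1 : Nat.card S = 1 := by subst h; exact Subgroup.card_bot
      have := Nat.one_lt_pow (show 2 ≠ 0 by omega) hp
      omega)
    have hDc : Nat.card (Subgroup.zpowers z) = p := (Nat.card_zpowers z).trans hzp
    have hDS : Subgroup.zpowers z < S := lt_of_le_of_ne (Subgroup.zpowers_le.2 hz) (fun h => by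
      have h1 : Nat.card S = p := by rw [← h]; exact hDc
      rw [h1, pow_two] at hcard
      nlinarith)
    refine ⟨Subgroup.zpowers z, bot_lt_iff_ne_bot.2 fun h => ?_, hDS, fun Q hQ hQc => ?_,
      fun H hH hHc N hN P => ?_⟩
    · rw [h, Subgroup.card_bot] at hDc
      omega
    · haveI := finite_of_le hQ
      have hQp : (Nat.card Q).Prime := by rw [hQc, hDc]; exact Fact.out
      haveI : Fact (Nat.card Q).Prime := ⟨hQp⟩
      have hQne : Q ≠ ⊥ := fun h => by
        have h1 : Nat.card Q = 1 := by rw [h]; exact Subgroup.card_bot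
        exact hQp.ne_one h1
      have scN : ∀ Y : Subgroup Ω, Y ≤ S → S ≤ Subgroup.normalizer (Y : Set Ω) → F.StronglyClosed Y := by
        intro Y hY hn
        refine ⟨hY, fun R hR φ hφ x => ?_⟩
        rw [hinF] at hφ
        obtain ⟨-, g, hg, hgx⟩ := hφ
        rw [hgx]
        exact conj_mem_of_normalizer (hn hg) (hR x.2)
      have hnbot : S ≤ Subgroup.normalizer ((⊥ : Subgroup Ω) : Set Ω) :=
        WeakEmb.normalizes_of_conj fun g _ y hy => by
          rw [Subgroup.mem_bot.1 hy, mul_one, mul_inv_cancel]; exact one_mem _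
      obtain ⟨P, ⟨hPS, hPn, hQP⟩, hmax⟩ :=
        ((WeakEmb.finite_below (le_refl S)).subset (s := {Y | Y ≤ S})
          (t := {Y | Y ≤ S ∧ S ≤ Subgroup.normalizer (Y : Set Ω) ∧ ¬ Q ≤ Y}) fun Y hY => hY.1).exists_maximalFor id _
          ⟨⊥, bot_le, hnbot, fun h => hQne (le_bot_iff.1 h)⟩
      haveI hPnn : (P.subgroupOf S).Normal := (Subgroup.normal_subgroupOf_iff_le_normalizer hPS).2 hPn
      haveI : Nontrivial (S ⧸ P.subgroupOf S) := by
        refine QuotientGroup.nontrivial_iff.2 fun h => hQP ?_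
        exact hQ.trans (Subgroup.subgroupOf_eq_top.1 h)
      haveI hcn := (hS.to_quotient (P.subgroupOf S)).center_nontrivial
      obtain ⟨k, hk⟩ := WeakEmb.exists_card_pow hS hPS
      obtain ⟨⟨c, hcc⟩, hc⟩ := exists_prime_orderOf_dvd_card' (G := Subgroup.center (S ⧸ P.subgroupOf S)) p (by
        obtain ⟨a, ha⟩ := IsPGroup.iff_card.1 ((hS.to_quotient (P.subgroupOf S)).to_subgroup
          (Subgroup.center (S ⧸ P.subgroupOf S)))
        rw [ha]
        refine dvd_pow_self p fun h0 => ?_
        have : 1 < Nat.card (Subgroup.center (S ⧸ P.subgroupOf S)) := Finite.one_lt_card_iff_nontrivial.2 hcn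
        rw [ha, h0, pow_zero] at this
        omega)
      set π := QuotientGroup.mk' (P.subgroupOf S) with hπ
      set Zc := Subgroup.zpowers c with hZc
      haveI : Zc.Normal := ⟨fun a ha g => by
        obtain ⟨i, rfl⟩ := Subgroup.mem_zpowers_iff.1 ha
        rw [Subgroup.mem_center_iff.1 (zpow_mem hcc i) g, mul_inv_cancel_right]
        exact ha⟩
      set M := preimageAlong π Zc with hM
      have hker : ∀ s : S, π s = 1 ↔ (s : Ω) ∈ P := fun s => QuotientGroup.eq_one_iff s
      have hPM : P ≤ M := ker_le_preimageAlong hPS hker Zc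
      have hMn : S ≤ Subgroup.normalizer (M : Set Ω) := WeakEmb.normalizes_of_conj fun g hg y hy => by
        obtain ⟨hyS, hyZ⟩ := mem_preimageAlong.1 hy
        refine mem_preimageAlong.2 ⟨S.mul_mem (S.mul_mem hg hyS) (S.inv_mem hg), ?_⟩
        have := Subgroup.Normal.conj_mem ‹Zc.Normal› _ hyZ (π ⟨g, hg⟩)
        rw [← map_inv, ← map_mul, ← map_mul] at this
        exact this
      have hMc : Nat.card M = p * Nat.card P := by
        rw [hM, preimageAlong, Subgroup.card_map_of_injective S.subtype_injective]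
        have h1 := Subgroup.card_mul_index (Zc.comap π)
        rw [Subgroup.index_comap_of_surjective _ (QuotientGroup.mk'_surjective _)] at h1
        have h2 := Subgroup.card_mul_index Zc
        have h3 := Subgroup.card_eq_card_quotient_mul_card_subgroup (P.subgroupOf S)
        rw [Nat.card_congr (Subgroup.subgroupOfEquivOfLe hPS).toEquiv, ← h2, hZc, Nat.card_zpowers,
          (Subgroup.orderOf_coe _).trans hc] at h3
        refine Nat.eq_of_mul_eq_mul_right (Nat.pos_of_ne_zero (Subgroup.index_ne_zero_of_finite (H := Zc))) ?_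
        rw [h1, h3]; ring
      have hQM : Q ≤ M := by
        by_contra h
        haveI := finite_of_le hPS
        have := hmax (j := M) ⟨preimageAlong_le _, hMn, h⟩ hPM
        have h4 := Subgroup.card_le_of_le (show M ≤ P from this)
        rw [hMc] at h4
        nlinarith [Nat.card_pos (α := P)]
      have hd : Q ⊓ P = ⊥ := by
        rcases ((Q ⊓ P).subgroupOf Q).eq_bot_or_eq_top_of_prime_card with h | h
        · have := congrArg (Subgroup.map Q.subtype) h
          rwa [Subgroup.map_subgroupOf_eq_of_le inf_le_left, Subgroup.map_bot] at this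
        · exact absurd ((Subgroup.subgroupOf_eq_top.1 h).trans inf_le_right) hQP
      have hQPM : Q ⊔ P = M := by
        haveI := finite_of_le (show M ≤ S from preimageAlong_le _)
        refine Subgroup.eq_of_le_of_card_ge (sup_le hQM hPM) ?_
        refine le_trans (le_of_eq ?_)
          (WeakEmb.card_mul_le_of_inf_eq_bot (sup_le hQ hPS) le_sup_left le_sup_right hd)
        rw [hMc, hQc, hDc]
      exact ⟨P, scN P hPS hPn, hQPM ▸ scN M (preimageAlong_le _) hMn, hd ▸ scN ⊥ bot_le hnbot⟩
    · rw [hN P]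
      refine Set.Subset.antisymm (fun φ hφ => ?_) ?_
      · obtain ⟨hφF, hPN, hv, ψ, hψ, hag, hψH⟩ := hφ
        rw [hinF] at hψ
        obtain ⟨-, g, hg, hgx⟩ := hψ
        refine ⟨hPN, g, ⟨hg, ?_⟩, fun x => (hag x).symm.trans (hgx _)⟩
        have hconj : ∀ y ∈ H, g * y * g⁻¹ ∈ H := fun y hy =>
          hψH.le ⟨⟨y, Subgroup.mem_sup_right hy⟩, hy, hgx _⟩
        refine Subgroup.mem_normalizer_iff.2 fun y => ⟨hconj y, fun hy => ?_⟩
        obtain ⟨w, hw, hwy⟩ := hψH.ge hy
        rw [hgx, mul_left_inj, mul_right_inj] at hwy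
        exact hwy ▸ hw
      · rintro φ ⟨hP, g, hg, hgx⟩
        exact CfsgLib.Fusion.mem_of_eq ((normalizerSystem F hH.1).conj_mem hP hg) hgx
  · rintro ⟨D, hDbot, hDS, hW, hNI⟩
    obtain ⟨d, hd⟩ := WeakEmb.exists_card_pow hS hDS.le
    have hd1 : 1 ≤ d := Nat.one_le_iff_ne_zero.2 fun h => hDbot.ne'
      (Subgroup.eq_bot_of_card_eq D (by rw [hd, h, pow_zero]))
    have hlt : p ^ d < Nat.card S := hd ▸ WeakEmb.card_lt_of_lt le_rfl hDS
    suffices h : F = Cfsg.innerFusionSystem S from fun P => by rw [h]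
    refine WeakEmb.eq_inner p (Nat.card S + 1) Ω S F d (Nat.lt_succ_self _) hS hF hd1 hlt
      (fun Q hQ hQc => hW Q hQ (hQc.trans hd.symm)) ?_
    intro X H hHX hXS hXN hHc α hα hord hst
    haveI := finite_mulAut hXS
    have hHS := hHX.trans hXS
    obtain ⟨H', hHH', hn'⟩ := exists_fullyNormalized (F := F) hHS
    obtain ⟨φ, hφ, hHN, hφr, hφN⟩ := exists_map_normalizer p hS (fullyAutomized_of_fullyNormalized hS hF hn')
      (receptive_of_fullyNormalized hS hF hn') hHH'
    have hXle : X ≤ normalizerIn S H := le_inf hXS hXN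
    have hφX := restrict hφ hXle
    set φX := φ.comp (Subgroup.inclusion hXle) with hφXdef
    set X' := φX.range with hX'
    set e := isoOfHom (F.injective_of_mem hφX) (rfl : φX.range = X') with he
    set β : MulAut X' := MulAut.congr e α with hβdef
    have hβF : β ∈ F.autGroup X' := congr_mem_autGroup hφX rfl hα
    have hX'N : X' ≤ normalizerIn S H' := by rintro _ ⟨x, rfl⟩; exact hφN _
    have hH'X' : H' ≤ X' := by
      rw [← hφr]; rintro _ ⟨x, rfl⟩; exact ⟨⟨x, hHX x.2⟩, rfl⟩
    have hX'S : X' ≤ S := hX'N.trans inf_le_left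
    have hst' : ∀ y : X', (y : Ω) ∈ H' → ((β y : X') : Ω) ∈ H' := by
      intro y hy
      obtain ⟨w, hw⟩ := hφr.ge hy
      have hey : e ⟨w, hHX w.2⟩ = y := Subtype.ext hw
      rw [← hey, hβdef, MulAut.congr_apply]
      simp only [MulEquiv.trans_apply, MulEquiv.symm_apply_apply]
      exact hφr.le ⟨⟨_, hst _ w.2⟩, rfl⟩
    -- `β` is a map of the normalizer system
    have hψ := restrict ((mem_autGroup hX'S).1 hβF) (sup_le le_rfl hH'X' : X' ⊔ H' ≤ X')
    have hnorm : X'.subtype.comp β.toMonoidHom ∈ F.normalizerHom H' X' := by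
      refine ⟨(mem_autGroup hX'S).1 hβF, hX'N, fun x => hX'N (β x).2, _, hψ, fun x => rfl, ?_⟩
      haveI := finite_of_le hn'.1
      refine Subgroup.eq_of_le_of_card_ge ?_ (le_of_eq ?_)
      · rintro _ ⟨y, hy, rfl⟩
        exact hst' _ hy
      · rw [Subgroup.card_map_of_injective (F.injective_of_mem hψ),
          Nat.card_congr (Subgroup.subgroupOfEquivOfLe (le_sup_right : H' ≤ X' ⊔ H')).toEquiv]
    rw [← isNormalizerSystem_normalizerSystem F hn'.1 X', hNI H' hn'
      ((IsConj.card_eq hHH').symm.trans (hHc.trans hd.symm)) _ (isNormalizerSystem_normalizerSystem F hn'.1) X'] at hnorm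
    obtain ⟨-, g, hg, hgx⟩ := hnorm
    obtain ⟨l, hl⟩ := hS ⟨g, hg.1⟩
    have hgl : g ^ p ^ l = 1 := congrArg Subtype.val hl
    have hit : ∀ (m : ℕ) (y : X'), (((β ^ m) y : X') : Ω) = g ^ m * y * (g ^ m)⁻¹ := by
      intro m
      induction m with
      | zero => intro y; simp
      | succ m ih =>
        intro y
        have h1 : ((β ((β ^ m) y) : X') : Ω) = g * ((β ^ m) y : X') * g⁻¹ := hgx _
        rw [pow_succ', MulAut.mul_apply, h1, ih, pow_succ']
        group
    have hβ1 : β ^ p ^ l = 1 := MulEquiv.ext fun y => Subtype.ext (by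
      rw [hit, hgl]; simp)
    refine WeakEmb.eq_one_of_pow (k := l) ((MulAut.congr e).injective ?_) hord
    rw [map_pow, map_one]
    exact hβ1

end Cfsg.Agent.S5271
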