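import Cfsg.Statements.S5272
import Cfsg.Agent.Fusion.AxiomaticThompson

set_option autoImplicit false
open Cfsg

namespace Cfsg.Agent.S5272

/-- An axiomatic Glauberman–Thompson nilpotency criterion for fusion systems. Let p be an odd prime, F a saturated fusion system over a finite p-group S, and 𝒜 a nonempty family of abelian subgroups of S. For Q ≤ S write I(Q) for the intersection of the members of 𝒜 contained in Q. Assume (invariance) that for every Q ≤ S containing a member of 𝒜, every F-automorphism of Q maps I(Q) into itself, and (replacement) that for every subgroup B of S of nilpotency class at most 2, if some member of 𝒜 contains [B,B] but not B, then B normalizes some member of 𝒜 that contains [B,B] but not B. Then F is the inner fusion system of S if and only if the normalizer fusion system of I(S) in F is the inner fusion system of N_S(I(S)). -/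
theorem result {Ω : Type*} [Group Ω] {S : Subgroup Ω} [Finite S] (p : ℕ) [Fact p.Prime] (hS : IsPGroup p ↥S) (F : Cfsg.FusionSystem S) (hF : F.IsSaturated p) (hp : p ≠ 2) (𝒜 : Set (Subgroup Ω)) (h𝒜 : ∀ A ∈ 𝒜, A ≤ S ∧ IsMulCommutative ↥A) (hne : 𝒜.Nonempty) (hinv : ∀ Q : Subgroup Ω, Q ≤ S → (∃ A ∈ 𝒜, A ≤ Q) → ∀ α ∈ F.autGroup Q, ∀ x : ↥Q, (x : Ω) ∈ (⨅ A ∈ {A : Subgroup Ω | A ∈ 𝒜 ∧ A ≤ Q}, A) → (((α : MulAut ↥Q) x : ↥Q) : Ω) ∈ (⨅ A ∈ {A : Subgroup Ω | A ∈ 𝒜 ∧ A ≤ Q}, A)) (hrep : ∀ B : Subgroup Ω, B ≤ S → ⁅⁅B, B⁆, B⁆ = ⊥ → (∃ A ∈ 𝒜, ⁅B, B⁆ ≤ A ∧ ¬ B ≤ A) → ∃ A ∈ 𝒜, ⁅B, B⁆ ≤ A ∧ ¬ B ≤ A ∧ B ≤ Subgroup.normalizer (A : Set Ω)) : (∀ P : Subgroup Ω, F.Hom P = (Cfsg.innerFusionSystem S).Hom P) ↔ ∀ N : Cfsg.FusionSystem (Cfsg.FusionSystem.normalizerIn S (⨅ A ∈ 𝒜, A)), F.IsNormalizerSystem (⨅ A ∈ 𝒜, A) N → ∀ P : Subgroup Ω, N.Hom P = (Cfsg.innerFusionSystem (Cfsg.FusionSystem.normalizerIn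 S (⨅ A ∈ 𝒜, A))).Hom P := by
  have hI : (⨅ A ∈ 𝒜, A) = CfsgLib.ZJ.interIn 𝒜 S := by
    refine le_antisymm (fun x hx => CfsgLib.ZJ.mem_interIn.2 fun A hA _ => ?_) fun x hx => ?_
    · simp only [Subgroup.mem_iInf] at hx
      exact hx A hA
    · simp only [Subgroup.mem_iInf]
      exact fun A hA => CfsgLib.ZJ.mem_interIn.1 hx A hA (h𝒜 A hA).1
  rw [hI]
  constructor
  · intro h N hN P
    refine Set.Subset.antisymm (fun φ hφ => ?_) (CfsgLib.Fusion.inner_le N P)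
    obtain ⟨hP, -⟩ := N.le_of_mem hφ
    have h1 : φ ∈ F.Hom P := (hN P ▸ hφ).1
    rw [h P] at h1
    obtain ⟨-, g, hg, hgφ⟩ := h1
    obtain ⟨A₁, hA₁⟩ := hne
    have hIS : CfsgLib.ZJ.interIn 𝒜 S ≤ S :=
      (CfsgLib.ZJ.interIn_le hA₁ (h𝒜 A₁ hA₁).1).trans (h𝒜 A₁ hA₁).1
    refine ⟨hP, g, ⟨hg, ?_⟩, hgφ⟩
    haveI := CfsgLib.Fusion.finite_of_le hIS
    refine Subgroup.mem_normalizer_fintype fun x hx => ?_
    exact hinv S le_rfl ⟨A₁, hA₁, (h𝒜 A₁ hA₁).1⟩ _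
      (CfsgLib.Fusion.autInducedBy_le_autGroup le_rfl
        (CfsgLib.Fusion.conjAut_mem (P := S) ⟨g, hg, Subgroup.le_normalizer hg⟩)) ⟨x, hIS hx⟩ hx
  · intro h P
    refine Set.Subset.antisymm ?_ (CfsgLib.Fusion.inner_le F P)
    have hle := CfsgLib.Fusion.eq_inner_of_family hS hp 𝒜 (fun A hA => (h𝒜 A hA).1)
      (fun A hA a ha b hb => congrArg Subtype.val ((h𝒜 A hA).2.is_comm.comm (⟨a, ha⟩ : A) ⟨b, hb⟩)) hne hrep
      _ F (Nat.lt_succ_self _) hF hinv ?_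
    · exact hle P
    · intro X φ hφ
      obtain ⟨A₁, hA₁⟩ := hne
      have hIS : CfsgLib.ZJ.interIn 𝒜 S ≤ S :=
        (CfsgLib.ZJ.interIn_le hA₁ (h𝒜 A₁ hA₁).1).trans (h𝒜 A₁ hA₁).1
      have h1 := h _ (CfsgLib.Fusion.isNormalizerSystem_normalizerSystem F hIS) X
      have h2 : φ ∈ (CfsgLib.Fusion.normalizerSystem F hIS).Hom X := hφ
      rw [h1] at h2
      obtain ⟨hX, g, hg, hgφ⟩ := h2
      exact ⟨hX.trans inf_le_left, g, hg.1, hgφ⟩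

end Cfsg.Agent.S5272
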