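import Cfsg.Statements.S5274
import Cfsg.Agent.FusionCamina.Main
-- import your own Cfsg.Agent.* helpers here

set_option autoImplicit false
open Cfsg

namespace Cfsg.Agent.S5274

/-- Let F be a saturated fusion system over a finite 2-group S. Suppose that every element of S is F-conjugate to an element of the centre Z(S) (some map of F defined on the cyclic subgroup it generates sends it into Z(S)). Then S is abelian. -/
theorem result {Ω : Type*} [Group Ω] {S : Subgroup Ω} [Finite S] (hS : IsPGroup 2 ↥S) (F : Cfsg.FusionSystem S) (hF : F.IsSaturated 2) (h : ∀ x ∈ S, ∃ z ∈ S ⊓ Subgroup.centralizer (S : Set Ω), F.IsConjElt x z) : IsMulCommutative ↥S := by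
  refine ⟨⟨fun a b => Subtype.ext ?_⟩⟩
  refine CfsgLib.FusionCamina.main hS hF (fun x hx => ?_) a a.2 b b.2
  obtain ⟨z, hz, hxz⟩ := h x hx
  exact ⟨z, ⟨hz.1, fun s hs => Subgroup.mem_centralizer_iff.1 hz.2 s hs⟩, hxz⟩


end Cfsg.Agent.S5274
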