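import Cfsg.Statements.S5275
import Cfsg.Agent.Fusion.NilpotentRel

set_option autoImplicit false
open Cfsg

namespace Cfsg.Agent.S5275

/-- A Glauberman–Thompson nilpotency criterion for fusion systems relative to a strongly closed subgroup. Let p be an odd prime, F a saturated fusion system over a finite p-group S, and D a subgroup of S that is strongly closed in F. Let Z(J(D)) be the centre of the subgroup of D generated by the abelian subgroups of D of largest order. Then F is the inner fusion system of S if and only if the normalizer fusion system of Z(J(D)) in F is the inner fusion system of N_S(Z(J(D))) = S. -/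
theorem result {Ω : Type*} [Group Ω] {S : Subgroup Ω} [Finite S] (p : ℕ) [Fact p.Prime] (hS : IsPGroup p ↥S) (F : Cfsg.FusionSystem S) (hF : F.IsSaturated p) (hp : p ≠ 2) (D : Subgroup Ω) (hD : F.StronglyClosed D) : (∀ P : Subgroup Ω, F.Hom P = (Cfsg.innerFusionSystem S).Hom P) ↔ ∀ N : Cfsg.FusionSystem (Cfsg.FusionSystem.normalizerIn S (Cfsg.centerThompsonAOf D)), F.IsNormalizerSystem (Cfsg.centerThompsonAOf D) N → ∀ P : Subgroup Ω, N.Hom P = (Cfsg.innerFusionSystem (Cfsg.FusionSystem.normalizerIn S (Cfsg.centerThompsonAOf D))).Hom P := by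
  classical
  have hSW : S ≤ Subgroup.normalizer (CfsgLib.ZJ.W p false D : Set Ω) := fun g hg => by
    refine CfsgLib.ZJ.normalizer_le_normalizer_W D (Subgroup.mem_normalizer_iff.2 fun y => ⟨fun hy => ?_, fun hy => ?_⟩)
    · exact CfsgLib.Fusion.stronglyClosed_mapsTo hD (F.conj_mem le_rfl hg) ⟨y, hD.1 hy⟩ hy
    · have h1 : g⁻¹ * (g * y * g⁻¹) * g⁻¹⁻¹ ∈ D :=
        CfsgLib.Fusion.stronglyClosed_mapsTo hD (F.conj_mem le_rfl (S.inv_mem hg)) ⟨_, hD.1 hy⟩ hy
      simpa [mul_assoc] using h1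
  rw [CfsgLib.ZJ.centerThompsonAOf_eq p]
  constructor
  · intro h N hN P
    refine Set.Subset.antisymm (fun φ hφ => ?_) (CfsgLib.Fusion.inner_le N P)
    obtain ⟨hP, -⟩ := N.le_of_mem hφ
    have h1 : φ ∈ F.Hom P := by
      have h2 := hN P ▸ hφ
      exact h2.1
    rw [h P] at h1
    obtain ⟨-, g, hg, hgφ⟩ := h1
    exact ⟨hP, g, ⟨hg, hSW hg⟩, hgφ⟩
  · intro h P
    rcases eq_or_ne D ⊥ with rfl | hne
    · have hW : CfsgLib.ZJ.W p false (⊥ : Subgroup Ω) = ⊥ := le_bot_iff.1 (CfsgLib.ZJ.W_le _)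
      rw [hW] at h
      refine Set.Subset.antisymm (fun φ hφ => ?_) (CfsgLib.Fusion.inner_le F P)
      have h1 := h _ (CfsgLib.Fusion.isNormalizerSystem_normalizerSystem F bot_le) P
      have hNS : S ≤ Cfsg.FusionSystem.normalizerIn S ⊥ := le_inf le_rfl fun g _ =>
        Subgroup.mem_normalizer_iff.2 fun y => by simp
      have h2 : φ ∈ (CfsgLib.Fusion.normalizerSystem F (bot_le : (⊥ : Subgroup Ω) ≤ S)).Hom P := by
        refine ⟨hφ, (CfsgLib.Fusion.le_of_hom hφ).trans hNS, fun x => hNS (CfsgLib.Fusion.val_mem hφ x),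
          φ.comp (Subgroup.inclusion (sup_bot_eq P).le), CfsgLib.Fusion.restrict hφ _, fun x => rfl,
          le_antisymm ?_ bot_le⟩
        rintro _ ⟨x, hx, rfl⟩
        have : x = 1 := Subtype.ext (Subgroup.mem_bot.1 hx)
        rw [this, map_one]
        exact one_mem _
      rw [h1] at h2
      obtain ⟨hX, g, hg, hgφ⟩ := h2
      exact ⟨hX.trans inf_le_left, g, hg.1, hgφ⟩
    · exact CfsgLib.Fusion.hom_eq_inner_of_rel hS hF hp hD hne h P

end Cfsg.Agent.S5275
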