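import Cfsg.Statements.S5276
import Cfsg.Agent.Fusion.Tate.Hyperfocal
import Cfsg.Agent.Fusion.Abelian
import Cfsg.Agent.Fusion.FactorSat
import Cfsg.Agent.Fusion.AlperinCor
import Cfsg.Agent.Fusion.Functor
import Cfsg.Agent.Fusion.Inner

set_option autoImplicit false
open Cfsg
open scoped commutatorElement

namespace Cfsg.Agent.S5276

/-- Let p be a prime and F a saturated fusion system over a finite p-group S. Then F is the inner fusion system of S if and only if the normalizer fusion system of S itself in F is the inner fusion system (equivalently, Aut_F(S) is induced by S) and the Frattini subgroup Φ(S) is strongly closed in F. -/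
theorem result {Ω : Type*} [Group Ω] {S : Subgroup Ω} [Finite S] (p : ℕ) [Fact p.Prime] (hS : IsPGroup p ↥S) (F : Cfsg.FusionSystem S) (hF : F.IsSaturated p) : (∀ P : Subgroup Ω, F.Hom P = (Cfsg.innerFusionSystem S).Hom P) ↔ (∀ N : Cfsg.FusionSystem (Cfsg.FusionSystem.normalizerIn S S), F.IsNormalizerSystem S N → ∀ P : Subgroup Ω, N.Hom P = (Cfsg.innerFusionSystem (Cfsg.FusionSystem.normalizerIn S S)).Hom P) ∧ F.StronglyClosed ((frattini ↥S).map S.subtype) := by
  classical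
  have hSS : S ≤ Cfsg.FusionSystem.normalizerIn S S := le_inf le_rfl Subgroup.le_normalizer
  have e : Cfsg.FusionSystem.normalizerIn S S = S := le_antisymm inf_le_left hSS
  set Q := (frattini ↥S).map S.subtype with hQdef
  have hQS : Q ≤ S := Subgroup.map_subtype_le _
  constructor
  · intro hin
    refine ⟨fun N hN P => Set.Subset.antisymm (fun φ hφ => ?_) (CfsgLib.Fusion.inner_le N P), hQS, ?_⟩
    · rw [hN P] at hφ
      obtain ⟨h1, hP, -⟩ := hφ
      rw [hin P] at h1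
      obtain ⟨-, g, hg, hgφ⟩ := h1
      exact ⟨hP, g, hSS hg, hgφ⟩
    · intro P hP φ hφ x
      rw [hin P] at hφ
      obtain ⟨-, g, hg, hgφ⟩ := hφ
      rw [hgφ x]
      obtain ⟨y, hy, hyx⟩ := hP x.2
      refine ⟨MulAut.conj ⟨g, hg⟩ y, (inferInstance : (frattini ↥S).Normal).conj_mem y hy ⟨g, hg⟩, ?_⟩
      show g * (y : Ω) * g⁻¹ = g * x * g⁻¹
      rw [show (y : Ω) = x from hyx]
  rintro ⟨hN, hsc⟩
  haveI hQn : (Q.subgroupOf S).Normal := by
    have h : Q.subgroupOf S = frattini ↥S := Subgroup.comap_map_eq_self_of_injective S.subtype_injective _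
    rw [h]; infer_instance
  set θ : S →* S ⧸ Q.subgroupOf S := QuotientGroup.mk' (Q.subgroupOf S) with hθ
  have hker : ∀ s : S, θ s = 1 ↔ (s : Ω) ∈ Q := fun s => QuotientGroup.eq_one_iff s
  set M := CfsgLib.Fusion.factorSystem F θ hker hsc with hMdef
  have hE := CfsgLib.Fusion.isFactorSystem_factorSystem hker hsc
  have hEsat := CfsgLib.Fusion.isSaturated_factor hS hF hsc hE
  have hab : ∀ x ∈ θ.range, ∀ y ∈ θ.range, x * y = y * x := by
    rintro _ ⟨a, rfl⟩ _ ⟨b, rfl⟩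
    rw [← commutatorElement_eq_one_iff_mul_comm, ← map_commutatorElement, hker]
    exact ⟨⁅a, b⁆, CfsgLib.CoprimeAction.commutator_le_frattini' hS
      (Subgroup.commutator_mem_commutator (Subgroup.mem_top a) (Subgroup.mem_top b)), rfl⟩
  have hpR : IsPGroup p θ.range := (hS.to_quotient _).to_subgroup _
  have htriv : ∀ (P' : Subgroup (S ⧸ Q.subgroupOf S)) (φ' : P' →* S ⧸ Q.subgroupOf S), φ' ∈ M.Hom P' →
      ∀ x' : P', φ' x' = x' := by
    intro P' φ' hφ' x'
    obtain ⟨α, hα, hαφ⟩ := CfsgLib.Fusion.exists_aut_of_hom hpR hEsat hab hφ'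
    obtain ⟨-, ψ, hψ, hi⟩ := (CfsgLib.Fusion.mem_autGroup le_rfl).1 hα
    have hSpre : S ≤ Cfsg.FusionSystem.preimageAlong θ θ.range := fun x hx =>
      CfsgLib.Fusion.mem_preimageAlong.2 ⟨hx, ⟨x, hx⟩, rfl⟩
    have hχF : ψ.comp (Subgroup.inclusion hSpre) ∈ F.Hom S := CfsgLib.Fusion.restrict hψ hSpre
    have h6 := CfsgLib.Fusion.mem_normalizerSystem_of_invariant le_rfl hχF le_rfl le_rfl hSS
      fun y hy => CfsgLib.Fusion.val_mem hχF _
    rw [hN _ (CfsgLib.Fusion.isNormalizerSystem_normalizerSystem F le_rfl) S] at h6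
    obtain ⟨-, g, hg, hgψ⟩ := h6
    obtain ⟨d, hd⟩ := CfsgLib.Fusion.le_of_hom hφ' x'.2
    rw [← hαφ x']
    have h7 := CfsgLib.Fusion.induced_apply hi (hSpre d.2) (CfsgLib.Fusion.val_mem hψ _)
      (x := ⟨x', CfsgLib.Fusion.le_of_hom hφ' x'.2⟩) hd
    refine h7.trans ?_
    have h8 : θ ⟨g, hg.1⟩ * θ d * (θ ⟨g, hg.1⟩)⁻¹ = θ d := by
      rw [hab _ ⟨_, rfl⟩ _ ⟨d, rfl⟩, mul_inv_cancel_right]
    rw [← hd, ← h8, ← map_inv, ← map_mul, ← map_mul]
    exact congrArg θ (Subtype.ext (hgψ d))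
  have hfoc : F.focalSubgroup ≤ Q := by
    refine (Subgroup.closure_le _).2 ?_
    rintro _ ⟨P, φ, x, hφ, rfl⟩
    obtain ⟨D, ψ, hψ, hPD, hQD, hn⟩ := CfsgLib.Fusion.nearMap_of_mem hS hF hsc (Nat.card S + 1) P φ hφ (by omega)
    have hDS := CfsgLib.Fusion.le_of_hom hψ
    have hpre : Cfsg.FusionSystem.preimageAlong θ (Cfsg.FusionSystem.imageAlong θ D) = D :=
      CfsgLib.Fusion.preimageAlong_imageAlong hker hDS hQD
    obtain ⟨φ', hφ', -⟩ := CfsgLib.Fusion.exists_induced hker hsc (CfsgLib.Fusion.imageAlong_le_range D)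
      (CfsgLib.Fusion.restrict hψ hpre.le)
    have h2 := htriv _ φ' ⟨CfsgLib.Fusion.imageAlong_le_range D, _, CfsgLib.Fusion.restrict hψ hpre.le, hφ'⟩
      ⟨θ ⟨x, CfsgLib.Fusion.le_of_hom hφ x.2⟩, ⟨⟨x, CfsgLib.Fusion.le_of_hom hφ x.2⟩, hPD x.2, rfl⟩⟩
    rw [CfsgLib.Fusion.induced_apply hφ' (hpre.ge (hPD x.2))
      (CfsgLib.Fusion.val_mem (CfsgLib.Fusion.restrict hψ hpre.le) _) rfl, eq_comm, ← inv_mul_eq_one,
      ← map_inv, ← map_mul, hker] at h2
    have h3 := Q.mul_mem h2 (Q.inv_mem (hn x))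
    have e3 : ((x : Ω)⁻¹ * ψ (Subgroup.inclusion hPD x)) * ((φ x)⁻¹ * ψ (Subgroup.inclusion hPD x))⁻¹ =
        (x : Ω)⁻¹ * φ x := by group
    rw [← e3]
    exact h3
  have hsub : (Cfsg.innerFusionSystem S).IsSubsystemOf F := fun P => CfsgLib.Fusion.inner_le F P
  have hI := CfsgLib.Fusion.isSaturated_inner hS
  have hhyp : F.hyperfocalSubgroup p ≤ ⊥ := by
    refine (CfsgLib.Fusion.hyperfocal_le_of_focal hS hF hI hsub
      (CfsgLib.Fusion.focalSubgroup_eq_of_frattini hS hF hsub (hfoc.trans le_sup_left))).trans ?_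
    refine (Subgroup.closure_le _).2 ?_
    rintro _ ⟨P, α, x, hP, hα, rfl⟩
    have h1 : IsPGroup p ((Cfsg.innerFusionSystem S).autGroup P) := by
      rw [CfsgLib.Fusion.autGroup_innerFS hP]
      exact CfsgLib.Fusion.isPGroup_autInducedBy p hS P
    have h2 : Cfsg.pResidual p ((Cfsg.innerFusionSystem S).autGroup P) ≤ ⊥ := by
      refine (Subgroup.closure_le _).2 fun a ha => ?_
      obtain ⟨k, hk⟩ := h1 a
      exact orderOf_eq_one_iff.1 (Nat.eq_one_of_dvd_coprimes (Nat.Coprime.pow_right k ha) dvd_rfl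
        (orderOf_dvd_of_pow_eq_one hk))
    rw [Subgroup.mem_bot.1 (h2 hα)]
    simp
  have hF' : F = Cfsg.innerFusionSystem S := by
    refine CfsgLib.Fusion.eq_inner_of_isPGroup_aut hS hF fun P hP a => ?_
    haveI := CfsgLib.Fusion.finite_mulAut hP.1
    refine ⟨(orderOf a).factorization p, ?_⟩
    set d := a ^ p ^ (orderOf a).factorization p with hd
    have hdo : orderOf d = orderOf a / p ^ (orderOf a).factorization p := by
      rw [hd, orderOf_pow, Nat.gcd_eq_right (Nat.ordProj_dvd _ _)]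
    have hdc : (orderOf d).Coprime p := by
      rw [hdo]
      exact (Nat.coprime_ordCompl Fact.out (orderOf_pos a).ne').symm
    refine Subtype.ext (MulEquiv.ext fun x => Subtype.ext ?_)
    have h1 := hhyp (Subgroup.subset_closure ⟨P, d, x, hP.1, Subgroup.subset_closure hdc, rfl⟩)
    rw [Subgroup.mem_bot, inv_mul_eq_one] at h1
    exact h1.symm
  intro P
  rw [hF']

end Cfsg.Agent.S5276
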