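import Cfsg.Statements.S5297
import Cfsg.Agent.Fusion.SeriesNormal
import Cfsg.Agent.S1949
-- import your own Cfsg.Agent.* helpers here

set_option autoImplicit false
universe u
open Cfsg

namespace Cfsg.Agent.S5297

open CfsgLib.Fusion Cfsg.FusionSystem
open scoped commutatorElement

theorem pow_fixes_chain {Ω : Type*} [Group Ω] {P : Subgroup Ω} [Finite P] {p : ℕ} [Fact p.Prime]
    (hP : IsPGroup p P) {L : ℕ → Subgroup Ω} {m : ℕ} (hL : Monotone L) (h0 : L 0 = ⊥) {α : MulAut P}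
    (hα : StabilizesChain L m α) :
    ∃ e, ∀ x : P, (x : Ω) ∈ L m → (α ^ p ^ e) x = x := by
  obtain ⟨k, hk⟩ := IsPGroup.iff_card.1 hP
  refine ⟨m * k, ?_⟩
  have key : ∀ i, i ≤ m → ∀ x : P, (x : Ω) ∈ L i → (α ^ p ^ (i * k)) x = x := by
    intro i
    induction i with
    | zero =>
      intro _ x hx
      rw [h0, Subgroup.mem_bot] at hx
      rw [show x = 1 from Subtype.ext hx, map_one]
    | succ i ih =>
      intro hi x hx
      set β := α ^ p ^ (i * k)
      have hfix : β (x⁻¹ * β x) = x⁻¹ * β x :=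
        ih (by omega) _ (hα.pow hL (p ^ (i * k)) i (Nat.lt_of_succ_le hi) x hx)
      set d := x⁻¹ * β x with hddef
      have hx' : β x = x * d := by rw [hddef, mul_inv_cancel_left]
      have hpow : ∀ n : ℕ, (β ^ n) x = x * d ^ n := by
        intro n
        induction n with
        | zero => simp
        | succ n ihn => rw [pow_succ', MulAut.mul_apply, ihn, map_mul, map_pow, hfix, hx', mul_assoc, ← pow_succ']
      have hpk : d ^ p ^ k = 1 := by rw [← hk]; exact pow_card_eq_one'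
      rw [show (i + 1) * k = i * k + k by ring, pow_add, pow_mul, hpow, hpk, mul_one]
  exact key m le_rfl


/-- Let F be a saturated fusion system over a finite p-group S. If every map of F between cyclic subgroups of the hyperfocal subgroup of F of order p or 4 is a map of the normalizer system of S (it extends to a map of F defined on all of S), then S is normal in F. -/
theorem result {Ω : Type u} [Group Ω] {S : Subgroup Ω} [Finite S] (p : ℕ) [Fact p.Prime] (hS : IsPGroup p S)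
    (F : Cfsg.FusionSystem S) (hF : F.IsSaturated p)
    (h : ∀ A B : Subgroup Ω, A ≤ (F.hyperfocalSubgroup p) → B ≤ (F.hyperfocalSubgroup p) → IsCyclic ↥A → (Nat.card ↥A = p ∨ Nat.card ↥A = 4) → IsCyclic ↥B → (Nat.card ↥B = p ∨ Nat.card ↥B = 4) →
      F.homSet A B ⊆ F.normalizerHom S A) :
    F.IsNormal S := by
  refine isNormal_of_centricRadical hS hF le_rfl Subgroup.le_normalizer fun P hn hc hr => ?_
  suffices hPS : S ≤ P from ⟨hPS, fun α _ q _ => hn.1 (α q).2⟩
  haveI := finite_of_le hn.1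
  haveI := finite_mulAut (S := S) hn.1
  set A := F.autGroup P
  obtain ⟨D, hDinv, hDK, hDexp, -, hDfix, -⟩ :=
    Cfsg.Agent.S1949.result (hS.to_le hn.1) A (inn_le_autGroup hn.1)
  have hDH : ∀ y ∈ D, ((y : P) : Ω) ∈ F.hyperfocalSubgroup p := by
    intro y hy
    have : D ≤ (F.hyperfocalSubgroup p).subgroupOf P := hDK.trans ((Subgroup.closure_le _).2 (by
      rintro z ⟨α, hα, x, rfl⟩
      exact Subgroup.subset_closure ⟨P, α, x, hn.1, hα, rfl⟩))
    exact this hy
  have hDA : ∀ α ∈ A, ∀ y ∈ D, α y ∈ D := fun α hα y hy => (hDinv α hα).le ⟨y, hy, rfl⟩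
  haveI := hS.isNilpotent
  obtain ⟨N, hN⟩ := (Subgroup.isNilpotent_iff_lowerCentralSeries S).1 inferInstance
  let L : ℕ → Subgroup Ω := fun i => S.lowerCentralSeries (N - i) ⊓ D.map P.subtype
  have hL : Monotone L := fun a b hab =>
    inf_le_inf_right _ (S.lowerCentralSeries_antitone (Nat.sub_le_sub_left hab N))
  have hL0 : L 0 = ⊥ := by simp [L, hN]
  have hLD : ∀ {i} {x : P}, (x : Ω) ∈ L i → x ∈ D := fun {i x} hx => by
    obtain ⟨y, hy, e⟩ := hx.2
    exact (Subtype.ext e : y = x) ▸ hy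
  -- automorphisms of `P` preserve the chain
  have hpres : ∀ γ ∈ A, PreservesChain L γ := by
    intro γ hγ i x hx
    have hxD := hLD hx
    refine ⟨?_, ⟨γ x, hDA γ hγ x hxD, rfl⟩⟩
    by_cases hx1 : x = 1
    · rw [hx1]; simp
    have hord : ∀ y ∈ D, y ≠ 1 → orderOf (y : Ω) = p ∨ orderOf (y : Ω) = 4 := by
      intro y hy hy1
      rw [Subgroup.orderOf_coe]
      rcases hDexp y hy with h1 | ⟨h2, h4⟩
      · exact Or.inl (orderOf_eq_prime h1 hy1)
      · by_cases hy2 : y ^ 2 = 1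
        · exact Or.inl (h2 ▸ orderOf_eq_prime hy2 hy1)
        · exact Or.inr (orderOf_eq_prime_pow (p := 2) (n := 1) (by simpa using hy2) (by simpa using h4))
    let φ : ↥(Subgroup.zpowers (x : Ω)) →* Ω :=
      (P.subtype.comp γ.toMonoidHom).comp (Subgroup.inclusion (Subgroup.zpowers_le.2 x.2))
    have hφ : φ ∈ F.Hom _ := restrict ((mem_autGroup hn.1).1 hγ) _
    obtain ⟨-, -, -, ψ, hψ, hag, hmap⟩ := h (Subgroup.zpowers (x : Ω)) (Subgroup.zpowers ((γ x : P) : Ω))
      (Subgroup.zpowers_le.2 (hDH x hxD)) (Subgroup.zpowers_le.2 (hDH _ (hDA γ hγ x hxD))) inferInstance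
      (by rw [Nat.card_zpowers]; exact hord x hxD hx1) inferInstance
      (by rw [Nat.card_zpowers]; exact hord _ (hDA γ hγ x hxD) (fun e => hx1 (γ.injective (e.trans (map_one γ).symm))))
      (show φ ∈ F.homSet _ _ from ⟨hφ, fun y => by
        obtain ⟨l, hl⟩ := Subgroup.mem_zpowers_iff.1 y.2
        refine Subgroup.mem_zpowers_iff.2 ⟨l, ?_⟩
        have hy : Subgroup.inclusion (Subgroup.zpowers_le.2 x.2) y = x ^ l :=
          Subtype.ext (by rw [SubgroupClass.coe_zpow]; exact hl.symm)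
        show ((γ x : P) : Ω) ^ l = ((γ (Subgroup.inclusion _ y) : P) : Ω)
        rw [hy, map_zpow, SubgroupClass.coe_zpow]⟩)
    obtain ⟨θ, -, hθx⟩ : ∃ θ : MulAut S, True ∧
        ((θ ⟨x, hn.1 x.2⟩ : S) : Ω) = ((γ x : P) : Ω) := by
      have hres := restrict hψ (le_sup_right : S ≤ Subgroup.zpowers (x : Ω) ⊔ S)
      refine ⟨isoOfHom (F.injective_of_mem hres) ((range_restrict le_sup_right).trans hmap), trivial, ?_⟩
      exact hag ⟨x, Subgroup.mem_zpowers _⟩
    rw [← hθx]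
    exact aut_mem_lowerCentralSeries θ (N - i) (x := ⟨x, hn.1 x.2⟩) hx.1
  -- the stabilizer is a normal `p`-subgroup
  let W : Subgroup A := (chainStab L N hL).subgroupOf A
  have hWn : W.Normal := ⟨fun β hβ γ i hi x hx => by
    have hy := hpres _ (inv_mem γ.2) (i + 1) x hx
    have h1 := hpres _ γ.2 i _ ((mem_chainStab (hL := hL).1 hβ) i hi _ hy)
    simp only [map_mul, map_inv, MulAut.apply_inv_self] at h1
    exact h1⟩
  have hWp : IsPGroup p W := by
    rintro ⟨β, hβ⟩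
    obtain ⟨e, he⟩ := pow_fixes_chain (hS.to_le hn.1) hL hL0 (mem_chainStab (hL := hL).1 hβ)
    set δ := β ^ p ^ e
    have hfixD : ∀ d ∈ D, (δ : MulAut P) d = d := fun d hd =>
      he d ⟨by simpa using hn.1 d.2, d, hd, rfl⟩
    obtain ⟨m, hm, hcop⟩ : ∃ m, orderOf δ = p ^ (orderOf δ).factorization p * m ∧ m.Coprime p :=
      ⟨_, (Nat.ordProj_mul_ordCompl_eq_self _ p).symm,
        (Nat.coprime_ordCompl Fact.out (orderOf_pos δ).ne').symm⟩
    set f := (orderOf δ).factorization p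
    refine ⟨e + f, Subtype.ext ?_⟩
    show β ^ p ^ (e + f) = 1
    rw [pow_add, pow_mul]
    apply Subtype.ext
    refine hDfix _ (δ ^ p ^ f).2 ?_ fun d hd => ?_
    · rw [Subgroup.orderOf_coe]
      refine Nat.Coprime.coprime_dvd_left (orderOf_dvd_of_pow_eq_one ?_) hcop
      rw [← pow_mul, ← hm, pow_orderOf_eq_one]
    · rw [SubgroupClass.coe_pow]
      exact MulAction.mem_stabilizer_iff.1
        (pow_mem (MulAction.mem_stabilizer_iff.2 (hfixD d hd) : (δ : MulAut P) ∈ MulAction.stabilizer (MulAut P) d) _)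
  -- so `N_S(P) = P`
  by_contra hnot
  obtain ⟨g, hgS, hgN, hgP⟩ := exists_normalizer_not_mem hS (lt_of_le_not_ge hn.1 hnot)
  refine hgP (mem_self_of_inn hc hgS (α := conjAut P S ⟨g, hgS, hgN⟩) (fun x => rfl) (hr.2.le ?_))
  have hgA : conjAut P S ⟨g, hgS, hgN⟩ ∈ A :=
    autInducedBy_le_autGroup hn.1 (range_conjAut (P := P) S ▸ ⟨_, rfl⟩)
  refine ⟨⟨_, hgA⟩, (le_sSup ⟨hWn, hWp⟩ : W ≤ Cfsg.pCore p A) ?_, rfl⟩
  refine stabilizesChain_conj (g := g) (fun x => rfl) fun i hi x hxP hx => ?_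
  obtain ⟨y, hy, hyx⟩ := hx.2
  refine ⟨?_, ?_⟩
  · rw [show N - i = (N - (i + 1)) + 1 by omega, Subgroup.lowerCentralSeries_succ]
    exact Subgroup.commutator_mem_commutator (inv_mem hx.1) hgS
  · refine ⟨y⁻¹ * conjAut P S ⟨g, hgS, hgN⟩ y, D.mul_mem (D.inv_mem hy) (hDA _ hgA y hy), ?_⟩
    rw [← hyx, commutatorElement_def]
    show (y : Ω)⁻¹ * (g * y * g⁻¹) = (y : Ω)⁻¹ * g * (y : Ω)⁻¹⁻¹ * g⁻¹
    group

end Cfsg.Agent.S5297
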