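import Cfsg.Statements.S5298
import Cfsg.Agent.Fusion.AlperinCor
import Cfsg.Agent.Transfer.Blackburn
-- import your own Cfsg.Agent.* helpers here

set_option autoImplicit false
universe u
open Cfsg

namespace Cfsg.Agent.S5298

open CfsgLib.Fusion
open scoped commutatorElement

theorem fixes_of_small {M : Type*} [Group M] [Finite M] {p : ℕ} [Fact p.Prime] (hM : IsPGroup p M)
    (α : MulAut M) (hα : (orderOf α).Coprime p) (V : Subgroup M)
    (hinv : ∀ x ∈ V, α x ∈ V) (hinv' : ∀ x ∈ V, α⁻¹ x ∈ V)
    (hfix : ∀ x ∈ V, (x ^ p = 1 ∨ (p = 2 ∧ x ^ 4 = 1)) → α x = x) : ∀ x ∈ V, α x = x := by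
  haveI : Finite (MulAut M) :=
    Finite.of_injective (fun a : MulAut M => (a : M → M)) DFunLike.coe_injective
  let A := Subgroup.zpowers α
  let G' := M ⋊[A.subtype] A
  haveI : Finite G' := Finite.of_equiv _ SemidirectProduct.equivProd.symm
  let ι : M →* G' := SemidirectProduct.inl
  let a : A := ⟨α, Subgroup.mem_zpowers α⟩
  let n : G' := SemidirectProduct.inr a
  have hn : ∀ y, n * ι y * n⁻¹ = ι (α y) := fun y => by
    show SemidirectProduct.inr a * SemidirectProduct.inl y * (SemidirectProduct.inr a)⁻¹ = SemidirectProduct.inl (A.subtype a y)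
    rw [SemidirectProduct.inl_aut, map_inv]
  have hnord : (orderOf n).Coprime p := by
    refine Nat.Coprime.coprime_dvd_left ((orderOf_map_dvd _ a).trans ?_) hα
    rw [← Subgroup.orderOf_coe]
  have hιinj : Function.Injective ι := SemidirectProduct.inl_injective
  have hVn : n ∈ Subgroup.normalizer ((V.map ι : Subgroup G') : Set G') := by
    refine Subgroup.mem_normalizer_iff.2 fun z => ⟨?_, fun hz => ?_⟩
    · rintro ⟨y, hy, rfl⟩
      exact ⟨α y, hinv y hy, (hn y).symm⟩
    · obtain ⟨y, hy, he⟩ := hz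
      refine ⟨α⁻¹ y, hinv' y hy, ?_⟩
      have h := hn (α⁻¹ y)
      rw [MulAut.apply_inv_self, he] at h
      exact mul_left_cancel (mul_right_cancel h)
  have hc : ∀ y, Commute n (ι y) ↔ α y = y := fun y => by
    constructor
    · intro h
      apply hιinj
      rw [← hn, h.eq, mul_inv_cancel_right]
    · intro h
      have := hn y
      rw [h] at this
      exact mul_inv_eq_iff_eq_mul.1 this
  intro x hx
  refine (hc x).1 (CfsgLib.Transfer.commute_of_fixes_small ((hM.to_subgroup V).map ι) hnord hVn ?_ _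
    ⟨x, hx, rfl⟩)
  rintro _ ⟨y, hy, rfl⟩ hs
  refine (hc y).2 (hfix y hy ?_)
  rcases hs with h | ⟨h2, h⟩
  · exact Or.inl (hιinj (by rw [map_pow, h, map_one]))
  · exact Or.inr ⟨h2, hιinj (by rw [map_pow, h, map_one])⟩


/-- Let F be a saturated fusion system over a finite p-group S. If every map of F between cyclic subgroups of the hyperfocal subgroup of F of order p or 4 is conjugation by an element of S, then F is the inner fusion system of S. -/
theorem result {Ω : Type u} [Group Ω] {S : Subgroup Ω} [Finite S] (p : ℕ) [Fact p.Prime] (hS : IsPGroup p S)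
    (F : Cfsg.FusionSystem S) (hF : F.IsSaturated p)
    (h : ∀ A B : Subgroup Ω, A ≤ (F.hyperfocalSubgroup p) → B ≤ (F.hyperfocalSubgroup p) → IsCyclic ↥A → (Nat.card ↥A = p ∨ Nat.card ↥A = 4) → IsCyclic ↥B → (Nat.card ↥B = p ∨ Nat.card ↥B = 4) →
      F.homSet A B ⊆ (Cfsg.innerFusionSystem S).Hom A) :
    ∀ P : Subgroup Ω, F.Hom P = (Cfsg.innerFusionSystem S).Hom P := by
  refine fun Q => congrArg (fun E : Cfsg.FusionSystem S => E.Hom Q)
    (eq_inner_of_isPGroup_aut hS hF fun P hn β => ?_)
  haveI := finite_mulAut (S := S) hn.1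
  haveI := finite_of_le hn.1
  obtain ⟨m, hm, hcop⟩ : ∃ m, orderOf β = p ^ (orderOf β).factorization p * m ∧ m.Coprime p :=
    ⟨_, (Nat.ordProj_mul_ordCompl_eq_self _ p).symm,
      (Nat.coprime_ordCompl Fact.out (orderOf_pos β).ne').symm⟩
  refine ⟨(orderOf β).factorization p, ?_⟩
  set γ := β ^ p ^ (orderOf β).factorization p with hγ
  have hγord : (orderOf γ).Coprime p := by
    refine Nat.Coprime.coprime_dvd_left (orderOf_dvd_of_pow_eq_one ?_) hcop
    rw [hγ, ← pow_mul, ← hm, pow_orderOf_eq_one]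
  apply Subtype.ext
  set α : MulAut P := (γ : MulAut P) with hαdef
  have hαord : (orderOf α).Coprime p := by rw [hαdef, Subgroup.orderOf_coe]; exact hγord
  set K := (F.hyperfocalSubgroup p).subgroupOf P with hK
  -- every power of `α` moves each element inside its coset of `K`
  have hdiff : ∀ (k : ℤ) (x : P), x⁻¹ * (α ^ k) x ∈ K := fun k x =>
    Subgroup.subset_closure ⟨P, γ ^ k, x, hn.1, Subgroup.zpow_mem _ (Subgroup.subset_closure (show γ ∈ {g : F.autGroup P | Nat.Coprime (orderOf g) p} from hγord)) k, rfl⟩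
  have hKinv : ∀ (k : ℤ) (x : P), x ∈ K → (α ^ k) x ∈ K := fun k x hx => by
    simpa using K.mul_mem hx (hdiff k x)
  have hcopd : ∀ (d : P), (orderOf α).Coprime (orderOf d) := fun d => by
    obtain ⟨a, ha⟩ := IsPGroup.iff_orderOf.1 (hS.to_le hn.1) d
    rw [ha]; exact hαord.pow_right a
  have hcoprime : ∀ x : P, α (x⁻¹ * α x) = x⁻¹ * α x → α x = x := by
    intro x hfix
    set d := x⁻¹ * α x with hd
    have hx' : α x = x * d := by rw [hd, mul_inv_cancel_left]
    have hpow : ∀ k : ℕ, (α ^ k) x = x * d ^ k := by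
      intro k
      induction k with
      | zero => simp
      | succ k ihk => rw [pow_succ', MulAut.mul_apply, ihk, map_mul, map_pow, hfix, hx', mul_assoc, ← pow_succ']
    have h1 := hpow (orderOf α)
    rw [pow_orderOf_eq_one, MulAut.one_apply, left_eq_mul] at h1
    have := orderOf_eq_one_iff.1 (Nat.eq_one_of_dvd_coprimes (hcopd d) (orderOf_dvd_of_pow_eq_one h1) dvd_rfl)
    rw [hx', this, mul_one]
  haveI := hS.isNilpotent
  obtain ⟨N, hN⟩ := (Subgroup.isNilpotent_iff_lowerCentralSeries S).1 inferInstance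
  -- the small elements of `K` are fixed
  have hsmall : ∀ j i, N ≤ i + j → ∀ x ∈ K, ((x : P) : Ω) ∈ S.lowerCentralSeries i →
      (x ^ p = 1 ∨ (p = 2 ∧ x ^ 4 = 1)) → α x = x := by
    intro j
    induction j with
    | zero =>
      intro i hi x _ hx _
      have hx1 := S.lowerCentralSeries_antitone (show N ≤ i by omega) hx
      rw [hN, Subgroup.mem_bot] at hx1
      rw [show x = 1 from Subtype.ext hx1, map_one]
    | succ j ih =>
      intro i hi x hxK hx hs
      let W : Subgroup P := K ⊓ (S.lowerCentralSeries (i + 1)).subgroupOf P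
      let V : Subgroup P := ⨅ k : ℤ, W.comap (α ^ k).toMonoidHom
      have hV : ∀ y, y ∈ V ↔ ∀ k : ℤ, (α ^ k) y ∈ W := fun y => Subgroup.mem_iInf
      have hinv : ∀ y ∈ V, α y ∈ V := fun y hy => (hV _).2 fun k => by
        have := (hV y).1 hy (k + 1)
        rwa [zpow_add, zpow_one, MulAut.mul_apply] at this
      have hinv' : ∀ y ∈ V, α⁻¹ y ∈ V := fun y hy => (hV _).2 fun k => by
        have := (hV y).1 hy (k - 1)
        rwa [zpow_sub, zpow_one, MulAut.mul_apply] at this
      have horb : ∀ k : ℤ, x⁻¹ * (α ^ k) x ∈ W := by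
        intro k
        refine ⟨hdiff k x, ?_⟩
        show ((x⁻¹ * (α ^ k) x : P) : Ω) ∈ S.lowerCentralSeries (i + 1)
        by_cases hx1 : x = 1
        · rw [hx1]; simp
        set z := (α ^ k) x with hz
        have hzord : orderOf (z : Ω) = orderOf (x : Ω) := by
          rw [Subgroup.orderOf_coe, Subgroup.orderOf_coe, hz]
          exact MulEquiv.orderOf_eq _ x
        have hxord : orderOf (x : Ω) = p ∨ orderOf (x : Ω) = 4 := by
          rw [Subgroup.orderOf_coe]
          rcases hs with h1 | ⟨h2, h4⟩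
          · exact Or.inl (orderOf_eq_prime h1 hx1)
          · by_cases hx2 : x ^ 2 = 1
            · exact Or.inl (h2 ▸ orderOf_eq_prime hx2 hx1)
            · exact Or.inr (orderOf_eq_prime_pow (p := 2) (n := 1) (by simpa using hx2) (by simpa using h4))
        have hxH : (x : Ω) ∈ F.hyperfocalSubgroup p := hxK
        have hzH : (z : Ω) ∈ F.hyperfocalSubgroup p := hKinv k x hxK
        let φ : ↥(Subgroup.zpowers (x : Ω)) →* Ω :=
          (P.subtype.comp (α ^ k).toMonoidHom).comp (Subgroup.inclusion (Subgroup.zpowers_le.2 x.2))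
        have hφ : φ ∈ F.Hom _ := restrict ((mem_autGroup hn.1).1 (zpow_mem γ.2 k)) _
        obtain ⟨-, s, hs', hsx⟩ := h (Subgroup.zpowers (x : Ω)) (Subgroup.zpowers (z : Ω))
          (Subgroup.zpowers_le.2 hxH) (Subgroup.zpowers_le.2 hzH) inferInstance (by rwa [Nat.card_zpowers])
          inferInstance (by rwa [Nat.card_zpowers, hzord])
          (show φ ∈ F.homSet _ _ from ⟨hφ, fun y => by
            obtain ⟨l, hl⟩ := Subgroup.mem_zpowers_iff.1 y.2
            refine Subgroup.mem_zpowers_iff.2 ⟨l, ?_⟩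
            have hy : Subgroup.inclusion (Subgroup.zpowers_le.2 x.2) y = x ^ l :=
              Subtype.ext (by rw [SubgroupClass.coe_zpow]; exact hl.symm)
            show (z : Ω) ^ l = (((α ^ k) (Subgroup.inclusion _ y) : P) : Ω)
            rw [hy, map_zpow, SubgroupClass.coe_zpow]⟩)
        have e : (z : Ω) = s * x * s⁻¹ := hsx ⟨x, Subgroup.mem_zpowers _⟩
        rw [Subgroup.coe_mul, Subgroup.coe_inv, e, show (x : Ω)⁻¹ * (s * x * s⁻¹) = ⁅(x : Ω)⁻¹, s⁆ by
          rw [commutatorElement_def]; group, Subgroup.lowerCentralSeries_succ]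
        exact Subgroup.commutator_mem_commutator (inv_mem hx) hs'
      have hcV : x⁻¹ * α x ∈ V := (hV _).2 fun k => by
        have h1 := W.mul_mem (W.inv_mem (horb k)) (horb (k + 1))
        rw [zpow_add, zpow_one, MulAut.mul_apply] at h1
        rw [map_mul, map_inv]
        simpa [mul_assoc] using h1
      refine hcoprime x (fixes_of_small (hS.to_le hn.1) α hαord V hinv hinv' (fun y hy hys => ?_) _ hcV)
      have hyW : y ∈ W := by simpa using (hV y).1 hy 0
      exact ih (i + 1) (by omega) y hyW.1 hyW.2 hys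
  have hfixK : ∀ x ∈ K, α x = x :=
    fixes_of_small (hS.to_le hn.1) α hαord K (fun x hx => by simpa using hKinv 1 x hx)
      (fun x hx => by simpa using hKinv (-1) x hx)
      fun x hx => hsmall N 0 (by omega) x hx (by simpa using hn.1 x.2)
  exact MulEquiv.ext fun x => hcoprime x (hfixK _ (by simpa using hdiff 1 x))

end Cfsg.Agent.S5298
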