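import Cfsg.Statements.S5315
import Cfsg.Agent.Fusion.FactorSat
import Cfsg.Agent.Fusion.Control
import Cfsg.Agent.Fusion.SeriesNormal
import Cfsg.Agent.Transfer.Residual
import Cfsg.Agent.PCore.Basic
import Cfsg.Agent.S5144
-- import your own Cfsg.Agent.* helpers here

set_option autoImplicit false
open Cfsg

namespace Cfsg.Agent.S5315

open CfsgLib.Fusion Cfsg.FusionSystem

/-- An analogue of Grün's lemma for fusion systems. Let F be a saturated fusion system over a finite p-group S that is perfect in the sense that its hyperfocal subgroup is all of S (F coincides with its p-residual subsystem). Then the second centre of F equals its centre: every fusion system over S/(Z(F) ∩ S) that is the factor system of F modulo its centre Z(F), read through the quotient map, has trivial centre. -/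
theorem result {Ω : Type*} [Group Ω] {S : Subgroup Ω} [Finite S] (p : ℕ) [Fact p.Prime] (hS : IsPGroup p S) (F : Cfsg.FusionSystem S) (hF : F.IsSaturated p)
    (hperf : F.hyperfocalSubgroup p = S)
    (E : Cfsg.FusionSystem (⊤ : Subgroup (↥S ⧸ (F.center).subgroupOf S)))
    (hE : F.IsFactorSystem F.center (QuotientGroup.mk' ((F.center).subgroupOf S)) E) : E.center = ⊥ := by
    set Z := F.center with hZdef
    have hZc : F.IsCentral Z := Cfsg.Agent.S5144.result F
    have hZS : S ≤ Subgroup.centralizer (Z : Set Ω) := fun s hs => Subgroup.mem_centralizer_iff.2 fun z hz =>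
      (F.center_le_centralizer hz s hs).symm
    have hZclosed : F.StronglyClosed Z := ⟨hZc.1, fun R hR φ hφ x => by
      rw [apply_of_isCentral hZc hφ x (hR x.2)]; exact hR x.2⟩
    obtain ⟨⟨-, hmor⟩, hrange, -⟩ := isSurjectiveMorphism_factor hS hF hZclosed hE
    obtain ⟨-, hker, -, -⟩ := id hE
    set θ := QuotientGroup.mk' (Z.subgroupOf S)
    have hCc : E.IsCentral E.center := Cfsg.Agent.S5144.result E
    set K := preimageAlong θ E.center with hKdef
    have hKS : K ≤ S := preimageAlong_le _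
    -- every map fixes `K` modulo `Z`
    have hmod : ∀ (P : Subgroup Ω) (φ : P →* Ω), φ ∈ F.Hom P → ∀ x : P, (x : Ω) ∈ K → (x : Ω)⁻¹ * φ x ∈ Z := by
      intro P φ hφ x hx
      obtain ⟨φ', hφ', _, _, hm, hag⟩ := hmor P φ hφ
      have h1 := apply_of_isCentral hCc hφ' ⟨_, hm x⟩ (mem_preimageAlong.1 hx).2
      rw [hag x] at h1
      have h2 := (hker ((⟨x, le_of_hom hφ x.2⟩ : S)⁻¹ * ⟨φ x, val_mem hφ x⟩)).1 (by
        rw [map_mul, map_inv, h1, inv_mul_cancel])
      exact h2
    have hmodS : ∀ s ∈ S, ∀ x ∈ K, x⁻¹ * (s * x * s⁻¹) ∈ Z := fun s hs x hx =>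
      hmod S _ (F.conj_mem le_rfl hs) ⟨x, hKS hx⟩ hx
    have hZR : ∀ R : Subgroup Ω, F.IsCentric R → Z ≤ R := fun R hR z hz => hR.2 R (CfsgLib.Fusion.IsConj.refl hR.1)
      ⟨hZc.1 hz, Subgroup.mem_centralizer_iff.2 fun r hr => (Subgroup.mem_centralizer_iff.1 (hZS (hR.1 hr)) z hz).symm⟩
    -- `K` lies in every centric radical subgroup
    have hKR : ∀ R : Subgroup Ω, F.IsCentric R → F.IsRadical p R → K ≤ R := by
      intro R hc hr x hx
      haveI := finite_mulAut (S := S) hc.1
      haveI := finite_of_le hc.1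
      have hxN : x ∈ Subgroup.normalizer (R : Set Ω) := by
        have key : ∀ y ∈ K, ∀ r ∈ R, y * r * y⁻¹ ∈ R := fun y hy r hr' => by
          have := R.mul_mem (hZR R hc (hmodS r (hc.1 hr') y⁻¹ (K.inv_mem hy))) hr'
          simpa [mul_assoc] using this
        refine Subgroup.mem_normalizer_iff.2 fun r => ⟨key x hx r, fun h => ?_⟩
        have := key x⁻¹ (K.inv_mem hx) _ h
        simpa [mul_assoc] using this
      let T : Subgroup (MulAut R) :=
        { carrier := {γ | (∀ r : R, ((γ r : R) : Ω) * (r : Ω)⁻¹ ∈ Z) ∧ ∀ r : R, (r : Ω) ∈ Z → γ r = r}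
          one_mem' := ⟨fun r => by simp, fun r _ => rfl⟩
          mul_mem' := fun {a b} ha hb => ⟨fun r => by
              have := Z.mul_mem (ha.1 (b r)) (hb.1 r)
              simpa [mul_assoc, MulAut.mul_apply] using this,
            fun r hr' => by rw [MulAut.mul_apply, hb.2 r hr', ha.2 r hr']⟩
          inv_mem' := fun {a} ha => ⟨fun r => by
              have := Z.inv_mem (ha.1 (a⁻¹ r))
              rw [MulAut.apply_inv_self] at this
              simpa using this,
            fun r hr' => by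
              conv_lhs => rw [← ha.2 r hr']
              exact MulAut.inv_apply_self R a r⟩ }
      have hTp : IsPGroup p T := by
        intro γ
        obtain ⟨n, hn⟩ := IsPGroup.iff_card.1 (hS.to_le hc.1)
        refine ⟨n, Subtype.ext (MulEquiv.ext fun r => Subtype.ext ?_)⟩
        have key : ∀ k : ℕ, (((γ : MulAut R) ^ k) r : Ω) = ((((γ : MulAut R) r : R) : Ω) * (r : Ω)⁻¹) ^ k * r := by
          intro k
          induction k with
          | zero => simp
          | succ k ih =>
            rw [pow_succ', MulAut.mul_apply]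
            have hz : ((((γ : MulAut R) r : R) : Ω) * (r : Ω)⁻¹) ^ k ∈ Z := Z.pow_mem (γ.2.1 r) k
            have e : ((γ : MulAut R) ^ k) r = ⟨_, hZR R hc hz⟩ * r := Subtype.ext ih
            rw [e, map_mul, γ.2.2 _ hz, Subgroup.coe_mul, pow_succ, mul_assoc _ _ (r : Ω), inv_mul_cancel_right]
        have hR1 : ((((γ : MulAut R) r : R) : Ω) * (r : Ω)⁻¹) ^ p ^ n = 1 := by
          have := congrArg Subtype.val (pow_card_eq_one' (x := ((γ : MulAut R) r * r⁻¹)))
          rw [← hn]
          rw [SubmonoidClass.coe_pow, Subgroup.coe_mul, Subgroup.coe_inv] at this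
          exact this
        rw [SubmonoidClass.coe_pow, key, hR1, one_mul]
        rfl
      have hT' : (T.subgroupOf (F.autGroup R)).Normal := ⟨fun γ hγ α => by
        refine ⟨fun r => ?_, fun r hr' => ?_⟩
        · show ((((α : MulAut R) * γ * (α : MulAut R)⁻¹) r : R) : Ω) * (r : Ω)⁻¹ ∈ Z
          simp only [MulAut.mul_apply]
          set u := (α : MulAut R)⁻¹ r with hu
          have hz : (((γ : MulAut R) u : R) : Ω) * (u : Ω)⁻¹ ∈ Z := hγ.1 u
          have e : (γ : MulAut R) u = ⟨_, hZR R hc hz⟩ * u := Subtype.ext (by simp)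
          have e2 : (α : MulAut R) u = r := MulAut.apply_inv_self _ _ _
          rw [e, map_mul, Subgroup.coe_mul, e2, mul_inv_cancel_right]
          have := apply_of_isCentral hZc ((mem_autGroup hc.1).1 α.2) (⟨_, hZR R hc hz⟩ : R) hz
          exact Eq.subst (motive := fun t => t ∈ Z) this.symm hz
        · show ((α : MulAut R) * γ * (α : MulAut R)⁻¹) r = r
          simp only [MulAut.mul_apply]
          have h1 : (α : MulAut R)⁻¹ r = r := Subtype.ext
            (apply_of_isCentral hZc ((mem_autGroup hc.1).1 (inv_mem α.2)) r hr')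
          rw [h1]
          have h3 : (γ : MulAut R) r = r := hγ.2 r hr'
          rw [h3]
          exact Subtype.ext (apply_of_isCentral hZc ((mem_autGroup hc.1).1 α.2) r hr')⟩
      set β := conjAut R S ⟨x, hKS hx, hxN⟩
      have hβA : β ∈ F.autGroup R := autInducedBy_le_autGroup hc.1 (range_conjAut (P := R) S ▸ ⟨_, rfl⟩)
      have hβT : β ∈ T := by
        refine ⟨fun r => ?_, fun r hr' => Subtype.ext ?_⟩
        · show x * r * x⁻¹ * (r : Ω)⁻¹ ∈ Z
          have := hmodS r (hc.1 r.2) x⁻¹ (K.inv_mem hx)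
          simpa [mul_assoc] using this
        · show x * r * x⁻¹ = (r : Ω)
          rw [← Subgroup.mem_centralizer_iff.1 (hZS (hKS hx)) r hr', mul_inv_cancel_right]
      have hI : β ∈ Cfsg.Inn R := hr.2 ▸
        (⟨⟨β, hβA⟩, CfsgLib.PCore.le_pCore hT' (hTp.comap_of_injective _ (Subgroup.subtype_injective _)) hβT, rfl⟩ :
          β ∈ (Cfsg.pCore p (F.autGroup R)).map (F.autGroup R).subtype)
      exact mem_self_of_inn hc (hKS hx) (fun _ => rfl) hI
    -- commutation with `K` is invariant under fusion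
    let δsys : Cfsg.FusionSystem S :=
      { Hom := fun P => {φ | φ ∈ F.Hom P ∧ ∀ x ∈ K, ∀ u : P, x * φ u * x⁻¹ * (φ u)⁻¹ = x * u * x⁻¹ * (u : Ω)⁻¹}
        le_of_mem := fun h => F.le_of_mem h.1
        injective_of_mem := fun h => F.injective_of_mem h.1
        conj_mem := by
          intro P g hP hg
          refine ⟨F.conj_mem hP hg, fun x hx u => ?_⟩
          show x * (g * u * g⁻¹) * x⁻¹ * (g * u * g⁻¹)⁻¹ = _
          have hz := hmodS g hg x⁻¹ (K.inv_mem hx)
          rw [inv_inv] at hz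
          set z := x * (g * x⁻¹ * g⁻¹) with hzdef
          have hzu : z * (u : Ω) = (u : Ω) * z := (Subgroup.mem_centralizer_iff.1 (hZS (hP u.2)) z hz).trans rfl
          have hzx : z * x = x * z := Subgroup.mem_centralizer_iff.1 (hZS (hKS hx)) z hz
          have hzg : z * g = g * z := Subgroup.mem_centralizer_iff.1 (hZS hg) z hz
          have hw := hmodS u (hP u.2) x⁻¹ (K.inv_mem hx)
          rw [inv_inv] at hw
          have hwg : (x * (u * x⁻¹ * (u : Ω)⁻¹)) * g = g * (x * (u * x⁻¹ * (u : Ω)⁻¹)) :=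
            Subgroup.mem_centralizer_iff.1 (hZS hg) _ hw
          have hxg : x * g = z * g * x := by rw [hzdef]; group
          calc x * (g * u * g⁻¹) * x⁻¹ * (g * u * g⁻¹)⁻¹
              = (x * g) * u * (x * g)⁻¹ * g * (u : Ω)⁻¹ * g⁻¹ := by group
            _ = z * g * (x * u * x⁻¹) * g⁻¹ * (z⁻¹ * g) * (u : Ω)⁻¹ * g⁻¹ := by rw [hxg]; group
            _ = z * g * (x * u * x⁻¹) * g⁻¹ * (g * z⁻¹) * (u : Ω)⁻¹ * g⁻¹ := by
                rw [(show Commute z g from hzg).inv_left.eq]
            _ = z * g * (x * u * x⁻¹) * (z⁻¹ * (u : Ω)⁻¹) * g⁻¹ := by group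
            _ = z * g * (x * u * x⁻¹) * ((u : Ω)⁻¹ * z⁻¹) * g⁻¹ := by
                rw [(show Commute z u from hzu).inv_inv.eq]
            _ = z * ((g * (x * (u * x⁻¹ * (u : Ω)⁻¹))) * (z⁻¹ * g⁻¹)) := by group
            _ = z * (((x * (u * x⁻¹ * (u : Ω)⁻¹)) * g) * (g⁻¹ * z⁻¹)) := by
                rw [hwg, (show Commute z g from hzg).inv_inv.eq]
            _ = z * (x * (u * x⁻¹ * (u : Ω)⁻¹)) * z⁻¹ := by group
            _ = x * u * x⁻¹ * (u : Ω)⁻¹ := by
                rw [Subgroup.mem_centralizer_iff.1 (hZS (hZc.1 hw)) z hz, mul_inv_cancel_right]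
                simp [mul_assoc]
        comp_mem := fun h1 h2 h3 => ⟨F.comp_mem h1.1 h2.1 h3, fun x hx u => (h2.2 x hx _).trans (h1.2 x hx u)⟩
        inv_mem := by
          rintro P φ ⟨hφ, h⟩
          obtain ⟨ψ, hψ, hψv⟩ := F.inv_mem hφ
          refine ⟨ψ, ⟨hψ, fun x hx v => ?_⟩, hψv⟩
          obtain ⟨_, u, rfl⟩ := v
          rw [hψv]
          exact (h x hx u).symm }
    have hδ : ∀ P φ, φ ∈ F.Hom P → φ ∈ δsys.Hom P := by
      refine fun P φ hφ => le_of_centricRadical hS hF δsys (fun R hR hc hr α hα => ?_) P hφ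
      refine (mem_autGroup hR.1).2 ⟨(mem_autGroup hR.1).1 hα, fun x hx u => ?_⟩
      have hxR := hKR R hc hr hx
      have hxc := hmod R _ ((mem_autGroup hR.1).1 hα) ⟨x, hxR⟩ hx
      set z := x⁻¹ * ((α ⟨x, hxR⟩ : R) : Ω)
      have hαx : ((α ⟨x, hxR⟩ : R) : Ω) = x * z := by simp [z]
      have hzu : ∀ v : R, z * (v : Ω) = (v : Ω) * z := fun v =>
        Subgroup.mem_centralizer_iff.1 (hZS (hR.1 v.2)) z hxc
      have hw := hmodS u (hR.1 u.2) x⁻¹ (K.inv_mem hx)
      rw [inv_inv, show x * (u * x⁻¹ * (u : Ω)⁻¹) = x * u * x⁻¹ * (u : Ω)⁻¹ by group] at hw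
      have h1 : ((α (⟨x, hxR⟩ * u * ⟨x, hxR⟩⁻¹ * u⁻¹) : R) : Ω) = x * u * x⁻¹ * (u : Ω)⁻¹ :=
        apply_of_isCentral hZc ((mem_autGroup hR.1).1 hα) _ hw
      rw [map_mul, map_mul, map_mul, map_inv, map_inv, Subgroup.coe_mul, Subgroup.coe_mul, Subgroup.coe_mul,
        Subgroup.coe_inv, Subgroup.coe_inv, hαx] at h1
      rw [← h1]
      show x * ((α u : R) : Ω) * x⁻¹ * ((α u : R) : Ω)⁻¹ = x * z * (α u : R) * (x * z)⁻¹ * ((α u : R) : Ω)⁻¹
      rw [mul_assoc x z, hzu (α u)]
      group
    have hKZ : S ≤ Subgroup.centralizer (K : Set Ω) := by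
      have hle : F.hyperfocalSubgroup p ≤ S ⊓ Subgroup.centralizer (K : Set Ω) := by
        refine (Subgroup.closure_le _).2 ?_
        rintro _ ⟨P, α, u, hP, -, rfl⟩
        refine ⟨S.mul_mem (S.inv_mem (hP u.2)) (hP (Subtype.prop _)), Subgroup.mem_centralizer_iff.2 fun x hx => ?_⟩
        have h1 : x * ((α : MulAut P) u : P) * x⁻¹ * (((α : MulAut P) u : P) : Ω)⁻¹ = x * u * x⁻¹ * (u : Ω)⁻¹ :=
          (hδ P _ ((mem_autGroup hP).1 α.2)).2 x hx u
        set v := (((α : MulAut P) u : P) : Ω)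
        set c := x * u * x⁻¹ * (u : Ω)⁻¹ with hc
        have hcZ : c ∈ Z := by
          have hw := hmodS u (hP u.2) x⁻¹ (K.inv_mem hx)
          rwa [inv_inv, show x * (u * x⁻¹ * (u : Ω)⁻¹) = c by rw [hc]; group] at hw
        have hcu : (u : Ω)⁻¹ * c = c * (u : Ω)⁻¹ :=
          (Subgroup.mem_centralizer_iff.1 (hZS (S.inv_mem (hP u.2))) c hcZ).symm
        have e1 : x * v * x⁻¹ = c * v := by rw [← h1]; group
        have e2 : x * (u : Ω)⁻¹ * x⁻¹ = c⁻¹ * (u : Ω)⁻¹ := by
          have : c⁻¹ * (u : Ω)⁻¹ = (u : Ω)⁻¹ * c⁻¹ := by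
            rw [← mul_inv_rev, ← mul_inv_rev]
            exact congrArg _ (Subgroup.mem_centralizer_iff.1 (hZS (hP u.2)) c hcZ).symm
          rw [this, hc]
          group
        rw [← mul_inv_eq_iff_eq_mul]
        calc x * ((u : Ω)⁻¹ * v) * x⁻¹ = (x * (u : Ω)⁻¹ * x⁻¹) * (x * v * x⁻¹) := by group
          _ = c⁻¹ * ((u : Ω)⁻¹ * c) * v := by rw [e1, e2]; group
          _ = c⁻¹ * (c * (u : Ω)⁻¹) * v := by rw [hcu]
          _ = (u : Ω)⁻¹ * v := by group
      exact fun s hs => (hle (hperf.ge hs)).2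
    have hKc : F.IsCentral K := by
      refine isCentral_of_fixed hS hF hKS hKZ fun R hR hc hr α hα => ?_
      haveI := finite_mulAut (S := S) hR.1
      set A := F.autGroup R
      let Fix : Subgroup A :=
        { carrier := {a | ∀ r : R, (r : Ω) ∈ K → (a : MulAut R) r = r}
          one_mem' := fun r _ => rfl
          mul_mem' := fun {a b} ha hb r hr' => by rw [Subgroup.coe_mul, MulAut.mul_apply, hb r hr', ha r hr']
          inv_mem' := fun {a} ha r hr' => by
            conv_lhs => rw [← ha r hr']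
            exact MulAut.inv_apply_self R (a : MulAut R) r }
      have h1 : Cfsg.pResidual p A ≤ Fix := by
        refine (Subgroup.closure_le _).2 fun a ha r hr' => ?_
        set z := (r : Ω)⁻¹ * (((a : MulAut R) r : R) : Ω) with hz
        have hzZ : z ∈ Z := hmod R _ ((mem_autGroup hR.1).1 a.2) r hr'
        have hzR : z ∈ R := hZR R hc hzZ
        have hzfix : (a : MulAut R) ⟨z, hzR⟩ = ⟨z, hzR⟩ :=
          Subtype.ext (apply_of_isCentral hZc ((mem_autGroup hR.1).1 a.2) _ hzZ)
        have hra : (a : MulAut R) r = r * ⟨z, hzR⟩ := Subtype.ext (by simp [hz])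
        have hit : ∀ k : ℕ, (((a : MulAut R) ^ k) r) = r * ⟨z, hzR⟩ ^ k := by
          intro k
          induction k with
          | zero => simp
          | succ k ih => rw [pow_succ', MulAut.mul_apply, ih, map_mul, map_pow, hra, hzfix, mul_assoc, ← pow_succ']
        have hz1 := hit (orderOf a)
        rw [← SubmonoidClass.coe_pow, pow_orderOf_eq_one, Subgroup.coe_one, MulAut.one_apply, left_eq_mul,
          ← orderOf_dvd_iff_pow_eq_one] at hz1
        obtain ⟨n, hn⟩ := IsPGroup.iff_orderOf.1 (hS.to_le hR.1) (⟨z, hzR⟩ : R)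
        have := orderOf_eq_one_iff.1 (Nat.eq_one_of_dvd_coprimes ((ha : (orderOf a).Coprime p).pow_right n) hz1
          (dvd_of_eq hn))
        rw [hra, this, mul_one]
      obtain ⟨-, T, hT⟩ := fullyAutomized_of_fullyNormalized hS hF hR
      have h2 : (T : Subgroup A) ≤ Fix := by
        intro a ha r hr'
        rw [hT, Subgroup.mem_subgroupOf, mem_autInducedBy] at ha
        obtain ⟨s, hs, hsr⟩ := ha
        apply Subtype.ext
        rw [hsr, ← Subgroup.mem_centralizer_iff.1 (hKZ hs) r hr', mul_inv_cancel_right]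
      have hfix : (⟨α, hα⟩ : A) ∈ Fix := (CfsgLib.Transfer.pResidual_sup_sylow T).ge.trans (sup_le h1 h2)
        (Subgroup.mem_top _)
      have hαm := (mem_autGroup hR.1).1 hα
      have hCS : centralizerIn S K = S := le_antisymm inf_le_left (le_inf le_rfl hKZ)
      refine (mem_autGroup (hR.1.trans hCS.ge)).2 ⟨hαm, hR.1.trans hCS.ge, fun x => hCS.ge (val_mem hαm x),
        (R.subtype.comp α.toMonoidHom).comp (Subgroup.inclusion (sup_le le_rfl (hKR R hc hr))), restrict hαm _,
        fun x => rfl, fun k => ?_⟩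
      exact congrArg Subtype.val (hfix ⟨k, hKR R hc hr k.2⟩ k.2)
    refine (Subgroup.eq_bot_iff_forall _).2 fun y hy => ?_
    obtain ⟨x, rfl⟩ := QuotientGroup.mk'_surjective _ y
    exact (hker x).2 ((le_sSup hKc : K ≤ F.center) (mem_preimageAlong.2 ⟨x.2, hy⟩))

end Cfsg.Agent.S5315
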