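import Cfsg.Statements.S5322
import Cfsg.Agent.J3Fusion.Wrap
import Cfsg.Agent.J3Mult.Cent

set_option autoImplicit false
open Cfsg

namespace Cfsg.Agent.S5322

/-- For a finite group G isomorphic to the third Janko group J₃, the 2-fusion system of G on a Sylow 2-subgroup is simple: saturated, over a nontrivial 2-group, with no normal subsystem other than the trivial one and itself. -/
theorem result {G : Type*} [Group G] [Finite G] (hG : Cfsg.Spor.IsoJ3 G) (S : Sylow 2 G) : (Cfsg.groupFusionSystem (S : Subgroup G)).IsSimple 2 := by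
  obtain ⟨F, hfld, hfin, ω, hF, hω, ⟨e⟩⟩ := hG
  haveI : Finite (Cfsg.Spor.J3 F ω) := CfsgLib.J3Mult.finite_J3
  obtain ⟨t, ht, hone, hrest⟩ := CfsgLib.J3Mult.centraliser_shape hF hω
  exact CfsgLib.J3Fusion.isSimple_of_data e (CfsgLib.J3Mult.card_J3 hF hω)
    ⟨fun x y hx hy => (hone x hx).symm.trans (hone y hy), t, ht, hrest⟩ S

end Cfsg.Agent.S5322
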