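import Cfsg.Statements.S5329
import Cfsg.Agent.Fusion.Biset.TransferCenter

set_option autoImplicit false
open Cfsg

namespace Cfsg.Agent.S5329

/-- For a saturated fusion system F over a finite p-group S, the focal subgroup and the derived subgroup of S meet the centre Z(F) of the system in the same subgroup: foc(F) ∩ Z(F) = S′ ∩ Z(F). -/
theorem result {Ω : Type*} [Group Ω] {S : Subgroup Ω} [Finite S] (p : ℕ) [Fact p.Prime] (hS : IsPGroup p S) (F : Cfsg.FusionSystem S) (hF : F.IsSaturated p) : F.focalSubgroup ⊓ F.center = ⁅(S : Subgroup Ω), (S : Subgroup Ω)⁆ ⊓ F.center := by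
  classical
  refine le_antisymm (le_inf ?_ inf_le_right) (le_inf ?_ inf_le_right)
  · intro y hy
    have hyS : y ∈ S := (Cfsg.Agent.S5144.result F).1 hy.2
    obtain ⟨n, hn, hst, hdeg⟩ := CfsgLib.Biset.exists_stable hS hF
    have h1 := CfsgLib.Biset.btransfer_of_mem_center hn (Abelianization.of (G := S)) (z := ⟨y, hyS⟩) hy.2
    rw [CfsgLib.Biset.btransfer_focal hn hst _ hy.1, ← map_pow, eq_comm] at h1
    have h2 : (⟨y, hyS⟩ : S) ^ CfsgLib.Biset.degree n ∈ commutator S := by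
      rw [← Abelianization.ker_of]; exact h1
    obtain ⟨m, hm⟩ := hS ⟨y, hyS⟩
    have hd : (orderOf (⟨y, hyS⟩ : S)).Coprime (CfsgLib.Biset.degree n) :=
      Nat.Coprime.coprime_dvd_left (orderOf_dvd_of_pow_eq_one hm)
        (Nat.Coprime.pow_left m ((Nat.Prime.coprime_iff_not_dvd Fact.out).2 hdeg))
    obtain ⟨k, hk⟩ := exists_pow_eq_self_of_coprime hd.symm
    have h3 : (⟨y, hyS⟩ : S) ∈ commutator S := hk ▸ (commutator S).pow_mem h2 k
    have h4 := Subgroup.mem_map_of_mem S.subtype h3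
    rwa [commutator_def, Subgroup.map_commutator, ← MonoidHom.range_eq_map, Subgroup.range_subtype] at h4
  · refine inf_le_left.trans (Subgroup.commutator_le.2 fun a ha b hb => ?_)
    refine Subgroup.subset_closure ⟨S, Cfsg.conjHom S b, ⟨a⁻¹, S.inv_mem ha⟩, F.conj_mem le_rfl hb, ?_⟩
    show a * b * a⁻¹ * b⁻¹ = a⁻¹⁻¹ * (b * a⁻¹ * b⁻¹)
    simp [mul_assoc]

end Cfsg.Agent.S5329
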