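import Cfsg.Statements.S5330
import Cfsg.Agent.Fusion.Abelian
-- import your own Cfsg.Agent.* helpers here

set_option autoImplicit false
open Cfsg

namespace Cfsg.Agent.S5330

open CfsgLib.Fusion

/-- Coprime action on a finite abelian group: fixed points and commutator are complements. -/
theorem coprime_split {M : Type*} [CommGroup M] [Finite M] {p : ℕ} [Fact p.Prime] (hM : IsPGroup p M)
    (A : Subgroup (MulAut M)) [Finite A] (hA : ¬ p ∣ Nat.card A) (K R : Subgroup M)
    (hK : ∀ x, x ∈ K ↔ ∀ α ∈ A, α x = x)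
    (hR : R = Subgroup.closure {y | ∃ α ∈ A, ∃ x, y = x⁻¹ * α x}) : K ⊓ R = ⊥ ∧ K ⊔ R = ⊤ := by
  classical
  letI : Fintype A := Fintype.ofFinite A
  let τ : M →* M := ∏ α : A, (α : MulAut M).toMonoidHom
  have hτ : ∀ x, τ x = ∏ α : A, (α : MulAut M) x := fun x => MonoidHom.finset_prod_apply _ _ _
  have hcop : ∀ x : M, (Nat.card A).Coprime (orderOf x) := fun x => by
    obtain ⟨k, hk⟩ := IsPGroup.iff_orderOf.1 hM x
    rw [hk]
    exact ((Nat.Prime.coprime_iff_not_dvd Fact.out).2 hA).symm.pow_right k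
  constructor
  · rw [eq_bot_iff]
    rintro x ⟨hxK, hxR⟩
    have h1 : τ x = x ^ Nat.card A := by
      rw [hτ, Finset.prod_congr rfl fun α _ => (hK x).1 hxK α.1 α.2, Finset.prod_const,
        Finset.card_univ, Nat.card_eq_fintype_card]
    have h2 : R ≤ τ.ker := by
      rw [hR, Subgroup.closure_le]
      rintro _ ⟨α, hα, y, rfl⟩
      rw [SetLike.mem_coe, MonoidHom.mem_ker, map_mul, map_inv, inv_mul_eq_one, hτ, hτ]
      exact (Fintype.prod_equiv (Equiv.mulRight (⟨α, hα⟩ : A)) _ _ fun β => rfl).symm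
    obtain ⟨m, hm⟩ := exists_pow_eq_self_of_coprime (hcop x)
    rw [Subgroup.mem_bot, ← hm, ← h1, MonoidHom.mem_ker.1 (h2 hxR), one_pow]
  · rw [eq_top_iff]
    rintro x -
    have h1 : τ x ∈ K := by
      refine (hK _).2 fun α hα => ?_
      rw [hτ, map_prod]
      exact Fintype.prod_equiv (Equiv.mulLeft (⟨α, hα⟩ : A)) _ _ fun β => rfl
    have h2 : (∏ α : A, x * ((α : MulAut M) x)⁻¹) ∈ R := by
      refine prod_mem fun α _ => ?_
      have h : x⁻¹ * (α : MulAut M) x ∈ R := hR ▸ Subgroup.subset_closure ⟨α, α.2, x, rfl⟩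
      rw [← inv_inv x, ← mul_inv, inv_inv]
      exact R.inv_mem h
    have h3 : x ^ Nat.card A = τ x * ∏ α : A, x * ((α : MulAut M) x)⁻¹ := by
      rw [hτ, ← Finset.prod_mul_distrib,
        Finset.prod_congr rfl (g := fun _ => x) (fun α _ => by rw [mul_comm x, mul_inv_cancel_left]),
        Finset.prod_const, Finset.card_univ, Nat.card_eq_fintype_card]
    obtain ⟨m, hm⟩ := exists_pow_eq_self_of_coprime (hcop x)
    rw [← hm]
    exact pow_mem (h3 ▸ mul_mem (Subgroup.mem_sup_left h1) (Subgroup.mem_sup_right h2)) m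


/-- Let F be a saturated fusion system over a finite abelian p-group S. Then S is the internal direct product of the centre of the system and the focal subgroup: Z(F) ∩ foc(F) = 1 and Z(F)·foc(F) = S. -/
theorem result {Ω : Type*} [Group Ω] {S : Subgroup Ω} [Finite S] (p : ℕ) [Fact p.Prime] (hS : IsPGroup p S) (F : Cfsg.FusionSystem S) (hF : F.IsSaturated p) (hab : ∀ x ∈ S, ∀ y ∈ S, x * y = y * x) : F.center ⊓ F.focalSubgroup = ⊥ ∧ F.center ⊔ F.focalSubgroup = S := by
  letI : CommGroup ↥S :=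
    { (inferInstance : Group ↥S) with mul_comm := fun a b => Subtype.ext (hab a a.2 b b.2) }
  haveI := finite_mulAut (S := S) le_rfl
  set A := F.autGroup S
  let K : Subgroup ↥S :=
    { carrier := {x | ∀ α ∈ A, α x = x}
      mul_mem' := fun ha hb α hα => by rw [map_mul, ha α hα, hb α hα]
      one_mem' := fun α _ => map_one α
      inv_mem' := fun ha α hα => by rw [map_inv, ha α hα] }
  let R : Subgroup ↥S := Subgroup.closure {y | ∃ α ∈ A, ∃ x, y = x⁻¹ * α x}
  obtain ⟨h1, h2⟩ := coprime_split hS A (not_dvd_card_autGroup hS hF hab) K R (fun _ => Iff.rfl) rfl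
  have hZ : F.center = K.map S.subtype := by
    refine le_antisymm (sSup_le fun Q hQ q hq => ?_) (le_sSup ⟨Subgroup.map_subtype_le K, fun P φ hφ => ?_⟩)
    · exact ⟨⟨q, hQ.1 hq⟩, fun α hα => mem_fixed_of_isCentral hQ hα _ hq, rfl⟩
    · obtain ⟨α, hα, hαφ⟩ := exists_aut_of_hom hS hF hab hφ
      have hle : P ⊔ K.map S.subtype ≤ S := sup_le (le_of_hom hφ) (Subgroup.map_subtype_le K)
      refine ⟨_, restrict ((mem_autGroup le_rfl).1 hα) hle, fun x => hαφ x, ?_⟩
      rintro ⟨_, x, hx, rfl⟩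
      exact congrArg (fun s : S => (s : Ω)) (hx α hα)
  have hfoc : F.focalSubgroup = R.map S.subtype := by
    rw [show R.map S.subtype = Subgroup.closure (S.subtype '' _) from MonoidHom.map_closure _ _]
    refine le_antisymm ((Subgroup.closure_le _).2 ?_) ((Subgroup.closure_le _).2 ?_)
    · rintro _ ⟨P, φ, x, hφ, rfl⟩
      obtain ⟨α, hα, hαφ⟩ := exists_aut_of_hom hS hF hab hφ
      refine Subgroup.subset_closure
        ⟨(⟨x, le_of_hom hφ x.2⟩ : S)⁻¹ * α ⟨x, le_of_hom hφ x.2⟩, ⟨α, hα, _, rfl⟩, ?_⟩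
      show (x : Ω)⁻¹ * _ = _
      rw [hαφ]
    · rintro _ ⟨_, ⟨α, hα, x, rfl⟩, rfl⟩
      exact Subgroup.subset_closure ⟨S, _, x, (mem_autGroup le_rfl).1 hα, rfl⟩
  rw [hZ, hfoc, ← Subgroup.map_inf _ _ _ S.subtype_injective, h1, Subgroup.map_bot, ← Subgroup.map_sup, h2,
    ← MonoidHom.range_eq_map, Subgroup.range_subtype]
  exact ⟨rfl, rfl⟩

end Cfsg.Agent.S5330
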