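import Cfsg.Statements.S5331
import Cfsg.Agent.Fusion.Abelian
-- import your own Cfsg.Agent.* helpers here

set_option autoImplicit false
open Cfsg

namespace Cfsg.Agent.S5331

open CfsgLib.Fusion

theorem two_torsion {a : ℕ} (z : ZMod (2 ^ a)) (hz : 2 * z = 0) :
    z = 0 ∨ z = ((2 ^ (a - 1) : ℕ) : ZMod (2 ^ a)) := by
  haveI : NeZero (2 ^ a) := ⟨by positivity⟩
  rw [← ZMod.natCast_zmod_val z] at hz ⊢
  have hlt := z.val_lt
  generalize z.val = m at hz hlt ⊢
  have hd : 2 ^ a ∣ 2 * m := by rw [← ZMod.natCast_eq_zero_iff]; exact_mod_cast hz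
  obtain ⟨c, hc⟩ := hd
  have hc2 : c < 2 := by
    by_contra h
    push Not at h
    have := Nat.mul_le_mul_left (2 ^ a) h
    omega
  interval_cases c
  · exact Or.inl (by rw [show m = 0 by omega, Nat.cast_zero])
  · right
    rcases a with _ | a
    · omega
    · rw [pow_succ] at hc
      rw [show m = 2 ^ (a + 1 - 1) by rw [Nat.add_sub_cancel]; omega]

/-- Coprime order automorphisms of the group with distinct cyclic exponents are trivial. -/
theorem aut_eq_one {M : Type*} [CommGroup M] {n : ℕ} (a : Fin n → ℕ) (ha : StrictMono a)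
    (ha1 : ∀ i, 1 ≤ a i) (e : M ≃* Multiplicative ((i : Fin n) → ZMod (2 ^ a i))) (β : MulAut M)
    {m : ℕ} (hm : Odd m) (hβ : β ^ m = 1) : β = 1 := by
  let v : M → (i : Fin n) → ZMod (2 ^ a i) := fun x => (e x).toAdd
  have hv1 : ∀ x, (∀ i, v x i = 0) → x = 1 := fun x hx => by
    apply e.injective; rw [map_one]; exact Multiplicative.toAdd.injective (funext hx)
  have hvpow : ∀ x (k : ℕ) i, v (x ^ k) i = k • v x i := fun x k i => by simp [v, map_pow]
  have hvmul : ∀ x y i, v (x * y) i = v x i + v y i := fun x y i => by simp [v, map_mul]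
  have hvinv : ∀ x i, v x⁻¹ i = - v x i := fun x i => by simp [v, map_inv]
  -- the subgroups of elements of order at most two with vanishing lower coordinates are invariant
  have inv : ∀ (γ : MulAut M) (x : M), x ^ 2 = 1 → ∀ i : Fin n, (∀ k < i, v x k = 0) →
      ∀ k < i, v (γ x) k = 0 := by
    intro γ x hx i hlow k hk
    have hy : ∀ j : Fin n, ∃ y : ZMod (2 ^ a j), v x j = (2 ^ (a i - 1)) • y := by
      intro j
      rcases lt_or_ge j i with hj | hj
      · exact ⟨0, by rw [hlow j hj, smul_zero]⟩
      · have h2 : 2 * v x j = 0 := by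
          have := hvpow x 2 j
          rw [hx] at this
          simpa [v, nsmul_eq_mul, mul_comm] using this.symm
        rcases two_torsion _ h2 with h | h
        · exact ⟨0, by rw [h, smul_zero]⟩
        · refine ⟨((2 ^ (a j - a i) : ℕ) : ZMod (2 ^ a j)), ?_⟩
          rw [h, nsmul_eq_mul, ← Nat.cast_mul, ← pow_add,
            show a i - 1 + (a j - a i) = a j - 1 by have := ha.monotone hj; have := ha1 i; omega]
    choose y hy using hy
    obtain ⟨z, hz⟩ : ∃ z, v z = y := ⟨e.symm (Multiplicative.ofAdd y), by simp [v]⟩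
    have hxz : x = z ^ (2 ^ (a i - 1)) := by
      apply e.injective
      apply Multiplicative.toAdd.injective
      funext j
      show v x j = v (z ^ _) j
      rw [hvpow, hz, hy]
    rw [hxz, map_pow, hvpow, nsmul_eq_mul]
    have hle : a k ≤ a i - 1 := by have := ha hk; omega
    rw [(ZMod.natCast_eq_zero_iff _ _).2 (pow_dvd_pow 2 hle), zero_mul]
  have fixd : ∀ x : M, (β (x⁻¹ * β x) = x⁻¹ * β x) → (x⁻¹ * β x) ^ 2 = 1 → β x = x := by
    intro x hfix hsq
    set d := x⁻¹ * β x with hd
    have hx' : β x = x * d := by rw [hd, mul_inv_cancel_left]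
    have hpow : ∀ k : ℕ, (β ^ k) x = x * d ^ k := by
      intro k
      induction k with
      | zero => simp
      | succ k ihk => rw [pow_succ', MulAut.mul_apply, ihk, map_mul, map_pow, hfix, hx', mul_assoc, ← pow_succ']
    have h1 := hpow m
    rw [hβ, MulAut.one_apply, left_eq_mul] at h1
    obtain ⟨j, rfl⟩ := hm
    rw [pow_succ, pow_mul, hsq, one_pow, one_mul] at h1
    rw [hx', h1, mul_one]
  -- order two elements are fixed
  have tors : ∀ (j : ℕ) (x : M), x ^ 2 = 1 → (∀ k : Fin n, (k : ℕ) + j < n → v x k = 0) → β x = x := by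
    intro j
    induction j with
    | zero =>
      intro x _ h
      rw [hv1 x fun i => h i (by omega), map_one]
    | succ j ih =>
      intro x hx h
      by_cases hj : j < n
      swap
      · exact ih x hx fun k hk => absurd hk (by omega)
      let i : Fin n := ⟨n - (j + 1), by omega⟩
      have hlow : ∀ k < i, v x k = 0 := fun k hk => h k (by
        have : (k : ℕ) < n - (j + 1) := hk
        omega)
      have hlow' := inv β x hx i hlow
      have hi : v (β x) i = v x i := by
        have h2 : ∀ w : M, w ^ 2 = 1 → 2 * v w i = 0 := fun w hw => by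
          have := hvpow w 2 i
          rw [hw] at this
          simpa [v, nsmul_eq_mul] using this.symm
        have hx' : (β x) ^ 2 = 1 := by rw [← map_pow, hx, map_one]
        -- if one coordinate vanishes, so does the other
        have key : ∀ (γ : MulAut M) (w : M), w ^ 2 = 1 → (∀ k < i, v w k = 0) → v w i = 0 → v (γ w) i = 0 := by
          intro γ w hw hwlow hwi
          by_cases hlast : (i : ℕ) + 1 < n
          · exact inv γ w hw ⟨(i : ℕ) + 1, hlast⟩ (fun k hk => (lt_or_eq_of_le (Nat.lt_succ_iff.1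
              (show (k : ℕ) < (i : ℕ) + 1 from hk))).elim (fun h => hwlow k h)
              (fun h => (Fin.ext h : k = i) ▸ hwi)) i (Nat.lt_succ_self _)
          · have : w = 1 := hv1 w fun k => (lt_or_eq_of_le (show (k : ℕ) ≤ (i : ℕ) by have := k.2; omega)).elim
              (fun h => hwlow k h) (fun h => (Fin.ext h : k = i) ▸ hwi)
            rw [this, map_one]
            simp [v]
        rcases two_torsion _ (h2 x hx) with h0 | h0
        · rw [h0, key β x hx hlow h0]
        · rcases two_torsion _ (h2 _ hx') with h1 | h1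
          · have := key β⁻¹ (β x) hx' hlow' h1
            rw [MulAut.inv_apply_self] at this
            rw [this, h1]
          · rw [h0, h1]
      have hd2 : (x⁻¹ * β x) ^ 2 = 1 := by
        rw [mul_pow, inv_pow, hx, inv_one, one_mul, ← map_pow, hx, map_one]
      refine fixd x (ih _ hd2 fun k hk => ?_) hd2
      rw [hvmul, hvinv]
      rcases lt_trichotomy k i with hlt | rfl | hgt
      · rw [hlow k hlt, hlow' k hlt, neg_zero, add_zero]
      · rw [hi, neg_add_cancel]
      · have : n - (j + 1) < (k : ℕ) := hgt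
        omega
  have all : ∀ (k : ℕ) (x : M), x ^ (2 ^ k) = 1 → β x = x := by
    intro k
    induction k with
    | zero => intro x hx; rw [pow_zero, pow_one] at hx; rw [hx, map_one]
    | succ k ih =>
      intro x hx
      have h2 : β (x ^ 2) = x ^ 2 := ih _ (by rw [← pow_mul, ← pow_succ']; exact hx)
      have hd2 : (x⁻¹ * β x) ^ 2 = 1 := by rw [mul_pow, inv_pow, ← map_pow, h2, inv_mul_cancel]
      exact fixd x (tors n _ hd2 fun k hk => absurd hk (by omega)) hd2
  refine MulEquiv.ext fun x => all ((Finset.univ : Finset (Fin n)).sup a) x (hv1 _ fun i => ?_)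
  rw [hvpow, nsmul_eq_mul, (ZMod.natCast_eq_zero_iff _ _).2
    (pow_dvd_pow 2 (Finset.le_sup (Finset.mem_univ i))), zero_mul]


/-- Let S be a finite abelian 2-group that is a direct product of cyclic groups of pairwise distinct orders 2^{a_1} < 2^{a_2} < ⋯ < 2^{a_n} (all a_i ≥ 1). Then every saturated fusion system over S is the inner one: its maps are exactly the conjugations by elements of S. -/
theorem result {Ω : Type*} [Group Ω] {S : Subgroup Ω} [Finite S] (n : ℕ) (a : Fin n → ℕ) (ha : StrictMono a) (ha1 : ∀ i, 1 ≤ a i) (e : ↥S ≃* Multiplicative ((i : Fin n) → ZMod (2 ^ a i))) (F : Cfsg.FusionSystem S) (hF : F.IsSaturated 2) (P : Subgroup Ω) : F.Hom P = (Cfsg.innerFusionSystem S).Hom P := by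
  have hab : ∀ x ∈ S, ∀ y ∈ S, x * y = y * x := fun x hx y hy => by
    have : (⟨x, hx⟩ : S) * ⟨y, hy⟩ = ⟨y, hy⟩ * ⟨x, hx⟩ := e.injective (by rw [map_mul, map_mul, mul_comm])
    exact congrArg Subtype.val this
  letI : CommGroup ↥S :=
    { (inferInstance : Group ↥S) with mul_comm := fun a b => Subtype.ext (hab a a.2 b b.2) }
  have hS : IsPGroup 2 S := by
    intro x
    refine ⟨(Finset.univ : Finset (Fin n)).sup a, e.injective ?_⟩
    rw [map_pow, map_one]
    apply Multiplicative.toAdd.injective
    funext i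
    rw [toAdd_pow, Pi.smul_apply, nsmul_eq_mul, (ZMod.natCast_eq_zero_iff _ _).2
      (pow_dvd_pow 2 (Finset.le_sup (Finset.mem_univ i))), zero_mul]
    rfl
  haveI := finite_mulAut (S := S) le_rfl
  have h1 : ∀ α ∈ F.autGroup S, α = 1 := by
    intro α hα
    refine aut_eq_one a ha ha1 e α (m := Nat.card (F.autGroup S)) ?_ ?_
    · rw [← Nat.not_even_iff_odd, even_iff_two_dvd]
      exact not_dvd_card_autGroup hS hF hab
    · exact congrArg Subtype.val (pow_card_eq_one' (x := (⟨α, hα⟩ : F.autGroup S)))
  refine Set.Subset.antisymm (fun φ hφ => ?_) (inner_le F P)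
  obtain ⟨α, hα, hαφ⟩ := exists_aut_of_hom hS hF hab hφ
  refine conj_of_eq (F := Cfsg.innerFusionSystem S) (le_of_hom hφ) S.one_mem fun x => ?_
  rw [← hαφ, h1 α hα]
  simp

end Cfsg.Agent.S5331
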