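import Cfsg.Statements.S5521
import Cfsg.Agent.Golay.M24
import Mathlib
open CfsgLib.Golay

set_option autoImplicit false
open Cfsg

namespace Cfsg.Agent.S5521

/-- The Mathieu group M₂₄ in its natural action on the 24 coordinate positions of the binary Golay code has minimal base size exactly 7: every set of at most 6 positions is fixed pointwise by some non-identity element of M₂₄, while some set of 7 positions is fixed pointwise only by the identity. -/
theorem result :
    (∀ B : Finset Cfsg.GolayPt, B.card ≤ 6 → ∃ g ∈ Cfsg.M24, g ≠ 1 ∧ ∀ b ∈ B, g b = b) ∧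
    (∃ B : Finset Cfsg.GolayPt, B.card = 7 ∧ ∀ g ∈ Cfsg.M24, (∀ b ∈ B, g b = b) → g = 1) := by
  refine ⟨fun B hB => ?_, (basePts.take 7).toFinset, by decide +kernel, fun g hg hfix => ?_⟩
  · obtain ⟨B', hBB, hB6⟩ := Finset.exists_superset_card_eq (s := B) (n := 6) hB
      (by rw [card_pt]; omega)
    obtain ⟨x, hx⟩ := Finset.card_pos.1 (show 0 < B'.card by omega)
    obtain ⟨h, hh, hhs⟩ := exists_map_set (s := (basePts.take 5).toFinset) (t := B'.erase x)
      (by decide +kernel) (by
        rw [Finset.card_erase_of_mem hx, hB6]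
        decide +kernel)
    have hfix5 : ∀ k : chain 5, ∀ r ∈ (basePts.take 5).toFinset, k.1 r = r := fun k r hr =>
      (mem_chain.1 k.2).2 r (List.mem_toFinset.1 hr)
    set y := h⁻¹ x with hy
    have hsub : MulAction.orbit (chain 5) y ⊆ ↑((basePts.take 5).toFinset)ᶜ := by
      rintro z ⟨k, rfl⟩
      simp only [Finset.coe_compl, Set.mem_compl_iff, Finset.mem_coe]
      intro hz
      have h2 : k.1 (k.1 y) = k.1 y := hfix5 k _ hz
      have h3 : k.1 y = y := k.1.injective h2
      have h4 : h • y ∈ B'.erase x := by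
        rw [← hhs]
        refine Finset.smul_mem_smul_finset (a := h) ?_
        rw [← h3]
        exact hz
      simp [hy] at h4
    have horb : (MulAction.orbit (chain 5) y).ncard ≤ 19 := by
      refine (Set.ncard_le_ncard hsub (Set.toFinite _)).trans ?_
      rw [Set.ncard_coe_finset, Finset.card_compl, card_pt]
      decide +kernel
    have hc := card_eq_mul_of_orbit (chain 5) y _ rfl
    rw [card_chain.2.2.2.2.2.1] at hc
    obtain ⟨k, hk, hk1⟩ : ∃ k ∈ chain 5 ⊓ MulAction.stabilizer (Equiv.Perm Cfsg.GolayPt) y, k ≠ 1 := by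
      by_contra hne
      push Not at hne
      rw [(Subgroup.eq_bot_iff_forall _).2 hne, Subgroup.card_bot] at hc
      omega
    refine ⟨h * k * h⁻¹, mul_mem (mul_mem hh (mem_chain.1 hk.1).1) (inv_mem hh),
      fun e => hk1 (conj_eq_one_iff.1 e), fun b hb => ?_⟩
    have hkb : k (h⁻¹ b) = h⁻¹ b := by
      by_cases hbx : b = x
      · subst hbx; exact hk.2
      · have : b ∈ B'.erase x := Finset.mem_erase.2 ⟨hbx, hBB hb⟩
        rw [← hhs, Finset.mem_smul_finset] at this
        obtain ⟨r, hr, rfl⟩ := this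
        have e : h⁻¹ (h • r) = r := h.symm_apply_apply r
        rw [e]
        exact hfix5 ⟨k, hk.1⟩ r hr
    rw [Equiv.Perm.mul_apply, Equiv.Perm.mul_apply, hkb]
    exact h.apply_symm_apply b
  · have : g ∈ chain 7 := mem_chain.2 ⟨hg, fun p hp => hfix p (List.mem_toFinset.2 hp)⟩
    rwa [chain_seven, Subgroup.mem_bot] at this

end Cfsg.Agent.S5521
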