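import Cfsg.Statements.S5562
-- import your own Cfsg.Agent.* helpers here

set_option autoImplicit false
open Cfsg

namespace Cfsg.Agent.S5562

/-- Let G be a finite group, d an involution of G whose conjugates pairwise have products of odd order, and x any involution of G. Then the conjugacy class of d is the disjoint union, over the conjugates a of d commuting with x, of the sets of conjugates of d commuting with ax: every conjugate of d commutes with ax for exactly one conjugate a of d that commutes with x. -/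
theorem result {G : Type*} [Group G] [Finite G] (d : G) (hd : orderOf d = 2)
    (hodd : ∀ a ∈ conjugatesOf d, ∀ b ∈ conjugatesOf d, Odd (orderOf (a * b)))
    (x : G) (hx : orderOf x = 2) :
    ∀ e ∈ conjugatesOf d,
      ∃! a : G, a ∈ conjugatesOf d ∧ Commute a x ∧ Commute e (a * x) := by
  intro e he
  have hinv : ∀ a ∈ conjugatesOf d, a * a = 1 := by
    intro a ha
    obtain ⟨c, rfl⟩ := isConj_iff.1 ha
    have : d * d = 1 := by rw [← pow_two, ← hd, pow_orderOf_eq_one]
    calc c * d * c⁻¹ * (c * d * c⁻¹) = c * (d * d) * c⁻¹ := by group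
      _ = 1 := by rw [this]; group
  have hclosed : ∀ a ∈ conjugatesOf d, ∀ c : G, c * a * c⁻¹ ∈ conjugatesOf d := fun a ha c =>
    IsConj.trans ha (isConj_iff.2 ⟨c, rfl⟩)
  have hsurj : ∀ a ∈ conjugatesOf d, ∀ b ∈ conjugatesOf d,
      ∃ c ∈ conjugatesOf d, c * a * c = b := by
    intro a ha b hb
    set y := a * b with hy
    have hcop : Nat.Coprime 4 (orderOf y) := by
      have h2 : Nat.Coprime 2 (orderOf y) := Nat.coprime_two_left.2 (hodd a ha b hb)
      exact Nat.Coprime.pow_left 2 h2
    obtain ⟨m, hm⟩ := exists_pow_eq_self_of_coprime hcop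
    refine ⟨(y ^ m)⁻¹ * a * y ^ m, ?_, ?_⟩
    · simpa using hclosed a ha (y ^ m)⁻¹
    · have hai : a⁻¹ = a := inv_eq_of_mul_eq_one_right (hinv a ha)
      have hbi : b⁻¹ = b := inv_eq_of_mul_eq_one_right (hinv b hb)
      have hay : ∀ k : ℕ, a * y ^ k * a = (y ^ k)⁻¹ := by
        intro k
        have h1 : a * y * a⁻¹ = y⁻¹ := by
          rw [hy, mul_inv_rev, hai, hbi]
          calc a * (a * b) * a = (a * a) * b * a := by group
            _ = b * a := by rw [hinv a ha, one_mul]
        calc a * y ^ k * a = a * y ^ k * a⁻¹ := by rw [hai]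
          _ = (a * y * a⁻¹) ^ k := conj_pow.symm
          _ = (y ^ k)⁻¹ := by rw [h1, inv_pow]
      calc (y ^ m)⁻¹ * a * y ^ m * a * ((y ^ m)⁻¹ * a * y ^ m)
          = (y ^ m)⁻¹ * (a * y ^ m * a) * (y ^ m)⁻¹ * a * y ^ m := by group
        _ = (y ^ m)⁻¹ * (y ^ m)⁻¹ * (y ^ m)⁻¹ * a * y ^ m := by rw [hay m]
        _ = (y ^ m)⁻¹ * (y ^ m)⁻¹ * (y ^ m)⁻¹ * (a * y ^ m * a) * a⁻¹ := by group
        _ = ((y ^ m)⁻¹) ^ 4 * a := by rw [hay m, hai]; group
        _ = ((y ^ 4) ^ m)⁻¹ * a := by rw [inv_pow, ← pow_mul, ← pow_mul, mul_comm 4 m]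
        _ = b := by
            rw [hm, hy, mul_inv_rev, hai, hbi, mul_assoc, hinv a ha, mul_one]
  let D := {a : G // a ∈ conjugatesOf d}
  let f : D → D := fun a => ⟨a.1 * e * a.1, by
    have := hclosed e he a.1
    rwa [inv_eq_of_mul_eq_one_right (hinv a.1 a.2)] at this⟩
  have hinj : Function.Injective f := Finite.injective_iff_surjective.2 fun b => by
    obtain ⟨c, hc, h⟩ := hsurj e he b.1 b.2
    exact ⟨⟨c, hc⟩, Subtype.ext h⟩
  have hxx : x * x = 1 := by rw [← pow_two, ← hx, pow_orderOf_eq_one]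
  have hxi : x⁻¹ = x := inv_eq_of_mul_eq_one_right hxx
  have hf : x * e * x ∈ conjugatesOf d := by simpa [hxi] using hclosed e he x
  obtain ⟨a, ha, hae⟩ := hsurj e he _ hf
  have haa := hinv a ha
  have hafa : a * (x * e * x) * a = e := by
    rw [← hae]
    calc a * (a * e * a) * a = (a * a) * e * (a * a) := by group
      _ = e := by rw [haa, one_mul, mul_one]
  have hax : a * x = x * a := by
    have hm : x * a * x ∈ conjugatesOf d := by simpa [hxi] using hclosed a ha x
    have := congrArg Subtype.val (@hinj ⟨_, hm⟩ ⟨a, ha⟩ (Subtype.ext (by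
      show x * a * x * e * (x * a * x) = a * e * a
      calc x * a * x * e * (x * a * x) = x * (a * (x * e * x) * a) * x := by group
        _ = a * e * a := by rw [hafa, hae])))
    simp only at this
    calc a * x = (x * a * x) * x := by rw [this]
      _ = x * a * (x * x) := by group
      _ = x * a := by rw [hxx, mul_one]
  refine ⟨a, ⟨ha, hax, ?_⟩, ?_⟩
  · show e * (a * x) = a * x * e
    calc e * (a * x) = (a * (x * e * x) * a) * (a * x) := by rw [hafa]
      _ = a * x * e * (x * (a * a) * x) := by group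
      _ = a * x * e := by rw [haa, mul_one, hxx, mul_one]
  · rintro b ⟨hb, hbx, hbe⟩
    have hbb := hinv b hb
    have hbe' : b * e * b = x * e * x := by
      have hbe2 : e * (b * x) = b * x * e := hbe
      calc b * e * b = b * (e * (b * x)) * x⁻¹ := by group
        _ = (b * b) * x * e * x⁻¹ := by rw [hbe2]; group
        _ = x * e * x := by rw [hbb, one_mul, hxi]
    exact congrArg Subtype.val (@hinj ⟨b, hb⟩ ⟨a, ha⟩ (Subtype.ext (hbe'.trans hae.symm)))

end Cfsg.Agent.S5562
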