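import Cfsg.Statements.S5713
import Cfsg.Agent.MinDegree.Babai
-- import your own Cfsg.Agent.* helpers here

set_option autoImplicit false
open Cfsg

namespace Cfsg.Agent.S5713

/-- A classification-free minimal-degree bound. Let G be a finite group acting faithfully and primitively on a finite set Ω with n elements, and suppose that the image of G in the symmetric group on Ω does not contain the alternating group on Ω. Then every non-identity element of G moves at least (√n − 1)/2 points of Ω, that is, it fixes at most n − (√n − 1)/2 points. -/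
theorem result {G Ω : Type*} [Group G] [Finite G] [MulAction G Ω] [FaithfulSMul G Ω] [Fintype Ω] [DecidableEq Ω]
    (hprim : MulAction.IsPreprimitive G Ω)
    (hA : ¬ alternatingGroup Ω ≤ (MulAction.toPermHom G Ω).range)
    (g : G) (hg : g ≠ 1) :
    (Real.sqrt (Fintype.card Ω) - 1) / 2 ≤ (Fintype.card Ω : ℝ) - Nat.card (MulAction.fixedBy Ω g) := by
  set H := (MulAction.toPermHom G Ω).range with hH
  have hHp : MulAction.IsPreprimitive H Ω := by
    let φ : G → H := fun x => ⟨MulAction.toPerm x, ⟨x, rfl⟩⟩
    let f : Ω →ₑ[φ] Ω := { toFun := id, map_smul' := fun x a => rfl }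
    exact MulAction.IsPreprimitive.of_surjective (f := f) Function.surjective_id
  have hg1 : MulAction.toPerm g ≠ (1 : Equiv.Perm Ω) := fun e => hg (eq_of_smul_eq_smul fun a : Ω => by
    rw [one_smul]; exact Equiv.ext_iff.1 e a)
  have key := CfsgLib.MinDegree.moved_bound hHp (by convert hA) (g := MulAction.toPerm g) ⟨g, rfl⟩ hg1
  set s := Nat.card {w : Ω // (MulAction.toPerm g : Equiv.Perm Ω) w ≠ w} with hs
  have hsum : s + Nat.card (MulAction.fixedBy Ω g) = Fintype.card Ω := by
    classical
    rw [hs, ← Nat.card_eq_fintype_card, ← Nat.card_congr (Equiv.sumCompl fun w : Ω => (MulAction.toPerm g : Equiv.Perm Ω) w ≠ w),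
      Nat.card_sum]
    exact congrArg (_ + ·) (Nat.card_congr (Equiv.subtypeEquivRight fun _ => by simp))
  have hR : (Fintype.card Ω : ℝ) - Nat.card (MulAction.fixedBy Ω g) = s := by
    rw [← hsum]; push_cast; ring
  rw [hR]
  have hn : Fintype.card Ω ≤ (2 * s + 1) ^ 2 := by
    have h1 : 3 * s ^ 2 + 1 ≤ (2 * s + 1) ^ 2 := by nlinarith
    omega
  have : Real.sqrt (Fintype.card Ω) ≤ 2 * (s : ℝ) + 1 := by
    rw [Real.sqrt_le_left (by positivity)]
    exact_mod_cast hn
  linarith

end Cfsg.Agent.S5713
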