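import Cfsg.Statements.S5722
import Cfsg.Agent.CompLength.Primitive

set_option autoImplicit false
open Cfsg

namespace Cfsg.Agent.S5722

/-- If a finite group G acts faithfully on a finite set with n points and r orbits, then the composition length of G is at most 4(n − r)/3. Here the composition length is expressed through chains: the conclusion bounds the length l of every chain of subgroups 1 = H₀ < H₁ < ⋯ < H_l = G in which each term is normal in the next (the longest such chains are exactly the composition series). -/
theorem result {G Ω : Type*} [Group G] [Finite G] [MulAction G Ω] [FaithfulSMul G Ω] [Fintype Ω]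
    (l : ℕ) (H : Fin (l + 1) → Subgroup G) (h0 : H 0 = ⊥) (hl : H (Fin.last l) = ⊤)
    (hchain : ∀ i : Fin l, H i.castSucc < H i.succ ∧ ((H i.castSucc).subgroupOf (H i.succ)).Normal) :
    3 * l ≤ 4 * (Fintype.card Ω - Nat.card (Quotient (MulAction.orbitRel G Ω))) := by
  obtain ⟨c, hc, hb⟩ := CfsgLib.CompLength.IH.apply (n := Nat.card Ω + 1)
    (fun m _ G' _ _ _ _ => CfsgLib.CompLength.main m G') G Ω (Nat.lt_succ_self _) le_rfl
  have hlc : l ≤ c := hc l (by
    have h := CfsgLib.CompLength.subChain_of_fin l H h0 hchain (Fin.last l)
    rw [hl, Fin.val_last] at h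
    exact h)
  have hq : Nat.card (Quotient (MulAction.orbitRel G Ω)) = Nat.card (MulAction.orbitRel.Quotient G Ω) := rfl
  rw [Nat.card_eq_fintype_card (α := Ω)] at hb
  omega

end Cfsg.Agent.S5722
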