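import Cfsg.Statements.S5729
-- import your own Cfsg.Agent.* helpers here

set_option autoImplicit false
open Cfsg

namespace Cfsg.Agent.S5729

/-- Let a finite group G act faithfully and transitively on a set with n ≥ 3 points. Then either G is a Frobenius permutation group (Frobenius as a permutation group: transitive, some non-identity element fixes a point, and no non-identity element fixes two points) of order n(n − 1) and exactly |G|/n of its elements are derangements (fix no point), or the number of derangements is greater than |G|/n. -/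
theorem result {G Ω : Type*} [Group G] [Finite G] [MulAction G Ω] [FaithfulSMul G Ω] [Fintype Ω] (htr : MulAction.IsPretransitive G Ω) (hn : 3 ≤ Fintype.card Ω) :
    ((MulAction.IsPretransitive G Ω ∧ (∃ g : G, g ≠ 1 ∧ ∃ ω : Ω, g • ω = ω) ∧ ∀ g : G, g ≠ 1 → Nat.card (MulAction.fixedBy Ω g) ≤ 1) ∧ Nat.card G = Fintype.card Ω * (Fintype.card Ω - 1) ∧ Fintype.card Ω * Nat.card {g : G // ∀ ω : Ω, g • ω ≠ ω} = Nat.card G) ∨
    Nat.card G < Fintype.card Ω * Nat.card {g : G // ∀ ω : Ω, g • ω ≠ ω} := by
  classical
  have : Fintype G := Fintype.ofFinite G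
  set n : ℕ := Fintype.card Ω with hndef
  set f : G → ℕ := fun g => Nat.card (MulAction.fixedBy Ω g) with hf
  set D : ℕ := Nat.card {g : G // ∀ ω : Ω, g • ω ≠ ω} with hD
  have hΩ : Nonempty Ω := Fintype.card_pos_iff.mp (by omega)
  obtain ⟨a⟩ := hΩ
  have hfn : ∀ g, f g ≤ n := by
    intro g
    simp only [hf, hndef, ← Nat.card_eq_fintype_card]
    exact Nat.card_le_card_of_injective _ Subtype.val_injective
  have hf0 : ∀ g, f g = 0 ↔ ∀ ω : Ω, g • ω ≠ ω := by
    intro g
    simp only [hf, Nat.card_eq_zero]
    constructor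
    · rintro (h | h)
      · exact fun ω hω => h.false ⟨ω, hω⟩
      · exact absurd h (by simpa using (Finite.of_fintype (MulAction.fixedBy Ω g)).not_infinite)
    · exact fun h => Or.inl ⟨fun x => h x.1 x.2⟩
  have hfeq : ∀ g, f g = n → g = 1 := by
    intro g hg
    apply FaithfulSMul.eq_of_smul_eq_smul (α := Ω)
    intro ω
    have hu : MulAction.fixedBy Ω g = Set.univ := by
      apply Set.eq_univ_of_forall
      intro x
      by_contra hx
      have : f g < n := by
        simp only [hf, hndef, ← Nat.card_eq_fintype_card]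
        rw [Nat.card_eq_fintype_card, Nat.card_eq_fintype_card]
        exact Fintype.card_subtype_lt (x := x) hx
      omega
    have : ω ∈ MulAction.fixedBy Ω g := by rw [hu]; exact Set.mem_univ _
    rw [one_smul]
    exact this
  -- Burnside on points and on pairs
  have h1 : ∑ g : G, (f g : ℤ) = (Fintype.card G : ℤ) := by
    have h := MulAction.sum_card_fixedBy_eq_card_orbits_mul_card_group G Ω
    have hq : Fintype.card (Quotient (MulAction.orbitRel G Ω)) = 1 := by
      rw [Fintype.card_eq_one_iff]
      refine ⟨Quotient.mk'' a, fun q => Quotient.inductionOn' q fun b => ?_⟩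
      apply Quotient.sound'
      rw [MulAction.orbitRel_apply, MulAction.mem_orbit_iff]
      exact MulAction.exists_smul_eq G a b
    rw [hq, one_mul] at h
    calc ∑ g : G, (f g : ℤ) = ((∑ g : G, Fintype.card (MulAction.fixedBy Ω g) : ℕ) : ℤ) := by
          push_cast
          simp [hf, Nat.card_eq_fintype_card]
      _ = _ := by rw [h]
  set r : ℕ := Fintype.card (Quotient (MulAction.orbitRel G (Ω × Ω))) with hr
  have h2 : ∑ g : G, (f g : ℤ) ^ 2 = (r : ℤ) * (Fintype.card G : ℤ) := by
    have h := MulAction.sum_card_fixedBy_eq_card_orbits_mul_card_group G (Ω × Ω)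
    rw [← hr] at h
    have hsq : ∀ g : G, Fintype.card (MulAction.fixedBy (Ω × Ω) g) = f g * f g := by
      intro g
      simp only [hf, Nat.card_eq_fintype_card]
      rw [← Fintype.card_prod]
      refine Fintype.card_congr
        { toFun := fun x => (⟨x.1.1, congrArg Prod.fst x.2⟩, ⟨x.1.2, congrArg Prod.snd x.2⟩)
          invFun := fun y => ⟨(y.1.1, y.2.1), Prod.ext y.1.2 y.2.2⟩
          left_inv := fun x => rfl
          right_inv := fun y => rfl }
    calc ∑ g : G, (f g : ℤ) ^ 2 = ((∑ g : G, Fintype.card (MulAction.fixedBy (Ω × Ω) g) : ℕ) : ℤ) := by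
          push_cast
          simp [hsq, sq]
      _ = _ := by rw [h]; push_cast; ring
  obtain ⟨b, hab⟩ := Fintype.exists_ne_of_one_lt_card (show 1 < Fintype.card Ω by omega) a
  have hne_cls : (Quotient.mk'' (a, a) : Quotient (MulAction.orbitRel G (Ω × Ω))) ≠ Quotient.mk'' (a, b) := by
    intro h
    have h' := Quotient.exact' h
    rw [MulAction.orbitRel_apply, MulAction.mem_orbit_iff] at h'
    obtain ⟨g, hg⟩ := h'
    have e1 := congrArg Prod.fst hg
    have e2 := congrArg Prod.snd hg
    simp only [Prod.smul_fst, Prod.smul_snd] at e1 e2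
    exact hab (smul_left_cancel g (e2.trans e1.symm))
  have hr2 : 2 ≤ r := Fintype.one_lt_card_iff.mpr ⟨_, _, hne_cls⟩
  have hDcard : (D : ℤ) = ∑ g : G, if f g = 0 then (1 : ℤ) else 0 := by
    rw [Finset.sum_boole, hD, Nat.card_eq_fintype_card, Fintype.card_subtype]
    simp [hf0]
  -- pointwise bound
  set T : G → ℤ := fun g => (n : ℤ) * (if f g = 0 then 1 else 0) - ((f g : ℤ) - 1) * ((f g : ℤ) - n) with hT
  have hT0 : ∀ g, 0 ≤ T g := by
    intro g
    have := hfn g
    simp only [hT]
    split_ifs with h
    · simp [h]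
    · have h1' : (1 : ℤ) ≤ f g := by omega
      have h2' : (f g : ℤ) ≤ n := by omega
      nlinarith
  have hsum : ∑ g : G, T g = (n : ℤ) * D - ((r : ℤ) - 1) * Fintype.card G := by
    have : ∀ g, T g = (n : ℤ) * (if f g = 0 then 1 else 0) - (f g : ℤ) ^ 2 + ((n : ℤ) + 1) * (f g : ℤ) - n := by
      intro g; simp only [hT]; ring
    simp only [this, Finset.sum_sub_distrib, Finset.sum_add_distrib, ← Finset.mul_sum, ← hDcard, h1, h2,
      Finset.sum_const, Finset.card_univ, nsmul_eq_mul]
    ring
  have hG : 0 < Fintype.card G := Fintype.card_pos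
  by_cases hlt : Nat.card G < n * D
  · exact Or.inr hlt
  left
  have hle : (n : ℤ) * D ≤ Fintype.card G := by
    rw [Nat.card_eq_fintype_card] at hlt
    exact_mod_cast not_lt.mp hlt
  have hnn : 0 ≤ ∑ g : G, T g := Finset.sum_nonneg fun g _ => hT0 g
  have hr2' : r = 2 := by
    have : ((r : ℤ) - 1) * Fintype.card G ≤ 1 * Fintype.card G := by linarith
    have := le_of_mul_le_mul_right this (by exact_mod_cast hG)
    omega
  have hTz : ∀ g, T g = 0 := by
    intro g
    refine (Finset.sum_eq_zero_iff_of_nonneg fun g _ => hT0 g).mp ?_ g (Finset.mem_univ g)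
    rw [hr2'] at hsum
    push_cast at hsum
    linarith
  have hDn : n * D = Nat.card G := by
    rw [Nat.card_eq_fintype_card]
    have h := hsum
    rw [hr2', Finset.sum_eq_zero (fun g _ => hTz g)] at h
    push_cast at h
    have : (n : ℤ) * D = Fintype.card G := by linarith
    exact_mod_cast this
  have hle1 : ∀ g : G, g ≠ 1 → f g ≤ 1 := by
    intro g hg
    by_contra hgt
    have h := hTz g
    have hne : f g ≠ 0 := by omega
    simp only [hT, if_neg hne, mul_zero, zero_sub, neg_eq_zero, mul_eq_zero] at h
    rcases h with h | h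
    · omega
    · exact hg (hfeq g (by omega))
  -- two classes of ordered pairs: 2-transitivity, and the pair stabiliser is trivial
  have h2t : ∀ p : Ω × Ω, p.1 ≠ p.2 → ∃ g : G, g • (a, b) = p := by
    intro p hp
    have hsame : (Quotient.mk'' p : Quotient (MulAction.orbitRel G (Ω × Ω))) = Quotient.mk'' (a, b) := by
      by_contra hc
      have hpa : (Quotient.mk'' p : Quotient (MulAction.orbitRel G (Ω × Ω))) ≠ Quotient.mk'' (a, a) := by
        intro h
        have h' := Quotient.exact' h
        rw [MulAction.orbitRel_apply, MulAction.mem_orbit_iff] at h'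
        obtain ⟨g, hg⟩ := h'
        exact hp (by rw [← hg]; rfl)
      have h3 : 2 < r := Fintype.two_lt_card_iff.mpr ⟨_, _, _, hpa, hc, hne_cls⟩
      omega
    have h' := Quotient.exact' hsame
    rw [MulAction.orbitRel_apply, MulAction.mem_orbit_iff] at h'
    exact h'
  have horb : MulAction.orbit G (a, b) = {p : Ω × Ω | p.1 ≠ p.2} := by
    ext p
    constructor
    · rintro ⟨g, rfl⟩
      exact fun h => hab (smul_left_cancel g h).symm
    · exact fun hp => h2t p hp
  have hstab : ∀ g ∈ MulAction.stabilizer G (a, b), g = 1 := by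
    intro g hg
    by_contra hg1
    have e1 : g • a = a := congrArg Prod.fst hg
    have e2 : g • b = b := congrArg Prod.snd hg
    have h2' : 2 ≤ f g := by
      simp only [hf, Nat.card_eq_fintype_card]
      exact Fintype.one_lt_card_iff.mpr ⟨⟨a, e1⟩, ⟨b, e2⟩, fun h => hab (congrArg Subtype.val h).symm⟩
    have := hle1 g hg1
    omega
  have hcard : Fintype.card G = n * (n - 1) := by
    have h := MulAction.card_orbit_mul_card_stabilizer_eq_card_group G (a, b)
    have hs : Fintype.card (MulAction.stabilizer G (a, b)) = 1 := by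
      rw [Fintype.card_eq_one_iff]
      exact ⟨1, fun g => Subtype.ext (hstab g.1 g.2)⟩
    rw [hs, mul_one] at h
    rw [← h]
    have : (MulAction.orbit G (a, b)).toFinset = (Finset.univ : Finset Ω).offDiag := by
      ext p; simp [horb]
    rw [← Set.toFinset_card, this, Finset.offDiag_card, Finset.card_univ, ← hndef, Nat.mul_sub_one]
  refine ⟨⟨htr, ?_, hle1⟩, by rw [Nat.card_eq_fintype_card, hcard], hDn⟩
  have hsa := MulAction.card_orbit_mul_card_stabilizer_eq_card_group G a
  have horba : Fintype.card (MulAction.orbit G a) = n := by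
    rw [hndef, ← Set.toFinset_card, show (MulAction.orbit G a).toFinset = Finset.univ from ?_, Finset.card_univ]
    ext x; simp [MulAction.orbit_eq_univ G a]
  rw [horba, hcard] at hsa
  have hst : 1 < Fintype.card (MulAction.stabilizer G a) := by
    have := Nat.eq_of_mul_eq_mul_left (by omega : 0 < n) hsa
    omega
  obtain ⟨x, hx⟩ := Fintype.exists_ne_of_one_lt_card hst 1
  exact ⟨x.1, fun h => hx (Subtype.ext h), a, x.2⟩

end Cfsg.Agent.S5729
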