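import Cfsg.Statements.S5730
import Cfsg.Agent.DerangeTwo.Main

set_option autoImplicit false
open Cfsg

namespace Cfsg.Agent.S5730

/-- Let a finite group G act faithfully and transitively on a set with n ≥ 7 points. Then either G is a Frobenius permutation group (Frobenius as a permutation group: transitive, some non-identity element fixes a point, and no non-identity element fixes two points) of order n(n − 1)/a with a ∈ {1, 2}, in which case exactly a|G|/n of its elements are derangements, or the number of derangements is at least 2|G|/n. (Equality does occur: PSL₃(2) acting on the 7 points of the Fano plane has exactly 2|G|/7 derangements.) -/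
theorem result {G Ω : Type*} [Group G] [Finite G] [MulAction G Ω] [FaithfulSMul G Ω] [Fintype Ω] (htr : MulAction.IsPretransitive G Ω) (hn : 7 ≤ Fintype.card Ω) :
    (∃ a : ℕ, (a = 1 ∨ a = 2) ∧ (MulAction.IsPretransitive G Ω ∧ (∃ g : G, g ≠ 1 ∧ ∃ ω : Ω, g • ω = ω) ∧ ∀ g : G, g ≠ 1 → Nat.card (MulAction.fixedBy Ω g) ≤ 1) ∧ a * Nat.card G = Fintype.card Ω * (Fintype.card Ω - 1) ∧ Fintype.card Ω * Nat.card {g : G // ∀ ω : Ω, g • ω ≠ ω} = a * Nat.card G) ∨
    2 * Nat.card G ≤ Fintype.card Ω * Nat.card {g : G // ∀ ω : Ω, g • ω ≠ ω} := by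
  classical
  haveI := Fintype.ofFinite G
  have hfx : ∀ g : G, Nat.card (MulAction.fixedBy Ω g) = (CfsgLib.DerangeTwo.fx g : Finset Ω).card := by
    intro g
    rw [Nat.card_eq_fintype_card, ← Set.toFinset_card]
    exact congrArg Finset.card (by ext x; simp)
  have hD : Nat.card {g : G // ∀ ω : Ω, g • ω ≠ ω} =
      (Finset.univ.filter fun g : G => (CfsgLib.DerangeTwo.fx g : Finset Ω).card = 0).card := by
    rw [Nat.card_eq_fintype_card, Fintype.card_subtype]
    exact congrArg Finset.card (by
      ext g
      simp [Finset.eq_empty_iff_forall_notMem])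
  rw [hD, Nat.card_eq_fintype_card]
  rcases CfsgLib.DerangeTwo.main (G := G) htr hn with ⟨h1, h2, h3, h4⟩ | h
  · exact Or.inl ⟨1, Or.inl rfl, ⟨htr, h1, fun g hg => (hfx g).le.trans (h2 g hg)⟩, by rw [one_mul, h3],
      by rw [h4, one_mul]⟩
  · exact Or.inr h

end Cfsg.Agent.S5730
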