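import Cfsg.Statements.S5738
import Mathlib

set_option autoImplicit false
open Cfsg

namespace Cfsg.Agent.S5738

/-- Let F ⊆ K be finite fields with |F| = q and [K : F] = n ≥ 2, so |K| = q^n. Regard K as an n-dimensional F-vector space; the multiplications by non-zero elements of K form a cyclic subgroup of GL_F(K) of order q^n − 1 acting regularly on the non-zero vectors (a Singer group). Its normaliser in GL_F(K) has order n·(q^n − 1). -/
theorem result {F K : Type*} [Field F] [Fintype F] [Field K] [Fintype K] [Algebra F K] (n : ℕ) (hn : 2 ≤ n) (hdim : Module.finrank F K = n) :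
    Nat.card (Subgroup.normalizer (((Units.map ((Algebra.lmul F K : K →ₐ[F] Module.End F K) : K →* Module.End F K)).range : Subgroup (Module.End F K)ˣ) : Set (Module.End F K)ˣ)) = n * (Fintype.card K - 1) := by
  classical
  have hn' := hn
  let ι : Kˣ →* (Module.End F K)ˣ := Units.map ((Algebra.lmul F K : K →ₐ[F] Module.End F K) : K →* Module.End F K)
  have hι : ∀ (a : Kˣ) (x : K), (ι a : Module.End F K) x = a * x := fun a x => rfl
  let α : (K ≃ₐ[F] K) → (Module.End F K)ˣ := fun σ =>
    ⟨σ.toLinearMap, σ.symm.toLinearMap, LinearMap.ext fun x => σ.apply_symm_apply x,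
      LinearMap.ext fun x => σ.symm_apply_apply x⟩
  have hα : ∀ σ (x : K), (α σ : Module.End F K) x = σ x := fun σ x => rfl
  have hconj : ∀ (σ : K ≃ₐ[F] K) (a : Kˣ), α σ * ι a * (α σ)⁻¹ = ι (Units.map (σ : K →* K) a) := by
    intro σ a
    rw [mul_inv_eq_iff_eq_mul]
    refine Units.ext (LinearMap.ext fun x => ?_)
    exact map_mul σ _ x
  have hmem : ∀ (u : Kˣ) (σ : K ≃ₐ[F] K), ι u * α σ ∈ Subgroup.normalizer (ι.range : Set (Module.End F K)ˣ) := by
    intro u σ
    refine mul_mem (Subgroup.le_normalizer ⟨u, rfl⟩) (Subgroup.mem_normalizer_iff.2 fun y => ?_)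
    constructor
    · rintro ⟨a, rfl⟩
      exact ⟨_, (hconj σ a).symm⟩
    · rintro ⟨a, ha⟩
      refine ⟨Units.map (σ.symm : K →* K) a, ?_⟩
      have h1 := hconj σ (Units.map (σ.symm : K →* K) a)
      have h2 : Units.map (σ : K →* K) (Units.map (σ.symm : K →* K) a) = a := Units.ext (σ.apply_symm_apply _)
      rw [h2, ha] at h1
      exact mul_left_cancel (mul_right_cancel h1)
  let Φ : Kˣ × (K ≃ₐ[F] K) → Subgroup.normalizer (ι.range : Set (Module.End F K)ˣ) :=
    fun q => ⟨ι q.1 * α q.2, hmem q.1 q.2⟩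
  have hΦ : Function.Bijective Φ := by
    constructor
    · rintro ⟨u, σ⟩ ⟨v, τ⟩ h
      have h1 : ∀ x, (u : K) * σ x = v * τ x := fun x =>
        LinearMap.congr_fun (congrArg Units.val (congrArg Subtype.val h)) x
      have h2 : u = v := Units.ext (by simpa using h1 1)
      subst h2
      exact Prod.ext rfl (AlgEquiv.ext fun x => mul_left_cancel₀ u.ne_zero (h1 x))
    · rintro ⟨f, hf⟩
      have hinj : Function.Injective (f : Module.End F K) := fun x y h => by
        have e : ∀ z, (↑f⁻¹ : Module.End F K) ((f : Module.End F K) z) = z := fun z => LinearMap.congr_fun f.inv_mul z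
        rw [← e x, ← e y, h]
      have hu0 : (f : Module.End F K) 1 ≠ 0 := fun h => one_ne_zero (hinj (h.trans (map_zero _).symm))
      set u : Kˣ := Units.mk0 _ hu0 with hu
      let g : K →ₗ[F] K := (ι u⁻¹ : Module.End F K) * (f : Module.End F K)
      have hg : ∀ x, g x = (u : K)⁻¹ * (f : Module.End F K) x := fun x => by
        show ((u⁻¹ : Kˣ) : K) * _ = _
        rw [Units.val_inv_eq_inv_val]
      have hg1 : g 1 = 1 := by rw [hg, hu, Units.val_mk0, inv_mul_cancel₀ hu0]
      have hgmul : ∀ a x, g (a * x) = g a * g x := by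
        intro a x
        by_cases ha : a = 0
        · simp [ha]
        obtain ⟨b, hb⟩ := (Subgroup.mem_normalizer_iff.1 hf (ι (Units.mk0 a ha))).1 ⟨_, rfl⟩
        rw [eq_mul_inv_iff_mul_eq] at hb
        have hb' : ∀ y, (b : K) * (f : Module.End F K) y = (f : Module.End F K) (a * y) := fun y =>
          LinearMap.congr_fun (congrArg Units.val hb) y
        have hb1 := hb' 1
        rw [mul_one] at hb1
        rw [hg, hg, hg, ← hb' x, ← hb1, hu, Units.val_mk0]
        field_simp
      let g' : K →ₐ[F] K := AlgHom.ofLinearMap g hg1 hgmul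
      refine ⟨(u, AlgEquiv.ofBijective g' (AlgHom.bijective g')), ?_⟩
      refine Subtype.ext (Units.ext (LinearMap.ext fun x => ?_))
      show (u : K) * g x = _
      rw [hg, mul_inv_cancel_left₀ u.ne_zero]
  rw [← Nat.card_congr (Equiv.ofBijective Φ hΦ), Nat.card_prod, Nat.card_units, Nat.card_eq_fintype_card,
    mul_comm, IsGalois.card_aut_eq_finrank, hdim]


end Cfsg.Agent.S5738
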