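import Cfsg.Statements.S5739
-- import your own Cfsg.Agent.* helpers here

set_option autoImplicit false
open Cfsg

namespace Cfsg.Agent.S5739

/-- Let F ⊆ K be finite fields with |F| = q and [K : F] = n ≥ 2, and let M ≤ GL_F(K) be the Singer group of multiplications by non-zero elements of K. If g ∈ GL_F(K) does not normalise M, then the order of M ∩ gMg⁻¹ divides q^r − 1 for some proper divisor r of n. In particular, when n is prime, that order divides q − 1. -/
theorem result {F K : Type*} [Field F] [Fintype F] [Field K] [Fintype K] [Algebra F K] (n : ℕ) (hn : 2 ≤ n) (hdim : Module.finrank F K = n)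
    (g : (Module.End F K)ˣ) (hg : ((Units.map ((Algebra.lmul F K : K →ₐ[F] Module.End F K) : K →* Module.End F K)).range).map (MulAut.conj g).toMonoidHom ≠ (Units.map ((Algebra.lmul F K : K →ₐ[F] Module.End F K) : K →* Module.End F K)).range) :
    ∃ r : ℕ, 1 ≤ r ∧ r ∣ n ∧ r < n ∧ Nat.card ↥(((Units.map ((Algebra.lmul F K : K →ₐ[F] Module.End F K) : K →* Module.End F K)).range).map (MulAut.conj g).toMonoidHom ⊓ (Units.map ((Algebra.lmul F K : K →ₐ[F] Module.End F K) : K →* Module.End F K)).range) ∣ Fintype.card F ^ r - 1 := by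
  classical
  set ρ : K →ₐ[F] Module.End F K := Algebra.lmul F K with hρdef
  have hρinj : Function.Injective ρ := fun a b h => by simpa [hρdef] using congrArg (fun e : Module.End F K => e 1) h
  set Φ : Kˣ →* (Module.End F K)ˣ := Units.map ((ρ : K →ₐ[F] Module.End F K) : K →* Module.End F K) with hΦ
  set Ψ : Kˣ →* (Module.End F K)ˣ := (MulAut.conj g).toMonoidHom.comp Φ with hΨ
  have hΦinj : Function.Injective Φ := fun a b h =>
    Units.ext (hρinj (congrArg (Units.val : (Module.End F K)ˣ → Module.End F K) h))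
  have hΨinj : Function.Injective Ψ := (MulAut.conj g).injective.comp hΦinj
  -- the subalgebra of scalars carried to scalars by conjugation
  let S : Subalgebra F K :=
    { carrier := {k | ∃ k' : K, (g : Module.End F K) * ρ k * ((g⁻¹ : (Module.End F K)ˣ) : Module.End F K) = ρ k'}
      mul_mem' := by
        rintro a b ⟨a', ha⟩ ⟨b', hb⟩
        refine ⟨a' * b', ?_⟩
        rw [map_mul, map_mul, ← ha, ← hb]
        simp [mul_assoc]
      one_mem' := ⟨1, by simp⟩
      add_mem' := by
        rintro a b ⟨a', ha⟩ ⟨b', hb⟩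
        exact ⟨a' + b', by rw [map_add, map_add, mul_add, add_mul, ha, hb]⟩
      zero_mem' := ⟨0, by simp⟩
      algebraMap_mem' := fun c => ⟨algebraMap F K c, by
        rw [AlgHom.commutes, ← Algebra.commutes, mul_assoc, Units.mul_inv, mul_one]⟩ }
  let L : IntermediateField F K := S.toIntermediateField fun x hx => by
    by_cases h0 : x = 0
    · rw [h0, inv_zero]; exact h0 ▸ hx
    · have h1 : x⁻¹ = x ^ (Fintype.card K - 2) := by
        refine inv_eq_of_mul_eq_one_right ?_
        rw [← pow_succ', show Fintype.card K - 2 + 1 = Fintype.card K - 1 by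
          have := Fintype.one_lt_card (α := K); omega]
        exact FiniteField.pow_card_sub_one_eq_one x h0
      rw [h1]; exact pow_mem hx _
  have hmem : ∀ u : Kˣ, Ψ u ∈ Φ.range ↔ (u : K) ∈ L := by
    intro u
    constructor
    · rintro ⟨v, hv⟩
      exact ⟨(v : K), (congrArg (Units.val : (Module.End F K)ˣ → Module.End F K) hv).symm⟩
    · rintro ⟨k', hk'⟩
      have hk0 : k' ≠ 0 := by
        intro h
        rw [h, map_zero] at hk'
        exact (Units.ne_zero u) (hρinj (a₂ := 0) (by
          rw [map_zero]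
          calc ρ (u : K) = ((g⁻¹ : (Module.End F K)ˣ) : Module.End F K) *
                ((g : Module.End F K) * ρ u * ((g⁻¹ : (Module.End F K)ˣ) : Module.End F K)) * (g : Module.End F K) := by
                  simp [mul_assoc]
            _ = 0 := by rw [hk', mul_zero, zero_mul]))
      exact ⟨Units.mk0 k' hk0, Units.ext hk'.symm⟩
  have hrdvd : Module.finrank F L ∣ n := by
    refine ⟨Module.finrank L K, ?_⟩
    rw [← hdim, Module.finrank_mul_finrank F L K]
  have hLne : L ≠ ⊤ := by
    intro htop
    apply hg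
    have hle : Φ.range.map (MulAut.conj g).toMonoidHom ≤ Φ.range := by
      rintro _ ⟨_, ⟨u, rfl⟩, rfl⟩
      exact (hmem u).mpr (htop ▸ IntermediateField.mem_top)
    refine Subgroup.eq_of_le_of_card_ge hle ?_
    rw [Subgroup.card_map_of_injective (MulAut.conj g).injective]
  refine ⟨Module.finrank F L, Module.finrank_pos, hrdvd, ?_, ?_⟩
  · refine lt_of_le_of_ne (Nat.le_of_dvd (by omega) hrdvd) fun h => hLne ?_
    exact IntermediateField.eq_of_le_of_finrank_eq le_top (by rw [h, IntermediateField.finrank_top', hdim])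
  · have hinf : Φ.range.map (MulAut.conj g).toMonoidHom ⊓ Φ.range = (Φ.range.comap Ψ).map Ψ := by
      ext x
      constructor
      · rintro ⟨⟨_, ⟨u, rfl⟩, rfl⟩, hx⟩
        exact ⟨u, hx, rfl⟩
      · rintro ⟨u, hu, rfl⟩
        exact ⟨⟨Φ u, ⟨u, rfl⟩, rfl⟩, hu⟩
    rw [hinf, Subgroup.card_map_of_injective hΨinj]
    refine dvd_of_eq ?_
    have e : ↥(Φ.range.comap Ψ) ≃ {x : L // x ≠ 0} :=
      { toFun := fun u => ⟨⟨(u.1 : K), (hmem u.1).mp u.2⟩, fun h => u.1.ne_zero (congrArg Subtype.val h)⟩
        invFun := fun x => ⟨Units.mk0 (x.1 : K) (fun h => x.2 (Subtype.ext h)), (hmem _).mpr x.1.2⟩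
        left_inv := fun u => Subtype.ext (Units.ext rfl)
        right_inv := fun x => rfl }
    rw [Nat.card_congr e, Nat.card_eq_fintype_card, Fintype.card_subtype_compl, Fintype.card_subtype_eq,
      ← Module.card_eq_pow_finrank]

end Cfsg.Agent.S5739
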