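import Cfsg.Statements.S5747
-- import your own Cfsg.Agent.* helpers here

set_option autoImplicit false
open Cfsg

namespace Cfsg.Agent.S5747

section Helpers

variable {G Ω : Type*} [Group G] [MulAction G Ω]

/-- A set of points whose pointwise stabiliser is trivial. -/
def BaseSet (G : Type*) [Group G] [MulAction G Ω] (B : Finset Ω) : Prop :=
  ∀ g : G, (∀ b ∈ B, g • b = b) → g = 1

/-- Every point of `B` is moved by some element fixing the others. -/
def Indep (G : Type*) [Group G] [MulAction G Ω] (B : Finset Ω) : Prop :=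
  ∀ b ∈ B, ∃ g : G, (∀ c ∈ B, c ≠ b → g • c = c) ∧ g • b ≠ b

/-- An irredundant base. -/
def IrrBase (G : Type*) [Group G] [MulAction G Ω] {t : ℕ} (f : Fin t → Ω) : Prop :=
  (∀ g : G, (∀ i : Fin t, g • f i = f i) → g = 1) ∧
    ∀ i : Fin t, ∃ g : G, (∀ j : Fin t, j < i → g • f j = f j) ∧ g • f i ≠ f i

theorem Indep.mono {B C : Finset Ω} (h : Indep G B) (hCB : C ⊆ B) : Indep G C := fun b hb => by
  obtain ⟨g, hg, hgb⟩ := h b (hCB hb)
  exact ⟨g, fun c hc => hg c (hCB hc), hgb⟩

theorem BaseSet.eq_of_indep {B C : Finset Ω} (hC : BaseSet G C) (hCB : C ⊆ B) (hB : Indep G B) : C = B := by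
  refine Finset.Subset.antisymm hCB fun b hb => ?_
  by_contra hbC
  obtain ⟨g, hg, hgb⟩ := hB b hb
  exact hgb (by rw [hC g fun c hc => hg c (hCB hc) fun h => hbC (h ▸ hc), one_smul])

theorem IrrBase.injective {t : ℕ} {f : Fin t → Ω} (h : IrrBase G f) : Function.Injective f := by
  intro i j hij
  by_contra hne
  wlog hlt : i < j generalizing i j
  · exact this hij.symm (Ne.symm hne) (lt_of_le_of_ne (not_lt.mp hlt) (Ne.symm hne))
  obtain ⟨g, hg, hgj⟩ := h.2 j
  exact hgj (hij ▸ hg i hlt)

variable [DecidableEq Ω]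

theorem IrrBase.indep_image {t : ℕ} {f : Fin t → Ω} (h : IrrBase G f)
    (H : ∀ σ : Equiv.Perm (Fin t), IrrBase G (f ∘ σ)) : Indep G (Finset.univ.image f) := by
  intro b hb
  obtain ⟨i, -, rfl⟩ := Finset.mem_image.mp hb
  have ht : 0 < t := i.pos
  let last : Fin t := ⟨t - 1, by omega⟩
  obtain ⟨g, hg, hgi⟩ := (H (Equiv.swap i last)).2 last
  simp only [Function.comp_apply, Equiv.swap_apply_right] at hgi
  refine ⟨g, fun c hc hne => ?_, hgi⟩
  obtain ⟨j, -, rfl⟩ := Finset.mem_image.mp hc
  have hji : j ≠ i := fun e => hne (congrArg f e)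
  have := hg (Equiv.swap i last j) ?_
  · simpa using this
  · refine lt_of_le_of_ne (Fin.mk_le_mk.mpr (by omega) : _ ≤ (⟨t - 1, _⟩ : Fin t)) fun e => hji ?_
    have := congrArg (Equiv.swap i last) e
    simpa [last] using this

variable (HH : ∀ (t : ℕ) (f : Fin t → Ω) (σ : Equiv.Perm (Fin t)), IrrBase G f → IrrBase G (f ∘ σ))
include HH

theorem indep_union {S T : Finset Ω} (hST : Disjoint S T) (hS : Indep G S)
    (hT : ∀ b ∈ T, ∃ g : G, (∀ c ∈ S ∪ T, c ≠ b → g • c = c) ∧ g • b ≠ b)
    (hB : BaseSet G (S ∪ T)) : Indep G (S ∪ T) := by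
  set L : List Ω := S.toList ++ T.toList with hL
  have hmem : ∀ x, x ∈ L ↔ x ∈ S ∪ T := by simp [hL]
  have hnd : L.Nodup := by
    refine List.nodup_append'.mpr ⟨S.nodup_toList, T.nodup_toList, ?_⟩
    intro a ha hb
    exact Finset.disjoint_left.mp hST (Finset.mem_toList.mp ha) (Finset.mem_toList.mp hb)
  have himg : Finset.univ.image L.get = S ∪ T := by
    ext x
    rw [← hmem, List.mem_iff_get, Finset.mem_image]
    simp only [Finset.mem_univ, true_and]
  have hirr : IrrBase G L.get := by
    refine ⟨fun g hg => hB g fun b hb => ?_, fun i => ?_⟩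
    · obtain ⟨i, rfl⟩ := List.mem_iff_get.mp ((hmem b).mpr hb)
      exact hg i
    · by_cases hi : (i : ℕ) < S.toList.length
      · have hiS : L.get i ∈ S := by
          rw [← Finset.mem_toList, List.get_eq_getElem]
          simp only [hL, List.getElem_append_left hi]
          exact List.getElem_mem _
        obtain ⟨g, hg, hgi⟩ := hS _ hiS
        refine ⟨g, fun j hj => hg _ ?_ (fun e => hj.ne (hnd.injective_get e)), hgi⟩
        have hj' : (j : ℕ) < S.toList.length := lt_trans hj hi
        rw [← Finset.mem_toList, List.get_eq_getElem]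
        simp only [hL, List.getElem_append_left hj']
        exact List.getElem_mem _
      · have hiT : L.get i ∈ T := by
          rw [← Finset.mem_toList, List.get_eq_getElem]
          simp only [hL, List.getElem_append_right (not_lt.mp hi)]
          exact List.getElem_mem _
        obtain ⟨g, hg, hgi⟩ := hT _ hiT
        exact ⟨g, fun j hj => hg _ ((hmem _).mp (List.get_mem _ _)) (fun e => hj.ne (hnd.injective_get e)), hgi⟩
  exact himg ▸ hirr.indep_image fun σ => HH _ _ σ hirr

theorem card_eq : ∀ (m : ℕ) (X Y : Finset Ω), (X \ Y).card = m → BaseSet G X → Indep G X → BaseSet G Y →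
    Indep G Y → X.card = Y.card := by
  intro m
  induction m using Nat.strong_induction_on with
  | _ m ih =>
  intro X Y hm hXB hX hYB hY
  classical
  by_cases h0 : X \ Y = ∅
  · rw [hXB.eq_of_indep (Finset.sdiff_eq_empty_iff_subset.mp h0) hY]
  obtain ⟨x, hx⟩ := Finset.nonempty_iff_ne_empty.mpr h0
  obtain ⟨hxX, hxY⟩ := Finset.mem_sdiff.mp hx
  set S : Finset Ω := insert x (X ∩ Y) with hS
  have hSX : S ⊆ X := Finset.insert_subset hxX Finset.inter_subset_left
  let cand : Finset (Finset Ω) := (Y \ X).powerset.filter fun T => BaseSet G (S ∪ T)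
  have hcand : cand.Nonempty := by
    refine ⟨Y \ X, Finset.mem_filter.mpr ⟨Finset.mem_powerset_self _, fun g hg => hYB g fun y hy => hg y ?_⟩⟩
    by_cases hyX : y ∈ X <;> simp [hS, hy, hyX]
  obtain ⟨T, hT, hmin⟩ := cand.exists_min_image Finset.card hcand
  obtain ⟨hTsub, hTbase⟩ := Finset.mem_filter.mp hT
  rw [Finset.mem_powerset] at hTsub
  have hdis : Disjoint S T := Finset.disjoint_left.mpr fun a ha hb => (Finset.mem_sdiff.mp (hTsub hb)).2 (hSX ha)
  have hTind : ∀ b ∈ T, ∃ g : G, (∀ c ∈ S ∪ T, c ≠ b → g • c = c) ∧ g • b ≠ b := by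
    intro b hb
    by_contra hno
    push Not at hno
    have hnb : T.erase b ∈ cand := by
      refine Finset.mem_filter.mpr ⟨Finset.mem_powerset.mpr ((Finset.erase_subset _ _).trans hTsub), fun g hg => ?_⟩
      have hothers : ∀ c ∈ S ∪ T, c ≠ b → g • c = c := by
        intro c hc hne
        apply hg
        rcases Finset.mem_union.mp hc with h | h
        · exact Finset.mem_union_left _ h
        · exact Finset.mem_union_right _ (Finset.mem_erase.mpr ⟨hne, h⟩)
      refine hTbase g fun c hc => ?_
      by_cases hcb : c = b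
      · exact hcb ▸ hno g hothers
      · exact hothers c hc hcb
    have := hmin _ hnb
    have := Finset.card_erase_lt_of_mem hb
    omega
  have hZ : Indep G (S ∪ T) := indep_union HH hdis (hX.mono hSX) hTind hTbase
  set A : Finset Ω := (X ∩ Y) ∪ T with hA
  have hAY : A ⊆ Y := Finset.union_subset Finset.inter_subset_right (hTsub.trans Finset.sdiff_subset)
  have hZA : S ∪ T = insert x A := by rw [hS, hA, Finset.insert_union]
  have hxA : x ∉ A := fun h => hxY (hAY h)
  have hRne : A ≠ Y := by
    intro h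
    have := (hYB).eq_of_indep (Finset.subset_insert x Y) (by rw [← h, ← hZA]; exact hZ)
    exact hxY (this ▸ Finset.mem_insert_self x Y)
  have hR : (Y \ A).card = 1 := by
    obtain ⟨r, hr⟩ : (Y \ A).Nonempty := by
      rw [Finset.nonempty_iff_ne_empty, Ne, Finset.sdiff_eq_empty_iff_subset]
      exact fun h => hRne (Finset.Subset.antisymm hAY h)
    obtain ⟨hrY, hrA⟩ := Finset.mem_sdiff.mp hr
    rw [Finset.card_eq_one]
    refine ⟨r, Finset.eq_singleton_iff_unique_mem.mpr ⟨hr, fun r' hr' => ?_⟩⟩
    by_contra hne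
    obtain ⟨hr'Y, hr'A⟩ := Finset.mem_sdiff.mp hr'
    set S' : Finset Ω := insert r A with hS'
    have hS'Y : S' ⊆ Y := Finset.insert_subset hrY hAY
    have hS'nb : ¬ BaseSet G S' := fun h => by
      have := h.eq_of_indep hS'Y hY
      have : r' ∈ S' := this ▸ hr'Y
      rcases Finset.mem_insert.mp this with h | h
      · exact hne h
      · exact hr'A h
    have hbase : BaseSet G (S' ∪ {x}) := fun g hg => hTbase g fun b hb => hg b (by
      rw [hZA] at hb
      rcases Finset.mem_insert.mp hb with h | h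
      · simp [h]
      · exact Finset.mem_union_left _ (Finset.mem_insert_of_mem h))
    have hxS' : x ∉ S' := fun h => hxY (hS'Y h)
    have hind := indep_union HH (Finset.disjoint_singleton_right.mpr hxS') (hY.mono hS'Y) (by
      intro b hb
      rw [Finset.mem_singleton] at hb
      subst hb
      by_contra hno
      push Not at hno
      refine hS'nb fun g hg => hbase g fun c hc => ?_
      rcases Finset.mem_union.mp hc with h | h
      · exact hg c h
      · rw [Finset.mem_singleton] at h
        subst h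
        refine hno g fun d hd hne => hg d ?_
        rcases Finset.mem_union.mp hd with h | h
        · exact h
        · exact absurd (Finset.mem_singleton.mp h) hne) hbase
    have hsub : S ∪ T ⊆ S' ∪ {x} := by
      rw [hZA]
      intro b hb
      rcases Finset.mem_insert.mp hb with h | h
      · simp [h]
      · exact Finset.mem_union_left _ (Finset.mem_insert_of_mem h)
    have := hTbase.eq_of_indep hsub hind
    have hr2 : r ∈ S ∪ T := this ▸ Finset.mem_union_left _ (Finset.mem_insert_self r A)
    rw [hZA] at hr2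
    rcases Finset.mem_insert.mp hr2 with h | h
    · exact hxY (h ▸ hrY)
    · exact hrA h
  have hcard : (S ∪ T).card = Y.card := by
    rw [hZA, Finset.card_insert_of_notMem hxA, ← hR, add_comm, Finset.card_sdiff_add_card_eq_card hAY]
  rw [← hcard]
  refine ih _ ?_ X (S ∪ T) rfl hXB hX hTbase hZ
  rw [← hm]
  refine Finset.card_lt_card (Finset.ssubset_iff_of_subset ?_ |>.mpr ⟨x, hx, ?_⟩)
  · intro a ha
    obtain ⟨h1, h2⟩ := Finset.mem_sdiff.mp ha
    exact Finset.mem_sdiff.mpr ⟨h1, fun h => h2 (by simp [hS, h1, h])⟩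
  · simp [hS]

end Helpers

/-- Let a finite group G act on a finite set Ω. An irredundant base is a sequence of points ω₁, …, ω_t whose pointwise stabiliser is trivial and in which each ω_i is moved by some element fixing ω₁, …, ω_{i−1}. Then all irredundant bases have the same length if and only if every reordering of an irredundant base is again an irredundant base. -/
theorem result {G Ω : Type*} [Group G] [Finite G] [MulAction G Ω] [Fintype Ω] :
    (∀ (t t' : ℕ) (f : Fin t → Ω) (f' : Fin t' → Ω), ((∀ g : G, (∀ i : Fin t, g • f i = f i) → g = 1) ∧ ∀ i : Fin t, ∃ g : G, (∀ j : Fin t, j < i → g • f j = f j) ∧ g • f i ≠ f i) → ((∀ g : G, (∀ i : Fin t', g • f' i = f' i) → g = 1) ∧ ∀ i : Fin t', ∃ g : G, (∀ j : Fin t', j < i → g • f' j = f' j) ∧ g • f' i ≠ f' i) → t = t') ↔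
    (∀ (t : ℕ) (f : Fin t → Ω) (σ : Equiv.Perm (Fin t)), ((∀ g : G, (∀ i : Fin t, g • f i = f i) → g = 1) ∧ ∀ i : Fin t, ∃ g : G, (∀ j : Fin t, j < i → g • f j = f j) ∧ g • f i ≠ f i) → ((∀ g : G, (∀ i : Fin t, g • (f ∘ σ) i = (f ∘ σ) i) → g = 1) ∧ ∀ i : Fin t, ∃ g : G, (∀ j : Fin t, j < i → g • (f ∘ σ) j = (f ∘ σ) j) ∧ g • (f ∘ σ) i ≠ (f ∘ σ) i)) := by
  classical
  constructor
  · intro hsize t f σ hf
    set f' : Fin t → Ω := f ∘ σ with hf'
    have hbase : ∀ g : G, (∀ i, g • f' i = f' i) → g = 1 := fun g hg =>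
      hf.1 g fun i => by have := hg (σ.symm i); simpa [hf'] using this
    let J : Finset (Fin t) := Finset.univ.filter fun i => ∃ g : G, (∀ j, j < i → g • f' j = f' j) ∧ g • f' i ≠ f' i
    let e := J.orderEmbOfFin rfl
    have hfix : ∀ (g : G) (i : Fin t), (∀ j ∈ J, j < i → g • f' j = f' j) → ∀ j, j < i → g • f' j = f' j := by
      intro g i hg j
      induction j using WellFoundedLT.induction with
      | _ j ihj =>
        intro hji
        by_cases hj : j ∈ J
        · exact hg j hj hji
        · by_contra hne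
          exact hj (Finset.mem_filter.mpr ⟨Finset.mem_univ _, g, fun k hk => ihj k hk (hk.trans hji), hne⟩)
    have hJe : ∀ j, j ∈ J → ∃ k, e k = j := fun j hj => by
      have : j ∈ Set.range e := by rw [Finset.range_orderEmbOfFin]; exact hj
      exact this
    have hirr : IrrBase G (f' ∘ e) := by
      refine ⟨fun g hg => hbase g fun j => ?_, fun k => ?_⟩
      · by_cases hj : j ∈ J
        · obtain ⟨k, rfl⟩ := hJe j hj; exact hg k
        · by_contra hne
          refine hj (Finset.mem_filter.mpr ⟨Finset.mem_univ _, g, hfix g j (fun l hl _ => ?_), hne⟩)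
          obtain ⟨k, rfl⟩ := hJe l hl; exact hg k
      · obtain ⟨g, hg, hgk⟩ := (Finset.mem_filter.mp (J.orderEmbOfFin_mem rfl k)).2
        exact ⟨g, fun l hl => hg _ (e.strictMono hl), hgk⟩
    have hJ : J = Finset.univ := by
      apply Finset.eq_univ_of_card
      rw [Fintype.card_fin]
      exact hsize J.card t (f' ∘ e) f hirr hf
    exact ⟨hbase, fun i => (Finset.mem_filter.mp (hJ ▸ Finset.mem_univ i : i ∈ J)).2⟩
  · intro HH t t' f f' hf hf'
    have hbase : ∀ {s : ℕ} (h : Fin s → Ω), IrrBase G h → BaseSet G (Finset.univ.image h) := fun h hh g hg =>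
      hh.1 g fun i => hg _ (Finset.mem_image_of_mem _ (Finset.mem_univ i))
    have h := card_eq HH _ _ _ rfl (hbase f hf) (IrrBase.indep_image hf fun σ => HH t f σ hf) (hbase f' hf')
      (IrrBase.indep_image hf' fun σ => HH t' f' σ hf')
    rwa [Finset.card_image_of_injective _ (IrrBase.injective hf),
      Finset.card_image_of_injective _ (IrrBase.injective hf'), Finset.card_univ, Finset.card_univ,
      Fintype.card_fin, Fintype.card_fin] at h

end Cfsg.Agent.S5747
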