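import Cfsg.Statements.S5748
import Cfsg.Agent.CA.Even
import Cfsg.Agent.CA.Odd
import Cfsg.Agent.CA.PSLTwo
import Cfsg.Agent.S1230

set_option autoImplicit false
open Cfsg
open scoped commutatorElement

namespace Cfsg.Agent.S5748

/-- A finite non-abelian simple group in which commuting is a transitive relation on the non-identity elements (equivalently, every non-identity element has abelian centraliser) is isomorphic to PSL₂ over a field with 2^f elements for some f ≥ 2; conversely these groups have that property. -/
theorem result {G : Type*} [Group G] [Finite G] [IsSimpleGroup G] (hG : ¬ IsMulCommutative G) :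
    (∀ a b c : G, a ≠ 1 → b ≠ 1 → c ≠ 1 → Commute a b → Commute b c → Commute a c) ↔
    ∃ (F : Type) (_ : Field F) (_ : Fintype F) (f : ℕ), 2 ≤ f ∧ Fintype.card F = 2 ^ f ∧ Nonempty (G ≃* Matrix.ProjectiveSpecialLinearGroup (Fin 2) F) := by
  classical
  have hna : ∃ a b : G, a * b ≠ b * a := by
    by_contra h
    push Not at h
    exact hG ⟨⟨h⟩⟩
  have hsimple : ∀ N : Subgroup G, N.Normal → N = ⊥ ∨ N = ⊤ := fun N hN => IsSimpleGroup.eq_bot_or_eq_top_of_normal N hN
  constructor
  · intro hCT
    haveI : Fintype G := Fintype.ofFinite G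
    have hCA : CfsgLib.CA.IsCA G := by
      intro x hx a ha b hb
      by_cases ha1 : a = 1
      · rw [ha1, one_mul, mul_one]
      by_cases hb1 : b = 1
      · rw [hb1, one_mul, mul_one]
      exact (hCT a x b ha1 hx hb1 (Subgroup.mem_centralizer_singleton_iff.1 ha)
        (Subgroup.mem_centralizer_singleton_iff.1 hb).symm).eq
    have hcomm_of_solvable : Group.IsSolvable G → False := by
      intro hs
      haveI : Nontrivial G := IsSimpleGroup.toNontrivial
      have hlt := Group.IsSolvable.commutator_lt_top_of_nontrivial G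
      rcases hsimple (commutator G) inferInstance with h | h
      · obtain ⟨a, b, hab⟩ := hna
        have h1 : ⁅a, b⁆ ∈ commutator G := Subgroup.commutator_mem_commutator (Subgroup.mem_top a) (Subgroup.mem_top b)
        rw [h, Subgroup.mem_bot] at h1
        exact hab (commutatorElement_eq_one_iff_mul_comm.1 h1)
      · exact hlt.ne h
    have heven : 2 ∣ Nat.card G := by
      by_contra h
      exact hcomm_of_solvable (CfsgLib.CA.solvable_of_odd (Nat.card G) G rfl (Nat.odd_iff.2 (by omega)) hCA)
    haveI : Fact (Nat.Prime 2) := ⟨Nat.prime_two⟩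
    obtain ⟨T⟩ : Nonempty (Sylow 2 G) := inferInstance
    have hTbot : (T : Subgroup G) ≠ ⊥ := T.ne_bot_of_dvd_card heven
    have hTtop : (T : Subgroup G) ≠ ⊤ := by
      intro h
      have hp : IsPGroup 2 G := by
        have := T.isPGroup'
        rw [h] at this
        exact this.of_equiv Subgroup.topEquiv
      haveI := hp.center_nontrivial
      rcases hsimple (Subgroup.center G) inferInstance with hc | hc
      · exact (Subgroup.center G).nontrivial_iff_ne_bot.1 inferInstance hc
      · obtain ⟨a, b, hab⟩ := hna
        exact hab (Subgroup.mem_center_iff.1 (hc ▸ Subgroup.mem_top b) a)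
    have hnn : ¬ (T : Subgroup G).Normal := fun h => (hsimple _ h).elim hTbot hTtop
    have hnc : ¬ IsCyclic (T : Subgroup G) := by
      intro hcyc
      have h2 : (Nat.card G).minFac = 2 := (Nat.minFac_eq_two_iff _).2 heven
      haveI := hcyc
      have hcompl := MonoidHom.ker_transferSylow_isComplement' T
        (IsCyclic.normalizer_le_centralizer (P := T) h2 hcyc)
      rcases hsimple _ (MonoidHom.normal_ker (MonoidHom.transferSylow T (IsCyclic.normalizer_le_centralizer (P := T) h2 hcyc))) with h | h
      · rw [h] at hcompl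
        exact hTtop (Subgroup.isComplement'_bot_left.1 hcompl)
      · rw [h] at hcompl
        exact hTbot (Subgroup.isComplement'_top_left.1 hcompl)
    have hC : ∀ t : G, orderOf t = 2 → IsMulCommutative (Subgroup.centralizer ({t} : Set G)) ∧
        ∀ c ∈ Subgroup.centralizer ({t} : Set G), c ^ 2 = 1 := fun t ht =>
      ⟨⟨⟨fun a b => Subtype.ext (hCA t (fun h => by rw [h, orderOf_one] at ht; omega) a a.2 b b.2)⟩⟩,
        CfsgLib.CA.sq_eq_one_of_mem hCA hna hsimple ht⟩
    obtain ⟨F, hF, hFf, hcard, hiso⟩ := Cfsg.Agent.S1230.result T hnc hnn hC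
    obtain ⟨k, hk⟩ := IsPGroup.iff_card.1 T.isPGroup'
    refine ⟨F, hF, hFf, k, ?_, hcard.trans hk, hiso⟩
    by_contra hk2
    apply hnc
    interval_cases k
    · haveI : Subsingleton (T : Subgroup G) := (Nat.card_eq_one_iff_unique.1 (by simpa using hk)).1
      infer_instance
    · exact isCyclic_of_prime_card (hk.trans (pow_one 2))
  · rintro ⟨F, _, _, f, hf, hcard, ⟨φ⟩⟩ a b c ha hb hc hab hbc
    haveI : Fact (Nat.Prime 2) := ⟨Nat.prime_two⟩
    haveI : CharP F 2 := charP_of_card_eq_prime_pow hcard
    have h := CfsgLib.CA.isCA_psl (F := F) (φ b) (fun h => hb (φ.injective (by rw [h, map_one])))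
      (φ a) (Subgroup.mem_centralizer_singleton_iff.2 (by rw [← map_mul, ← map_mul, hab.eq]))
      (φ c) (Subgroup.mem_centralizer_singleton_iff.2 (by rw [← map_mul, ← map_mul, hbc.eq]))
    rw [← map_mul, ← map_mul] at h
    exact φ.injective h

end Cfsg.Agent.S5748
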