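import Cfsg.Statements.S5754
-- import your own Cfsg.Agent.* helpers here

set_option autoImplicit false
open Cfsg

namespace Cfsg.Agent.S5754

open QuadraticMap in
/-- A reflection fixes what is polar to `x - y` and moves `x` to `y` when `Q x = Q y`. -/
theorem exists_reflection {F V : Type*} [Field F] [AddCommGroup V] [Module F V]
    (Q : QuadraticForm F V) (hQ : Q.Anisotropic) (x y : V) (hxy : Q x = Q y) :
    ∃ R : Q.IsometryEquiv Q, R x = y ∧ ∀ v, polar Q v (x - y) = 0 → R v = v := by
  by_cases hne : x - y = 0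
  · exact ⟨QuadraticMap.IsometryEquiv.refl Q, sub_eq_zero.mp hne, fun v _ => rfl⟩
  set d : V := x - y with hd
  have hQd : Q d ≠ 0 := fun h => hne (hQ d h)
  let φ : Module.Dual F V := (Q d)⁻¹ • (Q.polarBilin d)
  have hφ : ∀ v, φ v = (Q d)⁻¹ * polar Q v d := by
    intro v
    simp only [φ, LinearMap.smul_apply, smul_eq_mul]
    rw [show (Q.polarBilin d) v = polar Q d v from rfl, polar_comm]
  have hφd : φ d = 2 := by
    rw [hφ, polar_self, two_nsmul, mul_add, inv_mul_cancel₀ hQd]
    norm_num
  have hiso : ∀ v, Q (Module.reflection hφd v) = Q v := by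
    intro v
    rw [Module.reflection_apply, sub_eq_add_neg, ← neg_smul, QuadraticMap.map_add Q v, QuadraticMap.map_smul,
      polar_smul_right, hφ, smul_eq_mul, smul_eq_mul]
    field_simp
    ring
  refine ⟨{ Module.reflection hφd with map_app' := hiso }, ?_, ?_⟩
  · show Module.reflection hφd x = y
    have hxd : φ x = 1 := by
      have h1 : polar Q x d = 2 • Q x - polar Q x y := by rw [hd, polar_sub_right, polar_self]
      have h2 : Q d = 2 • Q x - polar Q x y := by
        rw [hd, sub_eq_add_neg, QuadraticMap.map_add Q, QuadraticMap.map_neg, polar_neg_right, ← hxy, two_nsmul]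
        ring
      rw [hφ, h1, ← h2, inv_mul_cancel₀ hQd]
    rw [Module.reflection_apply, hxd, one_smul, hd, sub_sub_cancel]
  · intro v hv
    show Module.reflection hφd v = v
    rw [Module.reflection_apply, hφ, hv, mul_zero, zero_smul, sub_zero]

open QuadraticMap in
theorem exists_isometry_of_finset {F V ι : Type*} [Field F] [AddCommGroup V] [Module F V]
    (Q : QuadraticForm F V) (hQ : Q.Anisotropic) (w w' : ι → V) (hq : ∀ i, Q (w i) = Q (w' i))
    (hp : ∀ i j, polar Q (w i) (w j) = polar Q (w' i) (w' j)) (S : Finset ι) :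
    ∃ φ : Q.IsometryEquiv Q, ∀ i ∈ S, φ (w i) = w' i := by
  classical
  induction S using Finset.induction with
  | empty => exact ⟨QuadraticMap.IsometryEquiv.refl Q, by simp⟩
  | insert k s hk ih =>
    obtain ⟨φ, hφ⟩ := ih
    obtain ⟨R, hR1, hR2⟩ := exists_reflection Q hQ (φ (w k)) (w' k) (by rw [φ.map_app, hq])
    refine ⟨φ.trans R, fun i hi => ?_⟩
    show R (φ (w i)) = w' i
    rcases Finset.mem_insert.mp hi with rfl | hi
    · exact hR1
    · rw [hφ i hi]
      apply hR2
      rw [polar_sub_right, sub_eq_zero, ← hp, ← hφ i hi]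
      simp only [polar]
      rw [← map_add φ, φ.map_app, φ.map_app, φ.map_app]

/-- Let V be a finite-dimensional vector space over a finite field F carrying an anisotropic quadratic form Q (Q(v) = 0 only for v = 0). Then the group of all maps v ↦ φ(v) + c, with φ an isometry of Q and c ∈ V, acts on V as a binary permutation group: given n ≥ 2 and two n-tuples u, u' of vectors such that every pair of corresponding entries of u is carried to that of u' by such a map, one such map carries u to u'. -/
theorem result {F V : Type*} [Field F] [Finite F] [AddCommGroup V] [Module F V] [Module.Finite F V]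
    (Q : QuadraticForm F V) (hQ : Q.Anisotropic) (n : ℕ) (hn : 2 ≤ n) (u u' : Fin n → V)
    (h2 : ∀ i j : Fin n, i ≠ j → ∃ (φ : Q.IsometryEquiv Q) (c : V), φ (u i) + c = u' i ∧ φ (u j) + c = u' j) :
    ∃ (φ : Q.IsometryEquiv Q) (c : V), ∀ i, φ (u i) + c = u' i := by
  haveI : NeZero n := ⟨by omega⟩
  have hd : ∀ i j, Q (u i - u j) = Q (u' i - u' j) := by
    intro i j
    by_cases hij : i = j
    · simp [hij]
    · obtain ⟨φ, c, h1, h2⟩ := h2 i j hij
      rw [← h1, ← h2, add_sub_add_right_eq_sub, ← map_sub φ, φ.map_app]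
  set w : Fin n → V := fun i => u i - u 0 with hw
  set w' : Fin n → V := fun i => u' i - u' 0 with hw'
  have hq : ∀ i, Q (w i) = Q (w' i) := fun i => hd i 0
  have hp : ∀ i j, QuadraticMap.polar Q (w i) (w j) = QuadraticMap.polar Q (w' i) (w' j) := by
    intro i j
    have key : ∀ x y : V, QuadraticMap.polar Q x y = Q x + Q y - Q (x - y) := by
      intro x y
      have h := QuadraticMap.map_add Q x (-y)
      rw [QuadraticMap.map_neg, QuadraticMap.polar_neg_right, ← sub_eq_add_neg] at h
      rw [h]; ring
    rw [key, key, hq, hq]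
    have : w i - w j = u i - u j ∧ w' i - w' j = u' i - u' j :=
      ⟨sub_sub_sub_cancel_right _ _ _, sub_sub_sub_cancel_right _ _ _⟩
    rw [this.1, this.2, hd]
  obtain ⟨φ, hφ⟩ := exists_isometry_of_finset Q hQ w w' hq hp Finset.univ
  refine ⟨φ, u' 0 - φ (u 0), fun i => ?_⟩
  have := hφ i (Finset.mem_univ i)
  simp only [hw, hw', map_sub φ] at this
  rw [add_sub, ← sub_eq_zero]
  rw [← sub_eq_zero] at this
  rw [← this]
  abel

end Cfsg.Agent.S5754
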