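import Cfsg.Statements.S5763
import Mathlib
import Cfsg.Agent.SylEight.Check
-- import your own Cfsg.Agent.* helpers here

set_option autoImplicit false
open Cfsg

namespace Cfsg.Agent.S5763

/-- In the symmetric group on 8 letters any two Sylow 2-subgroups have non-trivial intersection: for a Sylow 2-subgroup H and every element x, H ∩ xHx⁻¹ ≠ 1. -/
theorem result (H : Sylow 2 (Equiv.Perm (Fin 8))) (x : Equiv.Perm (Fin 8)) :
    (H : Subgroup (Equiv.Perm (Fin 8))) ⊓ (H : Subgroup (Equiv.Perm (Fin 8))).map (MulAut.conj x).toMonoidHom ≠ ⊥ := by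
  obtain ⟨P₀, hP₀⟩ := CfsgLib.SylEight.isPGroup_stab.exists_le_sylow
  obtain ⟨g, hg⟩ := MulAction.exists_smul_eq (Equiv.Perm (Fin 8)) P₀ H
  obtain ⟨h, hh, h1, h2⟩ := CfsgLib.SylEight.exists_witness (g⁻¹ * x * g)
  have hmem : ∀ k ∈ CfsgLib.SylEight.stab, g * k * g⁻¹ ∈ (H : Subgroup (Equiv.Perm (Fin 8))) := fun k hk => by
    rw [← hg, Sylow.coe_subgroup_smul]
    exact ⟨k, hP₀ hk, rfl⟩
  intro hbot
  have : g * h * g⁻¹ ∈ (H : Subgroup (Equiv.Perm (Fin 8))) ⊓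
      (H : Subgroup (Equiv.Perm (Fin 8))).map (MulAut.conj x).toMonoidHom := by
    refine ⟨hmem h hh, g * ((g⁻¹ * x * g)⁻¹ * h * (g⁻¹ * x * g)) * g⁻¹, hmem _ h2, ?_⟩
    simp only [MulEquiv.coe_toMonoidHom, MulAut.conj_apply]
    group
  rw [hbot, Subgroup.mem_bot, conj_eq_one_iff] at this
  exact h1 this

end Cfsg.Agent.S5763
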