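import Cfsg.Statements.S5885
import Mathlib

set_option autoImplicit false
open Cfsg
open scoped Pointwise

namespace Cfsg.Agent.S5885

/-- Let n be an odd positive integer such that every primitive permutation group of degree n contains the alternating group (so the symmetric and alternating groups are the only primitive groups of degree n). Let G be a finite group, M a maximal subgroup of G of index n, and H a maximal subgroup of M. Then H is a second maximal subgroup of G: H is maximal in every maximal subgroup K of G containing H. -/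
theorem result {G : Type*} [Group G]
    [Finite G] (n : ℕ) (hodd : Odd n)
    (hA : ∀ P : Subgroup (Equiv.Perm (Fin n)), MulAction.IsPreprimitive P (Fin n) → alternatingGroup (Fin n) ≤ P)
    (M : Subgroup G) (hM : IsCoatom M) (hn : M.index = n) (H : Subgroup G) (hHM : H ≤ M)
    (hmax : IsCoatom (H.subgroupOf M)) (K : Subgroup G) (hK : IsCoatom K) (hHK : H ≤ K) :
    IsCoatom (H.subgroupOf K) := by
  classical
  haveI : NeZero n := ⟨fun e => by subst e; exact Nat.not_odd_zero hodd⟩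
  have hn1 : n ≠ 1 := fun e => hM.1 (Subgroup.index_eq_one.mp (hn.trans e))
  haveI : Nontrivial (Fin n) := Fin.nontrivial_iff_two_le.mpr (by have := NeZero.pos n; omega)
  have hc : Nat.card (G ⧸ M) = n := by rw [← Subgroup.index_eq_card, hn]
  let e : G ⧸ M ≃ Fin n := (Finite.equivFin _).trans (finCongr hc)
  let π : G →* Equiv.Perm (Fin n) := e.permCongrHom.toMonoidHom.comp (MulAction.toPermHom G (G ⧸ M))
  letI : MulAction G (Fin n) := MulAction.compHom _ π
  set x : Fin n := e ((1 : G) : G ⧸ M) with hx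
  have hsmul : ∀ (g : G) (q : G ⧸ M), g • e q = e (g • q) := fun g q => by
    show π g (e q) = _
    simp [π]
  have hstab : MulAction.stabilizer G x = M := by
    ext g
    rw [MulAction.mem_stabilizer_iff, hx, hsmul, e.apply_eq_iff_eq, MulAction.Quotient.smul_coe, smul_eq_mul, mul_one,
      QuotientGroup.eq, mul_one, Subgroup.inv_mem_iff]
  haveI : MulAction.IsPretransitive G (Fin n) := ⟨fun a b => by
    obtain ⟨g, hg⟩ := MulAction.exists_smul_eq G (e.symm a) (e.symm b)
    refine ⟨g, ?_⟩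
    rw [← e.apply_symm_apply a, hsmul, hg, e.apply_symm_apply]⟩
  haveI hprim : MulAction.IsPreprimitive G (Fin n) :=
    (MulAction.isCoatom_stabilizer_iff_preprimitive G x).mp (hstab.symm ▸ hM)
  have hP : MulAction.IsPreprimitive π.range (Fin n) := by
    let f : Fin n →ₑ[π.rangeRestrict] Fin n := { toFun := id, map_smul' := fun g a => rfl }
    exact MulAction.IsPreprimitive.of_surjective (f := f) Function.surjective_id
  have hcyc : ∀ b c d : Fin n, b ≠ c → c ≠ d → b ≠ d →
      ∃ g : G, g • b = c ∧ g • c = d ∧ ∀ y, y ≠ b → y ≠ c → y ≠ d → g • y = y := by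
    intro b c d hbc hcd hbd
    obtain ⟨g, hg⟩ := hA π.range hP
      (Equiv.Perm.isThreeCycle_swap_mul_swap_same hbd hbc hcd.symm).mem_alternatingGroup
    refine ⟨g, ?_, ?_, fun y h1 h2 h3 => ?_⟩
    · show π g b = c
      rw [hg, Equiv.Perm.mul_apply, Equiv.swap_apply_left, Equiv.swap_apply_of_ne_of_ne hbc.symm hcd]
    · show π g c = d
      rw [hg, Equiv.Perm.mul_apply, Equiv.swap_apply_right, Equiv.swap_apply_left]
    · show π g y = y
      rw [hg, Equiv.Perm.mul_apply, Equiv.swap_apply_of_ne_of_ne h1 h2, Equiv.swap_apply_of_ne_of_ne h1 h3]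
  refine ⟨fun htop => ?_, fun L hL => ?_⟩
  · -- `H < K`
    rw [Subgroup.subgroupOf_eq_top] at htop
    have hKM : K ≤ M := htop.trans hHM
    rcases hKM.lt_or_eq with h | h
    · exact hM.1 (hK.2 M h)
    · subst h
      exact hmax.1 (Subgroup.subgroupOf_eq_top.mpr htop)
  by_contra hLtop
  set L' : Subgroup G := L.map K.subtype with hL'
  have hL'K : L' ≤ K := Subgroup.map_subtype_le L
  have hHL : H ≤ L' := fun h hh => ⟨⟨h, hHK hh⟩, hL.le (show (⟨h, hHK hh⟩ : K) ∈ H.subgroupOf K from hh), rfl⟩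
  by_cases hKM : K = M
  · subst hKM
    exact hLtop (hmax.2 L hL)
  -- `H = K ∩ M`
  have hmem : ∀ g : G, g • x = x ↔ g ∈ M := fun g => by rw [← hstab, MulAction.mem_stabilizer_iff]
  have hH : ∀ g ∈ K, g • x = x → g ∈ H := by
    intro g hg hgx
    by_contra hgH
    have hlt : H.subgroupOf M < (K ⊓ M).subgroupOf M := by
      refine lt_of_le_of_ne (Subgroup.comap_mono (le_inf hHK hHM)) fun e' => hgH ?_
      exact e'.symm.le (show (⟨g, (hmem g).mp hgx⟩ : M) ∈ (K ⊓ M).subgroupOf M from ⟨hg, (hmem g).mp hgx⟩)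
    have h1 := Subgroup.subgroupOf_eq_top.mp (hmax.2 _ hlt)
    have h2 : M ≤ K := h1.trans inf_le_left
    rcases h2.lt_or_eq with h | h
    · exact hK.1 (hM.2 K h)
    · exact hKM h.symm
  -- the block
  set B : Set (Fin n) := {y | ∃ l ∈ L', l • x = y} with hB
  have hxB : x ∈ B := ⟨1, L'.one_mem, one_smul _ _⟩
  have hBmem : ∀ l ∈ L', ∀ y, y ∈ B → l • y ∈ B := by
    rintro l hl y ⟨m, hm, rfl⟩
    exact ⟨l * m, L'.mul_mem hl hm, mul_smul _ _ _⟩
  have hblock : ∀ k ∈ K, ∀ y ∈ B, k • y ∈ B → k ∈ L' := by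
    rintro k hk y ⟨l, hl, rfl⟩ ⟨m, hm, hmk⟩
    have h1 : (m⁻¹ * k * l) • x = x := by
      rw [mul_smul, mul_smul, ← hmk, inv_smul_smul]
    have h2 := hHL (hH _ (K.mul_mem (K.mul_mem (K.inv_mem (hL'K hm)) hk) (hL'K hl)) h1)
    have h3 := L'.mul_mem (L'.mul_mem hm h2) (L'.inv_mem hl)
    rwa [show m * (m⁻¹ * k * l) * l⁻¹ = k by group] at h3
  -- a second point of the block
  obtain ⟨b, hbB, hbx⟩ : ∃ b ∈ B, b ≠ x := by
    obtain ⟨⟨g, hg⟩, hgL, hgH⟩ := SetLike.exists_of_lt hL
    exact ⟨g • x, ⟨g, ⟨⟨g, hg⟩, hgL, rfl⟩, rfl⟩, fun e' => hgH (hH g hg e')⟩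
  -- a point of the orbit outside the block
  obtain ⟨k, hk, hkB⟩ : ∃ k ∈ K, k • x ∉ B := by
    by_contra hcon
    push Not at hcon
    apply hLtop
    rw [Subgroup.eq_top_iff']
    rintro ⟨k, hk⟩
    obtain ⟨⟨l, hlK⟩, hlL, hl⟩ := hblock k hk x hxB (hcon k hk)
    obtain rfl : l = k := hl
    exact hlL
  have hkb : k • b ∉ B := fun h => hkB (hBmem k (hblock k hk b hbB h) x hxB)
  have hkxb : k • b ≠ k • x := fun h => hbx (MulAction.injective k h)
  set Δ : Set (Fin n) := {y | ∃ g ∈ K, g • x = y} with hΔ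
  by_cases hΔall : ∀ y, y ∈ Δ
  · -- transitive
    set S : Subgroup G := M ⊓ MulAction.stabilizer G B with hS
    have hHS : H ≤ S := by
      intro h hh
      refine ⟨hHM hh, MulAction.mem_stabilizer_iff.mpr (Set.ext fun y => ?_)⟩
      rw [Set.mem_smul_set_iff_inv_smul_mem]
      refine ⟨fun h1 => ?_, fun h1 => hBmem h⁻¹ (hHL (H.inv_mem hh)) y h1⟩
      have := hBmem h (hHL hh) _ h1
      rwa [smul_inv_smul] at this
    have hSH : S ≤ H := by
      by_contra hne
      have hlt : H.subgroupOf M < S.subgroupOf M := by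
        refine lt_of_le_of_ne (Subgroup.comap_mono hHS) fun e' => hne fun s hs => ?_
        exact e'.symm.le (show (⟨s, hs.1⟩ : M) ∈ S.subgroupOf M from hs)
      have h1 := Subgroup.subgroupOf_eq_top.mp (hmax.2 _ hlt)
      obtain ⟨g, hgb, -, hgfix⟩ := hcyc b (k • x) (k • b) (fun e' => hkB (e' ▸ hbB)) hkxb.symm
        (fun e' => hkb (e' ▸ hbB))
      have hgx : g • x = x := hgfix x hbx.symm (fun e' => hkB (e' ▸ hxB)) (fun e' => hkb (e' ▸ hxB))
      have h2 := MulAction.mem_stabilizer_iff.mp (h1 ((hmem g).mp hgx)).2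
      exact hkB (by rw [← h2, ← hgb]; exact Set.smul_mem_smul_set hbB)
    obtain ⟨y, hyB, hyC⟩ : ∃ y, y ∉ B ∧ y ∉ k • B := by
      by_contra hcon
      push Not at hcon
      have hU : B ∪ k • B = Set.univ := Set.eq_univ_of_forall fun y => (em (y ∈ B)).imp_right (hcon y)
      have hdis : Disjoint B (k • B) := by
        rw [Set.disjoint_left]
        intro y hy hy'
        obtain ⟨z, hz, rfl⟩ := hy'
        exact hkB (hBmem k (hblock k hk z hz hy) x hxB)
      have hcard := Set.ncard_union_eq hdis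
      rw [hU, Set.ncard_univ, Nat.card_eq_fintype_card, Fintype.card_fin, Set.ncard_smul_set] at hcard
      obtain ⟨r, hr⟩ := hodd
      omega
    have hyx : y ≠ k • x := fun e' => hyC (e' ▸ Set.smul_mem_smul_set hxB)
    have hyb : y ≠ k • b := fun e' => hyC (e' ▸ Set.smul_mem_smul_set hbB)
    obtain ⟨g, hgc, hgd, hgfix⟩ := hcyc (k • x) (k • b) y hkxb.symm hyb.symm hyx.symm
    have hgB : ∀ z ∈ B, g • z = z := fun z hz => hgfix z (fun e' => hkB (e' ▸ hz)) (fun e' => hkb (e' ▸ hz))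
      (fun e' => hyB (e' ▸ hz))
    have hgS : g ∈ S := ⟨(hmem g).mp (hgB x hxB), MulAction.mem_stabilizer_iff.mpr (Set.ext fun z => by
      constructor
      · rintro ⟨w, hw, rfl⟩
        show g • w ∈ B
        rw [hgB w hw]
        exact hw
      · intro hz
        exact ⟨z, hz, hgB z hz⟩)⟩
    have hgK : g ∈ K := hHK (hSH hgS)
    have hl : k⁻¹ * g * k ∈ L' := hblock _ (K.mul_mem (K.mul_mem (K.inv_mem hk) hgK) hk) x hxB (by
      rw [mul_smul, mul_smul, hgc, inv_smul_smul]; exact hbB)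
    have := hBmem _ hl b hbB
    rw [mul_smul, mul_smul, hgd] at this
    exact hyC (Set.mem_smul_set_iff_inv_smul_mem.mpr this)
  · -- intransitive
    push Not at hΔall
    obtain ⟨z, hz⟩ := hΔall
    have hKΔ : K = MulAction.stabilizer G Δ := by
      have hle : K ≤ MulAction.stabilizer G Δ := by
        intro g hg
        rw [MulAction.mem_stabilizer_iff]
        ext y
        rw [Set.mem_smul_set_iff_inv_smul_mem]
        constructor
        · rintro ⟨m, hm, hmy⟩
          exact ⟨g * m, K.mul_mem hg hm, by rw [mul_smul, hmy, smul_inv_smul]⟩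
        · rintro ⟨m, hm, rfl⟩
          exact ⟨g⁻¹ * m, K.mul_mem (K.inv_mem hg) hm, mul_smul _ _ _⟩
      rcases hle.lt_or_eq with h | h
      · exfalso
        obtain ⟨g, hg⟩ := MulAction.exists_smul_eq G x z
        have h1 : g ∈ MulAction.stabilizer G Δ := hK.2 _ h ▸ Subgroup.mem_top g
        apply hz
        rw [← hg, ← MulAction.mem_stabilizer_iff.mp h1]
        exact Set.smul_mem_smul_set ⟨1, K.one_mem, one_smul _ _⟩
      · exact h
    obtain ⟨m, hm, rfl⟩ := hbB
    obtain ⟨g, hgb, hgc, hgfix⟩ := hcyc (m • x) (k • x) (k • m • x) (fun e' => hkB (e' ▸ ⟨m, hm, rfl⟩)) hkxb.symm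
      (fun e' => hkb (e' ▸ ⟨m, hm, rfl⟩))
    have hmΔ : m • x ∈ Δ := ⟨m, hL'K hm, rfl⟩
    have hkΔ : k • x ∈ Δ := ⟨k, hk, rfl⟩
    have hkmΔ : k • m • x ∈ Δ := ⟨k * m, K.mul_mem hk (hL'K hm), mul_smul _ _ _⟩
    have hout : ∀ y, y ∉ Δ → g • y = y := fun y hy => hgfix y (fun e' => hy (e' ▸ hmΔ)) (fun e' => hy (e' ▸ hkΔ))
      (fun e' => hy (e' ▸ hkmΔ))
    have hgK : g ∈ K := by
      rw [hKΔ, MulAction.mem_stabilizer_iff]
      have hsub : g • Δ ⊆ Δ := by
        rintro _ ⟨y, hy, rfl⟩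
        show g • y ∈ Δ
        by_contra hgy
        have e' : g • y = y := MulAction.injective g (hout _ hgy)
        exact hgy (by rw [e']; exact hy)
      exact Set.eq_of_subset_of_ncard_le hsub (by rw [Set.ncard_smul_set])
    have hgx : g • x = x := hgfix x hbx.symm (fun e' => hkB (e' ▸ hxB)) (fun e' => hkb (e' ▸ hxB))
    have := hBmem g (hHL (hH g hgK hgx)) (m • x) ⟨m, hm, rfl⟩
    rw [hgb] at this
    exact hkB this

end Cfsg.Agent.S5885
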