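import Cfsg.Statements.S5887
import Cfsg.Agent.GeoLib.Transvection

set_option autoImplicit false
open Cfsg

namespace Cfsg.Agent.S5887

/-- Let F be a finite field, n a positive integer and r a composite number (r > 1, not prime) that divides n with r < n. Let K be a subalgebra of the algebra of n × n matrices over F which is a field of degree r over F (commutative, every non-zero element invertible, of dimension r over F). Then the normaliser N of K in GL_n(F) (a group of type ΓL_{n/r}(F_{q^r})) is not a maximal subgroup of GL_n(F), and N ∩ SL_n(F) is not a maximal subgroup of SL_n(F): both lie properly inside the normaliser of an intermediate subfield of prime degree over F. -/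
theorem result {F : Type*} [Field F]
    [Fintype F] (n r : ℕ) (hr1 : 1 < r) (hrp : ¬ r.Prime) (hrn : r ∣ n) (hlt : r < n)
    (K : Subalgebra F (Matrix (Fin n) (Fin n) F)) (hK : Cfsg.Geo.IsFieldSubalgebra r K) :
    ¬ IsCoatom (Cfsg.Geo.subalgebraNormalizer K) ∧
      ¬ Cfsg.Geo.IsMaximalIn (Cfsg.Geo.specialLinear (Fin n) F)
        (Cfsg.Geo.subalgebraNormalizer K ⊓ Cfsg.Geo.specialLinear (Fin n) F) := by
  classical
  haveI : Nontrivial ↥K := Module.nontrivial_of_finrank_pos (R := F) (by rw [hK.finrank_eq]; omega)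
  have hfield : IsField ↥K :=
    { exists_pair_ne := exists_pair_ne _
      mul_comm := fun x y => Subtype.ext (hK.comm x x.2 y y.2)
      mul_inv_cancel := fun {x} hx => by
        obtain ⟨y, hy, hxy⟩ := hK.inv x x.2 (fun h => hx (Subtype.ext h))
        exact ⟨⟨y, hy⟩, Subtype.ext hxy⟩ }
  letI : Field ↥K := hfield.toField
  haveI : Module.Finite F ↥K := Module.finite_of_finrank_pos (by rw [hK.finrank_eq]; omega)
  haveI : Finite ↥K := Module.finite_of_finite F
  haveI : Fintype ↥K := Fintype.ofFinite _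
  obtain ⟨d, hdr, hd2, hdlt⟩ := Nat.exists_dvd_of_not_prime2 (n := r) (by omega) hrp
  set q := Fintype.card F with hq
  have hq1 : 1 < q := Fintype.one_lt_card
  obtain ⟨σ, hσ⟩ : ∃ σ : ↥K →ₐ[F] ↥K, ∀ x, σ x = x ^ (q ^ d) := by
    suffices h : ∀ k : ℕ, ∃ σ : ↥K →ₐ[F] ↥K, ∀ x, σ x = x ^ (q ^ k) from h d
    intro k
    induction k with
    | zero => exact ⟨AlgHom.id F _, fun x => by simp⟩
    | succ k ih =>
      obtain ⟨σ, hσ⟩ := ih
      exact ⟨(FiniteField.frobeniusAlgHom F ↥K).comp σ, fun x => by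
        rw [AlgHom.comp_apply, hσ, FiniteField.coe_frobeniusAlgHom]
        show (x ^ q ^ k) ^ q = _
        rw [← pow_mul, ← pow_succ]⟩
  let L : Subalgebra F (Matrix (Fin n) (Fin n) F) := (AlgHom.equalizer σ (AlgHom.id F ↥K)).map K.val
  have hmemL : ∀ m, m ∈ L ↔ m ∈ K ∧ m ^ (q ^ d) = m := by
    intro m
    simp only [L, Subalgebra.mem_map, AlgHom.mem_equalizer, AlgHom.id_apply, hσ]
    constructor
    · rintro ⟨x, hx, rfl⟩
      exact ⟨x.2, by simpa using congrArg Subtype.val hx⟩
    · rintro ⟨hm, hp⟩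
      exact ⟨⟨m, hm⟩, Subtype.ext (by simpa using hp), rfl⟩
  have hcardK : Fintype.card ↥K = q ^ r := by rw [Module.card_eq_pow_finrank (K := F), hK.finrank_eq]
  obtain ⟨g, hg⟩ := IsCyclic.exists_ofOrder_eq_natCard (α := (↥K)ˣ)
  rw [Nat.card_units, Nat.card_eq_fintype_card, hcardK] at hg
  -- an element of `K` outside `L`
  have hgL : ((g : ↥K) : Matrix (Fin n) (Fin n) F) ∉ L := fun h => by
    have h1 : (g : ↥K) ^ (q ^ d) = g := Subtype.ext (by simpa using ((hmemL _).1 h).2)
    have h2 : g ^ (q ^ d) = g ^ 1 := Units.ext (by simpa using h1)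
    have h3 : q ^ d < q ^ r := Nat.pow_lt_pow_right hq1 hdlt
    have h4 : 1 < q ^ d := Nat.one_lt_pow (by omega) hq1
    rw [pow_eq_pow_iff_modEq, hg] at h2
    have h5 : q ^ d ≡ 1 [MOD q ^ r - 1] := h2
    rw [Nat.ModEq.comm, Nat.modEq_iff_dvd' h4.le] at h5
    have h6 := Nat.le_of_dvd (by omega) h5
    omega
  -- an element of `L` outside the scalars
  obtain ⟨c, hc⟩ := Nat.sub_one_dvd_pow_sub_one (q ^ d) (r / d)
  rw [← pow_mul, Nat.mul_div_cancel' hdr] at hc
  have hlL : (((g ^ c : (↥K)ˣ) : ↥K) : Matrix (Fin n) (Fin n) F) ∈ L := by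
    refine (hmemL _).2 ⟨Subtype.coe_prop _, ?_⟩
    have h1 : (g ^ c) ^ (q ^ d) = g ^ c := by
      rw [← pow_mul, ← Nat.sub_add_cancel (Nat.one_le_pow d q (by omega)), mul_add, mul_comm c, ← hc, mul_one, pow_add,
        show q ^ r - 1 = orderOf g from hg.symm, pow_orderOf_eq_one, one_mul]
    simpa using congrArg (fun u : (↥K)ˣ => ((u : ↥K) : Matrix (Fin n) (Fin n) F)) h1
  have hlns : ∀ a : F, ((g ^ c : (↥K)ˣ) : ↥K) ≠ algebraMap F ↥K a := fun a h => by
    have ha : a ≠ 0 := fun h0 => (g ^ c).ne_zero (by rw [h, h0, map_zero])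
    have h1 : (g ^ c) ^ (q - 1) = 1 := Units.ext (by
      rw [Units.val_pow_eq_pow_val, h, ← map_pow, FiniteField.pow_card_sub_one_eq_one a ha, map_one, Units.val_one])
    rw [← pow_mul] at h1
    have h2 := Nat.le_of_dvd (by
      rcases Nat.eq_zero_or_pos c with h0 | h0
      · rw [h0, mul_zero] at hc
        have := Nat.one_lt_pow (n := r) (by omega) hq1
        omega
      · exact Nat.mul_pos h0 (by omega)) (orderOf_dvd_of_pow_eq_one h1)
    rw [hg, hc, mul_comm] at h2
    have h3 : q ^ 1 < q ^ d := Nat.pow_lt_pow_right hq1 (by omega)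
    have hc0 : 0 < c := by
      rcases Nat.eq_zero_or_pos c with h0 | h0
      · rw [h0, mul_zero] at hc
        have := Nat.one_lt_pow (n := r) (by omega) hq1
        omega
      · exact h0
    have := Nat.le_of_mul_le_mul_left h2 hc0
    rw [pow_one] at h3
    omega
  have hLK : L ≤ K := fun m hm => ((hmemL m).1 hm).1
  have hinv : ∀ x ∈ K, x ≠ 0 → ∀ v : Fin n → F, x.mulVec v = 0 → v = 0 := fun x hx hx0 v hv => by
    obtain ⟨y, hy, hxy⟩ := hK.inv x hx hx0
    have := congrArg y.mulVec hv
    rwa [Matrix.mulVec_mulVec, hK.comm y hy x hx, hxy, Matrix.one_mulVec, Matrix.mulVec_zero] at this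
  -- normalising elements of small displacement centralise
  have hsmall : ∀ (t : GL (Fin n) F) (W : Submodule F (Fin n → F)),
      (∀ x, (t : Matrix (Fin n) (Fin n) F).mulVec x - x ∈ W) → ∀ k ∈ K,
      (t : Matrix (Fin n) (Fin n) F) * k * ((t⁻¹ : GL (Fin n) F) : Matrix (Fin n) (Fin n) F) ∈ K →
      2 * Module.finrank F W < n → (t : Matrix (Fin n) (Fin n) F) * k = k * (t : Matrix (Fin n) (Fin n) F) := by
    intro t W hW k hk htk hdim
    obtain ⟨k', hk'⟩ : ∃ k', k' = (t : Matrix (Fin n) (Fin n) F) * k * ((t⁻¹ : GL (Fin n) F) : Matrix (Fin n) (Fin n) F) :=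
      ⟨_, rfl⟩
    rw [← hk'] at htk
    have hk't : k' * (t : Matrix (Fin n) (Fin n) F) = (t : Matrix (Fin n) (Fin n) F) * k := by
      rw [hk', mul_assoc, ← Units.val_mul, inv_mul_cancel, Units.val_one, mul_one]
    by_cases he : k' = k
    · rw [← hk't, he]
    exfalso
    let Δ : (Fin n → F) →ₗ[F] (Fin n → F) := Matrix.toLin' (k' - k)
    have hΔ : LinearMap.range (Δ.comp (Matrix.toLin' (t : Matrix (Fin n) (Fin n) F))) ≤ W ⊔ W.map (Matrix.toLin' k) := by
      rintro _ ⟨x, rfl⟩
      have e1 : (k' - k).mulVec ((t : Matrix (Fin n) (Fin n) F).mulVec x) =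
          ((t : Matrix (Fin n) (Fin n) F).mulVec (k.mulVec x) - k.mulVec x) -
            k.mulVec ((t : Matrix (Fin n) (Fin n) F).mulVec x - x) := by
        rw [Matrix.sub_mulVec, Matrix.mulVec_sub, Matrix.mulVec_mulVec, hk't, ← Matrix.mulVec_mulVec]
        abel
      show (Matrix.toLin' (k' - k)) (Matrix.toLin' (t : Matrix (Fin n) (Fin n) F) x) ∈ _
      rw [Matrix.toLin'_apply, Matrix.toLin'_apply, e1]
      exact sub_mem (Submodule.mem_sup_left (hW _)) (Submodule.mem_sup_right ⟨_, hW x, Matrix.toLin'_apply _ _⟩)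
    have h1 := Submodule.finrank_mono hΔ
    rw [LinearMap.finrank_range_of_inj (by
      intro a b hab
      have h2 : (k' - k).mulVec ((t : Matrix (Fin n) (Fin n) F).mulVec (a - b)) = 0 := by
        simp only [Δ, LinearMap.comp_apply, Matrix.toLin'_apply] at hab
        rw [Matrix.mulVec_sub, Matrix.mulVec_sub, hab, sub_self]
      have h3 := hinv _ (sub_mem htk hk) (sub_ne_zero.2 he) _ h2
      exact sub_eq_zero.1 (Matrix.mulVec_injective_of_isUnit t.isUnit (h3.trans (Matrix.mulVec_zero _).symm))),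
      Module.finrank_fin_fun] at h1
    have h2 := Submodule.finrank_add_le_finrank_add_finrank W (W.map (Matrix.toLin' k))
    have h3 := Submodule.finrank_map_le (Matrix.toLin' k) W
    omega
  have hKr : Module.finrank F ↥K = r := hK.finrank_eq
  have hn2 : 2 * r ≤ n := by
    obtain ⟨m, rfl⟩ := hrn
    rcases m with _ | _ | m
    · omega
    · omega
    · nlinarith
  have hNle : Cfsg.Geo.subalgebraNormalizer K ≤ Cfsg.Geo.subalgebraNormalizer L := by
    intro t ht k
    rw [hmemL, hmemL, ← ht k]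
    refine and_congr_right fun _ => ?_
    have hp : ((t : Matrix (Fin n) (Fin n) F) * k * ((t⁻¹ : GL (Fin n) F) : Matrix (Fin n) (Fin n) F)) ^ (q ^ d) =
        (t : Matrix (Fin n) (Fin n) F) * k ^ (q ^ d) * ((t⁻¹ : GL (Fin n) F) : Matrix (Fin n) (Fin n) F) :=
      Units.conj_pow t k _
    rw [hp]
    exact ⟨fun h => by rw [h], fun h => (Units.mul_right_inj t).1 ((Units.mul_left_inj t⁻¹).1 h)⟩
  -- a transvection outside the larger normaliser
  obtain ⟨i₀, i₁, hi⟩ : ∃ i j : Fin n, i ≠ j := ⟨⟨0, by omega⟩, ⟨1, by omega⟩, by simp⟩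
  obtain ⟨τ, hτS, hτ⟩ := CfsgLib.GeoTransvection.exists_transvection (Pi.single i₀ (1 : F))
    (LinearMap.proj i₁ : Module.Dual F (Fin n → F)) (by simp [Pi.single_eq_of_ne hi.symm])
  have hτnot : τ ∉ Cfsg.Geo.subalgebraNormalizer L := fun h => by
    obtain ⟨l, hl⟩ : ∃ l, l = (((g ^ c : (↥K)ˣ) : ↥K) : Matrix (Fin n) (Fin n) F) := ⟨_, rfl⟩
    have hl1 : l ∈ L := hl ▸ hlL
    have hcomm := hsmall τ (Submodule.span F {Pi.single i₀ (1 : F)}) (fun x => by
        rw [hτ, add_sub_cancel_left]; exact Submodule.smul_mem _ _ (Submodule.mem_span_singleton_self _))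
      l (hLK hl1) (hLK ((h l).1 hl1))
      (by rw [finrank_span_singleton (by simp [Pi.single_eq_zero_iff])]; omega)
    have e := congrArg (fun a : Matrix (Fin n) (Fin n) F => a.mulVec (Pi.single i₁ 1)) hcomm
    simp only [← Matrix.mulVec_mulVec, hτ, LinearMap.proj_apply, Pi.single_eq_same, Matrix.mulVec_add,
      one_smul] at e
    have e2 : l.mulVec (Pi.single i₀ 1) = (l.mulVec (Pi.single i₁ 1)) i₁ • Pi.single i₀ 1 := (add_left_cancel e).symm
    set a := (l.mulVec (Pi.single i₁ 1)) i₁
    have hzero : l - algebraMap F (Matrix (Fin n) (Fin n) F) a = 0 := by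
      by_contra h0
      have := hinv _ (sub_mem (hLK hl1) (K.algebraMap_mem a)) h0 (Pi.single i₀ 1) (by
        rw [Matrix.sub_mulVec, e2, Algebra.algebraMap_eq_smul_one, Matrix.smul_mulVec, Matrix.one_mulVec, sub_self])
      simpa using congrFun this i₀
    exact hlns a (Subtype.ext (by rw [← hl]; exact sub_eq_zero.1 hzero))
  -- an element of the larger normaliser outside the smaller
  obtain ⟨T, hTS, hTL, hTK⟩ : ∃ T ∈ Cfsg.Geo.specialLinear (Fin n) F,
      T ∈ Cfsg.Geo.subalgebraNormalizer L ∧ T ∉ Cfsg.Geo.subalgebraNormalizer K := by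
    let E : IntermediateField F ↥K :=
      { toSubalgebra := AlgHom.equalizer σ (AlgHom.id F ↥K)
        inv_mem' := fun x hx => by
          change σ x⁻¹ = x⁻¹
          rw [map_inv₀]
          exact congrArg Inv.inv hx }
    have hEL : ∀ x : ↥K, x ∈ E ↔ ((x : Matrix (Fin n) (Fin n) F)) ∈ L := fun x =>
      ⟨fun h => ⟨x, h, rfl⟩, fun ⟨y, hy, e⟩ => (Subtype.ext e : y = x) ▸ hy⟩
    let f : ↥E →+* Module.End F (Fin n → F) :=
      (Matrix.toLinAlgEquiv'.toAlgHom.comp (K.val.comp E.val)).toRingHom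
    letI : Module ↥E (Fin n → F) := Module.compHom _ f
    have hsmul : ∀ (x : ↥E) (v : Fin n → F), x • v = ((x : ↥K) : Matrix (Fin n) (Fin n) F).mulVec v := fun x v => by
      show Matrix.toLinAlgEquiv' ((x : ↥K) : Matrix (Fin n) (Fin n) F) v = _
      rw [Matrix.toLinAlgEquiv'_apply]
    haveI : IsScalarTower F ↥E (Fin n → F) := ⟨fun a x v => by
      rw [hsmul, hsmul]; simp [Matrix.smul_mulVec]⟩
    have hsc : ∀ (a : F) (u : Fin n → F), a • u = (algebraMap F ↥E a) • u := fun a u => by
      rw [hsmul]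
      show a • u = (algebraMap F (Matrix (Fin n) (Fin n) F) a).mulVec u
      simp [Algebra.algebraMap_eq_smul_one, Matrix.smul_mulVec]
    have hdimE : Module.finrank F ↥E < r := by
      rw [← hKr]
      refine Submodule.finrank_lt (s := Subalgebra.toSubmodule E.toSubalgebra) fun h => hgL ((hEL _).1 ?_)
      show (g : ↥K) ∈ Subalgebra.toSubmodule E.toSubalgebra
      rw [h]; trivial
    obtain ⟨v, hv⟩ : ∃ v : Fin n → F, v = Pi.single i₀ 1 := ⟨_, rfl⟩
    have hv0 : v ≠ 0 := by simp [hv, Pi.single_eq_zero_iff]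
    let W : Submodule F (Fin n → F) := LinearMap.range
      ({ toFun := fun e => e • v
         map_add' := fun a b => add_smul a b v
         map_smul' := fun a b => smul_assoc a b v } : ↥E →ₗ[F] (Fin n → F))
    have hWdim : Module.finrank F W ≤ Module.finrank F ↥E := LinearMap.finrank_range_le _
    obtain ⟨w, hw⟩ : ∃ w, w ∉ W := by
      by_contra hall
      push Not at hall
      have := Submodule.finrank_mono (show ⊤ ≤ W from fun x _ => hall x)
      rw [finrank_top, Module.finrank_fin_fun] at this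
      omega
    obtain ⟨φ, hφw, hφ⟩ := Submodule.exists_dual_map_eq_bot_of_notMem
      (x := w) (p := Submodule.span ↥E {v}) (fun h => hw (by
        obtain ⟨x, hx⟩ := Submodule.mem_span_singleton.1 h
        exact ⟨x, hx⟩)) inferInstance
    have hφv : φ v = 0 :=
      (Submodule.mem_bot ↥E).1 (hφ ▸ Submodule.mem_map_of_mem (Submodule.mem_span_singleton_self v))
    have hφF : ∀ (a : F) (x : Fin n → F), φ (a • x) • v = a • (φ x • v) := fun a x => by
      rw [hsc a x, map_smul, smul_eq_mul, mul_smul, ← hsc]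
    let N0 : (Fin n → F) →ₗ[F] (Fin n → F) :=
      { toFun := fun x => φ x • v
        map_add' := fun a b => by rw [map_add]; exact add_smul (φ a) (φ b) v
        map_smul' := hφF }
    obtain ⟨Nm, hNmdef⟩ : ∃ Nm, Nm = LinearMap.toMatrix' N0 := ⟨_, rfl⟩
    have hNm : ∀ x, Nm.mulVec x = φ x • v := fun x => by rw [hNmdef, LinearMap.toMatrix'_mulVec]; rfl
    have hNN : Nm * Nm = 0 := Matrix.ext_of_mulVec_single fun i => by
      rw [← Matrix.mulVec_mulVec, hNm, hNm, map_smul, hφv, smul_zero, zero_smul, Matrix.zero_mulVec]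
    have hdet : (1 + Nm).det = 1 := by
      obtain ⟨Pv, hPv⟩ := Submodule.exists_isCompl W
      let π : (Fin n → F) →ₗ[F] (Fin n → F) := Pv.subtype.comp (Submodule.projectionOnto Pv W hPv.symm)
      have h1 : Nm * LinearMap.toMatrix' π = Nm := Matrix.ext_of_mulVec_single fun i => by
        rw [← Matrix.mulVec_mulVec, hNm, hNm, LinearMap.toMatrix'_mulVec]
        set x : Fin n → F := Pi.single i 1
        have hmem : x - π x ∈ W := by
          have := Submodule.projectionOnto_apply_eq_zero_iff (p := Pv) (q := W) hPv.symm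
            (x := x - π x)
          rw [← this, map_sub, show π x = ((Submodule.projectionOnto Pv W hPv.symm x : Pv) : Fin n → F) from rfl,
            Submodule.projectionOnto_apply_left, sub_self]
        obtain ⟨s, hs⟩ := hmem
        have hs' : x = π x + s • v := by rw [show s • v = x - π x from hs]; abel
        conv_rhs => rw [hs', map_add, map_smul, hφv, smul_zero, add_zero]
      have h2 : LinearMap.toMatrix' π * Nm = 0 := Matrix.ext_of_mulVec_single fun i => by
        rw [← Matrix.mulVec_mulVec, hNm, LinearMap.toMatrix'_mulVec, Matrix.zero_mulVec]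
        have hmem : φ (Pi.single i 1) • v ∈ W := ⟨_, rfl⟩
        simp [π, Submodule.projectionOnto_apply_of_mem_right hPv.symm hmem]
      rw [← h1, Matrix.det_one_add_mul_comm, h2, add_zero, Matrix.det_one]
    let T : GL (Fin n) F := Matrix.GeneralLinearGroup.mkOfDetNeZero (1 + Nm) (by rw [hdet]; exact one_ne_zero)
    have hTv : ∀ x, (T : Matrix (Fin n) (Fin n) F).mulVec x = x + φ x • v := fun x => by
      show (1 + Nm).mulVec x = _
      rw [Matrix.add_mulVec, Matrix.one_mulVec, hNm]
    refine ⟨T, ?_, fun m => ?_, fun h => ?_⟩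
    · rw [Cfsg.Geo.specialLinear, MonoidHom.mem_ker]
      exact Units.ext hdet
    · have hcomm : ∀ m ∈ L, (T : Matrix (Fin n) (Fin n) F) * m = m * (T : Matrix (Fin n) (Fin n) F) := by
        intro m hm
        obtain ⟨x, hx, rfl⟩ := hm
        refine Matrix.ext_of_mulVec_single fun i => ?_
        rw [← Matrix.mulVec_mulVec, ← Matrix.mulVec_mulVec, hTv, hTv]
        have e1 : ∀ u, (K.val x).mulVec u = (⟨x, hx⟩ : ↥E) • u := fun u => (hsmul ⟨x, hx⟩ u).symm
        show (K.val x).mulVec (Pi.single i 1) + φ ((K.val x).mulVec (Pi.single i 1)) • v =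
          (K.val x).mulVec (Pi.single i 1 + φ (Pi.single i 1) • v)
        rw [e1, e1, map_smul, smul_add, smul_smul, smul_eq_mul]
      have hT' : ((T⁻¹ : GL (Fin n) F) : Matrix (Fin n) (Fin n) F) * (T : Matrix (Fin n) (Fin n) F) = 1 := by
        rw [← Units.val_mul, inv_mul_cancel, Units.val_one]
      constructor
      · intro hm
        rwa [hcomm m hm, mul_assoc, ← Units.val_mul, mul_inv_cancel, Units.val_one, mul_one]
      · intro hm
        have := hcomm _ hm
        rw [mul_assoc _ _ (T : Matrix (Fin n) (Fin n) F), hT', mul_one] at this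
        have h3 := (Units.mul_right_inj T).1 this
        rwa [h3] at hm
    · refine absurd (fun k hk => ?_ : ∀ k ∈ K, k.mulVec v ∈ W) fun hall => ?_
      · have hcomm := hsmall T W (fun x => by rw [hTv, add_sub_cancel_left]; exact ⟨_, rfl⟩) k hk ((h k).1 hk) (by omega)
        have e := congrArg (fun a : Matrix (Fin n) (Fin n) F => a.mulVec w) hcomm
        simp only [← Matrix.mulVec_mulVec, hTv, Matrix.mulVec_add] at e
        have e2 := add_left_cancel e
        have hu : k.mulVec (φ w • v) = φ w • k.mulVec v := by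
          rw [hsmul, hsmul, Matrix.mulVec_mulVec, Matrix.mulVec_mulVec,
            hK.comm k hk _ (Subtype.coe_prop ((φ w : ↥E) : ↥K))]
        rw [hu] at e2
        refine ⟨(φ w)⁻¹ * φ (k.mulVec w), ?_⟩
        show ((φ w)⁻¹ * φ (k.mulVec w)) • v = k.mulVec v
        rw [mul_smul, e2, smul_smul, inv_mul_cancel₀ hφw, one_smul]
      · let ev : ↥K →ₗ[F] W :=
          { toFun := fun x => ⟨(x : Matrix (Fin n) (Fin n) F).mulVec v, hall x x.2⟩
            map_add' := fun a b => Subtype.ext (by simp [Matrix.add_mulVec])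
            map_smul' := fun a b => Subtype.ext (by simp [Matrix.smul_mulVec]) }
        have h1 := LinearMap.finrank_le_finrank_of_injective (f := ev) (fun a b hab => by
          have h0 : ((a : Matrix (Fin n) (Fin n) F) - b).mulVec v = 0 := by
            rw [Matrix.sub_mulVec, sub_eq_zero]; exact congrArg Subtype.val hab
          by_contra hne
          exact hv0 (hinv _ (sub_mem a.2 b.2) (sub_ne_zero.2 fun e => hne (Subtype.ext e)) v h0))
        omega
  refine ⟨fun hco => ?_, fun hmax => ?_⟩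
  · have hlt' : Cfsg.Geo.subalgebraNormalizer K < Cfsg.Geo.subalgebraNormalizer L :=
      lt_of_le_not_ge hNle fun h => hTK (h hTL)
    exact hτnot (by rw [hco.2 _ hlt']; trivial)
  · rcases hmax.2 (Cfsg.Geo.subalgebraNormalizer L ⊓ Cfsg.Geo.specialLinear (Fin n) F)
      (inf_le_inf_right _ hNle) inf_le_right with h | h
    · exact hTK ((h ▸ (⟨hTL, hTS⟩ : T ∈ Cfsg.Geo.subalgebraNormalizer L ⊓ Cfsg.Geo.specialLinear (Fin n) F)) :
        T ∈ Cfsg.Geo.subalgebraNormalizer K ⊓ Cfsg.Geo.specialLinear (Fin n) F).1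
    · exact hτnot ((h.symm ▸ hτS : τ ∈ Cfsg.Geo.subalgebraNormalizer L ⊓ Cfsg.Geo.specialLinear (Fin n) F)).1

end Cfsg.Agent.S5887
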