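import Cfsg.Statements.S5895
import Mathlib
-- import your own Cfsg.Agent.* helpers here

set_option autoImplicit false
open Cfsg

namespace Cfsg.Agent.S5895

/-- `L` has no invariant subgroup other than the trivial ones. -/
def Irred {F : Type*} [Field F] (L : Subgroup Fˣ) : Prop :=
  ∀ W : AddSubgroup F, (∀ l ∈ L, ∀ w ∈ W, (l : F) * w ∈ W) → W = ⊥ ∨ W = ⊤

/-- Multiplication as an action by automorphisms. -/
def mulHom {F : Type*} [Field F] (L : Subgroup Fˣ) : L →* MulAut (Multiplicative F) where
  toFun l :=
    { toFun := fun x => Multiplicative.ofAdd (((l : Fˣ) : F) * x.toAdd)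
      invFun := fun x => Multiplicative.ofAdd ((((l : Fˣ)⁻¹ : Fˣ) : F) * x.toAdd)
      left_inv := fun x => by simp
      right_inv := fun x => by simp
      map_mul' := fun x y => by simp [mul_add] }
  map_one' := by ext x; simp
  map_mul' a b := by ext x; simp [mul_assoc]

/-- For every prime p and every d ≥ 2 there is a finite group G with a maximal subgroup M of index p^d and a maximal subgroup H of M that is not second maximal in G: some maximal subgroup K of G contains H without H being maximal in K. (One may take G the affine group V ⋊ GL(V) of V = 𝔽_p^d, M = GL(V), H the stabiliser in M of a line W of V, and K = V ⋊ H, with H < W ⋊ H < K.) So the prime-index hypothesis in the second-maximality criterion cannot be relaxed to prime-power index. -/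
theorem result (p d : ℕ) (hp : p.Prime)
    (hd : 2 ≤ d) :
    ∃ (G : Type) (_ : Group G) (_ : Finite G) (M H K : Subgroup G), IsCoatom M ∧ M.index = p ^ d ∧ H ≤ M ∧
      IsCoatom (H.subgroupOf M) ∧ IsCoatom K ∧ H ≤ K ∧ ¬ IsCoatom (H.subgroupOf K) := by
  classical
  haveI : Fact p.Prime := ⟨hp⟩
  let F := GaloisField p d
  have hcard : Nat.card F = p ^ d := GaloisField.card p d (by omega)
  haveI : Fintype F := Fintype.ofFinite F
  haveI hchar : CharP F p := charP_of_injective_algebraMap (algebraMap (ZMod p) (GaloisField p d)).injective p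
  have htop : Irred (⊤ : Subgroup Fˣ) := fun W hW => by
    by_cases h : ∀ w ∈ W, w = 0
    · exact Or.inl (eq_bot_iff.2 fun w hw => by rw [AddSubgroup.mem_bot]; exact h w hw)
    · push Not at h
      obtain ⟨w, hw, hw0⟩ := h
      refine Or.inr (eq_top_iff.2 fun x _ => ?_)
      rcases eq_or_ne x 0 with rfl | hx
      · exact zero_mem _
      · have := hW (Units.mk0 (x / w) (div_ne_zero hx hw0)) trivial w hw
        rwa [Units.val_mk0, div_mul_cancel₀ _ hw0] at this
  obtain ⟨L, hL, hLmin⟩ := WellFounded.has_min (wellFounded_lt (α := Subgroup Fˣ)) {L | Irred L} ⟨⊤, htop⟩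
  have hLne : L ≠ ⊥ := by
    intro h
    let W : AddSubgroup F := AddSubgroup.zmultiples 1
    rcases hL W (fun l hl w hw => by
      rw [h, Subgroup.mem_bot] at hl
      rw [hl, Units.val_one, one_mul]
      exact hw) with h1 | h1
    · exact one_ne_zero (AddSubgroup.zmultiples_eq_bot.1 h1 : (1 : F) = 0)
    · have h2 : Nat.card W = p := by
        rw [Nat.card_zmultiples]
        exact CharP.eq F (CharP.addOrderOf_one F) hchar
      rw [h1, AddSubgroup.card_top, hcard] at h2
      have := Nat.pow_eq_self_iff hp.one_lt |>.1 h2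
      omega
  obtain ⟨H₀, hH₀, -⟩ := (eq_top_or_exists_le_coatom (⊥ : Subgroup L)).resolve_left (fun h => by
    have := (Subgroup.nontrivial_iff_ne_bot L).2 hLne
    exact bot_ne_top h)
  let H₁ : Subgroup Fˣ := H₀.map L.subtype
  have hH₁ : H₁ < L := by
    refine lt_of_le_of_ne (Subgroup.map_subtype_le _) fun h => hH₀.1 ?_
    apply Subgroup.map_injective L.subtype_injective
    rw [← MonoidHom.range_eq_map, Subgroup.range_subtype]
    exact h
  obtain ⟨W, hW, hWb, hWt⟩ : ∃ W : AddSubgroup F, (∀ l ∈ H₁, ∀ w ∈ W, (l : F) * w ∈ W) ∧ W ≠ ⊥ ∧ W ≠ ⊤ := by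
    by_contra h
    push Not at h
    exact hLmin H₁ (fun W hW => or_iff_not_imp_left.2 (h W hW)) hH₁
  let G := SemidirectProduct (Multiplicative F) L (mulHom L)
  haveI : Finite G := Finite.of_equiv _ SemidirectProduct.equivProd.symm
  let M : Subgroup G := (SemidirectProduct.inr : L →* G).range
  let K : Subgroup G := H₀.comap SemidirectProduct.rightHom
  let H : Subgroup G := H₀.map SemidirectProduct.inr
  let J : Subgroup G :=
    { carrier := {x | x.left.toAdd ∈ W ∧ x.right ∈ H₀}
      one_mem' := ⟨by simp, by simp⟩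
      mul_mem' := fun {a b} ha hb => by
        refine ⟨?_, H₀.mul_mem ha.2 hb.2⟩
        show a.left.toAdd + ((a.right : Fˣ) : F) * b.left.toAdd ∈ W
        exact W.add_mem ha.1 (hW _ ⟨a.right, ha.2, rfl⟩ _ hb.1)
      inv_mem' := fun {a} ha => by
        refine ⟨?_, H₀.inv_mem ha.2⟩
        show ((((a.right : L)⁻¹ : L) : Fˣ) : F) * (-a.left.toAdd) ∈ W
        exact hW _ ⟨a.right⁻¹, H₀.inv_mem ha.2, rfl⟩ _ (W.neg_mem ha.1) }
  have hMmem : ∀ x : G, x ∈ M ↔ x.left = 1 := fun x => ⟨by rintro ⟨l, rfl⟩; rfl, fun h => ⟨x.right, SemidirectProduct.ext h.symm rfl⟩⟩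
  have hHmem : ∀ x : G, x ∈ H ↔ x.left = 1 ∧ x.right ∈ H₀ := fun x =>
    ⟨by rintro ⟨l, hl, rfl⟩; exact ⟨rfl, hl⟩, fun h => ⟨x.right, h.2, SemidirectProduct.ext h.1.symm rfl⟩⟩
  refine ⟨G, inferInstance, inferInstance, M, H, K, ?_, ?_, ?_, ?_, ?_, ?_, ?_⟩
  · refine ⟨fun h => ?_, fun X hX => ?_⟩
    · have h2 : (SemidirectProduct.inl (Multiplicative.ofAdd (1 : F)) : G) ∈ M := h ▸ trivial
      rw [hMmem] at h2
      exact one_ne_zero (α := F) (congrArg Multiplicative.toAdd h2)
    · obtain ⟨x, hxX, hxM⟩ := SetLike.exists_of_lt hX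
      let V : AddSubgroup F :=
        { carrier := {v | (SemidirectProduct.inl (Multiplicative.ofAdd v) : G) ∈ X}
          zero_mem' := by
            show (SemidirectProduct.inl (Multiplicative.ofAdd 0) : G) ∈ X
            rw [ofAdd_zero, map_one]; exact one_mem _
          add_mem' := fun {a b} ha hb => by
            show (SemidirectProduct.inl (Multiplicative.ofAdd (a + b)) : G) ∈ X
            rw [ofAdd_add, map_mul]; exact mul_mem ha hb
          neg_mem' := fun {a} ha => by
            show (SemidirectProduct.inl (Multiplicative.ofAdd (-a)) : G) ∈ X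
            rw [ofAdd_neg, map_inv]; exact inv_mem ha }
      have hlX : ∀ l : L, (SemidirectProduct.inr l : G) ∈ X := fun l => hX.le ⟨l, rfl⟩
      have hV : ∀ l ∈ L, ∀ v ∈ V, (l : F) * v ∈ V := fun l hl v hv => by
        have h2 := mul_mem (mul_mem (hlX ⟨l, hl⟩) hv) (hlX (⟨l, hl⟩ : L)⁻¹)
        rw [← SemidirectProduct.inl_aut] at h2
        exact h2
      rcases hL V hV with h1 | h1
      · exfalso
        apply hxM
        rw [hMmem]
        have h2 : x.left.toAdd ∈ V := by
          show (SemidirectProduct.inl x.left : G) ∈ X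
          have h3 := mul_mem hxX (inv_mem (hlX x.right))
          have h4 : x * (SemidirectProduct.inr x.right : G)⁻¹ = SemidirectProduct.inl x.left := by
            conv_lhs => arg 1; rw [← SemidirectProduct.inl_left_mul_inr_right x]
            rw [mul_inv_cancel_right]
          rwa [h4] at h3
        rw [h1, AddSubgroup.mem_bot] at h2
        exact Multiplicative.toAdd.injective h2
      · refine eq_top_iff.2 fun y _ => ?_
        rw [← SemidirectProduct.inl_left_mul_inr_right y]
        refine mul_mem ?_ (hlX _)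
        have h2 : y.left.toAdd ∈ V := h1 ▸ trivial
        exact h2
  · have h1 := M.card_mul_index
    have h2 : Nat.card M = Nat.card L :=
      Nat.card_congr (MonoidHom.ofInjective SemidirectProduct.inr_injective).symm.toEquiv
    have h3 : Nat.card G = p ^ d * Nat.card L := by
      rw [Nat.card_congr SemidirectProduct.equivProd, Nat.card_prod, Nat.card_congr Multiplicative.toAdd, hcard]
    rw [h2, h3, mul_comm (p ^ d)] at h1
    exact Nat.eq_of_mul_eq_mul_left Nat.card_pos h1
  · rintro _ ⟨l, -, rfl⟩
    exact ⟨l, rfl⟩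
  · let e : L ≃* M := MonoidHom.ofInjective SemidirectProduct.inr_injective
    have heq : H.subgroupOf M = e.mapSubgroup H₀ := by
      ext x
      constructor
      · rintro ⟨l, hl, hlx⟩
        exact ⟨l, hl, Subtype.ext hlx⟩
      · rintro ⟨l, hl, rfl⟩
        exact ⟨l, hl, rfl⟩
    rw [heq]
    exact (OrderIso.isCoatom_iff e.mapSubgroup H₀).2 hH₀
  · refine ⟨fun h => hH₀.1 (eq_top_iff.2 fun l _ => ?_), fun X hX => ?_⟩
    · have h2 : (SemidirectProduct.inr l : G) ∈ K := h ▸ trivial
      exact h2
    · have hker : (SemidirectProduct.rightHom : G →* L).ker ≤ X := fun x hx => hX.le (by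
        show SemidirectProduct.rightHom x ∈ H₀
        rw [MonoidHom.mem_ker] at hx
        rw [hx]; exact one_mem _)
      have hback : (X.map (SemidirectProduct.rightHom : G →* L)).comap SemidirectProduct.rightHom = X :=
        Subgroup.comap_map_eq_self hker
      rw [← hback, Subgroup.comap_top (SemidirectProduct.rightHom : G →* L) |>.symm]
      congr 1
      refine hH₀.2 _ (lt_of_le_of_ne ?_ ?_)
      · intro l hl
        exact ⟨SemidirectProduct.inr l, hX.le (by show SemidirectProduct.rightHom (SemidirectProduct.inr l : G) ∈ H₀; rwa [SemidirectProduct.rightHom_inr]), SemidirectProduct.rightHom_inr l⟩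
      · intro h
        apply hX.ne
        rw [← hback, ← h]
  · rintro x hx
    exact ((hHmem x).1 hx).2
  · intro hco
    have hHJ : H ≤ J := fun x hx => by
      obtain ⟨h1, h2⟩ := (hHmem x).1 hx
      exact ⟨by rw [h1]; exact W.zero_mem, h2⟩
    have hlt : H.subgroupOf K < J.subgroupOf K := by
      refine lt_of_le_of_ne (fun x hx => hHJ hx) fun h => ?_
      obtain ⟨w, hw, hw0⟩ : ∃ w ∈ W, w ≠ 0 := by
        by_contra hh
        push Not at hh
        exact hWb (eq_bot_iff.2 fun w hw => by rw [AddSubgroup.mem_bot]; exact hh w hw)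
      have h2 : (⟨SemidirectProduct.inl (Multiplicative.ofAdd w), by
        show SemidirectProduct.rightHom (SemidirectProduct.inl (Multiplicative.ofAdd w) : G) ∈ H₀
        rw [SemidirectProduct.rightHom_inl]; exact one_mem _⟩ : K) ∈ J.subgroupOf K := ⟨hw, one_mem _⟩
      rw [← h] at h2
      exact hw0 (congrArg Multiplicative.toAdd ((hHmem _).1 h2).1)
    obtain ⟨v, hv⟩ : ∃ v, v ∉ W := by
      by_contra hh
      push Not at hh
      exact hWt (eq_top_iff.2 fun v _ => hh v)
    have htop' := hco.2 _ hlt
    have h2 : (⟨SemidirectProduct.inl (Multiplicative.ofAdd v), by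
        show SemidirectProduct.rightHom (SemidirectProduct.inl (Multiplicative.ofAdd v) : G) ∈ H₀
        rw [SemidirectProduct.rightHom_inl]; exact one_mem _⟩ : K) ∈ J.subgroupOf K := htop' ▸ trivial
    exact hv h2.1

end Cfsg.Agent.S5895
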