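import Cfsg.Statements.S5896
import Cfsg.Agent.H29.SL2ZMod

set_option autoImplicit false
open Cfsg

namespace Cfsg.Agent.S5896

/-- Finite perfect groups have solvable maximal subgroups of unbounded derived length: for every d there is a finite perfect group G (equal to its commutator subgroup) with a solvable maximal subgroup H whose derived length exceeds d, i.e. the d-th term of the derived series of H is non-trivial. (Take the derived subgroup of a wreath product S ≀ A₅ with S solvable of large derived length, and H the preimage of a maximal subgroup of A₅.) -/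
theorem result (d : ℕ) :
    ∃ (G : Type) (_ : Group G) (_ : Finite G) (H : Subgroup G), commutator G = ⊤ ∧ IsCoatom H ∧ Group.IsSolvable H ∧
      derivedSeries H d ≠ ⊥ := by
  exact ⟨CfsgLib.H29.SL2.SL (CfsgLib.H29.SL2.R5 (2 ^ d)), inferInstance, inferInstance,
    CfsgLib.H29.SL2.borel (2 ^ d), CfsgLib.H29.SL2.perfect_SL _,
    CfsgLib.H29.SL2.isCoatom_borel _, CfsgLib.H29.SL2.solvable_borel _,
    CfsgLib.H29.SL2.derivedSeries_borel_ne_bot _ le_rfl⟩

end Cfsg.Agent.S5896
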