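import Cfsg.Statements.S5902
import Cfsg.Agent.S5901

set_option autoImplicit false
open Cfsg

namespace Cfsg.Agent.S5902

/-- Let G be a finite group, X a subgroup whose own subgroup lattice is complemented, and suppose X lies in exactly one maximal subgroup M of G. Then every subgroup H of G not contained in the normal core of M has a complement in the subgroup lattice of G (some C with H ⊔ C = G and H ⊓ C = 1); in particular the subgroup lattice of G modulo the normal core of M is complemented. -/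
theorem result {G : Type*} [Group G] [Finite G] (X M : Subgroup G)
    (hK : ComplementedLattice (Subgroup X))
    (hM : IsCoatom M) (hXM : X ≤ M) (huniq : ∀ M' : Subgroup G, IsCoatom M' → X ≤ M' → M' = M) :
    (∀ H : Subgroup G, ¬ H ≤ M.normalCore → ∃ C : Subgroup G, H ⊔ C = ⊤ ∧ H ⊓ C = ⊥) ∧
    ComplementedLattice (Subgroup (G ⧸ M.normalCore)) := by
  have hXtop : X ≠ ⊤ := fun h => hM.1 (top_unique (h ▸ hXM))
  have hint : ∀ Y : Subgroup G, ⊥ ≤ Y → Y ≤ X →
      ∃ C : Subgroup G, ⊥ ≤ C ∧ C ≤ X ∧ Y ⊔ C = X ∧ Y ⊓ C = ⊥ := by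
    intro Y _ hYX
    obtain ⟨C, hC⟩ := hK.exists_isCompl (Y.subgroupOf X)
    refine ⟨C.map X.subtype, bot_le, Subgroup.map_subtype_le C, ?_, ?_⟩
    · calc Y ⊔ C.map X.subtype = (Y.subgroupOf X ⊔ C).map X.subtype := by
            rw [Subgroup.map_sup, Subgroup.map_subgroupOf_eq_of_le hYX]
        _ = X := by rw [hC.sup_eq_top, ← MonoidHom.range_eq_map, Subgroup.range_subtype]
    · calc Y ⊓ C.map X.subtype = (Y.subgroupOf X ⊓ C).map X.subtype := by
            rw [Subgroup.map_inf _ _ _ X.subtype_injective, Subgroup.map_subgroupOf_eq_of_le hYX]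
        _ = ⊥ := by rw [hC.inf_eq_bot, Subgroup.map_bot]
  have key : ∀ H : Subgroup G, ¬ H ≤ M.normalCore → ∃ C : Subgroup G, H ⊔ C = ⊤ ∧ H ⊓ C = ⊥ := by
    intro H hH
    obtain ⟨h, hhH, hh⟩ := SetLike.not_le_iff_exists.mp hH
    obtain ⟨g, hg⟩ : ∃ g : G, g * h * g⁻¹ ∉ M := by
      by_contra hc
      exact hh fun g => not_not.mp fun h2 => hc ⟨g, h2⟩
    let e : G ≃* G := MulAut.conj g
    obtain ⟨C, h1, h2⟩ := Cfsg.Agent.S5901.result ⊥ X M bot_le hXtop hint hM hXM huniq
      (H.map e.toMonoidHom) (fun hle => hg (hle ⟨h, hhH, rfl⟩)) (inf_bot_eq _)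
    have hC : (C.map e.symm.toMonoidHom).map e.toMonoidHom = C := by
      rw [Subgroup.map_map]
      convert Subgroup.map_id C
      ext x
      simp
    refine ⟨C.map e.symm.toMonoidHom,
      Subgroup.map_injective (f := e.toMonoidHom) e.injective ?_,
      Subgroup.map_injective (f := e.toMonoidHom) e.injective ?_⟩
    · rw [Subgroup.map_sup, hC, h1, Subgroup.map_top_of_surjective _ e.surjective]
    · rw [Subgroup.map_inf _ _ e.toMonoidHom e.injective, hC, h2, Subgroup.map_bot]
  refine ⟨key, ⟨fun K => ?_⟩⟩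
  let π := QuotientGroup.mk' M.normalCore
  have hπ : Function.Surjective π := QuotientGroup.mk'_surjective _
  by_cases hKb : K.comap π ≤ M.normalCore
  · refine ⟨⊤, ?_⟩
    have : K = ⊥ := by
      rw [eq_bot_iff]
      intro x hx
      obtain ⟨y, rfl⟩ := hπ x
      exact (QuotientGroup.eq_one_iff y).mpr (hKb hx)
    rw [this]
    exact isCompl_bot_top
  · obtain ⟨C, h1, h2⟩ := key _ hKb
    refine ⟨C.map π, IsCompl.of_eq ?_ ?_⟩
    · rw [eq_bot_iff]
      rintro x ⟨hxK, c, hc, rfl⟩
      have : c ∈ K.comap π ⊓ C := ⟨hxK, hc⟩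
      rw [h2, Subgroup.mem_bot] at this
      simp [this]
    · rw [← Subgroup.map_comap_eq_self_of_surjective hπ K, ← Subgroup.map_sup, h1,
        Subgroup.map_top_of_surjective _ hπ]

end Cfsg.Agent.S5902
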