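import Cfsg.Statements.S5903
import Cfsg.Agent.S5901

set_option autoImplicit false
open Cfsg

namespace Cfsg.Agent.S5903

/-- Let G be a finite simple group, X a subgroup lying in exactly one maximal subgroup M of G, and N a subgroup of prime order with N ≤ X that is central in M. If the subgroup lattice of X/N is complemented, then the subgroup lattice of G is complemented. -/
theorem result {G : Type*} [Group G] [Finite G] [IsSimpleGroup G] (X M N : Subgroup G)
    (hM : IsCoatom M) (hXM : X ≤ M) (huniq : ∀ M' : Subgroup G, IsCoatom M' → X ≤ M' → M' = M)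
    (hNX : N ≤ X) (hN : (Nat.card N).Prime) (hcen : ∀ n ∈ N, ∀ m ∈ M, m * n = n * m)
    [(N.subgroupOf X).Normal] (hK : ComplementedLattice (Subgroup (X ⧸ N.subgroupOf X))) :
    ComplementedLattice (Subgroup G) := by
  classical
  refine ⟨fun H => ?_⟩
  by_cases hHb : H = ⊥
  · exact ⟨⊤, hHb ▸ isCompl_bot_top⟩
  by_cases hHt : H = ⊤
  · exact ⟨⊥, hHt ▸ isCompl_top_bot⟩
  have hnn : ¬ H.Normal := fun h =>
    (IsSimpleGroup.eq_bot_or_eq_top_of_normal H h).elim hHb hHt
  have hXtop : X ≠ ⊤ := fun h => hM.1 (top_unique (h ▸ hXM))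
  have hNbot : N ≠ ⊥ := fun h => by
    rw [h, Subgroup.card_bot] at hN
    exact Nat.not_prime_one hN
  obtain ⟨g, hg1, hg2⟩ : ∃ g : G, H.map (MulAut.conj g).toMonoidHom ⊓ N = ⊥ ∧
      ¬ H.map (MulAut.conj g).toMonoidHom ≤ M := by
    by_contra hc
    push_neg at hc
    refine hnn (Subgroup.normalizer_eq_top_iff.mp (top_unique ?_))
    have hcl : Subgroup.normalClosure (N : Set G) = ⊤ :=
      (IsSimpleGroup.eq_bot_or_eq_top_of_normal _ Subgroup.normalClosure_normal).resolve_left
        (fun h => hNbot (le_bot_iff.mp (h ▸ Subgroup.subset_normalClosure)))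
    rw [← hcl, Subgroup.normalClosure, Subgroup.closure_le]
    intro y hy
    rw [Group.mem_conjugatesOfSet_iff] at hy
    obtain ⟨n, hn, hy⟩ := hy
    obtain ⟨c, rfl⟩ := isConj_iff.mp hy
    by_cases hb : H.map (MulAut.conj c⁻¹).toMonoidHom ⊓ N = ⊥
    · have hle := hc c⁻¹ hb
      have hcomm : ∀ z ∈ H, z * (c * n * c⁻¹) = (c * n * c⁻¹) * z := by
        intro z hz
        have h1 := hcen n hn _ (hle ⟨z, hz, rfl⟩)
        simp only [MulEquiv.coe_toMonoidHom, MulAut.conj_apply, inv_inv] at h1
        calc z * (c * n * c⁻¹) = c * ((c⁻¹ * z * c) * n) * c⁻¹ := by group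
          _ = c * (n * (c⁻¹ * z * c)) * c⁻¹ := by rw [h1]
          _ = c * n * c⁻¹ * z := by group
      exact Subgroup.mem_normalizer_iff.mpr fun z => ⟨fun hz => by
          rwa [← hcomm z hz, mul_inv_cancel_right],
        fun hz => by
          have h4 := hcomm _ hz
          rw [inv_mul_cancel_right] at h4
          rw [mul_left_cancel h4.symm] at hz
          exact hz⟩
    · have hle : N ≤ H.map (MulAut.conj c⁻¹).toMonoidHom := by
        have hd := Subgroup.card_dvd_of_le (inf_le_right : H.map (MulAut.conj c⁻¹).toMonoidHom ⊓ N ≤ N)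
        rcases (Nat.dvd_prime hN).mp hd with h | h
        · exact absurd (Subgroup.eq_bot_of_card_eq _ h) hb
        · exact (Subgroup.eq_of_le_of_card_ge inf_le_right h.ge).ge.trans inf_le_left
      obtain ⟨z, hz, hzn⟩ := hle hn
      refine Subgroup.le_normalizer ?_
      rw [← hzn]
      simp only [MulEquiv.coe_toMonoidHom, MulAut.conj_apply, inv_inv]
      simpa [mul_assoc] using hz
  let e : G ≃* G := MulAut.conj g
  let π := QuotientGroup.mk' (N.subgroupOf X)
  have hπ : Function.Surjective π := QuotientGroup.mk'_surjective _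
  have hint : ∀ Y : Subgroup G, N ≤ Y → Y ≤ X →
      ∃ C : Subgroup G, N ≤ C ∧ C ≤ X ∧ Y ⊔ C = X ∧ Y ⊓ C = N := by
    intro Y hNY hYX
    obtain ⟨D, hD⟩ := hK.exists_isCompl ((Y.subgroupOf X).map π)
    have hker : π.ker ≤ Y.subgroupOf X := by
      rw [QuotientGroup.ker_mk']
      exact fun x hx => hNY hx
    refine ⟨(D.comap π).map X.subtype, ?_, Subgroup.map_subtype_le _, ?_, ?_⟩
    · intro n hn
      refine ⟨⟨n, hNX hn⟩, ?_, rfl⟩
      have : π ⟨n, hNX hn⟩ = 1 := (QuotientGroup.eq_one_iff _).mpr hn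
      simp only [SetLike.mem_coe, Subgroup.mem_comap, this, one_mem]
    · calc Y ⊔ (D.comap π).map X.subtype
          = ((Y.subgroupOf X) ⊔ D.comap π).map X.subtype := by
            rw [Subgroup.map_sup, Subgroup.map_subgroupOf_eq_of_le hYX]
        _ = ((((Y.subgroupOf X).map π).comap π) ⊔ D.comap π).map X.subtype := by
            rw [Subgroup.comap_map_eq_self hker]
        _ = X := by
            rw [Subgroup.comap_sup_eq π _ _ hπ, hD.sup_eq_top, Subgroup.comap_top,
              ← MonoidHom.range_eq_map, Subgroup.range_subtype]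
    · calc Y ⊓ (D.comap π).map X.subtype
          = ((Y.subgroupOf X) ⊓ D.comap π).map X.subtype := by
            rw [Subgroup.map_inf _ _ _ X.subtype_injective, Subgroup.map_subgroupOf_eq_of_le hYX]
        _ = ((((Y.subgroupOf X).map π).comap π) ⊓ D.comap π).map X.subtype := by
            rw [Subgroup.comap_map_eq_self hker]
        _ = N := by
            rw [← Subgroup.comap_inf, hD.inf_eq_bot, MonoidHom.comap_bot, QuotientGroup.ker_mk',
              Subgroup.map_subgroupOf_eq_of_le hNX]
  obtain ⟨C, h1, h2⟩ := Cfsg.Agent.S5901.result N X M hNX hXtop hint hM hXM huniq _ hg2 hg1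
  have hC : (C.map e.symm.toMonoidHom).map e.toMonoidHom = C := by
    rw [Subgroup.map_map]
    convert Subgroup.map_id C
    ext x
    simp
  refine ⟨C.map e.symm.toMonoidHom, IsCompl.of_eq
      (Subgroup.map_injective (f := e.toMonoidHom) e.injective ?_)
      (Subgroup.map_injective (f := e.toMonoidHom) e.injective ?_)⟩
  · rw [Subgroup.map_inf _ _ e.toMonoidHom e.injective, hC, h2, Subgroup.map_bot]
  · rw [Subgroup.map_sup, hC, h1, Subgroup.map_top_of_surjective _ e.surjective]

end Cfsg.Agent.S5903
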