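import Cfsg.Statements.S5905
-- no helpers

set_option autoImplicit false
open Cfsg

namespace Cfsg.Agent.S5905

open scoped Pointwise

/-- Let Ω be a finite set and f : Ω → Fin b a map onto b ≥ 2 labels whose fibres all have the same size a ≥ 2 (a partition of Ω into b blocks of size a, so |Ω| = ab). Then the stabilizer of this partition in the symmetric group on Ω — the permutations g such that x and y lie in the same block exactly when g x and g y do, a group isomorphic to the imprimitive wreath product S_a ≀ S_b — is a maximal subgroup of the symmetric group. -/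
theorem result {Ω : Type*} [Fintype Ω] [DecidableEq Ω] (a b : ℕ) (ha : 2 ≤ a) (hb : 2 ≤ b)
    (f : Ω → Fin b) (hf : ∀ i : Fin b, Nat.card {x : Ω // f x = i} = a) :
    IsCoatom (Subgroup.closure {g : Equiv.Perm Ω | ∀ x y : Ω, f x = f y ↔ f (g x) = f (g y)}) := by
  classical
  let P : Subgroup (Equiv.Perm Ω) :=
    { carrier := {g : Equiv.Perm Ω | ∀ x y : Ω, f x = f y ↔ f (g x) = f (g y)}
      one_mem' := fun _ _ => Iff.rfl
      mul_mem' := fun {g h} hg hh x y => (hh x y).trans (hg (h x) (h y))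
      inv_mem' := fun {g} hg x y => by simpa using (hg (g⁻¹ x) (g⁻¹ y)).symm }
  have hPc : Subgroup.closure {g : Equiv.Perm Ω | ∀ x y : Ω, f x = f y ↔ f (g x) = f (g y)} = P :=
    le_antisymm ((Subgroup.closure_le _).mpr fun g hg => hg) fun g hg => Subgroup.subset_closure hg
  rw [hPc]
  -- fibres
  let e : Ω ≃ Fin b × Fin a := (Equiv.sigmaFiberEquiv f).symm.trans
    ((Equiv.sigmaCongrRight fun i => (Finite.equivFinOfCardEq (hf i))).trans
      (Equiv.sigmaEquivProd (Fin b) (Fin a)))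
  have he : ∀ x, (e x).1 = f x := fun x => rfl
  have hes : ∀ i k, f (e.symm (i, k)) = i := fun i k => by rw [← he, Equiv.apply_symm_apply]
  have hpick : ∀ i (x : Ω), ∃ y, f y = i ∧ y ≠ x := by
    intro i x
    by_cases h : e.symm (i, ⟨0, by omega⟩) = x
    · exact ⟨e.symm (i, ⟨1, by omega⟩), hes _ _, fun h2 => by
        have := e.symm.injective (h2.trans h.symm)
        simp at this⟩
    · exact ⟨_, hes _ _, h⟩
  have hswap : ∀ x y : Ω, f x = f y → Equiv.swap x y ∈ P := by
    intro x y hxy u v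
    have : ∀ w, f (Equiv.swap x y w) = f w := fun w => by
      rw [Equiv.swap_apply_def]
      split_ifs with h1 h2
      · rw [h1, hxy]
      · rw [h2, hxy]
      · rfl
    rw [this, this]
  let lift : Equiv.Perm (Fin b) → Equiv.Perm Ω := fun π =>
    e.trans ((π.prodCongr (Equiv.refl _)).trans e.symm)
  have hlift : ∀ π x, f (lift π x) = π (f x) := fun π x => by
    show f (e.symm (π (e x).1, (e x).2)) = π (f x)
    rw [hes, he]
  have hliftP : ∀ π, lift π ∈ P := fun π x y => by rw [hlift, hlift, π.injective.eq_iff]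
  have htrans : ∀ x y : Ω, ∃ g ∈ P, g x = y := fun x y =>
    ⟨Equiv.swap (lift (Equiv.swap (f x) (f y)) x) y * lift (Equiv.swap (f x) (f y)),
      P.mul_mem (hswap _ _ (by rw [hlift, Equiv.swap_apply_left])) (hliftP _),
      Equiv.swap_apply_left _ _⟩
  let i₀ : Fin b := ⟨0, by omega⟩
  let i₁ : Fin b := ⟨1, by omega⟩
  refine ⟨?_, fun G hG => ?_⟩
  · intro h
    let x₀ := e.symm (i₀, ⟨0, by omega⟩)
    let y₁ := e.symm (i₁, ⟨0, by omega⟩)
    obtain ⟨z, hz, hzx⟩ := hpick i₀ x₀
    have hmem : Equiv.swap x₀ y₁ ∈ P := h ▸ Subgroup.mem_top _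
    have h1 := (hmem x₀ z).mp (by rw [hz]; exact hes _ _)
    have hzy : z ≠ y₁ := fun hzy => by
      have h2 : f y₁ = i₀ := hzy ▸ hz
      rw [hes] at h2
      simp [i₀, i₁] at h2
    rw [Equiv.swap_apply_left, Equiv.swap_apply_of_ne_of_ne hzx hzy, hz, hes] at h1
    simp [i₀, i₁] at h1
  · obtain ⟨x₀, z₀, hxz, hne⟩ : ∃ x z : Ω, f x = f z ∧ z ≠ x := by
      obtain ⟨z, hz, hne⟩ := hpick i₀ (e.symm (i₀, ⟨0, by omega⟩))
      exact ⟨_, z, by rw [hes, hz], hne⟩
    have hle : P ≤ G := hG.le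
    have htr : MulAction.IsPretransitive G Ω := ⟨fun x y => by
      obtain ⟨g, hg, hgxy⟩ := htrans x y
      exact ⟨⟨g, hle hg⟩, hgxy⟩⟩
    refine Equiv.Perm.subgroup_eq_top_of_isPreprimitive_of_isSwap_mem ?_ (Equiv.swap x₀ z₀)
      ⟨x₀, z₀, hne.symm, rfl⟩ (hle (hswap _ _ hxz))
    refine ⟨fun {B} hB => ?_⟩
    unfold MulAction.IsTrivialBlock
    by_contra hnt
    push_neg at hnt
    obtain ⟨hns, hnu⟩ := hnt
    have hfix : ∀ g ∈ P, ∀ x ∈ B, g x ∈ B → ∀ w ∈ B, g w ∈ B := by
      intro g hg x hx hgx w hw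
      have h1 : (⟨g, hle hg⟩ : G) • B = B :=
        (MulAction.isBlock_iff_smul_eq_of_nonempty.mp hB) ⟨g x, ⟨x, hx, rfl⟩, hgx⟩
      rw [← h1]
      exact ⟨w, hw, rfl⟩
    have hfib : ∀ x ∈ B, ∀ y ∈ B, x ≠ y → ∀ z, f z = f y → z ≠ x → z ∈ B := by
      intro x hx y hy hxy z hz hzx
      have hx' : Equiv.swap y z x = x := Equiv.swap_apply_of_ne_of_ne hxy (Ne.symm hzx)
      have := hfix _ (hswap y z hz.symm) x hx (by rw [hx']; exact hx) y hy
      rwa [Equiv.swap_apply_left] at this
    have hone : ∀ x ∈ B, ∀ z, f z = f x → z ∈ B := by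
      intro x hx z hz
      by_cases hzx : z = x
      · exact hzx ▸ hx
      obtain ⟨y, hy, hyx⟩ := hns.exists_ne x
      by_cases hzy : z = y
      · exact hzy ▸ hy
      exact hfib y hy x hx hyx z hz hzy
    have hsame : ∀ x ∈ B, ∀ y ∈ B, f x = f y := by
      intro x hx y hy
      by_contra hxy
      refine hnu (Set.eq_univ_iff_forall.mpr fun w => ?_)
      by_cases hwx : f w = f x
      · exact hone x hx w hwx
      let g := lift (Equiv.swap (f y) (f w))
      have hgx : f (g x) = f x := by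
        rw [hlift, Equiv.swap_apply_of_ne_of_ne hxy (Ne.symm hwx)]
      have := hfix g (hliftP _) x hx (hone x hx _ hgx) y hy
      exact hone _ this w (by rw [hlift, Equiv.swap_apply_left])
    obtain ⟨x₁, hx₁⟩ := hns.nonempty
    have hGP : G ≤ P := by
      have key : ∀ g ∈ G, ∀ u v : Ω, f u = f v → f (g u) = f (g v) := by
        intro g hg u v huv
        obtain ⟨k, hk, hku⟩ := htrans x₁ u
        have hv : k⁻¹ v ∈ B := hone x₁ hx₁ _ (by
          have := (hk x₁ (k⁻¹ v)).mpr (by rw [hku]; simpa using huv)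
          exact this.symm)
        obtain ⟨l, hl, hlu⟩ := htrans (g u) x₁
        have hgmem : l * g * k ∈ G := G.mul_mem (G.mul_mem (hle hl) hg) (hle hk)
        have hB1 : (⟨l * g * k, hgmem⟩ : G) • B = B :=
          (MulAction.isBlock_iff_smul_eq_of_nonempty.mp hB)
            ⟨x₁, ⟨x₁, hx₁, by show l (g (k x₁)) = x₁; rw [hku, hlu]⟩, hx₁⟩
        have hv' : l (g v) ∈ B := by
          rw [← hB1]
          exact ⟨k⁻¹ v, hv, by show l (g (k (k⁻¹ v))) = l (g v); simp⟩
        have h2 := hsame _ hx₁ _ hv'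
        exact (hl (g u) (g v)).mpr (by rw [hlu]; exact h2)
      intro g hg u v
      refine ⟨key g hg u v, fun h => ?_⟩
      have := key g⁻¹ (G.inv_mem hg) _ _ h
      simpa using this
    exact (not_le_of_gt hG) hGP

end Cfsg.Agent.S5905
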