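import Cfsg.Statements.S5908
import Cfsg.Agent.S0827

set_option autoImplicit false
open Cfsg

namespace Cfsg.Agent.S5908

/-- The subgroup lattice of PSU₃(2) (the solvable group of order 72, realised over the field with 4 elements) is not complemented: some subgroup H has no subgroup X with H ⊔ X = ⊤ and H ⊓ X = ⊥. -/
theorem result {F : Type*} [Field F] [Fintype F] (hF : Fintype.card F = 4) :
    ¬ ComplementedLattice (Subgroup (Cfsg.PSU 3 F 2)) := by
  classical
  intro hcomp
  obtain ⟨N, hN, hN9, -, ⟨e⟩⟩ := Cfsg.Agent.S0827.result hF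
  let π : Cfsg.PSU 3 F 2 →* QuaternionGroup 2 := e.toMonoidHom.comp (QuotientGroup.mk' N)
  have hπ : Function.Surjective π := e.surjective.comp (QuotientGroup.mk'_surjective N)
  let Z : Subgroup (QuaternionGroup 2) := Subgroup.zpowers (QuaternionGroup.a 2)
  have hsq : ∀ y : QuaternionGroup 2, y ^ 2 = 1 → y ∈ Z := by
    intro y hy
    have key : ∀ y : QuaternionGroup 2, y * y = 1 → y = 1 ∨ y = QuaternionGroup.a 2 := by decide
    rcases key y (by rw [← sq, hy]) with rfl | rfl
    · exact one_mem _
    · exact Subgroup.mem_zpowers _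
  haveI hZn : Z.Normal := ⟨fun n hn g => by
    obtain ⟨k, rfl⟩ := hn
    have key : ∀ g : QuaternionGroup 2, g * QuaternionGroup.a 2 = QuaternionGroup.a 2 * g := by decide
    show g * QuaternionGroup.a 2 ^ k * g⁻¹ ∈ Z
    rw [((show Commute g (QuaternionGroup.a 2) from key g).zpow_right k).eq, mul_inv_cancel_right]
    exact zpow_mem (Subgroup.mem_zpowers _) k⟩
  obtain ⟨X, hX⟩ := hcomp.exists_isCompl (Z.comap π)
  have hidx : (Z.comap π).index = 4 := by
    rw [Subgroup.index_comap_of_surjective _ hπ]
    have h := Subgroup.card_mul_index Z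
    have h2 : Nat.card Z = 2 := by
      rw [Nat.card_zpowers]
      refine orderOf_eq_prime ?_ (by decide)
      rw [sq]
      decide
    rw [h2, Nat.card_eq_fintype_card, QuaternionGroup.card] at h
    omega
  haveI : (Z.comap π).Normal := hZn.comap π
  have hc : Subgroup.IsComplement' (Z.comap π) X :=
    Subgroup.isComplement'_of_disjoint_and_mul_eq_univ hX.disjoint
      (by rw [← Subgroup.normal_mul, hX.sup_eq_top, Subgroup.coe_top])
  have hX4 : Nat.card X = 4 := hc.symm.index_eq_card.symm.trans hidx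
  haveI : Fact (Nat.Prime 2) := ⟨Nat.prime_two⟩
  obtain ⟨x, hx⟩ := exists_prime_orderOf_dvd_card' (G := X) 2 (by rw [hX4]; norm_num)
  have hxH : (x : Cfsg.PSU 3 F 2) ∈ Z.comap π := by
    refine hsq _ ?_
    rw [← map_pow, ← SubgroupClass.coe_pow]
    conv_lhs => arg 2; arg 1; rw [show x ^ 2 = 1 from by have := pow_orderOf_eq_one x; rwa [hx] at this]
    rw [OneMemClass.coe_one, map_one]
  have h1 : x = 1 := Subtype.ext ((Subgroup.disjoint_def.1 hX.disjoint) hxH x.2)
  rw [h1, orderOf_one] at hx
  omega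

end Cfsg.Agent.S5908
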