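import Cfsg.Statements.S5909

set_option autoImplicit false
open Cfsg

namespace Cfsg.Agent.S5909

open scoped Pointwise

set_option maxHeartbeats 4000000

theorem hexagon_word {Ω : Type*} [DecidableEq Ω] {a b c d w : Ω} (hab : a ≠ b) (hac : a ≠ c) (had : a ≠ d)
    (haw : a ≠ w) (hbc : b ≠ c) (hbd : b ≠ d) (hbw : b ≠ w) (hcd : c ≠ d) (hcw : c ≠ w) (hdw : d ≠ w) :
    (Equiv.swap a b * Equiv.swap c d) * (Equiv.swap b c * Equiv.swap d w) *
      (Equiv.swap a c * Equiv.swap b d) = Equiv.swap b c * Equiv.swap b w := by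
  refine Equiv.ext fun z => ?_
  have := hab.symm; have := hac.symm; have := had.symm; have := haw.symm; have := hbc.symm
  have := hbd.symm; have := hbw.symm; have := hcd.symm; have := hcw.symm; have := hdw.symm
  simp only [Equiv.Perm.mul_apply]
  by_cases h0 : z = a
  · subst h0; simp [Equiv.swap_apply_of_ne_of_ne, *]
  by_cases h1 : z = b
  · subst h1; simp [Equiv.swap_apply_of_ne_of_ne, *]
  by_cases h2 : z = c
  · subst h2; simp [Equiv.swap_apply_of_ne_of_ne, *]
  by_cases h3 : z = d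
  · subst h3; simp [Equiv.swap_apply_of_ne_of_ne, *]
  by_cases h4 : z = w
  · subst h4; simp [Equiv.swap_apply_of_ne_of_ne, *]
  simp [Equiv.swap_apply_of_ne_of_ne, *]

/-- Let Ω be a finite set whose size is not 8, and f : Ω → Fin b a labelling with b ≥ 2 whose fibres all have the same size a ≥ 2 (a partition into b blocks of size a). Then the even permutations preserving the partition — the intersection of the imprimitive wreath product S_a ≀ S_b with the alternating group — form a maximal subgroup of the alternating group on Ω. -/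
theorem result {Ω : Type*} [Fintype Ω] [DecidableEq Ω] (h8 : Fintype.card Ω ≠ 8) (a b : ℕ) (ha : 2 ≤ a) (hb : 2 ≤ b)
    (f : Ω → Fin b) (hf : ∀ i : Fin b, Nat.card {x : Ω // f x = i} = a) :
    IsCoatom ((Subgroup.closure {g : Equiv.Perm Ω | ∀ x y : Ω, f x = f y ↔ f (g x) = f (g y)} ⊓ alternatingGroup Ω).subgroupOf (alternatingGroup Ω)) := by
  classical
  let P : Subgroup (Equiv.Perm Ω) :=
    { carrier := {g : Equiv.Perm Ω | ∀ x y : Ω, f x = f y ↔ f (g x) = f (g y)}
      one_mem' := fun _ _ => Iff.rfl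
      mul_mem' := fun {g h} hg hh x y => (hh x y).trans (hg (h x) (h y))
      inv_mem' := fun {g} hg x y => by simpa using (hg (g⁻¹ x) (g⁻¹ y)).symm }
  have hPc : Subgroup.closure {g : Equiv.Perm Ω | ∀ x y : Ω, f x = f y ↔ f (g x) = f (g y)} = P :=
    le_antisymm ((Subgroup.closure_le _).mpr fun g hg => hg) fun g hg => Subgroup.subset_closure hg
  rw [hPc]
  let e : Ω ≃ Fin b × Fin a := (Equiv.sigmaFiberEquiv f).symm.trans
    ((Equiv.sigmaCongrRight fun i => (Finite.equivFinOfCardEq (hf i))).trans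
      (Equiv.sigmaEquivProd (Fin b) (Fin a)))
  have he : ∀ x, (e x).1 = f x := fun x => rfl
  have hes : ∀ i k, f (e.symm (i, k)) = i := fun i k => by rw [← he, Equiv.apply_symm_apply]
  have hpick : ∀ i (x : Ω), ∃ y, f y = i ∧ y ≠ x := by
    intro i x
    by_cases h : e.symm (i, ⟨0, by omega⟩) = x
    · exact ⟨e.symm (i, ⟨1, by omega⟩), hes _ _, fun h2 => by
        have := e.symm.injective (h2.trans h.symm)
        simp at this⟩
    · exact ⟨_, hes _ _, h⟩
  have hswap : ∀ x y : Ω, f x = f y → Equiv.swap x y ∈ P := by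
    intro x y hxy u v
    have : ∀ w, f (Equiv.swap x y w) = f w := fun w => by
      rw [Equiv.swap_apply_def]
      split_ifs with h1 h2
      · rw [h1, hxy]
      · rw [h2, hxy]
      · rfl
    rw [this, this]
  let lift : Equiv.Perm (Fin b) → Equiv.Perm Ω := fun π =>
    e.trans ((π.prodCongr (Equiv.refl _)).trans e.symm)
  have hlift : ∀ π x, f (lift π x) = π (f x) := fun π x => by
    show f (e.symm (π (e x).1, (e x).2)) = π (f x)
    rw [hes, he]
  have hliftP : ∀ π, lift π ∈ P := fun π x y => by rw [hlift, hlift, π.injective.eq_iff]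
  let i₀ : Fin b := ⟨0, by omega⟩
  let i₁ : Fin b := ⟨1, by omega⟩
  set A := alternatingGroup Ω with hA
  have hne_top : ¬ A ≤ P := by
    intro h
    let x₀ := e.symm (i₀, ⟨0, by omega⟩)
    let y₁ := e.symm (i₁, ⟨0, by omega⟩)
    obtain ⟨z, hz, hzx⟩ := hpick i₀ x₀
    have hy : f y₁ = i₁ := hes _ _
    have hx : f x₀ = i₀ := hes _ _
    have h01 : i₀ ≠ i₁ := fun h' => by simp [i₀, i₁] at h'
    have hzy : z ≠ y₁ := fun hzy => h01 (by rw [← hz, hzy, hy])
    have hxy : x₀ ≠ y₁ := fun hxy => h01 (by rw [← hx, hxy, hy])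
    have hmem : Equiv.swap x₀ y₁ * Equiv.swap x₀ z ∈ P :=
      h (Equiv.Perm.isThreeCycle_swap_mul_swap_same hxy (Ne.symm hzx) (Ne.symm hzy)).mem_alternatingGroup
    have h1 := (hmem x₀ z).mp (by rw [hz, hx])
    rw [Equiv.Perm.mul_apply, Equiv.Perm.mul_apply, Equiv.swap_apply_left, Equiv.swap_apply_right,
      Equiv.swap_apply_of_ne_of_ne hzx hzy, Equiv.swap_apply_left, hz, hy] at h1
    exact h01 h1
  refine ⟨fun h => hne_top ?_, fun G' hG' => ?_⟩
  · intro g hg
    have hm : (⟨g, hg⟩ : A) ∈ (P ⊓ A).subgroupOf A := h ▸ Subgroup.mem_top _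
    exact hm.1
  set G := G'.map A.subtype with hGdef
  have hKG : ∀ g, g ∈ P → g ∈ A → g ∈ G := fun g hgP hgA =>
    ⟨⟨g, hgA⟩, hG'.le ⟨hgP, hgA⟩, rfl⟩
  have hGA : G ≤ A := Subgroup.map_subtype_le _
  have hGP : ¬ G ≤ P := by
    intro h
    exact hG'.not_ge fun g hg => ⟨h ⟨g, hg, rfl⟩, g.2⟩
  suffices hAG : A ≤ G by
    rw [eq_top_iff]
    intro g _
    obtain ⟨g', hg', hgg'⟩ := hAG g.2
    obtain rfl : g' = g := Subtype.ext hgg'
    exact hg'
  have hcard : Nat.card Ω = a * b := by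
    rw [Nat.card_congr e, Nat.card_prod, Nat.card_fin, Nat.card_fin, mul_comm]
  by_cases h22 : a = 2 ∧ b = 2
  · obtain ⟨rfl, rfl⟩ := h22
    -- four points: the stabiliser is transitive and the alternating group has order twelve
    have hfin : ∀ x y : Fin 2 × Fin 2, ∃ g : Equiv.Perm (Fin 2 × Fin 2), Equiv.Perm.sign g = 1 ∧ g x = y ∧
        ∀ u v : Fin 2 × Fin 2, u.1 = v.1 ↔ (g u).1 = (g v).1 := by decide
    have hK : ∀ x y : Ω, ∃ g, g ∈ P ∧ g ∈ A ∧ g x = y := by
      intro x y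
      obtain ⟨g, hgs, hgxy, hgp⟩ := hfin (e x) (e y)
      refine ⟨e.trans (g.trans e.symm), fun u v => ?_, ?_, ?_⟩
      · simp only [← he, Equiv.trans_apply, Equiv.apply_symm_apply]
        exact hgp _ _
      · rw [hA, Equiv.Perm.mem_alternatingGroup]
        have := Equiv.Perm.sign_permCongr e.symm g
        rw [hgs] at this
        rw [← this]
        congr 1
      · simp [hgxy]
    set Kg := (P ⊓ A) with hKg
    haveI : MulAction.IsPretransitive Kg Ω := ⟨fun x y => by
      obtain ⟨g, h1, h2, h3⟩ := hK x y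
      exact ⟨⟨g, h1, h2⟩, h3⟩⟩
    obtain ⟨x₀⟩ : Nonempty Ω := ⟨e.symm (i₀, ⟨0, by omega⟩)⟩
    have h4 : 4 ∣ Nat.card Kg := by
      have := (MulAction.stabilizer Kg x₀).index_dvd_card
      rwa [MulAction.index_stabilizer_of_transitive, hcard] at this
    haveI : Nontrivial Ω := Finite.one_lt_card_iff_nontrivial.1 (by rw [hcard]; norm_num)
    have hA12 : Nat.card A = 12 := by
      have h := two_mul_nat_card_alternatingGroup (α := Ω)
      rw [Nat.card_perm, hcard] at h
      rw [show Nat.factorial (2 * 2) = 24 from rfl] at h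
      rw [hA]; omega
    have hlt : Kg < G := lt_of_le_of_ne (fun g hg => hKG g hg.1 hg.2) fun h => hGP (h ▸ inf_le_left)
    have h1 : Nat.card G ∣ 12 := hA12 ▸ Subgroup.card_dvd_of_le hGA
    have h2 : Nat.card Kg ∣ Nat.card G := Subgroup.card_dvd_of_le hlt.le
    have h3 : Nat.card Kg ≠ Nat.card G := fun h => hlt.ne (Subgroup.eq_of_le_of_card_ge hlt.le h.ge)
    have h5 : Nat.card G = 12 := by
      obtain ⟨k, hk⟩ := h4
      obtain ⟨m, hm⟩ := h2
      have hk0 : 1 ≤ k := by
        rcases Nat.eq_zero_or_pos k with rfl | h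
        · exact absurd hk Nat.card_pos.ne'
        · exact h
      have hm2 : 2 ≤ m := by
        by_contra hlt2
        interval_cases m
        · exact Nat.card_pos.ne' (hm.trans (mul_zero _))
        · exact h3 (hm.trans (mul_one _)).symm
      have hge : 8 ≤ Nat.card G := by rw [hm, hk]; nlinarith
      have hle := Nat.le_of_dvd (by norm_num) h1
      interval_cases h : Nat.card G <;> first | rfl | norm_num at h1
    exact (Subgroup.eq_of_le_of_card_ge hGA (by rw [h5, hA12])).ge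
  -- correcting the parity
  have hspare : ∀ x y : Ω, ∃ u v : Ω, f u = f v ∧ u ≠ v ∧ u ≠ x ∧ u ≠ y ∧ v ≠ x ∧ v ≠ y := by
    intro x y
    by_cases ha3 : 3 ≤ a
    · obtain ⟨i, hi⟩ : ∃ i : Fin b, i ≠ f x := by
        by_contra h
        push Not at h
        exact absurd (congrArg Fin.val ((h i₀).trans (h i₁).symm)) (by simp [i₀, i₁])
      have hx : ∀ k, e.symm (i, k) ≠ x := fun k h => hi (by rw [← h, hes])
      let u0 := e.symm (i, ⟨0, by omega⟩)
      let u1 := e.symm (i, ⟨1, by omega⟩)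
      let u2 := e.symm (i, ⟨2, by omega⟩)
      have h01 : u0 ≠ u1 := fun h => by simpa using e.symm.injective h
      have h02 : u0 ≠ u2 := fun h => by simpa using e.symm.injective h
      have h12 : u1 ≠ u2 := fun h => by simpa using e.symm.injective h
      by_cases h0 : u0 = y
      · exact ⟨u1, u2, by rw [hes, hes], h12, hx _, fun h => h01 (h0.trans h.symm), hx _,
          fun h => h02 (h0.trans h.symm)⟩
      by_cases h1 : u1 = y
      · exact ⟨u0, u2, by rw [hes, hes], h02, hx _, h0, hx _, fun h => h12 (h1.trans h.symm)⟩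
      exact ⟨u0, u1, by rw [hes, hes], h01, hx _, h0, hx _, h1⟩
    · have hb3 : 3 ≤ b := by
        by_contra h
        exact h22 ⟨by omega, by omega⟩
      obtain ⟨i, hi⟩ : ∃ i : Fin b, i ∉ ({f x, f y} : Finset (Fin b)) := by
        by_contra h
        push Not at h
        have := Finset.card_le_card (show (Finset.univ : Finset (Fin b)) ⊆ {f x, f y} from fun j _ => h j)
        rw [Finset.card_univ, Fintype.card_fin] at this
        have := this.trans Finset.card_le_two
        omega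
      rw [Finset.mem_insert, Finset.mem_singleton] at hi
      push Not at hi
      refine ⟨e.symm (i, ⟨0, by omega⟩), e.symm (i, ⟨1, by omega⟩), by rw [hes, hes],
        fun h => by simpa using e.symm.injective h, ?_, ?_, ?_, ?_⟩
      · exact fun h => hi.1 (by rw [← h, hes])
      · exact fun h => hi.2 (by rw [← h, hes])
      · exact fun h => hi.1 (by rw [← h, hes])
      · exact fun h => hi.2 (by rw [← h, hes])
  have hfixpar : ∀ g ∈ P, ∀ x y : Ω, ∃ g' ∈ P, g' ∈ G ∧ g' x = g x ∧ g' y = g y := by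
    intro g hg x y
    rcases Int.units_eq_one_or (Equiv.Perm.sign g) with h | h
    · exact ⟨g, hg, hKG g hg (Equiv.Perm.mem_alternatingGroup.2 h), rfl, rfl⟩
    · obtain ⟨u, v, huv, hne, hux, huy, hvx, hvy⟩ := hspare x y
      refine ⟨g * Equiv.swap u v, P.mul_mem hg (hswap u v huv), hKG _ (P.mul_mem hg (hswap u v huv))
        (Equiv.Perm.mem_alternatingGroup.2 ?_), ?_, ?_⟩
      · rw [map_mul, h, Equiv.Perm.sign_swap hne]; rfl
      · rw [Equiv.Perm.mul_apply, Equiv.swap_apply_of_ne_of_ne hux.symm hvx.symm]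
      · rw [Equiv.Perm.mul_apply, Equiv.swap_apply_of_ne_of_ne huy.symm hvy.symm]
  have htrans : ∀ x y : Ω, ∃ g ∈ P, g ∈ G ∧ g x = y := fun x y => by
    obtain ⟨g', h1, h2, h3, -⟩ := hfixpar
      (Equiv.swap (lift (Equiv.swap (f x) (f y)) x) y * lift (Equiv.swap (f x) (f y)))
      (P.mul_mem (hswap _ _ (by rw [hlift, Equiv.swap_apply_left])) (hliftP _)) x x
    exact ⟨g', h1, h2, h3.trans (Equiv.swap_apply_left _ _)⟩
  have htr : MulAction.IsPretransitive G Ω := ⟨fun x y => by
    obtain ⟨g, -, hg, hgxy⟩ := htrans x y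
    exact ⟨⟨g, hg⟩, hgxy⟩⟩
  have hprim : MulAction.IsPreprimitive G Ω := by
    refine ⟨fun {B} hB => ?_⟩
    unfold MulAction.IsTrivialBlock
    by_contra hnt
    push_neg at hnt
    obtain ⟨hns, hnu⟩ := hnt
    have hfix : ∀ g ∈ G, ∀ x ∈ B, g x ∈ B → ∀ w ∈ B, g w ∈ B := by
      intro g hg x hx hgx w hw
      have h1 : (⟨g, hg⟩ : G) • B = B :=
        (MulAction.isBlock_iff_smul_eq_of_nonempty.mp hB) ⟨g x, ⟨x, hx, rfl⟩, hgx⟩
      rw [← h1]
      exact ⟨w, hw, rfl⟩
    have hfib : ∀ x ∈ B, ∀ y ∈ B, x ≠ y → ∀ z, f z = f y → z ≠ x → z ∈ B := by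
      intro x hx y hy hxy z hz hzx
      obtain ⟨g', -, hg', gx, gy⟩ := hfixpar _ (hswap y z hz.symm) x y
      rw [Equiv.swap_apply_of_ne_of_ne hxy (Ne.symm hzx)] at gx
      rw [Equiv.swap_apply_left] at gy
      have := hfix g' hg' x hx (by rw [gx]; exact hx) y hy
      rwa [gy] at this
    have hone : ∀ x ∈ B, ∀ z, f z = f x → z ∈ B := by
      intro x hx z hz
      by_cases hzx : z = x
      · exact hzx ▸ hx
      obtain ⟨y, hy, hyx⟩ := hns.exists_ne x
      by_cases hzy : z = y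
      · exact hzy ▸ hy
      exact hfib y hy x hx hyx z hz hzy
    have hsame : ∀ x ∈ B, ∀ y ∈ B, f x = f y := by
      intro x hx y hy
      by_contra hxy
      refine hnu (Set.eq_univ_iff_forall.mpr fun w => ?_)
      by_cases hwx : f w = f x
      · exact hone x hx w hwx
      obtain ⟨g', -, hg', gx, gy⟩ := hfixpar _ (hliftP (Equiv.swap (f y) (f w))) x y
      have hgx : f (g' x) = f x := by
        rw [gx, hlift, Equiv.swap_apply_of_ne_of_ne hxy (Ne.symm hwx)]
      have := hfix g' hg' x hx (hone x hx _ hgx) y hy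
      exact hone _ this w (by rw [gy, hlift, Equiv.swap_apply_left])
    obtain ⟨x₁, hx₁⟩ := hns.nonempty
    apply hGP
    have key : ∀ g ∈ G, ∀ u v : Ω, f u = f v → f (g u) = f (g v) := by
      intro g hg u v huv
      obtain ⟨k, hk, hkG, hku⟩ := htrans x₁ u
      have hv : k⁻¹ v ∈ B := hone x₁ hx₁ _ (by
        have := (hk x₁ (k⁻¹ v)).mpr (by rw [hku]; simpa using huv)
        exact this.symm)
      obtain ⟨l, hl, hlG, hlu⟩ := htrans (g u) x₁
      have hgmem : l * g * k ∈ G := G.mul_mem (G.mul_mem hlG hg) hkG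
      have hB1 : (⟨l * g * k, hgmem⟩ : G) • B = B :=
        (MulAction.isBlock_iff_smul_eq_of_nonempty.mp hB)
          ⟨x₁, ⟨x₁, hx₁, by show l (g (k x₁)) = x₁; rw [hku, hlu]⟩, hx₁⟩
      have hv' : l (g v) ∈ B := by
        rw [← hB1]
        exact ⟨k⁻¹ v, hv, by show l (g (k (k⁻¹ v))) = l (g v); simp⟩
      exact (hl (g u) (g v)).mpr (by rw [hlu]; exact hsame _ hx₁ _ hv')
    intro g hg u v
    refine ⟨key g hg u v, fun h => ?_⟩
    have := key g⁻¹ (G.inv_mem hg) _ _ h
    simpa using this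
  suffices h3c : ∃ t ∈ G, Equiv.Perm.IsThreeCycle t by
    obtain ⟨t, ht, ht3⟩ := h3c
    exact Equiv.Perm.alternatingGroup_le_of_isPreprimitive_of_isThreeCycle_mem hprim ht3 ht
  by_cases ha3 : 3 ≤ a
  · let u0 := e.symm (i₀, ⟨0, by omega⟩)
    let u1 := e.symm (i₀, ⟨1, by omega⟩)
    let u2 := e.symm (i₀, ⟨2, by omega⟩)
    have ht3 : Equiv.Perm.IsThreeCycle (Equiv.swap u0 u1 * Equiv.swap u0 u2) :=
      Equiv.Perm.isThreeCycle_swap_mul_swap_same (fun h => by simpa using e.symm.injective h)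
        (fun h => by simpa using e.symm.injective h) (fun h => by simpa using e.symm.injective h)
    exact ⟨_, hKG _ (P.mul_mem (hswap _ _ (by rw [hes, hes])) (hswap _ _ (by rw [hes, hes])))
      ht3.mem_alternatingGroup, ht3⟩
  -- blocks of size two
  have ha2 : a = 2 := by omega
  subst ha2
  have hb3 : 3 ≤ b := by
    by_contra h
    exact h22 ⟨rfl, by omega⟩
  have hb4 : b ≠ 4 := fun h => h8 (by rw [← Nat.card_eq_fintype_card, hcard, h])
  have huniq : ∀ {x y z : Ω}, f y = f x → y ≠ x → f z = f x → z ≠ x → y = z := by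
    intro x y z hy hyx hz hzx
    have hsep : ∀ w, f w = f x → w ≠ x → (e w).2 ≠ (e x).2 := fun w hw hwx h =>
      hwx (e.injective (Prod.ext (by rw [he, he, hw]) h))
    refine e.injective (Prod.ext (by rw [he, he, hy, hz]) ?_)
    have h1 := hsep y hy hyx
    have h2 := hsep z hz hzx
    revert h1 h2
    generalize (e y).2 = p; generalize (e z).2 = q; generalize (e x).2 = r
    revert p q r; decide
  have hK2 : ∀ u v u' v' : Ω, f u = f v → u ≠ v → f u' = f v' → u' ≠ v' →
      Equiv.swap u v * Equiv.swap u' v' ∈ G := fun u v u' v' h1 h2 h3 h4 =>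
    hKG _ (P.mul_mem (hswap _ _ h1) (hswap _ _ h3)) (Equiv.Perm.mem_alternatingGroup.2 (by
      rw [map_mul, Equiv.Perm.sign_swap h2, Equiv.Perm.sign_swap h4]; rfl))
  obtain ⟨g, hg, p, q, hpq, hgpq⟩ : ∃ g ∈ G, ∃ p q : Ω, f p = f q ∧ f (g p) ≠ f (g q) := by
    by_contra h
    push Not at h
    refine hGP fun g hg x y => ⟨h g hg x y, fun hxy => ?_⟩
    have := h g⁻¹ (G.inv_mem hg) _ _ hxy
    simpa using this
  have hpq' : p ≠ q := fun h => hgpq (by rw [h])
  set v1 := g p with hv1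
  set v2 := g q with hv2
  obtain ⟨v0, hv0, hv01⟩ := hpick (f v1) v1
  have hv02 : v0 ≠ v2 := fun h => hgpq (by rw [← hv0, h])
  have hv12 : v1 ≠ v2 := fun h => hgpq (by rw [h])
  obtain ⟨i, hi⟩ : ∃ i : Fin b, i ∉ ({f p, f (g⁻¹ v0)} : Finset (Fin b)) := by
    by_contra h
    push Not at h
    have := Finset.card_le_card (show (Finset.univ : Finset (Fin b)) ⊆ {f p, f (g⁻¹ v0)} from fun j _ => h j)
    rw [Finset.card_univ, Fintype.card_fin] at this
    have := this.trans Finset.card_le_two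
    omega
  rw [Finset.mem_insert, Finset.mem_singleton] at hi
  push Not at hi
  set r := e.symm (i, (0 : Fin 2)) with hr
  set r' := e.symm (i, (1 : Fin 2)) with hr'
  have hrr : r ≠ r' := fun h => by simpa using e.symm.injective h
  have hfr : f r = i := hes _ _
  have hfr' : f r' = i := hes _ _
  have hne_gr : ∀ z, f z = i → g z ≠ v0 ∧ g z ≠ v1 ∧ g z ≠ v2 := by
    intro z hz
    refine ⟨fun h => hi.2 ?_, fun h => hi.1 ?_, fun h => hi.1 ?_⟩
    · rw [← h, ← hz]; simp
    · rw [← hz, g.injective h]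
    · rw [← hz, g.injective h, hpq]
  obtain ⟨hu0, hu1, hu2⟩ := hne_gr r hfr
  obtain ⟨hw0, hw1, hw2⟩ := hne_gr r' hfr'
  have ht' : Equiv.swap v1 v2 * Equiv.swap (g r) (g r') ∈ G := by
    have h := G.mul_mem (G.mul_mem hg (hK2 p q r r' hpq hpq' (hfr.trans hfr'.symm) hrr)) (G.inv_mem hg)
    have heq : g * (Equiv.swap p q * Equiv.swap r r') * g⁻¹ =
        Equiv.swap v1 v2 * Equiv.swap (g r) (g r') := by
      rw [hv1, hv2, Equiv.swap_apply_apply g p q, Equiv.swap_apply_apply g r r']; group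
    rwa [heq] at h
  set u := g r with hu
  set w := g r' with hw
  have huw : u ≠ w := fun h => hrr (g.injective h)
  have h3cyc : Equiv.Perm.IsThreeCycle (Equiv.swap v1 v0 * Equiv.swap v1 v2) :=
    Equiv.Perm.isThreeCycle_swap_mul_swap_same (Ne.symm hv01) hv12 hv02
  by_cases hB : f u = f w
  · refine ⟨Equiv.swap v1 v0 * Equiv.swap v1 v2, ?_, h3cyc⟩
    have h := G.mul_mem (hK2 v1 v0 u w hv0.symm hv01.symm hB huw) ht'
    have hd : Commute (Equiv.swap u w) (Equiv.swap v1 v2) :=
      (Equiv.Perm.disjoint_swap_swap (by simp [huw, hu1, hu2, hw1, hw2, hv12])).commute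
    have heq : Equiv.swap v1 v0 * Equiv.swap u w * (Equiv.swap v1 v2 * Equiv.swap u w) =
        Equiv.swap v1 v0 * Equiv.swap v1 v2 := by
      calc Equiv.swap v1 v0 * Equiv.swap u w * (Equiv.swap v1 v2 * Equiv.swap u w)
          = Equiv.swap v1 v0 * (Equiv.swap u w * Equiv.swap v1 v2) * Equiv.swap u w := by group
        _ = Equiv.swap v1 v0 * (Equiv.swap v1 v2 * Equiv.swap u w) * Equiv.swap u w := by rw [hd.eq]
        _ = _ := by rw [mul_assoc, mul_assoc (Equiv.swap v1 v2), Equiv.swap_mul_self, mul_one]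
    rwa [heq] at h
  by_cases hex : ∃ j : Fin b, j ≠ f v1 ∧ j ≠ f v2 ∧ j ≠ f u ∧ j ≠ f w
  · obtain ⟨j, hj1, hj2, hju, hjw⟩ := hex
    set c := e.symm (j, (0 : Fin 2)) with hcdef
    set d := e.symm (j, (1 : Fin 2)) with hddef
    have hfc : f c = j := hes _ _
    have hfd : f d = j := hes _ _
    have hcd : c ≠ d := fun h => by simpa using e.symm.injective h
    have hne : ∀ z, f z = j → z ≠ v1 ∧ z ≠ v0 ∧ z ≠ v2 ∧ z ≠ u ∧ z ≠ w := fun z hz =>
      ⟨fun h => hj1 (by rw [← hz, h]), fun h => hj1 (by rw [← hz, h, hv0]), fun h => hj2 (by rw [← hz, h]),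
        fun h => hju (by rw [← hz, h]), fun h => hjw (by rw [← hz, h])⟩
    obtain ⟨c1, c0, c2, cu, cw⟩ := hne c hfc
    obtain ⟨d1, d0, d2, du, dw⟩ := hne d hfd
    refine ⟨(Equiv.swap v1 v0 * Equiv.swap v1 v2) * (Equiv.swap v1 v0 * Equiv.swap v1 v2), ?_,
      h3cyc.isThreeCycle_sq⟩
    have h := G.mul_mem (hK2 v1 v0 c d hv0.symm hv01.symm (hfc.trans hfd.symm) hcd) ht'
    have h' := G.mul_mem h h
    have hc12 : Commute (Equiv.swap c d) (Equiv.swap v1 v2) :=
      (Equiv.Perm.disjoint_swap_swap (by simp [hcd, c1, c2, d1, d2, hv12])).commute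
    have hc10 : Commute (Equiv.swap c d) (Equiv.swap v1 v0) :=
      (Equiv.Perm.disjoint_swap_swap (by simp [hcd, c1, c0, d1, d0, Ne.symm hv01])).commute
    have hu12 : Commute (Equiv.swap u w) (Equiv.swap v1 v2) :=
      (Equiv.Perm.disjoint_swap_swap (by simp [huw, hu1, hu2, hw1, hw2, hv12])).commute
    have hu10 : Commute (Equiv.swap u w) (Equiv.swap v1 v0) :=
      (Equiv.Perm.disjoint_swap_swap (by simp [huw, hu1, hu0, hw1, hw0, Ne.symm hv01])).commute
    have hcu : Commute (Equiv.swap c d) (Equiv.swap u w) :=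
      (Equiv.Perm.disjoint_swap_swap (by simp [hcd, cu, cw, du, dw, huw])).commute
    set X := Equiv.swap v1 v0 * Equiv.swap v1 v2
    set Y := Equiv.swap c d * Equiv.swap u w
    have hXY : Commute Y X := ((hc10.mul_right hc12).mul_left (hu10.mul_right hu12))
    have hYY : Y * Y = 1 := by
      show Equiv.swap c d * Equiv.swap u w * (Equiv.swap c d * Equiv.swap u w) = 1
      calc Equiv.swap c d * Equiv.swap u w * (Equiv.swap c d * Equiv.swap u w)
          = Equiv.swap c d * (Equiv.swap u w * Equiv.swap c d) * Equiv.swap u w := by group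
        _ = Equiv.swap c d * (Equiv.swap c d * Equiv.swap u w) * Equiv.swap u w := by rw [hcu.eq]
        _ = 1 := by rw [← mul_assoc, Equiv.swap_mul_self, one_mul, Equiv.swap_mul_self]
    have heq : Equiv.swap v1 v0 * Equiv.swap c d * (Equiv.swap v1 v2 * Equiv.swap u w) = X * Y := by
      calc Equiv.swap v1 v0 * Equiv.swap c d * (Equiv.swap v1 v2 * Equiv.swap u w)
          = Equiv.swap v1 v0 * (Equiv.swap c d * Equiv.swap v1 v2) * Equiv.swap u w := by group
        _ = Equiv.swap v1 v0 * (Equiv.swap v1 v2 * Equiv.swap c d) * Equiv.swap u w := by rw [hc12.eq]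
        _ = X * Y := by simp only [X, Y, mul_assoc]
    rw [heq] at h'
    have heq2 : X * Y * (X * Y) = X * X := by
      calc X * Y * (X * Y) = X * (Y * X) * Y := by group
        _ = X * (X * Y) * Y := by rw [hXY.eq]
        _ = X * X * (Y * Y) := by group
        _ = X * X := by rw [hYY, mul_one]
    rwa [heq2] at h'
  -- three blocks in a hexagon
  push Not at hex
  have hb : b = 3 := by
    have h := Finset.card_le_card (show (Finset.univ : Finset (Fin b)) ⊆ {f v1, f v2, f u, f w} from fun j _ => by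
      simp only [Finset.mem_insert, Finset.mem_singleton]
      by_contra hh
      push Not at hh
      exact hh.2.2.2 (hex j hh.1 hh.2.1 hh.2.2.1))
    rw [Finset.card_univ, Fintype.card_fin] at h
    have := h.trans Finset.card_le_four
    omega
  subst hb
  have hfu1 : f u ≠ f v1 := fun h => hu0 (huniq h hu1 hv0 hv01)
  have hfw1 : f w ≠ f v1 := fun h => hw0 (huniq h hw1 hv0 hv01)
  obtain ⟨v3, w', hv3, hw'3, ht''⟩ : ∃ v3 w' : Ω, f v3 = f v2 ∧ (f w' ≠ f v1 ∧ f w' ≠ f v2) ∧
      v3 ≠ v2 ∧ Equiv.swap v1 v2 * Equiv.swap v3 w' ∈ G := by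
    have htwo : f u = f v2 ∨ f w = f v2 := by
      revert hB hfu1 hfw1 hgpq
      generalize f u = a'; generalize f w = b'; generalize f v1 = c'; generalize f v2 = d'
      revert a' b' c' d'; decide
    rcases htwo with h | h
    · exact ⟨u, w, h, ⟨hfw1, fun h' => hB (h.trans h'.symm)⟩, hu2, ht'⟩
    · exact ⟨w, u, h, ⟨hfu1, fun h' => hB (h'.trans h.symm)⟩, hw2, by rw [Equiv.swap_comm w u]; exact ht'⟩
  obtain ⟨hv32, ht''⟩ := ht''
  have d30 : v3 ≠ v0 := fun h => hgpq (by rw [← hv0, ← h, hv3])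
  have d31 : v3 ≠ v1 := fun h => hgpq (by rw [← h, hv3])
  have d40 : w' ≠ v0 := fun h => hw'3.1 (by rw [h, hv0])
  have d41 : w' ≠ v1 := fun h => hw'3.1 (by rw [h])
  have d42 : w' ≠ v2 := fun h => hw'3.2 (by rw [h])
  have d43 : w' ≠ v3 := fun h => hw'3.2 (by rw [h, hv3])
  have hsP : Equiv.swap v0 v2 * Equiv.swap v1 v3 ∈ P := by
    have hval : ∀ z, f ((Equiv.swap v0 v2 * Equiv.swap v1 v3) z) = Equiv.swap (f v1) (f v2) (f z) := by
      intro z
      by_cases h0 : z = v0
      · subst h0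
        rw [Equiv.Perm.mul_apply, Equiv.swap_apply_of_ne_of_ne hv01 d30.symm, Equiv.swap_apply_left, hv0,
          Equiv.swap_apply_left]
      by_cases h1 : z = v1
      · subst h1
        rw [Equiv.Perm.mul_apply, Equiv.swap_apply_left, Equiv.swap_apply_of_ne_of_ne d30 hv32,
          hv3, Equiv.swap_apply_left]
      by_cases h2 : z = v2
      · subst h2
        rw [Equiv.Perm.mul_apply, Equiv.swap_apply_of_ne_of_ne hv12.symm hv32.symm, Equiv.swap_apply_right,
          hv0, Equiv.swap_apply_right]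
      by_cases h3 : z = v3
      · subst h3
        rw [Equiv.Perm.mul_apply, Equiv.swap_apply_right, Equiv.swap_apply_of_ne_of_ne hv01.symm hv12,
          hv3, Equiv.swap_apply_right]
      rw [Equiv.Perm.mul_apply, Equiv.swap_apply_of_ne_of_ne h1 h3, Equiv.swap_apply_of_ne_of_ne h0 h2,
        Equiv.swap_apply_of_ne_of_ne]
      · exact fun h => h0 (huniq h h1 hv0 hv01)
      · exact fun h => h3 (huniq h h2 hv3 hv32)
    intro x y
    rw [hval, hval]
    exact (Equiv.swap (f v1) (f v2)).injective.eq_iff.symm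
  have hsA : Equiv.swap v0 v2 * Equiv.swap v1 v3 ∈ A := Equiv.Perm.mem_alternatingGroup.2 (by
    rw [map_mul, Equiv.Perm.sign_swap hv02, Equiv.Perm.sign_swap d31.symm]; rfl)
  refine ⟨(Equiv.swap v0 v1 * Equiv.swap v2 v3) * (Equiv.swap v1 v2 * Equiv.swap v3 w') *
    (Equiv.swap v0 v2 * Equiv.swap v1 v3), G.mul_mem (G.mul_mem (hK2 v0 v1 v2 v3 hv0 hv01 hv3.symm hv32.symm) ht'')
      (hKG _ hsP hsA), ?_⟩
  have heq : (Equiv.swap v0 v1 * Equiv.swap v2 v3) * (Equiv.swap v1 v2 * Equiv.swap v3 w') *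
      (Equiv.swap v0 v2 * Equiv.swap v1 v3) = Equiv.swap v1 v2 * Equiv.swap v1 w' := by
    exact hexagon_word hv01 hv02 d30.symm d40.symm hv12 d31.symm d41.symm hv32.symm d42.symm d43.symm
  rw [heq]
  exact Equiv.Perm.isThreeCycle_swap_mul_swap_same hv12 d41.symm d42.symm

end Cfsg.Agent.S5909
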