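import Cfsg.Statements.S5910
import Mathlib

set_option autoImplicit false
open Cfsg

namespace Cfsg.Agent.S5910

/-- Let Ω be a set with 8 elements and f : Ω → Fin 4 a labelling whose four fibres all have size 2 (a partition of the 8 points into 4 pairs). Then the group of even permutations preserving this partition, (S₂ ≀ S₄) ∩ A₈, is not a maximal subgroup of the alternating group A₈ (it lies in a subgroup isomorphic to the affine group AGL₃(2)). -/
theorem result {Ω : Type*} [Fintype Ω] [DecidableEq Ω] (h8 : Fintype.card Ω = 8)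
    (f : Ω → Fin 4) (hf : ∀ i : Fin 4, Nat.card {x : Ω // f x = i} = 2) :
    ¬ IsCoatom ((Subgroup.closure {g : Equiv.Perm Ω | ∀ x y : Ω, f x = f y ↔ f (g x) = f (g y)} ⊓ alternatingGroup Ω).subgroupOf (alternatingGroup Ω)) := by
  classical
  have hfib : ∀ i, Fintype.card {x : Ω // f x = i} = Fintype.card Bool := fun i => by
    rw [← Nat.card_eq_fintype_card, hf, Fintype.card_bool]
  let e : Ω ≃ Fin 4 × Bool := (Equiv.sigmaFiberEquiv f).symm.trans
    ((Equiv.sigmaCongrRight fun i => Fintype.equivOfCardEq (hfib i)).trans (Equiv.sigmaEquivProd _ _))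
  have hef : ∀ x, (e x).1 = f x := fun x => rfl
  let t : Fin 4 × Bool → Fin 4 × Bool → Fin 4 × Bool → Fin 4 × Bool := fun a b c =>
    (a.1 ^^^ b.1 ^^^ c.1, xor (xor a.2 b.2) c.2)
  let Aff : Equiv.Perm (Fin 4 × Bool) → Prop := fun g => ∀ a b c, g (t a b c) = t (g a) (g b) (g c)
  let K₀ : Subgroup (Equiv.Perm (Fin 4 × Bool)) :=
    { carrier := {g | Aff g}
      mul_mem' := fun {g h} hg hh a b c => by
        simp only [Equiv.Perm.mul_apply]; rw [hh a b c, hg]
      one_mem' := fun a b c => rfl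
      inv_mem' := fun {g} hg a b c => g.injective (by
        rw [hg]; simp) }
  let K := (K₀.comap e.permCongrHom.toMonoidHom ⊓ alternatingGroup Ω).subgroupOf (alternatingGroup Ω)
  have hset : ∀ g ∈ Subgroup.closure {g : Equiv.Perm Ω | ∀ x y : Ω, f x = f y ↔ f (g x) = f (g y)},
      ∀ x y : Ω, f x = f y ↔ f (g x) = f (g y) := by
    intro g hg
    induction hg using Subgroup.closure_induction with
    | mem x hx => exact hx
    | one => simp
    | mul a b _ _ ha hb => intro x y; rw [Equiv.Perm.mul_apply, Equiv.Perm.mul_apply]; exact (hb x y).trans (ha _ _)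
    | inv a _ ha => intro x y; simpa using (ha (a⁻¹ x) (a⁻¹ y)).symm
  let lift : Equiv.Perm (Fin 4) → Equiv.Perm (Fin 4 × Bool) := fun σ => Equiv.prodCongrLeft fun _ => σ
  let flip : (Fin 4 → Bool) → Equiv.Perm (Fin 4 × Bool) := fun ε =>
    Equiv.prodCongrRight fun i => if ε i then Equiv.swap false true else 1
  have hlift : ∀ σ, Aff (lift σ) := by
    intro σ a b c
    have h : ∀ σ : Equiv.Perm (Fin 4), ∀ a b c : Fin 4, σ (a ^^^ b ^^^ c) = σ a ^^^ σ b ^^^ σ c := by decide
    exact Prod.ext (h σ _ _ _) rfl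
  have hflipsign : ∀ ε, Equiv.Perm.sign (flip ε) = ∏ i, if ε i then -1 else 1 := by
    intro ε
    rw [Equiv.Perm.sign_prodCongrRight]
    refine Finset.prod_congr rfl fun i _ => ?_
    split_ifs <;> simp
  have hflip : ∀ ε : Fin 4 → Bool, (∏ i, if ε i then (-1 : ℤˣ) else 1) = 1 → Aff (flip ε) := by
    intro ε h a b c
    have key : ∀ ε : Fin 4 → Bool, (xor (xor (ε 0) (ε 1)) (xor (ε 2) (ε 3))) = false →
        ∀ a b c : Fin 4, ε (a ^^^ b ^^^ c) = xor (xor (ε a) (ε b)) (ε c) := by decide
    have hpar : (xor (xor (ε 0) (ε 1)) (xor (ε 2) (ε 3))) = false := by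
      rw [Fin.prod_univ_four] at h
      revert h
      cases ε 0 <;> cases ε 1 <;> cases ε 2 <;> cases ε 3 <;> decide
    have hfl : ∀ z : Fin 4 × Bool, flip ε z = (z.1, xor z.2 (ε z.1)) := by
      rintro ⟨i, b⟩
      show (i, (if ε i then Equiv.swap false true else 1 : Equiv.Perm Bool) b) = _
      cases ε i <;> cases b <;> rfl
    rw [hfl, hfl, hfl, hfl]
    refine Prod.ext rfl ?_
    show xor (xor (xor a.2 b.2) c.2) (ε (a.1 ^^^ b.1 ^^^ c.1)) = _
    rw [key ε hpar]
    simp only [t]
    generalize ε a.1 = p, ε b.1 = q, ε c.1 = r, a.2 = u, b.2 = v, c.2 = w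
    revert p q r u v w; decide
  have hle : ((Subgroup.closure {g : Equiv.Perm Ω | ∀ x y : Ω, f x = f y ↔ f (g x) = f (g y)} ⊓
      alternatingGroup Ω).subgroupOf (alternatingGroup Ω)) ≤ K := by
    intro g hg
    obtain ⟨hg1, hg2⟩ := Subgroup.mem_inf.mp (Subgroup.mem_subgroupOf.mp hg)
    refine Subgroup.mem_subgroupOf.mpr ⟨?_, hg2⟩
    set γ := e.permCongr (g : Equiv.Perm Ω) with hγ
    show Aff γ
    have hp : ∀ u v : Fin 4 × Bool, u.1 = v.1 ↔ (γ u).1 = (γ v).1 := by
      intro u v
      have := hset _ hg1 (e.symm u) (e.symm v)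
      rw [← hef, ← hef, ← hef, ← hef, e.apply_symm_apply, e.apply_symm_apply] at this
      exact this
    let σ : Equiv.Perm (Fin 4) := Equiv.ofBijective (fun i => (γ (i, false)).1)
      ⟨fun i j h => (hp (i, false) (j, false)).mpr h, by
        refine Finite.injective_iff_surjective.mp fun i j h => (hp (i, false) (j, false)).mpr h⟩
    let ε : Fin 4 → Bool := fun i => (γ (σ.symm i, false)).2
    have hγeq : γ = flip ε * lift σ := by
      ext1 z
      obtain ⟨i, b⟩ := z
      show γ (i, b) = (σ i, (if ε (σ i) then Equiv.swap false true else 1 : Equiv.Perm Bool) b)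
      have h1 : (γ (i, b)).1 = σ i := ((hp (i, b) (i, false)).mp rfl)
      have h2 : ε (σ i) = (γ (i, false)).2 := by simp [ε]
      refine Prod.ext h1 ?_
      rw [h2]
      cases b
      · cases (γ (i, false)).2 <;> rfl
      · have hne : (γ (i, true)).2 ≠ (γ (i, false)).2 := fun h => by
          simpa using γ.injective (Prod.ext (h1 : (γ (i, true)).1 = (γ (i, false)).1) h)
        cases hb : (γ (i, false)).2 <;> cases hb' : (γ (i, true)).2 <;> simp_all
    have hsg : Equiv.Perm.sign γ = 1 := by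
      rw [hγ, Equiv.Perm.sign_permCongr]
      exact Equiv.Perm.mem_alternatingGroup.mp hg2
    rw [hγeq, map_mul, show Equiv.Perm.sign (lift σ) = 1 by
      rw [Equiv.Perm.sign_prodCongrLeft]; simp, mul_one, hflipsign] at hsg
    rw [hγeq]
    exact K₀.mul_mem (hflip ε hsg) (hlift σ)
  intro hco
  have hlt : _ < K := lt_of_le_of_ne hle ?_
  · have hK := hco.2 K hlt
    let c₀ : Equiv.Perm (Fin 4 × Bool) := Equiv.swap (0, false) (1, false) * Equiv.swap (1, false) (2, false)
    let c : Equiv.Perm Ω := e.symm.permCongr c₀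
    have hc : c ∈ alternatingGroup Ω := by
      rw [Equiv.Perm.mem_alternatingGroup, Equiv.Perm.sign_permCongr]; decide
    have hcK : (⟨c, hc⟩ : alternatingGroup Ω) ∈ K := by rw [hK]; trivial
    have h1 : Aff (e.permCongr c) := (Subgroup.mem_inf.mp (Subgroup.mem_subgroupOf.mp hcK)).1
    have h2 : e.permCongr c = c₀ := by ext1 z; simp [c, Equiv.permCongr_apply]
    rw [h2] at h1
    have h3 := h1 (1, true) (0, false) (0, true)
    revert h3; decide
  · intro heq
    let τ₀ : Equiv.Perm (Fin 4 × Bool) := Equiv.prodCongrLeft fun b =>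
      if b then Equiv.swap (0 : Fin 4) 1 * Equiv.swap 2 3 else 1
    let τ : Equiv.Perm Ω := e.symm.permCongr τ₀
    have h2 : e.permCongr τ = τ₀ := by ext1 z; simp [τ, Equiv.permCongr_apply]
    have hτ : τ ∈ alternatingGroup Ω := by
      rw [Equiv.Perm.mem_alternatingGroup, Equiv.Perm.sign_permCongr]
      rw [Equiv.Perm.sign_prodCongrLeft]; decide
    have hτK : (⟨τ, hτ⟩ : alternatingGroup Ω) ∈ K := by
      refine Subgroup.mem_subgroupOf.mpr ⟨?_, hτ⟩
      show Aff (e.permCongr τ)
      rw [h2]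
      decide
    rw [← heq] at hτK
    have := hset _ (Subgroup.mem_inf.mp (Subgroup.mem_subgroupOf.mp hτK)).1 (e.symm (0, false)) (e.symm (0, true))
    rw [← hef, ← hef, ← hef, ← hef, e.apply_symm_apply, e.apply_symm_apply] at this
    have h3 := this.mp rfl
    have hz : ∀ z, e (τ (e.symm z)) = τ₀ z := fun z => by rw [← h2]; rfl
    rw [hz, hz] at h3
    revert h3; decide

end Cfsg.Agent.S5910
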