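import Cfsg.Statements.S5911
import Cfsg.Agent.H29.SymIndex

set_option autoImplicit false
open Cfsg

namespace Cfsg.Agent.S5911

/-- Let Ω be a finite set whose size n is not 6. Then every subgroup of the symmetric group on Ω of index n is the stabilizer of a point. -/
theorem result {Ω : Type*} [Fintype Ω] [DecidableEq Ω] (h6 : Fintype.card Ω ≠ 6)
    (H : Subgroup (Equiv.Perm Ω)) (hH : H.index = Fintype.card Ω) :
    ∃ x : Ω, H = MulAction.stabilizer (Equiv.Perm Ω) x := by
  classical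
  by_cases h5 : 5 ≤ Fintype.card Ω
  · exact CfsgLib.H29.SymIndex.eq_stabilizer_of_ne_six h5 h6 H hH
  have h0 : Fintype.card Ω ≠ 0 := hH ▸ Subgroup.index_ne_zero_of_finite
  have hcard : Nat.card H * Fintype.card Ω = (Fintype.card Ω).factorial := by
    rw [← hH, Subgroup.card_mul_index, Nat.card_perm, Nat.card_eq_fintype_card, hH]
  by_cases h2 : Fintype.card Ω ≤ 2
  · obtain ⟨x⟩ := Fintype.card_pos_iff.mp (Nat.pos_of_ne_zero h0)
    refine ⟨x, CfsgLib.H29.SymIndex.eq_stabilizer_of_le hH fun g hg => ?_⟩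
    have hH1 : Nat.card H = 1 := by
      have hcard' : Nat.card H * Fintype.card Ω = Fintype.card Ω := by
        rw [hcard]
        rcases (by omega : Fintype.card Ω = 1 ∨ Fintype.card Ω = 2) with h | h <;> rw [h] <;> rfl
      exact (Nat.mul_eq_right h0).mp hcard'
    rw [Subgroup.eq_bot_of_card_eq H hH1, Subgroup.mem_bot] at hg
    subst hg
    exact Subgroup.one_mem _
  obtain ⟨p, hp, hpn, hdiv, hnorm⟩ : ∃ p, p.Prime ∧ Fintype.card Ω = p + 1 ∧ p ∣ Nat.card H ∧
      Nat.card H ≤ 2 * p := by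
    rcases (by omega : Fintype.card Ω = 3 ∨ Fintype.card Ω = 4) with h | h
    · rw [h, show (3 : ℕ).factorial = 6 from rfl] at hcard
      exact ⟨2, Nat.prime_two, h, by omega, by omega⟩
    · rw [h, show (4 : ℕ).factorial = 24 from rfl] at hcard
      exact ⟨3, Nat.prime_three, h, by omega, by omega⟩
  have : Fact p.Prime := ⟨hp⟩
  obtain ⟨σ, hσ⟩ := exists_prime_orderOf_dvd_card' p hdiv
  have hσ' : orderOf (σ : Equiv.Perm Ω) = p := by rw [Subgroup.orderOf_coe, hσ]
  obtain ⟨k, hk⟩ := Equiv.Perm.cycleType_prime_order (σ := (σ : Equiv.Perm Ω)) (by rw [hσ']; exact hp)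
  rw [hσ'] at hk
  have hle : (k + 1) * p ≤ p + 1 := by
    have := Finset.card_le_univ (σ : Equiv.Perm Ω).support
    rwa [← Equiv.Perm.sum_cycleType, hk, Multiset.sum_replicate, smul_eq_mul, hpn] at this
  have hk0 : k = 0 := by
    by_contra hne
    have h1 := Nat.mul_le_mul_right p (show 2 ≤ k + 1 by omega)
    have := hp.two_le
    omega
  have hsupp : (σ : Equiv.Perm Ω).support.card = p := by
    rw [← Equiv.Perm.sum_cycleType, hk, hk0]
    simp
  obtain ⟨x, hx⟩ := Finset.card_eq_one.mp (show (σ : Equiv.Perm Ω).supportᶜ.card = 1 by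
    rw [Finset.card_compl, hsupp, hpn]; omega)
  refine ⟨x, CfsgLib.H29.SymIndex.eq_stabilizer_of_le hH fun g hg => ?_⟩
  have hfix : ∀ y, (σ : Equiv.Perm Ω) y = y ↔ y = x := fun y => by
    rw [← Equiv.Perm.notMem_support, ← Finset.mem_compl, hx, Finset.mem_singleton]
  have hindex : (Subgroup.zpowers σ).index ≤ 2 := by
    have := (Subgroup.zpowers σ).card_mul_index
    rw [Nat.card_zpowers, hσ] at this
    by_contra hc
    have := Nat.mul_le_mul_left p (show 3 ≤ (Subgroup.zpowers σ).index by omega)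
    have := hp.two_le
    omega
  have hN : (Subgroup.zpowers σ).Normal := by
    rcases (by omega : (Subgroup.zpowers σ).index = 0 ∨ (Subgroup.zpowers σ).index = 1 ∨
      (Subgroup.zpowers σ).index = 2) with h | h | h
    · exact absurd h Subgroup.index_ne_zero_of_finite
    · exact Subgroup.normal_of_index_eq_one h
    · exact Subgroup.normal_of_index_eq_two h
  obtain ⟨i, hi⟩ := hN.conj_mem σ (Subgroup.mem_zpowers σ) (⟨g, hg⟩ : H)⁻¹
  have hi' : (σ : Equiv.Perm Ω) ^ i = g⁻¹ * (σ : Equiv.Perm Ω) * g := by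
    have h3 := congrArg Subtype.val hi
    simpa only [Subgroup.coe_zpow, Subgroup.coe_mul, Subgroup.coe_inv, inv_inv] using h3
  have h1 : ((σ : Equiv.Perm Ω) ^ i) x = x :=
    Equiv.Perm.zpow_apply_eq_self_of_apply_eq_self ((hfix x).mpr rfl) i
  rw [hi'] at h1
  simp only [Equiv.Perm.coe_mul, Function.comp_apply, Equiv.Perm.inv_eq_iff_eq] at h1
  show g • x = x
  exact (hfix (g x)).mp h1

end Cfsg.Agent.S5911
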