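import Cfsg.Statements.S5912
import Cfsg.Agent.H29.S6Totals

set_option autoImplicit false
open Cfsg

namespace Cfsg.Agent.S5912

/-- The symmetric group on a 6-element set Ω has exactly two conjugacy classes of subgroups of index 6: there are two non-conjugate subgroups of index 6 (a point stabilizer and a transitive subgroup isomorphic to S₅), and every subgroup of index 6 is conjugate to one of them. -/
theorem result {Ω : Type*} [Fintype Ω] [DecidableEq Ω] (h6 : Fintype.card Ω = 6) :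
    ∃ H₁ H₂ : Subgroup (Equiv.Perm Ω), H₁.index = 6 ∧ H₂.index = 6 ∧
      (¬ ∃ g : Equiv.Perm Ω, Subgroup.map (MulAut.conj g).toMonoidHom H₁ = H₂) ∧
      ∀ H : Subgroup (Equiv.Perm Ω), H.index = 6 →
        ∃ g : Equiv.Perm Ω, Subgroup.map (MulAut.conj g).toMonoidHom H₁ = H ∨ Subgroup.map (MulAut.conj g).toMonoidHom H₂ = H := by
  classical
  obtain ⟨θ, hθ, hcls⟩ := CfsgLib.H29.S6.exists_outer h6
  obtain ⟨x₀⟩ : Nonempty Ω := Fintype.card_pos_iff.mp (by omega)
  have hidx : ∀ x : Ω, (MulAction.stabilizer (Equiv.Perm Ω) x).index = 6 := fun x => by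
    rw [CfsgLib.H29.SymIndex.index_stabilizer_point, h6]
  have hconj : ∀ (g : Equiv.Perm Ω) (x : Ω),
      (MulAction.stabilizer (Equiv.Perm Ω) x).map (MulAut.conj g).toMonoidHom =
        MulAction.stabilizer (Equiv.Perm Ω) (g x) := fun g x =>
    (MulAction.stabilizer_smul_eq_stabilizer_map_conj g x).symm
  refine ⟨MulAction.stabilizer (Equiv.Perm Ω) x₀,
    (MulAction.stabilizer (Equiv.Perm Ω) x₀).comap θ.toMonoidHom, hidx x₀,
    by rw [Subgroup.index_comap_of_surjective _ θ.surjective, hidx], ?_, fun H hH => ?_⟩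
  · rintro ⟨g, hg⟩
    exact hθ x₀ (g x₀) (by rw [← hg, hconj])
  · rcases hcls H hH with ⟨x, rfl⟩ | ⟨x, rfl⟩
    · exact ⟨Equiv.swap x₀ x, Or.inl (by rw [hconj, Equiv.swap_apply_left])⟩
    · refine ⟨θ.symm (Equiv.swap x₀ x), Or.inr ?_⟩
      conv_rhs => rw [show x = Equiv.swap x₀ x x₀ from (Equiv.swap_apply_left _ _).symm, ← hconj]
      ext s
      simp only [Subgroup.mem_comap, Subgroup.mem_map]
      constructor
      · rintro ⟨t, ht, rfl⟩
        exact ⟨θ t, ht, by simp [MulAut.conj_apply]⟩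
      · rintro ⟨t, ht, hts⟩
        exact ⟨θ.symm t, by simpa using ht, θ.injective (by simpa [MulAut.conj_apply] using hts)⟩

end Cfsg.Agent.S5912
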