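import Cfsg.Statements.S5913
-- no helpers

set_option autoImplicit false
open Cfsg

namespace Cfsg.Agent.S5913

/-- Let S be a non-abelian simple group and n a natural number. Every normal subgroup N of the direct power S^n (functions Fin n → S) is a subproduct: there is a set T of coordinates such that N consists exactly of the elements whose coordinates outside T are trivial. In particular the minimal normal subgroups of S^n are its n factors. -/
theorem result {S : Type*} [Group S] [IsSimpleGroup S] (hS : ¬ IsMulCommutative S) (n : ℕ)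
    (N : Subgroup (Fin n → S)) [N.Normal] :
    ∃ T : Finset (Fin n), ∀ x : Fin n → S, x ∈ N ↔ ∀ i, i ∉ T → x i = 1 := by
  classical
  have hcen : Subgroup.center S = ⊥ :=
    (IsSimpleGroup.eq_bot_or_eq_top_of_normal _ inferInstance).resolve_right fun h =>
      hS ⟨⟨fun a b => (Subgroup.mem_center_iff.mp (h ▸ Subgroup.mem_top b) a)⟩⟩
  let T : Finset (Fin n) := Finset.univ.filter fun i => ∃ x ∈ N, x i ≠ 1
  refine ⟨T, fun x => ⟨fun hx i hi => ?_, fun hx => ?_⟩⟩
  · by_contra h
    exact hi (Finset.mem_filter.mpr ⟨Finset.mem_univ _, x, hx, h⟩)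
  · refine Subgroup.pi_mem_of_mulSingle_mem x fun i => ?_
    by_cases hi : i ∈ T
    · obtain ⟨-, y, hy, hyi⟩ := Finset.mem_filter.mp hi
      let K : Subgroup S := N.comap (MonoidHom.mulSingle (fun _ : Fin n => S) i)
      have hKn : K.Normal := Subgroup.Normal.comap inferInstance _
      have hKtop : K = ⊤ := by
        refine (IsSimpleGroup.eq_bot_or_eq_top_of_normal K hKn).resolve_left fun hK => ?_
        have hyc : y i ∈ Subgroup.center S := Subgroup.mem_center_iff.mpr fun s => by
          have hm : y i * s * (y i)⁻¹ * s⁻¹ ∈ K := by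
            have h2 : y * ((Pi.mulSingle i s : Fin n → S) * y⁻¹ * (Pi.mulSingle i s : Fin n → S)⁻¹) ∈ N :=
              N.mul_mem hy (Subgroup.Normal.conj_mem inferInstance _ (N.inv_mem hy) _)
            show (Pi.mulSingle i (y i * s * (y i)⁻¹ * s⁻¹) : Fin n → S) ∈ N
            convert h2 using 1
            funext j
            by_cases hj : j = i
            · subst hj; simp [mul_assoc]
            · simp [hj]
          rw [hK, Subgroup.mem_bot, mul_inv_eq_one, mul_inv_eq_iff_eq_mul] at hm
          exact hm.symm
        rw [hcen, Subgroup.mem_bot] at hyc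
        exact hyi hyc
      exact (hKtop ▸ Subgroup.mem_top (x i) : x i ∈ K)
    · rw [hx i hi, Pi.mulSingle_one]
      exact N.one_mem

end Cfsg.Agent.S5913
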