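import Cfsg.Statements.S5914
import Mathlib
import Cfsg.Agent.MinNormal.Factors
-- import your own Cfsg.Agent.* helpers here

set_option autoImplicit false
open Cfsg

namespace Cfsg.Agent.S5914

/-- A non-trivial finite group G is characteristically simple (its only characteristic subgroups are 1 and G) if and only if G is isomorphic to a direct power S^n (n ≥ 1) of some simple group S (possibly cyclic of prime order). -/
theorem result {G : Type*} [Group G] [Finite G] [Nontrivial G] :
    (∀ H : Subgroup G, H.Characteristic → H = ⊥ ∨ H = ⊤) ↔
    ∃ (S : Type) (_ : Group S) (_ : IsSimpleGroup S) (n : ℕ), 1 ≤ n ∧ Nonempty (G ≃* (Fin n → S)) := by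
  classical
  constructor
  · intro h
    let H := SemidirectProduct G (MulAut G) (MonoidHom.id (MulAut G))
    haveI : Finite H := Finite.of_equiv _ SemidirectProduct.equivProd.symm
    let N : Subgroup H := (SemidirectProduct.inl : G →* H).range
    haveI hNn : N.Normal := by
      show (SemidirectProduct.inl : G →* H).range.Normal
      rw [SemidirectProduct.range_inl_eq_ker_rightHom]
      exact MonoidHom.normal_ker _
    have hN : N ≠ ⊥ := fun hb => by
      obtain ⟨x, hx⟩ := exists_ne (1 : G)
      have hm : (SemidirectProduct.inl x : H) ∈ N := ⟨x, rfl⟩
      rw [hb, Subgroup.mem_bot] at hm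
      exact hx (SemidirectProduct.inl_injective (hm.trans (map_one _).symm))
    have hmin : ∀ M : Subgroup H, M.Normal → M ≤ N → M = ⊥ ∨ M = N := by
      intro M hM hle
      have hchar : (M.comap (SemidirectProduct.inl : G →* H)).Characteristic :=
        Subgroup.characteristic_iff_le_comap.2 fun φ g hg => by
          show (SemidirectProduct.inl (φ g) : H) ∈ M
          have := hM.conj_mem _ hg (SemidirectProduct.inr φ)
          have e := (SemidirectProduct.inl_aut (φ := MonoidHom.id (MulAut G)) φ g).symm
          rw [← map_inv] at this
          exact e ▸ this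
      have hback : (M.comap (SemidirectProduct.inl : G →* H)).map (SemidirectProduct.inl : G →* H) = M :=
        Subgroup.map_comap_eq_self hle
      rcases h _ hchar with h1 | h1
      · left; rw [← hback, h1, Subgroup.map_bot]
      · right; rw [← hback, h1, ← MonoidHom.range_eq_map]
    obtain ⟨S, hS, m, hsimp, hm, ⟨e⟩⟩ := CfsgLib.MinNormal.exists_mulEquiv_pi N hN hmin
    exact ⟨S, hS, hsimp, m, hm, ⟨(MonoidHom.ofInjective SemidirectProduct.inl_injective).trans e⟩⟩
  · rintro ⟨S, hS, hsimp, n, hn, ⟨e⟩⟩ H hH
    by_cases hbot : H = ⊥
    · exact Or.inl hbot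
    right
    haveI := hH
    let K : Subgroup (Fin n → S) := H.map e.toMonoidHom
    have hKn : K.Normal := Subgroup.Normal.map inferInstance _ e.surjective
    have haut : ∀ (φ : (Fin n → S) ≃* (Fin n → S)) x, x ∈ K → φ x ∈ K := by
      rintro φ _ ⟨x, hx, rfl⟩
      refine ⟨((e.trans φ).trans e.symm) x, ?_, ?_⟩
      · exact Subgroup.characteristic_iff_le_comap.1 hH ((e.trans φ).trans e.symm) hx
      · simp
    obtain ⟨h0, hh0, hh1⟩ : ∃ h ∈ H, h ≠ 1 := by
      by_contra hc
      push Not at hc
      exact hbot (le_bot_iff.1 fun x hx => Subgroup.mem_bot.2 (hc x hx))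
    let x : Fin n → S := e h0
    have hxK : x ∈ K := ⟨h0, hh0, rfl⟩
    obtain ⟨i, hi⟩ : ∃ i, x i ≠ 1 := by
      by_contra hc
      push Not at hc
      exact hh1 (e.injective (by rw [map_one]; exact funext hc))
    let σ : Fin n → S →* (Fin n → S) := MonoidHom.mulSingle (fun _ => S)
    have hone : ∀ j, (∃ s, s ≠ 1 ∧ σ j s ∈ K) → ∀ s, σ j s ∈ K := by
      rintro j ⟨s, hs, hsK⟩
      have hN : (K.comap (σ j)).Normal := hKn.comap (σ j)
      rcases hN.eq_bot_or_eq_top with h1 | h1
      · have : s ∈ K.comap (σ j) := hsK
        rw [h1, Subgroup.mem_bot] at this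
        exact absurd this hs
      · intro t
        show t ∈ K.comap (σ j)
        rw [h1]; trivial
    have key : ∀ j, ∀ s, σ j s ∈ K := by
      have hex : ∃ j, ∀ s, σ j s ∈ K := by
        by_cases hc : ∀ y, y * x i = x i * y
        · -- x i is central, so S is commutative
          have hcomm : ∀ a b : S, a * b = b * a := by
            rcases (inferInstance : (Subgroup.center S).Normal).eq_bot_or_eq_top with h1 | h1
            · have : x i ∈ Subgroup.center S := Subgroup.mem_center_iff.2 hc
              rw [h1, Subgroup.mem_bot] at this
              exact absurd this hi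
            · intro a b
              have : b ∈ Subgroup.center S := by rw [h1]; trivial
              exact Subgroup.mem_center_iff.1 this a
          by_cases hj : ∃ j, j ≠ i
          · obtain ⟨j, hj⟩ := hj
            let φ : (Fin n → S) ≃* (Fin n → S) :=
              { toFun := fun f => Function.update f j (f j * f i)
                invFun := fun f => Function.update f j (f j * (f i)⁻¹)
                left_inv := fun f => funext fun k => by
                  by_cases hk : k = j
                  · subst hk
                    simp [Function.update_of_ne hj.symm, mul_assoc]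
                  · simp [Function.update_of_ne hk]
                right_inv := fun f => funext fun k => by
                  by_cases hk : k = j
                  · subst hk
                    simp [Function.update_of_ne hj.symm, mul_assoc]
                  · simp [Function.update_of_ne hk]
                map_mul' := fun f g => funext fun k => by
                  by_cases hk : k = j
                  · subst hk
                    simp only [Function.update_self, Pi.mul_apply]
                    rw [mul_assoc, mul_assoc, ← mul_assoc (g k), hcomm (g k) (f i), mul_assoc]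
                  · simp [Function.update_of_ne hk] }
            refine ⟨j, hone j ⟨x i, hi, ?_⟩⟩
            have h2 : x⁻¹ * φ x ∈ K := K.mul_mem (K.inv_mem hxK) (haut φ x hxK)
            have h3 : x⁻¹ * φ x = σ j (x i) := funext fun k => by
              by_cases hk : k = j
              · subst hk
                simp [φ, σ]
              · simp [φ, σ, Function.update_of_ne hk, Pi.mulSingle_eq_of_ne hk]
            rwa [h3] at h2
          · push Not at hj
            refine ⟨i, hone i ⟨x i, hi, ?_⟩⟩
            rw [show σ i (x i) = x from funext fun k => by rw [hj k]; simp [σ]]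
            exact hxK
        · push Not at hc
          obtain ⟨y, hy⟩ := hc
          refine ⟨i, hone i ⟨x i * y * (x i)⁻¹ * y⁻¹, fun h => hy ?_, ?_⟩⟩
          · rw [mul_inv_eq_one, mul_inv_eq_iff_eq_mul] at h
            exact h.symm
          · have h2 : x * (σ i y * x⁻¹ * (σ i y)⁻¹) ∈ K :=
              K.mul_mem hxK (hKn.conj_mem _ (K.inv_mem hxK) _)
            have h3 : σ i (x i * y * (x i)⁻¹ * y⁻¹) = x * (σ i y * x⁻¹ * (σ i y)⁻¹) := funext fun k => by
              by_cases hk : k = i
              · subst hk
                simp [σ, mul_assoc]
              · simp [σ, Pi.mulSingle_eq_of_ne hk]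
            rw [h3]; exact h2
      obtain ⟨j₀, hj₀⟩ := hex
      intro j s
      let φ : (Fin n → S) ≃* (Fin n → S) :=
        { toEquiv := Equiv.arrowCongr (Equiv.swap j₀ j) (Equiv.refl S)
          map_mul' := fun _ _ => rfl }
      have h2 := haut φ _ (hj₀ s)
      have h3 : φ (σ j₀ s) = σ j s := funext fun k => by
        show (Pi.mulSingle j₀ s : Fin n → S) ((Equiv.swap j₀ j).symm k) = (Pi.mulSingle j s : Fin n → S) k
        simp only [Equiv.symm_swap, Pi.mulSingle_apply]
        by_cases hk : k = j
        · subst hk; simp
        · rw [if_neg hk, if_neg]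
          intro h
          exact hk ((Equiv.swap j₀ j).injective (h.trans (Equiv.swap_apply_right j₀ j).symm))
      rwa [h3] at h2
    have htop : K = ⊤ := eq_top_iff.2 fun f _ =>
      Subgroup.pi_mem_of_mulSingle_mem f fun j => key j (f j)
    exact Subgroup.map_injective (f := e.toMonoidHom) e.injective
      (htop.trans (Subgroup.map_top_of_surjective e.toMonoidHom e.surjective).symm)

end Cfsg.Agent.S5914
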