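import Cfsg.Statements.S5946
-- no helpers

set_option autoImplicit false
open Cfsg

namespace Cfsg.Agent.S5946

/-- Let F ⊆ K be finite fields with [K : F] = n ≥ 2 and regard K as an n-dimensional F-vector space. The Singer group M ≤ GL_F(K) of multiplications by the non-zero elements of K is self-centralizing: every F-linear automorphism of K commuting with all of M lies in M. -/
theorem result {F K : Type*} [Field F] [Fintype F] [Field K] [Fintype K] [Algebra F K] (n : ℕ) (hn : 2 ≤ n) (hdim : Module.finrank F K = n) :
    Subgroup.centralizer (((Units.map ((Algebra.lmul F K : K →ₐ[F] Module.End F K) : K →* Module.End F K)).range : Subgroup (Module.End F K)ˣ) : Set (Module.End F K)ˣ) = (Units.map ((Algebra.lmul F K : K →ₐ[F] Module.End F K) : K →* Module.End F K)).range := by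
  refine le_antisymm (fun g hg => ?_) ?_
  · have hcomm : ∀ (a : Kˣ) (x : K), (g : Module.End F K) ((a : K) * x) = (a : K) * (g : Module.End F K) x := by
      intro a x
      have h := congrArg Units.val (hg _ ⟨a, rfl⟩)
      exact (LinearMap.congr_fun h x).symm
    have hg1 : (g : Module.End F K) 1 ≠ 0 := fun h => by
      have h2 := congrArg ((g⁻¹ : (Module.End F K)ˣ) : Module.End F K) h
      have h3 : ((g⁻¹ : (Module.End F K)ˣ) : Module.End F K) ((g : Module.End F K) 1) = 1 :=
        LinearMap.congr_fun g.inv_mul 1
      rw [h3, map_zero] at h2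
      exact one_ne_zero h2
    refine ⟨Units.mk0 _ hg1, Units.ext (LinearMap.ext fun x => ?_)⟩
    show (g : Module.End F K) 1 * x = (g : Module.End F K) x
    by_cases hx : x = 0
    · simp [hx]
    · have := hcomm (Units.mk0 x hx) 1
      simp only [Units.val_mk0, mul_one] at this
      rw [this, mul_comm]
  · rintro _ ⟨a, rfl⟩ _ ⟨b, rfl⟩
    rw [← map_mul, ← map_mul, mul_comm]

end Cfsg.Agent.S5946
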