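import Cfsg.Statements.S5947
import Cfsg.Agent.H29.AbelianBound

set_option autoImplicit false
open Cfsg

namespace Cfsg.Agent.S5947

/-- Let F ⊆ K be finite fields with |F| = q and [K : F] = n ≥ 2, regard K as an n-dimensional F-vector space, and let M ≤ GL_F(K) be the Singer group of multiplications by non-zero elements of K (cyclic of order q^n − 1). Assume (n, q) ≠ (6, 2), and that it is not the case that n = 2 with q a prime such that q + 1 is a power of 2. Then every abelian subgroup of GL_F(K) of order q^n − 1 is conjugate to M. -/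
theorem result {F K : Type*} [Field F] [Fintype F] [Field K] [Fintype K] [Algebra F K] (n : ℕ) (hn : 2 ≤ n) (hdim : Module.finrank F K = n)
    (hex1 : ¬ (n = 6 ∧ Fintype.card F = 2))
    (hex2 : ¬ (n = 2 ∧ (Fintype.card F).Prime ∧ ∃ a : ℕ, Fintype.card F + 1 = 2 ^ a))
    (U : Subgroup (Module.End F K)ˣ) (hU : IsMulCommutative U) (hcard : Nat.card U = Fintype.card K - 1) :
    ∃ g : (Module.End F K)ˣ, U.map (MulAut.conj g).toMonoidHom = (Units.map ((Algebra.lmul F K : K →ₐ[F] Module.End F K) : K →* Module.End F K)).range := by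
  classical
  have hFK : FiniteDimensional F K := Module.finite_of_finrank_pos (by omega)
  have hK1 : 1 ≤ Fintype.card K := Fintype.card_pos
  have : Finite (Module.End F K) := Finite.of_injective _ DFunLike.coe_injective
  have : Finite U := inferInstance
  have hU0 : (Nat.card U : F) ≠ 0 := by
    rw [hcard, Nat.cast_sub hK1, Module.card_eq_pow_finrank (K := F), Nat.cast_pow,
      FiniteField.cast_card_eq_zero, zero_pow (by omega)]
    simp
  have hc : ∀ a ∈ U, ∀ b ∈ U, a * b = b * a := fun a ha b hb =>
    congrArg Subtype.val (hU.is_comm.comm ⟨a, ha⟩ ⟨b, hb⟩)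
  obtain ⟨-, hred⟩ := CfsgLib.H29.card_abelian_bound U hc hU0
  have hirr : ∀ W : Submodule F K, (∀ u ∈ U, ∀ x ∈ W, (u : Module.End F K) x ∈ W) →
      W = ⊥ ∨ W = ⊤ := by
    intro W hW
    by_contra hne
    push_neg at hne
    have := hred W hne.1 hne.2 hW
    rw [hcard, Nat.card_eq_fintype_card] at this
    omega
  -- the commuting algebra
  let C : Subalgebra F (Module.End F K) :=
    Subalgebra.centralizer F ((fun u : (Module.End F K)ˣ => (u : Module.End F K)) '' (U : Set _))
  have hCmem : ∀ c : Module.End F K, c ∈ C ↔ ∀ u ∈ U, (u : Module.End F K) * c = c * u := by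
    intro c
    simp [C, Subalgebra.mem_centralizer_iff]
  -- an element of C is determined by its value at 1
  have hdet : ∀ c ∈ C, c 1 = 0 → c = 0 := by
    intro c hc h1
    rcases hirr (LinearMap.ker c) (fun u hu x hx => by
      rw [LinearMap.mem_ker] at hx ⊢
      have := LinearMap.congr_fun ((hCmem c).mp hc u hu) x
      simp only [Module.End.mul_apply, hx, map_zero] at this
      exact this.symm) with h | h
    · have : (1 : K) ∈ LinearMap.ker c := h1
      rw [h, Submodule.mem_bot] at this
      exact absurd this one_ne_zero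
    · exact LinearMap.ker_eq_top.mp h
  have hUC : ∀ u ∈ U, (u : Module.End F K) ∈ C := fun u hu => (hCmem _).mpr fun w hw => by
    rw [← Units.val_mul, ← Units.val_mul, hc w hw u hu]
  let ev : C →ₗ[F] K :=
    { toFun := fun c => (c : Module.End F K) 1
      map_add' := fun _ _ => rfl
      map_smul' := fun _ _ => rfl }
  have hev : Function.Injective ev := by
    intro a b hab
    refine Subtype.ext (sub_eq_zero.mp (hdet _ (sub_mem a.2 b.2) ?_))
    have hab' : (a : Module.End F K) 1 = (b : Module.End F K) 1 := hab
    simp [hab']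
  let f : Option U → C := fun o => o.elim 0 fun u => ⟨(u.1 : Module.End F K), hUC u.1 u.2⟩
  have hf : Function.Injective f := by
    rintro (_ | a) (_ | b) hab
    · rfl
    · exact absurd (congrArg Subtype.val hab).symm b.1.ne_zero
    · exact absurd (congrArg Subtype.val hab) a.1.ne_zero
    · exact congrArg some (Subtype.ext (Units.ext (congrArg Subtype.val hab)))
  have hcardo : Nat.card (Option U) = Nat.card K := by
    rw [Finite.card_option, hcard, Nat.card_eq_fintype_card]
    omega
  have : Finite C := Finite.of_injective _ hev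
  have hcardC : Nat.card C = Nat.card K :=
    le_antisymm (Nat.card_le_card_of_injective _ hev)
      (hcardo ▸ Nat.card_le_card_of_injective _ hf)
  have hfsurj : Function.Surjective f :=
    ((Nat.bijective_iff_injective_and_card f).mpr ⟨hf, hcardo.trans hcardC.symm⟩).2
  have hevbij : Function.Bijective ev := (Nat.bijective_iff_injective_and_card ev).mpr ⟨hev, hcardC⟩
  have hCcomm : ∀ x y : C, x * y = y * x := by
    intro x y
    obtain ⟨_ | a, rfl⟩ := hfsurj x
    · simp [f]
    obtain ⟨_ | b, rfl⟩ := hfsurj y
    · simp [f]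
    exact Subtype.ext (congrArg Units.val (hc a.1 a.2 b.1 b.2))
  have hCinv : ∀ x : C, x ≠ 0 → ∃ y, x * y = 1 := by
    intro x hx
    obtain ⟨_ | a, rfl⟩ := hfsurj x
    · exact absurd rfl hx
    · exact ⟨f (some a⁻¹), Subtype.ext a.1.mul_inv⟩
  have hCfield : IsField C := ⟨⟨0, 1, zero_ne_one⟩, hCcomm, fun hx => hCinv _ hx⟩
  letI : Field C := hCfield.toField
  let e := LinearEquiv.ofBijective ev hevbij
  obtain ⟨ψ⟩ := FiniteField.nonempty_algHom_of_finrank_dvd (F := F) (K := C) (L := K)
    (dvd_of_eq e.finrank_eq)
  have hψbij : Function.Bijective ψ :=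
    (Nat.bijective_iff_injective_and_card ψ).mpr ⟨ψ.toRingHom.injective, hcardC⟩
  let g₀ : K ≃ₗ[F] K := e.symm.trans (LinearEquiv.ofBijective ψ.toLinearMap hψbij)
  let g : (Module.End F K)ˣ :=
    ⟨g₀.toLinearMap, g₀.symm.toLinearMap, LinearMap.ext fun x => g₀.apply_symm_apply x,
      LinearMap.ext fun x => g₀.symm_apply_apply x⟩
  refine ⟨g, Subgroup.eq_of_le_of_card_ge ?_ ?_⟩
  · rintro _ ⟨u, hu, rfl⟩
    let c : C := f (some ⟨u, hu⟩)
    have hψ0 : ψ c ≠ 0 := fun h => by
      have hc0 : c = 0 := ψ.toRingHom.injective (h.trans (map_zero ψ).symm)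
      exact u.ne_zero (congrArg Subtype.val hc0)
    refine ⟨Units.mk0 _ hψ0, Units.ext (LinearMap.ext fun x => ?_)⟩
    show ψ c * x = g₀ ((u : Module.End F K) (g₀.symm x))
    have key : ∀ y : K, g₀ ((u : Module.End F K) y) = ψ c * g₀ y := by
      intro y
      have : e.symm ((u : Module.End F K) y) = c * e.symm y := by
        rw [LinearEquiv.symm_apply_eq]
        show (u : Module.End F K) y = (u : Module.End F K) (((e.symm y : C) : Module.End F K) 1)
        exact congrArg _ (e.apply_symm_apply y).symm
      show ψ (e.symm ((u : Module.End F K) y)) = ψ c * ψ (e.symm y)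
      rw [this, map_mul]
    rw [key, LinearEquiv.apply_symm_apply]
  · rw [Subgroup.card_map_of_injective (MulAut.conj g).injective, hcard,
      MonoidHom.range_eq_map, Subgroup.card_map_of_injective, Subgroup.card_top, Nat.card_units,
      Nat.card_eq_fintype_card]
    intro a b hab
    refine Units.ext ?_
    have := LinearMap.congr_fun (congrArg Units.val hab) 1
    simpa using this

end Cfsg.Agent.S5947
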